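import Cfsg.Agent.H5_LB1
import Mathlib.FieldTheory.Fixed

set_option autoImplicit false

/-! Local balance for semilinear families. -/

namespace Cfsg.Agent.H5.LB

open Matrix Cfsg.Agent.H16 Cfsg.Agent.H16.Gam Cfsg.Agent.H16.AutG Cfsg.Agent.H16.AutL Cfsg.Agent.H16.Desc

section Gal

variable {F : Type*} [Field F] [Finite F]

theorem gal_comm (σ τ : F ≃+* F) : σ * τ = τ * σ := by
  have h : IsCyclic (F ≃+* F) := inferInstance
  obtain ⟨g, hg⟩ := h.exists_generator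
  obtain ⟨a, rfl⟩ := hg σ
  obtain ⟨b, rfl⟩ := hg τ
  change g ^ a * g ^ b = g ^ b * g ^ a
  rw [← _root_.zpow_add, ← _root_.zpow_add, add_comm]

/-- the Galois correspondence for cyclic groups. -/
theorem mem_zpowers_of_fix {σ τ : F ≃+* F} (h : ∀ a, σ a = a → τ a = a) : τ ∈ Subgroup.zpowers σ := by
  have hG : Finite (Subgroup.zpowers σ) := inferInstance
  let f : F ≃ₐ[FixedPoints.subfield (Subgroup.zpowers σ) F] F := AlgEquiv.ofRingEquiv (f := τ) (fun x => by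
    apply h
    exact x.2 ⟨σ, Subgroup.mem_zpowers σ⟩)
  obtain ⟨g, hg⟩ := FixedPoints.toAlgAut_surjective (Subgroup.zpowers σ) F f
  have h1 : (g : F ≃+* F) = τ := by
    ext a
    exact congrArg (fun f : F ≃ₐ[FixedPoints.subfield (Subgroup.zpowers σ) F] F => f a) hg
  rw [← h1]
  exact g.2

variable {K : Type*} [Field K] [Finite K] {σ : F ≃+* F} {e : K →+* F} (he : ∀ a, σ a = a ↔ a ∈ Set.range e)

include he in
/-- restriction to the fixed field. -/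
theorem exists_restrict (τ : F ≃+* F) : ∃ τ₀ : K ≃+* K, ∀ a, e (τ₀ a) = τ (e a) := by
  have h1 : ∀ a : K, ∃ b, e b = τ (e a) := by
    intro a
    apply (he _).mp
    have h2 : σ (τ (e a)) = τ (σ (e a)) := by
      have := gal_comm σ τ
      exact congrArg (fun ρ : F ≃+* F => ρ (e a)) this
    rw [h2, (he (e a)).mpr ⟨a, rfl⟩]
  choose f hf using h1
  let φ : K →+* K :=
    { toFun := f
      map_one' := e.injective (by rw [hf, map_one, map_one])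
      map_mul' := fun x y => e.injective (by rw [hf, map_mul, map_mul, map_mul, hf, hf])
      map_zero' := e.injective (by rw [hf, map_zero, map_zero])
      map_add' := fun x y => e.injective (by rw [hf, map_add, map_add, map_add, hf, hf]) }
  exact ⟨RingEquiv.ofBijective φ ⟨φ.injective, Finite.surjective_of_injective φ.injective⟩, hf⟩

end Gal

section FamR

variable {S S₀ : Type*} [Group S] [Group S₀] {ι : Type} [Fintype ι] [DecidableEq ι] {F K : Type*} [Field F] [Finite F]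
  [Field K] [Finite K]

/-- a rational form of a semilinear family. -/
structure Rat (Φ : Fam S ι F) (Φ₀ : Fam S₀ ι K) (σ : F ≃+* F) (e : K →+* F) where
  ne : Nonempty ι
  hf : Φ.HasField
  hf₀ : Φ₀.HasField
  he : ∀ a, σ a = a ↔ a ∈ Set.range e
  J : S₀ →* S
  hJ : ∀ s, Φ.ρ (J s) = Matrix.GeneralLinearGroup.map e (Φ₀.ρ s)
  hN : ∀ g, g ∈ Φ₀.N ↔ Matrix.GeneralLinearGroup.map e g ∈ Φ.N

theorem map_gσ {σ : F ≃+* F} {e : K →+* F} {τ₀ : K ≃+* K} (h : ∀ a, e (τ₀ a) = σ (e a)) (g : GL ι K) :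
    Matrix.GeneralLinearGroup.map e (gσ τ₀ g) = gσ σ (Matrix.GeneralLinearGroup.map e g) := by
  apply Units.ext
  ext i j
  exact h _

theorem map_scl (e : K →+* F) (c : Kˣ) : Matrix.GeneralLinearGroup.map e (scl ι c) = scl ι (Units.map (e : K →* F) c) := by
  apply Units.ext
  ext i j
  change e ((Matrix.scalar ι (c : K)) i j) = (Matrix.scalar ι (e (c : K))) i j
  rw [Matrix.scalar_apply, Matrix.scalar_apply, Matrix.diagonal_apply, Matrix.diagonal_apply]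
  split_ifs <;> simp

omit [Finite F] in
theorem act_pair (g : GL ι F) (τ : F ≃+* F) (x : GL ι F) :
    act (SemidirectProduct.inl g * SemidirectProduct.inr τ) x = g * gσ τ x * g⁻¹ := by
  rw [map_mul, MulAut.mul_apply, act_apply, act_apply, SemidirectProduct.left_inl, SemidirectProduct.right_inl,
    SemidirectProduct.left_inr, SemidirectProduct.right_inr, gσ_one, one_mul, inv_one, mul_one]

omit [Finite F] in
theorem act_scl (t : Fˣ) (g : GL ι F) (τ : F ≃+* F) (x : GL ι F) :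
    act (SemidirectProduct.inl (scl ι t * g) * SemidirectProduct.inr τ) x = g * gσ τ x * g⁻¹ := by
  rw [act_pair, sc_comm t g]
  have h1 : g * scl ι t * gσ τ x * (g * scl ι t)⁻¹ = g * (scl ι t * gσ τ x * (scl ι t)⁻¹) * g⁻¹ := by group
  rw [h1, sc_comm t (gσ τ x), mul_inv_cancel_right]

namespace Rat

variable {Φ : Fam S ι F} {Φ₀ : Fam S₀ ι K} {σ : F ≃+* F} {e : K →+* F} (ℛ : Rat Φ Φ₀ σ e)

/-- the rational subgroup. -/
noncomputable def j : S₀ →* MulAut (S ⧸ Subgroup.center S) := MulAut.conj.comp ((QuotientGroup.mk' _).comp ℛ.J)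

theorem j_eq (s : S₀) : ℛ.j s = Φ.T (Φ.inc (ℛ.J s)) := (Φ.T_inc _).symm

theorem j_apply (s : S₀) : ℛ.j s = MulAut.conj (QuotientGroup.mk (ℛ.J s) : S ⧸ Subgroup.center S) := rfl

theorem j_mem_inn (s : S₀) : ℛ.j s ∈ Cfsg.Inn (S ⧸ Subgroup.center S) := ⟨_, rfl⟩

theorem j_comm (s : S₀) : ℛ.j s ∈ Subgroup.centralizer {Φ.T (Fam.fin ℛ.hf σ)} := by
  have h1 : ℛ.j s = Φ.T (Φ.nin ⟨Φ.ρ (ℛ.J s), Φ.inn _⟩) := ℛ.j_eq s
  rw [h1]
  refine (Φ.comm_iff ℛ.hf).mpr ⟨1, ?_⟩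
  rw [map_one, one_mul]
  change gσ σ (Φ.ρ (ℛ.J s)) = Φ.ρ (ℛ.J s)
  rw [ℛ.hJ]
  exact map_fixed ℛ.he _

/-- linear elements commuting with the field automorphism. -/
theorem lin_comm {g : Φ.N} (hg : Φ.T (Φ.nin g) ∈ Subgroup.centralizer {Φ.T (Fam.fin ℛ.hf σ)}) :
    ∃ (t : Fˣ) (g₁ : Φ₀.N), (g : GL ι F) = scl ι t * Matrix.GeneralLinearGroup.map e (g₁ : GL ι K) := by
  have hne := ℛ.ne
  obtain ⟨c, hc⟩ := (Φ.comm_iff ℛ.hf).mp hg
  obtain ⟨t, g₀, hg, hg₀⟩ := exists_fixed_of_sc rfl (orderOf_pos _) hc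
  obtain ⟨G, hG⟩ := exists_desc ℛ.he hg₀
  have hg0N : g₀ ∈ Φ.N := by
    have : g₀ = scl ι t⁻¹ * (g : GL ι F) := by
      rw [hg, ← mul_assoc, ← _root_.map_mul, inv_mul_cancel, _root_.map_one, one_mul]
    rw [this]
    exact mul_mem (Φ.sc _) g.2
  exact ⟨t, ⟨G, (ℛ.hN _).mpr (by rw [hG]; exact hg0N)⟩, by rw [hG]; exact hg⟩

/-- semilinear elements commuting with the field automorphism. -/
theorem semi_comm {η : Φ.Γ} (hη : Φ.T η ∈ Subgroup.centralizer {Φ.T (Fam.fin ℛ.hf σ)}) :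
    ∃ (t : Fˣ) (g₁ : Φ₀.N), (η : Gm ι F) =
      SemidirectProduct.inl (scl ι t * Matrix.GeneralLinearGroup.map e (g₁ : GL ι K)) * SemidirectProduct.inr (η : Gm ι F).right := by
  obtain ⟨g, hg⟩ := Fam.eq_nin_fin ℛ.hf η
  have h1 : Φ.T (Fam.fin ℛ.hf (η : Gm ι F).right) ∈ Subgroup.centralizer {Φ.T (Fam.fin ℛ.hf σ)} := by
    rw [Subgroup.mem_centralizer_singleton_iff, ← map_mul, ← map_mul, ← map_mul, ← map_mul, gal_comm]
  have h2 : Φ.T (Φ.nin g) ∈ Subgroup.centralizer {Φ.T (Fam.fin ℛ.hf σ)} := by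
    have h3 : Φ.T (Φ.nin g) = Φ.T η * (Φ.T (Fam.fin ℛ.hf (η : Gm ι F).right))⁻¹ := by
      rw [eq_mul_inv_iff_mul_eq, ← map_mul, ← hg]
    rw [h3]
    exact mul_mem hη (inv_mem h1)
  obtain ⟨t, g₁, h3⟩ := ℛ.lin_comm h2
  refine ⟨t, g₁, ?_⟩
  rw [← h3]
  exact congrArg Subtype.val hg

/-- the centralizer of the rational subgroup. -/
theorem cent_j {η : Φ.Γ} (hη : Φ.T η ∈ Subgroup.centralizer {Φ.T (Fam.fin ℛ.hf σ)})
    (hc : ∀ s, Φ.T η * ℛ.j s = ℛ.j s * Φ.T η) : Φ.T η ∈ Subgroup.zpowers (Φ.T (Fam.fin ℛ.hf σ)) := by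
  have hne := ℛ.ne
  obtain ⟨t, g₁, h1⟩ := ℛ.semi_comm hη
  set τ := (η : Gm ι F).right with hτ
  obtain ⟨τ₀, hτ₀⟩ := exists_restrict ℛ.he τ
  set x₀ : Φ₀.Γ := Φ₀.nin g₁ * Fam.fin ℛ.hf₀ τ₀ with hx₀
  have hx₀c : (x₀ : Gm ι K) = SemidirectProduct.inl (g₁ : GL ι K) * SemidirectProduct.inr τ₀ := rfl
  have hact : ∀ s, Matrix.GeneralLinearGroup.map e (act (x₀ : Gm ι K) (Φ₀.ρ s)) = act (η : Gm ι F) (Φ.ρ (ℛ.J s)) := by
    intro s
    rw [ℛ.hJ, h1, hx₀c, act_scl, act_pair, map_mul, map_mul, map_inv, map_gσ hτ₀]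
  have hx1 : ∃ c : Kˣ, (x₀ : Gm ι K) = SemidirectProduct.inl (scl ι c) := by
    refine Φ₀.ker x₀ x₀.2 fun s => ?_
    have h2 : (QuotientGroup.mk (tr Φ.ρ Φ.inj Φ.Γ Φ.hΓ η (ℛ.J s)) : S ⧸ Subgroup.center S) = QuotientGroup.mk (ℛ.J s) := by
      rw [← Φ.T_mk]
      apply Φ.conj_injective
      have h3 := hc s
      rw [← eq_mul_inv_iff_mul_eq] at h3
      have h4 : Φ.T η * ℛ.j s * (Φ.T η)⁻¹ = ℛ.j s := by
        rw [hc s, mul_inv_cancel_right]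
      have h5 : MulAut.conj (Φ.T η (QuotientGroup.mk (ℛ.J s))) = Φ.T η * ℛ.j s * (Φ.T η)⁻¹ := by
        ext1 x
        rw [ℛ.j_apply]
        change Φ.T η _ * x * (Φ.T η _)⁻¹ = Φ.T η (QuotientGroup.mk (ℛ.J s) * ((Φ.T η)⁻¹ x) * (QuotientGroup.mk (ℛ.J s))⁻¹)
        rw [map_mul, map_mul, map_inv]
        congr 2
        exact ((Φ.T η).apply_symm_apply x).symm
      rw [h5, h4, ℛ.j_apply]
    rw [Φ.mk_eq_iff] at h2
    obtain ⟨c, hc'⟩ := h2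
    rw [rho_tr, ← hact, ℛ.hJ] at hc'
    have h6 : Matrix.GeneralLinearGroup.map e (Φ₀.ρ s * (act (x₀ : Gm ι K) (Φ₀.ρ s))⁻¹) = scl ι c := by
      rw [map_mul, map_inv, hc', mul_inv_cancel_right]
    obtain ⟨c₀, hc₀⟩ := (map_scl_iff e _).mp ⟨c, h6⟩
    refine ⟨c₀⁻¹, ?_⟩
    rw [map_inv, eq_inv_mul_iff_mul_eq, ← hc₀, inv_mul_cancel_right]
  obtain ⟨c, hc1⟩ := hx1
  have hτ1 : τ₀ = 1 := by
    have := congrArg SemidirectProduct.right hc1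
    rw [hx₀c] at this
    simpa using this
  have hg1 : (g₁ : GL ι K) = scl ι c := by
    have := congrArg SemidirectProduct.left hc1
    rw [hx₀c] at this
    simpa using this
  have hτσ : τ ∈ Subgroup.zpowers σ := by
    apply mem_zpowers_of_fix
    intro a ha
    obtain ⟨b, rfl⟩ := (ℛ.he a).mp ha
    rw [← hτ₀, hτ1]
    rfl
  obtain ⟨k, hk⟩ := hτσ
  refine ⟨k, ?_⟩
  change (Φ.T (Fam.fin ℛ.hf σ)) ^ k = Φ.T η
  rw [← map_zpow, ← map_zpow]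
  have hk' : σ ^ k = τ := hk
  rw [hk']
  have h7 : η = Φ.nin ⟨scl ι (t * Units.map (e : K →* F) c), Φ.sc _⟩ * Fam.fin ℛ.hf τ := by
    apply Subtype.ext
    rw [h1, hg1, map_scl, ← map_mul (scl ι)]
    rfl
  rw [h7, map_mul, (Fam.ker_nin _).mpr ⟨_, rfl⟩, one_mul]

/-- inner elements commuting with the field automorphism normalize. -/
theorem norm_j {z : MulAut (S ⧸ Subgroup.center S)} (hz : z ∈ Φ.D) (hzX : z ∈ Subgroup.centralizer {Φ.T (Fam.fin ℛ.hf σ)}) (s : S₀) :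
    ∃ s', z * ℛ.j s * z⁻¹ = ℛ.j s' := by
  obtain ⟨g, rfl⟩ := hz
  change Φ.T (Φ.nin g) ∈ _ at hzX
  obtain ⟨t, g₁, h1⟩ := ℛ.lin_comm hzX
  obtain ⟨s', hs'⟩ := Φ₀.hΓ (SemidirectProduct.inl (g₁ : GL ι K)) g₁.2 s
  refine ⟨s', ?_⟩
  change Φ.T (Φ.nin g) * ℛ.j s * (Φ.T (Φ.nin g))⁻¹ = ℛ.j s'
  rw [ℛ.j_eq, ℛ.j_eq, ← map_inv, ← map_mul, ← map_mul]
  congr 1
  apply Subtype.ext
  change SemidirectProduct.inl (g : GL ι F) * SemidirectProduct.inl (Φ.ρ (ℛ.J s)) * (SemidirectProduct.inl (g : GL ι F))⁻¹ =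
    SemidirectProduct.inl (Φ.ρ (ℛ.J s'))
  rw [← map_inv, ← map_mul, ← map_mul]
  congr 1
  have h2 := act_scl t (Matrix.GeneralLinearGroup.map e (g₁ : GL ι K)) 1 (Φ.ρ (ℛ.J s))
  rw [← h1, act_pair, gσ_one] at h2
  rw [h2, ℛ.hJ, ℛ.hJ, hs']
  have h3 := act_pair (g₁ : GL ι K) 1 (Φ₀.ρ s)
  rw [map_one, mul_one, gσ_one] at h3
  rw [h3, map_mul, map_mul, map_inv]

theorem j_ker (s : S₀) : ℛ.j s = 1 ↔ s ∈ Subgroup.center S₀ := by
  have hne := ℛ.ne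
  rw [ℛ.j_eq, Φ.T_eq_one_iff, Φ₀.cen, ← map_scl_iff e, ← ℛ.hJ]
  constructor
  · rintro ⟨c, hc⟩
    exact ⟨c, SemidirectProduct.inl_injective hc⟩
  · rintro ⟨c, hc⟩
    exact ⟨c, by rw [← hc]; rfl⟩

/-- normal subgroups of the rational subgroup. -/
theorem dvd_of_norm {p : ℕ} (h : ∀ M : Subgroup (S₀ ⧸ Subgroup.center S₀), M.Normal → M ≠ ⊥ → p ∣ Nat.card M)
    (N : Subgroup (MulAut (S ⧸ Subgroup.center S))) (h1 : N ≤ ℛ.j.range) (h2 : ∀ n ∈ N, ∀ k ∈ ℛ.j.range, k * n * k⁻¹ ∈ N) (h3 : N ≠ ⊥) :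
    p ∣ Nat.card N := by
  let j' : S₀ ⧸ Subgroup.center S₀ →* MulAut (S ⧸ Subgroup.center S) := QuotientGroup.lift _ ℛ.j (fun s hs => (ℛ.j_ker s).mpr hs)
  have hj' : Function.Injective j' := by
    rw [injective_iff_map_eq_one]
    intro x hx
    induction x using QuotientGroup.induction_on with
    | H s => exact (QuotientGroup.eq_one_iff _).mpr ((ℛ.j_ker s).mp hx)
  have hr : ∀ k ∈ ℛ.j.range, ∃ x, j' x = k := by
    rintro _ ⟨s, rfl⟩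
    exact ⟨QuotientGroup.mk s, rfl⟩
  have hr' : ∀ x, j' x ∈ ℛ.j.range := by
    intro x
    induction x using QuotientGroup.induction_on with
    | H s => exact ⟨s, rfl⟩
  have h4 := h (N.comap j') (by
    constructor
    intro n hn x
    change j' (x * n * x⁻¹) ∈ N
    rw [map_mul, map_mul, map_inv]
    exact h2 _ hn _ (hr' x)) (by
    intro h5
    apply h3
    rw [eq_bot_iff]
    intro n hn
    obtain ⟨x, rfl⟩ := hr n (h1 hn)
    have h6 : x ∈ N.comap j' := hn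
    rw [h5, Subgroup.mem_bot] at h6
    rw [h6, map_one]
    exact one_mem _)
  have h5 : (N.comap j').map j' = N := by
    rw [Subgroup.map_comap_eq, inf_eq_right]
    intro n hn
    exact hr n (h1 hn)
  rw [Nat.card_congr ((N.comap j').equivMapOfInjective j' hj').toEquiv, h5] at h4
  exact h4

theorem inn_ne_bot [Nontrivial (S₀ ⧸ Subgroup.center S₀)] :
    Cfsg.Inn (S ⧸ Subgroup.center S) ⊓ Subgroup.centralizer {Φ.T (Fam.fin ℛ.hf σ)} ≠ ⊥ := by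
  intro h
  obtain ⟨x, hx⟩ := exists_ne (1 : S₀ ⧸ Subgroup.center S₀)
  induction x using QuotientGroup.induction_on with
  | H s =>
    apply hx
    apply (QuotientGroup.eq_one_iff _).mpr
    rw [← ℛ.j_ker]
    have h1 : ℛ.j s ∈ Cfsg.Inn (S ⧸ Subgroup.center S) ⊓ Subgroup.centralizer {Φ.T (Fam.fin ℛ.hf σ)} :=
      ⟨ℛ.j_mem_inn s, ℛ.j_comm s⟩
    rw [h, Subgroup.mem_bot] at h1
    exact h1

/-- the local balance theorem for standard field automorphisms. -/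
theorem core_bot {p : ℕ} (hp : p ≠ 1) (hσ : orderOf σ = p) {A : Subgroup (MulAut (S ⧸ Subgroup.center S))}
    (hA : Cfsg.Inn (S ⧸ Subgroup.center S) ≤ A)
    (hT : ∀ y ∈ Subgroup.centralizer {Φ.T (Fam.fin ℛ.hf σ)}, (∀ s, y * ℛ.j s = ℛ.j s * y) → ∃ η, Φ.T η = y)
    (h : ∀ M : Subgroup (S₀ ⧸ Subgroup.center S₀), M.Normal → M ≠ ⊥ → p ∣ Nat.card M) :
    Cfsg.pPrimeCore p ↥(A ⊓ Subgroup.centralizer {Φ.T (Fam.fin ℛ.hf σ)}) = ⊥ := by
  refine core_eq_bot (I := Cfsg.Inn (S ⧸ Subgroup.center S)) (K₀ := ℛ.j.range) inferInstance ?_ ?_ ?_ ?_ ?_ hp ?_ ?_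
  · rw [Fam.orderOf_fin, hσ]
  · rintro _ ⟨s, rfl⟩; exact ℛ.j_mem_inn s
  · rintro _ ⟨s, rfl⟩; exact ℛ.j_comm s
  · rintro _ ⟨s, rfl⟩; exact hA (ℛ.j_mem_inn s)
  · rintro z hz hzX _ ⟨s, rfl⟩
    obtain ⟨s', hs'⟩ := ℛ.norm_j (Φ.inn_le_D hz) hzX s
    exact ⟨s', hs'.symm⟩
  · intro N h1 h2 h3
    exact ℛ.dvd_of_norm h N h1 h2 h3
  · intro y _ hyX hyK
    obtain ⟨η, rfl⟩ := hT y hyX (fun s => hyK _ ⟨s, rfl⟩)
    exact ℛ.cent_j hyX (fun s => hyK _ ⟨s, rfl⟩)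

/-- primes dividing the number of fixed points. -/
theorem dvd_of_dvd {p k : ℕ} (hp : p.Prime) (hk : ¬ p ∣ k)
    (hpow : ∀ g₁ : Φ₀.N, ∃ (c : Kˣ) (s : S₀), (g₁ : GL ι K) ^ k = scl ι c * Φ₀.ρ s)
    (hdvd : p ∣ Nat.card ↥(Cfsg.Inn (S ⧸ Subgroup.center S) ⊓ Subgroup.centralizer {Φ.T (Fam.fin ℛ.hf σ)})) :
    p ∣ Nat.card (S₀ ⧸ Subgroup.center S₀) := by
  have : Fact p.Prime := ⟨hp⟩
  have hfin : Finite ↥(Cfsg.Inn (S ⧸ Subgroup.center S) ⊓ Subgroup.centralizer {Φ.T (Fam.fin ℛ.hf σ)}) := by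
    have hS : Finite S := Finite.of_injective Φ.ρ Φ.inj
    infer_instance
  obtain ⟨⟨z, hz1, hz2⟩, hz⟩ := exists_prime_orderOf_dvd_card' p hdvd
  have hz' : orderOf z = p := by rw [← hz, ← Subgroup.orderOf_coe]
  obtain ⟨g, rfl⟩ := Φ.inn_le_D hz1
  change Φ.T (Φ.nin g) ∈ _ at hz2
  change orderOf (Φ.T (Φ.nin g)) = p at hz'
  obtain ⟨t, g₁, h1⟩ := ℛ.lin_comm hz2
  obtain ⟨c, s, h2⟩ := hpow g₁
  have h3 : (Φ.T (Φ.nin g)) ^ k = ℛ.j s := by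
    rw [ℛ.j_eq, ← map_pow, ← map_pow]
    have h4 : Φ.nin (g ^ k) = Φ.nin ⟨scl ι (t ^ k * Units.map (e : K →* F) c), Φ.sc _⟩ * Φ.inc (ℛ.J s) := by
      apply Subtype.ext
      change SemidirectProduct.inl ((g ^ k : Φ.N) : GL ι F) = SemidirectProduct.inl (scl ι (t ^ k * Units.map (e : K →* F) c)) *
        SemidirectProduct.inl (Φ.ρ (ℛ.J s))
      rw [← map_mul]
      congr 1
      rw [Subgroup.coe_pow, h1, ℛ.hJ]
      have h5 : Commute (scl ι t) (Matrix.GeneralLinearGroup.map e (g₁ : GL ι K)) := sc_comm t _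
      rw [h5.mul_pow, ← map_pow, ← map_pow, h2, map_mul, map_scl, map_mul, mul_assoc]
    rw [h4, map_mul, (Fam.ker_nin _).mpr ⟨_, rfl⟩, one_mul]
  have h4 : orderOf ((Φ.T (Φ.nin g)) ^ k) = p := by
    rw [Nat.Coprime.orderOf_pow (by rw [hz']; exact (Nat.Prime.coprime_iff_not_dvd hp).mpr hk), hz']
  have h5 : (QuotientGroup.mk s : S₀ ⧸ Subgroup.center S₀) ^ p = 1 := by
    rw [← QuotientGroup.mk_pow]
    apply (QuotientGroup.eq_one_iff _).mpr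
    rw [← ℛ.j_ker, map_pow, ← h3, ← h4, pow_orderOf_eq_one]
  have h6 : (QuotientGroup.mk s : S₀ ⧸ Subgroup.center S₀) ≠ 1 := by
    intro h6
    have h7 : ℛ.j s = 1 := (ℛ.j_ker s).mpr ((QuotientGroup.eq_one_iff _).mp h6)
    rw [← h3] at h7
    rw [h7, orderOf_one] at h4
    exact hp.ne_one h4.symm
  rw [← orderOf_eq_prime h5 h6]
  exact orderOf_dvd_natCard _

end Rat

end FamR

end Cfsg.Agent.H5.LB
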