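import Cfsg.Statements.S0292
import Mathlib
import Cfsg.Agent.H5_OmCard
import Cfsg.Agent.H16_Std
import Cfsg.Agent.S0286

set_option autoImplicit false
open Cfsg

namespace Cfsg.Agent.S0292

/-- 2 |PΩ_{2m+1}(q)| = q^(m^2) prod_{i=1}^{m} (q^(2i) - 1), for q odd and m at least 3 (type B_m). -/
theorem result {F : Type*} [Field F] [Fintype F] {q : ℕ} (hF : Fintype.card F = q) (hodd : Odd q) (m : ℕ) (hm : 3 ≤ m) : 2 * Nat.card (Cfsg.POmega F (Cfsg.quadFormOdd m F)) = q ^ (m ^ 2) * ∏ i ∈ Finset.range m, (q ^ (2 * (i + 1)) - 1) := by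
  have h1 := Cfsg.Agent.S0286.result hF hodd m
  have h2 : (2 : F) ≠ 0 := by
    intro h2
    have h3 : ringChar F = 2 := by
      have h4 := ringChar.dvd (R := F) (x := 2) (by exact_mod_cast h2)
      exact (Nat.prime_dvd_prime_iff_eq (CharP.char_is_prime F (ringChar F)) Nat.prime_two).1 h4
    have h5 := FiniteField.even_card_iff_char_two.1 h3
    rw [hF] at h5
    rw [Nat.odd_iff] at hodd
    omega
  rw [← Cfsg.Agent.H16.Quad.coe_oddQ] at h1 ⊢
  have hQ := H16.Quad.nd_oddQ h2 m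
  have hc : 5 ≤ Fintype.card (Unit ⊕ (Fin m ⊕ Fin m)) := by simp; omega
  have h3 : Nat.card (Subgroup.center (Cfsg.Omega F ⇑(H16.Quad.oddQ F m))) = 1 := by
    apply H5.OmSim.center_eq_bot hQ hc
    rintro ⟨g, hg, hg1⟩
    obtain ⟨δ, θ, -, h4, h5, -⟩ := H16.Quad.iso_chars hQ (Or.inl (H16.Quad.card_ne_two_of h2))
    have h6 := h5 g
    rw [((h4 g).1 hg).1, hg1, Matrix.det_neg, Matrix.det_one] at h6
    have h7 : Odd (Fintype.card (Unit ⊕ (Fin m ⊕ Fin m))) := by
      rw [Fintype.card_sum, Fintype.card_sum, Fintype.card_unit, Fintype.card_fin]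
      exact ⟨m, by ring⟩
    rw [h7.neg_one_pow] at h6
    simp at h6
    exact h2 (by linear_combination -h6)
  have h8 : (Cfsg.Omega F ⇑(H16.Quad.oddQ F m)).index = 4 := H16.Quad.Omega_index_odd hQ h2 (by
    rw [Module.finrank_fintype_fun_eq_card]; omega)
  rw [H5.OmSim.card_iso_eq, h3, h8, mul_assoc] at h1
  linarith

end Cfsg.Agent.S0292
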