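import Cfsg.Statements.S0295
import Mathlib
import Cfsg.Agent.H5_OmSim
import Cfsg.Agent.H16_Std

set_option autoImplicit false
open Cfsg

namespace Cfsg.Agent.S0295

/-- PΩ_{2m+1}(q) is simple for q odd and m at least 3. -/
theorem result {F : Type*} [Field F] [Fintype F] (hodd : Odd (Fintype.card F)) (m : ℕ) (hm : 3 ≤ m) : IsSimpleGroup (Cfsg.POmega F (Cfsg.quadFormOdd m F)) := by
  rw [← Cfsg.Agent.H16.Quad.coe_oddQ]
  refine H5.OmSim.simple_POmega (H16.Quad.nd_oddQ ?_ m) ?_
  · intro h2
    have h3 : ringChar F = 2 := by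
      have h4 := ringChar.dvd (R := F) (x := 2) (by exact_mod_cast h2)
      exact (Nat.prime_dvd_prime_iff_eq (CharP.char_is_prime F (ringChar F)) Nat.prime_two).1 h4
    have h5 := FiniteField.even_card_iff_char_two.1 h3
    rw [Nat.odd_iff] at hodd
    omega
  · simp; omega

end Cfsg.Agent.S0295
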