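import Cfsg.Agent.H5_LB2
import Cfsg.Agent.H16_ParA
import Cfsg.Agent.H16_POm9
import Cfsg.Agent.S0295
import Cfsg.Agent.S0292

set_option autoImplicit false

/-! Local balance: field automorphisms and the odd orthogonal groups. -/

namespace Cfsg.Agent.H5.LB

open Matrix Cfsg.Agent.H16 Cfsg.Agent.H16.Gam Cfsg.Agent.H16.AutG Cfsg.Agent.H16.AutL Cfsg.Agent.H16.Desc

section Wrap

variable {S : Type*} [Group S] {ι : Type} [Fintype ι] [DecidableEq ι] {F : Type*} [Field F] [Finite F] {Φ : Fam S ι F}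

include Φ in
/-- inner automorphisms commuting with `x`. -/
theorem card_fixI (x : MulAut (S ⧸ Subgroup.center S)) :
    Nat.card ↥(Cfsg.Inn (S ⧸ Subgroup.center S) ⊓ Subgroup.centralizer {x}) =
      Nat.card ↥(MonoidHom.eqLocus x.toMonoidHom (MonoidHom.id (S ⧸ Subgroup.center S))) := by
  symm
  have hconj : ∀ k, x * MulAut.conj k * x⁻¹ = MulAut.conj (x k) := by
    intro k
    ext1 y
    change x (k * (x⁻¹ y) * k⁻¹) = x k * y * (x k)⁻¹
    rw [map_mul, map_mul, map_inv]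
    congr 2
    exact x.apply_symm_apply y
  have hiff : ∀ k, x k = k ↔ MulAut.conj k ∈ Subgroup.centralizer {x} := by
    intro k
    rw [Subgroup.mem_centralizer_singleton_iff, eq_comm (a := MulAut.conj k * x), ← mul_inv_eq_iff_eq_mul, hconj]
    exact Φ.conj_injective.eq_iff.symm
  refine Nat.card_congr (Equiv.ofBijective (fun k => ⟨MulAut.conj (k : S ⧸ Subgroup.center S), ⟨_, rfl⟩, (hiff _).mp k.2⟩) ⟨?_, ?_⟩)
  · rintro ⟨k, hk⟩ ⟨l, hl⟩ h
    exact Subtype.ext (Φ.conj_injective (congrArg Subtype.val h))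
  · rintro ⟨_, ⟨k, rfl⟩, hk⟩
    exact ⟨⟨k, (hiff _).mpr hk⟩, rfl⟩

/-- the local balance theorem for automorphisms with a field component. -/
theorem wrap [Nonempty ι] (hf : Φ.HasField) (hDn : Φ.D.Normal) (hL : ∀ σ : F ≃+* F, Fam.Lang Φ σ) {A : Subgroup (MulAut (S ⧸ Subgroup.center S))}
    (hinn : Cfsg.Inn (S ⧸ Subgroup.center S) ≤ A) {p : ℕ} (hp : p.Prime) {x : MulAut (S ⧸ Subgroup.center S)} (hord : orderOf x = p)
    (hdec : ∃ ξ : Φ.Γ, Φ.T ξ = x ∧ (ξ : Gm ι F).right ≠ 1)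
    (hmain : ∀ σ : F ≃+* F, orderOf σ = p → p ∣ Nat.card ↥(Cfsg.Inn (S ⧸ Subgroup.center S) ⊓ Subgroup.centralizer {Φ.T (Fam.fin hf σ)}) →
      ∀ B : Subgroup (MulAut (S ⧸ Subgroup.center S)), Cfsg.Inn (S ⧸ Subgroup.center S) ≤ B →
        Cfsg.pPrimeCore p ↥(B ⊓ Subgroup.centralizer {Φ.T (Fam.fin hf σ)}) = ⊥)
    (hne : ∀ σ : F ≃+* F, orderOf σ = p → Cfsg.Inn (S ⧸ Subgroup.center S) ⊓ Subgroup.centralizer {Φ.T (Fam.fin hf σ)} ≠ ⊥) :
    (∃ (α : MulAut (S ⧸ Subgroup.center S)) (σ : F ≃+* F), σ ≠ 1 ∧ α * x * α⁻¹ = Φ.T (Fam.fin hf σ)) ∧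
    (Cfsg.pPrimeCore p ↥(A ⊓ Subgroup.centralizer {x}) ≠ ⊥ ↔
      Nat.Coprime p (Nat.card ↥(MonoidHom.eqLocus x.toMonoidHom (MonoidHom.id (S ⧸ Subgroup.center S))))) := by
  obtain ⟨ξ, hξ, h1⟩ := hdec
  have hσ : orderOf (ξ : Gm ι F).right = p := Par.orderOf_right hp (by rw [hξ]; exact hord) h1
  obtain ⟨g, hg⟩ := Fam.eq_nin_fin hf ξ
  set σ := (ξ : Gm ι F).right with hσd
  have hx : x = Φ.T (Φ.nin g) * Φ.T (Fam.fin hf σ) := by rw [← map_mul, ← hg, hξ]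
  obtain ⟨η, -, hη⟩ := Fam.conj_of_pow hf (hL σ) (by rw [hσ]; exact hp.pos) (δ := Φ.T (Φ.nin g)) ⟨g, rfl⟩ (by
    rw [← hx, hσ, ← hord, pow_orderOf_eq_one])
  rw [← hx] at hη
  have hα : η⁻¹ * x * η⁻¹⁻¹ = Φ.T (Fam.fin hf σ) := by rw [hη]; group
  refine ⟨⟨η⁻¹, σ, h1, hα⟩, ?_⟩
  rw [← card_fixI (Φ := Φ)]
  have hInormal : (Cfsg.Inn (S ⧸ Subgroup.center S)).Normal := inferInstance
  -- transport of the centralizer
  have hinj : Function.Injective (MulAut.conj η).toMonoidHom := (MulAut.conj η).injective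
  have hcard : Nat.card ↥(Cfsg.Inn (S ⧸ Subgroup.center S) ⊓ Subgroup.centralizer {x}) =
      Nat.card ↥(Cfsg.Inn (S ⧸ Subgroup.center S) ⊓ Subgroup.centralizer {Φ.T (Fam.fin hf σ)}) := by
    obtain ⟨E⟩ := Split.nonempty_centralizer_conj (Cfsg.Inn (S ⧸ Subgroup.center S)) hInormal η⁻¹ x
      (G := ↥(Cfsg.Inn (S ⧸ Subgroup.center S) ⊓ Subgroup.centralizer {Φ.T (Fam.fin hf σ)})) (by
        rw [hα]; exact ⟨MulEquiv.refl _⟩)
    exact Nat.card_congr E.toEquiv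
  constructor
  · intro h
    by_contra hcop
    have hdvd : p ∣ Nat.card ↥(Cfsg.Inn (S ⧸ Subgroup.center S) ⊓ Subgroup.centralizer {x}) := by
      by_contra hnd
      exact hcop ((Nat.Prime.coprime_iff_not_dvd hp).mpr hnd)
    rw [hcard] at hdvd
    apply h
    apply core_conj (α := η⁻¹)
    rw [hα]
    apply hmain σ hσ hdvd
    rintro _ ⟨k, rfl⟩
    refine ⟨MulAut.conj (η k), hinn ⟨_, rfl⟩, ?_⟩
    change η⁻¹ * MulAut.conj (η k) * η⁻¹⁻¹ = MulAut.conj k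
    ext1 y
    change η⁻¹ (η k * η y * (η k)⁻¹) = k * y * k⁻¹
    rw [← map_inv, ← map_mul, ← map_mul]
    exact η.symm_apply_apply _
  · intro h
    refine core_ne_bot hInormal hinn (Nat.Coprime.symm h) ?_
    intro h0
    apply hne σ hσ
    rw [← Subgroup.card_eq_one, ← hcard, h0]
    exact Subgroup.card_bot

end Wrap

section RatO

open Cfsg.Agent.H16.POm

variable {ι : Type} [Fintype ι] [DecidableEq ι] {F K : Type*} [Field F] [Finite F] [Field K] [Finite K]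

/-- rational isometries. -/
noncomputable def isoMap {A : OD ι F} {A₀ : OD ι K} {e : K →+* F} (hR : ∀ x : ι → K, A.Q (fun i => e (x i)) = e (A₀.Q x)) :
    Cfsg.isometryGroup K ⇑A₀.Q →* Cfsg.isometryGroup F ⇑A.Q :=
  ((Matrix.GeneralLinearGroup.map e).comp (Subgroup.subtype _)).codRestrict _ (fun g => (map_iso e hR _).mpr g.2)

/-- rational elements of `Omega`. -/
noncomputable def omMap {A : OD ι F} {A₀ : OD ι K} {e : K →+* F} (hR : ∀ x : ι → K, A.Q (fun i => e (x i)) = e (A₀.Q x)) :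
    Cfsg.Omega K ⇑A₀.Q →* Cfsg.Omega F ⇑A.Q :=
  ((isoMap hR).comp (Subgroup.subtype _)).codRestrict _ (fun s => by
    have h1 : (commutator (Cfsg.isometryGroup K ⇑A₀.Q)).map (isoMap hR) ≤ commutator (Cfsg.isometryGroup F ⇑A.Q) := by
      rw [commutator_def, commutator_def, Subgroup.map_commutator]
      exact Subgroup.commutator_mono le_top le_top
    exact h1 ⟨_, s.2, rfl⟩)

/-- the rational structure for orthogonal groups. -/
noncomputable def ratO {A : OD ι F} {A₀ : OD ι K} {σ : F ≃+* F} {e : K →+* F} (hf : (fam A).HasField) (hf₀ : (fam A₀).HasField)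
    (he : ∀ a, σ a = a ↔ a ∈ Set.range e) (hR : ∀ x : ι → K, A.Q (fun i => e (x i)) = e (A₀.Q x)) : Rat (fam A) (fam A₀) σ e where
  ne := nonempty A
  hf := hf
  hf₀ := hf₀
  he := he
  J := omMap hR
  hJ s := rfl
  hN g := by
    have := nonempty A
    have h1 := map_sim e hR A₀.nd g
    rw [Fam.mem_N, Fam.mem_N]
    exact sim_mem_Gam.trans (h1.symm.trans sim_mem_Gam.symm)

omit [Finite F] in
theorem fixK_iff (σ : F ≃+* F) (a : F) : σ a = a ↔ a ∈ Set.range (FixK σ).subtype := by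
  constructor
  · intro h; exact ⟨⟨a, h⟩, rfl⟩
  · rintro ⟨b, rfl⟩; exact b.2

theorem dvd_simple {G : Type*} [Group G] {p : ℕ} (hs : IsSimpleGroup G) (h : p ∣ Nat.card G) (M : Subgroup G) (hM : M.Normal)
    (hne : M ≠ ⊥) : p ∣ Nat.card M := by
  have h1 : M = ⊤ := (hs.eq_bot_or_eq_top_of_normal M hM).resolve_left hne
  rw [h1, Subgroup.card_top]
  exact h

end RatO

section Odd

open Cfsg.Agent.H16.POm

theorem two_dvd_odd {K : Type*} [Field K] [Finite K] (h2 : (2 : K) ≠ 0) {m : ℕ} (hm : 3 ≤ m) :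
    2 ∣ Nat.card (Cfsg.POmega K ⇑(odO K h2 hm).Q) := by
  have := Fintype.ofFinite K
  have hodd : Odd (Fintype.card K) := Nat.odd_iff.mpr (Quad.card_mod_two h2)
  have h1 := Cfsg.Agent.S0292.result (F := K) rfl hodd m hm
  have h3 : ∀ i, 2 ∣ Fintype.card K ^ (2 * (i + 1)) - 1 := by
    intro i
    have : Odd (Fintype.card K ^ (2 * (i + 1))) := hodd.pow
    obtain ⟨k, hk⟩ := this
    exact ⟨k, by omega⟩
  have h4 : 4 ∣ ∏ i ∈ Finset.range m, (Fintype.card K ^ (2 * (i + 1)) - 1) := by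
    obtain ⟨n, rfl⟩ : ∃ n, m = n + 2 := ⟨m - 2, by omega⟩
    rw [Finset.prod_range_succ, Finset.prod_range_succ, mul_assoc]
    exact dvd_mul_of_dvd_right (mul_dvd_mul (h3 _) (h3 _)) _
  have h5 : 4 ∣ 2 * Nat.card (Cfsg.POmega K (Cfsg.quadFormOdd m K)) := by
    rw [h1]
    exact dvd_mul_of_dvd_right h4 _
  have h6 : Nat.card (Cfsg.POmega K ⇑(odO K h2 hm).Q) = Nat.card (Cfsg.POmega K (Cfsg.quadFormOdd m K)) := by
    change Nat.card (Cfsg.POmega K ⇑(Quad.oddQ K m)) = _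
    rw [Quad.coe_oddQ]
  rw [h6]
  omega

variable {F : Type*} [Field F] [Finite F] (h2 : (2 : F) ≠ 0) {m : ℕ} (hm : 3 ≤ m)
  {q : (Unit ⊕ (Fin m ⊕ Fin m) → F) → F} (hq : ⇑(odO F h2 hm).Q = q)

theorem simple_odd : IsSimpleGroup (Cfsg.POmega F ⇑(odO F h2 hm).Q) := by
  have := Fintype.ofFinite F
  change IsSimpleGroup (Cfsg.POmega F ⇑(Quad.oddQ F m))
  rw [Quad.coe_oddQ]
  exact Cfsg.Agent.S0295.result (Nat.odd_iff.mpr (Quad.card_mod_two h2)) m hm

include hq in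
theorem balance_odd {A : Subgroup (MulAut (Cfsg.POmega F q))} (hinn : ∀ k : Cfsg.POmega F q, MulAut.conj k ∈ A) {p : ℕ} (hp : p.Prime)
    (x : MulAut (Cfsg.POmega F q)) (hord : orderOf x = p) (hnot : ¬ Cfsg.IsSimilarityInducedAutPOmega q x) :
    Cfsg.pPrimeCore p ↥(A ⊓ Subgroup.centralizer {x}) ≠ ⊥ ↔ (Cfsg.IsFieldAutClassPOmega q x ∧
      Nat.Coprime p (Nat.card ↥(MonoidHom.eqLocus x.toMonoidHom (MonoidHom.id (Cfsg.POmega F q))))) := by
  subst hq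
  have hFull : (fam (odO F h2 hm)).Full := full (good_odd (F := F) h2 hm)
  have hnt := nonempty (odO F h2 hm)
  obtain ⟨ξ, hξ⟩ := hFull x
  have h1 : (ξ : Gm (Unit ⊕ (Fin m ⊕ Fin m)) F).right ≠ 1 := by
    intro h1
    apply hnot
    apply (sim_iff (odO F h2 hm)).mpr
    obtain ⟨g, hg⟩ := Fam.eq_nin_fin (hasField_odd h2 hm) ξ
    rw [h1, map_one, mul_one] at hg
    exact ⟨g, by rw [← hξ, hg]; rfl⟩
  have hrat : ∀ σ : F ≃+* F, Rat (fam (odO F h2 hm)) (fam (odO (FixK σ) (two_ne_K h2 _) hm)) σ (FixK σ).subtype := fun σ =>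
    ratO (hasField_odd h2 hm) (hasField_odd (two_ne_K h2 _) hm) (fixK_iff σ) (fun x => rat_odd (FixK σ).subtype x)
  obtain ⟨⟨α, σ, hσ, hα⟩, h3⟩ := wrap (hasField_odd h2 hm) hFull.D_normal (lang_odd h2 hm) (A := A)
    (by rintro _ ⟨k, rfl⟩; exact hinn k) hp hord ⟨ξ, hξ, h1⟩ (by
      intro σ hσp hdvd B hB
      refine (hrat σ).core_bot hp.ne_one hσp hB (fun y _ _ => hFull y) (dvd_simple (simple_odd _ hm) ?_)
      obtain ⟨q₀, hq, hcard, hfix, hfix'⟩ := card_fix σ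
      have hFt : Fintype (FixK σ) := Fintype.ofFinite _
      have hK : Fintype.card (FixK σ) = q₀ := by
        rw [← Nat.card_eq_fintype_card, ← hfix']
        exact Nat.card_congr (Equiv.subtypeEquivRight fun x => Iff.rfl)
      obtain ⟨E⟩ := cent_of (hasField_odd h2 hm) hcard hfix' hK (odO (FixK σ) (two_ne_K h2 _) hm) (fun e x => rat_odd e x)
      have h4 : p ∣ Nat.card ↥((fam (odO F h2 hm)).D ⊓ Subgroup.centralizer {(fam (odO F h2 hm)).T (Fam.fin (hasField_odd h2 hm) σ)}) :=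
        hdvd.trans (Subgroup.card_dvd_of_le (inf_le_inf_right _ (fam (odO F h2 hm)).inn_le_D))
      rw [Nat.card_congr E.toEquiv, card_D_odd (two_ne_K h2 _) (odd_card m)] at h4
      rcases (Nat.Prime.dvd_mul hp).mp h4 with h5 | h5
      · rw [(Nat.prime_dvd_prime_iff_eq hp Nat.prime_two).mp h5]
        exact two_dvd_odd (two_ne_K h2 _) hm
      · exact h5) (by
      intro σ _
      have := (simple_odd (F := FixK σ) (two_ne_K h2 _) hm).toNontrivial
      exact (hrat σ).inn_ne_bot)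
  rw [h3]
  constructor
  · intro h
    refine ⟨⟨α, _, σ, hσ, (field_iff (odO F h2 hm) (hasField_odd h2 hm σ)).mpr rfl, hα⟩, h⟩
  · rintro ⟨-, h⟩; exact h

end Odd

end Cfsg.Agent.H5.LB
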