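import Mathlib
import Cfsg.Agent.H5_Symp
import Cfsg.Agent.H5_Prim
import Cfsg.Agent.H5_Iwasawa

set_option autoImplicit false

/-! Perfectness, primitivity and simplicity for symplectic groups. -/

namespace Cfsg.Agent.H5.SpSim

open Matrix MulAction Symp Conc
open scoped LinearAlgebra.Projectivization

variable {m : ℕ} {F : Type*} [Field F]

local notation "V" => (Fin m ⊕ Fin m → F)
local notation "Sp" => Matrix.symplecticGroup (Fin m) F

/-! ### Perfectness -/

theorem T_T_apply {a b : V} (h : Cfsg.sympForm m F a b = 0) (c d : F) (x : V) :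
    ((T a c * T b d : Sp) : Matrix (Fin m ⊕ Fin m) (Fin m ⊕ Fin m) F) *ᵥ x =
      x + (c * Cfsg.sympForm m F x a) • a + (d * Cfsg.sympForm m F x b) • b := by
  have h' : Cfsg.sympForm m F b a = 0 := by rw [swap a b, h, neg_zero]
  rw [Submonoid.coe_mul, ← Matrix.mulVec_mulVec, T_apply, T_apply, add_left, smul_left, h', mul_zero, add_zero]
  abel

theorem id1 {u v : V} (h : Cfsg.sympForm m F u v = 0) (c : F) :
    T (u + v) c * T (u - v) c = (T u (2 * c) * T v (2 * c) : Sp) := by
  have h' : Cfsg.sympForm m F v u = 0 := by rw [swap u v, h, neg_zero]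
  apply Sp_ext
  intro x
  rw [T_T_apply h, T_T_apply (by rw [add_left, sub_right, sub_right, self, self, h, h']; ring), add_right, sub_right]
  module

theorem T_conj_ab {w w' : V} (hw : w ≠ 0) (hw' : w' ≠ 0) (c : F) :
    Abelianization.of (T w c : Sp) = Abelianization.of (T w' c) := by
  obtain ⟨g, -, hg⟩ := H_transitive hw hw'
  rw [← hg, ← conj_T, map_mul, map_mul, map_inv, mul_comm (Abelianization.of g), mul_inv_cancel_right]

theorem all_of (h : ∀ (w : V) (c : F), w ≠ 0 → Abelianization.of (T w c : Sp) = 1) : commutator Sp = ⊤ := by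
  rw [eq_top_iff, ← H_eq_top]
  rw [Symp.H, Subgroup.closure_le]
  rintro A ⟨w, c, hA⟩
  have hA' : A = T w c := Subtype.ext hA
  have : A ∈ (Abelianization.of (G := Sp)).ker := by
    rw [MonoidHom.mem_ker, hA']
    by_cases hw : w = 0
    · subst hw
      have : (T (0 : V) c : Sp) = 1 := by
        apply Sp_ext
        intro x
        rw [T_apply, smul_zero, add_zero]; simp
      rw [this, map_one]
    · exact h w c hw
  rw [Abelianization.ker_of] at this
  exact this

theorem perfect_four (hF : ∃ a : F, a ≠ 0 ∧ a ^ 2 ≠ 1) : commutator Sp = ⊤ := by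
  obtain ⟨a, ha, ha1⟩ := hF
  apply all_of
  intro w c hw
  have hne : a ^ 2 - 1 ≠ 0 := sub_ne_zero.mpr ha1
  have h1 : (T w c : Sp) = T (a • w) (c / (a ^ 2 - 1)) * (T w (c / (a ^ 2 - 1)))⁻¹ := by
    rw [eq_mul_inv_iff_mul_eq, T_mul_T, T_smul]
    congr 1
    field_simp
    ring
  rw [h1, map_mul, map_inv, T_conj_ab (smul_ne_zero ha hw) hw, mul_inv_cancel]

theorem perfect_odd (h2 : (2 : F) ≠ 0) (hm : 2 ≤ m) : commutator Sp = ⊤ := by
  have hsq : ∀ (w : V) (c : F), w ≠ 0 → Abelianization.of (T w (2 * c) : Sp) = 1 := by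
    intro w c hw
    let u : V := Pi.single (Sum.inl ⟨0, by omega⟩) 1
    let v : V := Pi.single (Sum.inl ⟨1, by omega⟩) 1
    have huv : Cfsg.sympForm m F u v = 0 := by
      simp [u, v, Cfsg.sympForm, Matrix.J, Matrix.mulVec_single]
    have hu : u ≠ 0 := by simp [u]
    have hv : v ≠ 0 := by simp [v]
    have hne : (⟨0, by omega⟩ : Fin m) ≠ ⟨1, by omega⟩ := by simp [Fin.ext_iff]
    have huv1 : u + v ≠ 0 := by
      intro h
      have := congrFun h (Sum.inl ⟨0, by omega⟩)
      simp [u, v, hne] at this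
    have huv2 : u - v ≠ 0 := by
      intro h
      have := congrFun h (Sum.inl ⟨0, by omega⟩)
      simp [u, v, hne] at this
    have h1 := congrArg Abelianization.of (id1 huv c)
    rw [map_mul, map_mul, T_conj_ab huv1 hw, T_conj_ab huv2 hw, T_conj_ab hu hw, T_conj_ab hv hw] at h1
    have h3 : (T w (2 * c) : Sp) = T w c * T w c := by rw [T_mul_T, two_mul]
    rw [h3, map_mul] at h1 ⊢
    have h4 : (1 : Abelianization Sp) = Abelianization.of (T w c) * Abelianization.of (T w c) := by
      apply mul_left_cancel (a := Abelianization.of (T w c) * Abelianization.of (T w c))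
      rw [mul_one]; exact h1
    exact h4.symm
  apply all_of
  intro w c hw
  have := hsq w (c / 2) hw
  rwa [mul_div_cancel₀ _ h2] at this

theorem perfect_two (h2 : (2 : F) = 0) (hm : 3 ≤ m) (h1 : ∀ c : F, c = 0 ∨ c = 1) : commutator Sp = ⊤ := by
  apply all_of
  intro w c hw
  rcases h1 c with rfl | rfl
  · rw [T_zero, map_one]
  have hT2 : ∀ z : V, (T z 1 : Sp) * T z 1 = 1 := by
    intro z
    rw [T_mul_T, one_add_one_eq_two, h2, T_zero]
  let u : V := Pi.single (Sum.inl ⟨0, by omega⟩) 1
  let v : V := Pi.single (Sum.inl ⟨1, by omega⟩) 1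
  let z : V := Pi.single (Sum.inl ⟨2, by omega⟩) 1
  have huv : Cfsg.sympForm m F u v = 0 := by simp [u, v, Cfsg.sympForm, Matrix.J, Matrix.mulVec_single]
  have huz : Cfsg.sympForm m F u z = 0 := by simp [u, z, Cfsg.sympForm, Matrix.J, Matrix.mulVec_single]
  have hvz : Cfsg.sympForm m F v z = 0 := by simp [z, v, Cfsg.sympForm, Matrix.J, Matrix.mulVec_single]
  have e0 : ∀ x y z : F, (x • u + y • v + z • (Pi.single (Sum.inl ⟨2, by omega⟩) 1 : V)) (Sum.inl ⟨0, by omega⟩) = x := by
    intro x y z; simp [u, v, Fin.ext_iff]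
  have e1 : ∀ x y z : F, (x • u + y • v + z • (Pi.single (Sum.inl ⟨2, by omega⟩) 1 : V)) (Sum.inl ⟨1, by omega⟩) = y := by
    intro x y z; simp [u, v, Fin.ext_iff]
  have n0 : ∀ y z' : F, (1 : F) • u + y • v + z' • z ≠ 0 := by
    intro y z' h
    have := congrFun h (Sum.inl ⟨0, by omega⟩)
    rw [e0] at this
    exact one_ne_zero this
  have n1 : ∀ y z' : F, y • u + (1 : F) • v + z' • z ≠ 0 := by
    intro y z' h
    have := congrFun h (Sum.inl ⟨1, by omega⟩)
    rw [e1] at this
    exact one_ne_zero this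
  have hu : u ≠ 0 := by simp [u]
  have hv : v ≠ 0 := by simp [v]
  have hz : z ≠ 0 := by simp [z]
  have huv' : u + v ≠ 0 := by have := n0 1 0; simpa using this
  have huz' : u + z ≠ 0 := by have := n0 0 1; simpa using this
  have hvz' : v + z ≠ 0 := by have := n1 0 1; simpa using this
  have huvz' : u + v + z ≠ 0 := by have := n0 1 1; simpa using this
  set t := Abelianization.of (T w 1 : Sp)
  have ht2 : t * t = 1 := by rw [← map_mul, hT2, map_one]
  -- E a b
  let E : V → V → Sp := fun a b => T (a + b) 1 * (T a 1 * T b 1)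
  have hE : ∀ a b : V, Cfsg.sympForm m F a b = 0 → ∀ x : V, ((E a b : Sp) : Matrix (Fin m ⊕ Fin m) (Fin m ⊕ Fin m) F) *ᵥ x =
      x + Cfsg.sympForm m F x a • b + Cfsg.sympForm m F x b • a := by
    intro a b hab x
    have hba : Cfsg.sympForm m F b a = 0 := by rw [swap a b, hab, neg_zero]
    change ((T (a + b) 1 * (T a 1 * T b 1) : Sp) : Matrix (Fin m ⊕ Fin m) (Fin m ⊕ Fin m) F) *ᵥ x = _
    rw [Submonoid.coe_mul, ← Matrix.mulVec_mulVec, T_T_apply hab, T_apply]
    simp only [add_left, smul_left, add_right, self, hab, hba, mul_zero, add_zero, one_mul, zero_add]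
    have h3 : ∀ y : V, y + y = 0 := by
      intro y
      rw [← two_smul F y, h2, zero_smul]
    have h4 : x + Cfsg.sympForm m F x a • a + Cfsg.sympForm m F x b • b + (Cfsg.sympForm m F x a + Cfsg.sympForm m F x b) • (a + b) =
        x + Cfsg.sympForm m F x a • b + Cfsg.sympForm m F x b • a + (Cfsg.sympForm m F x a • a + Cfsg.sympForm m F x a • a) +
          (Cfsg.sympForm m F x b • b + Cfsg.sympForm m F x b • b) := by module
    rw [h4, h3, h3, add_zero, add_zero]
  have hEab : ∀ a b : V, a ≠ 0 → b ≠ 0 → a + b ≠ 0 → Abelianization.of (E a b) = t := by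
    intro a b ha hb hab
    change Abelianization.of (T (a + b) 1 * (T a 1 * T b 1) : Sp) = t
    rw [map_mul, map_mul, T_conj_ab hab hw, T_conj_ab ha hw, T_conj_ab hb hw]
    change t * (t * t) = t
    rw [ht2, mul_one]
  have hprod : E (u + v) z = E u z * E v z := by
    apply Sp_ext
    intro x
    have hR : ((E u z * E v z : Sp) : Matrix (Fin m ⊕ Fin m) (Fin m ⊕ Fin m) F) *ᵥ x =
        (E u z : Matrix (Fin m ⊕ Fin m) (Fin m ⊕ Fin m) F) *ᵥ ((E v z : Matrix (Fin m ⊕ Fin m) (Fin m ⊕ Fin m) F) *ᵥ x) := by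
      rw [Matrix.mulVec_mulVec, Submonoid.coe_mul]
    rw [hR, hE _ _ hvz, hE _ _ huz, hE _ _ (by rw [add_left, huz, hvz, add_zero])]
    have hzu : Cfsg.sympForm m F z u = 0 := by rw [swap u z, huz, neg_zero]
    have hvu : Cfsg.sympForm m F v u = 0 := by rw [swap u v, huv, neg_zero]
    simp only [add_left, smul_left, add_right, self, hvz, hzu, hvu, mul_zero, add_zero]
    module
  have h5 : Abelianization.of (E (u + v) z) = Abelianization.of (E u z) * Abelianization.of (E v z) := by
    rw [hprod]; exact map_mul _ _ _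
  rw [hEab _ _ huv' hz huvz', hEab _ _ hu hz huz', hEab _ _ hv hz hvz', ht2] at h5
  exact h5

theorem perfect [Fintype F] (h : 3 ≤ m ∨ (m = 2 ∧ 3 ≤ Fintype.card F) ∨ 4 ≤ Fintype.card F) : commutator Sp = ⊤ := by
  by_cases h4 : ∃ a : F, a ≠ 0 ∧ a ^ 2 ≠ 1
  · exact perfect_four h4
  push Not at h4
  have hlt : Fintype.card F < 4 := by
    by_contra hcon
    push Not at hcon
    classical
    obtain ⟨ζ, hζ⟩ := IsCyclic.exists_generator (α := Fˣ)
    have h1 : ζ ^ 2 = 1 := Units.ext (by rw [Units.val_pow_eq_pow_val]; exact h4 ζ ζ.ne_zero)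
    have h2 := orderOf_dvd_of_pow_eq_one h1
    rw [orderOf_eq_card_of_forall_mem_zpowers hζ, Nat.card_eq_fintype_card, Fintype.card_units] at h2
    have := Nat.le_of_dvd (by norm_num) h2
    omega
  by_cases h2 : (2 : F) = 0
  · have h1 : ∀ c : F, c = 0 ∨ c = 1 := by
      intro c
      by_cases hc : c = 0
      · exact Or.inl hc
      · right
        have h3 := h4 c hc
        have h5 : (c - 1) ^ 2 = 0 := by linear_combination h3 + (1 - c) * h2
        exact sub_eq_zero.mp (pow_eq_zero_iff (two_ne_zero) |>.mp h5)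
    apply perfect_two h2 _ h1
    have hcard : Fintype.card F ≤ 2 := by
      classical
      have hsub : (Finset.univ : Finset F) ⊆ {0, 1} := by
        intro c _
        simp only [Finset.mem_insert, Finset.mem_singleton]
        exact h1 c
      exact (Finset.card_le_card hsub).trans (Finset.card_le_two)
    omega
  · exact perfect_odd h2 (by omega)

/-! ### Primitivity -/

local notation "GG" => Cfsg.spGL m F

/-- the isomorphism `Sp ≃ spGL`. -/
noncomputable def toGhom : Sp →* GG where
  toFun g := ⟨(Cfsg.spToMat m F).toHomUnits g, fun u v => (mem_symplecticGroup_iff g.1).mp g.2 u v⟩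
  map_one' := by apply Subtype.ext; exact map_one _
  map_mul' g h := by apply Subtype.ext; exact map_mul _ _ _

theorem toGhom_bij : Function.Bijective (toGhom (m := m) (F := F)) := by
  constructor
  · intro g h hgh
    apply Subtype.ext
    exact congrArg (fun x : GG => x.1.1) hgh
  · intro g
    refine ⟨⟨g.1.1, (mem_symplecticGroup_iff _).mpr g.2⟩, ?_⟩
    apply Subtype.ext
    apply Units.ext
    rfl

noncomputable def toG : Sp ≃* GG := MulEquiv.ofBijective toGhom toGhom_bij

theorem toG_smul (g : Sp) (v : V) : toG g • v = (g : Matrix (Fin m ⊕ Fin m) (Fin m ⊕ Fin m) F) *ᵥ v := rfl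

def R (p r : ℙ F V) : Prop := Cfsg.sympForm m F p.rep r.rep = 0

theorem R_mk {v w : V} (hv : v ≠ 0) (hw : w ≠ 0) :
    R (Projectivization.mk F v hv) (Projectivization.mk F w hw) ↔ Cfsg.sympForm m F v w = 0 := by
  obtain ⟨a, ha⟩ := Projectivization.exists_smul_eq_mk_rep F v hv
  obtain ⟨b, hb⟩ := Projectivization.exists_smul_eq_mk_rep F w hw
  rw [R, ← ha, ← hb, Units.smul_def, Units.smul_def, smul_left, smul_right]
  constructor
  · intro h
    exact ((mul_eq_zero.mp ((mul_eq_zero.mp h).resolve_left a.ne_zero)).resolve_left b.ne_zero)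
  · intro h
    rw [h, mul_zero, mul_zero]

theorem smul_ne {g : GG} {v : V} (hv : v ≠ 0) : g • v ≠ 0 := fun h => hv ((smul_eq_zero_iff_eq _).mp h)

theorem smul_mk' (g : GG) (v : V) (hv : v ≠ 0) : g • Projectivization.mk F v hv = Projectivization.mk F (g • v) (smul_ne hv) := rfl

theorem smul_mk_eq (g : Sp) {v w : V} (hv : v ≠ 0) (hw : w ≠ 0) {c : F} (h : (g : Matrix (Fin m ⊕ Fin m) (Fin m ⊕ Fin m) F) *ᵥ v = c • w) :
    toG g • Projectivization.mk F v hv = Projectivization.mk F w hw := by
  rw [smul_mk', Projectivization.mk_eq_mk_iff']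
  exact ⟨c, by rw [toG_smul]; exact h.symm⟩

theorem pretransitive : IsPretransitive GG (ℙ F V) := by
  constructor
  intro p r
  induction p using Projectivization.ind with | h v hv =>
  induction r using Projectivization.ind with | h w hw =>
  obtain ⟨g, -, hg⟩ := H_transitive hv hw
  exact ⟨toG g, smul_mk_eq g hv hw (c := 1) (by rw [hg, one_smul])⟩

theorem exists_perp_not {u v : V} (hu : u ≠ 0) (h : ¬ ∃ c : F, v = c • u) :
    ∃ z, Cfsg.sympForm m F u z = 0 ∧ Cfsg.sympForm m F v z ≠ 0 := by
  by_contra hcon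
  push Not at hcon
  obtain ⟨y, hy⟩ := exists_ne hu
  apply h
  refine ⟨Cfsg.sympForm m F v y / Cfsg.sympForm m F u y, ?_⟩
  by_contra hne
  obtain ⟨z, hz⟩ := exists_ne (sub_ne_zero.mpr hne)
  apply hz
  rw [sub_left, smul_left]
  have h1 : Cfsg.sympForm m F u (z - (Cfsg.sympForm m F u z / Cfsg.sympForm m F u y) • y) = 0 := by
    rw [sub_right, smul_right]; field_simp; ring
  have h2 := hcon _ h1
  rw [sub_right, smul_right] at h2
  field_simp at h2 ⊢
  linear_combination h2

theorem preprimitive : IsPreprimitive GG (ℙ F V) := by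
  have := pretransitive (m := m) (F := F)
  apply Prim.preprimitive_of_rel (R (m := m) (F := F))
  · intro p r
    induction p using Projectivization.ind with | h v hv =>
    induction r using Projectivization.ind with | h w hw =>
    rw [R_mk, R_mk]
    intro h
    rw [swap v w, h, neg_zero]
  · intro p z p' z' h h'
    induction p using Projectivization.ind with | h v hv =>
    induction z using Projectivization.ind with | h w hw =>
    induction p' using Projectivization.ind with | h v' hv' =>
    induction z' using Projectivization.ind with | h w' hw' =>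
    rw [R_mk] at h h'
    obtain ⟨g, -, hg1, hg2⟩ := H_transitive_pairs (m := m) (F := F) (u := v) (v := (Cfsg.sympForm m F v w)⁻¹ • w) (u' := v')
      (v' := (Cfsg.sympForm m F v' w')⁻¹ • w') (by rw [smul_right, inv_mul_cancel₀ h]) (by rw [smul_right, inv_mul_cancel₀ h'])
    refine ⟨toG g, smul_mk_eq g hv hv' (c := 1) (by rw [hg1, one_smul]),
      smul_mk_eq g hw hw' (c := Cfsg.sympForm m F v w * (Cfsg.sympForm m F v' w')⁻¹) ?_⟩
    rw [mulVec_smul] at hg2
    rw [mul_smul, ← hg2, smul_smul, mul_inv_cancel₀ h, one_smul]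
  · intro p r hpr h
    induction p using Projectivization.ind with | h u hu =>
    induction r using Projectivization.ind with | h v hv =>
    rw [R_mk] at h
    obtain ⟨z, hz1, hz2⟩ := exists_perp_not hu (v := v) (by
      rintro ⟨c, hc⟩
      apply hpr
      rw [Projectivization.mk_eq_mk_iff']
      have hc0 : c ≠ 0 := by
        rintro rfl
        rw [zero_smul] at hc
        exact hv hc
      exact ⟨c⁻¹, by rw [hc, smul_smul, inv_mul_cancel₀ hc0, one_smul]⟩)
    have hgv : (T z 1 : Matrix (Fin m ⊕ Fin m) (Fin m ⊕ Fin m) F) *ᵥ v = v + (Cfsg.sympForm m F v z) • z := by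
      rw [T_apply, one_mul]
    have hgv0 : v + (Cfsg.sympForm m F v z) • z ≠ 0 := by
      intro h0
      have := congrArg (Cfsg.sympForm m F v) h0
      rw [add_right, self, smul_right, zero_add] at this
      have h3 : Cfsg.sympForm m F v (0 : V) = 0 := by
        have := smul_right (m := m) 0 v (0 : V)
        rwa [smul_zero, zero_mul] at this
      rw [h3] at this
      exact mul_ne_zero hz2 hz2 this
    refine ⟨toG (T z 1), smul_mk_eq _ hu hu (c := 1) (by rw [T_apply, hz1, mul_zero, zero_smul, add_zero, one_smul]), ?_⟩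
    rw [smul_mk_eq (T z 1) hv hgv0 (c := 1) (by rw [hgv, one_smul]), R_mk, add_right, self, smul_right, zero_add]
    exact mul_ne_zero hz2 hz2
  · intro p t
    induction p using Projectivization.ind with | h u hu =>
    induction t using Projectivization.ind with | h v hv =>
    obtain ⟨z, hz1, hz2⟩ := exists_ne_two hu hv
    have hz : z ≠ 0 := by
      rintro rfl
      apply hz1
      have := smul_right (m := m) 0 u (0 : V)
      rwa [smul_zero, zero_mul] at this
    exact ⟨Projectivization.mk F z hz, by rw [R_mk]; exact hz1, by rw [R_mk]; exact hz2⟩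

/-! ### Simplicity -/

/-- the root group of a point -/
def root (v : V) : Subgroup GG where
  carrier := {g | ∃ c, g = toG (T v c)}
  one_mem' := ⟨0, by rw [T_zero, map_one]⟩
  mul_mem' := by
    rintro _ _ ⟨c, rfl⟩ ⟨d, rfl⟩
    exact ⟨c + d, by rw [← T_mul_T, map_mul]⟩
  inv_mem' := by
    rintro _ ⟨c, rfl⟩
    refine ⟨-c, ?_⟩
    rw [inv_eq_iff_mul_eq_one, ← map_mul, T_mul_T, add_neg_cancel, T_zero, map_one]

theorem mem_root {v : V} {g : GG} : g ∈ root v ↔ ∃ c, g = toG (T v c) := Iff.rfl

theorem root_smul {a : F} (ha : a ≠ 0) (v : V) : root (a • v) = root v := by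
  ext g
  rw [mem_root, mem_root]
  constructor
  · rintro ⟨c, rfl⟩
    exact ⟨a ^ 2 * c, by rw [T_smul]⟩
  · rintro ⟨c, rfl⟩
    refine ⟨c / a ^ 2, ?_⟩
    rw [T_smul, mul_div_cancel₀ _ (pow_ne_zero 2 ha)]

open scoped Pointwise in
theorem root_conj (g : Sp) (v : V) : root ((g : Matrix (Fin m ⊕ Fin m) (Fin m ⊕ Fin m) F) *ᵥ v) = MulAut.conj (toG g) • root v := by
  ext x
  rw [Subgroup.mem_pointwise_smul_iff_inv_smul_mem, MulAut.smul_def, ← map_inv, MulAut.conj_apply, inv_inv, mem_root, mem_root]
  constructor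
  · rintro ⟨c, rfl⟩
    refine ⟨c, ?_⟩
    rw [← conj_T, map_mul, map_mul, map_inv]; group
  · rintro ⟨c, hc⟩
    refine ⟨c, ?_⟩
    rw [← conj_T, map_mul, map_mul, map_inv, ← hc]; group

open scoped Pointwise in
noncomputable def iwasawa : IwasawaStructure GG (ℙ F V) where
  T p := root p.rep
  is_comm p := by
    constructor
    constructor
    rintro ⟨_, c, rfl⟩ ⟨_, d, rfl⟩
    apply Subtype.ext
    change toG (T p.rep c) * toG (T p.rep d) = toG (T p.rep d) * toG (T p.rep c)
    rw [← map_mul, ← map_mul, T_mul_T, T_mul_T, add_comm]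
  is_conj g p := by
    obtain ⟨s, rfl⟩ := (toG (m := m) (F := F)).surjective g
    induction p using Projectivization.ind with | h v hv =>
    obtain ⟨a, ha⟩ := Projectivization.exists_smul_eq_mk_rep F v hv
    have hgv : toG s • v ≠ 0 := by
      intro h
      exact hv ((smul_eq_zero_iff_eq _).mp h)
    obtain ⟨b, hb⟩ := Projectivization.exists_smul_eq_mk_rep F (toG s • v) hgv
    rw [smul_mk', ← hb, ← ha, Units.smul_def, Units.smul_def, root_smul b.ne_zero, root_smul a.ne_zero, toG_smul, root_conj]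
  is_generator := by
    have h1 : (⨆ p : ℙ F V, root p.rep).comap toG.toMonoidHom = ⊤ := by
      rw [eq_top_iff, ← H_eq_top, Symp.H, Subgroup.closure_le]
      rintro A ⟨w, c, hA⟩
      have hA' : A = T w c := Subtype.ext hA
      rw [hA']
      by_cases hw : w = 0
      · subst hw
        have : (T (0 : V) c : Sp) = 1 := by
          apply Sp_ext
          intro x
          rw [T_apply, smul_zero, add_zero]; simp
        rw [this]; exact Subgroup.one_mem _
      · change toG (T w c) ∈ ⨆ p : ℙ F V, root p.rep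
        apply Subgroup.mem_iSup_of_mem (Projectivization.mk F w hw)
        obtain ⟨a, ha⟩ := Projectivization.exists_smul_eq_mk_rep F w hw
        rw [← ha, Units.smul_def, root_smul a.ne_zero]
        exact ⟨c, rfl⟩
    rw [eq_top_iff]
    intro g _
    obtain ⟨s, rfl⟩ := (toG (m := m) (F := F)).surjective g
    have : s ∈ (⨆ p : ℙ F V, root p.rep).comap toG.toMonoidHom := by rw [h1]; exact Subgroup.mem_top _
    exact this


theorem kernel_center {g : GG} (hg : ∀ p : ℙ F V, g • p = p) : g ∈ Subgroup.center GG := by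
  obtain ⟨s, rfl⟩ := (toG (m := m) (F := F)).surjective g
  obtain ⟨c, hc⟩ := Prim.scalar_of_lines (Matrix.mulVecLin (s : Matrix (Fin m ⊕ Fin m) (Fin m ⊕ Fin m) F)) (by
    intro v
    by_cases hv : v = 0
    · exact ⟨0, by rw [hv, map_zero, smul_zero]⟩
    · have h := hg (Projectivization.mk F v hv)
      rw [smul_mk', Projectivization.mk_eq_mk_iff'] at h
      obtain ⟨c, hc⟩ := h
      exact ⟨c, by rw [Matrix.mulVecLin_apply, ← toG_smul, ← hc]⟩)
  have hc' : ∀ v : V, (s : Matrix (Fin m ⊕ Fin m) (Fin m ⊕ Fin m) F) *ᵥ v = c • v := hc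
  rw [Subgroup.mem_center_iff]
  intro h
  obtain ⟨t, rfl⟩ := (toG (m := m) (F := F)).surjective h
  rw [← map_mul, ← map_mul]
  congr 1
  apply Sp_ext
  intro x
  rw [Submonoid.coe_mul, Submonoid.coe_mul, ← Matrix.mulVec_mulVec, ← Matrix.mulVec_mulVec, hc', hc', mulVec_smul]

theorem simple [Fintype F] (hm : 1 ≤ m) (h : 3 ≤ m ∨ (m = 2 ∧ 3 ≤ Fintype.card F) ∨ 4 ≤ Fintype.card F) :
    IsSimpleGroup (Cfsg.PSp m F) := by
  have h1 := preprimitive (m := m) (F := F)
  have hperf : commutator GG = ⊤ := by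
    rw [← top_le_iff]
    intro g _
    obtain ⟨s, rfl⟩ := (toG (m := m) (F := F)).surjective g
    have h2 := perfect (m := m) h
    have h3 : s ∈ commutator Sp := by rw [h2]; exact Subgroup.mem_top _
    have h4 : toG s ∈ (commutator Sp).map toG.toMonoidHom := ⟨s, h3, rfl⟩
    rw [commutator_def, Subgroup.map_commutator] at h4
    exact Subgroup.commutator_mono le_top le_top h4
  have hnt : Nontrivial GG := by
    let v : V := Pi.single (Sum.inl ⟨0, by omega⟩) 1
    have hv : v ≠ 0 := by simp [v]
    obtain ⟨y, hy⟩ := exists_ne hv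
    refine ⟨toG (T v 1), 1, ?_⟩
    intro h
    have h2 : (T v 1 : Sp) = 1 := toG.injective (by rw [h, map_one])
    have h3 := T_apply v 1 y
    rw [h2] at h3
    have h4 : (1 * Cfsg.sympForm m F y v) • v = 0 := by
      have : ((1 : Sp) : Matrix (Fin m ⊕ Fin m) (Fin m ⊕ Fin m) F) *ᵥ y = y := by simp
      rw [this] at h3
      exact (add_eq_left.mp h3.symm)
    rcases smul_eq_zero.mp h4 with h5 | h5
    · apply hy
      rw [swap y v, ← one_mul (Cfsg.sympForm m F y v), h5, neg_zero]
    · exact hv h5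
  have hs := Iwa.isSimpleGroup_quotient_center (iwasawa (m := m) (F := F)) hperf (fun g hg => kernel_center hg)
  let e : Cfsg.PSp m F ≃* (GG ⧸ Subgroup.center GG) :=
    QuotientGroup.congr _ _ toG (by
      ext g
      constructor
      · rintro ⟨k, hk, rfl⟩
        rw [Subgroup.mem_center_iff]
        intro h
        obtain ⟨t, rfl⟩ := (toG (m := m) (F := F)).surjective h
        change toG t * toG k = toG k * toG t
        rw [← map_mul, ← map_mul, (Subgroup.mem_center_iff.mp hk) t]
      · intro hg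
        obtain ⟨k, rfl⟩ := (toG (m := m) (F := F)).surjective g
        refine ⟨k, ?_, rfl⟩
        change k ∈ Subgroup.center Sp
        rw [Subgroup.mem_center_iff]
        intro t
        apply toG.injective
        rw [map_mul, map_mul]
        exact (Subgroup.mem_center_iff.mp hg) (toG t))
  exact e.isSimpleGroup


end Cfsg.Agent.H5.SpSim
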