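import Cfsg.Agent.H16_PSp5
import Cfsg.Agent.H5_SpSim
import Cfsg.Agent.H5_AutO

set_option autoImplicit false

/-! The exceptional automorphism of `Sp₄` in characteristic two. -/

namespace Cfsg.Agent.H5.Sp4e

open Matrix Cfsg.Agent.H5.Symp Cfsg.Agent.H5.Conc

variable {F : Type*} [Field F]

/-- the pairs of indices. -/
def P : Fin 2 ⊕ Fin 2 → (Fin 2 ⊕ Fin 2) × (Fin 2 ⊕ Fin 2)
  | Sum.inl 0 => (Sum.inl 0, Sum.inl 1)
  | Sum.inl 1 => (Sum.inl 0, Sum.inr 1)
  | Sum.inr 0 => (Sum.inr 0, Sum.inr 1)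
  | Sum.inr 1 => (Sum.inr 0, Sum.inl 1)

theorem P0 : P (Sum.inl 0) = (Sum.inl 0, Sum.inl 1) := rfl
theorem P1 : P (Sum.inl 1) = (Sum.inl 0, Sum.inr 1) := rfl
theorem P2 : P (Sum.inr 0) = (Sum.inr 0, Sum.inr 1) := rfl
theorem P3 : P (Sum.inr 1) = (Sum.inr 0, Sum.inl 1) := rfl

/-- the compound matrix. -/
def cmp (g : Matrix (Fin 2 ⊕ Fin 2) (Fin 2 ⊕ Fin 2) F) : Matrix (Fin 2 ⊕ Fin 2) (Fin 2 ⊕ Fin 2) F :=
  Matrix.of fun i j => g (P i).1 (P j).1 * g (P i).2 (P j).2 - g (P i).1 (P j).2 * g (P i).2 (P j).1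

/-- the form on rows. -/
def br (g : Matrix (Fin 2 ⊕ Fin 2) (Fin 2 ⊕ Fin 2) F) (a b : Fin 2 ⊕ Fin 2) : F :=
  g a (Sum.inl 0) * g b (Sum.inr 0) - g a (Sum.inr 0) * g b (Sum.inl 0) +
    (g a (Sum.inl 1) * g b (Sum.inr 1) - g a (Sum.inr 1) * g b (Sum.inl 1))

theorem mulJ (g : Matrix (Fin 2 ⊕ Fin 2) (Fin 2 ⊕ Fin 2) F) (a b : Fin 2 ⊕ Fin 2) :
    (g * Matrix.J (Fin 2) F * gᵀ) a b = - br g a b := by
  simp only [Matrix.mul_apply, Matrix.J, Matrix.transpose_apply, Fintype.sum_sum_type, Fin.sum_univ_two, br,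
    Matrix.fromBlocks_apply₁₁, Matrix.fromBlocks_apply₁₂, Matrix.fromBlocks_apply₂₁, Matrix.fromBlocks_apply₂₂,
    Matrix.zero_apply, Matrix.neg_apply, Matrix.one_apply_eq, Matrix.one_apply_ne (show (0 : Fin 2) ≠ 1 by decide),
    Matrix.one_apply_ne (show (1 : Fin 2) ≠ 0 by decide)]
  ring

theorem br_of {g : Matrix (Fin 2 ⊕ Fin 2) (Fin 2 ⊕ Fin 2) F} (hg : g ∈ Matrix.symplecticGroup (Fin 2) F)
    (a b : Fin 2 ⊕ Fin 2) : br g a b = - Matrix.J (Fin 2) F a b := by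
  have h1 := SymplecticGroup.mem_iff.mp hg
  rw [← h1, mulJ, neg_neg]

theorem br_tr {g : Matrix (Fin 2 ⊕ Fin 2) (Fin 2 ⊕ Fin 2) F} (hg : g ∈ Matrix.symplecticGroup (Fin 2) F)
    (a b : Fin 2 ⊕ Fin 2) : br gᵀ a b = - Matrix.J (Fin 2) F a b := by
  have h1 := SymplecticGroup.transpose_mem hg
  exact br_of h1 a b

theorem J_P (j : Fin 2 ⊕ Fin 2) : Matrix.J (Fin 2) F (P j).1 (P j).2 = 0 := by
  rcases j with j | j <;> fin_cases j <;> simp [P, Matrix.J]

theorem cmp_mul (h2 : (2 : F) = 0) {g h : Matrix (Fin 2 ⊕ Fin 2) (Fin 2 ⊕ Fin 2) F}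
    (hg : g ∈ Matrix.symplecticGroup (Fin 2) F) (hh : h ∈ Matrix.symplecticGroup (Fin 2) F) :
    cmp (g * h) = cmp g * cmp h := by
  ext i j
  have h3 := br_of hg (P i).1 (P i).2
  have h4 := br_tr hh (P j).1 (P j).2
  rw [J_P, neg_zero] at h3 h4
  generalize hi : P i = ab at h3 
  generalize hj : P j = cd at h4 
  obtain ⟨a, b⟩ := ab
  obtain ⟨c, d⟩ := cd
  simp only [cmp, Matrix.of_apply, Matrix.mul_apply, Fintype.sum_sum_type, Fin.sum_univ_two, P0, P1, P2, P3, hi, hj, br,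
    Matrix.transpose_apply] at h3 h4 ⊢
  linear_combination (g a (Sum.inl 1) * g b (Sum.inr 1) - g a (Sum.inr 1) * g b (Sum.inl 1)) * h4 +
    (h (Sum.inl 0) c * h (Sum.inr 0) d - h (Sum.inr 0) c * h (Sum.inl 0) d) * h3 -
    (g a (Sum.inl 1) * g b (Sum.inr 1) - g a (Sum.inr 1) * g b (Sum.inl 1)) *
    (h (Sum.inl 0) c * h (Sum.inr 0) d - h (Sum.inr 0) c * h (Sum.inl 0) d) * h2

theorem cmp_one : cmp (1 : Matrix (Fin 2 ⊕ Fin 2) (Fin 2 ⊕ Fin 2) F) = 1 := by
  ext i j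
  rcases i with i | i <;> rcases j with j | j <;> fin_cases i <;> fin_cases j <;>
    simp [cmp, P, Matrix.one_apply]

theorem cmp_mem (h2 : (2 : F) = 0) {g : Matrix (Fin 2 ⊕ Fin 2) (Fin 2 ⊕ Fin 2) F}
    (hg : g ∈ Matrix.symplecticGroup (Fin 2) F) : cmp g ∈ Matrix.symplecticGroup (Fin 2) F := by
  rw [SymplecticGroup.mem_iff]
  ext i j
  rw [mulJ]
  have h1 : br (cmp g) i j = br g (P i).1 (P j).1 * br g (P i).2 (P j).2 - br g (P i).1 (P j).2 * br g (P i).2 (P j).1 := by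
    have h3 := br_of hg (P i).1 (P i).2
    have h4 := br_of hg (P j).1 (P j).2
    rw [J_P, neg_zero] at h3 h4
    generalize hi : P i = ab at h3 
    generalize hj : P j = cd at h4 
    obtain ⟨a, b⟩ := ab
    obtain ⟨c, d⟩ := cd
    simp only [cmp, Matrix.of_apply, P0, P1, P2, P3, hi, hj, br] at h3 h4 ⊢
    let M : (Fin 2 ⊕ Fin 2) → (Fin 2 ⊕ Fin 2) → (Fin 2 ⊕ Fin 2) → (Fin 2 ⊕ Fin 2) → F :=
      fun a b x y => g a x * g b y - g a y * g b x
    have hM : ∀ a b x y, M a b x y = g a x * g b y - g a y * g b x := fun _ _ _ _ => rfl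
    have key : ∀ e1 e2 f1 f2 : Fin 2 ⊕ Fin 2, M a b e1 f1 + M a b e2 f2 = 0 → M c d e1 f1 + M c d e2 f2 = 0 →
        M a b e1 e2 * M c d f1 f2 - M a b f1 f2 * M c d e1 e2 + (M a b e1 f2 * M c d f1 e2 - M a b f1 e2 * M c d e1 f2) =
        (M a c e1 f1 + M a c e2 f2) * (M b d e1 f1 + M b d e2 f2) - (M a d e1 f1 + M a d e2 f2) * (M b c e1 f1 + M b c e2 f2) := by
      intro e1 e2 f1 f2 k1 k2
      have k3 : M a b e1 e2 * M c d f1 f2 - M a b f1 f2 * M c d e1 e2 + (M a b e1 f2 * M c d f1 e2 - M a b f1 e2 * M c d e1 f2) -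
        ((M a c e1 f1 + M a c e2 f2) * (M b d e1 f1 + M b d e2 f2) - (M a d e1 f1 + M a d e2 f2) * (M b c e1 f1 + M b c e2 f2)) =
        M c d e1 f1 * (M a b e1 f1 + M a b e2 f2) + M a b e1 f1 * (M c d e1 f1 + M c d e2 f2) +
        (M a b e1 f1 + M a b e2 f2) * (M c d e1 f1 + M c d e2 f2) +
        (- 2 * g a e1 * g b f1 * g c e1 * g d f1 - g a e1 * g b f1 * g c e2 * g d f2 + 2 * g a e1 * g b f1 *
          g c f1 * g d e1 + g a e1 * g b f1 * g c f2 * g d e2 - g a e1 * g b f2 * g c e2 * g d f1 + g a e1 * g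
          b f2 * g c f1 * g d e2 - g a e2 * g b f2 * g c e1 * g d f1 - g a e2 * g b f2 * g c e2 * g d f2 + g a
          e2 * g b f2 * g c f1 * g d e1 + g a e2 * g b f2 * g c f2 * g d e2 + 2 * g a f1 * g b e1 * g c e1 * g
          d f1 + g a f1 * g b e1 * g c e2 * g d f2 - 2 * g a f1 * g b e1 * g c f1 * g d e1 - g a f1 * g b e1 *
          g c f2 * g d e2 - g a f1 * g b f2 * g c e1 * g d e2 + g a f1 * g b f2 * g c e2 * g d e1 + g a f2 * g
          b e1 * g c e2 * g d f1 - g a f2 * g b e1 * g c f1 * g d e2 + g a f2 * g b e2 * g c e1 * g d f1 + g a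
          f2 * g b e2 * g c e2 * g d f2 - g a f2 * g b e2 * g c f1 * g d e1 - g a f2 * g b e2 * g c f2 * g d
          e2 + g a f2 * g b f1 * g c e1 * g d e2 - g a f2 * g b f1 * g c e2 * g d e1) * 2 := by
        simp only [hM]
        ring
      rw [k1, k2, h2, mul_zero, mul_zero, mul_zero, mul_zero, add_zero, add_zero, add_zero, sub_eq_zero] at k3
      exact k3
    have k4 := key (Sum.inl 0) (Sum.inl 1) (Sum.inr 0) (Sum.inr 1) h3 h4
    simp only [hM] at k4
    exact k4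
  rw [h1, br_of hg, br_of hg, br_of hg, br_of hg]
  rcases i with i | i <;> rcases j with j | j <;> fin_cases i <;> fin_cases j <;>
    simp [P, Matrix.J]
  all_goals first
    | linear_combination h2
    | linear_combination (-1 : F) * h2
    | linear_combination (-2 : F) * h2
    | linear_combination (2 : F) * h2

/-- the exceptional endomorphism. -/
def phi (h2 : (2 : F) = 0) : Matrix.symplecticGroup (Fin 2) F →* Matrix.symplecticGroup (Fin 2) F where
  toFun g := ⟨cmp g.1, cmp_mem h2 g.2⟩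
  map_one' := Subtype.ext cmp_one
  map_mul' g h := Subtype.ext (cmp_mul h2 g.2 h.2)

theorem phi_coe (h2 : (2 : F) = 0) (g : Matrix.symplecticGroup (Fin 2) F) :
    ((phi h2 g : Matrix.symplecticGroup (Fin 2) F) : Matrix (Fin 2 ⊕ Fin 2) (Fin 2 ⊕ Fin 2) F) = cmp g := rfl

/-- a short root element. -/
def t1m : Matrix (Fin 2 ⊕ Fin 2) (Fin 2 ⊕ Fin 2) F :=
  1 + Matrix.single (Sum.inl 1) (Sum.inr 0) 1 + Matrix.single (Sum.inl 0) (Sum.inr 1) 1

theorem t1m_mem : (t1m : Matrix (Fin 2 ⊕ Fin 2) (Fin 2 ⊕ Fin 2) F) ∈ Matrix.symplecticGroup (Fin 2) F := by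
  rw [SymplecticGroup.mem_iff]
  ext i j
  rw [mulJ]
  rcases i with i | i <;> rcases j with j | j <;> fin_cases i <;> fin_cases j <;>
    simp [br, t1m, Matrix.J, Matrix.single_apply, Matrix.one_apply]

def t1 : Matrix.symplecticGroup (Fin 2) F := ⟨t1m, t1m_mem⟩

theorem phi_t1 (h2 : (2 : F) = 0) : phi h2 t1 = T (Pi.single (Sum.inl 0) 1) 1 := by
  apply Sp_ext
  intro x
  rw [T_apply, phi_coe]
  have hx : ∀ i, x i + x i = 0 := fun i => by rw [← two_mul, h2, zero_mul]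
  funext i
  rcases i with i | i <;> fin_cases i <;>
    simp [cmp, P, t1, t1m, Matrix.mulVec, dotProduct, Fintype.sum_sum_type, Fin.sum_univ_two, Matrix.single_apply,
      Matrix.one_apply, Cfsg.sympForm, Matrix.J]
  linear_combination (-(x (Sum.inr 0))) * h2

section Tr

local notation "V" => (Fin 2 ⊕ Fin 2 → F)
local notation "Sp" => Matrix.symplecticGroup (Fin 2) F
local notation "bb" => Cfsg.sympForm 2 F

/-- the action. -/
local notation:75 s:75 " • " x:76 => ((s : Matrix.symplecticGroup (Fin 2) F) : Matrix (Fin 2 ⊕ Fin 2) (Fin 2 ⊕ Fin 2) F) *ᵥ x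

theorem form (s : Sp) (x y : V) : bb (s.1 *ᵥ x) (s.1 *ᵥ y) = bb x y := (mem_symplecticGroup_iff s.1).mp s.2 x y

theorem eq_of_form {x y : V} (h : ∀ z, bb z x = bb z y) : x = y := by
  by_contra hne
  obtain ⟨v, hv⟩ := exists_ne (sub_ne_zero.mpr hne)
  apply hv
  rw [Symp.swap, sub_right, h, sub_self, neg_zero]

theorem ssym (h2 : (2 : F) = 0) (x y : V) : bb x y = bb y x := by
  rw [Symp.swap x y]
  linear_combination (bb x y) * h2

theorem T_inj (h2 : (2 : F) = 0) {v w : V} (h : (T v 1 : Sp) = T w 1) : v = w := by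
  have h1 : ∀ x : V, (bb x v) • v = (bb x w) • w := by
    intro x
    have h3 := congrArg (fun s : Sp => s.1 *ᵥ x) h
    simp only [T_apply, one_mul] at h3
    exact add_left_cancel h3
  by_cases hv : v = 0
  · by_contra hne
    have hw : w ≠ 0 := fun h => hne (by rw [hv, h])
    obtain ⟨x, hx⟩ := exists_ne hw
    have h3 := h1 x
    rw [hv, smul_zero] at h3
    rcases smul_eq_zero.mp h3.symm with h4 | h4
    · apply hx
      rw [ssym h2, h4]
    · exact hw h4
  · obtain ⟨x, hx⟩ := exists_ne hv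
    rw [ssym h2] at hx
    set a := (bb x v)⁻¹ * bb x w with ha
    have h3 : v = a • w := by
      have := congrArg (fun z => (bb x v)⁻¹ • z) (h1 x)
      simp only [smul_smul, inv_mul_cancel₀ hx, one_smul] at this
      exact this
    have hw : w ≠ 0 := by
      rintro rfl
      rw [smul_zero] at h3
      exact hv h3
    obtain ⟨y, hy⟩ := exists_ne hw
    rw [ssym h2] at hy
    have h4 := h1 y
    rw [h3, smul_right, smul_smul] at h4
    have h5 : (a * bb y w * a - bb y w) • w = 0 := by rw [sub_smul, h4, sub_self]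
    rcases smul_eq_zero.mp h5 with h6 | h6
    · have h7 : a * a = 1 := by
        apply mul_right_cancel₀ hy
        linear_combination h6
      have h8 : (a - 1) * (a - 1) = 0 := by linear_combination h7 - (a - 1) * h2
      have h9 : a = 1 := by
        rcases mul_eq_zero.mp h8 with h | h <;> linear_combination h
      rw [h3, h9, one_smul]
    · exact absurd h6 hw

theorem T_ne_one {v : V} (hv : v ≠ 0) : (T v 1 : Sp) ≠ 1 := by
  intro h
  obtain ⟨x, hx⟩ := exists_ne hv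
  have h3 := congrArg (fun s : Sp => s.1 *ᵥ x) h
  simp only [T_apply, one_mul, OneMemClass.coe_one, one_mulVec, add_eq_left] at h3
  rcases smul_eq_zero.mp h3 with h4 | h4
  · apply hx
    rw [Symp.swap, h4, neg_zero]
  · exact hv h4

theorem T_sq (h2 : (2 : F) = 0) (v : V) : (T v 1 : Sp) * T v 1 = 1 := by
  rw [T_mul_T, one_add_one_eq_two, h2, T_zero]

/-- commuting with a transvection. -/
theorem comm_T (h2 : (2 : F) = 0) (s : Sp) (w : V) : Commute s (T w 1) ↔ s.1 *ᵥ w = w := by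
  constructor
  · intro h
    have h1 := conj_T s w 1
    rw [h.eq, mul_inv_cancel_right] at h1
    exact (T_inj h2 h1).symm
  · intro h
    have h1 := conj_T s w 1
    rw [h, mul_inv_eq_iff_eq_mul] at h1
    exact h1

theorem comm_TT (h2 : (2 : F) = 0) {v w : V} (hv : v ≠ 0) : Commute (T v 1 : Sp) (T w 1) ↔ bb w v = 0 := by
  rw [comm_T h2, T_apply, one_mul, add_eq_left, smul_eq_zero]
  simp [hv]

end Tr


section Cls

local notation "V" => (Fin 2 ⊕ Fin 2 → F)
local notation "Sp" => Matrix.symplecticGroup (Fin 2) F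
local notation "bb" => Cfsg.sympForm 2 F

theorem exists_transl {v w : V} (hv : v ≠ 0) (hw : w ≠ 0) : ∃ g : Sp, g.1 *ᵥ v = w := by
  obtain ⟨g, -, hg⟩ := H_transitive hv hw
  exact ⟨g, hg⟩

theorem card_cent_conj {G : Type*} [Group G] (g s : G) :
    Nat.card (Subgroup.centralizer {g * s * g⁻¹}) = Nat.card (Subgroup.centralizer {s}) := by
  apply Nat.card_congr
  refine ⟨fun x => ⟨g⁻¹ * x * g, ?_⟩, fun x => ⟨g * x * g⁻¹, ?_⟩, fun x => ?_, fun x => ?_⟩
  · have h := Subgroup.mem_centralizer_singleton_iff.mp x.2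
    rw [Subgroup.mem_centralizer_singleton_iff]
    calc g⁻¹ * (x : G) * g * s = g⁻¹ * ((x : G) * (g * s * g⁻¹)) * g := by group
      _ = g⁻¹ * ((g * s * g⁻¹) * (x : G)) * g := by rw [h]
      _ = _ := by group
  · have h := Subgroup.mem_centralizer_singleton_iff.mp x.2
    rw [Subgroup.mem_centralizer_singleton_iff]
    calc g * (x : G) * g⁻¹ * (g * s * g⁻¹) = g * ((x : G) * s) * g⁻¹ := by group
      _ = g * (s * (x : G)) * g⁻¹ := by rw [h]
      _ = _ := by group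
  · apply Subtype.ext
    change g * (g⁻¹ * (x : G) * g) * g⁻¹ = x
    group
  · apply Subtype.ext
    change g⁻¹ * (g * (x : G) * g⁻¹) * g = x
    group

variable [Finite F]

instance finSp : Finite Sp :=
  Finite.of_injective (fun s : Sp => (s : Matrix (Fin 2 ⊕ Fin 2) (Fin 2 ⊕ Fin 2) F)) Subtype.val_injective

theorem exists_sqrt (h2 : (2 : F) = 0) (a : F) : ∃ b, b * b = a := by
  have : CharP F 2 := CharTwo.of_one_ne_zero_of_two_eq_zero one_ne_zero h2
  obtain ⟨b, hb⟩ := (frobeniusEquiv F 2).surjective a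
  refine ⟨b, ?_⟩
  rw [← hb, frobeniusEquiv_apply, frobenius_def, sq]

omit [Finite F] in
theorem sq_inj (h2 : (2 : F) = 0) {a b : F} (h : a * a = b * b) : a = b := by
  have h8 : (a - b) * (a - b) = 0 := by linear_combination h - (b * (a - b)) * h2
  rcases mul_eq_zero.mp h8 with h | h <;> linear_combination h

omit [Finite F] in
theorem inv_swap {s : Sp} (hs : s * s = 1) (x y : V) : bb (s.1 *ᵥ x) y = bb x (s.1 *ᵥ y) := by
  rw [← form s x (s.1 *ᵥ y), mulVec_mulVec]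
  have h1 : s.1 * s.1 = 1 := congrArg Subtype.val hs
  rw [h1, one_mulVec]

/-- every additive square form is represented. -/
theorem exists_rep (h2 : (2 : F) = 0) {s : Sp} (hs : s * s = 1) : ∃ u : V, ∀ x, bb x u * bb x u = bb x (s.1 *ᵥ x) := by
  choose r hr using exists_sqrt (F := F) h2
  have hadd : ∀ x y : V, r (bb (x + y) (s.1 *ᵥ (x + y))) = r (bb x (s.1 *ᵥ x)) + r (bb y (s.1 *ᵥ y)) := by
    intro x y
    apply sq_inj h2
    rw [hr, mulVec_add, Symp.add_left, Symp.add_right, Symp.add_right, ← inv_swap hs x y, ssym h2 (s.1 *ᵥ x) y]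
    linear_combination -hr (bb x (s.1 *ᵥ x)) - hr (bb y (s.1 *ᵥ y)) +
      (bb y (s.1 *ᵥ x) - r (bb x (s.1 *ᵥ x)) * r (bb y (s.1 *ᵥ y))) * h2
  have hsm : ∀ (a : F) (x : V), r (bb (a • x) (s.1 *ᵥ (a • x))) = a * r (bb x (s.1 *ᵥ x)) := by
    intro a x
    apply sq_inj h2
    rw [hr, mulVec_smul, Symp.smul_left, Symp.smul_right]
    linear_combination (-a * a) * hr (bb x (s.1 *ᵥ x))
  let l : V →ₗ[F] F := { toFun := fun x => r (bb x (s.1 *ᵥ x)), map_add' := hadd, map_smul' := hsm }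
  refine ⟨-(Matrix.J (Fin 2) F *ᵥ fun i => l (Pi.single i 1)), fun x => ?_⟩
  have h1 : bb x (-(Matrix.J (Fin 2) F *ᵥ fun i => l (Pi.single i 1))) = l x := by
    rw [Cfsg.sympForm, mulVec_neg, mulVec_mulVec, Matrix.J_squared, neg_mulVec, neg_neg, one_mulVec]
    conv_rhs => rw [pi_eq_sum_univ' x]
    rw [map_sum, dotProduct]
    refine Finset.sum_congr rfl fun i _ => ?_
    rw [map_smul, smul_eq_mul]
  rw [h1]
  exact hr _

omit [Finite F] in
theorem eq_T_of_fix (h2 : (2 : F) = 0) {s : Sp} {u : V} (hu : u ≠ 0) (h : ∀ w, bb w u = 0 → s.1 *ᵥ w = w) :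
    ∃ c, s = T u c := by
  obtain ⟨x, hx⟩ := exists_ne hu
  rw [ssym h2] at hx
  set x₁ := (bb x u)⁻¹ • x with hx₁
  have h1 : bb x₁ u = 1 := by rw [hx₁, Symp.smul_left, inv_mul_cancel₀ hx]
  set z := s.1 *ᵥ x₁ - x₁ with hz
  have hsy : ∀ y, s.1 *ᵥ y = y + (bb y u) • z := by
    intro y
    have h3 : bb (y - (bb y u) • x₁) u = 0 := by rw [Symp.sub_left, Symp.smul_left, h1, mul_one, sub_self]
    have h4 := h _ h3
    rw [mulVec_sub, mulVec_smul] at h4
    have h5 : s.1 *ᵥ y = y - (bb y u) • x₁ + (bb y u) • (s.1 *ᵥ x₁) := by rw [← h4]; abel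
    rw [h5, hz, smul_sub]
    abel
  have hz2 : ∀ w, bb w u = 0 → bb w z = 0 := by
    intro w hw
    have h3 := form s w x₁
    rw [h w hw] at h3
    rw [hz, Symp.sub_right, h3, sub_self]
  have hz3 : z = (bb x₁ z) • u := by
    apply eq_of_form
    intro y
    have h3 : bb (y - (bb y u) • x₁) u = 0 := by rw [Symp.sub_left, Symp.smul_left, h1, mul_one, sub_self]
    have h4 := hz2 _ h3
    rw [Symp.sub_left, Symp.smul_left] at h4
    rw [Symp.smul_right]
    linear_combination h4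
  refine ⟨bb x₁ z, ?_⟩
  apply Sp_ext
  intro y
  rw [T_apply]
  refine (hsy y).trans ?_
  rw [mul_comm, mul_smul, ← hz3]

theorem T_eq_T1 (h2 : (2 : F) = 0) (u : V) (c : F) : ∃ w, (T u c : Sp) = T w 1 := by
  obtain ⟨b, hb⟩ := exists_sqrt h2 c
  exact ⟨b • u, by rw [T_smul, mul_one, sq, hb]⟩

/-- the dichotomy. -/
theorem dich (h2 : (2 : F) = 0) {s : Sp} (hs : s * s = 1) {v : V} (hv : v ≠ 0)
    (hc : Nat.card (Subgroup.centralizer {s}) = Nat.card (Subgroup.centralizer {(T v 1 : Sp)})) :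
    (∀ x, bb x (s.1 *ᵥ x) = 0) ∨ ∃ w, s = T w 1 := by
  by_cases hx : ∀ x, bb x (s.1 *ᵥ x) = 0
  · exact Or.inl hx
  right
  push Not at hx
  obtain ⟨x₀, hx₀⟩ := hx
  obtain ⟨u, hu⟩ := exists_rep h2 hs
  have hu0 : u ≠ 0 := by
    rintro rfl
    apply hx₀
    rw [← hu, show bb x₀ (0 : V) = 0 by rw [← zero_smul F (0 : V), Symp.smul_right, zero_mul], mul_zero]
  have h1 : Subgroup.centralizer {s} ≤ Subgroup.centralizer {(T u 1 : Sp)} := by
    intro g hg
    have hg' := Subgroup.mem_centralizer_singleton_iff.mp hg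
    rw [Subgroup.mem_centralizer_singleton_iff]
    refine (comm_T h2 g u).mpr ?_
    apply eq_of_form
    intro y
    have h3 : y = g.1 *ᵥ (g⁻¹.1 *ᵥ y) := by
      rw [mulVec_mulVec]
      have : g.1 * g⁻¹.1 = 1 := congrArg Subtype.val (mul_inv_cancel g)
      rw [this, one_mulVec]
    rw [h3]
    generalize g⁻¹.1 *ᵥ y = x
    rw [form]
    apply sq_inj h2
    rw [hu, hu]
    have h4 : s.1 *ᵥ (g.1 *ᵥ x) = g.1 *ᵥ (s.1 *ᵥ x) := by
      rw [mulVec_mulVec, mulVec_mulVec]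
      have h4 : g.1 * s.1 = s.1 * g.1 := congrArg Subtype.val hg'
      rw [h4]
    rw [h4, form]
  obtain ⟨g, hg⟩ := exists_transl hv hu0
  have h3 : Nat.card (Subgroup.centralizer {(T u 1 : Sp)}) = Nat.card (Subgroup.centralizer {(T v 1 : Sp)}) := by
    rw [← hg, ← conj_T, card_cent_conj]
  have h4 := Subgroup.eq_of_le_of_card_ge h1 (by rw [h3, hc])
  obtain ⟨c, hc'⟩ := eq_T_of_fix h2 (s := s) hu0 (by
    intro w hw
    have h5 : (T w 1 : Sp) ∈ Subgroup.centralizer {(T u 1 : Sp)} := by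
      rw [Subgroup.mem_centralizer_singleton_iff]
      exact ((comm_TT h2 hu0).mpr hw).symm
    rw [← h4, Subgroup.mem_centralizer_singleton_iff] at h5
    exact (comm_T h2 s w).mp h5.symm)
  obtain ⟨w, hw⟩ := T_eq_T1 h2 u c
  exact ⟨w, hc'.trans hw⟩

end Cls


section Conj

local notation "V" => (Fin 2 ⊕ Fin 2 → F)
local notation "Sp" => Matrix.symplecticGroup (Fin 2) F
local notation "bb" => Cfsg.sympForm 2 F

theorem exists_basis {b : Fin 2 ⊕ Fin 2 → V} (h : ∀ i j, bb (b i) (b j) = Matrix.J (Fin 2) F i j) :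
    ∃ g : Sp, ∀ j, g.1 *ᵥ (Pi.single j 1) = b j := by
  refine ⟨⟨Matrix.of fun i j => b j i, ?_⟩, ?_⟩
  · rw [SymplecticGroup.mem_iff']
    ext i j
    rw [← h i j, Matrix.mul_assoc, Matrix.mul_apply, Cfsg.sympForm, dotProduct]
    rfl
  · intro j
    funext i
    rw [Matrix.mulVec_single_one]
    rfl

theorem form_add (x y : V) (a : F) (z : V) : bb x (y + a • z) = bb x y + a * bb x z := by
  rw [Symp.add_right, Symp.smul_right]

theorem ext_single {s t : Sp} (h : ∀ j, s.1 *ᵥ (Pi.single j 1) = t.1 *ᵥ (Pi.single j 1)) : s = t := by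
  apply Subtype.ext
  ext i j
  have := congrFun (h j) i
  rw [Matrix.mulVec_single_one, Matrix.mulVec_single_one] at this
  exact this

theorem t1_single : (t1 : Sp).1 *ᵥ (Pi.single (Sum.inl 0) 1) = Pi.single (Sum.inl 0) 1 ∧
    (t1 : Sp).1 *ᵥ (Pi.single (Sum.inl 1) 1) = Pi.single (Sum.inl 1) 1 ∧
    (t1 : Sp).1 *ᵥ (Pi.single (Sum.inr 0) 1) = Pi.single (Sum.inr 0) 1 + Pi.single (Sum.inl 1) 1 ∧
    (t1 : Sp).1 *ᵥ (Pi.single (Sum.inr 1) 1) = Pi.single (Sum.inr 1) 1 + Pi.single (Sum.inl 0) 1 := by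
  refine ⟨?_, ?_, ?_, ?_⟩ <;>
  · rw [Matrix.mulVec_single_one]
    funext i
    rcases i with i | i <;> fin_cases i <;> simp [t1, t1m, Matrix.single_apply, Matrix.one_apply, Pi.single_apply]

theorem exists_conj (h2 : (2 : F) = 0) {s : Sp} (hs : s * s = 1) (hs1 : s ≠ 1) (hb : ∀ x, bb x (s.1 *ᵥ x) = 0) :
    ∃ g : Sp, s = g * t1 * g⁻¹ := by
  have hss : ∀ x : V, s.1 *ᵥ (s.1 *ᵥ x) = x := by
    intro x
    rw [mulVec_mulVec]
    have h1 : s.1 * s.1 = 1 := congrArg Subtype.val hs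
    rw [h1, one_mulVec]
  have hneg : ∀ x : V, -x = x := by
    intro x
    funext i
    rw [Pi.neg_apply]
    linear_combination (-(x i)) * h2
  obtain ⟨x, hx⟩ : ∃ x : V, s.1 *ᵥ x ≠ x := by
    by_contra hcon
    push Not at hcon
    apply hs1
    apply Sp_ext
    intro x
    rw [hcon]
    exact (one_mulVec x).symm
  obtain ⟨y₀, hy₀⟩ := exists_ne (sub_ne_zero.mpr hx)
  set y := (bb (s.1 *ᵥ x - x) y₀)⁻¹ • y₀ with hy
  have h1 : bb (s.1 *ᵥ x - x) y = 1 := by rw [hy, Symp.smul_right, inv_mul_cancel₀ hy₀]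
  rw [Symp.sub_left] at h1
  clear_value y
  have hxs := hb x
  have hys := hb y
  have h3 : bb x (s.1 *ᵥ y) = bb (s.1 *ᵥ x) y := (inv_swap hs x y).symm
  have h4 : bb (s.1 *ᵥ x) (s.1 *ᵥ y) = bb x y := form s x y
  have h5 : bb (s.1 *ᵥ x) x = 0 := by rw [ssym h2, hxs]
  have h6 : bb (s.1 *ᵥ y) y = 0 := by rw [ssym h2, hys]
  have h7 : bb (s.1 *ᵥ y) x = bb (s.1 *ᵥ x) y := by rw [ssym h2, h3]
  have h8 : bb (s.1 *ᵥ y) (s.1 *ᵥ x) = bb x y := by rw [ssym h2, h4]
  have h9 : bb y x = bb x y := ssym h2 _ _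
  have h10 : bb y (s.1 *ᵥ x) = bb (s.1 *ᵥ x) y := ssym h2 _ _
  set t := bb x y with ht
  let b : Fin 2 ⊕ Fin 2 → V := Sum.elim ![s.1 *ᵥ y - y, s.1 *ᵥ x - x] ![x, y + t • (s.1 *ᵥ y - y)]
  have b0 : b (Sum.inl 0) = s.1 *ᵥ y - y := rfl
  have b1 : b (Sum.inl 1) = s.1 *ᵥ x - x := rfl
  have b2 : b (Sum.inr 0) = x := rfl
  have b3 : b (Sum.inr 1) = y + t • (s.1 *ᵥ y - y) := rfl
  obtain ⟨g, hg⟩ := exists_basis (b := b) (by
    intro i j
    have e1 : bb (s.1 *ᵥ x) y = 1 + t := by linear_combination h1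
    rcases i with i | i <;> rcases j with j | j <;> fin_cases i <;> fin_cases j <;>
      simp only [Fin.zero_eta, Fin.mk_one, b0, b1, b2, b3, Symp.sub_left, Symp.sub_right, Symp.add_left, Symp.add_right,
        Symp.smul_left, Symp.smul_right, Symp.self, h3, h4, h5, h6, h7, h8, h9, h10, hxs, hys, form, ← ht, e1] <;>
      simp [Matrix.J] <;> ring_nf <;> grind)
  refine ⟨g, ?_⟩
  rw [eq_mul_inv_iff_mul_eq]
  obtain ⟨k0, k1, k2, k3⟩ := t1_single (F := F)
  apply ext_single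
  intro j
  have e : ∀ a b : Sp, ∀ v : V, (a * b).1 *ᵥ v = a.1 *ᵥ (b.1 *ᵥ v) := fun a b v => (mulVec_mulVec _ _ _).symm
  rw [e, e, hg]
  rcases j with j | j <;> fin_cases j
  · simp only [Fin.zero_eta]
    rw [k0, hg, b0, mulVec_sub, hss, ← hneg (y - _), neg_sub]
  · simp only [Fin.mk_one]
    rw [k1, hg, b1, mulVec_sub, hss, ← hneg (x - _), neg_sub]
  · simp only [Fin.zero_eta]
    rw [k2, mulVec_add, hg, hg, b1, b2]
    abel
  · simp only [Fin.mk_one]
    rw [k3, mulVec_add, hg, hg, b0, b3, mulVec_add, mulVec_smul, mulVec_sub, hss]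
    rw [show y - s.1 *ᵥ y = s.1 *ᵥ y - y by rw [← hneg (y - _), neg_sub]]
    abel

end Conj


section Lag

local notation "V" => (Fin 2 ⊕ Fin 2 → F)
local notation "Sp" => Matrix.symplecticGroup (Fin 2) F
local notation "bb" => Cfsg.sympForm 2 F

/-- a totally isotropic plane is its own perp. -/
theorem lag (h2 : (2 : F) = 0) {v w z : V} (hv : v ≠ 0) (hw : ∀ a : F, w ≠ a • v) (hwv : bb w v = 0) (hzv : bb z v = 0)
    (hzw : bb z w = 0) : ∃ a b : F, z = a • v + b • w := by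
  have hne : (Pi.single (Sum.inl 0) 1 : V) ≠ 0 := by
    intro h
    have := congrFun h (Sum.inl 0)
    simp at this
  obtain ⟨g, hg⟩ := exists_transl hne hv
  have hinv : ∀ y : V, y = g.1 *ᵥ (g⁻¹.1 *ᵥ y) := by
    intro y
    rw [mulVec_mulVec]
    have : g.1 * g⁻¹.1 = 1 := congrArg Subtype.val (mul_inv_cancel g)
    rw [this, one_mulVec]
  obtain ⟨w', rfl⟩ : ∃ w', w = g.1 *ᵥ w' := ⟨_, hinv w⟩
  obtain ⟨z', rfl⟩ : ∃ z', z = g.1 *ᵥ z' := ⟨_, hinv z⟩
  subst hg
  rw [form] at hwv hzv hzw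
  have e1 : ∀ y : V, bb y (Pi.single (Sum.inl 0) 1) = y (Sum.inr 0) := by
    intro y
    simp [Cfsg.sympForm, Matrix.J, Matrix.mulVec, dotProduct, Fintype.sum_sum_type, Fin.sum_univ_two, Matrix.one_apply]
  rw [e1] at hwv hzv
  have e2 : z' (Sum.inr 1) * w' (Sum.inl 1) = z' (Sum.inl 1) * w' (Sum.inr 1) := by
    simp only [Cfsg.sympForm, Matrix.J, Matrix.mulVec, dotProduct, Fintype.sum_sum_type, Fin.sum_univ_two,
      Matrix.fromBlocks_apply₁₁, Matrix.fromBlocks_apply₁₂, Matrix.fromBlocks_apply₂₁, Matrix.fromBlocks_apply₂₂,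
      Matrix.zero_apply, Matrix.neg_apply, Matrix.one_apply_eq, Matrix.one_apply_ne (show (0 : Fin 2) ≠ 1 by decide),
      Matrix.one_apply_ne (show (1 : Fin 2) ≠ 0 by decide), hwv, hzv] at hzw
    linear_combination hzw
  have key : ∃ b : F, z' (Sum.inl 1) = b * w' (Sum.inl 1) ∧ z' (Sum.inr 1) = b * w' (Sum.inr 1) := by
    by_cases h3 : w' (Sum.inl 1) = 0
    · by_cases h4 : w' (Sum.inr 1) = 0
      · exfalso
        apply hw (w' (Sum.inl 0))
        rw [← mulVec_smul]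
        congr 1
        funext i
        rcases i with i | i <;> fin_cases i
        · simp
        · simpa using h3
        · simpa using hwv
        · simpa using h4
      · refine ⟨z' (Sum.inr 1) / w' (Sum.inr 1), ?_, by field_simp⟩
        rw [h3, mul_zero] at e2
        rw [h3, mul_zero]
        exact (mul_eq_zero.mp e2.symm).resolve_right h4
    · refine ⟨z' (Sum.inl 1) / w' (Sum.inl 1), by field_simp, ?_⟩
      field_simp
      linear_combination e2
  obtain ⟨b, hb1, hb2⟩ := key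
  refine ⟨z' (Sum.inl 0) - b * w' (Sum.inl 0), b, ?_⟩
  rw [← mulVec_smul, ← mulVec_smul, ← mulVec_add]
  congr 1
  funext i
  rcases i with i | i <;> fin_cases i
  · simp
  · simpa using hb1
  · simp [hwv, hzv]
  · simpa using hb2

/-- characterization of the unipotent radical of the stabilizer of a point. -/
theorem mem_Q_iff (h2 : (2 : F) = 0) {v : V} (hv : v ≠ 0) {s : Sp} : s ∈ (H16.PSp.spG 2 F).Q v ↔
    Commute s (T v 1) ∧ ∀ w : V, w ≠ 0 → Commute (T w 1 : Sp) (T v 1) → Commute (s * T w 1 * s⁻¹) (T w 1) := by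
  have hsw : ∀ w : V, w ≠ 0 → (Commute (s * T w 1 * s⁻¹) (T w 1) ↔ bb (s.1 *ᵥ w) w = 0) := by
    intro w hw
    have hsw0 : s.1 *ᵥ w ≠ 0 := by
      intro h
      apply hw
      have : w = s⁻¹.1 *ᵥ (s.1 *ᵥ w) := by
        rw [mulVec_mulVec]
        have : s⁻¹.1 * s.1 = 1 := congrArg Subtype.val (inv_mul_cancel s)
        rw [this, one_mulVec]
      rw [this, h, mulVec_zero]
    rw [conj_T, comm_TT h2 hsw0, ssym h2]
  rw [comm_T h2]
  constructor
  · rintro ⟨h1, h3⟩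
    refine ⟨h1, fun w hw hwv => ?_⟩
    rw [hsw w hw]
    have h4 : bb v w = 0 := (comm_TT h2 hw).mp hwv
    obtain ⟨a, ha⟩ := h3 w h4
    change s.1 *ᵥ w = w + a • v at ha
    rw [ha, Symp.add_left, Symp.smul_left, Symp.self, h4, mul_zero, add_zero]
  · rintro ⟨h1, h3⟩
    refine ⟨h1, fun w hvw => ?_⟩
    change bb v w = 0 at hvw
    change ∃ a : F, s.1 *ᵥ w = w + a • v
    have hq : ∀ x : V, bb v x = 0 → bb (s.1 *ᵥ x) x = 0 := by
      intro x hx
      by_cases hx0 : x = 0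
      · rw [hx0, mulVec_zero, Symp.self]
      · exact (hsw x hx0).mp (h3 x hx0 ((comm_TT h2 hx0).mpr hx))
    by_cases hwv : ∃ a : F, w = a • v
    · obtain ⟨a, rfl⟩ := hwv
      exact ⟨0, by rw [mulVec_smul, h1, zero_smul, add_zero]⟩
    push Not at hwv
    have hspan : ∀ x : V, (∀ a : F, x ≠ a • v) → bb v x = 0 → ∃ a b : F, s.1 *ᵥ x = a • v + b • x := by
      intro x hx hvx
      refine lag h2 hv hx (by rw [ssym h2, hvx]) ?_ (hq x hvx)
      have h5 := form s x v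
      rw [h1] at h5
      rw [h5, ssym h2, hvx]
    -- a partner
    obtain ⟨w', hw'v, hww'⟩ : ∃ w' : V, bb v w' = 0 ∧ bb w w' ≠ 0 := by
      by_contra hcon
      push Not at hcon
      -- then w ∈ ⟨v⟩
      obtain ⟨f, hf⟩ := exists_ne hv
      apply hwv ((bb v f)⁻¹ * bb w f)
      apply eq_of_form
      intro y
      have h5 := hcon (y - ((bb v f)⁻¹ * bb v y) • f) (by
        rw [Symp.sub_right, Symp.smul_right]
        field_simp
        ring)
      rw [Symp.sub_right, Symp.smul_right] at h5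
      rw [Symp.smul_right, ssym h2 y w, ssym h2 y v]
      linear_combination h5
    have hw'1 : ∀ a : F, w' ≠ a • v := by
      rintro a rfl
      rw [Symp.smul_right, ssym h2, hvw, mul_zero] at hww'
      exact hww' rfl
    obtain ⟨a, b, hab⟩ := hspan w hwv hvw
    obtain ⟨a', b', hab'⟩ := hspan w' hw'1 hw'v
    have hsum : bb v (w + w') = 0 := by rw [Symp.add_right, hvw, hw'v, add_zero]
    have h5 := hq _ hsum
    have h6 := form s w w'
    have hwv' : bb w v = 0 := by rw [ssym h2, hvw]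
    have hw'v' : bb w' v = 0 := by rw [ssym h2, hw'v]
    rw [hab, hab'] at h6
    simp only [mulVec_add, hab, hab', Symp.add_left, Symp.add_right, Symp.smul_left, Symp.smul_right, Symp.self, hvw,
      hw'v, hwv', hw'v'] at h5 h6
    have h7 : bb w' w = bb w w' := ssym h2 _ _
    rw [h7] at h5
    have h8 : b * b' = 1 := by
      apply mul_right_cancel₀ hww'
      linear_combination h6
    have h9 : b + b' = 0 := by
      apply mul_right_cancel₀ hww'
      linear_combination h5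
    have h10 : b * b = 1 * 1 := by
      have : b' = b := by linear_combination h9 - b * h2
      rw [this] at h8
      rw [h8, one_mul]
    have h11 := sq_inj h2 h10
    exact ⟨a, by rw [hab, h11, one_smul, add_comm]⟩

end Lag


section Auto

open Cfsg.Agent.H16.PSp Cfsg.Agent.H16.Gam Cfsg.Agent.H16.AutG Cfsg.Agent.H16.AutL Cfsg.Agent.H16.Desc

local notation "V" => (Fin 2 ⊕ Fin 2 → F)
local notation "Sp" => Matrix.symplecticGroup (Fin 2) F
local notation "bb" => Cfsg.sympForm 2 F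

theorem center_bot (h2 : (2 : F) = 0) : Subgroup.center Sp = ⊥ := by
  rw [eq_bot_iff]
  intro s hs
  rw [Subgroup.mem_bot]
  apply Sp_ext
  intro x
  have h1 := Subgroup.mem_center_iff.mp hs (T x 1)
  have h3 := (comm_T h2 s x).mp h1.symm
  rw [h3]
  exact (one_mulVec x).symm

/-- the isomorphism. -/
noncomputable def pe (h2 : (2 : F) = 0) : Sp ≃* Cfsg.PSp 2 F :=
  MulEquiv.ofBijective (QuotientGroup.mk' (Subgroup.center Sp)) ⟨by
    rw [← MonoidHom.ker_eq_bot_iff, QuotientGroup.ker_mk', center_bot h2], QuotientGroup.mk'_surjective _⟩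

theorem pe_apply (h2 : (2 : F) = 0) (s : Sp) : pe h2 s = QuotientGroup.mk s := rfl

/-- lifting automorphisms. -/
noncomputable def lf (h2 : (2 : F) = 0) : MulAut (Cfsg.PSp 2 F) ≃* MulAut Sp := (MulAut.congr (pe h2)).symm

theorem lf_spec (h2 : (2 : F) = 0) (α : MulAut (Cfsg.PSp 2 F)) (s : Sp) : pe h2 (lf h2 α s) = α (pe h2 s) := by
  change pe h2 ((pe h2).symm (α (pe h2 s))) = _
  rw [MulEquiv.apply_symm_apply]

/-- transvections are mapped to transvections. -/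
def TP (β : MulAut Sp) : Prop := ∀ v : V, v ≠ 0 → ∃ w : V, w ≠ 0 ∧ β (T v 1) = T w 1

variable [Finite F]

theorem TP.inv (h2 : (2 : F) = 0) {β : MulAut Sp} (h : TP β) : TP β⁻¹ := by
  choose f hf1 hf2 using h
  let g : {v : V // v ≠ 0} → {v : V // v ≠ 0} := fun v => ⟨f v.1 v.2, hf1 v.1 v.2⟩
  have hg : Function.Injective g := by
    intro v w hvw
    have h1 : f v.1 v.2 = f w.1 w.2 := congrArg Subtype.val hvw
    have h3 : β (T v.1 1) = β (T w.1 1) := by rw [hf2 v.1 v.2, hf2 w.1 w.2, h1]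
    exact Subtype.ext (T_inj h2 (β.injective h3))
  have hs := Finite.surjective_of_injective hg
  intro w hw
  obtain ⟨⟨v, hv⟩, hvw⟩ := hs ⟨w, hw⟩
  have h1 : f v hv = w := congrArg Subtype.val hvw
  refine ⟨v, hv, ?_⟩
  change β.symm (T w 1) = T v 1
  rw [MulEquiv.symm_apply_eq, hf2 v hv, h1]

theorem TP.iff (h2 : (2 : F) = 0) {β : MulAut Sp} (h : TP β) {v v' : V} (hv : v ≠ 0) (hv' : v' ≠ 0)
    (hvv : β (T v 1) = T v' 1) (s : Sp) : s ∈ (H16.PSp.spG 2 F).Q v → β s ∈ (H16.PSp.spG 2 F).Q v' := by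
  rw [mem_Q_iff h2 hv, mem_Q_iff h2 hv']
  rintro ⟨h1, h3⟩
  refine ⟨?_, ?_⟩
  · rw [← hvv]
    exact h1.map β
  · intro w hw hwv
    obtain ⟨u, hu, hu2⟩ := TP.inv h2 h w hw
    have hu3 : β (T u 1) = T w 1 := by
      rw [← hu2]
      exact β.apply_symm_apply _
    rw [← hu3, ← hvv] at hwv
    have h4 : Commute (T u 1 : Sp) (T v 1) := by
      have := hwv.map β.symm
      rwa [MulEquiv.symm_apply_apply, MulEquiv.symm_apply_apply] at this
    have h5 := (h3 u hu h4).map β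
    rwa [map_mul, map_mul, map_inv, hu3] at h5

theorem TP.rel (h2 : (2 : F) = 0) {α : MulAut (Cfsg.PSp 2 F)} (h : TP (lf h2 α)) (v : V) (hv : v ≠ 0) :
    ∃ v', (spT (show 1 ≤ 2 by omega) F).Rel α v v' := by
  obtain ⟨w, hw, hvw⟩ := h v hv
  refine ⟨w, trivial, hv, trivial, hw, fun t => ?_⟩
  obtain ⟨s, rfl⟩ := (pe h2).surjective t
  rw [← lf_spec h2]
  have h1 : ∀ (x : V) (s : Sp), pe h2 s ∈ (spT (show 1 ≤ 2 by omega) F).QT x ↔ s ∈ (H16.PSp.spG 2 F).Q x := by
    intro x s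
    constructor
    · rintro ⟨s', hs', h3⟩
      have h4 : s' = s := (pe h2).injective h3
      rw [← h4]
      exact hs'
    · intro hs
      exact ⟨s, hs, rfl⟩
  rw [h1, h1]
  constructor
  · exact TP.iff h2 h hv hw hvw s
  · intro hs
    have h3 := TP.iff h2 (TP.inv h2 h) hw hv (by rw [← hvw]; exact (lf h2 α).symm_apply_apply _) _ hs
    have h4 : (lf h2 α)⁻¹ (lf h2 α s) = s := (lf h2 α).symm_apply_apply s
    rwa [h4] at h3

/-- the semilinear automorphisms. -/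
theorem range_of_TP (h2 : (2 : F) = 0) {α : MulAut (Cfsg.PSp 2 F)} (h : TP (lf h2 α)) :
    ∃ x : (fam (le_refl 2) F).Γ, (fam (le_refl 2) F).T x = α := by
  have hm1 : 1 ≤ 2 := by omega
  have hm : 2 ≤ 2 := le_refl 2
  obtain ⟨M, σ, k, hk, h1, -, h3⟩ := H16.Ps.PolT.final (P := spT hm1 F) (α := α) rich (hne hm) hN
    (fun _ _ _ _ _ _ _ => Or.inr fun _ _ _ _ _ _ _ => trivial) (hE hm1) (fun v _ hv0 => TP.rel h2 h v hv0)
    (fun v _ hv0 => TP.rel h2 (by rw [_root_.map_inv]; exact TP.inv h2 h) v hv0) (exists_sg hm1)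
  have hsurj : ∀ x : V, ∃ y : V, x = fun i => σ (y i) := fun x =>
    ⟨fun i => σ.symm (x i), funext fun i => (σ.apply_symm_apply _).symm⟩
  have hM : M ∈ Cfsg.GSp 2 F := by
    refine ⟨Units.mk0 k hk, ?_⟩
    intro u v
    obtain ⟨x, rfl⟩ := hsurj u
    obtain ⟨y, rfl⟩ := hsurj v
    rw [form_map]
    exact h1 x y
  let x : (fam (le_refl 2) F).Γ := ⟨⟨M, σ⟩, hM⟩
  refine ⟨x, ?_⟩
  ext1 s
  induction s using QuotientGroup.induction_on with
  | H s =>
    obtain ⟨s', hs'⟩ := QuotientGroup.mk_surjective (α (QuotientGroup.mk s))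
    obtain ⟨c, hc, h4⟩ := h3 s s' hs'
    rw [Fam.T_mk, ← hs', (fam (le_refl 2) F).mk_eq_iff]
    refine ⟨Units.mk0 c hc, ?_⟩
    rw [rho_tr, act_apply]
    change toG 2 F s' = scl _ (Units.mk0 c hc) * (M * gσ σ (toG 2 F s) * M⁻¹)
    rw [← mul_assoc, eq_mul_inv_iff_mul_eq]
    apply gl_ext
    intro v
    obtain ⟨y, rfl⟩ := hsurj v
    rw [coe_mul_mulVec, coe_mul_mulVec, coe_mul_mulVec, map_mulVec', scl_mulVec]
    exact h4 y

end Auto


section Fin

open Cfsg.Agent.H16.PSp Cfsg.Agent.H16.Gam Cfsg.Agent.H16.AutG Cfsg.Agent.H16.AutL Cfsg.Agent.H16.Desc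

local notation "V" => (Fin 2 ⊕ Fin 2 → F)
local notation "Sp" => Matrix.symplecticGroup (Fin 2) F
local notation "bb" => Cfsg.sympForm 2 F

theorem bb_single (j : Fin 2 ⊕ Fin 2) (v : V) : bb (Pi.single j 1) v = (Matrix.J (Fin 2) F *ᵥ v) j := by
  rw [Cfsg.sympForm, single_one_dotProduct]

theorem T_entry (v : V) (i j : Fin 2 ⊕ Fin 2) : (T v 1 : Sp).1 i j = (if i = j then 1 else 0) + (Matrix.J (Fin 2) F *ᵥ v) j * v i := by
  have h1 := congrFun (T_apply v 1 (Pi.single j 1)) i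
  rw [Matrix.mulVec_single_one, one_mul, bb_single] at h1
  refine h1.trans ?_
  rw [Pi.add_apply, Pi.single_apply, Pi.smul_apply, smul_eq_mul]

theorem Jv (v : V) : (Matrix.J (Fin 2) F *ᵥ v) (Sum.inl 0) = - v (Sum.inr 0) ∧ (Matrix.J (Fin 2) F *ᵥ v) (Sum.inl 1) = - v (Sum.inr 1) ∧
    (Matrix.J (Fin 2) F *ᵥ v) (Sum.inr 0) = v (Sum.inl 0) ∧ (Matrix.J (Fin 2) F *ᵥ v) (Sum.inr 1) = v (Sum.inl 1) := by
  refine ⟨?_, ?_, ?_, ?_⟩ <;> simp [Matrix.J, Matrix.mulVec, dotProduct, Fintype.sum_sum_type, Fin.sum_univ_two, Matrix.one_apply]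

theorem cmp_T (h2 : (2 : F) = 0) (v : V) : Sp4e.cmp (T v 1 : Sp).1 (Sum.inl 1) (Sum.inl 0) = v (Sum.inr 1) * v (Sum.inr 1) ∧
    Sp4e.cmp (T v 1 : Sp).1 (Sum.inr 1) (Sum.inl 0) = v (Sum.inr 0) * v (Sum.inr 0) ∧
    Sp4e.cmp (T v 1 : Sp).1 (Sum.inr 1) (Sum.inr 0) = v (Sum.inl 1) * v (Sum.inl 1) ∧
    Sp4e.cmp (T v 1 : Sp).1 (Sum.inl 1) (Sum.inr 0) = v (Sum.inl 0) * v (Sum.inl 0) := by
  obtain ⟨k0, k1, k2, k3⟩ := Jv v
  refine ⟨?_, ?_, ?_, ?_⟩ <;>
    simp only [Sp4e.cmp, Matrix.of_apply, P0, P1, P2, P3, T_entry, k0, k1, k2, k3] <;>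
    simp <;> grind

theorem phi_inj (h2 : (2 : F) = 0) : Function.Injective (phi h2 : Sp →* Sp) := by
  rw [injective_iff_map_eq_one]
  intro g hg
  apply Sp_ext
  intro v
  rw [show ((1 : Sp) : Matrix (Fin 2 ⊕ Fin 2) (Fin 2 ⊕ Fin 2) F) *ᵥ v = v from one_mulVec v]
  have h1 : phi h2 (T (g.1 *ᵥ v) 1) = phi h2 (T v 1) := by
    rw [← conj_T, map_mul, map_mul, map_inv, hg, one_mul, inv_one, mul_one]
  have h3 : Sp4e.cmp (T (g.1 *ᵥ v) 1 : Sp).1 = Sp4e.cmp (T v 1 : Sp).1 := congrArg Subtype.val h1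
  obtain ⟨a0, a1, a2, a3⟩ := cmp_T h2 (g.1 *ᵥ v)
  obtain ⟨b0, b1, b2, b3⟩ := cmp_T h2 v
  rw [h3] at a0 a1 a2 a3
  funext i
  rcases i with i | i <;> fin_cases i
  · exact sq_inj h2 (a3.symm.trans b3)
  · exact sq_inj h2 (a2.symm.trans b2)
  · exact sq_inj h2 (a1.symm.trans b1)
  · exact sq_inj h2 (a0.symm.trans b0)

/-- the exceptional automorphism. -/
noncomputable def phE [Finite F] (h2 : (2 : F) = 0) : MulAut Sp :=
  MulEquiv.ofBijective (phi h2) (Finite.injective_iff_bijective.mp (phi_inj h2))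

theorem phE_apply [Finite F] (h2 : (2 : F) = 0) (s : Sp) : phE h2 s = phi h2 s := rfl

theorem e_ne : (Pi.single (Sum.inl 0) 1 : V) ≠ 0 := by
  intro h
  have := congrFun h (Sum.inl 0)
  simp at this

theorem TP_of_one {β : MulAut Sp} {v w : V} (hv : v ≠ 0) (hw : w ≠ 0) (h : β (T v 1) = T w 1) : TP β := by
  intro v' hv'
  obtain ⟨g, rfl⟩ := exists_transl hv hv'
  refine ⟨(β g).1 *ᵥ w, ?_, ?_⟩
  · intro h0
    apply hw
    have : w = (β g)⁻¹.1 *ᵥ ((β g).1 *ᵥ w) := by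
      rw [mulVec_mulVec]
      have : (β g)⁻¹.1 * (β g).1 = 1 := congrArg Subtype.val (inv_mul_cancel (β g))
      rw [this, one_mulVec]
    rw [this, h0, mulVec_zero]
  · rw [← conj_T, map_mul, map_mul, map_inv, h, conj_T]

theorem dich_aut [Finite F] (h2 : (2 : F) = 0) (β : MulAut Sp) :
    TP β ∨ TP (phE h2 * β) := by
  have hv := e_ne (F := F)
  set v : V := Pi.single (Sum.inl 0) 1 with hvd
  have hs : β (T v 1) * β (T v 1) = 1 := by rw [← map_mul, T_sq h2, map_one]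
  have hs1 : β (T v 1) ≠ 1 := by
    intro h
    rw [← map_one β] at h
    exact T_ne_one hv (β.injective h)
  have hc : Nat.card (Subgroup.centralizer {β (T v 1)}) = Nat.card (Subgroup.centralizer {(T v 1 : Sp)}) := by
    have h4 : Subgroup.centralizer {β (T v 1)} = (Subgroup.centralizer {(T v 1 : Sp)}).map β.toMonoidHom := by
      ext x
      rw [Subgroup.mem_centralizer_singleton_iff, Subgroup.mem_map_equiv, Subgroup.mem_centralizer_singleton_iff]
      constructor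
      · intro h
        have := congrArg β.symm h
        rwa [map_mul, map_mul, MulEquiv.symm_apply_apply] at this
      · intro h
        have := congrArg β h
        rwa [map_mul, map_mul, MulEquiv.apply_symm_apply] at this
    rw [h4]
    exact Nat.card_congr (Subgroup.equivMapOfInjective _ _ β.injective).symm.toEquiv
  rcases dich h2 hs hv hc with h | ⟨w, hw⟩
  · right
    obtain ⟨g, hg⟩ := exists_conj h2 hs hs1 h
    refine TP_of_one (v := v) (w := (phi h2 g).1 *ᵥ v) hv ?_ ?_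
    · intro h0
      apply hv
      have : v = (phi h2 g)⁻¹.1 *ᵥ ((phi h2 g).1 *ᵥ v) := by
        rw [mulVec_mulVec]
        have : (phi h2 g)⁻¹.1 * (phi h2 g).1 = 1 := congrArg Subtype.val (inv_mul_cancel (phi h2 g))
        rw [this, one_mulVec]
      rw [this, h0, mulVec_zero]
    · rw [MulAut.mul_apply, hg, phE_apply, map_mul, map_mul, map_inv, phi_t1, conj_T]
  · left
    refine TP_of_one (v := v) (w := w) hv ?_ hw
    rintro rfl
    apply hs1
    rw [hw]
    apply Sp_ext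
    intro x
    rw [T_apply, smul_zero, add_zero]
    exact (one_mulVec x).symm

theorem phE_notMem [Finite F] (h2 : (2 : F) = 0) :
    (lf h2).symm (phE h2) ∉ ((fam (le_refl 2) F).T).range := by
  rintro ⟨x, hx⟩
  have h1 : (lf h2).symm (phE h2) (pe h2 t1) = pe h2 (T (Pi.single (Sum.inl 0) 1) 1) := by
    rw [← lf_spec, MulEquiv.apply_symm_apply, phE_apply, phi_t1]
  rw [← hx] at h1
  change (fam (le_refl 2) F).T x (QuotientGroup.mk t1) = _ at h1
  rw [Fam.T_mk] at h1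
  have h4 := (pe h2).injective h1
  have h5 := congrArg (fam (le_refl 2) F).ρ h4
  rw [rho_tr, act_apply] at h5
  change x.1.left * gσ x.1.right (toG 2 F t1) * x.1.left⁻¹ = toG 2 F _ at h5
  rw [mul_inv_eq_iff_eq_mul] at h5
  generalize x.1.left = M at h5
  generalize x.1.right = σ at h5
  have h6 : ∀ y z : V, (fun i => σ (y i)) = y → (fun i => σ ((t1.1 *ᵥ y) i)) = y + z →
      ∃ a : F, (M : Matrix (Fin 2 ⊕ Fin 2) (Fin 2 ⊕ Fin 2) F) *ᵥ z = a • (Pi.single (Sum.inl 0) 1) := by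
    intro y z hy hz
    have h7 := congrArg (fun g : GL (Fin 2 ⊕ Fin 2) F => (g : Matrix (Fin 2 ⊕ Fin 2) (Fin 2 ⊕ Fin 2) F) *ᵥ (fun i => σ (y i))) h5
    simp only [coe_mul_mulVec, map_mulVec'] at h7
    rw [toG_coe, toG_coe, T_apply] at h7
    change _ *ᵥ (fun i => σ ((t1.1 *ᵥ y) i)) = _ at h7
    rw [hz, mulVec_add, hy] at h7
    exact ⟨_, add_left_cancel h7⟩
  have hsig : ∀ j : Fin 2 ⊕ Fin 2, (fun i => σ ((Pi.single j 1 : V) i)) = Pi.single j 1 := by
    intro j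
    funext i
    rw [Pi.single_apply]
    split_ifs <;> simp
  have hsig2 : ∀ j k : Fin 2 ⊕ Fin 2, (fun i => σ ((Pi.single j 1 + Pi.single k 1 : V) i)) = Pi.single j 1 + Pi.single k 1 := by
    intro j k
    funext i
    change σ (_ + _) = _ + _
    rw [map_add]
    exact congrArg₂ (· + ·) (congrFun (hsig j) i) (congrFun (hsig k) i)
  obtain ⟨k0, k1, k2, k3⟩ := t1_single (F := F)
  obtain ⟨a, ha⟩ := h6 (Pi.single (Sum.inr 0) 1) (Pi.single (Sum.inl 1) 1) (hsig _) (by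
    rw [k2]; exact hsig2 _ _)
  obtain ⟨b, hb⟩ := h6 (Pi.single (Sum.inr 1) 1) (Pi.single (Sum.inl 0) 1) (hsig _) (by
    rw [k3]; exact hsig2 _ _)
  have h8 : (M : Matrix (Fin 2 ⊕ Fin 2) (Fin 2 ⊕ Fin 2) F) *ᵥ (b • Pi.single (Sum.inl 1) 1 - a • Pi.single (Sum.inl 0) 1 : V) = 0 := by
    rw [mulVec_sub, mulVec_smul, mulVec_smul, ha, hb, smul_smul, smul_smul, mul_comm, sub_self]
  have h9 : (b • Pi.single (Sum.inl 1) 1 - a • Pi.single (Sum.inl 0) 1 : V) = 0 := by
    have := congrArg (fun v => ((M⁻¹ : GL (Fin 2 ⊕ Fin 2) F) : Matrix (Fin 2 ⊕ Fin 2) (Fin 2 ⊕ Fin 2) F) *ᵥ v) h8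
    simp only [← coe_mul_mulVec, inv_mul_cancel, Units.val_one, one_mulVec, mulVec_zero] at this
    exact this
  have ha0 : a = 0 := by
    have := congrFun h9 (Sum.inl 0)
    simpa using this
  rw [ha0, zero_smul] at ha
  have h10 := congrArg (fun v => ((M⁻¹ : GL (Fin 2 ⊕ Fin 2) F) : Matrix (Fin 2 ⊕ Fin 2) (Fin 2 ⊕ Fin 2) F) *ᵥ v) ha
  simp only [← coe_mul_mulVec, inv_mul_cancel, Units.val_one, one_mulVec, mulVec_zero] at h10
  have := congrFun h10 (Sum.inl 1)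
  simp at this

theorem index_two [Finite F] (h2 : (2 : F) = 0) :
    ((fam (le_refl 2) F).T).range.index = 2 := by
  rw [Subgroup.index_eq_two_iff']
  refine ⟨(lf h2).symm (phE h2), fun β => ?_⟩
  by_cases hβ : β ∈ ((fam (le_refl 2) F).T).range
  · right
    refine ⟨hβ, fun h => phE_notMem h2 ?_⟩
    have := mul_mem h (inv_mem hβ)
    rwa [mul_inv_cancel_right] at this
  · left
    refine ⟨?_, hβ⟩
    rcases dich_aut h2 (lf h2 β) with h | h
    · exact absurd (range_of_TP h2 h) hβ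
    · have h4 : lf h2 ((lf h2).symm (phE h2) * β) = phE h2 * lf h2 β := by
        rw [map_mul, MulEquiv.apply_symm_apply]
      exact range_of_TP h2 (by rw [h4]; exact h)

end Fin

section Count

open Cfsg.Agent.H16.PSp Cfsg.Agent.H16.Gam Cfsg.Agent.H16.AutG Cfsg.Agent.H16.AutL

theorem card_range {S ι : Type*} [Group S] [Fintype ι] [DecidableEq ι] [Finite F] [Nonempty ι] {Φ : Fam S ι F}
    (hs : ∀ σ : F ≃+* F, ∃ x : Φ.Γ, (x : Gm ι F).right = σ) :
    Nat.card Φ.T.range * Nat.card Fˣ = Nat.card Φ.N * Nat.card (F ≃+* F) := by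
  have h1 : Nat.card Φ.T.ker = Nat.card Fˣ := by
    refine (Nat.card_congr (Equiv.ofBijective
      (fun c : Fˣ => (⟨⟨SemidirectProduct.inl (scl ι c), Φ.sc c⟩, (Φ.T_eq_one_iff _).mpr ⟨c, rfl⟩⟩ : Φ.T.ker)) ⟨?_, ?_⟩)).symm
    · intro c d h
      have h2 := congrArg (fun x : Φ.T.ker => ((x : Φ.Γ) : Gm ι F)) h
      exact sc_inj (SemidirectProduct.inl_injective h2)
    · rintro ⟨x, hx⟩
      obtain ⟨c, hc⟩ := (Φ.T_eq_one_iff x).mp hx
      exact ⟨c, Subtype.ext (Subtype.ext hc.symm)⟩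
  have h2 := AutO.card_hom Φ.T
  rw [h1] at h2
  let R : Φ.Γ →* (F ≃+* F) := SemidirectProduct.rightHom.comp Φ.Γ.subtype
  have h3 : Nat.card R.ker = Nat.card Φ.N := by
    refine (Nat.card_congr (Equiv.ofBijective (fun g : Φ.N => (⟨Φ.nin g, ?_⟩ : R.ker)) ⟨?_, ?_⟩)).symm
    · rw [MonoidHom.mem_ker]
      change ((Φ.nin g : Φ.Γ) : Gm ι F).right = 1
      rw [Φ.coe_nin, SemidirectProduct.right_inl]
    · intro g h hgh
      have h4 := congrArg (fun x : R.ker => ((x : Φ.Γ) : Gm ι F)) hgh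
      exact Subtype.ext (SemidirectProduct.inl_injective h4)
    · rintro ⟨x, hx⟩
      have hx' : (x : Gm ι F).right = 1 := hx
      have h4 : SemidirectProduct.inl (x : Gm ι F).left = (x : Gm ι F) := by
        apply SemidirectProduct.ext
        · rfl
        · exact hx'.symm
      exact ⟨⟨(x : Gm ι F).left, by rw [Φ.mem_N, h4]; exact x.2⟩, Subtype.ext (Subtype.ext h4)⟩
  have h4 := AutO.card_hom R
  have h5 : R.range = ⊤ := by
    rw [MonoidHom.range_eq_top]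
    intro σ
    obtain ⟨x, hx⟩ := hs σ
    exact ⟨x, hx⟩
  rw [h5, h3, Subgroup.card_top] at h4
  rw [h4, ← h2, mul_comm]

variable {m : ℕ}

theorem card_N [Finite F] (hm : 2 ≤ m) : Nat.card (fam hm F).N = Nat.card (Matrix.symplecticGroup (Fin m) F) * Nat.card Fˣ := by
  have h1 := AutO.card_hom (chi (F := F) hm)
  have hr : (chi (F := F) hm).range = ⊤ := MonoidHom.range_eq_top.mpr (mult_surj (show 1 ≤ m by omega))
  have hk : Nat.card (chi (F := F) hm).ker = Nat.card (Matrix.symplecticGroup (Fin m) F) := by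
    refine (Nat.card_congr (Equiv.ofBijective (fun s : Matrix.symplecticGroup (Fin m) F =>
      (⟨⟨(fam hm F).ρ s, (fam hm F).inn s⟩, chi_s hm s⟩ : (chi (F := F) hm).ker)) ⟨?_, ?_⟩)).symm
    · intro s t h
      have := congrArg (fun x : (chi (F := F) hm).ker => ((x : (fam hm F).N) : GL (Fin m ⊕ Fin m) F)) h
      exact (fam hm F).inj this
    · rintro ⟨g, hg⟩
      obtain ⟨s, hs⟩ := chi_one hm g hg
      exact ⟨s, Subtype.ext (Subtype.ext hs)⟩
  rw [← h1, hr, hk, Subgroup.card_top]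

theorem range_card [Finite F] (hm : 2 ≤ m) : Nat.card ((fam hm F).T).range = Nat.card (Matrix.symplecticGroup (Fin m) F) * Nat.card (F ≃+* F) := by
  have hι : Nonempty (Fin m ⊕ Fin m) := ⟨Sum.inl ⟨0, by omega⟩⟩
  have h1 := card_range (Φ := fam hm F) (fun σ => ⟨⟨_, fam_hasField hm σ⟩, rfl⟩)
  rw [card_N hm] at h1
  have h3 : 0 < Nat.card Fˣ := Nat.card_pos
  apply Nat.eq_of_mul_eq_mul_right h3
  rw [h1]
  ring

theorem card_center [Finite F] (hm : 1 ≤ m) : ((2 : F) = 0 → Nat.card (Subgroup.center (Matrix.symplecticGroup (Fin m) F)) = 1) ∧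
    ((2 : F) ≠ 0 → Nat.card (Subgroup.center (Matrix.symplecticGroup (Fin m) F)) = 2) := by
  have hne : Nonempty (Fin m ⊕ Fin m) := ⟨Sum.inl ⟨0, by omega⟩⟩
  have hc : ∀ s : Matrix.symplecticGroup (Fin m) F, s ∈ Subgroup.center (Matrix.symplecticGroup (Fin m) F) ↔
      (∀ x, s.1 *ᵥ x = x) ∨ (∀ x, s.1 *ᵥ x = -x) := by
    intro s
    rw [(spG m F).center_iff rich span_top (exists_sg hm)]
    constructor
    · rintro ⟨c, hc⟩
      obtain ⟨e, f, hef⟩ := exists_pair (F := F) hm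
      have h1 := (mem_symplecticGroup_iff s.1).mp s.2 e f
      have hc' : ∀ x, s.1 *ᵥ x = c • x := hc
      rw [hc', hc', Symp.smul_left, Symp.smul_right, hef, mul_one] at h1
      rcases mul_self_eq_one_iff.mp h1 with h | h
      · left; intro x; rw [hc', h, one_smul]
      · right; intro x; rw [hc', h, neg_smul, one_smul]
    · rintro (h | h)
      · exact ⟨1, fun x => by rw [one_smul]; exact h x⟩
      · exact ⟨-1, fun x => by rw [neg_smul, one_smul]; exact h x⟩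
  refine ⟨fun h2 => ?_, fun h2 => ?_⟩
  · rw [Subgroup.card_eq_one, eq_bot_iff]
    intro s hs
    have h3 : ∀ x, s.1 *ᵥ x = x := by
      rcases (hc s).mp hs with h | h
      · exact h
      · intro x
        rw [h]
        funext i
        rw [Pi.neg_apply]
        linear_combination (-(x i)) * h2
    rw [Subgroup.mem_bot]
    apply Sp_ext
    intro x
    rw [h3]
    exact (one_mulVec x).symm
  · have hneg : (-1 : Matrix (Fin m ⊕ Fin m) (Fin m ⊕ Fin m) F) ∈ Matrix.symplecticGroup (Fin m) F :=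
      SymplecticGroup.neg_mem (one_mem _)
    rw [Nat.card_eq_two_iff]
    refine ⟨1, ⟨⟨-1, hneg⟩, (hc _).mpr (Or.inr fun x => ?_)⟩, ?_, ?_⟩
    · change (-1 : Matrix (Fin m ⊕ Fin m) (Fin m ⊕ Fin m) F) *ᵥ x = _
      rw [neg_mulVec, one_mulVec]
    · intro h
      have h1 := congrArg (fun x : Subgroup.center (Matrix.symplecticGroup (Fin m) F) => (x.1.1 : Matrix (Fin m ⊕ Fin m) (Fin m ⊕ Fin m) F)) h
      obtain ⟨i⟩ := hne
      have h3 := congrFun (congrFun h1 i) i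
      change (1 : Matrix (Fin m ⊕ Fin m) (Fin m ⊕ Fin m) F) i i = (-1 : Matrix (Fin m ⊕ Fin m) (Fin m ⊕ Fin m) F) i i at h3
      rw [neg_apply, Matrix.one_apply_eq] at h3
      exact h2 (by linear_combination h3)
    · rw [Set.eq_univ_iff_forall]
      intro s
      rcases (hc s.1).mp s.2 with h | h
      · left
        apply Subtype.ext
        apply Sp_ext
        intro x
        rw [h]
        exact (one_mulVec x).symm
      · right
        rw [Set.mem_singleton_iff]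
        apply Subtype.ext
        apply Sp_ext
        intro x
        rw [h]
        change _ = (-1 : Matrix (Fin m ⊕ Fin m) (Fin m ⊕ Fin m) F) *ᵥ x
        rw [neg_mulVec, one_mulVec]

end Count

end Cfsg.Agent.H5.Sp4e
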