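import Cfsg.Statements.S0247
import Mathlib
import Cfsg.Agent.H5_SymSp
import Cfsg.Agent.S0245

set_option autoImplicit false
open Cfsg

namespace Cfsg.Agent.S0247


theorem two_cases {F : Type*} [Field F] [Fintype F] (hF : Fintype.card F = 2) (a : F) : a = 0 ∨ a = 1 := by
  by_contra hcon
  push Not at hcon
  classical
  have h1 : ({0, 1, a} : Finset F).card = 3 := by
    rw [Finset.card_insert_of_notMem, Finset.card_insert_of_notMem, Finset.card_singleton]
    · simp [hcon.2.symm]
    · simp [hcon.1.symm]
  have h2 := Finset.card_le_univ ({0, 1, a} : Finset F)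
  omega

theorem charP_two {F : Type*} [Field F] [Fintype F] (hF : Fintype.card F = 2) : CharP F 2 := by
  apply charP_of_card_eq_prime hF

/-- Sp_4(2) is isomorphic to the symmetric group S_6. -/
theorem result {F : Type*} [Field F] [Fintype F] (hF : Fintype.card F = 2) : Nonempty (Matrix.symplecticGroup (Fin 2) F ≃* Equiv.Perm (Fin 6)) := by
  have hc := charP_two hF
  obtain ⟨f, hf⟩ := H5.SymSp.exists_hom (F := F) (two_cases hF) 0
  have hcard : Nat.card (Matrix.symplecticGroup (Fin 2) F) = 720 := by
    rw [S0245.result hF]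
    simp [Finset.prod_range_succ]
  have hb : Function.Bijective f := by
    have hfin : Finite (Matrix.symplecticGroup (Fin (0 + 2)) F) := inferInstance
    rw [Nat.bijective_iff_injective_and_card]
    refine ⟨hf, ?_⟩
    show Nat.card (Equiv.Perm (Fin 6)) = Nat.card (Matrix.symplecticGroup (Fin 2) F)
    rw [hcard, Nat.card_perm, Nat.card_eq_fintype_card, Fintype.card_fin]
    rfl
  exact ⟨(MulEquiv.ofBijective f hb).symm⟩

end Cfsg.Agent.S0247
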