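import Cfsg.Agent.H5_LB3
import Cfsg.Agent.H16_PSp5
import Cfsg.Agent.H5_Sp4e
import Cfsg.Agent.S0270
import Cfsg.Agent.S0247

set_option autoImplicit false

/-! Local balance for the symplectic groups. -/

namespace Cfsg.Agent.H5.LB

open Matrix Cfsg.Agent.H16 Cfsg.Agent.H16.Gam Cfsg.Agent.H16.AutG Cfsg.Agent.H16.AutL Cfsg.Agent.H16.Desc

section Sym

/-- normal subgroups of the symmetric group of degree six. -/
theorem perm6 {p : ℕ} (hp : p.Prime) (hp2 : p ≠ 2) (h : p ∣ 720) (M : Subgroup (Equiv.Perm (Fin 6))) (hM : M.Normal) (hne : M ≠ ⊥) :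
    p ∣ Nat.card M := by
  have hsimp : IsSimpleGroup (alternatingGroup (Fin 6)) := alternatingGroup.isSimpleGroup (by simp)
  have h1 : alternatingGroup (Fin 6) ≤ M := by
    rcases hsimp.eq_bot_or_eq_top_of_normal (M.subgroupOf (alternatingGroup (Fin 6))) (hM.subgroupOf _) with h1 | h1
    · exfalso
      apply hne
      rw [eq_bot_iff]
      intro m hm
      rw [Subgroup.mem_bot]
      have hcomm : ∀ g : Equiv.Perm (Fin 6), m * g = g * m := by
        intro g
        have h2 : m * g * m⁻¹ * g⁻¹ ∈ M := by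
          have h3 : m * g * m⁻¹ * g⁻¹ = m * (g * m⁻¹ * g⁻¹) := by group
          rw [h3]
          exact M.mul_mem hm (hM.conj_mem _ (M.inv_mem hm) _)
        have h3 : m * g * m⁻¹ * g⁻¹ ∈ alternatingGroup (Fin 6) := by
          rw [Equiv.Perm.mem_alternatingGroup, map_mul, map_mul, map_mul, Equiv.Perm.sign_inv, Equiv.Perm.sign_inv]
          rcases Int.units_eq_one_or (Equiv.Perm.sign m) with h4 | h4 <;>
            rcases Int.units_eq_one_or (Equiv.Perm.sign g) with h5 | h5 <;> rw [h4, h5] <;> rfl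
        have h4 : (⟨_, h3⟩ : alternatingGroup (Fin 6)) ∈ M.subgroupOf (alternatingGroup (Fin 6)) := h2
        rw [h1, Subgroup.mem_bot] at h4
        have h5 : m * g * m⁻¹ * g⁻¹ = 1 := congrArg Subtype.val h4
        rw [mul_inv_eq_one, mul_inv_eq_iff_eq_mul] at h5
        exact h5
      ext1 i
      by_contra hi
      change ¬ m i = i at hi
      obtain ⟨k, hk1, hk2⟩ : ∃ k, k ≠ i ∧ k ≠ m i := by
        have : ∀ a b : Fin 6, ∃ k, k ≠ a ∧ k ≠ b := by decide
        exact this i (m i)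
      have h2 := congrArg (fun g : Equiv.Perm (Fin 6) => g i) (hcomm (Equiv.swap (m i) k))
      simp only [Equiv.Perm.mul_apply, Equiv.swap_apply_left] at h2
      rw [Equiv.swap_apply_of_ne_of_ne (Ne.symm hi) hk1.symm] at h2
      exact hk2 h2.symm
    · exact Subgroup.subgroupOf_eq_top.mp h1
  refine dvd_trans ?_ (Subgroup.card_dvd_of_le h1)
  have h2 := nat_card_alternatingGroup (α := Fin 6)
  have h3 : Nat.card (alternatingGroup (Fin 6)) = 360 := by
    rw [h2]; simp [Nat.factorial]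
  rw [h3]
  have h4 : p ∣ 2 * 360 := h
  exact ((Nat.Prime.dvd_mul hp).mp h4).resolve_left (fun h5 => hp2 ((Nat.prime_dvd_prime_iff_eq hp Nat.prime_two).mp h5))

theorem transfer {G H : Type*} [Group G] [Group H] (e : G ≃* H) {p : ℕ} (h : ∀ M : Subgroup H, M.Normal → M ≠ ⊥ → p ∣ Nat.card M)
    (M : Subgroup G) (hM : M.Normal) (hne : M ≠ ⊥) : p ∣ Nat.card M := by
  rw [Nat.card_congr (M.equivMapOfInjective e.toMonoidHom e.injective).toEquiv]
  apply h _ (hM.map _ e.surjective)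
  intro h1
  exact hne ((Subgroup.map_eq_bot_iff_of_injective _ e.injective).mp h1)

end Sym

section Sp

open Cfsg.Agent.H16.PSp Cfsg.Agent.H5 Cfsg.Agent.H5.Symp Cfsg.Agent.H5.Conc

variable {F K : Type*} [Field F] [Field K] {m : ℕ}

theorem form_map' (e : K →+* F) (x y : Fin m ⊕ Fin m → K) : Cfsg.sympForm m F (fun i => e (x i)) (fun i => e (y i)) =
    e (Cfsg.sympForm m K x y) := by
  simp only [Cfsg.sympForm, dotProduct, Matrix.mulVec, Matrix.J, map_sum, map_mul]
  refine Finset.sum_congr rfl fun i _ => ?_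
  congr 1
  refine Finset.sum_congr rfl fun j _ => ?_
  congr 1
  rcases i with i | i <;> rcases j with j | j <;>
    simp [Matrix.fromBlocks, Matrix.one_apply, apply_ite e, Matrix.neg_apply]

theorem map_GSp (hm : 1 ≤ m) (e : K →+* F) (g : GL (Fin m ⊕ Fin m) K) :
    g ∈ Cfsg.GSp m K ↔ Matrix.GeneralLinearGroup.map e g ∈ Cfsg.GSp m F := by
  have hmv : ∀ (g : GL (Fin m ⊕ Fin m) K) (x : Fin m ⊕ Fin m → K),
      ((Matrix.GeneralLinearGroup.map e g : GL (Fin m ⊕ Fin m) F) : Matrix (Fin m ⊕ Fin m) (Fin m ⊕ Fin m) F) *ᵥ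
        (fun i => e (x i)) = fun i => e (((g : Matrix (Fin m ⊕ Fin m) (Fin m ⊕ Fin m) K) *ᵥ x) i) := by
    intro g x
    funext i
    change ((g : Matrix (Fin m ⊕ Fin m) (Fin m ⊕ Fin m) K).map e *ᵥ _) i = _
    simp only [Matrix.mulVec, dotProduct, map_sum, map_mul, Matrix.map_apply]
  constructor
  · rintro ⟨c, hc⟩
    refine ⟨Units.map (e : K →* F) c, fun u v => ?_⟩
    let G : Matrix (Fin m ⊕ Fin m) (Fin m ⊕ Fin m) F := ((Matrix.GeneralLinearGroup.map e g : GL (Fin m ⊕ Fin m) F) : Matrix (Fin m ⊕ Fin m) (Fin m ⊕ Fin m) F)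
    let C : LinearMap.BilinForm F (Fin m ⊕ Fin m → F) := LinearMap.mk₂ F
      (fun x y => Cfsg.sympForm m F (G *ᵥ x) (G *ᵥ y))
      (by intro x x' y; simp only [mulVec_add, Symp.add_left])
      (by intro c x y; simp only [mulVec_smul, Symp.smul_left, smul_eq_mul])
      (by intro x y y'; simp only [mulVec_add, Symp.add_right])
      (by intro c x y; simp only [mulVec_smul, Symp.smul_right, smul_eq_mul])
    have hC : C = (e (c : K)) • sympB m F := by
      apply LinearMap.ext_basis (Pi.basisFun F _) (Pi.basisFun F _)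
      intro i j
      rw [Pi.basisFun_apply, Pi.basisFun_apply, LinearMap.smul_apply, LinearMap.smul_apply, sympB_apply]
      have hs : ∀ i : Fin m ⊕ Fin m, (Pi.single i 1 : Fin m ⊕ Fin m → F) =
          fun j => e ((Pi.single i 1 : Fin m ⊕ Fin m → K) j) := by
        intro i
        funext j
        simp [Pi.single_apply, apply_ite e]
      change Cfsg.sympForm m F (G *ᵥ _) (G *ᵥ _) = _
      rw [hs i, hs j, hmv, hmv, form_map', hc, form_map', map_mul]
      rfl
    have := congrArg (fun D : LinearMap.BilinForm F (Fin m ⊕ Fin m → F) => D u v) hC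
    simp only [LinearMap.smul_apply, sympB_apply] at this
    exact this
  · rintro ⟨c, hc⟩
    obtain ⟨u₀, v₀, huv⟩ := exists_pair (m := m) (F := K) (by omega)
    have h1 := hc (fun i => e (u₀ i)) (fun i => e (v₀ i))
    change Cfsg.sympForm m F (((Matrix.GeneralLinearGroup.map e g : GL (Fin m ⊕ Fin m) F) : Matrix (Fin m ⊕ Fin m) (Fin m ⊕ Fin m) F) *ᵥ _) (((Matrix.GeneralLinearGroup.map e g : GL (Fin m ⊕ Fin m) F) : Matrix (Fin m ⊕ Fin m) (Fin m ⊕ Fin m) F) *ᵥ _) = _ at h1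
    rw [hmv, hmv, form_map', form_map', huv, map_one, mul_one] at h1
    have hc0 : Cfsg.sympForm m K ((g : Matrix (Fin m ⊕ Fin m) (Fin m ⊕ Fin m) K) *ᵥ u₀) ((g : Matrix (Fin m ⊕ Fin m) (Fin m ⊕ Fin m) K) *ᵥ v₀) ≠ 0 := by
      intro h0
      rw [h0, map_zero] at h1
      exact c.ne_zero h1.symm
    refine ⟨Units.mk0 _ hc0, fun u v => ?_⟩
    apply e.injective
    have h2 := hc (fun i => e (u i)) (fun i => e (v i))
    change Cfsg.sympForm m F (((Matrix.GeneralLinearGroup.map e g : GL (Fin m ⊕ Fin m) F) : Matrix (Fin m ⊕ Fin m) (Fin m ⊕ Fin m) F) *ᵥ _) (((Matrix.GeneralLinearGroup.map e g : GL (Fin m ⊕ Fin m) F) : Matrix (Fin m ⊕ Fin m) (Fin m ⊕ Fin m) F) *ᵥ _) = _ at h2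
    rw [hmv, hmv, form_map', form_map', ← h1] at h2
    rw [h2, map_mul]
    rfl

/-- rational symplectic matrices. -/
def spMap (e : K →+* F) : Matrix.symplecticGroup (Fin m) K →* Matrix.symplecticGroup (Fin m) F where
  toFun s := ⟨(s : Matrix (Fin m ⊕ Fin m) (Fin m ⊕ Fin m) K).map e, by
    have hJ : (Matrix.J (Fin m) K).map e = Matrix.J (Fin m) F := by
      ext i j
      rcases i with i | i <;> rcases j with j | j <;>
        simp [Matrix.J, Matrix.fromBlocks, Matrix.one_apply, apply_ite e, Matrix.neg_apply]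
    have h1 := SymplecticGroup.mem_iff.mp s.2
    rw [SymplecticGroup.mem_iff]
    have h2 := congrArg (fun M : Matrix (Fin m ⊕ Fin m) (Fin m ⊕ Fin m) K => M.map e) h1
    simp only [Matrix.map_mul] at h2
    rw [hJ] at h2
    exact h2⟩
  map_one' := Subtype.ext (Matrix.map_one _ (_root_.map_zero e) (_root_.map_one e))
  map_mul' s t := Subtype.ext (Matrix.map_mul)

/-- the rational structure. -/
noncomputable def ratSp [Finite F] [Finite K] (hm : 2 ≤ m) {σ : F ≃+* F} {e : K →+* F} (he : ∀ a, σ a = a ↔ a ∈ Set.range e) :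
    Rat (fam hm F) (fam hm K) σ e where
  ne := ⟨Sum.inl ⟨0, by omega⟩⟩
  hf := fam_hasField hm
  hf₀ := fam_hasField hm
  he := he
  J := spMap e
  hJ s := by
    apply Units.ext
    rfl
  hN g := by
    rw [mem_fam_N, mem_fam_N]
    exact map_GSp (by omega) e g

theorem two_dvd_sp [Finite K] (h2 : (2 : K) ≠ 0) (hm : 2 ≤ m) : 2 ∣ Nat.card (Cfsg.PSp m K) := by
  have := Fintype.ofFinite K
  have hodd : Odd (Fintype.card K) := Nat.odd_iff.mpr (Quad.card_mod_two h2)
  have h1 := Cfsg.Agent.S0245.result (F := K) rfl m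
  have h3 : ∀ i, 2 ∣ Fintype.card K ^ (2 * (i + 1)) - 1 := by
    intro i
    have : Odd (Fintype.card K ^ (2 * (i + 1))) := hodd.pow
    obtain ⟨k, hk⟩ := this
    exact ⟨k, by omega⟩
  have h4 : 4 ∣ ∏ i ∈ Finset.range m, (Fintype.card K ^ (2 * (i + 1)) - 1) := by
    obtain ⟨n, rfl⟩ : ∃ n, m = n + 2 := ⟨m - 2, by omega⟩
    rw [Finset.prod_range_succ, Finset.prod_range_succ, mul_assoc]
    exact dvd_mul_of_dvd_right (mul_dvd_mul (h3 _) (h3 _)) _
  have h5 : Nat.card (Matrix.symplecticGroup (Fin m) K) =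
      Nat.card (Subgroup.center (Matrix.symplecticGroup (Fin m) K)) * Nat.card (Cfsg.PSp m K) := by
    rw [← (Subgroup.center (Matrix.symplecticGroup (Fin m) K)).card_mul_index]
    rfl
  rw [(Sp4e.card_center (F := K) (m := m) (by omega)).2 h2, h1] at h5
  have h6 : 4 ∣ 2 * Nat.card (Cfsg.PSp m K) := by
    rw [← h5]
    exact dvd_mul_of_dvd_right h4 _
  omega

theorem sq_sp [Finite K] (hm : 2 ≤ m) (g₁ : (fam hm K).N) : ∃ (c : Kˣ) (s : Matrix.symplecticGroup (Fin m) K),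
    (g₁ : GL (Fin m ⊕ Fin m) K) ^ 2 = scl _ c * (fam hm K).ρ s := by
  set c := chi hm g₁ with hc
  have h1 : chi hm (⟨scl _ c⁻¹, (fam hm K).sc _⟩ * g₁ ^ 2) = 1 := by
    have h4 : chi hm ⟨scl _ c⁻¹, (fam hm K).sc _⟩ = (c⁻¹) ^ 2 := mult_scl (show 1 ≤ m by omega) _
    rw [_root_.map_mul, h4, map_pow, ← hc, ← mul_pow, inv_mul_cancel, one_pow]
  obtain ⟨s, hs⟩ := chi_one hm _ h1
  refine ⟨c, s, ?_⟩
  change _ = scl _ c * toG m K s
  rw [hs]
  change _ = scl _ c * (scl _ c⁻¹ * (g₁ : GL (Fin m ⊕ Fin m) K) ^ 2)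
  rw [← mul_assoc, ← map_mul, mul_inv_cancel, map_one, one_mul]

theorem spMap_T (e : K →+* F) (w : Fin 2 ⊕ Fin 2 → K) : spMap e (Symp.T w 1 : Matrix.symplecticGroup (Fin 2) K) = Symp.T (fun i => e (w i)) 1 := by
  apply Subtype.ext
  ext i j
  change e ((Symp.T w 1 : Matrix.symplecticGroup (Fin 2) K).1 i j) = _
  rw [Sp4e.T_entry, Sp4e.T_entry, map_add, map_mul]
  congr 1
  · split_ifs <;> simp
  · congr 1
    obtain ⟨a1, a2, a3, a4⟩ := Sp4e.Jv w
    obtain ⟨b1, b2, b3, b4⟩ := Sp4e.Jv (fun i => e (w i))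
    rcases j with j | j <;> fin_cases j
    · exact (congrArg e a1).trans ((map_neg e _).trans b1.symm)
    · exact (congrArg e a2).trans ((map_neg e _).trans b2.symm)
    · exact (congrArg e a3).trans b3.symm
    · exact (congrArg e a4).trans b4.symm

theorem simple_or [Finite K] (hm : 2 ≤ m) {p : ℕ} (hp : p.Prime) (h2 : (2 : K) = 0 → p ≠ 2)
    (hdvd : p ∣ Nat.card (Cfsg.PSp m K)) (M : Subgroup (Cfsg.PSp m K)) (hM : M.Normal) (hne : M ≠ ⊥) : p ∣ Nat.card M := by
  have := Fintype.ofFinite K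
  by_cases hs : m = 2 → 3 ≤ Fintype.card K
  · exact dvd_simple (Cfsg.Agent.S0270.result m hm hs) hdvd M hM hne
  · push Not at hs
    obtain ⟨rfl, hs⟩ := hs
    have hK : Fintype.card K = 2 := by
      have := Fintype.one_lt_card (α := K)
      omega
    have h20 : (2 : K) = 0 := by
      have := Cfsg.Agent.S0247.charP_two hK
      exact CharP.cast_eq_zero K 2
    obtain ⟨E⟩ := Cfsg.Agent.S0247.result hK
    let E' : Cfsg.PSp 2 K ≃* Equiv.Perm (Fin 6) := (Sp4e.pe h20).symm.trans E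
    have h720 : p ∣ 720 := by
      rw [Nat.card_congr E'.toEquiv, Nat.card_eq_fintype_card, Fintype.card_perm, Fintype.card_fin] at hdvd
      exact hdvd
    exact transfer E' (perm6 hp (h2 h20) h720) M hM hne

theorem nontriv [Finite K] (hm : 2 ≤ m) : Nontrivial (Cfsg.PSp m K) := by
  have := Fintype.ofFinite K
  by_cases hs : m = 2 → 3 ≤ Fintype.card K
  · exact (Cfsg.Agent.S0270.result m hm hs).toNontrivial
  · push Not at hs
    obtain ⟨rfl, hs⟩ := hs
    have hK : Fintype.card K = 2 := by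
      have := Fintype.one_lt_card (α := K)
      omega
    have h20 : (2 : K) = 0 := by
      have := Cfsg.Agent.S0247.charP_two hK
      exact CharP.cast_eq_zero K 2
    obtain ⟨E⟩ := Cfsg.Agent.S0247.result hK
    exact ((Sp4e.pe h20).symm.trans E).toEquiv.nontrivial

theorem Rat.fix_of_comm {S S₀ : Type*} [Group S] [Group S₀] {ι : Type} [Fintype ι] [DecidableEq ι] {F K : Type*} [Field F] [Finite F]
    [Field K] [Finite K] {Φ : Fam S ι F} {Φ₀ : Fam S₀ ι K} {σ : F ≃+* F} {e : K →+* F} (ℛ : Rat Φ Φ₀ σ e)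
    {α : MulAut (S ⧸ Subgroup.center S)} {s : S₀} (h : α * ℛ.j s = ℛ.j s * α) :
    α (QuotientGroup.mk (ℛ.J s)) = QuotientGroup.mk (ℛ.J s) := by
  apply Φ.conj_injective
  have h4 : α * ℛ.j s * α⁻¹ = ℛ.j s := by
    rw [h, mul_inv_cancel_right]
  have h5 : MulAut.conj (α (QuotientGroup.mk (ℛ.J s))) = α * ℛ.j s * α⁻¹ := by
    ext1 x
    rw [ℛ.j_apply]
    change α _ * x * (α _)⁻¹ = α (QuotientGroup.mk (ℛ.J s) * (α⁻¹ x) * (QuotientGroup.mk (ℛ.J s))⁻¹)
    rw [map_mul, map_mul, map_inv]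
    congr 2
    exact (α.apply_symm_apply x).symm
  rw [h5, h4, ℛ.j_apply]

/-- automorphisms commuting with the rational subgroup are semilinear. -/
theorem semi_sp [Finite F] [Finite K] (hm : 2 ≤ m) {σ : F ≃+* F} {e : K →+* F} (he : ∀ a, σ a = a ↔ a ∈ Set.range e)
    {α : MulAut (Cfsg.PSp m F)} (hα : ∀ s : Matrix.symplecticGroup (Fin m) K, α * (ratSp hm he).j s = (ratSp hm he).j s * α) :
    ∃ η, (fam hm F).T η = α := by
  by_cases h : m = 2 → (2 : F) ≠ 0
  · exact PSp.full hm h α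
  · push Not at h
    obtain ⟨rfl, h2⟩ := h
    apply Sp4e.range_of_TP h2
    have h3 := (ratSp hm he).fix_of_comm (hα (Symp.T (Pi.single (Sum.inl 0) 1) 1))
    have h4 : (ratSp (le_refl 2) he).J (Symp.T (Pi.single (Sum.inl 0) 1) 1) = Symp.T (Pi.single (Sum.inl 0) 1) 1 := by
      change spMap e _ = _
      rw [spMap_T]
      congr 1
      funext i
      simp [Pi.single_apply, apply_ite e]
    change α (QuotientGroup.mk ((ratSp (le_refl 2) he).J (Symp.T (Pi.single (Sum.inl 0) 1) 1))) =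
      QuotientGroup.mk ((ratSp (le_refl 2) he).J (Symp.T (Pi.single (Sum.inl 0) 1) 1)) at h3
    rw [h4] at h3
    refine Sp4e.TP_of_one Sp4e.e_ne Sp4e.e_ne (w := Pi.single (Sum.inl 0) 1) ?_
    apply (Sp4e.pe h2).injective
    rw [Sp4e.lf_spec]
    exact h3

open Cfsg.Agent.H16.POm in
theorem balance_sp [Fintype F] {r : ℕ} [Fact r.Prime] [CharP F r] (hm : 2 ≤ m) {A : Subgroup (MulAut (Cfsg.PSp m F))}
    (hinn : ∀ k : Cfsg.PSp m F, MulAut.conj k ∈ A) {p : ℕ} (hp : p.Prime) (hpr : p ≠ r)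
    (x : MulAut (Cfsg.PSp m F)) (hord : orderOf x = p) (hnot : ¬ Cfsg.IsInnerDiagonalAutPSp x) :
    Cfsg.pPrimeCore p ↥(A ⊓ Subgroup.centralizer {x}) ≠ ⊥ ↔ (Cfsg.IsFieldAutClassPSp x ∧
      Nat.Coprime p (Nat.card ↥(MonoidHom.eqLocus x.toMonoidHom (MonoidHom.id (Cfsg.PSp m F))))) := by
  have hnt : Nonempty (Fin m ⊕ Fin m) := ⟨Sum.inl ⟨0, by omega⟩⟩
  have h2p : (2 : F) = 0 → p ≠ 2 := by
    intro h2 hp2
    apply hpr
    have h3 := (CharP.cast_eq_zero_iff F r 2).mp (by exact_mod_cast h2)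
    rw [hp2]
    exact ((Nat.prime_dvd_prime_iff_eq (Fact.out : r.Prime) Nat.prime_two).mp h3).symm
  -- the automorphism is semilinear
  obtain ⟨ξ, hξ⟩ : ∃ ξ, (fam hm F).T ξ = x := by
    by_cases h : m = 2 → (2 : F) ≠ 0
    · exact PSp.full hm h x
    · push Not at h
      obtain ⟨rfl, h2⟩ := h
      have h3 := Sp4e.index_two h2
      have h4 : x * x ∈ ((fam (le_refl 2) F).T).range := Subgroup.mul_self_mem_of_index_two h3 x
      have hodd := hp.eq_two_or_odd'.resolve_left (h2p h2)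
      obtain ⟨k, hk⟩ := hodd
      have h5 : x = (x * x) ^ (k + 1) := by
        rw [← sq, ← pow_mul, show 2 * (k + 1) = p + 1 by omega, pow_succ, ← hord, pow_orderOf_eq_one, one_mul]
      have h6 : x ∈ ((fam (le_refl 2) F).T).range := by
        rw [h5]; exact pow_mem h4 _
      exact h6
  have h1 : (ξ : Gm (Fin m ⊕ Fin m) F).right ≠ 1 := by
    intro h1
    apply hnot
    apply (innDiag_iff hm).mpr
    obtain ⟨g, hg⟩ := Fam.eq_nin_fin (fam_hasField hm) ξ
    rw [h1, map_one, mul_one] at hg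
    exact ⟨g, by rw [← hξ, hg]; rfl⟩
  obtain ⟨⟨α, σ, hσ, hα⟩, h3⟩ := wrap (fam_hasField hm) (D_normal hm) (lang hm) (A := A)
    (by rintro _ ⟨k, rfl⟩; exact hinn k) hp hord ⟨ξ, hξ, h1⟩ (by
      intro σ hσp hdvd B hB
      have h2K : (2 : FixK σ) = 0 → (2 : F) = 0 := fun h => congrArg (fun z : FixK σ => (z : F)) h
      refine (ratSp hm (fixK_iff σ)).core_bot hp.ne_one hσp hB (fun y _ hy => semi_sp hm (fixK_iff σ) hy)
        (simple_or hm hp (fun h => h2p (h2K h)) ?_)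
      by_cases hp2 : p = 2
      · rw [hp2]
        exact two_dvd_sp (fun h => h2p (h2K h) hp2) hm
      · exact (ratSp hm (fixK_iff σ)).dvd_of_dvd hp (k := 2)
          (fun h => hp2 ((Nat.prime_dvd_prime_iff_eq hp Nat.prime_two).mp h)) (sq_sp hm) hdvd) (by
      intro σ _
      have : Nontrivial (Matrix.symplecticGroup (Fin m) (FixK σ) ⧸ Subgroup.center (Matrix.symplecticGroup (Fin m) (FixK σ))) := nontriv hm
      exact (ratSp hm (fixK_iff σ)).inn_ne_bot)
  rw [h3]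
  constructor
  · intro h
    refine ⟨⟨α, σ, hσ, ?_⟩, h⟩
    rw [hα]
    exact (stdField_iff hm).mpr rfl
  · rintro ⟨-, h⟩; exact h

end Sp

end Cfsg.Agent.H5.LB
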