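import Mathlib
import Cfsg.Agent.H9_Small

set_option autoImplicit false

open Subgroup

namespace Cfsg.Agent.H5.OrB

open Cfsg.Agent.H9.Small

theorem not_dvd_lcm {q : ℕ} (hq : q.Prime) : ∀ s : Multiset ℕ, (∀ n ∈ s, ¬ q ∣ n) → ¬ q ∣ s.lcm := by
  intro s
  induction s using Multiset.induction_on with
  | empty => intro _ h; rw [Multiset.lcm_zero] at h; exact hq.one_lt.ne' (Nat.dvd_one.1 h)
  | cons a s ih =>
    intro h hd
    rw [Multiset.lcm_cons] at hd
    have h1 : q ∣ a * s.lcm := hd.trans (Nat.lcm_dvd_mul a s.lcm)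
    rcases hq.dvd_mul.1 h1 with h2 | h2
    · exact h a (Multiset.mem_cons_self a s) h2
    · exact ih (fun n hn => h n (Multiset.mem_cons_of_mem hn)) h2

theorem no21 (σ : Equiv.Perm (Fin 8)) : orderOf σ ≠ 21 := by
  intro h
  have h1 := σ.lcm_cycleType
  have h2 : σ.cycleType.sum ≤ 8 := by
    rw [Equiv.Perm.sum_cycleType]
    exact (Finset.card_le_univ _).trans (by simp)
  have key : ∀ q : ℕ, q.Prime → q ∣ 21 → ∃ n ∈ σ.cycleType, q ∣ n := by
    intro q hq hd
    by_contra hcon
    push Not at hcon
    apply not_dvd_lcm hq σ.cycleType hcon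
    rw [h1, h]; exact hd
  obtain ⟨n, hn, h7⟩ := key 7 (by norm_num) (by norm_num)
  obtain ⟨m, hm, h3⟩ := key 3 (by norm_num) (by norm_num)
  have hn2 := Equiv.Perm.two_le_of_mem_cycleType hn
  have hm2 := Equiv.Perm.two_le_of_mem_cycleType hm
  have hn7 := Nat.le_of_dvd (by omega) h7
  have hm3 := Nat.le_of_dvd (by omega) h3
  rcases eq_or_ne m n with hmn | hmn
  · subst hmn
    have h21 : 21 ∣ m := Nat.Coprime.mul_dvd_of_dvd_of_dvd (by norm_num : Nat.Coprime 3 7) h3 h7
    have := Nat.le_of_dvd (by omega) h21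
    have := Multiset.le_sum_of_mem hm
    omega
  · have h4 : m ∈ σ.cycleType.erase n := (Multiset.mem_erase_of_ne hmn).2 hm
    have h5 := Multiset.le_sum_of_mem h4
    have h6 := Multiset.sum_erase hn
    omega

theorem no21' (k : ℕ) (hk : k = 8) (σ : Equiv.Perm (Fin k)) : orderOf σ ≠ 21 := by
  subst hk; exact no21 σ

variable {G : Type*} [Group G] [Finite G] [IsSimpleGroup G]

theorem syl7 (h : Nat.card G = 504) : Nat.card (Sylow 7 G) = 36 ∧
    (∀ x : G, orderOf x = 7 → Nat.card (Subgroup.centralizer ({x} : Set G)) = 7) ∧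
    ∃ x t : G, orderOf x = 7 ∧ orderOf t = 2 ∧ t * x * t⁻¹ = x⁻¹ := by
  haveI : Fact (Nat.Prime 7) := ⟨by norm_num⟩
  haveI : Fact (Nat.Prime 3) := ⟨by norm_num⟩
  haveI : Fact (Nat.Prime 2) := ⟨by norm_num⟩
  have hG : ¬ IsMulCommutative G := not_comm (by rw [h]; norm_num)
  have h7 : 7 ∣ Nat.card G := by rw [h]; norm_num
  have hPc : ∀ P : Sylow 7 G, Nat.card (P : Subgroup G) = 7 := by
    intro P
    rw [P.card_eq_multiplicity, h]
    have : (504 : ℕ).factorization 7 = 1 := by
      rw [show (504 : ℕ) = 7 ^ 1 * 72 by norm_num]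
      rw [Nat.factorization_mul (by norm_num) (by norm_num), Nat.Prime.factorization_pow (by norm_num)]
      have h72 : (72 : ℕ).factorization 7 = 0 := Nat.factorization_eq_zero_of_not_dvd (by norm_num)
      simp [h72]
    rw [this, pow_one]
  have main : ∀ P : Sylow 7 G, Nat.card (Sylow 7 G) = 36 ∧
      Nat.card (Subgroup.normalizer ((P : Subgroup G) : Set G)) = 14 ∧
      Nat.card (Subgroup.centralizer ((P : Subgroup G) : Set G)) = 7 := by
    intro P
    obtain ⟨n, hn, hn7, hNn, hni, hn1, -, hnd⟩ := sylow_params hG h7 P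
    have hidx : (P : Subgroup G).index = 72 := by
      have := Subgroup.card_mul_index (P : Subgroup G)
      rw [hPc P, h] at this
      omega
    rw [hidx] at hnd
    rw [h] at hNn
    have hPC : (P : Subgroup G) ≤ centralizer ((P : Subgroup G) : Set G) := by
      haveI : IsCyclic (P : Subgroup G) := isCyclic_of_prime_card (hPc P)
      intro x hx
      rw [mem_centralizer_iff]
      intro y hy
      have := (IsCyclic.commGroup (α := (P : Subgroup G))).mul_comm ⟨y, hy⟩ ⟨x, hx⟩
      exact congrArg Subtype.val this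
    have h7C : 7 ∣ Nat.card (centralizer ((P : Subgroup G) : Set G)) := by
      have h0 := card_dvd_of_le hPC
      rwa [hPc P] at h0
    have he := relIndex_centralizer_dvd P (hPc P)
    have he1 := relIndex_centralizer_ne_one hG h7 P
    have hCe := card_centralizer_mul (P : Subgroup G)
    have hle : n ≤ 72 := Nat.le_of_dvd (by norm_num) hnd
    have hcases : n = 8 ∨ n = 36 := by
      interval_cases n <;> omega
    set e := (centralizer ((P : Subgroup G) : Set G)).relIndex (normalizer ((P : Subgroup G) : Set G)) with hedef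
    have hele : e ≤ 6 := Nat.le_of_dvd (by norm_num) he
    have he0 : 0 < e := Nat.pos_of_dvd_of_pos he (by norm_num)
    set c := Nat.card (centralizer ((P : Subgroup G) : Set G)) with hc
    obtain ⟨c', hc'⟩ := h7C
    rcases hcases with h8 | h36
    · exfalso
      rw [h8] at hNn
      have hN : Nat.card (normalizer ((P : Subgroup G) : Set G)) = 63 := by omega
      rw [hN, hc'] at hCe
      have he3 : e = 3 := by
        interval_cases e <;> omega
      have hc3 : 3 ∣ c := by
        rw [he3] at hCe
        have : c' = 3 := by omega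
        rw [hc', this]; norm_num
      obtain ⟨⟨u, hu⟩, huo⟩ := exists_prime_orderOf_dvd_card' 3 hc3
      rw [← Subgroup.orderOf_coe] at huo
      change orderOf u = 3 at huo
      obtain ⟨⟨x, hx⟩, hxo⟩ := exists_prime_orderOf_dvd_card' 7 (by rw [hPc P] : 7 ∣ Nat.card (P : Subgroup G))
      rw [← Subgroup.orderOf_coe] at hxo
      change orderOf x = 7 at hxo
      have hcomm : Commute x u := mem_centralizer_iff.1 hu x hx
      have h21 : orderOf (x * u) = 21 := by
        rw [hcomm.orderOf_mul_eq_mul_orderOf_of_coprime (by rw [hxo, huo]; norm_num), hxo, huo]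
      obtain ⟨f, hf⟩ := exists_alt hG _ (normalizer_ne_top hG h7 P)
      refine no21' _ (hni ▸ h8) ((f (x * u) : alternatingGroup _) : Equiv.Perm _) ?_
      rw [Subgroup.orderOf_coe, orderOf_injective f hf, h21]
    · rw [h36] at hNn
      have hN : Nat.card (normalizer ((P : Subgroup G) : Set G)) = 14 := by omega
      refine ⟨by rw [← hn, h36], hN, ?_⟩
      rw [hN, hc'] at hCe
      have he2 : e = 2 := by
        interval_cases e <;> omega
      rw [he2] at hCe
      omega
  obtain ⟨P⟩ := (inferInstance : Nonempty (Sylow 7 G))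
  obtain ⟨h36, hN, hC⟩ := main P
  refine ⟨h36, ?_, ?_⟩
  · intro x hx
    have hz : IsPGroup 7 (zpowers x) := by
      rw [IsPGroup.iff_card]; exact ⟨1, by rw [Nat.card_zpowers, hx, pow_one]⟩
    obtain ⟨Q, hQ⟩ := hz.exists_le_sylow
    have hQe : zpowers x = (Q : Subgroup G) := by
      apply Subgroup.eq_of_le_of_card_ge hQ
      rw [hPc Q, Nat.card_zpowers, hx]
    have h1 := (main Q).2.2
    rw [← hQe] at h1
    have h2 : centralizer ({x} : Set G) = centralizer ((zpowers x : Subgroup G) : Set G) := by
      apply le_antisymm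
      · intro g hg
        rw [mem_centralizer_iff]
        rintro _ ⟨k, rfl⟩
        have h3 : Commute g x := (mem_centralizer_singleton_iff.1 hg)
        exact (h3.zpow_right k).eq.symm
      · exact centralizer_le (Set.singleton_subset_iff.2 (mem_zpowers x))
    rw [h2]; exact h1
  · obtain ⟨⟨t, htN⟩, hto⟩ := exists_prime_orderOf_dvd_card' 2 (by rw [hN]; norm_num : 2 ∣ Nat.card (normalizer ((P : Subgroup G) : Set G)))
    rw [← Subgroup.orderOf_coe] at hto
    change orderOf t = 2 at hto
    obtain ⟨⟨x, hx⟩, hxo⟩ := exists_prime_orderOf_dvd_card' 7 (by rw [hPc P] : 7 ∣ Nat.card (P : Subgroup G))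
    rw [← Subgroup.orderOf_coe] at hxo
    change orderOf x = 7 at hxo
    refine ⟨x, t, hxo, hto, ?_⟩
    have ht2 : t * t = 1 := by rw [← pow_two, ← hto, pow_orderOf_eq_one]
    have hti : t⁻¹ = t := inv_eq_of_mul_eq_one_left ht2
    haveI : IsCyclic (P : Subgroup G) := isCyclic_of_prime_card (hPc P)
    have hab : ∀ a ∈ (P : Subgroup G), ∀ b ∈ (P : Subgroup G), a * b = b * a := fun a ha b hb =>
      congrArg Subtype.val ((IsCyclic.commGroup (α := (P : Subgroup G))).mul_comm ⟨a, ha⟩ ⟨b, hb⟩)
    have hxt : t * x * t⁻¹ ∈ (P : Subgroup G) := (mem_normalizer_iff.1 htN x).1 hx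
    set y := x * (t * x * t⁻¹) with hy
    have hyP : y ∈ (P : Subgroup G) := mul_mem hx hxt
    have hty : t * y * t⁻¹ = y := by
      rw [hy, hab x hx _ hxt, hti]
      calc t * (t * x * t * x) * t = (t * t) * x * t * x * t := by group
        _ = x * t * x * t := by rw [ht2, one_mul]
        _ = x * (t * x * t) := by group
        _ = (t * x * t) * x := by have := hab x hx _ hxt; rw [hti] at this; exact this
        _ = t * x * t * x := by group
    by_cases hy1 : y = 1
    · exact eq_inv_of_mul_eq_one_right hy1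
    · exfalso
      -- t centralizes P
      have hz : zpowers y = (P : Subgroup G) := by
        apply Subgroup.eq_of_le_of_card_ge (zpowers_le.2 hyP)
        have h1 : orderOf y ∣ Nat.card (P : Subgroup G) := Subgroup.orderOf_dvd_natCard _ hyP
        rw [hPc P] at h1
        rw [hPc P, Nat.card_zpowers]
        rcases (Nat.dvd_prime (by norm_num)).1 h1 with h5 | h5
        · exact absurd (orderOf_eq_one_iff.1 h5) hy1
        · rw [h5]
      have htC : t ∈ centralizer ((P : Subgroup G) : Set G) := by
        rw [← hz, mem_centralizer_iff]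
        rintro _ ⟨k, rfl⟩
        have h3 : Commute t y := mul_inv_eq_iff_eq_mul.1 hty
        exact (h3.zpow_right k).eq.symm
      have h4 : orderOf t ∣ Nat.card (centralizer ((P : Subgroup G) : Set G)) := Subgroup.orderOf_dvd_natCard _ htC
      rw [hto, hC] at h4
      norm_num at h4

end Cfsg.Agent.H5.OrB
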