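import Mathlib
import Cfsg.Agent.H5_FrmInst
import Cfsg.Agent.H5_FrmWitt
import Cfsg.Agent.H5_Isom

set_option autoImplicit false
set_option linter.unusedSectionVars false

/-! Non-degenerate symmetric bilinear forms over perfect fields of characteristic two: orthonormal bases. -/

namespace Cfsg.Agent.H5.Sym2

open Module

variable {F : Type*} [Field F]

/-- the perp of a vector -/
def pv {V : Type*} [AddCommGroup V] [Module F V] (b : V →ₗ[F] V →ₗ[F] F) (w : V) : Submodule F V :=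
  LinearMap.ker (b w)

theorem mem_pv {V : Type*} [AddCommGroup V] [Module F V] {b : V →ₗ[F] V →ₗ[F] F} {w x : V} :
    x ∈ pv b w ↔ b w x = 0 := LinearMap.mem_ker

/-- gluing an orthonormal basis -/
theorem glue_basis {V : Type*} [AddCommGroup V] [Module F V] [FiniteDimensional F V] {n : ℕ}
    (b : V →ₗ[F] V →ₗ[F] F) (hs : ∀ x y, b x y = b y x) {w : V} (hw : b w w = 1)
    (e : Basis (Fin n) F (pv b w)) (he : ∀ i j, b (e i : V) (e j : V) = if i = j then 1 else 0) :
    ∃ e' : Basis (Fin (n + 1)) F V, ∀ i j, b (e' i) (e' j) = if i = j then 1 else 0 := by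
  have hvU : ∀ y ∈ pv b w, b w y = 0 := fun y hy => mem_pv.1 hy
  let b' := Module.Basis.mkFinCons w e (by
    intro c y hy h
    have h1 : b w (c • w + y) = 0 := by rw [h, map_zero]
    rw [map_add, (b w).map_smul, hw, hvU y hy, add_zero, smul_eq_mul, mul_one] at h1
    exact h1) (by
    intro z
    refine ⟨-(b w z), ?_⟩
    rw [mem_pv, map_add, (b w).map_smul, hw]
    simp)
  refine ⟨b', ?_⟩
  have hb'0 : b' 0 = w := by
    simp [b', Module.Basis.coe_mkFinCons]
  have hb's : ∀ i : Fin n, b' i.succ = (e i : V) := by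
    intro i
    simp [b', Module.Basis.coe_mkFinCons]
  intro i j
  refine Fin.cases ?_ (fun i => ?_) i <;> refine Fin.cases ?_ (fun j => ?_) j
  · rw [hb'0, hw, if_pos rfl]
  · rw [hb'0, hb's, hvU _ (e j).2, if_neg (Fin.succ_ne_zero j).symm]
  · rw [hb'0, hb's, if_neg (Fin.succ_ne_zero i), hs]
    exact hvU _ (e i).2
  · rw [hb's, hb's, he]
    simp [Fin.succ_inj]

theorem orthonormal (h2 : (2 : F) = 0) (hsq : ∀ a : F, IsSquare a) : ∀ (n : ℕ) {V : Type*} [AddCommGroup V] [Module F V]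
    [FiniteDimensional F V] (b : V →ₗ[F] V →ₗ[F] F), (∀ x y, b x y = b y x) →
    (∀ x, (∀ y, b x y = 0) → x = 0) → (∃ x, b x x ≠ 0) → finrank F V = n →
    ∃ e : Basis (Fin n) F V, ∀ i j, b (e i) (e j) = if i = j then 1 else 0 := by
  intro n
  induction n with
  | zero =>
    intro V _ _ _ b _ _ _ hV
    exact ⟨Module.finBasisOfFinrankEq F V hV, fun i => i.elim0⟩
  | succ n ih =>
    intro V _ _ _ b hs hn hx hV
    have hnorm : ∀ x, b x x ≠ 0 → ∃ w, b w w = 1 := by
      intro x hx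
      obtain ⟨a, ha⟩ := hsq (b x x)⁻¹
      refine ⟨a • x, ?_⟩
      rw [map_smul, map_smul, LinearMap.smul_apply, smul_eq_mul, smul_eq_mul, ← mul_assoc, ← ha, inv_mul_cancel₀ hx]
    obtain ⟨x, hx⟩ := hx
    obtain ⟨w0, hw0⟩ := hnorm x hx
    have hdec : ∀ w, b w w = 1 → ∀ x, b w (x - b w x • w) = 0 := by
      intro w hw x
      rw [map_sub, map_smul, hw, smul_eq_mul, mul_one, sub_self]
    have hfr : ∀ w, b w w = 1 → finrank F (pv b w) = n := by
      intro w hw
      have h1 := LinearMap.finrank_range_add_finrank_ker (b w)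
      have h3 : LinearMap.range (b w) = ⊤ := by
        rw [LinearMap.range_eq_top]
        intro c
        exact ⟨c • w, by rw [map_smul, hw, smul_eq_mul, mul_one]⟩
      rw [h3, finrank_top, finrank_self, hV] at h1
      change finrank F (LinearMap.ker (b w)) = n
      omega
    have hnd : ∀ w, b w w = 1 → ∀ x ∈ pv b w, (∀ y ∈ pv b w, b x y = 0) → x = 0 := by
      intro w hw x hx h
      apply hn
      intro y
      have h1 := h _ (mem_pv.2 (hdec w hw y))
      rw [map_sub, map_smul, hs x w, mem_pv.1 hx, smul_zero, sub_zero] at h1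
      exact h1
    -- a good vector
    obtain ⟨w, hw, hw2⟩ : ∃ w, b w w = 1 ∧ (n = 0 ∨ ∃ x ∈ pv b w, b x x ≠ 0) := by
      by_cases hn0 : n = 0
      · exact ⟨w0, hw0, Or.inl hn0⟩
      by_cases hal : ∃ x ∈ pv b w0, b x x ≠ 0
      · exact ⟨w0, hw0, Or.inr hal⟩
      push Not at hal
      have hne : Nontrivial (pv b w0) := Module.nontrivial_of_finrank_pos (R := F) (by rw [hfr w0 hw0]; omega)
      obtain ⟨e, he⟩ := exists_ne (0 : pv b w0)
      obtain ⟨f, hf1, hf2⟩ : ∃ f ∈ pv b w0, b (e : V) f ≠ 0 := by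
        by_contra hcon
        push Not at hcon
        exact he (Subtype.ext (hnd w0 hw0 e e.2 hcon))
      obtain ⟨f', hf1', hf2'⟩ : ∃ f' ∈ pv b w0, b (e : V) f' = 1 := by
        refine ⟨(b (e : V) f)⁻¹ • f, Submodule.smul_mem _ _ hf1, ?_⟩
        rw [map_smul, smul_eq_mul, inv_mul_cancel₀ hf2]
      have e1 : b w0 (e : V) = 0 := mem_pv.1 e.2
      have e2 : b (e : V) w0 = 0 := by rw [hs, e1]
      have e3 : b w0 f' = 0 := mem_pv.1 hf1'
      have e4 : b f' w0 = 0 := by rw [hs, e3]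
      have e5 : b (e : V) (e : V) = 0 := hal _ e.2
      have e6 : b f' f' = 0 := hal _ hf1'
      refine ⟨w0 + e, ?_, Or.inr ⟨w0 + f', ?_, ?_⟩⟩
      · simp only [map_add, LinearMap.add_apply, hw0, e1, e2, e5, add_zero]
      · rw [mem_pv]
        simp only [map_add, LinearMap.add_apply, hw0, e2, e3, hf2', add_zero, zero_add]
        rw [one_add_one_eq_two, h2]
      · simp only [map_add, LinearMap.add_apply, hw0, e3, e4, e6, add_zero]
        exact one_ne_zero
    rcases Nat.eq_zero_or_pos n with hn0 | hn0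
    · subst hn0
      have := hfr w hw
      let e : Basis (Fin 0) F (pv b w) := Module.finBasisOfFinrankEq F _ this
      exact glue_basis b hs hw e (fun i => i.elim0)
    · obtain ⟨x, hx1, hx2⟩ := hw2.resolve_left (by omega)
      obtain ⟨e, he⟩ := ih (V := pv b w) (b.domRestrict₁₂ (pv b w) (pv b w)) (fun x y => hs _ _)
        (fun x hx => Subtype.ext (hnd w hw x x.2 (fun y hy => hx ⟨y, hy⟩))) ⟨⟨x, hx1⟩, hx2⟩ (hfr w hw)
      exact glue_basis b hs hw e he

theorem ortho_isometric (h2 : (2 : F) = 0) (hsq : ∀ a : F, IsSquare a) {V V' : Type*} [AddCommGroup V] [Module F V]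
    [FiniteDimensional F V] [AddCommGroup V'] [Module F V'] [FiniteDimensional F V']
    (b : V →ₗ[F] V →ₗ[F] F) (hs : ∀ x y, b x y = b y x)
    (hn : ∀ x, (∀ y, b x y = 0) → x = 0) (hx : ∃ x, b x x ≠ 0)
    (b' : V' →ₗ[F] V' →ₗ[F] F) (hs' : ∀ x y, b' x y = b' y x)
    (hn' : ∀ x, (∀ y, b' x y = 0) → x = 0) (hx' : ∃ x, b' x x ≠ 0)
    (hd : finrank F V = finrank F V') :
    ∃ φ : V ≃ₗ[F] V', ∀ x y, b' (φ x) (φ y) = b x y := by
  obtain ⟨e, he⟩ := orthonormal h2 hsq _ b hs hn hx rfl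
  obtain ⟨e', he'⟩ := orthonormal h2 hsq _ b' hs' hn' hx' hd.symm
  refine ⟨e.equiv e' (Equiv.refl _), fun x y => ?_⟩
  have : b'.compl₁₂ (e.equiv e' (Equiv.refl _)).toLinearMap (e.equiv e' (Equiv.refl _)).toLinearMap = b := by
    apply e.ext
    intro i
    apply e.ext
    intro j
    rw [LinearMap.compl₁₂_apply]
    change b' (e.equiv e' (Equiv.refl _) (e i)) (e.equiv e' (Equiv.refl _) (e j)) = _
    rw [Basis.equiv_apply, Basis.equiv_apply, he, Equiv.refl_apply, Equiv.refl_apply, he']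
  exact LinearMap.congr_fun (LinearMap.congr_fun this x) y

open Cfsg.Agent.H5.Frm in
theorem alt_isometric {V V' : Type*} [AddCommGroup V] [Module F V]
    [FiniteDimensional F V] [AddCommGroup V'] [Module F V'] [FiniteDimensional F V']
    (b : V →ₗ[F] V →ₗ[F] F) (hs : ∀ x, b x x = 0) (hn : ∀ x, (∀ y, b x y = 0) → x = 0)
    (b' : V' →ₗ[F] V' →ₗ[F] F) (hs' : ∀ x, b' x x = 0)
    (hn' : ∀ x, (∀ y, b' x y = 0) → x = 0)
    (hd : finrank F V = finrank F V') :
    ∃ φ : V ≃ₗ[F] V', ∀ x y, b' (φ x) (φ y) = b x y := by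
  obtain ⟨k, a, ha, hw⟩ := exists_wittDec (F := F) (σ := RingHom.id F) (ε := -1) (t := (0 : F →+ F)) 0
    (fun {V} _ _ _ A hA h => by
      have : Nontrivial V := Module.nontrivial_of_finrank_pos (R := F) h
      obtain ⟨v, hv⟩ := exists_ne (0 : V)
      obtain ⟨s, hs⟩ := A.Q_t v
      exact ⟨v, hv, by rw [← hs]; rfl⟩) _ (ofAlt b hs) (fun x hx => hn x hx) rfl
  obtain ⟨k', a', ha', hw'⟩ := exists_wittDec (F := F) (σ := RingHom.id F) (ε := -1) (t := (0 : F →+ F)) 0
    (fun {V} _ _ _ A hA h => by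
      have : Nontrivial V := Module.nontrivial_of_finrank_pos (R := F) h
      obtain ⟨v, hv⟩ := exists_ne (0 : V)
      obtain ⟨s, hs⟩ := A.Q_t v
      exact ⟨v, hv, by rw [← hs]; rfl⟩) _ (ofAlt b' hs') (fun x hx => hn' x hx) rfl
  have e1 := hw.finrank_eq
  have e2 := hw'.finrank_eq
  obtain rfl : a = 0 := by omega
  obtain rfl : a' = 0 := by omega
  obtain rfl : k' = k := by omega
  obtain ⟨φ, h1, -⟩ := WittDec.isometric (F := F) (σ := RingHom.id F) (ε := -1) (t := (0 : F →+ F)) 0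
    (fun A A' _ _ _ _ h h' => Isometric.of_finrank_zero A A' h h') k' (ofAlt b hs) (ofAlt b' hs')
    (fun x hx => hn x hx) (fun x hx => hn' x hx) hw hw'
  exact ⟨φ, h1⟩

end Cfsg.Agent.H5.Sym2
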