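import Mathlib
import Cfsg.Agent.H17_CV2
import Cfsg.Agent.H6_CVL1
import Cfsg.Agent.H14_CVL2
import Cfsg.Agent.H14_CVL3

set_option autoImplicit false

open Subgroup
open Cfsg.Agent.H17.CV

namespace Cfsg.Agent.H6.CVL8

theorem V_sup {G : Type*} [Group G] (N H : Subgroup G) [N.Normal] (hs : N ⊔ H = ⊤) (k : ℕ) :
    ∀ x ∈ V G k, ∃ y ∈ V G k, y ∈ H ∧ ∃ n ∈ N, x = n * y := by
  induction k with
  | zero =>
    intro x _
    have : x ∈ N ⊔ H := hs ▸ Subgroup.mem_top x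
    obtain ⟨n, hn, y, hy, rfl⟩ := Subgroup.mem_sup_of_normal_left.1 this
    exact ⟨y, trivial, hy, n, hn, rfl⟩
  | succ k ih =>
    rintro x ⟨a, ha, b, rfl⟩
    obtain ⟨y, hyV, hyH, n, hn, rfl⟩ := ih a ha
    have : b ∈ N ⊔ H := hs ▸ Subgroup.mem_top b
    obtain ⟨m, hm, z, hz, rfl⟩ := Subgroup.mem_sup_of_normal_left.1 this
    refine ⟨y * z * y⁻¹ * z⁻¹, ⟨y, hyV, z, rfl⟩, H.mul_mem (H.mul_mem (H.mul_mem hyH hz) (H.inv_mem hyH)) (H.inv_mem hz),
      (n * y * (m * z) * (n * y)⁻¹ * (m * z)⁻¹) * (y * z * y⁻¹ * z⁻¹)⁻¹, ?_, by group⟩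
    rw [← QuotientGroup.eq_one_iff]
    have e1 : (n : G ⧸ N) = 1 := (QuotientGroup.eq_one_iff n).2 hn
    have e2 : (m : G ⧸ N) = 1 := (QuotientGroup.eq_one_iff m).2 hm
    simp only [QuotientGroup.mk_mul, QuotientGroup.mk_inv, e1, e2, one_mul]
    group

theorem mem_of_dvd {p : ℕ} [hp : Fact p.Prime] {G : Type*} [Group G] [Finite G] (O : Subgroup G) [O.Normal]
    {x : G} (hx : ∃ n, orderOf x = p ^ n) {m : ℕ} (hm : m.Coprime p) (h : x ^ m ∈ O) : x ∈ O := by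
  obtain ⟨n, hn⟩ := hx
  have e1 : orderOf (QuotientGroup.mk' O x) ∣ p ^ n := hn ▸ orderOf_map_dvd _ _
  have e2 : orderOf (QuotientGroup.mk' O x) ∣ m := by
    apply orderOf_dvd_of_pow_eq_one
    rw [← map_pow]
    exact (QuotientGroup.eq_one_iff _).2 h
  have e3 : m.Coprime (p ^ n) := Nat.Coprime.pow_right n hm
  exact (QuotientGroup.eq_one_iff x).1 (orderOf_eq_one_iff.1 (Nat.eq_one_of_dvd_coprimes e3 e2 e1))

theorem pel_mem {p : ℕ} [hp : Fact p.Prime] {G : Type*} [Group G] [Finite G] [Group.IsSolvable G] (O : Subgroup G) [O.Normal]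
    (hO : IsPGroup p O) (hmax : ∀ N : Subgroup G, N.Normal → IsPGroup p N → N ≤ O) {k : ℕ} (h : HA G k)
    (x : G) (hxV : x ∈ V G k) (hx : ∃ n, orderOf x = p ^ n) : x ∈ O := by
  obtain ⟨U, hU, hsup, hcen⟩ := Cfsg.Agent.H14.CVL3.L3 p O hO hmax
  obtain ⟨y, hyV, hyN, o, ho, rfl⟩ := V_sup O _ hsup k x hxV
  have hyp : ∃ n, orderOf y = p ^ n := by
    obtain ⟨n, hn⟩ := hx
    have e1 : y ^ (p ^ n) ∈ O := by
      rw [← QuotientGroup.eq_one_iff]
      have e2 : (o : G ⧸ O) = 1 := (QuotientGroup.eq_one_iff o).2 ho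
      have e3 : (y : G ⧸ O) = ((o * y : G) : G ⧸ O) := by rw [QuotientGroup.mk_mul, e2, one_mul]
      rw [QuotientGroup.mk_pow, e3, ← QuotientGroup.mk_pow, ← hn, pow_orderOf_eq_one, QuotientGroup.mk_one]
    obtain ⟨m, hm⟩ := hO ⟨_, e1⟩
    have e4 : (y ^ (p ^ n)) ^ p ^ m = 1 := congrArg Subtype.val hm
    rw [← pow_mul, ← pow_add] at e4
    obtain ⟨j, -, hj⟩ := (Nat.dvd_prime_pow hp.out).1 (orderOf_dvd_of_pow_eq_one e4)
    exact ⟨j, hj⟩
  have hyC : y ∈ Subgroup.centralizer (U : Set G) := by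
    rw [Subgroup.mem_centralizer_iff]
    intro u hu
    have e1 : y * u * y⁻¹ * u⁻¹ ∈ U := U.mul_mem ((Subgroup.mem_normalizer_iff.1 hyN u).1 hu) (U.inv_mem hu)
    have e2 : orderOf (y * u * y⁻¹ * u⁻¹) ∣ Nat.card U := by
      rw [← Subgroup.orderOf_mk _ e1]; exact orderOf_dvd_natCard _
    obtain ⟨j, hj⟩ := hyp
    exact (h y hyV u (by rw [hj]; exact Nat.Coprime.pow_left j (Nat.Coprime.coprime_dvd_left e2 hU).symm)).symm
  have h1 : y ∈ O ⊔ U := hcen ⟨hyC, hyN⟩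
  obtain ⟨o', ho', u, hu, hy⟩ := Subgroup.mem_sup_of_normal_left.1 h1
  have h2 : y ^ Nat.card U ∈ O := by
    rw [← QuotientGroup.eq_one_iff]
    have e2 : (o' : G ⧸ O) = 1 := (QuotientGroup.eq_one_iff o').2 ho'
    have e3 : (y : G ⧸ O) = (u : G ⧸ O) := by rw [← hy, QuotientGroup.mk_mul, e2, one_mul]
    have e4 : u ^ Nat.card U = 1 := by
      have := pow_card_eq_one' (x := (⟨u, hu⟩ : U))
      exact congrArg Subtype.val this
    rw [QuotientGroup.mk_pow, e3, ← QuotientGroup.mk_pow, e4, QuotientGroup.mk_one]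
  exact O.mul_mem ho (mem_of_dvd O hyp hU h2)

theorem exists_O (p : ℕ) [hp : Fact p.Prime] (G : Type*) [Group G] [Finite G] :
    ∃ O : Subgroup G, O.Normal ∧ IsPGroup p O ∧ ∀ N : Subgroup G, N.Normal → IsPGroup p N → N ≤ O := by
  have hf : {N : Subgroup G | N.Normal ∧ IsPGroup p N}.Finite := Set.toFinite _
  obtain ⟨O, hO⟩ := hf.exists_maximal ⟨⊥, inferInstance, IsPGroup.of_bot⟩
  refine ⟨O, hO.prop.1, hO.prop.2, fun N hN hNp => ?_⟩
  have := hO.prop.1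
  have h1 : O ⊔ N ∈ {N : Subgroup G | N.Normal ∧ IsPGroup p N} :=
    ⟨inferInstance, IsPGroup.to_sup_of_normal_right hO.prop.2 hNp⟩
  exact le_sup_right.trans (hO.le_of_ge h1 le_sup_left)

theorem iter_mem {G : Type*} [Group G] (P : Subgroup G) (g : G) (hg : g ∈ Subgroup.normalizer (P : Set G)) (v : G) (hv : v ∈ P)
    (k : ℕ) : (fun a => a * g * a⁻¹ * g⁻¹)^[k] v ∈ P := by
  induction k with
  | zero => exact hv
  | succ k ih =>
    rw [Function.iterate_succ_apply']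
    have : ∀ a ∈ P, a * g * a⁻¹ * g⁻¹ ∈ P := by
      intro a ha
      have := (Subgroup.mem_normalizer_iff.1 hg a⁻¹).1 (P.inv_mem ha)
      have e : a * g * a⁻¹ * g⁻¹ = a * (g * a⁻¹ * g⁻¹) := by group
      rw [e]; exact P.mul_mem ha this
    exact this _ ih

/-- if all `p`-elements among the values lie in `C`, then all values lie in `K`, `K/C` a `p'`-group -/
theorem exists_K {p : ℕ} [hp : Fact p.Prime] {G : Type*} [Group G] [Finite G] (C : Subgroup G) [C.Normal] (k : ℕ)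
    (h : ∀ x ∈ V G k, (∃ n, orderOf x = p ^ n) → x ∈ C) :
    ∃ K : Subgroup G, K.Normal ∧ C ≤ K ∧ (C.relIndex K).Coprime p ∧ (∃ n, K.index = p ^ n) ∧ V G k ⊆ K := by
  obtain ⟨K, hK, hCK, hKp, n, hn⟩ := Cfsg.Agent.H6.CVL1.L1 (p := p) C (fun P hP g hg hgp v hv => by
    refine Cfsg.Agent.H14.CVL2.L2 C P hP g hg hgp v hv k (h _ (Cfsg.Agent.H17.CV2.V_iter k v g) ?_)
    have := iter_mem P g hg v hv k
    obtain ⟨m, hm⟩ := hP ⟨_, this⟩
    have e4 := congrArg Subtype.val hm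
    obtain ⟨j, -, hj⟩ := (Nat.dvd_prime_pow hp.out).1 (orderOf_dvd_of_pow_eq_one e4)
    exact ⟨j, hj⟩)
  refine ⟨K, hK, hCK, hKp, ⟨n, hn⟩, ?_⟩
  obtain ⟨S⟩ : Nonempty (Sylow p G) := inferInstance
  have hKS : K ⊔ S = ⊤ := by
    have := Cfsg.Agent.H6.CVL1.sup_eq (p := p) K (H := ⊤) (T := S) le_top ⟨n, by rw [Subgroup.relIndex_top_right, hn]⟩ le_top
      (by rw [Subgroup.relIndex_top_right]; exact S.not_dvd_index)
    exact this
  intro x hx
  obtain ⟨y, hyV, hyS, m, hm, rfl⟩ := V_sup K S hKS k x hx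
  have hy : ∃ n, orderOf y = p ^ n := by
    obtain ⟨m, hm⟩ := S.isPGroup' ⟨_, hyS⟩
    have e4 := congrArg Subtype.val hm
    obtain ⟨j, -, hj⟩ := (Nat.dvd_prime_pow hp.out).1 (orderOf_dvd_of_pow_eq_one e4)
    exact ⟨j, hj⟩
  exact K.mul_mem hm (hCK (h y hyV hy))

theorem closure_V {G : Type*} [Group G] [Finite G] {k : ℕ}
    (h : ∀ p : ℕ, p.Prime → ∃ O K : Subgroup G, O.Normal ∧ IsPGroup p O ∧ O ≤ K ∧ (O.relIndex K).Coprime p ∧ V G k ⊆ K) :
    Group.IsNilpotent (Subgroup.closure (V G k)) := by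
  refine (Group.isNilpotent_of_finite_tfae.out 0 3).2 ?_
  intro p hp P
  obtain ⟨O, K, hO, hOp, hOK, hrel, hV⟩ := h p hp.out
  have hΓ : Subgroup.closure (V G k) ≤ K := (Subgroup.closure_le K).2 hV
  have h1 : (P : Subgroup (Subgroup.closure (V G k))) ≤ O.subgroupOf (Subgroup.closure (V G k)) := by
    intro x hx
    rw [Subgroup.mem_subgroupOf]
    have hxp : ∃ n, orderOf (x : G) = p ^ n := by
      obtain ⟨m, hm⟩ := P.isPGroup' ⟨x, hx⟩
      have e4 := congrArg Subtype.val (congrArg Subtype.val hm)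
      obtain ⟨j, -, hj⟩ := (Nat.dvd_prime_pow hp.out).1 (orderOf_dvd_of_pow_eq_one (x := (x : G)) (by simpa using e4))
      exact ⟨j, hj⟩
    refine mem_of_dvd O hxp hrel ?_
    have hxK : (x : G) ∈ K := hΓ x.2
    have hn : (O.subgroupOf K).Normal := inferInstance
    have e := Subgroup.pow_index_mem (O.subgroupOf K) (⟨x, hxK⟩ : K)
    rw [Subgroup.mem_subgroupOf] at e
    exact e
  have h2 : IsPGroup p (O.subgroupOf (Subgroup.closure (V G k))) := hOp.comap_of_injective _ Subtype.val_injective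
  have h3 : (P : Subgroup (Subgroup.closure (V G k))) = O.subgroupOf (Subgroup.closure (V G k)) :=
    (P.is_maximal' h2 h1).symm
  rw [h3]
  infer_instance

/-- the solvable case -/
theorem solv {G : Type*} [Group G] [Finite G] [Group.IsSolvable G] {k : ℕ} (h : HA G k) :
    Group.IsNilpotent (Subgroup.closure (V G k)) := by
  apply closure_V
  intro p hp
  have : Fact p.Prime := ⟨hp⟩
  obtain ⟨O, hO, hOp, hmax⟩ := exists_O p G
  obtain ⟨K, hK, hOK, hrel, -, hV⟩ := exists_K O k (fun x hx hxp => pel_mem O hOp hmax h x hx hxp)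
  exact ⟨O, K, hO, hOp, hOK, hrel, hV⟩

end Cfsg.Agent.H6.CVL8
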