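import Cfsg.Statements.S3742
import Cfsg.Agent.H5_Rec
import Cfsg.Agent.H17_SDSL3
import Cfsg.Agent.H2_SL23

set_option autoImplicit false
open Cfsg

namespace Cfsg.Agent.S3742

open QuaternionGroup

def rf : QuaternionGroup 2 → QuaternionGroup 2
  | .a i => (![.a 0, .xa 0, .a 2, .xa 2] : Fin 4 → QuaternionGroup 2) i
  | .xa i => (![.a 1, .xa 3, .a 3, .xa 1] : Fin 4 → QuaternionGroup 2) i

theorem rf_mul : ∀ x y : QuaternionGroup 2, rf (x * y) = rf x * rf y := by
  decide +kernel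

theorem rf_sq : ∀ x : QuaternionGroup 2, rf (rf x) = x := by
  decide +kernel

def R : MulAut (QuaternionGroup 2) where
  toFun := rf
  invFun := rf
  left_inv x := rf_sq x
  right_inv x := rf_sq x
  map_mul' := rf_mul

def cj (g : QuaternionGroup 2) : MulAut (QuaternionGroup 2) := MulAut.conj g

theorem conj_mul (φ : MulAut (QuaternionGroup 2)) (g : QuaternionGroup 2) : φ * cj g * φ⁻¹ = cj (φ g) := by
  ext x
  show φ (g * φ.symm x * g⁻¹) = φ g * x * (φ g)⁻¹
  rw [map_mul, map_mul, map_inv]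
  simp

def T (t : Fin 2 × Fin 2 × Fin 3 × Fin 2) (x : QuaternionGroup 2) : QuaternionGroup 2 :=
  (fun y => a 1 * y * (a 1)⁻¹)^[(t.1 : ℕ)] ((fun y => xa 0 * y * (xa 0)⁻¹)^[(t.2.1 : ℕ)] (H2.SL23.αf^[(t.2.2.1 : ℕ)] (rf^[(t.2.2.2 : ℕ)] x)))

theorem T_inj : ∀ s t : Fin 2 × Fin 2 × Fin 3 × Fin 2, T s (a 1) = T t (a 1) → T s (xa 0) = T t (xa 0) → s = t := by
  decide +kernel

theorem iter (φ : MulAut (QuaternionGroup 2)) (k : ℕ) (x : QuaternionGroup 2) : (φ ^ k) x = (φ : QuaternionGroup 2 → QuaternionGroup 2)^[k] x := by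
  induction k generalizing x with
  | zero => rfl
  | succ k ih => rw [pow_succ, MulAut.mul_apply, ih, Function.iterate_succ_apply]

/-- The automorphism group of the quaternion group of order 8 is isomorphic to the symmetric group of degree 4. -/
theorem result : Nonempty (MulAut (QuaternionGroup 2) ≃* Equiv.Perm (Fin 4)) := by
  have h24 : Nat.card (MulAut (QuaternionGroup 2)) = 24 := by
    apply le_antisymm H17.SDSL.card_mulAut_q8
    have hT : ∀ t : Fin 2 × Fin 2 × Fin 3 × Fin 2, ∀ x, (cj (a 1) ^ (t.1 : ℕ) * cj (xa 0) ^ (t.2.1 : ℕ) * H2.SL23.α ^ (t.2.2.1 : ℕ) * R ^ (t.2.2.2 : ℕ)) x = T t x := by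
      intro t x
      rw [MulAut.mul_apply, MulAut.mul_apply, MulAut.mul_apply, iter, iter, iter, iter]
      rfl
    have hinj : Function.Injective (fun t : Fin 2 × Fin 2 × Fin 3 × Fin 2 => cj (a 1) ^ (t.1 : ℕ) * cj (xa 0) ^ (t.2.1 : ℕ) * H2.SL23.α ^ (t.2.2.1 : ℕ) * R ^ (t.2.2.2 : ℕ)) := by
      intro s t h
      apply T_inj
      · rw [← hT, ← hT]
        exact congrArg (fun φ : MulAut (QuaternionGroup 2) => φ (a 1)) h
      · rw [← hT, ← hT]
        exact congrArg (fun φ : MulAut (QuaternionGroup 2) => φ (xa 0)) h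
    have := Nat.card_le_card_of_injective _ hinj
    simpa using this
  refine H5.Rec.s4_rec (a := cj (a 1)) (b := cj (xa 0)) (c := H2.SL23.α) (r := R) h24 ⟨?_, ?_, ?_, ?_, ?_, ?_⟩ ?_ ?_ ?_ ?_ ?_
  · exact MulEquiv.ext (by decide +kernel)
  · exact MulEquiv.ext (by decide +kernel)
  · exact MulEquiv.ext (by decide +kernel)
  · intro h
    exact absurd (congrArg (fun φ : MulAut (QuaternionGroup 2) => φ (xa 0)) h) (by decide +kernel)
  · intro h
    exact absurd (congrArg (fun φ : MulAut (QuaternionGroup 2) => φ (a 1)) h) (by decide +kernel)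
  · intro h
    exact absurd (congrArg (fun φ : MulAut (QuaternionGroup 2) => φ (a 1)) h) (by decide +kernel)
  · rw [conj_mul]; rfl
  · rw [conj_mul]
    exact MulEquiv.ext (by decide +kernel)
  · rw [← pow_three']; exact H2.SL23.α_cube
  · rw [conj_mul]; rfl
  · rw [conj_mul]; rfl

end Cfsg.Agent.S3742
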