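import Cfsg.Prelude
import Cfsg.Agent.S3742

/-! Recognition of `GL(2,3)`: a group of order 48 with a normal self-centralizing quaternion
subgroup of order 8 and an involution outside it. -/

set_option autoImplicit false
open Cfsg

namespace Cfsg.Agent.H6.GL23

open QuaternionGroup

abbrev Q8 := QuaternionGroup 2

/-- the automorphism `i ↦ -j, j ↦ k, k ↦ -i` -/
def sf : Q8 → Q8
  | .a i => (![.a 0, .xa 2, .a 2, .xa 0] : Fin 4 → Q8) i
  | .xa i => (![.xa 3, .a 1, .xa 1, .a 3] : Fin 4 → Q8) i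

theorem sf_mul : ∀ x y : Q8, sf (x * y) = sf x * sf y := by decide +kernel

theorem sf_cube : ∀ x : Q8, sf (sf (sf x)) = x := by decide +kernel

def sg : MulAut Q8 where
  toFun := sf
  invFun := fun x => sf (sf x)
  left_inv x := sf_cube x
  right_inv x := sf_cube x
  map_mul' := sf_mul

abbrev rf : Q8 → Q8 := S3742.rf

abbrev ta : MulAut Q8 := S3742.R

/-- the data -/
structure Dt {X : Type*} [Group X] (ι : Q8 →* X) (c t : X) : Prop where
  inj : Function.Injective ι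
  c3 : c * c * c = 1
  t2 : t * t = 1
  tc : t * c = c * c * t
  hc : ∀ y, c * ι y = ι (sf y) * c
  ht : ∀ y, t * ι y = ι (rf y) * t

/-- normal forms -/
def F {X : Type*} [Group X] (ι : Q8 →* X) (c t : X) (m : Q8 × Fin 3 × Fin 2) : X :=
  ι m.1 * (c ^ (m.2.1 : ℕ) * t ^ (m.2.2 : ℕ))

/-- the action -/
def act (m : Fin 3 × Fin 2) (y : Q8) : Q8 :=
  sf^[(m.1 : ℕ)] (rf^[(m.2 : ℕ)] y)

/-- the product on the top -/
def tp (m n : Fin 3 × Fin 2) : Fin 3 × Fin 2 :=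
  (if m.2 = 0 then m.1 + n.1 else m.1 - n.1, m.2 + n.2)

def mm (m n : Q8 × Fin 3 × Fin 2) : Q8 × Fin 3 × Fin 2 :=
  (m.1 * act m.2 n.1, tp m.2 n.2)

theorem act_inj : ∀ m n : Q8 × Fin 3 × Fin 2,
    m.1 * act m.2 (a 1) * (m.1)⁻¹ = n.1 * act n.2 (a 1) * (n.1)⁻¹ →
    m.1 * act m.2 (xa 0) * (m.1)⁻¹ = n.1 * act n.2 (xa 0) * (n.1)⁻¹ → m.2 = n.2 := by
  decide +kernel

section
variable {X : Type*} [Group X] {ι : Q8 →* X} {c t : X}

theorem Dt.cpow (h : Dt ι c t) (k : ℕ) (y : Q8) : c ^ k * ι y = ι (sf^[k] y) * c ^ k := by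
  induction k generalizing y with
  | zero => simp
  | succ k ih => rw [pow_succ, mul_assoc, h.hc, ← mul_assoc, ih, mul_assoc]; rfl

theorem Dt.tpow (h : Dt ι c t) (k : ℕ) (y : Q8) : t ^ k * ι y = ι (rf^[k] y) * t ^ k := by
  induction k generalizing y with
  | zero => simp
  | succ k ih => rw [pow_succ, mul_assoc, h.ht, ← mul_assoc, ih, mul_assoc]; rfl

theorem Dt.top (h : Dt ι c t) (m n : Fin 3 × Fin 2) :
    (c ^ (m.1 : ℕ) * t ^ (m.2 : ℕ)) * (c ^ (n.1 : ℕ) * t ^ (n.2 : ℕ)) =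
      c ^ ((tp m n).1 : ℕ) * t ^ ((tp m n).2 : ℕ) := by
  have h1 : t * c = c ^ 2 * t := by rw [h.tc, pow_two]
  have h3 : c ^ 3 = 1 := by rw [pow_three']; exact h.c3
  have h4 : c ^ 4 = c := by rw [pow_succ, h3, one_mul]
  have h2 : t ^ 2 = 1 := by rw [pow_two]; exact h.t2
  have h5 : t * c ^ 2 = c * t := by
    rw [pow_two, ← mul_assoc, h1, mul_assoc, h1, ← mul_assoc, ← pow_add, h4]
  have cadd : ∀ x y : Fin 3, c ^ (x : ℕ) * c ^ (y : ℕ) = c ^ ((x + y : Fin 3) : ℕ) := by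
    intro x y
    rw [← pow_add, Fin.val_add]
    exact pow_eq_pow_mod _ h3
  have tadd : ∀ x y : Fin 2, t ^ (x : ℕ) * t ^ (y : ℕ) = t ^ ((x + y : Fin 2) : ℕ) := by
    intro x y
    rw [← pow_add, Fin.val_add]
    exact pow_eq_pow_mod _ h2
  have key : ∀ (j : Fin 2) (i : Fin 3), t ^ (j : ℕ) * c ^ (i : ℕ) =
      c ^ ((if j = 0 then i else -i : Fin 3) : ℕ) * t ^ (j : ℕ) := by
    intro j i
    fin_cases j
    · simp
    · fin_cases i
      · simp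
      · show t ^ 1 * c ^ 1 = c ^ 2 * t ^ 1
        rw [pow_one, pow_one, h1]
      · show t ^ 1 * c ^ 2 = c ^ 1 * t ^ 1
        rw [pow_one, pow_one, h5]
  have e1 : (tp m n).1 = m.1 + (if m.2 = 0 then n.1 else -n.1) := by
    unfold tp
    dsimp only
    split_ifs
    · rfl
    · rw [sub_eq_add_neg]
  have e2 : (tp m n).2 = m.2 + n.2 := rfl
  rw [e1, e2, ← cadd, ← tadd]
  calc c ^ (m.1 : ℕ) * t ^ (m.2 : ℕ) * (c ^ (n.1 : ℕ) * t ^ (n.2 : ℕ))
      = c ^ (m.1 : ℕ) * (t ^ (m.2 : ℕ) * c ^ (n.1 : ℕ)) * t ^ (n.2 : ℕ) := by group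
    _ = _ := by rw [key]; group

theorem Dt.F_mul (h : Dt ι c t) (m n : Q8 × Fin 3 × Fin 2) : F ι c t m * F ι c t n = F ι c t (mm m n) := by
  obtain ⟨q, m⟩ := m
  obtain ⟨r, n⟩ := n
  show ι q * (c ^ (m.1 : ℕ) * t ^ (m.2 : ℕ)) * (ι r * (c ^ (n.1 : ℕ) * t ^ (n.2 : ℕ))) =
    ι (q * act m r) * (c ^ ((tp m n).1 : ℕ) * t ^ ((tp m n).2 : ℕ))
  rw [← h.top, map_mul]
  have e : c ^ (m.1 : ℕ) * t ^ (m.2 : ℕ) * ι r = ι (act m r) * (c ^ (m.1 : ℕ) * t ^ (m.2 : ℕ)) := by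
    rw [mul_assoc, h.tpow, ← mul_assoc, h.cpow, mul_assoc]; rfl
  calc ι q * (c ^ (m.1 : ℕ) * t ^ (m.2 : ℕ)) * (ι r * (c ^ (n.1 : ℕ) * t ^ (n.2 : ℕ)))
      = ι q * (c ^ (m.1 : ℕ) * t ^ (m.2 : ℕ) * ι r) * (c ^ (n.1 : ℕ) * t ^ (n.2 : ℕ)) := by
        simp only [mul_assoc]
    _ = _ := by rw [e]; simp only [mul_assoc]

theorem Dt.F_conj (h : Dt ι c t) (m : Q8 × Fin 3 × Fin 2) (y : Q8) :
    F ι c t m * ι y * (F ι c t m)⁻¹ = ι (m.1 * act m.2 y * (m.1)⁻¹) := by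
  have e : c ^ (m.2.1 : ℕ) * t ^ (m.2.2 : ℕ) * ι y =
      ι (act m.2 y) * (c ^ (m.2.1 : ℕ) * t ^ (m.2.2 : ℕ)) := by
    rw [mul_assoc, h.tpow, ← mul_assoc, h.cpow, mul_assoc]; rfl
  rw [mul_inv_eq_iff_eq_mul, map_mul, map_mul, map_inv]
  show ι m.1 * (c ^ (m.2.1 : ℕ) * t ^ (m.2.2 : ℕ)) * ι y = _
  rw [mul_assoc, e]
  show _ = ι m.1 * ι (act m.2 y) * (ι m.1)⁻¹ * (ι m.1 * (c ^ (m.2.1 : ℕ) * t ^ (m.2.2 : ℕ)))
  group

theorem Dt.F_inj (h : Dt ι c t) : Function.Injective (F ι c t) := by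
  intro m n e
  have h1 : m.2 = n.2 := by
    apply act_inj
    · apply h.inj
      rw [← h.F_conj, ← h.F_conj, e]
    · apply h.inj
      rw [← h.F_conj, ← h.F_conj, e]
  obtain ⟨q, m⟩ := m
  obtain ⟨r, n⟩ := n
  obtain rfl : m = n := h1
  have h2 : ι q * (c ^ (m.1 : ℕ) * t ^ (m.2 : ℕ)) = ι r * (c ^ (m.1 : ℕ) * t ^ (m.2 : ℕ)) := e
  rw [h.inj (mul_right_cancel h2)]

theorem Dt.F_bij [Finite X] (h : Dt ι c t) (h48 : Nat.card X = 48) : Function.Bijective (F ι c t) := by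
  rw [Nat.bijective_iff_injective_and_card]
  refine ⟨h.F_inj, ?_⟩
  rw [h48, Nat.card_prod, Nat.card_prod, Nat.card_eq_fintype_card, QuaternionGroup.card]
  simp

end

theorem Dt.iso {X Y : Type*} [Group X] [Finite X] [Group Y] [Finite Y] {ι : Q8 →* X} {c t : X}
    {κ : Q8 →* Y} {d u : Y} (h : Dt ι c t) (k : Dt κ d u) (hX : Nat.card X = 48)
    (hY : Nat.card Y = 48) : Nonempty (X ≃* Y) := by
  let e := Equiv.ofBijective _ (h.F_bij hX)
  let f := Equiv.ofBijective _ (k.F_bij hY)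
  have he : ∀ m n, e m * e n = e (mm m n) := h.F_mul
  have hf : ∀ m n, f m * f n = f (mm m n) := k.F_mul
  exact ⟨{ toEquiv := e.symm.trans f
           map_mul' := fun x y => by
             show f (e.symm (x * y)) = f (e.symm x) * f (e.symm y)
             rw [hf]
             congr 1
             rw [Equiv.symm_apply_eq, ← he, Equiv.apply_symm_apply, Equiv.apply_symm_apply] }⟩

/-! ### `GL(2,3)` itself -/

def gm : Q8 → Matrix (Fin 2) (Fin 2) (ZMod 3)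
  | .a i => (![!![1, 0; 0, 1], !![0, 2; 1, 0], !![2, 0; 0, 2], !![0, 1; 2, 0]] :
      Fin 4 → Matrix (Fin 2) (Fin 2) (ZMod 3)) i
  | .xa i => (![!![1, 1; 1, 2], !![1, 2; 2, 2], !![2, 2; 2, 1], !![2, 1; 1, 1]] :
      Fin 4 → Matrix (Fin 2) (Fin 2) (ZMod 3)) i

theorem gm_mul : ∀ x y : Q8, gm (x * y) = gm x * gm y := by decide +kernel

theorem gm_inj : ∀ x y : Q8, gm x = gm y → x = y := by decide +kernel

def gh : Q8 →* Matrix (Fin 2) (Fin 2) (ZMod 3) where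
  toFun := gm
  map_one' := by decide +kernel
  map_mul' := gm_mul

def gι : Q8 →* GL (Fin 2) (ZMod 3) := gh.toHomUnits

def gc : GL (Fin 2) (ZMod 3) where
  val := !![1, 0; 2, 1]
  inv := !![1, 0; 1, 1]
  val_inv := by decide +kernel
  inv_val := by decide +kernel

def gt : GL (Fin 2) (ZMod 3) where
  val := !![1, 0; 2, 2]
  inv := !![1, 0; 2, 2]
  val_inv := by decide +kernel
  inv_val := by decide +kernel

theorem Dt_GL : Dt gι gc gt where
  inj := by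
    intro x y h
    exact gm_inj x y (congrArg Units.val h)
  c3 := Units.ext (by decide +kernel)
  t2 := Units.ext (by decide +kernel)
  tc := Units.ext (by decide +kernel)
  hc := fun y => Units.ext (by
    show gc.val * gm y = gm (sf y) * gc.val
    revert y
    decide +kernel)
  ht := fun y => Units.ext (by
    show gt.val * gm y = gm (rf y) * gt.val
    revert y
    decide +kernel)

end Cfsg.Agent.H6.GL23
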