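import Cfsg.Agent.H6_GL23

/-! Recognition of `GL(2,3)`, second part. -/

set_option autoImplicit false
open Cfsg

namespace Cfsg.Agent.H6.GL23

open QuaternionGroup

section
variable {X : Type*} [Group X] (ι : Q8 →* X) (hi : Function.Injective ι)

/-- the conjugation action on a normal quaternion subgroup -/
noncomputable def cf [ι.range.Normal] : X →* MulAut Q8 :=
  (MulAut.congr (MonoidHom.ofInjective hi).symm).toMonoidHom.comp MulAut.conjNormal

theorem cf_spec [ι.range.Normal] (x : X) (y : Q8) : ι (cf ι hi x y) = x * ι y * x⁻¹ := by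
  have h : MonoidHom.ofInjective hi (cf ι hi x y) = MulAut.conjNormal x (MonoidHom.ofInjective hi y) := by
    unfold cf
    simp [MulAut.congr]
  have h2 := congrArg Subtype.val h
  rw [MulAut.conjNormal_apply] at h2
  exact h2

end

theorem sq_one : ∀ x : Q8, x * x = 1 → x ≠ 1 → x = a 2 := by decide +kernel

theorem aut_a2 (φ : MulAut Q8) : φ (a 2) = a 2 := by
  apply sq_one
  · rw [← map_mul]
    have : (a 2 * a 2 : Q8) = 1 := by decide +kernel
    rw [this, map_one]
  · intro h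
    rw [← map_one φ] at h
    exact absurd (φ.injective h) (by decide +kernel)

def g (w w' : Q8) : Q8 → Q8
  | .a i => w ^ (i : ZMod (2 * 2)).val
  | .xa i => w' * w ^ (i : ZMod (2 * 2)).val

theorem a_eq : ∀ i : ZMod (2 * 2), (a i : Q8) = (a 1) ^ i.val := by decide +kernel
theorem xa_eq : ∀ i : ZMod (2 * 2), (xa i : Q8) = xa 0 * (a 1) ^ i.val := by decide +kernel

theorem g1 : ∀ w w' : Q8, w * w = a 2 → w' * w' = a 2 → w' ≠ w → w' ≠ w⁻¹ →
    (∀ x y, g w w' (x * y) = g w w' x * g w w' y) ∧ (∀ x y, g w w' x = g w w' y → x = y) ∧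
      (∀ y, g w' w y = g w w' (rf y)) := by
  decide +kernel

theorem aut_g (φ : MulAut Q8) (w w' y : Q8) : φ (g w w' y) = g (φ w) (φ w') y := by
  rcases y with i | i
  · show φ (w ^ (i : ZMod (2 * 2)).val) = (φ w) ^ (i : ZMod (2 * 2)).val
    rw [map_pow]
  · show φ (w' * w ^ (i : ZMod (2 * 2)).val) = φ w' * (φ w) ^ (i : ZMod (2 * 2)).val
    rw [map_mul, map_pow]

theorem aut_ext (φ ψ : MulAut Q8) (h1 : φ (a 1) = ψ (a 1)) (h2 : φ (xa 0) = ψ (xa 0)) : φ = ψ := by
  ext y
  rcases y with i | i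
  · rw [a_eq i, map_pow, map_pow, h1]
  · rw [xa_eq i, map_mul, map_mul, map_pow, map_pow, h1, h2]

theorem exists_beta (φ : MulAut Q8) (h2 : φ * φ = 1) (hin : ∀ q, φ ≠ MulAut.conj q) :
    ∃ β : MulAut Q8, ∀ y, φ (β y) = β (rf y) := by
  have key : ∀ w : Q8, w * w = a 2 → φ w ≠ w → φ w ≠ w⁻¹ →
      ∃ β : MulAut Q8, ∀ y, φ (β y) = β (rf y) := by
    intro w hw h3 h4
    have hw' : φ w * φ w = a 2 := by rw [← map_mul, hw, aut_a2]
    obtain ⟨k1, k2, k3⟩ := g1 w (φ w) hw hw' h3 h4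
    let f : Q8 →* Q8 := MonoidHom.mk' (g w (φ w)) k1
    have hb : Function.Bijective f := Finite.injective_iff_bijective.1 (fun x y e => k2 x y e)
    refine ⟨MulEquiv.ofBijective f hb, fun y => ?_⟩
    show φ (g w (φ w) y) = g w (φ w) (rf y)
    rw [aut_g, ← k3]
    have : φ (φ w) = w := by
      rw [← MulAut.mul_apply, h2]; rfl
    rw [this]
  by_cases h3 : φ (a 1) = a 1 ∨ φ (a 1) = (a 1)⁻¹
  · by_cases h4 : φ (xa 0) = xa 0 ∨ φ (xa 0) = (xa 0)⁻¹
    · exfalso
      rcases h3 with h3 | h3 <;> rcases h4 with h4 | h4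
      · exact hin 1 (aut_ext _ _ (by rw [h3]; decide +kernel) (by rw [h4]; decide +kernel))
      · exact hin (a 1) (aut_ext _ _ (by rw [h3]; decide +kernel) (by rw [h4]; decide +kernel))
      · exact hin (xa 0) (aut_ext _ _ (by rw [h3]; decide +kernel) (by rw [h4]; decide +kernel))
      · exact hin (xa 1) (aut_ext _ _ (by rw [h3]; decide +kernel) (by rw [h4]; decide +kernel))
    · exact key (xa 0) (by decide +kernel) (fun e => h4 (Or.inl e)) (fun e => h4 (Or.inr e))
  · exact key (a 1) (by decide +kernel) (fun e => h3 (Or.inl e)) (fun e => h3 (Or.inr e))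

theorem central : ∀ q : Q8, (∀ y : Q8, q * y * q⁻¹ = y) → q = 1 ∨ q = a 2 := by decide +kernel

section
variable {X : Type*} [Group X] (ι : Q8 →* X) (hi : Function.Injective ι)

theorem ker_cf [ι.range.Normal] (hC : Subgroup.centralizer (ι.range : Set X) ≤ ι.range) (x : X)
    (hx : cf ι hi x = 1) : x = 1 ∨ x = ι (a 2) := by
  have h : ∀ y, x * ι y * x⁻¹ = ι y := fun y => by rw [← cf_spec ι hi, hx]; rfl
  have hx2 : x ∈ ι.range := by
    apply hC
    rw [Subgroup.mem_centralizer_iff]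
    rintro _ ⟨y, rfl⟩
    exact (mul_inv_eq_iff_eq_mul.1 (h y)).symm
  obtain ⟨q, rfl⟩ := hx2
  rcases central q (fun y => hi (by rw [map_mul, map_mul, map_inv]; exact h y)) with rfl | rfl
  · left; exact map_one _
  · right; rfl

theorem z_comm [ι.range.Normal] (hi : Function.Injective ι) (x : X) : x * ι (a 2) = ι (a 2) * x := by
  rw [← mul_inv_eq_iff_eq_mul, ← cf_spec ι hi, aut_a2]

theorem exists_Dt [ι.range.Normal] (hC : Subgroup.centralizer (ι.range : Set X) ≤ ι.range)
    (hs : Function.Surjective (cf ι hi)) (t : X) (ht : t ∉ ι.range) (ht2 : t * t = 1) :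
    ∃ (κ : Q8 →* X) (c : X), Dt κ c t := by
  have hz := z_comm ι hi
  have hz2 : ι (a 2) * ι (a 2) = 1 := by
    rw [← map_mul, ← map_one ι]; congr 1
  have hz1 : ι (a 2) ≠ 1 := by
    intro h
    rw [← map_one ι] at h
    exact absurd (hi h) (by decide +kernel)
  obtain ⟨β, hβ⟩ := exists_beta (cf ι hi t) (by rw [← map_mul, ht2, map_one]) (by
    intro q hq
    apply ht
    have h1 : cf ι hi (t * (ι q)⁻¹) = 1 := by
      rw [map_mul, map_inv]
      rw [mul_inv_eq_one, hq]
      ext y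
      apply hi
      rw [cf_spec, MulAut.conj_apply, map_mul, map_mul, map_inv]
    have h2 : t * (ι q)⁻¹ ∈ ι.range := by
      rcases ker_cf ι hi hC _ h1 with h | h
      · rw [h]; exact Subgroup.one_mem _
      · rw [h]; exact ⟨_, rfl⟩
    have h3 := Subgroup.mul_mem _ h2 (⟨q, rfl⟩ : ι q ∈ ι.range)
    rwa [inv_mul_cancel_right] at h3)
  obtain ⟨c₀, hc₀⟩ := hs (β * sg * β⁻¹)
  have hc₀' : ∀ y, cf ι hi c₀ (β y) = β (sf y) := by
    intro y
    rw [hc₀]
    show β (sf (β.symm (β y))) = β (sf y)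
    rw [MulEquiv.symm_apply_apply]
  let κ : Q8 →* X := ι.comp β.toMonoidHom
  have hκ : ∀ y, κ y = ι (β y) := fun y => rfl
  have spec : ∀ x y, x * κ y = ι (cf ι hi x (β y)) * x := by
    intro x y
    rw [cf_spec, inv_mul_cancel_right, hκ]
  have kerK : ∀ x : X, (∀ y, cf ι hi x (β y) = β y) → x = 1 ∨ x = ι (a 2) := by
    intro x hx
    apply ker_cf ι hi hC
    ext y
    obtain ⟨y, rfl⟩ := β.surjective y
    rw [hx]; rfl
  -- the element of order three
  have hc3 : c₀ * c₀ * c₀ = 1 ∨ c₀ * c₀ * c₀ = ι (a 2) := by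
    apply kerK
    intro y
    rw [map_mul, map_mul, MulAut.mul_apply, MulAut.mul_apply, hc₀', hc₀', hc₀', sf_cube]
  obtain ⟨c, hc1, hc2⟩ : ∃ c : X, c * c * c = 1 ∧ ∀ y, cf ι hi c (β y) = β (sf y) := by
    rcases hc3 with h | h
    · exact ⟨c₀, h, hc₀'⟩
    · refine ⟨c₀ * ι (a 2), ?_, ?_⟩
      · calc c₀ * ι (a 2) * (c₀ * ι (a 2)) * (c₀ * ι (a 2))
            = c₀ * (ι (a 2) * c₀) * ι (a 2) * (c₀ * ι (a 2)) := by simp only [mul_assoc]
          _ = c₀ * c₀ * (ι (a 2) * ι (a 2)) * (c₀ * ι (a 2)) := by rw [← hz]; simp only [mul_assoc]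
          _ = c₀ * c₀ * c₀ * ι (a 2) := by rw [hz2, mul_one]; simp only [mul_assoc]
          _ = 1 := by rw [h, hz2]
      · intro y
        have : cf ι hi (ι (a 2)) = 1 := by
          ext u
          apply hi
          rw [cf_spec, mul_inv_eq_iff_eq_mul, ← hz]; rfl
        rw [map_mul, this, mul_one, hc₀']
  refine ⟨κ, c, ⟨?_, hc1, ht2, ?_, ?_, ?_⟩⟩
  · exact hi.comp β.injective
  · have hu : t * c * t * c = 1 ∨ t * c * t * c = ι (a 2) := by
      apply kerK
      intro y
      rw [map_mul, map_mul, map_mul, MulAut.mul_apply, MulAut.mul_apply, MulAut.mul_apply, hc2, hβ,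
        hc2, hβ]
      congr 1
      revert y
      decide +kernel
    have hti : t⁻¹ = t := inv_eq_of_mul_eq_one_left ht2
    have hci : c⁻¹ = c * c := inv_eq_of_mul_eq_one_left hc1
    rcases hu with h | h
    · have : t * c * t = c⁻¹ := eq_inv_of_mul_eq_one_left h
      calc t * c = (t * c * t) * t := by rw [mul_assoc (t * c), ht2, mul_one]
        _ = c * c * t := by rw [this, hci]
    · exfalso
      have h1 : t * c * t = ι (a 2) * c⁻¹ := eq_mul_inv_of_mul_eq h
      have h2 : (t * c * t) * (t * c * t) * (t * c * t) = 1 := by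
        calc (t * c * t) * (t * c * t) * (t * c * t) = t * c * (t * t) * c * (t * t) * c * t := by
              simp only [mul_assoc]
          _ = t * (c * c * c) * t := by rw [ht2]; simp only [mul_one, mul_assoc]
          _ = 1 := by rw [hc1, mul_one, ht2]
      rw [h1] at h2
      have hcm : Commute (ι (a 2)) c⁻¹ := (hz c⁻¹).symm
      have h3 : (ι (a 2) * c⁻¹) ^ 3 = 1 := by rw [pow_three']; exact h2
      rw [hcm.mul_pow, pow_three', hz2, one_mul, pow_three'] at h3
      have h4 : c⁻¹ * c⁻¹ * c⁻¹ = (c * c * c)⁻¹ := by group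
      rw [h4, hc1, inv_one, mul_one] at h3
      exact hz1 h3
  · intro y
    rw [spec, hc2]; rfl
  · intro y
    rw [spec, hβ]; rfl

end

end Cfsg.Agent.H6.GL23
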