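import Cfsg.Agent.H6_GL23b
import Cfsg.Agent.H9_TwoComp
import Cfsg.Agent.H1_Hall
import Cfsg.Agent.H11_Cores
import Cfsg.Agent.H13_Bad2

/-! Groups with a normal self-centralizing quaternion subgroup of order 8. -/

set_option autoImplicit false
open Cfsg

namespace Cfsg.Agent.H6.GL23

open QuaternionGroup

theorem rank_inj {Y Z : Type*} [Group Y] [Group Z] {p k : ℕ} (f : Y →* Z) (hf : Function.Injective f)
    (h : PRankLE p k Z) : PRankLE p k Y := by
  intro A hA hp
  have h1 : IsMulCommutative (A.map f) := by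
    refine ⟨⟨?_⟩⟩
    rintro ⟨_, a, ha, rfl⟩ ⟨_, b, hb, rfl⟩
    apply Subtype.ext
    show f a * f b = f b * f a
    rw [← map_mul, ← map_mul]
    have := hA.1.1 ⟨a, ha⟩ ⟨b, hb⟩
    rw [show a * b = b * a from congrArg Subtype.val this]
  have h2 := h (A.map f) h1 (by
    rintro _ ⟨a, ha, rfl⟩
    rw [← map_pow, hp a ha, map_one])
  rwa [Subgroup.card_map_of_injective hf] at h2

/-- rank one 2-groups have at most one involution -/
theorem uniq_of_rank {Y : Type*} [Group Y] [Finite Y] (h2 : IsPGroup 2 Y) (h : PRankLE 2 1 Y) :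
    ∀ x y : Y, orderOf x = 2 → orderOf y = 2 → x = y := by
  haveI : Fact (Nat.Prime 2) := ⟨Nat.prime_two⟩
  have hu := H23.PBasic.unique_of_abelian_cyclic h2 (by
    intro A hA hp
    have h3 := h A hA hp
    rw [pow_one] at h3
    have h4 : 0 < Nat.card A := Nat.card_pos
    rcases Nat.lt_or_ge (Nat.card A) 2 with h5 | h5
    · have : Subsingleton A := (Nat.card_eq_one_iff_unique.1 (by omega)).1
      infer_instance
    · exact isCyclic_of_prime_card (p := 2) (by omega))
  intro x y hx hy
  have e := hu (Subgroup.zpowers x) (Subgroup.zpowers y) (by rw [Nat.card_zpowers, hx])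
    (by rw [Nat.card_zpowers, hy])
  have h3 : x ∈ Subgroup.zpowers y := by rw [← e]; exact Subgroup.mem_zpowers x
  obtain ⟨k, hk⟩ := h3
  have hy2 : y ^ 2 = 1 := by rw [← hy]; exact pow_orderOf_eq_one y
  have hx1 : x ≠ 1 := by
    rintro rfl
    rw [orderOf_one] at hx; omega
  have hk' : y ^ k = x := hk
  rcases Int.even_or_odd' k with ⟨m, rfl | rfl⟩
  · exfalso
    apply hx1
    rw [← hk', zpow_mul, zpow_ofNat, hy2, one_zpow]
  · rw [← hk', zpow_add, zpow_mul, zpow_ofNat, hy2, one_zpow, one_mul, zpow_one]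

section
variable {X : Type*} [Group X] [Finite X]

theorem main2 {N : Subgroup X} [hN : N.Normal] (hC : Subgroup.centralizer (N : Set X) ≤ N)
    (e : N ≃* Q8) (hncl : ¬ ∃ P : Sylow 2 X, (P : Subgroup X).Normal) :
    Nonempty (X ≃* GL (Fin 2) (ZMod 3)) ∨
    (Nat.card X = 48 ∧ Nat.card ↥(Subgroup.center X) = 2 ∧
      Nonempty (X ⧸ Subgroup.center X ≃* Equiv.Perm (Fin 4)) ∧
      ∀ P : Sylow 2 X, Nonempty (↥(P : Subgroup X) ≃* QuaternionGroup 4)) := by
  haveI : Fact (Nat.Prime 2) := ⟨Nat.prime_two⟩
  let ι : Q8 →* X := N.subtype.comp e.symm.toMonoidHom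
  have hi : Function.Injective ι := N.subtype_injective.comp e.symm.injective
  have hr : ι.range = N := by
    ext x
    constructor
    · rintro ⟨y, rfl⟩
      exact (e.symm y).2
    · intro hx
      exact ⟨e ⟨x, hx⟩, by
        show ((e.symm (e ⟨x, hx⟩) : N) : X) = x
        rw [e.symm_apply_apply]⟩
  haveI : ι.range.Normal := by rw [hr]; exact hN
  have hC' : Subgroup.centralizer (ι.range : Set X) ≤ ι.range := by rw [hr]; exact hC
  have hN8 : Nat.card N = 8 := by
    rw [Nat.card_congr e.toEquiv, Nat.card_eq_fintype_card, QuaternionGroup.card]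
  set φ := cf ι hi with hφ
  have hz := z_comm ι hi
  have hz1 : ι (a 2) ≠ 1 := by
    intro h
    rw [← map_one ι] at h
    exact absurd (hi h) (by decide +kernel)
  have hz2 : ι (a 2) * ι (a 2) = 1 := by
    rw [← map_mul, ← map_one ι]; congr 1
  have hzo : orderOf (ι (a 2)) = 2 := by
    apply orderOf_eq_prime
    · rw [pow_two, hz2]
    · exact hz1
  have hzk : φ (ι (a 2)) = 1 := by
    ext u
    apply hi
    rw [cf_spec, mul_inv_eq_iff_eq_mul, ← hz]; rfl
  have hker : φ.ker = Subgroup.zpowers (ι (a 2)) := by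
    apply le_antisymm
    · intro x hx
      rcases ker_cf ι hi hC' x hx with rfl | rfl
      · exact Subgroup.one_mem _
      · exact Subgroup.mem_zpowers _
    · rw [Subgroup.zpowers_le]
      exact hzk
  have hcen : Subgroup.center X = φ.ker := by
    apply le_antisymm
    · intro x hx
      show φ x = 1
      ext u
      apply hi
      rw [cf_spec, mul_inv_eq_iff_eq_mul]
      exact (Subgroup.mem_center_iff.1 hx _).symm
    · rw [hker, Subgroup.zpowers_le, Subgroup.mem_center_iff]
      exact hz
  have hk2 : Nat.card φ.ker = 2 := by rw [hker, Nat.card_zpowers, hzo]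
  have h24 : Nat.card (MulAut Q8) = 24 := by
    obtain ⟨f⟩ := S3742.result
    rw [Nat.card_congr f.toEquiv, Nat.card_eq_fintype_card, Fintype.card_perm]
    rfl
  haveI : Finite (MulAut Q8) := Nat.finite_of_card_ne_zero (by rw [h24]; norm_num)
  have hcard : Nat.card X = 2 * Nat.card φ.range := by
    rw [← Subgroup.card_mul_index φ.ker, hk2, Subgroup.index_ker]
  have hr24 : Nat.card φ.range ∣ 24 := by rw [← h24]; exact Subgroup.card_subgroup_dvd_card _
  have hsyl : ∀ P : Sylow 2 X, Nat.card P = 16 := by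
    intro P
    obtain ⟨k, hk⟩ := IsPGroup.iff_card.1 P.2
    have hPX : Nat.card P ∣ Nat.card X := Subgroup.card_subgroup_dvd_card _
    have hNP : N ≤ P := by
      have h2 : IsPGroup 2 N := IsPGroup.of_card (n := 3) hN8
      obtain ⟨Q, hQ⟩ := h2.exists_le_sylow
      obtain ⟨g, rfl⟩ := MulAction.exists_smul_eq X Q P
      intro x hx
      show x ∈ ((g • Q : Sylow 2 X) : Subgroup X)
      rw [Sylow.coe_subgroup_smul, Subgroup.mem_pointwise_smul_iff_inv_smul_mem]
      apply hQ
      have := hN.conj_mem x hx g⁻¹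
      simpa using this
    have h8P : 8 ∣ Nat.card P := by
      rw [← hN8]; exact Subgroup.card_dvd_of_le hNP
    have hP8 : Nat.card P ≠ 8 := by
      intro h
      apply hncl
      refine ⟨P, ?_⟩
      have : N = (P : Subgroup X) := Subgroup.eq_of_le_of_card_ge hNP (by rw [hN8]; exact h.le)
      rw [← this]; exact hN
    have h48 : Nat.card X ∣ 48 := by
      rw [hcard]
      exact Nat.mul_dvd_mul_left 2 hr24
    have hP48 : Nat.card P ∣ 48 := hPX.trans h48
    rw [hk] at hP48 hP8 h8P ⊢
    have hkl : k ≤ 4 := by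
      by_contra hcon
      have h32 : 2 ^ 5 ∣ 48 := (pow_dvd_pow 2 (by omega : 5 ≤ k)).trans hP48
      exact absurd h32 (by decide)
    have hk3 : 3 ≤ k := by
      have : 2 ^ 3 ≤ 2 ^ k := Nat.le_of_dvd (by positivity) h8P
      exact (Nat.pow_le_pow_iff_right (by norm_num)).1 this
    have : k = 4 := by
      rcases (by omega : k = 3 ∨ k = 4) with rfl | h
      · exact absurd rfl hP8
      · exact h
    rw [this]
    norm_num
  have hX48 : Nat.card X = 48 := by
    have P : Sylow 2 X := default
    have hPX : Nat.card P ∣ Nat.card X := Subgroup.card_subgroup_dvd_card _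
    rw [hsyl P] at hPX
    have h48 : Nat.card X ∣ 48 := by
      rw [hcard]
      exact Nat.mul_dvd_mul_left 2 hr24
    obtain ⟨m, hm⟩ := hPX
    rw [hm] at h48
    have hm3 : m ∣ 3 := by
      have : 16 * m ∣ 16 * 3 := h48
      exact Nat.dvd_of_mul_dvd_mul_left (by norm_num) this
    rcases (Nat.dvd_prime Nat.prime_three).1 hm3 with h | h
    · exfalso
      apply hncl
      refine ⟨P, ?_⟩
      have : (P : Subgroup X) = ⊤ := by
        apply Subgroup.eq_top_of_card_eq
        rw [hsyl P, hm, h]
      rw [this]; infer_instance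
    · rw [hm, h]
  have hsurj : Function.Surjective φ := by
    rw [← MonoidHom.range_eq_top]
    apply Subgroup.eq_top_of_card_eq
    rw [h24]; omega
  by_cases hex : ∃ t : X, t ∉ ι.range ∧ t * t = 1
  · left
    obtain ⟨t, ht1, ht2⟩ := hex
    obtain ⟨κ, c, hD⟩ := exists_Dt ι hi hC' hsurj t ht1 ht2
    refine hD.iso Dt_GL hX48 ?_
    have hfin : Finite (GL (Fin 2) (ZMod 3)) := inferInstance
    rw [Matrix.card_GL_field, Fin.prod_univ_two]
    simp
  · right
    push Not at hex
    refine ⟨hX48, by rw [hcen, hk2], ?_, ?_⟩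
    · obtain ⟨f⟩ := S3742.result
      exact ⟨((QuotientGroup.quotientMulEquivOfEq hcen).trans
        (QuotientGroup.quotientKerEquivOfSurjective φ hsurj)).trans f⟩
    · intro P
      have huniq : ∀ x : X, orderOf x = 2 → x = ι (a 2) := by
        intro x hx
        have hx2 : x * x = 1 := by rw [← pow_two, ← hx]; exact pow_orderOf_eq_one x
        by_cases hxr : x ∈ ι.range
        · obtain ⟨q, rfl⟩ := hxr
          have hq2 : q * q = 1 := hi (by rw [map_mul, hx2, map_one])
          have hq1 : q ≠ 1 := by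
            rintro rfl
            rw [map_one, orderOf_one] at hx; omega
          rw [sq_one q hq2 hq1]
        · exact absurd hx2 (hex x hxr)
      have hNP : N ≤ P := by
        have h2 : IsPGroup 2 N := IsPGroup.of_card (n := 3) hN8
        obtain ⟨Q, hQ⟩ := h2.exists_le_sylow
        obtain ⟨g, rfl⟩ := MulAction.exists_smul_eq X Q P
        intro x hx
        show x ∈ ((g • Q : Sylow 2 X) : Subgroup X)
        rw [Sylow.coe_subgroup_smul, Subgroup.mem_pointwise_smul_iff_inv_smul_mem]
        apply hQ
        have := hN.conj_mem x hx g⁻¹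
        simpa using this
      have hu : ∀ H K : Subgroup P, Nat.card H = 2 → Nat.card K = 2 → H = K := by
        intro H K hH hK
        obtain ⟨x, hx⟩ := exists_prime_orderOf_dvd_card' (G := H) 2 (by rw [hH])
        obtain ⟨y, hy⟩ := exists_prime_orderOf_dvd_card' (G := K) 2 (by rw [hK])
        have hx' : orderOf (x : P) = 2 := by rw [Subgroup.orderOf_coe, hx]
        have hy' : orderOf (y : P) = 2 := by rw [Subgroup.orderOf_coe, hy]
        have hxy : (x : P) = (y : P) := by
          apply Subtype.ext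
          rw [huniq ((x : P) : X) (by rw [Subgroup.orderOf_coe, hx']),
            huniq ((y : P) : X) (by rw [Subgroup.orderOf_coe, hy'])]
        have e1 : Subgroup.zpowers (x : P) = H := by
          apply Subgroup.eq_of_le_of_card_ge (by rw [Subgroup.zpowers_le]; exact x.2)
          rw [hH, Nat.card_zpowers, hx']
        have e2 : Subgroup.zpowers (y : P) = K := by
          apply Subgroup.eq_of_le_of_card_ge (by rw [Subgroup.zpowers_le]; exact y.2)
          rw [hK, Nat.card_zpowers, hy']
        rw [← e1, ← e2, hxy]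
      rcases H23.PQuat.cyclic_or_quaternion P.2 hu with hcyc | ⟨-, n, ⟨f⟩⟩
      · exfalso
        have hcomm : ∀ x y : P, x * y = y * x := by
          obtain ⟨g, hg⟩ := hcyc
          intro x y
          obtain ⟨i, rfl⟩ := hg x
          obtain ⟨j, rfl⟩ := hg y
          show g ^ i * g ^ j = g ^ j * g ^ i
          rw [← zpow_add, ← zpow_add, add_comm]
        have h1 : ι (a 1) * ι (xa 0) = ι (xa 0) * ι (a 1) := by
          have m1 : ι (a 1) ∈ (P : Subgroup X) := hNP (by rw [← hr]; exact ⟨_, rfl⟩)
          have m2 : ι (xa 0) ∈ (P : Subgroup X) := hNP (by rw [← hr]; exact ⟨_, rfl⟩)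
          exact congrArg Subtype.val (hcomm ⟨_, m1⟩ ⟨_, m2⟩)
        rw [← map_mul, ← map_mul] at h1
        exact absurd (hi h1) (by decide +kernel)
      · have hn : n = 2 := by
          have h1 : Nat.card P = 4 * 2 ^ n := by
            haveI : NeZero (2 ^ n) := ⟨by positivity⟩
            rw [Nat.card_congr f.toEquiv, Nat.card_eq_fintype_card, QuaternionGroup.card]
          rw [hsyl P] at h1
          have : 2 ^ n = 2 ^ 2 := by omega
          exact Nat.pow_right_injective (le_refl 2) this
        subst hn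
        exact ⟨f⟩

end

end Cfsg.Agent.H6.GL23
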