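import Mathlib
import Cfsg.Agent.H6_ChevRk1
import Cfsg.Agent.H6_ChevCard

/-!
Involutions of Chevalley groups in odd characteristic: rank one computations.
-/

set_option autoImplicit false
set_option linter.unusedSectionVars false

namespace Cfsg.Agent.H6.SL2.RankOne

open Matrix

variable {F : Type*} [Field F] {G : Type*} [Group G] (R : RankOne F G)

/-- upper transvection -/
def tU (t : F) : SpecialLinearGroup (Fin 2) F := ⟨!![1, t; 0, 1], by simp⟩
/-- lower transvection -/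
def tL (t : F) : SpecialLinearGroup (Fin 2) F := ⟨!![1, 0; t, 1], by simp⟩

theorem ent_mul (A B : SpecialLinearGroup (Fin 2) F) (i j : Fin 2) :
    (A * B).1 i j = A.1 i 0 * B.1 0 j + A.1 i 1 * B.1 1 j := by
  show (A.1 * B.1) i j = _
  rw [Matrix.mul_apply, Fin.sum_univ_two]

theorem ent_inv (A : SpecialLinearGroup (Fin 2) F) : (A⁻¹).1 = !![A.1 1 1, - A.1 0 1; - A.1 1 0, A.1 0 0] := by
  show Matrix.adjugate A.1 = _
  exact Matrix.adjugate_fin_two A.1

theorem ent_ext {A B : SpecialLinearGroup (Fin 2) F} (h00 : A.1 0 0 = B.1 0 0) (h01 : A.1 0 1 = B.1 0 1)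
    (h10 : A.1 1 0 = B.1 1 0) (h11 : A.1 1 1 = B.1 1 1) : A = B := by
  apply Subtype.ext
  ext i j
  fin_cases i <;> fin_cases j
  · exact h00
  · exact h01
  · exact h10
  · exact h11

theorem ent_det (A : SpecialLinearGroup (Fin 2) F) : A.1 0 0 * A.1 1 1 - A.1 0 1 * A.1 1 0 = 1 := by
  have := A.2; rwa [det_fin_two] at this

theorem tU_ent (t : F) : (tU t).1 = !![1, t; 0, 1] := rfl
theorem tL_ent (t : F) : (tL t).1 = !![1, 0; t, 1] := rfl

theorem sl_induction {P : SpecialLinearGroup (Fin 2) F → Prop} (hU : ∀ t, P (tU t)) (hL : ∀ t, P (tL t))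
    (hmul : ∀ A B, P A → P B → P (A * B)) (A : SpecialLinearGroup (Fin 2) F) : P A := by
  have key : ∀ A : SpecialLinearGroup (Fin 2) F, A.1 1 0 ≠ 0 → P A := by
    intro A hA
    have hdet := ent_det A
    have : A = tU ((A.1 0 0 - 1) / A.1 1 0) * tL (A.1 1 0) * tU ((A.1 1 1 - 1) / A.1 1 0) := by
      apply ent_ext <;> simp only [ent_mul, tU_ent, tL_ent, of_apply, cons_val', cons_val_zero, cons_val_one,
        cons_val_fin_one] <;> field_simp
      · ring
      · linear_combination -hdet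
      · ring
      · ring
    rw [this]
    exact hmul _ _ (hmul _ _ (hU _) (hL _)) (hU _)
  by_cases hA : A.1 1 0 = 0
  · have hdet := ent_det A
    have h1 : (A * tL 1).1 1 0 ≠ 0 := by
      have : (A * tL 1).1 1 0 = A.1 1 0 + A.1 1 1 := by
        simp only [ent_mul, tL_ent, of_apply, cons_val', cons_val_zero, cons_val_one, cons_val_fin_one]
        ring
      rw [this, hA, zero_add]
      intro h
      rw [hA, h] at hdet
      simp at hdet
    have h2 : A = A * tL 1 * tL (-1) := by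
      apply ent_ext <;> simp only [ent_mul, tL_ent, of_apply, cons_val', cons_val_zero, cons_val_one,
        cons_val_fin_one] <;> ring
    rw [h2]
    exact hmul _ _ (key _ h1) (hL _)
  · exact key A hA

/-- conjugation by the matrix `[0, 1; c, 0]` -/
def Th (c : F) (hc : c ≠ 0) (A : SpecialLinearGroup (Fin 2) F) : SpecialLinearGroup (Fin 2) F :=
  ⟨!![A 1 1, c⁻¹ * A 1 0; c * A 0 1, A 0 0], by
    have := A.2
    rw [det_fin_two] at this ⊢
    simp only [of_apply, cons_val', cons_val_zero, cons_val_one, cons_val_fin_one]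
    have h : c⁻¹ * A 1 0 * (c * A 0 1) = A 0 1 * A 1 0 := by field_simp
    rw [h]
    linear_combination this⟩

theorem Th_ent (c : F) (hc : c ≠ 0) (A : SpecialLinearGroup (Fin 2) F) :
    (Th c hc A).1 = !![A.1 1 1, c⁻¹ * A.1 1 0; c * A.1 0 1, A.1 0 0] := rfl

theorem Th_mul (c : F) (hc : c ≠ 0) (A B : SpecialLinearGroup (Fin 2) F) : Th c hc (A * B) = Th c hc A * Th c hc B := by
  apply ent_ext <;> simp only [ent_mul, Th_ent, of_apply, cons_val', cons_val_zero, cons_val_one,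
        cons_val_fin_one] <;> field_simp <;> ring

theorem exists_phi : ∃ φ : SpecialLinearGroup (Fin 2) F →* G, (∀ g, φ g = R.f g) ∧ (∀ t, φ (tU t) = R.X t) ∧
    (∀ t, φ (tL t) = R.Y t) := by
  obtain ⟨φ, h1, h2⟩ := R.exists_hom
  exact ⟨φ, h1, fun t => (h2 (tU t) t).1 rfl, fun t => (h2 (tL t) t).2 rfl⟩

theorem conj_phi {φ : SpecialLinearGroup (Fin 2) F →* G} (hU : ∀ t, φ (tU t) = R.X t) (hL : ∀ t, φ (tL t) = R.Y t)
    {g : G} {c : F} (hc : c ≠ 0) (hX : ∀ t, g * R.X t = R.Y (c * t) * g) (hY : ∀ t, g * R.Y t = R.X (c⁻¹ * t) * g)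
    (A : SpecialLinearGroup (Fin 2) F) : g * φ A = φ (Th c hc A) * g := by
  refine sl_induction (P := fun A => g * φ A = φ (Th c hc A) * g) ?_ ?_ ?_ A
  · intro t
    have : Th c hc (tU t) = tL (c * t) := by
      apply ent_ext <;> simp [Th_ent, tU_ent, tL_ent]
    rw [this, hU, hL, hX]
  · intro t
    have : Th c hc (tL t) = tU (c⁻¹ * t) := by
      apply ent_ext <;> simp [Th_ent, tU_ent, tL_ent]
    rw [this, hU, hL, hY]
  · intro A B h1 h2
    rw [map_mul, Th_mul, map_mul, ← mul_assoc, h1, mul_assoc, h2, mul_assoc]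

theorem conj_h {K : Subgroup G} (hKX : ∀ t, R.X t ∈ K) (hKY : ∀ t, R.Y t ∈ K)
    {g : G} {c : F} (hc : c ≠ 0) (hX : ∀ t, g * R.X t = R.Y (c * t) * g) (hY : ∀ t, g * R.Y t = R.X (c⁻¹ * t) * g)
    {a b δ : F} (hδ : δ ≠ 0) (h : a ^ 2 - c * b ^ 2 = δ) : ∃ v ∈ K, v * g * v⁻¹ = R.h δ * g := by
  obtain ⟨φ, hf, hU, hL⟩ := R.exists_phi
  have hK : ∀ A, φ A ∈ K := by
    intro A
    refine sl_induction (P := fun A => φ A ∈ K) (fun t => by rw [hU]; exact hKX t) (fun t => by rw [hL]; exact hKY t) ?_ A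
    intro A B h1 h2
    rw [map_mul]; exact K.mul_mem h1 h2
  let A : SpecialLinearGroup (Fin 2) F := ⟨!![a, b; δ⁻¹ * b * c, δ⁻¹ * a], by
    rw [det_fin_two]
    simp only [of_apply, cons_val', cons_val_zero, cons_val_one, cons_val_fin_one]
    field_simp
    linear_combination h⟩
  refine ⟨φ A, hK A, ?_⟩
  have h1 := R.conj_phi hU hL hc hX hY A⁻¹
  rw [← map_inv, mul_assoc, h1, ← mul_assoc, ← map_mul]
  congr 1
  have hA : A.1 = !![a, b; δ⁻¹ * b * c, δ⁻¹ * a] := rfl
  have h2 : (A * Th c hc A⁻¹).1 = !![δ, 0; 0, δ⁻¹] := by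
    ext i j
    fin_cases i <;> fin_cases j
    · show (A * Th c hc A⁻¹).1 0 0 = δ
      simp only [ent_mul, Th_ent, ent_inv, hA, of_apply, cons_val', cons_val_zero, cons_val_one, cons_val_fin_one]
      linear_combination h
    · show (A * Th c hc A⁻¹).1 0 1 = 0
      simp only [ent_mul, Th_ent, ent_inv, hA, of_apply, cons_val', cons_val_zero, cons_val_one, cons_val_fin_one]
      field_simp
      ring
    · show (A * Th c hc A⁻¹).1 1 0 = 0
      simp only [ent_mul, Th_ent, ent_inv, hA, of_apply, cons_val', cons_val_zero, cons_val_one, cons_val_fin_one]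
      field_simp
      ring
    · show (A * Th c hc A⁻¹).1 1 1 = δ⁻¹
      simp only [ent_mul, Th_ent, ent_inv, hA, of_apply, cons_val', cons_val_zero, cons_val_one, cons_val_fin_one]
      field_simp
      linear_combination h
  rw [hf, h2, R.f_of_eq rfl, zero_div, R.X_zero, mul_one]

theorem conj_n {K : Subgroup G} (hKX : ∀ t, R.X t ∈ K) (hKY : ∀ t, R.Y t ∈ K) (h2 : (2 : F) ≠ 0)
    {g : G} {c d : F} (hc : c ≠ 0) (hX : ∀ t, g * R.X t = R.Y (c * t) * g) (hY : ∀ t, g * R.Y t = R.X (c⁻¹ * t) * g)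
    (hd : c = d ^ 2) : ∃ v ∈ K, v * g * v⁻¹ = R.n d⁻¹ * g := by
  obtain ⟨φ, hf, hU, hL⟩ := R.exists_phi
  have hK : ∀ A, φ A ∈ K := by
    intro A
    refine sl_induction (P := fun A => φ A ∈ K) (fun t => by rw [hU]; exact hKX t) (fun t => by rw [hL]; exact hKY t) ?_ A
    intro A B h1 h2
    rw [map_mul]; exact K.mul_mem h1 h2
  have hd0 : d ≠ 0 := by rintro rfl; apply hc; rw [hd]; simp
  let A : SpecialLinearGroup (Fin 2) F := ⟨!![2⁻¹, (2 * d)⁻¹; -d, 1], by
    rw [det_fin_two]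
    simp only [of_apply, cons_val', cons_val_zero, cons_val_one, cons_val_fin_one]
    field_simp
    norm_num⟩
  refine ⟨φ A, hK A, ?_⟩
  have h1 := R.conj_phi hU hL hc hX hY A⁻¹
  rw [← map_inv, mul_assoc, h1, ← mul_assoc, ← map_mul]
  congr 1
  have hA : A.1 = !![2⁻¹, (2 * d)⁻¹; -d, 1] := rfl
  have h3 : (A * Th c hc A⁻¹).1 = !![0, d⁻¹; -d, 0] := by
    ext i j
    fin_cases i <;> fin_cases j
    · show (A * Th c hc A⁻¹).1 0 0 = 0
      simp only [ent_mul, Th_ent, ent_inv, hA, of_apply, cons_val', cons_val_zero, cons_val_one, cons_val_fin_one, hd]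
      field_simp
      ring
    · show (A * Th c hc A⁻¹).1 0 1 = d⁻¹
      simp only [ent_mul, Th_ent, ent_inv, hA, of_apply, cons_val', cons_val_zero, cons_val_one, cons_val_fin_one, hd]
      field_simp
      ring
    · show (A * Th c hc A⁻¹).1 1 0 = -d
      simp only [ent_mul, Th_ent, ent_inv, hA, of_apply, cons_val', cons_val_zero, cons_val_one, cons_val_fin_one, hd]
      field_simp
      ring
    · show (A * Th c hc A⁻¹).1 1 1 = 0
      simp only [ent_mul, Th_ent, ent_inv, hA, of_apply, cons_val', cons_val_zero, cons_val_one, cons_val_fin_one, hd]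
      field_simp
      ring
  rw [hf, h3, R.f_of_ne (neg_ne_zero.2 hd0), zero_div, R.X_zero, mul_one, one_mul]
  congr 1
  rw [inv_neg, neg_neg]

end Cfsg.Agent.H6.SL2.RankOne
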