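import Mathlib
import Cfsg.Agent.H6_Inv1

/-!
Involutions of Chevalley groups in odd characteristic: reduction to the monomial subgroup.
-/

set_option autoImplicit false
set_option linter.unusedSectionVars false

namespace Cfsg.Agent.H6.Chev

open Cfsg Cfsg.Lie Cfsg.Lie.ChevalleyDatum

namespace Model

variable {D : ChevalleyDatum} {F : Type*} [Field F] (m : Model D)

include m

theorem H_pow_card [Fintype F] {h : GL D.Idx F} (hh : h ∈ D.diagonalSubgroup F) (N : ℕ) :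
    h ^ (Fintype.card F ^ N) = h := by
  obtain ⟨b, rfl⟩ := m.mem_H.1 hh
  rw [← map_pow]
  congr 1
  funext i
  rw [Pi.pow_apply]
  apply Units.ext
  rw [Units.val_pow_eq_pow_val]
  exact FiniteField.pow_card_pow N _

theorem pow_mul_mem {u h : GL D.Idx F} (hu : u ∈ D.posUnipotent F) (hh : h ∈ D.diagonalSubgroup F) (k : ℕ) :
    ∃ u' ∈ D.posUnipotent F, (u * h) ^ k = u' * h ^ k := by
  induction k with
  | zero => exact ⟨1, one_mem _, by simp⟩
  | succ k ih =>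
    obtain ⟨u', hu', e⟩ := ih
    have h1 := (Subgroup.mem_normalizer_iff.1 (m.H_le_normalizer_U (pow_mem hh k)) u).1 hu
    refine ⟨_, mul_mem hu' h1, ?_⟩
    rw [pow_succ, e]
    group

theorem exists_conj_N [Fintype F] (hodd : Odd (Fintype.card F)) {t : GL D.Idx F} (ht : t ∈ D.group F)
    (h2 : t * t = 1) : ∃ g ∈ D.group F, g * t * g⁻¹ ∈ D.monomialSubgroup F ∧ (g * t * g⁻¹) * (g * t * g⁻¹) = 1 := by
  obtain ⟨b, hb, n, hn, b', hb', rfl⟩ := m.exists_bruhat ht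
  obtain ⟨u, hu, h, hh, hc⟩ := m.mem_B.1 (mul_mem hb' hb)
  obtain ⟨n1, hn1⟩ : ∃ n1, n1 = h * n := ⟨_, rfl⟩
  have hn1N : n1 ∈ D.monomialSubgroup F := by rw [hn1]; exact mul_mem (m.H_le_N hh) hn
  have ht1 : b' * (b * n * b') * b'⁻¹ = u * n1 := by
    calc b' * (b * n * b') * b'⁻¹ = (b' * b) * n := by group
      _ = _ := by rw [hc, hn1, mul_assoc]
  have hsq : (u * n1) * (u * n1) = 1 := by
    rw [← ht1]
    calc b' * (b * n * b') * b'⁻¹ * (b' * (b * n * b') * b'⁻¹) = b' * ((b * n * b') * (b * n * b')) * b'⁻¹ := by group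
      _ = 1 := by rw [h2]; group
  have e1 : n1 * u = u⁻¹ * n1⁻¹ := by
    calc n1 * u = u⁻¹ * ((u * n1) * (u * n1)) * n1⁻¹ := by group
      _ = _ := by rw [hsq]; group
  have hk : n1⁻¹ * n1⁻¹ ∈ D.diagonalSubgroup F := by
    apply m.bruhat_unique_N (one_mem _) (inv_mem (U_le_B hu)) hn1N (inv_mem hn1N) (U_le_B hu) (one_mem _)
    rw [one_mul, mul_one, e1]
  have hk' : (n1 * n1)⁻¹ ∈ D.diagonalSubgroup F := by rw [mul_inv_rev]; exact hk
  have hy : n1 * u * n1⁻¹ = u⁻¹ * (n1 * n1)⁻¹ := by rw [e1]; group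
  have hM : Nat.card (D.posUnipotent F) = Fintype.card F ^ m.N := m.card_pos
  have huM : u ^ (Fintype.card F ^ m.N) = 1 := by
    rw [← hM]
    have := pow_card_eq_one' (x := (⟨u, hu⟩ : D.posUnipotent F))
    exact congrArg Subtype.val this
  obtain ⟨u', hu', e2⟩ := m.pow_mul_mem (inv_mem hu) hk' (Fintype.card F ^ m.N)
  rw [← hy, conj_pow, huM, m.H_pow_card hk'] at e2
  have hk1 : n1 * n1 = 1 := by
    have h3 : n1 * n1 = u' := by
      calc n1 * n1 = (n1 * 1 * n1⁻¹) * (n1 * n1) := by group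
        _ = u' := by rw [e2]; group
    have h4 : n1 * n1 ∈ D.posUnipotent F ⊓ D.diagonalSubgroup F :=
      Subgroup.mem_inf.2 ⟨by rw [h3]; exact hu', by rw [← inv_inv (n1 * n1)]; exact inv_mem hk'⟩
    rw [m.U_inf_H, Subgroup.mem_bot] at h4
    exact h4
  rw [hk1, inv_one, mul_one] at hy
  obtain ⟨j, hj⟩ : Odd (Fintype.card F ^ m.N) := hodd.pow
  have hv : u ^ (j + 1) * u ^ (j + 1) = u := by
    rw [← pow_add]
    calc u ^ (j + 1 + (j + 1)) = u ^ (Fintype.card F ^ m.N) * u := by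
          rw [hj, ← pow_succ]; congr 1; ring
      _ = u := by rw [huM, one_mul]
  have hnv : n1 * u ^ (j + 1) * n1⁻¹ = (u ^ (j + 1))⁻¹ := by
    rw [← conj_pow, hy, inv_pow]
  have hvU : u ^ (j + 1) ∈ D.posUnipotent F := pow_mem hu _
  have key : (u ^ (j + 1))⁻¹ * b' * (b * n * b') * ((u ^ (j + 1))⁻¹ * b')⁻¹ = n1 := by
    calc (u ^ (j + 1))⁻¹ * b' * (b * n * b') * ((u ^ (j + 1))⁻¹ * b')⁻¹
        = (u ^ (j + 1))⁻¹ * (b' * (b * n * b') * b'⁻¹) * u ^ (j + 1) := by group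
      _ = (u ^ (j + 1))⁻¹ * ((u ^ (j + 1) * u ^ (j + 1)) * n1) * u ^ (j + 1) := by rw [ht1, hv]
      _ = u ^ (j + 1) * (n1 * u ^ (j + 1) * n1⁻¹) * n1 := by group
      _ = n1 := by rw [hnv]; group
  refine ⟨(u ^ (j + 1))⁻¹ * b', mul_mem (inv_mem (m.U_le_G hvU)) (m.B_le_G hb'), ?_, ?_⟩
  · rw [key]; exact hn1N
  · rw [key]; exact hk1

end Model

end Cfsg.Agent.H6.Chev
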