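import Mathlib
import Cfsg.Agent.H6_Inv2

/-!
Involutions of Chevalley groups in odd characteristic: orthogonal simple roots.
-/

set_option autoImplicit false
set_option linter.unusedSectionVars false

namespace Cfsg.Agent.H6.Chev

open Cfsg Cfsg.Lie Cfsg.Lie.ChevalleyDatum

namespace Model

variable {D : ChevalleyDatum} {F : Type*} [Field F] (m : Model D)

include m

theorem not_mixed {r j k : ℕ} (hr : r < D.nroots) (hj : j < D.rank) (hk : k < D.rank) (h1 : 0 < m.coef r j)
    (h2 : m.coef r k < 0) : False := by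
  by_cases h : m.N ≤ r
  · have := m.coef_nonneg r h hr k hk
    omega
  · have h3 := m.coef_nonneg (D.neg r) ((m.neg_ge_iff hr).2 (not_le.1 h)) (m.neg_lt hr) j hj
    rw [m.coef_neg r hr j hj] at h3
    omega

/-- no root has both a `j`- and a `k`-part for orthogonal `j`, `k` -/
theorem no_sum {u j k : ℕ} (hu : u < D.nroots) (hj : j < D.rank) (hk : k < D.rank) (hjk : j ≠ k)
    (h : D.cartan j (D.simple k) = 0) {a b : ℤ} (ha : a ≠ 0) (hb : b ≠ 0)
    (hc : ∀ i < D.rank, m.coef u i = a * m.coef (D.simple j) i + b * m.coef (D.simple k) i) : False := by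
  have e1 : m.coef u j = a := by
    rw [hc j hj, m.coef_simple j hj j hj, m.coef_simple k hk j hj, if_pos rfl, if_neg (Ne.symm hjk)]; ring
  have e2 : m.coef u k = b := by
    rw [hc k hk, m.coef_simple j hj k hk, m.coef_simple k hk k hk, if_pos rfl, if_neg hjk]; ring
  have e3 : D.cartan j u = 2 * a := by
    rw [m.cartan_lin j hj u hu]
    have : ∀ i ∈ Finset.range D.rank, m.coef u i * D.cartan j (D.simple i) =
        a * (m.coef (D.simple j) i * D.cartan j (D.simple i)) + b * (m.coef (D.simple k) i * D.cartan j (D.simple i)) := by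
      intro i hi
      rw [hc i (Finset.mem_range.1 hi)]; ring
    rw [Finset.sum_congr rfl this, Finset.sum_add_distrib, ← Finset.mul_sum, ← Finset.mul_sum,
      ← m.cartan_lin j hj _ (m.simple_lt j hj), ← m.cartan_lin j hj _ (m.simple_lt k hk), m.cartan_self j hj, h]
    ring
  have hu' := m.refl_lt j hj u hu
  have e4 : m.coef (D.reflectRoot j u) j = -a := by
    rw [m.coef_refl j hj u hu j hj, if_pos rfl, e1, e3]; ring
  have e5 : m.coef (D.reflectRoot j u) k = b := by
    rw [m.coef_refl j hj u hu k hk, if_neg hjk, e2]; ring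
  rcases lt_or_gt_of_ne ha with ha | ha <;> rcases lt_or_gt_of_ne hb with hb | hb
  · exact m.not_mixed hu' hj hk (by rw [e4]; omega) (by rw [e5]; omega)
  · exact m.not_mixed hu hk hj (by rw [e2]; omega) (by rw [e1]; omega)
  · exact m.not_mixed hu hj hk (by rw [e1]; omega) (by rw [e2]; omega)
  · exact m.not_mixed hu' hk hj (by rw [e5]; omega) (by rw [e4]; omega)

theorem X_commute {r s : ℕ} (hr : r < D.nroots) (hs : s < D.nroots) (hrs : s ≠ r) (hneg : s ≠ D.neg r)
    (h : ∀ c ∈ D.commTerms r s, False) (t u : F) : Commute (m.X r t) (m.X s u) := by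
  have h1 := m.X_comm_formula hr hs hrs hneg t u
  have h2 : D.commTerms r s = [] := List.eq_nil_iff_forall_not_mem.2 h
  rw [ChevalleyDatum.commWord, h2, List.map_nil, m.word_nil, mul_one] at h1
  exact h1.symm

/-- `r` is `p_j` or `-p_j` -/
theorem pm_commute {j k : ℕ} (hj : j < D.rank) (hk : k < D.rank) (hjk : j ≠ k) (h : D.cartan j (D.simple k) = 0)
    {r s : ℕ} (hr : r = D.simple j ∨ r = D.neg (D.simple j)) (hs : s = D.simple k ∨ s = D.neg (D.simple k)) (t u : F) :
    Commute (m.X r t) (m.X s u) := by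
  have hsj := m.simple_lt j hj
  have hsk := m.simple_lt k hk
  have hr' : r < D.nroots := by rcases hr with rfl | rfl; exacts [hsj, m.neg_lt hsj]
  have hs' : s < D.nroots := by rcases hs with rfl | rfl; exacts [hsk, m.neg_lt hsk]
  obtain ⟨x, hx0, hx⟩ : ∃ x : ℤ, x ≠ 0 ∧ ∀ i < D.rank, m.coef r i = x * m.coef (D.simple j) i := by
    rcases hr with rfl | rfl
    · exact ⟨1, by norm_num, fun i _ => by ring⟩
    · exact ⟨-1, by norm_num, fun i hi => by rw [m.coef_neg _ hsj i hi]; ring⟩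
  obtain ⟨y, hy0, hy⟩ : ∃ y : ℤ, y ≠ 0 ∧ ∀ i < D.rank, m.coef s i = y * m.coef (D.simple k) i := by
    rcases hs with rfl | rfl
    · exact ⟨1, by norm_num, fun i _ => by ring⟩
    · exact ⟨-1, by norm_num, fun i hi => by rw [m.coef_neg _ hsk i hi]; ring⟩
  have hne : ∀ r', (∀ i < D.rank, m.coef r' i = m.coef s i) → (∃ z : ℤ, ∀ i < D.rank, m.coef r' i = z * m.coef (D.simple j) i) → False := by
    rintro r' h1 ⟨z, h2⟩
    have h3 := h1 k hk
    rw [h2 k hk, hy k hk, m.coef_simple j hj k hk, m.coef_simple k hk k hk, if_neg hjk, if_pos rfl] at h3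
    apply hy0
    omega
  have h1 : s ≠ r := fun he => hne r (fun i _ => by rw [he]) ⟨x, hx⟩
  have h2 : s ≠ D.neg r := fun he => hne (D.neg r) (fun i _ => by rw [he]) ⟨-x, fun i hi => by
    rw [m.coef_neg r hr' i hi, hx i hi]; ring⟩
  apply m.X_commute hr' hs' h1 h2
  intro c hc
  obtain ⟨c1, c2, c3, c4⟩ := m.comm_lt r hr' s hs' h1 h2 c hc
  refine m.no_sum c1 hj hk hjk h (a := c.2.2.1 * x) (b := c.2.2.2 * y) ?_ ?_ ?_
  · exact mul_ne_zero (by exact_mod_cast c2.ne') hx0
  · exact mul_ne_zero (by exact_mod_cast c3.ne') hy0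
  · intro i hi
    rw [c4 i hi, hx i hi, hy i hi]; ring

theorem n_commute {j k : ℕ} (hj : j < D.rank) (hk : k < D.rank) (hjk : j ≠ k) (h : D.cartan j (D.simple k) = 0) :
    Commute (m.n F j) (m.n F k) := by
  have key : ∀ {r s : ℕ}, (r = D.simple j ∨ r = D.neg (D.simple j)) → (s = D.simple k ∨ s = D.neg (D.simple k)) →
      ∀ t u : F, Commute (m.X r t) (m.X s u) := fun hr hs t u => m.pm_commute hj hk hjk h hr hs t u
  unfold n nn
  exact ((((key (Or.inl rfl) (Or.inl rfl) _ _).mul_right (key (Or.inl rfl) (Or.inr rfl) _ _)).mul_right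
    (key (Or.inl rfl) (Or.inl rfl) _ _)).mul_left
    (((key (Or.inr rfl) (Or.inl rfl) _ _).mul_right (key (Or.inr rfl) (Or.inr rfl) _ _)).mul_right
    (key (Or.inr rfl) (Or.inl rfl) _ _))).mul_left
    (((key (Or.inl rfl) (Or.inl rfl) _ _).mul_right (key (Or.inl rfl) (Or.inr rfl) _ _)).mul_right
    (key (Or.inl rfl) (Or.inl rfl) _ _))

theorem n_sq_hHom {k : ℕ} (hk : k < D.rank) : ∃ b : ℕ → Fˣ, m.n F k * m.n F k = m.hHom b ∧
    ∀ i < D.rank, i ≠ k → b i = 1 := by
  have h1 := m.hh_eq_hHom (F := F) (m.simple_lt k hk) (-1)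
  rw [Units.val_neg, Units.val_one, hh, nn_neg, ← mul_inv_rev] at h1
  refine ⟨(fun j => (-1 : Fˣ) ^ cor D (D.simple k) j)⁻¹, ?_, ?_⟩
  · rw [map_inv, ← h1, inv_inv]; rfl
  · intro i hi hik
    rw [Pi.inv_apply, m.cor_simple k hk i hi, if_neg (Ne.symm hik)]
    simp

theorem n_hHom' (b : ℕ → Fˣ) {i : ℕ} (hi : i < D.rank) :
    ∃ b' : ℕ → Fˣ, m.n F i * m.hHom b = m.hHom b' * m.n F i ∧ ∀ j, j ≠ i → b' j = b j := by
  refine ⟨fun k => b k * (if k = i then ∏ j ∈ Finset.range D.rank, b j ^ (- D.cartan j (D.simple i)) else 1), ?_,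
    fun j hj => by simp [hj]⟩
  obtain ⟨b', hb'⟩ : ∃ b' : ℕ → Fˣ, b' = (fun k => b k * (if k = i then ∏ j ∈ Finset.range D.rank, b j ^ (- D.cartan j (D.simple i)) else 1)) :=
    ⟨_, rfl⟩
  rw [← hb', hHom_apply, m.n_dm _ hi]
  congr 1
  rw [hHom_apply]
  apply m.dm_congr
  intro j hj
  have hj' := m.simple_lt j hj
  rw [refC, m.chi_hC b (m.refl_lt i hi _ hj')]
  subst hb'
  change _ = ∏ k ∈ Finset.range D.rank, (b k * (if k = i then
    ∏ j ∈ Finset.range D.rank, b j ^ (- D.cartan j (D.simple i)) else 1)) ^ D.cartan k (D.simple j)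
  have hite : ∀ k ∈ Finset.range D.rank, (b k * (if k = i then
      ∏ j ∈ Finset.range D.rank, b j ^ (- D.cartan j (D.simple i)) else 1)) ^ D.cartan k (D.simple j) =
      b k ^ D.cartan k (D.simple j) * (if k = i then
        (∏ l ∈ Finset.range D.rank, b l ^ (- D.cartan l (D.simple i))) ^ D.cartan i (D.simple j) else 1) := by
    intro k _
    split_ifs with h
    · rw [mul_zpow, h]
    · rw [mul_one, mul_one]
  rw [Finset.prod_congr rfl hite, Finset.prod_mul_distrib, Finset.prod_ite_eq',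
    if_pos (Finset.mem_range.2 hi), ← Finset.prod_zpow, ← Finset.prod_mul_distrib]
  apply Finset.prod_congr rfl
  intro k hk
  rw [m.cartan_refl hi (Finset.mem_range.1 hk) hj', ← zpow_mul, ← zpow_add]
  congr 1
  ring

theorem nl_conj' (l : List (Fin D.rank)) (b : ℕ → Fˣ) : ∃ b' : ℕ → Fˣ, m.nl F l * m.hHom b = m.hHom b' * m.nl F l ∧
    ∀ i, (∀ k ∈ l, (k : ℕ) ≠ i) → b' i = b i := by
  induction l with
  | nil => exact ⟨b, by simp, fun _ _ => rfl⟩
  | cons a l ih =>
    obtain ⟨b1, h1, h2⟩ := ih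
    obtain ⟨b2, h3, h4⟩ := m.n_hHom' b1 a.2
    refine ⟨b2, ?_, ?_⟩
    · rw [nl_cons, mul_assoc, h1, ← mul_assoc, h3, mul_assoc]
    · intro i hi
      rw [h4 i (hi a List.mem_cons_self).symm, h2 i fun k hk => hi k (List.mem_cons_of_mem _ hk)]

/-- pairwise orthogonal lists -/
def Orth (D : ChevalleyDatum) (l : List (Fin D.rank)) : Prop :=
  l.Pairwise fun (j k : Fin D.rank) => (j : ℕ) ≠ (k : ℕ) ∧ D.cartan j (D.simple k) = 0

theorem nl_commute {j : Fin D.rank} {l : List (Fin D.rank)}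
    (h : ∀ k ∈ l, (j : ℕ) ≠ k ∧ D.cartan j (D.simple k) = 0) : Commute (m.n F j) (m.nl F l) := by
  induction l with
  | nil => rw [nl_nil]; exact Commute.one_right _
  | cons a l ih =>
    rw [nl_cons]
    have h1 := h a List.mem_cons_self
    exact (m.n_commute j.2 a.2 h1.1 h1.2).mul_right (ih fun k hk => h k (List.mem_cons_of_mem _ hk))

theorem nl_sq' {l : List (Fin D.rank)} (hl : Orth D l) : ∃ b : ℕ → Fˣ, m.nl F l * m.nl F l = m.hHom b ∧
    ∀ i < D.rank, (∀ k ∈ l, (k : ℕ) ≠ i) → b i = 1 := by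
  induction l with
  | nil => exact ⟨1, by simp, fun _ _ _ => rfl⟩
  | cons a l ih =>
    have h1 := List.pairwise_cons.1 hl
    obtain ⟨b1, h2, h3⟩ := ih h1.2
    obtain ⟨b2, h4, h5⟩ := m.n_sq_hHom (F := F) a.2
    refine ⟨b2 * b1, ?_, ?_⟩
    · have h6 := m.nl_commute (F := F) h1.1
      rw [nl_cons, map_mul, ← h2, ← h4]
      calc m.n F a * m.nl F l * (m.n F a * m.nl F l) = m.n F a * (m.nl F l * m.n F a) * m.nl F l := by group
        _ = m.n F a * (m.n F a * m.nl F l) * m.nl F l := by rw [h6.eq]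
        _ = _ := by group
    · intro i hi hil
      rw [Pi.mul_apply, h5 i hi (hil a List.mem_cons_self).symm, h3 i hi fun k hk => hil k (List.mem_cons_of_mem _ hk),
        mul_one]

end Model

end Cfsg.Agent.H6.Chev
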