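import Mathlib
import Cfsg.Agent.H6_Inv3

/-!
Involutions of Chevalley groups in odd characteristic: every involution is conjugate to an element of the torus.
-/

set_option autoImplicit false
set_option linter.unusedSectionVars false

namespace Cfsg.Agent.H6.Chev

open Cfsg Cfsg.Lie Cfsg.Lie.ChevalleyDatum

/-- binary norm forms over finite fields of odd order are universal -/
theorem exists_norm {F : Type*} [Field F] [Fintype F] (hodd : Odd (Fintype.card F)) {c : F} (hc : c ≠ 0) (δ : F) :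
    ∃ a b : F, a ^ 2 - c * b ^ 2 = δ := by
  open Polynomial in
  obtain ⟨a, b, h⟩ := FiniteField.exists_root_sum_quadratic (R := F) (f := X ^ 2 - C δ) (g := C (-c) * X ^ 2)
    (by rw [degree_X_pow_sub_C (by norm_num)]; rfl)
    (by rw [degree_C_mul (neg_ne_zero.2 hc), degree_X_pow]; rfl) (Nat.odd_iff.1 hodd)
  refine ⟨a, b, ?_⟩
  simp only [eval_sub, eval_pow, eval_X, eval_C, eval_mul] at h
  linear_combination h

namespace Model

variable {D : ChevalleyDatum} {F : Type*} [Field F] (m : Model D)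

include m

theorem sr_orth {i k : Fin D.rank} (h : D.cartan k (D.simple i) = 0) : m.sr k (m.p i) = m.p i := by
  apply m.ext_coef
  intro j hj
  rw [coe_sr, coe_p, m.coef_refl k k.2 _ (m.simple_lt i i.2) j hj, h]
  simp

theorem sr_conj {w : Equiv.Perm (Fin D.nroots)} (hw : m.IsW w) {j : Fin D.rank} (h : w (m.p j) = m.ng (m.p j)) :
    m.sr j * w = w * m.sr j := by
  have h1 : (w * m.sr j) (m.p j) = m.p j := by
    rw [Equiv.Perm.mul_apply, m.sr_p, hw.neg, h, m.ng_ng]
  have h2 := (hw.mul (m.isW_sr j)).conj h1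
  rw [mul_assoc w, m.sr_mul_self, mul_one] at h2
  calc m.sr j * w = (m.sr j * (w * m.sr j)) * m.sr j := by
        rw [mul_assoc, mul_assoc w, m.sr_mul_self, mul_one]
    _ = w * m.sr j := by rw [h2]

/-- involutions with only orthogonal simple descents -/
theorem exists_orth : ∀ (k : ℕ) (w : Equiv.Perm (Fin D.nroots)), w ∈ m.Wg → w * w = 1 →
    (Finset.univ.filter fun i : Fin D.rank => (w (m.p i) : ℕ) < m.N).card = k →
    (∀ i : Fin D.rank, (w (m.p i) : ℕ) < m.N → w (m.p i) = m.ng (m.p i)) →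
    (∀ i j : Fin D.rank, i ≠ j → (w (m.p i) : ℕ) < m.N → (w (m.p j) : ℕ) < m.N → D.cartan i (D.simple j) = 0) →
    ∃ l : List (Fin D.rank), Orth D l ∧ (∀ i, i ∈ l → (w (m.p i) : ℕ) < m.N) ∧ m.wl l = w := by
  intro k
  induction k with
  | zero =>
    intro w hw _ hk _ _
    refine ⟨[], List.Pairwise.nil, by simp, ?_⟩
    rw [wl_nil]
    symm
    apply m.eq_one_of_pos hw
    intro i
    by_contra hc
    rw [Finset.card_eq_zero] at hk
    have : i ∈ Finset.univ.filter fun i : Fin D.rank => (w (m.p i) : ℕ) < m.N := by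
      rw [Finset.mem_filter]; exact ⟨Finset.mem_univ _, not_le.1 hc⟩
    rw [hk] at this
    simp at this
  | succ k ih =>
    intro w hw hw2 hk hneg horth
    obtain ⟨j, hj⟩ : (Finset.univ.filter fun i : Fin D.rank => (w (m.p i) : ℕ) < m.N).Nonempty := by
      rw [← Finset.card_pos]; omega
    rw [Finset.mem_filter] at hj
    have hj' := hneg j hj.2
    have hW := m.isW hw
    have hcm := m.sr_conj hW hj'
    have hs : m.sr j ∈ m.Wg := Subgroup.subset_closure ⟨j, rfl⟩
    have e1 : ∀ i : Fin D.rank, i ≠ j → (w (m.p i) : ℕ) < m.N → (m.sr j * w) (m.p i) = m.ng (m.p i) := by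
      intro i hij hi
      rw [Equiv.Perm.mul_apply, hneg i hi, m.sr_ng, m.sr_orth (horth j i (Ne.symm hij) hj.2 hi)]
    have e2 : ∀ i : Fin D.rank, m.N ≤ w (m.p i) → m.N ≤ (m.sr j * w) (m.p i) := by
      intro i hi
      rw [Equiv.Perm.mul_apply]
      apply m.sr_pos hi
      intro he
      have h1 : m.p i = w (m.p j) := by
        rw [← he, ← Equiv.Perm.mul_apply, hw2]; rfl
      have := m.p_pos i
      rw [h1] at this
      omega
    have e3 : (m.sr j * w) (m.p j) = m.p j := by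
      rw [Equiv.Perm.mul_apply, hj', m.sr_ng, m.sr_p, m.ng_ng]
    have e4 : ∀ i : Fin D.rank, ((m.sr j * w) (m.p i) : ℕ) < m.N ↔ i ≠ j ∧ (w (m.p i) : ℕ) < m.N := by
      intro i
      constructor
      · intro h
        refine ⟨?_, ?_⟩
        · rintro rfl
          rw [e3] at h
          have := m.p_pos i
          omega
        · by_contra hc
          have := e2 i (not_lt.1 hc)
          omega
      · rintro ⟨h1, h2⟩
        rw [e1 i h1 h2, m.ng_lt_iff]
        exact m.p_pos i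
    obtain ⟨l, h1, h2, h3⟩ := ih (m.sr j * w) (mul_mem hs hw) (by
        calc m.sr j * w * (m.sr j * w) = w * m.sr j * (m.sr j * w) := by rw [hcm]
          _ = w * (m.sr j * m.sr j) * w := by group
          _ = 1 := by rw [m.sr_mul_self, mul_one, hw2]) (by
        have : (Finset.univ.filter fun i : Fin D.rank => ((m.sr j * w) (m.p i) : ℕ) < m.N) =
            (Finset.univ.filter fun i : Fin D.rank => (w (m.p i) : ℕ) < m.N).erase j := by
          ext i
          rw [Finset.mem_filter, Finset.mem_erase, Finset.mem_filter, e4 i]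
          tauto
        rw [this, Finset.card_erase_of_mem (by rw [Finset.mem_filter]; exact hj), hk]
        rfl)
      (fun i hi => by
        rw [e4] at hi
        exact e1 i hi.1 hi.2)
      (fun i i' hne hi hi' => by
        rw [e4] at hi hi'
        exact horth i i' hne hi.2 hi'.2)
    refine ⟨j :: l, List.pairwise_cons.2 ⟨?_, h1⟩, ?_, ?_⟩
    · intro i hi
      have h4 := (e4 i).1 (h2 i hi)
      exact ⟨fun h => h4.1 (Fin.ext h.symm), horth j i (Ne.symm h4.1) hj.2 h4.2⟩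
    · intro i hi
      rcases List.mem_cons.1 hi with rfl | hi
      · exact hj.2
      · exact ((e4 i).1 (h2 i hi)).2
    · rw [wl_cons, h3, ← mul_assoc, m.sr_mul_self, one_mul]

theorem wl_fix {i : Fin D.rank} {l : List (Fin D.rank)} (hl : Orth D (i :: l)) : m.wl l (m.p i) = m.p i := by
  have h := (List.pairwise_cons.1 hl).1
  have hcar : ∀ k ∈ l, D.cartan (k : ℕ) (D.simple i) = 0 := by
    intro k hk
    have h1 := (h k hk).2
    have h2 := m.cartan_sym i.2 k.2
    rw [h1, mul_zero] at h2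
    exact (mul_eq_zero.1 h2.symm).resolve_left (m.frm_pos k.2).ne'
  clear h hl
  induction l with
  | nil => rfl
  | cons a l ih =>
    rw [wl_cons, Equiv.Perm.mul_apply, ih fun k hk => hcar k (List.mem_cons_of_mem _ hk),
      m.sr_orth (hcar a List.mem_cons_self)]

/-- the weight argument -/
theorem square_of_inv (hinj : ∀ b b' : ℕ → Fˣ, m.hHom b = m.hHom b' → ∀ i < D.rank, b i = b' i)
    {g : GL D.Idx F} {w : Equiv.Perm (Fin D.nroots)} {c : Fin D.nroots → Fˣ} (hg : g ∈ D.monomialSubgroup F)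
    (hg2 : g * g = 1) (ha : m.ActsC g w c) {i : Fin D.rank} {l : List (Fin D.rank)} (hl : Orth D (i :: l))
    (hw : m.wl (i :: l) = w) : ∃ d : Fˣ, c (m.p i) = d ^ 2 := by
  have h1 : m.Acts (g * (m.nl F (i :: l))⁻¹) 1 := by
    have h0 : m.Acts g w := ⟨c, ha⟩
    have h := h0.mul (m.acts_inv (m.nl_mem_N (i :: l)) (m.acts_nl (F := F) (i :: l)))
    rwa [hw, mul_inv_cancel] at h
  have h2 := m.mem_H_of_acts_one (mul_mem hg (inv_mem (m.nl_mem_N _))) h1
  have h3 := m.n_conj_H' i h2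
  obtain ⟨b1, hb1⟩ := m.mem_H.1 h3
  have hgy : g = m.n F i * (m.hHom b1 * m.nl F l) := by
    rw [← hb1, nl_cons]
    group
  obtain ⟨cy, hcy⟩ := (m.acts_h (m.hHom_mem (F := F) b1)).mul (m.acts_nl (F := F) l)
  rw [one_mul] at hcy
  obtain ⟨y, hy⟩ : ∃ y, y = m.hHom b1 * m.nl F l := ⟨_, rfl⟩
  rw [← hy] at hgy hcy
  have hfix := m.wl_fix hl
  have hyX : ∀ t : F, y * m.X (m.p i) t = m.X (m.p i) (((cy (m.p i) : Fˣ) : F) * t) * y := by
    intro t
    rw [hcy.X, hfix]
  have hyX' : ∀ t : F, y * m.X (m.ng (m.p i)) t = m.X (m.ng (m.p i)) ((((cy (m.p i))⁻¹ : Fˣ) : F) * t) * y := by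
    intro t
    rw [hcy.X, hcy.isW.neg, hfix, hcy.neg]
  -- the value of `c`
  have hwi : w (m.p i) = m.ng (m.p i) := by
    rw [← hw, wl_cons, Equiv.Perm.mul_apply, hfix, m.sr_p]
  have hc : c (m.p i) = - cy (m.p i) := by
    have h4 := ha.X (m.p i) 1
    have h5 := m.n_X (F := F) i.2 (m.simple_lt i i.2) (((cy (m.p i) : Fˣ) : F) * 1)
    rw [hwi] at h4
    conv_lhs at h4 => rw [hgy, mul_assoc, hyX 1, ← mul_assoc]
    rw [m.refl_simple i.2, m.eta_simple i i.2] at h5
    have h6 : m.n F i * m.X (m.p i) (((cy (m.p i) : Fˣ) : F) * 1) = m.X (m.ng (m.p i)) (-((cy (m.p i) : Fˣ) : F)) * m.n F i := by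
      rw [show ((-1 : ℤ) : F) * (((cy (m.p i) : Fˣ) : F) * 1) = -((cy (m.p i) : Fˣ) : F) by push_cast; ring] at h5
      exact h5
    rw [h6, mul_assoc, ← hgy, mul_one] at h4
    have h7 := m.X_inj (m.ng (m.p i)).2 (mul_right_cancel h4)
    apply Units.ext
    rw [Units.val_neg]
    exact h7.symm
  -- the square of `y`
  have hyn : y * m.n F i = m.nn (D.simple i) ((cy (m.p i) : Fˣ) : F) * y := by
    have e1 : m.n F i = m.X (m.p i) 1 * m.X (m.ng (m.p i)) (-1) * m.X (m.p i) 1 := by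
      rw [n, nn, inv_one]; rfl
    have e2 : m.nn (D.simple i) ((cy (m.p i) : Fˣ) : F) = m.X (m.p i) ((cy (m.p i) : Fˣ) : F) *
        m.X (m.ng (m.p i)) (-((cy (m.p i) : Fˣ) : F)⁻¹) * m.X (m.p i) ((cy (m.p i) : Fˣ) : F) := rfl
    rw [e1, e2, ← mul_assoc, ← mul_assoc, hyX, mul_assoc (m.X _ _) y, hyX', ← mul_assoc, mul_assoc _ y, hyX]
    simp only [← mul_assoc, mul_one]
    congr 4
    push_cast
    ring
  have hyy : y * y = m.hh (D.simple i) ((-cy (m.p i) : Fˣ) : F) := by
    have h4 : m.n F i * (m.nn (D.simple i) ((cy (m.p i) : Fˣ) : F) * (y * y)) = 1 := by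
      calc m.n F i * (m.nn (D.simple i) ((cy (m.p i) : Fˣ) : F) * (y * y))
          = m.n F i * ((m.nn (D.simple i) ((cy (m.p i) : Fˣ) : F) * y) * y) := by group
        _ = (m.n F i * y) * (m.n F i * y) := by rw [← hyn]; group
        _ = 1 := by rw [← hgy, hg2]
    rw [hh, Units.val_neg, nn_neg, nn_neg]
    have h5 : m.nn (D.simple i) ((cy (m.p i) : Fˣ) : F) * (y * y) = (m.n F i)⁻¹ := eq_inv_of_mul_eq_one_right h4
    rw [← mul_right_inj (m.nn (D.simple i) ((cy (m.p i) : Fˣ) : F)), h5, ← mul_assoc, mul_inv_cancel, one_mul]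
    rfl
  obtain ⟨b2, hb2, hb2'⟩ := m.nl_conj' (F := F) l b1
  obtain ⟨b3, hb3, hb3'⟩ := m.nl_sq' (F := F) (List.pairwise_cons.1 hl).2
  have hil : ∀ k ∈ l, (k : ℕ) ≠ i := fun k hk => ((List.pairwise_cons.1 hl).1 k hk).1.symm
  have hyy' : y * y = m.hHom (b1 * b2 * b3) := by
    rw [map_mul, map_mul, ← hb3, hy]
    calc m.hHom b1 * m.nl F l * (m.hHom b1 * m.nl F l) = m.hHom b1 * (m.nl F l * m.hHom b1) * m.nl F l := by group
      _ = _ := by rw [hb2]; group
  rw [hyy', m.hh_eq_hHom (m.simple_lt i i.2)] at hyy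
  have h6 := hinj _ _ hyy i i.2
  rw [Pi.mul_apply, Pi.mul_apply, hb2' i hil, hb3' i i.2 hil, m.cor_simple i i.2 i i.2, if_pos rfl, zpow_one, mul_one,
    ← hc] at h6
  exact ⟨b1 i, by rw [← h6, pow_two]⟩

end Model

end Cfsg.Agent.H6.Chev
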