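import Mathlib
import Cfsg.Agent.H6_Inv4

/-!
Involutions of Chevalley groups in odd characteristic: every involution is conjugate to an element of the torus.
-/

set_option autoImplicit false
set_option linter.unusedSectionVars false

namespace Cfsg.Agent.H6.Chev

open Cfsg Cfsg.Lie Cfsg.Lie.ChevalleyDatum

namespace Model

variable {D : ChevalleyDatum} {F : Type*} [Field F] (m : Model D)

include m

/-- the negated roots -/
def negs (w : Equiv.Perm (Fin D.nroots)) : Finset (Fin D.nroots) := Finset.univ.filter fun s => w s = m.ng s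

theorem mem_negs {w : Equiv.Perm (Fin D.nroots)} {s : Fin D.nroots} : s ∈ m.negs w ↔ w s = m.ng s := by
  unfold negs; rw [Finset.mem_filter]; exact ⟨fun h => h.2, fun h => ⟨Finset.mem_univ _, h⟩⟩

theorem negs_sr {w : Equiv.Perm (Fin D.nroots)} (hW : m.IsW w) (hw2 : w * w = 1) {i : Fin D.rank}
    (h : w (m.p i) = m.ng (m.p i)) : (m.negs (m.sr i * w)).card < (m.negs w).card := by
  apply Finset.card_lt_card
  rw [Finset.ssubset_iff_of_subset]
  · refine ⟨m.p i, m.mem_negs.2 h, ?_⟩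
    rw [m.mem_negs, Equiv.Perm.mul_apply, h, m.sr_ng, m.sr_p, m.ng_ng]
    intro h1
    have h2 := m.p_pos i
    have h3 := (m.ng_lt_iff (m.p i)).2 h2
    rw [← h1] at h3
    omega
  · intro s hs
    rw [m.mem_negs, Equiv.Perm.mul_apply] at hs
    rw [m.mem_negs]
    have h1 : w s = m.ng (m.sr i s) := by
      rw [← m.sr_sr i (w s), hs, m.sr_ng]
    -- the pairing with `p_i`
    have h2 : D.cartan i (w s) = - D.cartan i s := by
      have h3 := hW.pair (m.p i) (w s)
      have h4 : w (w s) = s := by rw [← Equiv.Perm.mul_apply, hw2]; rfl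
      rw [h, h4, m.coe_ng, m.pair_neg_left (m.p i).2, coe_p, m.pair_simple i.2, m.pair_simple i.2] at h3
      exact h3.symm
    have h5 : D.cartan i s = 0 := by
      rw [h1, m.coe_ng, m.cartan_neg i.2 (Fin.is_lt _), coe_sr, m.cartan_refl_self i.2 s.2] at h2
      omega
    have h6 : m.sr i s = s := by
      apply m.ext_coef
      intro j hj
      rw [coe_sr, m.coef_refl i i.2 _ s.2 j hj, h5]
      simp
    rw [h1, h6]

theorem negs_conj (i : Fin D.rank) (w : Equiv.Perm (Fin D.nroots)) :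
    (m.negs (m.sr i * w * m.sr i)).card = (m.negs w).card := by
  apply Finset.card_bij (fun s _ => m.sr i s)
  · intro s hs
    rw [m.mem_negs, Equiv.Perm.mul_apply, Equiv.Perm.mul_apply] at hs
    rw [m.mem_negs]
    rw [← m.sr_sr i (w (m.sr i s)), hs, m.sr_ng]
  · intro a _ b _ hab
    exact (m.sr i).injective hab
  · intro s hs
    rw [m.mem_negs] at hs
    refine ⟨m.sr i s, ?_, m.sr_sr i s⟩
    rw [m.mem_negs, Equiv.Perm.mul_apply, Equiv.Perm.mul_apply, m.sr_sr, hs, m.sr_ng]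

theorem inv_conj_lt {i : Fin D.rank} {w : Equiv.Perm (Fin D.nroots)} (hw : w ∈ m.Wg) (hw2 : w * w = 1)
    (h : (w (m.p i) : ℕ) < m.N) (hne : w (m.p i) ≠ m.ng (m.p i)) :
    (m.inv (m.sr i * w * m.sr i)).card < (m.inv w).card := by
  have hs : m.sr i ∈ m.Wg := Subgroup.subset_closure ⟨i, rfl⟩
  have h1 := m.card_inv_sr hw h
  have hv : m.sr i * w * m.sr i ∈ m.Wg := mul_mem (mul_mem hs hw) hs
  have hinv : (m.sr i * w * m.sr i)⁻¹ = m.sr i * w * m.sr i := by
    rw [mul_inv_rev, mul_inv_rev, m.sr_inv, inv_eq_of_mul_eq_one_left hw2, mul_assoc]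
  have h2 : m.N ≤ ((m.sr i * w * m.sr i)⁻¹ (m.p i) : Fin D.nroots) := by
    rw [hinv, Equiv.Perm.mul_apply, Equiv.Perm.mul_apply, m.sr_p, (m.isW hw).neg]
    apply m.sr_pos
    · rw [m.ng_ge_iff]; exact h
    · intro he
      apply hne
      have := congrArg m.ng he
      rwa [m.ng_ng] at this
  have h3 := m.card_inv_sr_left hv h2
  rw [← mul_assoc, ← mul_assoc, m.sr_mul_self, one_mul] at h3
  omega

theorem inv_le (w : Equiv.Perm (Fin D.nroots)) : (m.inv w).card ≤ D.nroots := by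
  calc (m.inv w).card ≤ Fintype.card (Fin D.nroots) := Finset.card_le_univ _
    _ = D.nroots := Fintype.card_fin _

/-- the measure -/
def mu (w : Equiv.Perm (Fin D.nroots)) : ℕ := (m.negs w).card * (D.nroots + 1) + (m.inv w).card

theorem mu_lt {w v : Equiv.Perm (Fin D.nroots)} (h : (m.negs w).card < (m.negs v).card) : m.mu w < m.mu v := by
  unfold mu
  have h1 := m.inv_le w
  have h2 : ((m.negs w).card + 1) * (D.nroots + 1) ≤ (m.negs v).card * (D.nroots + 1) :=
    Nat.mul_le_mul_right _ h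
  rw [add_mul] at h2
  omega

/-- the first reduction -/
theorem red_h [Fintype F] (hodd : Odd (Fintype.card F)) {g : GL D.Idx F} {w : Equiv.Perm (Fin D.nroots)}
    {c : Fin D.nroots → Fˣ} (ha : m.ActsC g w c) {i : Fin D.rank} (h : w (m.p i) = m.ng (m.p i)) (δ : Fˣ) :
    ∃ v ∈ D.group F, v * g * v⁻¹ = m.hh (D.simple i) (δ : F) * g := by
  obtain ⟨a, b, hab⟩ := exists_norm hodd (c (m.p i)).ne_zero (δ : F)
  refine (m.rk1 F (m.simple_lt i i.2)).conj_h (K := D.group F) (fun t => m.X_mem_group _ _) (fun t => m.X_mem_group _ _)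
    (c (m.p i)).ne_zero ?_ ?_ δ.ne_zero hab
  · intro t
    have := ha.X (m.p i) t
    rw [h] at this
    exact this
  · intro t
    have := ha.X (m.ng (m.p i)) t
    rw [ha.isW.neg, h, m.ng_ng, ha.neg, Units.val_inv_eq_inv_val] at this
    exact this

/-- the second reduction -/
theorem red_n (h2 : (2 : F) ≠ 0) {g : GL D.Idx F} {w : Equiv.Perm (Fin D.nroots)}
    {c : Fin D.nroots → Fˣ} (ha : m.ActsC g w c) {i : Fin D.rank} (h : w (m.p i) = m.ng (m.p i)) {d : Fˣ}
    (hd : c (m.p i) = d ^ 2) : ∃ v ∈ D.group F, v * g * v⁻¹ = m.nn (D.simple i) ((d⁻¹ : Fˣ) : F) * g := by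
  rw [Units.val_inv_eq_inv_val]
  refine (m.rk1 F (m.simple_lt i i.2)).conj_n (K := D.group F) (fun t => m.X_mem_group _ _) (fun t => m.X_mem_group _ _)
    h2 (c (m.p i)).ne_zero ?_ ?_ (by rw [hd, Units.val_pow_eq_pow_val])
  · intro t
    have := ha.X (m.p i) t
    rw [h] at this
    exact this
  · intro t
    have := ha.X (m.ng (m.p i)) t
    rw [ha.isW.neg, h, m.ng_ng, ha.neg, Units.val_inv_eq_inv_val] at this
    exact this

theorem nn_mem_N (i : Fin D.rank) (t : Fˣ) : m.nn (D.simple i) (t : F) ∈ D.monomialSubgroup F ∧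
    m.Acts (m.nn (D.simple i) (t : F)) (m.sr i) := by
  rw [m.nn_mul_nn_inv]
  have h1 := m.hh_mem_H (F := F) (m.simple_lt i i.2) t
  refine ⟨mul_mem (m.H_le_N h1) (m.n_mem_N i), ?_⟩
  have := (m.acts_h h1).mul (m.acts_n (F := F) i)
  rwa [one_mul] at this

theorem conj_H_of_N [Fintype F] (hodd : Odd (Fintype.card F)) (h2 : (2 : F) ≠ 0)
    (hinj : ∀ b b' : ℕ → Fˣ, m.hHom b = m.hHom b' → ∀ i < D.rank, b i = b' i)
    (hcar : ∀ i j : Fin D.rank, i ≠ j → Even (D.cartan i (D.simple j)) → Even (D.cartan j (D.simple i)) →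
      D.cartan i (D.simple j) = 0) :
    ∀ (k : ℕ) (g : GL D.Idx F) (w : Equiv.Perm (Fin D.nroots)), g ∈ D.monomialSubgroup F → g * g = 1 → w ∈ m.Wg →
      m.Acts g w → m.mu w = k → ∃ v ∈ D.group F, v * g * v⁻¹ ∈ D.diagonalSubgroup F := by
  intro k
  induction k using Nat.strong_induction_on with
  | _ k ih =>
    intro g w hg hg2 hw hact hk
    have hW := m.isW hw
    have hw2 : w * w = 1 := by
      have h3 := hact.mul hact
      rw [hg2] at h3
      have h4 := m.acts_dm (F := F) 1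
      rw [map_one] at h4
      exact m.acts_unique h3 h4
    -- reduction step
    have step : ∀ (v g' : GL D.Idx F) (w' : Equiv.Perm (Fin D.nroots)), v ∈ D.group F → v * g * v⁻¹ = g' →
        g' ∈ D.monomialSubgroup F → w' ∈ m.Wg → m.Acts g' w' → m.mu w' < k →
        ∃ v ∈ D.group F, v * g * v⁻¹ ∈ D.diagonalSubgroup F := by
      intro v g' w' hv he hg' hw' ha' hlt
      have hg'2 : g' * g' = 1 := by
        rw [← he]
        calc v * g * v⁻¹ * (v * g * v⁻¹) = v * (g * g) * v⁻¹ := by group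
          _ = 1 := by rw [hg2]; group
      obtain ⟨v', hv', h5⟩ := ih _ hlt g' w' hg' hg'2 hw' ha' rfl
      refine ⟨v' * v, mul_mem hv' hv, ?_⟩
      rw [← he] at h5
      have : v' * v * g * (v' * v)⁻¹ = v' * (v * g * v⁻¹) * v'⁻¹ := by group
      rw [this]; exact h5
    have hs : ∀ i : Fin D.rank, m.sr i ∈ m.Wg := fun i => Subgroup.subset_closure ⟨i, rfl⟩
    by_cases hA : ∃ i : Fin D.rank, (w (m.p i) : ℕ) < m.N ∧ w (m.p i) ≠ m.ng (m.p i)
    · obtain ⟨i, hi, hne⟩ := hA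
      have hn := m.n_mem_N (F := F) i
      refine step (m.n F i) _ (m.sr i * w * m.sr i) (m.N_le_G hn) rfl (mul_mem (mul_mem hn hg) (inv_mem hn))
        (mul_mem (mul_mem (hs i) hw) (hs i)) ?_ ?_
      · have h3 := ((m.acts_n (F := F) i).mul hact).mul (m.acts_inv hn (m.acts_n (F := F) i))
        rwa [m.sr_inv] at h3
      · rw [← hk]
        unfold mu
        rw [m.negs_conj]
        have := m.inv_conj_lt hw hw2 hi hne
        omega
    push Not at hA
    -- an application of the second reduction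
    have hB : ∀ (g' : GL D.Idx F) (c : Fin D.nroots → Fˣ) (v : GL D.Idx F), v ∈ D.group F → v * g * v⁻¹ = g' →
        g' ∈ D.monomialSubgroup F → m.ActsC g' w c → ∀ i : Fin D.rank, w (m.p i) = m.ng (m.p i) →
        (∃ d : Fˣ, c (m.p i) = d ^ 2) → ∃ v ∈ D.group F, v * g * v⁻¹ ∈ D.diagonalSubgroup F := by
      rintro g' c v hv he hg' hc i hi ⟨d, hd⟩
      obtain ⟨v', hv', h3⟩ := m.red_n h2 hc hi hd
      obtain ⟨h4, h5⟩ := m.nn_mem_N (F := F) i d⁻¹
      refine step (v' * v) _ (m.sr i * w) (mul_mem hv' hv) ?_ (mul_mem h4 hg') (mul_mem (hs i) hw)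
        (h5.mul ⟨c, hc⟩) ?_
      · rw [← h3, ← he]; group
      · rw [← hk]; exact m.mu_lt (m.negs_sr hW hw2 hi)
    obtain ⟨c, hc⟩ := hact
    by_cases hC : ∃ i : Fin D.rank, w (m.p i) = m.ng (m.p i) ∧ ∃ d : Fˣ, c (m.p i) = d ^ 2
    · obtain ⟨i, hi, hd⟩ := hC
      exact hB g c 1 (one_mem _) (by group) hg hc i hi hd
    by_cases hE : ∃ i j : Fin D.rank, (w (m.p i) : ℕ) < m.N ∧ (w (m.p j) : ℕ) < m.N ∧ ¬ Even (D.cartan i (D.simple j))
    · obtain ⟨i, j, hi, hj, hodd'⟩ := hE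
      have hi' := hA i hi
      have hj' := hA j hj
      obtain ⟨v, hv, h3⟩ := m.red_h hodd hc hi' (c (m.p j))
      have h4 := m.hh_mem_H (F := F) (m.simple_lt i i.2) (c (m.p j))
      have h5 := m.hh_eq (F := F) (m.simple_lt i i.2) (c (m.p j))
      have hdm : m.ActsC (m.hh (D.simple i) ((c (m.p j) : Fˣ) : F)) 1 (fun r => m.chi (Model.hc D (D.simple i) (c (m.p j))) r) := by
        rw [h5]
        exact ⟨m.isW_one, fun r => m.chi_neg _ r.2, fun r t => m.dm_X _ r t, fun r => m.dm_eb _ r⟩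
      have h6 := hdm.mul hc
      rw [one_mul] at h6
      refine hB _ _ v hv h3 (mul_mem (m.H_le_N h4) hg) h6 j hj' ?_
      rw [hj']
      have h7 : m.chi (Model.hc D (D.simple i) (c (m.p j))) (m.ng (m.p j)) = (c (m.p j)) ^ (- D.cartan i (D.simple j)) := by
        rw [m.coe_ng, m.chi_neg _ (m.p j).2, coe_p, m.chi_hc _ _ (m.simple_lt j j.2), m.pair_simple i.2, zpow_neg]
      rw [h7]
      obtain ⟨a, ha⟩ := Int.not_even_iff_odd.1 hodd'
      refine ⟨c (m.p j) ^ (-a), ?_⟩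
      rw [ha, ← zpow_add_one, ← zpow_natCast, ← zpow_mul]
      congr 1
      push_cast
      ring
    push Not at hE
    have horth : ∀ i j : Fin D.rank, i ≠ j → (w (m.p i) : ℕ) < m.N → (w (m.p j) : ℕ) < m.N →
        D.cartan i (D.simple j) = 0 := fun i j hij hi hj => hcar i j hij (hE i j hi hj) (hE j i hj hi)
    obtain ⟨l, hl1, hl2, hl3⟩ := m.exists_orth _ w hw hw2 rfl hA horth
    rcases l with _ | ⟨i, l⟩
    · refine ⟨1, one_mem _, ?_⟩
      rw [wl_nil] at hl3
      rw [one_mul, inv_one, mul_one]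
      apply m.mem_H_of_acts_one hg
      rw [hl3]
      exact ⟨c, hc⟩
    · exact absurd ⟨i, hA i (hl2 i List.mem_cons_self), m.square_of_inv hinj hg hg2 hc hl1 hl3⟩ hC

theorem conj_H [Fintype F] (hodd : Odd (Fintype.card F)) (h2 : (2 : F) ≠ 0)
    (hinj : ∀ b b' : ℕ → Fˣ, m.hHom b = m.hHom b' → ∀ i < D.rank, b i = b' i)
    (hcar : ∀ i j : Fin D.rank, i ≠ j → Even (D.cartan i (D.simple j)) → Even (D.cartan j (D.simple i)) →
      D.cartan i (D.simple j) = 0) {t : GL D.Idx F} (ht : t ∈ D.group F) (ht2 : t * t = 1) :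
    ∃ v ∈ D.group F, v * t * v⁻¹ ∈ D.diagonalSubgroup F := by
  obtain ⟨g, hg, h3, h4⟩ := m.exists_conj_N hodd ht ht2
  obtain ⟨w, hw, hact⟩ := m.acts_N h3
  obtain ⟨v, hv, h5⟩ := m.conj_H_of_N hodd h2 hinj hcar _ _ w h3 h4 hw hact rfl
  refine ⟨v * g, mul_mem hv hg, ?_⟩
  have : v * g * t * (v * g)⁻¹ = v * (g * t * g⁻¹) * v⁻¹ := by group
  rw [this]; exact h5

end Model

end Cfsg.Agent.H6.Chev
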