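import Mathlib
import Cfsg.Agent.H6_Inv5
import Cfsg.Agent.H6_ChevStage

/-!
Involutions of Chevalley groups in odd characteristic: involutions of the torus as bit masks.
-/

set_option autoImplicit false
set_option linter.unusedSectionVars false

namespace Cfsg.Agent.H6.Chev

open Cfsg Cfsg.Lie Cfsg.Lie.ChevalleyDatum

/-- bits -/
def tb (M i : ℕ) : Bool := Nat.beq (Nat.land (Nat.shiftRight M i) 1) 1

theorem tb_eq (M i : ℕ) : tb M i = M.testBit i := by
  unfold tb Nat.testBit
  have h1 : Nat.land (Nat.shiftRight M i) 1 = 1 &&& (M >>> i) := Nat.land_comm _ _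
  rw [h1]
  have h2 : 1 &&& (M >>> i) = (M >>> i) % 2 := Nat.one_and_eq_mod_two _
  rw [h2]
  rcases Nat.mod_two_eq_zero_or_one (M >>> i) with h | h <;> rw [h] <;> rfl

namespace Tab

variable (t : Tab)

/-- parity of Cartan integers -/
def odd1 (i x : ℕ) : Bool := Nat.beq (Nat.land (byteAt (nth t.cT i) x) 1) 1

/-- parity of a root with respect to a mask -/
def parK (M x k : ℕ) : Bool := Nat.rec (motive := fun _ => Bool) false (fun i ih => Bool.xor ih (tb M i && t.odd1 i x)) k

/-- parity of a root with respect to a mask -/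
def par (M x : ℕ) : Bool := t.parK M x t.l

theorem odd1_iff (i x : ℕ) : t.odd1 i x = true ↔ Odd (t.c i x) := by
  unfold odd1 c intAt
  generalize byteAt (nth t.cT i) x = b
  have h1 : Nat.land b 1 = b % 2 := Nat.and_one_is_mod b
  rw [h1, Int.subNatNat_eq_coe]
  constructor
  · intro h
    have h2 : b % 2 = 1 := Nat.eq_of_beq_eq_true h
    rw [Int.odd_iff]
    push_cast
    omega
  · intro h
    rw [Int.odd_iff] at h
    push_cast at h
    have : b % 2 = 1 := by omega
    rw [this]; rfl

/-- the action of a simple reflection on masks -/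
def stp (M i : ℕ) : ℕ := cond (t.par M (nth t.S i)) (Nat.xor M (Nat.shiftLeft 1 i)) M

end Tab

section

variable {F : Type*} [Field F]

/-- the signs of a mask -/
def sgn (F : Type*) [Field F] (M i : ℕ) : Fˣ := cond (tb M i) (-1) 1

theorem sgn_sq (M i : ℕ) : sgn F M i * sgn F M i = 1 := by
  unfold sgn; cases tb M i <;> simp

theorem sgn_zpow (M i : ℕ) (z : ℤ) : (sgn F M i) ^ z = cond (tb M i && decide (Odd z)) (-1) 1 := by
  unfold sgn
  cases tb M i
  · simp
  · by_cases h : Odd z
    · simp [h, h.neg_one_zpow]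
    · rw [Int.not_odd_iff_even] at h
      have h' : ¬ Odd z := by rwa [Int.not_odd_iff_even]
      simp [h', h.neg_one_zpow]

end

namespace Model

variable {D : ChevalleyDatum} {F : Type*} [Field F] (m : Model D) {t : Tab}

/-- the character of a mask -/
def ch (F : Type*) [Field F] (M x : ℕ) : Fˣ := m.chi (hC D (sgn F M)) x

theorem ch_eq (b : t.Base D) {x : ℕ} (hx : x < D.nroots) (M : ℕ) : m.ch F M x = cond (t.par M x) (-1) 1 := by
  unfold ch
  rw [m.chi_hC _ hx, b.rank]
  unfold Tab.par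
  have key : ∀ k ≤ t.l, ∏ i ∈ Finset.range k, sgn F M i ^ D.cartan i x = cond (t.parK M x k) (-1) 1 := by
    intro k
    induction k with
    | zero => intro _; rfl
    | succ k ih =>
      intro hk
      have hx' : x < t.n := by rw [← b.nroots]; exact hx
      rw [Finset.prod_range_succ, ih (by omega), sgn_zpow, b.cartan_eq (by omega) hx']
      change _ = cond (Bool.xor (t.parK M x k) (tb M k && t.odd1 k x)) (-1) 1
      have h1 : decide (Odd (t.c k x)) = t.odd1 k x := by
        rw [Bool.eq_iff_iff, decide_eq_true_iff, t.odd1_iff]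
      rw [h1]
      cases t.parK M x k <;> cases (tb M k && t.odd1 k x) <;> simp
  exact key _ le_rfl

theorem hHom_congr {b b' : ℕ → Fˣ} (h : ∀ i < D.rank, b i = b' i) : m.hHom b = m.hHom b' := by
  rw [hHom_apply, hHom_apply]
  apply m.dm_congr
  intro j _
  change ∏ i ∈ Finset.range D.rank, b i ^ D.cartan i (D.simple j) = ∏ i ∈ Finset.range D.rank, b' i ^ D.cartan i (D.simple j)
  apply Finset.prod_congr rfl
  intro i hi
  rw [h i (Finset.mem_range.1 hi)]

theorem n_hHom_exp (b : ℕ → Fˣ) {i : ℕ} (hi : i < D.rank) : m.n F i * m.hHom b =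
    m.hHom (fun k => b k * (if k = i then (m.chi (hC D b) (D.simple i))⁻¹ else 1)) * m.n F i := by
  obtain ⟨b', hb'⟩ : ∃ b' : ℕ → Fˣ, b' = (fun k => b k * (if k = i then (m.chi (hC D b) (D.simple i))⁻¹ else 1)) :=
    ⟨_, rfl⟩
  rw [← hb', hHom_apply, m.n_dm _ hi]
  congr 1
  rw [hHom_apply]
  apply m.dm_congr
  intro j hj
  have hj' := m.simple_lt j hj
  rw [refC, m.chi_hC b (m.refl_lt i hi _ hj')]
  subst hb'
  change _ = ∏ k ∈ Finset.range D.rank, (b k * (if k = i then (m.chi (hC D b) (D.simple i))⁻¹ else 1)) ^ D.cartan k (D.simple j)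
  have hite : ∀ k ∈ Finset.range D.rank, (b k * (if k = i then (m.chi (hC D b) (D.simple i))⁻¹ else 1)) ^ D.cartan k (D.simple j) =
      b k ^ D.cartan k (D.simple j) * (if k = i then
        ((m.chi (hC D b) (D.simple i))⁻¹) ^ D.cartan i (D.simple j) else 1) := by
    intro k _
    split_ifs with h
    · rw [mul_zpow, h]
    · rw [mul_one, mul_one]
  rw [Finset.prod_congr rfl hite, Finset.prod_mul_distrib, Finset.prod_ite_eq',
    if_pos (Finset.mem_range.2 hi), m.chi_hC b (m.simple_lt i hi), ← Finset.prod_inv_distrib, ← Finset.prod_zpow,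
    ← Finset.prod_mul_distrib]
  apply Finset.prod_congr rfl
  intro k hk
  rw [m.cartan_refl hi (Finset.mem_range.1 hk) hj', ← zpow_neg, ← zpow_mul, ← zpow_add]
  congr 1
  ring

theorem tb_stp (t : Tab) {M i k : ℕ} : tb (t.stp M i) k = Bool.xor (tb M k) (decide (k = i) && t.par M (nth t.S i)) := by
  unfold Tab.stp
  cases t.par M (nth t.S i)
  · simp
  · rw [cond_true, tb_eq, tb_eq]
    have h1 : Nat.xor M (Nat.shiftLeft 1 i) = M ^^^ 2 ^ i := by
      have : Nat.shiftLeft 1 i = 2 ^ i := by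
        show 1 <<< i = 2 ^ i
        rw [Nat.one_shiftLeft]
      rw [this]; rfl
    rw [h1, Nat.testBit_xor, Nat.testBit_two_pow]
    by_cases h : k = i
    · subst h; simp
    · rw [decide_eq_false (Ne.symm h), decide_eq_false h]; simp

theorem n_sgn (b : t.Base D) (M : ℕ) {i : ℕ} (hi : i < D.rank) :
    m.n F i * m.hHom (sgn F M) = m.hHom (sgn F (t.stp M i)) * m.n F i := by
  rw [m.n_hHom_exp _ hi]
  congr 1
  apply m.hHom_congr
  intro k _
  have h1 := m.ch_eq (F := F) b (m.simple_lt i hi) M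
  unfold ch at h1
  rw [h1, b.simple_eq (by rw [← b.rank]; exact hi)]
  unfold sgn
  rw [tb_stp]
  by_cases h : k = i
  · rw [if_pos h, decide_eq_true h]
    cases tb M k <;> cases t.par M (nth t.S i) <;> simp
  · rw [if_neg h, decide_eq_false h]
    cases tb M k <;> cases t.par M (nth t.S i) <;> simp

/-- characters are carried along -/
theorem ch_conj {M M' : ℕ} {g : GL D.Idx F} {w : Equiv.Perm (Fin D.nroots)} (hact : m.Acts g w)
    (h : g * m.hHom (sgn F M) = m.hHom (sgn F M') * g) (x : Fin D.nroots) : m.ch F M' (w x) = m.ch F M x := by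
  obtain ⟨c, hc⟩ := hact
  have h1 : g * m.hHom (sgn F M) * m.X x 1 = m.X (w x) (((c x : Fˣ) : F) * ((m.ch F M x : Fˣ) : F)) * (g * m.hHom (sgn F M)) := by
    rw [mul_assoc, hHom_apply, m.dm_X, mul_one, ← mul_assoc, hc.X, mul_assoc]
    rfl
  have h2 : m.hHom (sgn F M') * g * m.X x 1 = m.X (w x) (((m.ch F M' (w x) : Fˣ) : F) * ((c x : Fˣ) : F)) * (m.hHom (sgn F M') * g) := by
    rw [mul_assoc, hc.X, mul_one, ← mul_assoc, hHom_apply, m.dm_X, mul_assoc]
    rfl
  rw [h, h2] at h1
  have h3 := m.X_inj (w x).2 (mul_right_cancel h1)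
  apply Units.ext
  have h4 : ((c x : Fˣ) : F) ≠ 0 := (c x).ne_zero
  apply mul_right_cancel₀ h4
  rw [h3, mul_comm]

/-- involutions in the torus are given by masks -/
theorem exists_mask (hinj : ∀ b b' : ℕ → Fˣ, m.hHom b = m.hHom b' → ∀ i < D.rank, b i = b' i)
    {h : GL D.Idx F} (hh : h ∈ D.diagonalSubgroup F) (h2 : h * h = 1) :
    ∃ M < 2 ^ D.rank, h = m.hHom (sgn F M) := by
  classical
  obtain ⟨b, rfl⟩ := m.mem_H.1 hh
  rw [← map_mul, ← map_one m.hHom] at h2
  have h3 : ∀ i < D.rank, b i = 1 ∨ b i = -1 := by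
    intro i hi
    have h4 := hinj _ _ h2 i hi
    rw [Pi.mul_apply, Pi.one_apply] at h4
    have h5 : ((b i : Fˣ) : F) * ((b i : Fˣ) : F) = 1 := by
      rw [← Units.val_mul, h4, Units.val_one]
    rcases mul_self_eq_one_iff.1 h5 with h6 | h6
    · left; exact Units.ext h6
    · right; exact Units.ext h6
  -- build the mask
  have key : ∀ k ≤ D.rank, ∃ M < 2 ^ k, ∀ i < k, sgn F M i = b i := by
    intro k
    induction k with
    | zero => intro _; exact ⟨0, by norm_num, fun i hi => absurd hi (by omega)⟩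
    | succ k ih =>
      intro hk
      obtain ⟨M, hM, h⟩ := ih (by omega)
      rcases h3 k (by omega) with h4 | h4
      · refine ⟨M, by rw [pow_succ]; omega, ?_⟩
        intro i hi
        rcases Nat.lt_succ_iff_lt_or_eq.1 hi with h5 | h5
        · exact h i h5
        · rw [h5, h4]
          unfold sgn
          rw [tb_eq, Nat.testBit_lt_two_pow hM]; rfl
      · refine ⟨2 ^ k + M, by rw [pow_succ]; omega, ?_⟩
        intro i hi
        rcases Nat.lt_succ_iff_lt_or_eq.1 hi with h5 | h5
        · rw [← h i h5]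
          unfold sgn
          rw [tb_eq, tb_eq, Nat.testBit_two_pow_add_gt h5]
        · rw [h5, h4]
          unfold sgn
          rw [tb_eq, Nat.testBit_two_pow_add_eq, Nat.testBit_lt_two_pow hM]; rfl
  obtain ⟨M, hM, h5⟩ := key D.rank le_rfl
  exact ⟨M, hM, m.hHom_congr fun i hi => (h5 i hi).symm⟩

end Model

end Cfsg.Agent.H6.Chev
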