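import Mathlib

/-!
Reflection-like generating systems: words, inversions, exchange, Poincaré polynomials of chains.
-/

set_option autoImplicit false
set_option linter.unusedSectionVars false

namespace Cfsg.Agent.H6

/-- a system of reflections acting on a finite set of roots -/
structure RS (n k : ℕ) where
  N : ℕ
  P : Finset (Fin n)
  ng : Fin n → Fin n
  b : Fin k → Fin n
  s : Fin k → Equiv.Perm (Fin n)
  P_pos : ∀ x ∈ P, N ≤ (x : ℕ)
  ng_pos : ∀ x : Fin n, N ≤ (x : ℕ) ↔ (ng x : ℕ) < N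
  b_mem : ∀ i, b i ∈ P
  s_b : ∀ i, s i (b i) = ng (b i)
  s_ng : ∀ i x, s i (ng x) = ng (s i x)
  s_P : ∀ i, ∀ x ∈ P, x ≠ b i → s i x ∈ P
  s_sq : ∀ i, s i * s i = 1
  conj : ∀ w ∈ Subgroup.closure (Set.range s), ∀ i j, w (b j) = b i → s i * w = w * s j

namespace RS

variable {n k : ℕ} (R : RS n k)

/-- words -/
def wl (l : List (Fin k)) : Equiv.Perm (Fin n) := (l.map R.s).prod

@[simp] theorem wl_nil : R.wl [] = 1 := rfl
@[simp] theorem wl_cons (i : Fin k) (l : List (Fin k)) : R.wl (i :: l) = R.s i * R.wl l := by simp [wl]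
@[simp] theorem wl_append (l l' : List (Fin k)) : R.wl (l ++ l') = R.wl l * R.wl l' := by simp [wl]

/-- parabolic subgroups -/
def A (J : Set (Fin k)) : Subgroup (Equiv.Perm (Fin n)) := Subgroup.closure (R.s '' J)

theorem s_mem {J : Set (Fin k)} {i : Fin k} (h : i ∈ J) : R.s i ∈ R.A J := Subgroup.subset_closure ⟨i, h, rfl⟩

theorem s_inv (i : Fin k) : (R.s i)⁻¹ = R.s i := inv_eq_of_mul_eq_one_left (R.s_sq i)

theorem s_s (i : Fin k) (x : Fin n) : R.s i (R.s i x) = x := by
  rw [← Equiv.Perm.mul_apply, R.s_sq]; rfl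

theorem wl_mem {J : Set (Fin k)} {l : List (Fin k)} (h : ∀ i ∈ l, i ∈ J) : R.wl l ∈ R.A J := by
  induction l with
  | nil => exact one_mem _
  | cons a l ih =>
    rw [wl_cons]
    exact mul_mem (R.s_mem (h a List.mem_cons_self)) (ih fun i hi => h i (List.mem_cons_of_mem _ hi))

theorem exists_wl {J : Set (Fin k)} {w : Equiv.Perm (Fin n)} (hw : w ∈ R.A J) :
    ∃ l : List (Fin k), (∀ i ∈ l, i ∈ J) ∧ R.wl l = w := by
  refine Subgroup.closure_induction_left (p := fun w _ => ∃ l : List (Fin k), (∀ i ∈ l, i ∈ J) ∧ R.wl l = w)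
    ⟨[], by simp, rfl⟩ ?_ ?_ hw
  · rintro _ ⟨i, hi, rfl⟩ y _ ⟨l, hl, rfl⟩
    refine ⟨i :: l, ?_, by simp⟩
    intro j hj
    rcases List.mem_cons.1 hj with rfl | hj
    · exact hi
    · exact hl j hj
  · rintro _ ⟨i, hi, rfl⟩ y _ ⟨l, hl, rfl⟩
    refine ⟨i :: l, ?_, by simp [R.s_inv]⟩
    intro j hj
    rcases List.mem_cons.1 hj with rfl | hj
    · exact hi
    · exact hl j hj

theorem A_mono {J K : Set (Fin k)} (h : J ⊆ K) : R.A J ≤ R.A K := Subgroup.closure_mono (Set.image_mono h)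

theorem A_le (J : Set (Fin k)) : R.A J ≤ Subgroup.closure (Set.range R.s) := by
  apply Subgroup.closure_mono
  rintro _ ⟨i, _, rfl⟩
  exact ⟨i, rfl⟩

theorem wl_mem' (l : List (Fin k)) : R.wl l ∈ Subgroup.closure (Set.range R.s) :=
  R.A_le Set.univ (R.wl_mem fun _ _ => trivial)

/-- commutation with negation -/
theorem mem_ng {w : Equiv.Perm (Fin n)} (hw : w ∈ R.A Set.univ) (x : Fin n) : w (R.ng x) = R.ng (w x) := by
  obtain ⟨l, -, rfl⟩ := R.exists_wl hw
  clear hw
  induction l with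
  | nil => rfl
  | cons a l ih => rw [wl_cons, Equiv.Perm.mul_apply, Equiv.Perm.mul_apply, ih, R.s_ng]

/-- the images of positive roots of the system -/
theorem s_or {i : Fin k} {x : Fin n} (hx : x ∈ R.P) : R.s i x ∈ R.P ∨ ∃ y ∈ R.P, R.s i x = R.ng y := by
  by_cases h : x = R.b i
  · right; exact ⟨R.b i, R.b_mem i, by rw [h, R.s_b]⟩
  · left; exact R.s_P i x hx h

/-- the root-theoretic exchange lemma -/
theorem exchange_root : ∀ (l : List (Fin k)) (r : Fin n), r ∈ R.P → (R.wl l r : ℕ) < R.N →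
    ∃ l₁ i l₂, l = l₁ ++ i :: l₂ ∧ R.wl l₂ r = R.b i := by
  intro l
  induction l using List.reverseRecOn with
  | nil =>
    intro r hr h
    have := R.P_pos r hr
    rw [wl_nil, Equiv.Perm.one_apply] at h
    omega
  | append_singleton l a ih =>
    intro r hr h
    by_cases hra : r = R.b a
    · exact ⟨l, a, [], rfl, by rw [hra]; rfl⟩
    · have h1 := R.s_P a r hr hra
      rw [wl_append, wl_cons, wl_nil, mul_one, Equiv.Perm.mul_apply] at h
      obtain ⟨l₁, j, l₂, rfl, h2⟩ := ih _ h1 h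
      refine ⟨l₁, j, l₂ ++ [a], by simp, ?_⟩
      rw [wl_append, wl_cons, wl_nil, mul_one, Equiv.Perm.mul_apply, h2]

/-- exchange -/
theorem exchange {l : List (Fin k)} {j : Fin k} (h : (R.wl l (R.b j) : ℕ) < R.N) :
    ∃ l₁ i l₂, l = l₁ ++ i :: l₂ ∧ R.wl l₂ * R.s j = R.s i * R.wl l₂ := by
  obtain ⟨l₁, i, l₂, h1, h2⟩ := R.exchange_root l _ (R.b_mem j) h
  exact ⟨l₁, i, l₂, h1, (R.conj _ (R.wl_mem' l₂) i j h2).symm⟩

/-- inversions -/
def L (w : Equiv.Perm (Fin n)) : ℕ := (R.P.filter fun x => (w x : ℕ) < R.N).card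

theorem L_one : R.L 1 = 0 := by
  unfold L
  rw [Finset.card_eq_zero, Finset.filter_eq_empty_iff]
  intro x hx
  have := R.P_pos x hx
  rw [Equiv.Perm.one_apply]
  omega

theorem L_mul_s {w : Equiv.Perm (Fin n)} (hw : w ∈ R.A Set.univ) {i : Fin k} (h : R.N ≤ (w (R.b i) : ℕ)) :
    R.L (w * R.s i) = R.L w + 1 := by
  classical
  have h1 : (R.P.filter fun x => ((w * R.s i) x : ℕ) < R.N) =
      insert (R.b i) ((R.P.filter fun x => (w x : ℕ) < R.N).image (R.s i)) := by
    ext x
    rw [Finset.mem_filter, Finset.mem_insert, Finset.mem_image]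
    constructor
    · rintro ⟨h2, h3⟩
      by_cases hx : x = R.b i
      · exact Or.inl hx
      · right
        refine ⟨R.s i x, ?_, R.s_s i x⟩
        rw [Finset.mem_filter]
        exact ⟨R.s_P i x h2 hx, h3⟩
    · rintro (rfl | ⟨y, hy, rfl⟩)
      · refine ⟨R.b_mem i, ?_⟩
        rw [Equiv.Perm.mul_apply, R.s_b, R.mem_ng hw]
        exact (R.ng_pos _).1 h
      · rw [Finset.mem_filter] at hy
        have hne : y ≠ R.b i := by
          rintro rfl
          omega
        refine ⟨R.s_P i y hy.1 hne, ?_⟩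
        rw [Equiv.Perm.mul_apply, R.s_s]
        exact hy.2
  unfold L
  rw [h1, Finset.card_insert_of_notMem, Finset.card_image_of_injective _ (R.s i).injective]
  rw [Finset.mem_image]
  rintro ⟨y, hy, he⟩
  rw [Finset.mem_filter] at hy
  have h2 : y = R.ng (R.b i) := by rw [← R.s_b, ← he, R.s_s]
  have h3 := (R.ng_pos (R.b i)).1 (R.P_pos _ (R.b_mem i))
  have h4 := R.P_pos y hy.1
  rw [h2] at h4
  omega

theorem L_mul_s' {w : Equiv.Perm (Fin n)} (hw : w ∈ R.A Set.univ) {i : Fin k} (h : (w (R.b i) : ℕ) < R.N) :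
    R.L (w * R.s i) + 1 = R.L w := by
  have h1 : R.N ≤ ((w * R.s i) (R.b i) : ℕ) := by
    rw [Equiv.Perm.mul_apply, R.s_b, R.mem_ng hw]
    by_contra hc
    have := (R.ng_pos (w (R.b i))).2 (not_le.1 hc)
    omega
  have h2 := R.L_mul_s (mul_mem hw (R.s_mem (Set.mem_univ i))) h1
  rw [mul_assoc, R.s_sq, mul_one] at h2
  exact h2.symm

theorem L_wl_le (l : List (Fin k)) : R.L (R.wl l) ≤ l.length := by
  induction l using List.reverseRecOn with
  | nil => rw [wl_nil, R.L_one]; exact Nat.zero_le _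
  | append_singleton l a ih =>
    rw [wl_append, wl_cons, wl_nil, mul_one, List.length_append, List.length_singleton]
    have hm : R.wl l ∈ R.A Set.univ := R.wl_mem fun _ _ => trivial
    by_cases h : R.N ≤ (R.wl l (R.b a) : ℕ)
    · rw [R.L_mul_s hm h]; omega
    · have := R.L_mul_s' hm (not_le.1 h)
      omega

/-- an element of a parabolic subgroup is trivial or has a descent -/
theorem exists_descent {J : Set (Fin k)} : ∀ (p : ℕ) (l : List (Fin k)), l.length = p → (∀ i ∈ l, i ∈ J) →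
    R.wl l = 1 ∨ ∃ j ∈ J, (R.wl l (R.b j) : ℕ) < R.N := by
  intro p
  induction p using Nat.strong_induction_on with
  | _ p ih =>
    intro l hl hJ
    rcases List.eq_nil_or_concat' l with rfl | ⟨l', j, rfl⟩
    · left; rfl
    · have hj : j ∈ J := hJ j (by simp)
      by_cases h1 : (R.wl l' (R.b j) : ℕ) < R.N
      · obtain ⟨l₁, i, l₂, rfl, h2⟩ := R.exchange h1
        have h3 : R.wl (l₁ ++ i :: l₂ ++ [j]) = R.wl (l₁ ++ l₂) := by
          rw [wl_append, wl_append, wl_cons, wl_cons, wl_nil, mul_one, wl_append]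
          calc R.wl l₁ * (R.s i * R.wl l₂) * R.s j = R.wl l₁ * R.s i * (R.wl l₂ * R.s j) := by group
            _ = R.wl l₁ * (R.s i * R.s i) * R.wl l₂ := by rw [h2]; group
            _ = _ := by rw [R.s_sq, mul_one]
        rw [h3]
        apply ih (l₁ ++ l₂).length _ _ rfl
        · intro x hx
          apply hJ
          rcases List.mem_append.1 hx with hx | hx
          · simp [hx]
          · simp [hx]
        · simp only [List.length_append, List.length_cons, List.length_nil] at hl ⊢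
          omega
      · right
        refine ⟨j, hj, ?_⟩
        rw [wl_append, wl_cons, wl_nil, mul_one, Equiv.Perm.mul_apply, R.s_b,
          R.mem_ng (R.wl_mem fun _ _ => trivial)]
        exact (R.ng_pos _).1 (not_lt.1 h1)

theorem A_univ (J : Set (Fin k)) : R.A J ≤ R.A Set.univ := R.A_mono (Set.subset_univ J)

/-- reduced words -/
theorem exists_red {J : Set (Fin k)} : ∀ (p : ℕ) (w : Equiv.Perm (Fin n)), w ∈ R.A J → R.L w = p →
    ∃ l : List (Fin k), (∀ i ∈ l, i ∈ J) ∧ R.wl l = w ∧ l.length = p := by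
  intro p
  induction p with
  | zero =>
    intro w hw h
    obtain ⟨l, h1, rfl⟩ := R.exists_wl hw
    rcases R.exists_descent _ l rfl h1 with h2 | ⟨j, hj, h2⟩
    · exact ⟨[], by simp, by rw [h2]; rfl, rfl⟩
    · have := R.L_mul_s' (R.A_univ J hw) h2
      omega
  | succ p ih =>
    intro w hw h
    obtain ⟨l, h1, rfl⟩ := R.exists_wl hw
    rcases R.exists_descent _ l rfl h1 with h2 | ⟨j, hj, h2⟩
    · rw [h2, R.L_one] at h; omega
    · have h3 := R.L_mul_s' (R.A_univ J hw) h2
      obtain ⟨l', h4, h5, h6⟩ := ih (R.wl l * R.s j) (mul_mem hw (R.s_mem hj)) (by omega)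
      refine ⟨l' ++ [j], ?_, ?_, by simp [h6]⟩
      · intro i hi
        rcases List.mem_append.1 hi with hi | hi
        · exact h4 i hi
        · rw [List.mem_singleton.1 hi]; exact hj
      · rw [wl_append, wl_cons, wl_nil, mul_one, h5, mul_assoc, R.s_sq, mul_one]

end RS

end Cfsg.Agent.H6
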