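import Mathlib
import Cfsg.Agent.H6_RS1

/-!
Reflection-like generating systems: coset representatives, chains of parabolic subgroups.
-/

set_option autoImplicit false
set_option linter.unusedSectionVars false

namespace Cfsg.Agent.H6

namespace RS

variable {n k : ℕ} (R : RS n k)

/-- a stage -/
structure Stage (J J' : Set (Fin k)) (x0 : Fin n) (O : Finset (Fin n)) (ht : Fin n → ℕ) : Prop where
  sub : J' ⊆ J
  fix : ∀ j ∈ J', R.s j x0 = x0
  mem : x0 ∈ O
  ht0 : ht x0 = 0
  closed : ∀ x ∈ O, ∀ j ∈ J, R.s j x ∈ O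
  lip : ∀ x ∈ O, ∀ j ∈ J, ht (R.s j x) ≤ ht x + 1
  desc : ∀ x ∈ O, x ≠ x0 → ∃ j ∈ J, ht (R.s j x) + 1 = ht x

variable {R}

section

variable {J J' : Set (Fin k)} {x0 : Fin n} {O : Finset (Fin n)} {ht : Fin n → ℕ}

theorem Stage.word (S : R.Stage J J' x0 O ht) : ∀ l : List (Fin k), (∀ i ∈ l, i ∈ J) →
    R.wl l x0 ∈ O ∧ ht (R.wl l x0) ≤ l.length := by
  intro l
  induction l with
  | nil => intro _; exact ⟨S.mem, by rw [wl_nil, Equiv.Perm.one_apply, S.ht0]; exact Nat.zero_le _⟩
  | cons a l ih =>
    intro h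
    obtain ⟨h1, h2⟩ := ih fun i hi => h i (List.mem_cons_of_mem _ hi)
    have ha := h a List.mem_cons_self
    rw [wl_cons, Equiv.Perm.mul_apply]
    refine ⟨S.closed _ h1 a ha, ?_⟩
    have := S.lip _ h1 a ha
    rw [List.length_cons]
    omega

theorem Stage.mem_O (S : R.Stage J J' x0 O ht) {w : Equiv.Perm (Fin n)} (hw : w ∈ R.A J) : w x0 ∈ O := by
  obtain ⟨l, h1, rfl⟩ := R.exists_wl hw
  exact (S.word l h1).1

theorem Stage.ht_le (S : R.Stage J J' x0 O ht) {w : Equiv.Perm (Fin n)} (hw : w ∈ R.A J) : ht (w x0) ≤ R.L w := by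
  obtain ⟨l, h1, rfl, h2⟩ := R.exists_red _ w hw rfl
  rw [← h2]
  exact (S.word l h1).2

theorem Stage.exists_rep (S : R.Stage J J' x0 O ht) : ∀ (p : ℕ) (x : Fin n), x ∈ O → ht x = p →
    ∃ l : List (Fin k), (∀ i ∈ l, i ∈ J) ∧ R.wl l x0 = x ∧ l.length = p := by
  intro p
  induction p with
  | zero =>
    intro x hx h
    by_cases he : x = x0
    · exact ⟨[], by simp, by rw [he]; rfl, rfl⟩
    · obtain ⟨j, _, h1⟩ := S.desc x hx he
      omega
  | succ p ih =>
    intro x hx h
    have he : x ≠ x0 := by rintro rfl; rw [S.ht0] at h; omega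
    obtain ⟨j, hj, h1⟩ := S.desc x hx he
    obtain ⟨l, h2, h3, h4⟩ := ih (R.s j x) (S.closed x hx j hj) (by omega)
    refine ⟨j :: l, ?_, ?_, by simp [h4]⟩
    · intro i hi
      rcases List.mem_cons.1 hi with rfl | hi
      · exact hj
      · exact h2 i hi
    · rw [wl_cons, Equiv.Perm.mul_apply, h3, R.s_s]

theorem Stage.fix' (S : R.Stage J J' x0 O ht) {v : Equiv.Perm (Fin n)} (hv : v ∈ R.A J') : v x0 = x0 := by
  obtain ⟨l, h1, rfl⟩ := R.exists_wl hv
  clear hv
  induction l with
  | nil => rfl
  | cons a l ih =>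
    rw [wl_cons, Equiv.Perm.mul_apply, ih fun i hi => h1 i (List.mem_cons_of_mem _ hi), S.fix a (h1 a List.mem_cons_self)]

/-- additivity of lengths -/
theorem Stage.add (S : R.Stage J J' x0 O ht) {ld : List (Fin k)} (hld : ∀ i ∈ ld, i ∈ J)
    (hmin : ht (R.wl ld x0) = ld.length) : ∀ lv : List (Fin k), (∀ i ∈ lv, i ∈ J') → R.L (R.wl lv) = lv.length →
    R.L (R.wl ld * R.wl lv) = ld.length + lv.length := by
  have hLd : R.L (R.wl ld) = ld.length :=
    le_antisymm (R.L_wl_le ld) (by rw [← hmin]; exact S.ht_le (R.wl_mem hld))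
  intro lv
  induction lv using List.reverseRecOn with
  | nil => intro _ _; rw [wl_nil, mul_one, hLd]; rfl
  | append_singleton lv j ih =>
    intro hJ hred
    have hJ1 : ∀ i ∈ lv, i ∈ J' := fun i hi => hJ i (List.mem_append_left _ hi)
    have hj : j ∈ J' := hJ j (by simp)
    have hm : R.wl lv ∈ R.A Set.univ := R.wl_mem fun _ _ => trivial
    have hred1 : R.L (R.wl lv) = lv.length := by
      apply le_antisymm (R.L_wl_le lv)
      rw [wl_append, wl_cons, wl_nil, mul_one, List.length_append, List.length_singleton] at hred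
      by_cases h : R.N ≤ (R.wl lv (R.b j) : ℕ)
      · have := R.L_mul_s hm h
        omega
      · have := R.L_mul_s' hm (not_le.1 h)
        have := R.L_wl_le lv
        omega
    have ih' := ih hJ1 hred1
    have hmd : R.wl ld * R.wl lv ∈ R.A Set.univ := mul_mem (R.wl_mem fun _ _ => trivial) hm
    have hpos : R.N ≤ ((R.wl ld * R.wl lv) (R.b j) : ℕ) := by
      by_contra hc
      rw [not_le, ← wl_append] at hc
      obtain ⟨l₁, i, l₂, h1, h2⟩ := R.exchange hc
      rcases List.append_eq_append_iff.1 h1 with ⟨a, ha1, ha2⟩ | ⟨c, hc1, hc2⟩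
      · -- the letter is in the second part
        have h3 : R.wl (lv ++ [j]) = R.wl (a ++ l₂) := by
          rw [ha2, wl_append, wl_append, wl_cons, wl_cons, wl_nil, mul_one, wl_append]
          calc R.wl a * (R.s i * R.wl l₂) * R.s j = R.wl a * R.s i * (R.wl l₂ * R.s j) := by group
            _ = R.wl a * (R.s i * R.s i) * R.wl l₂ := by rw [h2]; group
            _ = _ := by rw [R.s_sq, mul_one]
        have h4 := R.L_wl_le (a ++ l₂)
        rw [← h3, hred, ha2] at h4
        simp only [List.length_append, List.length_cons, List.length_nil] at h4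
        omega
      · -- the letter is in the first part
        cases c with
        | nil =>
          rw [List.nil_append] at hc2
          rw [List.append_nil] at hc1
          have h3 : R.wl (lv ++ [j]) = R.wl l₂ := by
            rw [← hc2, wl_append, wl_cons, wl_cons, wl_nil, mul_one]
            calc R.s i * R.wl l₂ * R.s j = R.s i * (R.wl l₂ * R.s j) := by group
              _ = (R.s i * R.s i) * R.wl l₂ := by rw [h2]; group
              _ = _ := by rw [R.s_sq, one_mul]
          have h4 := R.L_wl_le l₂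
          rw [← h3, hred, ← hc2] at h4
          simp only [List.length_append, List.length_cons, List.length_nil] at h4
          omega
        | cons i' c =>
          rw [List.cons_append, List.cons.injEq] at hc2
          obtain ⟨rfl, hc2⟩ := hc2
          have h3 : R.wl (l₁ ++ c) = R.wl ld * (R.wl lv * R.s j * (R.wl lv)⁻¹) := by
            rw [hc1, wl_append, wl_append, wl_cons]
            rw [hc2, wl_append] at h2
            have h4 : R.wl lv * R.s j * (R.wl lv)⁻¹ = (R.wl c)⁻¹ * R.s i * R.wl c := by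
              calc R.wl lv * R.s j * (R.wl lv)⁻¹ = (R.wl c)⁻¹ * (R.wl c * R.wl lv * R.s j) * (R.wl lv)⁻¹ := by group
                _ = _ := by rw [h2]; group
            rw [h4]
            calc R.wl l₁ * R.wl c = R.wl l₁ * (R.s i * R.s i) * R.wl c := by rw [R.s_sq, mul_one]
              _ = _ := by group
          have hJc : ∀ x ∈ l₁ ++ c, x ∈ J := by
            intro x hx
            apply hld
            rw [hc1]
            rcases List.mem_append.1 hx with hx | hx
            · simp [hx]
            · simp [hx]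
          have h5 := (S.word _ hJc).2
          have hv : R.wl lv * R.s j * (R.wl lv)⁻¹ ∈ R.A J' :=
            mul_mem (mul_mem (R.wl_mem hJ1) (R.s_mem hj)) (inv_mem (R.wl_mem hJ1))
          rw [h3, Equiv.Perm.mul_apply, S.fix' hv, hmin, hc1] at h5
          simp only [List.length_append, List.length_cons] at h5
          omega
    rw [wl_append, wl_cons, wl_nil, mul_one, ← mul_assoc, R.L_mul_s hmd hpos, ih', List.length_append,
      List.length_singleton]
    ring

end

end RS

end Cfsg.Agent.H6
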