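import Mathlib
import Cfsg.Agent.H6_RS2

/-!
Reflection-like generating systems: Poincaré polynomials of chains.
-/

set_option autoImplicit false
set_option linter.unusedSectionVars false

namespace Cfsg.Agent.H6

namespace RS

variable {n k : ℕ} {R : RS n k}

open Classical in
/-- elements of a subgroup as a finset -/
noncomputable def els (H : Subgroup (Equiv.Perm (Fin n))) : Finset (Equiv.Perm (Fin n)) :=
  Finset.univ.filter fun w => w ∈ H

theorem mem_els {H : Subgroup (Equiv.Perm (Fin n))} {w : Equiv.Perm (Fin n)} : w ∈ els H ↔ w ∈ H := by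
  classical
  unfold els
  exact ⟨fun h => (Finset.mem_filter.1 h).2, fun h => Finset.mem_filter.2 ⟨Finset.mem_univ _, h⟩⟩

theorem card_els (H : Subgroup (Equiv.Perm (Fin n))) : Nat.card H = (els H).card := by
  classical
  rw [Nat.card_eq_fintype_card, Fintype.card_subtype]
  unfold els
  congr

variable (R) in
/-- the Poincaré polynomial -/
noncomputable def Q (H : Subgroup (Equiv.Perm (Fin n))) (q : ℕ) : ℕ := ∑ w ∈ els H, q ^ R.L w

theorem Q_one (H : Subgroup (Equiv.Perm (Fin n))) : R.Q H 1 = Nat.card H := by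
  rw [card_els]; unfold Q; simp

section

variable {J J' : Set (Fin k)} {x0 : Fin n} {O : Finset (Fin n)} {ht : Fin n → ℕ}

/-- the stabiliser in a parabolic subgroup -/
def St (R : RS n k) (J : Set (Fin k)) (x0 : Fin n) : Subgroup (Equiv.Perm (Fin n)) :=
  R.A J ⊓ MulAction.stabilizer (Equiv.Perm (Fin n)) x0

theorem mem_St {w : Equiv.Perm (Fin n)} : w ∈ R.St J x0 ↔ w ∈ R.A J ∧ w x0 = x0 := by
  unfold St
  rw [Subgroup.mem_inf, MulAction.mem_stabilizer_iff]
  rfl

theorem Stage.le_St (S : R.Stage J J' x0 O ht) : R.A J' ≤ R.St J x0 := by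
  intro v hv
  exact mem_St.2 ⟨R.A_mono S.sub hv, S.fix' hv⟩

theorem Stage.card (S : R.Stage J J' x0 O ht) : Nat.card (R.A J) = O.card * Nat.card (R.St J x0) := by
  classical
  rw [card_els, card_els]
  have h1 : ∀ w ∈ els (R.A J), w x0 ∈ O := fun w hw => S.mem_O (mem_els.1 hw)
  rw [Finset.card_eq_sum_card_fiberwise h1]
  rw [Finset.sum_const_nat (m := (els (R.St J x0)).card)]
  intro x hx
  obtain ⟨l, hl, hx', _⟩ := S.exists_rep _ x hx rfl
  have hd : R.wl l ∈ R.A J := R.wl_mem hl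
  apply Finset.card_bij' (fun w _ => (R.wl l)⁻¹ * w) (fun w _ => R.wl l * w)
  · intro w hw
    rw [Finset.mem_filter, mem_els] at hw
    rw [mem_els, mem_St]
    refine ⟨mul_mem (inv_mem hd) hw.1, ?_⟩
    rw [Equiv.Perm.mul_apply, hw.2, ← hx']
    exact (R.wl l).symm_apply_apply x0
  · intro w hw
    rw [mem_els, mem_St] at hw
    rw [Finset.mem_filter, mem_els]
    exact ⟨mul_mem hd hw.1, by rw [Equiv.Perm.mul_apply, hw.2, hx']⟩
  · intro w _; group
  · intro w _; group

theorem Stage.sum (S : R.Stage J J' x0 O ht) (hst : R.St J x0 ≤ R.A J') (q : ℕ) :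
    R.Q (R.A J) q = (∑ x ∈ O, q ^ ht x) * R.Q (R.A J') q := by
  classical
  have h1 : ∀ w ∈ els (R.A J), w x0 ∈ O := fun w hw => S.mem_O (mem_els.1 hw)
  unfold Q
  rw [← Finset.sum_fiberwise_of_maps_to h1, Finset.sum_mul]
  apply Finset.sum_congr rfl
  intro x hx
  obtain ⟨l, hl, hx', hlen⟩ := S.exists_rep _ x hx rfl
  have hd : R.wl l ∈ R.A J := R.wl_mem hl
  rw [Finset.mul_sum]
  symm
  apply Finset.sum_bij' (fun w _ => R.wl l * w) (fun w _ => (R.wl l)⁻¹ * w)
  · intro w hw
    rw [mem_els] at hw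
    rw [Finset.mem_filter, mem_els]
    exact ⟨mul_mem hd (R.A_mono S.sub hw), by rw [Equiv.Perm.mul_apply, S.fix' hw, hx']⟩
  · intro w hw
    rw [Finset.mem_filter, mem_els] at hw
    rw [mem_els]
    apply hst
    rw [mem_St]
    refine ⟨mul_mem (inv_mem hd) hw.1, ?_⟩
    rw [Equiv.Perm.mul_apply, hw.2, ← hx']
    exact (R.wl l).symm_apply_apply x0
  · intro w _; group
  · intro w _; group
  · intro w hw
    rw [mem_els] at hw
    obtain ⟨lv, h2, rfl, h3⟩ := R.exists_red _ w hw rfl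
    rw [S.add hl (by rw [hx', hlen]) lv h2 h3.symm, pow_add, hlen, h3]

end

/-- chains of parabolic subgroups -/
inductive Chain (R : RS n k) : Set (Fin k) → ℕ → (ℕ → ℕ) → Prop
  | nil (J : Set (Fin k)) (h : ∀ j, j ∉ J) : Chain R J 1 (fun _ => 1)
  | cons {J J' : Set (Fin k)} {x0 : Fin n} {O : Finset (Fin n)} {ht : Fin n → ℕ} {c : ℕ} {f : ℕ → ℕ}
      (S : R.Stage J J' x0 O ht) (h : Chain R J' c f) : Chain R J (O.card * c) (fun q => (∑ x ∈ O, q ^ ht x) * f q)

theorem Chain.le {J : Set (Fin k)} {c : ℕ} {f : ℕ → ℕ} (h : R.Chain J c f) : 0 < c ∧ c ≤ Nat.card (R.A J) := by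
  induction h with
  | nil J _ => exact ⟨one_pos, Nat.card_pos⟩
  | cons S _ ih =>
    have h1 := S.card
    have h2 : Nat.card (R.A _) ≤ Nat.card (R.St _ _) := Nat.card_le_card_of_injective (Subgroup.inclusion S.le_St)
      (Subgroup.inclusion_injective S.le_St)
    refine ⟨Nat.mul_pos (Finset.card_pos.2 ⟨_, S.mem⟩) ih.1, ?_⟩
    rw [h1]
    exact Nat.mul_le_mul_left _ (ih.2.trans h2)

theorem Chain.eq {J : Set (Fin k)} {c : ℕ} {f : ℕ → ℕ} (h : R.Chain J c f) (hc : Nat.card (R.A J) ≤ c) (q : ℕ) :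
    R.Q (R.A J) q = f q := by
  induction h with
  | nil J hJ =>
    have h1 : R.A J = ⊥ := by
      unfold A
      have : R.s '' J = ∅ := by
        rw [Set.image_eq_empty, Set.eq_empty_iff_forall_notMem]; exact hJ
      rw [this, Subgroup.closure_empty]
    rw [h1]
    unfold Q
    have h2 : els (⊥ : Subgroup (Equiv.Perm (Fin n))) = {1} := by
      ext w
      rw [mem_els, Subgroup.mem_bot, Finset.mem_singleton]
    rw [h2, Finset.sum_singleton, R.L_one, pow_zero]
  | @cons J J' x0 O ht c f S h ih =>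
    have h1 := S.card
    have h2 : Nat.card (R.A J') ≤ Nat.card (R.St J x0) := Nat.card_le_card_of_injective (Subgroup.inclusion S.le_St)
      (Subgroup.inclusion_injective S.le_St)
    have h3 := h.le
    rw [h1] at hc
    have hO : 0 < O.card := Finset.card_pos.2 ⟨_, S.mem⟩
    have h4 : Nat.card (R.St J x0) ≤ c := Nat.le_of_mul_le_mul_left hc hO
    have h5 : R.A J' = R.St J x0 := by
      apply Subgroup.eq_of_le_of_card_ge S.le_St
      exact h4.trans h3.2
    rw [S.sum h5.ge, ih (h2.trans h4)]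

end RS

end Cfsg.Agent.H6
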