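import Mathlib
import Cfsg.Agent.H6_Inv6
import Cfsg.Agent.H6_RS3
import Cfsg.Agent.H6_ChevCox

/-!
Involutions of Chevalley groups in odd characteristic: classes of masks, stabilisers.
-/

set_option autoImplicit false
set_option linter.unusedSectionVars false

namespace Cfsg.Agent.H6.Chev

open Cfsg Cfsg.Lie Cfsg.Lie.ChevalleyDatum

namespace Tab

variable (t : Tab)

/-- number of masks -/
def nm : ℕ := Nat.shiftLeft 1 t.l

theorem nm_eq : t.nm = 2 ^ t.l := by
  show 1 <<< t.l = 2 ^ t.l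
  rw [Nat.one_shiftLeft]

/-- the check of a class of masks -/
def ckCls (M0 hM c : ℕ) : Bool :=
  (Nat.blt M0 t.nm && Nat.beq (byteAt hM M0) 1) && (
  (allNat t.nm fun M => Nat.beq (byteAt hM M) 0 || (Nat.beq M M0 || anyNat t.l fun i =>
    (Nat.beq (Nat.succ (byteAt hM (t.stp M i))) (byteAt hM M) && !(Nat.beq (byteAt hM (t.stp M i)) 0)) &&
      Nat.blt (t.stp M i) t.nm)) &&
  Nat.beq (cntN t.nm fun M => !(Nat.beq (byteAt hM M) 0)) c)

/-- the vector of parities of the simple roots -/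
def vec (M : ℕ) : ℕ := Nat.rec (motive := fun _ => ℕ) 0 (fun j ih => Nat.add (Nat.mul 2 ih) (cond (t.par M (nth t.S j)) 1 0)) t.l

def ckVec (iT : ℕ) : Bool := allNat t.nm fun M => Nat.beq (byteAt iT (t.vec M)) M

end Tab

namespace Model

variable {D : ChevalleyDatum} {F : Type*} [Field F] (m : Model D) {t : Tab}

theorem cls_conj (b : t.Base D) {M0 hM c : ℕ} (h : t.ckCls M0 hM c = true) : ∀ (k M : ℕ), M < 2 ^ t.l → byteAt hM M = k →
    k ≠ 0 → ∃ g ∈ D.monomialSubgroup F, ∃ w ∈ m.Wg, m.Acts g w ∧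
      g * m.hHom (sgn F M0) = m.hHom (sgn F M) * g := by
  unfold Tab.ckCls at h
  simp only [Bool.and_eq_true] at h
  obtain ⟨⟨h1, h2⟩, h3, h4⟩ := h
  intro k
  induction k using Nat.strong_induction_on with
  | _ k ih =>
    intro M hM' hk hk0
    by_cases he : M = M0
    · subst he
      refine ⟨1, one_mem _, 1, one_mem _, ?_, by simp⟩
      have := m.acts_dm (F := F) 1
      rwa [map_one] at this
    · have h5 := allNat_iff h3 M (by rw [t.nm_eq]; exact hM')
      simp only [Bool.or_eq_true] at h5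
      rcases h5 with h5 | h5 | h5
      · exact absurd (Nat.eq_of_beq_eq_true h5) (by rw [hk]; exact hk0)
      · exact absurd (Nat.eq_of_beq_eq_true h5) he
      · obtain ⟨i, hi, h6⟩ := anyNat_iff h5
        simp only [Bool.and_eq_true, Nat.blt_eq] at h6
        obtain ⟨⟨h6, h7⟩, h8⟩ := h6
        have h6' : byteAt hM (t.stp M i) + 1 = byteAt hM M := Nat.eq_of_beq_eq_true h6
        have h7' : byteAt hM (t.stp M i) ≠ 0 := by
          intro h9; rw [h9] at h7; simp at h7
        obtain ⟨g, hg, w, hw, ha, hgM⟩ := ih _ (by omega) (t.stp M i) (by rw [← t.nm_eq]; exact h8) rfl h7'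
        have hi' : i < D.rank := by rw [b.rank]; exact hi
        have h9 := m.n_sgn (F := F) b M hi'
        have hn := m.n_mem_N (F := F) ⟨i, hi'⟩
        refine ⟨(m.n F i)⁻¹ * g, mul_mem (inv_mem hn) hg, m.sr ⟨i, hi'⟩ * w,
          mul_mem (Subgroup.subset_closure ⟨_, rfl⟩) hw, ?_, ?_⟩
        · have := (m.acts_inv hn (m.acts_n (F := F) ⟨i, hi'⟩)).mul ha
          rwa [m.sr_inv] at this
        · rw [mul_assoc, hgM, ← mul_assoc, ← mul_assoc]
          congr 1
          rw [inv_mul_eq_iff_eq_mul, ← mul_assoc, h9, mul_inv_cancel_right]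

/-- the stabiliser of a character -/
def SM (F : Type*) [Field F] (M : ℕ) : Subgroup (Equiv.Perm (Fin D.nroots)) where
  carrier := {w | w ∈ m.Wg ∧ ∀ x : Fin D.nroots, m.ch F M (w x) = m.ch F M x}
  one_mem' := ⟨one_mem _, fun _ => rfl⟩
  mul_mem' := by
    rintro a c ⟨h1, h2⟩ ⟨h3, h4⟩
    exact ⟨mul_mem h1 h3, fun x => by rw [Equiv.Perm.mul_apply, h2, h4]⟩
  inv_mem' := by
    rintro a ⟨h1, h2⟩
    refine ⟨inv_mem h1, fun x => ?_⟩
    have := h2 (a⁻¹ x)
    rw [← this]
    congr 2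
    exact a.apply_symm_apply x

theorem mem_SM {M : ℕ} {w : Equiv.Perm (Fin D.nroots)} : w ∈ m.SM F M ↔ w ∈ m.Wg ∧
    ∀ x : Fin D.nroots, m.ch F M (w x) = m.ch F M x := Iff.rfl

theorem ch_inj (h2 : (2 : F) ≠ 0) (b : t.Base D) (ck : t.Checks D) {iT : ℕ} (hv : t.ckVec iT = true) {M M' : ℕ}
    (hM : M < 2 ^ t.l) (hM' : M' < 2 ^ t.l) (h : ∀ x : Fin D.nroots, m.ch F M x = m.ch F M' x) : M = M' := by
  have hne : (-1 : Fˣ) ≠ 1 := by
    intro h3
    have h4 := congrArg (fun u : Fˣ => (u : F)) h3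
    simp only [Units.val_neg, Units.val_one] at h4
    apply h2
    linear_combination -h4
  have h1 : ∀ j < t.l, t.par M (nth t.S j) = t.par M' (nth t.S j) := by
    intro j hj
    have h3 : nth t.S j < D.nroots := by rw [b.nroots]; exact (Tab.S_facts b ck hj).1
    have h4 := h ⟨nth t.S j, h3⟩
    rw [m.ch_eq b h3, m.ch_eq b h3] at h4
    cases h5 : t.par M (nth t.S j) <;> cases h6 : t.par M' (nth t.S j) <;> rw [h5, h6] at h4
    · exact absurd h4.symm hne
    · exact absurd h4 hne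
  have h3 : t.vec M = t.vec M' := by
    unfold Tab.vec
    have : ∀ k ≤ t.l, (Nat.rec (motive := fun _ => ℕ) 0 (fun j ih => Nat.add (Nat.mul 2 ih) (cond (t.par M (nth t.S j)) 1 0)) k : ℕ) =
        Nat.rec (motive := fun _ => ℕ) 0 (fun j ih => Nat.add (Nat.mul 2 ih) (cond (t.par M' (nth t.S j)) 1 0)) k := by
      intro k
      induction k with
      | zero => intro _; rfl
      | succ k ih =>
        intro hk
        show Nat.add (Nat.mul 2 _) (cond (t.par M (nth t.S k)) 1 0) = Nat.add (Nat.mul 2 _) (cond (t.par M' (nth t.S k)) 1 0)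
        rw [ih (by omega), h1 k (by omega)]
    exact this _ le_rfl
  have h4 := Nat.eq_of_beq_eq_true (allNat_iff hv M (by rw [t.nm_eq]; exact hM))
  have h5 := Nat.eq_of_beq_eq_true (allNat_iff hv M' (by rw [t.nm_eq]; exact hM'))
  rw [← h4, h3, h5]

theorem card_SM (h2 : (2 : F) ≠ 0) (b : t.Base D) (ck : t.Checks D) {iT : ℕ} (hv : t.ckVec iT = true) {M0 hM c : ℕ}
    (h : t.ckCls M0 hM c = true) : c * Nat.card (m.SM F M0) ≤ Nat.card m.Wg := by
  classical
  have h' := h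
  unfold Tab.ckCls at h'
  simp only [Bool.and_eq_true] at h'
  obtain ⟨-, -, h4⟩ := h'
  have h4' := Nat.eq_of_beq_eq_true h4
  rw [cntN_eq] at h4'
  obtain ⟨C, hC⟩ : ∃ C : Finset ℕ, C = (Finset.range t.nm).filter fun k => (!(Nat.beq (byteAt hM k) 0)) = true := ⟨_, rfl⟩
  rw [← hC] at h4'
  have hmem : ∀ M : C, ∃ w ∈ m.Wg, ∀ x : Fin D.nroots, m.ch F M (w x) = m.ch F M0 x := by
    rintro ⟨M, hM'⟩
    rw [hC, Finset.mem_filter, Finset.mem_range, t.nm_eq] at hM'
    obtain ⟨g, _, w, hw, ha, hg⟩ := m.cls_conj (F := F) b h _ M hM'.1 rfl (by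
      intro h0
      rw [h0] at hM'
      simp at hM')
    exact ⟨w, hw, m.ch_conj ha hg⟩
  choose w hw hwx using hmem
  have hCM : ∀ M : C, (M : ℕ) < 2 ^ t.l := by
    rintro ⟨M, hM'⟩
    rw [hC, Finset.mem_filter, Finset.mem_range, t.nm_eq] at hM'
    exact hM'.1
  have hcard : Nat.card C = c := by
    rw [Nat.card_eq_fintype_card, Fintype.card_coe, h4']
  rw [← hcard, ← Nat.card_prod]
  apply Nat.card_le_card_of_injective (fun p : C × m.SM F M0 => (⟨w p.1 * p.2.1, mul_mem (hw p.1) p.2.2.1⟩ : m.Wg))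
  rintro ⟨M, v⟩ ⟨M', v'⟩ he
  have he' : w M * v.1 = w M' * v'.1 := congrArg Subtype.val he
  have h5 : ∀ y : Fin D.nroots, m.ch F M y = m.ch F M' y := by
    intro y
    have h6 : ∀ x : Fin D.nroots, m.ch F M ((w M * v.1) x) = m.ch F M' ((w M * v.1) x) := by
      intro x
      have e1 : m.ch F M ((w M * v.1) x) = m.ch F M0 x := by
        rw [Equiv.Perm.mul_apply, hwx, v.2.2]
      have e2 : m.ch F M' ((w M' * v'.1) x) = m.ch F M0 x := by
        rw [Equiv.Perm.mul_apply, hwx, v'.2.2]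
      rw [e1, he', e2]
    have h7 := h6 ((w M * v.1).symm y)
    rwa [Equiv.apply_symm_apply] at h7
  obtain rfl : M = M' := Subtype.ext (m.ch_inj h2 b ck hv (hCM M) (hCM M') h5)
  have h8 : v = v' := Subtype.ext (mul_left_cancel he')
  rw [h8]

end Model

end Cfsg.Agent.H6.Chev
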