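import Mathlib
import Cfsg.Agent.H6_Inv7

/-!
Involutions of Chevalley groups in odd characteristic: reflection subgroups attached to masks.
-/

set_option autoImplicit false
set_option linter.unusedSectionVars false

namespace Cfsg.Agent.H6.Chev

open Cfsg Cfsg.Lie Cfsg.Lie.ChevalleyDatum

/-- data of a reflection subgroup: mask, words, base roots, table of the reflections -/
structure SubD where
  M : ℕ
  W : List (List ℕ × ℕ)
  B : List ℕ
  sT : ℕ

/-- data of a stage -/
structure StD where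
  J' : ℕ
  x0 : ℕ
  hT : ℕ
  cnt : List ℕ

def allB (p : ℕ → Bool) : List ℕ → Bool
  | [] => true
  | a :: l => p a && allB p l

theorem allB_iff {p : ℕ → Bool} {l : List ℕ} (h : allB p l = true) : ∀ a ∈ l, p a = true := by
  induction l with
  | nil => simp
  | cons a l ih =>
    unfold allB at h
    rw [Bool.and_eq_true] at h
    intro x hx
    rcases List.mem_cons.1 hx with rfl | hx
    · exact h.1
    · exact ih h.2 x hx

/-- words -/
def nthW : List (List ℕ × ℕ) → ℕ → List ℕ × ℕ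
  | [], _ => ([], 0)
  | a :: _, 0 => a
  | _ :: l, i + 1 => nthW l i

namespace Tab

variable (t : Tab) (u : SubD)

/-- number of base roots -/
def kk : ℕ := u.B.length

/-- the reflections -/
def sr' (i x : ℕ) : ℕ := byteAt u.sT (Nat.add (Nat.mul i t.n) x)

def ckSub : Bool := allNat u.B.length fun i =>
  (allB (fun j => Nat.blt j t.l) (nthW u.W i).1 && Nat.blt (nthW u.W i).2 t.l) && (
  (Nat.beq (t.pw (nthW u.W i).1 (nth t.S (nthW u.W i).2)) (nth u.B i) && (Nat.blt (nth u.B i) t.n && (Nat.ble t.N (nth u.B i) && !(t.par u.M (nth u.B i))))) &&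
  allNat t.n fun x => Nat.beq (t.sr' u i x) (t.pw ((nthW u.W i).1 ++ (nthW u.W i).2 :: (nthW u.W i).1.reverse) x) &&
    ((Bool.xor (t.par u.M (t.sr' u i x)) (!(t.par u.M x))) &&
    (Nat.blt x t.N || (t.par u.M x || (Nat.beq x (nth u.B i) || Nat.ble t.N (t.sr' u i x))))))

def ckRStage (J : ℕ) (d : StD) : Bool :=
  (Nat.blt d.x0 t.n && Nat.beq (byteAt d.hT d.x0) 1) && (
  (allNat u.B.length fun j => !(tb d.J' j) || (tb J j && Nat.beq (t.sr' u j d.x0) d.x0)) && (
  (allNat t.n fun x => Nat.beq (byteAt d.hT x) 0 || (Nat.ble (byteAt d.hT x) d.cnt.length && (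
    (allNat u.B.length fun j => !(tb J j) || (!(Nat.beq (byteAt d.hT (t.sr' u j x)) 0) &&
      Nat.ble (byteAt d.hT (t.sr' u j x)) (Nat.succ (byteAt d.hT x)))) &&
    (Nat.beq x d.x0 || anyNat u.B.length fun j => tb J j && Nat.beq (Nat.succ (byteAt d.hT (t.sr' u j x))) (byteAt d.hT x))))) &&
  ckCnt t.n d.hT 1 d.cnt))

def ckCh : ℕ → List StD → Bool
  | J, [] => allNat u.B.length fun j => !(tb J j)
  | J, d :: L => t.ckRStage u J d && ckCh d.J' L

end Tab

/-- the product of the polynomials of the stages -/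
def prP : List StD → ℕ → ℕ
  | [], _ => 1
  | d :: L, q => poly d.cnt q * prP L q

theorem prP_nil (q : ℕ) : prP [] q = 1 := rfl

theorem prP_cons (d : StD) (L : List StD) (q : ℕ) : prP (d :: L) q = poly d.cnt q * prP L q := rfl

namespace Model

variable {D : ChevalleyDatum} (m : Model D) {t : Tab}

theorem exists_fin_list {n : ℕ} : ∀ (l : List ℕ), (∀ a ∈ l, a < n) → ∃ l' : List (Fin n), l'.map Fin.val = l
  | [], _ => ⟨[], rfl⟩
  | a :: l, h => by
    obtain ⟨l', hl'⟩ := exists_fin_list l fun x hx => h x (List.mem_cons_of_mem _ hx)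
    exact ⟨⟨a, h a List.mem_cons_self⟩ :: l', by rw [List.map_cons, hl']⟩

/-- the reflection subgroup of a mask -/
theorem exists_RS (b : t.Base D) (ck : t.Checks D) {u : SubD} (h : t.ckSub u = true) :
    ∃ R : RS D.nroots u.B.length, R.N = m.N ∧
      (∀ x : Fin D.nroots, x ∈ R.P ↔ m.N ≤ (x : ℕ) ∧ t.par u.M x = false) ∧
      (∀ i (x : Fin D.nroots), ((R.s i x : Fin D.nroots) : ℕ) = t.sr' u i x) ∧
      (∀ i, R.s i ∈ m.Wg) ∧ (∀ i (x : Fin D.nroots), t.par u.M (R.s i x) = t.par u.M x) := by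
  have hn : D.nroots = t.n := b.nroots
  have hl : D.rank = t.l := b.rank
  have hN : m.N = t.N := by have := m.nroots_eq; have := b.n2; omega
  have h1 : ∀ i : Fin u.B.length, ∃ (w : List (Fin D.rank)) (k : Fin D.rank) (β : Fin D.nroots),
      (β : ℕ) = nth u.B i ∧ m.wl w (m.p k) = β ∧ m.N ≤ (β : ℕ) ∧ t.par u.M β = false ∧
      (∀ x : Fin D.nroots, ((m.wl (w ++ k :: w.reverse) x : Fin D.nroots) : ℕ) = t.sr' u i x) ∧
      (∀ x : Fin D.nroots, t.par u.M (m.wl (w ++ k :: w.reverse) x : Fin D.nroots) = t.par u.M x) ∧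
      (∀ x : Fin D.nroots, m.N ≤ (x : ℕ) → t.par u.M x = false → x ≠ β →
        m.N ≤ (m.wl (w ++ k :: w.reverse) x : Fin D.nroots)) := by
    intro i
    have h2 := allNat_iff h i i.2
    simp only [Bool.and_eq_true, Nat.blt_eq, Bool.not_eq_true', Nat.ble_eq] at h2
    obtain ⟨⟨h3, h4⟩, ⟨h5, h6, h7, h8⟩, h9⟩ := h2
    obtain ⟨w, hw⟩ := exists_fin_list (n := D.rank) (nthW u.W i).1 (fun a ha => by
      have := allB_iff h3 a ha
      simp only [Nat.blt_eq] at this
      omega)
    have hk : (nthW u.W i).2 < D.rank := by omega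
    have e1 : ∀ x : Fin D.nroots, ((m.wl (w ++ (⟨_, hk⟩ : Fin D.rank) :: w.reverse) x : Fin D.nroots) : ℕ) = t.sr' u i x := by
      intro x
      have h10 := allNat_iff h9 x (by omega)
      simp only [Bool.and_eq_true] at h10
      rw [Tab.pw_eq m b ck, List.map_append, List.map_cons, List.map_reverse, hw]
      exact (Nat.eq_of_beq_eq_true h10.1).symm
    refine ⟨w, ⟨_, hk⟩, ⟨nth u.B i, by omega⟩, rfl, ?_, by show m.N ≤ nth u.B i; omega, h8, e1, ?_, ?_⟩
    · apply Fin.ext
      rw [Tab.pw_eq m b ck, hw, coe_p, b.simple_eq (by omega)]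
      exact Nat.eq_of_beq_eq_true h5
    · intro x
      rw [e1]
      have h10 := allNat_iff h9 x (by omega)
      simp only [Bool.and_eq_true] at h10
      have h11 := h10.2.1
      cases h12 : t.par u.M (t.sr' u i x) <;> cases h13 : t.par u.M x <;> rw [h12, h13] at h11 <;> simp at h11
    · intro x hx hp hne
      rw [e1]
      have h10 := allNat_iff h9 x (by omega)
      simp only [Bool.and_eq_true, Bool.or_eq_true, Nat.blt_eq, Nat.ble_eq] at h10
      rcases h10.2.2 with h11 | h11 | h11 | h11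
      · omega
      · rw [hp] at h11; exact absurd h11 (by simp)
      · exact absurd (Fin.ext (Nat.eq_of_beq_eq_true h11)) hne
      · omega
  choose w k β hβ hwβ hβN hβp hsx hsp hspos using h1
  have hsm : ∀ i, m.wl (w i ++ k i :: (w i).reverse) ∈ m.Wg := fun i => m.wl_mem _
  have hse : ∀ i, m.wl (w i ++ k i :: (w i).reverse) = m.wl (w i) * m.sr (k i) * (m.wl (w i))⁻¹ := by
    intro i
    rw [wl_append, wl_cons, m.wl_reverse, mul_assoc]
  refine ⟨{ N := m.N
            P := Finset.univ.filter fun x : Fin D.nroots => m.N ≤ (x : ℕ) ∧ t.par u.M x = false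
            ng := m.ng
            b := β
            s := fun i => m.wl (w i ++ k i :: (w i).reverse)
            P_pos := ?_, ng_pos := ?_, b_mem := ?_, s_b := ?_, s_ng := ?_, s_P := ?_, s_sq := ?_, conj := ?_ }, rfl, ?_, hsx, hsm, hsp⟩
  · intro x hx
    rw [Finset.mem_filter] at hx
    exact hx.2.1
  · intro x; exact (m.ng_lt_iff x).symm
  · intro i
    rw [Finset.mem_filter]
    exact ⟨Finset.mem_univ _, hβN i, hβp i⟩
  · intro i
    rw [hse, Equiv.Perm.mul_apply, Equiv.Perm.mul_apply, ← hwβ i]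
    have : (m.wl (w i))⁻¹ (m.wl (w i) (m.p (k i))) = m.p (k i) := (m.wl (w i)).symm_apply_apply _
    rw [this, m.sr_p, (m.isW_wl _).neg]
  · intro i x; exact (m.isW_wl _).neg x
  · intro i x hx hne
    rw [Finset.mem_filter] at hx ⊢
    exact ⟨Finset.mem_univ _, hspos i x hx.2.1 hx.2.2 hne, by rw [hsp, hx.2.2]⟩
  · intro i
    rw [hse]
    calc m.wl (w i) * m.sr (k i) * (m.wl (w i))⁻¹ * (m.wl (w i) * m.sr (k i) * (m.wl (w i))⁻¹)
        = m.wl (w i) * (m.sr (k i) * m.sr (k i)) * (m.wl (w i))⁻¹ := by group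
      _ = 1 := by rw [m.sr_mul_self]; group
  · intro v hv i j hvj
    have hv' : m.IsW v := by
      apply m.isW
      refine (Subgroup.closure_le _).2 ?_ hv
      rintro _ ⟨i, rfl⟩
      exact hsm i
    show m.wl (w i ++ k i :: (w i).reverse) * v = v * m.wl (w j ++ k j :: (w j).reverse)
    rw [hse, hse]
    have hi' : m.IsW ((m.wl (w i))⁻¹ * v * m.wl (w j)) := by
      rw [← m.wl_reverse]
      exact ((m.isW_wl _).mul hv').mul (m.isW_wl _)
    have h2 : ((m.wl (w i))⁻¹ * v * m.wl (w j)) (m.p (k j)) = m.p (k i) := by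
      rw [Equiv.Perm.mul_apply, Equiv.Perm.mul_apply, hwβ j]
      change v (β j) = β i at hvj
      rw [hvj, ← hwβ i]
      exact (m.wl (w i)).symm_apply_apply _
    have h3 := hi'.conj h2
    calc m.wl (w i) * m.sr (k i) * (m.wl (w i))⁻¹ * v
        = m.wl (w i) * (m.sr (k i) * ((m.wl (w i))⁻¹ * v * m.wl (w j))) * (m.wl (w j))⁻¹ := by group
      _ = v * (m.wl (w j) * m.sr (k j) * (m.wl (w j))⁻¹) := by rw [h3]; group
  · intro x
    rw [Finset.mem_filter]
    exact ⟨fun h => h.2, fun h => ⟨Finset.mem_univ _, h⟩⟩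

/-- masks as sets -/
def sJ (k J : ℕ) : Set (Fin k) := {i | tb J i = true}

theorem stageR (b : t.Base D) {u : SubD} {R : RS D.nroots u.B.length}
    (hs : ∀ i (x : Fin D.nroots), ((R.s i x : Fin D.nroots) : ℕ) = t.sr' u i x) {J : ℕ} {d : StD}
    (h : t.ckRStage u J d = true) : ∃ (x0 : Fin D.nroots) (O : Finset (Fin D.nroots)) (ht : Fin D.nroots → ℕ),
      R.Stage (sJ _ J) (sJ _ d.J') x0 O ht ∧ ∀ q : ℕ, ∑ x ∈ O, q ^ ht x = poly d.cnt q := by
  have hn : D.nroots = t.n := b.nroots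
  unfold Tab.ckRStage at h
  simp only [Bool.and_eq_true, Nat.blt_eq] at h
  obtain ⟨⟨h1, h2⟩, h3, h4, h5⟩ := h
  have h2' := Nat.eq_of_beq_eq_true h2
  have h4' := allNat_iff h4
  have hO : ∀ x : Fin D.nroots, byteAt d.hT x ≠ 0 → byteAt d.hT x ≤ d.cnt.length ∧
      (∀ j : Fin u.B.length, tb J j = true → byteAt d.hT (R.s j x) ≠ 0 ∧ byteAt d.hT (R.s j x) ≤ byteAt d.hT x + 1) ∧
      ((x : ℕ) = d.x0 ∨ ∃ j : Fin u.B.length, tb J j = true ∧ byteAt d.hT (R.s j x) + 1 = byteAt d.hT x) := by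
    intro x hx
    have h6 := h4' x (by omega)
    rw [Bool.or_eq_true] at h6
    rcases h6 with h6 | h6
    · exact absurd (Nat.eq_of_beq_eq_true h6) hx
    · simp only [Bool.and_eq_true, Nat.ble_eq] at h6
      obtain ⟨h7, h8, h9⟩ := h6
      refine ⟨h7, ?_, ?_⟩
      · intro j hj
        have h10 := allNat_iff h8 j j.2
        rw [hj] at h10
        simp only [Bool.not_true, Bool.false_or, Bool.and_eq_true, Nat.ble_eq] at h10
        rw [hs]
        refine ⟨?_, h10.2⟩
        intro h0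
        rw [h0] at h10
        simp at h10
      · rw [Bool.or_eq_true] at h9
        rcases h9 with h9 | h9
        · exact Or.inl (Nat.eq_of_beq_eq_true h9)
        · obtain ⟨j, hj, h10⟩ := anyNat_iff h9
          rw [Bool.and_eq_true] at h10
          refine Or.inr ⟨⟨j, hj⟩, h10.1, ?_⟩
          rw [hs]
          exact Nat.eq_of_beq_eq_true h10.2
  refine ⟨⟨d.x0, by omega⟩, Finset.univ.filter fun x : Fin D.nroots => byteAt d.hT x ≠ 0, fun x => byteAt d.hT x - 1,
    ⟨?_, ?_, ?_, ?_, ?_, ?_, ?_⟩, ?_⟩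
  · intro j hj
    have h6 := allNat_iff h3 j j.2
    have hj' : tb d.J' j = true := hj
    rw [hj'] at h6
    simp only [Bool.not_true, Bool.false_or, Bool.and_eq_true] at h6
    exact h6.1
  · intro j hj
    have h6 := allNat_iff h3 j j.2
    have hj' : tb d.J' j = true := hj
    rw [hj'] at h6
    simp only [Bool.not_true, Bool.false_or, Bool.and_eq_true] at h6
    apply Fin.ext
    rw [hs]
    exact Nat.eq_of_beq_eq_true h6.2
  · rw [Finset.mem_filter]
    exact ⟨Finset.mem_univ _, by show byteAt d.hT d.x0 ≠ 0; omega⟩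
  · show byteAt d.hT d.x0 - 1 = 0
    omega
  · intro x hx j hj
    rw [Finset.mem_filter] at hx ⊢
    exact ⟨Finset.mem_univ _, ((hO x hx.2).2.1 j hj).1⟩
  · intro x hx j hj
    rw [Finset.mem_filter] at hx
    have := ((hO x hx.2).2.1 j hj)
    have := hx.2
    omega
  · intro x hx hne
    rw [Finset.mem_filter] at hx
    rcases (hO x hx.2).2.2 with h6 | ⟨j, hj, h6⟩
    · exact absurd (Fin.ext h6) hne
    · refine ⟨j, hj, ?_⟩
      have := ((hO x hx.2).2.1 j hj).1
      omega
  · intro q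
    rw [← ckCnt_sound d.cnt 1 h5 q]
    have h6 : (Finset.range t.n).filter (fun s => 1 ≤ byteAt d.hT s ∧ byteAt d.hT s < 1 + d.cnt.length) =
        (Finset.range t.n).filter (fun s => byteAt d.hT s ≠ 0) := by
      ext x
      rw [Finset.mem_filter, Finset.mem_filter]
      refine and_congr_right fun hx => ?_
      constructor
      · rintro ⟨h, -⟩; omega
      · intro h
        have := (hO ⟨x, by rw [hn]; exact Finset.mem_range.1 hx⟩ h).1
        change byteAt d.hT x ≤ _ at this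
        omega
    rw [h6, ← hn, Finset.sum_filter, Finset.sum_filter, Finset.sum_range]

theorem chainR (b : t.Base D) {u : SubD} {R : RS D.nroots u.B.length}
    (hs : ∀ i (x : Fin D.nroots), ((R.s i x : Fin D.nroots) : ℕ) = t.sr' u i x) : ∀ (L : List StD) (J : ℕ),
    t.ckCh u J L = true → R.Chain (sJ _ J) (prP L 1) (fun q => prP L q)
  | [], J, h => by
    apply RS.Chain.nil
    intro j hj
    have h1 := allNat_iff h j j.2
    have hj' : tb J j = true := hj
    rw [hj'] at h1
    simp at h1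
  | d :: L, J, h => by
    unfold Tab.ckCh at h
    rw [Bool.and_eq_true] at h
    obtain ⟨x0, O, ht, hS, hq⟩ := stageR b hs h.1
    have h2 := RS.Chain.cons hS (chainR b hs L d.J' h.2)
    have h3 : O.card * prP L 1 = prP (d :: L) 1 := by
      show _ = poly d.cnt 1 * prP L 1
      rw [← hq 1]
      simp
    have h4 : (fun q => (∑ x ∈ O, q ^ ht x) * prP L q) = fun q => prP (d :: L) q := by
      funext q
      rw [hq q]
      rfl
    rw [h3, h4] at h2
    exact h2

open Classical in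
/-- inversions in the root system of a mask -/
noncomputable def invM (F : Type*) [Field F] (M : ℕ) (w : Equiv.Perm (Fin D.nroots)) : Finset (Fin D.nroots) :=
  Finset.univ.filter fun x => m.N ≤ (x : ℕ) ∧ m.ch F M x = 1 ∧ (w x : ℕ) < m.N

theorem mem_invM {F : Type*} [Field F] {M : ℕ} {w : Equiv.Perm (Fin D.nroots)} {x : Fin D.nroots} :
    x ∈ m.invM F M w ↔ m.N ≤ (x : ℕ) ∧ m.ch F M x = 1 ∧ (w x : ℕ) < m.N := by
  classical
  unfold invM
  exact ⟨fun h => (Finset.mem_filter.1 h).2, fun h => Finset.mem_filter.2 ⟨Finset.mem_univ _, h⟩⟩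

/-- the Poincaré polynomial of the stabiliser of a mask -/
theorem sum_SM {F : Type*} [Field F] (h2 : (2 : F) ≠ 0) (b : t.Base D) (ck : t.Checks D) {iT : ℕ}
    (hv : t.ckVec iT = true) {u : SubD} {hM c : ℕ} (hc : t.ckCls u.M hM c = true) (hu : t.ckSub u = true) {L : List StD}
    {J : ℕ} (hJ : ∀ i < u.B.length, tb J i = true) (hL : t.ckCh u J L = true) (hc0 : 0 < c)
    (hcard : Nat.card m.Wg ≤ c * prP L 1) (q : ℕ) :
    ∑ w ∈ RS.els (m.SM F u.M), q ^ (m.invM F u.M w).card = prP L q := by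
  obtain ⟨R, hRN, hRP, hRs, hRW, hRp⟩ := m.exists_RS b ck hu
  have hne : (-1 : Fˣ) ≠ 1 := by
    intro h3
    have h4 := congrArg (fun u : Fˣ => (u : F)) h3
    simp only [Units.val_neg, Units.val_one] at h4
    apply h2
    linear_combination -h4
  have hch := chainR b hRs L J hL
  have hJ' : sJ u.B.length J = Set.univ := by
    rw [Set.eq_univ_iff_forall]
    exact fun i => hJ i i.2
  rw [hJ'] at hch
  have hle : R.A Set.univ ≤ m.SM F u.M := by
    unfold RS.A
    rw [Subgroup.closure_le]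
    rintro _ ⟨i, _, rfl⟩
    refine ⟨hRW i, fun x => ?_⟩
    rw [m.ch_eq b (Fin.is_lt _), m.ch_eq b x.2, hRp]
  have h3 := m.card_SM h2 b ck hv hc
  have h4 : Nat.card (m.SM F u.M) ≤ prP L 1 := by
    apply Nat.le_of_mul_le_mul_left _ hc0
    exact h3.trans hcard
  have h5 : Nat.card (R.A Set.univ) ≤ Nat.card (m.SM F u.M) :=
    Nat.card_le_card_of_injective (Subgroup.inclusion hle) (Subgroup.inclusion_injective hle)
  have h6 := hch.eq (h5.trans h4) q
  have h7 : R.A Set.univ = m.SM F u.M := by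
    apply Subgroup.eq_of_le_of_card_ge hle
    exact h4.trans hch.le.2
  rw [← h7, ← h6]
  unfold RS.Q
  apply Finset.sum_congr rfl
  intro w _
  congr 1
  unfold RS.L
  congr 1
  ext x
  rw [m.mem_invM, Finset.mem_filter, hRP, hRN, m.ch_eq b x.2]
  constructor
  · rintro ⟨h8, h9, h10⟩
    refine ⟨⟨h8, ?_⟩, h10⟩
    cases h11 : t.par u.M x
    · rfl
    · rw [h11] at h9; exact absurd h9 hne
  · rintro ⟨⟨h8, h9⟩, h10⟩
    exact ⟨h8, by rw [h9]; rfl, h10⟩

end Model

end Cfsg.Agent.H6.Chev
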