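import Mathlib
import Cfsg.Agent.H6_Inv8

/-!
Involutions of Chevalley groups in odd characteristic: orders of centralizers.
-/

set_option autoImplicit false
set_option linter.unusedSectionVars false

namespace Cfsg.Agent.H6.Chev

open Cfsg Cfsg.Lie Cfsg.Lie.ChevalleyDatum

namespace Model

variable {D : ChevalleyDatum} {F : Type*} [Field F] (m : Model D) {t : Tab}

/-- the centralizer of an element -/
def Z (F : Type*) [Field F] (c : ℕ → Fˣ) : Subgroup (GL D.Idx F) := Subgroup.centralizer {m.dmHom c}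

theorem mem_Z {c : ℕ → Fˣ} {g : GL D.Idx F} : g ∈ m.Z F c ↔ m.dmHom c * g = g * m.dmHom c := by
  unfold Z
  rw [Subgroup.mem_centralizer_iff]
  constructor
  · intro h; exact h _ rfl
  · rintro h _ rfl; exact h

theorem H_norm_UL {L : List ℕ} (c : ℕ → Fˣ) {g : GL D.Idx F} (hg : g ∈ m.UL F L) :
    ∃ g' ∈ m.UL F L, m.dmHom c * g = g' * m.dmHom c := by
  refine m.gen_induction (p := fun g => ∃ g' ∈ m.UL F L, m.dmHom c * g = g' * m.dmHom c) ?_ ?_ hg
  · exact ⟨1, one_mem _, by rw [mul_one, one_mul]⟩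
  · rintro r _ hr u g _ ⟨g', hg', he⟩
    refine ⟨m.X r (((m.chi c r : Fˣ) : F) * u) * g', mul_mem (m.X_mem_gen (R := fun r => r ∈ L) hr _) hg', ?_⟩
    rw [← mul_assoc, m.dm_X, mul_assoc, he, mul_assoc]

open Classical in
theorem _root_.Cfsg.Agent.H6.Chev.card_fix [Fintype F] (u : Fˣ) : Nat.card {a : F // (u : F) * a = a} =
    Fintype.card F ^ (if u = 1 then 1 else 0) := by
  by_cases h : u = 1
  · subst h
    rw [if_pos rfl, pow_one, ← Nat.card_eq_fintype_card]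
    apply Nat.card_congr
    exact ⟨fun a => a.1, fun a => ⟨a, by simp⟩, fun a => rfl, fun a => rfl⟩
  · rw [if_neg h, pow_zero, Nat.card_eq_one_iff_unique]
    have h1 : (u : F) - 1 ≠ 0 := by
      intro h2
      exact h (Units.ext (sub_eq_zero.1 h2))
    have h2 : ∀ a : F, (u : F) * a = a → a = 0 := by
      intro a ha
      have : ((u : F) - 1) * a = 0 := by rw [sub_mul, ha, one_mul, sub_self]
      exact (mul_eq_zero.1 this).resolve_left h1
    exact ⟨⟨fun a b => Subtype.ext ((h2 _ a.2).trans (h2 _ b.2).symm)⟩, ⟨⟨0, by simp⟩⟩⟩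

open Classical in
theorem _root_.Cfsg.Agent.H6.Chev.Model.Good.card_Z {m : Model D} [Fintype F] {L : List ℕ} (h : m.Good L) (c : ℕ → Fˣ) :
    Nat.card (m.UL F L ⊓ m.Z F c : Subgroup (GL D.Idx F)) = Fintype.card F ^ (L.filter fun r => m.chi c r = 1).length := by
  induction L with
  | nil =>
    have : m.UL F [] = ⊥ := by
      rw [eq_bot_iff]
      intro g hg
      obtain ⟨t, rfl⟩ := h.exists_nf hg
      simp [nf]
    rw [this, bot_inf_eq]; simp
  | cons k L ih =>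
    have hfac : ∀ (a : F) (g : GL D.Idx F), g ∈ m.UL F L → (m.X k a * g ∈ m.Z F c ↔
        ((m.chi c k : Fˣ) : F) * a = a ∧ g ∈ m.Z F c) := by
      intro a g hg
      obtain ⟨g', hg', he⟩ := m.H_norm_UL c hg
      rw [m.mem_Z, m.mem_Z, ← mul_assoc, m.dm_X, mul_assoc, he, ← mul_assoc]
      constructor
      · intro h1
        obtain ⟨h2, h3⟩ := h.cancel hg' hg (mul_right_cancel h1)
        exact ⟨h2, by rw [h3]⟩
      · rintro ⟨h1, h2⟩
        rw [h1, mul_right_cancel h2]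
    have e : Function.Bijective (fun p : {a : F // ((m.chi c k : Fˣ) : F) * a = a} × (m.UL F L ⊓ m.Z F c : Subgroup (GL D.Idx F)) =>
        (⟨m.X k p.1.1 * p.2.1, by
          refine ⟨mul_mem (m.X_mem_gen (R := fun r => r ∈ k :: L) List.mem_cons_self _)
            (m.gen_mono (fun r _ hr => List.mem_cons_of_mem _ hr) p.2.2.1), ?_⟩
          exact (hfac _ _ p.2.2.1).2 ⟨p.1.2, p.2.2.2⟩⟩ : (m.UL F (k :: L) ⊓ m.Z F c : Subgroup (GL D.Idx F)))) := by
      constructor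
      · rintro ⟨⟨t, ht⟩, ⟨g, hg⟩⟩ ⟨⟨u, hu⟩, ⟨g', hg'⟩⟩ heq
        have := congrArg Subtype.val heq
        obtain ⟨h1, h2⟩ := h.cancel hg.1 hg'.1 this
        simp only [Prod.mk.injEq, Subtype.mk.injEq]
        exact ⟨h1, h2⟩
      · rintro ⟨g, hg1, hg2⟩
        obtain ⟨t, g', hg', he⟩ := h.exists_mul hg1
        have h1 := (hfac t g' hg').1 (by rw [← he]; exact hg2)
        exact ⟨(⟨t, h1.1⟩, ⟨g', hg', h1.2⟩), Subtype.ext he.symm⟩
    rw [← Nat.card_eq_of_bijective _ e, Nat.card_prod, ih h.tail, card_fix, ← pow_add, List.filter_cons]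
    congr 1
    by_cases h1 : m.chi c k = 1
    · simp [h1, add_comm]
    · simp [h1]

/-- `n_w` commutes with an element of the torus iff `w` fixes its character -/
theorem mem_Z_of_acts {c : ℕ → Fˣ} {g : GL D.Idx F} {w : Equiv.Perm (Fin D.nroots)} (hc : m.dmHom c ∈ D.diagonalSubgroup F)
    (hg : g ∈ D.monomialSubgroup F) (hact : m.Acts g w) :
    g ∈ m.Z F c ↔ ∀ x : Fin D.nroots, m.chi c (w x) = m.chi c x := by
  obtain ⟨d, hd⟩ := hact
  rw [m.mem_Z]
  constructor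
  · intro h x
    have h1 : g * m.dmHom c * m.X x 1 = m.X (w x) (((d x : Fˣ) : F) * ((m.chi c x : Fˣ) : F)) * (g * m.dmHom c) := by
      rw [mul_assoc, m.dm_X, mul_one, ← mul_assoc, hd.X, mul_assoc]
    have h2 : m.dmHom c * g * m.X x 1 = m.X (w x) (((m.chi c (w x) : Fˣ) : F) * ((d x : Fˣ) : F)) * (m.dmHom c * g) := by
      rw [mul_assoc, hd.X, mul_one, ← mul_assoc, m.dm_X, mul_assoc]
    rw [← h, h2] at h1
    have h3 := m.X_inj (w x).2 (mul_right_cancel h1)
    apply Units.ext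
    have h4 : ((d x : Fˣ) : F) ≠ 0 := (d x).ne_zero
    apply mul_right_cancel₀ h4
    rw [h3, mul_comm]
  · intro h
    have h1 : g * m.dmHom c * g⁻¹ ∈ D.diagonalSubgroup F :=
      (Subgroup.mem_normalizer_iff.1 (m.N_le_normalizer hg) _).1 hc
    obtain ⟨b, hb⟩ := m.mem_H.1 h1
    have h2 : m.hHom b = m.dmHom c := by
      rw [hHom_apply]
      apply m.dm_congr
      intro i hi
      rw [← m.chi_simple (hC D b) hi, ← m.chi_simple c hi]
      have h3 : ∀ x : Fin D.nroots, m.chi (hC D b) (w x) = m.chi c (w x) := by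
        intro x
        have h4 : g * m.dmHom c * m.X x 1 = m.X (w x) (((d x : Fˣ) : F) * ((m.chi c x : Fˣ) : F)) * (g * m.dmHom c) := by
          rw [mul_assoc, m.dm_X, mul_one, ← mul_assoc, hd.X, mul_assoc]
        have h5 : g * m.dmHom c = m.hHom b * g := by rw [← hb]; group
        have h6 : m.hHom b * g * m.X x 1 = m.X (w x) (((m.chi (hC D b) (w x) : Fˣ) : F) * ((d x : Fˣ) : F)) * (m.hHom b * g) := by
          rw [mul_assoc, hd.X, mul_one, ← mul_assoc, hHom_apply, m.dm_X, mul_assoc]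
        rw [h5, h6] at h4
        have h7 := m.X_inj (w x).2 (mul_right_cancel h4)
        apply Units.ext
        have h8 : ((d x : Fˣ) : F) ≠ 0 := (d x).ne_zero
        apply mul_right_cancel₀ h8
        rw [h7, h x, mul_comm]
      have h9 := h3 (w.symm ⟨D.simple i, m.simple_lt i hi⟩)
      rwa [Equiv.apply_symm_apply] at h9
    rw [h2] at hb
    exact (mul_inv_eq_iff_eq_mul.1 hb).symm

/-- the stabiliser of a character in the Weyl group -/
def SZ (F : Type*) [Field F] (c : ℕ → Fˣ) : Set (Equiv.Perm (Fin D.nroots)) :=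
  {w | w ∈ m.Wg ∧ ∀ x : Fin D.nroots, m.chi c (w x) = m.chi c x}

theorem H_le_Z (c : ℕ → Fˣ) {h : GL D.Idx F} (hh : h ∈ D.diagonalSubgroup F) : h ∈ m.Z F c := by
  obtain ⟨b, rfl⟩ := m.mem_H.1 hh
  rw [m.mem_Z, hHom_apply, ← map_mul, ← map_mul, mul_comm]

open Classical in
/-- inversions in the root system of a character -/
noncomputable def invZ (F : Type*) [Field F] (c : ℕ → Fˣ) (w : Equiv.Perm (Fin D.nroots)) : Finset (Fin D.nroots) :=
  Finset.univ.filter fun x => m.N ≤ (x : ℕ) ∧ m.chi c x = 1 ∧ (w x : ℕ) < m.N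

open Classical in
theorem card_Uw_Z [Fintype F] {w : Equiv.Perm (Fin D.nroots)} (hw : m.IsW w) (c : ℕ → Fˣ) :
    Nat.card (m.Uw F w ⊓ m.Z F c : Subgroup (GL D.Idx F)) = Fintype.card F ^ (m.invZ F c w).card := by
  rw [m.Uw_eq, (m.good_Lw hw).card_Z c]
  congr 1
  have hnd : ((m.Lw w).filter fun r => m.chi c r = 1).Nodup := by
    unfold Lw
    exact ((List.nodup_range' (s := m.N) (n := m.N)).filter _).filter _
  rw [← List.toFinset_card_of_nodup hnd]
  symm
  apply Finset.card_bij (fun (r : Fin D.nroots) _ => (r : ℕ))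
  · intro r hr
    unfold invZ at hr
    rw [Finset.mem_filter] at hr
    rw [List.mem_toFinset, List.mem_filter, m.mem_Lw]
    exact ⟨⟨hr.2.1, r.2, hr.2.2.2⟩, by simpa using hr.2.2.1⟩
  · intro a _ b _ h
    exact Fin.ext h
  · intro b hb
    rw [List.mem_toFinset, List.mem_filter, m.mem_Lw] at hb
    refine ⟨⟨b, hb.1.2.1⟩, ?_, rfl⟩
    unfold invZ
    rw [Finset.mem_filter]
    exact ⟨Finset.mem_univ _, hb.1.1, by simpa using hb.2, hb.1.2.2⟩

/-- the order of the centralizer of an element of the torus -/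
theorem card_cent [Fintype F] {c : ℕ → Fˣ} (hc : m.dmHom c ∈ D.diagonalSubgroup F) (S : Finset (Equiv.Perm (Fin D.nroots)))
    (hS : ∀ w, w ∈ S ↔ w ∈ m.SZ F c) {k : ℕ}
    (hk : Nat.card (D.posUnipotent F ⊓ m.Z F c : Subgroup (GL D.Idx F)) = Fintype.card F ^ k) :
    Nat.card (D.group F ⊓ m.Z F c : Subgroup (GL D.Idx F)) =
      Fintype.card F ^ k * Nat.card (D.diagonalSubgroup F) * ∑ w ∈ S, Fintype.card F ^ (m.invZ F c w).card := by
  classical
  have hSw : ∀ w : S, (w : Equiv.Perm (Fin D.nroots)) ∈ m.Wg := fun w => ((hS _).1 w.2).1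
  choose nw hnw hact using fun w : S => m.exists_acts (F := F) (hSw w)
  have hnZ : ∀ w : S, nw w ∈ m.Z F c := fun w => (m.mem_Z_of_acts hc (hnw w) (hact w)).2 ((hS _).1 w.2).2
  have hfin : Finite (GL D.Idx F) := inferInstance
  have h1 : Nat.card (Σ w : S, (((D.posUnipotent F ⊓ m.Z F c : Subgroup (GL D.Idx F)) × D.diagonalSubgroup F) ×
      (m.Uw F (w : Equiv.Perm (Fin D.nroots)) ⊓ m.Z F c : Subgroup (GL D.Idx F)))) =
      Nat.card (D.group F ⊓ m.Z F c : Subgroup (GL D.Idx F)) := by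
    refine Nat.card_congr (Equiv.ofBijective
      (fun x => (⟨x.2.1.1.1 * x.2.1.2.1 * nw x.1 * x.2.2.1, ?_⟩ : (D.group F ⊓ m.Z F c : Subgroup (GL D.Idx F)))) ⟨?_, ?_⟩)
    · exact mul_mem (mul_mem (mul_mem ⟨m.B_le_G (U_le_B x.2.1.1.2.1), x.2.1.1.2.2⟩
        ⟨m.B_le_G (H_le_B x.2.1.2.2), m.H_le_Z c x.2.1.2.2⟩) ⟨m.N_le_G (hnw x.1), hnZ x.1⟩)
        ⟨m.B_le_G (U_le_B (m.Uw_le_U _ x.2.2.2.1)), x.2.2.2.2⟩
    · rintro ⟨w, ⟨⟨v, hv⟩, ⟨h, hh⟩⟩, ⟨u, hu⟩⟩ ⟨w', ⟨⟨v', hv'⟩, ⟨h', hh'⟩⟩, ⟨u', hu'⟩⟩ he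
      have he' : v * h * nw w * u = v' * h' * nw w' * u' := congrArg Subtype.val he
      have hb : v * h ∈ D.borelSubgroup F := mul_mem (U_le_B hv.1) (H_le_B hh)
      have hb' : v' * h' ∈ D.borelSubgroup F := mul_mem (U_le_B hv'.1) (H_le_B hh')
      have hN := m.bruhat_unique_N hb hb' (hnw w) (hnw w') (U_le_B (m.Uw_le_U _ hu.1))
        (U_le_B (m.Uw_le_U _ hu'.1)) he'
      have h2 := m.acts_h hN
      have h3 : m.Acts (nw w') w := by
        have := (hact w).mul h2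
        rwa [mul_inv_cancel_left, mul_one] at this
      have h4 := m.acts_unique (hact w') h3
      obtain rfl : w = w' := Subtype.ext h4.symm
      obtain ⟨e1, e2⟩ := m.bruhat_unique hb hb' (hact w) hu.1 hu'.1 he'
      have h5 : v'⁻¹ * v = h' * h⁻¹ := by
        rw [inv_mul_eq_iff_eq_mul, ← mul_assoc, ← e1, mul_inv_cancel_right]
      have h6 : v'⁻¹ * v ∈ D.posUnipotent F ⊓ D.diagonalSubgroup F :=
        Subgroup.mem_inf.2 ⟨mul_mem (inv_mem hv'.1) hv.1, by rw [h5]; exact mul_mem hh' (inv_mem hh)⟩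
      rw [m.U_inf_H, Subgroup.mem_bot] at h6
      rw [h6] at h5
      obtain rfl : v' = v := inv_mul_eq_one.1 h6
      obtain rfl : h' = h := mul_inv_eq_one.1 h5.symm
      obtain rfl : u = u' := e2
      rfl
    · rintro ⟨g, hg, hgZ⟩
      obtain ⟨b, hb, n, hn, w, hw, ha, u, hu, rfl⟩ := m.exists_bruhat' hg
      obtain ⟨v, hv, h, hh, rfl⟩ := m.mem_B.1 hb
      -- conjugate by the torus element
      obtain ⟨T, hT⟩ : ∃ T, T = m.dmHom c := ⟨_, rfl⟩
      have hv1 : T * v * T⁻¹ ∈ D.posUnipotent F := by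
        rw [hT]; exact (Subgroup.mem_normalizer_iff.1 (m.H_le_normalizer_U hc) v).1 hv
      have hu1 : T * u * T⁻¹ ∈ m.Uw F w := by
        rw [hT]; exact m.H_norm_Uw w hc hu
      have hn1 : n⁻¹ * T * n ∈ D.diagonalSubgroup F := by
        have := (Subgroup.mem_normalizer_iff.1 (inv_mem (m.N_le_normalizer hn)) _).1 hc
        rw [hT]
        simpa using this
      have hTh : T * h = h * T := by
        have := m.mem_Z.1 (m.H_le_Z c hh)
        rw [← hT] at this
        exact this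
      have hn2 : n * T⁻¹ * n⁻¹ ∈ D.diagonalSubgroup F :=
        (Subgroup.mem_normalizer_iff.1 (m.N_le_normalizer hn) _).1 (inv_mem (by rw [hT]; exact hc))
      have hgZ' : T * (v * h * n * u) = v * h * n * u * T := by
        have := m.mem_Z.1 hgZ
        rwa [← hT] at this
      have e1 : (T * v * T⁻¹ * (h * (T * (n * T⁻¹ * n⁻¹)))) * n * (T * u * T⁻¹) = v * h * n * u := by
        calc (T * v * T⁻¹ * (h * (T * (n * T⁻¹ * n⁻¹)))) * n * (T * u * T⁻¹)
            = T * v * T⁻¹ * (h * T) * (n * u * T⁻¹) := by group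
          _ = T * (v * h * n * u) * T⁻¹ := by rw [← hTh]; group
          _ = v * h * n * u := by rw [hgZ']; group
      have hTH : T ∈ D.diagonalSubgroup F := by rw [hT]; exact hc
      obtain ⟨e2, e3⟩ := m.bruhat_unique (mul_mem (U_le_B hv1) (H_le_B (mul_mem hh (mul_mem hTH hn2))))
        (mul_mem (U_le_B hv) (H_le_B hh)) ha hu1 hu e1
      have h5 : v⁻¹ * (T * v * T⁻¹) = h * (h * (T * (n * T⁻¹ * n⁻¹)))⁻¹ := by
        rw [inv_mul_eq_iff_eq_mul, ← mul_assoc, ← e2, mul_inv_cancel_right]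
      have h6 : v⁻¹ * (T * v * T⁻¹) ∈ D.posUnipotent F ⊓ D.diagonalSubgroup F :=
        Subgroup.mem_inf.2 ⟨mul_mem (inv_mem hv) hv1, by
          rw [h5]; exact mul_mem hh (inv_mem (mul_mem hh (mul_mem hTH hn2)))⟩
      rw [m.U_inf_H, Subgroup.mem_bot] at h6
      rw [h6] at h5
      have hvZ : v ∈ m.Z F c := by
        rw [m.mem_Z, ← hT]
        have := inv_mul_eq_one.1 h6
        exact (mul_inv_eq_iff_eq_mul.1 this.symm)
      have huZ : u ∈ m.Z F c := by
        rw [m.mem_Z, ← hT]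
        exact mul_inv_eq_iff_eq_mul.1 e3
      have hnZ1 : n ∈ m.Z F c := by
        rw [m.mem_Z, ← hT]
        have h7 : h * (T * (n * T⁻¹ * n⁻¹)) = h := (mul_inv_eq_one.1 h5.symm).symm
        have h8 : T * (n * T⁻¹ * n⁻¹) = 1 := by
          have : h * (T * (n * T⁻¹ * n⁻¹)) = h * 1 := by rw [h7, mul_one]
          exact mul_left_cancel this
        calc T * n = T * (n * T⁻¹ * n⁻¹) * (n * T) := by group
          _ = n * T := by rw [h8, one_mul]
      have hwS : w ∈ S := (hS w).2 ⟨hw, (m.mem_Z_of_acts hc hn ha).1 hnZ1⟩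
      have h2 : n * (nw ⟨w, hwS⟩)⁻¹ ∈ D.diagonalSubgroup F := by
        apply m.mem_H_of_acts_one (mul_mem hn (inv_mem (hnw _)))
        have := ha.mul (m.acts_inv (hnw ⟨w, hwS⟩) (hact ⟨w, hwS⟩))
        rwa [mul_inv_cancel] at this
      refine ⟨⟨⟨w, hwS⟩, ⟨⟨v, hv, hvZ⟩, ⟨h * (n * (nw ⟨w, hwS⟩)⁻¹), mul_mem hh h2⟩⟩, ⟨u, hu, huZ⟩⟩, ?_⟩
      apply Subtype.ext
      show v * (h * (n * (nw ⟨w, hwS⟩)⁻¹)) * nw ⟨w, hwS⟩ * u = v * h * n * u
      group
  rw [← h1, Nat.card_sigma]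
  have h2 : ∀ w : S, Nat.card (((D.posUnipotent F ⊓ m.Z F c : Subgroup (GL D.Idx F)) × D.diagonalSubgroup F) ×
      (m.Uw F (w : Equiv.Perm (Fin D.nroots)) ⊓ m.Z F c : Subgroup (GL D.Idx F))) =
      Fintype.card F ^ k * Nat.card (D.diagonalSubgroup F) * Fintype.card F ^ (m.invZ F c w).card := by
    intro w
    rw [Nat.card_prod, Nat.card_prod, m.card_Uw_Z (m.isW (hSw w)), hk]
  rw [Finset.sum_congr rfl fun w _ => h2 w, ← Finset.mul_sum]
  congr 1
  exact Finset.sum_coe_sort S (fun w => Fintype.card F ^ (m.invZ F c w).card)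

end Model

end Cfsg.Agent.H6.Chev
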