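import Mathlib
import Cfsg.Agent.H6_Inv9
import Cfsg.Agent.H6_ChevSt4

/-!
Involutions of Chevalley groups in odd characteristic: summary.
-/

set_option autoImplicit false
set_option linter.unusedSectionVars false

namespace Cfsg.Agent.H6.Chev

open Cfsg Cfsg.Lie Cfsg.Lie.ChevalleyDatum

namespace Tab

variable (t : Tab)

/-- number of positive roots in the root system of a mask -/
def ckP (M P : ℕ) : Bool := Nat.beq (cntN t.n fun x => Nat.ble t.N x && !(t.par M x)) P

def ckCov1 (h1 : ℕ) : Bool := allNat t.nm fun M => Nat.beq M 0 || !(Nat.beq (byteAt h1 M) 0)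

def ckCov2 (h1 h2 : ℕ) : Bool := allNat t.nm fun M =>
  Nat.beq M 0 || (!(Nat.beq (byteAt h1 M) 0) || !(Nat.beq (byteAt h2 M) 0))

end Tab

theorem two_ne_zero_of_odd {F : Type*} [Field F] [Fintype F] (hF : Odd (Fintype.card F)) : (2 : F) ≠ 0 := by
  intro h
  have h1 : CharP F 2 := CharTwo.of_one_ne_zero_of_two_eq_zero one_ne_zero h
  obtain ⟨⟨n, hn⟩, -⟩ := FiniteField.card F 2
  have h2 := FiniteField.card F 2
  obtain ⟨n, -, h3⟩ := h2
  rw [h3] at hF
  have h4 : Even (2 ^ (n : ℕ)) := (even_two).pow_of_ne_zero n.ne_zero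
  exact (Nat.not_even_iff_odd.2 hF) h4

namespace Model

variable {D : ChevalleyDatum} {F : Type*} [Field F] (m : Model D) {t : Tab}

theorem hinj_of_card [Fintype F] (hH : 1 * Nat.card (D.diagonalSubgroup F) = (Fintype.card F - 1) ^ D.rank) :
    ∀ b b' : ℕ → Fˣ, m.hHom b = m.hHom b' → ∀ i < D.rank, b i = b' i := by
  classical
  have h1 : Nat.card (Fin D.rank → Fˣ) = Nat.card (D.diagonalSubgroup F) := by
    rw [one_mul] at hH
    rw [hH, Nat.card_pi, Finset.prod_const, Finset.card_univ, Fintype.card_fin, natCard_units rfl]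
  have hex : ∀ b : ℕ → Fˣ, m.hHom (ex (D := D) fun i => b i) = m.hHom b := by
    intro b
    apply m.hHom_congr
    intro i hi
    unfold ex
    rw [dif_pos hi]
  have h2 : Function.Surjective (fun b : Fin D.rank → Fˣ => (⟨m.hHom (ex b), m.hHom_mem _⟩ : D.diagonalSubgroup F)) := by
    rintro ⟨g, hg⟩
    obtain ⟨b, rfl⟩ := m.mem_H.1 hg
    exact ⟨fun i => b i, Subtype.ext (hex b)⟩
  have h3 := (Nat.bijective_iff_surjective_and_card _).2 ⟨h2, h1⟩
  intro b b' h i hi
  have h4 : (⟨m.hHom (ex (D := D) fun i => b i), m.hHom_mem _⟩ : D.diagonalSubgroup F) = ⟨m.hHom (ex (D := D) fun i => b' i), m.hHom_mem _⟩ := by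
    apply Subtype.ext
    show m.hHom (ex (D := D) fun i => b i) = m.hHom (ex (D := D) fun i => b' i)
    rw [hex, hex, h]
  have h5 := h3.1 h4
  exact congrFun h5 ⟨i, hi⟩

theorem card_centralizer (c : ℕ → Fˣ) (s : ↥(D.group F)) (hs : (s : GL D.Idx F) = m.dmHom c) :
    Nat.card (Subgroup.centralizer ({s} : Set ↥(D.group F))) = Nat.card (D.group F ⊓ m.Z F c : Subgroup (GL D.Idx F)) := by
  apply Nat.card_congr
  refine ⟨fun x => ⟨x.1.1, x.1.2, ?_⟩, fun x => ⟨⟨x.1, x.2.1⟩, ?_⟩, fun x => rfl, fun x => rfl⟩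
  · show (x.1.1 : GL D.Idx F) ∈ m.Z F c
    rw [m.mem_Z, ← hs]
    have := Subgroup.mem_centralizer_iff.1 x.2 s rfl
    exact congrArg Subtype.val this
  · rw [Subgroup.mem_centralizer_iff]
    rintro _ rfl
    apply Subtype.ext
    have := m.mem_Z.1 x.2.2
    rw [← hs] at this
    exact this

open Classical in
theorem card_pos_Z [Fintype F] (c : ℕ → Fˣ) : Nat.card (D.posUnipotent F ⊓ m.Z F c : Subgroup (GL D.Idx F)) =
    Fintype.card F ^ (((Finset.range D.nroots).filter fun x => m.N ≤ x ∧ m.chi c x = 1).card) := by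
  rw [m.pos_eq_UL, m.good_pos.card_Z c]
  congr 1
  have hnd : ((List.range' m.N m.N).filter fun r => m.chi c r = 1).Nodup :=
    (List.nodup_range' (s := m.N) (n := m.N)).filter _
  rw [← List.toFinset_card_of_nodup hnd]
  congr 1
  ext x
  rw [List.mem_toFinset, List.mem_filter, List.mem_range'_1, Finset.mem_filter, Finset.mem_range, decide_eq_true_iff]
  have := m.nroots_eq
  constructor
  · rintro ⟨h1, h2⟩
    exact ⟨by omega, h1.1, h2⟩
  · rintro ⟨h1, h2, h3⟩
    exact ⟨by omega, h3⟩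

/-- order of the centralizer of the element of a mask -/
theorem card_mask [Fintype F] (h2 : (2 : F) ≠ 0) (b : t.Base D) (ck : t.Checks D) {iT : ℕ}
    (hv : t.ckVec iT = true) {u : SubD} {hM c : ℕ} (hc : t.ckCls u.M hM c = true) (hu : t.ckSub u = true) {L : List StD}
    {J : ℕ} (hJ : ∀ i < u.B.length, tb J i = true) (hL : t.ckCh u J L = true) (hc0 : 0 < c)
    (hcard : Nat.card m.Wg ≤ c * prP L 1) {P : ℕ} (hP : t.ckP u.M P = true) (s : ↥(D.group F))
    (hs : (s : GL D.Idx F) = m.hHom (sgn F u.M)) :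
    Nat.card (Subgroup.centralizer ({s} : Set ↥(D.group F))) =
      Fintype.card F ^ P * Nat.card (D.diagonalSubgroup F) * prP L (Fintype.card F) := by
  classical
  have hne : (-1 : Fˣ) ≠ 1 := by
    intro h3
    have h4 := congrArg (fun u : Fˣ => (u : F)) h3
    simp only [Units.val_neg, Units.val_one] at h4
    apply h2
    linear_combination -h4
  have hN : m.N = t.N := by have := m.nroots_eq; have := b.n2; have := b.nroots; omega
  have h3 := m.card_centralizer (hC D (sgn F u.M)) s hs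
  have h4 := m.card_cent (c := hC D (sgn F u.M)) (m.hHom_mem (F := F) (sgn F u.M)) (RS.els (m.SM F u.M)) (fun w => RS.mem_els)
    (k := P) (by
      rw [m.card_pos_Z]
      congr 1
      rw [← Nat.eq_of_beq_eq_true hP, cntN_eq, ← b.nroots]
      congr 1
      apply Finset.filter_congr
      intro x hx
      have h5 := m.ch_eq (F := F) b (Finset.mem_range.1 hx) u.M
      unfold ch at h5
      rw [h5, hN, Bool.and_eq_true, Nat.ble_eq]
      cases t.par u.M x
      · simp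
      · simp [hne])
  rw [h3, h4]
  congr 1
  rw [← m.sum_SM h2 b ck hv hc hu hJ hL hc0 hcard]
  rfl

theorem exists_bit_ne (h2 : (2 : F) ≠ 0) (hinj : ∀ b b' : ℕ → Fˣ, m.hHom b = m.hHom b' → ∀ i < D.rank, b i = b' i)
    {M i : ℕ} (hi : i < D.rank) (hM : tb M i = true) : m.hHom (sgn F M) ≠ 1 := by
  intro h
  rw [← map_one m.hHom] at h
  have h3 := hinj _ _ h i hi
  unfold sgn at h3
  rw [hM] at h3
  have h4 := congrArg (fun u : Fˣ => (u : F)) h3
  simp only [cond_true, Units.val_neg, Pi.one_apply, Units.val_one] at h4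
  apply h2
  linear_combination -h4

theorem sgn_sq' (M : ℕ) : m.hHom (sgn F M) * m.hHom (sgn F M) = 1 := by
  rw [← map_mul, ← map_one m.hHom]
  congr 1
  funext i
  exact sgn_sq M i

theorem orderOf_mask (h2 : (2 : F) ≠ 0) (hinj : ∀ b b' : ℕ → Fˣ, m.hHom b = m.hHom b' → ∀ i < D.rank, b i = b' i)
    {M i : ℕ} (hi : i < D.rank) (hM : tb M i = true) (s : ↥(D.group F)) (hs : (s : GL D.Idx F) = m.hHom (sgn F M)) :
    orderOf s = 2 := by
  have hfact : Fact (Nat.Prime 2) := ⟨Nat.prime_two⟩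
  apply orderOf_eq_prime
  · apply Subtype.ext
    rw [pow_two]
    show (s : GL D.Idx F) * s = 1
    rw [hs]; exact m.sgn_sq' M
  · intro h
    apply m.exists_bit_ne h2 hinj hi hM
    rw [← hs, h]; rfl

theorem sgn_zero : m.hHom (sgn F 0) = 1 := by
  rw [← map_one m.hHom]
  congr 1
  funext i
  unfold sgn
  rw [tb_eq]
  simp

/-- every involution comes from a mask -/
theorem exists_class [Fintype F] (hodd : Odd (Fintype.card F))
    (hinj : ∀ b b' : ℕ → Fˣ, m.hHom b = m.hHom b' → ∀ i < D.rank, b i = b' i)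
    (hcar : ∀ i j : Fin D.rank, i ≠ j → Even (D.cartan i (D.simple j)) → Even (D.cartan j (D.simple i)) →
      D.cartan i (D.simple j) = 0) (s : ↥(D.group F)) (hs : orderOf s = 2) :
    ∃ M < 2 ^ D.rank, M ≠ 0 ∧ ∃ v : ↥(D.group F), ((v * s * v⁻¹ : ↥(D.group F)) : GL D.Idx F) = m.hHom (sgn F M) := by
  have h2 := two_ne_zero_of_odd hodd
  have h3 : s * s = 1 := by
    have := pow_orderOf_eq_one s
    rwa [hs, pow_two] at this
  obtain ⟨v, hv, h4⟩ := m.conj_H hodd h2 hinj hcar s.2 (congrArg Subtype.val h3)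
  have h5 : v * s * v⁻¹ * (v * s * v⁻¹) = 1 := by
    have h6 : (s : GL D.Idx F) * s = 1 := congrArg Subtype.val h3
    calc v * s * v⁻¹ * (v * s * v⁻¹) = v * (s * s) * v⁻¹ := by group
      _ = 1 := by rw [h6]; group
  obtain ⟨M, hM, h6⟩ := m.exists_mask hinj h4 h5
  refine ⟨M, hM, ?_, ⟨v, hv⟩, h6⟩
  rintro rfl
  rw [m.sgn_zero] at h6
  have h7 : s = 1 := by
    apply Subtype.ext
    show (s : GL D.Idx F) = 1
    have h8 : v * s * v⁻¹ = 1 := h6
    calc (s : GL D.Idx F) = v⁻¹ * (v * s * v⁻¹) * v := by group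
      _ = 1 := by rw [h8]; group
  rw [h7, orderOf_one] at hs
  omega

theorem conj_of_cls (b : t.Base D) {M0 hM c : ℕ} (h : t.ckCls M0 hM c = true) {M : ℕ} (hM' : M < 2 ^ D.rank)
    (h0 : byteAt hM M ≠ 0) (s s' : ↥(D.group F)) (v : ↥(D.group F))
    (hv : ((v * s * v⁻¹ : ↥(D.group F)) : GL D.Idx F) = m.hHom (sgn F M))
    (hs' : (s' : GL D.Idx F) = m.hHom (sgn F M0)) : IsConj s s' := by
  obtain ⟨g, hg, -, -, -, h1⟩ := m.cls_conj (F := F) b h _ M (by rw [← b.rank]; exact hM') rfl h0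
  rw [isConj_iff]
  refine ⟨⟨g, m.N_le_G hg⟩⁻¹ * v, ?_⟩
  apply Subtype.ext
  rw [hs']
  have h2 : g⁻¹ * (((v * s * v⁻¹ : ↥(D.group F)) : GL D.Idx F)) * g = m.hHom (sgn F M0) := by
    rw [hv, mul_assoc, ← h1]; group
  rw [← h2]
  show g⁻¹ * (v : GL D.Idx F) * s * (g⁻¹ * (v : GL D.Idx F))⁻¹ = g⁻¹ * ((v : GL D.Idx F) * s * (v : GL D.Idx F)⁻¹) * g
  group

theorem isConj_cov1 [Fintype F] (hodd : Odd (Fintype.card F)) (b : t.Base D)
    (hinj : ∀ b b' : ℕ → Fˣ, m.hHom b = m.hHom b' → ∀ i < D.rank, b i = b' i)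
    (hcar : ∀ i j : Fin D.rank, i ≠ j → Even (D.cartan i (D.simple j)) → Even (D.cartan j (D.simple i)) →
      D.cartan i (D.simple j) = 0) {M1 h1 c1 : ℕ} (ck1 : t.ckCls M1 h1 c1 = true) (cov : t.ckCov1 h1 = true)
    (s u : ↥(D.group F)) (hs : (s : GL D.Idx F) = m.hHom (sgn F M1)) (hu : orderOf u = 2) : IsConj u s := by
  obtain ⟨M, hM, hM0, v, hv⟩ := m.exists_class hodd hinj hcar u hu
  have h3 := allNat_iff cov M (by rw [t.nm_eq, ← b.rank]; exact hM)
  simp only [Bool.or_eq_true, Bool.not_eq_true'] at h3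
  rcases h3 with h3 | h3
  · exact absurd (Nat.eq_of_beq_eq_true h3) hM0
  · exact m.conj_of_cls b ck1 hM (fun h0 => by rw [h0] at h3; simp at h3) u s v hv hs

theorem isConj_cov2 [Fintype F] (hodd : Odd (Fintype.card F)) (b : t.Base D)
    (hinj : ∀ b b' : ℕ → Fˣ, m.hHom b = m.hHom b' → ∀ i < D.rank, b i = b' i)
    (hcar : ∀ i j : Fin D.rank, i ≠ j → Even (D.cartan i (D.simple j)) → Even (D.cartan j (D.simple i)) →
      D.cartan i (D.simple j) = 0) {M1 h1 c1 M2 h2 c2 : ℕ} (ck1 : t.ckCls M1 h1 c1 = true) (ck2 : t.ckCls M2 h2 c2 = true)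
    (cov : t.ckCov2 h1 h2 = true)
    (s s' u : ↥(D.group F)) (hs : (s : GL D.Idx F) = m.hHom (sgn F M1)) (hs' : (s' : GL D.Idx F) = m.hHom (sgn F M2))
    (hu : orderOf u = 2) : IsConj u s ∨ IsConj u s' := by
  obtain ⟨M, hM, hM0, v, hv⟩ := m.exists_class hodd hinj hcar u hu
  have h3 := allNat_iff cov M (by rw [t.nm_eq, ← b.rank]; exact hM)
  simp only [Bool.or_eq_true, Bool.not_eq_true'] at h3
  rcases h3 with h3 | h3 | h3
  · exact absurd (Nat.eq_of_beq_eq_true h3) hM0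
  · exact Or.inl (m.conj_of_cls b ck1 hM (fun h0 => by rw [h0] at h3; simp at h3) u s v hv hs)
  · exact Or.inr (m.conj_of_cls b ck2 hM (fun h0 => by rw [h0] at h3; simp at h3) u s' v hv hs')

end Model

/-- conjugate elements have centralizers of equal order -/
theorem card_centralizer_of_isConj {G : Type*} [Group G] {s t : G} (h : IsConj s t) :
    Nat.card (Subgroup.centralizer ({s} : Set G)) = Nat.card (Subgroup.centralizer ({t} : Set G)) := by
  obtain ⟨g, rfl⟩ := isConj_iff.1 h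
  apply Nat.card_congr
  refine ⟨fun x => ⟨g * x.1 * g⁻¹, ?_⟩, fun x => ⟨g⁻¹ * x.1 * g, ?_⟩, fun x => ?_, fun x => ?_⟩
  · rw [Subgroup.mem_centralizer_iff]
    intro y hy
    rw [Set.mem_singleton_iff.1 hy]
    have := Subgroup.mem_centralizer_iff.1 x.2 s rfl
    calc g * s * g⁻¹ * (g * x.1 * g⁻¹) = g * (s * x.1) * g⁻¹ := by group
      _ = g * x.1 * g⁻¹ * (g * s * g⁻¹) := by rw [this]; group
  · rw [Subgroup.mem_centralizer_iff]
    intro y hy
    rw [Set.mem_singleton_iff.1 hy]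
    have := Subgroup.mem_centralizer_iff.1 x.2 (g * s * g⁻¹) rfl
    calc s * (g⁻¹ * x.1 * g) = g⁻¹ * (g * s * g⁻¹ * x.1) * g := by group
      _ = g⁻¹ * x.1 * g * s := by rw [this]; group
  · apply Subtype.ext
    show g⁻¹ * (g * x.1 * g⁻¹) * g = x.1
    group
  · apply Subtype.ext
    show g * (g⁻¹ * x.1 * g) * g⁻¹ = x.1
    group

end Cfsg.Agent.H6.Chev
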