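import Mathlib
import Cfsg.Agent.H6_Inv10

/-! Involutions of groups of type G2: tables. -/

set_option autoImplicit false
set_option maxRecDepth 100000
set_option linter.unusedSimpArgs false

namespace Cfsg.Agent.H6.Chev

open Cfsg Cfsg.Lie Cfsg.Lie.ChevalleyDatum

def ivG2 : ℕ := 0x3020100

theorem ckivG2 : tabG2.ckVec ivG2 = true := by
  decide +kernel


def hmG20 : ℕ := 0x2030100

def subG20 : SubD where
  M := 1
  W := [([], 0), ([1, 0], 1)]
  B := [7, 11]
  sT := 0x5030207010a040908060b0b060809040a010702030500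

def stsG20 : List StD := [
  ⟨1, 0, 0x20000000000000000000001, [1, 1]⟩,
  ⟨0, 1, 0x20000000100, [1, 1]⟩]

theorem ckclsG20 : tabG2.ckCls subG20.M hmG20 3 = true := by
  decide +kernel

theorem cksubG20 : tabG2.ckSub subG20 = true := by
  decide +kernel

theorem ckchG20 : tabG2.ckCh subG20 3 stsG20 = true := by
  decide +kernel

theorem ckpG20 : tabG2.ckP subG20.M 2 = true := by
  decide +kernel

theorem pr1G20 : prP stsG20 1 = 4 := by
  decide +kernel


set_option maxHeartbeats 4000000 in
theorem przG20 (x : ℤ) : (x - 1) ^ 2 * (poly [1, 1] x * poly [1, 1] x) = (x ^ 2 - 1) ^ 2 := by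
  simp only [poly, Nat.cast_ofNat, Nat.cast_one, Nat.cast_zero]
  ring


theorem ckcovG2 : tabG2.ckCov1 hmG20 = true := by
  decide +kernel


end Cfsg.Agent.H6.Chev
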