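import Mathlib
import Cfsg.Agent.H6_InvG2
import Cfsg.Agent.H6_ChevCox2

/-! Involutions of groups of type G2: orders of centralizers. -/

set_option autoImplicit false
set_option maxRecDepth 100000

namespace Cfsg.Agent.H6.Chev

open Cfsg Cfsg.Lie Cfsg.Lie.ChevalleyDatum

theorem cardWgG2 : Nat.card modelG2.Wg = 12 := by
  exact modelG2.card_Wg.trans ((modelG2.card_cox CoxeterMatrix.G₂ coxG2).symm.trans cardWG2)

theorem ckcarG2 : ∀ i < 2, ∀ j < 2, i ≠ j → Even (tabG2.c i (nth tabG2.S j)) →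
    Even (tabG2.c j (nth tabG2.S i)) → tabG2.c i (nth tabG2.S j) = 0 := by
  decide +kernel

theorem hcarG2 (i j : Fin chevG2.rank) (hij : i ≠ j) (h1 : Even (chevG2.cartan i (chevG2.simple j)))
    (h2 : Even (chevG2.cartan j (chevG2.simple i))) : chevG2.cartan i (chevG2.simple j) = 0 := by
  have hl : chevG2.rank = 2 := rfl
  have hc : ∀ i < 2, ∀ j < 2, chevG2.cartan i (chevG2.simple j) = tabG2.c i (nth tabG2.S j) := by
    intro i hi j hj
    rw [baseG2.simple_eq hj]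
    exact baseG2.cartan_eq hi (Tab.S_facts baseG2 checksG2 hj).1
  rw [hc i i.2 j j.2] at h1 ⊢
  rw [hc j j.2 i i.2] at h2
  exact ckcarG2 i i.2 j j.2 (fun h => hij (Fin.ext h)) h1 h2

section

variable {F : Type*} [Field F] [Fintype F]

theorem hinjG2 : ∀ b b' : ℕ → Fˣ, modelG2.hHom b = modelG2.hHom b' → ∀ i < chevG2.rank, b i = b' i :=
  modelG2.hinj_of_card (torG2' rfl)

theorem prnG20 {q : ℕ} (hq : 1 ≤ q) : (q - 1) ^ 2 * prP stsG20 q = (q ^ 2 - 1) ^ 2 := by
  have h := przG20 (q : ℤ)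
  have e : ∀ d, ((q ^ d - 1 : ℕ) : ℤ) = (q : ℤ) ^ d - 1 := fun d => by
    rw [Nat.cast_sub (Nat.one_le_pow _ _ hq)]; simp
  have e' : ((q - 1 : ℕ) : ℤ) = (q : ℤ) - 1 := by rw [Nat.cast_sub hq]; simp
  apply Nat.cast_injective (R := ℤ)
  unfold stsG20
  simp only [prP_cons, prP_nil, Nat.cast_mul, Nat.cast_pow, poly_cast, Nat.cast_one, e', e]
  linear_combination h

theorem centG20 (hF : Odd (Fintype.card F)) (s : ↥(chevG2.group F))
    (hs : (s : GL chevG2.Idx F) = modelG2.hHom (sgn F 1)) :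
    Nat.card (Subgroup.centralizer ({s} : Set ↥(chevG2.group F))) =
      Fintype.card F ^ 2 * ((Fintype.card F ^ 2 - 1) ^ 2) := by
  have h2 := two_ne_zero_of_odd hF
  have h1 : 1 * Nat.card (chevG2.diagonalSubgroup F) = (Fintype.card F - 1) ^ 2 := torG2' rfl
  rw [one_mul] at h1
  have h3 := modelG2.card_mask (F := F) h2 baseG2 checksG2 ckivG2 ckclsG20 cksubG20 (J := 3)
    (by decide +kernel) ckchG20 (by norm_num) (by rw [cardWgG2, pr1G20]) ckpG20 s hs
  rw [h3, h1, mul_assoc, prnG20 Fintype.card_pos]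

end

end Cfsg.Agent.H6.Chev
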