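import Mathlib
import Cfsg.Agent.H6_InvG2b
import Cfsg.Agent.H6_ChevRk1
import Cfsg.Agent.H5_SL2

/-! Involutions of groups of type G2: structure of the centralizer. -/

set_option autoImplicit false
set_option maxRecDepth 100000
set_option linter.unusedSectionVars false

namespace Cfsg.Agent.H6.Chev

open Cfsg Cfsg.Lie Cfsg.Lie.ChevalleyDatum

open Matrix in
theorem abs_G2 {G : Type*} [Group G] [Finite G] {F : Type*} [Field F] [Fintype F] (h2 : (2 : F) ≠ 0)
    (ψ₁ ψ₂ : SpecialLinearGroup (Fin 2) F →* G) (i1 : Function.Injective ψ₁) (i2 : Function.Injective ψ₂)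
    (hcomm : ∀ x y, ψ₁ x * ψ₂ y = ψ₂ y * ψ₁ x) (t : G) (h1t : ψ₁ (-1) = t) (h2t : ψ₂ (-1) = t)
    (hc : Nat.card (Subgroup.centralizer ({t} : Set G)) = Fintype.card F ^ 2 * (Fintype.card F ^ 2 - 1) ^ 2) :
    ∃ L₁ L₂ : Subgroup G, Nonempty (L₁ ≃* SpecialLinearGroup (Fin 2) F) ∧ Nonempty (L₂ ≃* SpecialLinearGroup (Fin 2) F) ∧
      (∀ x ∈ L₁, ∀ y ∈ L₂, x * y = y * x) ∧ L₁ ⊓ L₂ = Subgroup.zpowers t ∧
      L₁ ⊔ L₂ ≤ Subgroup.centralizer ({t} : Set G) ∧ (L₁ ⊔ L₂).relIndex (Subgroup.centralizer ({t} : Set G)) = 2 := by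
  have hcom : ∀ x ∈ ψ₁.range, ∀ y ∈ ψ₂.range, x * y = y * x := by
    rintro _ ⟨x, rfl⟩ _ ⟨y, rfl⟩
    exact hcomm x y
  have hle : ψ₁.range ⊔ ψ₂.range ≤ Subgroup.centralizer ({t} : Set G) := by
    rw [sup_le_iff]
    constructor
    · rintro _ ⟨x, rfl⟩
      rw [Subgroup.mem_centralizer_iff]
      rintro _ rfl
      rw [← h2t]
      exact (hcomm x _).symm
    · rintro _ ⟨x, rfl⟩
      rw [Subgroup.mem_centralizer_iff]
      rintro _ rfl
      rw [← h1t]
      exact hcomm _ x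
  have hne : (-1 : SpecialLinearGroup (Fin 2) F) ≠ 1 := by
    intro h
    have h3 := congrArg (fun g : SpecialLinearGroup (Fin 2) F => (g : Matrix (Fin 2) (Fin 2) F) 0 0) h
    simp at h3
    apply h2
    linear_combination -h3
  have ht1 : t ≠ 1 := by
    intro h
    apply hne
    apply i1
    rw [h1t, h, map_one]
  have htt : t * t = 1 := by
    rw [← h1t, ← map_mul, neg_one_mul, neg_neg, map_one]
  have hinf : ψ₁.range ⊓ ψ₂.range = Subgroup.zpowers t := by
    apply le_antisymm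
    · rintro x ⟨⟨g, rfl⟩, hx2⟩
      have hg : g ∈ Subgroup.center (SpecialLinearGroup (Fin 2) F) := by
        rw [Subgroup.mem_center_iff]
        intro y
        apply i1
        rw [map_mul, map_mul]
        exact hcom _ ⟨y, rfl⟩ _ hx2
      rw [Matrix.SpecialLinearGroup.mem_center_iff] at hg
      obtain ⟨r, hr, hg⟩ := hg
      rw [Fintype.card_fin, pow_two, mul_self_eq_one_iff] at hr
      rcases hr with rfl | rfl
      · have : g = 1 := by
          apply Subtype.ext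
          rw [← hg, map_one]; rfl
        rw [this, map_one]; exact one_mem _
      · have : g = -1 := by
          apply Subtype.ext
          rw [← hg]
          ext i j
          fin_cases i <;> fin_cases j <;> simp [Matrix.scalar_apply]
        rw [this, h1t]; exact Subgroup.mem_zpowers t
    · rw [Subgroup.zpowers_le]
      exact ⟨⟨_, h1t⟩, ⟨_, h2t⟩⟩
  have hq : 1 ≤ Fintype.card F := Fintype.card_pos
  have hq1 : 1 < Fintype.card F := Fintype.one_lt_card
  have hS : Nat.card (SpecialLinearGroup (Fin 2) F) = Fintype.card F * (Fintype.card F ^ 2 - 1) := by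
    have h := Cfsg.Agent.H5.SL2.card_SL2 (F := F)
    have h' : Fintype.card F ^ 2 - 1 = (Fintype.card F + 1) * (Fintype.card F - 1) := by
      have := Nat.sq_sub_sq (Fintype.card F) 1
      simpa using this
    rw [h']
    refine h.trans ?_
    ring
  have hc1 : Nat.card ψ₁.range = Fintype.card F * (Fintype.card F ^ 2 - 1) := by
    rw [← hS]; exact (Nat.card_congr (MonoidHom.ofInjective i1).toEquiv).symm
  have hc2 : Nat.card ψ₂.range = Fintype.card F * (Fintype.card F ^ 2 - 1) := by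
    rw [← hS]; exact (Nat.card_congr (MonoidHom.ofInjective i2).toEquiv).symm
  -- order of the join
  have hci : Nat.card (ψ₁.range ⊓ ψ₂.range : Subgroup G) = 2 := by
    rw [hinf, Nat.card_zpowers]
    have hfact : Fact (Nat.Prime 2) := ⟨Nat.prime_two⟩
    exact orderOf_eq_prime (by rw [pow_two]; exact htt) ht1
  have hcs : Nat.card (ψ₁.range ⊔ ψ₂.range : Subgroup G) * 2 = Nat.card ψ₁.range * Nat.card ψ₂.range := by
    let Φ := MonoidHom.noncommCoprod ψ₁.range.subtype ψ₂.range.subtype (fun x y => hcom x.1 x.2 y.1 y.2)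
    have e1 : Φ.range = ψ₁.range ⊔ ψ₂.range := by
      have := MonoidHom.noncommCoprod_range ψ₁.range.subtype ψ₂.range.subtype (fun x y => hcom x.1 x.2 y.1 y.2)
      rw [Subgroup.range_subtype, Subgroup.range_subtype] at this
      exact this
    have e2 : Nat.card Φ.ker = Nat.card (ψ₁.range ⊓ ψ₂.range : Subgroup G) := by
      apply Nat.card_congr
      refine ⟨fun x => ⟨x.1.1.1, x.1.1.2, ?_⟩, fun x => ⟨(⟨x.1, x.2.1⟩, ⟨x.1⁻¹, inv_mem x.2.2⟩), ?_⟩, fun x => ?_, fun x => ?_⟩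
      · have h3 : (x.1.1.1 : G) * x.1.2.1 = 1 := x.2
        have h4 : (x.1.1.1 : G) = (x.1.2.1 : G)⁻¹ := eq_inv_of_mul_eq_one_left h3
        show (x.1.1.1 : G) ∈ ψ₂.range
        rw [h4]
        exact inv_mem x.1.2.2
      · show (x.1 : G) * x.1⁻¹ = 1
        exact mul_inv_cancel _
      · have h3 : (x.1.1.1 : G) * x.1.2.1 = 1 := x.2
        have h4 : (x.1.2.1 : G) = (x.1.1.1 : G)⁻¹ := eq_inv_of_mul_eq_one_right h3
        apply Subtype.ext
        apply Prod.ext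
        · rfl
        · apply Subtype.ext
          exact h4.symm
      · rfl
    have e3 := Subgroup.card_mul_index Φ.ker
    rw [Subgroup.index_ker, e2, hci, e1, Nat.card_prod] at e3
    rw [mul_comm]; exact e3
  refine ⟨ψ₁.range, ψ₂.range, ⟨(MonoidHom.ofInjective i1).symm⟩, ⟨(MonoidHom.ofInjective i2).symm⟩, hcom, hinf, hle, ?_⟩
  have h6 : (ψ₁.range ⊔ ψ₂.range).relIndex (Subgroup.centralizer ({t} : Set G)) * Nat.card (ψ₁.range ⊔ ψ₂.range : Subgroup G) =
      Nat.card (Subgroup.centralizer ({t} : Set G)) := by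
    have h8 := Subgroup.card_mul_index ((ψ₁.range ⊔ ψ₂.range).subgroupOf (Subgroup.centralizer ({t} : Set G)))
    rw [mul_comm, Nat.card_congr (Subgroup.subgroupOfEquivOfLe hle).toEquiv] at h8
    exact h8
  have h7 : 0 < Nat.card (ψ₁.range ⊔ ψ₂.range : Subgroup G) := Nat.card_pos
  rw [hc1, hc2] at hcs
  apply Nat.eq_of_mul_eq_mul_right h7
  rw [h6, hc, mul_comm 2, hcs]
  ring

namespace Model

variable {D : ChevalleyDatum} {F : Type*} [Field F] (m : Model D)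

/-- the `SL₂` of a positive root -/
theorem exists_sl2' {r : ℕ} (hr : r < D.nroots) (hrN : m.N ≤ r) (hone : ∀ a : Fˣ, m.hh r (a : F) = 1 → a = 1) :
    ∃ φ : Matrix.SpecialLinearGroup (Fin 2) F →* GL D.Idx F, Function.Injective φ ∧ φ (-1) = m.hh r (-1) ∧
      ∀ g, φ g ∈ D.rootSubgroup F r ⊔ D.rootSubgroup F (D.neg r) := by
  obtain ⟨φ, hf, hφ⟩ := (m.rk1 F hr).exists_hom
  have hX : ∀ t : F, m.X r t ∈ D.rootSubgroup F r ⊔ D.rootSubgroup F (D.neg r) := fun t =>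
    Subgroup.mem_sup_left (m.mem_rootSubgroup.2 ⟨t, rfl⟩)
  have hY : ∀ t : F, m.X (D.neg r) t ∈ D.rootSubgroup F r ⊔ D.rootSubgroup F (D.neg r) := fun t =>
    Subgroup.mem_sup_right (m.mem_rootSubgroup.2 ⟨t, rfl⟩)
  have hn : ∀ t : F, m.nn r t ∈ D.rootSubgroup F r ⊔ D.rootSubgroup F (D.neg r) := fun t =>
    mul_mem (mul_mem (hX _) (hY _)) (hX _)
  have e2 : ∀ g : Matrix (Fin 2) (Fin 2) F, g = !![g 0 0, g 0 1; g 1 0, g 1 1] := Matrix.eta_fin_two
  refine ⟨φ, ?_, ?_, ?_⟩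
  · rw [injective_iff_map_eq_one]
    intro g hg
    rw [hf] at hg
    have hdet : (g : Matrix (Fin 2) (Fin 2) F) 0 0 * (g : Matrix (Fin 2) (Fin 2) F) 1 1 -
      (g : Matrix (Fin 2) (Fin 2) F) 0 1 * (g : Matrix (Fin 2) (Fin 2) F) 1 0 = 1 := by
      rw [← Matrix.det_fin_two]; exact g.2
    rw [e2 (g : Matrix (Fin 2) (Fin 2) F)] at hg
    by_cases hc : (g : Matrix (Fin 2) (Fin 2) F) 1 0 = 0
    · rw [SL2.RankOne.f_of_eq _ hc] at hg
      rw [hc, mul_zero, sub_zero] at hdet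
      have ha : (g : Matrix (Fin 2) (Fin 2) F) 0 0 ≠ 0 := left_ne_zero_of_mul_eq_one hdet
      change m.hh r ((g : Matrix (Fin 2) (Fin 2) F) 0 0) *
        m.X r ((g : Matrix (Fin 2) (Fin 2) F) 0 1 / (g : Matrix (Fin 2) (Fin 2) F) 0 0) = 1 at hg
      have h1 : m.X r ((g : Matrix (Fin 2) (Fin 2) F) 0 1 / (g : Matrix (Fin 2) (Fin 2) F) 0 0) ∈
          D.posUnipotent F ⊓ D.diagonalSubgroup F := by
        refine Subgroup.mem_inf.2 ⟨m.X_mem_pos hrN _, ?_⟩
        rw [eq_inv_of_mul_eq_one_right hg]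
        exact inv_mem (m.hh_mem_H hr (Units.mk0 _ ha))
      rw [m.U_inf_H, Subgroup.mem_bot] at h1
      have h2 := m.X_eq_one hr h1
      rw [h1, mul_one] at hg
      have h3 := hone (Units.mk0 _ ha) hg
      have h4 : (g : Matrix (Fin 2) (Fin 2) F) 0 0 = 1 := congrArg (fun u : Fˣ => (u : F)) h3
      have h5 : (g : Matrix (Fin 2) (Fin 2) F) 0 1 = 0 := by
        rw [div_eq_zero_iff] at h2
        exact h2.resolve_right ha
      have h6 : (g : Matrix (Fin 2) (Fin 2) F) 1 1 = 1 := by rw [h4, one_mul] at hdet; exact hdet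
      apply Subtype.ext
      rw [e2 (g : Matrix (Fin 2) (Fin 2) F), h4, h5, h6, hc]
      exact Matrix.one_fin_two.symm
    · rw [SL2.RankOne.f_of_ne _ hc] at hg
      exfalso
      obtain ⟨u, hu⟩ : ∃ u, u = -((g : Matrix (Fin 2) (Fin 2) F) 1 0)⁻¹ := ⟨_, rfl⟩
      have hu0 : u ≠ 0 := by rw [hu]; exact neg_ne_zero.2 (inv_ne_zero hc)
      rw [← hu] at hg
      change m.X r _ * m.nn r u * m.X r _ = 1 at hg
      have h1 : m.nn r u ∈ D.posUnipotent F := by
        obtain ⟨a, ha⟩ : ∃ a, a = (g : Matrix (Fin 2) (Fin 2) F) 0 0 / (g : Matrix (Fin 2) (Fin 2) F) 1 0 := ⟨_, rfl⟩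
        obtain ⟨b, hb⟩ : ∃ b, b = (g : Matrix (Fin 2) (Fin 2) F) 1 1 / (g : Matrix (Fin 2) (Fin 2) F) 1 0 := ⟨_, rfl⟩
        rw [← ha, ← hb] at hg
        have : m.nn r u = (m.X r a)⁻¹ * (m.X r b)⁻¹ := by
          calc m.nn r u = (m.X r a)⁻¹ * (m.X r a * m.nn r u * m.X r b) * (m.X r b)⁻¹ := by group
            _ = _ := by rw [hg, mul_one]
        rw [this]
        exact mul_mem (inv_mem (m.X_mem_pos hrN _)) (inv_mem (m.X_mem_pos hrN _))
      have h2 := m.nn_X hr hu0 (1 : F)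
      have h3 : m.X (D.neg r) (-(u ^ 2)⁻¹ * 1) ∈ D.borelSubgroup F ⊓ D.negUnipotent F := by
        refine Subgroup.mem_inf.2 ⟨U_le_B ?_, m.X_mem_neg ((m.neg_lt_iff hr).2 hrN) _⟩
        have : m.X (D.neg r) (-(u ^ 2)⁻¹ * 1) = m.nn r u * m.X r 1 * (m.nn r u)⁻¹ := by
          rw [h2]; group
        rw [this]
        exact mul_mem (mul_mem h1 (m.X_mem_pos hrN _)) (inv_mem h1)
      rw [m.B_inf_V, Subgroup.mem_bot] at h3
      have h4 := m.X_eq_one (m.neg_lt hr) h3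
      rw [mul_one, neg_eq_zero] at h4
      exact hu0 (by simpa using h4)
  · rw [hf]
    have : ((-1 : Matrix.SpecialLinearGroup (Fin 2) F) : Matrix (Fin 2) (Fin 2) F) = !![-1, 0; 0, -1] := by
      ext i j
      fin_cases i <;> fin_cases j <;> simp
    rw [this, SL2.RankOne.f_of_eq _ rfl]
    change m.hh r (-1) * m.X r (0 / -1) = _
    rw [zero_div, m.X_zero, mul_one]
  · intro g
    rw [hf]
    unfold SL2.RankOne.f
    split_ifs
    · exact mul_mem (mul_mem (hn _) (hn _)) (hX _)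
    · exact mul_mem (mul_mem (hX _) (hn _)) (hX _)

include m in
theorem rootSub_commute {r s : ℕ} (hr : r < D.nroots) (hs : s < D.nroots) (h1 : s ≠ r) (h2 : s ≠ D.neg r)
    (h : D.commTerms r s = []) {x y : GL D.Idx F} (hx : x ∈ D.rootSubgroup F r) (hy : y ∈ D.rootSubgroup F s) :
    x * y = y * x := by
  obtain ⟨t, rfl⟩ := m.mem_rootSubgroup.1 hx
  obtain ⟨u, rfl⟩ := m.mem_rootSubgroup.1 hy
  exact m.X_commute hr hs h1 h2 (fun c hc => by rw [h] at hc; simp at hc) t u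

end Model

theorem sup_commute {G : Type*} [Group G] {A B C E : Subgroup G}
    (h1 : ∀ x ∈ A, ∀ y ∈ C, x * y = y * x) (h2 : ∀ x ∈ A, ∀ y ∈ E, x * y = y * x)
    (h3 : ∀ x ∈ B, ∀ y ∈ C, x * y = y * x) (h4 : ∀ x ∈ B, ∀ y ∈ E, x * y = y * x) :
    ∀ x ∈ A ⊔ B, ∀ y ∈ C ⊔ E, x * y = y * x := by
  have key : ∀ A' : Subgroup G, (∀ x ∈ A', ∀ y ∈ C, x * y = y * x) → (∀ x ∈ A', ∀ y ∈ E, x * y = y * x) →
      A' ≤ Subgroup.centralizer ((C ⊔ E : Subgroup G) : Set G) := by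
    intro A' ha hb
    rw [Subgroup.le_centralizer_iff, sup_le_iff]
    constructor
    · intro y hy
      rw [Subgroup.mem_centralizer_iff]
      intro x hx
      exact ha x hx y hy
    · intro y hy
      rw [Subgroup.mem_centralizer_iff]
      intro x hx
      exact hb x hx y hy
  have h5 : A ⊔ B ≤ Subgroup.centralizer ((C ⊔ E : Subgroup G) : Set G) := sup_le (key A h1 h2) (key B h3 h4)
  intro x hx y hy
  exact ((Subgroup.mem_centralizer_iff.1 (h5 hx)) y hy).symm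

theorem corG2 : cor chevG2 7 0 = 1 ∧ cor chevG2 7 1 = 0 ∧ cor chevG2 11 0 = 1 ∧ cor chevG2 11 1 = 2 := by
  decide +kernel

theorem commG2 : chevG2.commTerms 7 11 = [] ∧ chevG2.commTerms 7 0 = [] ∧ chevG2.commTerms 4 11 = [] ∧
    chevG2.commTerms 4 0 = [] ∧ chevG2.neg 7 = 4 ∧ chevG2.neg 11 = 0 ∧ chevG2.neg 4 = 7 := by
  decide +kernel

theorem exG2 {F : Type*} [Field F] [Fintype F] (h2 : (2 : F) ≠ 0) (t : ↥(chevG2.group F))
    (ht : (t : GL chevG2.Idx F) = modelG2.hHom (sgn F 1)) :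
    ∃ ψ₁ ψ₂ : Matrix.SpecialLinearGroup (Fin 2) F →* ↥(chevG2.group F), Function.Injective ψ₁ ∧ Function.Injective ψ₂ ∧
      (∀ x y, ψ₁ x * ψ₂ y = ψ₂ y * ψ₁ x) ∧ ψ₁ (-1) = t ∧ ψ₂ (-1) = t := by
  obtain ⟨c1, c2, c3, c4⟩ := corG2
  obtain ⟨d1, d2, d3, d4, d5, d6, d7⟩ := commG2
  have hl : chevG2.rank = 2 := rfl
  have hn : chevG2.nroots = 12 := rfl
  have hN : modelG2.N = 6 := rfl
  have hone : ∀ r, r < chevG2.nroots → cor chevG2 r 0 = 1 → ∀ a : Fˣ, modelG2.hh r (a : F) = 1 → a = 1 := by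
    intro r hr hc a ha
    rw [modelG2.hh_eq_hHom hr a, ← map_one modelG2.hHom] at ha
    have := hinjG2 _ _ ha 0 (by rw [hl]; norm_num)
    simpa [hc] using this
  have hhm : ∀ r, r < chevG2.nroots → cor chevG2 r 0 = 1 → (cor chevG2 r 1 = 0 ∨ cor chevG2 r 1 = 2) →
      modelG2.hh r (-1 : F) = modelG2.hHom (sgn F 1) := by
    intro r hr hc0 hc1
    have e1 := modelG2.hh_eq_hHom hr (-1 : Fˣ)
    rw [Units.val_neg, Units.val_one] at e1
    rw [e1]
    apply modelG2.hHom_congr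
    intro i hi
    rw [hl] at hi
    interval_cases i
    · rw [hc0, zpow_one]; rfl
    · rcases hc1 with hc1 | hc1
      · rw [hc1, zpow_zero]; rfl
      · rw [hc1]
        show (-1 : Fˣ) ^ (2 : ℤ) = 1
        rw [zpow_ofNat]; simp
  obtain ⟨φ₁, i1, e1, g1⟩ := modelG2.exists_sl2' (F := F) (r := 7) (by rw [hn]; norm_num) (by rw [hN]; norm_num)
    (hone 7 (by rw [hn]; norm_num) c1)
  obtain ⟨φ₂, i2, e2, g2⟩ := modelG2.exists_sl2' (F := F) (r := 11) (by rw [hn]; norm_num) (by rw [hN]; norm_num)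
    (hone 11 (by rw [hn]; norm_num) c3)
  rw [hhm 7 (by rw [hn]; norm_num) c1 (Or.inl c2)] at e1
  rw [hhm 11 (by rw [hn]; norm_num) c3 (Or.inr c4)] at e2
  rw [d5] at g1
  rw [d6] at g2
  have hG : ∀ r : ℕ, chevG2.rootSubgroup F r ≤ chevG2.group F := by
    intro r x hx
    obtain ⟨u, rfl⟩ := modelG2.mem_rootSubgroup.1 hx
    exact modelG2.X_mem_group r u
  have hm1 : ∀ g, φ₁ g ∈ chevG2.group F := fun g => (sup_le (hG 7) (hG 4)) (g1 g)
  have hm2 : ∀ g, φ₂ g ∈ chevG2.group F := fun g => (sup_le (hG 11) (hG 0)) (g2 g)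
  refine ⟨φ₁.codRestrict _ hm1, φ₂.codRestrict _ hm2, ?_, ?_, ?_, ?_, ?_⟩
  · intro x y h
    exact i1 (congrArg Subtype.val h)
  · intro x y h
    exact i2 (congrArg Subtype.val h)
  · intro x y
    apply Subtype.ext
    show φ₁ x * φ₂ y = φ₂ y * φ₁ x
    refine sup_commute ?_ ?_ ?_ ?_ _ (g1 x) _ (g2 y)
    · intro a ha b hb
      exact modelG2.rootSub_commute (by rw [hn]; norm_num) (by rw [hn]; norm_num) (by norm_num) (by rw [d5]; norm_num) d1 ha hb
    · intro a ha b hb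
      exact modelG2.rootSub_commute (by rw [hn]; norm_num) (by rw [hn]; norm_num) (by norm_num) (by rw [d5]; norm_num) d2 ha hb
    · intro a ha b hb
      exact modelG2.rootSub_commute (by rw [hn]; norm_num) (by rw [hn]; norm_num) (by norm_num) (by rw [d7]; norm_num) d3 ha hb
    · intro a ha b hb
      exact modelG2.rootSub_commute (by rw [hn]; norm_num) (by rw [hn]; norm_num) (by norm_num) (by rw [d7]; norm_num) d4 ha hb
  · apply Subtype.ext
    show φ₁ (-1) = t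
    rw [e1, ht]
  · apply Subtype.ext
    show φ₂ (-1) = t
    rw [e2, ht]

end Cfsg.Agent.H6.Chev
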