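import Cfsg.Agent.H6_Ree31
import Cfsg.Agent.H12_CN

/-!
The Ree groups: solvable subgroups lie in local normalisers.
-/

set_option autoImplicit false
set_option linter.unusedSectionVars false

namespace Cfsg.Agent.H6.Ree

open Cfsg Cfsg.Lie
open scoped Pointwise

local notation "SL2" => Matrix.SpecialLinearGroup (Fin 2)

section sl2

variable {K : Type*} [Field K]

/-- an element of `SL₂` of square `-1` with suitable determinant form is conjugate to `±ww` -/
theorem sl2_conj_ww (hsq : ∀ x : K, x ≠ 0 → ∃ s : K, x = s ^ 2 ∨ x = -(s ^ 2)) (hno : ∀ x : K, x ^ 2 ≠ -1) {z : SL2 K}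
    (hz : z * z = -1) : ∃ g : SL2 K, z * g = g * ww ∨ z * g = -(g * ww) := by
  have hzf := eta_form z
  have e := mul_form hzf hzf
  rw [hz, neg_form one_form] at e
  have e00 : -1 = z 0 0 * z 0 0 + z 0 1 * z 1 0 := congrFun (congrFun e 0) 0
  have e10 : -0 = z 1 0 * z 0 0 + z 1 1 * z 1 0 := congrFun (congrFun e 1) 0
  have hw : z 1 0 ≠ 0 := by
    intro h0
    rw [h0] at e00
    apply hno (z 0 0)
    linear_combination -e00
  have htr : z 1 1 = - z 0 0 := by
    have h1 : z 1 0 * (z 0 0 + z 1 1) = 0 := by linear_combination -e10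
    have h2 := (mul_eq_zero.1 h1).resolve_left hw
    linear_combination h2
  obtain ⟨s, hs⟩ := hsq (z 1 0) hw
  have hs0 : s ≠ 0 := by
    rintro rfl
    rcases hs with h | h <;> apply hw <;> rw [h] <;> ring
  rcases hs with hs | hs
  · -- g = [v, z v], v = (1/s, 0)
    have hdet : (!![s⁻¹, z 0 0 * s⁻¹; 0, z 1 0 * s⁻¹] : Matrix (Fin 2) (Fin 2) K).det = 1 := by
      rw [Matrix.det_fin_two_of, hs]
      field_simp
      ring
    have hg : ((⟨_, hdet⟩ : SL2 K) : Matrix (Fin 2) (Fin 2) K) = !![s⁻¹, z 0 0 * s⁻¹; 0, z 1 0 * s⁻¹] := rfl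
    refine ⟨⟨_, hdet⟩, Or.inr ?_⟩
    refine sl2_ext' (mul_form hzf hg) (neg_form (mul_form hg ww_form)) ?_ ?_ ?_ ?_
    · ring
    · linear_combination (-s⁻¹) * e00
    · ring
    · rw [htr]; ring
  · have hdet : (!![s⁻¹, -(z 0 0 * s⁻¹); 0, -(z 1 0 * s⁻¹)] : Matrix (Fin 2) (Fin 2) K).det = 1 := by
      rw [Matrix.det_fin_two_of, hs]
      field_simp
      ring
    have hg : ((⟨_, hdet⟩ : SL2 K) : Matrix (Fin 2) (Fin 2) K) = !![s⁻¹, -(z 0 0 * s⁻¹); 0, -(z 1 0 * s⁻¹)] := rfl
    refine ⟨⟨_, hdet⟩, Or.inl ?_⟩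
    refine sl2_ext' (mul_form hzf hg) (mul_form hg ww_form) ?_ ?_ ?_ ?_
    · ring
    · linear_combination s⁻¹ * e00
    · ring
    · rw [htr]; ring

theorem sq_or_neg [Fintype K] {m : ℕ} (hK : Fintype.card K = 3 ^ (2 * m + 1)) (h3 : (3 : K) = 0) (x : K) (hx : x ≠ 0) :
    ∃ s : K, x = s ^ 2 ∨ x = -(s ^ 2) := by
  have key : ∀ u : Kˣ, Odd (orderOf u) → ∃ s : K, (u : K) = s ^ 2 := by
    rintro u ⟨k, hk⟩
    refine ⟨((u ^ (k + 1) : Kˣ) : K), ?_⟩
    rw [← Units.val_pow_eq_pow_val, ← pow_mul]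
    congr 1
    have : (k + 1) * 2 = orderOf u + 1 := by omega
    rw [this, pow_succ, pow_orderOf_eq_one, one_mul]
  rcases pm_odd hK h3 (Units.mk0 x hx) with h | h
  · obtain ⟨s, hs⟩ := key _ h
    exact ⟨s, Or.inl hs⟩
  · obtain ⟨s, hs⟩ := key _ h
    refine ⟨s, Or.inr ?_⟩
    rw [← hs]
    simp

end sl2

/-- the local subgroups in the statement -/
def GoodA (m : ℕ) {G : Type*} [Group G] (A : Subgroup G) : Prop :=
  (∃ P : Sylow 2 G, A = P) ∨ (∃ P : Sylow 3 G, A = P) ∨
    (IsCyclic A ∧ (Nat.card A = (3 ^ (2 * m + 1) - 1) / 2 ∨ Nat.card A = (3 ^ (2 * m + 1) + 1) / 4 ∨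
          Nat.card A = 3 ^ (2 * m + 1) - 3 ^ (m + 1) + 1 ∨ Nat.card A = 3 ^ (2 * m + 1) + 3 ^ (m + 1) + 1))

def Good (m : ℕ) {G : Type*} [Group G] (S : Subgroup G) : Prop :=
  ∃ A : Subgroup G, S ≤ Subgroup.normalizer (A : Set G) ∧ GoodA m A

section good

variable {G : Type*} [Group G] {m : ℕ}

theorem Good.mono {S T : Subgroup G} (h : S ≤ T) (hT : Good m T) : Good m S := by
  obtain ⟨A, h1, h2⟩ := hT
  exact ⟨A, h.trans h1, h2⟩

theorem goodA_conj {A : Subgroup G} (g : G) (h : GoodA m A) : GoodA m (A.map (MulAut.conj g).toMonoidHom) := by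
  rcases h with ⟨P, rfl⟩ | ⟨P, rfl⟩ | ⟨h1, h2⟩
  · exact Or.inl ⟨g • P, rfl⟩
  · exact Or.inr (Or.inl ⟨g • P, rfl⟩)
  · refine Or.inr (Or.inr ⟨?_, ?_⟩)
    · exact isCyclic_of_surjective ((MulAut.conj g).toMonoidHom.subgroupMap A)
        ((MulAut.conj g).toMonoidHom.subgroupMap_surjective _)
    · rw [← Nat.card_congr (Subgroup.equivMapOfInjective _ _ (MulAut.conj g).injective).toEquiv]
      exact h2

/-- if all the conjugates `g⁻¹ s g` lie in a good subgroup then `S` is good -/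
theorem Good.conj {S T : Subgroup G} (g : G) (h : ∀ s ∈ S, g⁻¹ * s * g ∈ T) (hT : Good m T) : Good m S := by
  obtain ⟨A, h1, h2⟩ := hT
  refine ⟨_, ?_, goodA_conj g h2⟩
  intro s hs
  have h3 := h1 (h s hs)
  rw [Subgroup.mem_normalizer_iff] at h3 ⊢
  intro x
  have key : ∀ y : G, y ∈ A.map (MulAut.conj g).toMonoidHom ↔ g⁻¹ * y * g ∈ A := by
    intro y
    constructor
    · rintro ⟨a, ha, rfl⟩
      change g⁻¹ * (g * a * g⁻¹) * g ∈ A
      have : g⁻¹ * (g * a * g⁻¹) * g = a := by group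
      rwa [this]
    · intro h
      refine ⟨_, h, ?_⟩
      change g * (g⁻¹ * y * g) * g⁻¹ = y
      group
  rw [key, key, h3]
  have : g⁻¹ * s * g * (g⁻¹ * x * g) * (g⁻¹ * s * g)⁻¹ = g⁻¹ * (s * x * s⁻¹) * g := by group
  rw [this]

end good

namespace RG

variable {K : Type*} [Field K] {G : Type*} [Group G] (R : RG K G)

include R

section fin

variable [Fintype K] [Finite G] {m : ℕ} (hm : 1 ≤ m) (hK : Fintype.card K = 3 ^ (2 * m + 1))

include hK

theorem good_three {E : Subgroup G} (hE : E ≠ ⊥) (h3 : ∀ x ∈ E, x ^ 3 = 1) :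
    Good m (Subgroup.normalizer (E : Set G)) := by
  have : Fact (Nat.Prime 3) := ⟨Nat.prime_three⟩
  have hp : IsPGroup 3 E := fun x => ⟨1, by rw [pow_one]; exact Subtype.ext (h3 x x.2)⟩
  obtain ⟨P, hP⟩ := hp.exists_le_sylow
  refine ⟨P, ?_, Or.inr (Or.inl ⟨P, rfl⟩)⟩
  intro g hg
  refine Sylow.smul_eq_iff_mem_normalizer.1 ?_
  by_contra hne
  have h1 := R.sylow_TI hK _ _ hne
  apply hE
  rw [eq_bot_iff, ← h1]
  intro x hx
  refine ⟨?_, hP hx⟩
  change x ∈ ((g • P : Sylow 3 G) : Subgroup G)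
  rw [Sylow.coe_subgroup_smul, Subgroup.mem_pointwise_smul_iff_inv_smul_mem]
  apply hP
  have e : (MulAut.conj g)⁻¹ • x = g⁻¹ * x * g := by
    rw [← map_inv]
    change g⁻¹ * x * g⁻¹⁻¹ = _
    rw [inv_inv]
  rw [e]
  have := (Subgroup.mem_normalizer_iff''.1 hg x).1 hx
  exact this

theorem good_eight {E : Subgroup G} (hc : Nat.card E = 8) (h2 : ∀ x ∈ E, x * x = 1) :
    Good m (Subgroup.normalizer (E : Set G)) := by
  have : Fact (Nat.Prime 2) := ⟨Nat.prime_two⟩
  have hp : IsPGroup 2 E := fun x => ⟨1, by rw [pow_one, pow_two]; exact Subtype.ext (h2 x x.2)⟩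
  obtain ⟨P, hP⟩ := hp.exists_le_sylow
  have h1 := (R.sylow2 hK P).1
  have h3 : E = P := Subgroup.eq_of_le_of_card_ge hP (by rw [hc]; exact h1.le)
  exact ⟨P, by rw [h3], Or.inl ⟨P, rfl⟩⟩

theorem conj_V {E : Subgroup G} (hc : Nat.card E = 4) (h2 : ∀ x ∈ E, x * x = 1) :
    ∃ g : G, ∀ x, x ∈ E ↔ g⁻¹ * x * g ∈ R.V := by
  have hcomm : ∀ x ∈ E, ∀ y ∈ E, x * y = y * x := by
    intro x hx y hy
    exact comm_of_sq (h2 x hx) (h2 y hy) (h2 _ (mul_mem hx hy))
  have hE : E ≠ ⊥ := by
    rintro rfl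
    rw [Subgroup.card_bot] at hc
    omega
  obtain ⟨x, hx, hx1⟩ := (Subgroup.bot_or_exists_ne_one E).resolve_left hE
  obtain ⟨g, hg⟩ := R.inv_conj_a hK (h2 x hx) hx1
  -- another element
  have h3 : ∃ y ∈ E, y ≠ 1 ∧ y ≠ x := by
    by_contra hcon
    push Not at hcon
    have h4 : (E : Set G) ⊆ {1, x} := by
      intro y hy
      by_cases h : y = 1
      · exact Or.inl h
      · exact Or.inr (hcon y hy h)
    have h5 := Set.ncard_le_ncard h4 (Set.toFinite _)
    have h6 : (E : Set G).ncard = 4 := hc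
    have h7 := Set.ncard_insert_le (1 : G) {x}
    rw [Set.ncard_singleton] at h7
    omega
  obtain ⟨y, hy, hy1, hyx⟩ := h3
  have hEl : ∀ w ∈ E, w = 1 ∨ w = x ∨ w = y ∨ w = x * y := by
    have h4 : ({1, x, y, x * y} : Set G) ⊆ E := by
      rintro w (rfl | rfl | rfl | rfl)
      · exact one_mem _
      · exact hx
      · exact hy
      · exact mul_mem hx hy
    have h5 : ({1, x, y, x * y} : Set G).ncard = 4 := by
      have e := card_list (s := ({1, x, y, x * y} : Set G)) (l := [1, x, y, x * y]) (by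
        simp only [List.nodup_cons, List.mem_cons, List.not_mem_nil, or_false, not_or, List.nodup_nil, and_true,
          not_false_eq_true]
        refine ⟨⟨hx1.symm, hy1.symm, ?_⟩, ⟨hyx.symm, ?_⟩, ?_⟩
        · intro h
          apply hyx
          have h' : x * x = x * y := by rw [← h]; exact h2 x hx
          exact (mul_left_cancel h').symm
        · intro h
          exact hy1 (mul_left_cancel (a := x) (by rw [mul_one]; exact h.symm))
        · intro h
          exact hx1 (mul_right_cancel (b := y) (by rw [one_mul]; exact h.symm))) (by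
        intro w
        simp)
      exact e
    have h6 : (E : Set G).ncard = 4 := hc
    have h7 := Set.eq_of_subset_of_ncard_le h4 (by rw [h5, h6]) (Set.toFinite _)
    intro w hw
    have : w ∈ ({1, x, y, x * y} : Set G) := by rw [h7]; exact hw
    exact this
  -- the conjugate of y
  have hcy : R.a * (g⁻¹ * y * g) = (g⁻¹ * y * g) * R.a := by
    rw [← hg]
    have := hcomm x hx y hy
    calc g⁻¹ * x * g * (g⁻¹ * y * g) = g⁻¹ * (x * y) * g := by group
      _ = g⁻¹ * (y * x) * g := by rw [this]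
      _ = _ := by group
  have hz : ∃ z : SL2 K, z * z = -1 ∧ (g⁻¹ * y * g = R.sl z ∨ g⁻¹ * y * g = R.a * R.sl z) := by
    obtain ⟨z, hz⟩ := R.cen_a hK hcy
    refine ⟨z, ?_, hz⟩
    have hyy : (g⁻¹ * y * g) * (g⁻¹ * y * g) = 1 := by
      calc (g⁻¹ * y * g) * (g⁻¹ * y * g) = g⁻¹ * (y * y) * g := by group
        _ = 1 := by rw [h2 y hy]; group
    have hzz : R.sl (z * z) = 1 := by
      rcases hz with hz | hz
      · rw [map_mul, ← hz, hyy]
      · have : (R.a * R.sl z) * (R.a * R.sl z) = R.sl z * R.sl z := by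
          calc (R.a * R.sl z) * (R.a * R.sl z) = R.a * (R.sl z * R.a) * R.sl z := by group
            _ = R.a * (R.a * R.sl z) * R.sl z := by rw [R.a_sl]
            _ = (R.a * R.a) * (R.sl z * R.sl z) := by group
            _ = _ := by rw [R.aa, one_mul]
        rw [map_mul, ← this, ← hz, hyy]
    rcases R.sl_one_iff.1 hzz with h | h
    · exfalso
      have h4 : z = 1 ∨ z = -1 := by
        rcases sl2_sq_pm z (Or.inl h) with h5 | h5 | h5
        · exact Or.inl h5
        · exact Or.inr h5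
        · exfalso
          have h6 := sl2_sq z 0 0
          rw [h5, zero_mul, zero_sub, h] at h6
          have h7 : (1 : K) = -1 := h6
          exact R.neg_one_ne h7.symm
      have h5 : R.sl z = 1 := R.sl_one_iff.2 h4
      rw [h5, mul_one] at hz
      rcases hz with hz | hz
      · apply hy1
        have : y = g * (g⁻¹ * y * g) * g⁻¹ := by group
        rw [this, hz]; group
      · apply hyx
        rw [← hg] at hz
        have : y = g * (g⁻¹ * y * g) * g⁻¹ := by group
        rw [this, hz]; group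
    · exact h
  obtain ⟨z, hzz, hz⟩ := hz
  obtain ⟨k, hk⟩ := sl2_conj_ww (sq_or_neg hK R.char3) (no_i hK R.char3) hzz
  have hk' : R.sl z * R.sl k = R.sl k * R.n := by
    rcases hk with hk | hk
    · rw [← map_mul, hk, map_mul, R.sl_ww]
    · rw [← map_mul, hk, R.sl_neg, map_mul, R.sl_ww]
  have hk2 : (R.sl k)⁻¹ * R.sl z * R.sl k = R.n := by
    rw [mul_assoc, hk']; group
  have hk3 : (R.sl k)⁻¹ * R.a * R.sl k = R.a := by
    rw [mul_assoc, R.a_sl]; group
  refine ⟨g * R.sl k, ?_⟩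
  have ex : (g * R.sl k)⁻¹ * x * (g * R.sl k) = R.a := by
    calc (g * R.sl k)⁻¹ * x * (g * R.sl k) = (R.sl k)⁻¹ * (g⁻¹ * x * g) * R.sl k := by group
      _ = _ := by rw [hg, hk3]
  have ey : (g * R.sl k)⁻¹ * y * (g * R.sl k) = R.n ∨ (g * R.sl k)⁻¹ * y * (g * R.sl k) = R.a * R.n := by
    have e : (g * R.sl k)⁻¹ * y * (g * R.sl k) = (R.sl k)⁻¹ * (g⁻¹ * y * g) * R.sl k := by group
    rcases hz with hz | hz
    · left; rw [e, hz, hk2]
    · right
      rw [e, hz]
      calc (R.sl k)⁻¹ * (R.a * R.sl z) * R.sl k = ((R.sl k)⁻¹ * R.a * R.sl k) * ((R.sl k)⁻¹ * R.sl z * R.sl k) := by group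
        _ = _ := by rw [hk3, hk2]
  have hfw : ∀ w ∈ E, (g * R.sl k)⁻¹ * w * (g * R.sl k) ∈ R.V := by
    have hVm : ∀ u ∈ R.V, ∀ v ∈ R.V, u * v ∈ R.V := fun u hu v hv => mul_mem hu hv
    have exV : (g * R.sl k)⁻¹ * x * (g * R.sl k) ∈ R.V := by
      rw [ex, R.mem_V]; exact Or.inr (Or.inl rfl)
    have eyV : (g * R.sl k)⁻¹ * y * (g * R.sl k) ∈ R.V := by
      rw [R.mem_V]
      rcases ey with ey | ey
      · exact Or.inr (Or.inr (Or.inl ey))
      · exact Or.inr (Or.inr (Or.inr ey))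
    intro w hw
    rcases hEl w hw with rfl | rfl | rfl | rfl
    · have : (g * R.sl k)⁻¹ * 1 * (g * R.sl k) = 1 := by group
      rw [this]; exact one_mem _
    · exact exV
    · exact eyV
    · have : (g * R.sl k)⁻¹ * (x * y) * (g * R.sl k) =
        ((g * R.sl k)⁻¹ * x * (g * R.sl k)) * ((g * R.sl k)⁻¹ * y * (g * R.sl k)) := by group
      rw [this]
      exact mul_mem exV eyV
  have himg : (E.map (MulAut.conj (g * R.sl k)⁻¹).toMonoidHom) = R.V := by
    apply Subgroup.eq_of_le_of_card_ge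
    · rintro _ ⟨w, hw, rfl⟩
      change (g * R.sl k)⁻¹ * w * ((g * R.sl k)⁻¹)⁻¹ ∈ R.V
      rw [inv_inv]
      exact hfw w hw
    · rw [R.card_V, ← Nat.card_congr (Subgroup.equivMapOfInjective _ _ (MulAut.conj (g * R.sl k)⁻¹).injective).toEquiv, hc]
  intro w
  refine ⟨hfw w, fun h => ?_⟩
  rw [← himg] at h
  obtain ⟨w', hw', he⟩ := h
  have he' : (g * R.sl k)⁻¹ * w' * ((g * R.sl k)⁻¹)⁻¹ = (g * R.sl k)⁻¹ * w * (g * R.sl k) := he
  rw [inv_inv] at he'
  have : w' = w := by
    have := mul_right_cancel he'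
    exact mul_left_cancel this
  rwa [← this]

include hm

theorem good_four {E : Subgroup G} (hc : Nat.card E = 4) (h2 : ∀ x ∈ E, x * x = 1) :
    Good m (Subgroup.normalizer (E : Set G)) := by
  obtain ⟨g, hg⟩ := R.conj_V hK hc h2
  have hA : R.A4 hK ≠ ⊥ := by
    obtain ⟨t, ht, ht1⟩ := R.A4_ne hK hm
    intro h
    rw [h] at ht
    exact ht1 (Subgroup.mem_bot.1 ht)
  have h1 : Good m (Subgroup.normalizer (R.A4 hK : Set G)) :=
    ⟨_, le_rfl, Or.inr (Or.inr ⟨R.A4_cyclic hK, Or.inr (Or.inl (R.card_A4 hK))⟩)⟩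
  refine Good.conj g ?_ h1
  intro s hs
  rw [R.norm_A4 hm hK le_rfl hA]
  apply R.norm_W0_of_V hm hK
  intro x hx
  have h4 : g * x * g⁻¹ ∈ E := by
    rw [hg]
    have : g⁻¹ * (g * x * g⁻¹) * g = x := by group
    rwa [this]
  have h5 := (Subgroup.mem_normalizer_iff''.1 hs _).1 h4
  rw [hg] at h5
  have : (g⁻¹ * s * g)⁻¹ * x * (g⁻¹ * s * g) = g⁻¹ * (s⁻¹ * (g * x * g⁻¹) * s) * g := by group
  rw [this]
  exact h5

theorem good_two_pow {E : Subgroup G} (hc : 2 < Nat.card E) (h2 : ∀ x ∈ E, x * x = 1) :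
    Good m (Subgroup.normalizer (E : Set G)) := by
  have : Fact (Nat.Prime 2) := ⟨Nat.prime_two⟩
  have hp : IsPGroup 2 E := fun x => ⟨1, by rw [pow_one, pow_two]; exact Subtype.ext (h2 x x.2)⟩
  obtain ⟨P, hP⟩ := hp.exists_le_sylow
  have h1 := (R.sylow2 hK P).1
  have h3 : Nat.card E ∣ 8 := by
    rw [← h1]
    exact Subgroup.card_dvd_of_le hP
  have h4 : Nat.card E ≤ 8 := Nat.le_of_dvd (by norm_num) h3
  have h5 : Nat.card E = 4 ∨ Nat.card E = 8 := by
    interval_cases h : Nat.card E <;> omega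
  rcases h5 with h5 | h5
  · exact R.good_four hm hK h5 h2
  · exact R.good_eight hK h5 h2

variable (ρ : G →* GL (Fin 7) K) (hρ : Function.Injective ρ)

include hρ

theorem exists_torus_of_prime {p : ℕ} (hp : p.Prime) (hp3 : 3 < p) (hpG : p ∣ Nat.card G) :
    ∃ A C : Subgroup G, Tor A C ∧ p ∣ Nat.card A ∧ GoodA m A := by
  obtain ⟨⟨A₁, t₁, c₁, -⟩, ⟨A₂, t₂, c₂, -⟩, hMM⟩ := R.exists_tor_M hm hK ρ hρ
  rw [R.card_G2 hK] at hpG
  rcases hp.dvd_mul.1 hpG with h | h
  · exfalso
    have := (Nat.prime_dvd_prime_iff_eq hp Nat.prime_three).1 (hp.dvd_of_dvd_pow (hp.dvd_of_dvd_pow h))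
    omega
  rcases hp.dvd_mul.1 h with h | h
  · refine ⟨_, _, R.tor_A2 hK, ?_, Or.inr (Or.inr ⟨R.A2_cyclic, Or.inl (R.card_A2 hK)⟩)⟩
    rw [R.card_A2 hK]
    rw [← two_half hK] at h
    rcases hp.dvd_mul.1 h with h | h
    · exfalso
      have := Nat.le_of_dvd (by norm_num) h
      omega
    · exact h
  rcases hp.dvd_mul.1 h with h | h
  · refine ⟨_, _, R.tor_A4 hm hK, ?_, Or.inr (Or.inr ⟨R.A4_cyclic hK, Or.inr (Or.inl (R.card_A4 hK))⟩)⟩
    rw [R.card_A4 hK]
    obtain ⟨e, he, heo, he', -⟩ := q_mod m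
    rw [he']
    rw [he] at h
    rcases hp.dvd_mul.1 h with h | h
    · exfalso
      have h5 := Nat.le_of_dvd (by norm_num) h
      have : p = 4 := by omega
      rw [this] at hp
      exact absurd hp (by norm_num)
    · exact h
  · rw [hMM] at h
    rcases hp.dvd_mul.1 h with h | h
    · exact ⟨_, _, t₁, by rw [c₁]; exact h, Or.inr (Or.inr ⟨t₁.cyc, Or.inr (Or.inr (Or.inl c₁))⟩)⟩
    · exact ⟨_, _, t₂, by rw [c₂]; exact h, Or.inr (Or.inr ⟨t₂.cyc, Or.inr (Or.inr (Or.inr c₂))⟩)⟩

theorem good_big {E : Subgroup G} (hE : E ≠ ⊥) {p : ℕ} (hp : p.Prime) (hp3 : 3 < p) (hx : ∀ x ∈ E, x ^ p = 1) :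
    Good m (Subgroup.normalizer (E : Set G)) := by
  have : Fact p.Prime := ⟨hp⟩
  have hpE : IsPGroup p E := fun x => ⟨1, by rw [pow_one]; exact Subtype.ext (hx x x.2)⟩
  obtain ⟨P, hP⟩ := hpE.exists_le_sylow
  have hcyc := R.sylow_cyclic hK ρ hρ hp3 P
  obtain ⟨x, hxE, hx1⟩ := (Subgroup.bot_or_exists_ne_one E).resolve_left hE
  have hox : orderOf x = p := orderOf_eq_prime (hx x hxE) hx1
  obtain ⟨A, C, ht, hpA, hgood⟩ := R.exists_torus_of_prime hm hK ρ hρ hp hp3 (by rw [← hox]; exact orderOf_dvd_natCard x)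
  obtain ⟨c, hc⟩ := ht.conj_mem (y := x) (orderOf_dvd_iff_pow_eq_one.1 (by rw [hox]; exact hpA))
  refine Good.conj c ?_ ⟨A, le_rfl, hgood⟩
  intro g hg
  have h1 : c⁻¹ * x * c ≠ 1 := by
    intro h0
    apply hx1
    have : x = c * (c⁻¹ * x * c) * c⁻¹ := by group
    rw [this, h0]; group
  apply ht.mem_norm hc h1
  have h2 : g * x * g⁻¹ ∈ E := (Subgroup.mem_normalizer_iff.1 hg x).1 hxE
  have h3 : g * x * g⁻¹ ∈ Subgroup.zpowers x := by
    apply mem_of_pow hcyc (by rw [Subgroup.zpowers_le]; exact hP hxE) (hP h2)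
    rw [Nat.card_zpowers, hox]
    exact hx _ h2
  obtain ⟨k, hk⟩ := Subgroup.mem_zpowers_iff.1 h3
  have h4 : c⁻¹ * g * c * (c⁻¹ * x * c) * (c⁻¹ * g * c)⁻¹ = (c⁻¹ * x * c) ^ k := by
    have e1 : c⁻¹ * g * c * (c⁻¹ * x * c) * (c⁻¹ * g * c)⁻¹ = c⁻¹ * (g * x * g⁻¹) * c := by group
    have e2 : (c⁻¹ * x * c) ^ k = c⁻¹ * x ^ k * c := by
      have := conj_zpow (i := k) (a := c⁻¹) (b := x)
      rw [inv_inv] at this
      exact this
    rw [e1, e2, hk]
  rw [h4]
  exact zpow_mem hc k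

theorem good_of_cen {S : Subgroup G} (hS : Group.IsSolvable S) (hSa : ∀ s ∈ S, R.a * s = s * R.a) : Good m S := by
  classical
  have comm : ∀ (s : S) (b : Subgroup.zpowers R.a), Commute (S.subtype s) ((Subgroup.zpowers R.a).subtype b) := by
    intro s b
    obtain ⟨k, hk⟩ := Subgroup.mem_zpowers_iff.1 b.2
    change (s : G) * (b : G) = (b : G) * (s : G)
    rw [← hk]
    exact ((show Commute R.a (s : G) from hSa s s.2).zpow_left k).symm.eq
  let f := MonoidHom.noncommCoprod S.subtype (Subgroup.zpowers R.a).subtype comm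
  have hf : f.range = S ⊔ Subgroup.zpowers R.a := by
    rw [MonoidHom.noncommCoprod_range, Subgroup.range_subtype, Subgroup.range_subtype]
  have hT : Group.IsSolvable (S × Subgroup.zpowers R.a) := inferInstance
  have hT' : Group.IsSolvable f.range := Group.isSolvable_of_surjective f.rangeRestrict_surjective
  set T := f.range with hTdef
  have hST : S ≤ T := by rw [hf]; exact le_sup_left
  have haT : R.a ∈ T := by rw [hf]; exact (le_sup_right : Subgroup.zpowers R.a ≤ _) (Subgroup.mem_zpowers _)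
  have hTa : ∀ t ∈ T, R.a * t = t * R.a := by
    rintro _ ⟨⟨s, b⟩, rfl⟩
    obtain ⟨k, hk⟩ := Subgroup.mem_zpowers_iff.1 b.2
    change R.a * ((s : G) * (b : G)) = (s : G) * (b : G) * R.a
    rw [← hk]
    exact (((show Commute R.a (s : G) from hSa s s.2)).mul_right ((Commute.refl _).zpow_right k)).eq
  apply Good.mono hST
  have hform : ∀ t ∈ T, ∃ x : SL2 K, R.sl x ∈ T ∧ (t = R.sl x ∨ t = R.a * R.sl x) := by
    intro t ht
    obtain ⟨x, hx⟩ := R.cen_a hK (hTa t ht)
    refine ⟨x, ?_, hx⟩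
    rcases hx with hx | hx
    · rw [← hx]; exact ht
    · have : R.sl x = R.a⁻¹ * t := by rw [hx]; group
      rw [this]
      exact mul_mem (inv_mem haT) ht
  let S₁ : Subgroup G := T ⊓ R.sl.range
  have hS₁ : Group.IsSolvable S₁ := by
    have := Subgroup.inclusion_injective (inf_le_left : S₁ ≤ T)
    exact Group.isSolvable_of_isSolvable_injective this
  by_cases hb : S₁ = ⊥
  · -- `T ≤ ⟨a⟩`
    have : Fact (Nat.Prime 2) := ⟨Nat.prime_two⟩
    have h2 : ∀ x ∈ T, x * x = 1 := by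
      intro t ht
      obtain ⟨x, hx, h⟩ := hform t ht
      have h1 : R.sl x ∈ S₁ := ⟨hx, ⟨x, rfl⟩⟩
      rw [hb, Subgroup.mem_bot] at h1
      rw [h1, mul_one] at h
      rcases h with rfl | rfl
      · rw [mul_one]
      · exact R.aa
    have hp : IsPGroup 2 T := fun x => ⟨1, by rw [pow_one, pow_two]; exact Subtype.ext (h2 x x.2)⟩
    obtain ⟨P, hP⟩ := hp.exists_le_sylow
    exact ⟨P, hP.trans Subgroup.le_normalizer, Or.inl ⟨P, rfl⟩⟩
  obtain ⟨E, r, hE1, hE2, hE3, hr, -, hE5⟩ := Cfsg.Agent.H12.CN.exists_minimal_normal_in S₁ hS₁ hb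
  have hTE : T ≤ Subgroup.normalizer (E : Set G) := by
    intro t ht
    obtain ⟨x, hx, h⟩ := hform t ht
    have h1 : R.sl x ∈ Subgroup.normalizer (E : Set G) := hE2 ⟨hx, ⟨x, rfl⟩⟩
    have h2 : R.a ∈ Subgroup.normalizer (E : Set G) := by
      apply Subgroup.mem_normalizer_fintype
      intro y hy
      have h3 := hTa y (hE1 hy).1
      have : R.a * y * R.a⁻¹ = y := by rw [h3]; group
      rwa [this]
    rcases h with rfl | rfl
    · exact h1
    · exact mul_mem h2 h1
  by_cases h3 : r = 3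
  · subst h3
    exact Good.mono hTE (R.good_three hK hE3 hE5)
  by_cases h2 : r = 2
  · subst h2
    -- the group `F = E ⟨a⟩`
    have hEE : ∀ x ∈ E, x * x = 1 := fun x hx => by rw [← pow_two]; exact hE5 x hx
    have hnotE : R.a ∉ E := by
      intro h
      obtain ⟨x, hx⟩ := (hE1 h).2
      exact R.a_not_sl hK x hx
    let F : Subgroup G :=
      { carrier := {y | y ∈ E ∨ R.a * y ∈ E}
        one_mem' := Or.inl (one_mem _)
        mul_mem' := by
          rintro x y (hx | hx) (hy | hy)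
          · exact Or.inl (mul_mem hx hy)
          · right
            have e := hTa x (hE1 hx).1
            have : R.a * (x * y) = x * (R.a * y) := by rw [← mul_assoc, e, mul_assoc]
            rw [this]
            exact mul_mem hx hy
          · right
            rw [← mul_assoc]
            exact mul_mem hx hy
          · left
            have e := hTa _ (hE1 hx).1
            have : x * y = (R.a * x) * (R.a * y) := by
              calc x * y = (R.a * R.a) * (x * y) := by rw [R.aa, one_mul]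
                _ = (R.a * (R.a * x)) * y := by group
                _ = (R.a * x) * (R.a * y) := by rw [e]; group
            rw [this]
            exact mul_mem hx hy
        inv_mem' := by
          rintro x (hx | hx)
          · exact Or.inl (inv_mem hx)
          · right
            have e := hTa _ (hE1 hx).1
            have : R.a * x⁻¹ = (R.a * x)⁻¹ := by
              have h1 : R.a * x = x * R.a := by
                have := mul_left_cancel (a := R.a) (b := R.a * x) (c := x * R.a) (by rw [e]; group)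
                exact this
              rw [h1, _root_.mul_inv_rev]
              congr 1
              exact (inv_eq_of_mul_eq_one_left R.aa).symm
            rw [this]
            exact inv_mem hx }
    have hEF : E ≤ F := fun x hx => Or.inl hx
    have haF : R.a ∈ F := Or.inr (by rw [R.aa]; exact one_mem _)
    have hF2 : ∀ x ∈ F, x * x = 1 := by
      rintro x (hx | hx)
      · exact hEE x hx
      · have e := hTa _ (hE1 hx).1
        have : x * x = (R.a * x) * (R.a * x) := by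
          calc x * x = (R.a * R.a) * (x * x) := by rw [R.aa, one_mul]
            _ = (R.a * (R.a * x)) * x := by group
            _ = (R.a * x) * (R.a * x) := by rw [e]; group
        rw [this]
        exact hEE _ hx
    have hFc : 2 < Nat.card F := by
      obtain ⟨y, hy, hy1⟩ := (Subgroup.bot_or_exists_ne_one E).resolve_left hE3
      have h4 : ({1, y, R.a} : Set G) ⊆ F := by
        rintro w (rfl | rfl | rfl)
        · exact one_mem _
        · exact hEF hy
        · exact haF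
      have hya : y ≠ R.a := by
        rintro rfl
        exact hnotE hy
      have h5 : ({1, y, R.a} : Set G).ncard = 3 := by
        rw [Set.ncard_eq_three]
        exact ⟨1, y, R.a, hy1.symm, R.a_ne.symm, hya, rfl⟩
      have h6 := Set.ncard_le_ncard h4 (Set.toFinite _)
      rw [h5] at h6
      exact h6
    have hTF : T ≤ Subgroup.normalizer (F : Set G) := by
      intro t ht
      apply Subgroup.mem_normalizer_fintype
      rintro y (hy | hy)
      · exact Or.inl ((Subgroup.mem_normalizer_iff.1 (hTE ht) y).1 hy)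
      · right
        have h1 := (Subgroup.mem_normalizer_iff.1 (hTE ht) _).1 hy
        have e : R.a * (t * y * t⁻¹) = t * (R.a * y) * t⁻¹ := by
          calc R.a * (t * y * t⁻¹) = (R.a * t) * y * t⁻¹ := by group
            _ = (t * R.a) * y * t⁻¹ := by rw [hTa t ht]
            _ = _ := by group
        rw [e]
        exact h1
    exact Good.mono hTF (R.good_two_pow hm hK hFc hF2)
  · have h3' : 3 < r := by
      have := hr.two_le
      omega
    exact Good.mono hTE (R.good_big hm hK ρ hρ hE3 hr h3' hE5)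

theorem good_solvable {S : Subgroup G} (hS : Group.IsSolvable S) : Good m S := by
  classical
  by_cases hb : S = ⊥
  · have : Fact (Nat.Prime 2) := ⟨Nat.prime_two⟩
    subst hb
    exact ⟨(default : Sylow 2 G), bot_le, Or.inl ⟨_, rfl⟩⟩
  obtain ⟨E, r, hE1, hE2, hE3, hr, -, hE5⟩ := Cfsg.Agent.H12.CN.exists_minimal_normal_in S hS hb
  by_cases h3 : r = 3
  · subst h3
    exact Good.mono hE2 (R.good_three hK hE3 hE5)
  by_cases h2 : r = 2
  · subst h2
    have hEE : ∀ x ∈ E, x * x = 1 := fun x hx => by rw [← pow_two]; exact hE5 x hx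
    by_cases hc : 2 < Nat.card E
    · exact Good.mono hE2 (R.good_two_pow hm hK hc hEE)
    · obtain ⟨y, hy, hy1⟩ := (Subgroup.bot_or_exists_ne_one E).resolve_left hE3
      have hEl : ∀ w ∈ E, w ≠ 1 → w = y := by
        intro w hw hw1
        by_contra hwy
        apply hc
        have h4 : ({1, y, w} : Set G) ⊆ E := by
          rintro u (rfl | rfl | rfl)
          · exact one_mem _
          · exact hy
          · exact hw
        have h5 : ({1, y, w} : Set G).ncard = 3 := by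
          rw [Set.ncard_eq_three]
          exact ⟨1, y, w, hy1.symm, Ne.symm hw1, Ne.symm hwy, rfl⟩
        have h6 := Set.ncard_le_ncard h4 (Set.toFinite _)
        rw [h5] at h6
        exact h6
      obtain ⟨g, hg⟩ := R.inv_conj_a hK (hEE y hy) hy1
      have hSy : ∀ s ∈ S, y * s = s * y := by
        intro s hs
        have h1 := (Subgroup.mem_normalizer_iff.1 (hE2 hs) y).1 hy
        have h2 : s * y * s⁻¹ ≠ 1 := by
          intro h
          apply hy1
          have : y = s⁻¹ * (s * y * s⁻¹) * s := by group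
          rw [this, h]; group
        have h3 := hEl _ h1 h2
        calc y * s = (s * y * s⁻¹) * s := by rw [h3]
          _ = s * y := by group
      have hS' : Group.IsSolvable (S.map (MulAut.conj g⁻¹).toMonoidHom) :=
        Group.isSolvable_of_surjective ((MulAut.conj g⁻¹).toMonoidHom.subgroupMap_surjective S)
      have h4 : Good m (S.map (MulAut.conj g⁻¹).toMonoidHom) := by
        apply R.good_of_cen hm hK ρ hρ hS'
        rintro _ ⟨s, hs, rfl⟩
        change R.a * (g⁻¹ * s * g⁻¹⁻¹) = g⁻¹ * s * g⁻¹⁻¹ * R.a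
        rw [inv_inv, ← hg]
        calc g⁻¹ * y * g * (g⁻¹ * s * g) = g⁻¹ * (y * s) * g := by group
          _ = g⁻¹ * (s * y) * g := by rw [hSy s hs]
          _ = _ := by group
      refine Good.conj g ?_ h4
      intro s hs
      refine ⟨s, hs, ?_⟩
      change g⁻¹ * s * g⁻¹⁻¹ = _
      rw [inv_inv]
  · have h3' : 3 < r := by
      have := hr.two_le
      omega
    exact Good.mono hE2 (R.good_big hm hK ρ hρ hE3 hr h3' hE5)

end fin

end RG

end Cfsg.Agent.H6.Ree
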