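import Cfsg.Agent.H6_Ree31

/-!
The Ree groups: the minimal degree of a nontrivial irreducible complex representation.
-/

set_option autoImplicit false
set_option linter.unusedSectionVars false

namespace Cfsg.Agent.H6.Ree

open Cfsg Cfsg.Lie
open scoped Pointwise

/-! ### Linear algebra -/

section lin

variable {V : Type*} [AddCommGroup V] [Module ℂ V] {A : Type*} [AddCommGroup A] [Fintype A]
  (f : A → V →ₗ[ℂ] V) (hf : ∀ a b, f (a + b) = f a * f b)

/-- the projection onto the `ψ`-eigenspace -/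
noncomputable def prj (ψ : AddChar A ℂ) : V →ₗ[ℂ] V := ∑ a, ψ (-a) • f a

include hf

theorem prj_eigen (ψ : AddChar A ℂ) (x : V) (b : A) : f b (prj f ψ x) = ψ b • prj f ψ x := by
  classical
  have h1 : prj f ψ x = ∑ a, ψ (-a) • f a x := by
    simp [prj, LinearMap.sum_apply]
  rw [h1, map_sum, Finset.smul_sum]
  rw [← Equiv.sum_comp (Equiv.addRight (-b)) (fun a => f b (ψ (-a) • f a x))]
  apply Finset.sum_congr rfl
  intro a _
  simp only [Equiv.coe_addRight]
  rw [map_smul, ← Module.End.mul_apply, ← hf, smul_smul]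
  have e1 : b + (a + -b) = a := by abel
  have e2 : -(a + -b) = b + -a := by abel
  rw [e1, e2, AddChar.map_add_eq_mul]

theorem exists_eigen {z : A} {x : V} (h0 : f 0 = 1) (hx : f z x ≠ x) : ∃ (ψ : AddChar A ℂ) (y : V), y ≠ 0 ∧ ψ z ≠ 1 ∧
    ∀ b, f b y = ψ b • y := by
  classical
  by_contra hcon
  push Not at hcon
  have h1 : ∀ ψ : AddChar A ℂ, f z (prj f ψ x) = prj f ψ x := by
    intro ψ
    by_cases h : ψ z = 1
    · rw [prj_eigen f hf, h, one_smul]
    · by_cases h2 : prj f ψ x = 0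
      · rw [h2, map_zero]
      · obtain ⟨b, hb⟩ := hcon ψ _ h2 h
        exact absurd (prj_eigen f hf ψ x b) hb
  have h2 : ∑ ψ : AddChar A ℂ, prj f ψ x = (Fintype.card A : ℂ) • x := by
    have e : ∀ ψ : AddChar A ℂ, prj f ψ x = ∑ a, ψ (-a) • f a x := by
      intro ψ
      simp [prj, LinearMap.sum_apply]
    simp_rw [e]
    rw [Finset.sum_comm]
    have e2 : ∀ a : A, ∑ ψ : AddChar A ℂ, ψ (-a) • f a x = (if a = 0 then (Fintype.card A : ℂ) • x else 0) := by
      intro a
      rw [← Finset.sum_smul, AddChar.sum_apply_eq_ite]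
      by_cases ha : a = 0
      · subst ha
        rw [if_pos neg_zero, if_pos rfl, h0]; rfl
      · rw [if_neg (by rwa [neg_eq_zero]), if_neg ha, zero_smul]
    rw [Finset.sum_congr rfl fun a _ => e2 a]
    simp
  have h3 : f z ((Fintype.card A : ℂ) • x) = (Fintype.card A : ℂ) • x := by
    rw [← h2, map_sum]
    exact Finset.sum_congr rfl fun ψ _ => h1 ψ
  rw [map_smul] at h3
  have h4 : (Fintype.card A : ℂ) ≠ 0 := by
    rw [Nat.cast_ne_zero]
    exact Fintype.card_ne_zero
  exact hx (smul_right_injective V h4 h3)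

omit hf in
theorem indep {I : Type*} [Fintype I] (v : I → V) (χ : I → AddChar A ℂ) (hχ : Function.Injective χ) (hv : ∀ i, v i ≠ 0)
    (h : ∀ i a, f a (v i) = χ i a • v i) : LinearIndependent ℂ v := by
  classical
  rw [Fintype.linearIndependent_iff]
  intro g hg i
  have h1 : ∀ j, prj f (χ i) (v j) = if j = i then (Fintype.card A : ℂ) • v i else 0 := by
    intro j
    have e : prj f (χ i) (v j) = (∑ a, (χ j * (χ i)⁻¹) a) • v j := by
      rw [Finset.sum_smul]
      simp only [prj, LinearMap.sum_apply, LinearMap.smul_apply]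
      apply Finset.sum_congr rfl
      intro a _
      rw [h, smul_smul, AddChar.mul_apply, AddChar.inv_apply, mul_comm]
    rw [e, AddChar.sum_eq_ite]
    by_cases hij : j = i
    · subst hij
      rw [if_pos (show χ j * (χ j)⁻¹ = 0 from mul_inv_cancel _), if_pos rfl]
    · rw [if_neg, if_neg hij, zero_smul]
      intro h0
      exact hij (hχ (mul_inv_eq_one.1 h0))
  have h2 := congrArg (prj f (χ i)) hg
  rw [map_sum, map_zero] at h2
  simp_rw [map_smul, h1] at h2
  simp only [smul_ite, smul_zero, Finset.sum_ite_eq', Finset.mem_univ, if_true] at h2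
  have h4 : (Fintype.card A : ℂ) ≠ 0 := by
    rw [Nat.cast_ne_zero]
    exact Fintype.card_ne_zero
  exact (smul_eq_zero.1 h2).resolve_right (smul_ne_zero h4 (hv i))

end lin

/-! ### Trace zero on a group of order eight -/

theorem eight_dvd {E : Type*} [Group E] [Finite E] {k : ℕ} (ρ : Representation ℂ E (Fin k → ℂ))
    (h : ∀ g : E, g ≠ 1 → LinearMap.trace ℂ _ (ρ g) = 0) : Nat.card E ∣ k := by
  classical
  have := Fintype.ofFinite E
  have h4 : (Fintype.card E : ℂ) ≠ 0 := by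
    rw [Nat.cast_ne_zero]
    exact Fintype.card_ne_zero
  let _ := invertibleOfNonzero h4
  have h1 := ρ.isProj_averageMap.trace
  have h2 : LinearMap.trace ℂ _ ρ.averageMap = (Fintype.card E : ℂ)⁻¹ * k := by
    have e : ρ.averageMap = (Fintype.card E : ℂ)⁻¹ • ∑ g : E, ρ g := by
      simp only [Representation.averageMap, GroupAlgebra.average, map_smul, map_sum, invOf_eq_inv]
      congr 1
      apply Finset.sum_congr rfl
      intro g _
      simp
    rw [e, map_smul, map_sum, Finset.sum_eq_single (1 : E)]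
    · rw [map_one, LinearMap.trace_one, Module.finrank_fin_fun, smul_eq_mul]
    · intro g _ hg
      exact h g hg
    · intro h; exact absurd (Finset.mem_univ _) h
  rw [h2] at h1
  refine ⟨Module.finrank ℂ ρ.invariants, ?_⟩
  rw [Nat.card_eq_fintype_card]
  have h3 : (k : ℂ) = (Fintype.card E : ℂ) * (Module.finrank ℂ ρ.invariants : ℂ) := by
    rw [← h1]
    field_simp
  exact_mod_cast h3

/-! ### Irreducible representations of simple groups -/

theorem rep_faithful {G : Type*} [Group G] [IsSimpleGroup G] {k : ℕ} (ρ : Representation ℂ G (Fin k → ℂ))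
    (hρ : ρ.IsIrreducible) (hk : 2 ≤ k) {g : G} (hg : g ≠ 1) : ρ g ≠ 1 := by
  intro h1
  have hker : (MonoidHom.ker ρ).Normal := MonoidHom.normal_ker ρ
  rcases hker.eq_bot_or_eq_top with h | h
  · have : g ∈ MonoidHom.ker ρ := h1
    rw [h] at this
    exact hg (Subgroup.mem_bot.1 this)
  · have htriv : ∀ g, ρ g = 1 := by
      intro g
      have : g ∈ MonoidHom.ker ρ := by rw [h]; exact Subgroup.mem_top g
      exact this
    have hk0 : 0 < k := by omega
    let e : Fin k → ℂ := Pi.single ⟨0, hk0⟩ 1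
    let W : Subrepresentation ρ := ⟨Submodule.span ℂ {e}, fun g v hv => by rw [htriv g]; exact hv⟩
    rcases hρ.eq_bot_or_eq_top W with h2 | h2
    · have h3 : e ∈ (⊥ : Subrepresentation ρ) := by
        rw [← h2]
        exact Submodule.mem_span_singleton_self e
      have h4 : e = 0 := h3
      have h5 := congrFun h4 ⟨0, hk0⟩
      simp [e] at h5
    · have h3 : (Pi.single (⟨1, by omega⟩ : Fin k) (1 : ℂ) : Fin k → ℂ) ∈ W := by
        rw [h2]
        trivial
      obtain ⟨c, hc⟩ := Submodule.mem_span_singleton.1 h3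
      have h5 := congrFun hc ⟨1, by omega⟩
      simp [e] at h5

namespace RG

variable {K : Type*} [Field K] {G : Type*} [Group G] (R : RG K G)

include R

theorem conj_w (t u v : K) : (R.w t 0 0)⁻¹ * R.w 0 u v * R.w t 0 0 = R.w 0 u (v - t * u) := by
  have e : R.w 0 u v * R.w t 0 0 = R.w t 0 0 * R.w 0 u (v - t * u) := by
    rw [R.wmul, R.wmul]
    congr 1
    · ring
    · rw [map_zero]; ring
    · rw [map_zero]; ring
  rw [mul_assoc, e]; group

theorem conj_h (s : Kˣ) (u v : K) : (R.h s)⁻¹ * R.w 0 u v * R.h s =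
    R.w 0 ((R.φ s ^ 3 * (s : K)⁻¹)⁻¹ * u) ((s : K)⁻¹ * v) := by
  have e : R.w 0 u v * R.h s = R.h s * R.w 0 ((R.φ s ^ 3 * (s : K)⁻¹)⁻¹ * u) ((s : K)⁻¹ * v) := by
    rw [R.hwc]
    have h1 := R.φs s
    have h2 : (s : K) ≠ 0 := s.ne_zero
    congr 2
    · ring
    · field_simp
    · field_simp
  rw [mul_assoc, e]; group

section fin

variable [Fintype K] [Finite G] {m : ℕ} (hK : Fintype.card K = 3 ^ (2 * m + 1))

include hK

theorem min_degree [IsSimpleGroup G] {k : ℕ} (ρ : Representation ℂ G (Fin k → ℂ))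
    (hρ : ρ.IsIrreducible) (hk : 2 ≤ k) : (3 ^ (2 * m + 1)) ^ 2 - 3 ^ (2 * m + 1) + 1 ≤ k := by
  classical
  let f : K × K → (Fin k → ℂ) →ₗ[ℂ] (Fin k → ℂ) := fun a => ρ (R.w 0 a.1 a.2)
  have hf : ∀ a b, f (a + b) = f a * f b := by
    intro a b
    change ρ _ = ρ _ * ρ _
    rw [← map_mul, R.w_mul0]; rfl
  have h0 : f 0 = 1 := by
    change ρ (R.w 0 0 0) = 1
    rw [R.w_zero, map_one]
  have hne : R.w 0 0 (1 : K) ≠ 1 := by
    rw [ne_eq, R.w_one_iff]
    rintro ⟨-, -, h⟩
    exact one_ne_zero h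
  have h1 : ρ (R.w 0 0 (1 : K)) ≠ 1 := rep_faithful ρ hρ hk hne
  obtain ⟨x, hx⟩ : ∃ x, f ((0 : K), (1 : K)) x ≠ x := by
    by_contra hcon
    push Not at hcon
    apply h1
    exact LinearMap.ext fun x => hcon x
  obtain ⟨ψ, y, hy0, hψ1, hψ⟩ := exists_eigen f hf h0 hx
  -- the orbit
  let v : Kˣ × K → (Fin k → ℂ) := fun i => ρ (R.h i.1 * R.w i.2 0 0) y
  let c : Kˣ → K := fun s => (R.φ s ^ 3 * (s : K)⁻¹)⁻¹
  let F : Kˣ × K → (K × K →+ K × K) := fun i =>
    { toFun := fun a => (c i.1 * a.1, (i.1 : K)⁻¹ * a.2 - i.2 * (c i.1 * a.1))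
      map_zero' := by simp
      map_add' := by
        rintro ⟨a, b⟩ ⟨a', b'⟩
        ext
        · simp only [Prod.mk_add_mk]; ring
        · simp only [Prod.mk_add_mk]; ring }
  let χ : Kˣ × K → AddChar (K × K) ℂ := fun i => ψ.compAddMonoidHom (F i)
  have hχ : ∀ i a, χ i a = ψ (c i.1 * a.1, (i.1 : K)⁻¹ * a.2 - i.2 * (c i.1 * a.1)) := fun i a => rfl
  have hc0 : ∀ s, c s ≠ 0 := fun s => inv_ne_zero (mul_ne_zero (pow_ne_zero 3 (R.φs s)) (inv_ne_zero s.ne_zero))
  have hψz : ∀ z : K, (∀ r : K, ψ (0, z * r) = 1) → z = 0 := by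
    intro z hz
    by_contra hz0
    apply hψ1
    have := hz z⁻¹
    rwa [mul_inv_cancel₀ hz0] at this
  have hψadd : ∀ a b : K × K, ψ a = ψ b → ψ (a - b) = 1 := by
    intro a b hab
    have e : a - b = a + -b := sub_eq_add_neg a b
    rw [e, AddChar.map_add_eq_mul, hab, ← AddChar.map_add_eq_mul, add_neg_cancel, AddChar.map_zero_eq_one]
  have hinj : Function.Injective χ := by
    rintro ⟨s, t⟩ ⟨s', t'⟩ hst
    have key : ∀ a : K × K, ψ (c s * a.1, (s : K)⁻¹ * a.2 - t * (c s * a.1)) =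
        ψ (c s' * a.1, (s' : K)⁻¹ * a.2 - t' * (c s' * a.1)) := fun a => by
      have := DFunLike.congr_fun hst a
      rwa [hχ, hχ] at this
    have e1 : (s : K)⁻¹ - (s' : K)⁻¹ = 0 := by
      apply hψz
      intro r
      have h2 := hψadd _ _ (key (0, r))
      rw [← h2]
      congr 1
      ext
      · simp
      · simp only [Prod.mk_sub_mk]; ring
    have e2 : s = s' := by
      have := sub_eq_zero.1 e1
      exact Units.ext (inv_injective this)
    subst e2
    have e3 : t - t' = 0 := by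
      have e4 : -((t - t') * c s) = 0 := by
        apply hψz
        intro r
        have h2 := hψadd _ _ (key (r, 0))
        rw [← h2]
        congr 1
        ext
        · simp
        · simp only [Prod.mk_sub_mk]; ring
      rw [neg_eq_zero] at e4
      exact (mul_eq_zero.1 e4).resolve_right (hc0 s)
    rw [sub_eq_zero.1 e3]
  have hv0 : ∀ i, v i ≠ 0 := by
    intro i h
    apply hy0
    have h2 : ρ (R.h i.1 * R.w i.2 0 0)⁻¹ (v i) = y := by
      change ρ _ (ρ _ y) = y
      rw [← Module.End.mul_apply, ← map_mul, inv_mul_cancel, map_one]; rfl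
    rw [← h2, h, map_zero]
  have heig : ∀ i a, f a (v i) = χ i a • v i := by
    rintro ⟨s, t⟩ ⟨a, b⟩
    have e : R.w 0 a b * (R.h s * R.w t 0 0) = (R.h s * R.w t 0 0) *
        R.w 0 (c s * a) ((s : K)⁻¹ * b - t * (c s * a)) := by
      have h2 := R.conj_h s a b
      have h3 := R.conj_w t (c s * a) ((s : K)⁻¹ * b)
      calc R.w 0 a b * (R.h s * R.w t 0 0) = R.h s * ((R.h s)⁻¹ * R.w 0 a b * R.h s) * R.w t 0 0 := by group
        _ = R.h s * R.w 0 (c s * a) ((s : K)⁻¹ * b) * R.w t 0 0 := by rw [h2]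
        _ = (R.h s * R.w t 0 0) * ((R.w t 0 0)⁻¹ * R.w 0 (c s * a) ((s : K)⁻¹ * b) * R.w t 0 0) := by group
        _ = _ := by rw [h3]
    change ρ (R.w 0 a b) (ρ (R.h s * R.w t 0 0) y) = ψ (c s * a, (s : K)⁻¹ * b - t * (c s * a)) • ρ (R.h s * R.w t 0 0) y
    rw [← Module.End.mul_apply, ← map_mul, e, map_mul, Module.End.mul_apply]
    have := hψ (c s * a, (s : K)⁻¹ * b - t * (c s * a))
    change ρ (R.w 0 (c s * a) ((s : K)⁻¹ * b - t * (c s * a))) y = _ at this
    rw [this, map_smul]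
  have hli := indep f v χ hinj hv0 heig
  have hcard := hli.fintype_card_le_finrank
  rw [Module.finrank_fin_fun, Fintype.card_prod] at hcard
  have hKc : Fintype.card K = 3 ^ (2 * m + 1) := hK
  have hKu : Fintype.card Kˣ = 3 ^ (2 * m + 1) - 1 := by rw [← Nat.card_eq_fintype_card, card_units' hK]
  have h8 := pow_mod8 m
  obtain ⟨q, hq⟩ : ∃ q, q = 3 ^ (2 * m + 1) := ⟨_, rfl⟩
  rw [hKu, hKc] at hcard
  rw [← hq] at hcard h8 ⊢
  have hqq : q ^ 2 - q = (q - 1) * q := by rw [Nat.sub_mul, one_mul, pow_two]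
  rw [hqq]
  by_contra hlt
  have hkeq : k = (q - 1) * q := by omega
  -- a basis
  have hcardI : Fintype.card (Kˣ × K) = Module.finrank ℂ (Fin k → ℂ) := by
    rw [Module.finrank_fin_fun, Fintype.card_prod, hKu, hKc, ← hq, hkeq]
  have hIne : Nonempty (Kˣ × K) := ⟨(1, 0)⟩
  let b := basisOfLinearIndependentOfCardEqFinrank hli hcardI
  have hb : ∀ i, b i = v i := fun i => by simp [b]
  have htr : LinearMap.trace ℂ _ (ρ R.a) = 0 := by
    rw [LinearMap.trace_eq_matrix_trace ℂ b, Matrix.trace]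
    apply Finset.sum_eq_zero
    rintro ⟨s, t⟩ _
    rw [Matrix.diag_apply, LinearMap.toMatrix_apply, hb]
    have e : ρ R.a (v (s, t)) = v (-s, t) := by
      change ρ _ (ρ _ y) = ρ _ y
      rw [← Module.End.mul_apply, ← map_mul]
      congr 2
      rw [← mul_assoc, R.a_def, ← map_mul, neg_one_mul]
    rw [e, ← hb, Module.Basis.repr_self, Finsupp.single_apply, if_neg]
    intro h
    have h2 : -s = s := (Prod.mk.inj h).1
    have h3 := congrArg Units.val h2
    rw [Units.val_neg] at h3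
    have h4 : (s : K) * (-1 - 1) = 0 := by linear_combination h3
    rcases mul_eq_zero.1 h4 with h5 | h5
    · exact s.ne_zero h5
    · exact R.neg_one_ne (sub_eq_zero.1 h5)
  have htr2 : ∀ z : G, z * z = 1 → z ≠ 1 → LinearMap.trace ℂ _ (ρ z) = 0 := by
    intro z hz hz1
    obtain ⟨g, hg⟩ := R.inv_conj_a hK hz hz1
    rw [← htr, ← hg, map_mul ρ, LinearMap.trace_mul_comm, ← map_mul ρ, ← mul_assoc, mul_inv_cancel, one_mul]
  have : Fact (Nat.Prime 2) := ⟨Nat.prime_two⟩
  let P : Sylow 2 G := default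
  obtain ⟨hP8, hP2⟩ := R.sylow2 hK P
  have h9 := eight_dvd (E := P) (ρ.comp (P : Subgroup G).subtype) (by
    intro g hg
    exact htr2 g (hP2 g g.2) (fun h => hg (Subtype.ext h)))
  rw [hP8, hkeq] at h9
  obtain ⟨r, hr⟩ := h9
  obtain ⟨j, hj⟩ : ∃ j, q = 8 * j + 3 := ⟨q / 8, by omega⟩
  have : (q - 1) * q = 8 * (8 * j * j + 5 * j) + 6 := by
    rw [hj]
    have : 8 * j + 3 - 1 = 8 * j + 2 := by omega
    rw [this]; ring
  omega

end fin

end RG

end Cfsg.Agent.H6.Ree
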