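import Mathlib

/-! Subgroups of `GL_4(2)` isomorphic to `A_7` are `2`-transitive on nonzero vectors. -/

namespace H7.A7GL

open MulAction

section gen

variable {G : Type*} [Group G] {α : Type*} [MulAction G α]

theorem ncard_orbit_modEq [Finite α] (p : ℕ) [hp : Fact p.Prime] (x : G) (hx : x ^ p = 1) (a : α) :
    (orbit G a).ncard ≡ {b | b ∈ orbit G a ∧ x • b = b}.ncard [MOD p] := by
  classical
  haveI := Fintype.ofFinite α
  let f : Function.End (orbit G a) := MulAction.toEndHom (M := G) (α := orbit G a) x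
  have hf : f ^ p ^ 1 = 1 := by
    rw [pow_one, ← map_pow, hx, map_one]
  have h := Equiv.Perm.card_fixedPoints_modEq (f := f) (p := p) (n := 1) hf
  have h1 : (orbit G a).ncard = Fintype.card (orbit G a) := by
    rw [← Nat.card_coe_set_eq, Nat.card_eq_fintype_card]
  have h2 : {b | b ∈ orbit G a ∧ x • b = b}.ncard = Fintype.card (Function.fixedPoints f) := by
    rw [← Nat.card_coe_set_eq, ← Nat.card_eq_fintype_card]
    refine Nat.card_congr ?_
    refine ⟨fun b => ⟨⟨b.1, b.2.1⟩, ?_⟩, fun b => ⟨b.1.1, b.1.2, ?_⟩, fun b => rfl, fun b => rfl⟩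
    · exact Subtype.ext b.2.2
    · have := congrArg Subtype.val b.2
      exact this
  rw [h1, h2]; convert h

end gen

variable {F : Type*} [Field F] [Fintype F]

local notation "V" => (Fin 4 → F)

/-- The action of `GL` on vectors. -/
@[reducible] def act : MulAction (Matrix.GeneralLinearGroup (Fin 4) F) V where
  smul g v := (g : Matrix (Fin 4) (Fin 4) F).mulVec v
  one_smul v := by
    show ((1 : Matrix.GeneralLinearGroup (Fin 4) F) : Matrix (Fin 4) (Fin 4) F).mulVec v = v
    simp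
  mul_smul g h v := by
    show ((g * h : Matrix.GeneralLinearGroup (Fin 4) F) : Matrix (Fin 4) (Fin 4) F).mulVec v =
      (g : Matrix (Fin 4) (Fin 4) F).mulVec ((h : Matrix (Fin 4) (Fin 4) F).mulVec v)
    rw [Matrix.mulVec_mulVec]
    rfl

attribute [local instance] act

theorem smul_def' (g : Matrix.GeneralLinearGroup (Fin 4) F) (v : V) :
    g • v = (g : Matrix (Fin 4) (Fin 4) F).mulVec v := rfl

theorem smul_zero' (g : Matrix.GeneralLinearGroup (Fin 4) F) : g • (0 : V) = 0 := by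
  rw [smul_def', Matrix.mulVec_zero]

theorem smul_add' (g : Matrix.GeneralLinearGroup (Fin 4) F) (v w : V) :
    g • (v + w) = g • v + g • w := by
  rw [smul_def', smul_def', smul_def', Matrix.mulVec_add]

/-- The fixed space. -/
def fix (g : Matrix.GeneralLinearGroup (Fin 4) F) : AddSubgroup V where
  carrier := {v | g • v = v}
  zero_mem' := smul_zero' g
  add_mem' := by
    intro a b ha hb
    have ha' : g • a = a := ha
    have hb' : g • b = b := hb
    show g • (a + b) = a + b
    rw [smul_add', ha', hb']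
  neg_mem' := by
    intro a ha
    have ha' : g • a = a := ha
    show g • (-a) = -a
    rw [smul_def', Matrix.mulVec_neg, ← smul_def', ha']

theorem mem_fix (g : Matrix.GeneralLinearGroup (Fin 4) F) (v : V) : v ∈ fix g ↔ g • v = v :=
  Iff.rfl

theorem card_V (hF : Fintype.card F = 2) : Nat.card V = 16 := by
  rw [Nat.card_eq_fintype_card, Fintype.card_fun, hF]; rfl

theorem fix_top {g : Matrix.GeneralLinearGroup (Fin 4) F} (h : fix g = ⊤) : g = 1 := by
  ext i j
  have h1 : g • (Pi.single j (1 : F) : V) = Pi.single j 1 := by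
    rw [← mem_fix, h]; trivial
  rw [smul_def', Matrix.mulVec_single_one] at h1
  have := congrFun h1 i
  simp only [Matrix.col_apply] at this
  rw [this, Units.val_one, Matrix.one_apply, Pi.single_apply]

theorem card_fix (hF : Fintype.card F = 2) {g : Matrix.GeneralLinearGroup (Fin 4) F}
    (hg : g ≠ 1) : Nat.card (fix g) ∈ ({1, 2, 4, 8} : Finset ℕ) := by
  have h1 : Nat.card (fix g) ∣ 16 := by
    rw [← card_V hF]
    exact AddSubgroup.card_addSubgroup_dvd_card _
  have h2 : Nat.card (fix g) ≠ 16 := by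
    intro h
    apply hg
    apply fix_top
    apply AddSubgroup.eq_top_of_card_eq
    rw [h, card_V hF]
  have h3 : Nat.card (fix g) ∈ Nat.divisors 16 := by
    rw [Nat.mem_divisors]; exact ⟨h1, by norm_num⟩
  have h4 : Nat.divisors 16 = {1, 2, 4, 8, 16} := by decide
  rw [h4] at h3
  simp only [Finset.mem_insert, Finset.mem_singleton] at h3 ⊢
  tauto

theorem card_fix_modEq (hF : Fintype.card F = 2) (p : ℕ) [Fact p.Prime]
    {g : Matrix.GeneralLinearGroup (Fin 4) F} (hg : g ^ p = 1) :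
    16 ≡ Nat.card (fix g) [MOD p] := by
  classical
  let f : Function.End V := MulAction.toEndHom (M := Matrix.GeneralLinearGroup (Fin 4) F) (α := V) g
  have hf : f ^ p ^ 1 = 1 := by
    rw [pow_one, ← map_pow, hg, map_one]
  have h := Equiv.Perm.card_fixedPoints_modEq (f := f) (p := p) (n := 1) hf
  have h1 : Fintype.card V = 16 := by
    rw [← Nat.card_eq_fintype_card]; exact card_V hF
  have h2 : Nat.card (fix g) = Fintype.card (Function.fixedPoints f) := by
    rw [← Nat.card_eq_fintype_card]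
    exact Nat.card_congr (Equiv.refl _)
  rw [h1] at h
  rw [h2]; convert h

theorem card_fix_seven (hF : Fintype.card F = 2)
    {g : Matrix.GeneralLinearGroup (Fin 4) F} (hg : g ^ 7 = 1) (hg1 : g ≠ 1) :
    Nat.card (fix g) = 2 := by
  haveI : Fact (Nat.Prime 7) := ⟨by norm_num⟩
  have h1 := card_fix hF hg1
  have h2 := card_fix_modEq hF 7 hg
  simp only [Finset.mem_insert, Finset.mem_singleton] at h1
  rcases h1 with h | h | h | h <;> rw [h] at h2 <;> first | exact h | (exfalso; revert h2; decide)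

theorem card_fix_five (hF : Fintype.card F = 2)
    {g : Matrix.GeneralLinearGroup (Fin 4) F} (hg : g ^ 5 = 1) (hg1 : g ≠ 1) :
    Nat.card (fix g) = 1 := by
  haveI : Fact (Nat.Prime 5) := ⟨by norm_num⟩
  have h1 := card_fix hF hg1
  have h2 := card_fix_modEq hF 5 hg
  simp only [Finset.mem_insert, Finset.mem_singleton] at h1
  rcases h1 with h | h | h | h <;> rw [h] at h2 <;> first | exact h | (exfalso; revert h2; decide)

theorem fix_five_eq_zero (hF : Fintype.card F = 2)
    {g : Matrix.GeneralLinearGroup (Fin 4) F} (hg : g ^ 5 = 1) (hg1 : g ≠ 1) {v : V}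
    (hv : g • v = v) : v = 0 := by
  have h := card_fix_five hF hg hg1
  have h1 : fix g = ⊥ := (AddSubgroup.card_eq_one).1 h
  have h2 : v ∈ fix g := hv
  rw [h1] at h2
  exact AddSubgroup.mem_bot.1 h2

theorem fix_seven_unique (hF : Fintype.card F = 2)
    {g : Matrix.GeneralLinearGroup (Fin 4) F} (hg : g ^ 7 = 1) (hg1 : g ≠ 1) {v w : V}
    (hv : g • v = v) (hw : g • w = w) (hv0 : v ≠ 0) (hw0 : w ≠ 0) : v = w := by
  classical
  have h := card_fix_seven hF hg hg1
  by_contra hvw
  have h1 : ({0, v, w} : Finset V).card = 3 := by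
    rw [Finset.card_eq_three]
    exact ⟨0, v, w, hv0.symm, hw0.symm, hvw, rfl⟩
  have h2 : (({0, v, w} : Finset V) : Set V) ⊆ (fix g : Set V) := by
    intro u hu
    simp only [Finset.coe_insert, Finset.coe_singleton, Set.mem_insert_iff,
      Set.mem_singleton_iff] at hu
    rcases hu with rfl | rfl | rfl
    · exact (fix g).zero_mem
    · exact hv
    · exact hw
  have h3 := Set.ncard_le_ncard h2 (Set.toFinite _)
  rw [Set.ncard_coe_finset, h1, ← Nat.card_coe_set_eq] at h3
  have h4 : Nat.card ((fix g : Set V)) = 2 := h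
  omega

variable (H : Subgroup (Matrix.GeneralLinearGroup (Fin 4) F))

theorem exists_pow_prime (e : H ≃* alternatingGroup (Fin 7)) (p : ℕ) [hp : Fact p.Prime]
    (hd : p ∣ 2520) : ∃ x : H, x ^ p = 1 ∧ x ≠ 1 := by
  have hc : Nat.card H = 2520 := by
    rw [Nat.card_congr e.toEquiv, nat_card_alternatingGroup]
    simp [Nat.factorial]
  obtain ⟨x, hx⟩ := exists_prime_orderOf_dvd_card' (G := H) p (by rw [hc]; exact hd)
  refine ⟨x, ?_, ?_⟩
  · rw [← hx]; exact pow_orderOf_eq_one x
  · intro h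
    rw [h, orderOf_one] at hx
    exact hp.out.one_lt.ne hx

theorem orbit_vec (hF : Fintype.card F = 2) (e : H ≃* alternatingGroup (Fin 7)) {v : V}
    (hv : v ≠ 0) : (orbit H v).ncard = 15 := by
  classical
  haveI : Fact (Nat.Prime 7) := ⟨by norm_num⟩
  haveI : Fact (Nat.Prime 5) := ⟨by norm_num⟩
  obtain ⟨x, hx, hx1⟩ := exists_pow_prime H e 7 (by norm_num)
  obtain ⟨y, hy, hy1⟩ := exists_pow_prime H e 5 (by norm_num)
  have hne : ∀ b ∈ orbit H v, b ≠ 0 := by
    rintro b ⟨h, rfl⟩ h0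
    apply hv
    have h1 : (h : Matrix.GeneralLinearGroup (Fin 4) F) • v = 0 := h0
    have h2 : (h : Matrix.GeneralLinearGroup (Fin 4) F)⁻¹ •
        ((h : Matrix.GeneralLinearGroup (Fin 4) F) • v) = 0 := by rw [h1, smul_zero']
    rwa [inv_smul_smul] at h2
  have h7 := ncard_orbit_modEq (α := V) 7 x hx v
  have h5 := ncard_orbit_modEq (α := V) 5 y hy v
  have e5 : {b | b ∈ orbit H v ∧ y • b = b}.ncard = 0 := by
    rw [Set.ncard_eq_zero]
    ext b
    simp only [Set.mem_setOf_eq, Set.mem_empty_iff_false, iff_false, not_and]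
    intro hb hyb
    exact hne b hb (fix_five_eq_zero hF (g := (y : Matrix.GeneralLinearGroup (Fin 4) F))
      (by exact_mod_cast congrArg Subtype.val hy) (by exact_mod_cast fun h => hy1 (Subtype.ext h))
      hyb)
  have e7 : {b | b ∈ orbit H v ∧ x • b = b}.ncard ≤ 1 := by
    rw [Set.ncard_le_one_iff]
    intro a b ha hb
    exact fix_seven_unique hF (g := (x : Matrix.GeneralLinearGroup (Fin 4) F))
      (by exact_mod_cast congrArg Subtype.val hx) (by exact_mod_cast fun h => hx1 (Subtype.ext h))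
      ha.2 hb.2 (hne a ha.1) (hne b hb.1)
  have hle : (orbit H v).ncard ≤ 15 := by
    have h1 : orbit H v ⊆ ({0} : Set V)ᶜ := fun b hb => hne b hb
    have h2 := Set.ncard_le_ncard h1 (Set.toFinite _)
    have h3 : (({0} : Set V)ᶜ).ncard = 15 := by
      have := Set.ncard_add_ncard_compl ({0} : Set V) (Set.toFinite _) (Set.toFinite _)
      rw [Set.ncard_singleton, card_V hF] at this
      omega
    omega
  have hpos : 0 < (orbit H v).ncard := by
    rw [Set.ncard_pos (Set.toFinite _)]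
    exact ⟨v, mem_orbit_self v⟩
  rw [e5] at h5
  have h50 : 5 ∣ (orbit H v).ncard := (Nat.modEq_zero_iff_dvd).1 h5
  have h70 : (orbit H v).ncard % 7 = {b | b ∈ orbit H v ∧ x • b = b}.ncard % 7 := h7
  generalize (orbit H v).ncard = m at *
  generalize {b | b ∈ orbit H v ∧ x • b = b}.ncard = k at *
  interval_cases k <;> interval_cases m <;> omega

theorem swap_ncard (H : Subgroup (Matrix.GeneralLinearGroup (Fin 4) F)) {v w : V}
    (hvw : v ≠ w) (hsw : (w, v) ∈ orbit H (v, w)) : 2 ∣ (orbit H (v, w)).ncard := by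
  classical
  have hmem : ∀ p ∈ orbit H (v, w), p.swap ∈ orbit H (v, w) := by
    rintro p ⟨h, rfl⟩
    obtain ⟨k, hk⟩ := hsw
    refine ⟨h * k, ?_⟩
    show (h * k) • (v, w) = Prod.swap (h • (v, w))
    rw [mul_smul]
    have hk' : k • (v, w) = (w, v) := hk
    rw [hk']
    rfl
  have hne : ∀ p ∈ orbit H (v, w), p.1 ≠ p.2 := by
    rintro p ⟨h, rfl⟩ h1
    have h2 : h • v = h • w := h1
    exact hvw (MulAction.injective h h2)
  haveI : Fact (Nat.Prime 2) := ⟨Nat.prime_two⟩
  let f : Function.End (orbit H (v, w)) := fun p => ⟨p.1.swap, hmem _ p.2⟩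
  have hf : f ^ 2 ^ 1 = 1 := by
    funext p
    rfl
  have h := Equiv.Perm.card_fixedPoints_modEq (f := f) (p := 2) (n := 1) hf
  have h0 : Fintype.card (Function.fixedPoints f) = 0 := by
    rw [Fintype.card_eq_zero_iff]
    refine ⟨fun p => ?_⟩
    have h1 := congrArg Subtype.val p.2
    have h2 := congrArg Prod.fst h1
    exact hne _ p.1.2 h2.symm
  rw [h0] at h
  rw [← Nat.card_coe_set_eq, Nat.card_eq_fintype_card]
  exact (Nat.modEq_zero_iff_dvd).1 h

theorem two_transitive (hF : Fintype.card F = 2) (e : H ≃* alternatingGroup (Fin 7)) :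
    ∃ v w : V, v ≠ 0 ∧ w ≠ 0 ∧ v ≠ w ∧
      ∀ a b : V, a ≠ 0 → b ≠ 0 → a ≠ b → (a, b) ∈ orbit H (v, w) := by
  classical
  haveI : Fact (Nat.Prime 7) := ⟨by norm_num⟩
  haveI : Fact (Nat.Prime 2) := ⟨by norm_num⟩
  obtain ⟨x, hx, hx1⟩ := exists_pow_prime H e 7 (by norm_num)
  obtain ⟨t, ht, ht1⟩ := exists_pow_prime H e 2 (by norm_num)
  -- a vector moved by t
  have hv : ∃ v : V, t • v ≠ v := by
    by_contra hcon
    push_neg at hcon
    apply ht1
    apply Subtype.ext
    apply fix_top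
    ext v
    simp only [mem_fix, AddSubgroup.mem_top, iff_true]
    exact hcon v
  obtain ⟨v, hv⟩ := hv
  have hz : ∀ (h : H) (u : V), u ≠ 0 → h • u ≠ 0 := by
    intro h u hu h0
    apply hu
    have h2 : (h : Matrix.GeneralLinearGroup (Fin 4) F)⁻¹ •
        ((h : Matrix.GeneralLinearGroup (Fin 4) F) • u) = 0 := by
      have h1 : (h : Matrix.GeneralLinearGroup (Fin 4) F) • u = 0 := h0
      rw [h1, smul_zero']
    rwa [inv_smul_smul] at h2
  have hv0 : v ≠ 0 := by
    rintro rfl
    exact hv (smul_zero' _)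
  have htt : t • t • v = v := by
    rw [← mul_smul, ← pow_two, ht, one_smul]
  set w := t • v with hw
  have hw0 : w ≠ 0 := hz t v hv0
  have hvw : v ≠ w := fun h => hv h.symm
  refine ⟨v, w, hv0, hw0, hvw, ?_⟩
  have hsw : (w, v) ∈ orbit H (v, w) := by
    refine ⟨t, ?_⟩
    show (t • v, t • w) = (w, v)
    rw [htt]
  have h2 := swap_ncard H hvw hsw
  have hD : orbit H (v, w) ⊆ {p : V × V | p.1 ≠ 0 ∧ p.2 ≠ 0 ∧ p.1 ≠ p.2} := by
    rintro p ⟨h, rfl⟩
    refine ⟨hz h v hv0, hz h w hw0, fun h1 => hvw (MulAction.injective h h1)⟩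
  have h7 := ncard_orbit_modEq (α := V × V) 7 x hx (v, w)
  have e7 : {b | b ∈ orbit H (v, w) ∧ x • b = b}.ncard = 0 := by
    rw [Set.ncard_eq_zero]
    ext b
    simp only [Set.mem_setOf_eq, Set.mem_empty_iff_false, iff_false, not_and]
    intro hb hxb
    obtain ⟨h1, h2, h3⟩ := hD hb
    exact h3 (fix_seven_unique hF (g := (x : Matrix.GeneralLinearGroup (Fin 4) F))
      (by exact_mod_cast congrArg Subtype.val hx) (by exact_mod_cast fun h => hx1 (Subtype.ext h))
      (congrArg Prod.fst hxb) (congrArg Prod.snd hxb) h1 h2)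
  rw [e7] at h7
  have h70 : 7 ∣ (orbit H (v, w)).ncard := (Nat.modEq_zero_iff_dvd).1 h7
  have h15 : 15 ∣ (orbit H (v, w)).ncard := by
    rw [← orbit_vec H hF e hv0, ← MulAction.index_stabilizer, ← MulAction.index_stabilizer]
    apply Subgroup.index_dvd_of_le
    intro g hg
    exact congrArg Prod.fst hg
  have hpos : 0 < (orbit H (v, w)).ncard := by
    rw [Set.ncard_pos (Set.toFinite _)]
    exact ⟨_, mem_orbit_self _⟩
  have hcD : {p : V × V | p.1 ≠ 0 ∧ p.2 ≠ 0 ∧ p.1 ≠ p.2}.ncard = 210 := by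
    have h1 : {p : V × V | p.1 ≠ 0 ∧ p.2 ≠ 0 ∧ p.1 ≠ p.2} =
        ((({0} : Finset V)ᶜ).offDiag : Set (V × V)) := by
      ext p
      simp only [Set.mem_setOf_eq, Finset.coe_offDiag, Set.mem_offDiag, Finset.coe_compl,
        Finset.coe_singleton, Set.mem_compl_iff, Set.mem_singleton_iff]
    rw [h1, Set.ncard_coe_finset, Finset.offDiag_card, Finset.card_compl, Finset.card_singleton,
      ← Nat.card_eq_fintype_card, card_V hF]
  have hle : (orbit H (v, w)).ncard ≤ 210 := by
    rw [← hcD]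
    exact Set.ncard_le_ncard hD (Set.toFinite _)
  have heq : (orbit H (v, w)).ncard = 210 := by omega
  have hset : orbit H (v, w) = {p : V × V | p.1 ≠ 0 ∧ p.2 ≠ 0 ∧ p.1 ≠ p.2} := by
    apply Set.eq_of_subset_of_ncard_le hD
    · rw [hcD, heq]
  intro a b ha hb hab
  rw [hset]
  exact ⟨ha, hb, hab⟩

theorem main (hF : Fintype.card F = 2) (e : H ≃* alternatingGroup (Fin 7)) (v w v' w' : V)
    (hv : v ≠ 0) (hw : w ≠ 0) (hvw : v ≠ w) (hv' : v' ≠ 0) (hw' : w' ≠ 0) (hvw' : v' ≠ w') :
    ∃ g ∈ H, (g : Matrix (Fin 4) (Fin 4) F).mulVec v = v' ∧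
      (g : Matrix (Fin 4) (Fin 4) F).mulVec w = w' := by
  obtain ⟨a, b, -, -, -, h⟩ := two_transitive H hF e
  obtain ⟨g, hg⟩ := h v w hv hw hvw
  obtain ⟨k, hk⟩ := h v' w' hv' hw' hvw'
  refine ⟨(k * g⁻¹ : H), (k * g⁻¹).2, ?_⟩
  have hg' : (v, w) = g • (a, b) := hg.symm
  have h1 : (k * g⁻¹) • (v, w) = (v', w') := by
    rw [hg', mul_smul, inv_smul_smul]; exact hk
  exact ⟨congrArg Prod.fst h1, congrArg Prod.snd h1⟩

end H7.A7GL
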