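import Mathlib

set_option autoImplicit false
set_option linter.all false

/-!
The even part of `S2 wr S4` is contained in `AGL(3,2)`.
-/

namespace Cfsg.Agent.H7.Ag8

open Equiv

abbrev Γ := Fin 4 × Fin 2

def S3 (a b c : Γ) : Γ := (a.1 ^^^ b.1 ^^^ c.1, a.2 + b.2 + c.2)

theorem sig_aff : ∀ σ : Perm (Fin 4), ∀ i j k : Fin 4, σ (i ^^^ j ^^^ k) = σ i ^^^ σ j ^^^ σ k := by decide +kernel

theorem c_aff : ∀ c : Fin 4 → Fin 2, (∏ i, Equiv.Perm.sign (if c i = 0 then (1 : Perm (Fin 2)) else swap 0 1)) = 1 →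
    ∀ i j k : Fin 4, c (i ^^^ j ^^^ k) = c i + c j + c k := by decide +kernel

theorem fin2 : ∀ a b : Fin 2, a ≠ b → b = a + 1 := by decide

theorem core (γ : Perm Γ) (h : ∀ x y : Γ, x.1 = y.1 ↔ (γ x).1 = (γ y).1) (hs : Perm.sign γ = 1) (a b c : Γ) :
    γ (S3 a b c) = S3 (γ a) (γ b) (γ c) := by
  have hσ : Function.Injective (fun i : Fin 4 => (γ (i, 0)).1) := by
    intro i j hij
    exact (h (i, 0) (j, 0)).2 hij
  let σ : Perm (Fin 4) := Equiv.ofBijective _ (Finite.injective_iff_bijective.1 hσ)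
  let d : Fin 4 → Fin 2 := fun i => (γ (i, 0)).2
  have h1 : ∀ x : Γ, (γ x).1 = σ x.1 := fun x => (h x (x.1, 0)).1 rfl
  have h2 : ∀ x : Γ, (γ x).2 = d x.1 + x.2 := by
    rintro ⟨i, e⟩
    show (γ (i, e)).2 = d i + e
    by_cases he : e = 0
    · subst he; rw [add_zero]
    · have he1 : e = 1 := by revert e; decide
      subst he1
      have : d i ≠ (γ (i, 1)).2 := by
        intro h3
        have h4 : γ (i, 0) = γ (i, 1) := Prod.ext ((h (i, 0) (i, 1)).1 rfl) h3
        have := γ.injective h4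
        simp at this
      exact fin2 _ _ this
  let B : Fin 4 → Perm (Fin 2) := fun i => if d i = 0 then 1 else swap 0 1
  have hB : ∀ i e, B i e = d i + e := by
    intro i e
    show (if d i = 0 then (1 : Perm (Fin 2)) else swap 0 1) e = d i + e
    generalize d i = q
    revert q e; decide
  have hγ : γ = prodCongrLeft (fun _ : Fin 2 => σ) * prodCongrRight B := by
    ext1 x
    rw [Perm.mul_apply]
    apply Prod.ext
    · rw [h1]; rfl
    · rw [h2]
      show _ = (B x.1) x.2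
      rw [hB]
  have hsign : (∏ i, Equiv.Perm.sign (if d i = 0 then (1 : Perm (Fin 2)) else swap 0 1)) = 1 := by
    rw [hγ, Perm.sign_mul, Perm.sign_prodCongrLeft, Perm.sign_prodCongrRight, Fin.prod_univ_two,
      Int.units_mul_self, one_mul] at hs
    exact hs
  have hc := c_aff d hsign
  apply Prod.ext
  · rw [h1]
    show σ (a.1 ^^^ b.1 ^^^ c.1) = (γ a).1 ^^^ (γ b).1 ^^^ (γ c).1
    rw [h1, h1, h1, sig_aff]
  · rw [h2]
    show d (a.1 ^^^ b.1 ^^^ c.1) + (a.2 + b.2 + c.2) = (γ a).2 + (γ b).2 + (γ c).2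
    rw [h2, h2, h2, hc]
    abel

variable {Ω : Type*} [Fintype Ω] [DecidableEq Ω]

theorem exists_E (f : Ω → Fin 4) (hf : ∀ i : Fin 4, Nat.card {x : Ω // f x = i} = 2) :
    ∃ E : Ω ≃ Γ, ∀ x, (E x).1 = f x := by
  have h : ∀ i : Fin 4, Nonempty ({x : Ω // f x = i} ≃ Fin 2) := by
    intro i
    refine ⟨Fintype.equivOfCardEq ?_⟩
    rw [← Nat.card_eq_fintype_card, hf i, Fintype.card_fin]
  have e := fun i => (h i).some
  exact ⟨(Equiv.sigmaFiberEquiv f).symm.trans ((Equiv.sigmaCongrRight e).trans (Equiv.sigmaEquivProd (Fin 4) (Fin 2))),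
    fun x => rfl⟩

def W (f : Ω → Fin 4) : Subgroup (Perm Ω) where
  carrier := {g | ∀ x y : Ω, f x = f y ↔ f (g x) = f (g y)}
  mul_mem' := by
    intro a b ha hb x y
    rw [hb, ha]; rfl
  one_mem' := fun _ _ => Iff.rfl
  inv_mem' := by
    intro a ha x y
    have h := ha (a⁻¹ x) (a⁻¹ y)
    have e : ∀ i, a (a⁻¹ i) = i := fun i => by rw [← Equiv.Perm.mul_apply, mul_inv_cancel, Equiv.Perm.one_apply]
    rw [e, e] at h
    exact h.symm

def Lg (E : Ω ≃ Γ) : Subgroup (Perm Ω) where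
  carrier := {g | ∀ a b c : Γ, E (g (E.symm (S3 a b c))) = S3 (E (g (E.symm a))) (E (g (E.symm b))) (E (g (E.symm c)))}
  mul_mem' := by
    intro g h hg hh a b c
    have h1 := hh a b c
    have h2 := hg (E (h (E.symm a))) (E (h (E.symm b))) (E (h (E.symm c)))
    rw [← h1] at h2
    simp only [Equiv.symm_apply_apply] at h2
    exact h2
  one_mem' := by
    intro a b c
    simp
  inv_mem' := by
    intro g hg a b c
    have e : ∀ i, g (g⁻¹ i) = i := fun i => by rw [← Equiv.Perm.mul_apply, mul_inv_cancel, Equiv.Perm.one_apply]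
    have h1 := hg (E (g⁻¹ (E.symm a))) (E (g⁻¹ (E.symm b))) (E (g⁻¹ (E.symm c)))
    simp only [Equiv.symm_apply_apply, e, Equiv.apply_symm_apply] at h1
    rw [← h1, Equiv.symm_apply_apply]
    rw [← Equiv.Perm.mul_apply g⁻¹ g, inv_mul_cancel, Equiv.Perm.one_apply, Equiv.apply_symm_apply]

theorem W_le (f : Ω → Fin 4) (E : Ω ≃ Γ) (hE : ∀ x, (E x).1 = f x) : W f ⊓ alternatingGroup Ω ≤ Lg E := by
  rintro g ⟨h1, h2⟩ a b c
  have h2 : Perm.sign g = 1 := Equiv.Perm.mem_alternatingGroup.1 h2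
  have h3 := core (E.permCongr g) (by
    intro x y
    have := h1 (E.symm x) (E.symm y)
    rw [← hE, ← hE, ← hE, ← hE] at this
    simpa [Equiv.permCongr_apply] using this) (by rw [Perm.sign_permCongr, h2]) a b c
  simpa [Equiv.permCongr_apply] using h3

def γ1 : Perm Γ := swap (1, 0) (0, 1) * swap (3, 0) (2, 1)
def γ2 : Perm Γ := swap (0, 0) (0, 1) * swap (0, 1) (1, 0)

theorem γ1_lin : ∀ a b c : Γ, γ1 (S3 a b c) = S3 (γ1 a) (γ1 b) (γ1 c) := by decide +kernel
theorem γ1_sign : Perm.sign γ1 = 1 := by decide +kernel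
theorem γ1_not : ¬ ((0, 0) : Γ).1 = ((0, 1) : Γ).1 ∨ ¬ (γ1 (0, 0)).1 = (γ1 (0, 1)).1 := by decide +kernel
theorem γ2_sign : Perm.sign γ2 = 1 := by decide +kernel
theorem γ2_not : ¬ ∀ a b c : Γ, γ2 (S3 a b c) = S3 (γ2 a) (γ2 b) (γ2 c) := by decide +kernel

theorem main (f : Ω → Fin 4) (hf : ∀ i : Fin 4, Nat.card {x : Ω // f x = i} = 2) :
    ¬ IsCoatom ((Subgroup.closure {g : Equiv.Perm Ω | ∀ x y : Ω, f x = f y ↔ f (g x) = f (g y)} ⊓
      alternatingGroup Ω).subgroupOf (alternatingGroup Ω)) := by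
  obtain ⟨E, hE⟩ := exists_E f hf
  have hcl : Subgroup.closure {g : Equiv.Perm Ω | ∀ x y : Ω, f x = f y ↔ f (g x) = f (g y)} = W f :=
    Subgroup.closure_eq (W f)
  rw [hcl]
  intro hco
  have hle : (W f ⊓ alternatingGroup Ω).subgroupOf (alternatingGroup Ω) ≤ (Lg E).subgroupOf (alternatingGroup Ω) :=
    Subgroup.comap_mono (W_le f E hE)
  have hp : ∀ (γ : Perm Γ) x, (E.permCongr.symm γ) x = E.symm (γ (E x)) := fun γ x => rfl
  have hs : ∀ γ : Perm Γ, Perm.sign (E.permCongr.symm γ) = Perm.sign γ := by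
    intro γ
    rw [← Perm.sign_permCongr E, Equiv.apply_symm_apply]
  have hlt : (W f ⊓ alternatingGroup Ω).subgroupOf (alternatingGroup Ω) < (Lg E).subgroupOf (alternatingGroup Ω) := by
    refine lt_of_le_of_ne hle ?_
    intro heq
    have h1 : (⟨E.permCongr.symm γ1, Equiv.Perm.mem_alternatingGroup.2 ((hs γ1).trans γ1_sign)⟩ : alternatingGroup Ω) ∈
        (Lg E).subgroupOf (alternatingGroup Ω) := by
      rw [Subgroup.mem_subgroupOf]
      intro a b c
      show E ((E.permCongr.symm γ1) (E.symm (S3 a b c))) = S3 (E ((E.permCongr.symm γ1) (E.symm a))) (E ((E.permCongr.symm γ1) (E.symm b))) (E ((E.permCongr.symm γ1) (E.symm c)))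
      simp only [hp, Equiv.apply_symm_apply]
      exact γ1_lin a b c
    rw [← heq, Subgroup.mem_subgroupOf] at h1
    have h2 := h1.1 (E.symm (0, 0)) (E.symm (0, 1))
    change f (E.symm (0, 0)) = f (E.symm (0, 1)) ↔ f ((E.permCongr.symm γ1) (E.symm (0, 0))) = f ((E.permCongr.symm γ1) (E.symm (0, 1))) at h2
    rw [← hE, ← hE, ← hE, ← hE] at h2
    simp only [hp, Equiv.apply_symm_apply] at h2
    rcases γ1_not with h3 | h3
    · exact h3 rfl
    · exact h3 (h2.1 trivial)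
  have htop := hco.2 _ hlt
  have h1 : (⟨E.permCongr.symm γ2, Equiv.Perm.mem_alternatingGroup.2 ((hs γ2).trans γ2_sign)⟩ : alternatingGroup Ω) ∈
        (Lg E).subgroupOf (alternatingGroup Ω) := by rw [htop]; trivial
  rw [Subgroup.mem_subgroupOf] at h1
  apply γ2_not
  intro a b c
  have h2 := h1 a b c
  change E ((E.permCongr.symm γ2) (E.symm (S3 a b c))) = S3 (E ((E.permCongr.symm γ2) (E.symm a))) (E ((E.permCongr.symm γ2) (E.symm b))) (E ((E.permCongr.symm γ2) (E.symm c))) at h2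
  simp only [hp, Equiv.apply_symm_apply] at h2
  exact h2

end Cfsg.Agent.H7.Ag8
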