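import Cfsg.Agent.H3_Clifford2
import Cfsg.Agent.H3_Lift
import Cfsg.Agent.S4456
import Cfsg.Agent.H10_BlockHZ
import Cfsg.Agent.H26_BP
import Cfsg.Agent.H26_Kernel
import Cfsg.Agent.H2_Card

set_option autoImplicit false
open Cfsg

namespace H7.Cam

open Subgroup Cfsg.Agent.H3.CharBasic Cfsg.Agent.H3.CharIrr Cfsg.Agent.H3.CharComplete Cfsg.Agent.H3.CharInd
  Cfsg.Agent.H3.CharMult Cfsg.Agent.H3.Clifford Cfsg.Agent.H3.Lift
open scoped ComplexConjugate

variable {G : Type*} [Group G]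

theorem vanish [Fintype G] {N : Subgroup G} [hN : N.Normal] [Fintype N]
    (hc : ∀ g : G, g ∉ N → ∀ n ∈ N, ∃ x : G, x * g * x⁻¹ = g * n) {ψ : G → ℂ} (hψ : IsIrrCharacter G ψ) :
    InKer N ψ ∨ ∀ g : G, g ∉ N → ψ g = 0 := by
  rcases avg_irr hN hψ with h | h
  · exact Or.inl h
  · right
    intro g hg
    have h1 := congrFun h g
    have h2 : ∀ n : N, ψ (n * g) = ψ g := by
      intro n
      obtain ⟨x, hx⟩ := hc g hg (g⁻¹ * n * g) (by
        have := hN.conj_mem n n.2 g⁻¹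
        rwa [inv_inv] at this)
      have e : g * (g⁻¹ * (n : G) * g) = n * g := by group
      rw [e] at hx
      rw [← hx]
      exact IsChar.isClass (IsIrr.isCharacter hψ) _ _
    simp only [avg, Pi.zero_apply] at h1
    rw [Finset.sum_congr rfl fun (n : N) _ => h2 n, Finset.sum_const, Finset.card_univ, ← Nat.card_eq_fintype_card,
      nsmul_eq_mul, ← mul_assoc, inv_mul_cancel₀ (by exact_mod_cast Nat.card_pos.ne'), one_mul] at h1
    exact h1

theorem dvd_of_zero [Fintype G] {p : ℕ} (hp : p.Prime) {χ : G → ℂ} (hχ : IsIrrCharacter G χ) {g : G}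
    (hg : ∃ k, orderOf g = p ^ k) (h0 : χ g = 0) : p ∣ charDegree χ := by
  obtain ⟨M, hM⟩ := Cfsg.Agent.H26.Kernel.exists_isPModular p hp
  haveI := hM.2.1
  have h1 := Cfsg.Agent.H10.BlockHZ.char_sub_mem hM (IsIrr.isCharacter hχ) (Commute.one_right g) hg
    (by rw [orderOf_one]; exact hp.one_lt.ne' ∘ Nat.dvd_one.1)
  rw [mul_one, h0, zero_sub] at h1
  have h2 := Cfsg.Agent.H10.BlockLoc.ideal_neg h1
  rw [neg_neg, ← Cfsg.Agent.H10.Char.charDegree_eq hχ] at h2
  exact (Cfsg.Agent.H10.BlockLoc.ideal_natCast_iff hM _).1 h2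

theorem exists_pelt [Finite G] {N : Subgroup G} [hN : N.Normal] {p : ℕ} [hp : Fact p.Prime] (hpi : p ∣ N.index)
    (P : Sylow p G) : ∃ g ∈ (P : Subgroup G), g ∉ N := by
  by_contra h
  push Not at h
  exact P.not_dvd_index (hpi.trans (Subgroup.index_dvd_of_le h))

theorem pdeg_ker [Fintype G] {N : Subgroup G} [hN : N.Normal] [Fintype N]
    (hc : ∀ g : G, g ∉ N → ∀ n ∈ N, ∃ x : G, x * g * x⁻¹ = g * n) {p : ℕ} [hp : Fact p.Prime] (hpi : p ∣ N.index)
    {ψ : G → ℂ} (hψ : IsIrrCharacter G ψ) (hd : ¬ p ∣ charDegree ψ) : InKer N ψ := by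
  rcases vanish hc hψ with h | h
  · exact h
  · exfalso
    obtain ⟨P⟩ : Nonempty (Sylow p G) := inferInstance
    obtain ⟨g, hgP, hgN⟩ := exists_pelt hpi P
    obtain ⟨k, hk⟩ := IsPGroup.iff_orderOf.1 P.isPGroup' ⟨g, hgP⟩
    exact hd (dvd_of_zero hp.out hψ ⟨k, by rw [← hk, ← Subgroup.orderOf_coe]⟩ (h g hgN))

theorem lemmaA [Finite G] (N : Subgroup G) [hN : N.Normal]
    (hc : ∀ g : G, g ∉ N → ∀ n ∈ N, ∃ x : G, x * g * x⁻¹ = g * n) (p : ℕ) [hp : Fact p.Prime] (hpi : p ∣ N.index) :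
    ∃ K : Subgroup G, K.Normal ∧ K ≤ N ∧ (Nat.card K).Coprime p ∧ ∃ k, K.relIndex N = p ^ k := by
  classical
  haveI : Fintype G := Fintype.ofFinite _
  haveI : Fintype N := Fintype.ofFinite _
  haveI : Fintype (IrrCharacter G) := Fintype.ofFinite _
  obtain ⟨P⟩ : Nonempty (Sylow p G) := inferInstance
  let H : Subgroup G := (P : Subgroup G) ⊔ N
  haveI : Fintype H := Fintype.ofFinite _
  haveI : Fintype (N.subgroupOf H) := Fintype.ofFinite _
  have hPH : (P : Subgroup G) ≤ H := le_sup_left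
  have hNH : N ≤ H := le_sup_right
  have hHi : ¬ p ∣ H.index := fun h => P.not_dvd_index (h.trans (Subgroup.index_dvd_of_le hPH))
  have hrel : ∃ k, (N.subgroupOf H).index = p ^ k := by
    have h1 : (N.subgroupOf H).index = N.relIndex H := rfl
    have h2 : N.relIndex H = N.relIndex (P : Subgroup G) :=
      Cfsg.Agent.H2.Card.relIndex_sup_of_le_normalizer (by rw [Subgroup.normalizer_eq_top]; exact le_top)
    have h3 : N.relIndex (P : Subgroup G) ∣ Nat.card (P : Subgroup G) := Subgroup.index_dvd_card _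
    rw [h1, h2]
    obtain ⟨m, hm⟩ := IsPGroup.iff_card.1 P.isPGroup'
    rw [hm] at h3
    obtain ⟨k, _, hk⟩ := (Nat.dvd_prime_pow hp.out).1 h3
    exact ⟨k, hk⟩
  have hdeg : ∀ χ : IrrCharacter H, charDegree (χ : H → ℂ) ≠ 1 → p ∣ charDegree (χ : H → ℂ) := by
    rintro ⟨χ, hχ⟩ hne
    by_contra hnd
    apply hne
    show charDegree χ = 1
    have hnd' : ¬ p ∣ charDegree χ := hnd
    have hind : IsCharacter G (indFun H χ) := IsChar.ind (IsIrr.isCharacter hχ)
    obtain ⟨n, hn, hs⟩ := IsChar.eq_sum_nat hind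
    have hex : ∃ ψ : IrrCharacter G, n ψ ≠ 0 ∧ ¬ p ∣ charDegree (ψ : G → ℂ) := by
      by_contra hno
      push Not at hno
      have h1 : ((H.index * charDegree χ : ℕ) : ℂ) = ((∑ ψ : IrrCharacter G, n ψ * charDegree (ψ : G → ℂ) : ℕ) : ℂ) := by
        have h2 := congrFun hs 1
        rw [ind_one, Finset.sum_apply] at h2
        push_cast
        rw [Cfsg.Agent.H10.Char.charDegree_eq hχ, h2]
        refine Finset.sum_congr rfl fun ψ _ => ?_
        rw [Pi.smul_apply, smul_eq_mul, Cfsg.Agent.H10.Char.charDegree_eq ψ.2]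
      have h3 : H.index * charDegree χ = ∑ ψ : IrrCharacter G, n ψ * charDegree (ψ : G → ℂ) := by exact_mod_cast h1
      have h4 : p ∣ H.index * charDegree χ := by
        rw [h3]
        refine Finset.dvd_sum fun ψ _ => ?_
        by_cases h0 : n ψ = 0
        · rw [h0, zero_mul]; exact dvd_zero _
        · exact Dvd.dvd.mul_left (hno ψ h0) _
      rcases (Nat.Prime.dvd_mul hp.out).1 h4 with h5 | h5
      · exact hHi h5
      · exact hnd' h5
    obtain ⟨ψ, hn0, hψd⟩ := hex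
    have hk := pdeg_ker hc hpi ψ.2 hψd
    have hc1 : classInner (indFun H χ) (ψ : G → ℂ) ≠ 0 := by
      rw [hn ψ]; exact_mod_cast hn0
    have hc2 := (constituent_ind_iff (IsIrr.isCharacter ψ.2)).1 hc1
    have hker : ∀ u : H, (u : G) ∈ N → χ u = χ 1 := by
      intro u hu
      refine Cfsg.Agent.H26.BP.ker_of_constituent (IsChar.res (IsIrr.isCharacter ψ.2) H) hχ hc2 ?_
      have := hk u hu 1
      rwa [mul_one] at this
    haveI hNHn : (N.subgroupOf H).Normal := inferInstance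
    have hχ1 : χ 1 ≠ 0 := by
      rw [← Cfsg.Agent.H10.Char.charDegree_eq hχ]
      have : charDegree χ ≠ 0 := by
        intro h; apply hnd'; rw [h]; exact dvd_zero _
      exact_mod_cast this
    obtain ⟨b, hb, hbi⟩ := degree_dvd (N.subgroupOf H) hχ (ϑ := fun _ => 1) isIrr_one (by
      simp only [classInner, map_one, mul_one]
      rw [Finset.sum_congr rfl fun (n : N.subgroupOf H) _ => hker n n.2, Finset.sum_const, Finset.card_univ,
        ← Nat.card_eq_fintype_card, nsmul_eq_mul, ← mul_assoc, inv_mul_cancel₀ (by exact_mod_cast Nat.card_pos.ne'), one_mul]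
      exact hχ1)
    have hbd : charDegree χ = b := by
      have : (charDegree χ : ℂ) = b := by
        rw [Cfsg.Agent.H10.Char.charDegree_eq hχ, hb, mul_one]
      exact_mod_cast this
    obtain ⟨k, hk'⟩ := hrel
    rw [hk'] at hbi
    obtain ⟨j, _, hj⟩ := (Nat.dvd_prime_pow hp.out).1 hbi
    rw [hbd, hj] at hnd' ⊢
    rcases Nat.eq_zero_or_pos j with h | h
    · rw [h, pow_zero]
    · exact absurd (dvd_pow_self p h.ne') hnd'
  obtain ⟨K₀, hK₀n, hK₀c, k, hk⟩ := Cfsg.Agent.S4456.result (G := H) p hp.out hdeg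
  let K : Subgroup G := K₀.map H.subtype
  have hKc : Nat.card K = Nat.card K₀ := Subgroup.card_map_of_injective H.subtype_injective
  have hmem : ∀ y : G, y ∈ H → (orderOf y).Coprime p → y ∈ K := by
    intro y hy hyo
    have h1 : orderOf ((⟨y, hy⟩ : H) : H ⧸ K₀) ∣ orderOf y := by
      have := orderOf_map_dvd (QuotientGroup.mk' K₀) (⟨y, hy⟩ : H)
      rwa [← Subgroup.orderOf_coe] at this
    have h2 : orderOf ((⟨y, hy⟩ : H) : H ⧸ K₀) ∣ p ^ k := by
      rw [← hk]; exact orderOf_dvd_natCard _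
    have h3 : orderOf ((⟨y, hy⟩ : H) : H ⧸ K₀) = 1 := Nat.eq_one_of_dvd_coprimes (hyo.pow_right k) h1 h2
    have h4 : (⟨y, hy⟩ : H) ∈ K₀ := (QuotientGroup.eq_one_iff _).1 (orderOf_eq_one_iff.1 h3)
    exact ⟨_, h4, rfl⟩
  have hKN : K ≤ N := by
    rintro _ ⟨y, hy, rfl⟩
    obtain ⟨m, hm⟩ := hrel
    have h1 : orderOf ((y : H ⧸ N.subgroupOf H)) ∣ orderOf y := orderOf_map_dvd (QuotientGroup.mk' (N.subgroupOf H)) y
    have h2 : orderOf ((y : H ⧸ N.subgroupOf H)) ∣ p ^ m := by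
      rw [← hm]; exact orderOf_dvd_natCard _
    have h3 : orderOf y ∣ Nat.card K₀ := Subgroup.orderOf_dvd_natCard _ hy
    have h4 : orderOf ((y : H ⧸ N.subgroupOf H)) = 1 := Nat.eq_one_of_dvd_coprimes (hK₀c.pow_right m) (h1.trans h3) h2
    have h5 : y ∈ N.subgroupOf H := (QuotientGroup.eq_one_iff y).1 (orderOf_eq_one_iff.1 h4)
    exact h5
  refine ⟨K, ⟨?_⟩, hKN, ?_, ?_⟩
  · intro x hx g
    apply hmem
    · exact hNH (hN.conj_mem x (hKN hx) g)
    · have hcj : orderOf (g * x * g⁻¹) = orderOf x := orderOf_injective (MulAut.conj g).toMonoidHom (MulAut.conj g).injective x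
      rw [hcj]
      have : orderOf x ∣ Nat.card K := Subgroup.orderOf_dvd_natCard _ hx
      rw [hKc] at this
      exact Nat.Coprime.coprime_dvd_left this hK₀c
  · rw [hKc]; exact hK₀c
  · have h1 : K.relIndex H = p ^ k := by
      show (K.subgroupOf H).index = p ^ k
      have : K.subgroupOf H = K₀ := Subgroup.comap_map_eq_self_of_injective H.subtype_injective K₀
      rw [this, hk]
    have h2 : K.relIndex N ∣ p ^ k := by
      rw [← h1, ← Subgroup.relIndex_mul_relIndex K N H hKN hNH]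
      exact Dvd.intro _ rfl
    obtain ⟨j, _, hj⟩ := (Nat.dvd_prime_pow hp.out).1 h2
    exact ⟨j, hj⟩

end H7.Cam
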