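import Mathlib
import Cfsg.Agent.H5_V4
import Cfsg.Agent.H5_GL
import Cfsg.Prelude

/-! Centralizer orders in `SL(2, F)` and `PSL(2, F)`. -/

namespace H7.Cls

open Matrix

variable {F : Type*} [Field F]

theorem exists_comm (A B : Matrix (Fin 2) (Fin 2) F) (hA : A 0 1 ≠ 0 ∨ A 1 0 ≠ 0 ∨ A 0 0 ≠ A 1 1)
    (h : A * B = B * A) : ∃ x y : F, B = x • (1 : Matrix (Fin 2) (Fin 2) F) + y • A := by
  have e00 := congrFun (congrFun h 0) 0
  have e01 := congrFun (congrFun h 0) 1
  have e10 := congrFun (congrFun h 1) 0
  simp only [Matrix.mul_apply, Fin.sum_univ_two] at e00 e01 e10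
  have key : ∀ x y : F, B 0 0 = x + y * A 0 0 → B 0 1 = y * A 0 1 → B 1 0 = y * A 1 0 → B 1 1 = x + y * A 1 1 →
      B = x • (1 : Matrix (Fin 2) (Fin 2) F) + y • A := by
    intro x y h0 h1 h2 h3
    ext i j
    fin_cases i <;> fin_cases j <;> simp [h0, h1, h2, h3]
  by_cases h1 : A 0 1 = 0
  · by_cases h2 : A 1 0 = 0
    · have h3 : A 0 0 ≠ A 1 1 := by
        rcases hA with hA | hA | hA
        · exact absurd h1 hA
        · exact absurd h2 hA
        · exact hA
      have h4 : A 0 0 - A 1 1 ≠ 0 := sub_ne_zero.2 h3
      have b1 : B 0 1 = 0 := by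
        have : (A 0 0 - A 1 1) * B 0 1 = 0 := by linear_combination e01 + (B 0 0 - B 1 1) * h1
        exact (mul_eq_zero.1 this).resolve_left h4
      have b2 : B 1 0 = 0 := by
        have : (A 0 0 - A 1 1) * B 1 0 = 0 := by linear_combination -e10 + (B 0 0 - B 1 1) * h2
        exact (mul_eq_zero.1 this).resolve_left h4
      refine ⟨B 0 0 - (B 0 0 - B 1 1) / (A 0 0 - A 1 1) * A 0 0, (B 0 0 - B 1 1) / (A 0 0 - A 1 1), key _ _ ?_ ?_ ?_ ?_⟩
      · ring
      · rw [b1, h1]; ring
      · rw [b2, h2]; ring
      · field_simp; ring
    · refine ⟨B 0 0 - B 1 0 / A 1 0 * A 0 0, B 1 0 / A 1 0, key _ _ ?_ ?_ ?_ ?_⟩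
      · ring
      · field_simp; linear_combination -e00
      · field_simp
      · field_simp; linear_combination -e10
  · refine ⟨B 0 0 - B 0 1 / A 0 1 * A 0 0, B 0 1 / A 0 1, key _ _ ?_ ?_ ?_ ?_⟩
    · ring
    · field_simp
    · field_simp; linear_combination e00
    · field_simp; linear_combination e01

/-- Affine points of the conic and its points at infinity. -/
theorem card_conic [Fintype F] (t : F) (ht : t ^ 2 ≠ 4) :
    Nat.card {p : F × F // p.1 ^ 2 + t * p.1 * p.2 + p.2 ^ 2 = 1} + Nat.card {s : F // s ^ 2 + t * s + 1 = 0} =
      Fintype.card F + 1 := by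
  classical
  have hy : ∀ s : F, s ^ 2 + t * s + 1 ≠ 0 →
      (1 + s * (-(2 * s + t) / (s ^ 2 + t * s + 1))) ^ 2 + t * (1 + s * (-(2 * s + t) / (s ^ 2 + t * s + 1))) *
        (-(2 * s + t) / (s ^ 2 + t * s + 1)) + (-(2 * s + t) / (s ^ 2 + t * s + 1)) ^ 2 = 1 := by
    intro s hs
    have h : ∀ y : F, y * (s ^ 2 + t * s + 1) = -(2 * s + t) → (1 + s * y) ^ 2 + t * (1 + s * y) * y + y ^ 2 = 1 := by
      intro y hy
      linear_combination y * hy
    exact h _ (by rw [div_mul_cancel₀ _ hs])
  let φ : Option F → {p : F × F // p.1 ^ 2 + t * p.1 * p.2 + p.2 ^ 2 = 1} ⊕ {s : F // s ^ 2 + t * s + 1 = 0} :=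
    fun o => match o with
      | none => Sum.inl ⟨(-1, 0), by ring⟩
      | some s => if h : s ^ 2 + t * s + 1 = 0 then Sum.inr ⟨s, h⟩ else
          Sum.inl ⟨(1 + s * (-(2 * s + t) / (s ^ 2 + t * s + 1)), -(2 * s + t) / (s ^ 2 + t * s + 1)), hy s h⟩
  have h2t : (2 : F) = 0 → t ≠ 0 := by
    rintro h2 rfl
    apply ht
    linear_combination (-2 : F) * h2
  have hbij : Function.Bijective φ := by
    constructor
    · intro a b hab
      rcases a with _ | s <;> rcases b with _ | r
      · rfl
      · exfalso
        simp only [φ] at hab
        split_ifs at hab with h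
        have h1 := congrArg (fun z : F × F => z) (Subtype.ext_iff.1 (Sum.inl.inj hab))
        simp only [Prod.mk.injEq] at h1
        obtain ⟨h1, h3⟩ := h1
        rw [← h3] at h1
        rw [eq_comm, neg_div, neg_eq_zero, div_eq_zero_iff] at h3
        have h4 : 2 * r + t = 0 := h3.resolve_right h
        have h5 : (2 : F) = 0 := by linear_combination -h1
        exact h2t h5 (by linear_combination h4 - r * h5)
      · exfalso
        simp only [φ] at hab
        split_ifs at hab with h
        have h1 := congrArg (fun z : F × F => z) (Subtype.ext_iff.1 (Sum.inl.inj hab))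
        simp only [Prod.mk.injEq] at h1
        obtain ⟨h1, h3⟩ := h1
        rw [h3] at h1
        rw [neg_div, neg_eq_zero, div_eq_zero_iff] at h3
        have h4 : 2 * s + t = 0 := h3.resolve_right h
        have h5 : (2 : F) = 0 := by linear_combination h1
        exact h2t h5 (by linear_combination h4 - s * h5)
      · simp only [φ] at hab
        split_ifs at hab with h h' h'
        · exact congrArg some (Subtype.ext_iff.1 (Sum.inr.inj hab))
        · have h1 := congrArg (fun z : F × F => z) (Subtype.ext_iff.1 (Sum.inl.inj hab))
          simp only [Prod.mk.injEq] at h1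
          obtain ⟨h1, h3⟩ := h1
          rw [← h3] at h1
          have h5 : (s - r) * (-(2 * s + t) / (s ^ 2 + t * s + 1)) = 0 := by linear_combination h1
          rcases mul_eq_zero.1 h5 with h6 | h6
          · rw [sub_eq_zero.1 h6]
          · have h7 := h6
            rw [neg_div, neg_eq_zero, div_eq_zero_iff] at h7
            have h8 : 2 * s + t = 0 := h7.resolve_right h
            rw [h6, eq_comm, neg_div, neg_eq_zero, div_eq_zero_iff] at h3
            have h9 : 2 * r + t = 0 := h3.resolve_right h'
            have h10 : (2 : F) ≠ 0 := fun h2 => h2t h2 (by linear_combination h8 - s * h2)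
            have h11 : (2 : F) * (s - r) = 0 := by linear_combination h8 - h9
            rw [sub_eq_zero.1 ((mul_eq_zero.1 h11).resolve_left h10)]
    · rintro (⟨⟨x, y⟩, hp⟩ | ⟨s, hs⟩)
      · simp only at hp
        by_cases hy0 : y = 0
        · subst hy0
          have h1 : (x - 1) * (x + 1) = 0 := by linear_combination hp
          by_cases hx : x = -1
          · refine ⟨none, ?_⟩
            simp only [φ]
            congr 1
            apply Subtype.ext
            exact Prod.ext hx.symm rfl
          · have hx1 : x = 1 := by
              rcases mul_eq_zero.1 h1 with h | h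
              · exact sub_eq_zero.1 h
              · exact absurd (eq_neg_of_add_eq_zero_left h) hx
            have h2 : (2 : F) ≠ 0 := by
              intro h2
              apply hx
              rw [hx1]
              linear_combination h2
            have hnr : ¬ ((-t / 2) ^ 2 + t * (-t / 2) + 1 = 0) := by
              intro h
              apply ht
              have h3 : 2 * (-t / 2) + t = 0 := by field_simp; ring
              linear_combination (2 * (-t / 2) + t) * h3 - 4 * h
            refine ⟨some (-t / 2), ?_⟩
            simp only [φ]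
            rw [dif_neg hnr]
            congr 1
            apply Subtype.ext
            have : 2 * (-t / 2) + t = 0 := by field_simp; ring
            simp only [this, hx1]
            simp
        · set s := (x - 1) / y with hs
          have hx : x = 1 + s * y := by rw [hs]; field_simp; ring
          have h1 : y * (s ^ 2 + t * s + 1) = -(2 * s + t) := by
            apply mul_left_cancel₀ hy0
            rw [hx] at hp
            linear_combination hp
          clear_value s
          have hnr : ¬ (s ^ 2 + t * s + 1 = 0) := by
            intro h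
            apply ht
            rw [h] at h1
            have h3 : 2 * s + t = 0 := by linear_combination h1
            linear_combination (2 * s + t) * h3 - 4 * h
          have hyy : y = -(2 * s + t) / (s ^ 2 + t * s + 1) := by
            rw [eq_div_iff hnr]; exact h1
          refine ⟨some s, ?_⟩
          simp only [φ]
          rw [dif_neg hnr]
          congr 1
          apply Subtype.ext
          simp only [← hyy, ← hx]
      · refine ⟨some s, ?_⟩
        simp only [φ]
        rw [dif_pos hs]
  have h := Nat.card_congr (Equiv.ofBijective φ hbij)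
  rw [Nat.card_sum] at h
  rw [← h, Nat.card_eq_fintype_card, Fintype.card_option]

theorem card_roots [Fintype F] (t : F) (ht : t ^ 2 ≠ 4) :
    Nat.card {s : F // s ^ 2 + t * s + 1 = 0} = 0 ∨ Nat.card {s : F // s ^ 2 + t * s + 1 = 0} = 2 := by
  classical
  by_cases h : ∃ s : F, s ^ 2 + t * s + 1 = 0
  · right
    obtain ⟨s, hs⟩ := h
    have hs0 : s ≠ 0 := by rintro rfl; simp at hs
    have hne : s ≠ s⁻¹ := by
      intro h
      apply ht
      have h1 : s * s = 1 := by nth_rewrite 2 [h]; exact mul_inv_cancel₀ hs0
      have h2 : t * s = -2 := by linear_combination hs - h1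
      have h3 : t = -2 * s := by
        have : t * (s * s) = -2 * s := by linear_combination s * h2
        rw [h1, mul_one] at this; exact this
      rw [h3]
      linear_combination 4 * h1
    have hset : {s : F | s ^ 2 + t * s + 1 = 0} = {s, s⁻¹} := by
      ext r
      simp only [Set.mem_ofPred_eq, Set.mem_insert_iff, Set.mem_singleton_iff]
      constructor
      · intro hr
        have h1 : (r - s) * (r - s⁻¹) = 0 := by
          have h2 : t = -(s + s⁻¹) := by field_simp; linear_combination hs
          have h3 : s * s⁻¹ = 1 := mul_inv_cancel₀ hs0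
          rw [h2] at hr
          linear_combination hr + h3
        rcases mul_eq_zero.1 h1 with h | h
        · exact Or.inl (sub_eq_zero.1 h)
        · exact Or.inr (sub_eq_zero.1 h)
      · rintro (rfl | rfl)
        · exact hs
        · field_simp; linear_combination hs
    have : Nat.card {s : F // s ^ 2 + t * s + 1 = 0} = ({s : F | s ^ 2 + t * s + 1 = 0} : Set F).ncard := rfl
    rw [this, hset, Set.ncard_pair hne]
  · left
    rw [Nat.card_eq_zero]
    left
    exact ⟨fun s => h ⟨s.1, s.2⟩⟩

end H7.Cls
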