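import Mathlib
import Cfsg.Agent.H7_Cls
import Cfsg.Agent.H5_Dk4
import Cfsg.Agent.H21_SpecPSL2
import Cfsg.Prelude

/-! Class sizes of `PSL(2, F)`. -/

namespace H7.Cls

open Matrix Cfsg.Agent.H5 Cfsg.Agent.H5.SL2 Cfsg.Agent.H5.SL2Quat Cfsg.Agent.H5.V4

variable {F : Type*} [Field F]

/-- number of points of the conic -/
noncomputable def N (t : F) : ℕ := Nat.card {p : F × F // p.1 ^ 2 + t * p.1 * p.2 + p.2 ^ 2 = 1}

def tr (A : S F) : F := A.1 0 0 + A.1 1 1

theorem nonscalar {A : S F} (h1 : A ≠ 1) (h2 : A ≠ -1) : A.1 0 1 ≠ 0 ∨ A.1 1 0 ≠ 0 ∨ A.1 0 0 ≠ A.1 1 1 := by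
  by_contra h
  push Not at h
  obtain ⟨ha, hb, hc⟩ := h
  have hd := det_eq A
  have h3 : (A.1 0 0 - 1) * (A.1 0 0 + 1) = 0 := by rw [← hc, ha, hb] at hd; linear_combination hd
  rcases mul_eq_zero.1 h3 with h | h
  · have h0 : A.1 0 0 = 1 := sub_eq_zero.1 h
    apply h1
    apply ext2 <;> simp only [one00, one01, one10, one11]
    · exact h0
    · exact ha
    · exact hb
    · rw [← hc]; exact h0
  · have h0 : A.1 0 0 = -1 := eq_neg_of_add_eq_zero_left h
    apply h2
    apply ext2 <;> simp only [one00, one01, one10, one11, neg00, neg01, neg10, neg11, neg_zero]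
    · exact h0
    · exact ha
    · exact hb
    · rw [← hc]; exact h0

theorem card_centS {A : S F} (h1 : A ≠ 1) (h2 : A ≠ -1) :
    Nat.card (Subgroup.centralizer ({A} : Set (S F))) = N (tr A) := by
  have hns := nonscalar h1 h2
  have hd := det_eq A
  have hdet : ∀ p : F × F, p.1 ^ 2 + tr A * p.1 * p.2 + p.2 ^ 2 = 1 →
      (p.1 • (1 : Matrix (Fin 2) (Fin 2) F) + p.2 • A.1).det = 1 := by
    intro p hp
    rw [Matrix.det_fin_two]
    simp only [Matrix.add_apply, Matrix.smul_apply, Matrix.one_apply, smul_eq_mul, tr] at hp ⊢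
    simp
    linear_combination hp + p.2 ^ 2 * hd
  let φ : {p : F × F // p.1 ^ 2 + tr A * p.1 * p.2 + p.2 ^ 2 = 1} → Subgroup.centralizer ({A} : Set (S F)) :=
    fun p => ⟨⟨p.1.1 • (1 : Matrix (Fin 2) (Fin 2) F) + p.1.2 • A.1, hdet p.1 p.2⟩, by
      refine Subgroup.mem_centralizer_singleton_iff.2 (Subtype.ext ?_)
      show (p.1.1 • (1 : Matrix (Fin 2) (Fin 2) F) + p.1.2 • A.1) * A.1 = A.1 * (p.1.1 • (1 : Matrix (Fin 2) (Fin 2) F) + p.1.2 • A.1)
      rw [add_mul, mul_add, smul_mul_assoc, mul_smul_comm, smul_mul_assoc, mul_smul_comm, one_mul, mul_one]⟩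
  refine (Nat.card_congr (Equiv.ofBijective φ ⟨?_, ?_⟩)).symm
  · rintro ⟨⟨x, y⟩, hp⟩ ⟨⟨x', y'⟩, hp'⟩ h
    have h3 : x • (1 : Matrix (Fin 2) (Fin 2) F) + y • A.1 = x' • (1 : Matrix (Fin 2) (Fin 2) F) + y' • A.1 :=
      congrArg (fun g : Subgroup.centralizer ({A} : Set (S F)) => g.1.1) h
    have e00 := congrFun (congrFun h3 0) 0
    have e01 := congrFun (congrFun h3 0) 1
    have e10 := congrFun (congrFun h3 1) 0
    have e11 := congrFun (congrFun h3 1) 1
    simp at e00 e01 e10 e11
    have hy : y = y' := by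
      by_cases h01 : A.1 0 1 = 0
      · by_cases h10 : A.1 1 0 = 0
        · have h4 : A.1 0 0 ≠ A.1 1 1 := by
            rcases hns with h | h | h
            · exact absurd h01 h
            · exact absurd h10 h
            · exact h
          have h5 : (y - y') * (A.1 0 0 - A.1 1 1) = 0 := by linear_combination e00 - e11
          exact sub_eq_zero.1 ((mul_eq_zero.1 h5).resolve_right (sub_ne_zero.2 h4))
        · exact e10.resolve_right h10
      · exact e01.resolve_right h01
    have hx : x = x' := by rw [hy] at e00; exact add_right_cancel e00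
    apply Subtype.ext
    exact Prod.ext hx hy
  · rintro ⟨B, hB⟩
    rw [Subgroup.mem_centralizer_singleton_iff] at hB
    obtain ⟨x, y, hxy⟩ := exists_comm A.1 B.1 hns (congrArg Subtype.val hB).symm
    have hBd := det_eq B
    refine ⟨⟨(x, y), ?_⟩, ?_⟩
    · rw [hxy] at hBd
      simp at hBd
      simp only [tr]
      linear_combination hBd - y ^ 2 * hd
    · apply Subtype.ext
      apply Subtype.ext
      exact hxy.symm

theorem neg_S (h2 : (2 : F) = 0) (A : S F) : -A = A := by
  have h : ∀ x : F, -x = x := fun x => by linear_combination (-x) * h2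
  apply ext2 <;> simp only [neg00, neg01, neg10, neg11, h]

/-- the unipotent count -/
theorem N_unip [Fintype F] {t : F} (ht : t ^ 2 = 4) :
    N t = Nat.card {c : F // c ^ 2 = 1} * Fintype.card F := by
  have hpm : t = 2 ∨ t = -2 := by
    have h : (t - 2) * (t + 2) = 0 := by linear_combination ht
    rcases mul_eq_zero.1 h with h | h
    · exact Or.inl (sub_eq_zero.1 h)
    · exact Or.inr (eq_neg_of_add_eq_zero_left h)
  obtain ⟨e, he, hte⟩ : ∃ e : F, e ^ 2 = 1 ∧ t = 2 * e := by
    rcases hpm with h | h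
    · exact ⟨1, by ring, by rw [h]; ring⟩
    · exact ⟨-1, by ring, by rw [h]; ring⟩
  subst hte
  let φ : {p : F × F // p.1 ^ 2 + 2 * e * p.1 * p.2 + p.2 ^ 2 = 1} ≃ {c : F // c ^ 2 = 1} × F :=
    { toFun := fun p => (⟨p.1.1 + e * p.1.2, by linear_combination p.2 + p.1.2 ^ 2 * he⟩, p.1.2)
      invFun := fun c => ⟨(c.1.1 - e * c.2, c.2), by
        have h1 := c.1.2
        simp only
        linear_combination h1 - c.2 ^ 2 * he⟩
      left_inv := fun p => by
        apply Subtype.ext
        apply Prod.ext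
        · simp
        · rfl
      right_inv := fun c => by
        apply Prod.ext
        · apply Subtype.ext; simp
        · rfl }
  rw [N, Nat.card_congr φ, Nat.card_prod, Nat.card_eq_fintype_card (α := F)]

theorem card_sq_odd (h2 : (2 : F) ≠ 0) : Nat.card {c : F // c ^ 2 = 1} = 2 := by
  have hset : {c : F | c ^ 2 = 1} = {1, -1} := by
    ext c
    simp only [Set.mem_ofPred_eq, Set.mem_insert_iff, Set.mem_singleton_iff]
    constructor
    · intro hc
      have h : (c - 1) * (c + 1) = 0 := by linear_combination hc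
      rcases mul_eq_zero.1 h with h | h
      · exact Or.inl (sub_eq_zero.1 h)
      · exact Or.inr (eq_neg_of_add_eq_zero_left h)
    · rintro (rfl | rfl) <;> ring
  have : Nat.card {c : F // c ^ 2 = 1} = ({c : F | c ^ 2 = 1} : Set F).ncard := rfl
  rw [this, hset, Set.ncard_pair]
  intro h
  exact h2 (by linear_combination h)

theorem card_sq_even (h2 : (2 : F) = 0) : Nat.card {c : F // c ^ 2 = 1} = 1 := by
  rw [Nat.card_eq_one_iff_unique]
  refine ⟨⟨?_⟩, ⟨⟨1, by ring⟩⟩⟩
  rintro ⟨a, ha⟩ ⟨b, hb⟩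
  apply Subtype.ext
  have h : (a - b) ^ 2 = 0 := by linear_combination ha - hb + (b ^ 2 - a * b) * h2
  exact sub_eq_zero.1 (pow_eq_zero_iff (by norm_num) |>.1 h)

theorem mem_comap {A B : S F} : B ∈ (Subgroup.centralizer ({π A} : Set (PS F))).comap π ↔
    B * A = A * B ∨ B * A = -(A * B) := by
  rw [Subgroup.mem_comap, Subgroup.mem_centralizer_singleton_iff, ← map_mul, ← map_mul, π_eq]

theorem tr_zero (h2 : (2 : F) ≠ 0) {A B : S F} (h : B * A = -(A * B)) : tr A = 0 := by
  have h3 : B * A * B⁻¹ = -A := by rw [h, neg_mul, mul_inv_cancel_right]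
  have h4 : (B.1 * A.1 * (B⁻¹).1).trace = -A.1.trace := by
    have : B.1 * A.1 * (B⁻¹).1 = -A.1 := congrArg Subtype.val h3
    rw [this, Matrix.trace_neg]
  have h5 : (B⁻¹).1 * B.1 = 1 := congrArg Subtype.val (inv_mul_cancel B)
  rw [Matrix.trace_mul_comm, ← mul_assoc, h5, one_mul] at h4
  have h6 : A.1.trace = tr A := Matrix.trace_fin_two _
  rw [h6] at h4
  have h7 : 2 * tr A = 0 := by linear_combination h4
  exact (mul_eq_zero.1 h7).resolve_left h2

theorem comap_eq {A : S F} (h : (2 : F) = 0 ∨ tr A ≠ 0) :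
    (Subgroup.centralizer ({π A} : Set (PS F))).comap π = Subgroup.centralizer ({A} : Set (S F)) := by
  ext B
  rw [mem_comap, Subgroup.mem_centralizer_singleton_iff]
  constructor
  · rintro (h1 | h1)
    · exact h1
    · by_cases h2 : (2 : F) = 0
      · rw [h1, neg_S h2]
      · exact absurd (tr_zero h2 h1) (h.resolve_left h2)
  · exact Or.inl

theorem card_comap_two [Fintype F] (hF : Odd (Fintype.card F)) {A : S F} (hA : tr A = 0) :
    Nat.card ((Subgroup.centralizer ({π A} : Set (PS F))).comap π) =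
      2 * Nat.card (Subgroup.centralizer ({A} : Set (S F))) := by
  have h2 := two_ne_zero' hF
  have hsq : A * A = -1 := sq_of_trace_zero hA
  obtain ⟨B, hB⟩ := conj_of_sq hF hsq (show -A * -A = -1 by rw [neg_mul_neg]; exact hsq)
  have hB' : B * A = -(A * B) := by
    rw [← neg_mul, hB, inv_mul_cancel_right]
  have hle : Subgroup.centralizer ({A} : Set (S F)) ≤ (Subgroup.centralizer ({π A} : Set (PS F))).comap π := by
    intro g hg
    rw [mem_comap]
    exact Or.inl (Subgroup.mem_centralizer_singleton_iff.1 hg)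
  have hne : ∀ X : S F, X ≠ -X := by
    intro X h
    apply neg_one_ne h2
    have h3 : X⁻¹ * X = X⁻¹ * (-X) := by rw [← h]
    rw [inv_mul_cancel, mul_neg, inv_mul_cancel] at h3
    exact h3.symm
  have h3 : (Subgroup.centralizer ({A} : Set (S F))).relIndex
      ((Subgroup.centralizer ({π A} : Set (PS F))).comap π) = 2 := by
    rw [Subgroup.relIndex_eq_two_iff]
    refine ⟨B, mem_comap.2 (Or.inr hB'), ?_⟩
    intro g hg
    rw [mem_comap] at hg
    rw [Subgroup.mem_centralizer_singleton_iff, Subgroup.mem_centralizer_singleton_iff]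
    rcases hg with hg | hg
    · right
      refine ⟨hg, ?_⟩
      rw [mul_assoc, hB', mul_neg, ← mul_assoc, ← mul_assoc, hg]
      exact fun h => hne _ h.symm
    · left
      refine ⟨?_, ?_⟩
      · rw [mul_assoc, hB', mul_neg, ← mul_assoc, ← mul_assoc, hg]
        simp
      · rw [hg]
        exact fun h => hne _ h.symm
  have h4 := Subgroup.relIndex_mul_relIndex ⊥ _ _ bot_le hle
  rw [Subgroup.relIndex_bot_left, Subgroup.relIndex_bot_left, h3] at h4
  rw [← h4, mul_comm]

open Classical in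
/-- centralizer orders in `PSL(2,F)`. -/
theorem card_cent [Fintype F] {A : S F} (h1 : A ≠ 1) (h2 : A ≠ -1) :
    Nat.gcd 2 (Fintype.card F - 1) * Nat.card (Subgroup.centralizer ({π A} : Set (PS F))) =
      (if (2 : F) ≠ 0 ∧ tr A = 0 then 2 else 1) * N (tr A) := by
  rw [← Dk.card_comap_π]
  split_ifs with h
  · have hF : Odd (Fintype.card F) := by
      rw [← Nat.not_even_iff_odd]
      intro he
      apply h.1
      have h3 : ringChar F = 2 := FiniteField.even_card_iff_char_two.2 (Nat.even_iff.1 he)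
      have h4 : ((2 : ℕ) : F) = 0 := by rw [← h3]; exact ringChar.Nat.cast_ringChar
      exact_mod_cast h4
    rw [card_comap_two hF h.2, card_centS h1 h2]
  · rw [comap_eq (by tauto), card_centS h1 h2, one_mul]

end H7.Cls
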