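import Mathlib
import Cfsg.Agent.H7_Cls2
import Cfsg.Prelude

/-! Class sizes of `PSL(2, F)`, final form. -/

namespace H7.Cls

open Matrix Cfsg.Agent.H5 Cfsg.Agent.H5.SL2 Cfsg.Agent.H5.SL2Quat Cfsg.Agent.H5.V4

variable {F : Type*} [Field F] [Fintype F]

omit [Fintype F] in
theorem π_ne {A : S F} (h : π A ≠ 1) : A ≠ 1 ∧ A ≠ -1 := by
  constructor
  · rintro rfl; exact h (map_one _)
  · rintro rfl; exact h (π_eq_one.2 (Or.inr rfl))

theorem gcd2 (n : ℕ) (h : n % 2 = 1) : Nat.gcd 2 n = 1 := by
  rw [Nat.gcd_rec, h]; rfl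

theorem card_PS : Nat.gcd 2 (Fintype.card F - 1) * Nat.card (PS F) =
    Fintype.card F * (Fintype.card F - 1) * (Fintype.card F + 1) := by
  rw [← card_SL2]
  exact GL.card_PSL_mul (F := F) rfl 2 (by norm_num)

theorem two_eq_zero (h : 2 ∣ Fintype.card F) : (2 : F) = 0 := by
  have h3 : ringChar F = 2 := FiniteField.even_card_iff_char_two.2 (Nat.mod_eq_zero_of_dvd h)
  have h4 : ((2 : ℕ) : F) = 0 := by rw [← h3]; exact ringChar.Nat.cast_ringChar
  exact_mod_cast h4

theorem N_semi {t : F} (ht : t ^ 2 ≠ 4) : N t = Fintype.card F - 1 ∨ N t = Fintype.card F + 1 := by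
  have h1 := card_conic t ht
  have h2 := card_roots t ht
  change N t + _ = _ at h1
  omega

theorem order_dvd_cent {G : Type*} [Group G] (x : G) : orderOf x ∣ Nat.card (Subgroup.centralizer ({x} : Set G)) := by
  rw [← Nat.card_zpowers]
  apply Subgroup.card_dvd_of_le
  rw [Subgroup.zpowers_le]
  exact Subgroup.mem_centralizer_singleton_iff.2 rfl

theorem index_one {G : Type*} [Group G] : (Subgroup.centralizer ({(1 : G)} : Set G)).index = 1 := by
  rw [Subgroup.index_eq_one, eq_top_iff]
  intro g _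
  exact Subgroup.mem_centralizer_singleton_iff.2 (by simp)

/-- even characteristic -/
theorem tri_even (h2 : 2 ∣ Fintype.card F) {A : S F} (h1 : A ≠ 1) (h1' : A ≠ -1) :
    Nat.card (Subgroup.centralizer ({π A} : Set (PS F))) = Fintype.card F ∨
    Nat.card (Subgroup.centralizer ({π A} : Set (PS F))) = Fintype.card F - 1 ∨
    Nat.card (Subgroup.centralizer ({π A} : Set (PS F))) = Fintype.card F + 1 := by
  have h20 := two_eq_zero h2
  have hq : 1 < Fintype.card F := Fintype.one_lt_card
  have hg : Nat.gcd 2 (Fintype.card F - 1) = 1 := gcd2 _ (by omega)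
  have h3 := card_cent h1 h1'
  rw [hg, one_mul, if_neg (by tauto), one_mul] at h3
  rw [h3]
  by_cases ht : tr A ^ 2 = 4
  · left
    rw [N_unip ht, card_sq_even h20, one_mul]
  · right
    exact N_semi ht

/-- odd characteristic -/
theorem tri_odd (h2 : ¬ 2 ∣ Fintype.card F) {A : S F} (h1 : A ≠ 1) (h1' : A ≠ -1) :
    (tr A = 0 ∧ Nat.card (Subgroup.centralizer ({π A} : Set (PS F))) = N (0 : F)) ∨
    (tr A ≠ 0 ∧ (Nat.card (Subgroup.centralizer ({π A} : Set (PS F))) = Fintype.card F ∨
      2 * Nat.card (Subgroup.centralizer ({π A} : Set (PS F))) = Fintype.card F - 1 ∨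
      2 * Nat.card (Subgroup.centralizer ({π A} : Set (PS F))) = Fintype.card F + 1)) := by
  have hF : Odd (Fintype.card F) := by
    rw [Nat.odd_iff]; omega
  have h20 := two_ne_zero' hF
  have hq : 1 < Fintype.card F := Fintype.one_lt_card
  have hg : Nat.gcd 2 (Fintype.card F - 1) = 2 := by
    apply Nat.gcd_eq_left
    obtain ⟨k, hk⟩ := hF
    exact ⟨k, by omega⟩
  have h3 := card_cent h1 h1'
  rw [hg] at h3
  by_cases h0 : tr A = 0
  · left
    rw [if_pos ⟨h20, h0⟩, h0] at h3
    exact ⟨h0, by omega⟩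
  · right
    refine ⟨h0, ?_⟩
    rw [if_neg (by tauto), one_mul] at h3
    by_cases ht : tr A ^ 2 = 4
    · left
      rw [N_unip ht, card_sq_odd h20] at h3
      omega
    · right
      rw [h3]
      exact N_semi ht

theorem N_zero (h2 : ¬ 2 ∣ Fintype.card F) :
    (Fintype.card F % 4 = 1 → N (0 : F) = Fintype.card F - 1) ∧
    (Fintype.card F % 4 = 3 → N (0 : F) = Fintype.card F + 1) := by
  have hF : Odd (Fintype.card F) := by
    rw [Nat.odd_iff]; omega
  have h20 := two_ne_zero' hF
  have h4 : (0 : F) ^ 2 ≠ 4 := by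
    intro h
    have h5 : (2 : F) * 2 = 0 := by linear_combination -h
    rcases mul_eq_zero.1 h5 with h | h <;> exact h20 h
  have h1 := card_conic (0 : F) h4
  have h3 := card_roots (0 : F) h4
  change N (0 : F) + _ = _ at h1
  constructor
  · intro hq
    have hsq : IsSquare (-1 : F) := by
      rw [FiniteField.isSquare_neg_one_iff]; omega
    obtain ⟨i, hi⟩ := hsq
    have : Nonempty {s : F // s ^ 2 + 0 * s + 1 = 0} := ⟨⟨i, by linear_combination -hi⟩⟩
    have h5 : 0 < Nat.card {s : F // s ^ 2 + 0 * s + 1 = 0} := Nat.card_pos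
    omega
  · intro hq
    have hsq : ¬ IsSquare (-1 : F) := by
      rw [FiniteField.isSquare_neg_one_iff]; omega
    have : IsEmpty {s : F // s ^ 2 + 0 * s + 1 = 0} := ⟨fun s => hsq ⟨s.1, by linear_combination -s.2⟩⟩
    have h5 : Nat.card {s : F // s ^ 2 + 0 * s + 1 = 0} = 0 := by
      rw [Nat.card_eq_zero]; exact Or.inl this
    omega

omit [Fintype F] in
theorem u_one_ne : (u (1 : F) ≠ 1) ∧ (u (1 : F) ≠ -1) := by
  constructor
  · intro h
    have := congrArg (fun g : S F => g.1 0 1) h
    simp [one01] at this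
  · intro h
    have := congrArg (fun g : S F => g.1 0 1) h
    simp [neg01, one01] at this

omit [Fintype F] in
theorem w_one_ne : (w (1 : Fˣ) ≠ 1) ∧ (w (1 : Fˣ) ≠ -1) := by
  constructor
  · intro h
    have := congrArg (fun g : S F => g.1 1 0) h
    simp [one10] at this
  · intro h
    have := congrArg (fun g : S F => g.1 1 0) h
    simp [neg10, one10] at this

theorem sizes_even (h2 : 2 ∣ Fintype.card F) (h4 : 4 ≤ Fintype.card F) :
    Set.range (fun g : PS F => (Subgroup.centralizer ({g} : Set (PS F))).index) =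
      {1, Fintype.card F * (Fintype.card F - 1), Fintype.card F ^ 2 - 1, Fintype.card F * (Fintype.card F + 1)} := by
  have hg : Nat.gcd 2 (Fintype.card F - 1) = 1 := gcd2 _ (by omega)
  have hc := card_PS (F := F)
  rw [hg, one_mul] at hc
  have hidx : ∀ x : PS F, (Subgroup.centralizer ({x} : Set (PS F))).index *
      Nat.card (Subgroup.centralizer ({x} : Set (PS F))) =
      Fintype.card F * (Fintype.card F - 1) * (Fintype.card F + 1) := fun x => by
    rw [← hc]; exact Subgroup.index_mul_card _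
  set q := Fintype.card F with hqd
  obtain ⟨r, hr⟩ : ∃ r, q = r + 1 := ⟨q - 1, by omega⟩
  have e1 : q - 1 = r := by omega
  have e2 : q ^ 2 - 1 = r * (q + 1) := by
    rw [hr]
    have : (r + 1) ^ 2 = r * (r + 1 + 1) + 1 := by ring
    rw [this]; simp
  rw [e1, e2]
  have i1 : ∀ x : PS F, Nat.card (Subgroup.centralizer ({x} : Set (PS F))) = q →
      (Subgroup.centralizer ({x} : Set (PS F))).index = r * (q + 1) := by
    intro x hx
    have h := hidx x
    rw [hx, e1] at h
    apply Nat.eq_of_mul_eq_mul_right (by omega : 0 < q)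
    rw [h]; ring
  have i2 : ∀ x : PS F, Nat.card (Subgroup.centralizer ({x} : Set (PS F))) = q - 1 →
      (Subgroup.centralizer ({x} : Set (PS F))).index = q * (q + 1) := by
    intro x hx
    have h := hidx x
    rw [hx, e1] at h
    apply Nat.eq_of_mul_eq_mul_right (by omega : 0 < r)
    rw [h]; ring
  have i3 : ∀ x : PS F, Nat.card (Subgroup.centralizer ({x} : Set (PS F))) = q + 1 →
      (Subgroup.centralizer ({x} : Set (PS F))).index = q * r := by
    intro x hx
    have h := hidx x
    rw [hx, e1] at h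
    apply Nat.eq_of_mul_eq_mul_right (by omega : 0 < q + 1)
    rw [h]
  obtain ⟨p, hp⟩ := CharP.exists F
  haveI : Fact p.Prime := ⟨CharP.char_is_prime F p⟩
  ext n
  simp only [Set.mem_range, Set.mem_insert_iff, Set.mem_singleton_iff]
  constructor
  · rintro ⟨g, rfl⟩
    obtain ⟨A, rfl⟩ := π_surj g
    by_cases hA : π A = 1
    · left; rw [hA]; exact index_one
    · obtain ⟨a1, a2⟩ := π_ne hA
      rcases tri_even h2 a1 a2 with h | h | h
      · right; right; left; exact i1 _ h
      · right; right; right; exact i2 _ h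
      · right; left; exact i3 _ h
  · rintro (rfl | rfl | rfl | rfl)
    · exact ⟨1, index_one⟩
    · obtain ⟨x, hx⟩ := Cfsg.Agent.H21.SpecPSL2.exists_order_torus (F := F) p (q + 1) (by omega) (Or.inr rfl)
      have hg' : Nat.gcd 2 (q + 1) = 1 := gcd2 _ (by omega)
      rw [hg', Nat.div_one] at hx
      refine ⟨x, i3 _ ?_⟩
      have hne : x ≠ 1 := by rintro rfl; rw [orderOf_one] at hx; omega
      obtain ⟨A, rfl⟩ := π_surj x
      obtain ⟨a1, a2⟩ := π_ne hne
      have hd := order_dvd_cent (π A)
      have hle := Nat.le_of_dvd Nat.card_pos hd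
      rcases tri_even h2 a1 a2 with h | h | h <;> omega
    · refine ⟨π (u 1), i1 _ ?_⟩
      obtain ⟨a1, a2⟩ := u_one_ne (F := F)
      have h3 := card_cent a1 a2
      rw [hg, one_mul, if_neg (by have := two_eq_zero h2; tauto), one_mul] at h3
      rw [h3, N_unip, card_sq_even (two_eq_zero h2), one_mul]
      simp only [tr, u00, u11]; ring
    · obtain ⟨x, hx⟩ := Cfsg.Agent.H21.SpecPSL2.exists_order_torus (F := F) p (q - 1) (by omega) (Or.inl rfl)
      rw [hg, Nat.div_one] at hx
      refine ⟨x, i2 _ ?_⟩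
      have hne : x ≠ 1 := by rintro rfl; rw [orderOf_one] at hx; omega
      obtain ⟨A, rfl⟩ := π_surj x
      obtain ⟨a1, a2⟩ := π_ne hne
      have hd := order_dvd_cent (π A)
      rw [hx] at hd
      rcases tri_even h2 a1 a2 with h | h | h
      · exfalso
        rw [h] at hd
        have h5 : q - 1 ∣ q - (q - 1) := Nat.dvd_sub hd dvd_rfl
        have h6 := Nat.le_of_dvd (by omega) h5
        omega
      · exact h
      · exfalso
        rw [h] at hd
        have h5 : q - 1 ∣ q + 1 - (q - 1) := Nat.dvd_sub hd dvd_rfl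
        have h6 := Nat.le_of_dvd (by omega) h5
        omega

theorem sizes_odd (h2 : ¬ 2 ∣ Fintype.card F) (h7 : 7 ≤ Fintype.card F) :
    (Fintype.card F % 4 = 1 →
      Set.range (fun g : PS F => (Subgroup.centralizer ({g} : Set (PS F))).index) =
        {1, (Fintype.card F ^ 2 - 1) / 2, Fintype.card F * (Fintype.card F + 1) / 2,
          Fintype.card F * (Fintype.card F - 1), Fintype.card F * (Fintype.card F + 1)}) ∧
    (Fintype.card F % 4 = 3 →
      Set.range (fun g : PS F => (Subgroup.centralizer ({g} : Set (PS F))).index) =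
        {1, (Fintype.card F ^ 2 - 1) / 2, Fintype.card F * (Fintype.card F - 1) / 2,
          Fintype.card F * (Fintype.card F + 1), Fintype.card F * (Fintype.card F - 1)}) := by
  have hF : Odd (Fintype.card F) := by rw [Nat.odd_iff]; omega
  have h20 := two_ne_zero' hF
  have hg : Nat.gcd 2 (Fintype.card F - 1) = 2 := Nat.gcd_eq_left (by omega)
  have hg' : Nat.gcd 2 (Fintype.card F + 1) = 2 := Nat.gcd_eq_left (by omega)
  obtain ⟨N1, N3⟩ := N_zero (F := F) h2
  have hc := card_PS (F := F)
  rw [hg] at hc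
  have hidx : ∀ x : PS F, 2 * ((Subgroup.centralizer ({x} : Set (PS F))).index *
      Nat.card (Subgroup.centralizer ({x} : Set (PS F)))) =
      Fintype.card F * (Fintype.card F - 1) * (Fintype.card F + 1) := fun x => by
    rw [← hc, Subgroup.index_mul_card]
  set q := Fintype.card F with hqd
  obtain ⟨r, hr⟩ : ∃ r, q = 2 * r + 1 := ⟨q / 2, by omega⟩
  have e1 : q - 1 = 2 * r := by omega
  have e3 : q + 1 = 2 * (r + 1) := by omega
  have e2 : (q ^ 2 - 1) / 2 = r * (q + 1) := by
    rw [e3, hr]
    have : (2 * r + 1) ^ 2 = 2 * (r * (2 * (r + 1))) + 1 := by ring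
    rw [this]; simp
  have e4 : q * (q + 1) / 2 = q * (r + 1) := by
    rw [e3, show q * (2 * (r + 1)) = 2 * (q * (r + 1)) by ring]; simp
  have e5 : q * (q - 1) / 2 = q * r := by
    rw [e1, show q * (2 * r) = 2 * (q * r) by ring]; simp
  have i1 : ∀ x : PS F, Nat.card (Subgroup.centralizer ({x} : Set (PS F))) = q →
      (Subgroup.centralizer ({x} : Set (PS F))).index = (q ^ 2 - 1) / 2 := by
    intro x hx
    have h := hidx x
    rw [hx, e1] at h
    rw [e2]
    apply Nat.eq_of_mul_eq_mul_right (by omega : 0 < 2 * q)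
    calc _ = 2 * ((Subgroup.centralizer ({x} : Set (PS F))).index * q) := by ring
      _ = _ := by rw [h]; ring
  have i2 : ∀ x : PS F, 2 * Nat.card (Subgroup.centralizer ({x} : Set (PS F))) = q - 1 →
      (Subgroup.centralizer ({x} : Set (PS F))).index = q * (q + 1) := by
    intro x hx
    have h := hidx x
    have hx' : Nat.card (Subgroup.centralizer ({x} : Set (PS F))) = r := by omega
    rw [hx', e1] at h
    apply Nat.eq_of_mul_eq_mul_right (by omega : 0 < 2 * r)
    calc _ = 2 * ((Subgroup.centralizer ({x} : Set (PS F))).index * r) := by ring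
      _ = _ := by rw [h]; ring
  have i3 : ∀ x : PS F, 2 * Nat.card (Subgroup.centralizer ({x} : Set (PS F))) = q + 1 →
      (Subgroup.centralizer ({x} : Set (PS F))).index = q * (q - 1) := by
    intro x hx
    have h := hidx x
    have hx' : Nat.card (Subgroup.centralizer ({x} : Set (PS F))) = r + 1 := by omega
    rw [hx', e3] at h
    apply Nat.eq_of_mul_eq_mul_right (by omega : 0 < 2 * (r + 1))
    calc _ = 2 * ((Subgroup.centralizer ({x} : Set (PS F))).index * (r + 1)) := by ring
      _ = _ := by rw [h]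
  have i4 : ∀ x : PS F, Nat.card (Subgroup.centralizer ({x} : Set (PS F))) = q - 1 →
      (Subgroup.centralizer ({x} : Set (PS F))).index = q * (q + 1) / 2 := by
    intro x hx
    have h := hidx x
    rw [hx, e1, e3] at h
    rw [e4]
    apply Nat.eq_of_mul_eq_mul_right (by omega : 0 < 4 * r)
    calc _ = 2 * ((Subgroup.centralizer ({x} : Set (PS F))).index * (2 * r)) := by ring
      _ = _ := by rw [h]; ring
  have i5 : ∀ x : PS F, Nat.card (Subgroup.centralizer ({x} : Set (PS F))) = q + 1 →
      (Subgroup.centralizer ({x} : Set (PS F))).index = q * (q - 1) / 2 := by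
    intro x hx
    have h := hidx x
    rw [hx, e1, e3] at h
    rw [e5]
    apply Nat.eq_of_mul_eq_mul_right (by omega : 0 < 4 * (r + 1))
    calc _ = 2 * ((Subgroup.centralizer ({x} : Set (PS F))).index * (2 * (r + 1))) := by ring
      _ = _ := by rw [h]; ring
  obtain ⟨p, hp⟩ := CharP.exists F
  haveI : Fact p.Prime := ⟨CharP.char_is_prime F p⟩
  -- existence
  have ex1 : ∃ x : PS F, (Subgroup.centralizer ({x} : Set (PS F))).index = (q ^ 2 - 1) / 2 := by
    refine ⟨π (u 1), i1 _ ?_⟩
    obtain ⟨a1, a2⟩ := u_one_ne (F := F)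
    have ht : tr (u (1 : F)) = 2 := by simp only [tr, u00, u11]; ring
    have h3 := card_cent a1 a2
    rw [hg, if_neg (by rw [ht]; tauto), one_mul, N_unip (by rw [ht]; ring), card_sq_odd h20] at h3
    omega
  have inv_order : ∀ A : S F, tr A = 0 → orderOf (π A) ∣ 2 := by
    intro A hA
    rw [orderOf_dvd_iff_pow_eq_one, pow_two, ← map_mul, sq_of_trace_zero hA, π_eq_one]
    exact Or.inr rfl
  have ex2 : ∃ x : PS F, 2 * Nat.card (Subgroup.centralizer ({x} : Set (PS F))) = q + 1 := by
    obtain ⟨x, hx⟩ := Cfsg.Agent.H21.SpecPSL2.exists_order_torus (F := F) p (q + 1) (by omega) (Or.inr rfl)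
    rw [hg', e3, Nat.mul_div_cancel_left _ (by norm_num)] at hx
    refine ⟨x, ?_⟩
    have hne : x ≠ 1 := by rintro rfl; rw [orderOf_one] at hx; omega
    obtain ⟨A, rfl⟩ := π_surj x
    obtain ⟨a1, a2⟩ := π_ne hne
    have hd := order_dvd_cent (π A)
    rw [hx] at hd
    rcases tri_odd h2 a1 a2 with ⟨h, -⟩ | ⟨h, h' | h' | h'⟩
    · exfalso
      have := inv_order A h
      rw [hx] at this
      have := Nat.le_of_dvd (by norm_num) this
      omega
    · exfalso
      rw [h'] at hd
      have h5 : r + 1 ∣ 2 * (r + 1) - q := Nat.dvd_sub (Dvd.intro_left _ rfl) hd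
      have h6 := Nat.le_of_dvd (by omega) h5
      omega
    · exfalso
      have h6 := Nat.le_of_dvd Nat.card_pos hd
      omega
    · exact h'
  have ex3 : ∃ x : PS F, 2 * Nat.card (Subgroup.centralizer ({x} : Set (PS F))) = q - 1 := by
    obtain ⟨x, hx⟩ := Cfsg.Agent.H21.SpecPSL2.exists_order_torus (F := F) p (q - 1) (by omega) (Or.inl rfl)
    rw [hg, e1, Nat.mul_div_cancel_left _ (by norm_num)] at hx
    refine ⟨x, ?_⟩
    have hne : x ≠ 1 := by rintro rfl; rw [orderOf_one] at hx; omega
    obtain ⟨A, rfl⟩ := π_surj x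
    obtain ⟨a1, a2⟩ := π_ne hne
    have hd := order_dvd_cent (π A)
    rw [hx] at hd
    rcases tri_odd h2 a1 a2 with ⟨h, -⟩ | ⟨h, h' | h' | h'⟩
    · exfalso
      have := inv_order A h
      rw [hx] at this
      have := Nat.le_of_dvd (by norm_num) this
      omega
    · exfalso
      rw [h'] at hd
      have h5 : r ∣ q - 2 * r := Nat.dvd_sub hd (Dvd.intro_left _ rfl)
      have h6 := Nat.le_of_dvd (by omega) h5
      omega
    · exact h'
    · exfalso
      have h7 : Nat.card (Subgroup.centralizer ({π A} : Set (PS F))) = r + 1 := by omega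
      rw [h7] at hd
      have h5 : r ∣ r + 1 - r := Nat.dvd_sub hd dvd_rfl
      have h6 := Nat.le_of_dvd (by omega) h5
      omega
  have ex4 : ∃ x : PS F, Nat.card (Subgroup.centralizer ({x} : Set (PS F))) = N (0 : F) := by
    refine ⟨π (w 1), ?_⟩
    obtain ⟨a1, a2⟩ := w_one_ne (F := F)
    have ht : tr (w (1 : Fˣ)) = 0 := by simp only [tr, w00, w11]; ring
    have h3 := card_cent a1 a2
    rw [hg, if_pos ⟨h20, ht⟩, ht] at h3
    omega
  constructor
  · intro hq4
    have hN := N1 hq4
    ext n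
    simp only [Set.mem_range, Set.mem_insert_iff, Set.mem_singleton_iff]
    constructor
    · rintro ⟨g, rfl⟩
      obtain ⟨A, rfl⟩ := π_surj g
      by_cases hA : π A = 1
      · left; rw [hA]; exact index_one
      · obtain ⟨a1, a2⟩ := π_ne hA
        rcases tri_odd h2 a1 a2 with ⟨-, h⟩ | ⟨-, h | h | h⟩
        · right; right; left; exact i4 _ (h.trans hN)
        · right; left; exact i1 _ h
        · right; right; right; right; exact i2 _ h
        · right; right; right; left; exact i3 _ h
    · rintro (rfl | rfl | rfl | rfl | rfl)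
      · exact ⟨1, index_one⟩
      · exact ex1
      · obtain ⟨x, hx⟩ := ex4; exact ⟨x, i4 _ (hx.trans hN)⟩
      · obtain ⟨x, hx⟩ := ex2; exact ⟨x, i3 _ hx⟩
      · obtain ⟨x, hx⟩ := ex3; exact ⟨x, i2 _ hx⟩
  · intro hq4
    have hN := N3 hq4
    ext n
    simp only [Set.mem_range, Set.mem_insert_iff, Set.mem_singleton_iff]
    constructor
    · rintro ⟨g, rfl⟩
      obtain ⟨A, rfl⟩ := π_surj g
      by_cases hA : π A = 1
      · left; rw [hA]; exact index_one
      · obtain ⟨a1, a2⟩ := π_ne hA
        rcases tri_odd h2 a1 a2 with ⟨-, h⟩ | ⟨-, h | h | h⟩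
        · right; right; left; exact i5 _ (h.trans hN)
        · right; left; exact i1 _ h
        · right; right; right; left; exact i2 _ h
        · right; right; right; right; exact i3 _ h
    · rintro (rfl | rfl | rfl | rfl | rfl)
      · exact ⟨1, index_one⟩
      · exact ex1
      · obtain ⟨x, hx⟩ := ex4; exact ⟨x, i5 _ (hx.trans hN)⟩
      · obtain ⟨x, hx⟩ := ex3; exact ⟨x, i2 _ hx⟩
      · obtain ⟨x, hx⟩ := ex2; exact ⟨x, i3 _ hx⟩

end H7.Cls
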