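import Mathlib

/-! A group generated by given elements which acts faithfully on an indexed family, with known action of the
generators, is isomorphic to the group generated by the corresponding permutations. -/

namespace H7.GenIso

open MulAction Subgroup

variable {G α ι κ : Type*} [Group G] [MulAction G α]

theorem exists_perm (x : ι → α) (a : κ → G) (σ : κ → Equiv.Perm ι)
    (h : ∀ k i, a k • x i = x (σ k i)) {g : G} (hg : g ∈ closure (Set.range a)) :
    ∃ τ ∈ closure (Set.range σ), ∀ i, g • x i = x (τ i) := by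
  induction hg using closure_induction with
  | mem g hg =>
    obtain ⟨k, rfl⟩ := hg
    exact ⟨σ k, subset_closure ⟨k, rfl⟩, h k⟩
  | one => exact ⟨1, one_mem _, fun i => by simp⟩
  | mul g g' _ _ h1 h2 =>
    obtain ⟨τ, hτ, h1⟩ := h1
    obtain ⟨τ', hτ', h2⟩ := h2
    exact ⟨τ * τ', mul_mem hτ hτ', fun i => by rw [mul_smul, h2, h1]; rfl⟩
  | inv g _ h1 =>
    obtain ⟨τ, hτ, h1⟩ := h1
    refine ⟨τ⁻¹, inv_mem hτ, fun i => ?_⟩
    rw [inv_smul_eq_iff, h1]
    simp

theorem exists_elt (x : ι → α) (a : κ → G) (σ : κ → Equiv.Perm ι)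
    (h : ∀ k i, a k • x i = x (σ k i)) {τ : Equiv.Perm ι} (hτ : τ ∈ closure (Set.range σ)) :
    ∃ g ∈ closure (Set.range a), ∀ i, g • x i = x (τ i) := by
  induction hτ using closure_induction with
  | mem g hg =>
    obtain ⟨k, rfl⟩ := hg
    exact ⟨a k, subset_closure ⟨k, rfl⟩, h k⟩
  | one => exact ⟨1, one_mem _, fun i => by simp⟩
  | mul τ τ' _ _ h1 h2 =>
    obtain ⟨g, hg, h1⟩ := h1
    obtain ⟨g', hg', h2⟩ := h2
    exact ⟨g * g', mul_mem hg hg', fun i => by rw [mul_smul, h2, h1]; rfl⟩
  | inv τ _ h1 =>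
    obtain ⟨g, hg, h1⟩ := h1
    refine ⟨g⁻¹, inv_mem hg, fun i => ?_⟩
    rw [inv_smul_eq_iff, h1]
    simp

/-- The group generated by the `a k` is isomorphic to the group generated by the `σ k`. -/
theorem exists_equiv (x : ι → α) (hx : Function.Injective x) (a : κ → G) (σ : κ → Equiv.Perm ι)
    (h : ∀ k i, a k • x i = x (σ k i))
    (hf : ∀ g ∈ closure (Set.range a), (∀ i, g • x i = x i) → g = 1) :
    ∃ e : closure (Set.range a) ≃* closure (Set.range σ),
      ∀ (g : closure (Set.range a)) i, (g : G) • x i = x ((e g : Equiv.Perm ι) i) := by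
  classical
  choose f hf1 hf2 using fun g : closure (Set.range a) => exists_perm x a σ h g.2
  have hmul : ∀ g g', f (g * g') = f g * f g' := by
    intro g g'
    apply Equiv.ext
    intro i
    apply hx
    rw [← hf2, Equiv.Perm.mul_apply, ← hf2, ← hf2, ← mul_smul]
    rfl
  let F : closure (Set.range a) →* closure (Set.range σ) :=
    MonoidHom.mk' (fun g => ⟨f g, hf1 g⟩) (fun g g' => Subtype.ext (hmul g g'))
  have hinj : Function.Injective F := by
    rw [injective_iff_map_eq_one]
    intro g hg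
    apply Subtype.ext
    apply hf g g.2
    intro i
    rw [hf2 g i]
    have : f g = 1 := congrArg Subtype.val hg
    rw [this]
    rfl
  have hsurj : Function.Surjective F := by
    rintro ⟨τ, hτ⟩
    obtain ⟨g, hg, h1⟩ := exists_elt x a σ h hτ
    refine ⟨⟨g, hg⟩, Subtype.ext ?_⟩
    apply Equiv.ext
    intro i
    apply hx
    show x (f ⟨g, hg⟩ i) = x (τ i)
    rw [← hf2, ← h1]
  exact ⟨MulEquiv.ofBijective F ⟨hinj, hsurj⟩, fun g i => hf2 g i⟩

/-- Two groups with the same permutations. -/
theorem exists_equiv₂ {H β : Type*} [Group H] [MulAction H β]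
    (x : ι → α) (hx : Function.Injective x) (a : κ → G) (σ : κ → Equiv.Perm ι)
    (h : ∀ k i, a k • x i = x (σ k i))
    (hf : ∀ g ∈ closure (Set.range a), (∀ i, g • x i = x i) → g = 1)
    (y : ι → β) (hy : Function.Injective y) (b : κ → H)
    (h' : ∀ k i, b k • y i = y (σ k i))
    (hf' : ∀ g ∈ closure (Set.range b), (∀ i, g • y i = y i) → g = 1) :
    Nonempty (closure (Set.range a) ≃* closure (Set.range b)) := by
  obtain ⟨e, -⟩ := exists_equiv x hx a σ h hf
  obtain ⟨e', -⟩ := exists_equiv y hy b σ h' hf'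
  exact ⟨e.trans e'.symm⟩

end H7.GenIso
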