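import Mathlib
import Cfsg.Agent.H7_M24d

set_option autoImplicit false
set_option linter.all false

/-!
Orbits of subgroups of `M24`: fixed points of elements of prime order, Sylow 2-subgroups.
-/

namespace Cfsg.Agent.H7.Ix

open Cfsg Cfsg.Agent.H7.Golay Cfsg.Agent.H7.Oct Cfsg.Agent.H7.M24 Cfsg.Agent.H7.M24b Cfsg.Agent.H7.M24c Cfsg.Agent.H7.M24d
open scoped Pointwise

local notation "PG" => Equiv.Perm GolayPt

/-! ### generalities -/

theorem fix_mod {G α : Type*} [Group G] [MulAction G α] [Finite G] [Finite α] {p n : ℕ} [Fact p.Prime]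
    (K : Subgroup G) (hK : Nat.card K = p ^ n) (D : Set α) (hD : ∀ g ∈ K, ∀ x ∈ D, g • x ∈ D) :
    D.ncard ≡ {x | x ∈ D ∧ ∀ g ∈ K, g • x = x}.ncard [MOD p] := by
  let S : SubMulAction K α := ⟨D, fun g x hx => hD g.1 g.2 x hx⟩
  have hp : IsPGroup p K := IsPGroup.of_card hK
  have h1 := hp.card_modEq_card_fixedPoints S
  have e1 : Nat.card S = D.ncard := rfl
  have e2 : Nat.card (MulAction.fixedPoints K S) = {x | x ∈ D ∧ ∀ g ∈ K, g • x = x}.ncard := by
    refine Nat.card_congr ⟨fun x => ⟨x.1.1, x.1.2, fun g hg => congrArg Subtype.val (x.2 ⟨g, hg⟩)⟩,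
      fun x => ⟨⟨x.1, x.2.1⟩, fun g => Subtype.ext (x.2.2 g.1 g.2)⟩, fun x => rfl, fun x => rfl⟩
  rwa [e1, e2] at h1

theorem fix_small {G α : Type*} [Group G] [MulAction G α] [Finite G] [Finite α] {p n : ℕ} [Fact p.Prime]
    (K : Subgroup G) (hK : Nat.card K = p ^ n) (D : Set α) (hD : ∀ g ∈ K, ∀ x ∈ D, g • x ∈ D) (hs : D.ncard < p) :
    ∀ x ∈ D, ∀ g ∈ K, g • x = x := by
  have h := fix_mod K hK D hD
  have hsub : {x | x ∈ D ∧ ∀ g ∈ K, g • x = x} ⊆ D := fun x hx => hx.1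
  have hle := Set.ncard_le_ncard hsub (Set.toFinite D)
  rw [Nat.ModEq, Nat.mod_eq_of_lt hs, Nat.mod_eq_of_lt (by omega)] at h
  have h3 := Set.eq_of_subset_of_ncard_le hsub (by omega) (Set.toFinite D)
  intro x hx
  rw [← h3] at hx
  exact hx.2

theorem exists_pgroup {G : Type*} [Group G] [Finite G] {p n : ℕ} [Fact p.Prime] (K : Subgroup G) (h : p ^ n ∣ Nat.card K) :
    ∃ T ≤ K, Nat.card T = p ^ n := by
  obtain ⟨T, hT⟩ := Sylow.exists_subgroup_card_pow_prime p h
  refine ⟨T.map K.subtype, Subgroup.map_subtype_le T, ?_⟩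
  rw [Nat.card_congr (Subgroup.equivMapOfInjective T K.subtype K.subtype_injective).toEquiv.symm, hT]

theorem orb_dvd {G α : Type*} [Group G] [MulAction G α] (K : Subgroup G) (x : α) : (MulAction.orbit K x).ncard ∣ Nat.card K :=
  ⟨_, card_eq_orbit_mul K x⟩

theorem orb_inv {G α : Type*} [Group G] [MulAction G α] (K : Subgroup G) (x : α) {g : G} (hg : g ∈ K) {y : α}
    (hy : y ∈ MulAction.orbit K x) : g • y ∈ MulAction.orbit K x := by
  obtain ⟨k, rfl⟩ := hy
  exact ⟨⟨g, hg⟩ * k, mul_smul _ _ _⟩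

theorem orb_sub {G α : Type*} [Group G] [MulAction G α] (K : Subgroup G) (D : Set α) (hD : ∀ g ∈ K, ∀ x ∈ D, g • x ∈ D)
    {x : α} (hx : x ∈ D) : MulAction.orbit K x ⊆ D := by
  rintro _ ⟨k, rfl⟩
  exact hD k.1 k.2 x hx

theorem orb_pos {G α : Type*} [Group G] [MulAction G α] [Finite α] (K : Subgroup G) (x : α) : 0 < (MulAction.orbit K x).ncard :=
  (Set.ncard_pos (Set.toFinite _)).2 ⟨x, MulAction.mem_orbit_self x⟩

/-- a point with a one-element orbit is fixed -/
theorem fixed_of_orb_one {G α : Type*} [Group G] [MulAction G α] [Finite α] (K : Subgroup G) (x : α)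
    (h : (MulAction.orbit K x).ncard = 1) : ∀ g ∈ K, g • x = x := by
  intro g hg
  obtain ⟨a, ha⟩ := Set.ncard_eq_one.1 h
  have h1 : x ∈ MulAction.orbit K x := MulAction.mem_orbit_self x
  have h2 : g • x ∈ MulAction.orbit K x := orb_inv K x hg h1
  rw [ha, Set.mem_singleton_iff] at h1 h2
  rw [h2, h1]

theorem orb_of_fixed {G α : Type*} [Group G] [MulAction G α] (K : Subgroup G) (x : α)
    (h : ∀ g ∈ K, g • x = x) : MulAction.orbit K x = {x} := by
  ext y
  rw [Set.mem_singleton_iff]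
  constructor
  · rintro ⟨k, rfl⟩
    exact h k.1 k.2
  · rintro rfl
    exact MulAction.mem_orbit_self _

/-! ### subgroups of `M24` fixing points -/

theorem dvd_of_fix (K : Subgroup PG) (hK : K ≤ M24) {k : ℕ} (hk : k ≤ 5) (F : Set GolayPt) (hF : k ≤ F.ncard)
    (h : ∀ g ∈ K, ∀ p ∈ F, g p = p) : Nat.descFactorial 24 k * Nat.card K ∣ 244823040 := by
  obtain ⟨t, ht, htk⟩ := Set.exists_subset_card_eq hF
  have e : ↥t ≃ Fin k := Finite.equivFinOfCardEq htk
  set x : Fin k → GolayPt := fun i => (e.symm i).1 with hx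
  have hinj : Function.Injective x := fun i j hij => e.symm.injective (Subtype.ext hij)
  rw [← card_stab_tuple k hk x hinj]
  apply Nat.mul_dvd_mul_left
  apply Subgroup.card_dvd_of_le
  intro g hg
  exact ⟨hK hg, funext fun i => h g hg _ (ht (e.symm i).2)⟩

theorem fix_count {p n : ℕ} [hp : Fact p.Prime] (h5 : 5 ≤ p) (hn : n ≠ 0) (K : Subgroup PG) (hK : K ≤ M24) (hc : Nat.card K = p ^ n) :
    {x : GolayPt | ∀ g ∈ K, g x = x}.ncard = 24 % p := by
  have h1 := fix_mod K hc (Set.univ : Set GolayPt) (fun _ _ _ _ => Set.mem_univ _)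
  have e1 : (Set.univ : Set GolayPt).ncard = 24 := by rw [Set.ncard_univ, Nat.card_eq_fintype_card]; rfl
  have e2 : {x : GolayPt | x ∈ (Set.univ : Set GolayPt) ∧ ∀ g ∈ K, g • x = x} = {x : GolayPt | ∀ g ∈ K, g x = x} := by
    ext x; simp
  rw [e1, e2] at h1
  have h2 : {x : GolayPt | ∀ g ∈ K, g x = x}.ncard < 5 := by
    by_contra hcon
    push Not at hcon
    have h3 := dvd_of_fix K hK le_rfl _ hcon (fun g hg p hp => hp g hg)
    have h4 : Nat.descFactorial 24 5 = 5100480 := rfl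
    rw [h4, hc, show 244823040 = 5100480 * 48 by norm_num] at h3
    have h5' : p ^ n ∣ 48 := Nat.dvd_of_mul_dvd_mul_left (by norm_num) h3
    have h6 : p ∣ 2 ^ 4 * 3 := (dvd_pow_self p hn).trans h5'
    rcases (Nat.Prime.dvd_mul hp.out).1 h6 with h7 | h7
    · have := Nat.le_of_dvd (by norm_num) (hp.out.dvd_of_dvd_pow h7); omega
    · have := Nat.le_of_dvd (by norm_num) h7; omega
  rw [Nat.ModEq] at h1
  rw [h1]
  exact (Nat.mod_eq_of_lt (by omega)).symm

/-- nine fixed points force the identity -/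
theorem card_one_of_nine (K : Subgroup PG) (hK : K ≤ M24) (F : Set GolayPt) (hF : 9 ≤ F.ncard) (h : ∀ g ∈ K, ∀ p ∈ F, g p = p) : K = ⊥ := by
  rw [Subgroup.eq_bot_iff_forall]
  intro g hg
  refine fix_nine (hK hg) (Set.toFinite F).toFinset ?_ ?_
  · rwa [← Set.ncard_eq_toFinset_card]
  · intro p hp
    exact h g hg p ((Set.Finite.mem_toFinset _).1 hp)

/-! ### octads through a point -/

theorem octL_pt : ∀ i < 24, (octL.filter fun m => m.testBit i).length = 253 := by decide +kernel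

theorem octads_pt (x : GolayPt) : {o : Finset GolayPt | o ∈ octads ∧ x ∈ o}.ncard = 253 := by
  rw [ncard_of_list (octL.filter fun m => m.testBit (ix x)) (octL_nodup.filter _)
    (fun m hm => octL_lt (List.mem_filter.1 hm).1) _ (fun s => ?_)]
  · exact octL_pt _ (ix_lt x)
  · rw [Set.mem_setOf_eq, mem_octads_iff, List.mem_filter]
    refine and_congr_right fun _ => ?_
    conv_lhs => rw [← ofMask_mask s]
    rw [mem_ofMask]

/-! ### the pointwise stabiliser of an octad is transitive off the octad -/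

theorem compl_trans {o : Finset GolayPt} (ho : o ∈ octads) {y z : GolayPt} (hy : y ∉ o) (hz : z ∉ o) :
    ∃ g ∈ M24, (∀ p ∈ o, g p = p) ∧ g y = z := by
  obtain ⟨k, hk, hko⟩ := octad_trans ho oct0_mem
  have base : ∀ w, w ∉ ofMask 0x149f → ∃ g ∈ M24, (∀ p ∈ ofMask 0x149f, g p = p) ∧ g (pt 5) = w := by
    intro w hw
    rw [mem_ofMask] at hw
    have h10 : ∀ i, i < 24 → ¬ Nat.testBit 0x149f i = true →
      i ∈ [5, 6, 8, 9, 11, 13, 14, 15, 16, 17, 18, 19, 20, 21, 22, 23] := by decide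
    obtain ⟨l, hl, hlx⟩ := e16_cover _ (h10 _ (ix_lt w) hw)
    have h1 := List.all_eq_true.1 e16_ok l hl
    rw [Bool.and_eq_true, Bool.and_eq_true] at h1
    obtain ⟨g, hg, hr⟩ := exists_M24 h1.1.1
    refine ⟨g, hg, ?_, ?_⟩
    · have h2 : g ∈ fixK M24 [7, 4, 3, 2, 1, 0] := by
        rw [fix_octad_eq]; exact mem_fixK_of_rep hg hr h1.1.2
      rw [← fixing_octad0] at h2
      exact (mem_fixing.1 h2).2
    · apply ix_injective
      rw [hr.2, ix_pt 5 (by norm_num), hlx]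
  have hm : ∀ w, w ∉ o → k w ∉ ofMask 0x149f := by
    intro w hw hw'
    rw [← hko, Finset.mem_smul_finset] at hw'
    obtain ⟨q, hq, h⟩ := hw'
    exact hw (k.injective h ▸ hq)
  obtain ⟨g1, hg1, f1, e1⟩ := base _ (hm _ hy)
  obtain ⟨g2, hg2, f2, e2⟩ := base _ (hm _ hz)
  refine ⟨k⁻¹ * (g2 * g1⁻¹) * k, mul_mem (mul_mem (inv_mem hk) (mul_mem hg2 (inv_mem hg1))) hk, ?_, ?_⟩
  · intro p hp
    have hkp : k p ∈ ofMask 0x149f := by rw [← hko, Finset.mem_smul_finset]; exact ⟨p, hp, rfl⟩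
    have a1 : g1⁻¹ (k p) = k p := by rw [Equiv.Perm.inv_eq_iff_eq, f1 _ hkp]
    rw [Equiv.Perm.mul_apply, Equiv.Perm.mul_apply, Equiv.Perm.mul_apply, a1, f2 _ hkp, Equiv.Perm.inv_eq_iff_eq]
  · have a1 : g1⁻¹ (k y) = pt 5 := by rw [Equiv.Perm.inv_eq_iff_eq, e1]
    rw [Equiv.Perm.mul_apply, Equiv.Perm.mul_apply, Equiv.Perm.mul_apply, a1, e2, Equiv.Perm.inv_eq_iff_eq]

theorem smul_oct_of_fix {o : Finset GolayPt} {g : PG} (h : ∀ p ∈ o, g p = p) : g • o = o := by
  apply Finset.eq_of_subset_of_card_le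
  · intro x hx
    obtain ⟨y, hy, rfl⟩ := Finset.mem_smul_finset.1 hx
    rw [Equiv.Perm.smul_def, h y hy]
    exact hy
  · rw [Finset.card_smul_finset]

theorem mem_smul_iff' {o : Finset GolayPt} {g : PG} (h : g • o = o) (x : GolayPt) : g x ∈ o ↔ x ∈ o := by
  conv_lhs => rw [← h]
  exact Finset.smul_mem_smul_finset_iff g

/-- a subgroup containing the pointwise stabiliser of the octad and stabilising the octad -/
theorem orb_compl (K : Subgroup PG) {o : Finset GolayPt} (ho : o ∈ octads) (hKo : ∀ g ∈ K, g • o = o)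
    (hE : ∀ g ∈ M24, (∀ p ∈ o, g p = p) → g ∈ K) {y : GolayPt} (hy : y ∉ o) :
    MulAction.orbit K y = ((oᶜ : Finset GolayPt) : Set GolayPt) := by
  ext z
  rw [Finset.mem_coe, Finset.mem_compl]
  constructor
  · rintro ⟨k, rfl⟩
    exact fun h => hy ((mem_smul_iff' (hKo k.1 k.2) y).1 h)
  · intro hz
    obtain ⟨g, hg, h1, h2⟩ := compl_trans ho hy hz
    exact ⟨⟨g, hE g hg h1⟩, h2⟩

theorem oct_compl_card {o : Finset GolayPt} (ho : o ∈ octads) : (oᶜ).card = 16 := by
  rw [Finset.card_compl, ho.2]; rfl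

/-- order of the stabiliser of an octad and a point off it -/
theorem card_oct_off {o : Finset GolayPt} (ho : o ∈ octads) {y : GolayPt} (hy : y ∉ o) :
    Nat.card ↥(M24 ⊓ MulAction.stabilizer PG o ⊓ MulAction.stabilizer PG y) = 20160 := by
  have h1 := card_eq_orbit_mul (M24 ⊓ MulAction.stabilizer PG o) y
  rw [orb_compl (M24 ⊓ MulAction.stabilizer PG o) ho (fun g hg => hg.2) (fun g hg h => ⟨hg, smul_oct_of_fix h⟩) hy,
    Set.ncard_coe_finset, oct_compl_card ho, card_stab_octad ho] at h1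
  omega

theorem orb_octad_pt {o : Finset GolayPt} (ho : o ∈ octads) {x : GolayPt} (hx : x ∈ o) :
    MulAction.orbit ↥(M24 ⊓ MulAction.stabilizer PG o) x = (o : Set GolayPt) := by
  ext z
  rw [Finset.mem_coe]
  constructor
  · rintro ⟨k, rfl⟩
    exact (mem_smul_iff' k.2.2 x).2 hx
  · intro hz
    have ex : ∀ w ∈ o, ∃ f : Fin 5 → GolayPt, Function.Injective f ∧ (∀ i, f i ∈ o) ∧ f 0 = w := by
      intro w hw
      have hc : (o.erase w).card = 7 := by rw [Finset.card_erase_of_mem hw, ho.2]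
      obtain ⟨s, hs, hsc⟩ := Finset.exists_subset_card_eq (s := o.erase w) (n := 4) (by omega)
      let e : Fin 4 ≃ ↥s := Fintype.equivOfCardEq (by rw [Fintype.card_fin, Fintype.card_coe, hsc])
      refine ⟨Fin.cons w fun i => (e i).1, ?_, ?_, rfl⟩
      · rw [Fin.cons_injective_iff]
        refine ⟨?_, fun i j hij => e.injective (Subtype.ext hij)⟩
        rintro ⟨i, hi⟩
        have : (e i).1 ∈ o.erase w := hs (e i).2
        rw [Finset.mem_erase] at this
        exact this.1 hi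
      · intro i
        refine Fin.cases hw (fun j => ?_) i
        exact Finset.mem_of_mem_erase (hs (e j).2)
    obtain ⟨f, f1, f2, f3⟩ := ex x hx
    obtain ⟨f', f1', f2', f3'⟩ := ex z hz
    obtain ⟨g, hg, hgo, h⟩ := octad_five_trans ho ho f f' f1 f1' f2 f2'
    refine ⟨⟨g, hg, hgo⟩, ?_⟩
    show g x = z
    rw [← f3, h 0, f3']

theorem card_oct_on {o : Finset GolayPt} (ho : o ∈ octads) {x : GolayPt} (hx : x ∈ o) :
    Nat.card ↥(M24 ⊓ MulAction.stabilizer PG o ⊓ MulAction.stabilizer PG x) = 40320 := by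
  have h1 := card_eq_orbit_mul (M24 ⊓ MulAction.stabilizer PG o) x
  rw [orb_octad_pt ho hx, Set.ncard_coe_finset, ho.2, card_stab_octad ho] at h1
  omega

theorem card_oct_on_off {o : Finset GolayPt} (ho : o ∈ octads) {x y : GolayPt} (hx : x ∈ o) (hy : y ∉ o) :
    Nat.card ↥(M24 ⊓ MulAction.stabilizer PG o ⊓ MulAction.stabilizer PG x ⊓ MulAction.stabilizer PG y) = 2520 := by
  have h1 := card_eq_orbit_mul (M24 ⊓ MulAction.stabilizer PG o ⊓ MulAction.stabilizer PG x) y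
  rw [orb_compl (M24 ⊓ MulAction.stabilizer PG o ⊓ MulAction.stabilizer PG x) ho (fun g hg => hg.1.2)
    (fun g hg h => ⟨⟨hg, smul_oct_of_fix h⟩, h x hx⟩) hy,
    Set.ncard_coe_finset, oct_compl_card ho, card_oct_on ho hx] at h1
  omega

theorem card_pt (x : GolayPt) : Nat.card ↥(M24 ⊓ MulAction.stabilizer PG x) = 10200960 := by
  have h := card_eq_orbit_mul M24 x
  have h2 : MulAction.orbit M24 x = Set.univ := by
    ext y
    obtain ⟨g, hg, h⟩ := ktrans 1 (by norm_num) (fun _ => x) (fun _ => y) (fun i j _ => Subsingleton.elim i j) (fun i j _ => Subsingleton.elim i j)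
    exact ⟨fun _ => Set.mem_univ _, fun _ => ⟨⟨g, hg⟩, h 0⟩⟩
  have h24 : Nat.card GolayPt = 24 := by rw [Nat.card_eq_fintype_card]; rfl
  rw [h2, Set.ncard_univ, card_M24, h24] at h
  omega

end Cfsg.Agent.H7.Ix
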