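import Mathlib
import Cfsg.Prelude.Def_Spor_Conway
import Cfsg.Agent.H7_Oct

set_option autoImplicit false

/-!
The Leech lattice: `leechSet` is a lattice, congruences for norms and inner products, minimal norm, index.
-/

namespace Cfsg.Agent.H7.L1

open Cfsg Cfsg.Agent.H7.Golay Cfsg.Agent.H7.Oct
open scoped Pointwise

/-- positions with a given residue modulo four -/
def cls (x : GolayPt → ℤ) (k : ℤ) : Finset GolayPt := Finset.univ.filter fun i => x i % 4 = k

theorem mem_cls {x : GolayPt → ℤ} {k : ℤ} {i : GolayPt} : i ∈ cls x k ↔ x i % 4 = k := by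
  simp [cls]

/-- the family of code words -/
abbrev Cw : Set (Finset GolayPt) := supports (golayCode : Set (GolayPt → ZMod 2))

/-- even type -/
def EvenT (x : GolayPt → ℤ) : Prop := (∀ i, x i % 2 = 0) ∧ (∑ i, x i) % 8 = 0 ∧ cls x 2 ∈ Cw

/-- odd type -/
def OddT (x : GolayPt → ℤ) : Prop := (∀ i, x i % 2 = 1) ∧ (∑ i, x i) % 8 = 4 ∧ cls x 1 ∈ Cw

theorem mem_leechSet_iff {x : GolayPt → ℤ} : x ∈ leechSet ↔ EvenT x ∨ OddT x := by
  constructor
  · rintro ⟨m, hm, hs, hk⟩
    have hcls : ∀ k : ℤ, 0 ≤ k → k < 4 → (Finset.univ.filter fun i => x i ≡ k [ZMOD 4]) = cls x k := by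
      intro k h0 h4
      apply Finset.filter_congr
      intro i _
      rw [Int.ModEq, Int.emod_eq_of_lt h0 h4]
    rcases Int.emod_two_eq_zero_or_one m with h | h
    · left
      refine ⟨fun i => ?_, ?_, ?_⟩
      · have := hm i
        rw [Int.ModEq] at this; omega
      · rw [Int.ModEq] at hs; omega
      · rw [← hcls 2 (by norm_num) (by norm_num)]; exact hk 2
    · right
      refine ⟨fun i => ?_, ?_, ?_⟩
      · have := hm i
        rw [Int.ModEq] at this; omega
      · rw [Int.ModEq] at hs; omega
      · rw [← hcls 1 (by norm_num) (by norm_num)]; exact hk 1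
  · have he : (∅ : Finset GolayPt) ∈ Cw := Spor.empty_mem_supports_golayCode
    rintro (⟨h1, h2, h3⟩ | ⟨h1, h2, h3⟩)
    · refine ⟨0, fun i => ?_, ?_, fun k => ?_⟩
      · have := h1 i
        rw [Int.ModEq]; omega
      · rw [Int.ModEq]; omega
      · rcases Int.emod_two_eq_zero_or_one k with hk | hk
        · have hk4 : k % 4 = 0 ∨ k % 4 = 2 := by omega
          rcases hk4 with hk4 | hk4
          · have : (Finset.univ.filter fun i => x i ≡ k [ZMOD 4]) = (cls x 2)ᶜ := by
              ext i
              have := h1 i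
              rw [Finset.mem_filter, Finset.mem_compl, mem_cls, Int.ModEq]
              simp only [Finset.mem_univ, true_and]
              omega
            rw [this]
            exact compl_mem_supports h3
          · have : (Finset.univ.filter fun i => x i ≡ k [ZMOD 4]) = cls x 2 := by
              ext i
              rw [Finset.mem_filter, mem_cls, Int.ModEq, hk4]
              simp
            rw [this]
            exact h3
        · have : (Finset.univ.filter fun i => x i ≡ k [ZMOD 4]) = ∅ := by
            apply Finset.filter_false_of_mem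
            intro i _ h
            have := h1 i
            rw [Int.ModEq] at h
            omega
          rw [this]; exact he
    · refine ⟨1, fun i => ?_, ?_, fun k => ?_⟩
      · have := h1 i
        rw [Int.ModEq]; omega
      · rw [Int.ModEq]; omega
      · rcases Int.emod_two_eq_zero_or_one k with hk | hk
        · have : (Finset.univ.filter fun i => x i ≡ k [ZMOD 4]) = ∅ := by
            apply Finset.filter_false_of_mem
            intro i _ h
            have := h1 i
            rw [Int.ModEq] at h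
            omega
          rw [this]; exact he
        · have hk4 : k % 4 = 1 ∨ k % 4 = 3 := by omega
          rcases hk4 with hk4 | hk4
          · have : (Finset.univ.filter fun i => x i ≡ k [ZMOD 4]) = cls x 1 := by
              ext i
              rw [Finset.mem_filter, mem_cls, Int.ModEq, hk4]
              simp
            rw [this]
            exact h3
          · have : (Finset.univ.filter fun i => x i ≡ k [ZMOD 4]) = (cls x 1)ᶜ := by
              ext i
              have := h1 i
              rw [Finset.mem_filter, Finset.mem_compl, mem_cls, Int.ModEq]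
              simp only [Finset.mem_univ, true_and]
              omega
            rw [this]
            exact compl_mem_supports h3

theorem EvenT.add {x y : GolayPt → ℤ} (hx : EvenT x) (hy : EvenT y) : EvenT (x + y) := by
  obtain ⟨h1, h2, h3⟩ := hx
  obtain ⟨k1, k2, k3⟩ := hy
  refine ⟨fun i => ?_, ?_, ?_⟩
  · have := h1 i; have := k1 i
    rw [Pi.add_apply]; omega
  · simp only [Pi.add_apply, Finset.sum_add_distrib]; omega
  · have : cls (x + y) 2 = symmDiff (cls x 2) (cls y 2) := by
      ext i
      have := h1 i; have := k1 i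
      rw [Finset.mem_symmDiff, mem_cls, mem_cls, mem_cls, Pi.add_apply]
      omega
    rw [this]
    exact symmDiff_mem_supports h3 k3

theorem EvenT.add_odd {x y : GolayPt → ℤ} (hx : EvenT x) (hy : OddT y) : OddT (x + y) := by
  obtain ⟨h1, h2, h3⟩ := hx
  obtain ⟨k1, k2, k3⟩ := hy
  refine ⟨fun i => ?_, ?_, ?_⟩
  · have := h1 i; have := k1 i
    rw [Pi.add_apply]; omega
  · simp only [Pi.add_apply, Finset.sum_add_distrib]; omega
  · have : cls (x + y) 1 = symmDiff (cls x 2) (cls y 1) := by
      ext i
      have := h1 i; have := k1 i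
      rw [Finset.mem_symmDiff, mem_cls, mem_cls, mem_cls, Pi.add_apply]
      omega
    rw [this]
    exact symmDiff_mem_supports h3 k3

theorem OddT.add {x y : GolayPt → ℤ} (hx : OddT x) (hy : OddT y) : EvenT (x + y) := by
  obtain ⟨h1, h2, h3⟩ := hx
  obtain ⟨k1, k2, k3⟩ := hy
  refine ⟨fun i => ?_, ?_, ?_⟩
  · have := h1 i; have := k1 i
    rw [Pi.add_apply]; omega
  · simp only [Pi.add_apply, Finset.sum_add_distrib]; omega
  · have : cls (x + y) 2 = (symmDiff (cls x 1) (cls y 1))ᶜ := by
      ext i
      have := h1 i; have := k1 i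
      rw [Finset.mem_compl, Finset.mem_symmDiff, mem_cls, mem_cls, mem_cls, Pi.add_apply]
      omega
    rw [this]
    exact compl_mem_supports (symmDiff_mem_supports h3 k3)

theorem EvenT.neg {x : GolayPt → ℤ} (hx : EvenT x) : EvenT (-x) := by
  obtain ⟨h1, h2, h3⟩ := hx
  refine ⟨fun i => ?_, ?_, ?_⟩
  · have := h1 i
    rw [Pi.neg_apply]; omega
  · simp only [Pi.neg_apply, Finset.sum_neg_distrib]; omega
  · have : cls (-x) 2 = cls x 2 := by
      ext i
      have := h1 i
      rw [mem_cls, mem_cls, Pi.neg_apply]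
      omega
    rw [this]
    exact h3

theorem OddT.neg {x : GolayPt → ℤ} (hx : OddT x) : OddT (-x) := by
  obtain ⟨h1, h2, h3⟩ := hx
  refine ⟨fun i => ?_, ?_, ?_⟩
  · have := h1 i
    rw [Pi.neg_apply]; omega
  · simp only [Pi.neg_apply, Finset.sum_neg_distrib]; omega
  · have : cls (-x) 1 = (cls x 1)ᶜ := by
      ext i
      have := h1 i
      rw [Finset.mem_compl, mem_cls, mem_cls, Pi.neg_apply]
      omega
    rw [this]
    exact compl_mem_supports h3

theorem evenT_zero : EvenT 0 := by
  refine ⟨fun i => rfl, by simp, ?_⟩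
  have : cls 0 2 = ∅ := by
    ext i
    simp [cls]
  rw [this]
  exact Spor.empty_mem_supports_golayCode

/-- the lattice with carrier `leechSet` -/
def lat : AddSubgroup (GolayPt → ℤ) where
  carrier := leechSet
  zero_mem' := mem_leechSet_iff.2 (Or.inl evenT_zero)
  add_mem' := by
    intro x y hx hy
    rw [mem_leechSet_iff] at hx hy ⊢
    rcases hx with hx | hx <;> rcases hy with hy | hy
    · exact Or.inl (hx.add hy)
    · exact Or.inr (hx.add_odd hy)
    · right; rw [add_comm]; exact hy.add_odd hx
    · exact Or.inl (hx.add hy)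
  neg_mem' := by
    intro x hx
    rw [mem_leechSet_iff] at hx ⊢
    rcases hx with hx | hx
    · exact Or.inl hx.neg
    · exact Or.inr hx.neg

theorem leech_eq : leechLattice = lat := by
  apply le_antisymm
  · rw [leechLattice, AddSubgroup.closure_le]
    exact fun x hx => hx
  · exact AddSubgroup.subset_closure

theorem mem_leech_iff {x : GolayPt → ℤ} : x ∈ leechLattice ↔ EvenT x ∨ OddT x := by
  rw [leech_eq]
  exact mem_leechSet_iff

theorem mem_leech_iff_set {x : GolayPt → ℤ} : x ∈ leechLattice ↔ x ∈ leechSet := by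
  rw [leech_eq]
  rfl

/-! ### norms -/

theorem weight4 {s : Finset GolayPt} (hs : s ∈ Cw) : s.card % 4 = 0 := by
  have := supports_weight hs
  omega

theorem sum_emod {ι : Type*} (s : Finset ι) (f g : ι → ℤ) (n : ℤ) (h : ∀ i ∈ s, f i % n = g i % n) :
    (∑ i ∈ s, f i) % n = (∑ i ∈ s, g i) % n := by
  classical
  rw [Finset.sum_int_mod, Finset.sum_congr rfl h, ← Finset.sum_int_mod]

/-- the square sum of an even vector -/
theorem norm_even {x : GolayPt → ℤ} (hx : EvenT x) : sqNorm x % 16 = 0 := by
  obtain ⟨h1, h2, h3⟩ := hx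
  have h4 : ∀ i ∈ Finset.univ, (x i ^ 2) % 16 = (if i ∈ cls x 2 then 4 else 0 : ℤ) % 16 := by
    intro i _
    have h5 := h1 i
    obtain ⟨a, ha⟩ : ∃ a, x i = 2 * a := ⟨x i / 2, by omega⟩
    by_cases h6 : i ∈ cls x 2
    · rw [if_pos h6]
      rw [mem_cls] at h6
      obtain ⟨b, hb⟩ : ∃ b, x i = 4 * b + 2 := ⟨x i / 4, by omega⟩
      rw [hb]
      have : (4 * b + 2) ^ 2 = 16 * (b ^ 2 + b) + 4 := by ring
      omega
    · rw [if_neg h6]
      rw [mem_cls] at h6
      obtain ⟨b, hb⟩ : ∃ b, x i = 4 * b := ⟨x i / 4, by omega⟩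
      rw [hb]
      have : (4 * b) ^ 2 = 16 * b ^ 2 := by ring
      omega
  rw [sqNorm, sum_emod _ _ _ _ h4, Finset.sum_ite_mem, Finset.univ_inter, Finset.sum_const]
  have := weight4 h3
  simp only [nsmul_eq_mul]
  omega

theorem sum_sign (x : GolayPt → ℤ) (c : Finset GolayPt) :
    ∑ i, (if i ∈ c then -x i else x i) = ∑ i, x i - 2 * ∑ i ∈ c, x i := by
  have h6 : ∑ i ∈ c, x i = ∑ i, (if i ∈ c then x i else 0) := by
    rw [Finset.sum_ite_mem, Finset.univ_inter]
  rw [h6, Finset.mul_sum, ← Finset.sum_sub_distrib]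
  apply Finset.sum_congr rfl
  intro i _
  split <;> ring

theorem norm_odd {x : GolayPt → ℤ} (hx : OddT x) : sqNorm x % 16 = 0 := by
  obtain ⟨h1, h2, h3⟩ := hx
  -- `y i = ± x i` congruent to one modulo four
  have h4 : ∀ i ∈ Finset.univ, (x i ^ 2) % 16 = (2 * (if i ∈ cls x 1 then x i else - x i) - 1) % 16 := by
    intro i _
    have h5 := h1 i
    by_cases h6 : i ∈ cls x 1
    · rw [if_pos h6]
      rw [mem_cls] at h6
      obtain ⟨b, hb⟩ : ∃ b, x i = 4 * b + 1 := ⟨x i / 4, by omega⟩
      rw [hb]
      have : (4 * b + 1) ^ 2 = 16 * b ^ 2 + 8 * b + 1 := by ring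
      omega
    · rw [if_neg h6]
      rw [mem_cls] at h6
      obtain ⟨b, hb⟩ : ∃ b, x i = -(4 * b + 1) := ⟨-(x i) / 4, by omega⟩
      rw [hb]
      have : (-(4 * b + 1)) ^ 2 = 16 * b ^ 2 + 8 * b + 1 := by ring
      omega
  rw [sqNorm, sum_emod _ _ _ _ h4, Finset.sum_sub_distrib, ← Finset.mul_sum, Finset.sum_const]
  have h5 : ∑ i, (if i ∈ cls x 1 then x i else - x i) = ∑ i, x i - 2 * ∑ i ∈ (cls x 1)ᶜ, x i := by
    rw [← sum_sign]
    apply Finset.sum_congr rfl
    intro i _
    by_cases h : i ∈ cls x 1
    · rw [if_pos h, if_neg (fun h' => Finset.mem_compl.1 h' h)]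
    · rw [if_neg h, if_pos (Finset.mem_compl.2 h)]
  have h7 : (∑ i ∈ (cls x 1)ᶜ, x i) % 4 = 0 := by
    rw [sum_emod _ _ (fun _ => (3 : ℤ))]
    · rw [Finset.sum_const]
      have := weight4 (compl_mem_supports h3)
      simp only [nsmul_eq_mul]
      omega
    · intro i hi
      rw [Finset.mem_compl, mem_cls] at hi
      have := h1 i
      omega
  rw [h5]
  have h8 : (Finset.univ : Finset GolayPt).card = 24 := rfl
  rw [h8]
  simp only [nsmul_eq_mul]
  push_cast
  omega

theorem norm_emod {x : GolayPt → ℤ} (hx : x ∈ leechLattice) : sqNorm x % 16 = 0 := by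
  rcases mem_leech_iff.1 hx with h | h
  · exact norm_even h
  · exact norm_odd h

theorem sqNorm_add (x y : GolayPt → ℤ) : sqNorm (x + y) = sqNorm x + 2 * dotInt x y + sqNorm y := by
  simp only [sqNorm, dotInt, Pi.add_apply, Finset.mul_sum, ← Finset.sum_add_distrib]
  apply Finset.sum_congr rfl
  intro i _
  ring

theorem sqNorm_sub (x y : GolayPt → ℤ) : sqNorm (x - y) = sqNorm x - 2 * dotInt x y + sqNorm y := by
  simp only [sqNorm, dotInt, Pi.sub_apply, Finset.mul_sum, ← Finset.sum_add_distrib, ← Finset.sum_sub_distrib]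
  apply Finset.sum_congr rfl
  intro i _
  ring

theorem dotInt_comm (x y : GolayPt → ℤ) : dotInt x y = dotInt y x := by
  simp only [dotInt]
  apply Finset.sum_congr rfl
  intro i _
  ring

theorem dotInt_self (x : GolayPt → ℤ) : dotInt x x = sqNorm x := by
  simp only [dotInt, sqNorm]
  apply Finset.sum_congr rfl
  intro i _
  ring

theorem sqNorm_neg (x : GolayPt → ℤ) : sqNorm (-x) = sqNorm x := by
  simp [sqNorm]

theorem sqNorm_zero : sqNorm (0 : GolayPt → ℤ) = 0 := by
  simp [sqNorm]

theorem sqNorm_nonneg (x : GolayPt → ℤ) : 0 ≤ sqNorm x :=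
  Finset.sum_nonneg fun i _ => sq_nonneg _

theorem sqNorm_eq_zero {x : GolayPt → ℤ} : sqNorm x = 0 ↔ x = 0 := by
  constructor
  · intro h
    rw [sqNorm, Finset.sum_eq_zero_iff_of_nonneg (fun i _ => sq_nonneg _)] at h
    funext i
    have := h i (Finset.mem_univ i)
    exact pow_eq_zero_iff (two_ne_zero) |>.1 this
  · rintro rfl
    exact sqNorm_zero

theorem dot_emod {x y : GolayPt → ℤ} (hx : x ∈ leechLattice) (hy : y ∈ leechLattice) : dotInt x y % 8 = 0 := by
  have h1 := norm_emod hx
  have h2 := norm_emod hy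
  have h3 := norm_emod (add_mem hx hy)
  rw [sqNorm_add] at h3
  omega

/-- the smallest norm -/
theorem min_norm {x : GolayPt → ℤ} (hx : x ∈ leechLattice) (h0 : x ≠ 0) : 32 ≤ sqNorm x := by
  have hmod := norm_emod hx
  rcases mem_leech_iff.1 hx with ⟨h1, h2, h3⟩ | ⟨h1, h2, h3⟩
  · by_cases hc : cls x 2 = ∅
    · -- all coordinates divisible by four
      have h4 : ∀ i, x i % 4 = 0 := by
        intro i
        have := h1 i
        have h5 : i ∉ cls x 2 := by rw [hc]; exact Finset.notMem_empty i
        rw [mem_cls] at h5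
        omega
      obtain ⟨i, hi⟩ : ∃ i, x i ≠ 0 := by
        by_contra h
        push Not at h
        exact h0 (funext h)
      by_contra hlt
      push Not at hlt
      have h5 : ∃ j, j ≠ i ∧ x j ≠ 0 := by
        by_contra h
        push Not at h
        have h6 : ∑ j, x j = x i := Finset.sum_eq_single i (fun j _ hj => h j hj) (fun h => absurd (Finset.mem_univ i) h)
        rw [h6] at h2
        have h7 : sqNorm x = x i ^ 2 := by
          rw [sqNorm]
          exact Finset.sum_eq_single i (fun j _ hj => by rw [h j hj]; rfl) (fun h => absurd (Finset.mem_univ i) h)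
        rw [h7] at hlt
        obtain ⟨b, hb⟩ : ∃ b, x i = 8 * b := ⟨x i / 8, by omega⟩
        rw [hb] at hlt hi
        have hb0 : b ≠ 0 := fun h => hi (by rw [h]; rfl)
        have : 1 ≤ b ^ 2 := by have := sq_pos_of_ne_zero hb0; omega
        nlinarith
      obtain ⟨j, hj, hj0⟩ := h5
      have h6 : x i ^ 2 + x j ^ 2 ≤ sqNorm x := by
        have h7 : ∑ k ∈ ({i, j} : Finset GolayPt), x k ^ 2 = x i ^ 2 + x j ^ 2 := Finset.sum_pair (Ne.symm hj)
        rw [← h7, sqNorm]
        exact Finset.sum_le_sum_of_subset_of_nonneg (Finset.subset_univ _) fun k _ _ => sq_nonneg _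
      have h16 : ∀ a : ℤ, a % 4 = 0 → a ≠ 0 → 16 ≤ a ^ 2 := by
        intro a ha ha0
        obtain ⟨b, hb⟩ : ∃ b, a = 4 * b := ⟨a / 4, by omega⟩
        have hb0 : b ≠ 0 := by rintro rfl; exact ha0 (by rw [hb]; rfl)
        have : 1 ≤ b ^ 2 := by have := sq_pos_of_ne_zero hb0; omega
        rw [hb]
        nlinarith
      have := h16 _ (h4 i) hi
      have := h16 _ (h4 j) hj0
      omega
    · have h4 : 8 ≤ (cls x 2).card := by
        have := supports_weight h3
        have h5 : (cls x 2).card ≠ 0 := fun h => hc (Finset.card_eq_zero.1 h)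
        omega
      have h5 : ∑ i ∈ cls x 2, (4 : ℤ) ≤ ∑ i ∈ cls x 2, x i ^ 2 := by
        apply Finset.sum_le_sum
        intro i hi
        rw [mem_cls] at hi
        obtain ⟨b, hb⟩ : ∃ b, x i = 4 * b + 2 := ⟨x i / 4, by omega⟩
        rw [hb]
        have : 0 ≤ b * (b + 1) := by
          rcases le_or_gt 0 b with h | h
          · exact mul_nonneg h (by omega)
          · exact mul_nonneg_of_nonpos_of_nonpos h.le (by omega)
        nlinarith
      have h6 : ∑ i ∈ cls x 2, x i ^ 2 ≤ sqNorm x :=
        Finset.sum_le_sum_of_subset_of_nonneg (Finset.subset_univ _) fun k _ _ => sq_nonneg _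
      rw [Finset.sum_const, nsmul_eq_mul] at h5
      have : (8 : ℤ) ≤ ((cls x 2).card : ℤ) := by exact_mod_cast h4
      linarith
  · have h4 : ∑ _i : GolayPt, (1 : ℤ) ≤ sqNorm x := by
      apply Finset.sum_le_sum
      intro i _
      have h5 : x i ≠ 0 := by
        intro h
        have := h1 i
        rw [h] at this
        omega
      have := sq_pos_of_ne_zero h5
      omega
    have h8 : (Finset.univ : Finset GolayPt).card = 24 := rfl
    rw [Finset.sum_const, h8] at h4
    simp only [nsmul_eq_mul, mul_one] at h4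
    push_cast at h4
    omega

/-! ### symmetries -/

theorem perm_mem {σ : Equiv.Perm GolayPt} (hσ : σ ∈ M24) {x : GolayPt → ℤ} (hx : x ∈ leechLattice) :
    (fun i => x (σ i)) ∈ leechLattice := by
  have hcls : ∀ k, cls (fun i => x (σ i)) k = (cls x k).map (σ⁻¹).toEmbedding := by
    intro k
    ext i
    rw [Finset.mem_map_equiv, mem_cls, mem_cls]
    rfl
  have hmem : ∀ s ∈ Cw, s.map (σ⁻¹).toEmbedding ∈ Cw := by
    intro s hs
    have h1 : σ⁻¹ ∈ M24 := inv_mem hσ
    have h2 : σ⁻¹ • Cw = Cw := h1
    have h3 : σ⁻¹ • s ∈ σ⁻¹ • Cw := Set.smul_mem_smul_set hs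
    rw [h2] at h3
    convert h3 using 1
    ext i
    rw [Finset.mem_map_equiv, Finset.mem_smul_finset]
    constructor
    · intro h
      exact ⟨_, h, σ⁻¹.apply_symm_apply i⟩
    · rintro ⟨y, hy, rfl⟩
      show (σ⁻¹).symm (σ⁻¹ y) ∈ s
      rwa [Equiv.symm_apply_apply]
  rw [mem_leech_iff] at hx ⊢
  rcases hx with ⟨h1, h2, h3⟩ | ⟨h1, h2, h3⟩
  · left
    refine ⟨fun i => h1 _, ?_, ?_⟩
    · rw [Equiv.sum_comp σ x]; exact h2
    · rw [hcls]; exact hmem _ h3
  · right
    refine ⟨fun i => h1 _, ?_, ?_⟩
    · rw [Equiv.sum_comp σ x]; exact h2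
    · rw [hcls]; exact hmem _ h3

theorem card_inter_mod2 {s t : Finset GolayPt} (hs : s ∈ Cw) (ht : t ∈ Cw) : (s ∩ t).card % 2 = 0 := by
  have h1 := weight4 hs
  have h2 := weight4 ht
  have h3 := weight4 (symmDiff_mem_supports hs ht)
  have h4 := card_symmDiff' s t
  have h5 : (s ∩ t).card ≤ s.card := Finset.card_le_card Finset.inter_subset_left
  have h6 : (s ∩ t).card ≤ t.card := Finset.card_le_card Finset.inter_subset_right
  omega

theorem sign_mem {c : Finset GolayPt} (hc : c ∈ Cw) {x : GolayPt → ℤ} (hx : x ∈ leechLattice) :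
    (fun i => if i ∈ c then -x i else x i) ∈ leechLattice := by
  rw [mem_leech_iff] at hx ⊢
  rcases hx with ⟨h1, h2, h3⟩ | ⟨h1, h2, h3⟩
  · left
    refine ⟨fun i => ?_, ?_, ?_⟩
    · have := h1 i
      show (if i ∈ c then -x i else x i) % 2 = 0
      split <;> omega
    · rw [sum_sign]
      have h4 : (∑ i ∈ c, x i) % 4 = 0 := by
        have h5 : ∀ i ∈ c, x i % 4 = (if i ∈ cls x 2 then (2 : ℤ) else 0) % 4 := by
          intro i _
          have := h1 i
          split
          · rename_i h; rw [mem_cls] at h; omega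
          · rename_i h; rw [mem_cls] at h; omega
        rw [sum_emod _ _ _ _ h5, Finset.sum_ite_mem, Finset.sum_const]
        have := card_inter_mod2 hc h3
        simp only [nsmul_eq_mul]
        omega
      omega
    · have : cls (fun i => if i ∈ c then -x i else x i) 2 = cls x 2 := by
        ext i
        have := h1 i
        rw [mem_cls, mem_cls]
        split <;> omega
      rw [this]; exact h3
  · right
    refine ⟨fun i => ?_, ?_, ?_⟩
    · have := h1 i
      show (if i ∈ c then -x i else x i) % 2 = 1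
      split <;> omega
    · rw [sum_sign]
      have h4 : (∑ i ∈ c, x i) % 4 = 0 := by
        have h5 : ∀ i ∈ c, x i % 4 = (3 - (if i ∈ cls x 1 then (2 : ℤ) else 0)) % 4 := by
          intro i _
          have := h1 i
          split
          · rename_i h; rw [mem_cls] at h; omega
          · rename_i h; rw [mem_cls] at h; omega
        rw [sum_emod _ _ _ _ h5, Finset.sum_sub_distrib, Finset.sum_ite_mem, Finset.sum_const, Finset.sum_const]
        have := card_inter_mod2 hc h3
        have := weight4 hc
        simp only [nsmul_eq_mul]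
        omega
      omega
    · have : cls (fun i => if i ∈ c then -x i else x i) 1 = symmDiff (cls x 1) c := by
        ext i
        have := h1 i
        rw [Finset.mem_symmDiff, mem_cls, mem_cls]
        split
        · rename_i h; simp only [h, not_true, and_false, false_or, true_and]; omega
        · rename_i h; simp only [h, not_false_eq_true, and_true, false_and, or_false]
      rw [this]; exact symmDiff_mem_supports h3 hc

end Cfsg.Agent.H7.L1
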