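import Mathlib
import Cfsg.Agent.H7_L1

set_option autoImplicit false

/-!
Packed encoding of small integer vectors: 24 lanes of 16 bits, each coordinate shifted by 8.
-/

namespace Cfsg.Agent.H7.L2

open Cfsg Cfsg.Agent.H7.Golay Cfsg.Agent.H7.Oct Cfsg.Agent.H7.L1

theorem sum_pt {M : Type*} [AddCommMonoid M] (f : GolayPt → M) : ∑ p, f p = ∑ i ∈ Finset.range 24, f (pt i) := by
  refine Finset.sum_bij' (fun p _ => ix p) (fun i _ => pt i) ?_ ?_ ?_ ?_ ?_
  · intro p _; exact Finset.mem_range.2 (ix_lt p)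
  · intro i _; exact Finset.mem_univ _
  · intro p _; exact pt_ix p
  · intro i hi; exact ix_pt i (Finset.mem_range.1 hi)
  · intro p _; rw [pt_ix]

/-! ### packing -/

/-- packed number with given lanes -/
def pk (f : ℕ → ℕ) (n : ℕ) : ℕ := ∑ i ∈ Finset.range n, f i * 65536 ^ i

theorem pk_succ (f : ℕ → ℕ) (n : ℕ) : pk f (n + 1) = f 0 + 65536 * pk (fun i => f (i + 1)) n := by
  rw [pk, Finset.sum_range_succ', pk, Finset.mul_sum, add_comm, pow_zero, mul_one]
  congr 1
  apply Finset.sum_congr rfl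
  intro i _
  rw [pow_succ]; ring

theorem pk_digit (f : ℕ → ℕ) (n j : ℕ) (hf : ∀ i < n, f i < 65536) (hj : j < n) :
    pk f n / 65536 ^ j % 65536 = f j := by
  induction n generalizing f j with
  | zero => omega
  | succ n ih =>
    rw [pk_succ]
    cases j with
    | zero =>
      rw [pow_zero, Nat.div_one, Nat.add_mul_mod_self_left, Nat.mod_eq_of_lt (hf 0 (by omega))]
    | succ j =>
      have h0 := hf 0 (by omega)
      have h1 : (f 0 + 65536 * pk (fun i => f (i + 1)) n) / 65536 ^ (j + 1) =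
          pk (fun i => f (i + 1)) n / 65536 ^ j := by
        rw [pow_succ', ← Nat.div_div_eq_div_mul]
        congr 1
        omega
      rw [h1]
      exact ih (fun i => f (i + 1)) j (fun i hi => hf _ (by omega)) (by omega)

theorem pk_lt (f : ℕ → ℕ) (n : ℕ) (hf : ∀ i < n, f i < 65536) : pk f n < 65536 ^ n := by
  induction n generalizing f with
  | zero => simp [pk]
  | succ n ih =>
    have h1 := ih (fun i => f (i + 1)) (fun i hi => hf _ (by omega))
    have h0 := hf 0 (by omega)
    rw [pk_succ, pow_succ']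
    have : 65536 * (pk (fun i => f (i + 1)) n + 1) ≤ 65536 * 65536 ^ n := Nat.mul_le_mul_left _ h1
    omega

theorem pk_congr {f g : ℕ → ℕ} {n : ℕ} (h : ∀ i < n, f i = g i) : pk f n = pk g n := by
  apply Finset.sum_congr rfl
  intro i hi
  rw [h i (Finset.mem_range.1 hi)]

/-- a lane -/
def dg (m i : ℕ) : ℕ := Nat.land (Nat.shiftRight m (Nat.mul 16 i)) 65535

theorem dg_eq (m i : ℕ) : dg m i = m / 65536 ^ i % 65536 := by
  have h1 : Nat.shiftRight m (Nat.mul 16 i) = m / 65536 ^ i := by
    show m >>> (16 * i) = _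
    rw [Nat.shiftRight_eq_div_pow, pow_mul]
    norm_num
  have h2 : Nat.land (m / 65536 ^ i) 65535 = m / 65536 ^ i % 65536 := Nat.and_two_pow_sub_one_eq_mod _ 16
  rw [dg, h1, h2]

theorem dg_pk (f : ℕ → ℕ) (hf : ∀ i < 24, f i < 65536) (j : ℕ) (hj : j < 24) : dg (pk f 24) j = f j := by
  rw [dg_eq, pk_digit f 24 j hf hj]

theorem pk_of_digits (m n : ℕ) (hm : m < 65536 ^ n) : pk (fun i => m / 65536 ^ i % 65536) n = m := by
  induction n generalizing m with
  | zero => simp only [pow_zero, Nat.lt_one_iff] at hm; subst hm; simp [pk]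
  | succ n ih =>
    rw [pk_succ]
    have h1 : (fun i => m / 65536 ^ (i + 1) % 65536) = fun i => (m / 65536) / 65536 ^ i % 65536 := by
      funext i
      rw [pow_succ', Nat.div_div_eq_div_mul]
    rw [h1, ih (m / 65536) (by rw [pow_succ] at hm; exact Nat.div_lt_of_lt_mul (by rw [mul_comm]; exact hm))]
    simp only [pow_zero, Nat.div_one]
    omega

/-! ### vectors -/

/-- the packed code of a vector -/
def encL (x : GolayPt → ℤ) : ℕ := pk (fun i => (x (pt i) + 8).toNat) 24

/-- the vector of a packed code -/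
def dec (m : ℕ) : GolayPt → ℤ := fun p => (dg m (ix p) : ℤ) - 8

/-- vectors with small coordinates -/
def Bd (x : GolayPt → ℤ) : Prop := ∀ p, -8 ≤ x p ∧ x p ≤ 8

theorem Bd.lane {x : GolayPt → ℤ} (h : Bd x) (i : ℕ) : (x (pt i) + 8).toNat ≤ 16 := by
  have := h (pt i)
  omega

theorem Bd.lane_eq {x : GolayPt → ℤ} (h : Bd x) (i : ℕ) : (((x (pt i) + 8).toNat : ℕ) : ℤ) = x (pt i) + 8 := by
  have := h (pt i)
  omega

theorem dg_enc {x : GolayPt → ℤ} (h : Bd x) {i : ℕ} (hi : i < 24) : (dg (encL x) i : ℤ) = x (pt i) + 8 := by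
  rw [encL, dg_pk _ (fun i _ => by have := h.lane i; omega) i hi, h.lane_eq]

theorem dec_enc {x : GolayPt → ℤ} (h : Bd x) : dec (encL x) = x := by
  funext p
  rw [dec, dg_enc h (ix_lt p), pt_ix]
  ring

theorem encL_inj {x y : GolayPt → ℤ} (hx : Bd x) (hy : Bd y) : encL x = encL y ↔ x = y :=
  ⟨fun h => by rw [← dec_enc hx, h, dec_enc hy], fun h => by rw [h]⟩

theorem bd_of_norm {x : GolayPt → ℤ} (h : sqNorm x ≤ 64) : Bd x := by
  intro p
  have h1 : x p ^ 2 ≤ sqNorm x := Finset.single_le_sum (f := fun i => x i ^ 2) (fun i _ => sq_nonneg _) (Finset.mem_univ p)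
  constructor <;> nlinarith

/-- sum of the lanes -/
def tot (m : ℕ) : ℕ := Nat.mod m 65535

theorem pk_mod (f : ℕ → ℕ) (n : ℕ) : pk f n % 65535 = (∑ i ∈ Finset.range n, f i) % 65535 := by
  rw [pk, Finset.sum_nat_mod, Finset.sum_nat_mod (Finset.range n) 65535 f]
  congr 1
  apply Finset.sum_congr rfl
  intro i _
  rw [Nat.mul_mod, Nat.pow_mod]
  norm_num

theorem tot_pk (f : ℕ → ℕ) (h : ∑ i ∈ Finset.range 24, f i < 65535) : tot (pk f 24) = ∑ i ∈ Finset.range 24, f i := by
  have : tot (pk f 24) = pk f 24 % 65535 := rfl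
  rw [this, pk_mod, Nat.mod_eq_of_lt h]

theorem tot_enc {x : GolayPt → ℤ} (h : Bd x) : (tot (encL x) : ℤ) = ∑ p, x p + 192 := by
  rw [encL, tot_pk]
  · push_cast
    rw [sum_pt, Finset.sum_congr rfl (fun i _ => h.lane_eq i), Finset.sum_add_distrib]
    simp
  · calc ∑ i ∈ Finset.range 24, (x (pt i) + 8).toNat ≤ ∑ i ∈ Finset.range 24, 16 :=
          Finset.sum_le_sum fun i _ => h.lane i
      _ < 65535 := by simp

/-! ### fast inner product -/

/-- inner product of the lanes of `m` with the reversed lanes of `v` -/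
def fdot (m v : ℕ) : ℕ := Nat.land (Nat.shiftRight (Nat.mul m v) 368) 65535

open Polynomial in
theorem pk_mul_digit (f g : ℕ → ℕ) (hf : ∀ i < 24, f i ≤ 16) (hg : ∀ i < 24, g i ≤ 16) :
    (pk f 24 * pk g 24) / 65536 ^ 23 % 65536 = ∑ i ∈ Finset.range 24, f i * g (23 - i) := by
  classical
  set P : ℕ[X] := ∑ i ∈ Finset.range 24, Polynomial.C (f i) * X ^ i with hP
  set Q : ℕ[X] := ∑ i ∈ Finset.range 24, Polynomial.C (g i) * X ^ i with hQ
  have hPc : ∀ i, P.coeff i = if i < 24 then f i else 0 := by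
    intro i
    rw [hP, Polynomial.finsetSum_coeff]
    simp only [Polynomial.coeff_C_mul, Polynomial.coeff_X_pow]
    simp only [mul_ite, mul_one, mul_zero]
    rw [Finset.sum_ite_eq (Finset.range 24) i f]
    simp only [Finset.mem_range]
  have hQc : ∀ i, Q.coeff i = if i < 24 then g i else 0 := by
    intro i
    rw [hQ, Polynomial.finsetSum_coeff]
    simp only [Polynomial.coeff_C_mul, Polynomial.coeff_X_pow]
    simp only [mul_ite, mul_one, mul_zero]
    rw [Finset.sum_ite_eq (Finset.range 24) i g]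
    simp only [Finset.mem_range]
  have hPe : P.eval 65536 = pk f 24 := by
    rw [hP, Polynomial.eval_finsetSum, pk]
    apply Finset.sum_congr rfl
    intro i _
    simp
  have hQe : Q.eval 65536 = pk g 24 := by
    rw [hQ, Polynomial.eval_finsetSum, pk]
    apply Finset.sum_congr rfl
    intro i _
    simp
  have hdeg : (P * Q).natDegree < 47 := by
    have hp : P.natDegree ≤ 23 := by
      rw [Polynomial.natDegree_le_iff_coeff_eq_zero]
      intro i hi
      rw [hPc, if_neg (by omega)]
    have hq : Q.natDegree ≤ 23 := by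
      rw [Polynomial.natDegree_le_iff_coeff_eq_zero]
      intro i hi
      rw [hQc, if_neg (by omega)]
    have := Polynomial.natDegree_mul_le (p := P) (q := Q)
    omega
  have hcoef : ∀ k, (P * Q).coeff k ≤ 47 * 256 := by
    intro k
    rw [Polynomial.coeff_mul]
    by_cases hk : k < 47
    · calc ∑ x ∈ Finset.HasAntidiagonal.antidiagonal k, P.coeff x.1 * Q.coeff x.2 ≤ ∑ x ∈ Finset.HasAntidiagonal.antidiagonal k, 256 := by
            apply Finset.sum_le_sum
            intro x _
            rw [hPc, hQc]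
            have h1 : (if x.1 < 24 then f x.1 else 0) ≤ 16 := by
              split
              · rename_i h; exact hf _ h
              · norm_num
            have h2 : (if x.2 < 24 then g x.2 else 0) ≤ 16 := by
              split
              · rename_i h; exact hg _ h
              · norm_num
            calc _ ≤ 16 * 16 := Nat.mul_le_mul h1 h2
              _ = 256 := rfl
        _ = (k + 1) * 256 := by rw [Finset.sum_const, Finset.Nat.card_antidiagonal, smul_eq_mul]
        _ ≤ 47 * 256 := Nat.mul_le_mul_right _ (by omega)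
    · have : ∑ x ∈ Finset.HasAntidiagonal.antidiagonal k, P.coeff x.1 * Q.coeff x.2 = (P * Q).coeff k := (Polynomial.coeff_mul _ _ _).symm
      rw [this, Polynomial.coeff_eq_zero_of_natDegree_lt (by omega)]
      norm_num
  have hprod : pk f 24 * pk g 24 = pk (fun k => (P * Q).coeff k) 47 := by
    rw [← hPe, ← hQe, ← Polynomial.eval_mul, Polynomial.eval_eq_sum_range' hdeg, pk]
  rw [hprod, pk_digit _ 47 23 (fun i _ => lt_of_le_of_lt (hcoef i) (by norm_num)) (by norm_num),
    Polynomial.coeff_mul, Finset.Nat.sum_antidiagonal_eq_sum_range_succ_mk]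
  apply Finset.sum_congr rfl
  intro i hi
  rw [Finset.mem_range] at hi
  rw [hPc, hQc, if_pos (by omega), if_pos (by omega)]

/-- reversed packing -/
def rev (v : GolayPt → ℤ) : ℕ := pk (fun i => (v (pt (23 - i)) + 8).toNat) 24

theorem fdot_eq {x v : GolayPt → ℤ} (hx : Bd x) (hv : Bd v) :
    (fdot (encL x) (rev v) : ℤ) = dotInt x v + 8 * ∑ p, x p + 8 * ∑ p, v p + 1536 := by
  have h1 : fdot (encL x) (rev v) = (encL x * rev v) / 65536 ^ 23 % 65536 := by
    have h1 : Nat.shiftRight (Nat.mul (encL x) (rev v)) 368 = (encL x * rev v) / 65536 ^ 23 := by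
      show (encL x * rev v) >>> 368 = _
      have h3 : (65536 : ℕ) ^ 23 = 2 ^ 368 := by rw [show (65536 : ℕ) = 2 ^ 16 from rfl, ← pow_mul]
      rw [Nat.shiftRight_eq_div_pow, h3]
    have h2 : Nat.land ((encL x * rev v) / 65536 ^ 23) 65535 = (encL x * rev v) / 65536 ^ 23 % 65536 :=
      Nat.and_two_pow_sub_one_eq_mod _ 16
    rw [fdot, h1, h2]
  rw [h1, encL, rev, pk_mul_digit _ _ (fun i _ => hx.lane i) (fun i _ => hv.lane _)]
  push_cast
  have h2 : ∀ i ∈ Finset.range 24, (((x (pt i) + 8).toNat : ℕ) : ℤ) * (((v (pt (23 - (23 - i))) + 8).toNat : ℕ) : ℤ) =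
      x (pt i) * v (pt i) + 8 * x (pt i) + 8 * v (pt i) + 64 := by
    intro i hi
    rw [Finset.mem_range] at hi
    have : 23 - (23 - i) = i := by omega
    rw [this, hx.lane_eq, hv.lane_eq]
    ring
  rw [Finset.sum_congr rfl h2, dotInt, sum_pt, sum_pt, sum_pt]
  simp only [Finset.sum_add_distrib, Finset.mul_sum, Finset.sum_const, Finset.card_range]
  norm_num

/-- test of an inner product: `c` is the inner product plus eight times the lane total of `v` -/
def tdot (v c m : ℕ) : Bool := Nat.beq (Nat.add (fdot m v) 1536) (Nat.add c (Nat.mul 8 (tot m)))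

theorem tdot_iff {x v : GolayPt → ℤ} (hx : Bd x) (hv : Bd v) (c : ℕ) (a : ℤ) (hc : (c : ℤ) = a + 8 * (∑ p, v p + 192)) :
    tdot (rev v) c (encL x) = true ↔ dotInt x v = a := by
  have h1 := fdot_eq hx hv
  have h2 := tot_enc hx
  have h3 : tdot (rev v) c (encL x) = true ↔ fdot (encL x) (rev v) + 1536 = c + 8 * tot (encL x) := by
    rw [tdot]
    constructor
    · exact fun h => Nat.eq_of_beq_eq_true h
    · intro h
      have h' : Nat.add (fdot (encL x) (rev v)) 1536 = Nat.add c (Nat.mul 8 (tot (encL x))) := h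
      rw [h']; exact Nat.beq_refl _
  rw [h3]
  constructor
  · intro h
    have : ((fdot (encL x) (rev v) + 1536 : ℕ) : ℤ) = ((c + 8 * tot (encL x) : ℕ) : ℤ) := by rw [h]
    push_cast at this
    omega
  · intro h
    have : ((fdot (encL x) (rev v) + 1536 : ℕ) : ℤ) = ((c + 8 * tot (encL x) : ℕ) : ℤ) := by
      push_cast
      omega
    exact_mod_cast this

end Cfsg.Agent.H7.L2
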