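import Mathlib
import Cfsg.Agent.H7_L2

set_option autoImplicit false

/-!
Enumeration of the minimal vectors of the Leech lattice.
-/

namespace Cfsg.Agent.H7.L3

open Cfsg Cfsg.Agent.H7.Golay Cfsg.Agent.H7.Oct Cfsg.Agent.H7.L1 Cfsg.Agent.H7.L2

/-- unit vector at an index -/
def u (i : ℕ) (a : ℤ) : GolayPt → ℤ := Pi.single (pt i) a

/-! ### family A -/

/-- vectors with two coordinates ±4 -/
def famA : List (GolayPt → ℤ) :=
  (List.range 24).flatMap fun i => (List.range i).flatMap fun j =>
    [u i 4 + u j 4, u i 4 + u j (-4), u i (-4) + u j 4, u i (-4) + u j (-4)]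

/-! ### family B -/

/-- all ways to add four at an even or odd number of the given points -/
def evV : List GolayPt → (GolayPt → ℤ) → Bool → List (GolayPt → ℤ)
  | [], x, par => if par then [x] else []
  | p :: l, x, par => evV l x par ++ evV l (x + Pi.single p 4) (!par)

theorem mem_evV (l : List GolayPt) (hl : l.Nodup) (x : GolayPt → ℤ) (par : Bool) (y : GolayPt → ℤ) :
    y ∈ evV l x par ↔ (∀ p, p ∉ l → y p = x p) ∧ (∀ p ∈ l, y p = x p ∨ y p = x p + 4) ∧
      (l.countP (fun p => decide (y p = x p + 4)) % 2 = if par then 0 else 1) := by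
  induction l generalizing x par with
  | nil =>
    cases par
    · simp [evV]
    · simp only [evV, if_true, List.mem_singleton, List.not_mem_nil, not_false_eq_true, true_implies,
        false_implies, implies_true, List.countP_nil, Nat.zero_mod, and_true]
      constructor
      · rintro rfl p; rfl
      · intro h; funext p; exact h p
  | cons q l ih =>
    rw [List.nodup_cons] at hl
    rw [evV, List.mem_append, ih hl.2, ih hl.2]
    have hcount : ∀ (z z' : GolayPt → ℤ), (∀ p ∈ l, z p = z' p) → l.countP (fun p => decide (y p = z p + 4)) =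
        l.countP (fun p => decide (y p = z' p + 4)) := by
      intro z z' h
      apply List.countP_congr
      intro p hp
      rw [h p hp]
    have hne : ∀ p ∈ l, (x + Pi.single q 4 : GolayPt → ℤ) p = x p := by
      intro p hp
      have : p ≠ q := fun h => hl.1 (h ▸ hp)
      rw [Pi.add_apply, Pi.single_eq_of_ne this, add_zero]
    have hne' : ∀ p, p ≠ q → (x + Pi.single q 4 : GolayPt → ℤ) p = x p := by
      intro p hp
      rw [Pi.add_apply, Pi.single_eq_of_ne hp, add_zero]
    have hq : (x + Pi.single q 4 : GolayPt → ℤ) q = x q + 4 := by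
      rw [Pi.add_apply, Pi.single_eq_same]
    rw [hcount _ _ hne]
    constructor
    · rintro (⟨h1, h2, h3⟩ | ⟨h1, h2, h3⟩)
      · refine ⟨fun p hp => h1 p fun h => hp (List.mem_cons_of_mem _ h), ?_, ?_⟩
        · intro p hp
          rcases List.mem_cons.1 hp with rfl | hp
          · exact Or.inl (h1 _ hl.1)
          · exact h2 p hp
        · rw [List.countP_cons, h1 _ hl.1]
          simpa using h3
      · refine ⟨?_, ?_, ?_⟩
        · intro p hp
          rw [List.mem_cons, not_or] at hp
          rw [h1 p hp.2, hne' p hp.1]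
        · intro p hp
          rcases List.mem_cons.1 hp with rfl | hp
          · right; rw [h1 _ hl.1, hq]
          · have := h2 p hp
            rwa [hne p hp] at this
        · rw [List.countP_cons, h1 _ hl.1, hq]
          cases par <;> simp at h3 ⊢ <;> omega
    · rintro ⟨h1, h2, h3⟩
      rcases h2 q List.mem_cons_self with hy | hy
      · left
        refine ⟨?_, fun p hp => h2 p (List.mem_cons_of_mem _ hp), ?_⟩
        · intro p hp
          by_cases hpq : p = q
          · rw [hpq]; exact hy
          · exact h1 p (by rw [List.mem_cons, not_or]; exact ⟨hpq, hp⟩)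
        · rw [List.countP_cons, hy] at h3
          simpa using h3
      · right
        refine ⟨?_, fun p hp => ?_, ?_⟩
        · intro p hp
          by_cases hpq : p = q
          · rw [hpq, hq]; exact hy
          · rw [hne' p hpq]
            exact h1 p (by rw [List.mem_cons, not_or]; exact ⟨hpq, hp⟩)
        · rw [hne p hp]; exact h2 p (List.mem_cons_of_mem _ hp)
        · rw [List.countP_cons, hy] at h3
          cases par <;> simp at h3 ⊢ <;> omega

theorem nodup_evV (l : List GolayPt) (hl : l.Nodup) (x : GolayPt → ℤ) (par : Bool) : (evV l x par).Nodup := by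
  induction l generalizing x par with
  | nil => cases par <;> simp [evV]
  | cons q l ih =>
    rw [List.nodup_cons] at hl
    rw [evV]
    refine List.Nodup.append (ih hl.2 _ _) (ih hl.2 _ _) ?_
    intro y hy hy'
    rw [mem_evV _ hl.2] at hy hy'
    have h1 := hy.1 q hl.1
    have h2 := hy'.1 q hl.1
    rw [Pi.add_apply, Pi.single_eq_same] at h2
    omega

/-- the points of a mask -/
def pts (m : ℕ) : List GolayPt := ((List.range 24).filter fun i => m.testBit i).map pt

theorem mem_pts {m : ℕ} {p : GolayPt} : p ∈ pts m ↔ p ∈ ofMask m := by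
  rw [pts, List.mem_map, mem_ofMask]
  constructor
  · rintro ⟨i, hi, rfl⟩
    rw [List.mem_filter, List.mem_range] at hi
    rw [ix_pt i hi.1]
    exact hi.2
  · intro h
    exact ⟨ix p, List.mem_filter.2 ⟨List.mem_range.2 (ix_lt p), h⟩, pt_ix p⟩

theorem nodup_pts (m : ℕ) : (pts m).Nodup := by
  rw [pts]
  refine List.Nodup.map_on ?_ (List.nodup_range.filter _)
  intro i hi j hj h
  rw [List.mem_filter, List.mem_range] at hi hj
  exact (pt_inj hi.1 hj.1).1 h

/-- minus two on a set -/
def bs (m : ℕ) : GolayPt → ℤ := fun p => if p ∈ ofMask m then -2 else 0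

/-- vectors with eight coordinates ±2 -/
def famB : List (GolayPt → ℤ) := octL.flatMap fun m => evV (pts m) (bs m) true

/-- one on the set, minus one outside -/
def eps (m : ℕ) : GolayPt → ℤ := fun p => if p ∈ ofMask m then 1 else -1

/-- vectors with one coordinate ±3 and the others ±1 -/
def famC : List (GolayPt → ℤ) := codeL.flatMap fun m => (List.range 24).map fun i => eps m - u i (4 * eps m (pt i))

/-- all minimal vectors -/
def minV : List (GolayPt → ℤ) := famA ++ (famB ++ famC)

theorem mem_famA {x : GolayPt → ℤ} : x ∈ famA ↔ ∃ p q : GolayPt, p ≠ q ∧ ∃ a b : ℤ, (a = 4 ∨ a = -4) ∧ (b = 4 ∨ b = -4) ∧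
    x = Pi.single p a + Pi.single q b := by
  simp only [famA, List.mem_flatMap, List.mem_range, List.mem_cons, List.not_mem_nil, or_false, u]
  constructor
  · rintro ⟨i, hi, j, hj, h⟩
    have hne : pt i ≠ pt j := fun h => by
      have := (pt_inj hi (by omega)).1 h
      omega
    rcases h with rfl | rfl | rfl | rfl
    · exact ⟨_, _, hne, 4, 4, Or.inl rfl, Or.inl rfl, rfl⟩
    · exact ⟨_, _, hne, 4, -4, Or.inl rfl, Or.inr rfl, rfl⟩
    · exact ⟨_, _, hne, -4, 4, Or.inr rfl, Or.inl rfl, rfl⟩
    · exact ⟨_, _, hne, -4, -4, Or.inr rfl, Or.inr rfl, rfl⟩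
  · rintro ⟨p, q, hpq, a, b, ha, hb, rfl⟩
    have hne : ix p ≠ ix q := fun h => hpq (ix_injective h)
    rcases Nat.lt_or_gt_of_ne hne with h | h
    · refine ⟨ix q, ix_lt q, ix p, h, ?_⟩
      rw [pt_ix, pt_ix]
      rcases ha with rfl | rfl <;> rcases hb with rfl | rfl <;> simp [add_comm]
    · refine ⟨ix p, ix_lt p, ix q, h, ?_⟩
      rw [pt_ix, pt_ix]
      rcases ha with rfl | rfl <;> rcases hb with rfl | rfl <;> simp

theorem mem_famB {x : GolayPt → ℤ} : x ∈ famB ↔ ∃ o ∈ octads, (∀ p, p ∉ o → x p = 0) ∧ (∀ p ∈ o, x p = 2 ∨ x p = -2) ∧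
    (o.filter fun p => x p = 2).card % 2 = 0 := by
  have key : ∀ m, x ∈ evV (pts m) (bs m) true ↔ (∀ p, p ∉ ofMask m → x p = 0) ∧
      (∀ p ∈ ofMask m, x p = 2 ∨ x p = -2) ∧ ((ofMask m).filter fun p => x p = 2).card % 2 = 0 := by
    intro m
    rw [mem_evV _ (nodup_pts m)]
    have h1 : (∀ p, p ∉ pts m → x p = bs m p) ↔ (∀ p, p ∉ ofMask m → x p = 0) := by
      refine forall_congr' fun p => ?_
      rw [mem_pts, bs]
      constructor
      · intro h hp; rw [h hp, if_neg hp]
      · intro h hp; rw [h hp, if_neg hp]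
    have h2 : (∀ p ∈ pts m, x p = bs m p ∨ x p = bs m p + 4) ↔ (∀ p ∈ ofMask m, x p = 2 ∨ x p = -2) := by
      refine forall_congr' fun p => ?_
      rw [mem_pts, bs]
      constructor
      · intro h hp
        have := h hp
        rw [if_pos hp] at this
        omega
      · intro h hp
        have := h hp
        rw [if_pos hp]
        omega
    rw [h1, h2]
    refine and_congr_right fun _ => and_congr_right fun _ => ?_
    have h3 : (pts m).countP (fun p => decide (x p = bs m p + 4)) = ((ofMask m).filter fun p => x p = 2).card := by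
      rw [List.countP_eq_length_filter]
      have h4 : (pts m).filter (fun p => decide (x p = bs m p + 4)) = (pts m).filter (fun p => decide (x p = 2)) := by
        apply List.filter_congr
        intro p hp
        rw [mem_pts] at hp
        rw [bs, if_pos hp]
        norm_num
      rw [h4, ← List.toFinset_card_of_nodup ((nodup_pts m).filter _)]
      congr 1
      ext p
      simp [mem_pts]
    rw [h3]
    simp
  rw [famB, List.mem_flatMap]
  constructor
  · rintro ⟨m, hm, h⟩
    exact ⟨ofMask m, (ofMask_mem_octads (octL_lt hm)).2 hm, (key m).1 h⟩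
  · rintro ⟨o, ho, h⟩
    refine ⟨mask o, mem_octads_iff.1 ho, (key _).2 ?_⟩
    rw [ofMask_mask]
    exact h

theorem mem_famC {x : GolayPt → ℤ} : x ∈ famC ↔ ∃ c ∈ Cw, ∃ p, ∀ q, x q = (if q ∈ c then 1 else -1) * (if q = p then -3 else 1) := by
  rw [famC, List.mem_flatMap]
  constructor
  · rintro ⟨m, hm, h⟩
    rw [List.mem_map] at h
    obtain ⟨i, hi, rfl⟩ := h
    rw [List.mem_range] at hi
    refine ⟨ofMask m, (ofMask_mem_supports (codeL_lt hm)).2 hm, pt i, fun q => ?_⟩
    rw [Pi.sub_apply, u]
    by_cases hq : q = pt i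
    · subst hq
      rw [Pi.single_eq_same, if_pos rfl, eps]
      ring
    · rw [Pi.single_eq_of_ne hq, if_neg hq, eps]
      ring
  · rintro ⟨c, hc, p, h⟩
    refine ⟨mask c, mem_supports_iff'.1 hc, List.mem_map.2 ⟨ix p, List.mem_range.2 (ix_lt p), ?_⟩⟩
    funext q
    rw [h q, Pi.sub_apply, u, pt_ix, eps, eps, ofMask_mask]
    by_cases hq : q = p
    · subst hq
      rw [Pi.single_eq_same, if_pos rfl]
      ring
    · rw [Pi.single_eq_of_ne hq, if_neg hq]
      ring

end Cfsg.Agent.H7.L3
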