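import Mathlib
import Cfsg.Agent.H7_L3

set_option autoImplicit false

/-!
The minimal vectors of the Leech lattice are exactly the enumerated ones.
-/

namespace Cfsg.Agent.H7.L4

open Cfsg Cfsg.Agent.H7.Golay Cfsg.Agent.H7.Oct Cfsg.Agent.H7.L1 Cfsg.Agent.H7.L2 Cfsg.Agent.H7.L3

theorem sqNorm_single (p : GolayPt) (a : ℤ) : sqNorm (Pi.single p a : GolayPt → ℤ) = a ^ 2 := by
  rw [sqNorm, Finset.sum_eq_single p]
  · rw [Pi.single_eq_same]
  · intro q _ hq
    rw [Pi.single_eq_of_ne hq]; rfl
  · intro h; exact absurd (Finset.mem_univ p) h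

theorem dotInt_single (x : GolayPt → ℤ) (p : GolayPt) (a : ℤ) : dotInt x (Pi.single p a : GolayPt → ℤ) = x p * a := by
  rw [dotInt, Finset.sum_eq_single p]
  · rw [Pi.single_eq_same]
  · intro q _ hq
    rw [Pi.single_eq_of_ne hq, mul_zero]
  · intro h; exact absurd (Finset.mem_univ p) h

theorem sum_single (p : GolayPt) (a : ℤ) : ∑ i, (Pi.single p a : GolayPt → ℤ) i = a := by
  rw [Finset.sum_eq_single p]
  · rw [Pi.single_eq_same]
  · intro q _ hq
    rw [Pi.single_eq_of_ne hq]
  · intro h; exact absurd (Finset.mem_univ p) h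

theorem single_cases (p : GolayPt) (a : ℤ) (i : GolayPt) :
    (Pi.single p a : GolayPt → ℤ) i = 0 ∨ (Pi.single p a : GolayPt → ℤ) i = a := by
  by_cases h : i = p
  · right; rw [h, Pi.single_eq_same]
  · left; rw [Pi.single_eq_of_ne h]

theorem famA_spec {x : GolayPt → ℤ} (h : x ∈ famA) : EvenT x ∧ sqNorm x = 32 ∧ cls x 2 = ∅ := by
  obtain ⟨p, q, hpq, a, b, ha, hb, rfl⟩ := mem_famA.1 h
  have hc : cls (Pi.single p a + Pi.single q b : GolayPt → ℤ) 2 = ∅ := by
    ext i
    rw [mem_cls, Pi.add_apply]
    have h1 := single_cases p a i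
    have h2 := single_cases q b i
    constructor
    · intro h
      omega
    · intro h; exact absurd h (Finset.notMem_empty _)
  refine ⟨⟨fun i => ?_, ?_, ?_⟩, ?_, hc⟩
  · rw [Pi.add_apply]
    have h1 := single_cases p a i
    have h2 := single_cases q b i
    omega
  · simp only [Pi.add_apply, Finset.sum_add_distrib, sum_single]
    omega
  · rw [hc]; exact Spor.empty_mem_supports_golayCode
  · rw [sqNorm_add, sqNorm_single, sqNorm_single, dotInt_single, Pi.single_eq_of_ne (Ne.symm hpq)]
    rcases ha with rfl | rfl <;> rcases hb with rfl | rfl <;> norm_num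

theorem sum_on {x : GolayPt → ℤ} {o : Finset GolayPt} (h : ∀ p, p ∉ o → x p = 0) (f : ℤ → ℤ) (hf : f 0 = 0) :
    ∑ i, f (x i) = ∑ i ∈ o, f (x i) := by
  symm
  apply Finset.sum_subset (Finset.subset_univ o)
  intro i _ hi
  rw [h i hi, hf]

theorem famB_spec {x : GolayPt → ℤ} (h : x ∈ famB) : EvenT x ∧ sqNorm x = 32 ∧ cls x 2 ∈ octads := by
  obtain ⟨o, ho, h0, h2, hpar⟩ := mem_famB.1 h
  have hc : cls x 2 = o := by
    ext i
    rw [mem_cls]
    constructor
    · intro h
      by_contra hi
      rw [h0 i hi] at h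
      omega
    · intro hi
      have := h2 i hi
      omega
  refine ⟨⟨fun i => ?_, ?_, ?_⟩, ?_, by rw [hc]; exact ho⟩
  · by_cases hi : i ∈ o
    · have := h2 i hi; omega
    · rw [h0 i hi]; rfl
  · rw [sum_on h0 (fun z => z) rfl]
    have h3 : ∑ i ∈ o, x i = ∑ i ∈ o, ((if x i = 2 then (4 : ℤ) else 0) - 2) := by
      apply Finset.sum_congr rfl
      intro i hi
      rcases h2 i hi with h | h
      · rw [h]; norm_num
      · rw [h]; norm_num
    rw [h3, Finset.sum_sub_distrib, ← Finset.sum_filter, Finset.sum_const, Finset.sum_const, ho.2]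
    simp only [nsmul_eq_mul]
    omega
  · rw [hc]; exact ho.1
  · rw [sqNorm, sum_on h0 (fun z => z ^ 2) rfl, Finset.sum_congr rfl (g := fun _ => (4 : ℤ)), Finset.sum_const, ho.2]
    · norm_num
    · intro i hi
      rcases h2 i hi with h | h
      · rw [h]; norm_num
      · rw [h]; norm_num

theorem famC_spec {x : GolayPt → ℤ} (h : x ∈ famC) : OddT x ∧ sqNorm x = 32 := by
  obtain ⟨c, hc, p, hx⟩ := mem_famC.1 h
  have hc1 : cls x 1 = c := by
    ext i
    rw [mem_cls, hx i]
    by_cases hi : i ∈ c
    · rw [if_pos hi]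
      by_cases hp : i = p
      · rw [if_pos hp]; simpa using hi
      · rw [if_neg hp]; simpa using hi
    · rw [if_neg hi]
      by_cases hp : i = p
      · rw [if_pos hp]; simpa using hi
      · rw [if_neg hp]; simpa using hi
  refine ⟨⟨fun i => ?_, ?_, ?_⟩, ?_⟩
  · rw [hx i]
    split <;> split <;> rfl
  · have h1 : ∀ i, x i = (if i ∈ c then (2 : ℤ) else 0) - 1 + (Pi.single p (if p ∈ c then (-4 : ℤ) else 4) : GolayPt → ℤ) i := by
      intro i
      rw [hx i]
      by_cases hp : i = p
      · subst hp
        rw [Pi.single_eq_same, if_pos rfl]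
        split <;> norm_num
      · rw [Pi.single_eq_of_ne hp, if_neg hp]
        split <;> norm_num
    rw [Finset.sum_congr rfl (fun i _ => h1 i), Finset.sum_add_distrib, Finset.sum_sub_distrib, sum_single,
      Finset.sum_ite_mem, Finset.univ_inter, Finset.sum_const, Finset.sum_const]
    have h8 : (Finset.univ : Finset GolayPt).card = 24 := rfl
    rw [h8]
    have := weight4 hc
    simp only [nsmul_eq_mul]
    split <;> push_cast <;> omega
  · rw [hc1]; exact hc
  · have h1 : ∀ i, x i ^ 2 = 1 + (Pi.single p (8 : ℤ) : GolayPt → ℤ) i := by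
      intro i
      rw [hx i]
      by_cases hp : i = p
      · subst hp
        rw [Pi.single_eq_same, if_pos rfl]
        split <;> norm_num
      · rw [Pi.single_eq_of_ne hp, if_neg hp]
        split <;> norm_num
    have h8 : (Finset.univ : Finset GolayPt).card = 24 := rfl
    rw [sqNorm, Finset.sum_congr rfl (fun i _ => h1 i), Finset.sum_add_distrib, sum_single, Finset.sum_const, h8]
    norm_num

theorem sq_ge_of_mod4 {a : ℤ} (h : a % 4 = 0) (h0 : a ≠ 0) : 16 ≤ a ^ 2 := by
  obtain ⟨b, hb⟩ : ∃ b, a = 4 * b := ⟨a / 4, by omega⟩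
  have hb0 : b ≠ 0 := by rintro rfl; exact h0 (by rw [hb]; rfl)
  have : 1 ≤ b ^ 2 := by have := sq_pos_of_ne_zero hb0; omega
  rw [hb]
  nlinarith

theorem sq_ge_of_mod2 {a : ℤ} (h : a % 4 = 2) : 4 ≤ a ^ 2 := by
  obtain ⟨b, hb⟩ : ∃ b, a = 4 * b + 2 := ⟨a / 4, by omega⟩
  rw [hb]
  have : 0 ≤ b * (b + 1) := by
    rcases le_or_gt 0 b with h | h
    · exact mul_nonneg h (by omega)
    · exact mul_nonneg_of_nonpos_of_nonpos h.le (by omega)
  nlinarith

/-- three terms of a sum of squares -/
theorem sq_three {x : GolayPt → ℤ} {i j k : GolayPt} (hij : i ≠ j) (hik : i ≠ k) (hjk : j ≠ k) :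
    x i ^ 2 + x j ^ 2 + x k ^ 2 ≤ sqNorm x := by
  have h7 : ∑ l ∈ ({i, j, k} : Finset GolayPt), x l ^ 2 = x i ^ 2 + x j ^ 2 + x k ^ 2 := by
    rw [Finset.sum_insert (by simp [hij, hik]), Finset.sum_pair hjk, add_assoc]
  rw [← h7, sqNorm]
  exact Finset.sum_le_sum_of_subset_of_nonneg (Finset.subset_univ _) fun k _ _ => sq_nonneg _

theorem sq_two {x : GolayPt → ℤ} {i j : GolayPt} (hij : i ≠ j) : x i ^ 2 + x j ^ 2 ≤ sqNorm x := by
  have h7 : ∑ l ∈ ({i, j} : Finset GolayPt), x l ^ 2 = x i ^ 2 + x j ^ 2 := Finset.sum_pair hij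
  rw [← h7, sqNorm]
  exact Finset.sum_le_sum_of_subset_of_nonneg (Finset.subset_univ _) fun k _ _ => sq_nonneg _

theorem sq_one {x : GolayPt → ℤ} (i : GolayPt) : x i ^ 2 ≤ sqNorm x :=
  Finset.single_le_sum (f := fun i => x i ^ 2) (fun i _ => sq_nonneg _) (Finset.mem_univ i)

theorem eq_single_of {x : GolayPt → ℤ} {i : GolayPt} (h : ∀ j, j ≠ i → x j = 0) : x = Pi.single i (x i) := by
  funext j
  by_cases hj : j = i
  · rw [hj, Pi.single_eq_same]
  · rw [h j hj, Pi.single_eq_of_ne hj]

theorem abs4 {a : ℤ} (h : a % 4 = 0) (h2 : a ^ 2 ≤ 16) (h0 : a ≠ 0) : a = 4 ∨ a = -4 := by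
  have h3 : a ≤ 4 := by nlinarith
  have h4 : -4 ≤ a := by nlinarith
  omega

theorem mem_minV {x : GolayPt → ℤ} : x ∈ minV ↔ x ∈ leechLattice ∧ sqNorm x = 32 := by
  rw [minV, List.mem_append, List.mem_append]
  constructor
  · rintro (h | h | h)
    · exact ⟨mem_leech_iff.2 (Or.inl (famA_spec h).1), (famA_spec h).2.1⟩
    · exact ⟨mem_leech_iff.2 (Or.inl (famB_spec h).1), (famB_spec h).2.1⟩
    · exact ⟨mem_leech_iff.2 (Or.inr (famC_spec h).1), (famC_spec h).2⟩
  · rintro ⟨hx, hn⟩
    rcases mem_leech_iff.1 hx with ⟨h1, h2, h3⟩ | ⟨h1, h2, h3⟩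
    · have hw := supports_weight h3
      have h5 : ∑ i ∈ cls x 2, (4 : ℤ) ≤ ∑ i ∈ cls x 2, x i ^ 2 := by
        apply Finset.sum_le_sum
        intro i hi
        exact sq_ge_of_mod2 (mem_cls.1 hi)
      have h6 : ∑ i ∈ cls x 2, x i ^ 2 ≤ sqNorm x :=
        Finset.sum_le_sum_of_subset_of_nonneg (Finset.subset_univ _) fun k _ _ => sq_nonneg _
      rw [Finset.sum_const, nsmul_eq_mul] at h5
      have hw' : (cls x 2).card = 0 ∨ (cls x 2).card = 8 := by
        have : ((cls x 2).card : ℤ) ≤ 8 := by linarith
        have : (cls x 2).card ≤ 8 := by exact_mod_cast this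
        omega
      rcases hw' with hw' | hw'
      · left
        have hc := Finset.card_eq_zero.1 hw'
        have h4 : ∀ i, x i % 4 = 0 := by
          intro i
          have := h1 i
          have h5 : i ∉ cls x 2 := by rw [hc]; exact Finset.notMem_empty i
          rw [mem_cls] at h5
          omega
        obtain ⟨i, hi⟩ : ∃ i, x i ≠ 0 := by
          by_contra h
          push Not at h
          have : x = 0 := funext h
          rw [this, sqNorm_zero] at hn
          omega
        have hi16 := sq_ge_of_mod4 (h4 i) hi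
        obtain ⟨j, hj, hj0⟩ : ∃ j, j ≠ i ∧ x j ≠ 0 := by
          by_contra h
          push Not at h
          rw [eq_single_of h, sqNorm_single] at hn
          obtain ⟨b, hb⟩ : ∃ b, x i = 4 * b := ⟨x i / 4, by have := h4 i; omega⟩
          rw [hb] at hn
          have : b ^ 2 = 2 := by nlinarith
          have hb1 : b ≤ 1 := by nlinarith
          have hb2 : -1 ≤ b := by nlinarith
          interval_cases b <;> omega
        have hj16 := sq_ge_of_mod4 (h4 j) hj0
        have h2' := sq_two (x := x) (Ne.symm hj)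
        rw [mem_famA]
        refine ⟨i, j, Ne.symm hj, x i, x j, abs4 (h4 i) (by omega) hi, abs4 (h4 j) (by omega) hj0, ?_⟩
        funext k
        rw [Pi.add_apply]
        by_cases hki : k = i
        · rw [hki, Pi.single_eq_same, Pi.single_eq_of_ne (Ne.symm hj), add_zero]
        · by_cases hkj : k = j
          · rw [hkj, Pi.single_eq_same, Pi.single_eq_of_ne hj, zero_add]
          · rw [Pi.single_eq_of_ne hki, Pi.single_eq_of_ne hkj, add_zero]
            by_contra hk0
            have hk16 := sq_ge_of_mod4 (h4 k) hk0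
            have := sq_three (x := x) (Ne.symm hj) (Ne.symm hki) (Ne.symm hkj)
            omega
      · right; left
        rw [hw'] at h5
        have h7 : ∑ i, (if i ∈ cls x 2 then x i ^ 2 - 4 else x i ^ 2) = 0 := by
          have h8 : ∑ i, (if i ∈ cls x 2 then x i ^ 2 - 4 else x i ^ 2) =
              sqNorm x - ∑ i, (if i ∈ cls x 2 then (4 : ℤ) else 0) := by
            rw [sqNorm, ← Finset.sum_sub_distrib]
            apply Finset.sum_congr rfl
            intro i _
            split <;> ring
          rw [h8, Finset.sum_ite_mem, Finset.univ_inter, Finset.sum_const, hw', hn]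
          norm_num
        have h8 : ∀ i, (if i ∈ cls x 2 then x i ^ 2 - 4 else x i ^ 2) = 0 := by
          have := (Finset.sum_eq_zero_iff_of_nonneg (fun i _ => ?_)).1 h7
          · exact fun i => this i (Finset.mem_univ i)
          · split
            · rename_i h
              have := sq_ge_of_mod2 (mem_cls.1 h)
              omega
            · exact sq_nonneg _
        have h9 : ∀ p ∈ cls x 2, x p = 2 ∨ x p = -2 := by
          intro p hp
          have := h8 p
          rw [if_pos hp] at this
          have h10 : x p ^ 2 = 4 := by omega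
          have h11 : x p ≤ 2 := by nlinarith
          have h12 : -2 ≤ x p := by nlinarith
          have := mem_cls.1 hp
          omega
        have h10 : ∀ p, p ∉ cls x 2 → x p = 0 := by
          intro p hp
          have := h8 p
          rw [if_neg hp] at this
          exact pow_eq_zero_iff (two_ne_zero) |>.1 this
        rw [mem_famB]
        refine ⟨cls x 2, ⟨h3, hw'⟩, h10, h9, ?_⟩
        rw [sum_on h10 (fun z => z) rfl] at h2
        have h11 : ∑ i ∈ cls x 2, x i = ∑ i ∈ cls x 2, ((if x i = 2 then (4 : ℤ) else 0) - 2) := by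
          apply Finset.sum_congr rfl
          intro i hi
          rcases h9 i hi with h | h
          · rw [h]; norm_num
          · rw [h]; norm_num
        rw [h11, Finset.sum_sub_distrib, ← Finset.sum_filter, Finset.sum_const, Finset.sum_const, hw'] at h2
        simp only [nsmul_eq_mul] at h2
        omega
    · right; right
      have hodd : ∀ i, ∃ k : ℤ, x i ^ 2 = 8 * k + 1 ∧ 0 ≤ k := by
        intro i
        obtain ⟨b, hb⟩ : ∃ b, x i = 2 * b + 1 := ⟨x i / 2, by have := h1 i; omega⟩
        have h4 : 0 ≤ b * (b + 1) := by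
          rcases le_or_gt 0 b with h | h
          · exact mul_nonneg h (by omega)
          · exact mul_nonneg_of_nonpos_of_nonpos h.le (by omega)
        obtain ⟨k, hk⟩ : ∃ k, b * (b + 1) = 2 * k := by
          rcases Int.emod_two_eq_zero_or_one b with h | h
          · exact ⟨b / 2 * (b + 1), by
              have : b = 2 * (b / 2) := by omega
              calc b * (b + 1) = (2 * (b / 2)) * (b + 1) := by rw [← this]
                _ = _ := by ring⟩
          · exact ⟨b * ((b + 1) / 2), by
              have : b + 1 = 2 * ((b + 1) / 2) := by omega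
              calc b * (b + 1) = b * (2 * ((b + 1) / 2)) := by rw [← this]
                _ = _ := by ring⟩
        refine ⟨k, ?_, by omega⟩
        rw [hb]
        have : (2 * b + 1) ^ 2 = 4 * (b * (b + 1)) + 1 := by ring
        rw [this, hk]; ring
      choose k hk hk0 using hodd
      have hsum : ∑ i, k i = 1 := by
        have h8 : (Finset.univ : Finset GolayPt).card = 24 := rfl
        have h4 : sqNorm x = 8 * ∑ i, k i + 24 := by
          rw [sqNorm, Finset.sum_congr rfl (fun i _ => hk i), Finset.sum_add_distrib, ← Finset.mul_sum,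
            Finset.sum_const, h8]
          norm_num
        omega
      obtain ⟨p, _, hp⟩ : ∃ p ∈ Finset.univ, 0 < k p := by
        apply Finset.exists_lt_of_sum_lt
        rw [hsum]
        simp
      have hp1 : ∀ q, q ≠ p → k q = 0 := by
        intro q hq
        have h4 : k p + k q ≤ ∑ i, k i := by
          have h7 : ∑ l ∈ ({p, q} : Finset GolayPt), k l = k p + k q := Finset.sum_pair (Ne.symm hq)
          rw [← h7]
          exact Finset.sum_le_sum_of_subset_of_nonneg (Finset.subset_univ _) fun k _ _ => hk0 _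
        have := hk0 q
        omega
      have hp2 : k p = 1 := by
        rw [← hsum, Finset.sum_eq_single p (fun q _ hq => hp1 q hq) (fun h => absurd (Finset.mem_univ p) h)]
      rw [mem_famC]
      refine ⟨cls x 1, h3, p, fun q => ?_⟩
      by_cases hq : q = p
      · subst hq
        rw [if_pos rfl]
        have h4 : x q ^ 2 = 9 := by rw [hk, hp2]; norm_num
        have h11 : x q ≤ 3 := by nlinarith
        have h12 : -3 ≤ x q := by nlinarith
        have h13 : x q = 3 ∨ x q = -3 := by
          have := h1 q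
          have h14 : x q = -3 ∨ x q = -1 ∨ x q = 1 ∨ x q = 3 := by omega
          rcases h14 with h | h | h | h
          · exact Or.inr h
          · rw [h] at h4; norm_num at h4
          · rw [h] at h4; norm_num at h4
          · exact Or.inl h
        rcases h13 with h | h
        · rw [if_neg (by rw [mem_cls, h]; norm_num), h]; norm_num
        · rw [if_pos (by rw [mem_cls, h]; norm_num), h]; norm_num
      · rw [if_neg hq]
        have h4 : x q ^ 2 = 1 := by rw [hk, hp1 q hq]; norm_num
        have h11 : x q ≤ 1 := by nlinarith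
        have h12 : -1 ≤ x q := by nlinarith
        have h13 : x q = 1 ∨ x q = -1 := by
          have := h1 q
          omega
        rcases h13 with h | h
        · rw [if_pos (by rw [mem_cls, h]; norm_num), h]; norm_num
        · rw [if_neg (by rw [mem_cls, h]; norm_num), h]; norm_num

end Cfsg.Agent.H7.L4
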