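import Mathlib
import Cfsg.Agent.H7_L4

set_option autoImplicit false

/-!
The enumeration of minimal vectors has no repetitions; computable versions of quantifiers and counts over it.
-/

namespace Cfsg.Agent.H7.L5

open Cfsg Cfsg.Agent.H7.Golay Cfsg.Agent.H7.Oct Cfsg.Agent.H7.L1 Cfsg.Agent.H7.L2 Cfsg.Agent.H7.L3 Cfsg.Agent.H7.L4

theorem u_same (i : ℕ) (a : ℤ) : u i a (pt i) = a := Pi.single_eq_same _ _

theorem u_ne {i j : ℕ} (hi : i < 24) (hj : j < 24) (h : j ≠ i) (a : ℤ) : u i a (pt j) = 0 :=
  Pi.single_eq_of_ne (fun h' => h ((pt_inj hj hi).1 h')) _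

theorem nodup_flatMap_of {α β γ : Type*} {l : List α} (hl : l.Nodup) (f : α → List β) (hf : ∀ a ∈ l, (f a).Nodup)
    (key : β → γ → Prop) (k : α → γ) (h1 : ∀ a ∈ l, ∀ b ∈ f a, key b (k a))
    (h2 : ∀ a ∈ l, ∀ a' ∈ l, ∀ b, key b (k a) → key b (k a') → a = a') : (l.flatMap f).Nodup := by
  rw [List.nodup_flatMap]
  refine ⟨hf, ?_⟩
  have hp : l.Pairwise (fun a a' => a ≠ a') := hl
  refine List.Pairwise.imp_of_mem ?_ hp
  intro a a' ha ha' hne
  show List.Disjoint (f a) (f a')
  intro b hb hb'
  exact hne (h2 a ha a' ha' b (h1 a ha b hb) (h1 a' ha' b hb'))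

theorem nodup_famA : famA.Nodup := by
  unfold famA
  refine nodup_flatMap_of List.nodup_range _ ?_ (fun x i => x (pt i) ≠ 0 ∧ ∀ k, i < k → k < 24 → x (pt k) = 0) id ?_ ?_
  · intro i hi
    rw [List.mem_range] at hi
    refine nodup_flatMap_of List.nodup_range _ ?_ (fun x j => x (pt j) ≠ 0 ∧ ∀ k < i, k ≠ j → x (pt k) = 0) id ?_ ?_
    · intro j hj
      rw [List.mem_range] at hj
      have e1 : ∀ a b : ℤ, (u i a + u j b) (pt i) = a := by
        intro a b
        rw [Pi.add_apply, u_same, u_ne (by omega) hi (by omega), add_zero]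
      have e2 : ∀ a b : ℤ, (u i a + u j b) (pt j) = b := by
        intro a b
        rw [Pi.add_apply, u_same, u_ne hi (by omega) (by omega), zero_add]
      have hne : ∀ a b a' b' : ℤ, (a ≠ a' ∨ b ≠ b') → u i a + u j b ≠ u i a' + u j b' := by
        intro a b a' b' h heq
        rcases h with h | h
        · have := congrFun heq (pt i)
          rw [e1, e1] at this
          exact h this
        · have := congrFun heq (pt j)
          rw [e2, e2] at this
          exact h this
      simp only [List.nodup_cons, List.mem_cons, List.not_mem_nil, or_false, not_or, not_false_eq_true,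
        List.nodup_nil, and_true]
      exact ⟨⟨hne _ _ _ _ (by norm_num), hne _ _ _ _ (by norm_num), hne _ _ _ _ (by norm_num)⟩,
        ⟨hne _ _ _ _ (by norm_num), hne _ _ _ _ (by norm_num)⟩, hne _ _ _ _ (by norm_num)⟩
    · intro j hj x hx
      rw [List.mem_range] at hj
      have key : ∀ a b : ℤ, b ≠ 0 → x = u i a + u j b → x (pt j) ≠ 0 ∧ ∀ k < i, k ≠ j → x (pt k) = 0 := by
        rintro a b hb rfl
        refine ⟨?_, fun k hk hkj => ?_⟩
        · rw [Pi.add_apply, u_same, u_ne hi (by omega) (by omega), zero_add]; exact hb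
        · rw [Pi.add_apply, u_ne hi (by omega) (by omega), u_ne (by omega) (by omega) hkj, add_zero]
      simp only [List.mem_cons, List.not_mem_nil, or_false] at hx
      rcases hx with h | h | h | h
      · exact key _ _ (by norm_num) h
      · exact key _ _ (by norm_num) h
      · exact key _ _ (by norm_num) h
      · exact key _ _ (by norm_num) h
    · rintro j hj j' hj' x ⟨h1, h2⟩ ⟨h3, h4⟩
      rw [List.mem_range] at hj hj'
      by_contra hne
      exact h1 (h4 j hj hne)
  · intro i hi x hx
    rw [List.mem_range] at hi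
    rw [List.mem_flatMap] at hx
    obtain ⟨j, hj, hx⟩ := hx
    rw [List.mem_range] at hj
    have key : ∀ a b : ℤ, a ≠ 0 → x = u i a + u j b → x (pt i) ≠ 0 ∧ ∀ k, i < k → k < 24 → x (pt k) = 0 := by
      rintro a b ha rfl
      refine ⟨?_, fun k hk hkj => ?_⟩
      · rw [Pi.add_apply, u_same, u_ne (by omega) hi (by omega), add_zero]; exact ha
      · rw [Pi.add_apply, u_ne hi (by omega) (by omega), u_ne (by omega) (by omega) (by omega), add_zero]
    simp only [List.mem_cons, List.not_mem_nil, or_false] at hx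
    rcases hx with h | h | h | h
    · exact key _ _ (by norm_num) h
    · exact key _ _ (by norm_num) h
    · exact key _ _ (by norm_num) h
    · exact key _ _ (by norm_num) h
  · rintro i hi i' hi' x ⟨h1, h2⟩ ⟨h3, h4⟩
    rw [List.mem_range] at hi hi'
    simp only [id] at *
    rcases lt_trichotomy i i' with h | h | h
    · exact absurd (h2 i' h hi') h3
    · exact h
    · exact absurd (h4 i h hi) h1

theorem cls_evV {m : ℕ} {x : GolayPt → ℤ} (h : x ∈ evV (pts m) (bs m) true) : cls x 2 = ofMask m := by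
  rw [mem_evV _ (nodup_pts m)] at h
  ext p
  rw [mem_cls]
  constructor
  · intro hp
    by_contra hpm
    have h1 := h.1 p (by rw [mem_pts]; exact hpm)
    rw [bs, if_neg hpm] at h1
    rw [h1] at hp
    omega
  · intro hp
    have h1 := h.2.1 p (by rw [mem_pts]; exact hp)
    rw [bs, if_pos hp] at h1
    omega

theorem nodup_famB : famB.Nodup := by
  unfold famB
  refine nodup_flatMap_of octL_nodup _ (fun m _ => nodup_evV _ (nodup_pts m) _ _) (fun x s => cls x 2 = s) ofMask ?_ ?_
  · intro m _ x hx
    exact cls_evV hx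
  · intro a ha b hb x h1 h2
    exact (ofMask_inj (octL_lt ha) (octL_lt hb)).1 (h1.symm.trans h2)

theorem cls_C {m : ℕ} {i : ℕ} : cls (eps m - u i (4 * eps m (pt i))) 1 = ofMask m := by
  ext p
  rw [mem_cls, Pi.sub_apply]
  by_cases hp : p = pt i
  · subst hp
    rw [u_same, eps]
    by_cases h : pt i ∈ ofMask m
    · rw [if_pos h]; simpa using h
    · rw [if_neg h]; simpa using h
  · have : u i (4 * eps m (pt i)) p = 0 := Pi.single_eq_of_ne hp _
    rw [this, eps]
    by_cases h : p ∈ ofMask m
    · rw [if_pos h]; simpa using h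
    · rw [if_neg h]; simpa using h

theorem nodup_famC : famC.Nodup := by
  unfold famC
  refine nodup_flatMap_of codeL_nodup _ ?_ (fun x s => cls x 1 = s) ofMask ?_ ?_
  · intro m _
    refine List.Nodup.map_on ?_ List.nodup_range
    intro i hi j hj h
    rw [List.mem_range] at hi hj
    by_contra hne
    have h1 := congrFun h (pt i)
    rw [Pi.sub_apply, Pi.sub_apply, u_same, u_ne hj hi hne] at h1
    have h2 : eps m (pt i) = 1 ∨ eps m (pt i) = -1 := by
      rw [eps]; split
      · exact Or.inl rfl
      · exact Or.inr rfl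
    omega
  · intro m _ x hx
    rw [List.mem_map] at hx
    obtain ⟨i, _, rfl⟩ := hx
    exact cls_C
  · intro a ha b hb x h1 h2
    exact (ofMask_inj (codeL_lt ha) (codeL_lt hb)).1 (h1.symm.trans h2)

theorem nodup_minV : minV.Nodup := by
  unfold minV
  refine List.Nodup.append nodup_famA (List.Nodup.append nodup_famB nodup_famC ?_) ?_
  · intro x hb hc
    have h1 := (famB_spec hb).1.1 (pt 0)
    have h2 := (famC_spec hc).1.1 (pt 0)
    omega
  · intro x ha h
    rcases List.mem_append.1 h with h | h
    · have h1 := (famA_spec ha).2.2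
      have h2 := (famB_spec h).2.2
      rw [h1] at h2
      have := h2.2
      rw [Finset.card_empty] at this
      omega
    · have h1 := (famA_spec ha).1.1 (pt 0)
      have h2 := (famC_spec h).1.1 (pt 0)
      omega

/-! ### computable quantifier and count -/

/-- four in a lane -/
def ln4 (i : ℕ) : ℕ := Nat.shiftLeft 4 (Nat.mul 16 i)

/-- lanes all equal to eight -/
def z0 : ℕ := 4809888602596411592251961864670007025873776061092905673969426218569707395620320208916062104815431832249225969672

/-- the codes of the even modifications -/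
def evC : List ℕ → ℕ → Bool → List ℕ
  | [], x, par => if par then [x] else []
  | p :: l, x, par => evC l x par ++ evC l (Nat.add x p) (!par)

/-- all codes of `evC` satisfy a test -/
def evAll (P : ℕ → Bool) : List ℕ → ℕ → Bool → Bool
  | [], x, par => if par then P x else true
  | p :: l, x, par => evAll P l x par && evAll P l (Nat.add x p) (!par)

/-- number of codes of `evC` satisfying a test -/
def evCnt (P : ℕ → Bool) : List ℕ → ℕ → Bool → ℕ
  | [], x, par => if par then (if P x then 1 else 0) else 0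
  | p :: l, x, par => Nat.add (evCnt P l x par) (evCnt P l (Nat.add x p) (!par))

theorem evAll_eq (P : ℕ → Bool) (l : List ℕ) (x : ℕ) (par : Bool) : evAll P l x par = (evC l x par).all P := by
  induction l generalizing x par with
  | nil => cases par <;> simp [evAll, evC]
  | cons p l ih => rw [evAll, evC, List.all_append, ih, ih]

theorem evCnt_eq (P : ℕ → Bool) (l : List ℕ) (x : ℕ) (par : Bool) : evCnt P l x par = (evC l x par).countP P := by
  induction l generalizing x par with
  | nil => cases par <;> simp [evCnt, evC, List.countP_cons, List.countP_nil]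
  | cons p l ih =>
    rw [evCnt, evC, List.countP_append, ih, ih]
    rfl

/-- lanes all equal to one -/
def ones : ℕ := 601236075324551449031495233083750878234222007636613209246178277321213424452540026114507763101928979031153246209

/-- spread the bits of a mask into lanes -/
def spread (m : ℕ) : ℕ :=
  Nat.add (Nat.shiftLeft (Nat.land m 1) 0) (Nat.add (Nat.shiftLeft (Nat.land m 2) 15) (Nat.add (Nat.shiftLeft
  (Nat.land m 4) 30) (Nat.add (Nat.shiftLeft (Nat.land m 8) 45) (Nat.add (Nat.shiftLeft (Nat.land m 16) 60)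
  (Nat.add (Nat.shiftLeft (Nat.land m 32) 75) (Nat.add (Nat.shiftLeft (Nat.land m 64) 90) (Nat.add
  (Nat.shiftLeft (Nat.land m 128) 105) (Nat.add (Nat.shiftLeft (Nat.land m 256) 120) (Nat.add (Nat.shiftLeft
  (Nat.land m 512) 135) (Nat.add (Nat.shiftLeft (Nat.land m 1024) 150) (Nat.add (Nat.shiftLeft (Nat.land m 2048)
  165) (Nat.add (Nat.shiftLeft (Nat.land m 4096) 180) (Nat.add (Nat.shiftLeft (Nat.land m 8192) 195) (Nat.add
  (Nat.shiftLeft (Nat.land m 16384) 210) (Nat.add (Nat.shiftLeft (Nat.land m 32768) 225) (Nat.add (Nat.shiftLeft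
  (Nat.land m 65536) 240) (Nat.add (Nat.shiftLeft (Nat.land m 131072) 255) (Nat.add (Nat.shiftLeft (Nat.land m
  262144) 270) (Nat.add (Nat.shiftLeft (Nat.land m 524288) 285) (Nat.add (Nat.shiftLeft (Nat.land m 1048576)
  300) (Nat.add (Nat.shiftLeft (Nat.land m 2097152) 315) (Nat.add (Nat.shiftLeft (Nat.land m 4194304) 330)
  (Nat.shiftLeft (Nat.land m 8388608) 345)))))))))))))))))))))))

/-- linear part of the encoding -/
def lin (x : GolayPt → ℤ) : ℤ := ∑ i ∈ Finset.range 24, x (pt i) * 65536 ^ i

theorem lin_add (x y : GolayPt → ℤ) : lin (x + y) = lin x + lin y := by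
  rw [lin, lin, lin, ← Finset.sum_add_distrib]
  apply Finset.sum_congr rfl
  intro i _
  rw [Pi.add_apply]; ring

theorem lin_sub (x y : GolayPt → ℤ) : lin (x - y) = lin x - lin y := by
  rw [lin, lin, lin, ← Finset.sum_sub_distrib]
  apply Finset.sum_congr rfl
  intro i _
  rw [Pi.sub_apply]; ring

theorem lin_u {i : ℕ} (hi : i < 24) (a : ℤ) : lin (u i a) = a * 65536 ^ i := by
  rw [lin, Finset.sum_eq_single i]
  · rw [u_same]
  · intro j hj hne
    rw [u_ne hi (Finset.mem_range.1 hj) hne, zero_mul]
  · intro h; exact absurd (Finset.mem_range.2 hi) h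

theorem z0_cast : (z0 : ℤ) = ∑ i ∈ Finset.range 24, 8 * 65536 ^ i := by
  have : z0 = ∑ i ∈ Finset.range 24, 8 * 65536 ^ i := by decide +kernel
  rw [this]
  push_cast
  rfl

theorem ones_cast : (ones : ℤ) = ∑ i ∈ Finset.range 24, 65536 ^ i := by
  have : ones = ∑ i ∈ Finset.range 24, 65536 ^ i := by decide +kernel
  rw [this]
  push_cast
  rfl

theorem enc_cast {x : GolayPt → ℤ} (h : ∀ p, -8 ≤ x p) : (encL x : ℤ) = z0 + lin x := by
  rw [encL, pk, z0_cast, lin, ← Finset.sum_add_distrib]
  push_cast
  apply Finset.sum_congr rfl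
  intro i _
  have h1 := h (pt i)
  have h2 : (((x (pt i) + 8).toNat : ℕ) : ℤ) = x (pt i) + 8 := by omega
  rw [h2]
  ring

theorem land_pow (m i : ℕ) : Nat.land m (2 ^ i) = if m.testBit i = true then 2 ^ i else 0 := by
  apply Nat.eq_of_testBit_eq
  intro j
  show (m &&& 2 ^ i).testBit j = _
  rw [Nat.testBit_and, Nat.testBit_two_pow]
  by_cases hij : i = j
  · subst hij
    cases h : m.testBit i <;> simp [Nat.testBit_two_pow_self]
  · have h1 : decide (i = j) = false := by simp [hij]
    rw [h1, Bool.and_false]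
    split
    · rw [Nat.testBit_two_pow_of_ne hij]
    · simp

theorem spread_term (m i : ℕ) (k l : ℕ) (hk : k = 2 ^ i) (hl : l = 15 * i) :
    ((Nat.shiftLeft (Nat.land m k) l : ℕ) : ℤ) = (if m.testBit i = true then 1 else 0) * 65536 ^ i := by
  subst hk hl
  have h1 : Nat.shiftLeft (Nat.land m (2 ^ i)) (15 * i) = Nat.land m (2 ^ i) * 2 ^ (15 * i) := Nat.shiftLeft_eq _ _
  rw [h1, land_pow]
  split
  · rw [← pow_add, show i + 15 * i = 16 * i by ring, pow_mul]
    push_cast
    norm_num
  · simp

theorem spread_cast (m : ℕ) : (spread m : ℤ) =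
    ∑ i ∈ Finset.range 24, (if m.testBit i = true then 1 else 0) * 65536 ^ i := by
  simp only [Finset.sum_range_succ, Finset.sum_range_zero, zero_add]
  unfold spread
  have cadd : ∀ a b : ℕ, ((Nat.add a b : ℕ) : ℤ) = (a : ℤ) + (b : ℤ) := fun a b => Nat.cast_add a b
  simp only [cadd]
  rw [spread_term m 0 1 0 (by norm_num) (by norm_num)]
  rw [spread_term m 1 2 15 (by norm_num) (by norm_num)]
  rw [spread_term m 2 4 30 (by norm_num) (by norm_num)]
  rw [spread_term m 3 8 45 (by norm_num) (by norm_num)]
  rw [spread_term m 4 16 60 (by norm_num) (by norm_num)]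
  rw [spread_term m 5 32 75 (by norm_num) (by norm_num)]
  rw [spread_term m 6 64 90 (by norm_num) (by norm_num)]
  rw [spread_term m 7 128 105 (by norm_num) (by norm_num)]
  rw [spread_term m 8 256 120 (by norm_num) (by norm_num)]
  rw [spread_term m 9 512 135 (by norm_num) (by norm_num)]
  rw [spread_term m 10 1024 150 (by norm_num) (by norm_num)]
  rw [spread_term m 11 2048 165 (by norm_num) (by norm_num)]
  rw [spread_term m 12 4096 180 (by norm_num) (by norm_num)]
  rw [spread_term m 13 8192 195 (by norm_num) (by norm_num)]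
  rw [spread_term m 14 16384 210 (by norm_num) (by norm_num)]
  rw [spread_term m 15 32768 225 (by norm_num) (by norm_num)]
  rw [spread_term m 16 65536 240 (by norm_num) (by norm_num)]
  rw [spread_term m 17 131072 255 (by norm_num) (by norm_num)]
  rw [spread_term m 18 262144 270 (by norm_num) (by norm_num)]
  rw [spread_term m 19 524288 285 (by norm_num) (by norm_num)]
  rw [spread_term m 20 1048576 300 (by norm_num) (by norm_num)]
  rw [spread_term m 21 2097152 315 (by norm_num) (by norm_num)]
  rw [spread_term m 22 4194304 330 (by norm_num) (by norm_num)]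
  rw [spread_term m 23 8388608 345 (by norm_num) (by norm_num)]
  ring

theorem lin_eps (m : ℕ) : lin (eps m) = 2 * spread m - ones := by
  rw [spread_cast, ones_cast, lin, Finset.mul_sum, ← Finset.sum_sub_distrib]
  apply Finset.sum_congr rfl
  intro i hi
  simp only [eps, mem_ofMask, ix_pt i (Finset.mem_range.1 hi)]
  split <;> ring

theorem lin_bs (m : ℕ) : lin (bs m) = -2 * spread m := by
  rw [spread_cast, lin, Finset.mul_sum]
  apply Finset.sum_congr rfl
  intro i hi
  simp only [bs, mem_ofMask, ix_pt i (Finset.mem_range.1 hi)]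
  split <;> ring

/-- a power of the lane base -/
def ln (i : ℕ) : ℕ := Nat.shiftLeft 1 (Nat.mul 16 i)

theorem ln_eq (i : ℕ) : ln i = 65536 ^ i := by
  have : ln i = 1 * 2 ^ (16 * i) := Nat.shiftLeft_eq _ _
  rw [this, one_mul, pow_mul]
  norm_num

theorem ln4_eq (i : ℕ) : ln4 i = 4 * 65536 ^ i := by
  have : ln4 i = 4 * 2 ^ (16 * i) := Nat.shiftLeft_eq _ _
  rw [this, pow_mul]
  norm_num

/-- the lanes of a mask -/
def lanes (m : ℕ) : List ℕ := ((List.range 24).filter fun i => m.testBit i).map ln4

theorem evC_eq (l : List ℕ) (hl : ∀ i ∈ l, i < 24) (x : GolayPt → ℤ) (hx : ∀ p, -8 ≤ x p) (par : Bool) :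
    evC (l.map ln4) (encL x) par = (evV (l.map pt) x par).map encL := by
  induction l generalizing x par with
  | nil => cases par <;> simp [evC, evV]
  | cons i l ih =>
    simp only [List.map_cons, evC, evV, List.map_append]
    have hx' : ∀ p, -8 ≤ (x + Pi.single (pt i) 4 : GolayPt → ℤ) p := by
      intro p
      rw [Pi.add_apply]
      have := hx p
      have h2 := single_cases (pt i) 4 p
      omega
    have h1 : Nat.add (encL x) (ln4 i) = encL (x + Pi.single (pt i) 4) := by
      have h2 := enc_cast hx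
      have h3 := enc_cast hx'
      rw [lin_add, show lin (Pi.single (pt i) 4 : GolayPt → ℤ) = 4 * 65536 ^ i from lin_u (hl i (by simp)) 4] at h3
      have h4 : ((encL x + ln4 i : ℕ) : ℤ) = (encL (x + Pi.single (pt i) 4) : ℤ) := by
        push_cast
        rw [ln4_eq, h2, h3]
        push_cast
        ring
      exact_mod_cast h4
    rw [h1, ih (fun i hi => hl i (List.mem_cons_of_mem _ hi)) x hx,
      ih (fun i hi => hl i (List.mem_cons_of_mem _ hi)) _ hx']

/-- code of a vector of family A -/
def cA (i j s t : ℕ) : ℕ :=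
  Nat.add (Nat.sub (Nat.sub z0 (ln4 i)) (ln4 j)) (Nat.add (Nat.mul s (ln4 i)) (Nat.mul t (ln4 j)))

theorem cA_eq {i j : ℕ} (hi : i < 24) (hj : j < i) (s t : ℕ) (hs : s ≤ 2) (ht : t ≤ 2) :
    cA i j s t = encL (u i (4 * s - 4) + u j (4 * t - 4)) := by
  have hb : ∀ p, -8 ≤ (u i (4 * s - 4) + u j (4 * t - 4) : GolayPt → ℤ) p := by
    intro p
    rw [Pi.add_apply]
    have h1 := single_cases (pt i) (4 * s - 4) p
    have h2 := single_cases (pt j) (4 * t - 4) p
    rw [← u] at h1 h2
    omega
  have h3 := enc_cast hb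
  rw [lin_add, lin_u hi, lin_u (by omega)] at h3
  have h4 : ln4 i + ln4 j ≤ z0 := by
    have h5 : (ln4 i : ℤ) + (ln4 j : ℤ) ≤ (z0 : ℤ) := by
      rw [ln4_eq, ln4_eq, z0_cast]
      push_cast
      have h6 : ∑ k ∈ ({i, j} : Finset ℕ), (8 * 65536 ^ k : ℤ) ≤ ∑ k ∈ Finset.range 24, 8 * 65536 ^ k := by
        apply Finset.sum_le_sum_of_subset_of_nonneg
        · intro k hk
          rw [Finset.mem_insert, Finset.mem_singleton] at hk
          rw [Finset.mem_range]; omega
        · intro k _ _; positivity
      rw [Finset.sum_pair (by omega)] at h6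
      have h7 : (0 : ℤ) ≤ 65536 ^ i := by positivity
      have h8 : (0 : ℤ) ≤ 65536 ^ j := by positivity
      linarith
    exact_mod_cast h5
  have h5 : ((cA i j s t : ℕ) : ℤ) = (encL (u i (4 * s - 4) + u j (4 * t - 4)) : ℤ) := by
    rw [h3]
    have h6 : cA i j s t = z0 - ln4 i - ln4 j + (s * ln4 i + t * ln4 j) := rfl
    rw [h6, Nat.sub_sub]
    push_cast [Nat.cast_sub h4]
    rw [ln4_eq, ln4_eq]
    push_cast
    ring
  exact_mod_cast h5

theorem cB_eq {m : ℕ} : Nat.sub z0 (Nat.mul 2 (spread m)) = encL (bs m) := by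
  have hb : ∀ p, -8 ≤ bs m p := by
    intro p
    rw [bs]; split <;> norm_num
  have h3 := enc_cast hb
  rw [lin_bs] at h3
  have h5 : Nat.sub z0 (Nat.mul 2 (spread m)) = z0 - 2 * spread m := rfl
  rw [h5]
  omega

theorem cC_eq (m : ℕ) : Nat.add (Nat.sub z0 ones) (Nat.mul 2 (spread m)) = encL (eps m) := by
  have hb : ∀ p, -8 ≤ eps m p := by
    intro p
    rw [eps]; split <;> norm_num
  have h3 := enc_cast hb
  rw [lin_eps] at h3
  have h5 : Nat.add (Nat.sub z0 ones) (Nat.mul 2 (spread m)) = z0 - ones + 2 * spread m := rfl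
  have h6 : ones ≤ z0 := by decide +kernel
  rw [h5]
  omega

/-- the code after changing the coordinate `i` of `eps m` to minus three times itself -/
def cC (m b i : ℕ) : ℕ := bif m.testBit i then Nat.sub b (ln4 i) else Nat.add b (ln4 i)

theorem cC_spec (m i : ℕ) (hi : i < 24) : cC m (encL (eps m)) i = encL (eps m - u i (4 * eps m (pt i))) := by
  have hb : ∀ p, -8 ≤ eps m p := by
    intro p
    rw [eps]; split <;> norm_num
  have hb' : ∀ p, -8 ≤ (eps m - u i (4 * eps m (pt i)) : GolayPt → ℤ) p := by
    intro p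
    rw [Pi.sub_apply]
    have h1 := single_cases (pt i) (4 * eps m (pt i)) p
    rw [← u] at h1
    have h2 : ∀ q, eps m q = 1 ∨ eps m q = -1 := by
      intro q; rw [eps]; split
      · exact Or.inl rfl
      · exact Or.inr rfl
    have h3 := h2 p
    have h4 := h2 (pt i)
    omega
  have h3 := enc_cast hb
  have h4 := enc_cast hb'
  rw [lin_sub, lin_u hi] at h4
  have h5 : eps m (pt i) = if m.testBit i = true then 1 else -1 := by
    simp only [eps, mem_ofMask, ix_pt i hi]
  have h6 := ln4_eq i
  rw [cC]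
  cases hbit : m.testBit i
  · rw [hbit] at h5
    simp only [Bool.false_eq_true, if_false] at h5
    rw [h5] at h4 ⊢
    have h9 : (ln4 i : ℤ) = 4 * 65536 ^ i := by rw [h6]; push_cast; ring
    show encL (eps m) + ln4 i = encL (eps m - u i (4 * -1))
    omega
  · rw [hbit] at h5
    simp only [if_true] at h5
    rw [h5] at h4 ⊢
    have h8 : (0 : ℤ) ≤ (encL (eps m - u i (4 * 1)) : ℤ) := Int.natCast_nonneg _
    show encL (eps m) - ln4 i = encL (eps m - u i (4 * 1))
    have h9 : (ln4 i : ℤ) = 4 * 65536 ^ i := by rw [h6]; push_cast; ring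
    omega

/-- all minimal vectors satisfy a test -/
def allA (P : ℕ → Bool) : Bool := (List.range 24).all fun i => (List.range i).all fun j =>
  P (cA i j 2 2) && (P (cA i j 2 0) && (P (cA i j 0 2) && P (cA i j 0 0)))

/-- all minimal vectors in a list of octads satisfy a test -/
def allB (l : List ℕ) (P : ℕ → Bool) : Bool := l.all fun m => evAll P (lanes m) (Nat.sub z0 (Nat.mul 2 (spread m))) true

/-- all minimal vectors in a list of code words satisfy a test -/
def allC (l : List ℕ) (P : ℕ → Bool) : Bool := l.all fun m =>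
  (List.range 24).all fun i => P (cC m (Nat.add (Nat.sub z0 ones) (Nat.mul 2 (spread m))) i)

theorem allA_iff (P : ℕ → Bool) : allA P = true ↔ ∀ x ∈ famA, P (encL x) = true := by
  have e1 : ∀ i j : ℕ, i < 24 → j < i → cA i j 2 2 = encL (u i 4 + u j 4) := fun i j hi hj => by
    rw [cA_eq hi hj _ _ (by norm_num) (by norm_num)]; norm_num
  have e2 : ∀ i j : ℕ, i < 24 → j < i → cA i j 2 0 = encL (u i 4 + u j (-4)) := fun i j hi hj => by
    rw [cA_eq hi hj _ _ (by norm_num) (by norm_num)]; norm_num
  have e3 : ∀ i j : ℕ, i < 24 → j < i → cA i j 0 2 = encL (u i (-4) + u j 4) := fun i j hi hj => by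
    rw [cA_eq hi hj _ _ (by norm_num) (by norm_num)]; norm_num
  have e4 : ∀ i j : ℕ, i < 24 → j < i → cA i j 0 0 = encL (u i (-4) + u j (-4)) := fun i j hi hj => by
    rw [cA_eq hi hj _ _ (by norm_num) (by norm_num)]; norm_num
  simp only [allA, famA, List.all_eq_true, List.mem_flatMap, List.mem_range, Bool.and_eq_true, List.mem_cons,
    List.not_mem_nil, or_false]
  constructor
  · rintro h x ⟨i, hi, j, hj, hx⟩
    obtain ⟨h1, h2, h3, h4⟩ := h i hi j hj
    rw [e1 i j hi hj] at h1
    rw [e2 i j hi hj] at h2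
    rw [e3 i j hi hj] at h3
    rw [e4 i j hi hj] at h4
    rcases hx with rfl | rfl | rfl | rfl
    · exact h1
    · exact h2
    · exact h3
    · exact h4
  · intro h i hi j hj
    rw [e1 i j hi hj, e2 i j hi hj, e3 i j hi hj, e4 i j hi hj]
    exact ⟨h (u i 4 + u j 4) ⟨i, hi, j, hj, Or.inl rfl⟩, h (u i 4 + u j (-4)) ⟨i, hi, j, hj, Or.inr (Or.inl rfl)⟩,
      h (u i (-4) + u j 4) ⟨i, hi, j, hj, Or.inr (Or.inr (Or.inl rfl))⟩,
      h (u i (-4) + u j (-4)) ⟨i, hi, j, hj, Or.inr (Or.inr (Or.inr rfl))⟩⟩

theorem evC_mask (m : ℕ) : evC (lanes m) (Nat.sub z0 (Nat.mul 2 (spread m))) true = (evV (pts m) (bs m) true).map encL := by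
  rw [cB_eq]
  exact evC_eq _ (fun i hi => List.mem_range.1 (List.mem_filter.1 hi).1) _ (fun p => by rw [bs]; split <;> norm_num) _

theorem allB_iff (P : ℕ → Bool) (l : List ℕ) :
    allB l P = true ↔ ∀ m ∈ l, ∀ x ∈ evV (pts m) (bs m) true, P (encL x) = true := by
  rw [allB, List.all_eq_true]
  refine forall_congr' fun m => forall_congr' fun _ => ?_
  rw [evAll_eq, evC_mask, List.all_eq_true]
  simp

theorem allC_iff (P : ℕ → Bool) (l : List ℕ) :
    allC l P = true ↔ ∀ m ∈ l, ∀ i < 24, P (encL (eps m - u i (4 * eps m (pt i)))) = true := by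
  rw [allC, List.all_eq_true]
  refine forall_congr' fun m => forall_congr' fun _ => ?_
  rw [List.all_eq_true]
  constructor
  · intro h i hi
    have := h i (List.mem_range.2 hi)
    rwa [cC_eq, cC_spec m i hi] at this
  · intro h i hi
    have hi := List.mem_range.1 hi
    rw [cC_eq, cC_spec m i hi]
    exact h i hi

/-- test all minimal vectors -/
theorem all_min (P : ℕ → Bool) (hA : allA P = true) (hB : allB octL P = true) (hC : allC codeL P = true)
    {x : GolayPt → ℤ} (hx : x ∈ leechLattice) (hn : sqNorm x = 32) : P (encL x) = true := by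
  have h := mem_minV.2 ⟨hx, hn⟩
  rw [minV, List.mem_append, List.mem_append] at h
  rcases h with h | h | h
  · exact (allA_iff P).1 hA x h
  · rw [famB, List.mem_flatMap] at h
    obtain ⟨m, hm, h⟩ := h
    exact (allB_iff P _).1 hB m hm x h
  · rw [famC, List.mem_flatMap] at h
    obtain ⟨m, hm, h⟩ := h
    rw [List.mem_map] at h
    obtain ⟨i, hi, rfl⟩ := h
    exact (allC_iff P _).1 hC m hm i (List.mem_range.1 hi)

/-! ### counts -/

/-- number of family A vectors satisfying a test -/
def cntA (P : ℕ → Bool) : ℕ := ((List.range 24).map fun i => ((List.range i).map fun j =>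
  Nat.add (bif P (cA i j 2 2) then 1 else 0) (Nat.add (bif P (cA i j 2 0) then 1 else 0)
    (Nat.add (bif P (cA i j 0 2) then 1 else 0) (bif P (cA i j 0 0) then 1 else 0)))).sum).sum

/-- number of family B vectors over a list of octads satisfying a test -/
def cntB (l : List ℕ) (P : ℕ → Bool) : ℕ :=
  (l.map fun m => evCnt P (lanes m) (Nat.sub z0 (Nat.mul 2 (spread m))) true).sum

/-- number of family C vectors over a list of code words satisfying a test -/
def cntC (l : List ℕ) (P : ℕ → Bool) : ℕ := (l.map fun m =>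
  (List.range 24).countP fun i => P (cC m (Nat.add (Nat.sub z0 ones) (Nat.mul 2 (spread m))) i)).sum

theorem cntA_eq (P : ℕ → Bool) : cntA P = famA.countP (fun x => P (encL x)) := by
  rw [cntA, famA, List.countP_flatMap]
  refine congrArg List.sum (List.map_congr_left ?_)
  intro i hi
  rw [List.mem_range] at hi
  rw [Function.comp, List.countP_flatMap]
  refine congrArg List.sum (List.map_congr_left ?_)
  intro j hj
  rw [List.mem_range] at hj
  have e1 : cA i j 2 2 = encL (u i 4 + u j 4) := by
    rw [cA_eq hi hj _ _ (by norm_num) (by norm_num)]; norm_num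
  have e2 : cA i j 2 0 = encL (u i 4 + u j (-4)) := by
    rw [cA_eq hi hj _ _ (by norm_num) (by norm_num)]; norm_num
  have e3 : cA i j 0 2 = encL (u i (-4) + u j 4) := by
    rw [cA_eq hi hj _ _ (by norm_num) (by norm_num)]; norm_num
  have e4 : cA i j 0 0 = encL (u i (-4) + u j (-4)) := by
    rw [cA_eq hi hj _ _ (by norm_num) (by norm_num)]; norm_num
  rw [Function.comp, e1, e2, e3, e4]
  simp only [List.countP_cons, List.countP_nil]
  have hb : ∀ b : Bool, (bif b then 1 else 0 : ℕ) = if b = true then 1 else 0 := by decide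
  simp only [hb, Nat.add_eq]
  ring

theorem cntB_eq (P : ℕ → Bool) (l : List ℕ) :
    cntB l P = (l.flatMap fun m => evV (pts m) (bs m) true).countP (fun x => P (encL x)) := by
  rw [cntB, List.countP_flatMap]
  refine congrArg List.sum (List.map_congr_left ?_)
  intro m _
  rw [evCnt_eq, evC_mask, List.countP_map]
  rfl

theorem cntC_eq (P : ℕ → Bool) (l : List ℕ) :
    cntC l P = (l.flatMap fun m => (List.range 24).map fun i => eps m - u i (4 * eps m (pt i))).countP
      (fun x => P (encL x)) := by
  rw [cntC, List.countP_flatMap]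
  refine congrArg List.sum (List.map_congr_left ?_)
  intro m _
  rw [Function.comp, List.countP_map]
  apply List.countP_congr
  intro i hi
  have e : cC m (Nat.add (Nat.sub z0 ones) (Nat.mul 2 (spread m))) i = encL (eps m - u i (4 * eps m (pt i))) := by
    rw [cC_eq, cC_spec m i (List.mem_range.1 hi)]
  show P (cC m (Nat.add (Nat.sub z0 ones) (Nat.mul 2 (spread m))) i) = true ↔
    P (encL (eps m - u i (4 * eps m (pt i)))) = true
  rw [e]

theorem countP_append_list (l l' : List ℕ) (P : ℕ → Bool) : cntB (l ++ l') P = cntB l P + cntB l' P := by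
  simp [cntB]

/-- the number of minimal vectors satisfying a test -/
theorem count_min (P : ℕ → Bool) (Q : (GolayPt → ℤ) → Prop)
    (h : ∀ x, x ∈ leechLattice → sqNorm x = 32 → (P (encL x) = true ↔ Q x)) :
    {x : GolayPt → ℤ | x ∈ leechLattice ∧ sqNorm x = 32 ∧ Q x}.ncard = cntA P + (cntB octL P + cntC codeL P) := by
  classical
  rw [cntA_eq, cntB_eq, cntC_eq]
  have h1 : {x : GolayPt → ℤ | x ∈ leechLattice ∧ sqNorm x = 32 ∧ Q x} =
      ((minV.filter (fun x => P (encL x))).toFinset : Set (GolayPt → ℤ)) := by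
    ext x
    rw [Finset.mem_coe, List.mem_toFinset, List.mem_filter, mem_minV, Set.mem_ofPred_eq]
    constructor
    · rintro ⟨a, b, c⟩; exact ⟨⟨a, b⟩, (h x a b).2 c⟩
    · rintro ⟨⟨a, b⟩, c⟩; exact ⟨a, b, (h x a b).1 c⟩
  rw [h1, Set.ncard_coe_finset, List.toFinset_card_of_nodup (nodup_minV.filter _), ← List.countP_eq_length_filter,
    minV, List.countP_append, List.countP_append]
  rfl

end Cfsg.Agent.H7.L5
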