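import Mathlib
import Cfsg.Agent.H7_L5
import Cfsg.Agent.H7_M24b

set_option autoImplicit false

/-!
Generators of the Leech lattice, membership test for packed codes, and elements of `Co0` from integer matrices.
-/

namespace Cfsg.Agent.H7.L6

open Cfsg Cfsg.Agent.H7.Golay Cfsg.Agent.H7.Oct Cfsg.Agent.H7.L1 Cfsg.Agent.H7.L2 Cfsg.Agent.H7.L3 Cfsg.Agent.H7.L4
  Cfsg.Agent.H7.L5 Cfsg.Agent.H7.M24b

/-! ### decoding -/

theorem dec_add_eight_nonneg (m : ℕ) (p : GolayPt) : -8 ≤ dec m p := by
  rw [dec]
  have : (0 : ℤ) ≤ (dg m (ix p) : ℤ) := Int.natCast_nonneg _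
  omega

/-- a code with small lanes -/
def okc (m : ℕ) : Bool := Nat.blt m 39402006196394479212279040100143613805079739270465446667948293404245721771497210611414266254884915640806627990306816 && (List.range 24).all fun i => Nat.ble (dg m i) 16

theorem encL_dec {m : ℕ} (h : m < 65536 ^ 24) : encL (dec m) = m := by
  conv_rhs => rw [← pk_of_digits m 24 h]
  rw [encL]
  apply pk_congr
  intro i hi
  rw [dec, ix_pt i hi, dg_eq]
  omega

theorem okc_spec {m : ℕ} (h : okc m = true) : encL (dec m) = m ∧ Bd (dec m) := by
  rw [okc, Bool.and_eq_true] at h
  have h1 : m < 39402006196394479212279040100143613805079739270465446667948293404245721771497210611414266254884915640806627990306816 := H7.M24.blt_lt h.1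
  have h2 : (65536 : ℕ) ^ 24 = 39402006196394479212279040100143613805079739270465446667948293404245721771497210611414266254884915640806627990306816 := by decide +kernel
  refine ⟨encL_dec (by rw [h2]; exact h1), fun p => ⟨dec_add_eight_nonneg m p, ?_⟩⟩
  have h3 := List.all_eq_true.1 h.2 (ix p) (List.mem_range.2 (ix_lt p))
  have h4 := Nat.le_of_ble_eq_true h3
  rw [dec]
  omega

/-! ### membership test -/

/-- mask of the lanes satisfying a test -/
def bitsL (t : ℕ → Bool) : ℕ → ℕ
  | 0 => 0
  | n + 1 => Nat.add (bitsL t n) (bif t n then Nat.shiftLeft 1 n else 0)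

theorem bitsL_spec (t : ℕ → Bool) (n : ℕ) : bitsL t n < 2 ^ n ∧ ∀ i, (bitsL t n).testBit i = (decide (i < n) && t i) := by
  induction n with
  | zero => exact ⟨by norm_num [bitsL], fun i => by simp [bitsL]⟩
  | succ n ih =>
    have h2 : Nat.shiftLeft 1 n = 2 ^ n := Nat.one_shiftLeft n
    have h1 : bitsL t (n + 1) = bitsL t n + (bif t n then 2 ^ n else 0) := by
      rw [bitsL, h2]; rfl
    refine ⟨?_, fun i => ?_⟩
    · rw [h1, pow_succ]
      have := ih.1
      cases t n <;> simp <;> omega
    · rw [h1]
      cases ht : t n
      · rw [cond_false, add_zero, ih.2]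
        by_cases hi : i < n
        · have : i < n + 1 := by omega
          simp [hi, this]
        · by_cases hin : i = n
          · subst hin; simp [ht]
          · have : ¬ i < n + 1 := by omega
            simp [hi, this]
      · rw [cond_true, add_comm]
        have e : 2 ^ n + bitsL t n = bitsL t n ||| 2 ^ n := by
          rw [← mul_one (2 ^ n), Nat.or_comm, Nat.two_pow_add_eq_or_of_lt ih.1]
        rw [e, Nat.testBit_or, ih.2, Nat.testBit_two_pow]
        by_cases hi : i < n
        · have h3 : i < n + 1 := by omega
          have h4 : n ≠ i := by omega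
          simp [hi, h3, h4]
        · by_cases hin : i = n
          · subst hin; simp [ht]
          · have h3 : ¬ i < n + 1 := by omega
            have h4 : n ≠ i := by omega
            simp [hi, h3, h4]

/-- membership test for the lattice -/
def isLeech (m : ℕ) : Bool :=
  (((List.range 24).all fun i => Nat.beq (Nat.land (dg m i) 1) 0) && Nat.beq (Nat.land (tot m) 7) 0 &&
    isCode (bitsL (fun i => Nat.beq (Nat.land (dg m i) 3) 2) 24)) ||
  (((List.range 24).all fun i => Nat.beq (Nat.land (dg m i) 1) 1) && Nat.beq (Nat.land (tot m) 7) 4 &&
    isCode (bitsL (fun i => Nat.beq (Nat.land (dg m i) 3) 1) 24))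

theorem land_mod (a k : ℕ) (n : ℕ) (h : n = 2 ^ k - 1) : Nat.land a n = a % 2 ^ k := by
  subst h; exact Nat.and_two_pow_sub_one_eq_mod _ _

theorem bitsL_cls {m : ℕ} (k : ℕ) (hk : k < 4) : ofMask (bitsL (fun i => Nat.beq (Nat.land (dg m i) 3) k) 24) =
    cls (dec m) k := by
  ext p
  rw [mem_ofMask, (bitsL_spec _ _).2, mem_cls, dec]
  have h1 : Nat.land (dg m (ix p)) 3 = dg m (ix p) % 4 := land_mod _ 2 3 (by norm_num)
  rw [h1]
  have h2 := ix_lt p
  simp only [h2, decide_true, Bool.true_and]
  constructor
  · intro h
    have := Nat.eq_of_beq_eq_true h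
    omega
  · intro h
    have : dg m (ix p) % 4 = k := by omega
    rw [this]; exact Nat.beq_refl _

theorem isLeech_spec {m : ℕ} (hok : okc m = true) (h : isLeech m = true) : dec m ∈ leechLattice := by
  obtain ⟨hed, hbd⟩ := okc_spec hok
  have htot := tot_enc hbd
  rw [hed] at htot
  have hlt : ∀ t, bitsL t 24 < 16777216 := fun t => by simpa using (bitsL_spec t 24).1
  rw [isLeech, Bool.or_eq_true] at h
  rw [mem_leech_iff]
  rcases h with h | h
  · left
    rw [Bool.and_eq_true, Bool.and_eq_true] at h
    refine ⟨fun p => ?_, ?_, ?_⟩
    · have h1 := Nat.eq_of_beq_eq_true (List.all_eq_true.1 h.1.1 (ix p) (List.mem_range.2 (ix_lt p)))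
      have h2 : Nat.land (dg m (ix p)) 1 = dg m (ix p) % 2 := land_mod _ 1 1 (by norm_num)
      rw [h2] at h1
      rw [dec]
      omega
    · have h1 := Nat.eq_of_beq_eq_true h.1.2
      have h2 : Nat.land (tot m) 7 = tot m % 8 := land_mod _ 3 7 (by norm_num)
      rw [h2] at h1
      omega
    · have h1 := bitsL_cls (m := m) 2 (by norm_num)
      push_cast at h1
      rw [← h1]
      exact (ofMask_mem_supports (hlt _)).2 (mem_codeL_iff.2 h.2)
  · right
    rw [Bool.and_eq_true, Bool.and_eq_true] at h
    refine ⟨fun p => ?_, ?_, ?_⟩
    · have h1 := Nat.eq_of_beq_eq_true (List.all_eq_true.1 h.1.1 (ix p) (List.mem_range.2 (ix_lt p)))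
      have h2 : Nat.land (dg m (ix p)) 1 = dg m (ix p) % 2 := land_mod _ 1 1 (by norm_num)
      rw [h2] at h1
      rw [dec]
      omega
    · have h1 := Nat.eq_of_beq_eq_true h.1.2
      have h2 : Nat.land (tot m) 7 = tot m % 8 := land_mod _ 3 7 (by norm_num)
      rw [h2] at h1
      omega
    · have h1 := bitsL_cls (m := m) 1 (by norm_num)
      push_cast at h1
      rw [← h1]
      exact (ofMask_mem_supports (hlt _)).2 (mem_codeL_iff.2 h.2)


/-! ### generators of the lattice -/

/-- two on a set -/
def tw (m : ℕ) : GolayPt → ℤ := fun p => if p ∈ ofMask m then 2 else 0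

/-- the vector with coordinates -3, 1, ..., 1 -/
def v0 : GolayPt → ℤ := fun p => if p = pt 0 then -3 else 1

/-- generators of the lattice -/
def genV : List (GolayPt → ℤ) := ((List.range 23).map fun i => u i 4 + u (i + 1) (-4)) ++
  ((u 0 4 + u 1 4) :: (octGens.map tw ++ [v0]))

/-- codes of the generators of the lattice -/
def genC : List ℕ := [
  4809888602596411592251961864670007025873776061092905673969426218569707395620320208916062104815431832249225707532,
  4809888602596411592251961864670007025873776061092905673969426218569707395620320208916062104815431832232046362632,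
  4809888602596411592251961864670007025873776061092905673969426218569707395620320208916062104815430706366498996232,
  4809888602596411592251961864670007025873776061092905673969426218569707395620320208916062104741645981854294605832,
  4809888602596411592251961864670007025873776061092905673969426218569707395620320208916057269185940350027365351432,
  4809888602596411592251961864670007025873776061092905673969426218569707395620320208599154290461652940391748993032,
  4809888602596411592251961864670007025873776061092905673969426218569707395620299440045540615561975060638084890632,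
  4809888602596411592251961864670007025873776061092905673969426218569707394259211510419742390272447524507470004232,
  4809888602596411592251961864670007025873776061092905673969426218569618194000655554107249815795839668530274893832,
  4809888602596411592251961864670007025873776061092905673969426212723790049277502658593888916823390347071519719432,
  4809888602596411592251961864670007025873776061092905673969043100530497472729342294974013858384659226092410241032,
  4809888602596411592251961864670007025873776061092905648861402400908200812491752102842184017701914739173633818632,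
  4809888602596411592251961864670007025873776061091260194520511954074275481780920551241745033359220030242015412232,
  4809888602596411592251961864670007025873775953254764509924188245943802016724354864872467150518775487698133581832,
  4809888602596411592251961864670007025866708780673578805253652207234796069635532967877137319145235331858496487432,
  4809888602596411592251961864670006562712486500087237517003819373821047656603691481941308422817582225401877889032,
  4809888602596411592251961864639653287601105993624570775959248770405051201840069191458758693743597484445413146632,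
  4809888602596411592251959875407415588168234456297029678980183299661391813089640127079714101079614161572055220232,
  4809888602596411592121593551477545555499164158563698058945492643199690664970476982013289274268566333186990669832,
  4809888602596403048434188483515084555308131906942647465458630769153247527494601908795839385438085289596615655432,
  4809888602036483950655654495670976035818489669770952710478853261455789908545803529999924991032412550779671937032,
  4809851907178491936652227144175042762624834385583490355780108800873274480095250760954173220863801443556142874632,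
  2405017693813862208037319506692050743232129876050612818863140065142155544668978578566163450766278442355509428232,
  4809888602596411592251961864670007025873776061092905673969426218569707395620320208916062104815431832249226231820,
  4809888602596411592251961864670007025873776061092905686523629692266072197953715276332481672144859872587781111818,
  4809888602596411592251961864670007025873776061093728426248278383533393116999458411388826606211483459799021649928,
  4809888602596411592251961864670007025873776115012799008270705810826785445811794838596179499301113095929419399178,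
  4809888602596411592251961864670007025877309755222462442628784378436804744101650925089627118422728377405822074888,
  4809888602596411592251961864670007257457954535725296521111587800811179215100351965071113636211306229511590903818,
  4809888602596411592251961864685184126594289569459463970116676521970504036648117288144238236894805002439056949258,
  4809888602596411592251962859316479845447060371857401967611106419482008990996330208438068630596600600576152567818,
  4809888602596411592317147015912710580634366323122005775123073207167061957811648883135735699491832905710762065928,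
  4809888602596415864226033706490171815917188400197134879378470934798295166536313869444762817436182207478830202888,
  4809888602876379685024187390989687310944831595858111361123948975297862146180856617845964418312022879592254013448,
  4809906950585339512824054751237169442569302433612819020218607681223075328601020771577659850076883590513634705418,
  6012342404976614204931375930226147583890125526133965447771750760859809927248100361913698188986013182505161064458,
  5411124677920963041283457097753757904107998068729518883215604495890920820072860235030569867917360811280379215877]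

theorem genC_eq : genV.map encL = genC := by decide +kernel

theorem sub_single_mem {A : AddSubgroup (GolayPt → ℤ)} (h : ∀ i < 23, u i 4 + u (i + 1) (-4) ∈ A) (i : ℕ) (hi : i < 24) :
    u 0 4 - u i 4 ∈ A := by
  induction i with
  | zero => rw [sub_self]; exact zero_mem A
  | succ i ih =>
    have h1 := ih (by omega)
    have h2 := h i (by omega)
    have h3 : u 0 4 - u (i + 1) 4 = (u 0 4 - u i 4) + (u i 4 + u (i + 1) (-4)) := by
      have : u (i + 1) (-4) = - u (i + 1) 4 := by rw [u, u, ← Pi.single_neg]
      rw [this]; abel
    rw [h3]
    exact add_mem h1 h2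

theorem single_smul (i : ℕ) (b : ℤ) : b • u i 4 = u i (4 * b) := by
  rw [u, u, ← Pi.single_zsmul, smul_eq_mul, mul_comm]

theorem mem_of_mod4 {A : AddSubgroup (GolayPt → ℤ)} (h : ∀ i < 23, u i 4 + u (i + 1) (-4) ∈ A) (h' : u 0 4 + u 1 4 ∈ A)
    {x : GolayPt → ℤ} (hx : ∀ i, x i % 4 = 0) (hs : (∑ i, x i) % 8 = 0) : x ∈ A := by
  have h8 : u 0 8 ∈ A := by
    have h1 := sub_single_mem h 1 (by norm_num)
    have h2 := add_mem h1 h'
    have h3 : u 0 4 - u 1 4 + (u 0 4 + u 1 4) = u 0 8 := by
      have : u 0 8 = u 0 4 + u 0 4 := by
        rw [u, u, ← Pi.single_add]; norm_num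
      rw [this]; abel
    rwa [h3] at h2
  obtain ⟨k, hk⟩ : ∃ k, ∑ i, x i = 8 * k := ⟨(∑ i, x i) / 8, by omega⟩
  have hx2 : x = ∑ i ∈ Finset.range 24, u i (x (pt i)) := by
    funext p
    rw [Finset.sum_apply, Finset.sum_eq_single (ix p)]
    · have := u_same (ix p) (x (pt (ix p)))
      rw [pt_ix] at this ⊢
      exact this.symm
    · intro j hj hne
      have := u_ne (i := j) (j := ix p) (Finset.mem_range.1 hj) (ix_lt p) (Ne.symm hne) (x (pt j))
      rwa [pt_ix] at this
    · intro h; exact absurd (Finset.mem_range.2 (ix_lt p)) h
  have hx3 : x = ∑ i ∈ Finset.range 24, (x (pt i) / 4) • (u i 4 - u 0 4) + k • u 0 8 := by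
    have h1 : ∀ i ∈ Finset.range 24, (x (pt i) / 4) • (u i 4 - u 0 4) = u i (x (pt i)) - u 0 (x (pt i)) := by
      intro i _
      rw [smul_sub, single_smul, single_smul]
      have := hx (pt i)
      have h2 : 4 * (x (pt i) / 4) = x (pt i) := by omega
      rw [h2]
    have h2 : ∑ i ∈ Finset.range 24, u 0 (x (pt i)) = k • u 0 8 := by
      have h3 : k • u 0 8 = u 0 (8 * k) := by rw [u, u, ← Pi.single_zsmul, smul_eq_mul, mul_comm]
      rw [h3, ← hk, sum_pt]
      funext p
      rw [Finset.sum_apply]
      by_cases hp : p = pt 0
      · subst hp
        rw [u_same]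
        apply Finset.sum_congr rfl
        intro i _
        rw [u_same]
      · have h4 : ∀ a, u 0 a p = 0 := fun a => Pi.single_eq_of_ne hp _
        rw [h4]
        exact Finset.sum_eq_zero fun i _ => h4 _
    rw [Finset.sum_congr rfl h1, Finset.sum_sub_distrib, h2, ← hx2]
    abel
  rw [hx3]
  refine add_mem (sum_mem fun i hi => ?_) (zsmul_mem h8 k)
  have := sub_single_mem h i (Finset.mem_range.1 hi)
  have h4 : u i 4 - u 0 4 = -(u 0 4 - u i 4) := by abel
  rw [h4]
  exact zsmul_mem (neg_mem this) _

theorem codeL_sub_octGens : ∀ m ∈ codeL, m ∈ spanL octGens := by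
  refine spanL_induction (zero_mem_spanL _) (fun a b ha hb => xor_mem_spanL _ ha hb) gens_mem_octGens

theorem tw_even {m : ℕ} (h : ofMask m ∈ octads) : EvenT (tw m) ∧ cls (tw m) 2 = ofMask m := by
  have hc : cls (tw m) 2 = ofMask m := by
    ext p
    rw [mem_cls, tw]
    by_cases hp : p ∈ ofMask m
    · rw [if_pos hp]; simpa using hp
    · rw [if_neg hp]; simpa using hp
  refine ⟨⟨fun p => ?_, ?_, ?_⟩, hc⟩
  · rw [tw]; split <;> norm_num
  · simp only [tw]
    rw [Finset.sum_ite_mem, Finset.univ_inter, Finset.sum_const, h.2]
    norm_num
  · rw [hc]; exact h.1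

theorem v0_odd : OddT v0 := by
  refine ⟨by decide, by decide, ?_⟩
  have : cls v0 1 = Finset.univ := by
    ext p
    rw [mem_cls, v0]
    split <;> simp
  rw [this]
  exact Spor.univ_mem_supports_golayCode

theorem leech_le {A : AddSubgroup (GolayPt → ℤ)} (h : ∀ x ∈ genV, x ∈ A) : leechLattice ≤ A := by
  have h1 : ∀ i < 23, u i 4 + u (i + 1) (-4) ∈ A := fun i hi =>
    h _ (List.mem_append_left _ (List.mem_map.2 ⟨i, List.mem_range.2 hi, rfl⟩))
  have h2 : u 0 4 + u 1 4 ∈ A := h _ (List.mem_append_right _ List.mem_cons_self)
  have h3 : ∀ m ∈ octGens, tw m ∈ A := fun m hm =>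
    h _ (List.mem_append_right _ (List.mem_cons_of_mem _ (List.mem_append_left _ (List.mem_map.2 ⟨m, hm, rfl⟩))))
  have h4 : v0 ∈ A :=
    h _ (List.mem_append_right _ (List.mem_cons_of_mem _ (List.mem_append_right _ (List.mem_singleton.2 rfl))))
  have hC : ∀ c ∈ Cw, ∃ y ∈ A, EvenT y ∧ cls y 2 = c := by
    intro c hc
    have hm := codeL_sub_octGens _ (mem_supports_iff'.1 hc)
    have key := spanL_induction (l := octGens) (P := fun m => ∃ y ∈ A, EvenT y ∧ cls y 2 = ofMask m) ?_ ?_ ?_ _ hm
    · rw [ofMask_mask] at key; exact key
    · refine ⟨0, zero_mem A, evenT_zero, ?_⟩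
      rw [ofMask_zero]
      ext p; simp [cls]
    · rintro a b ⟨y, hy, hye, hyc⟩ ⟨z, hz, hze, hzc⟩
      refine ⟨y + z, add_mem hy hz, hye.add hze, ?_⟩
      rw [ofMask_xor, ← hyc, ← hzc]
      ext i
      have := hye.1 i; have := hze.1 i
      rw [Finset.mem_symmDiff, mem_cls, mem_cls, mem_cls, Pi.add_apply]
      omega
    · intro m hm
      have h5 := octGens_oct m hm
      have h6 := tw_even ((ofMask_mem_octads (octL_lt h5)).2 h5)
      exact ⟨tw m, h3 m hm, h6.1, h6.2⟩
  have hE : ∀ x, EvenT x → x ∈ A := by
    intro x hx
    obtain ⟨y, hy, hye, hyc⟩ := hC _ hx.2.2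
    have h5 : EvenT (x - y) := by rw [sub_eq_add_neg]; exact hx.add hye.neg
    have h6 : ∀ i, (x - y) i % 4 = 0 := by
      intro i
      have h7 : i ∈ cls y 2 ↔ i ∈ cls x 2 := by rw [hyc]
      rw [mem_cls, mem_cls] at h7
      have := hx.1 i; have := hye.1 i
      rw [Pi.sub_apply]
      omega
    have h7 := mem_of_mod4 h1 h2 h6 h5.2.1
    have h8 : x = (x - y) + y := by abel
    rw [h8]
    exact add_mem h7 hy
  intro x hx
  rcases mem_leech_iff.1 hx with hx | hx
  · exact hE x hx
  · have h5 : EvenT (x + -v0) := hx.add v0_odd.neg
    have h8 : x = (x + -v0) + v0 := by abel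
    rw [h8]
    exact add_mem (hE _ h5) h4

theorem genV_mem : ∀ x ∈ genV, x ∈ leechLattice ∧ Bd x := by
  intro x hx
  rw [genV, List.mem_append, List.mem_map, List.mem_cons, List.mem_append, List.mem_map, List.mem_singleton] at hx
  have hA : ∀ i j : ℕ, i < 24 → j < 24 → i ≠ j → ∀ a b : ℤ, (a = 4 ∨ a = -4) → (b = 4 ∨ b = -4) →
      u i a + u j b ∈ leechLattice ∧ Bd (u i a + u j b) := by
    intro i j hi hj hij a b ha hb
    have h1 : u i a + u j b ∈ famA := mem_famA.2 ⟨pt i, pt j, fun h => hij ((pt_inj hi hj).1 h), a, b, ha, hb, rfl⟩
    exact ⟨mem_leech_iff.2 (Or.inl (famA_spec h1).1), bd_of_norm (by rw [(famA_spec h1).2.1]; norm_num)⟩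
  rcases hx with ⟨i, hi, rfl⟩ | rfl | ⟨m, hm, rfl⟩ | rfl
  · rw [List.mem_range] at hi
    exact hA i (i + 1) (by omega) (by omega) (by omega) _ _ (Or.inl rfl) (Or.inr rfl)
  · exact hA 0 1 (by norm_num) (by norm_num) (by norm_num) _ _ (Or.inl rfl) (Or.inl rfl)
  · have h5 := octGens_oct m hm
    refine ⟨mem_leech_iff.2 (Or.inl (tw_even ((ofMask_mem_octads (octL_lt h5)).2 h5)).1), fun p => ?_⟩
    rw [tw]; split <;> norm_num
  · refine ⟨mem_leech_iff.2 (Or.inr v0_odd), fun p => ?_⟩
    rw [v0]; split <;> norm_num


end Cfsg.Agent.H7.L6
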