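import Mathlib

/-! Arithmetic for the orders of nilpotent subgroups of symmetric groups. -/

namespace H7.Nilp

/-- exponent of `2` in `k!` -/
def v (k : ℕ) : ℕ := padicValNat 2 k.factorial

def cc : ℕ → ℕ
  | 0 => 1
  | 1 => 1
  | 2 => 2
  | _ => 3

/-- the maximal order of a nilpotent subgroup of `S_n` -/
def h (n : ℕ) : ℕ := 2 ^ (3 * (n / 4) + v (n / 4)) * cc (n % 4)

theorem v_mono {k l : ℕ} (hkl : k ≤ l) : v k ≤ v l := by
  unfold v
  have : Fact (Nat.Prime 2) := ⟨Nat.prime_two⟩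
  exact (padicValNat_dvd_iff_le (Nat.factorial_ne_zero l)).1
    ((pow_padicValNat_dvd).trans (Nat.factorial_dvd_factorial hkl))

theorem v_add (k l : ℕ) : v k + v l ≤ v (k + l) := by
  unfold v
  have : Fact (Nat.Prime 2) := ⟨Nat.prime_two⟩
  rw [← padicValNat.mul (Nat.factorial_ne_zero k) (Nat.factorial_ne_zero l)]
  exact (padicValNat_dvd_iff_le (Nat.factorial_ne_zero _)).1
    ((pow_padicValNat_dvd).trans (Nat.factorial_mul_factorial_dvd_factorial_add k l))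

theorem h_eq (k r : ℕ) (hr : r < 4) : h (4 * k + r) = 2 ^ (3 * k + v k) * cc r := by
  unfold h
  rw [show (4 * k + r) / 4 = k by omega, show (4 * k + r) % 4 = r by omega]

theorem cc_pos (r : ℕ) : 0 < cc r := by
  unfold cc; split <;> norm_num

theorem h_pos (n : ℕ) : 0 < h n := by
  unfold h
  exact Nat.mul_pos (by positivity) (cc_pos _)

theorem cc_le (r : ℕ) : cc r ≤ 3 := by
  unfold cc; split <;> norm_num

theorem h_add (a b : ℕ) : h a * h b ≤ h (a + b) := by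
  obtain ⟨k, r, hr, rfl⟩ : ∃ k r, r < 4 ∧ a = 4 * k + r := ⟨a / 4, a % 4, Nat.mod_lt _ (by norm_num), by omega⟩
  obtain ⟨l, s, hs, rfl⟩ : ∃ k r, r < 4 ∧ b = 4 * k + r := ⟨b / 4, b % 4, Nat.mod_lt _ (by norm_num), by omega⟩
  rw [h_eq k r hr, h_eq l s hs]
  have h1 : 2 ^ (3 * k + v k) * cc r * (2 ^ (3 * l + v l) * cc s) =
      2 ^ (3 * (k + l) + (v k + v l)) * (cc r * cc s) := by
    rw [show 3 * (k + l) + (v k + v l) = (3 * k + v k) + (3 * l + v l) by ring, pow_add]; ring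
  rw [h1]
  rcases Nat.lt_or_ge (r + s) 4 with hrs | hrs
  · rw [show 4 * k + r + (4 * l + s) = 4 * (k + l) + (r + s) by ring, h_eq _ _ hrs]
    have h2 : 2 ^ (3 * (k + l) + (v k + v l)) ≤ 2 ^ (3 * (k + l) + v (k + l)) :=
      Nat.pow_le_pow_right (by norm_num) (by have := v_add k l; omega)
    have h3 : cc r * cc s ≤ cc (r + s) := by
      have h3' : ∀ r < 4, ∀ s < 4, r + s < 4 → cc r * cc s ≤ cc (r + s) := by decide
      exact h3' r hr s hs hrs
    exact Nat.mul_le_mul h2 h3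
  · rw [show 4 * k + r + (4 * l + s) = 4 * (k + l + 1) + (r + s - 4) by omega, h_eq _ _ (by omega)]
    have h2 : 2 ^ (3 * (k + l) + (v k + v l)) * 8 ≤ 2 ^ (3 * (k + l + 1) + v (k + l + 1)) := by
      rw [show (8 : ℕ) = 2 ^ 3 by norm_num, ← pow_add]
      apply Nat.pow_le_pow_right (by norm_num)
      have := v_add k l
      have := v_mono (show k + l ≤ k + l + 1 by omega)
      omega
    have h3 : cc r * cc s ≤ 8 * cc (r + s - 4) := by
      have h3' : ∀ r < 4, ∀ s < 4, 4 ≤ r + s → cc r * cc s ≤ 8 * cc (r + s - 4) := by decide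
      exact h3' r hr s hs hrs
    calc 2 ^ (3 * (k + l) + (v k + v l)) * (cc r * cc s)
        ≤ 2 ^ (3 * (k + l) + (v k + v l)) * (8 * cc (r + s - 4)) := Nat.mul_le_mul_left _ h3
      _ = (2 ^ (3 * (k + l) + (v k + v l)) * 8) * cc (r + s - 4) := by ring
      _ ≤ _ := Nat.mul_le_mul_right _ h2

theorem h_one : h 1 = 1 := by
  unfold h v cc; simp

theorem h_succ (n : ℕ) : h n ≤ h (n + 1) := by
  have := h_add n 1
  rwa [h_one, mul_one] at this

theorem h_mono {a b : ℕ} (hab : a ≤ b) : h a ≤ h b := by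
  induction b, hab using Nat.le_induction with
  | base => exact le_rfl
  | succ b _ ih => exact ih.trans (h_succ b)

theorem v_val : v 0 = 0 ∧ v 1 = 0 ∧ v 2 = 1 ∧ v 3 = 1 ∧ v 4 = 3 ∧ v 5 = 3 := by
  have : Fact (Nat.Prime 2) := ⟨Nat.prime_two⟩
  have key : ∀ k m e : ℕ, k.factorial = 2 ^ e * m → ¬ 2 ∣ m → v k = e := by
    intro k m e h1 h2
    unfold v
    have hm : m ≠ 0 := by rintro rfl; simp at h2
    rw [h1, padicValNat.mul (by positivity) hm, padicValNat.prime_pow, padicValNat.eq_zero_of_not_dvd h2, add_zero]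
  refine ⟨key 0 1 0 rfl (by norm_num), key 1 1 0 rfl (by norm_num), key 2 1 1 rfl (by norm_num),
    key 3 3 1 rfl (by norm_num), key 4 3 3 rfl (by norm_num), key 5 15 3 rfl (by norm_num)⟩

theorem h_small : h 0 = 1 ∧ h 1 = 1 ∧ h 2 = 2 ∧ h 3 = 3 ∧ h 4 = 8 ∧ h 5 = 8 ∧ h 6 = 16 ∧ h 7 = 24 ∧
    h 8 = 128 ∧ h 9 = 128 ∧ h 10 = 256 ∧ h 11 = 384 ∧ h 12 = 1024 ∧ h 13 = 1024 ∧ h 14 = 2048 ∧ h 15 = 3072 ∧
    h 16 = 32768 ∧ h 17 = 32768 ∧ h 18 = 65536 ∧ h 19 = 98304 ∧ h 20 = 262144 ∧ h 21 = 262144 ∧ h 22 = 524288 ∧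
    h 23 = 786432 := by
  obtain ⟨e0, e1, e2, e3, e4, e5⟩ := v_val
  refine ⟨?_, ?_, ?_, ?_, ?_, ?_, ?_, ?_, ?_, ?_, ?_, ?_, ?_, ?_, ?_, ?_, ?_, ?_, ?_, ?_, ?_, ?_, ?_, ?_⟩ <;>
    simp [h, cc, e0, e1, e2, e3, e4, e5]

theorem h_8 (n : ℕ) : 128 * h n ≤ h (n + 8) := by
  have := h_add n 8
  rw [h_small.2.2.2.2.2.2.2.2.1, mul_comm] at this
  exact this

theorem sq_ge (n : ℕ) (hn : 8 ≤ n) : 3 ^ (n - 1) ≤ (h n) ^ 2 := by
  obtain ⟨_, _, _, _, _, _, _, _, f8, f9, f10, f11, f12, f13, f14, f15, _⟩ := h_small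
  induction n using Nat.strong_induction_on with
  | _ n ih =>
    rcases Nat.lt_or_ge n 16 with h16 | h16
    · interval_cases n
      · rw [f8]; norm_num
      · rw [f9]; norm_num
      · rw [f10]; norm_num
      · rw [f11]; norm_num
      · rw [f12]; norm_num
      · rw [f13]; norm_num
      · rw [f14]; norm_num
      · rw [f15]; norm_num
    · have h1 := ih (n - 8) (by omega) (by omega)
      have h2 := h_8 (n - 8)
      rw [show n - 8 + 8 = n by omega] at h2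
      have h3 := Nat.pow_le_pow_left h2 2
      have h4 : 3 ^ (n - 1) = 3 ^ (n - 8 - 1) * 6561 := by
        rw [show n - 1 = (n - 8 - 1) + 8 by omega, pow_add]; norm_num
      rw [h4]
      nlinarith

theorem v_four (n : ℕ) : v n = 3 * (n / 4) + v (n / 4) + (if n % 4 < 2 then 0 else 1) := by
  have hp : Fact (Nat.Prime 2) := ⟨Nat.prime_two⟩
  have key : ∀ m : ℕ, v (2 * m) = v m + m := by
    intro m
    unfold v
    exact padicValNat_factorial_mul m
  have key2 : ∀ m : ℕ, v (2 * m + 1) = v m + m := by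
    intro m
    unfold v
    exact (padicValNat_factorial_mul_add (p := 2) (n := 1) m (by norm_num)).trans (padicValNat_factorial_mul m)
  obtain ⟨k, r, hr, rfl⟩ : ∃ k r, r < 4 ∧ n = 4 * k + r := ⟨n / 4, n % 4, Nat.mod_lt _ (by norm_num), by omega⟩
  rw [show (4 * k + r) / 4 = k by omega, show (4 * k + r) % 4 = r by omega]
  interval_cases r
  · rw [show 4 * k + 0 = 2 * (2 * k) by ring, key, key]; simp; ring
  · rw [show 4 * k + 1 = 2 * (2 * k) + 1 by ring, key2, key]; simp; ring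
  · rw [show 4 * k + 2 = 2 * (2 * k + 1) by ring, key, key2]; simp; ring
  · rw [show 4 * k + 3 = 2 * (2 * k + 1) + 1 by ring, key2, key2]; simp; ring

theorem h_eq_pow (n : ℕ) (hn : n % 4 ≠ 3) : h n = 2 ^ v n := by
  rw [v_four]
  unfold h
  have h4 : n % 4 < 4 := Nat.mod_lt _ (by norm_num)
  generalize n % 4 = r at *
  interval_cases r <;> simp [cc, pow_add, mul_assoc] at *

theorem h_ge_pow (n : ℕ) : 2 ^ v n ≤ h n := by
  by_cases hn : n % 4 = 3
  · rw [v_four]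
    unfold h
    rw [hn]
    simp [cc, pow_add, mul_assoc]
  · rw [h_eq_pow n hn]

theorem h_three (n : ℕ) (hn : n % 4 = 3) : h n = 3 * 2 ^ v (n - 3) := by
  rw [v_four (n - 3)]
  unfold h
  rw [hn, show (n - 3) / 4 = n / 4 by omega, show (n - 3) % 4 = 0 by omega]
  simp [cc]
  ring

end H7.Nilp
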