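import Mathlib
import Cfsg.Agent.H7_Nilp1
import Cfsg.Agent.H1_Nilp

/-! The order of a nilpotent permutation group. -/

namespace H7.Nilp

open MulAction

theorem card_dvd_fact (G Ω : Type*) [Group G] [Finite G] [MulAction G Ω] [Finite Ω] [FaithfulSMul G Ω] :
    Nat.card G ∣ (Nat.card Ω).factorial := by
  rw [← Nat.card_perm]
  exact Subgroup.card_dvd_of_injective (toPermHom G Ω) toPerm_injective

/-- odd `p`-subgroups -/
theorem pgroup_sq (p : ℕ) [hp : Fact p.Prime] (hp2 : p ≠ 2) (G Ω : Type*) [Group G] [Finite G] [MulAction G Ω]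
    [Finite Ω] [FaithfulSMul G Ω] (hG : IsPGroup p G) : (Nat.card G) ^ 2 ≤ 3 ^ (Nat.card Ω - 1) := by
  obtain ⟨k, hk⟩ := IsPGroup.iff_card.1 hG
  have h1 := card_dvd_fact G Ω
  set n := Nat.card Ω with hn
  rw [hk] at h1
  have h2 : k ≤ padicValNat p n.factorial := (padicValNat_dvd_iff_le (Nat.factorial_ne_zero _)).1 h1
  have h3 := sub_one_mul_padicValNat_factorial (p := p) n
  rcases Nat.eq_zero_or_pos n with h0 | h0
  · rw [h0] at h2
    simp at h2
    rw [hk, h2]
    simpa using Nat.one_le_pow (n - 1) 3 (by norm_num)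
  have h4 : 1 ≤ (p.digits n).sum := by
    by_contra hcon
    have h5 : (p.digits n).sum = 0 := by omega
    have h6 : ∀ d ∈ p.digits n, d = 0 := by
      intro d hd
      have := List.single_le_sum (fun x _ => Nat.zero_le x) d hd
      omega
    have h7 : p.digits n ≠ [] := by rw [Ne, Nat.digits_eq_nil_iff_eq_zero]; omega
    have h8 := Nat.getLast_digit_ne_zero p (show n ≠ 0 by omega)
    exact h8 (h6 _ (List.getLast_mem _))
  have h5 : (p - 1) * k ≤ n - 1 := by
    calc (p - 1) * k ≤ (p - 1) * padicValNat p n.factorial := Nat.mul_le_mul_left _ h2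
      _ = n - (p.digits n).sum := h3
      _ ≤ n - 1 := by omega
  have hp3 : 3 ≤ p := by have := hp.out.two_le; omega
  have h6 : p ^ 2 ≤ 3 ^ (p - 1) := by
    clear h5 h4 h3 h2 h1 hk hG hp
    induction p, hp3 using Nat.le_induction with
    | base => norm_num
    | succ m hm ih =>
      have h7 := ih (by omega)
      calc (m + 1) ^ 2 ≤ 3 * m ^ 2 := by nlinarith
        _ ≤ 3 * 3 ^ (m - 1) := Nat.mul_le_mul_left _ h7
        _ = 3 ^ (m + 1 - 1) := by rw [show m + 1 - 1 = (m - 1) + 1 by omega, pow_succ]; ring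
  have hp0 : 0 < p - 1 := by omega
  have h7 : ((p ^ k) ^ 2) ^ (p - 1) ≤ (3 ^ (n - 1)) ^ (p - 1) := by
    calc ((p ^ k) ^ 2) ^ (p - 1) = (p ^ 2) ^ ((p - 1) * k) := by
          rw [← pow_mul, ← pow_mul, ← pow_mul]; congr 1; ring
      _ ≤ (p ^ 2) ^ (n - 1) := Nat.pow_le_pow_right (by positivity) h5
      _ ≤ (3 ^ (p - 1)) ^ (n - 1) := Nat.pow_le_pow_left h6 _
      _ = (3 ^ (n - 1)) ^ (p - 1) := by rw [← pow_mul, ← pow_mul, mul_comm]
  rw [hk]
  exact (Nat.pow_le_pow_iff_left (by omega)).1 h7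

theorem pgroup_two (G Ω : Type*) [Group G] [Finite G] [MulAction G Ω]
    [Finite Ω] [FaithfulSMul G Ω] (hG : IsPGroup 2 G) : Nat.card G ≤ 2 ^ v (Nat.card Ω) := by
  haveI : Fact (Nat.Prime 2) := ⟨Nat.prime_two⟩
  obtain ⟨k, hk⟩ := IsPGroup.iff_card.1 hG
  have h1 := card_dvd_fact G Ω
  rw [hk] at h1 ⊢
  exact Nat.pow_le_pow_right (by norm_num) ((padicValNat_dvd_iff_le (Nat.factorial_ne_zero _)).1 h1)

theorem small_aux (n c : ℕ) (h0 : 0 < c) (h1 : c ^ 2 ≤ 3 ^ (n - 1)) (h2 : c ∣ n.factorial) : c ≤ h n := by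
  obtain ⟨f0, f1, f2, f3, f4, f5, f6, f7, _⟩ := h_small
  rcases Nat.lt_or_ge n 8 with h8 | h8
  · have hsq : ∀ m : ℕ, 3 ^ (n - 1) < (m + 1) ^ 2 → c ≤ m := by
      intro m hm
      by_contra hcon
      have h3 : m + 1 ≤ c := by omega
      have h4 := Nat.pow_le_pow_left h3 2
      omega
    interval_cases n
    · rw [f0]; exact hsq 1 (by norm_num)
    · rw [f1]; exact hsq 1 (by norm_num)
    · rw [f2]; exact hsq 2 (by norm_num)
    · rw [f3]; exact hsq 3 (by norm_num)
    · rw [f4]; exact hsq 8 (by norm_num)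
    · rw [f5]
      have h3 : c ≤ 9 := hsq 9 (by norm_num)
      by_contra hcon
      have : c = 9 := by omega
      rw [this] at h2
      norm_num [Nat.factorial] at h2
    · rw [f6]; exact hsq 16 (by norm_num)
    · rw [f7]
      have h3 : c ≤ 27 := hsq 27 (by norm_num)
      by_contra hcon
      have h4 : c = 25 ∨ c = 26 ∨ c = 27 := by omega
      rcases h4 with h4 | h4 | h4
      · rw [h4] at h2; norm_num [Nat.factorial] at h2
      · rw [h4] at h2; norm_num [Nat.factorial] at h2
      · rw [h4] at h2; norm_num [Nat.factorial] at h2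
  · have h3 := h1.trans (sq_ge n h8)
    exact (Nat.pow_le_pow_iff_left (by norm_num)).1 h3

theorem pgroup_le (p : ℕ) [hp : Fact p.Prime] (G Ω : Type*) [Group G] [Finite G] [MulAction G Ω]
    [Finite Ω] [FaithfulSMul G Ω] (hG : IsPGroup p G) : Nat.card G ≤ h (Nat.card Ω) := by
  by_cases hp2 : p = 2
  · subst hp2
    exact (pgroup_two G Ω hG).trans (h_ge_pow _)
  exact small_aux _ _ Nat.card_pos (pgroup_sq p hp2 G Ω hG) (card_dvd_fact G Ω)

theorem faithful_orbit {G Ω : Type*} [Group G] [MulAction G Ω] [FaithfulSMul G Ω] [IsPretransitive G Ω]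
    (A B : Subgroup G) [A.Normal] (hAB : B ⊔ A = ⊤) (hc : ∀ a ∈ A, ∀ b ∈ B, a * b = b * a) (ω : Ω) :
    FaithfulSMul A (orbit A ω) := by
  constructor
  intro x y hxy
  apply Subtype.ext
  apply FaithfulSMul.eq_of_smul_eq_smul (α := Ω)
  intro ω'
  obtain ⟨g, rfl⟩ := exists_smul_eq G ω ω'
  have hg : g ∈ (↑(B ⊔ A) : Set G) := by rw [hAB]; trivial
  rw [Subgroup.mul_normal] at hg
  obtain ⟨b, hb, a, ha, rfl⟩ := hg
  have h1 := congrArg Subtype.val (hxy ⟨a • ω, ⟨⟨a, ha⟩, rfl⟩⟩)
  have h2 : (x : G) • a • ω = (y : G) • a • ω := h1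
  change (x : G) • (b * a) • ω = (y : G) • (b * a) • ω
  rw [mul_smul, ← mul_smul (x : G) b, hc x x.2 b hb, ← mul_smul (y : G) b, hc y y.2 b hb, mul_smul, mul_smul, h2]

theorem card_orbit_dvd {A Ω : Type*} [Group A] [Finite A] [MulAction A Ω] (ω : Ω) :
    Nat.card (orbit A ω) ∣ Nat.card A := by
  rw [Nat.card_congr (orbitEquivQuotientStabilizer A ω)]
  exact Subgroup.card_quotient_dvd_card _

/-- a finite nilpotent group that is not a `p`-group is a product of two nontrivial coprime normal subgroups -/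
theorem split {G : Type*} [Group G] [Finite G] (hn : Group.IsNilpotent G)
    (hG : ∀ p : ℕ, p.Prime → ¬ IsPGroup p G) :
    ∃ A B : Subgroup G, A.Normal ∧ B.Normal ∧ A ≠ ⊥ ∧ B ≠ ⊥ ∧ (Nat.card A).Coprime (Nat.card B) ∧
      B ⊔ A = ⊤ ∧ (∀ a ∈ A, ∀ b ∈ B, a * b = b * a) ∧ Nat.card G ≤ Nat.card A * Nat.card B := by
  have h1 : Nat.card G ≠ 1 := by
    intro h1
    apply hG 2 Nat.prime_two
    intro g
    have : Subsingleton G := (Nat.card_eq_one_iff_unique.1 h1).1
    exact ⟨0, Subsingleton.elim _ _⟩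
  obtain ⟨p, hp, hdvd⟩ := Nat.exists_prime_and_dvd h1
  haveI : Fact p.Prime := ⟨hp⟩
  have hnorm := ((Group.isNilpotent_of_finite_tfae (G := G)).out 0 3).1 hn
  let P : Sylow p G := default
  have hPn : (P : Subgroup G).Normal := hnorm p ⟨hp⟩ P
  set B := Cfsg.pPrimeCore p G with hB
  have hBn : B.Normal := Cfsg.Agent.H1.Nilp.pPrimeCore_normal p
  have hBc : (Nat.card B).Coprime p := Cfsg.Agent.H1.Nilp.pPrimeCore_coprime p
  have htop : B ⊔ (P : Subgroup G) = ⊤ := by
    apply Cfsg.Agent.H1.Nilp.eq_top_of_sylow_le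
    intro q hq
    by_cases hqp : q = p
    · subst hqp
      exact ⟨P, le_sup_right⟩
    · let Q : Sylow q G := default
      refine ⟨Q, le_trans ?_ le_sup_left⟩
      apply Cfsg.Agent.H1.Nilp.le_pPrimeCore (hnorm q hq Q)
      obtain ⟨k, hk⟩ := IsPGroup.iff_card.1 Q.2
      rw [hk]
      exact Nat.Coprime.pow_left _ ((Nat.coprime_primes hq.out hp).2 hqp)
  have hcop : (Nat.card P).Coprime (Nat.card B) := by
    obtain ⟨k, hk⟩ := IsPGroup.iff_card.1 P.2
    rw [hk]
    exact Nat.Coprime.pow_left _ hBc.symm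
  have hdis : Disjoint (P : Subgroup G) B := by
    rw [disjoint_iff]
    exact (Subgroup.inf_eq_bot_of_coprime hcop)
  refine ⟨P, B, hPn, hBn, ?_, ?_, hcop, htop, ?_, ?_⟩
  · intro hbot
    exact P.ne_bot_of_dvd_card hdvd hbot
  · intro hbot
    rw [hbot, bot_sup_eq] at htop
    apply hG p hp
    have := P.2
    intro g
    obtain ⟨k, hk⟩ := this ⟨g, by rw [htop]; trivial⟩
    exact ⟨k, congrArg Subtype.val hk⟩
  · intro a ha b hb
    exact Subgroup.commute_of_normal_of_disjoint _ _ hPn hBn hdis a b ha hb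
  · have hsurj : Function.Surjective (fun x : B × (P : Subgroup G) => (x.1 : G) * x.2) := by
      intro g
      have hg : g ∈ (↑(B ⊔ (P : Subgroup G)) : Set G) := by rw [htop]; trivial
      rw [Subgroup.mul_normal] at hg
      obtain ⟨b, hb, a, ha, rfl⟩ := hg
      exact ⟨(⟨b, hb⟩, ⟨a, ha⟩), rfl⟩
    have := Nat.card_le_card_of_surjective _ hsurj
    rw [Nat.card_prod, mul_comm] at this
    exact this

theorem two_le_orbit {A Ω : Type*} [Group A] [Finite A] [MulAction A Ω] [Finite Ω] [Nontrivial A] (ω : Ω)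
    [FaithfulSMul A (orbit A ω)] : 2 ≤ Nat.card (orbit A ω) := by
  by_contra hcon
  have h1 : Nat.card (orbit A ω) ≤ 1 := by omega
  have : Subsingleton (orbit A ω) := by
    rw [← Finite.card_le_one_iff_subsingleton]; exact h1
  obtain ⟨x, hx⟩ := exists_ne (1 : A)
  apply hx
  apply FaithfulSMul.eq_of_smul_eq_smul (α := orbit A ω)
  intro a
  exact Subsingleton.elim _ _

/-- the complement of an orbit as a `SubMulAction` of a subgroup -/
def compl {G Ω : Type*} [Group G] [MulAction G Ω] (K : Subgroup G) (ω : Ω) : SubMulAction K Ω where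
  carrier := (orbit G ω)ᶜ
  smul_mem' := by
    intro c x hx hcx
    apply hx
    have h1 : (c : G) • x ∈ orbit G ω := hcx
    obtain ⟨g, hg⟩ := h1
    exact ⟨(c : G)⁻¹ * g, by
      change ((c : G)⁻¹ * g) • ω = x
      rw [mul_smul]
      change g • ω = (c : G) • x at hg
      rw [hg, inv_smul_smul]⟩

theorem main_aux (n : ℕ) : ∀ (G Ω : Type) [Group G] [Finite G] [MulAction G Ω] [Finite Ω] [FaithfulSMul G Ω],
    Group.IsNilpotent G → Nat.card Ω = n → Nat.card G ≤ h n := by
  induction n using Nat.strong_induction_on with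
  | _ n ih =>
  intro G Ω _ _ _ _ _ hnil hn
  by_cases hG : ∃ p : ℕ, p.Prime ∧ IsPGroup p G
  · obtain ⟨p, hp, hG⟩ := hG
    haveI : Fact p.Prime := ⟨hp⟩
    rw [← hn]
    exact pgroup_le p G Ω hG
  push Not at hG
  have hne : Nonempty Ω := by
    by_contra hcon
    rw [not_nonempty_iff] at hcon
    apply hG 2 Nat.prime_two
    intro g
    refine ⟨0, ?_⟩
    apply FaithfulSMul.eq_of_smul_eq_smul (α := Ω)
    intro a
    exact (hcon.false a).elim
  obtain ⟨ω⟩ := hne
  by_cases htr : orbit G ω = Set.univ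
  · -- transitive
    haveI : IsPretransitive G Ω := by
      rw [isPretransitive_iff_orbit_eq_univ (G := G) (X := Ω) ω] 
      exact htr
    obtain ⟨A, B, hA, hB, hA1, hB1, hcop, hAB, hc, hcard⟩ := split hnil hG
    haveI := faithful_orbit A B hAB hc ω
    haveI := faithful_orbit B A (by rw [sup_comm]; exact hAB) (fun b hb a ha => (hc a ha b hb).symm) ω
    haveI : Nontrivial A := (Subgroup.nontrivial_iff_ne_bot A).2 hA1
    haveI : Nontrivial B := (Subgroup.nontrivial_iff_ne_bot B).2 hB1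
    have ha2 := two_le_orbit (A := A) ω
    have hb2 := two_le_orbit (A := B) ω
    have ha3 := card_orbit_dvd (A := A) ω
    have hb3 := card_orbit_dvd (A := B) ω
    have ha4 : Nat.card (orbit A ω) ∣ n := by
      have := (IsBlock.orbit_of_normal (N := A) ω).ncard_dvd_card ⟨ω, mem_orbit_self ω⟩
      rwa [hn] at this
    have hb4 : Nat.card (orbit B ω) ∣ n := by
      have := (IsBlock.orbit_of_normal (N := B) ω).ncard_dvd_card ⟨ω, mem_orbit_self ω⟩
      rwa [hn] at this
    have hcop2 : (Nat.card (orbit A ω)).Coprime (Nat.card (orbit B ω)) :=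
      (hcop.coprime_dvd_left ha3).coprime_dvd_right hb3
    have hab : Nat.card (orbit A ω) * Nat.card (orbit B ω) ∣ n := hcop2.mul_dvd_of_dvd_of_dvd ha4 hb4
    have hn0 : 0 < n := by
      rw [← hn]
      haveI : Nonempty Ω := ⟨ω⟩
      exact Nat.card_pos
    have hle := Nat.le_of_dvd hn0 hab
    set a := Nat.card (orbit A ω) with ha
    set b := Nat.card (orbit B ω) with hb
    have hA4 := ih a (by nlinarith) A (orbit A ω) (by haveI := hnil; infer_instance) ha.symm
    have hB4 := ih b (by nlinarith) B (orbit B ω) (by haveI := hnil; infer_instance) hb.symm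
    calc Nat.card G ≤ Nat.card A * Nat.card B := hcard
      _ ≤ h a * h b := Nat.mul_le_mul hA4 hB4
      _ ≤ h (a + b) := h_add a b
      _ ≤ h n := h_mono (by nlinarith)
  · -- intransitive
    set K := (toPermHom G (orbit G ω)).ker with hK
    have h1 : Nat.card G = Nat.card K * Nat.card (toPermHom G (orbit G ω)).range := by
      rw [← Subgroup.card_mul_index K, hK, Subgroup.index_ker]
    haveI : FaithfulSMul K (compl K ω) := by
      constructor
      intro x y hxy
      apply Subtype.ext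
      apply FaithfulSMul.eq_of_smul_eq_smul (α := Ω)
      intro a
      by_cases ha : a ∈ orbit G ω
      · have h2 : ∀ z : K, (z : G) • a = a := by
          intro z
          have h3 := MonoidHom.mem_ker.1 z.2
          have h4 := congrArg (fun e : Equiv.Perm (orbit G ω) => (e ⟨a, ha⟩ : Ω)) h3
          exact h4
        rw [h2, h2]
      · exact congrArg Subtype.val (hxy ⟨a, ha⟩)
    have hsum : Nat.card (orbit G ω) + Nat.card (compl K ω) = n := by
      have h5 : Nat.card (compl K ω) = ((orbit G ω)ᶜ : Set Ω).ncard := rfl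
      have h6 : Nat.card (orbit G ω) = (orbit G ω).ncard := rfl
      rw [h5, h6, Set.ncard_add_ncard_compl, hn]
    have hpos1 : 0 < Nat.card (orbit G ω) := by
      haveI : Nonempty (orbit G ω) := ⟨⟨ω, mem_orbit_self ω⟩⟩
      exact Nat.card_pos
    have hpos2 : 0 < Nat.card (compl K ω) := by
      obtain ⟨a, ha⟩ := (Set.ne_univ_iff_exists_notMem _).1 htr
      haveI : Nonempty (compl K ω) := ⟨⟨a, ha⟩⟩
      exact Nat.card_pos
    have h7 := ih (Nat.card (compl K ω)) (by omega) K (compl K ω) (by haveI := hnil; infer_instance) rfl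
    have h8 := ih (Nat.card (orbit G ω)) (by omega) (toPermHom G (orbit G ω)).range (orbit G ω)
      (by
        haveI := hnil
        exact Group.nilpotent_of_surjective (toPermHom G (orbit G ω)).rangeRestrict
          (MonoidHom.rangeRestrict_surjective _)) rfl
    rw [h1, ← hsum, add_comm (Nat.card (orbit G ω))]
    exact (Nat.mul_le_mul h7 h8).trans (h_add _ _)

/-- the order of a nilpotent permutation group -/
theorem main (G Ω : Type) [Group G] [Finite G] [MulAction G Ω] [Finite Ω] [FaithfulSMul G Ω]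
    (hG : Group.IsNilpotent G) : Nat.card G ≤ h (Nat.card Ω) := main_aux _ G Ω hG rfl

theorem card_sylow (n : ℕ) (P : Sylow 2 (Equiv.Perm (Fin n))) : Nat.card P = 2 ^ v n := by
  haveI : Fact (Nat.Prime 2) := ⟨Nat.prime_two⟩
  rw [P.card_eq_multiplicity, Nat.card_perm, Nat.card_fin, Nat.factorization_def _ Nat.prime_two]
  rfl

end H7.Nilp
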