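import Mathlib
import Cfsg.Agent.H7_Nilp2

/-! Maximal nilpotent subgroups of `S_n` inside `A_n` have odd order; odd order bounds. -/

namespace H7.Nilp

open MulAction Equiv.Perm

section inv
variable {Ω : Type*} [Fintype Ω] [DecidableEq Ω]

/-- an involution centralizing a group of odd order gives an odd permutation centralizing it -/
theorem exists_odd (O : Subgroup (Equiv.Perm Ω)) (hO : Odd (Nat.card O)) (t : Equiv.Perm Ω) (ht : t ≠ 1)
    (ht2 : ∀ x, t (t x) = x) (hc : ∀ o ∈ O, ∀ x, o (t x) = t (o x)) :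
    ∃ τ : Equiv.Perm Ω, sign τ = -1 ∧ ∀ o ∈ O, o * τ = τ * o := by
  classical
  obtain ⟨ω, hω⟩ : ∃ ω, t ω ≠ ω := by
    by_contra hcon
    push Not at hcon
    exact ht (Equiv.ext hcon)
  set D : Set Ω := orbit O ω with hD
  have hDO : ∀ o ∈ O, ∀ x, x ∈ D → o x ∈ D := by
    rintro o ho _ ⟨g, rfl⟩
    exact ⟨⟨o, ho⟩ * g, rfl⟩
  have hpow : ∀ o ∈ O, o (o ω) = ω → o ω = ω := by
    intro o ho h2
    obtain ⟨k, hk⟩ := hO
    have h3 : o ^ (2 * k + 1) = 1 := by
      have h4 : (⟨o, ho⟩ : O) ^ Nat.card O = 1 := pow_card_eq_one'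
      rw [hk] at h4
      exact congrArg Subtype.val h4
    have h5 : ∀ m : ℕ, (o ^ (2 * m)) ω = ω := by
      intro m
      induction m with
      | zero => rfl
      | succ m ih =>
        rw [show 2 * (m + 1) = 2 + 2 * m by ring, pow_add, mul_apply, ih, pow_two, mul_apply, h2]
    have h6 : (o ^ (2 * k + 1)) ω = o ω := by
      rw [show 2 * k + 1 = 1 + 2 * k by ring, pow_add, mul_apply, h5, pow_one]
    rw [← h6, h3]; rfl
  have hdisj : ∀ x ∈ D, t x ∉ D := by
    rintro _ ⟨g, rfl⟩ ⟨g', hg'⟩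
    have h1 : (g' : Equiv.Perm Ω) ω = t ((g : Equiv.Perm Ω) ω) := hg'
    rw [← hc g g.2] at h1
    set o : Equiv.Perm Ω := (g : Equiv.Perm Ω)⁻¹ * g' with ho
    have hoO : o ∈ O := O.mul_mem (O.inv_mem g.2) g'.2
    have h2 : t ω = o ω := by
      rw [ho, mul_apply, h1]; simp
    apply hω
    rw [h2]
    apply hpow o hoO
    rw [← h2, hc o hoO, ← h2, ht2]
  set S : Set Ω := {x | x ∈ D ∨ t x ∈ D} with hS
  have hSt : ∀ x, t x ∈ S ↔ x ∈ S := by
    intro x
    constructor
    · rintro (h1 | h1)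
      · exact Or.inr h1
      · rw [ht2] at h1; exact Or.inl h1
    · rintro (h1 | h1)
      · right; rw [ht2]; exact h1
      · exact Or.inl h1
  have hSO : ∀ o ∈ O, ∀ x, x ∈ S → o x ∈ S := by
    rintro o ho x (h1 | h1)
    · exact Or.inl (hDO o ho x h1)
    · right
      rw [← hc o ho]
      exact hDO o ho _ h1
  let τ : Equiv.Perm Ω := ofSubtype (t.subtypePerm (p := fun x => x ∈ S) hSt)
  have hτ1 : ∀ x ∈ S, τ x = t x := by
    intro x hx
    rw [ofSubtype_apply_of_mem _ hx]; rfl
  have hτ2 : ∀ x, x ∉ S → τ x = x := by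
    intro x hx
    exact ofSubtype_apply_of_not_mem _ hx
  have hmv : ∀ x ∈ S, t x ≠ x := by
    rintro x (h1 | h1) h2
    · apply hdisj x h1
      rw [h2]; exact h1
    · apply hdisj _ h1
      rw [ht2, ← h2]; exact h1
  have hsupp : ∀ x, x ∈ τ.support ↔ x ∈ S := by
    intro x
    rw [mem_support]
    constructor
    · intro h1
      by_contra h2
      exact h1 (hτ2 x h2)
    · intro h1
      rw [hτ1 x h1]
      exact hmv x h1
  have hτne : τ ≠ 1 := by
    intro h1
    have h2 : ω ∈ S := Or.inl (mem_orbit_self ω)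
    apply hω
    rw [← hτ1 ω h2, h1]; rfl
  have hτsq : τ ^ 2 = 1 := by
    ext x
    rw [pow_two, mul_apply]
    by_cases h1 : x ∈ S
    · rw [hτ1 x h1, hτ1 _ ((hSt x).2 h1), ht2]; rfl
    · rw [hτ2 x h1, hτ2 x h1]; rfl
  have hord : orderOf τ = 2 := orderOf_eq_prime hτsq hτne
  obtain ⟨m, hm⟩ := cycleType_prime_order (σ := τ) (by rw [hord]; exact Nat.prime_two)
  rw [hord] at hm
  have hcard : τ.support.card = 2 * Nat.card D := by
    have h1 : (τ.support : Set Ω) = D ∪ t '' D := by
      ext x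
      rw [Finset.mem_coe, hsupp]
      constructor
      · rintro (h2 | h2)
        · exact Or.inl h2
        · exact Or.inr ⟨t x, h2, ht2 x⟩
      · rintro (h2 | ⟨y, hy, rfl⟩)
        · exact Or.inl h2
        · right; rw [ht2]; exact hy
    have h2 : Disjoint D (t '' D) := by
      rw [Set.disjoint_left]
      rintro _ hx ⟨y, hy, rfl⟩
      exact hdisj y hy hx
    have h3 := congrArg Set.ncard h1
    rw [Set.ncard_coe_finset, Set.ncard_union_eq h2 (Set.toFinite _) (Set.toFinite _),
      Set.ncard_image_of_injective _ t.injective] at h3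
    rw [h3, two_mul]; rfl
  have hDodd : Odd (Nat.card D) := by
    have := card_orbit_dvd (A := O) ω
    exact hO.of_dvd_nat this
  refine ⟨τ, ?_, ?_⟩
  · rw [sign_of_cycleType, sum_cycleType, hcard, hm, Multiset.card_replicate]
    have h4 : 2 * (m + 1) = 2 * Nat.card D := by
      rw [← hcard, ← sum_cycleType, hm, Multiset.sum_replicate, smul_eq_mul, mul_comm]
    have h5 : m + 1 = Nat.card D := by omega
    rw [h5]
    obtain ⟨r, hr⟩ := hDodd
    rw [hr]
    have : 2 * (2 * r + 1) + (2 * r + 1) = 2 * (3 * r + 1) + 1 := by ring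
    rw [this, pow_succ, pow_mul]
    simp
  · intro o ho
    ext x
    rw [mul_apply, mul_apply]
    by_cases h1 : x ∈ S
    · rw [hτ1 x h1, hτ1 _ (hSO o ho x h1), hc o ho]
    · have h2 : o x ∉ S := by
        intro h3
        apply h1
        have h4 := hSO o⁻¹ (O.inv_mem ho) _ h3
        simpa using h4
      rw [hτ2 x h1, hτ2 _ h2]

/-- a maximal nilpotent subgroup of `S_n` contained in `A_n` has odd order -/
theorem odd_of_max (M : Subgroup (Equiv.Perm Ω)) (hM : Group.IsNilpotent M)
    (hmax : ∀ L : Subgroup (Equiv.Perm Ω), M ≤ L → Group.IsNilpotent L → L = M)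
    (hA : ∀ x ∈ M, sign x = 1) : Odd (Nat.card M) := by
  classical
  haveI : Fact (Nat.Prime 2) := ⟨Nat.prime_two⟩
  by_contra hodd
  rw [Nat.not_odd_iff_even] at hodd
  have hdvd : 2 ∣ Nat.card M := hodd.two_dvd
  have hnorm := ((Group.isNilpotent_of_finite_tfae (G := M)).out 0 3).1 hM
  let P : Sylow 2 M := default
  have hPn : (P : Subgroup M).Normal := hnorm 2 ⟨Nat.prime_two⟩ P
  set B := Cfsg.pPrimeCore 2 M with hB
  have hBn : B.Normal := Cfsg.Agent.H1.Nilp.pPrimeCore_normal 2
  have hBc : (Nat.card B).Coprime 2 := Cfsg.Agent.H1.Nilp.pPrimeCore_coprime 2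
  have htop : B ⊔ (P : Subgroup M) = ⊤ := by
    apply Cfsg.Agent.H1.Nilp.eq_top_of_sylow_le
    intro q hq
    by_cases hqp : q = 2
    · subst hqp
      exact ⟨P, le_sup_right⟩
    · let Q : Sylow q M := default
      refine ⟨Q, le_trans ?_ le_sup_left⟩
      apply Cfsg.Agent.H1.Nilp.le_pPrimeCore (hnorm q hq Q)
      obtain ⟨k, hk⟩ := IsPGroup.iff_card.1 Q.2
      rw [hk]
      exact Nat.Coprime.pow_left _ ((Nat.coprime_primes hq.out Nat.prime_two).2 hqp)
  have hcop : (Nat.card P).Coprime (Nat.card B) := by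
    obtain ⟨k, hk⟩ := IsPGroup.iff_card.1 P.2
    rw [hk]
    exact Nat.Coprime.pow_left _ hBc.symm
  have hdis : Disjoint (P : Subgroup M) B := Subgroup.disjoint_of_coprime_natCard hcop
  set O : Subgroup (Equiv.Perm Ω) := B.map M.subtype with hO
  have hOodd : Odd (Nat.card O) := by
    rw [hO, Subgroup.card_map_of_injective M.subtype_injective]
    exact Nat.coprime_two_right.1 hBc
  -- an involution in `P`
  have hPdvd : 2 ∣ Nat.card P := by
    have := P.card_eq_multiplicity
    rw [this]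
    exact dvd_pow_self 2 (by
      have := (Nat.Prime.dvd_iff_one_le_factorization Nat.prime_two Nat.card_pos.ne').1 hdvd
      omega)
  obtain ⟨t, ht⟩ := exists_prime_orderOf_dvd_card' 2 hPdvd
  have ht2 : t ^ 2 = 1 := by
    have := pow_orderOf_eq_one t
    rwa [ht] at this
  have hcomm : ∀ x ∈ (P : Subgroup M), ∀ b ∈ B, b * x = x * b := fun x hx b hb =>
    (Subgroup.commute_of_normal_of_disjoint _ _ hPn hBn hdis x b hx hb).symm
  set C := Subgroup.centralizer (O : Set (Equiv.Perm Ω)) with hC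
  obtain ⟨τ, hτ1, hτ2⟩ := exists_odd O hOodd ((t : M) : Equiv.Perm Ω) (by
      intro h1
      have h2 : t = 1 := Subtype.ext (Subtype.ext h1)
      rw [h2, orderOf_one] at ht
      omega) (by
      intro x
      have h2 : (((t : M) : Equiv.Perm Ω)) ^ 2 = 1 := congrArg (fun z : P => ((z : M) : Equiv.Perm Ω)) ht2
      rw [pow_two] at h2
      exact congrArg (fun e : Equiv.Perm Ω => e x) h2) (by
      rintro _ ⟨b, hb, rfl⟩ x
      have h2 := hcomm t t.2 b hb
      exact congrArg (fun z : M => (z : Equiv.Perm Ω) x) h2)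
  have hτC : τ ∈ C := by
    rw [hC, Subgroup.mem_centralizer_iff]
    intro o ho
    exact hτ2 o ho
  -- the Sylow subgroup of the centralizer
  have hPC : (P : Subgroup M).map M.subtype ≤ C := by
    rintro _ ⟨x, hx, rfl⟩
    rw [hC, Subgroup.mem_centralizer_iff]
    rintro _ ⟨b, hb, rfl⟩
    exact congrArg Subtype.val (hcomm x hx b hb)
  have hPC2 : IsPGroup 2 (((P : Subgroup M).map M.subtype).subgroupOf C) := by
    apply IsPGroup.comap_of_injective _ _ C.subtype_injective
    exact P.2.map _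
  obtain ⟨T, hT⟩ := hPC2.exists_le_sylow
  -- the product is nilpotent
  let f : O × T →* Equiv.Perm Ω := MonoidHom.noncommCoprod O.subtype (C.subtype.comp (T : Subgroup C).subtype)
    (by
      intro m n
      exact Subgroup.mem_centralizer_iff.1 (n : C).2 m m.2)
  have hBnil : Group.IsNilpotent O := by
    have h1 : O ≤ M := by
      rintro _ ⟨b, _, rfl⟩
      exact b.2
    exact Cfsg.Agent.H1.Nilp.isNilpotent_of_le h1 hM
  have hTnil : Group.IsNilpotent T := T.2.isNilpotent
  have hfn : Group.IsNilpotent f.range := by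
    haveI := hBnil
    haveI := hTnil
    exact Group.nilpotent_of_surjective f.rangeRestrict (MonoidHom.rangeRestrict_surjective _)
  have hMf : M ≤ f.range := by
    intro x hx
    have hg : (⟨x, hx⟩ : M) ∈ (↑(B ⊔ (P : Subgroup M)) : Set M) := by rw [htop]; trivial
    rw [Subgroup.mul_normal] at hg
    obtain ⟨b, hb, a, ha, hab⟩ := hg
    have ha2 : (a : Equiv.Perm Ω) ∈ C := hPC ⟨a, ha, rfl⟩
    have ha3 : (⟨a, ha2⟩ : C) ∈ (T : Subgroup C) := hT (by
      rw [Subgroup.mem_subgroupOf]
      exact ⟨a, ha, rfl⟩)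
    refine ⟨(⟨b, ⟨b, hb, rfl⟩⟩, ⟨⟨a, ha2⟩, ha3⟩), ?_⟩
    exact congrArg Subtype.val hab
  have hEq := hmax f.range hMf hfn
  have hTM : ∀ x : T, sign ((x : C) : Equiv.Perm Ω) = 1 := by
    intro x
    apply hA
    rw [← hEq]
    refine ⟨(1, x), ?_⟩
    change (1 : Equiv.Perm Ω) * ((x : C) : Equiv.Perm Ω) = _
    rw [one_mul]
  let s : C →* ℤˣ := sign.comp C.subtype
  have hs : Function.Surjective s := by
    intro u
    rcases Int.units_eq_one_or u with rfl | rfl
    · exact ⟨1, map_one s⟩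
    · exact ⟨⟨τ, hτC⟩, hτ1⟩
  have hidx : s.ker.index = 2 := by
    rw [Subgroup.index_ker, MonoidHom.range_eq_top.2 hs, Subgroup.card_top, Nat.card_eq_fintype_card]
    rfl
  have hTk : (T : Subgroup C) ≤ s.ker := by
    intro x hx
    exact hTM ⟨x, hx⟩
  have h9 := Subgroup.index_dvd_of_le hTk
  rw [hidx] at h9
  exact T.not_dvd_index h9

end inv

/-- the odd order bound -/
theorem odd_aux (n : ℕ) : ∀ (G Ω : Type) [Group G] [Finite G] [MulAction G Ω] [Finite Ω] [FaithfulSMul G Ω],
    Group.IsNilpotent G → Odd (Nat.card G) → Nat.card Ω = n → 0 < n → (Nat.card G) ^ 2 ≤ 3 ^ (n - 1) ∧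
      ((¬ ∃ ω : Ω, orbit G ω = Set.univ) → (Nat.card G) ^ 2 ≤ 3 ^ (n - 2)) := by
  induction n using Nat.strong_induction_on with
  | _ n ih =>
  intro G Ω _ _ _ _ _ hnil hodd hn hpos
  have hne : Nonempty Ω := by
    rw [← hn] at hpos
    exact (Nat.card_pos_iff.1 hpos).1
  obtain ⟨ω⟩ := hne
  by_cases htr : orbit G ω = Set.univ
  · refine ⟨?_, fun hcon => absurd ⟨ω, htr⟩ hcon⟩
    by_cases hG : ∃ p : ℕ, p.Prime ∧ IsPGroup p G
    · obtain ⟨p, hp, hG⟩ := hG
      haveI : Fact p.Prime := ⟨hp⟩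
      by_cases hp2 : p = 2
      · subst hp2
        obtain ⟨k, hk⟩ := IsPGroup.iff_card.1 hG
        rcases Nat.eq_zero_or_pos k with h0 | h0
        · rw [hk, h0]; simpa using Nat.one_le_pow (n - 1) 3 (by norm_num)
        · exfalso
          rw [hk] at hodd
          have : Even (2 ^ k) := (even_two).pow_of_ne_zero h0.ne'
          exact (Nat.not_odd_iff_even.2 this) hodd
      · rw [← hn]
        exact pgroup_sq p hp2 G Ω hG
    push Not at hG
    haveI : IsPretransitive G Ω := by
      rw [isPretransitive_iff_orbit_eq_univ (G := G) (X := Ω) ω]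
      exact htr
    obtain ⟨A, B, hA, hB, hA1, hB1, hcop, hAB, hc, hcard⟩ := split hnil hG
    haveI := faithful_orbit A B hAB hc ω
    haveI := faithful_orbit B A (by rw [sup_comm]; exact hAB) (fun b hb a ha => (hc a ha b hb).symm) ω
    haveI : Nontrivial A := (Subgroup.nontrivial_iff_ne_bot A).2 hA1
    haveI : Nontrivial B := (Subgroup.nontrivial_iff_ne_bot B).2 hB1
    have ha2 := two_le_orbit (A := A) ω
    have hb2 := two_le_orbit (A := B) ω
    have ha3 := card_orbit_dvd (A := A) ω
    have hb3 := card_orbit_dvd (A := B) ω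
    have ha4 : Nat.card (orbit A ω) ∣ n := by
      have := (IsBlock.orbit_of_normal (N := A) ω).ncard_dvd_card ⟨ω, mem_orbit_self ω⟩
      rwa [hn] at this
    have hb4 : Nat.card (orbit B ω) ∣ n := by
      have := (IsBlock.orbit_of_normal (N := B) ω).ncard_dvd_card ⟨ω, mem_orbit_self ω⟩
      rwa [hn] at this
    have hcop2 : (Nat.card (orbit A ω)).Coprime (Nat.card (orbit B ω)) :=
      (hcop.coprime_dvd_left ha3).coprime_dvd_right hb3
    have hab : Nat.card (orbit A ω) * Nat.card (orbit B ω) ∣ n := hcop2.mul_dvd_of_dvd_of_dvd ha4 hb4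
    have hle := Nat.le_of_dvd hpos hab
    set a := Nat.card (orbit A ω) with ha
    set b := Nat.card (orbit B ω) with hb
    have hAo : Odd (Nat.card A) := hodd.of_dvd_nat (Subgroup.card_subgroup_dvd_card A)
    have hBo : Odd (Nat.card B) := hodd.of_dvd_nat (Subgroup.card_subgroup_dvd_card B)
    have hA4 := (ih a (by nlinarith) A (orbit A ω) (by haveI := hnil; infer_instance) hAo ha.symm (by omega)).1
    have hB4 := (ih b (by nlinarith) B (orbit B ω) (by haveI := hnil; infer_instance) hBo hb.symm (by omega)).1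
    calc (Nat.card G) ^ 2 ≤ (Nat.card A * Nat.card B) ^ 2 := Nat.pow_le_pow_left hcard 2
      _ = Nat.card A ^ 2 * Nat.card B ^ 2 := by ring
      _ ≤ 3 ^ (a - 1) * 3 ^ (b - 1) := Nat.mul_le_mul hA4 hB4
      _ = 3 ^ (a - 1 + (b - 1)) := by rw [pow_add]
      _ ≤ 3 ^ (n - 1) := Nat.pow_le_pow_right (by norm_num) (by
          have : a + b ≤ n := by nlinarith
          omega)
  · have key : (Nat.card G) ^ 2 ≤ 3 ^ (n - 2) := by
      set K := (toPermHom G (orbit G ω)).ker with hK
      have h1 : Nat.card G = Nat.card K * Nat.card (toPermHom G (orbit G ω)).range := by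
        rw [← Subgroup.card_mul_index K, hK, Subgroup.index_ker]
      haveI : FaithfulSMul K (compl K ω) := by
        constructor
        intro x y hxy
        apply Subtype.ext
        apply FaithfulSMul.eq_of_smul_eq_smul (α := Ω)
        intro a
        by_cases ha : a ∈ orbit G ω
        · have h2 : ∀ z : K, (z : G) • a = a := by
            intro z
            have h3 := MonoidHom.mem_ker.1 z.2
            have h4 := congrArg (fun e : Equiv.Perm (orbit G ω) => (e ⟨a, ha⟩ : Ω)) h3
            exact h4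
          rw [h2, h2]
        · exact congrArg Subtype.val (hxy ⟨a, ha⟩)
      have hsum : Nat.card (orbit G ω) + Nat.card (compl K ω) = n := by
        have h5 : Nat.card (compl K ω) = ((orbit G ω)ᶜ : Set Ω).ncard := rfl
        have h6 : Nat.card (orbit G ω) = (orbit G ω).ncard := rfl
        rw [h5, h6, Set.ncard_add_ncard_compl, hn]
      have hpos1 : 0 < Nat.card (orbit G ω) := by
        haveI : Nonempty (orbit G ω) := ⟨⟨ω, mem_orbit_self ω⟩⟩
        exact Nat.card_pos
      have hpos2 : 0 < Nat.card (compl K ω) := by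
        obtain ⟨a, ha⟩ := (Set.ne_univ_iff_exists_notMem _).1 htr
        haveI : Nonempty (compl K ω) := ⟨⟨a, ha⟩⟩
        exact Nat.card_pos
      have h7 := (ih (Nat.card (compl K ω)) (by omega) K (compl K ω) (by haveI := hnil; infer_instance)
        (hodd.of_dvd_nat (Subgroup.card_subgroup_dvd_card K)) rfl hpos2).1
      have h8 := (ih (Nat.card (orbit G ω)) (by omega) (toPermHom G (orbit G ω)).range (orbit G ω)
        (by
          haveI := hnil
          exact Group.nilpotent_of_surjective (toPermHom G (orbit G ω)).rangeRestrict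
            (MonoidHom.rangeRestrict_surjective _))
        (hodd.of_dvd_nat (by rw [h1]; exact Dvd.intro_left _ rfl)) rfl hpos1).1
      calc (Nat.card G) ^ 2 = Nat.card K ^ 2 * Nat.card (toPermHom G (orbit G ω)).range ^ 2 := by
            rw [h1]; ring
        _ ≤ 3 ^ (Nat.card (compl K ω) - 1) * 3 ^ (Nat.card (orbit G ω) - 1) := Nat.mul_le_mul h7 h8
        _ = 3 ^ (Nat.card (compl K ω) - 1 + (Nat.card (orbit G ω) - 1)) := by rw [pow_add]
        _ ≤ 3 ^ (n - 2) := Nat.pow_le_pow_right (by norm_num) (by omega)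
    exact ⟨key.trans (Nat.pow_le_pow_right (by norm_num) (by omega)), fun _ => key⟩

end H7.Nilp
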