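import Mathlib
import Cfsg.Agent.H7_Nilp3

/-! Structure of nilpotent permutation groups of order `3 * 2 ^ e`. -/

namespace H7.Nilp

open Equiv.Perm

section st
variable {Ω : Type*} [Fintype Ω] [DecidableEq Ω]

theorem struct {G : Type*} [Group G] [Finite G] (hN : Group.IsNilpotent G) (e : ℕ)
    (hcard : Nat.card G = 3 * 2 ^ e) :
    ∃ z : G, ∃ T : Subgroup G, orderOf z = 3 ∧ Nat.card T = 2 ^ e ∧ (∀ t ∈ T, t * z = z * t) ∧
      Subgroup.zpowers z ⊔ T = ⊤ := by
  haveI : Fact (Nat.Prime 2) := ⟨Nat.prime_two⟩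
  haveI : Fact (Nat.Prime 3) := ⟨Nat.prime_three⟩
  have hnorm := ((Group.isNilpotent_of_finite_tfae (G := G)).out 0 3).1 hN
  let P : Sylow 2 G := default
  let Q : Sylow 3 G := default
  have hP : Nat.card P = 2 ^ e := by
    rw [P.card_eq_multiplicity, hcard, Nat.factorization_mul (by norm_num) (by positivity)]
    rw [Finsupp.add_apply, Nat.prime_three.factorization, Nat.prime_two.factorization_pow]
    simp
  have hQ : Nat.card Q = 3 := by
    rw [Q.card_eq_multiplicity, hcard, Nat.factorization_mul (by norm_num) (by positivity)]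
    rw [Finsupp.add_apply, Nat.prime_three.factorization, Nat.prime_two.factorization_pow]
    simp
  have hPn := hnorm 2 ⟨Nat.prime_two⟩ P
  have hQn := hnorm 3 ⟨Nat.prime_three⟩ Q
  have hcop : (Nat.card (P : Subgroup G)).Coprime (Nat.card (Q : Subgroup G)) := by
    change (Nat.card P).Coprime (Nat.card Q)
    rw [hP, hQ]
    exact Nat.Coprime.pow_left _ (by norm_num)
  have hdis : Disjoint (P : Subgroup G) Q := Subgroup.disjoint_of_coprime_natCard hcop
  obtain ⟨z, hz⟩ := exists_prime_orderOf_dvd_card' 3 (show 3 ∣ Nat.card Q by rw [hQ])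
  have hzo : orderOf (z : G) = 3 := by rw [Subgroup.orderOf_coe]; exact hz
  have hzQ : Subgroup.zpowers (z : G) = Q := by
    apply Subgroup.eq_of_le_of_card_ge
    · rw [Subgroup.zpowers_le]; exact z.2
    · change Nat.card Q ≤ _
      rw [Nat.card_zpowers, hzo, hQ]
  refine ⟨z, P, hzo, hP, ?_, ?_⟩
  · intro t ht
    exact Subgroup.commute_of_normal_of_disjoint _ _ hPn hQn hdis t z ht z.2
  · rw [hzQ]
    apply Subgroup.eq_top_of_card_eq
    have h1 : Nat.card P ∣ Nat.card ((Q : Subgroup G) ⊔ P : Subgroup G) := Subgroup.card_dvd_of_le le_sup_right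
    have h2 : Nat.card Q ∣ Nat.card ((Q : Subgroup G) ⊔ P : Subgroup G) := Subgroup.card_dvd_of_le le_sup_left
    have h3 := hcop.mul_dvd_of_dvd_of_dvd h1 h2
    change Nat.card P * Nat.card Q ∣ _ at h3
    rw [hP, hQ, mul_comm, ← hcard] at h3
    exact Nat.dvd_antisymm (Subgroup.card_subgroup_dvd_card _) h3

omit [Fintype Ω] [DecidableEq Ω] in
theorem same3 {z : Equiv.Perm Ω} (hz : z ^ 3 = 1) (x y : Ω) :
    SameCycle z x y ↔ y = x ∨ y = z x ∨ y = z (z x) := by
  constructor
  · rintro ⟨i, rfl⟩
    have h1 : z ^ i = z ^ (i % 3) := by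
      rw [← Int.emod_add_mul_ediv i 3, zpow_add, zpow_mul]
      have : z ^ (3 : ℤ) = 1 := by exact_mod_cast hz
      rw [this, one_zpow, mul_one]
      congr 1
      omega
    rw [h1]
    have h2 : i % 3 = 0 ∨ i % 3 = 1 ∨ i % 3 = 2 := by omega
    rcases h2 with h2 | h2 | h2
    · left; rw [h2]; rfl
    · right; left; rw [h2, zpow_one]
    · right; right; rw [h2]; rfl
  · rintro (rfl | rfl | rfl)
    · exact ⟨0, rfl⟩
    · exact ⟨1, by rw [zpow_one]⟩
    · exact ⟨2, rfl⟩

omit [Fintype Ω] [DecidableEq Ω] in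
/-- if every point stays in its `z`-cycle then `t ^ 3 = 1` -/
theorem cube_fix {z t : Equiv.Perm Ω} (hz : z ^ 3 = 1) (hc : ∀ x, t (z x) = z (t x)) (x : Ω)
    (h : SameCycle z x (t x)) : t (t (t x)) = x := by
  have h3 : z (z (z x)) = x := by
    have := congrArg (fun e : Equiv.Perm Ω => e x) hz
    simpa [pow_succ] using this
  rcases (same3 hz x (t x)).1 h with h | h | h
  · rw [h, h, h]
  · rw [h, hc, h, hc, hc, h, h3]
  · have e1 : t (t x) = z x := by
      calc t (t x) = t (z (z x)) := by rw [h]
        _ = z (t (z x)) := hc _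
        _ = z (z (t x)) := by rw [hc x]
        _ = z (z (z (z x))) := by rw [h]
        _ = z x := congrArg z h3
    rw [e1, hc, h, h3]

omit [Fintype Ω] [DecidableEq Ω] in
theorem odd_pow_fix {t : Equiv.Perm Ω} {k : ℕ} (ht : t ^ 2 ^ k = 1) (x : Ω) (h : t (t (t x)) = x) : t x = x := by
  have h1 : Nat.Coprime 3 (orderOf t) := by
    have h2 := orderOf_dvd_of_pow_eq_one ht
    exact Nat.Coprime.coprime_dvd_right h2 (Nat.Coprime.pow_right _ (by norm_num))
  obtain ⟨m, hm⟩ := exists_pow_eq_self_of_coprime h1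
  have h3 : ∀ j : ℕ, ((t ^ 3) ^ j) x = x := by
    intro j
    induction j with
    | zero => rfl
    | succ j ih =>
      rw [pow_succ, mul_apply]
      have : (t ^ 3) x = x := by
        rw [pow_succ, pow_two, mul_apply, mul_apply]; exact h
      rw [this, ih]
  have := h3 m
  rwa [hm] at this

theorem moves {z : Equiv.Perm Ω} (hz : orderOf z = 3) (T : Subgroup (Equiv.Perm Ω)) (e : ℕ)
    (hT : Nat.card T = 2 ^ e) (hc : ∀ t ∈ T, t * z = z * t) (hs : z.support.card ≠ 3) :
    e ≤ v (Fintype.card Ω - 4) := by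
  classical
  haveI : Fact (Nat.Prime 2) := ⟨Nat.prime_two⟩
  have hz3 : z ^ 3 = 1 := by rw [← hz]; exact pow_orderOf_eq_one z
  have hzz : ∀ x, z (z (z x)) = x := by
    intro x
    have := congrArg (fun e : Equiv.Perm Ω => e x) hz3
    simpa [pow_succ] using this
  let r : Setoid Ω := SameCycle.setoid z
  let Q := Quotient r
  haveI : Fintype Q := Quotient.fintype r
  have hcx : ∀ t ∈ T, ∀ x, t (z x) = z (t x) := by
    intro t ht x
    exact congrArg (fun e : Equiv.Perm Ω => e x) (hc t ht)
  have hrel : ∀ t ∈ T, ∀ x y, SameCycle z x y → SameCycle z (t x) (t y) := by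
    intro t ht x y h
    rw [same3 hz3] at h ⊢
    rcases h with rfl | rfl | rfl
    · left; rfl
    · right; left; rw [hcx t ht]
    · right; right; rw [hcx t ht, hcx t ht]
  let ρ : T →* Equiv.Perm Q :=
    { toFun := fun t =>
        { toFun := Quotient.map' (fun x => (t : Equiv.Perm Ω) x) (fun x y h => hrel t t.2 x y h)
          invFun := Quotient.map' (fun x => ((t⁻¹ : T) : Equiv.Perm Ω) x) (fun x y h => hrel _ (t⁻¹).2 x y h)
          left_inv := by
            intro q
            induction q using Quotient.inductionOn' with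
            | h x => simp [Quotient.map'_mk'']
          right_inv := by
            intro q
            induction q using Quotient.inductionOn' with
            | h x => simp [Quotient.map'_mk''] }
      map_one' := by
        ext q
        induction q using Quotient.inductionOn' with
        | h x => rfl
      map_mul' := by
        intro a b
        ext q
        induction q using Quotient.inductionOn' with
        | h x => rfl }
  have hρ : Function.Injective ρ := by
    rw [injective_iff_map_eq_one]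
    intro t ht
    have h1 : ∀ x, SameCycle z x ((t : Equiv.Perm Ω) x) := by
      intro x
      have h2 := congrArg (fun e : Equiv.Perm Q => e (Quotient.mk'' x)) ht
      have h3 : (Quotient.mk'' ((t : Equiv.Perm Ω) x) : Q) = Quotient.mk'' x := h2
      exact (Quotient.exact' h3).symm
    have h2 : (t : Equiv.Perm Ω) ^ 2 ^ e = 1 := by
      have h3 : t ^ Nat.card T = 1 := pow_card_eq_one'
      rw [hT] at h3
      exact congrArg Subtype.val h3
    apply Subtype.ext
    ext x
    exact odd_pow_fix h2 x (cube_fix hz3 (hcx t t.2) x (h1 x))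
  have hdvd : 2 ^ e ∣ (Nat.card Q).factorial := by
    rw [← hT, ← Nat.card_perm]
    exact Subgroup.card_dvd_of_injective ρ hρ
  have hle : e ≤ v (Nat.card Q) := (padicValNat_dvd_iff_le (Nat.factorial_ne_zero _)).1 hdvd
  refine hle.trans (v_mono ?_)
  -- count the cycles
  have hne1 : z ≠ 1 := by
    rintro rfl
    rw [orderOf_one] at hz; omega
  obtain ⟨a, ha⟩ : ∃ a, z a ≠ a := by
    by_contra hcon
    push Not at hcon
    exact hne1 (Equiv.ext hcon)
  have hdist : ∀ x, z x ≠ x → z (z x) ≠ x ∧ z (z x) ≠ z x := by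
    intro x hx
    refine ⟨fun h1 => hx ?_, fun h1 => hx (z.injective h1)⟩
    have h2 := hzz x
    rw [h1] at h2
    exact h2
  have hsub : ({a, z a, z (z a)} : Finset Ω) ⊆ z.support := by
    intro x hx
    rw [mem_support]
    simp only [Finset.mem_insert, Finset.mem_singleton] at hx
    rcases hx with rfl | rfl | rfl
    · exact ha
    · exact fun h1 => ha (z.injective h1)
    · exact fun h1 => ha (z.injective (z.injective h1))
  have hc3 : ({a, z a, z (z a)} : Finset Ω).card = 3 :=
    Finset.card_eq_three.2 ⟨a, z a, z (z a), ha.symm, (hdist a ha).1.symm, (hdist a ha).2.symm, rfl⟩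
  obtain ⟨b, hb, hb2⟩ : ∃ b ∈ z.support, b ∉ ({a, z a, z (z a)} : Finset Ω) := by
    by_contra hcon
    push Not at hcon
    have h1 : z.support = {a, z a, z (z a)} := Finset.Subset.antisymm hcon hsub
    rw [h1] at hs
    exact hs hc3
  rw [mem_support] at hb
  simp only [Finset.mem_insert, Finset.mem_singleton, not_or] at hb2
  have hfib : Fintype.card Ω = ∑ q : Q, (Finset.univ.filter (fun x : Ω => (Quotient.mk'' x : Q) = q)).card :=
    Finset.card_eq_sum_card_fiberwise (fun x _ => Finset.mem_coe.2 (Finset.mem_univ _))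
  have h1f : ∀ q : Q, 1 ≤ (Finset.univ.filter (fun x : Ω => (Quotient.mk'' x : Q) = q)).card := by
    intro q
    induction q using Quotient.inductionOn' with
    | h x => exact Finset.card_pos.2 ⟨x, by simp⟩
  have h3f : ∀ x : Ω, z x ≠ x → 3 ≤ (Finset.univ.filter (fun y : Ω => (Quotient.mk'' y : Q) = Quotient.mk'' x)).card := by
    intro x hx
    have hc3' : ({x, z x, z (z x)} : Finset Ω).card = 3 :=
      Finset.card_eq_three.2 ⟨x, z x, z (z x), hx.symm, (hdist x hx).1.symm, (hdist x hx).2.symm, rfl⟩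
    rw [← hc3']
    apply Finset.card_le_card
    intro y hy
    rw [Finset.mem_filter]
    refine ⟨Finset.mem_univ _, ?_⟩
    apply Quotient.sound'
    change SameCycle z y x
    apply SameCycle.symm
    rw [same3 hz3]
    simpa only [Finset.mem_insert, Finset.mem_singleton] using hy
  have hqab : (Quotient.mk'' a : Q) ≠ Quotient.mk'' b := by
    intro h1
    have h2 : SameCycle z a b := Quotient.exact' h1
    rw [same3 hz3] at h2
    rcases h2 with h2 | h2 | h2
    · exact hb2.1 h2
    · exact hb2.2.1 h2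
    · exact hb2.2.2 h2
  have hsum : ∑ q : Q, (1 + (if q = Quotient.mk'' a then 2 else 0) + (if q = Quotient.mk'' b then 2 else 0)) ≤
      ∑ q : Q, (Finset.univ.filter (fun x : Ω => (Quotient.mk'' x : Q) = q)).card := by
    apply Finset.sum_le_sum
    intro q _
    by_cases h1 : q = Quotient.mk'' a
    · subst h1
      rw [if_pos rfl, if_neg hqab]
      exact h3f a ha
    · by_cases h2 : q = Quotient.mk'' b
      · subst h2
        rw [if_neg h1, if_pos rfl]
        exact h3f b hb
      · rw [if_neg h1, if_neg h2]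
        exact h1f q
  rw [← hfib, Finset.sum_add_distrib, Finset.sum_add_distrib, Finset.sum_ite_eq' , Finset.sum_ite_eq'] at hsum
  simp only [Finset.mem_univ, if_true, Finset.sum_const, Finset.card_univ, smul_eq_mul, mul_one] at hsum
  rw [Nat.card_eq_fintype_card]
  omega

/-- `2`-elements commuting with a 3-cycle fix its support -/
theorem fixes {z : Equiv.Perm Ω} (hz : orderOf z = 3) (hs : z.support.card = 3) (T : Subgroup (Equiv.Perm Ω)) (e : ℕ)
    (hT : Nat.card T = 2 ^ e) (hc : ∀ t ∈ T, t * z = z * t) : ∀ t ∈ T, ∀ x, z x ≠ x → t x = x := by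
  have hz3 : z ^ 3 = 1 := by rw [← hz]; exact pow_orderOf_eq_one z
  intro t ht x hx
  have hcx : ∀ x, t (z x) = z (t x) := fun x => congrArg (fun e : Equiv.Perm Ω => e x) (hc t ht)
  have h2 : t ^ 2 ^ e = 1 := by
    have h3 : (⟨t, ht⟩ : T) ^ Nat.card T = 1 := pow_card_eq_one'
    rw [hT] at h3
    exact congrArg Subtype.val h3
  apply odd_pow_fix h2
  apply cube_fix hz3 hcx
  rw [same3 hz3]
  have hzz : z (z (z x)) = x := by
    have := congrArg (fun e : Equiv.Perm Ω => e x) hz3
    simpa [pow_succ] using this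
  have h5 : z (z x) ≠ x ∧ z (z x) ≠ z x := by
    refine ⟨fun h1 => hx ?_, fun h1 => hx (z.injective h1)⟩
    rw [h1] at hzz
    exact hzz
  have hc3 : ({x, z x, z (z x)} : Finset Ω).card = 3 :=
    Finset.card_eq_three.2 ⟨x, z x, z (z x), hx.symm, h5.1.symm, h5.2.symm, rfl⟩
  have hsub : ({x, z x, z (z x)} : Finset Ω) ⊆ z.support := by
    intro y hy
    rw [mem_support]
    simp only [Finset.mem_insert, Finset.mem_singleton] at hy
    rcases hy with rfl | rfl | rfl
    · exact hx
    · exact fun h1 => hx (z.injective h1)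
    · exact fun h1 => hx (z.injective (z.injective h1))
  have heq : ({x, z x, z (z x)} : Finset Ω) = z.support := Finset.eq_of_subset_of_card_le hsub (by rw [hs, hc3])
  have h6 : t x ∈ z.support := by
    rw [mem_support, ← hcx]
    exact fun h1 => hx (t.injective h1)
  rw [← heq] at h6
  simpa only [Finset.mem_insert, Finset.mem_singleton] using h6

end st

theorem v_gap (n : ℕ) (hn : n % 4 = 3) (h7 : 7 ≤ n) : v (n - 4) + 2 ≤ v (n - 3) := by
  haveI : Fact (Nat.Prime 2) := ⟨Nat.prime_two⟩
  have h1 : (n - 3).factorial = (n - 3) * (n - 4).factorial := by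
    rw [show n - 3 = (n - 4) + 1 by omega, Nat.factorial_succ]
  unfold v
  rw [h1, padicValNat.mul (by omega) (Nat.factorial_ne_zero _)]
  have h2 : 2 ≤ padicValNat 2 (n - 3) := by
    have h3 : 2 ^ 2 ∣ n - 3 := by omega
    exact (padicValNat_dvd_iff_le (by omega)).1 h3
  omega

end H7.Nilp
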