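import Mathlib
import Cfsg.Agent.H7_Nilp4

/-! Conjugacy of nilpotent permutation groups of order `3 * 2 ^ e`. -/

namespace H7.Nilp

open Equiv.Perm

variable {Ω : Type*} [Fintype Ω] [DecidableEq Ω]

theorem conj_gen (z : Equiv.Perm Ω) (H T1 T2 : Subgroup (Equiv.Perm Ω)) (h1 : T1 ≤ H) (h2 : T2 ≤ H)
    (hf1 : ∀ t ∈ T1, ∀ x, z x ≠ x → t x = x) (hf2 : ∀ t ∈ T2, ∀ x, z x ≠ x → t x = x)
    (hc1 : Nat.card T1 = 2 ^ (Nat.card (H.comap (ofSubtype (p := fun x => z x = x)))).factorization 2)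
    (hc2 : Nat.card T2 = 2 ^ (Nat.card (H.comap (ofSubtype (p := fun x => z x = x)))).factorization 2) :
    ∃ k ∈ H, k * z = z * k ∧ T2 = T1.map (MulAut.conj k).toMonoidHom := by
  classical
  haveI : Fact (Nat.Prime 2) := ⟨Nat.prime_two⟩
  set j : Equiv.Perm {x // z x = x} →* Equiv.Perm Ω := ofSubtype (p := fun x => z x = x) with hj
  have hjinj : Function.Injective j := ofSubtype_injective
  have hjz : ∀ k, Equiv.Perm.Disjoint (j k) z := by
    intro k x
    by_cases hx : z x = x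
    · exact Or.inr hx
    · left
      exact ofSubtype_apply_of_not_mem k hx
  have hr : ∀ T : Subgroup (Equiv.Perm Ω), (∀ t ∈ T, ∀ x, z x ≠ x → t x = x) → T ≤ j.range := by
    intro T hT t ht
    rw [hj, mem_range_ofSubtype_iff]
    intro x hx
    rw [Finset.mem_coe, mem_support] at hx
    change z x = x
    by_contra hcon
    exact hx (hT t ht x hcon)
  set L := H.comap j with hL
  let i : L →* Equiv.Perm Ω := j.comp L.subtype
  have hiinj : Function.Injective i := hjinj.comp L.subtype_injective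
  have hiT : ∀ T : Subgroup (Equiv.Perm Ω), T ≤ H → (∀ t ∈ T, ∀ x, z x ≠ x → t x = x) → (T.comap i).map i = T := by
    intro T hTH hT
    rw [Subgroup.map_comap_eq]
    apply inf_eq_right.2
    intro t ht
    obtain ⟨s, hs⟩ := hr T hT ht
    exact ⟨⟨s, by rw [hL, Subgroup.mem_comap, hs]; exact hTH ht⟩, hs⟩
  have hcard : ∀ T : Subgroup (Equiv.Perm Ω), T ≤ H → (∀ t ∈ T, ∀ x, z x ≠ x → t x = x) →
      Nat.card (T.comap i) = Nat.card T := by
    intro T hTH hT
    conv_rhs => rw [← hiT T hTH hT]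
    rw [Subgroup.card_map_of_injective hiinj]
  let P1 : Sylow 2 L := Sylow.ofCard (T1.comap i) (by rw [hcard T1 h1 hf1, hc1])
  let P2 : Sylow 2 L := Sylow.ofCard (T2.comap i) (by rw [hcard T2 h2 hf2, hc2])
  obtain ⟨k, hk⟩ := MulAction.exists_smul_eq L P1 P2
  have hk2 : T2.comap i = (T1.comap i).map (MulAut.conj k).toMonoidHom := by
    have h3 := congrArg (fun P : Sylow 2 L => (P : Subgroup L)) hk
    exact h3.symm
  refine ⟨j (k : Equiv.Perm {x // z x = x}), k.2, (hjz _).commute, ?_⟩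
  rw [← hiT T2 h2 hf2, hk2]
  conv_rhs => rw [← hiT T1 h1 hf1]
  rw [Subgroup.map_map, Subgroup.map_map]
  congr 1
  apply MonoidHom.ext
  intro x
  change j ((k : Equiv.Perm {x // z x = x}) * x * (k : Equiv.Perm {x // z x = x})⁻¹) =
    j (k : Equiv.Perm {x // z x = x}) * j x * (j (k : Equiv.Perm {x // z x = x}))⁻¹
  rw [map_mul, map_mul, map_inv]

theorem support_ge {z : Equiv.Perm Ω} (hz : orderOf z = 3) : 3 ≤ z.support.card := by
  have hne1 : z ≠ 1 := by
    rintro rfl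
    rw [orderOf_one] at hz; omega
  have hz3 : z ^ 3 = 1 := by rw [← hz]; exact pow_orderOf_eq_one z
  have hzz : ∀ x, z (z (z x)) = x := by
    intro x
    have := congrArg (fun e : Equiv.Perm Ω => e x) hz3
    simpa [pow_succ] using this
  obtain ⟨a, ha⟩ : ∃ a, z a ≠ a := by
    by_contra hcon
    push Not at hcon
    exact hne1 (Equiv.ext hcon)
  have h5 : z (z a) ≠ a ∧ z (z a) ≠ z a := by
    refine ⟨fun h1 => ha ?_, fun h1 => ha (z.injective h1)⟩
    have := hzz a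
    rw [h1] at this
    exact this
  have hc3 : ({a, z a, z (z a)} : Finset Ω).card = 3 :=
    Finset.card_eq_three.2 ⟨a, z a, z (z a), ha.symm, h5.1.symm, h5.2.symm, rfl⟩
  rw [← hc3]
  apply Finset.card_le_card
  intro y hy
  rw [mem_support]
  simp only [Finset.mem_insert, Finset.mem_singleton] at hy
  rcases hy with rfl | rfl | rfl
  · exact ha
  · exact fun h1 => ha (z.injective h1)
  · exact fun h1 => ha (z.injective (z.injective h1))

omit [DecidableEq Ω] in
/-- package the structure in the symmetric group -/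
theorem struct' (N : Subgroup (Equiv.Perm Ω)) (hN : Group.IsNilpotent N) (e : ℕ) (hcard : Nat.card N = 3 * 2 ^ e) :
    ∃ z : Equiv.Perm Ω, ∃ T : Subgroup (Equiv.Perm Ω), orderOf z = 3 ∧ Nat.card T = 2 ^ e ∧ (∀ t ∈ T, t * z = z * t) ∧
      N = Subgroup.zpowers z ⊔ T := by
  obtain ⟨z, T, hz, hT, hc, htop⟩ := struct hN e hcard
  refine ⟨z, T.map N.subtype, by rw [Subgroup.orderOf_coe]; exact hz, ?_, ?_, ?_⟩
  · rw [Subgroup.card_map_of_injective N.subtype_injective, hT]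
  · rintro _ ⟨t, ht, rfl⟩
    exact congrArg Subtype.val (hc t ht)
  · have h1 := congrArg (Subgroup.map N.subtype) htop
    rw [Subgroup.map_sup, MonoidHom.map_zpowers] at h1
    rw [← MonoidHom.range_eq_map, Subgroup.range_subtype] at h1
    exact h1.symm

/-- the fixed points of `z` -/
theorem card_fix {z : Equiv.Perm Ω} (hs : z.support.card = 3) : Nat.card {x // z x = x} = Fintype.card Ω - 3 := by
  classical
  rw [Nat.card_eq_fintype_card, Fintype.card_subtype]
  have h1 : (Finset.univ.filter (fun x => z x = x)) = z.supportᶜ := by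
    ext x; simp
  rw [h1, Finset.card_compl, hs]

/-- final conjugation step -/
theorem conj_final (H : Subgroup (Equiv.Perm Ω)) (z1 z2 g0 : Equiv.Perm Ω) (T1 T2 : Subgroup (Equiv.Perm Ω))
    (hH : ∀ g ∈ H, ∀ x ∈ H, g * x * g⁻¹ ∈ H) (hg0 : g0 ∈ H) (hg : g0 * z1 * g0⁻¹ = z2)
    (h1 : T1 ≤ H) (h2 : T2 ≤ H) (e : ℕ) (hz2 : orderOf z2 = 3) (hs2 : z2.support.card = 3)
    (hcm1 : ∀ t ∈ T1, t * z1 = z1 * t) (hcm2 : ∀ t ∈ T2, t * z2 = z2 * t)
    (hT1 : Nat.card T1 = 2 ^ e) (hT2 : Nat.card T2 = 2 ^ e)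
    (he : e = (Nat.card (H.comap (ofSubtype (p := fun x => z2 x = x)))).factorization 2) :
    ∃ g ∈ H, Subgroup.zpowers z2 ⊔ T2 = (Subgroup.zpowers z1 ⊔ T1).map (MulAut.conj g).toMonoidHom := by
  set T1' := T1.map (MulAut.conj g0).toMonoidHom with hT1'
  have hT1c : Nat.card T1' = 2 ^ e := by
    rw [hT1', Subgroup.card_map_of_injective (MulAut.conj g0).injective, hT1]
  have h1' : T1' ≤ H := by
    rintro _ ⟨t, ht, rfl⟩
    exact hH g0 hg0 t (h1 ht)
  have hcm1' : ∀ t ∈ T1', t * z2 = z2 * t := by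
    rintro _ ⟨t, ht, rfl⟩
    change (g0 * t * g0⁻¹) * z2 = z2 * (g0 * t * g0⁻¹)
    rw [← hg]
    have := hcm1 t ht
    calc g0 * t * g0⁻¹ * (g0 * z1 * g0⁻¹) = g0 * (t * z1) * g0⁻¹ := by group
      _ = g0 * (z1 * t) * g0⁻¹ := by rw [this]
      _ = _ := by group
  obtain ⟨k, hk, hkz, hkT⟩ := conj_gen z2 H T1' T2 h1' h2 (fixes hz2 hs2 T1' e hT1c hcm1')
    (fixes hz2 hs2 T2 e hT2 hcm2) (by rw [hT1c, he]) (by rw [hT2, he])
  refine ⟨k * g0, H.mul_mem hk hg0, ?_⟩
  rw [Subgroup.map_sup, MonoidHom.map_zpowers, hkT, hT1', Subgroup.map_map]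
  congr 1
  · congr 1
    change z2 = (k * g0) * z1 * (k * g0)⁻¹
    calc z2 = z2 * k * k⁻¹ := by group
      _ = k * z2 * k⁻¹ := by rw [hkz]
      _ = k * (g0 * z1 * g0⁻¹) * k⁻¹ := by rw [hg]
      _ = _ := by group

end H7.Nilp
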