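import Mathlib
import Cfsg.Agent.H7_Part

/-! Elements of prime order fixing a uniform partition: sufficiency. -/

namespace H7.Part

open Equiv.Perm

/-- the block permutation -/
def rot (c r d : ℕ) : Equiv.Perm ((Fin c × ZMod r) ⊕ Fin d) :=
  Equiv.sumCongr (Equiv.prodCongr (Equiv.refl _) (Equiv.addRight (1 : ZMod r))) (Equiv.refl _)

theorem rot_inl {c r d : ℕ} (i : Fin c) (s : ZMod r) : rot c r d (Sum.inl (i, s)) = Sum.inl (i, s + 1) := rfl
theorem rot_inr {c r d : ℕ} (j : Fin d) : rot c r d (Sum.inr j) = Sum.inr j := rfl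

theorem rot_pow_inl {c r d : ℕ} (i : Fin c) (s : ZMod r) (n : ℕ) :
    ((rot c r d) ^ n) (Sum.inl (i, s)) = Sum.inl (i, s + n) := by
  induction n with
  | zero => simp
  | succ n ih => rw [pow_succ', mul_apply, ih, rot_inl]; simp [add_assoc]

section
variable {a c r d : ℕ} [hr : Fact r.Prime] (τ : Fin d → Equiv.Perm (Fin a))

/-- the model permutation -/
def model : Equiv.Perm (((Fin c × ZMod r) ⊕ Fin d) × Fin a) :=
  Equiv.prodShear (rot c r d) (fun β => match β with
    | Sum.inl _ => Equiv.refl _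
    | Sum.inr j => τ j)

theorem model_inl (x : Fin c × ZMod r) (y : Fin a) :
    model (c := c) (r := r) τ (Sum.inl x, y) = (rot c r d (Sum.inl x), y) := rfl
theorem model_inr (j : Fin d) (y : Fin a) : model (c := c) (r := r) τ (Sum.inr j, y) = (Sum.inr j, τ j y) := rfl

theorem model_fst (x : ((Fin c × ZMod r) ⊕ Fin d) × Fin a) : (model (c := c) (r := r) τ x).1 = rot c r d x.1 := rfl

theorem model_pow_inl (i : Fin c) (s : ZMod r) (y : Fin a) (n : ℕ) :
    ((model (c := c) (r := r) τ) ^ n) (Sum.inl (i, s), y) = (Sum.inl (i, s + n), y) := by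
  induction n with
  | zero => simp
  | succ n ih => rw [pow_succ', mul_apply, ih, model_inl, rot_inl]; simp [add_assoc]

theorem model_pow_inr (j : Fin d) (y : Fin a) (n : ℕ) :
    ((model (c := c) (r := r) τ) ^ n) (Sum.inr j, y) = (Sum.inr j, (τ j ^ n) y) := by
  induction n with
  | zero => simp
  | succ n ih => rw [pow_succ', mul_apply, ih, model_inr, pow_succ', mul_apply]

theorem model_pow_eq_one (hτ : ∀ j, τ j ^ r = 1) : (model (c := c) (r := r) τ) ^ r = 1 := by
  apply Equiv.ext
  rintro ⟨⟨i, s⟩ | j, y⟩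
  · rw [model_pow_inl]; simp
  · rw [model_pow_inr, hτ]; rfl

theorem model_support (g : Fin d → ℕ) (hg : ∀ j, (τ j).support.card = r * g j) :
    (Finset.univ.filter (fun x => model (c := c) (r := r) τ x ≠ x)).card = r * (a * c + ∑ j, g j) := by
  classical
  haveI : NeZero r := ⟨hr.out.ne_zero⟩
  haveI : Nontrivial (ZMod r) := ZMod.nontrivial_iff.2 hr.out.one_lt.ne'
  rw [Finset.card_filter, Fintype.sum_prod_type, Fintype.sum_sum_type]
  have h1 : ∑ x : Fin c × ZMod r, ∑ y : Fin a, (if model (c := c) (r := r) τ (Sum.inl x, y) ≠ (Sum.inl x, y) then 1 else 0) =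
      r * (a * c) := by
    have h2 : ∀ x : Fin c × ZMod r, ∀ y : Fin a,
        (if model (c := c) (r := r) τ (Sum.inl x, y) ≠ (Sum.inl x, y) then 1 else 0) = 1 := by
      rintro ⟨i, s⟩ y
      rw [if_pos]
      rw [model_inl, rot_inl]
      intro h
      have h3 := congrArg Prod.fst h
      have h4 : (i, s + 1) = (i, s) := Sum.inl_injective h3
      have h5 := congrArg Prod.snd h4
      simp at h5
    simp only [h2, Finset.sum_const, Finset.card_univ, Fintype.card_prod, Fintype.card_fin, ZMod.card, smul_eq_mul, mul_one]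
    ring
  have h3 : ∑ j : Fin d, ∑ y : Fin a, (if model (c := c) (r := r) τ (Sum.inr j, y) ≠ (Sum.inr j, y) then 1 else 0) =
      r * ∑ j, g j := by
    rw [Finset.mul_sum]
    apply Finset.sum_congr rfl
    intro j _
    rw [← hg j, ← Finset.card_filter]
    congr 1
    ext y
    rw [Finset.mem_filter, mem_support, model_inr]
    simp
  rw [h1, h3]
  ring

end

/-- sufficiency -/
theorem suf {α : Type*} [Fintype α] [DecidableEq α] (a b r m : ℕ) [hr : Fact r.Prime] (hcard : Fintype.card α = a * b)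
    (hgood : Good a b r m) (σ : Equiv.Perm α) (hσ : σ ^ r = 1) (hm : σ.support.card = r * m) :
    ∃ f : α → Fin b, (∀ j : Fin b, Nat.card {x : α // f x = j} = a) ∧
      ∃ π : Equiv.Perm (Fin b), ∀ x, f (σ x) = π (f x) := by
  classical
  haveI : NeZero r := ⟨hr.out.ne_zero⟩
  obtain ⟨c, hc, hc1, hc2⟩ := hgood
  have hr0 := hr.out.pos
  have hcb : r * c ≤ b := by
    rw [mul_comm]; exact (Nat.le_div_iff_mul_le hr0).1 hc
  obtain ⟨d, hd⟩ : ∃ d, b = r * c + d := ⟨b - r * c, by omega⟩
  have ht : m - a * c ≤ d * (a / r) := by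
    have h8 : a = r * (a / r) + a % r := (Nat.div_add_mod a r).symm
    have h9 : b * (a / r) + c * (a % r) = d * (a / r) + a * c := by
      calc b * (a / r) + c * (a % r) = (r * c + d) * (a / r) + c * (a % r) := by rw [← hd]
        _ = d * (a / r) + (r * (a / r) + a % r) * c := by ring
        _ = _ := by rw [← h8]
    omega
  obtain ⟨g, hg1, hg2⟩ := distrib d (a / r) (m - a * c) ht
  have hex : ∀ j, ∃ τ : Equiv.Perm (Fin a), τ ^ r = 1 ∧ τ.support.card = r * g j := by
    intro j
    apply exists_perm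
    rw [Fintype.card_fin]
    calc r * g j ≤ r * (a / r) := Nat.mul_le_mul_left _ (hg1 j)
      _ ≤ a := Nat.mul_div_le _ _
  choose τ hτ1 hτ2 using hex
  let M : Equiv.Perm (((Fin c × ZMod r) ⊕ Fin d) × Fin a) := model (c := c) (r := r) τ
  have hMr : M ^ r = 1 := model_pow_eq_one τ hτ1
  have hMs : (Finset.univ.filter (fun x => M x ≠ x)).card = r * m := by
    rw [model_support τ g hτ2, hg2]
    congr 1
    omega
  obtain ⟨e⟩ : Nonempty ((((Fin c × ZMod r) ⊕ Fin d) × Fin a) ≃ α) := by
    apply Nonempty.intro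
    apply Fintype.equivOfCardEq
    rw [hcard]
    simp only [Fintype.card_prod, Fintype.card_sum, Fintype.card_fin, ZMod.card]
    rw [hd]; ring
  obtain ⟨φ⟩ : Nonempty (((Fin c × ZMod r) ⊕ Fin d) ≃ Fin b) := by
    apply Nonempty.intro
    apply Fintype.equivOfCardEq
    simp only [Fintype.card_prod, Fintype.card_sum, Fintype.card_fin, ZMod.card]
    rw [hd]; ring
  let M' : Equiv.Perm α := e.permCongr M
  have hM'r : M' ^ r = 1 := by
    have h1 : ∀ n : ℕ, M' ^ n = e.permCongr (M ^ n) := by
      intro n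
      induction n with
      | zero => ext x; simp
      | succ n ih => rw [pow_succ, pow_succ, ih, ← Equiv.permCongr_mul]
    rw [h1, hMr]
    ext x; simp
  have hM's : M'.support.card = r * m := by
    rw [← hMs, ← Finset.card_map e.toEmbedding]
    congr 1
    ext x
    rw [mem_support, Finset.mem_map]
    constructor
    · intro h1
      refine ⟨e.symm x, ?_, by simp⟩
      rw [Finset.mem_filter]
      refine ⟨Finset.mem_univ _, ?_⟩
      intro h2
      apply h1
      change e (M (e.symm x)) = x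
      rw [h2]; simp
    · rintro ⟨y, hy, rfl⟩ h1
      rw [Finset.mem_filter] at hy
      apply hy.2
      have h2 : e (M (e.symm (e y))) = e y := h1
      rw [Equiv.symm_apply_apply] at h2
      exact e.injective h2
  obtain ⟨γ, hγ⟩ := isConj_iff.1 (conj_of hM'r hσ (hM's.trans hm.symm))
  refine ⟨fun x => φ (e.symm (γ⁻¹ x)).1, ?_, φ.permCongr (rot c r d), ?_⟩
  · intro j
    have h1 : Nat.card {x : α // φ (e.symm (γ⁻¹ x)).1 = j} = Nat.card (Fin a) := by
      apply Nat.card_congr
      refine ⟨fun x => (e.symm (γ⁻¹ x.1)).2, fun y => ⟨γ (e (φ.symm j, y)), by simp⟩, ?_, ?_⟩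
      · rintro ⟨x, hx⟩
        apply Subtype.ext
        have h2 : φ.symm j = (e.symm (γ⁻¹ x)).1 := by rw [← hx]; simp
        simp only [h2, Prod.mk.eta, Equiv.apply_symm_apply]
        simp
      · intro y
        simp
    rw [h1, Nat.card_fin]
  · intro x
    have h1 : σ x = γ (M' (γ⁻¹ x)) := by
      rw [← hγ]; rfl
    simp only [h1]
    have h2 : M' (γ⁻¹ x) = e (M (e.symm (γ⁻¹ x))) := rfl
    rw [h2]
    have h3 : ∀ z, γ⁻¹ (γ z) = z := fun z => by simp
    simp only [h3, Equiv.symm_apply_apply]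
    change φ (model (c := c) (r := r) τ (e.symm (γ⁻¹ x))).1 = φ (rot c r d (φ.symm (φ _)))
    rw [model_fst, Equiv.symm_apply_apply]

end H7.Part
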