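import Mathlib
import Cfsg.Agent.H7_Rad8a
import Cfsg.Prelude

/-! Elements of order seven in `Perm (Fin 8)` and subgroups of `Alt(8)` of order prime to five. -/

namespace H7.Rad8

open Cfsg Equiv

abbrev P8 := Perm (Fin 8)

def c0 : P8 := ⟨![1, 2, 3, 4, 5, 6, 0, 7], ![6, 0, 1, 2, 3, 4, 5, 7], by decide, by decide⟩
def r0 : P8 := ⟨![0, 6, 5, 4, 3, 2, 1, 7], ![0, 6, 5, 4, 3, 2, 1, 7], by decide, by decide⟩

theorem c0_seven : c0 ^ 7 = 1 := by decide +kernel
theorem c0_ne : c0 ≠ 1 := by decide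
theorem r0_c0 : r0 * c0 * r0⁻¹ = c0⁻¹ := by decide +kernel
theorem sign_c0 : Perm.sign c0 = 1 := by decide +kernel
theorem sign_r0 : Perm.sign r0 = -1 := by decide +kernel
theorem c0_sym : ∀ a j : Fin 8, a ≠ 7 → j ≠ 7 → (c0 ^ (j : ℕ)) a = (c0 ^ (a : ℕ)) j := by decide +kernel
theorem c0_zero : ∀ j : Fin 8, j ≠ 7 → (c0 ^ (j : ℕ)) 0 = j := by decide +kernel
theorem c0_fix : ∀ a : Fin 8, c0 a = a → a = 7 := by decide +kernel
theorem c0_7 : ∀ n : Fin 8, (c0 ^ (n : ℕ)) 7 = 7 := by decide +kernel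

theorem order_c0 : orderOf c0 = 7 :=
  haveI : Fact (Nat.Prime 7) := ⟨by norm_num⟩
  orderOf_eq_prime c0_seven c0_ne

theorem cent0 {u : P8} (h : u * c0 = c0 * u) : ∃ k : ℕ, u = c0 ^ k := by
  have hc : ∀ n : ℕ, u * c0 ^ n = c0 ^ n * u := fun n => (Commute.pow_right (show Commute u c0 from h) n).eq
  have h7 : u 7 = 7 := by
    apply c0_fix
    have := congrArg (fun g : P8 => g 7) h
    simp only [Perm.mul_apply] at this
    rw [← this, show c0 7 = 7 from by decide]
  have h0 : u 0 ≠ 7 := by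
    intro h
    have : u 0 = u 7 := by rw [h, h7]
    exact absurd (u.injective this) (by decide)
  refine ⟨(u 0 : Fin 8), ?_⟩
  apply Equiv.ext
  intro j
  by_cases hj : j = 7
  · rw [hj, h7, c0_7]
  · have h1 := congrArg (fun g : P8 => g 0) (hc j)
    simp only [Perm.mul_apply] at h1
    rw [c0_zero j hj] at h1
    rw [h1, c0_sym (u 0) j h0 hj]

theorem cyc {c : P8} (hc : orderOf c = 7) : c.IsCycle ∧ c.support.card = 7 := by
  have h : c.IsCycle := Perm.isCycle_of_prime_order' (by rw [hc]; norm_num) (by rw [hc, Fintype.card_fin]; norm_num)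
  exact ⟨h, by rw [← h.orderOf, hc]⟩

theorem exists_conj {c : P8} (hc : orderOf c = 7) : ∃ s : P8, s * c * s⁻¹ = c0 := by
  obtain ⟨h1, h2⟩ := cyc hc
  obtain ⟨h3, h4⟩ := cyc order_c0
  exact isConj_iff.1 (h1.isConj h3 (by rw [h2, h4]))

theorem cent7 {c u : P8} (hc : orderOf c = 7) (h : u * c = c * u) : ∃ k : ℕ, u = c ^ k := by
  obtain ⟨s, hs⟩ := exists_conj hc
  obtain ⟨k, hk⟩ := cent0 (u := s * u * s⁻¹) (by
    rw [← hs]
    calc s * u * s⁻¹ * (s * c * s⁻¹) = s * (u * c) * s⁻¹ := by group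
      _ = s * (c * u) * s⁻¹ := by rw [h]
      _ = _ := by group)
  refine ⟨k, ?_⟩
  rw [← hs, conj_pow] at hk
  have := mul_right_cancel hk
  exact mul_left_cancel this

theorem sign7 {c : P8} (hc : orderOf c = 7) : Perm.sign c = 1 := by
  obtain ⟨s, hs⟩ := exists_conj hc
  have := sign_c0
  rw [← hs, map_mul, map_mul, map_inv] at this
  rwa [mul_right_comm, mul_inv_cancel, one_mul] at this

theorem par {c t : P8} (hc : orderOf c = 7) (h : t * c * t⁻¹ = c⁻¹) : Perm.sign t = -1 := by
  obtain ⟨s, hs⟩ := exists_conj hc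
  have e1 : s⁻¹ * r0 * s * c * (s⁻¹ * r0 * s)⁻¹ = c⁻¹ := by
    have : c = s⁻¹ * c0 * s := by rw [← hs]; group
    calc s⁻¹ * r0 * s * c * (s⁻¹ * r0 * s)⁻¹ = s⁻¹ * (r0 * (s * c * s⁻¹) * r0⁻¹) * s := by group
      _ = s⁻¹ * (c0⁻¹) * s := by rw [hs, r0_c0]
      _ = _ := by rw [← hs]; group
  set r := s⁻¹ * r0 * s with hr
  obtain ⟨k, hk⟩ := cent7 (c := c) (u := r⁻¹ * t) hc (by
    have e2 : t * c = c⁻¹ * t := by rw [← h]; group
    have e3 : r⁻¹ * c⁻¹ = c * r⁻¹ := by rw [← e1]; group
    rw [mul_assoc, e2, ← mul_assoc, e3, mul_assoc])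
  have ht : t = r * c ^ k := by rw [← hk]; group
  rw [ht, map_mul, map_pow, sign7 hc, one_pow, mul_one, hr, map_mul, map_mul, map_inv]
  rw [mul_right_comm, inv_mul_cancel, one_mul, sign_r0]

variable {H : Subgroup P8}

theorem card_dvd (hH : H ≤ alternatingGroup (Fin 8)) : Nat.card H ∣ 20160 := by
  have h1 := Subgroup.card_dvd_of_le hH
  have h2 : Nat.card (alternatingGroup (Fin 8)) = 20160 := by
    rw [nat_card_alternatingGroup, Nat.card_eq_fintype_card, Fintype.card_fin]
    decide
  rwa [h2] at h1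

/-- subgroups of `Alt(8)` with trivial radical and order prime to five -/
theorem caseB (hH : H ≤ alternatingGroup (Fin 8)) (hns : ¬ Group.IsSolvable H) (h2 : pCore 2 H = ⊥)
    (h2' : pPrimeCore 2 H = ⊥) (h5 : ¬ 5 ∣ Nat.card H) :
    (Nat.card H = 168 ∧ IsSimpleGroup H) ∨ Nat.card H = 1344 := by
  haveI : Fact (Nat.Prime 7) := ⟨by norm_num⟩
  have hd := card_dvd hH
  have hd2 : Nat.card H ∣ 4032 := by
    have hcop : Nat.Coprime (Nat.card H) 5 := ((Nat.Prime.coprime_iff_not_dvd (by norm_num)).2 h5).symm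
    exact hcop.dvd_of_dvd_mul_right (show Nat.card H ∣ 4032 * 5 from hd)
  have solv : ∀ (M : Subgroup H), Nat.card M ∣ 576 → Group.IsSolvable M := by
    intro M hM
    obtain ⟨a, b, ha, hb, hab⟩ := (Nat.dvd_mul (k := Nat.card M) (m := 64) (n := 9)).1 hM
    obtain ⟨i, -, hi⟩ := (Nat.dvd_prime_pow Nat.prime_two (m := 6)).1 ha
    obtain ⟨j, -, hj⟩ := (Nat.dvd_prime_pow Nat.prime_three (m := 2)).1 hb
    exact Cfsg.Agent.S0144.result 2 3 i j Nat.prime_two Nat.prime_three (by rw [← hab, hi, hj])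
  have h7 : 7 ∣ Nat.card H := by
    by_contra h
    have hcop : Nat.Coprime (Nat.card H) 7 := ((Nat.Prime.coprime_iff_not_dvd (by norm_num)).2 h).symm
    have h3 : Nat.card H ∣ 576 := hcop.dvd_of_dvd_mul_right (show Nat.card H ∣ 576 * 7 from hd2)
    have h4 := solv ⊤ (by rw [Subgroup.card_top]; exact h3)
    haveI := h4
    exact hns (Group.isSolvable_of_surjective (f := (⊤ : Subgroup H).subtype) (fun x => ⟨⟨x, trivial⟩, rfl⟩))
  have h49 : ¬ 49 ∣ Nat.card H := fun h => by
    have := h.trans hd2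
    revert this; decide
  obtain ⟨P⟩ : Nonempty (Sylow 7 H) := inferInstance
  have hcP : Nat.card (P : Subgroup H) = 7 := by
    obtain ⟨n, hn⟩ := P.isPGroup'.exists_card_eq
    have hd3 := P.dvd_card_of_dvd_card h7
    rw [hn] at hd3 ⊢
    have h1 : n < 2 := by
      by_contra h
      apply h49
      have : 7 ^ 2 ∣ 7 ^ n := pow_dvd_pow 7 (by omega)
      rw [← hn] at this
      exact (show (49 : ℕ) = 7 ^ 2 by norm_num) ▸ this.trans (Subgroup.card_subgroup_dvd_card _)
    interval_cases n
    · norm_num at hd3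
    · norm_num
  haveI hcyc : IsCyclic (P : Subgroup H) := isCyclic_of_prime_card hcP
  obtain ⟨⟨c, hcmem⟩, hcgen⟩ := hcyc.exists_generator
  have hco : orderOf (c : H) = 7 := by
    have := orderOf_eq_card_of_forall_mem_zpowers hcgen
    rw [hcP] at this
    rw [← this]
    exact Subgroup.orderOf_coe (⟨c, hcmem⟩ : (P : Subgroup H))
  have hPz : (P : Subgroup H) = Subgroup.zpowers c := by
    ext x
    constructor
    · intro hx
      obtain ⟨k, hk⟩ := hcgen ⟨x, hx⟩
      exact ⟨k, congrArg Subtype.val hk⟩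
    · rintro ⟨k, rfl⟩
      exact zpow_mem hcmem k
  have hco' : orderOf (c : P8) = 7 := by rw [Subgroup.orderOf_coe, hco]
  -- centralizer
  have hcent : Subgroup.centralizer ((P : Subgroup H) : Set H) = P := by
    apply le_antisymm
    · intro u hu
      have h1 : u * c = c * u := (Subgroup.mem_centralizer_iff.1 hu c hcmem).symm
      obtain ⟨k, hk⟩ := cent7 hco' (u := (u : P8)) (congrArg Subtype.val h1)
      have : u = c ^ k := Subtype.ext hk
      rw [this]
      exact pow_mem hcmem k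
    · intro u hu
      rw [Subgroup.mem_centralizer_iff]
      intro v hv
      rw [SetLike.mem_coe, hPz] at hv
      rw [hPz] at hu
      obtain ⟨i, rfl⟩ := hv
      obtain ⟨j, rfl⟩ := hu
      show c ^ i * c ^ j = c ^ j * c ^ i
      rw [← zpow_add, ← zpow_add, add_comm]
  set N := Subgroup.normalizer ((P : Subgroup H) : Set H) with hN
  -- order of the normalizer
  have hN7 : ∃ k, k ∣ 6 ∧ Nat.card N = 7 * k := by
    have h1 := (P : Subgroup H).normalizerMonoidHom_ker
    have h3 := ((P : Subgroup H).normalizerMonoidHom.ker).card_eq_card_quotient_mul_card_subgroup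
    refine ⟨Nat.card ((P : Subgroup H).normalizerMonoidHom.range), ?_, ?_⟩
    · have h4 := Subgroup.card_subgroup_dvd_card ((P : Subgroup H).normalizerMonoidHom.range)
      rw [IsCyclic.card_mulAut, hcP] at h4
      exact h4
    · rw [Nat.card_congr (QuotientGroup.quotientKerEquivRange _).toEquiv] at h3
      have h5 : Nat.card ((P : Subgroup H).normalizerMonoidHom.ker) = 7 := by
        rw [h1, hcent]
        exact (Nat.card_congr (Subgroup.subgroupOfEquivOfLe Subgroup.le_normalizer).toEquiv).trans hcP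
      rw [h5] at h3
      rw [mul_comm]; exact h3
  have hodd : ¬ 2 ∣ Nat.card N := by
    intro h
    obtain ⟨t, ht⟩ := exists_prime_orderOf_dvd_card' 2 h
    have ht1 : orderOf (t : H) = 2 := by rw [Subgroup.orderOf_coe, ht]
    have ht2 : (t : H) * t = 1 := by rw [← pow_two, ← ht1, pow_orderOf_eq_one]
    have htn : (t : H) * c * (t : H)⁻¹ ∈ (P : Subgroup H) := (Subgroup.mem_normalizer_iff.1 t.2 c).1 hcmem
    rw [hPz] at htn
    obtain ⟨m, hm⟩ := htn
    have hm : c ^ m = (t : H) * c * (t : H)⁻¹ := hm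
    have ht3 : (t : H)⁻¹ = t := inv_eq_of_mul_eq_one_left ht2
    have h3 : c ^ (m * m) = c ^ (1 : ℤ) := by
      rw [zpow_mul, hm, conj_zpow, hm, zpow_one]
      calc (t : H) * ((t : H) * c * (t : H)⁻¹) * (t : H)⁻¹ = ((t : H) * t) * c * ((t : H) * t)⁻¹ := by group
        _ = c := by rw [ht2]; simp
    rw [zpow_eq_zpow_iff_modEq, hco] at h3
    have h4 : (7 : ℤ) ∣ (m - 1) * (m + 1) := by
      have := h3.symm.dvd
      have e : m * m - 1 = (m - 1) * (m + 1) := by ring
      rw [← e]; exact_mod_cast this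
    rcases (Int.prime_iff_natAbs_prime.2 (by norm_num) : Prime (7 : ℤ)).dvd_or_dvd h4 with h5' | h5'
    · -- t centralizes c
      have h6 : c ^ m = c := by
        nth_rewrite 2 [← zpow_one c]
        rw [zpow_eq_zpow_iff_modEq, hco]
        exact (Int.modEq_iff_dvd.2 (by exact_mod_cast h5')).symm
      rw [h6] at hm
      have h7' : (t : H) ∈ Subgroup.centralizer ((P : Subgroup H) : Set H) := by
        rw [Subgroup.mem_centralizer_iff]
        intro v hv
        rw [SetLike.mem_coe, hPz] at hv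
        obtain ⟨i, rfl⟩ := hv
        have hct : Commute c (t : H) := by
          show c * t = t * c
          nth_rewrite 1 [hm]; group
        exact (hct.zpow_left i).eq
      rw [hcent] at h7'
      have h8 : orderOf (t : H) ∣ 7 := by
        have := orderOf_dvd_natCard (⟨(t : H), h7'⟩ : (P : Subgroup H))
        rw [hcP] at this
        rwa [← Subgroup.orderOf_coe] at this
      rw [ht1] at h8
      revert h8; decide
    · have h6 : c ^ m = c⁻¹ := by
        rw [← zpow_neg_one, zpow_eq_zpow_iff_modEq, hco]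
        exact (Int.modEq_iff_dvd.2 (by
          have e : m - -1 = m + 1 := by ring
          rw [e]; exact_mod_cast h5')).symm
      rw [h6] at hm
      have h8 := par hco' (t := ((t : H) : P8)) (congrArg Subtype.val hm).symm
      have h9 : Perm.sign ((t : H) : P8) = 1 := Perm.mem_alternatingGroup.1 (hH (t : H).2)
      rw [h9] at h8
      exact absurd h8 (by decide)
  obtain ⟨k, hk6, hk⟩ := hN7
  have hk13 : k = 1 ∨ k = 3 := by
    have h1 : k ≤ 6 := Nat.le_of_dvd (by norm_num) hk6
    have h3 : ¬ 2 ∣ k := fun h => hodd (by rw [hk]; exact h.mul_left 7)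
    interval_cases k <;> revert hk6 h3 <;> decide
  rcases hk13 with rfl | rfl
  · -- normal complement
    exfalso
    have hle : N ≤ Subgroup.centralizer ((P : Subgroup H) : Set H) := by
      rw [hcent]
      have : (P : Subgroup H) = N := Subgroup.eq_of_le_of_card_ge Subgroup.le_normalizer (by rw [hcP, hk])
      exact this.symm.le
    have hcomp := MonoidHom.ker_transferSylow_isComplement' P hle
    set M := (MonoidHom.transferSylow P hle).ker with hM
    have h3 := hcomp.card_mul_card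
    rw [hcP] at h3
    have h4 : Nat.card M ∣ 576 := by
      have : Nat.card M * 7 ∣ 576 * 7 := by rw [h3]; exact hd2
      exact Nat.dvd_of_mul_dvd_mul_right (by norm_num) this
    have h5 := bot_of_solvable h2 h2' _ M inferInstance (solv M h4) rfl
    rw [h5, Subgroup.card_bot, one_mul] at h3
    have h6 := sixty_le hns
    omega
  · have hidx := N.index_mul_card
    rw [hk] at hidx
    have hmod : N.index ≡ 1 [MOD 7] := by
      have := card_sylow_modEq_one 7 H
      rw [P.card_eq_index_normalizer] at this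
      exact this
    have hd4 : N.index ∣ 192 := by
      have : N.index * 21 ∣ 192 * 21 := by
        rw [show (21 : ℕ) = 7 * 3 by norm_num, hidx]; exact hd2
      exact Nat.dvd_of_mul_dvd_mul_right (by norm_num) this
    have h3 : N.index = 1 ∨ N.index = 8 ∨ N.index = 64 := by
      have key : ∀ m ∈ Nat.divisors 192, m % 7 = 1 → m = 1 ∨ m = 8 ∨ m = 64 := by decide +kernel
      exact key _ (Nat.mem_divisors.2 ⟨hd4, by norm_num⟩) hmod
    rcases h3 with h | h | h
    · rw [h] at hidx
      have h6 := sixty_le hns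
      omega
    · left
      rw [h] at hidx
      refine ⟨by omega, simple_of hns ?_⟩
      intro m hm hlt
      have : Nat.card H = 168 := by omega
      rw [this] at hm hlt
      have key : ∀ m ∈ Nat.divisors 168, m < 168 → m ≤ 100 ∧ ¬ 60 ∣ m := by decide +kernel
      exact key m (Nat.mem_divisors.2 ⟨hm, by norm_num⟩) hlt
    · right
      rw [h] at hidx
      omega

end H7.Rad8
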