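import Mathlib

set_option autoImplicit false

namespace Cfsg.Agent.H9.Three

open MulAction

def emb3 {α : Type*} (a b c : α) (hab : a ≠ b) (hac : a ≠ c) (hbc : b ≠ c) : Fin 3 ↪ α :=
  ⟨![a, b, c], by
    intro i j hij
    fin_cases i <;> fin_cases j <;> simp_all [eq_comm]⟩

theorem exists_three {G : Type*} [Group G] {α : Type*} [MulAction G α]
    (h : IsMultiplyPretransitive G α 3) {a b c a' b' c' : α} (hab : a ≠ b) (hac : a ≠ c) (hbc : b ≠ c)
    (hab' : a' ≠ b') (hac' : a' ≠ c') (hbc' : b' ≠ c') :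
    ∃ g : G, g • a = a' ∧ g • b = b' ∧ g • c = c' := by
  obtain ⟨g, hg⟩ := h.exists_smul_eq (emb3 a b c hab hac hbc) (emb3 a' b' c' hab' hac' hbc')
  refine ⟨g, ?_, ?_, ?_⟩
  · exact congrArg (fun f : Fin 3 ↪ α => f 0) hg
  · exact congrArg (fun f : Fin 3 ↪ α => f 1) hg
  · exact congrArg (fun f : Fin 3 ↪ α => f 2) hg

theorem three_iff {G : Type*} [Group G] {α : Type*} [MulAction G α] :
    IsMultiplyPretransitive G α 3 ↔ ∀ a b c a' b' c' : α, a ≠ b → a ≠ c → b ≠ c →
      a' ≠ b' → a' ≠ c' → b' ≠ c' → ∃ g : G, g • a = a' ∧ g • b = b' ∧ g • c = c' := by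
  constructor
  · intro h a b c a' b' c' h1 h2 h3 h1' h2' h3'
    exact exists_three h h1 h2 h3 h1' h2' h3'
  · intro h
    constructor
    intro x y
    have hx : ∀ i j : Fin 3, i ≠ j → x i ≠ x j := fun i j hij h => hij (x.injective h)
    have hy : ∀ i j : Fin 3, i ≠ j → y i ≠ y j := fun i j hij h => hij (y.injective h)
    obtain ⟨g, h0, h1, h2⟩ := h (x 0) (x 1) (x 2) (y 0) (y 1) (y 2) (hx _ _ (by decide)) (hx _ _ (by decide))
      (hx _ _ (by decide)) (hy _ _ (by decide)) (hy _ _ (by decide)) (hy _ _ (by decide))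
    refine ⟨g, ?_⟩
    ext i
    change g • x i = y i
    fin_cases i
    · exact h0
    · exact h1
    · exact h2

end Cfsg.Agent.H9.Three
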