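import Mathlib
import Cfsg.Prelude.Def_Perm
import Cfsg.Agent.H9_PermMod
import Cfsg.Agent.H9_Three

set_option autoImplicit false
open scoped Pointwise

namespace Cfsg.Agent.H9.Hom3

theorem smul_pair {G : Type*} [Group G] {Ω : Type*} [DecidableEq Ω] [MulAction G Ω] (g : G) (x y : Ω) :
    g • ({x, y} : Finset Ω) = {g • x, g • y} := by
  rw [Finset.smul_finset_insert, Finset.smul_finset_singleton]

theorem powersetCard_ext {G : Type*} [Group G] {Ω : Type*} [DecidableEq Ω] [MulAction G Ω] (g h : G) (x y : Ω)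
    (P Q : Set.powersetCard Ω 2) (hP : (P : Finset Ω) = {x, y}) (hQ : (Q : Finset Ω) = {x, y})
    (hgh : ({g • x, g • y} : Finset Ω) = {h • x, h • y}) : g • P = h • Q := by
  apply Subtype.ext
  rw [Set.powersetCard.coe_smul, Set.powersetCard.coe_smul, hP, hQ, smul_pair, smul_pair, hgh]

/-- transitivity on (point, disjoint pair) from the vanishing of a Hom-space -/
theorem pair_trans {G : Type*} [Group G] [Finite G] {K : Type*} [Field K] {Ω : Type*} [Fintype Ω] [DecidableEq Ω] [MulAction G Ω] (h2 : MulAction.IsMultiplyPretransitive G Ω 2) (h : ∀ f : Representation.IntertwiningMap (Cfsg.permSumZero K G Ω).toRepresentation (Cfsg.permRep K G (Set.powersetCard Ω 2)), (∀ v : (Cfsg.permSumZero K G Ω).toSubmodule, (v : Ω → K) ∈ (Cfsg.permConstants K G Ω).toSubmodule → f v = 0) → f = 0)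
    (a b c b' c' : Ω) (hab : a ≠ b) (hac : a ≠ c) (hbc : b ≠ c) (hab' : a ≠ b') (hac' : a ≠ c') (hbc' : b' ≠ c') :
    ∃ g : G, g • a = a ∧ g • ({b, c} : Finset Ω) = {b', c'} := by
  classical
  by_contra hcon
  let D : Ω → Finset Ω → Prop := fun x P => ∃ g : G, g • a = x ∧ g • ({b, c} : Finset Ω) = P
  have hD : ∀ (g : G) x P, D (g • x) (g • P) ↔ D x P := by
    intro g x P
    constructor
    · rintro ⟨k, hk1, hk2⟩
      exact ⟨g⁻¹ * k, by rw [mul_smul, hk1, inv_smul_smul], by rw [mul_smul, hk2, inv_smul_smul]⟩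
    · rintro ⟨k, hk1, hk2⟩
      exact ⟨g * k, by rw [mul_smul, hk1], by rw [mul_smul, hk2]⟩
  have htr : ∀ x y x' y' : Ω, x ≠ y → x' ≠ y' → ∃ g : G, g • ({x, y} : Finset Ω) = {x', y'} := by
    intro x y x' y' hxy hxy'
    obtain ⟨g, hg1, hg2⟩ := (MulAction.is_two_pretransitive_iff (G := G) (α := Ω)).1 h2 hxy hxy'
    exact ⟨g, by rw [Finset.smul_finset_insert, Finset.smul_finset_singleton, hg1, hg2]⟩
  -- counts
  let m1 : Finset Ω → ℕ := fun P => (Finset.univ.filter (fun x => x ∉ P ∧ D x P)).card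
  let m2 : Finset Ω → ℕ := fun P => (Finset.univ.filter (fun x => x ∉ P ∧ ¬ D x P)).card
  have hm1 : ∀ (g : G) P, m1 (g • P) = m1 P := by
    intro g P
    symm
    apply Finset.card_bij (fun x _ => g • x)
    · intro x hx
      rw [Finset.mem_filter] at hx ⊢
      refine ⟨Finset.mem_univ _, ?_, ?_⟩
      · rw [Finset.smul_mem_smul_finset_iff]; exact hx.2.1
      · rw [hD]; exact hx.2.2
    · intro x _ y _ hxy
      exact MulAction.injective g hxy
    · intro y hy
      rw [Finset.mem_filter] at hy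
      refine ⟨g⁻¹ • y, ?_, smul_inv_smul g y⟩
      rw [Finset.mem_filter]
      refine ⟨Finset.mem_univ _, ?_, ?_⟩
      · rw [← Finset.smul_mem_smul_finset_iff g, smul_inv_smul]; exact hy.2.1
      · rw [← hD g, smul_inv_smul]; exact hy.2.2
  have hm2 : ∀ (g : G) P, m2 (g • P) = m2 P := by
    intro g P
    symm
    apply Finset.card_bij (fun x _ => g • x)
    · intro x hx
      rw [Finset.mem_filter] at hx ⊢
      refine ⟨Finset.mem_univ _, ?_, ?_⟩
      · rw [Finset.smul_mem_smul_finset_iff]; exact hx.2.1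
      · rw [hD]; exact hx.2.2
    · intro x _ y _ hxy
      exact MulAction.injective g hxy
    · intro y hy
      rw [Finset.mem_filter] at hy
      refine ⟨g⁻¹ • y, ?_, smul_inv_smul g y⟩
      rw [Finset.mem_filter]
      refine ⟨Finset.mem_univ _, ?_, ?_⟩
      · rw [← Finset.smul_mem_smul_finset_iff g, smul_inv_smul]; exact hy.2.1
      · rw [← hD g, smul_inv_smul]; exact hy.2.2
  have hconst : ∀ P : Finset Ω, P.card = 2 → m1 P = m1 {b, c} ∧ m2 P = m2 {b, c} := by
    intro P hP
    obtain ⟨x, y, hxy, rfl⟩ := Finset.card_eq_two.1 hP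
    obtain ⟨g, hg⟩ := htr b c x y hbc hxy
    rw [← hg, hm1, hm2]; exact ⟨rfl, rfl⟩
  -- coefficients
  obtain ⟨α1, α2, hne, hsum⟩ : ∃ α1 α2 : K, (α1 ≠ 0 ∨ α2 ≠ 0) ∧ α1 * (m1 {b, c} : K) + α2 * (m2 {b, c} : K) = 0 := by
    by_cases h0 : (m1 {b, c} : K) = 0
    · exact ⟨1, 0, Or.inl one_ne_zero, by rw [h0]; ring⟩
    · exact ⟨(m2 {b, c} : K), -(m1 {b, c} : K), Or.inr (neg_ne_zero.2 h0), by ring⟩
  let φ : Ω → Finset Ω → K := fun x P => if x ∈ P then 0 else if D x P then α1 else α2
  have hφ : ∀ (g : G) x P, φ (g • x) (g • P) = φ x P := by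
    intro g x P
    simp only [φ, hD, Finset.smul_mem_smul_finset_iff]
  have hφsum : ∀ P : Finset Ω, P.card = 2 → ∑ x, φ x P = 0 := by
    intro P hP
    have h1 : ∀ x, φ x P = α1 * (if x ∉ P ∧ D x P then 1 else 0) + α2 * (if x ∉ P ∧ ¬ D x P then 1 else 0) := by
      intro x
      by_cases hx : x ∈ P <;> by_cases hx2 : D x P <;> simp [φ, hx, hx2]
    simp only [h1, Finset.sum_add_distrib, ← Finset.mul_sum, Finset.sum_boole]
    rw [← hsum, ← (hconst P hP).1, ← (hconst P hP).2]
  -- the intertwiner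
  let T : (Ω → K) →ₗ[K] (Set.powersetCard Ω 2 → K) :=
    { toFun := fun f P => ∑ x, φ x (P : Finset Ω) * f x
      map_add' := by intro f f'; funext u; simp [mul_add, Finset.sum_add_distrib]
      map_smul' := by intro c f; funext u; simp [Finset.mul_sum, mul_left_comm] }
  have hT : ∀ f P, T f P = ∑ x, φ x (P : Finset Ω) * f x := fun _ _ => rfl
  have hequiv : ∀ (g : G) f, T (Cfsg.permRep K G Ω g f) = Cfsg.permRep K G (Set.powersetCard Ω 2) g (T f) := by
    intro g f
    funext P
    rw [H9.PermMod.permRep_apply, hT, hT]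
    apply Fintype.sum_equiv (MulAction.toPerm g⁻¹)
    intro v
    rw [H9.PermMod.permRep_apply, MulAction.toPerm_apply, Set.powersetCard.coe_smul, hφ]
  let F : Representation.IntertwiningMap (Cfsg.permSumZero K G Ω).toRepresentation (Cfsg.permRep K G (Set.powersetCard Ω 2)) :=
    LinearMap.intertwiningMap_of_isIntertwiningMap _ _ (T ∘ₗ (Cfsg.permSumZero K G Ω).toSubmodule.subtype) (by
      intro g v
      exact hequiv g v)
  have hF0 : F = 0 := by
    apply h
    intro v hv
    change T (v : Ω → K) = 0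
    obtain ⟨r, hr⟩ := Submodule.mem_span_singleton.1 hv
    funext P
    rw [hT, ← hr]
    simp only [Pi.smul_apply, smul_eq_mul, mul_one, Pi.zero_apply]
    rw [← Finset.sum_mul, hφsum _ P.2, zero_mul]
  have hφeq : ∀ (x y : Ω) (P : Finset Ω), P.card = 2 → φ x P = φ y P := by
    intro x y P hP
    let v : (Cfsg.permSumZero K G Ω).toSubmodule := ⟨Pi.single x 1 - Pi.single y 1, by
      change ∑ z, ((Pi.single x (1:K) : Ω → K) - (Pi.single y (1:K) : Ω → K)) z = 0
      simp⟩
    have h1 : F v = 0 := by rw [hF0]; rfl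
    have h2 : T (Pi.single x 1 - Pi.single y 1) = 0 := h1
    have h3 := congrFun h2 ⟨P, hP⟩
    rw [hT] at h3
    simp only [Pi.sub_apply, mul_sub, Finset.sum_sub_distrib, Pi.single_apply, mul_ite, mul_one, mul_zero,
      Finset.sum_ite_eq', Finset.mem_univ, if_true, Pi.zero_apply] at h3
    exact sub_eq_zero.1 h3
  have e1 := hφeq a b {b, c} (Finset.card_pair hbc)
  have e2 := hφeq a b' {b', c'} (Finset.card_pair hbc')
  have d1 : D a {b, c} := ⟨1, by simp, by simp⟩
  have d2 : ¬ D a {b', c'} := hcon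
  simp only [φ, Finset.mem_insert, Finset.mem_singleton, hab, hac, hab', hac', or_self, if_false, true_or, if_true, d1, d2] at e1 e2
  rcases hne with h | h
  · exact h e1
  · exact h e2

theorem main {G : Type*} [Group G] [Finite G] {K : Type*} [Field K] {Ω : Type*} [Fintype Ω] [DecidableEq Ω] [MulAction G Ω] [FaithfulSMul G Ω] (h2 : MulAction.IsMultiplyPretransitive G Ω 2)
    (heven : ∀ a : Ω, Even (Nat.card (MulAction.stabilizer G a)))
    (h : ∀ f : Representation.IntertwiningMap (Cfsg.permSumZero K G Ω).toRepresentation (Cfsg.permRep K G (Set.powersetCard Ω 2)), (∀ v : (Cfsg.permSumZero K G Ω).toSubmodule, (v : Ω → K) ∈ (Cfsg.permConstants K G Ω).toSubmodule → f v = 0) → f = 0) : MulAction.IsMultiplyPretransitive G Ω 3 := by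
  classical
  rw [H9.Three.three_iff]
  have key : ∀ a : Ω, ∃ u w : Ω, ∀ b c : Ω, a ≠ b → a ≠ c → b ≠ c → ∃ g : G, g • a = a ∧ g • b = u ∧ g • c = w := by
    intro a
    haveI : Fact (Nat.Prime 2) := ⟨Nat.prime_two⟩
    obtain ⟨t, ht⟩ := exists_prime_orderOf_dvd_card' (G := MulAction.stabilizer G a) 2 (heven a).two_dvd
    have ht1 : (t : G) ≠ 1 := by
      intro h1
      have : t = 1 := Subtype.ext h1
      rw [this, orderOf_one] at ht
      exact absurd ht (by norm_num)
    obtain ⟨u, hu⟩ : ∃ u : Ω, (t : G) • u ≠ u := by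
      by_contra hcon
      push Not at hcon
      exact ht1 (FaithfulSMul.eq_of_smul_eq_smul (α := Ω) (fun x => by rw [hcon x, one_smul]))
    have hta : (t : G) • a = a := t.2
    have htt : (t : G) • (t : G) • u = u := by
      rw [← mul_smul, ← Subgroup.coe_mul, ← pow_two, ← ht, pow_orderOf_eq_one, Subgroup.coe_one, one_smul]
    have hau : a ≠ u := by rintro rfl; exact hu hta
    have haw : a ≠ (t : G) • u := by
      intro h1
      apply hau
      exact MulAction.injective (t : G) (hta.trans h1)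
    refine ⟨u, (t : G) • u, ?_⟩
    intro b c hab hac hbc
    obtain ⟨g, hg1, hg2⟩ := pair_trans h2 h a b c u ((t : G) • u) hab hac hbc hau haw hu.symm
    have hb : g • b = u ∨ g • b = (t : G) • u := by
      have : g • b ∈ ({u, (t : G) • u} : Finset Ω) := by
        rw [← hg2]; exact Finset.smul_mem_smul_finset (by simp)
      simpa using this
    have hc : g • c = u ∨ g • c = (t : G) • u := by
      have : g • c ∈ ({u, (t : G) • u} : Finset Ω) := by
        rw [← hg2]; exact Finset.smul_mem_smul_finset (by simp)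
      simpa using this
    have hne : g • b ≠ g • c := fun h => hbc (MulAction.injective g h)
    rcases hb with hb | hb
    · refine ⟨g, hg1, hb, ?_⟩
      rcases hc with hc | hc
      · exact absurd (hb.trans hc.symm) hne
      · exact hc
    · refine ⟨(t : G) * g, ?_, ?_, ?_⟩
      · rw [mul_smul, hg1, hta]
      · rw [mul_smul, hb, htt]
      · rcases hc with hc | hc
        · rw [mul_smul, hc]
        · exact absurd (hb.trans hc.symm) hne
  haveI : MulAction.IsPretransitive G Ω := by
    haveI := h2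
    exact MulAction.isPretransitive_of_is_two_pretransitive
  intro a b c a' b' c' hab hac hbc hab' hac' hbc'
  obtain ⟨g0, hg0⟩ := MulAction.exists_smul_eq G a a'
  obtain ⟨u, w, huw⟩ := key a'
  obtain ⟨g1, h11, h12, h13⟩ := huw (g0 • b) (g0 • c) (by rw [← hg0]; exact fun h => hab (MulAction.injective _ h))
    (by rw [← hg0]; exact fun h => hac (MulAction.injective _ h)) (fun h => hbc (MulAction.injective _ h))
  obtain ⟨g2, h21, h22, h23⟩ := huw b' c' hab' hac' hbc'
  refine ⟨g2⁻¹ * (g1 * g0), ?_, ?_, ?_⟩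
  · rw [mul_smul, mul_smul, hg0, h11, inv_smul_eq_iff, h21]
  · rw [mul_smul, mul_smul, h12, inv_smul_eq_iff, h22]
  · rw [mul_smul, mul_smul, h13, inv_smul_eq_iff, h23]

end Cfsg.Agent.H9.Hom3
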