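import Cfsg.Statements.S0676
import Cfsg.Agent.H9_Burnside
import Cfsg.Agent.H9_Hom3

set_option autoImplicit false
open Cfsg

namespace Cfsg.Agent.S0676

/-- A non-solvable transitive permutation group of prime degree `p` whose Sylow `p`-normaliser has even order is triply transitive. -/
theorem result {α : Type*} [Fintype α] [DecidableEq α] {p : ℕ} [Fact p.Prime] (hα : Fintype.card α = p) (G : Subgroup (Equiv.Perm α)) [MulAction.IsPretransitive G α] (hG : ¬ Group.IsSolvable G) (P : Sylow p G) (heven : Even (Nat.card (Subgroup.normalizer ((P : Subgroup G) : Set G)))) : MulAction.IsMultiplyPretransitive G α 3 := by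
  have hA : ¬ H9.PrimeDeg.Aff p G α := fun h => hG h.solvable
  have hp3 : 3 < p := by
    by_contra h
    exact hA (H9.Burnside.aff_of_le_three (p := p) hα (by omega))
  have h2 := H9.Burnside.burnside (p := p) hα hA
  obtain ⟨σ, t, e, hσ, ht, hoσ, hot⟩ := H9.Burnside.exists_coord_inv (p := p) hα (by omega) P heven
  haveI : Nonempty α := ⟨e 0⟩
  apply H9.Hom3.main (K := ZMod p) h2
  · intro a
    obtain ⟨g, hg⟩ := MulAction.exists_smul_eq G a (e 0)
    have h1 : g⁻¹ * t * g ∈ MulAction.stabilizer G a := by
      rw [MulAction.mem_stabilizer_iff, mul_smul, mul_smul, hg, ← ht, neg_zero, inv_smul_eq_iff, hg]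
    have h3 : orderOf (⟨_, h1⟩ : MulAction.stabilizer G a) = 2 := by
      rw [← Subgroup.orderOf_coe]
      have : g⁻¹ * t * g = MulAut.conj g⁻¹ t := by simp [MulAut.conj_apply]
      change orderOf (g⁻¹ * t * g) = 2
      rw [this, MulEquiv.orderOf_eq, hot]
    rw [even_iff_two_dvd, ← h3]
    exact orderOf_dvd_natCard _
  · intro f hf
    by_contra hf0
    -- the kernel
    let S := (Cfsg.permSumZero (ZMod p) G α)
    let kr : Submodule (ZMod p) (α → ZMod p) := (LinearMap.ker f.toLinearMap).map S.toSubmodule.subtype
    have hkr : ∀ v : S.toSubmodule, (v : α → ZMod p) ∈ kr ↔ f v = 0 := by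
      intro v
      constructor
      · rintro ⟨w, hw, hwv⟩
        have : w = v := Subtype.ext hwv
        rw [← this]; exact hw
      · intro h
        exact ⟨v, h, rfl⟩
    have hequiv : ∀ (g : G) (v : S.toSubmodule), f (S.toRepresentation g v) = Cfsg.permRep (ZMod p) G (Set.powersetCard α 2) g (f v) := by
      intro g v
      exact LinearMap.congr_fun (f.isIntertwining' g) v
    have hone : (fun _ : α => (1 : ZMod p)) ∈ S.toSubmodule := by
      change ∑ _x : α, (1 : ZMod p) = 0
      simp [hα]
    have hirr := H9.PrimeDeg.irreducible (p := p) hα hA kr (by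
      rintro g _ ⟨w, hw, rfl⟩
      refine ⟨S.toRepresentation g w, ?_, rfl⟩
      change f _ = 0
      rw [hequiv]
      have : f w = 0 := hw
      rw [this, map_zero]) (by
      change Submodule.span (ZMod p) {fun _ => (1 : ZMod p)} ≤ kr
      rw [Submodule.span_le, Set.singleton_subset_iff]
      exact (hkr ⟨_, hone⟩).2 (hf _ (Submodule.mem_span_singleton_self _))) (by
      rintro _ ⟨w, -, rfl⟩
      exact w.2)
    rcases hirr with hirr | hirr
    · -- the function x
      let v1 : α → ZMod p := fun y => e.symm y
      have hv1 : v1 ∈ S.toSubmodule := by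
        change ∑ y : α, e.symm y = 0
        have h5 : ∑ y : α, e.symm y = ∑ x : ZMod p, x := Fintype.sum_equiv e.symm _ _ (fun _ => rfl)
        rw [h5]
        have h6 : ∑ x : ZMod p, x = ∑ x : ZMod p, -x := (Fintype.sum_equiv (Equiv.neg _) _ _ (fun _ => by simp))
        rw [Finset.sum_neg_distrib] at h6
        have h7 : (2 : ZMod p) * ∑ x : ZMod p, x = 0 := by linear_combination h6
        refine (mul_eq_zero.1 h7).resolve_left ?_
        intro h
        have h2 : ((2 : ℕ) : ZMod p) = 0 := by exact_mod_cast h
        rw [ZMod.natCast_eq_zero_iff] at h2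
        have := Nat.le_of_dvd (by norm_num) h2
        omega
      have hw : f ⟨v1, hv1⟩ ≠ 0 := by
        intro h
        have h5 := (hkr ⟨v1, hv1⟩).2 h
        rw [hirr] at h5
        obtain ⟨c, hc⟩ := Submodule.mem_span_singleton.1 h5
        have h6 := congrFun hc (e 0)
        have h7 := congrFun hc (e 1)
        simp only [v1, Pi.smul_apply, smul_eq_mul, mul_one, Equiv.symm_apply_apply] at h6 h7
        rw [h6] at h7
        exact zero_ne_one h7
      apply hw
      set w := f ⟨v1, hv1⟩ with hwd
      -- w is σ-invariant
      have hσ' : ∀ x, e.symm (σ⁻¹ • x) = e.symm x - 1 := by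
        intro x
        rw [Equiv.symm_apply_eq, inv_smul_eq_iff, ← hσ]
        simp
      have ht' : ∀ x, e.symm (t⁻¹ • x) = - e.symm x := by
        intro x
        rw [Equiv.symm_apply_eq, inv_smul_eq_iff, ← ht]
        simp
      have h5 : Cfsg.permRep (ZMod p) G (Set.powersetCard α 2) σ w = w := by
        rw [hwd, ← hequiv]
        have : S.toRepresentation σ ⟨v1, hv1⟩ = ⟨v1, hv1⟩ - ⟨_, hone⟩ := by
          apply Subtype.ext
          funext x
          change e.symm (σ⁻¹ • x) = e.symm x - 1
          exact hσ' x
        rw [this, map_sub, hf ⟨_, hone⟩ (Submodule.mem_span_singleton_self _), sub_zero]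
      have h6 : Cfsg.permRep (ZMod p) G (Set.powersetCard α 2) t w = -w := by
        rw [hwd, ← hequiv]
        have : S.toRepresentation t ⟨v1, hv1⟩ = -⟨v1, hv1⟩ := by
          apply Subtype.ext
          funext x
          change e.symm (t⁻¹ • x) = -e.symm x
          exact ht' x
        rw [this, map_neg]
      have h7 : ∀ (n : ℕ) (P : Set.powersetCard α 2), w (σ ^ n • P) = w P := by
        intro n
        induction n with
        | zero => intro P; simp
        | succ n ih =>
          intro P
          have := congrFun h5 (σ • σ ^ n • P)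
          rw [H9.PermMod.permRep_apply, inv_smul_smul] at this
          rw [pow_succ', mul_smul, ← this, ih]
      have h8 : ∀ P : Set.powersetCard α 2, w (t • P) = w P := by
        intro P
        obtain ⟨P, hP⟩ := P
        obtain ⟨x, y, hxy, rfl⟩ := Finset.card_eq_two.1 hP
        have h9 := h7 (-(e.symm x + e.symm y)).val ⟨{x, y}, hP⟩
        rw [← h9]
        congr 1
        apply H9.Hom3.powersetCard_ext t _ x y _ _ rfl rfl
        obtain ⟨x, rfl⟩ := e.surjective x
        obtain ⟨y, rfl⟩ := e.surjective y
        rw [← H9.Burnside.coord_add hσ, ← H9.Burnside.coord_add hσ, ← ht, ← ht]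
        simp only [Equiv.symm_apply_apply, ZMod.natCast_zmod_val]
        rw [Finset.pair_comm]
        congr 2
        · ring
        · ring
      funext P
      have h9 := congrFun h6 (t • P)
      rw [H9.PermMod.permRep_apply, inv_smul_smul, Pi.neg_apply, h8] at h9
      have h10 : (2 : ZMod p) * w P = 0 := by linear_combination h9
      refine (mul_eq_zero.1 h10).resolve_left ?_
      intro h
      have h2 : ((2 : ℕ) : ZMod p) = 0 := by exact_mod_cast h
      rw [ZMod.natCast_eq_zero_iff] at h2
      have := Nat.le_of_dvd (by norm_num) h2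
      omega
    · apply hf0
      have : ∀ v, f v = 0 := by
        intro v
        rw [← hkr, hirr]
        exact v.2
      exact DFunLike.ext _ _ this

end Cfsg.Agent.S0676
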