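import Cfsg.Statements.S0678
import Mathlib
import Cfsg.Agent.H9_PermIndex
import Cfsg.Agent.S0676

set_option autoImplicit false
open Cfsg

namespace Cfsg.Agent.S0678

theorem descF (G : Type*) [Group G] [Finite G] {α : Type*} [Fintype α] [MulAction G α] (hα : Fintype.card α = 7)
    (h : MulAction.IsMultiplyPretransitive G α 2) : 42 ∣ Nat.card G := by
  have := H9.PermIndex.descFactorial_dvd h (by omega)
  rw [hα] at this
  exact this

/-- A non-solvable transitive permutation group on 7 points that does not contain the alternating group is a simple group of order 168. -/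
theorem result {α : Type*} [Fintype α] [DecidableEq α] (hα : Fintype.card α = 7) (G : Subgroup (Equiv.Perm α)) [MulAction.IsPretransitive G α] (hG : ¬ Group.IsSolvable G) (hA : ¬ alternatingGroup α ≤ G) : Nat.card G = 168 ∧ IsSimpleGroup G := by
  classical
  haveI : Fact (Nat.Prime 7) := ⟨by norm_num⟩
  have hA' : ¬ H9.PrimeDeg.Aff 7 G α := fun h => hG h.solvable
  have h2 := H9.Burnside.burnside (p := 7) hα hA'
  have h42 := descF G hα h2
  obtain ⟨P⟩ : Nonempty (Sylow 7 G) := inferInstance
  obtain ⟨d, n, hd, hn, hNP, hcard, hn7⟩ := H9.PrimeNorm.exists_params (p := 7) hα P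
  have hP := H9.Burnside.sylow_card (p := 7) hα P
  have h5040 : Nat.card G ∣ 5040 := by
    have h1 := Subgroup.card_subgroup_dvd_card G
    rw [Nat.card_perm, Nat.card_eq_fintype_card (α := α), hα] at h1
    exact h1
  have hidx : Nat.card G * G.index = 5040 := by
    have h1 := Subgroup.card_mul_index G
    rw [Nat.card_perm, Nat.card_eq_fintype_card (α := α), hα] at h1
    exact h1
  have hcardα : Nat.card α = 7 := by rw [Nat.card_eq_fintype_card, hα]
  -- small index impossible
  have hsmall : ∀ m, Nat.card G * m = 5040 → m < 7 → False := by
    intro m hm hm7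
    apply hA
    apply H9.PermIndex.alternating_le_of_index (by rw [hcardα]; norm_num)
    rw [hcardα]
    have : G.index = m := Nat.eq_of_mul_eq_mul_left Nat.card_pos (hidx.trans hm.symm)
    rw [this]
    exact Nat.factorial_lt_of_lt (by
      rcases Nat.eq_zero_or_pos m with h | h
      · rw [h] at hm; simp at hm
      · exact h) hm7
  -- 210
  have h210 : Nat.card G ≠ 210 := by
    intro h
    haveI : IsZGroup G := IsZGroup.of_squarefree (by
      rw [h]
      decide +kernel)
    exact hG inferInstance
  have h630 : Nat.card G ≠ 630 := by
    intro h
    by_cases hle : G ≤ alternatingGroup α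
    · have h4 : (G.subgroupOf (alternatingGroup α)).index = 4 := by
        have h1 := Subgroup.card_mul_index (G.subgroupOf (alternatingGroup α))
        rw [Nat.card_congr (Subgroup.subgroupOfEquivOfLe hle).toEquiv, h] at h1
        haveI : Nontrivial α := Fintype.one_lt_card_iff_nontrivial.1 (by omega)
        have h3 := two_mul_nat_card_alternatingGroup (α := α)
        rw [Nat.card_perm, hcardα] at h3
        have h5 : (7).factorial = 5040 := rfl
        omega
      haveI : IsSimpleGroup (alternatingGroup α) := alternatingGroup.isSimpleGroup (by rw [hcardα]; norm_num)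
      have h5 := H9.PermIndex.card_dvd_factorial (G.subgroupOf (alternatingGroup α)) (by
        intro ht
        rw [ht, Subgroup.index_top] at h4
        omega)
      rw [h4] at h5
      haveI : Nontrivial α := Fintype.one_lt_card_iff_nontrivial.1 (by omega)
      have h3 := two_mul_nat_card_alternatingGroup (α := α)
      rw [Nat.card_perm, hcardα] at h3
      have h6 : (7).factorial = 5040 := rfl
      have h7 : (4).factorial = 24 := rfl
      have := Nat.le_of_dvd (by norm_num) h5
      omega
    · -- G ⊓ A has index 2
      let N : Subgroup G := (alternatingGroup α).subgroupOf G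
      haveI : N.Normal := inferInstance
      have hNidx : N.index = 2 := by
        have h1 : N.index ∣ 2 := by
          have h3 : (alternatingGroup α).relIndex G ∣ (alternatingGroup α).index :=
            Subgroup.relIndex_dvd_index_of_normal _ _
          haveI : Nontrivial α := Fintype.one_lt_card_iff_nontrivial.1 (by omega)
          rw [alternatingGroup.index_eq_two] at h3
          exact h3
        rcases (Nat.dvd_prime Nat.prime_two).1 h1 with h3 | h3
        · exfalso
          apply hle
          rw [Subgroup.index_eq_one] at h3
          exact Subgroup.subgroupOf_eq_top.1 h3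
        · exact h3
      have hNcard : Nat.card N = 315 := by
        have := Subgroup.card_mul_index N
        rw [hNidx, h] at this
        omega
      have hNb : N ≠ ⊥ := by
        intro hb
        rw [hb, Subgroup.card_bot] at hNcard
        omega
      haveI := H9.PermIndex.transitive_of_normal (p := 7) hα N hNb
      haveI : FaithfulSMul N α := ⟨fun {m n} h => Subtype.ext (FaithfulSMul.eq_of_smul_eq_smul (α := α) h)⟩
      have hNA : ¬ H9.PrimeDeg.Aff 7 N α := by
        intro hAff
        apply hG
        haveI := hAff.solvable
        haveI : Group.IsSolvable (G ⧸ N) := by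
          have hc : Nat.card (G ⧸ N) = 2 := hNidx
          haveI : IsCyclic (G ⧸ N) := by
            haveI : Fact (Nat.Prime 2) := ⟨Nat.prime_two⟩
            exact isCyclic_of_prime_card hc
          letI := IsCyclic.commGroup (α := G ⧸ N)
          infer_instance
        exact (Group.isSolvable_iff_subgroup_quotient N).2 ⟨inferInstance, inferInstance⟩
      have h3 := descF N hα (H9.Burnside.burnside (p := 7) hα hNA)
      rw [hNcard] at h3
      omega
  have hn' : n % 7 = 1 := hn
  have hdd : d = 1 ∨ d = 2 ∨ d = 3 ∨ d = 6 := by
    have h1 : d ∣ 6 := by simpa using hd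
    have h3 : d ≤ 6 := Nat.le_of_dvd (by norm_num) h1
    interval_cases d <;> omega
  have heven : Even d → False := by
    intro he
    have h3 := S0676.result (p := 7) hα G hG P (by rw [hNP]; exact he.mul_left 7)
    have h210' := H9.PermIndex.descFactorial_dvd h3 (by omega)
    rw [hα] at h210'
    have h210'' : 210 ∣ Nat.card G := h210'
    obtain ⟨k, hk⟩ := h210''
    have hk24 : k * G.index = 24 := by
      rw [hk] at hidx
      have : 210 * (k * G.index) = 210 * 24 := by rw [← mul_assoc, hidx]
      exact Nat.eq_of_mul_eq_mul_left (by norm_num) this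
    have hkd : k ∣ 24 := ⟨_, hk24.symm⟩
    have hkle : k ≤ 24 := Nat.le_of_dvd (by norm_num) hkd
    have hnd : d * n = 30 * k := by
      have : 7 * (d * n) = 7 * (30 * k) := by rw [← mul_assoc, ← hcard, hk]; ring
      exact Nat.eq_of_mul_eq_mul_left (by norm_num) this
    rcases hdd with rfl | rfl | rfl | rfl
    · exact absurd he (by decide)
    · have h15 : n = 15 * k := by omega
      have hk18 : k = 1 ∨ k = 8 := by interval_cases k <;> omega
      rcases hk18 with rfl | rfl
      · exact h210 (by rw [hk])
      · exact hsmall 3 (by rw [hk]) (by norm_num)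
    · exact absurd he (by decide)
    · have h15 : n = 5 * k := by omega
      have hk18 : k = 3 ∨ k = 24 := by interval_cases k <;> omega
      rcases hk18 with rfl | rfl
      · exact h630 (by rw [hk])
      · exact hsmall 1 (by rw [hk]) (by norm_num)
  have hd3 : d = 3 := by
    rcases hdd with rfl | rfl | rfl | rfl
    · exfalso
      have := H9.PermIndex.card_of_self_normalizing (p := 7) hα P (by rw [hNP])
      rw [this] at h42
      omega
    · exact absurd (heven (by decide)) id
    · rfl
    · exact absurd (heven (by decide)) id
  subst hd3
  have hcard168 : Nat.card G = 168 := by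
    have h1 : n * G.index = 240 := by
      have : 21 * (n * G.index) = 21 * 240 := by
        rw [← mul_assoc]
        rw [hcard] at hidx
        exact hidx
      exact Nat.eq_of_mul_eq_mul_left (by norm_num) this
    have hnle : n ≤ 240 := Nat.le_of_dvd (by norm_num) ⟨_, h1.symm⟩
    rw [hcard] at h42
    have hk18 : n = 8 ∨ n = 120 := by interval_cases n <;> omega
    rcases hk18 with h | h
    · rw [hcard, h]
    · exfalso
      exact hsmall 2 (by rw [hcard, h]) (by norm_num)
  refine ⟨hcard168, ?_⟩
  haveI : Nontrivial G := by
    rw [← Finite.one_lt_card_iff_nontrivial, hcard168]; norm_num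
  apply H7.Simple.simple_of_sylow (G := G) 7 3 (by norm_num) P hP
  · have e1 : Nat.card (Subgroup.normalizer ((P : Subgroup G) : Set G)) = 7 * 3 := hNP
    exact e1
  · rw [hcard168]; norm_num
  · intro N hN hNb
    haveI := H9.PermIndex.transitive_of_normal (p := 7) hα N hNb
    have hne : Nonempty α := Fintype.card_pos_iff.1 (by rw [hα]; norm_num)
    obtain ⟨a⟩ := hne
    have := MulAction.index_stabilizer_of_transitive N a
    rw [← hcardα, ← this]
    exact Subgroup.index_dvd_card _

end Cfsg.Agent.S0678
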