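import Mathlib
import Cfsg.Agent.H7_Rad8b
import Cfsg.Agent.S0494
import Cfsg.Agent.S0678
import Cfsg.Agent.S0713
import Cfsg.Agent.H7_Ix1
import Cfsg.Prelude

/-! Subgroups of `Alt(8)` with trivial radical and order divisible by five. -/

namespace H7.Rad8

open Cfsg Equiv

universe u v

/-- the possible groups -/
def Concl (G : Type u) [Group G] : Prop :=
  (∃ n : ℕ, 5 ≤ n ∧ n ≤ 8 ∧ Nonempty (G ≃* alternatingGroup (Fin n))) ∨
    Nonempty (G ≃* Perm (Fin 5)) ∨ Nonempty (G ≃* Perm (Fin 6)) ∨
    (Nat.card G = 168 ∧ IsSimpleGroup G) ∨ Nat.card G = 1344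

theorem Concl.congr {G : Type u} {G' : Type v} [Group G] [Group G'] (e : G ≃* G') (h : Concl G') : Concl G := by
  rcases h with ⟨n, h1, h2, ⟨f⟩⟩ | ⟨⟨f⟩⟩ | ⟨⟨f⟩⟩ | ⟨h1, h2⟩ | h
  · exact Or.inl ⟨n, h1, h2, ⟨e.trans f⟩⟩
  · exact Or.inr (Or.inl ⟨e.trans f⟩)
  · exact Or.inr (Or.inr (Or.inl ⟨e.trans f⟩))
  · haveI := h2
    exact Or.inr (Or.inr (Or.inr (Or.inl ⟨by rw [Nat.card_congr e.toEquiv, h1], e.isSimpleGroup⟩)))
  · exact Or.inr (Or.inr (Or.inr (Or.inr (by rw [Nat.card_congr e.toEquiv, h]))))

/-- transport of the symmetric group -/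
noncomputable def permEq {α : Type u} [Fintype α] {n : ℕ} (h : Fintype.card α = n) : Perm α ≃* Perm (Fin n) :=
  (Fintype.equivFinOfCardEq h).permCongrHom

theorem altEq {α : Type u} [Fintype α] [DecidableEq α] {n : ℕ} (h : Fintype.card α = n) :
    Nonempty (alternatingGroup α ≃* alternatingGroup (Fin n)) :=
  ⟨(Fintype.equivFinOfCardEq h).altCongrHom⟩

section five
variable {α : Type u} [Fintype α] [DecidableEq α]

theorem n5 (hα : Fintype.card α = 5) (G : Subgroup (Perm α)) (hns : ¬ Group.IsSolvable G) : Concl G := by
  have hc : Nat.card (Perm α) = 120 := by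
    rw [Nat.card_perm, Nat.card_eq_fintype_card, hα]; rfl
  have hd : Nat.card G ∣ 120 := by rw [← hc]; exact Subgroup.card_subgroup_dvd_card G
  have hm := G.index_mul_card
  rw [hc] at hm
  haveI : Nontrivial α := by rw [← Fintype.one_lt_card_iff_nontrivial]; omega
  by_cases h : Nat.card G ≤ 100
  · have h1 := sixty_dvd hns h
    have h2 : Nat.card G = 60 := by
      obtain ⟨k, hk⟩ := h1
      have : 0 < Nat.card G := Nat.card_pos
      have : k = 1 := by omega
      rw [hk, this]
    rw [h2] at hm
    have h3 : G = alternatingGroup α := Perm.eq_alternatingGroup_of_index_eq_two (by omega)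
    obtain ⟨e⟩ := altEq hα
    exact Or.inl ⟨5, le_rfl, by norm_num, ⟨(MulEquiv.subgroupCongr h3).trans e⟩⟩
  · have h2 : Nat.card G = 120 := by
      obtain ⟨k, hk⟩ := hd
      have : k ≠ 0 := by rintro rfl; omega
      have : k < 2 := by by_contra h'; nlinarith
      have : k = 1 := by omega
      rw [this] at hk; omega
    have h3 : G = ⊤ := Subgroup.eq_top_of_card_eq _ (by rw [h2, hc])
    exact Or.inr (Or.inl ⟨((MulEquiv.subgroupCongr h3).trans Subgroup.topEquiv).trans (permEq hα)⟩)

theorem alt_or_top (G : Subgroup (Perm α)) [Nontrivial α] (h : alternatingGroup α ≤ G) : G = alternatingGroup α ∨ G = ⊤ := by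
  have h1 := Subgroup.relIndex_mul_index h
  rw [alternatingGroup.index_eq_two] at h1
  have h2 : G.index = 1 ∨ G.index = 2 := by
    have : G.index ∣ 2 := ⟨_, by rw [mul_comm]; exact h1.symm⟩
    exact (Nat.dvd_prime Nat.prime_two).1 this
  rcases h2 with h2 | h2
  · exact Or.inr (Subgroup.index_eq_one.1 h2)
  · exact Or.inl (Perm.eq_alternatingGroup_of_index_eq_two h2)

theorem n6 (hα : Fintype.card α = 6) (G : Subgroup (Perm α)) (hns : ¬ Group.IsSolvable G)
    (h2 : pCore 2 G = ⊥) (h2' : pPrimeCore 2 G = ⊥) : Concl G := by
  classical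
  have hc : Nat.card (Perm α) = 720 := by
    rw [Nat.card_perm, Nat.card_eq_fintype_card, hα]; rfl
  haveI : Nontrivial α := by rw [← Fintype.one_lt_card_iff_nontrivial]; omega
  have hca : Nat.card (alternatingGroup α) = 360 := by
    rw [nat_card_alternatingGroup, Nat.card_eq_fintype_card, hα]; rfl
  by_cases hA : alternatingGroup α ≤ G
  · rcases alt_or_top G hA with h | h
    · obtain ⟨e⟩ := altEq hα
      exact Or.inl ⟨6, by norm_num, by norm_num, ⟨(MulEquiv.subgroupCongr h).trans e⟩⟩
    · exact Or.inr (Or.inr (Or.inl ⟨((MulEquiv.subgroupCongr h).trans Subgroup.topEquiv).trans (permEq hα)⟩))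
  · haveI : IsSimpleGroup (alternatingGroup α) := alternatingGroup.isSimpleGroup (by rw [Nat.card_eq_fintype_card, hα]; norm_num)
    set A := G.subgroupOf (alternatingGroup α) with hAd
    have hAt : A ≠ ⊤ := by
      rw [hAd, Ne, Subgroup.subgroupOf_eq_top]; exact hA
    have h3 := card_dvd_factorial A hAt
    rw [hca] at h3
    have h4 : 6 ≤ A.index := by
      by_contra hlt
      push Not at hlt
      interval_cases A.index <;> revert h3 <;> decide
    have h5 := A.index_mul_card
    rw [hca] at h5
    have h6 : Nat.card A ≤ 60 := by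
      have : 6 * Nat.card A ≤ 360 := by rw [← h5]; exact Nat.mul_le_mul_right _ h4
      omega
    -- sign homomorphism
    let f : G →* ℤˣ := Perm.sign.comp G.subtype
    let e : f.ker ≃* A :=
      { toFun := fun x => ⟨⟨x.1.1, Perm.mem_alternatingGroup.2 x.2⟩, x.1.2⟩
        invFun := fun x => ⟨⟨x.1.1, x.2⟩, Perm.mem_alternatingGroup.1 x.1.2⟩
        left_inv := fun x => rfl
        right_inv := fun x => rfl
        map_mul' := fun x y => rfl }
    have hAns : ¬ Group.IsSolvable A := by
      intro hs
      apply hns
      haveI := hs
      haveI : Group.IsSolvable f.ker := Group.isSolvable_of_isSolvable_injective (f := e.toMonoidHom) e.injective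
      exact Group.isSolvable_of_ker_le_range f.ker.subtype f (by simp)
    have h7 : Nat.card A = 60 := le_antisymm h6 (sixty_le hAns)
    have h8 : Nat.card f.ker = 60 := by rw [Nat.card_congr e.toEquiv, h7]
    have h9 := f.ker.index_mul_card
    rw [h8] at h9
    have h10 : f.ker.index = 1 ∨ f.ker.index = 2 := by
      have : f.ker.index ∣ 2 := by
        rw [Subgroup.index_ker]
        have := Subgroup.card_subgroup_dvd_card f.range
        rwa [show Nat.card ℤˣ = 2 by rw [Nat.card_eq_fintype_card]; rfl] at this
      exact (Nat.dvd_prime Nat.prime_two).1 this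
    rcases h10 with h10 | h10
    · rw [h10, one_mul] at h9
      haveI : IsSimpleGroup G := simple_of hns (fun m hm hlt => by
        rw [← h9] at hm hlt
        refine ⟨by omega, fun h => ?_⟩
        have := Nat.le_of_dvd (Nat.pos_of_dvd_of_pos hm (by norm_num)) h
        omega)
      obtain ⟨e⟩ := Cfsg.Agent.S0494.result (G := G) h9.symm
      exact Or.inl ⟨5, le_rfl, by norm_num, ⟨e⟩⟩
    · rw [h10] at h9
      -- action on the six cosets
      have hG120 : Nat.card G = 120 := by omega
      have hidx : G.index = 6 := by
        have := G.index_mul_card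
        rw [hG120, hc] at this; omega
      have hcore : G.normalCore = ⊥ := by
        have hK : (G.normalCore.subgroupOf G).Normal := inferInstance
        -- intersection with the alternating group
        have h11 : G.normalCore ⊓ alternatingGroup α = ⊥ := by
          have hn : ((G.normalCore).subgroupOf (alternatingGroup α)).Normal := inferInstance
          rcases hn.eq_bot_or_eq_top with h | h
          · rw [Subgroup.subgroupOf_eq_bot] at h
            exact h.eq_bot
          · exfalso
            apply hA
            rw [Subgroup.subgroupOf_eq_top] at h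
            exact h.trans (Subgroup.normalCore_le G)
        have hsol : Group.IsSolvable (G.normalCore.subgroupOf G) := by
          have hinj : Function.Injective (f.comp (G.normalCore.subgroupOf G).subtype) := by
            rw [injective_iff_map_eq_one]
            intro x hx
            have : (x.1 : Perm α) ∈ G.normalCore ⊓ alternatingGroup α := ⟨x.2, Perm.mem_alternatingGroup.2 hx⟩
            rw [h11, Subgroup.mem_bot] at this
            exact Subtype.ext (Subtype.ext this)
          exact Group.isSolvable_of_isSolvable_injective hinj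
        have h12 := bot_of_solvable h2 h2' _ _ hK hsol rfl
        rw [Subgroup.subgroupOf_eq_bot] at h12
        have : G.normalCore ⊓ G = ⊥ := h12.eq_bot
        rwa [inf_eq_left.2 (Subgroup.normalCore_le G)] at this
      -- five remaining cosets
      let X := Perm α ⧸ G
      let x0 : X := QuotientGroup.mk 1
      have hfix : ∀ g : G, (g : Perm α) • x0 = x0 := by
        intro g
        show (QuotientGroup.mk ((g : Perm α) * 1) : Perm α ⧸ G) = QuotientGroup.mk 1
        rw [QuotientGroup.eq]
        simp
      haveI : Fintype X := Fintype.ofFinite X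
      have hX : Fintype.card X = 6 := by
        rw [← Nat.card_eq_fintype_card]; exact hidx
      let Y := {x : X // x ≠ x0}
      have hY : Fintype.card Y = 5 := by
        rw [Fintype.card_subtype_compl, hX]; simp
      let act : G →* Perm Y :=
        { toFun := fun g => (MulAction.toPerm (g : Perm α) : Perm X).subtypePerm (fun x => by
            have := hfix g
            show (g : Perm α) • x ≠ x0 ↔ x ≠ x0
            rw [not_iff_not]
            constructor
            · intro h; exact MulAction.injective (g : Perm α) (h.trans this.symm)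
            · rintro rfl; exact this)
          map_one' := by
            ext x; simp
          map_mul' := by
            intro g h; ext x; simp [mul_smul] }
      have hinj : Function.Injective act := by
        rw [injective_iff_map_eq_one]
        intro g hg
        have h13 : (g : Perm α) ∈ G.normalCore := by
          rw [Subgroup.normalCore_eq_ker, MonoidHom.mem_ker]
          ext x
          by_cases hx : x = x0
          · rw [hx]; exact hfix g
          · have := congrArg (fun p : Perm Y => (p ⟨x, hx⟩ : X)) hg
            exact this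
        rw [hcore, Subgroup.mem_bot] at h13
        exact Subtype.ext h13
      have hbij : Function.Bijective act := by
        haveI : Finite (Perm Y) := inferInstance
        rw [Nat.bijective_iff_injective_and_card]
        refine ⟨hinj, ?_⟩
        rw [hG120, Nat.card_perm, Nat.card_eq_fintype_card, hY]
        rfl
      exact Or.inr (Or.inl ⟨(MulEquiv.ofBijective act hbij).trans (permEq hY)⟩)

end five

end H7.Rad8
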