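import Mathlib
import Cfsg.Agent.H7_Rad8c
import Cfsg.Prelude

/-! Subgroups of `Alt(8)` with trivial radical and order divisible by five: orbits. -/

namespace H7.Rad8

open Cfsg Equiv MulAction
open scoped Pointwise

variable {H : Subgroup P8}

theorem n8 (hH : H ≤ alternatingGroup (Fin 8)) (h5 : 5 ∣ Nat.card H) (htr : IsPretransitive H (Fin 8)) :
    H = alternatingGroup (Fin 8) := by
  haveI : Fact (Nat.Prime 5) := ⟨by norm_num⟩
  obtain ⟨c, hc⟩ := exists_prime_orderOf_dvd_card' 5 h5
  have hc' : orderOf (c : P8) = 5 := by rw [Subgroup.orderOf_coe, hc]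
  have hcyc : (c : P8).IsCycle := Perm.isCycle_of_prime_order' (by rw [hc']; norm_num) (by rw [hc', Fintype.card_fin]; norm_num)
  have hsup : (c : P8).support.card = 5 := by rw [← hcyc.orderOf, hc']
  have hc1 : c ≠ 1 := by rintro rfl; rw [orderOf_one] at hc; omega
  have hprim : IsPreprimitive H (Fin 8) := by
    refine ⟨fun {B} hB => ?_⟩
    by_contra hnt
    rw [IsTrivialBlock, not_or] at hnt
    obtain ⟨h1, h2⟩ := hnt
    have hne : B.Nonempty := by
      by_contra h
      rw [Set.not_nonempty_iff_eq_empty] at h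
      apply h1; rw [h]; exact Set.subsingleton_empty
    have hmul := hB.ncard_block_mul_ncard_orbit_eq hne
    rw [Nat.card_eq_fintype_card, Fintype.card_fin] at hmul
    have hB2 : 2 ≤ B.ncard := by
      by_contra h
      apply h1
      rw [← Set.ncard_le_one_iff_subsingleton]
      omega
    have hB8 : B.ncard ≠ 8 := by
      intro h
      apply h2
      apply Set.eq_of_subset_of_ncard_le (Set.subset_univ B)
      rw [h, Set.ncard_univ, Nat.card_eq_fintype_card, Fintype.card_fin]
    have hO : (orbit H B).ncard ≤ 4 := by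
      by_contra h; nlinarith
    have hO2 : 2 ≤ (orbit H B).ncard := by
      by_contra h
      have : (orbit H B).ncard = 0 ∨ (orbit H B).ncard = 1 := by omega
      rcases this with h' | h' <;> rw [h'] at hmul <;> omega
    have hB4 : B.ncard ≤ 4 := by
      by_contra h; nlinarith
    have hzc : Nat.card (Subgroup.zpowers c) = 5 ^ 1 := by rw [Nat.card_zpowers, hc, pow_one]
    -- c fixes every translate
    have f1 : ∀ x ∈ orbit H B, ∀ g ∈ Subgroup.zpowers c, g • x = x :=
      Cfsg.Agent.H7.Ix.fix_small (Subgroup.zpowers c) hzc (orbit H B)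
        (fun g _ x hx => (mem_orbit_of_mem_orbit g hx)) (by omega)
    apply hc1
    apply Subtype.ext
    apply Equiv.ext
    intro x
    obtain ⟨b, hb⟩ := hne
    obtain ⟨h, hh⟩ := exists_smul_eq H b x
    have f2 : ∀ g ∈ Subgroup.zpowers c, g • (h • B) = h • B := f1 _ (mem_orbit B h)
    have hcard : (h • B).ncard ≤ 4 := by rw [Set.ncard_smul_set]; exact hB4
    have f3 : ∀ y ∈ h • B, ∀ g ∈ Subgroup.zpowers c, g • y = y :=
      Cfsg.Agent.H7.Ix.fix_small (Subgroup.zpowers c) hzc (h • B)
        (fun g hg y hy => by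
          have : g • y ∈ g • (h • B) := Set.smul_mem_smul_set hy
          rwa [f2 g hg] at this) (by omega)
    have hx : x ∈ h • B := by rw [← hh]; exact Set.smul_mem_smul_set hb
    exact f3 x hx c (Subgroup.mem_zpowers c)
  have h1 := Cfsg.Agent.S0713.result H hprim (p := 5) (by norm_num) (by rw [Fintype.card_fin]; norm_num)
    (by rw [Fintype.card_fin]) hcyc hsup c.2
  exact le_antisymm hH h1

theorem pCore_congr {G : Type*} {G' : Type*} [Group G] [Group G'] (e : G ≃* G') (p : ℕ) (h : pCore p G = ⊥) :
    pCore p G' = ⊥ := by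
  rw [eq_bot_iff]
  apply sSup_le
  rintro N ⟨hN, hp⟩
  have h1 : (N.comap e.toMonoidHom) ≤ pCore p G :=
    le_pCore p _ (hN.comap _) (hp.comap_of_injective e.toMonoidHom e.injective)
  rw [h] at h1
  intro x hx
  have h2 : e.symm x ∈ N.comap e.toMonoidHom := by
    show e (e.symm x) ∈ N
    rwa [e.apply_symm_apply]
  have h3 := h1 h2
  rw [Subgroup.mem_bot] at h3
  rw [Subgroup.mem_bot, ← e.apply_symm_apply x, h3, map_one]

theorem pPrimeCore_congr {G : Type*} {G' : Type*} [Group G] [Group G'] (e : G ≃* G') (p : ℕ) (h : pPrimeCore p G = ⊥) :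
    pPrimeCore p G' = ⊥ := by
  rw [eq_bot_iff]
  apply sSup_le
  rintro N ⟨hN, hp⟩
  have h1 : (N.comap e.toMonoidHom) ≤ pPrimeCore p G := by
    apply le_pPrimeCore p _ (hN.comap _)
    have e2 : N.comap e.toMonoidHom ≃* N :=
      { toFun := fun x => ⟨e x.1, x.2⟩
        invFun := fun x => ⟨e.symm x.1, by show e (e.symm x.1) ∈ N; rw [e.apply_symm_apply]; exact x.2⟩
        left_inv := fun x => by apply Subtype.ext; simp
        right_inv := fun x => by apply Subtype.ext; simp
        map_mul' := fun x y => by apply Subtype.ext; exact map_mul e x.1 y.1 }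
    rw [Nat.card_congr e2.toEquiv]; exact hp
  rw [h] at h1
  intro x hx
  have h2 : e.symm x ∈ N.comap e.toMonoidHom := by
    show e (e.symm x) ∈ N
    rwa [e.apply_symm_apply]
  have h3 := h1 h2
  rw [Subgroup.mem_bot] at h3
  rw [Subgroup.mem_bot, ← e.apply_symm_apply x, h3, map_one]

theorem cube_one {k : P8} (hk : Perm.sign k = 1) (hs : k.support.card ≤ 3) : k ^ 3 = 1 := by
  have h1 : k.support.card ≠ 1 := Perm.card_support_ne_one k
  have h2 : k.support.card ≠ 2 := by
    intro h
    have := (Perm.card_support_eq_two.1 h).sign_eq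
    rw [hk] at this
    exact absurd this (by decide)
  have h3 : k.support.card = 0 ∨ k.support.card = 3 := by omega
  rcases h3 with h3 | h3
  · rw [Perm.card_support_eq_zero] at h3
    rw [h3, one_pow]
  · have := (card_support_eq_three_iff.1 h3).orderOf
    rw [← this, pow_orderOf_eq_one]

theorem main8 (hH : H ≤ alternatingGroup (Fin 8)) (hns : ¬ Group.IsSolvable H) (h2 : pCore 2 H = ⊥)
    (h2' : pPrimeCore 2 H = ⊥) : Concl H := by
  classical
  by_cases h5 : 5 ∣ Nat.card H
  swap
  · rcases caseB hH hns h2 h2' h5 with h | h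
    · exact Or.inr (Or.inr (Or.inr (Or.inl h)))
    · exact Or.inr (Or.inr (Or.inr (Or.inr h)))
  haveI : Fact (Nat.Prime 5) := ⟨by norm_num⟩
  haveI : Fact (Nat.Prime 3) := ⟨by norm_num⟩
  obtain ⟨c, hc⟩ := exists_prime_orderOf_dvd_card' 5 h5
  have hc' : orderOf (c : P8) = 5 := by rw [Subgroup.orderOf_coe, hc]
  have hcyc : (c : P8).IsCycle := Perm.isCycle_of_prime_order' (by rw [hc']; norm_num) (by rw [hc', Fintype.card_fin]; norm_num)
  have hsup : (c : P8).support.card = 5 := by rw [← hcyc.orderOf, hc']
  obtain ⟨x, hx, hsame⟩ := hcyc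
  have hsub : ((c : P8).support : Set (Fin 8)) ⊆ orbit H x := by
    intro y hy
    rw [Finset.mem_coe, Perm.mem_support] at hy
    obtain ⟨i, hi⟩ := hsame hy
    exact ⟨c ^ i, by rw [← hi]; rfl⟩
  have hn5 : 5 ≤ (orbit H x).ncard := by
    rw [← hsup, ← Set.ncard_coe_finset]
    exact Set.ncard_le_ncard hsub (Set.toFinite _)
  have hn8 : (orbit H x).ncard ≤ 8 := by
    have := Set.ncard_le_ncard (Set.subset_univ (orbit H x)) (Set.toFinite _)
    rwa [Set.ncard_univ, Nat.card_eq_fintype_card, Fintype.card_fin] at this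
  let f : H →* Perm (orbit H x) := MulAction.toPermHom H (orbit H x)
  have hker : ∀ k ∈ f.ker, ∀ y ∈ orbit H x, (k : P8) y = y := by
    intro k hk y hy
    have := congrArg (fun g : Perm (orbit H x) => ((g ⟨y, hy⟩ : orbit H x) : Fin 8)) (MonoidHom.mem_ker.1 hk)
    exact this
  have hcube : ∀ k ∈ f.ker, k ^ 3 = 1 := by
    intro k hk
    apply Subtype.ext
    apply cube_one (Perm.mem_alternatingGroup.1 (hH k.2))
    have h1 : ((k : P8).support : Set (Fin 8)) ⊆ (orbit H x)ᶜ := by
      intro y hy hy'
      rw [Finset.mem_coe, Perm.mem_support] at hy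
      exact hy (hker k hk y hy')
    have h3 := Set.ncard_le_ncard h1 (Set.toFinite _)
    rw [Set.ncard_coe_finset, Set.ncard_compl, Nat.card_eq_fintype_card, Fintype.card_fin] at h3
    omega
  have hkb : f.ker = ⊥ := by
    have hp : IsPGroup 3 f.ker := fun k => ⟨1, Subtype.ext (hcube k.1 k.2)⟩
    rw [eq_bot_iff, ← h2']
    apply le_pPrimeCore 2 _ inferInstance
    obtain ⟨n, hn⟩ := hp.exists_card_eq
    rw [hn]
    exact Nat.Coprime.pow_left n (by norm_num)
  have hinj : Function.Injective f := (MonoidHom.ker_eq_bot_iff f).1 hkb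
  let e : H ≃* f.range := MonoidHom.ofInjective hinj
  have hns' : ¬ Group.IsSolvable f.range := by
    intro h
    haveI := h
    exact hns (Group.isSolvable_of_isSolvable_injective (f := e.toMonoidHom) e.injective)
  have hcardD : Fintype.card (orbit H x) = (orbit H x).ncard := by
    rw [← Nat.card_coe_set_eq, Nat.card_eq_fintype_card]
  have hcases : (orbit H x).ncard = 5 ∨ (orbit H x).ncard = 6 ∨ (orbit H x).ncard = 7 ∨ (orbit H x).ncard = 8 := by omega
  rcases hcases with h | h | h | h
  · exact (n5 (by rw [hcardD, h]) f.range hns').congr e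
  · exact (n6 (by rw [hcardD, h]) f.range hns' (pCore_congr e 2 h2) (pPrimeCore_congr e 2 h2')).congr e
  · haveI : IsPretransitive f.range (orbit H x) := by
      refine ⟨fun a b => ?_⟩
      obtain ⟨g, hg⟩ := exists_smul_eq H a b
      exact ⟨⟨f g, ⟨g, rfl⟩⟩, hg⟩
    have hc7 : Fintype.card (orbit H x) = 7 := by rw [hcardD, h]
    haveI : Nontrivial (orbit H x) := by rw [← Fintype.one_lt_card_iff_nontrivial]; omega
    by_cases hA : alternatingGroup (orbit H x) ≤ f.range
    · rcases alt_or_top f.range hA with h' | h'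
      · obtain ⟨e2⟩ := altEq hc7
        exact Or.inl ⟨7, by norm_num, by norm_num, ⟨e.trans ((MulEquiv.subgroupCongr h').trans e2)⟩⟩
      · exfalso
        have hcard : Nat.card H = 5040 := by
          rw [Nat.card_congr e.toEquiv, h', Subgroup.card_top, Nat.card_perm, Nat.card_eq_fintype_card, hc7]; rfl
        have hca : Nat.card (alternatingGroup (Fin 8)) = 20160 := by
          rw [nat_card_alternatingGroup, Nat.card_eq_fintype_card, Fintype.card_fin]
          decide
        haveI : IsSimpleGroup (alternatingGroup (Fin 8)) :=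
          alternatingGroup.isSimpleGroup (by rw [Nat.card_eq_fintype_card, Fintype.card_fin]; norm_num)
        have h6 : Nat.card (H.subgroupOf (alternatingGroup (Fin 8))) = 5040 := by
          rw [Nat.card_congr (Subgroup.subgroupOfEquivOfLe hH).toEquiv, hcard]
        have h7 := (H.subgroupOf (alternatingGroup (Fin 8))).index_mul_card
        rw [h6, hca] at h7
        have h8 : (H.subgroupOf (alternatingGroup (Fin 8))).index = 4 := by omega
        have h9 := card_dvd_factorial (H.subgroupOf (alternatingGroup (Fin 8))) (by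
          intro ht
          rw [ht, Subgroup.index_top] at h8
          omega)
        rw [h8, hca] at h9
        revert h9; decide
    · obtain ⟨h6, h7⟩ := Cfsg.Agent.S0678.result hc7 f.range hns' hA
      have : Concl f.range := Or.inr (Or.inr (Or.inr (Or.inl ⟨h6, h7⟩)))
      exact this.congr e
  · have huniv : orbit H x = Set.univ := by
      apply Set.eq_of_subset_of_ncard_le (Set.subset_univ _)
      rw [h, Set.ncard_univ, Nat.card_eq_fintype_card, Fintype.card_fin]
    have htr : IsPretransitive H (Fin 8) := by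
      rw [isPretransitive_iff_orbit_eq_univ x]; exact huniv
    have hEq := n8 hH h5 htr
    exact Or.inl ⟨8, by norm_num, le_rfl, ⟨MulEquiv.subgroupCongr hEq⟩⟩

end H7.Rad8
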