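import Mathlib
import Cfsg.Agent.H7_A7GL
import Cfsg.Agent.H7_Rad8a
import Cfsg.Prelude

/-! A subgroup of `GL(4, 2)` of order 1344 has a nontrivial normal `2`-subgroup. -/

namespace H7.Rad8

open Cfsg MulAction H7.A7GL
open scoped Matrix

variable {F : Type*} [Field F] [Fintype F]

local notation "V" => (Fin 4 → F)
local notation "GL4" => (Matrix.GeneralLinearGroup (Fin 4) F)

attribute [local instance] act

variable {H : Subgroup (Matrix.GeneralLinearGroup (Fin 4) F)}

omit [Fintype F] in
theorem hsmul (h : H) (v : V) : h • v = (h : GL4) • v := rfl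

theorem sq_one (hF : Fintype.card F = 2) {k : GL4} (hk : 8 ≤ Nat.card (fix k)) : k * k = 1 := by
  by_cases hk1 : k = 1
  · rw [hk1, one_mul]
  have h1 := card_fix hF hk1
  have h8 : Nat.card (fix k) = 8 := by
    simp only [Finset.mem_insert, Finset.mem_singleton] at h1
    omega
  have hidx : (fix k).index = 2 := by
    have := (fix k).index_mul_card
    rw [h8, card_V hF] at this
    omega
  apply fix_top
  rw [eq_top_iff]
  intro u _
  rw [mem_fix, mul_smul]
  by_cases hu : u ∈ fix k
  · rw [mem_fix] at hu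
    rw [hu, hu]
  · have hku : k • u ∉ fix k := by
      intro h
      apply hu
      rw [mem_fix] at h ⊢
      exact MulAction.injective k h
    have h2 : u + k • u ∈ fix k := by
      rw [AddSubgroup.add_mem_iff_of_index_two hidx]
      exact iff_of_false hu hku
    rw [mem_fix, smul_add'] at h2
    have h3 : k • u + k • k • u = k • u + u := by rw [h2, add_comm]
    exact add_left_cancel h3

theorem no_seven (hF : Fintype.card F = 2) (hc : Nat.card H = 1344) (h2 : pCore 2 H = ⊥) {v : V} (hv : v ≠ 0)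
    (h7 : (orbit H v).ncard = 7) : False := by
  classical
  let f : H →* Equiv.Perm (orbit H v) := MulAction.toPermHom H (orbit H v)
  have hker : ∀ k ∈ f.ker, ∀ y ∈ orbit H v, (k : GL4) • y = y := by
    intro k hk y hy
    have := congrArg (fun g : Equiv.Perm (orbit H v) => ((g ⟨y, hy⟩ : orbit H v) : V)) (MonoidHom.mem_ker.1 hk)
    exact this
  have hne0 : ∀ y ∈ orbit H v, y ≠ 0 := by
    rintro y ⟨g, rfl⟩ h0
    apply hv
    have h0' : (g : GL4) • v = (g : GL4) • (0 : V) := by rw [smul_zero']; exact h0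
    exact MulAction.injective (g : GL4) h0'
  have hkb : f.ker = ⊥ := by
    have hp : IsPGroup 2 f.ker := by
      intro k
      refine ⟨1, ?_⟩
      apply Subtype.ext
      apply Subtype.ext
      show ((k : H) : GL4) ^ (2 ^ 1) = 1
      rw [pow_one, pow_two]
      apply sq_one hF
      have hsub : insert (0 : V) (orbit H v) ⊆ (fix ((k : H) : GL4) : Set V) := by
        rintro y (rfl | hy)
        · exact (fix ((k : H) : GL4)).zero_mem
        · exact hker k.1 k.2 y hy
      have h3 := Set.ncard_le_ncard hsub (Set.toFinite _)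
      rw [Set.ncard_insert_of_notMem (fun h => hne0 0 h rfl) (Set.toFinite _), h7] at h3
      exact h3
    rw [eq_bot_iff, ← h2]
    exact le_pCore 2 _ inferInstance hp
  have hinj : Function.Injective f := (MonoidHom.ker_eq_bot_iff f).1 hkb
  have hd := Subgroup.card_dvd_of_injective f hinj
  rw [Nat.card_perm, Nat.card_coe_set_eq, h7, hc] at hd
  revert hd; decide

theorem orbit_ne (v : V) (hv : v ≠ 0) : orbit H v ⊆ {w | w ≠ 0} := by
  rintro y ⟨g, rfl⟩ h0
  apply hv
  have h0' : (g : GL4) • v = (g : GL4) • (0 : V) := by rw [smul_zero']; exact h0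
  exact MulAction.injective (g : GL4) h0'

theorem ncard_ne (hF : Fintype.card F = 2) : {w : V | w ≠ 0}.ncard = 15 := by
  have h : {w : V | w ≠ 0} = {(0 : V)}ᶜ := rfl
  rw [h, Set.ncard_compl, card_V hF, Set.ncard_singleton]

theorem structure1344 (hF : Fintype.card F = 2) (hc : Nat.card H = 1344) (h2 : pCore 2 H = ⊥) :
    ∃ v0 : V, v0 ≠ 0 ∧ (∀ h ∈ H, h • v0 = v0) ∧ ∀ v : V, v ≠ 0 → v ≠ v0 → (orbit H v).ncard = 14 := by
  classical
  haveI : Fact (Nat.Prime 7) := ⟨by norm_num⟩
  obtain ⟨c, hco⟩ := exists_prime_orderOf_dvd_card' (G := H) 7 (by rw [hc]; norm_num)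
  have hc7 : c ^ 7 = 1 := by rw [← hco, pow_orderOf_eq_one]
  have hcG : (c : GL4) ^ 7 = 1 := by
    have := congrArg Subtype.val hc7
    simpa using this
  have hc1 : (c : GL4) ≠ 1 := by
    intro h
    have : c = 1 := Subtype.ext h
    rw [this, orderOf_one] at hco; omega
  have hfix := card_fix_seven hF hcG hc1
  obtain ⟨v0, hv0f, hv0⟩ : ∃ v0 ∈ fix (c : GL4), v0 ≠ 0 := by
    by_contra hcon
    push Not at hcon
    have : fix (c : GL4) = ⊥ := by
      rw [eq_bot_iff]; intro x hx; exact hcon x hx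
    rw [this] at hfix
    simp at hfix
  rw [mem_fix] at hv0f
  have huniq : ∀ w : V, w ≠ 0 → (c : GL4) • w = w → w = v0 := fun w hw hcw =>
    fix_seven_unique hF hcG hc1 hcw hv0f hw hv0
  have hdvd : ∀ v : V, (orbit H v).ncard ∣ 1344 := by
    intro v
    rw [← hc, ← index_stabilizer]
    exact Subgroup.index_dvd_card _
  have hle : ∀ v : V, v ≠ 0 → (orbit H v).ncard ≤ 15 := by
    intro v hv
    rw [← ncard_ne (F := F) hF]
    exact Set.ncard_le_ncard (orbit_ne v hv) (Set.toFinite _)
  have hpos : ∀ v : V, 0 < (orbit H v).ncard := fun v =>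
    (Set.ncard_pos (Set.toFinite _)).2 ⟨v, mem_orbit_self v⟩
  have hA : ∀ v : V, v ≠ 0 → v0 ∉ orbit H v → (orbit H v).ncard = 14 := by
    intro v hv hno
    have h1 := ncard_orbit_modEq (G := H) 7 c hc7 v
    have h3 : {b | b ∈ orbit H v ∧ c • b = b} = ∅ := by
      rw [Set.eq_empty_iff_forall_notMem]
      rintro b ⟨hb1, hb2⟩
      have := huniq b (orbit_ne v hv hb1) hb2
      rw [this] at hb1; exact hno hb1
    rw [h3, Set.ncard_empty] at h1
    have h4 := hle v hv
    have h5 := hpos v
    have h6 : (orbit H v).ncard ≠ 7 := fun h => no_seven hF hc h2 hv h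
    rw [Nat.ModEq] at h1
    omega
  have hB : (orbit H v0).ncard = 1 := by
    have h1 := ncard_orbit_modEq (G := H) 7 c hc7 v0
    have h3 : {b | b ∈ orbit H v0 ∧ c • b = b} = {v0} := by
      ext b
      constructor
      · rintro ⟨hb1, hb2⟩
        exact huniq b (orbit_ne v0 hv0 hb1) hb2
      · rintro rfl
        exact ⟨mem_orbit_self _, hv0f⟩
    rw [h3, Set.ncard_singleton] at h1
    have h4 := hle v0 hv0
    have h5 := hpos v0
    have h6 : (orbit H v0).ncard ≠ 15 := by
      intro h
      have := hdvd v0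
      rw [h] at this
      revert this; decide
    have h8 : (orbit H v0).ncard ≠ 8 := by
      intro h8
      -- another orbit
      obtain ⟨v, hv, hv'⟩ : ∃ v : V, v ≠ 0 ∧ v ∉ orbit H v0 := by
        by_contra hcon
        push Not at hcon
        have : {w : V | w ≠ 0} ⊆ orbit H v0 := fun w hw => hcon w hw
        have := Set.ncard_le_ncard this (Set.toFinite _)
        rw [ncard_ne (F := F) hF, h8] at this
        omega
      have hno : v0 ∉ orbit H v := fun h => hv' (mem_orbit_symm.1 h)
      have h14 := hA v hv hno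
      have hdisj : Disjoint (orbit H v) (orbit H v0) := by
        rcases MulAction.orbit.eq_or_disjoint (G := H) v v0 with h | h
        · exfalso; apply hno; rw [h]; exact mem_orbit_self _
        · exact h
      have hun := Set.ncard_union_eq hdisj (Set.toFinite _) (Set.toFinite _)
      have hsub : orbit H v ∪ orbit H v0 ⊆ {w | w ≠ 0} := Set.union_subset (orbit_ne v hv) (orbit_ne v0 hv0)
      have h9 := Set.ncard_le_ncard hsub (Set.toFinite _)
      rw [hun, h14, h8, ncard_ne (F := F) hF] at h9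
      omega
    rw [Nat.ModEq] at h1
    omega
  have hfixed : ∀ h ∈ H, h • v0 = v0 := by
    intro h hh
    obtain ⟨a, ha⟩ := Set.ncard_eq_one.1 hB
    have h1 : v0 ∈ orbit H v0 := mem_orbit_self _
    have h3 : h • v0 ∈ orbit H v0 := ⟨⟨h, hh⟩, rfl⟩
    rw [ha, Set.mem_singleton_iff] at h1 h3
    rw [h3, h1]
  refine ⟨v0, hv0, hfixed, fun v hv hne => hA v hv ?_⟩
  rintro ⟨g, hg⟩
  apply hne
  have : (g : GL4)⁻¹ • v0 = v := by
    rw [← hg]; exact inv_smul_smul (g : GL4) v
  rw [← this, hfixed _ (inv_mem g.2)]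

/-- the inverse transpose -/
def dual : GL4 →* GL4 where
  toFun g := ⟨((g⁻¹ : GL4) : Matrix (Fin 4) (Fin 4) F)ᵀ, (g : Matrix (Fin 4) (Fin 4) F)ᵀ, by
    rw [← Matrix.transpose_mul, ← Units.val_mul, mul_inv_cancel, Units.val_one, Matrix.transpose_one], by
    rw [← Matrix.transpose_mul, ← Units.val_mul, inv_mul_cancel, Units.val_one, Matrix.transpose_one]⟩
  map_one' := by
    apply Units.ext
    simp
  map_mul' g h := by
    apply Units.ext
    show (((g * h)⁻¹ : GL4) : Matrix (Fin 4) (Fin 4) F)ᵀ = ((g⁻¹ : GL4) : Matrix (Fin 4) (Fin 4) F)ᵀ *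
      ((h⁻¹ : GL4) : Matrix (Fin 4) (Fin 4) F)ᵀ
    rw [mul_inv_rev, Units.val_mul, Matrix.transpose_mul]

omit [Fintype F] in
theorem dual_val (g : GL4) : (dual g : GL4).1 = ((g⁻¹ : GL4) : Matrix (Fin 4) (Fin 4) F)ᵀ := rfl

omit [Fintype F] in
theorem dual_inj : Function.Injective (dual (F := F)) := by
  rw [injective_iff_map_eq_one]
  intro g hg
  have h1 : ((g⁻¹ : GL4) : Matrix (Fin 4) (Fin 4) F)ᵀ = 1 := congrArg Units.val hg
  have h2 : ((g⁻¹ : GL4) : Matrix (Fin 4) (Fin 4) F) = 1 := by
    rw [← Matrix.transpose_transpose ((g⁻¹ : GL4) : Matrix (Fin 4) (Fin 4) F), h1, Matrix.transpose_one]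
  have h3 : g⁻¹ = 1 := Units.ext h2
  rwa [inv_eq_one] at h3

theorem pcore_iso {G : Type*} {G' : Type*} [Group G] [Group G'] (e : G ≃* G') (p : ℕ) (h : pCore p G = ⊥) :
    pCore p G' = ⊥ := by
  rw [eq_bot_iff]
  apply sSup_le
  rintro N ⟨hN, hp⟩
  have h1 : (N.comap e.toMonoidHom) ≤ pCore p G :=
    le_pCore p _ (hN.comap _) (hp.comap_of_injective e.toMonoidHom e.injective)
  rw [h] at h1
  intro x hx
  have h2 : e.symm x ∈ N.comap e.toMonoidHom := by
    show e (e.symm x) ∈ N
    rwa [e.apply_symm_apply]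
  have h3 := h1 h2
  rw [Subgroup.mem_bot] at h3
  rw [Subgroup.mem_bot, ← e.apply_symm_apply x, h3, map_one]

theorem no1344 (hF : Fintype.card F = 2) (hc : Nat.card H = 1344) (h2 : pCore 2 H = ⊥) : False := by
  classical
  obtain ⟨v0, hv0, hfix, horb⟩ := structure1344 hF hc h2
  let e : H ≃* H.map dual := Subgroup.equivMapOfInjective H dual dual_inj
  obtain ⟨w0, hw0, hfix', -⟩ := structure1344 (H := H.map dual) hF (by rw [← Nat.card_congr e.toEquiv, hc])
    (pcore_iso e 2 h2)
  -- the invariant hyperplane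
  let L : V →+ F :=
    { toFun := fun x => w0 ⬝ᵥ x
      map_zero' := dotProduct_zero w0
      map_add' := fun x y => dotProduct_add w0 x y }
  have hinv : ∀ g ∈ H, ∀ x : V, L (g • x) = L x := by
    intro g hg x
    have h1 : dual g⁻¹ • w0 = w0 := hfix' _ ⟨g⁻¹, inv_mem hg, rfl⟩
    rw [smul_def', dual_val, inv_inv] at h1
    show w0 ⬝ᵥ (g • x) = w0 ⬝ᵥ x
    rw [smul_def', Matrix.dotProduct_mulVec, ← Matrix.mulVec_transpose, h1]
  have hcard := L.ker.card_eq_card_quotient_mul_card_addSubgroup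
  have hr : Nat.card (V ⧸ L.ker) ≤ 2 := by
    rw [Nat.card_congr (QuotientAddGroup.quotientKerEquivRange L).toEquiv]
    have := Nat.le_of_dvd Nat.card_pos (AddSubgroup.card_addSubgroup_dvd_card L.range)
    rw [Nat.card_eq_fintype_card (α := F), hF] at this
    exact this
  rw [card_V hF] at hcard
  have h8 : 8 ≤ Nat.card L.ker := by
    by_contra h
    nlinarith
  have hnt : L.ker ≠ ⊤ := by
    intro h
    apply hw0
    funext i
    have : (Pi.single i (1 : F) : V) ∈ L.ker := by rw [h]; trivial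
    have h1 : w0 ⬝ᵥ (Pi.single i (1 : F) : V) = 0 := this
    rw [dotProduct_single, mul_one] at h1
    exact h1
  have h8' : Nat.card L.ker ≤ 8 := by
    have hne : Nat.card (V ⧸ L.ker) ≠ 1 := by
      intro h
      apply hnt
      rw [← AddSubgroup.index_eq_one]
      exact h
    have hpos : 0 < Nat.card (V ⧸ L.ker) := Nat.card_pos
    have : Nat.card (V ⧸ L.ker) = 2 := by omega
    rw [this] at hcard
    omega
  obtain ⟨w, hwL, hw1, hw2⟩ : ∃ w ∈ L.ker, w ≠ 0 ∧ w ≠ v0 := by
    by_contra hcon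
    push Not at hcon
    have hsub : (L.ker : Set V) ⊆ {0, v0} := by
      intro w hw
      by_cases h0 : w = 0
      · exact Or.inl h0
      · exact Or.inr (hcon w hw h0)
    have h3 := Set.ncard_le_ncard hsub (Set.toFinite _)
    have h4 : ({0, v0} : Set V).ncard ≤ 2 := (Set.ncard_insert_le _ _).trans (by rw [Set.ncard_singleton])
    have h5 : (L.ker : Set V).ncard = Nat.card L.ker := rfl
    omega
  have h14 := horb w hw1 hw2
  have hsub : orbit H w ⊆ (L.ker : Set V) := by
    rintro y ⟨g, rfl⟩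
    show L ((g : GL4) • w) = 0
    rw [hinv _ g.2]; exact hwL
  have h3 := Set.ncard_le_ncard hsub (Set.toFinite _)
  rw [h14] at h3
  have h5 : (L.ker : Set V).ncard = Nat.card L.ker := rfl
  omega

end H7.Rad8
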