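import Cfsg.Statements.S0825
import Mathlib
import Cfsg.Agent.H5_SymO
import Cfsg.Agent.S0287

set_option autoImplicit false
open Cfsg

namespace Cfsg.Agent.S0825


theorem two_cases {F : Type*} [Field F] [Fintype F] (hF : Fintype.card F = 2) (a : F) : a = 0 ∨ a = 1 := by
  by_contra hcon
  push Not at hcon
  classical
  have h1 : ({0, 1, a} : Finset F).card = 3 := by
    rw [Finset.card_insert_of_notMem, Finset.card_insert_of_notMem, Finset.card_singleton]
    · simp [hcon.2.symm]
    · simp [hcon.1.symm]
  have h2 := Finset.card_le_univ ({0, 1, a} : Finset F)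
  omega

/-- O⁺_6(2) ≅ S_8: the isometry group of the hyperbolic form x_1y_1 + x_2y_2 + x_3y_3 over the field with 2 elements is isomorphic to the symmetric group on 8 letters. -/
theorem result {F : Type*} [Field F] [Fintype F] (hF : Fintype.card F = 2) : Nonempty (↥(Cfsg.isometryGroup F (Cfsg.quadFormPlus 3 F)) ≃* Equiv.Perm (Fin 8)) := by
  have hc : CharP F 2 := charP_of_card_eq_prime hF
  apply H5.SymO.iso8 (two_cases hF)
  rw [S0287.result hF 3 (by norm_num), Nat.card_perm, Nat.card_eq_fintype_card, Fintype.card_fin]
  simp [Finset.prod_range_succ, Nat.factorial]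

end Cfsg.Agent.S0825
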