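import Cfsg.Statements.S0256
import Mathlib
import Cfsg.Agent.S0302
import Cfsg.Agent.S0825
import Cfsg.Agent.H5_OmCard

set_option autoImplicit false
open Cfsg

namespace Cfsg.Agent.S0256

theorem com_map {A B : Type*} [Group A] [Group B] (e : A ≃* B) : (commutator A).map e.toMonoidHom = commutator B := by
  rw [commutator_def, commutator_def, Subgroup.map_commutator, ← MonoidHom.range_eq_map, MonoidHom.range_eq_top.2 e.surjective]

/-- PSL_4(2) is isomorphic to A_8. -/
theorem result {F : Type*} [Field F] [Fintype F] (hF : Fintype.card F = 2) : Nonempty (Matrix.ProjectiveSpecialLinearGroup (Fin 4) F ≃* alternatingGroup (Fin 8)) := by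
  have hc : CharP F 2 := charP_of_card_eq_prime hF
  obtain ⟨e1⟩ := S0302.result (F := F)
  obtain ⟨e2⟩ := S0825.result (F := F) hF
  have h5 : 5 ≤ Nat.card (Fin 8) := by simp
  have hcm : (commutator (Cfsg.isometryGroup F (Cfsg.quadFormPlus 3 F))).map e2.toMonoidHom = alternatingGroup (Fin 8) := by
    rw [← alternatingGroup.commutator_perm_eq h5]
    exact com_map e2
  have e3 : Cfsg.Omega F (Cfsg.quadFormPlus 3 F) ≃* alternatingGroup (Fin 8) :=
    (e2.subgroupMap _).trans (MulEquiv.subgroupCongr hcm)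
  have hQ := H16.Quad.nd_plusQ (F := F) 3
  have hcen := H5.OmSim.center_char_two hQ (by decide) (by exact_mod_cast CharP.cast_eq_zero F 2)
  rw [H16.Quad.coe_plusQ, Subgroup.card_eq_one] at hcen
  have e4 : Cfsg.POmega F (Cfsg.quadFormPlus 3 F) ≃* Cfsg.Omega F (Cfsg.quadFormPlus 3 F) :=
    (QuotientGroup.quotientMulEquivOfEq hcen).trans QuotientGroup.quotientBot
  exact ⟨e1.symm.trans (e4.trans e3)⟩

end Cfsg.Agent.S0256
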