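import Mathlib
import Cfsg.Agent.H7_Rad8d
import Cfsg.Agent.H7_Rad8e
import Cfsg.Agent.S0256
import Cfsg.Agent.S0255
import Cfsg.Agent.S0495
import Cfsg.Prelude

/-! Subgroups of `GL(4, 2)` with trivial radical. -/

namespace H7.Rad8

open Cfsg

abbrev Z2 := ZMod 2

theorem z2_eq (c : Z2) (hc : c ≠ 0) : c = 1 := by
  revert hc; revert c; decide

theorem psl_gl (n : ℕ) (hn : n ≠ 0) :
    Nonempty (Matrix.ProjectiveSpecialLinearGroup (Fin n) Z2 ≃* Matrix.GeneralLinearGroup (Fin n) Z2) := by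
  have hz : Subgroup.center (Matrix.SpecialLinearGroup (Fin n) Z2) = ⊥ := by
    rw [eq_bot_iff]
    intro A hA
    rw [Matrix.SpecialLinearGroup.mem_center_iff] at hA
    obtain ⟨c, hc, hA⟩ := hA
    have hc0 : c ≠ 0 := by
      rintro rfl
      rw [Fintype.card_fin, zero_pow hn] at hc
      exact zero_ne_one hc
    rw [Subgroup.mem_bot]
    apply Subtype.ext
    rw [← hA, z2_eq c hc0]
    simp
  let e2 : Matrix.ProjectiveSpecialLinearGroup (Fin n) Z2 ≃* Matrix.SpecialLinearGroup (Fin n) Z2 :=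
    (QuotientGroup.quotientMulEquivOfEq hz).trans QuotientGroup.quotientBot
  have hbij : Function.Bijective (Matrix.SpecialLinearGroup.toGL : Matrix.SpecialLinearGroup (Fin n) Z2 →*
      Matrix.GeneralLinearGroup (Fin n) Z2) := by
    constructor
    · intro a b hab
      apply Subtype.ext
      exact congrArg Units.val hab
    · intro g
      have hd : (g : Matrix (Fin n) (Fin n) Z2).det = 1 := by
        apply z2_eq
        exact (Matrix.isUnit_iff_isUnit_det _ |>.1 g.isUnit).ne_zero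
      exact ⟨⟨g, hd⟩, Units.ext rfl⟩
  exact ⟨e2.trans (MulEquiv.ofBijective _ hbij)⟩

theorem main (H : Subgroup (Matrix.GeneralLinearGroup (Fin 4) Z2)) (hH : H ≠ ⊥) (hO : pPrimeCore 2 ↥H = ⊥)
    (hO2 : pCore 2 ↥H = ⊥) :
    (∃ n : ℕ, 5 ≤ n ∧ n ≤ 8 ∧ Nonempty (↥H ≃* alternatingGroup (Fin n))) ∨
    Nonempty (↥H ≃* Equiv.Perm (Fin 5)) ∨ Nonempty (↥H ≃* Equiv.Perm (Fin 6)) ∨
      Nonempty (↥H ≃* Matrix.GeneralLinearGroup (Fin 3) Z2) := by
  classical
  have hns : ¬ Group.IsSolvable H := by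
    intro hs
    haveI := hs
    have h1 := bot_of_solvable hO2 hO _ (⊤ : Subgroup H) inferInstance inferInstance rfl
    apply hH
    rw [Subgroup.eq_bot_iff_forall]
    intro x hx
    have h2 : (⟨x, hx⟩ : H) ∈ (⊤ : Subgroup H) := trivial
    rw [h1, Subgroup.mem_bot] at h2
    exact congrArg Subtype.val h2
  obtain ⟨e1⟩ := Cfsg.Agent.S0256.result (F := Z2) (by simp)
  obtain ⟨e2⟩ := psl_gl 4 (by norm_num)
  let φ : Matrix.GeneralLinearGroup (Fin 4) Z2 →* Equiv.Perm (Fin 8) :=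
    (alternatingGroup (Fin 8)).subtype.comp (e2.symm.trans e1).toMonoidHom
  have hφ : Function.Injective φ := (Subtype.val_injective).comp (e2.symm.trans e1).injective
  let e : H ≃* H.map φ := Subgroup.equivMapOfInjective H φ hφ
  have hle : H.map φ ≤ alternatingGroup (Fin 8) := by
    rintro _ ⟨x, -, rfl⟩
    exact ((e2.symm.trans e1) x).2
  have hns' : ¬ Group.IsSolvable (H.map φ) := by
    intro h
    haveI := h
    exact hns (Group.isSolvable_of_isSolvable_injective (f := e.toMonoidHom) e.injective)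
  have hC : Concl H := (main8 hle hns' (pCore_congr e 2 hO2) (pPrimeCore_congr e 2 hO)).congr e
  rcases hC with h | h | h | ⟨h1, h2⟩ | h
  · exact Or.inl h
  · exact Or.inr (Or.inl h)
  · exact Or.inr (Or.inr (Or.inl h))
  · right; right; right
    haveI := h2
    haveI : Fact (Nat.Prime 7) := ⟨by norm_num⟩
    obtain ⟨f1⟩ := Cfsg.Agent.S0495.result (G := H) h1 (F := ZMod 7) (by simp [ZMod.card])
    obtain ⟨f2⟩ := Cfsg.Agent.S0255.result (F := ZMod 7) (K := Z2) (by simp [ZMod.card]) (by simp)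
    obtain ⟨f3⟩ := psl_gl 3 (by norm_num)
    exact ⟨(f1.trans f2).trans f3⟩
  · exact (no1344 (H := H) (by simp) h hO2).elim

end H7.Rad8
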