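import Mathlib

set_option autoImplicit false
set_option linter.all false

/-!
Any two Sylow 2-subgroups of the symmetric group of degree eight intersect nontrivially.
-/

namespace Cfsg.Agent.H7.Sy8

abbrev P8 := Equiv.Perm (Fin 8)

/-! ### the check -/

def T : List ℕ := [14570689, 11789505, 9925825, 14599816, 16406152, 16434376, 16434817, 6852524, 5017068, 6823845, 4988389, 2206526, 2177406, 371511, 342391]

def ap (t x : ℕ) : ℕ := Nat.mod (Nat.div t (Nat.pow 8 x)) 8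

def idx (Y p : ℕ) : ℕ :=
  bif Nat.beq (ap Y 0) p then 0 else bif Nat.beq (ap Y 1) p then 1 else bif Nat.beq (ap Y 2) p then 2 else
  bif Nat.beq (ap Y 3) p then 3 else bif Nat.beq (ap Y 4) p then 4 else bif Nat.beq (ap Y 5) p then 5 else
  bif Nat.beq (ap Y 6) p then 6 else 7

def uu (Y t i : ℕ) : ℕ := idx Y (ap t (ap Y i))

def body1 (Y t : ℕ) : Bool :=
  Nat.beq (uu Y t 1) (Nat.xor (uu Y t 0) 1) && (Nat.beq (uu Y t 3) (Nat.xor (uu Y t 2) 1) &&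
  (Nat.beq (uu Y t 5) (Nat.xor (uu Y t 4) 1) && (Nat.beq (uu Y t 7) (Nat.xor (uu Y t 6) 1) &&
  (Nat.beq (Nat.div (uu Y t 0) 4) (Nat.div (uu Y t 2) 4) && (Nat.beq (Nat.div (uu Y t 4) 4) (Nat.div (uu Y t 6) 4) &&
  !(Nat.beq (Nat.div (uu Y t 0) 4) (Nat.div (uu Y t 4) 4)))))))

def body (Y : ℕ) : Bool := T.any (body1 Y)

def pk (a b c d e f g : Fin 8) : ℕ :=
  a.val * 8 + (b.val * 64 + (c.val * 512 + (d.val * 4096 + (e.val * 32768 + (f.val * 262144 + g.val * 2097152)))))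

set_option synthInstance.maxHeartbeats 2000000 in
set_option synthInstance.maxSize 20000 in
set_option maxHeartbeats 4000000 in
theorem chk : ∀ a : Fin 8, a ≠ 0 → ∀ b : Fin 8, b ≠ 0 → b ≠ a → ∀ c : Fin 8, c ≠ 0 → c ≠ a → c ≠ b →
    ∀ d : Fin 8, d ≠ 0 → d ≠ a → d ≠ b → d ≠ c → ∀ e : Fin 8, e ≠ 0 → e ≠ a → e ≠ b → e ≠ c → e ≠ d →
    ∀ f : Fin 8, f ≠ 0 → f ≠ a → f ≠ b → f ≠ c → f ≠ d → f ≠ e →
    ∀ g : Fin 8, g ≠ 0 → g ≠ a → g ≠ b → g ≠ c → g ≠ d → g ≠ e → g ≠ f →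
    body (pk a b c d e f g) = true := by
  decide +kernel

end Cfsg.Agent.H7.Sy8
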