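import Mathlib
import Cfsg.Agent.H7_Sy8

set_option autoImplicit false
set_option linter.all false

namespace Cfsg.Agent.H7.Sy8

open scoped Pointwise

def z (i : Fin 8) : Fin 8 := ![1, 0, 3, 2, 5, 4, 7, 6] i

def blk (i : Fin 8) : ℕ := i.val / 4

def S : Subgroup P8 where
  carrier := {g | (∀ i, g (z i) = z (g i)) ∧ ∀ i j, blk i = blk j ↔ blk (g i) = blk (g j)}
  mul_mem' := by
    rintro a b ⟨a1, a2⟩ ⟨b1, b2⟩
    refine ⟨fun i => ?_, fun i j => ?_⟩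
    · rw [Equiv.Perm.mul_apply, b1, a1, Equiv.Perm.mul_apply]
    · rw [Equiv.Perm.mul_apply, Equiv.Perm.mul_apply, b2, a2]
  one_mem' := ⟨fun _ => rfl, fun _ _ => Iff.rfl⟩
  inv_mem' := by
    rintro a ⟨a1, a2⟩
    have h : ∀ i, a (a⁻¹ i) = i := fun i => by rw [← Equiv.Perm.mul_apply, mul_inv_cancel, Equiv.Perm.one_apply]
    refine ⟨fun i => ?_, fun i j => ?_⟩
    · rw [Equiv.Perm.inv_eq_iff_eq, a1, h]
    · rw [a2 (a⁻¹ i), h, h]

theorem mem_S (g : P8) : g ∈ S ↔ (∀ i, g (z i) = z (g i)) ∧ ∀ i j, blk i = blk j ↔ blk (g i) = blk (g j) := Iff.rfl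

instance (g : P8) : Decidable (g ∈ S) := decidable_of_iff _ (mem_S g).symm

def tr : Fin 8 → P8 := ![1, Equiv.swap 0 1, Equiv.swap 0 2 * Equiv.swap 1 3, Equiv.swap 0 3 * Equiv.swap 1 2,
  Equiv.swap 0 4 * Equiv.swap 1 5 * Equiv.swap 2 6 * Equiv.swap 3 7,
  Equiv.swap 0 5 * Equiv.swap 1 4 * Equiv.swap 2 7 * Equiv.swap 3 6,
  Equiv.swap 0 6 * Equiv.swap 1 7 * Equiv.swap 2 4 * Equiv.swap 3 5,
  Equiv.swap 0 7 * Equiv.swap 1 6 * Equiv.swap 2 5 * Equiv.swap 3 4]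

theorem tr_S : ∀ i, tr i ∈ S ∧ tr i 0 = i := by decide +kernel

theorem card_eq_orbit_mul {G α : Type*} [Group G] [MulAction G α] (H : Subgroup G) (x : α) :
    Nat.card H = (MulAction.orbit H x).ncard * Nat.card ↥(H ⊓ MulAction.stabilizer G x) := by
  have h1 : Nat.card H = Nat.card (MulAction.orbit H x) * Nat.card (MulAction.stabilizer H x) := by
    rw [Nat.card_congr (MulAction.orbitEquivQuotientStabilizer H x), ← Subgroup.index,
      Subgroup.index_mul_card]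
  have h2 : Nat.card (MulAction.stabilizer H x) = Nat.card ↥(H ⊓ MulAction.stabilizer G x) := by
    refine Nat.card_congr ⟨fun g => ⟨g.1.1, g.1.2, g.2⟩, fun g => ⟨⟨g.1, g.2.1⟩, g.2.2⟩, fun g => rfl, fun g => rfl⟩
  rw [h1, h2]
  rfl

theorem e23 : (Equiv.swap 2 3 : P8) ∈ S ∧ (Equiv.swap 2 3 : P8) 0 = 0 ∧ (Equiv.swap 2 3 : P8) 2 = 3 := by decide +kernel
theorem e45 : (Equiv.swap 4 5 : P8) ∈ S ∧ (Equiv.swap 4 5 : P8) 0 = 0 ∧ (Equiv.swap 4 5 : P8) 2 = 2 ∧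
    (Equiv.swap 4 5 : P8) 4 = 5 := by decide +kernel
theorem e46 : (Equiv.swap 4 6 * Equiv.swap 5 7 : P8) ∈ S ∧ (Equiv.swap 4 6 * Equiv.swap 5 7 : P8) 0 = 0 ∧
    (Equiv.swap 4 6 * Equiv.swap 5 7 : P8) 2 = 2 ∧ (Equiv.swap 4 6 * Equiv.swap 5 7 : P8) 4 = 6 := by decide +kernel
theorem e47 : (Equiv.swap 4 7 * Equiv.swap 5 6 : P8) ∈ S ∧ (Equiv.swap 4 7 * Equiv.swap 5 6 : P8) 0 = 0 ∧
    (Equiv.swap 4 7 * Equiv.swap 5 6 : P8) 2 = 2 ∧ (Equiv.swap 4 7 * Equiv.swap 5 6 : P8) 4 = 7 := by decide +kernel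
theorem e67 : (Equiv.swap 6 7 : P8) ∈ S ∧ (Equiv.swap 6 7 : P8) 0 = 0 ∧ (Equiv.swap 6 7 : P8) 2 = 2 ∧
    (Equiv.swap 6 7 : P8) 4 = 4 ∧ (Equiv.swap 6 7 : P8) 6 = 7 := by decide +kernel

def S1 : Subgroup P8 := S ⊓ MulAction.stabilizer P8 (0 : Fin 8)
def S2 : Subgroup P8 := S1 ⊓ MulAction.stabilizer P8 (2 : Fin 8)
def S3 : Subgroup P8 := S2 ⊓ MulAction.stabilizer P8 (4 : Fin 8)
def S4 : Subgroup P8 := S3 ⊓ MulAction.stabilizer P8 (6 : Fin 8)

theorem orb0 : (MulAction.orbit S (0 : Fin 8)).ncard = 8 := by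
  have : MulAction.orbit S (0 : Fin 8) = Set.univ := by
    ext i
    refine ⟨fun _ => trivial, fun _ => ⟨⟨tr i, (tr_S i).1⟩, (tr_S i).2⟩⟩
  rw [this, Set.ncard_univ, Nat.card_eq_fintype_card, Fintype.card_fin]

theorem z_facts : z 0 = 1 ∧ z 2 = 3 ∧ z 4 = 5 ∧ z 6 = 7 ∧ z 1 = 0 ∧ z 3 = 2 ∧ z 5 = 4 ∧ z 7 = 6 := by decide

theorem orb1 : (MulAction.orbit S1 (2 : Fin 8)).ncard = 2 := by
  have : MulAction.orbit S1 (2 : Fin 8) = (({2, 3} : Finset (Fin 8)) : Set (Fin 8)) := by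
    ext i
    rw [Finset.mem_coe]
    constructor
    · rintro ⟨⟨g, ⟨g1, g2⟩, g3⟩, rfl⟩
      show g 2 ∈ _
      have g3 : g 0 = 0 := g3
      have h1 : g 1 = 1 := by have := g1 0; rw [z_facts.1, g3] at this; exact this
      have h2 : g 2 ≠ g 0 := fun h => absurd (g.injective h) (by decide)
      have h3 : g 2 ≠ g 1 := fun h => absurd (g.injective h) (by decide)
      have h4 : blk (g 0) = blk (g 2) := (g2 0 2).1 (by decide)
      rw [g3] at h2 h4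
      rw [h1] at h3
      revert h2 h3 h4
      generalize g 2 = x
      revert x; decide
    · intro hi
      have : i = 2 ∨ i = 3 := by simpa using hi
      rcases this with rfl | rfl
      · exact ⟨1, rfl⟩
      · exact ⟨⟨Equiv.swap 2 3, e23.1, e23.2.1⟩, e23.2.2⟩
  rw [this, Set.ncard_coe_finset]; rfl

theorem orb2 : (MulAction.orbit S2 (4 : Fin 8)).ncard = 4 := by
  have : MulAction.orbit S2 (4 : Fin 8) = (({4, 5, 6, 7} : Finset (Fin 8)) : Set (Fin 8)) := by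
    ext i
    rw [Finset.mem_coe]
    constructor
    · rintro ⟨⟨g, ⟨⟨g1, g2⟩, g3⟩, g4⟩, rfl⟩
      show g 4 ∈ _
      have g3 : g 0 = 0 := g3
      have h4 : ¬ (blk (g 0) = blk (g 4)) := fun h => absurd ((g2 0 4).2 h) (by decide)
      rw [g3] at h4
      revert h4
      generalize g 4 = x
      revert x; decide
    · intro hi
      have : i = 4 ∨ i = 5 ∨ i = 6 ∨ i = 7 := by simpa using hi
      rcases this with rfl | rfl | rfl | rfl
      · exact ⟨1, rfl⟩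
      · exact ⟨⟨Equiv.swap 4 5, ⟨e45.1, e45.2.1⟩, e45.2.2.1⟩, e45.2.2.2⟩
      · exact ⟨⟨Equiv.swap 4 6 * Equiv.swap 5 7, ⟨e46.1, e46.2.1⟩, e46.2.2.1⟩, e46.2.2.2⟩
      · exact ⟨⟨Equiv.swap 4 7 * Equiv.swap 5 6, ⟨e47.1, e47.2.1⟩, e47.2.2.1⟩, e47.2.2.2⟩
  rw [this, Set.ncard_coe_finset]; rfl

theorem orb3 : (MulAction.orbit S3 (6 : Fin 8)).ncard = 2 := by
  have : MulAction.orbit S3 (6 : Fin 8) = (({6, 7} : Finset (Fin 8)) : Set (Fin 8)) := by
    ext i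
    rw [Finset.mem_coe]
    constructor
    · rintro ⟨⟨g, ⟨⟨⟨g1, g2⟩, g3⟩, g4⟩, g5⟩, rfl⟩
      show g 6 ∈ _
      have g5 : g 4 = 4 := g5
      have h1 : g 5 = 5 := by have := g1 4; rw [z_facts.2.2.1, g5] at this; exact this
      have h2 : g 6 ≠ g 4 := fun h => absurd (g.injective h) (by decide)
      have h3 : g 6 ≠ g 5 := fun h => absurd (g.injective h) (by decide)
      have h4 : blk (g 4) = blk (g 6) := (g2 4 6).1 (by decide)
      rw [g5] at h2 h4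
      rw [h1] at h3
      revert h2 h3 h4
      generalize g 6 = x
      revert x; decide
    · intro hi
      have : i = 6 ∨ i = 7 := by simpa using hi
      rcases this with rfl | rfl
      · exact ⟨1, rfl⟩
      · exact ⟨⟨Equiv.swap 6 7, ⟨⟨e67.1, e67.2.1⟩, e67.2.2.1⟩, e67.2.2.2.1⟩, e67.2.2.2.2⟩
  rw [this, Set.ncard_coe_finset]; rfl

theorem S4_bot : S4 = ⊥ := by
  rw [eq_bot_iff]
  rintro g ⟨⟨⟨⟨⟨g1, g2⟩, g3⟩, g4⟩, g5⟩, g6⟩
  have g3 : g 0 = 0 := g3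
  have g4 : g 2 = 2 := g4
  have g5 : g 4 = 4 := g5
  have g6 : g 6 = 6 := g6
  have h1 : g 1 = 1 := by have := g1 0; rw [z_facts.1, g3] at this; exact this
  have h3 : g 3 = 3 := by have := g1 2; rw [z_facts.2.1, g4] at this; exact this
  have h5 : g 5 = 5 := by have := g1 4; rw [z_facts.2.2.1, g5] at this; exact this
  have h7 : g 7 = 7 := by have := g1 6; rw [z_facts.2.2.2.1, g6] at this; exact this
  rw [Subgroup.mem_bot]
  ext1 i
  fin_cases i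
  exacts [g3, h1, g4, h3, g5, h5, g6, h7]

theorem card_S : Nat.card S = 128 := by
  have h0 := card_eq_orbit_mul S (0 : Fin 8)
  have h1 := card_eq_orbit_mul S1 (2 : Fin 8)
  have h2 := card_eq_orbit_mul S2 (4 : Fin 8)
  have h3 := card_eq_orbit_mul S3 (6 : Fin 8)
  rw [orb0] at h0
  rw [orb1] at h1
  rw [orb2] at h2
  rw [orb3] at h3
  have h4 : Nat.card S4 = 1 := by rw [S4_bot]; exact Nat.card_unique
  change Nat.card S = 8 * Nat.card S1 at h0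
  change Nat.card S1 = 2 * Nat.card S2 at h1
  change Nat.card S2 = 4 * Nat.card S3 at h2
  change Nat.card S3 = 2 * Nat.card S4 at h3
  omega

theorem fact8 : (Nat.card P8).factorization 2 = 7 := by
  rw [Nat.card_eq_fintype_card, Fintype.card_perm, Fintype.card_fin]
  have h : Nat.factorial 8 = 2 ^ 7 * 315 := by decide
  rw [h, Nat.factorization_mul (by norm_num) (by norm_num), Finsupp.add_apply, Nat.Prime.factorization_pow (by norm_num)]
  rw [Finsupp.single_apply, if_pos rfl, Nat.factorization_eq_zero_of_not_dvd (by norm_num)]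

/-! ### the witness -/

theorem ap_pk (a b c d e f g : Fin 8) : ap (pk a b c d e f g) 0 = 0 ∧ ap (pk a b c d e f g) 1 = a.val ∧
    ap (pk a b c d e f g) 2 = b.val ∧ ap (pk a b c d e f g) 3 = c.val ∧ ap (pk a b c d e f g) 4 = d.val ∧
    ap (pk a b c d e f g) 5 = e.val ∧ ap (pk a b c d e f g) 6 = f.val ∧ ap (pk a b c d e f g) 7 = g.val := by
  have ha := a.isLt
  have hb := b.isLt
  have hc := c.isLt
  have hd := d.isLt
  have he := e.isLt
  have hf := f.isLt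
  have hg := g.isLt
  simp only [ap, pk]
  refine ⟨?_, ?_, ?_, ?_, ?_, ?_, ?_, ?_⟩
  all_goals
    show (_ / 8 ^ _) % 8 = _
    norm_num
    omega

def fT (t : ℕ) (i : Fin 8) : Fin 8 := ⟨ap t i.val, Nat.mod_lt _ (by norm_num)⟩

theorem fT_inv : ∀ t ∈ T, ∀ i, fT t (fT t i) = i := by decide +kernel
theorem fT_S : ∀ t ∈ T, ((∀ i, fT t (z i) = z (fT t i)) ∧ (∀ i j, blk i = blk j ↔ blk (fT t i) = blk (fT t j))) ∧
    ∃ i, fT t i ≠ i := by decide +kernel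

def pT (t : ℕ) (h : t ∈ T) : P8 := ⟨fT t, fT t, fT_inv t h, fT_inv t h⟩

end Cfsg.Agent.H7.Sy8
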