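import Mathlib
import Cfsg.Agent.H7_Sy8b

set_option autoImplicit false
set_option linter.all false

namespace Cfsg.Agent.H7.Sy8

open scoped Pointwise

theorem wit0 (y : P8) (h0 : y 0 = 0) : ∃ τ : P8, τ ≠ 1 ∧ τ ∈ S ∧ y⁻¹ * τ * y ∈ S := by
  have hn : ∀ i j : Fin 8, i ≠ j → y i ≠ y j := fun i j h e => h (y.injective e)
  have hz : ∀ i : Fin 8, i ≠ 0 → y i ≠ 0 := fun i h e => h (y.injective (e.trans h0.symm))
  have hb := chk (y 1) (hz 1 (by decide)) (y 2) (hz 2 (by decide)) (hn _ _ (by decide))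
    (y 3) (hz 3 (by decide)) (hn _ _ (by decide)) (hn _ _ (by decide))
    (y 4) (hz 4 (by decide)) (hn _ _ (by decide)) (hn _ _ (by decide)) (hn _ _ (by decide))
    (y 5) (hz 5 (by decide)) (hn _ _ (by decide)) (hn _ _ (by decide)) (hn _ _ (by decide)) (hn _ _ (by decide))
    (y 6) (hz 6 (by decide)) (hn _ _ (by decide)) (hn _ _ (by decide)) (hn _ _ (by decide)) (hn _ _ (by decide))
      (hn _ _ (by decide))
    (y 7) (hz 7 (by decide)) (hn _ _ (by decide)) (hn _ _ (by decide)) (hn _ _ (by decide)) (hn _ _ (by decide))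
      (hn _ _ (by decide)) (hn _ _ (by decide))
  obtain ⟨t, ht, hb1⟩ := List.any_eq_true.1 hb
  have hp := ap_pk (y 1) (y 2) (y 3) (y 4) (y 5) (y 6) (y 7)
  set Y := pk (y 1) (y 2) (y 3) (y 4) (y 5) (y 6) (y 7) with hY
  have hap : ∀ i : Fin 8, ap Y i.val = (y i).val := by
    obtain ⟨p0, p1, p2, p3, p4, p5, p6, p7⟩ := hp
    intro i
    fin_cases i
    · show ap Y 0 = (y 0).val
      rw [p0, h0]; rfl
    exacts [p1, p2, p3, p4, p5, p6, p7]
  have hbeq : ∀ i j : Fin 8, Nat.beq (y i).val (y j).val = decide (i = j) := by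
    intro i j
    by_cases h : i = j
    · subst h; simp
    · have h1 : (y i).val ≠ (y j).val := fun e => h (y.injective (Fin.ext e))
      have h2 : Nat.beq (y i).val (y j).val ≠ true := fun e => h1 (Nat.eq_of_beq_eq_true e)
      have h3 : Nat.beq (y i).val (y j).val = false := (Bool.not_eq_true _).mp h2
      rw [h3]
      simp [h]
  have hidx : ∀ i : Fin 8, idx Y (y i).val = i.val := by
    intro i
    unfold idx
    rw [show ap Y 0 = (y 0).val from hap 0, show ap Y 1 = (y 1).val from hap 1, show ap Y 2 = (y 2).val from hap 2,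
      show ap Y 3 = (y 3).val from hap 3, show ap Y 4 = (y 4).val from hap 4, show ap Y 5 = (y 5).val from hap 5,
      show ap Y 6 = (y 6).val from hap 6]
    rw [hbeq, hbeq, hbeq, hbeq, hbeq, hbeq, hbeq]
    revert i; decide
  set τ := pT t ht with hτ
  set u := y⁻¹ * τ * y with hu
  have hyu : ∀ i, y (u i) = τ (y i) := by
    intro i
    rw [hu, ← Equiv.Perm.mul_apply, ← mul_assoc, ← mul_assoc, mul_inv_cancel, one_mul, Equiv.Perm.mul_apply]
  have huu : ∀ i : Fin 8, uu Y t i.val = (u i).val := by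
    intro i
    unfold uu
    rw [hap, ← hidx (u i), hyu]
    rfl
  unfold body1 at hb1
  simp only [Bool.and_eq_true, Bool.not_eq_true'] at hb1
  rw [show uu Y t 0 = (u 0).val from huu 0, show uu Y t 1 = (u 1).val from huu 1, show uu Y t 2 = (u 2).val from huu 2,
    show uu Y t 3 = (u 3).val from huu 3, show uu Y t 4 = (u 4).val from huu 4, show uu Y t 5 = (u 5).val from huu 5,
    show uu Y t 6 = (u 6).val from huu 6, show uu Y t 7 = (u 7).val from huu 7] at hb1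
  obtain ⟨c1, c2, c3, c4, c5, c6, c7⟩ := hb1
  have kz : ∀ a b : Fin 8, Nat.beq b.val (Nat.xor a.val 1) = true → b = z a ∧ a = z b ∧ blk b = blk a := by decide +kernel
  have kb : ∀ a b : Fin 8, Nat.beq (Nat.div a.val 4) (Nat.div b.val 4) = true → blk a = blk b := by decide +kernel
  have kb' : ∀ a b : Fin 8, Nat.beq (Nat.div a.val 4) (Nat.div b.val 4) = false → blk a ≠ blk b := by decide +kernel
  obtain ⟨u1, v1, b1⟩ := kz _ _ c1
  obtain ⟨u3, v3, b3⟩ := kz _ _ c2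
  obtain ⟨u5, v5, b5⟩ := kz _ _ c3
  obtain ⟨u7, v7, b7⟩ := kz _ _ c4
  have b2 := kb _ _ c5
  have b6 := kb _ _ c6
  have b4 := kb' _ _ c7
  refine ⟨τ, ?_, (fT_S t ht).1, ?_⟩
  · intro h
    obtain ⟨i, hi⟩ := (fT_S t ht).2
    exact hi (DFunLike.congr_fun h i)
  · rw [mem_S]
    obtain ⟨z0, z2, z4, z6, z1, z3, z5, z7⟩ := z_facts
    refine ⟨fun i => ?_, fun i j => ?_⟩
    · fin_cases i
      · show u (z 0) = z (u 0); rw [z0]; exact u1
      · show u (z 1) = z (u 1); rw [z1]; exact v1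
      · show u (z 2) = z (u 2); rw [z2]; exact u3
      · show u (z 3) = z (u 3); rw [z3]; exact v3
      · show u (z 4) = z (u 4); rw [z4]; exact u5
      · show u (z 5) = z (u 5); rw [z5]; exact v5
      · show u (z 6) = z (u 6); rw [z6]; exact u7
      · show u (z 7) = z (u 7); rw [z7]; exact v7
    · have hB : ∀ i : Fin 8, blk (u i) = if blk i = 0 then blk (u 0) else blk (u 4) := by
        intro i
        fin_cases i
        · rfl
        · exact b1
        · exact b2.symm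
        · exact b3.trans b2.symm
        · rfl
        · exact b5
        · exact b6.symm
        · exact b7.trans b6.symm
      have hlt : ∀ i : Fin 8, blk i = 0 ∨ blk i = 1 := by decide
      rw [hB i, hB j]
      rcases hlt i with hi | hi <;> rcases hlt j with hj | hj <;> rw [hi, hj] <;> simp [b4, Ne.symm b4]

theorem wit (y : P8) : ∃ τ : P8, τ ≠ 1 ∧ τ ∈ S ∧ y⁻¹ * τ * y ∈ S := by
  obtain ⟨h1, h2⟩ := tr_S (y⁻¹ 0)
  obtain ⟨τ, h3, h4, h5⟩ := wit0 (y * tr (y⁻¹ 0)) (by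
    rw [Equiv.Perm.mul_apply, h2, ← Equiv.Perm.mul_apply, mul_inv_cancel]; rfl)
  refine ⟨τ, h3, h4, ?_⟩
  have e : y⁻¹ * τ * y = tr (y⁻¹ 0) * ((y * tr (y⁻¹ 0))⁻¹ * τ * (y * tr (y⁻¹ 0))) * (tr (y⁻¹ 0))⁻¹ := by group
  rw [e]
  exact mul_mem (mul_mem h1 h5) (inv_mem h1)

theorem main (H : Sylow 2 P8) (x : P8) :
    (H : Subgroup P8) ⊓ (H : Subgroup P8).map (MulAut.conj x).toMonoidHom ≠ ⊥ := by
  haveI : Fact (Nat.Prime 2) := ⟨by norm_num⟩
  have hS : Nat.card S = 2 ^ (Nat.card P8).factorization 2 := by rw [fact8, card_S]; norm_num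
  let P : Sylow 2 P8 := Sylow.ofCard S hS
  obtain ⟨g, hg⟩ := MulAction.exists_smul_eq P8 P H
  have hmem : ∀ k : P8, k ∈ (H : Subgroup P8) ↔ g⁻¹ * k * g ∈ S := by
    intro k
    rw [← hg, Sylow.coe_subgroup_smul, Subgroup.mem_pointwise_smul_iff_inv_smul_mem]
    have : (MulAut.conj g)⁻¹ • k = g⁻¹ * k * g := by
      rw [MulAut.smul_def, ← map_inv, MulAut.conj_apply, inv_inv]
    rw [this]
    rfl
  obtain ⟨τ, h1, h2, h3⟩ := wit (g⁻¹ * x * g)
  intro hbot
  have h4 : g * τ * g⁻¹ ∈ (H : Subgroup P8) ⊓ (H : Subgroup P8).map (MulAut.conj x).toMonoidHom := by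
    refine ⟨?_, ?_⟩
    · show g * τ * g⁻¹ ∈ (H : Subgroup P8)
      rw [hmem]
      have : g⁻¹ * (g * τ * g⁻¹) * g = τ := by group
      rw [this]; exact h2
    · refine ⟨x⁻¹ * (g * τ * g⁻¹) * x, ?_, ?_⟩
      · show x⁻¹ * (g * τ * g⁻¹) * x ∈ (H : Subgroup P8)
        rw [hmem]
        have : g⁻¹ * (x⁻¹ * (g * τ * g⁻¹) * x) * g = (g⁻¹ * x * g)⁻¹ * τ * (g⁻¹ * x * g) := by group
        rw [this]; exact h3
      · show x * (x⁻¹ * (g * τ * g⁻¹) * x) * x⁻¹ = g * τ * g⁻¹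
        group
  rw [hbot, Subgroup.mem_bot] at h4
  apply h1
  have : τ = g⁻¹ * (g * τ * g⁻¹) * g := by group
  rw [this, h4]; group

end Cfsg.Agent.H7.Sy8
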