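import Cfsg.Statements.S4134
import Cfsg.Agent.H23_TwoSizes
import Cfsg.Agent.H2_Fusion3


set_option autoImplicit false
open Cfsg

namespace Cfsg.Agent.S4134

open Subgroup
open Cfsg.Agent.H23.TwoSizes (C mem_C self_mem center_le)

universe u

variable {G : Type u} [Group G] [Finite G]

theorem sylow_center {r : ℕ} [hr : Fact r.Prime] (hc : ∀ x : G, ∀ b, orderOf x = r ^ b → x ∈ center G) (R : Sylow r G) :
    (R : Subgroup G) ≤ center G := by
  intro x hx
  obtain ⟨b, hb⟩ := H24.Tools.exists_orderOf R.2 hx
  exact hc x b hb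


/-- Let G be a finite group whose conjugacy classes have exactly two sizes, 1 and n > 1. Then n is a power of a prime p and G is the direct product of a p-group and an abelian group of order prime to p: its Sylow p-subgroup P is normal with an abelian normal complement centralizing it; moreover P has an abelian normal subgroup A with P/A of exponent dividing p. -/
theorem result {G : Type*} [Group G] [Finite G] (n : ℕ) (hn : 1 < n)
    (h : ∀ x : G, (Subgroup.centralizer ({x} : Set G)).index = 1 ∨ (Subgroup.centralizer ({x} : Set G)).index = n) (hex : ∃ x : G, (Subgroup.centralizer ({x} : Set G)).index = n) :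
    ∃ (p : ℕ) (_ : Fact p.Prime) (a : ℕ), n = p ^ a ∧ ∀ P : Sylow p G, (P : Subgroup G).Normal ∧
      (∃ N : Subgroup G, N.Normal ∧ N.IsComplement' (P : Subgroup G) ∧ IsMulCommutative N ∧
        ∀ x ∈ N, ∀ y ∈ (P : Subgroup G), x * y = y * x) ∧
      ∃ A : Subgroup (P : Subgroup G), A.Normal ∧ IsMulCommutative A ∧ ∀ y : (P : Subgroup G), y ^ p ∈ A := by

  classical
  have h' : ∀ x : G, (C x).index = 1 ∨ (C x).index = n := h
  obtain ⟨x0, hx0⟩ := hex
  have hx0c : x0 ∉ center G := by
    intro hc
    rw [H23.TwoSizes.mem_center_iff_index] at hc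
    change (C x0).index = n at hx0
    omega
  obtain ⟨w, -, hwc, p, a, hp, hwo⟩ := H23.TwoSizes.exists_part hx0c
  haveI : Fact p.Prime := ⟨hp⟩
  have hcen : ∀ r : ℕ, r.Prime → r ≠ p → ∀ x : G, ∀ b, orderOf x = r ^ b → x ∈ center G := by
    intro r hr hrp x b hxo
    by_contra hxc
    haveI : Fact r.Prime := ⟨hr⟩
    exact hrp (H23.TwoSizes.unique_prime h' hn hxc hwc ⟨b, hxo⟩ ⟨a, hwo⟩)
  have hnx : (C w).index = n := H23.TwoSizes.index_eq h' hwc
  refine ⟨p, ⟨hp⟩, n.primeFactorsList.length, ?_, ?_⟩
  · apply Nat.eq_prime_pow_of_unique_prime_dvd (by omega)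
    intro r hr hrn
    by_contra hrp
    haveI : Fact r.Prime := ⟨hr⟩
    let R : Sylow r G := default
    have h1 := (sylow_center (hcen r hr hrp) R).trans (center_le w)
    have h2 := Subgroup.index_dvd_of_le h1
    rw [hnx] at h2
    exact R.not_dvd_index (hrn.trans h2)
  · intro P
    have hPn : (P : Subgroup G).Normal := by
      rw [← Subgroup.normalizer_eq_top_iff, ← Subgroup.index_eq_one]
      by_contra hne
      obtain ⟨r, hr, hrd⟩ := Nat.exists_prime_and_dvd hne
      haveI : Fact r.Prime := ⟨hr⟩
      by_cases hrp : r = p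
      · subst hrp
        exact P.not_dvd_index (hrd.trans (Subgroup.index_dvd_of_le le_normalizer))
      · let R : Sylow r G := default
        have h1 : (R : Subgroup G) ≤ normalizer ((P : Subgroup G) : Set G) :=
          (sylow_center (hcen r hr hrp) R).trans (center_le_normalizer _)
        exact R.not_dvd_index (hrd.trans (Subgroup.index_dvd_of_le h1))
    have hpc : ∀ x : G, (orderOf x).Coprime p → x ∈ center G := by
      intro x hx
      apply H23.Basic.mem_of_prime_pow_parts
      intro y hy q b hq hyo
      by_cases hqp : q = p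
      · subst hqp
        have h1 : orderOf y ∣ orderOf x := orderOf_dvd_of_mem_zpowers hy
        have h2 : orderOf y = 1 := by
          apply Nat.eq_one_of_dvd_coprimes (Nat.Coprime.coprime_dvd_left h1 hx |>.pow_right b) dvd_rfl (by rw [hyo])
        rw [orderOf_eq_one_iff] at h2
        rw [h2]; exact one_mem _
      · exact hcen q hq hqp y b hyo
    have hnpc : Cfsg.HasNormalPComplement p G := by
      apply H2.Fusion3.npc_of_frobenius
      intro Q _ g _ hg
      exact center_le_centralizer _ (hpc g hg)
    refine ⟨hPn, ?_, ?_⟩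
    · obtain ⟨N, hN, hNp, k, hk⟩ := H2.Basic.npc_iff.1 hnpc
      haveI := hN
      have hNc : N ≤ center G := fun x hx => hpc x ((H2.Basic.mem_npc_iff hNp hk x).1 hx)
      refine ⟨N, hN, H2.Basic.isComplement'_sylow P hNp hk, ⟨⟨fun x y => Subtype.ext ?_⟩⟩, ?_⟩
      · exact (Subgroup.mem_center_iff.1 (hNc x.2) y).symm
      · intro x hx y _
        exact (Subgroup.mem_center_iff.1 (hNc hx) y).symm
    · -- the element z
      have hPZ : ¬ (P : Subgroup G) ≤ center G := by
        intro hle
        obtain ⟨Q, hQ⟩ := (H24.Tools.isPGroup_zpowers hwo).exists_le_sylow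
        obtain ⟨g, hg⟩ := MulAction.exists_smul_eq G P Q
        have h1 : w ∈ (Q : Subgroup G) := hQ (mem_zpowers w)
        rw [← hg] at h1
        have h2 : g⁻¹ * w * g ∈ (P : Subgroup G) := (H2.Basic.mem_smul_sylow P g w).1 h1
        have h3 := (inferInstance : (center G).Normal).conj_mem _ (hle h2) g
        have h4 : g * (g⁻¹ * w * g) * g⁻¹ = w := by group
        rw [h4] at h3
        exact hwc h3
      obtain ⟨z, hzc, hzp, hzcomm⟩ : ∃ z : G, z ∉ center G ∧ z ^ p ∈ center G ∧
          ∀ u ∈ (P : Subgroup G), u * z * u⁻¹ * z⁻¹ ∈ center G := by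
        set Z' := (center G).subgroupOf (P : Subgroup G) with hZ'
        have hqp : IsPGroup p ((P : Subgroup G) ⧸ Z') := P.2.to_quotient Z'
        haveI : Nontrivial ((P : Subgroup G) ⧸ Z') := by
          rw [QuotientGroup.nontrivial_iff]
          intro h1
          exact hPZ (subgroupOf_eq_top.1 h1)
        haveI := hqp.center_nontrivial
        have hdv : p ∣ Nat.card (center ((P : Subgroup G) ⧸ Z')) := by
          obtain ⟨m, hm⟩ := IsPGroup.iff_card.1 (hqp.to_subgroup (center ((P : Subgroup G) ⧸ Z')))
          rw [hm]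
          apply dvd_pow_self
          rintro rfl
          rw [pow_zero] at hm
          exact absurd (Finite.one_lt_card (α := center ((P : Subgroup G) ⧸ Z'))) (by rw [hm]; exact lt_irrefl 1)
        obtain ⟨⟨zb, hzb⟩, hzb1⟩ := exists_prime_orderOf_dvd_card' p hdv
        obtain ⟨z, rfl⟩ := QuotientGroup.mk'_surjective Z' zb
        rw [← orderOf_coe] at hzb1
        change orderOf (QuotientGroup.mk' Z' z) = p at hzb1
        refine ⟨z, ?_, ?_, ?_⟩
        · intro h1
          have h2 : QuotientGroup.mk' Z' z = 1 := (QuotientGroup.eq_one_iff z).2 h1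
          rw [h2, orderOf_one] at hzb1
          exact hp.one_lt.ne hzb1
        · have h1 : QuotientGroup.mk' Z' (z ^ p) = 1 := by
            have h9 := pow_orderOf_eq_one (QuotientGroup.mk' Z' z)
            rw [hzb1] at h9
            rw [map_pow]; exact h9
          exact (QuotientGroup.eq_one_iff (z ^ p)).1 h1
        · intro u hu
          obtain ⟨u', hu'⟩ : ∃ u' : (P : Subgroup G), (u' : G) = u := ⟨⟨u, hu⟩, rfl⟩
          have h1 := Subgroup.mem_center_iff.1 hzb (QuotientGroup.mk' Z' u')
          have h2 : QuotientGroup.mk' Z' (u' * z * u'⁻¹ * z⁻¹) = 1 := by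
            rw [map_mul, map_mul, map_mul, h1, map_inv, map_inv]; group
          have h3 := mem_subgroupOf.1 ((QuotientGroup.eq_one_iff (u' * z * u'⁻¹ * z⁻¹)).1 h2)
          rw [← hu']
          exact h3
      have hXn : ∀ u ∈ (P : Subgroup G), ∀ v ∈ C z, u * v * u⁻¹ ∈ C z := by
        intro u hu v hv
        rw [mem_C] at hv ⊢
        have h1 := hzcomm u⁻¹ (inv_mem hu)
        rw [inv_inv] at h1
        obtain ⟨ζ, hζ⟩ : ∃ ζ, ζ = u⁻¹ * z * u * z⁻¹ := ⟨_, rfl⟩
        rw [← hζ] at h1
        have h2 : u⁻¹ * z * u = ζ * z := by rw [hζ]; group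
        have h3 := Subgroup.mem_center_iff.1 h1
        have h4 : v * (u⁻¹ * z * u) = (u⁻¹ * z * u) * v := by
          rw [h2, ← mul_assoc, h3 v, mul_assoc, hv, mul_assoc]
        calc u * v * u⁻¹ * z = u * (v * (u⁻¹ * z * u)) * u⁻¹ := by group
          _ = u * ((u⁻¹ * z * u) * v) * u⁻¹ := by rw [h4]
          _ = z * (u * v * u⁻¹) := by group
      refine ⟨(centralizer ((C z : Subgroup G) : Set G)).subgroupOf (P : Subgroup G), ?_, ?_, ?_⟩
      · constructor
        intro b hb u
        rw [mem_subgroupOf, mem_centralizer_iff] at hb ⊢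
        intro v hv
        have h1 := hb _ (hXn (u : G)⁻¹ (inv_mem u.2) v hv)
        change v * ((u : G) * b * (u : G)⁻¹) = ((u : G) * b * (u : G)⁻¹) * v
        calc v * ((u : G) * b * (u : G)⁻¹) = u * (((u : G)⁻¹ * v * (u : G)⁻¹⁻¹) * b) * (u : G)⁻¹ := by group
          _ = u * (b * ((u : G)⁻¹ * v * (u : G)⁻¹⁻¹)) * (u : G)⁻¹ := by rw [h1]
          _ = ((u : G) * b * (u : G)⁻¹) * v := by group
      · constructor
        constructor
        rintro ⟨b, hb⟩ ⟨c, hc⟩
        apply Subtype.ext
        apply Subtype.ext
        rw [mem_subgroupOf, mem_centralizer_iff] at hb hc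
        change (b : G) * c = c * b
        apply hc
        rw [SetLike.mem_coe, mem_C]
        exact (hb z (self_mem z)).symm
      · intro y
        rw [mem_subgroupOf]
        change (y : G) ^ p ∈ centralizer ((C z : Subgroup G) : Set G)
        by_cases hyp : (y : G) ^ p ∈ center G
        · exact center_le_centralizer _ hyp
        · have hyc : (y : G) ∉ center G := fun h1 => hyp (pow_mem h1 p)
          have e1 : C (y : G) = C ((y : G) ^ p) := H23.TwoSizes.eq_of_le h' hyc hyp (H23.TwoSizes.C_le_of_mem_zpowers (pow_mem (mem_zpowers _) p))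
          -- (y z)^p = y^p ζ
          obtain ⟨ζ, hζc, hζ⟩ : ∃ ζ ∈ center G, ((y : G) * z) ^ p = (y : G) ^ p * ζ := by
            have h1 : QuotientGroup.mk' (center G) (((y : G) ^ p)⁻¹ * ((y : G) * z) ^ p) = 1 := by
              have h2 : Commute (QuotientGroup.mk' (center G) (y : G)) (QuotientGroup.mk' (center G) z) := by
                have h3 := (QuotientGroup.eq_one_iff _).2 (hzcomm y y.2)
                change QuotientGroup.mk' (center G) ((y : G) * z * (y : G)⁻¹ * z⁻¹) = 1 at h3
                rw [map_mul, map_mul, map_mul, map_inv, map_inv, mul_inv_eq_one, mul_inv_eq_iff_eq_mul] at h3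
                exact h3
              have h4 : QuotientGroup.mk' (center G) (z ^ p) = 1 := (QuotientGroup.eq_one_iff _).2 hzp
              rw [map_pow] at h4
              rw [map_mul, map_inv, map_pow, map_pow, map_mul, h2.mul_pow, h4, mul_one, inv_mul_cancel]
            exact ⟨_, (QuotientGroup.eq_one_iff _).1 h1, by group⟩
          have e2 : C (((y : G) * z) ^ p) = C ((y : G) ^ p) := by
            rw [hζ]
            ext v
            rw [mem_C, mem_C]
            have h1 := Subgroup.mem_center_iff.1 hζc
            constructor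
            · intro h2
              have h3 : v * (y : G) ^ p * ζ = (y : G) ^ p * v * ζ := by
                rw [mul_assoc, h2, mul_assoc, ← h1 v, ← mul_assoc]
              exact mul_right_cancel h3
            · intro h2
              rw [← mul_assoc, h2, mul_assoc, h1 v, ← mul_assoc]
          have hyzp : ((y : G) * z) ^ p ∉ center G := by
            intro h1
            rw [hζ] at h1
            have h2 := mul_mem h1 (inv_mem hζc)
            rw [mul_inv_cancel_right] at h2
            exact hyp h2
          have hyz : (y : G) * z ∉ center G := fun h1 => hyzp (pow_mem h1 p)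
          have e3 : C ((y : G) * z) = C (((y : G) * z) ^ p) :=
            H23.TwoSizes.eq_of_le h' hyz hyzp (H23.TwoSizes.C_le_of_mem_zpowers (pow_mem (mem_zpowers _) p))
          have e4 : C (y : G) = C z := by
            apply H23.TwoSizes.eq_of_le h' hyc hzc
            intro v hv
            have h1 : v ∈ C ((y : G) * z) := by rw [e3, e2, ← e1]; exact hv
            rw [mem_C] at h1 hv ⊢
            have h2 : (y : G) * (v * z) = y * (z * v) := by
              rw [← mul_assoc, ← hv, mul_assoc, h1, mul_assoc]
            exact mul_left_cancel h2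
          apply pow_mem
          rw [mem_centralizer_iff]
          intro v hv
          rw [← e4] at hv
          exact mem_C.1 hv


end Cfsg.Agent.S4134
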