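import Cfsg.Statements.S4314
import Cfsg.Agent.S4134
import Cfsg.Agent.H24_Class
import Cfsg.Agent.H1_Factor
import Cfsg.Agent.H1_Nilp


set_option autoImplicit false
open Cfsg

namespace Cfsg.Agent.S4314

open Subgroup

universe u

variable {G : Type u} [Group G] [Finite G]

abbrev C (x : G) : Subgroup G := centralizer ({x} : Set G)

theorem mem_C {x y : G} : y ∈ C x ↔ y * x = x * y := mem_centralizer_singleton_iff

theorem card_K (x : G) : (conjugatesOf x).ncard = (C x).index := by
  rw [← H24.Class.card_conjugatesOf]; rfl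

theorem mem_K {x y : G} : y ∈ conjugatesOf x ↔ ∃ g, g * x * g⁻¹ = y := by
  rw [show (y ∈ conjugatesOf x) = IsConj x y from rfl, isConj_iff]

/-- stabilizer of a class under translation -/
def St (Y : Set G) : Subgroup G where
  carrier := {n | ∀ z, z ∈ Y ↔ n * z ∈ Y}
  one_mem' := by intro z; rw [one_mul]
  mul_mem' := by
    intro a b ha hb z
    rw [hb z, ha (b * z), mul_assoc]
  inv_mem' := by
    intro a ha z
    have := ha (a⁻¹ * z)
    rw [mul_inv_cancel_left] at this
    exact this.symm

theorem card_St {Y : Set G} {q : ℕ} [hq : Fact q.Prime] (hY : Y.ncard = q) {n : G} (hn : n ∈ St Y) (hn1 : n ≠ 1) :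
    Nat.card (St Y) = q := by
  classical
  obtain ⟨y, hy⟩ : Y.Nonempty := by
    rw [← Set.ncard_pos (Set.toFinite Y), hY]; exact hq.out.pos
  have hle : Nat.card (St Y) ≤ q := by
    rw [← hY]
    have h1 : ((fun n => n * y) '' (St Y : Set G)) ⊆ Y := by
      rintro _ ⟨m, hm, rfl⟩
      exact (hm y).1 hy
    have h2 := Set.ncard_le_ncard h1 (Set.toFinite _)
    rw [Set.ncard_image_of_injective _ (mul_left_injective y)] at h2
    exact h2
  have hprime : ∀ ℓ : ℕ, ℓ.Prime → ℓ ∣ Nat.card (St Y) → ℓ = q := by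
    intro ℓ hℓ hd
    haveI : Fact ℓ.Prime := ⟨hℓ⟩
    obtain ⟨⟨m, hm⟩, hmo⟩ := exists_prime_orderOf_dvd_card' ℓ hd
    rw [← orderOf_coe] at hmo
    change orderOf m = ℓ at hmo
    have hfree : ∀ z : G, (fun z => m * z) z ≠ z := by
      intro z h
      have : m = 1 := mul_eq_right.1 h
      rw [this, orderOf_one] at hmo
      exact hℓ.one_lt.ne hmo
    let f : Function.End Y := fun z => ⟨m * z, (hm z).1 z.2⟩
    haveI := Fintype.ofFinite Y
    have hf : f ^ ℓ ^ 1 = 1 := by
      have h1 : ∀ k : ℕ, ∀ z : Y, (((f ^ k) z : Y) : G) = m ^ k * z := by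
        intro k
        induction k with
        | zero => intro z; rw [pow_zero, pow_zero, one_mul]; rfl
        | succ k ih =>
          intro z
          rw [pow_succ, pow_succ, mul_assoc]
          exact ih (f z)
      funext z
      apply Subtype.ext
      rw [h1, pow_one, ← hmo, pow_orderOf_eq_one, one_mul]; rfl
    have h2 := Equiv.Perm.card_fixedPoints_modEq hf
    have h3 : Fintype.card f.fixedPoints = 0 := by
      rw [Fintype.card_eq_zero_iff]
      exact ⟨fun z => hfree z.1 (congrArg Subtype.val z.2)⟩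
    rw [h3, ← Nat.card_eq_fintype_card] at h2
    change Y.ncard ≡ 0 [MOD ℓ] at h2
    rw [hY] at h2
    exact (Nat.prime_dvd_prime_iff_eq hℓ hq.out).1 ((Nat.modEq_zero_iff_dvd).1 h2)
  have h1 : Nat.card (St Y) ≠ 1 := by
    intro h
    have h2 : St Y = ⊥ := Subgroup.card_eq_one.1 h
    rw [h2, mem_bot] at hn
    exact hn1 hn
  obtain ⟨ℓ, hℓ, hd⟩ := Nat.exists_prime_and_dvd h1
  rw [hprime ℓ hℓ hd] at hd
  exact le_antisymm hle (Nat.le_of_dvd Nat.card_pos hd)

theorem normal_St (y : G) : (St (conjugatesOf y)).Normal := by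
  have h0 : ∀ g z : G, z ∈ conjugatesOf y → g * z * g⁻¹ ∈ conjugatesOf y := by
    intro g z hz
    obtain ⟨a, rfl⟩ := mem_K.1 hz
    exact mem_K.2 ⟨g * a, by group⟩
  have h1 : ∀ g z : G, z ∈ conjugatesOf y ↔ g * z * g⁻¹ ∈ conjugatesOf y := by
    intro g z
    refine ⟨h0 g z, fun h => ?_⟩
    have := h0 g⁻¹ _ h
    have e : g⁻¹ * (g * z * g⁻¹) * g⁻¹⁻¹ = z := by group
    rwa [e] at this
  constructor
  intro n hn g z
  rw [h1 g⁻¹ z, hn (g⁻¹ * z * g⁻¹⁻¹), h1 g (n * (g⁻¹ * z * g⁻¹⁻¹))]
  have e : g * (n * (g⁻¹ * z * g⁻¹⁻¹)) * g⁻¹ = g * n * g⁻¹ * z := by group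
  rw [e]

/-- the key property for coprime class sizes -/
theorem key {p q : ℕ} [hp : Fact p.Prime] [hq : Fact q.Prime] (hpq : p < q)
    (h : ∀ x : G, (C x).index = 1 ∨ ((C x).index).Prime) {x y : G} (hx : (C x).index = p) (hy : (C y).index = q) (g : G) :
    x⁻¹ * (g * x * g⁻¹) ∈ St (conjugatesOf y) := by
  have hcop : (C x).index.Coprime (C y).index := by
    rw [hx, hy, Nat.coprime_primes hp.out hq.out]; exact hpq.ne
  obtain ⟨hidx, hfac⟩ := H1.Factor.index_inf_of_coprime (C x) (C y) hcop
  have hprod : ∀ a b : G, (a * x * a⁻¹) * (b * y * b⁻¹) ∈ conjugatesOf (x * y) := by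
    intro a b
    obtain ⟨c, hc, d, hd, hcd⟩ := hfac (a⁻¹ * b)
    rw [mem_K]
    refine ⟨a * c, ?_⟩
    rw [mem_C] at hc hd
    have hb : b = a * c * d := by rw [mul_assoc, ← hcd]; group
    have h1 : c * x * c⁻¹ = x := by rw [hc]; group
    have h2 : d * y * d⁻¹ = y := by rw [hd]; group
    rw [hb]
    calc a * c * (x * y) * (a * c)⁻¹ = a * (c * x * c⁻¹) * a⁻¹ * (a * c * y * c⁻¹ * a⁻¹) := by group
      _ = a * x * a⁻¹ * (a * c * (d * y * d⁻¹) * c⁻¹ * a⁻¹) := by rw [h1, h2]
      _ = _ := by group
  have hsub : ∀ a : G, ((fun z => (a * x * a⁻¹) * z) '' conjugatesOf y) ⊆ conjugatesOf (x * y) := by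
    rintro a _ ⟨z, hz, rfl⟩
    obtain ⟨b, rfl⟩ := mem_K.1 hz
    exact hprod a b
  have hcard : ∀ a : G, ((fun z => (a * x * a⁻¹) * z) '' conjugatesOf y).ncard = q := by
    intro a
    rw [Set.ncard_image_of_injective _ (mul_right_injective _), card_K, hy]
  have hq' : (conjugatesOf (x * y)).ncard = q := by
    rw [card_K]
    have h1 : q ≤ (C (x * y)).index := by
      rw [← card_K, ← hcard 1]
      exact Set.ncard_le_ncard (hsub 1) (Set.toFinite _)
    have h2 : C x ⊓ C y ≤ C (x * y) := by
      intro z hz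
      have h3 := mem_C.1 hz.1
      have h4 := mem_C.1 hz.2
      rw [mem_C, ← mul_assoc, h3, mul_assoc, h4, mul_assoc]
    have h3 : (C (x * y)).index ∣ p * q := by
      rw [← hx, ← hy, ← hidx]
      exact index_dvd_of_le h2
    rcases h (x * y) with h4 | h4
    · rw [h4] at h1
      exact absurd hq.out.one_lt (not_lt_of_ge h1)
    · rcases (Nat.Prime.dvd_mul h4).1 h3 with h5 | h5
      · have := (Nat.prime_dvd_prime_iff_eq h4 hp.out).1 h5
        omega
      · exact (Nat.prime_dvd_prime_iff_eq h4 hq.out).1 h5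
  have heq : ∀ a : G, ((fun z => (a * x * a⁻¹) * z) '' conjugatesOf y) = conjugatesOf (x * y) := fun a =>
    Set.eq_of_subset_of_ncard_le (hsub a) (by rw [hq', hcard a]) (Set.toFinite _)
  have e1 := heq 1
  have e2 := heq g
  rw [← e1] at e2
  intro z
  constructor
  · intro hz
    have h1 : (g * x * g⁻¹) * z ∈ (fun z => (1 * x * 1⁻¹) * z) '' conjugatesOf y := by
      rw [← e2]; exact ⟨z, hz, rfl⟩
    obtain ⟨w, hw, hwz⟩ := h1
    have h2 : x * w = (g * x * g⁻¹) * z := by simpa using hwz
    have h3 : x⁻¹ * (g * x * g⁻¹) * z = w := by rw [mul_assoc, ← h2]; group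
    rw [h3]; exact hw
  · intro hz
    have h1 : x * (x⁻¹ * (g * x * g⁻¹) * z) ∈ (fun z => (g * x * g⁻¹) * z) '' conjugatesOf y := by
      rw [e2]; exact ⟨_, hz, by simp⟩
    obtain ⟨w, hw, hwz⟩ := h1
    have h2 : (g * x * g⁻¹) * w = (g * x * g⁻¹) * z := by
      have : x * (x⁻¹ * (g * x * g⁻¹) * z) = (g * x * g⁻¹) * z := by group
      rw [← this]; exact hwz
    rw [← mul_left_cancel h2]; exact hw

theorem eq_of_mem {q : ℕ} (hq : q.Prime) {N : Subgroup G} (hN : Nat.card N = q) {M : Subgroup G} {n : G} (hn : n ∈ N) (hn1 : n ≠ 1) (hnM : n ∈ M) :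
    N ≤ M := by
  have h1 : Nat.card (zpowers n) ∣ q := by rw [← hN]; exact card_dvd_of_le (zpowers_le.2 hn)
  rcases (Nat.dvd_prime hq).1 h1 with h2 | h2
  · exfalso
    rw [Nat.card_zpowers, orderOf_eq_one_iff] at h2
    exact hn1 h2
  · have h3 : zpowers n = N := H2.Card.eq_of_le_of_card_eq (zpowers_le.2 hn) (by rw [h2, hN])
    rw [← h3, zpowers_le]; exact hnM

theorem case_two {p q : ℕ} [hp : Fact p.Prime] [hq : Fact q.Prime] (hpq : p < q)
    (h : ∀ x : G, (C x).index = 1 ∨ ((C x).index).Prime) {x y : G} (hx : (C x).index = p) (hy : (C y).index = q) :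
    ∃ p q : ℕ, p.Prime ∧ q.Prime ∧ p ≠ q ∧ Nat.card (G ⧸ Subgroup.center G) = p * q ∧ ¬ IsMulCommutative (G ⧸ Subgroup.center G) := by
  set N := St (conjugatesOf y) with hN
  haveI hNn : N.Normal := normal_St y
  -- a nontrivial element [g, x]
  obtain ⟨g0, hg0⟩ : ∃ g0 : G, x⁻¹ * (g0 * x * g0⁻¹) ≠ 1 := by
    by_contra hcon
    push Not at hcon
    have h1 : C x = ⊤ := by
      rw [eq_top_iff]
      intro g _
      rw [mem_C]
      have h2 := hcon g
      rw [inv_mul_eq_one] at h2
      rw [eq_mul_inv_iff_mul_eq] at h2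
      exact h2.symm
    rw [h1, index_top] at hx
    exact hp.out.one_lt.ne hx
  have hn0 := key hpq h hx hy g0
  set n0 := x⁻¹ * (g0 * x * g0⁻¹) with hn0def
  have hNc : Nat.card N = q := card_St (by rw [card_K, hy]) hn0 hg0
  -- all commutators are in N
  have hcomm : ∀ z g : G, z⁻¹ * (g * z * g⁻¹) ∈ N := by
    intro z g
    rcases h z with h1 | h1
    · rw [index_eq_one] at h1
      have h2 : g ∈ C z := h1 ▸ mem_top g
      rw [mem_C] at h2
      rw [h2]
      have : z⁻¹ * (z * g * g⁻¹) = 1 := by group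
      rw [this]; exact one_mem _
    · haveI : Fact ((C z).index).Prime := ⟨h1⟩
      rcases lt_trichotomy (C z).index q with h2 | h2 | h2
      · exact key h2 h rfl hy g
      · -- same size as y
        have h3 : Nat.card (St (conjugatesOf z)) = q := by
          have := key hpq h hx h2 g0
          exact card_St (by rw [card_K, h2]) this hg0
        have h4 : n0 ∈ St (conjugatesOf z) := key hpq h hx h2 g0
        have h5 : St (conjugatesOf z) ≤ N := eq_of_mem hq.out h3 h4 hg0 hn0
        -- Y_z = St * z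
        have h6 : ((fun n => n * z) '' (St (conjugatesOf z) : Set G)) = conjugatesOf z := by
          apply Set.eq_of_subset_of_ncard_le _ _ (Set.toFinite _)
          · rintro _ ⟨m, hm, rfl⟩
            exact (hm z).1 (mem_K.2 ⟨1, by group⟩)
          · rw [Set.ncard_image_of_injective _ (mul_left_injective z), card_K, h2, ← h3]; rfl
        have h7 : g * z * g⁻¹ ∈ (fun n => n * z) '' (St (conjugatesOf z) : Set G) := by
          rw [h6]; exact mem_K.2 ⟨g, rfl⟩
        obtain ⟨m, hm, hmz⟩ := h7
        have h8 : m * z = g * z * g⁻¹ := hmz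
        rw [← h8]
        have h9 := hNn.conj_mem m (h5 hm) z⁻¹
        have h10 : z⁻¹ * m * z⁻¹⁻¹ = z⁻¹ * (m * z) := by group
        rwa [h10] at h9
      · exfalso
        have h3 := key (p := p) (q := (C z).index) (hpq.trans h2) h hx rfl g0
        have h4 : Nat.card (St (conjugatesOf z)) = (C z).index := card_St (by rw [card_K]) h3 hg0
        have h5 := eq_of_mem h1 h4 h3 hg0 hn0
        have h6 := Subgroup.card_le_of_le h5
        rw [h4, hNc] at h6
        omega
  -- n0 is not central
  have hn0c : n0 ∉ center G := by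
    intro hc
    rw [Subgroup.mem_center_iff] at hc
    have h1 : ∀ k : ℕ, g0 ^ k * x * (g0 ^ k)⁻¹ = n0 ^ k * x := by
      intro k
      induction k with
      | zero => simp
      | succ k ih =>
        have e : g0 ^ (k + 1) * x * (g0 ^ (k + 1))⁻¹ = g0 * (g0 ^ k * x * (g0 ^ k)⁻¹) * g0⁻¹ := by
          rw [pow_succ']; group
        have hc' : ∀ m : ℕ, g0 * n0 ^ m = n0 ^ m * g0 := fun m => (show Commute g0 n0 from hc g0).pow_right m
        rw [e, ih, ← mul_assoc, hc' k]
        have h2 : g0 * x * g0⁻¹ = x * n0 := by rw [hn0def]; group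
        calc n0 ^ k * g0 * x * g0⁻¹ = n0 ^ k * (g0 * x * g0⁻¹) := by group
          _ = n0 ^ k * (x * n0) := by rw [h2]
          _ = n0 ^ k * (n0 * x) := by rw [hc x]
          _ = n0 ^ (k + 1) * x := by rw [pow_succ]; group
    have h2 : ((fun n => n * x) '' (N : Set G)) ⊆ conjugatesOf x := by
      rintro _ ⟨m, hm, rfl⟩
      have h3 : N ≤ zpowers n0 := eq_of_mem hq.out hNc hn0 hg0 (mem_zpowers n0)
      obtain ⟨k, rfl⟩ : m ∈ Submonoid.powers n0 := mem_powers_iff_mem_zpowers.2 (h3 hm)
      rw [mem_K]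
      exact ⟨g0 ^ k, h1 k⟩
    have h3 := Set.ncard_le_ncard h2 (Set.toFinite _)
    rw [Set.ncard_image_of_injective _ (mul_left_injective x), card_K, hx] at h3
    change Nat.card N ≤ p at h3
    omega
  have hNgen : N ≤ zpowers n0 := eq_of_mem hq.out hNc hn0 hg0 (mem_zpowers n0)
  -- D = C n0
  have hDp : ((C n0).index).Prime := by
    rcases h n0 with h1 | h1
    · exfalso
      apply hn0c
      rw [index_eq_one] at h1
      rw [Subgroup.mem_center_iff]
      intro g
      exact mem_C.1 (h1 ▸ mem_top g)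
    · exact h1
  have hDlt : (C n0).index < q := by
    rw [← card_K, ← hNc]
    have h1 : conjugatesOf n0 ⊆ (N : Set G) \ {1} := by
      intro z hz
      obtain ⟨g, rfl⟩ := mem_K.1 hz
      refine ⟨hNn.conj_mem _ hn0 g, ?_⟩
      intro h2
      apply hg0
      have h3 : g * n0 * g⁻¹ = 1 := h2
      calc n0 = g⁻¹ * (g * n0 * g⁻¹) * g := by group
        _ = 1 := by rw [h3]; group
    have h2 := Set.ncard_le_ncard h1 (Set.toFinite _)
    have h3 : ((N : Set G) \ {1}).ncard < (N : Set G).ncard :=
      Set.ncard_diff_singleton_lt_of_mem (one_mem N) (Set.toFinite _)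
    exact lt_of_le_of_lt h2 h3
  obtain ⟨u, hu⟩ : ∃ u, u ∉ C n0 := by
    by_contra hcon
    push Not at hcon
    have : C n0 = ⊤ := eq_top_iff.2 fun g _ => hcon g
    rw [this, index_top] at hDp
    exact Nat.not_prime_one hDp
  -- N ⊓ C u = 1
  have hNu : ∀ m ∈ N, m ∈ C u → m = 1 := by
    intro m hm hmu
    by_contra hm1
    apply hu
    have h1 : N ≤ zpowers m := eq_of_mem hq.out hNc hm hm1 (mem_zpowers m)
    obtain ⟨k, hk⟩ := mem_zpowers_iff.1 (h1 hn0)
    rw [mem_C] at hmu ⊢
    rw [← hk]
    exact ((show Commute u m from hmu.symm).zpow_right k)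
  have hCu : (C u).index = q := by
    have h1 : ((fun n => n * u * n⁻¹) '' (N : Set G)) ⊆ conjugatesOf u := by
      rintro _ ⟨m, _, rfl⟩
      exact mem_K.2 ⟨m, rfl⟩
    have h2 : Set.InjOn (fun n => n * u * n⁻¹) (N : Set G) := by
      intro a ha b hb hab
      have h3 : a * u * a⁻¹ = b * u * b⁻¹ := hab
      have h4 : b⁻¹ * a ∈ C u := by
        rw [mem_C]
        calc b⁻¹ * a * u = b⁻¹ * (a * u * a⁻¹) * a := by group
          _ = b⁻¹ * (b * u * b⁻¹) * a := by rw [h3]
          _ = _ := by group
      have h5 := hNu _ (mul_mem (inv_mem hb) ha) h4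
      rw [inv_mul_eq_one] at h5
      exact h5.symm
    have h3 := Set.ncard_le_ncard h1 (Set.toFinite _)
    rw [Set.InjOn.ncard_image h2, card_K] at h3
    have h4 : conjugatesOf u ⊆ ((fun n => u * n) '' (N : Set G)) := by
      intro z hz
      obtain ⟨g, rfl⟩ := mem_K.1 hz
      exact ⟨_, hcomm u g, by group⟩
    have h5 := Set.ncard_le_ncard h4 (Set.toFinite _)
    rw [Set.ncard_image_of_injective _ (mul_right_injective u), card_K] at h5
    rw [← hNc]
    exact le_antisymm h5 h3
  -- C u is abelian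
  have hCuab : ∀ a ∈ C u, ∀ b ∈ C u, a * b = b * a := by
    intro a ha b hb
    have h1 := hcomm a b
    have h2 : a⁻¹ * (b * a * b⁻¹) ∈ C u := mul_mem (inv_mem ha) (mul_mem (mul_mem hb ha) (inv_mem hb))
    have h3 := hNu _ h1 h2
    rw [inv_mul_eq_one, eq_mul_inv_iff_mul_eq] at h3
    exact h3
  have htop : N ⊔ C u = ⊤ := by
    have h1 := H2.Card.card_sup_mul_card_inf (H := C u) (N := N) (by rw [normalizer_eq_top_iff.2 hNn]; exact le_top)
    have h2 : Nat.card (C u ⊓ N : Subgroup G) = 1 := by
      rw [Subgroup.card_eq_one, eq_bot_iff]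
      intro m hm
      exact hNu m hm.2 hm.1
    rw [h2, mul_one, hNc, ← hCu, Subgroup.card_mul_index, sup_comm] at h1
    exact Subgroup.eq_top_of_card_eq _ h1
  have hcenter : center G = C n0 ⊓ C u := by
    apply le_antisymm
    · intro z hz
      rw [Subgroup.mem_center_iff] at hz
      exact ⟨mem_C.2 (hz n0).symm, mem_C.2 (hz u).symm⟩
    · intro z hz
      have h1 : N ⊔ C u ≤ C z := by
        rw [sup_le_iff]
        constructor
        · intro m hm
          obtain ⟨k, rfl⟩ := mem_zpowers_iff.1 (hNgen hm)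
          rw [mem_C]
          exact ((show Commute z n0 from mem_C.1 hz.1).zpow_right k).symm
        · intro m hm
          exact mem_C.2 (hCuab m hm z hz.2)
      rw [htop] at h1
      rw [Subgroup.mem_center_iff]
      intro g
      exact mem_C.1 (h1 (mem_top g))
  refine ⟨(C n0).index, q, hDp, hq.out, hDlt.ne, ?_, ?_⟩
  · rw [← index_eq_card, hcenter]
    have := (H1.Factor.index_inf_of_coprime (C n0) (C u) (by
      rw [hCu, Nat.coprime_primes hDp hq.out]; exact hDlt.ne)).1
    rw [this, hCu]
  · intro hc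
    apply hn0c
    apply (QuotientGroup.eq_one_iff n0).1
    change QuotientGroup.mk' (center G) n0 = 1
    rw [hn0def, map_mul, map_mul, map_mul, map_inv, map_inv,
      hc.is_comm.comm (QuotientGroup.mk' (center G) g0) (QuotientGroup.mk' (center G) x)]
    group

theorem case_one {p : ℕ} [hp : Fact p.Prime] (h : ∀ x : G, (C x).index = 1 ∨ (C x).index = p) :
    Subgroup.upperCentralSeries G 2 = ⊤ := by
  have hcomm : ∀ x, ∀ a b : G, a * b * a⁻¹ * b⁻¹ ∈ C x := by
    by_cases hex : ∃ x : G, (C x).index = p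
    · obtain ⟨p', hp', a, hpa, hP⟩ := S4134.result p hp.out.one_lt h hex
      let P : Sylow p' G := default
      obtain ⟨hPn, ⟨N, hN, hNc, hNa, hNP⟩, -⟩ := hP P
      have hNZ : N ≤ center G := by
        intro n hn
        have h1 : N ⊔ (P : Subgroup G) ≤ C n := by
          rw [sup_le_iff]
          constructor
          · intro m hm
            rw [mem_C]
            exact congrArg Subtype.val (hNa.is_comm.comm ⟨m, hm⟩ ⟨n, hn⟩)
          · intro m hm
            rw [mem_C]
            exact (hNP n hn m hm).symm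
        rw [hNc.sup_eq_top] at h1
        rw [Subgroup.mem_center_iff]
        intro g
        exact mem_C.1 (h1 (mem_top g))
      haveI hnil : Group.IsNilpotent G := by
        haveI : Group.IsNilpotent (G ⧸ center G) := by
          have h1 : IsPGroup p' (G ⧸ center G) := by
            obtain ⟨m, hm⟩ := IsPGroup.iff_card.1 P.2
            have h2 : Nat.card (G ⧸ center G) ∣ p' ^ m := by
              rw [← index_eq_card, ← hm, ← hNc.symm.index_eq_card]
              exact index_dvd_of_le hNZ
            obtain ⟨k, -, hk⟩ := (Nat.dvd_prime_pow hp'.out).1 h2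
            exact IsPGroup.of_card hk
          exact h1.isNilpotent
        exact Group.of_quotient_center_nilpotent this
      intro x a b
      rcases h x with h1 | h1
      · rw [index_eq_one] at h1
        rw [h1]; exact mem_top _
      · have hco : IsCoatom (C x) := by
          refine ⟨?_, ?_⟩
          · intro h2
            rw [h2, index_top] at h1
            exact hp.out.one_lt.ne h1
          · intro M hM
            have h2 := relIndex_mul_index hM.le
            rw [h1] at h2
            rcases (Nat.dvd_prime hp.out).1 (Dvd.intro_left _ h2) with h3 | h3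
            · exact index_eq_one.1 h3
            · exfalso
              rw [h3] at h2
              have h4 : (C x).relIndex M = 1 := by
                have := hp.out.pos
                nlinarith
              exact not_le_of_gt hM (relIndex_eq_one.1 h4)
        haveI := H1.Nilp.normal_of_isCoatom_of_nilpotent hco
        have h3 : commutator G ≤ C x := by
          apply H1.Nilp.commutator_le_of_index_prime (M := C x)
          rw [h1]; exact hp.out
        apply h3
        exact commutator_mem_commutator (mem_top a) (mem_top b)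
    · push Not at hex
      intro x a b
      rcases h x with h1 | h1
      · rw [index_eq_one] at h1
        rw [h1]; exact mem_top _
      · exact absurd h1 (hex x)
  rw [eq_top_iff]
  intro x _
  rw [Subgroup.mem_upperCentralSeries_succ_iff]
  intro y
  rw [Subgroup.upperCentralSeries_one, Subgroup.mem_center_iff]
  intro z
  exact (mem_C.1 (hcomm z x y)).symm


/-- Let `G` be a finite group every conjugacy class of which has size 1 or a prime. Then either `G` is nilpotent of class at most 2, or `G/Z(G)` is a non-abelian group of order `pq` for distinct primes `p, q` (a Frobenius group of order `pq`). -/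
theorem result {G : Type*} [Group G] [Finite G]
    (h : ∀ x : G, (Subgroup.centralizer ({x} : Set G)).index = 1 ∨ ((Subgroup.centralizer ({x} : Set G)).index).Prime) :
    Subgroup.upperCentralSeries G 2 = ⊤ ∨
      ∃ p q : ℕ, p.Prime ∧ q.Prime ∧ p ≠ q ∧ Nat.card (G ⧸ Subgroup.center G) = p * q ∧ ¬ IsMulCommutative (G ⧸ Subgroup.center G) := by

  by_cases hex : ∃ x y : G, (C x).index ≠ 1 ∧ (C y).index ≠ 1 ∧ (C x).index < (C y).index
  · right
    obtain ⟨x, y, hx, hy, hxy⟩ := hex
    haveI : Fact ((C x).index).Prime := ⟨(h x).resolve_left hx⟩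
    haveI : Fact ((C y).index).Prime := ⟨(h y).resolve_left hy⟩
    exact case_two hxy h rfl rfl
  · left
    push Not at hex
    by_cases hc : ∃ x : G, (C x).index ≠ 1
    · obtain ⟨x, hx⟩ := hc
      haveI : Fact ((C x).index).Prime := ⟨(h x).resolve_left hx⟩
      apply case_one (p := (C x).index)
      intro y
      by_cases hy : (C y).index = 1
      · exact Or.inl hy
      · exact Or.inr (le_antisymm (hex x y hx hy) (hex y x hy hx))
    · push Not at hc
      haveI : Fact (Nat.Prime 2) := ⟨Nat.prime_two⟩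
      exact case_one (p := 2) (fun y => Or.inl (hc y))


end Cfsg.Agent.S4314
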