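import Mathlib
import Cfsg.Agent.S4314
import Cfsg.Agent.H1_Factor
import Cfsg.Agent.H2_Card

set_option autoImplicit false

namespace H7.TL

open Subgroup Cfsg.Agent.S4314

universe u

variable {G : Type u} [Group G] [Finite G]

theorem lower {x y : G} (hcop : (C x).index.Coprime (C y).index) :
    (∀ a b : G, (a * x * a⁻¹) * (b * y * b⁻¹) ∈ conjugatesOf (x * y)) ∧ (C y).index ≤ (C (x * y)).index := by
  obtain ⟨hidx, hfac⟩ := Cfsg.Agent.H1.Factor.index_inf_of_coprime (C x) (C y) hcop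
  have hprod : ∀ a b : G, (a * x * a⁻¹) * (b * y * b⁻¹) ∈ conjugatesOf (x * y) := by
    intro a b
    obtain ⟨c, hc, d, hd, hcd⟩ := hfac (a⁻¹ * b)
    rw [mem_K]
    refine ⟨a * c, ?_⟩
    rw [mem_C] at hc hd
    have hb : b = a * c * d := by rw [mul_assoc, ← hcd]; group
    have h1 : c * x * c⁻¹ = x := by rw [hc]; group
    have h2 : d * y * d⁻¹ = y := by rw [hd]; group
    rw [hb]
    calc a * c * (x * y) * (a * c)⁻¹ = a * (c * x * c⁻¹) * a⁻¹ * (a * c * y * c⁻¹ * a⁻¹) := by group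
      _ = a * x * a⁻¹ * (a * c * (d * y * d⁻¹) * c⁻¹ * a⁻¹) := by rw [h1, h2]
      _ = _ := by group
  refine ⟨hprod, ?_⟩
  rw [← card_K, ← card_K]
  have h1 : ((fun z => (1 * x * 1⁻¹) * z) '' conjugatesOf y) ⊆ conjugatesOf (x * y) := by
    rintro _ ⟨z, hz, rfl⟩
    obtain ⟨b, rfl⟩ := mem_K.1 hz
    exact hprod 1 b
  have h2 := Set.ncard_le_ncard h1 (Set.toFinite _)
  rwa [Set.ncard_image_of_injective _ (mul_right_injective _)] at h2

theorem key' {x y : G} (hcop : (C x).index.Coprime (C y).index) (he : (C (x * y)).index ≤ (C y).index) (g : G) :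
    x⁻¹ * (g * x * g⁻¹) ∈ St (conjugatesOf y) := by
  obtain ⟨hprod, _⟩ := lower hcop
  have hsub : ∀ a : G, ((fun z => (a * x * a⁻¹) * z) '' conjugatesOf y) ⊆ conjugatesOf (x * y) := by
    rintro a _ ⟨z, hz, rfl⟩
    obtain ⟨b, rfl⟩ := mem_K.1 hz
    exact hprod a b
  have hcard : ∀ a : G, ((fun z => (a * x * a⁻¹) * z) '' conjugatesOf y).ncard = (C y).index := by
    intro a
    rw [Set.ncard_image_of_injective _ (mul_right_injective _), card_K]
  have heq : ∀ a : G, ((fun z => (a * x * a⁻¹) * z) '' conjugatesOf y) = conjugatesOf (x * y) := fun a =>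
    Set.eq_of_subset_of_ncard_le (hsub a) (by rw [card_K, hcard a]; exact he) (Set.toFinite _)
  have e1 := heq 1
  have e2 := heq g
  rw [← e1] at e2
  intro z
  constructor
  · intro hz
    have h1 : (g * x * g⁻¹) * z ∈ (fun z => (1 * x * 1⁻¹) * z) '' conjugatesOf y := by
      rw [← e2]; exact ⟨z, hz, rfl⟩
    obtain ⟨w, hw, hwz⟩ := h1
    have h2 : x * w = (g * x * g⁻¹) * z := by simpa using hwz
    have h3 : x⁻¹ * (g * x * g⁻¹) * z = w := by rw [mul_assoc, ← h2]; group
    rw [h3]; exact hw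
  · intro hz
    have h1 : x * (x⁻¹ * (g * x * g⁻¹) * z) ∈ (fun z => (g * x * g⁻¹) * z) '' conjugatesOf y := by
      rw [e2]; exact ⟨_, hz, by simp⟩
    obtain ⟨w, hw, hwz⟩ := h1
    have h2 : (g * x * g⁻¹) * w = (g * x * g⁻¹) * z := by
      have : x * (x⁻¹ * (g * x * g⁻¹) * z) = (g * x * g⁻¹) * z := by group
      rw [← this]; exact hwz
    rw [← mul_left_cancel h2]; exact hw

theorem St_le (y : G) : Nat.card (St (conjugatesOf y)) ≤ (C y).index := by
  rw [← card_K]
  have hy : y ∈ conjugatesOf y := mem_K.2 ⟨1, by group⟩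
  have h1 : ((fun n => n * y) '' (St (conjugatesOf y) : Set G)) ⊆ conjugatesOf y := by
    rintro _ ⟨m, hm, rfl⟩
    exact (hm y).1 hy
  have h2 := Set.ncard_le_ncard h1 (Set.toFinite _)
  rw [Set.ncard_image_of_injective _ (mul_left_injective y)] at h2
  exact h2

theorem St_prime (y : G) {ℓ : ℕ} (hℓ : ℓ.Prime) (hd : ℓ ∣ Nat.card (St (conjugatesOf y))) : ℓ ∣ (C y).index := by
  classical
  rw [← card_K]
  haveI : Fact ℓ.Prime := ⟨hℓ⟩
  obtain ⟨⟨m, hm⟩, hmo⟩ := exists_prime_orderOf_dvd_card' ℓ hd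
  rw [← orderOf_coe] at hmo
  change orderOf m = ℓ at hmo
  have hfree : ∀ z : G, (fun z => m * z) z ≠ z := by
    intro z h
    have : m = 1 := mul_eq_right.1 h
    rw [this, orderOf_one] at hmo
    exact hℓ.one_lt.ne hmo
  let f : Function.End (conjugatesOf y) := fun z => ⟨m * z, (hm z).1 z.2⟩
  haveI := Fintype.ofFinite (conjugatesOf y)
  have hf : f ^ ℓ ^ 1 = 1 := by
    have h1 : ∀ k : ℕ, ∀ z : conjugatesOf y, (((f ^ k) z : conjugatesOf y) : G) = m ^ k * z := by
      intro k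
      induction k with
      | zero => intro z; rw [pow_zero, pow_zero, one_mul]; rfl
      | succ k ih =>
        intro z
        rw [pow_succ, pow_succ, mul_assoc]
        exact ih (f z)
    funext z
    apply Subtype.ext
    rw [h1, pow_one, ← hmo, pow_orderOf_eq_one, one_mul]; rfl
  have h2 := Equiv.Perm.card_fixedPoints_modEq hf
  have h3 : Fintype.card f.fixedPoints = 0 := by
    rw [Fintype.card_eq_zero_iff]
    exact ⟨fun z => hfree z.1 (congrArg Subtype.val z.2)⟩
  rw [h3, ← Nat.card_eq_fintype_card] at h2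
  change (conjugatesOf y).ncard ≡ 0 [MOD ℓ] at h2
  exact Nat.modEq_zero_iff_dvd.1 h2

/-- relative index of a subgroup in a normal subgroup divides its index -/
theorem relidx {H : Type*} [Group H] [Finite H] (N K : Subgroup H) [N.Normal] : K.relIndex N ∣ K.index := by
  have h1 : Nat.card (N ⊔ K : Subgroup H) * Nat.card (N ⊓ K : Subgroup H) = Nat.card N * Nat.card K := by
    have h0 := Cfsg.Agent.H2.Card.card_sup_mul_card_inf (show K ≤ normalizer (N : Set H) by
      rw [normalizer_eq_top]; exact le_top)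
    rw [sup_comm, inf_comm, h0, mul_comm]
  have h2 : Nat.card (N ⊓ K : Subgroup H) * K.relIndex N = Nat.card N := by
    have := Subgroup.relIndex_mul_relIndex (⊥ : Subgroup H) (N ⊓ K) N bot_le inf_le_left
    rwa [relIndex_bot_left, relIndex_bot_left, inf_relIndex_left] at this
  have h3 : Nat.card K * K.relIndex (N ⊔ K) = Nat.card (N ⊔ K : Subgroup H) := by
    have := Subgroup.relIndex_mul_relIndex (⊥ : Subgroup H) K (N ⊔ K) bot_le le_sup_right
    rwa [relIndex_bot_left, relIndex_bot_left] at this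
  have h4 : K.relIndex (N ⊔ K) = K.relIndex N := by
    rw [← h3, ← h2] at h1
    have h5 : Nat.card K * Nat.card (N ⊓ K : Subgroup H) * K.relIndex (N ⊔ K) =
        Nat.card K * Nat.card (N ⊓ K : Subgroup H) * K.relIndex N := by
      calc _ = Nat.card K * K.relIndex (N ⊔ K) * Nat.card (N ⊓ K : Subgroup H) := by ring
        _ = Nat.card (N ⊓ K : Subgroup H) * K.relIndex N * Nat.card K := h1
        _ = _ := by ring
    exact Nat.eq_of_mul_eq_mul_left (Nat.mul_pos Nat.card_pos Nat.card_pos) h5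
  rw [← h4]
  exact Dvd.intro _ (relIndex_mul_index (le_sup_right : K ≤ N ⊔ K))

theorem relcard {H : Type*} [Group H] [Finite H] (N K : Subgroup H) : Nat.card (N ⊓ K : Subgroup H) * K.relIndex N = Nat.card N := by
  have := Subgroup.relIndex_mul_relIndex (⊥ : Subgroup H) (N ⊓ K) N bot_le inf_le_left
  rwa [relIndex_bot_left, relIndex_bot_left, inf_relIndex_left] at this

theorem le_C_of_coprime (N : Subgroup G) [N.Normal] {w : G} (h : ∀ q : ℕ, q.Prime → q ∣ Nat.card N → ¬ q ∣ (C w).index) :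
    N ≤ C w := by
  rw [← relIndex_eq_one]
  by_contra hne
  obtain ⟨q, hq, hqd⟩ := Nat.exists_prime_and_dvd hne
  exact h q hq (hqd.trans (Dvd.intro_left _ (relcard N (C w)))) (hqd.trans (relidx N (C w)))

theorem order_arg {a ν g : G} (hc : a * ν = ν * a) (h : a⁻¹ * (g * a * g⁻¹) = ν) (ho : (orderOf a).Coprime (orderOf ν)) : ν = 1 := by
  have h1 : g * a * g⁻¹ = a * ν := by rw [← h]; group
  have h2 : orderOf (a * ν) = orderOf a * orderOf ν := Commute.orderOf_mul_eq_mul_orderOf_of_coprime hc ho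
  have h3 : orderOf (g * a * g⁻¹) = orderOf a := by
    rw [← MulAut.conj_apply]
    exact orderOf_injective (MulAut.conj g).toMonoidHom (MulAut.conj g).injective a
  rw [← h1, h3] at h2
  exact orderOf_eq_one_iff.1 (Nat.eq_of_mul_eq_mul_left (orderOf_pos a) (by rw [mul_one]; exact h2.symm))

theorem order_arg' {y ν : G} (hc : ν * y = y * ν) (h : ν * y ∈ conjugatesOf y) (ho : (orderOf y).Coprime (orderOf ν)) : ν = 1 := by
  obtain ⟨g, hg⟩ := mem_K.1 h
  apply order_arg (a := y) (g := g) hc.symm _ ho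
  rw [hg, hc]; group

theorem nat_split (m : ℕ) : ∀ o : ℕ, 0 < o → ∃ s t, o = s * t ∧ t.Coprime m ∧ ∀ q : ℕ, q.Prime → q ∣ s → q ∣ m := by
  intro o
  induction o using Nat.strong_induction_on with
  | _ o ih =>
    intro ho
    by_cases hc : o.Coprime m
    · exact ⟨1, o, (one_mul o).symm, hc, fun q hq h => absurd (Nat.dvd_one.1 h) hq.one_lt.ne'⟩
    · obtain ⟨q, hq, hqo, hqm⟩ := Nat.Prime.not_coprime_iff_dvd.1 hc
      obtain ⟨o', rfl⟩ := hqo
      have ho' : 0 < o' := Nat.pos_of_mul_pos_left ho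
      obtain ⟨s, t, h1, h2, h3⟩ := ih o' (by nlinarith [hq.two_le]) ho'
      refine ⟨q * s, t, by rw [h1, mul_assoc], h2, ?_⟩
      intro r hr hrd
      rcases hr.dvd_mul.1 hrd with h | h
      · rw [(Nat.prime_dvd_prime_iff_eq hr hq).1 h]; exact hqm
      · exact h3 r hr h

theorem split (m : ℕ) (g : G) : ∃ a b : G, g = a * b ∧ a ∈ zpowers g ∧ b ∈ zpowers g ∧
    (∀ q : ℕ, q.Prime → q ∣ orderOf a → q ∣ m) ∧ (orderOf b).Coprime m := by
  obtain ⟨s, t, h1, h2, h3⟩ := nat_split m (orderOf g) (orderOf_pos g)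
  have hst : IsCoprime (s : ℤ) (t : ℤ) := by
    rw [Nat.isCoprime_iff_coprime]
    apply Nat.coprime_of_dvd
    intro q hq hqs hqt
    exact (Nat.Prime.not_coprime_iff_dvd.2 ⟨q, hq, hqt, h3 q hq hqs⟩) h2
  obtain ⟨u, v, huv⟩ := hst
  refine ⟨g ^ (v * t), g ^ (u * s), ?_, zpow_mem (mem_zpowers g) _, zpow_mem (mem_zpowers g) _, ?_, ?_⟩
  · rw [← zpow_add, add_comm, huv, zpow_one]
  · intro q hq hqd
    apply h3 q hq
    refine hqd.trans (orderOf_dvd_of_pow_eq_one ?_)
    rw [← zpow_natCast, ← zpow_mul, show v * (t : ℤ) * s = ((s * t : ℕ) : ℤ) * v by push_cast; ring, ← h1, zpow_mul,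
      zpow_natCast, pow_orderOf_eq_one, one_zpow]
  · apply Nat.Coprime.coprime_dvd_left _ h2
    refine orderOf_dvd_of_pow_eq_one ?_
    rw [← zpow_natCast, ← zpow_mul, show u * (s : ℤ) * t = ((s * t : ℕ) : ℤ) * u by push_cast; ring, ← h1, zpow_mul,
      zpow_natCast, pow_orderOf_eq_one, one_zpow]

theorem C_zpow {g a : G} (h : a ∈ zpowers g) : C g ≤ C a := by
  obtain ⟨k, rfl⟩ := h
  intro z hz
  rw [mem_C] at hz ⊢
  exact (show Commute z g from hz).zpow_right k

theorem C_mul {u v : G} (hc : u * v = v * u) (ho : (orderOf u).Coprime (orderOf v)) : C (u * v) = C u ⊓ C v := by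
  have hcc : Commute u v := hc
  obtain ⟨k, hk1, hk2⟩ := Nat.chineseRemainder ho 1 0
  have e1 : (u * v) ^ k = u := by
    rw [hcc.mul_pow]
    have h1 : u ^ k = u := by
      have := (pow_eq_pow_iff_modEq (x := u)).2 hk1
      rwa [pow_one] at this
    have h2 : v ^ k = 1 := by
      have := (pow_eq_pow_iff_modEq (x := v)).2 hk2
      rwa [pow_zero] at this
    rw [h1, h2, mul_one]
  obtain ⟨l, hl1, hl2⟩ := Nat.chineseRemainder ho 0 1
  have e2 : (u * v) ^ l = v := by
    rw [hcc.mul_pow]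
    have h1 : u ^ l = 1 := by
      have := (pow_eq_pow_iff_modEq (x := u)).2 hl1
      rwa [pow_zero] at this
    have h2 : v ^ l = v := by
      have := (pow_eq_pow_iff_modEq (x := v)).2 hl2
      rwa [pow_one] at this
    rw [h1, h2, one_mul]
  apply le_antisymm
  · apply le_inf
    · exact C_zpow ⟨(k : ℤ), by rw [← e1]; simp [e1]⟩
    · exact C_zpow ⟨(l : ℤ), by rw [← e2]; simp [e2]⟩
  · rintro z ⟨h1, h2⟩
    have h3 := mem_C.1 h1
    have h4 := mem_C.1 h2
    rw [mem_C, ← mul_assoc, h3, mul_assoc, h4, mul_assoc]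

theorem eq_of_le_index {A B : Subgroup G} (h : A ≤ B) (hi : A.index ≤ B.index) : A = B := by
  have h1 := relIndex_mul_index h
  have h2 : 0 < B.index := Nat.pos_of_ne_zero index_ne_zero_of_finite
  have h3 : A.relIndex B ≠ 0 := by
    intro h0
    rw [h0, zero_mul] at h1
    exact index_ne_zero_of_finite h1.symm
  have h4 : A.relIndex B = 1 := by
    by_contra hne
    have : 2 ≤ A.relIndex B := by omega
    nlinarith
  exact le_antisymm h (relIndex_eq_one.1 h4)

theorem center_iff {z : G} : z ∈ center G ↔ (C z).index = 1 := by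
  rw [index_eq_one, mem_center_iff, eq_top_iff]
  constructor
  · intro h g _
    exact mem_C.2 (h g)
  · intro h g
    exact mem_C.1 (h (mem_top g))

theorem index_conj (g z : G) : (C (g * z * g⁻¹)).index = (C z).index := by
  rw [← card_K, ← card_K]
  congr 1
  ext w
  rw [mem_K, mem_K]
  constructor
  · rintro ⟨h, rfl⟩; exact ⟨h * g, by group⟩
  · rintro ⟨h, rfl⟩; exact ⟨h * g⁻¹, by group⟩

end H7.TL
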