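import Mathlib
import Cfsg.Agent.H7_TL1

set_option autoImplicit false

namespace H7.TL

open Subgroup Cfsg.Agent.S4314

universe u

variable {G : Type u} [Group G] [Finite G]

structure Hyp (G : Type u) [Group G] [Finite G] (m n : ℕ) : Prop where
  hmn : n < m
  hn : 1 < n
  hcop : m.Coprime n
  htop : ∀ z : G, (C z).index ≤ m
  hsec : ∀ z : G, (C z).index < m → (C z).index ≤ n

def Pi (m : ℕ) (g : G) : Prop := ∀ q : ℕ, q.Prime → q ∣ orderOf g → q ∣ m

variable {m n : ℕ}

theorem co_pi {a b : G} (ha : Pi m a) (hb : (orderOf b).Coprime m) : (orderOf a).Coprime (orderOf b) := by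
  apply Nat.coprime_of_dvd
  intro q hq h1 h2
  exact (Nat.Prime.not_coprime_iff_dvd.2 ⟨q, hq, h2, ha q hq h1⟩) hb

theorem pi_St {y ν : G} (hy : (C y).index = m) (h : ν ∈ St (conjugatesOf y)) : Pi m ν := by
  intro q hq hd
  rw [← hy]
  exact St_prime y hq (hd.trans (Subgroup.orderOf_dvd_natCard _ h))

theorem N1 (H : Hyp G m n) {y w : G} (hy : (C y).index = m) (hw : (C w).index.Coprime m) (g : G) :
    w⁻¹ * (g * w * g⁻¹) ∈ St (conjugatesOf y) :=
  key' (by rw [hy]; exact hw) (by rw [hy]; exact H.htop _) g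

theorem N2 {y w : G} (hy : (C y).index = m) (hw : (C w).index.Coprime m) :
    St (conjugatesOf y) ≤ C w := by
  haveI := normal_St y
  apply le_C_of_coprime
  intro q hq h1 h2
  have h3 := St_prime y hq h1
  rw [hy] at h3
  exact (Nat.Prime.not_coprime_iff_dvd.2 ⟨q, hq, h2, h3⟩) hw

theorem N3 (H : Hyp G m n) {y w : G} (hy : (C y).index = m) (hw : (C w).index.Coprime m) (ho : (orderOf w).Coprime m) :
    w ∈ center G := by
  rw [mem_center_iff]
  intro g
  have h1 := N1 H hy hw g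
  have h2 := mem_C.1 (N2 hy hw h1)
  have h3 := order_arg (a := w) (g := g) h2.symm rfl (co_pi (pi_St hy h1) ho).symm
  rw [inv_mul_eq_one] at h3
  rw [eq_mul_inv_iff_mul_eq] at h3
  exact h3.symm

theorem N4 (H : Hyp G m n) {y w w' : G} (hy : (C y).index = m) (hw : (C w).index.Coprime m)
    (hw' : (C w').index.Coprime m) : w' ∈ C w := by
  haveI := normal_St y
  set N := St (conjugatesOf y) with hN
  let R : Subgroup G := centralizer (N : Set G)
  haveI hRn : R.Normal := Subgroup.normal_centralizer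
  let φ : R →* N := MonoidHom.mk' (fun l => ⟨w⁻¹ * (l * w * (l : G)⁻¹), N1 H hy hw l⟩) (by
    intro l1 l2
    apply Subtype.ext
    show w⁻¹ * ((l1 * l2 : G) * w * (l1 * l2 : G)⁻¹) = w⁻¹ * (l1 * w * (l1 : G)⁻¹) * (w⁻¹ * (l2 * w * (l2 : G)⁻¹))
    have h1 : (w⁻¹ * (l2 * w * (l2 : G)⁻¹)) * l1 = l1 * (w⁻¹ * (l2 * w * (l2 : G)⁻¹)) :=
      mem_centralizer_iff.1 l1.2 _ (N1 H hy hw l2)
    calc w⁻¹ * ((l1 * l2 : G) * w * (l1 * l2 : G)⁻¹)
        = w⁻¹ * l1 * w * ((w⁻¹ * (l2 * w * (l2 : G)⁻¹)) * (l1 : G)⁻¹) := by group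
      _ = w⁻¹ * l1 * w * ((l1 : G)⁻¹ * (l1 * (w⁻¹ * (l2 * w * (l2 : G)⁻¹))) * (l1 : G)⁻¹) := by group
      _ = w⁻¹ * l1 * w * ((l1 : G)⁻¹ * ((w⁻¹ * (l2 * w * (l2 : G)⁻¹)) * l1) * (l1 : G)⁻¹) := by rw [h1]
      _ = _ := by group)
  have hker : φ.ker = (C w).subgroupOf R := by
    ext l
    rw [MonoidHom.mem_ker, mem_subgroupOf, mem_C]
    constructor
    · intro h
      have h1 : w⁻¹ * (l * w * (l : G)⁻¹) = 1 := congrArg Subtype.val h
      rw [inv_mul_eq_one, eq_mul_inv_iff_mul_eq] at h1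
      exact h1.symm
    · intro h
      apply Subtype.ext
      show w⁻¹ * (l * w * (l : G)⁻¹) = 1
      rw [h]; group
  have h1 : (C w).relIndex R ∣ Nat.card N := by
    show ((C w).subgroupOf R).index ∣ _
    rw [← hker, Subgroup.index_ker]
    exact Subgroup.card_subgroup_dvd_card _
  have h2 : (C w).relIndex R ∣ (C w).index := relidx R (C w)
  have h3 : (C w).relIndex R = 1 := by
    by_contra hne
    obtain ⟨q, hq, hqd⟩ := Nat.exists_prime_and_dvd hne
    have h4 := St_prime y hq (hqd.trans h1)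
    rw [hy] at h4
    exact (Nat.Prime.not_coprime_iff_dvd.2 ⟨q, hq, hqd.trans h2, h4⟩) hw
  apply (relIndex_eq_one.1 h3)
  rw [mem_centralizer_iff]
  intro ν hν
  exact mem_C.1 (N2 hy hw' hν)

theorem F3 (H : Hyp G m n) {y x v : G} (hy : (C y).index = m) (hx : (C x).index = n) (hpx : Pi m x)
    (hv : v ∈ C x) (hov : (orderOf v).Coprime m) : v ∈ center G := by
  have hc : x * v = v * x := (mem_C.1 hv).symm
  have h1 := C_mul hc (co_pi hpx hov)
  have h2 : n ∣ (C (x * v)).index := by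
    rw [h1, ← hx]; exact index_dvd_of_le inf_le_left
  have hmn := H.hmn
  have hn := H.hn
  have h3 : (C (x * v)).index ≠ m := by
    intro h
    rw [h] at h2
    have := Nat.eq_one_of_dvd_coprimes H.hcop h2 dvd_rfl
    omega
  have h4 := H.hsec (x * v) (lt_of_le_of_ne (H.htop _) h3)
  rw [h1] at h4
  have h5 : C x ⊓ C v = C x := eq_of_le_index inf_le_left (by rw [hx]; exact h4)
  have h6 : C x ≤ C v := inf_eq_left.1 h5
  have h7 := index_dvd_of_le h6
  rw [hx] at h7
  exact N3 H hy (Nat.Coprime.coprime_dvd_left h7 H.hcop.symm) hov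

theorem F4 (H : Hyp G m n) {y x : G} (hy : (C y).index = m) (hx : (C x).index = n) :
    ∃ a : G, Pi m a ∧ C a = C x := by
  obtain ⟨a, b, hab, ha, hb, hpa, hcb⟩ := split m x
  have h1 := index_dvd_of_le (C_zpow hb)
  rw [hx] at h1
  have h2 := N3 H hy (Nat.Coprime.coprime_dvd_left h1 H.hcop.symm) hcb
  refine ⟨a, hpa, le_antisymm ?_ (C_zpow ha)⟩
  intro z hz
  rw [mem_C] at hz ⊢
  have h3 := mem_center_iff.1 h2 z
  rw [hab, ← mul_assoc, hz, mul_assoc, h3, mul_assoc]

theorem F3' (H : Hyp G m n) {y x v : G} (hy : (C y).index = m) (hx : (C x).index = n)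
    (hv : v ∈ C x) (hov : (orderOf v).Coprime m) : v ∈ center G := by
  obtain ⟨a, ha, hC⟩ := F4 H hy hx
  exact F3 H hy (by rw [hC]; exact hx) ha (by rw [hC]; exact hv) hov

theorem F6a (H : Hyp G m n) {a x : G} (ha : Pi m a) (hca : (C a).index ∣ m) (hx : (C x).index = n)
    (hax : (C (a * x)).index ≤ n) : a ∈ center G := by
  have hcop : (C a).index.Coprime (C x).index := by
    rw [hx]; exact Nat.Coprime.coprime_dvd_left hca H.hcop
  rw [mem_center_iff]
  intro g
  have h1 := key' hcop (by rw [hx]; exact hax) g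
  haveI := normal_St x
  have hpr : ∀ q : ℕ, q.Prime → q ∣ Nat.card (St (conjugatesOf x)) → ¬ q ∣ m := by
    intro q hq h2 h3
    have h4 := St_prime x hq h2
    rw [hx] at h4
    exact (Nat.Prime.not_coprime_iff_dvd.2 ⟨q, hq, h3, h4⟩) H.hcop
  have h2 : St (conjugatesOf x) ≤ C a := le_C_of_coprime _ (fun q hq h3 h4 => hpr q hq h3 (h4.trans hca))
  have h3 := order_arg (a := a) (g := g) (mem_C.1 (h2 h1)).symm rfl (by
    apply Nat.coprime_of_dvd
    intro q hq h4 h5
    exact hpr q hq (h5.trans (Subgroup.orderOf_dvd_natCard _ h1)) (ha q hq h4))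
  rw [inv_mul_eq_one, eq_mul_inv_iff_mul_eq] at h3
  exact h3.symm

theorem F6b (H : Hyp G m n) {z x : G} (hz : Pi m z) (hcz : (C z).index = m) (hx : (C x).index = n) (hxz : x ∈ C z) : False := by
  have hn := H.hn
  obtain ⟨q, hq, hqn⟩ := Nat.exists_prime_and_dvd (show n ≠ 1 by omega)
  haveI : Fact q.Prime := ⟨hq⟩
  have hqm : ¬ q ∣ m := fun h => (Nat.Prime.not_coprime_iff_dvd.2 ⟨q, hq, h, hqn⟩) H.hcop
  let T : Sylow q (C z) := default
  let P : Subgroup G := (T : Subgroup (C z)).map (C z).subtype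
  have hPz : P ≤ C z := map_subtype_le _
  have hPp : IsPGroup q P := T.isPGroup'.map _
  have hP : P ≤ center G := by
    intro v hv
    have hov : (orderOf v).Coprime m := by
      obtain ⟨k, hk⟩ := IsPGroup.iff_orderOf.1 hPp ⟨v, hv⟩
      rw [← Subgroup.orderOf_coe] at hk
      change orderOf v = q ^ k at hk
      rw [hk]
      exact Nat.Coprime.pow_left k ((Nat.Prime.coprime_iff_not_dvd hq).2 hqm)
    have hvz := hPz hv
    have h1 := C_mul (mem_C.1 hvz).symm (co_pi hz hov)
    have h2 := H.htop (z * v)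
    rw [h1] at h2
    have h3 : C z ⊓ C v = C z := eq_of_le_index inf_le_left (by rw [hcz]; exact h2)
    have h4 := mem_C.1 ((inf_eq_left.1 h3) hxz)
    exact F3' H hcz hx (mem_C.2 h4.symm) hov
  have h1 : P ≤ C x := fun v hv => mem_C.2 ((mem_center_iff.1 (hP hv) x).symm)
  have h2 := index_dvd_of_le h1
  rw [hx, ← relIndex_mul_index hPz, hcz] at h2
  rcases hq.dvd_mul.1 (hqn.trans h2) with h3 | h3
  · have h4 : P.relIndex (C z) = (T : Subgroup (C z)).index := by
      show (P.subgroupOf (C z)).index = _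
      congr 1
      exact Subgroup.comap_map_eq_self_of_injective (C z).subtype_injective _
    rw [h4] at h3
    exact T.not_dvd_index h3
  · exact hqm h3

theorem F5 (H : Hyp G m n) {y x a : G} (hy : (C y).index = m) (hx : (C x).index = n) (ha : a ∈ C y) (hca : C y ≤ C a)
    (hpa : Pi m a) : a ∈ C x := by
  have hcop : (C x).index.Coprime (C y).index := by rw [hx, hy]; exact H.hcop.symm
  obtain ⟨hidx, _⟩ := Cfsg.Agent.H1.Factor.index_inf_of_coprime (C x) (C y) hcop
  have hrel : (C x).relIndex (C y) = n := by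
    have h1 := relIndex_mul_index (inf_le_right : C x ⊓ C y ≤ C y)
    rw [inf_relIndex_right, hidx, hx] at h1
    exact Nat.eq_of_mul_eq_mul_right (Nat.pos_of_ne_zero index_ne_zero_of_finite) h1
  let a' : C y := ⟨a, ha⟩
  haveI : (zpowers a').Normal := by
    constructor
    rintro _ ⟨k, rfl⟩ g
    have h1 : (g : G) * a = a * g := mem_C.1 (hca g.2)
    have h2 : Commute g a' := Subtype.ext h1
    have h3 : g * a' ^ k * g⁻¹ = a' ^ k := by rw [(h2.zpow_right k).eq]; group
    exact ⟨k, h3.symm⟩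
  have h1 := relidx (zpowers a') ((C x).subgroupOf (C y))
  have h2 : ((C x).subgroupOf (C y)).relIndex (zpowers a') ∣ Nat.card (zpowers a') :=
    Dvd.intro_left _ (relcard _ _)
  have h3 : ((C x).subgroupOf (C y)).relIndex (zpowers a') = 1 := by
    by_contra hne
    obtain ⟨q, hq, hqd⟩ := Nat.exists_prime_and_dvd hne
    have h4 : q ∣ n := by rw [← hrel]; exact hqd.trans h1
    have h5 : q ∣ orderOf a := by
      have := hqd.trans h2
      rw [Nat.card_zpowers, ← Subgroup.orderOf_coe] at this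
      exact this
    exact (Nat.Prime.not_coprime_iff_dvd.2 ⟨q, hq, hpa q hq h5, h4⟩) H.hcop
  exact (relIndex_eq_one.1 h3) (mem_zpowers a')

theorem F6 (H : Hyp G m n) {y x : G} (hy : (C y).index = m) (hx : (C x).index = n) :
    ∃ b : G, (orderOf b).Coprime m ∧ C b = C y := by
  obtain ⟨X, hX, hCX⟩ := F4 H hy hx
  have hX' : (C X).index = n := by rw [hCX]; exact hx
  obtain ⟨a, b, hab, ha, hb, hpa, hcb⟩ := split m y
  have hay : C y ≤ C a := C_zpow ha
  have hamem : a ∈ C y := by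
    obtain ⟨k, rfl⟩ := ha
    exact mem_C.2 ((Commute.refl y).zpow_left k)
  have haX := F5 H hy hX' hamem hay hpa
  have hca : (C a).index ∣ m := by rw [← hy]; exact index_dvd_of_le hay
  have hcen : a ∈ center G := by
    rcases lt_or_eq_of_le (H.htop (a * X)) with h | h
    · exact F6a H hpa hca hX' (H.hsec _ h)
    · exfalso
      have hcm : Commute a X := mem_C.1 haX
      refine F6b H (z := a * X) ?_ h hX' ?_
      · intro q hq hd
        rcases hq.dvd_mul.1 (hd.trans hcm.orderOf_mul_dvd_mul_orderOf) with h1 | h1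
        · exact hpa q hq h1
        · exact hX q hq h1
      · rw [mem_C]
        have : X * a = a * X := hcm.symm
        rw [← mul_assoc, this]
  refine ⟨b, hcb, le_antisymm ?_ (C_zpow hb)⟩
  intro z hz
  rw [mem_C] at hz ⊢
  have h3 := mem_center_iff.1 hcen z
  rw [hab, ← mul_assoc, h3, mul_assoc, hz, mul_assoc]

theorem F8 {y ν : G} (hy : (C y).index = m) (hoy : (orderOf y).Coprime m) (hν : ν ∈ St (conjugatesOf y))
    (hc : ν ∈ C y) : ν = 1 :=
  order_arg' (mem_C.1 hc) ((hν y).1 (mem_K.2 ⟨1, by group⟩)) (co_pi (pi_St hy hν) hoy).symm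

end H7.TL
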