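import Mathlib
import Cfsg.Agent.H7_TL2

set_option autoImplicit false

namespace H7.TL

open Subgroup Cfsg.Agent.S4314

universe u

variable {G : Type u} [Group G] [Finite G] {m n : ℕ}

def Mx (x : G) : Subgroup G := closure {c | ∃ g : G, c = x⁻¹ * (g * x * g⁻¹)}

theorem gen_mem (x g : G) : x⁻¹ * (g * x * g⁻¹) ∈ Mx x := subset_closure ⟨g, rfl⟩

instance Mx_normal (x : G) : (Mx x).Normal := by
  constructor
  intro c hc h
  induction hc using closure_induction with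
  | mem c hc =>
    obtain ⟨g, rfl⟩ := hc
    have e : h * (x⁻¹ * (g * x * g⁻¹)) * h⁻¹ = (x⁻¹ * (h * x * h⁻¹))⁻¹ * (x⁻¹ * ((h * g) * x * (h * g)⁻¹)) := by group
    rw [e]
    exact (Mx x).mul_mem ((Mx x).inv_mem (gen_mem x h)) (gen_mem x (h * g))
  | one => simp
  | mul a b _ _ ha hb =>
    have e : h * (a * b) * h⁻¹ = (h * a * h⁻¹) * (h * b * h⁻¹) := by group
    rw [e]; exact mul_mem ha hb
  | inv a _ ha =>
    have e : h * a⁻¹ * h⁻¹ = (h * a * h⁻¹)⁻¹ := by group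
    rw [e]; exact inv_mem ha

theorem Mx_le (H : Hyp G m n) {z x : G} (hz : (C z).index = m) (hx : (C x).index.Coprime m) :
    Mx x ≤ St (conjugatesOf z) := by
  unfold Mx
  rw [closure_le]
  rintro _ ⟨g, rfl⟩
  exact N1 H hz hx g

theorem Mx_comm (H : Hyp G m n) {y x : G} (hy : (C y).index = m) (hx : (C x).index.Coprime m) {μ μ' : G}
    (hμ : μ ∈ Mx x) (hμ' : μ' ∈ Mx x) : μ * μ' = μ' * μ := by
  have h1 : Mx x ≤ C μ' := by
    unfold Mx
    rw [closure_le]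
    rintro _ ⟨g, rfl⟩
    have h2 := mem_C.1 (N2 hy hx (Mx_le H hy hx hμ'))
    have h3 := mem_C.1 (N2 hy (w := g * x * g⁻¹) (by rw [index_conj]; exact hx) (Mx_le H hy hx hμ'))
    have c2 : Commute μ' x := h2
    have c3 : Commute μ' (g * x * g⁻¹) := h3
    exact mem_C.2 (c2.inv_right.mul_right c3).eq.symm
  exact mem_C.1 (h1 hμ)

/-- the map ν ↦ ν (u ν u⁻¹)⁻¹ on an abelian normal subgroup -/
def fmap (M : Subgroup G) [hM : M.Normal] (hab : ∀ a ∈ M, ∀ b ∈ M, a * b = b * a) (u : G) : M →* M :=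
  MonoidHom.mk' (fun ν => ⟨ν * (u * ν * u⁻¹)⁻¹, M.mul_mem ν.2 (M.inv_mem (hM.conj_mem ν ν.2 u))⟩) (by
    intro a b
    apply Subtype.ext
    show (a * b : G) * (u * (a * b) * u⁻¹)⁻¹ = (a : G) * (u * a * u⁻¹)⁻¹ * (b * (u * b * u⁻¹)⁻¹)
    have h1 := hab _ (M.inv_mem (hM.conj_mem a a.2 u)) _ (M.mul_mem b.2 (M.inv_mem (hM.conj_mem b b.2 u)))
    calc (a * b : G) * (u * (a * b) * u⁻¹)⁻¹ = a * ((b * (u * b * u⁻¹)⁻¹) * (u * a * u⁻¹)⁻¹) := by group
      _ = a * ((u * a * u⁻¹)⁻¹ * (b * (u * b * u⁻¹)⁻¹)) := by rw [h1]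
      _ = _ := by group)

theorem fmap_apply (M : Subgroup G) [hM : M.Normal] (hab : ∀ a ∈ M, ∀ b ∈ M, a * b = b * a) (u : G) (ν : M) :
    ((fmap M hab u ν : M) : G) = ν * (u * ν * u⁻¹)⁻¹ := rfl

theorem fmap_ker (M : Subgroup G) [hM : M.Normal] (hab : ∀ a ∈ M, ∀ b ∈ M, a * b = b * a) (u : G) :
    (fmap M hab u).ker = (C u).subgroupOf M := by
  ext ν
  rw [MonoidHom.mem_ker, mem_subgroupOf, mem_C]
  constructor
  · intro h
    have h1 : (ν : G) * (u * ν * u⁻¹)⁻¹ = 1 := congrArg Subtype.val h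
    rw [mul_inv_eq_one, eq_mul_inv_iff_mul_eq] at h1
    exact h1
  · intro h
    apply Subtype.ext
    show (ν : G) * (u * ν * u⁻¹)⁻¹ = 1
    rw [mul_inv_eq_one, eq_mul_inv_iff_mul_eq]
    exact h

/-- shift into the centralizer -/
theorem solve (H : Hyp G m n) {y x : G} (hy : (C y).index = m) (hoy : (orderOf y).Coprime m) (hx : (C x).index.Coprime m) :
    ∃ ν ∈ Mx x, x * ν ∈ C y := by
  have hab : ∀ a ∈ Mx x, ∀ b ∈ Mx x, a * b = b * a := fun a ha b hb => Mx_comm H hy hx ha hb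
  have hinj : Function.Injective (fmap (Mx x) hab y) := by
    rw [← MonoidHom.ker_eq_bot_iff, fmap_ker, eq_bot_iff]
    intro ν hν
    rw [mem_bot]
    apply Subtype.ext
    exact F8 hy hoy (Mx_le H hy hx ν.2) hν
  obtain ⟨ν, hν⟩ := (Finite.injective_iff_surjective.1 hinj) ⟨x⁻¹ * (y * x * y⁻¹), gen_mem x y⟩
  have h1 : (ν : G) * (y * ν * y⁻¹)⁻¹ = x⁻¹ * (y * x * y⁻¹) := congrArg Subtype.val hν
  refine ⟨ν, ν.2, ?_⟩
  rw [mem_C]
  have h2 : x * (ν : G) = y * (x * ν) * y⁻¹ := by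
    calc x * (ν : G) = x * ((ν : G) * (y * ν * y⁻¹)⁻¹) * (y * ν * y⁻¹) := by group
      _ = x * (x⁻¹ * (y * x * y⁻¹)) * (y * ν * y⁻¹) := by rw [h1]
      _ = _ := by group
  rw [eq_mul_inv_iff_mul_eq] at h2
  exact h2

theorem ncard_lt {N : Subgroup G} [hN : N.Normal] {x : G} (hx : x ∈ N) (hx1 : x ≠ 1) : (C x).index < Nat.card N := by
  rw [← card_K]
  have h1 : conjugatesOf x ⊂ (N : Set G) := by
    refine ⟨?_, ?_⟩
    · intro z hz
      obtain ⟨g, rfl⟩ := mem_K.1 hz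
      exact hN.conj_mem x hx g
    · intro h
      obtain ⟨g, hg⟩ := mem_K.1 (h N.one_mem)
      apply hx1
      rwa [mul_inv_eq_one, mul_eq_left] at hg
  exact Set.ncard_lt_ncard h1 (Set.toFinite _)

theorem T10 (H : Hyp G m n) {y x : G} (hy : (C y).index = m) (hoy : (orderOf y).Coprime m) (hx : (C x).index = n)
    (hpx : Pi m x) : ∃ X : G, (C X).index = n ∧ Pi m X ∧ X ∈ Mx X := by
  have hxm : (C x).index.Coprime m := by rw [hx]; exact H.hcop.symm
  obtain ⟨ν, hν, hνy⟩ := solve H hy hoy hxm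
  haveI := normal_St y
  have hνN := Mx_le H hy hxm hν
  have hνx : Commute ν x := mem_C.1 (N2 hy hxm hνN)
  have hpν := pi_St hy hνN
  have hp1 : Pi m (x * ν) := by
    intro q hq hd
    rcases hq.dvd_mul.1 (hd.trans hνx.symm.orderOf_mul_dvd_mul_orderOf) with h1 | h1
    · exact hpx q hq h1
    · exact hpν q hq h1
  have hle : C y ≤ C (x * ν) := by
    have h1 := C_mul (u := y) (v := x * ν) (mem_C.1 hνy).symm (co_pi hp1 hoy).symm
    have h2 := H.htop (y * (x * ν))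
    rw [h1] at h2
    exact inf_eq_left.1 (eq_of_le_index inf_le_left (by rw [hy]; exact h2))
  have hcop : (C x).index.Coprime (C y).index := by rw [hx, hy]; exact H.hcop.symm
  obtain ⟨hidx, _⟩ := Cfsg.Agent.H1.Factor.index_inf_of_coprime (C x) (C y) hcop
  have hinf : C ν⁻¹ ⊓ C y ≤ C x ⊓ C y := by
    rintro z ⟨h1, h2⟩
    refine ⟨?_, h2⟩
    have h3 : Commute z (x * ν) := mem_C.1 (hle h2)
    have h4 : Commute z ν⁻¹ := mem_C.1 h1
    have h5 := h3.mul_right h4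
    rw [mul_assoc, mul_inv_cancel, mul_one] at h5
    exact mem_C.2 h5
  have hm0 : 0 < m := by rw [← hy]; exact Nat.pos_of_ne_zero index_ne_zero_of_finite
  have hge : n ≤ (C ν⁻¹).index := by
    have h1 := Nat.le_of_dvd (Nat.pos_of_ne_zero index_ne_zero_of_finite) (index_dvd_of_le hinf)
    rw [hidx, hx, hy] at h1
    have h2 : (C ν⁻¹ ⊓ C y).index ≤ (C ν⁻¹).index * (C y).index := index_inf_le
    rw [hy] at h2
    exact Nat.le_of_mul_le_mul_right (h1.trans h2) hm0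
  have hn := H.hn
  have hν1 : ν⁻¹ ≠ 1 := by
    intro h
    rw [h, center_iff.1 (center G).one_mem] at hge
    omega
  have hlt := ncard_lt (N := St (conjugatesOf y)) (inv_mem hνN) hν1
  have hle2 := St_le y
  rw [hy] at hle2
  have hX : (C ν⁻¹).index = n := le_antisymm (H.hsec _ (by omega)) hge
  have hXm : (C ν⁻¹).index.Coprime m := by rw [hX]; exact H.hcop.symm
  refine ⟨ν⁻¹, hX, pi_St hy (inv_mem hνN), ?_⟩
  obtain ⟨ν', hν', hνy'⟩ := solve H hy hoy hXm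
  have h1 := F8 hy hoy (mul_mem (inv_mem hνN) (Mx_le H hy hXm hν')) hνy'
  rw [mul_eq_one_iff_eq_inv] at h1
  rw [h1] at hν' ⊢
  exact inv_mem hν'

theorem orbit_bound (W : Subgroup G) (I : Subgroup G) {v : G} (hv : v ∈ I) (hv1 : v ≠ 1)
    (hW : ∀ w ∈ W, ∀ a ∈ I, w * a * w⁻¹ ∈ I) : (C v).relIndex W < Nat.card I := by
  letI : MulAction W G := MulAction.compHom G (MulAut.conj.comp W.subtype : W →* MulAut G)
  have hs : ∀ (w : W) (g : G), w • g = (w : G) * g * (w : G)⁻¹ := fun w g => rfl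
  have h1 : MulAction.stabilizer W v = (C v).subgroupOf W := by
    ext w
    rw [MulAction.mem_stabilizer_iff, mem_subgroupOf, mem_C, hs, mul_inv_eq_iff_eq_mul]
  have h2 := MulAction.index_stabilizer W v
  rw [h1] at h2
  show ((C v).subgroupOf W).index < _
  rw [h2]
  have h3 : MulAction.orbit W v ⊂ (I : Set G) := by
    refine ⟨?_, ?_⟩
    · rintro _ ⟨w, rfl⟩
      exact hW w w.2 v hv
    · intro h
      obtain ⟨w, hw⟩ := h I.one_mem
      apply hv1
      have hw' : (w : G) * v * (w : G)⁻¹ = 1 := hw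
      rwa [mul_inv_eq_one, mul_eq_left] at hw'
  exact Set.ncard_lt_ncard h3 (Set.toFinite _)

end H7.TL
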