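import Mathlib
import Cfsg.Agent.H7_TL3

set_option autoImplicit false

namespace H7.TL

open Subgroup Cfsg.Agent.S4314

universe u

variable {G : Type u} [Group G] [Finite G] {m n : ℕ}

/-- [M,u] -/
def Iu (M : Subgroup G) [hM : M.Normal] (hab : ∀ a ∈ M, ∀ b ∈ M, a * b = b * a) (u : G) : Subgroup G :=
  (fmap M hab u).range.map M.subtype

theorem mem_Iu {M : Subgroup G} [hM : M.Normal] {hab : ∀ a ∈ M, ∀ b ∈ M, a * b = b * a} {u v : G} :
    v ∈ Iu M hab u ↔ ∃ ν ∈ M, ν * (u * ν * u⁻¹)⁻¹ = v := by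
  constructor
  · rintro ⟨_, ⟨ν, rfl⟩, rfl⟩
    exact ⟨ν, ν.2, rfl⟩
  · rintro ⟨ν, hν, rfl⟩
    exact ⟨_, ⟨⟨ν, hν⟩, rfl⟩, rfl⟩

theorem Iu_le {M : Subgroup G} [hM : M.Normal] {hab : ∀ a ∈ M, ∀ b ∈ M, a * b = b * a} {u : G} : Iu M hab u ≤ M :=
  map_subtype_le _

theorem Iu_card {M : Subgroup G} [hM : M.Normal] {hab : ∀ a ∈ M, ∀ b ∈ M, a * b = b * a} {u : G} :
    Nat.card (M ⊓ C u : Subgroup G) * Nat.card (Iu M hab u) = Nat.card M := by
  have h1 := relcard M (C u)
  have h2 : (C u).relIndex M = Nat.card (Iu M hab u) := by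
    show ((C u).subgroupOf M).index = _
    rw [← fmap_ker M hab u, Subgroup.index_ker]
    exact (Subgroup.card_map_of_injective M.subtype_injective).symm
  rw [← h2]; exact h1

theorem Iu_inf {M : Subgroup G} [hM : M.Normal] {hab : ∀ a ∈ M, ∀ b ∈ M, a * b = b * a} {u : G}
    (hpi : ∀ a ∈ M, Pi m a) (hou : (orderOf u).Coprime m) {w : G} (hw : w ∈ Iu M hab u) (hwu : w ∈ C u) : w = 1 := by
  obtain ⟨ν, hν, h⟩ := mem_Iu.1 hw
  have hwM := Iu_le hw
  have hc : Commute w u := mem_C.1 hwu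
  have h1 : u * ν * u⁻¹ = w⁻¹ * ν := by rw [← h]; group
  have key : ∀ k : ℕ, u ^ k * ν * (u ^ k)⁻¹ = (w⁻¹) ^ k * ν := by
    intro k
    induction k with
    | zero => simp
    | succ k ih =>
      have hck : u * (w⁻¹) ^ k = (w⁻¹) ^ k * u := (hc.symm.inv_right.pow_right k).eq
      calc u ^ (k + 1) * ν * (u ^ (k + 1))⁻¹ = u * (u ^ k * ν * (u ^ k)⁻¹) * u⁻¹ := by rw [pow_succ']; group
        _ = u * ((w⁻¹) ^ k * ν) * u⁻¹ := by rw [ih]
        _ = (u * (w⁻¹) ^ k) * ν * u⁻¹ := by group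
        _ = (w⁻¹) ^ k * (u * ν * u⁻¹) := by rw [hck]; group
        _ = (w⁻¹) ^ k * (w⁻¹ * ν) := by rw [h1]
        _ = (w⁻¹) ^ (k + 1) * ν := by rw [pow_succ]; group
  have h2 := key (orderOf u)
  rw [pow_orderOf_eq_one, one_mul, inv_one, mul_one, eq_comm, mul_eq_right] at h2
  have h3 : w ^ orderOf u = 1 := by rwa [inv_pow, inv_eq_one] at h2
  have h4 := orderOf_dvd_of_pow_eq_one h3
  have h5 := Nat.eq_one_of_dvd_coprimes (co_pi (hpi w hwM) hou) dvd_rfl h4
  exact orderOf_eq_one_iff.1 h5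

theorem T11 (H : Hyp G m n) {y X : G} (hy : (C y).index = m) (hoy : (orderOf y).Coprime m) (hX : (C X).index = n)
    (hXM : X ∈ Mx X) (hab : ∀ a ∈ Mx X, ∀ b ∈ Mx X, a * b = b * a) {u : G} (hu : u ∈ C y) (hou : (orderOf u).Coprime m)
    (huc : u ∉ center G) : X ∈ Iu (Mx X) hab u := by
  have hXm : (C X).index.Coprime m := by rw [hX]; exact H.hcop.symm
  set M := Mx X with hM
  have hMSt : ∀ {z : G}, (C z).index = m → M ≤ St (conjugatesOf z) := fun hz => Mx_le H hz hXm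
  have hpi : ∀ a ∈ M, Pi m a := fun a ha => pi_St hy (hMSt hy ha)
  -- decomposition
  have hinj : ∀ w ∈ Iu M hab u, w ∈ C u → w = 1 := fun w hw hwu => Iu_inf hpi hou hw hwu
  let I := Iu M hab u
  have hIcl : ∀ a : I, (a : G) * (u * a * u⁻¹)⁻¹ ∈ I := fun a => mem_Iu.2 ⟨a, Iu_le a.2, rfl⟩
  have hfI : Function.Injective (fun a : I => (⟨(a : G) * (u * a * u⁻¹)⁻¹, hIcl a⟩ : I)) := by
    intro a b h
    have h1 : (a : G) * (u * a * u⁻¹)⁻¹ = b * (u * b * u⁻¹)⁻¹ := congrArg Subtype.val h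
    have h2 : fmap M hab u ⟨a, Iu_le a.2⟩ = fmap M hab u ⟨b, Iu_le b.2⟩ := Subtype.ext h1
    have h3 : (⟨a, Iu_le a.2⟩ : M)⁻¹ * ⟨b, Iu_le b.2⟩ ∈ (fmap M hab u).ker := by
      rw [MonoidHom.mem_ker, map_mul, map_inv, h2, inv_mul_cancel]
    rw [fmap_ker] at h3
    have h4 : (a : G)⁻¹ * b ∈ C u := h3
    have h5 := hinj _ (I.mul_mem (I.inv_mem a.2) b.2) h4
    exact Subtype.ext (inv_mul_eq_one.1 h5)
  have hsurj := Finite.injective_iff_surjective.1 hfI
  obtain ⟨⟨v2, hv2⟩, hv2'⟩ := hsurj ⟨X * (u * X * u⁻¹)⁻¹, mem_Iu.2 ⟨X, hXM, rfl⟩⟩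
  have hv2M : v2 ∈ M := Iu_le hv2
  have e1 : v2 * (u * v2 * u⁻¹)⁻¹ = X * (u * X * u⁻¹)⁻¹ := congrArg Subtype.val hv2'
  have hv1u : X * v2⁻¹ ∈ C u := by
    have h2 : fmap M hab u ⟨v2, hv2M⟩ = fmap M hab u ⟨X, hXM⟩ := Subtype.ext e1
    have h3 : (⟨X, hXM⟩ : M) * (⟨v2, hv2M⟩)⁻¹ ∈ (fmap M hab u).ker := by
      rw [MonoidHom.mem_ker, map_mul, map_inv, h2, mul_inv_cancel]
    rw [fmap_ker] at h3
    exact h3
  set v1 := X * v2⁻¹ with hv1
  have hv1M : v1 ∈ M := M.mul_mem hXM (M.inv_mem hv2M)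
  have hXv : X = v1 * v2 := by rw [hv1]; group
  by_cases hv11 : v1 = 1
  · have hX2 : v2 = X := by
      rw [hv1, mul_inv_eq_one] at hv11
      exact hv11.symm
    have h0 := hv2
    rwa [hX2] at h0
  exfalso
  have hv21 : v2 ≠ 1 := by
    intro h
    apply huc
    refine F3' H hy hX ?_ hou
    rw [hXv, h, mul_one]
    exact mem_C.2 (mem_C.1 hv1u).symm
  -- the element z
  have hcz : v1 * u = u * v1 := mem_C.1 hv1u
  have hCz := C_mul hcz (co_pi (hpi v1 hv1M) hou)
  set z := v1 * u with hz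
  set W := C y ⊓ C u ⊓ C v1 with hW
  set D := C y ⊓ C X with hD
  have hMy : M ⊓ C y = ⊥ := by
    rw [eq_bot_iff]
    rintro a ⟨h1, h2⟩
    exact F8 hy hoy (hMSt hy h1) h2
  have hK' : Nat.card (C y ⊔ M : Subgroup G) = Nat.card (C y) * Nat.card M := by
    have h0 := Cfsg.Agent.H2.Card.card_sup_mul_card_inf (show C y ≤ normalizer (M : Set G) by
      rw [normalizer_eq_top]; exact le_top)
    rwa [inf_comm, hMy, card_bot, mul_one] at h0
  have hsub : Nat.card ((C y ⊔ M) ⊓ C z : Subgroup G) ≤ Nat.card (M ⊓ C u : Subgroup G) * Nat.card W := by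
    have h1 : (((C y ⊔ M) ⊓ C z : Subgroup G) : Set G) ⊆
        (fun q : G × G => q.1 * q.2) '' (((M ⊓ C u : Subgroup G) : Set G) ×ˢ (W : Set G)) := by
      rintro g ⟨hg1, hg2⟩
      have hg1' : g ∈ M ⊔ C y := by rw [sup_comm]; exact hg1
      rw [mem_sup_of_normal_left] at hg1'
      obtain ⟨μ, hμ, c, hc, rfl⟩ := hg1'
      replace hg2 : μ * c ∈ C z := hg2
      rw [hCz] at hg2
      have hgu := mem_C.1 hg2.2
      have hgv := mem_C.1 hg2.1
      have hcu : c * u * c⁻¹ * u⁻¹ = 1 := by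
        have h2 : c * u * c⁻¹ * u⁻¹ = μ⁻¹ * (u * μ * u⁻¹) := by
          have : μ * c * u * c⁻¹ = u * μ := by rw [hgu]; group
          calc c * u * c⁻¹ * u⁻¹ = μ⁻¹ * (μ * c * u * c⁻¹) * u⁻¹ := by group
            _ = μ⁻¹ * (u * μ) * u⁻¹ := by rw [this]
            _ = _ := by group
        have h3 : c * u * c⁻¹ * u⁻¹ ∈ M ⊓ C y := by
          refine ⟨?_, (C y).mul_mem ((C y).mul_mem ((C y).mul_mem hc hu) ((C y).inv_mem hc)) ((C y).inv_mem hu)⟩
          rw [h2]
          exact M.mul_mem (M.inv_mem hμ) ((Mx_normal X).conj_mem μ hμ u)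
        rw [hMy, mem_bot] at h3
        exact h3
      have hcu' : c * u = u * c := by
        rw [mul_inv_eq_one, mul_inv_eq_iff_eq_mul] at hcu
        exact hcu
      have hμu : μ * u = u * μ := by
        have h4 : μ * u * c = u * μ * c := by
          rw [mul_assoc, ← hcu', ← mul_assoc, hgu, ← mul_assoc]
        exact mul_right_cancel h4
      have hcv : c * v1 = v1 * c := by
        have h5 := hab μ hμ v1 hv1M
        have h4 : μ * (c * v1) = μ * (v1 * c) := by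
          rw [← mul_assoc, hgv, ← mul_assoc, ← mul_assoc, h5]
        exact mul_left_cancel h4
      exact ⟨(μ, c), ⟨⟨hμ, mem_C.2 hμu⟩, ⟨⟨hc, mem_C.2 hcu'⟩, mem_C.2 hcv⟩⟩, rfl⟩
    have h2 := Set.ncard_le_ncard h1 (Set.toFinite _)
    have h3 := (Set.ncard_image_le (f := fun q : G × G => q.1 * q.2)
      (Set.toFinite (((M ⊓ C u : Subgroup G) : Set G) ×ˢ (W : Set G))))
    rw [Set.ncard_prod] at h3
    exact h2.trans h3
  have hWI : (C v2).relIndex W < Nat.card I := by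
    apply orbit_bound W I hv2 hv21
    intro w hw a ha
    obtain ⟨ν, hν, rfl⟩ := mem_Iu.1 ha
    have hwu : w * u = u * w := mem_C.1 hw.1.2
    refine mem_Iu.2 ⟨w * ν * w⁻¹, (Mx_normal X).conj_mem ν hν w, ?_⟩
    have hwu' : u * w = w * u := hwu.symm
    have hwu2 : w⁻¹ * u⁻¹ = u⁻¹ * w⁻¹ := by rw [← mul_inv_rev, ← mul_inv_rev, hwu]
    calc w * ν * w⁻¹ * (u * (w * ν * w⁻¹) * u⁻¹)⁻¹ = w * ν * w⁻¹ * ((u * w) * ν * (w⁻¹ * u⁻¹))⁻¹ := by group
      _ = w * ν * w⁻¹ * ((w * u) * ν * (u⁻¹ * w⁻¹))⁻¹ := by rw [hwu', hwu2]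
      _ = _ := by group
  have hWD : Nat.card W < Nat.card I * Nat.card D := by
    have h1 := relcard W (C v2)
    have h2 : Nat.card (W ⊓ C v2 : Subgroup G) ≤ Nat.card D := by
      apply Nat.le_of_dvd Nat.card_pos
      apply card_dvd_of_le
      rintro a ⟨h3, h4⟩
      refine ⟨h3.1.1, ?_⟩
      have c1 : Commute a v1 := mem_C.1 h3.2
      have c2 : Commute a v2 := mem_C.1 h4
      rw [hXv]
      exact mem_C.2 (c1.mul_right c2)
    rw [← h1, mul_comm]
    calc (C v2).relIndex W * Nat.card (W ⊓ C v2 : Subgroup G) < Nat.card I * Nat.card (W ⊓ C v2 : Subgroup G) :=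
          Nat.mul_lt_mul_of_pos_right hWI Nat.card_pos
      _ ≤ Nat.card I * Nat.card D := Nat.mul_le_mul_left _ h2
  have hnD : Nat.card (C y) = n * Nat.card D := by
    have hcop : (C X).index.Coprime (C y).index := by rw [hX, hy]; exact H.hcop.symm
    obtain ⟨hidx, _⟩ := Cfsg.Agent.H1.Factor.index_inf_of_coprime (C X) (C y) hcop
    have hrel : (C X).relIndex (C y) = n := by
      have h1 := relIndex_mul_index (inf_le_right : C X ⊓ C y ≤ C y)
      rw [inf_relIndex_right, hidx, hX] at h1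
      exact Nat.eq_of_mul_eq_mul_right (Nat.pos_of_ne_zero index_ne_zero_of_finite) h1
    have h2 := relcard (C y) (C X)
    rw [hrel] at h2
    rw [← h2, mul_comm]
  have hlt : n < (C z).index := by
    have h1 := relcard (C y ⊔ M) (C z)
    have h2 := Iu_card (M := M) (hab := hab) (u := u)
    have h3 : (C z).relIndex (C y ⊔ M) ≤ (C z).index := by
      have := Subgroup.relIndex_mul_index (inf_le_left : (C y ⊔ M) ⊓ C z ≤ C y ⊔ M)
      have h4 : ((C y ⊔ M) ⊓ C z).index ≤ (C y ⊔ M).index * (C z).index := index_inf_le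
      rw [← this, inf_relIndex_left, mul_comm] at h4
      exact Nat.le_of_mul_le_mul_left h4 (Nat.pos_of_ne_zero index_ne_zero_of_finite)
    refine lt_of_lt_of_le ?_ h3
    by_contra hcon
    push Not at hcon
    rw [hK', hnD, ← h2] at h1
    -- card K'∩Cz * ρ = (n * D) * (CM * I)
    have hCM : 0 < Nat.card (M ⊓ C u : Subgroup G) := Nat.card_pos
    have hn0 : 0 < n := by have := H.hn; omega
    have h5 : Nat.card ((C y ⊔ M) ⊓ C z : Subgroup G) * (C z).relIndex (C y ⊔ M) ≤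
        (Nat.card (M ⊓ C u : Subgroup G) * Nat.card W) * n := Nat.mul_le_mul hsub hcon
    rw [h1] at h5
    have h6 : (Nat.card (M ⊓ C u : Subgroup G) * Nat.card W) * n <
        n * Nat.card D * (Nat.card (M ⊓ C u : Subgroup G) * Nat.card (Iu M hab u)) := by
      have e : n * Nat.card D * (Nat.card (M ⊓ C u : Subgroup G) * Nat.card (Iu M hab u)) =
        (Nat.card (M ⊓ C u : Subgroup G) * (Nat.card I * Nat.card D)) * n := by
          show _ = (Nat.card (M ⊓ C u : Subgroup G) * (Nat.card (Iu M hab u) * Nat.card D)) * n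
          ring
      rw [e]
      exact Nat.mul_lt_mul_of_pos_right (Nat.mul_lt_mul_of_pos_left hWD hCM) hn0
    exact absurd h5 (not_le.2 h6)
  have hzm : (C z).index = m := by
    by_contra hne
    have := H.hsec z (lt_of_le_of_ne (H.htop z) hne)
    omega
  have h1 := (hMSt hzm (M.inv_mem hv1M) z).1 (mem_K.2 ⟨1, by group⟩)
  rw [hz, inv_mul_cancel_left] at h1
  obtain ⟨g, hg⟩ := mem_K.1 h1
  have h2 : orderOf (v1 * u) = orderOf v1 * orderOf u :=
    Commute.orderOf_mul_eq_mul_orderOf_of_coprime hcz (co_pi (hpi v1 hv1M) hou)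
  have h3 : orderOf (g * (v1 * u) * g⁻¹) = orderOf (v1 * u) := by
    rw [← MulAut.conj_apply]
    exact orderOf_injective (MulAut.conj g).toMonoidHom (MulAut.conj g).injective _
  rw [hg, h2] at h3
  apply hv11
  exact orderOf_eq_one_iff.1 (Nat.eq_of_mul_eq_mul_right (orderOf_pos u) (by rw [one_mul]; exact h3.symm))

theorem T12 (H : Hyp G m n) {y X : G} (hy : (C y).index = m) (hoy : (orderOf y).Coprime m) (hX : (C X).index = n)
    (hXM : X ∈ Mx X) {u : G} (hu : u ∈ C y) (hou : (orderOf u).Coprime m) (huc : u ∉ center G) : (C u).index = m := by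
  have hXm : (C X).index.Coprime m := by rw [hX]; exact H.hcop.symm
  have hab : ∀ a ∈ Mx X, ∀ b ∈ Mx X, a * b = b * a := fun a ha b hb => Mx_comm H hy hXm ha hb
  have hpi : ∀ a ∈ Mx X, Pi m a := fun a ha => pi_St hy (Mx_le H hy hXm ha)
  have hcop : (C y).index.Coprime (C X).index := by rw [hX, hy]; exact H.hcop
  obtain ⟨_, hfac⟩ := Cfsg.Agent.H1.Factor.index_inf_of_coprime (C y) (C X) hcop
  have hconj : ∀ g : G, g * X * g⁻¹ ∈ Iu (Mx X) hab u := by
    intro g
    obtain ⟨c, hc, d, hd, rfl⟩ := hfac g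
    have e1 : c * d * X * (c * d)⁻¹ = c * X * c⁻¹ := by
      have := mem_C.1 hd
      calc c * d * X * (c * d)⁻¹ = c * (d * X) * d⁻¹ * c⁻¹ := by group
        _ = c * (X * d) * d⁻¹ * c⁻¹ := by rw [this]
        _ = _ := by group
    rw [e1]
    have h1 := T11 H hy hoy hX hXM hab (u := c⁻¹ * u * c)
      ((C y).mul_mem ((C y).mul_mem ((C y).inv_mem hc) hu) hc)
      (by
        have : orderOf (c⁻¹ * u * c) = orderOf u := by
          have e : c⁻¹ * u * c = MulAut.conj c⁻¹ u := by rw [MulAut.conj_apply, inv_inv]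
          rw [e]
          exact orderOf_injective (MulAut.conj c⁻¹).toMonoidHom (MulAut.conj c⁻¹).injective _
        rw [this]; exact hou)
      (by
        intro h
        apply huc
        have e : u = c * (c⁻¹ * u * c) * c⁻¹ := by group
        rw [e]
        exact (inferInstance : (center G).Normal).conj_mem _ h c)
    obtain ⟨ν, hν, hνX⟩ := mem_Iu.1 h1
    refine mem_Iu.2 ⟨c * ν * c⁻¹, (Mx_normal X).conj_mem ν hν c, ?_⟩
    rw [← hνX]; group
  have hMI : Mx X ≤ Iu (Mx X) hab u := by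
    have : ∀ w ∈ Mx X, w ∈ Iu (Mx X) hab u := by
      intro w hw
      unfold Mx at hw
      induction hw using closure_induction with
      | mem w hw =>
        obtain ⟨g, rfl⟩ := hw
        have h1 := hconj 1
        rw [one_mul, inv_one, mul_one] at h1
        exact mul_mem (inv_mem h1) (hconj g)
      | one => exact one_mem _
      | mul a b _ _ ha hb => exact mul_mem ha hb
      | inv a _ ha => exact inv_mem ha
    exact this
  have hinf : Mx X ⊓ C u = ⊥ := by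
    rw [eq_bot_iff]
    rintro a ⟨h1, h2⟩
    exact Iu_inf hpi hou (hMI h1) h2
  have h1 := relcard (Mx X) (C u)
  rw [hinf, card_bot, one_mul] at h1
  have h2 := Nat.le_of_dvd (Nat.pos_of_ne_zero index_ne_zero_of_finite) (relidx (Mx X) (C u))
  have hX1 : X ≠ 1 := by
    intro h
    rw [h, center_iff.1 (center G).one_mem] at hX
    have := H.hn
    omega
  have h3 := ncard_lt hXM hX1
  by_contra hne
  have := H.hsec u (lt_of_le_of_ne (H.htop u) hne)
  omega

end H7.TL
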