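import Mathlib
import Cfsg.Agent.H7_TL4

set_option autoImplicit false

namespace H7.TL

open Subgroup Cfsg.Agent.S4314

universe u

variable {G : Type u} [Group G] [Finite G] {m n : ℕ}

theorem co_of_pow {q k : ℕ} (hq : q.Prime) (hqm : ¬ q ∣ m) {u : G} (h : orderOf u = q ^ k) : (orderOf u).Coprime m := by
  rw [h]
  exact Nat.Coprime.pow_left k ((Nat.Prime.coprime_iff_not_dvd hq).2 hqm)

theorem T12' (H : Hyp G m n) {y X : G} (hy : (C y).index = m) (hoy : (orderOf y).Coprime m) (hX : (C X).index = n)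
    (hXM : X ∈ Mx X) {q k : ℕ} (hq : q.Prime) (hqm : ¬ q ∣ m) {u : G} (hu : orderOf u = q ^ k) (huc : u ∉ center G) :
    (C u).index = m := by
  haveI : Fact q.Prime := ⟨hq⟩
  let T : Sylow q (C y) := default
  let P : Subgroup G := (T : Subgroup (C y)).map (C y).subtype
  have hPy : P ≤ C y := map_subtype_le _
  have hPp : IsPGroup q P := T.isPGroup'.map _
  have hPi : ¬ q ∣ P.index := by
    rw [← relIndex_mul_index hPy, hy]
    intro h
    rcases hq.dvd_mul.1 h with h3 | h3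
    · have h4 : P.relIndex (C y) = (T : Subgroup (C y)).index := by
        show (P.subgroupOf (C y)).index = _
        congr 1
        exact Subgroup.comap_map_eq_self_of_injective (C y).subtype_injective _
      rw [h4] at h3
      exact T.not_dvd_index h3
    · exact hqm h3
  obtain ⟨P', hP'⟩ := hPp.exists_le_sylow
  have hPP : P = P' := by
    apply le_antisymm hP'
    rw [← relIndex_eq_one]
    have h1 : P.relIndex P' ∣ Nat.card P' := Dvd.intro_left _ (relcard (P' : Subgroup G) P)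
    obtain ⟨j, hj⟩ := IsPGroup.iff_card.1 P'.isPGroup'
    rw [hj] at h1
    obtain ⟨i, _, hi⟩ := (Nat.dvd_prime_pow hq).1 h1
    rw [hi]
    rcases Nat.eq_zero_or_pos i with h0 | h0
    · rw [h0, pow_zero]
    · exfalso
      apply hPi
      rw [← relIndex_mul_index hP', hi]
      exact Dvd.dvd.mul_right (dvd_pow_self q h0.ne') _
  have hz : IsPGroup q (zpowers u) := by
    rw [IsPGroup.iff_card]
    exact ⟨k, by rw [Nat.card_zpowers, hu]⟩
  obtain ⟨Q, hQ⟩ := hz.exists_le_sylow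
  obtain ⟨g, hg⟩ := MulAction.exists_smul_eq G Q P'
  have h1 : g * u * g⁻¹ ∈ P := by
    rw [hPP, ← hg]
    exact ⟨u, hQ (mem_zpowers u), rfl⟩
  have h2 := T12 H hy hoy hX hXM (u := g * u * g⁻¹) (hPy h1)
    (by
      have : orderOf (g * u * g⁻¹) = orderOf u := by
        rw [← MulAut.conj_apply]
        exact orderOf_injective (MulAut.conj g).toMonoidHom (MulAut.conj g).injective _
      rw [this]; exact co_of_pow hq hqm hu)
    (by
      intro h
      apply huc
      have e : u = g⁻¹ * (g * u * g⁻¹) * g⁻¹⁻¹ := by group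
      rw [e]
      exact (inferInstance : (center G).Normal).conj_mem _ h g⁻¹)
  rwa [index_conj] at h2

theorem T13 (H : Hyp G m n) {X b : G} (hX : (C X).index = n) (hb : b ∈ C X) (hpb : Pi m b) : (C b).index ≤ n := by
  by_contra hcon
  have h1 : (C b).index = m := by
    by_contra hne
    exact hcon (H.hsec b (lt_of_le_of_ne (H.htop b) hne))
  exact F6b H hpb h1 hX (mem_C.2 (mem_C.1 hb).symm)

theorem T14 (H : Hyp G m n) {y X b : G} (hy : (C y).index = m) (hoy : (orderOf y).Coprime m) (hX : (C X).index = n)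
    (hpX : Pi m X) (hXM : X ∈ Mx X) (hb : b ∈ C X) (hpb : Pi m b) (hbc : b ∉ center G) : (C b).index = n := by
  have hbX : Commute b X := mem_C.1 hb
  by_cases hcase : ∃ q : ℕ, q.Prime ∧ ¬ q ∣ m ∧ ∃ v ∈ C b, (∃ k, orderOf v = q ^ k) ∧ v ∉ center G
  · exfalso
    obtain ⟨q, hq, hqm, v, hv, ⟨k, hk⟩, hvc⟩ := hcase
    have hvm := T12' H hy hoy hX hXM hq hqm hk hvc
    have h1 := C_mul (u := v) (v := b) (mem_C.1 hv) (co_pi hpb (co_of_pow hq hqm hk)).symm
    have h2 := H.htop (v * b)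
    rw [h1] at h2
    have h3 : C v ≤ C b := inf_eq_left.1 (eq_of_le_index inf_le_left (by rw [hvm]; exact h2))
    have h4 := index_dvd_of_le h3
    rw [hvm] at h4
    apply hbc
    refine F6a H hpb h4 hX (T13 H hX ?_ ?_)
    · exact mem_C.2 (hbX.mul_left (Commute.refl X))
    · intro r hr hd
      rcases hr.dvd_mul.1 (hd.trans hbX.orderOf_mul_dvd_mul_orderOf) with h5 | h5
      · exact hpb r hr h5
      · exact hpX r hr h5
  · push Not at hcase
    have hle := T13 H hX hb hpb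
    have hdvd : n ∣ (C b).index := by
      have h1 : n ∣ (C X ⊓ C b).index := by rw [← hX]; exact index_dvd_of_le inf_le_left
      rw [← relIndex_mul_index (inf_le_right : C X ⊓ C b ≤ C b)] at h1
      refine Nat.Coprime.dvd_of_dvd_mul_left ?_ h1
      apply Nat.coprime_of_dvd
      intro q hq hqn hqr
      haveI : Fact q.Prime := ⟨hq⟩
      have hqm : ¬ q ∣ m := fun h => (Nat.Prime.not_coprime_iff_dvd.2 ⟨q, hq, h, hqn⟩) H.hcop
      let T : Sylow q (C b) := default
      have hT : (T : Subgroup (C b)) ≤ (C X ⊓ C b).subgroupOf (C b) := by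
        intro v hv
        rw [mem_subgroupOf]
        refine ⟨?_, v.2⟩
        have hvq : ∃ k, orderOf (v : G) = q ^ k := by
          obtain ⟨k, hk⟩ := IsPGroup.iff_orderOf.1 T.isPGroup' ⟨v, hv⟩
          refine ⟨k, ?_⟩
          rw [← hk, Subgroup.orderOf_coe, ← Subgroup.orderOf_coe (⟨v, hv⟩ : T)]
        obtain ⟨k, hk⟩ := hvq
        have h2 := hcase q hq hqm v v.2 ⟨k, hk⟩
        exact mem_C.2 ((mem_center_iff.1 h2 X).symm)
      have h3 := index_dvd_of_le hT
      exact T.not_dvd_index (hqr.trans h3)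
    exact le_antisymm hle (Nat.le_of_dvd (Nat.pos_of_ne_zero index_ne_zero_of_finite) hdvd)

theorem T15 (H : Hyp G m n) {y X g : G} (hy : (C y).index = m) (hoy : (orderOf y).Coprime m) (hX : (C X).index = n)
    (hpX : Pi m X) (hXM : X ∈ Mx X) (hg : g ∈ C X) : g ∈ center G ∨ (C g).index = n := by
  obtain ⟨a, b, hab, ha, hb, hpa, hcb⟩ := split m g
  have hgX : Commute g X := mem_C.1 hg
  have haX : a ∈ C X := by
    obtain ⟨k, rfl⟩ := ha
    exact mem_C.2 (hgX.zpow_left k)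
  have hbX : b ∈ C X := by
    obtain ⟨k, rfl⟩ := hb
    exact mem_C.2 (hgX.zpow_left k)
  have hbc := F3' H hy hX hbX hcb
  by_cases hac : a ∈ center G
  · left; rw [hab]; exact mul_mem hac hbc
  · right
    have h1 := T14 H hy hoy hX hpX hXM haX hpa hac
    rw [← h1]
    congr 1
    apply le_antisymm (C_zpow ha)
    intro z hz
    rw [mem_C] at hz ⊢
    have h3 := mem_center_iff.1 hbc z
    rw [hab, ← mul_assoc, hz, mul_assoc, h3, mul_assoc]

/-- package -/
structure Data (G : Type u) [Group G] [Finite G] (m n : ℕ) (X y : G) : Prop where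
  H : Hyp G m n
  hy : (C y).index = m
  hoy : (orderOf y).Coprime m
  hX : (C X).index = n
  hpX : Pi m X
  hXM : X ∈ Mx X

variable {X y : G}

theorem Data.cop (D : Data G m n X y) {g : G} (hg : g ∈ C X) : (C g).index.Coprime m := by
  rcases T15 D.H D.hy D.hoy D.hX D.hpX D.hXM hg with h | h
  · rw [center_iff.1 h]; exact Nat.coprime_one_left m
  · rw [h]; exact D.H.hcop.symm

theorem Data.comm (D : Data G m n X y) {g h : G} (hg : g ∈ C X) (hh : h ∈ C X) : h ∈ C g :=
  N4 D.H D.hy (D.cop hg) (D.cop hh)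

theorem Data.normal (D : Data G m n X y) : (C X).Normal := by
  constructor
  intro k hk g
  exact N4 D.H D.hy (by rw [D.hX]; exact D.H.hcop.symm) (by rw [index_conj]; exact D.cop hk)

theorem Data.C_eq (D : Data G m n X y) {k : G} (hk : k ∈ C X) (hkc : k ∉ center G) : C k = C X := by
  have h1 : (C k).index = n := (T15 D.H D.hy D.hoy D.hX D.hpX D.hXM hk).resolve_left hkc
  symm
  apply eq_of_le_index (fun h hh => D.comm hk hh)
  rw [h1, D.hX]

theorem Data.inf_y (D : Data G m n X y) {k : G} (hk : k ∈ C X) (hky : k ∈ C y) : k ∈ center G := by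
  by_contra hkc
  have h1 := D.C_eq hk hkc
  have h2 : y ∈ C k := mem_C.2 (mem_C.1 hky).symm
  rw [h1] at h2
  have h3 := F3' D.H D.hy D.hX h2 D.hoy
  have h4 := center_iff.1 h3
  rw [D.hy] at h4
  have := D.H.hmn
  have := D.H.hn
  omega

theorem Data.inf_u (D : Data G m n X y) {u k : G} (hu : u ∈ C y) (huc : u ∉ center G) (hk : k ∈ C X) (hku : k ∈ C u) :
    k ∈ center G := by
  by_contra hkc
  have h1 := D.C_eq hk hkc
  have h2 : u ∈ C k := mem_C.2 (mem_C.1 hku).symm
  rw [h1] at h2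
  exact huc (D.inf_y h2 hu)

/-- key commutator argument -/
theorem Data.zeta (D : Data G m n X y) {k ζ : G} (hk : k ∈ C X) (h : y * k * y⁻¹ = k * ζ) (hζ : ζ ∈ center G) : k ∈ C y := by
  have h1 := N1 D.H D.hy (D.cop hk) y
  rw [h, inv_mul_cancel_left] at h1
  have h2 : ζ = 1 := F8 D.hy D.hoy h1 (mem_C.2 (mem_center_iff.1 hζ y).symm)
  rw [h2, mul_one, mul_inv_eq_iff_eq_mul] at h
  exact mem_C.2 h.symm

theorem Data.u_facts (D : Data G m n X y) {u : G} (hu : u ∈ C y) (huc : u ∉ center G) : (C u).index = m ∧ C y ≤ C u := by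
  have hcop : (C X).index.Coprime (C y).index := by rw [D.hX, D.hy]; exact D.H.hcop.symm
  obtain ⟨hidx, _⟩ := Cfsg.Agent.H1.Factor.index_inf_of_coprime (C X) (C y) hcop
  have hZ1 : C X ⊓ C y = center G := by
    apply le_antisymm (fun k hk => D.inf_y hk.1 hk.2)
    intro z hz
    exact ⟨mem_C.2 (mem_center_iff.1 hz X).symm, mem_C.2 (mem_center_iff.1 hz y).symm⟩
  have hZ2 : C X ⊓ C u = center G := by
    apply le_antisymm (fun k hk => D.inf_u hu huc hk.1 hk.2)
    intro z hz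
    exact ⟨mem_C.2 (mem_center_iff.1 hz X).symm, mem_C.2 (mem_center_iff.1 hz u).symm⟩
  have hm : (C u).index = m := by
    apply le_antisymm (D.H.htop u)
    have h1 : (C X ⊓ C u).index ≤ (C X).index * (C u).index := index_inf_le
    rw [hZ2, ← hZ1, hidx, D.hX, D.hy] at h1
    have := D.H.hn
    exact Nat.le_of_mul_le_mul_left h1 (by omega)
  refine ⟨hm, ?_⟩
  obtain ⟨_, hfac⟩ := Cfsg.Agent.H1.Factor.index_inf_of_coprime (C X) (C u) (by rw [D.hX, hm]; exact D.H.hcop.symm)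
  intro c hc
  obtain ⟨k, hk, d, hd, rfl⟩ := hfac c
  have hyu : y ∈ C u := mem_C.2 (mem_C.1 hu).symm
  have hcy : k * d * y = y * (k * d) := mem_C.1 hc
  have e1 : d * y * d⁻¹ = k⁻¹ * y * k := by
    calc d * y * d⁻¹ = k⁻¹ * (k * d * y) * d⁻¹ := by group
      _ = k⁻¹ * (y * (k * d)) * d⁻¹ := by rw [hcy]
      _ = _ := by group
  have e2 : k⁻¹ * (y * k * y⁻¹) = d * y * d⁻¹ * y⁻¹ := by rw [e1]; group
  have hζ1 : k⁻¹ * (y * k * y⁻¹) ∈ C u := by
    rw [e2]
    exact (C u).mul_mem ((C u).mul_mem ((C u).mul_mem hd hyu) ((C u).inv_mem hd)) ((C u).inv_mem hyu)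
  have hζ2 : k⁻¹ * (y * k * y⁻¹) ∈ C X := (C X).mul_mem ((C X).inv_mem hk) (D.normal.conj_mem k hk y)
  have hζ := D.inf_u hu huc hζ2 hζ1
  have hky := D.zeta hk (ζ := k⁻¹ * (y * k * y⁻¹)) (by group) hζ
  have hkc := D.inf_y hk hky
  exact (C u).mul_mem (mem_C.2 (mem_center_iff.1 hkc u).symm) hd

theorem Data.comm_y (D : Data G m n X y) {u v : G} (hu : u ∈ C y) (hv : v ∈ C y) : v ∈ C u := by
  by_cases huc : u ∈ center G
  · exact mem_C.2 (mem_center_iff.1 huc v)
  · exact (D.u_facts hu huc).2 hv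

theorem Data.C_eq_y (D : Data G m n X y) {u : G} (hu : u ∈ C y) (huc : u ∉ center G) : C u = C y :=
  (eq_of_le_index (D.u_facts hu huc).2 (by rw [D.hy, (D.u_facts hu huc).1])).symm

/-- self-normalizing -/
theorem Data.malnormal (D : Data G m n X y) {g c : G} (hc : c ∈ C y) (hcc : c ∉ center G) (hgc : g * c * g⁻¹ ∈ C y) : g ∈ C y := by
  have hcc' : g * c * g⁻¹ ∉ center G := by
    intro h
    apply hcc
    have e : c = g⁻¹ * (g * c * g⁻¹) * g⁻¹⁻¹ := by group
    rw [e]
    exact (inferInstance : (center G).Normal).conj_mem _ h g⁻¹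
  have h1 := D.C_eq_y hc hcc
  have h2 := D.C_eq_y hgc hcc'
  have h3 : g * y * g⁻¹ ∈ C y := by
    rw [← h2, mem_C]
    have h4 : y * c = c * y := by
      have : y ∈ C c := by rw [h1]; exact mem_C.2 rfl
      exact mem_C.1 this
    calc g * y * g⁻¹ * (g * c * g⁻¹) = g * (y * c) * g⁻¹ := by group
      _ = g * (c * y) * g⁻¹ := by rw [h4]
      _ = _ := by group
  have hcop : (C X).index.Coprime (C y).index := by rw [D.hX, D.hy]; exact D.H.hcop.symm
  obtain ⟨_, hfac⟩ := Cfsg.Agent.H1.Factor.index_inf_of_coprime (C X) (C y) hcop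
  obtain ⟨k, hk, d, hd, rfl⟩ := hfac g
  have hdy := mem_C.1 hd
  have e1 : k * d * y * (k * d)⁻¹ = k * y * k⁻¹ := by
    calc k * d * y * (k * d)⁻¹ = k * (d * y) * d⁻¹ * k⁻¹ := by group
      _ = k * (y * d) * d⁻¹ * k⁻¹ := by rw [hdy]
      _ = _ := by group
  rw [e1] at h3
  have hyy : y ∈ C y := mem_C.2 rfl
  have hζ1 : k * y * k⁻¹ * y⁻¹ ∈ C y := (C y).mul_mem h3 ((C y).inv_mem hyy)
  have hζ2 : k * y * k⁻¹ * y⁻¹ ∈ C X := by
    have e : k * y * k⁻¹ * y⁻¹ = k * (y * k⁻¹ * y⁻¹) := by group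
    rw [e]
    exact (C X).mul_mem hk (D.normal.conj_mem _ ((C X).inv_mem hk) y)
  have hζ := D.inf_y hζ2 hζ1
  have h5 := D.zeta (k := k⁻¹) (ζ := k * y * k⁻¹ * y⁻¹) ((C X).inv_mem hk) (by group) hζ
  have h6 : k ∈ C y := by
    have := (C y).inv_mem h5
    rwa [inv_inv] at this
  exact (C y).mul_mem h6 hd

theorem exists_data (H : Hyp G m n) {x Y : G} (hx : (C x).index = n) (hY : (C Y).index = m) :
    ∃ X y : G, Data G m n X y ∧ C X = C x ∧ C y = C Y := by
  obtain ⟨y, hoy, hCy⟩ := F6 H hY hx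
  have hy : (C y).index = m := by rw [hCy]; exact hY
  obtain ⟨x', hpx', hCx'⟩ := F4 H hy hx
  obtain ⟨X, hX, hpX, hXM⟩ := T10 H hy hoy (by rw [hCx']; exact hx) hpx'
  have D : Data G m n X y := ⟨H, hy, hoy, hX, hpX, hXM⟩
  refine ⟨X, y, D, ?_, hCy⟩
  have h1 : x ∈ C X := N4 H hy (by rw [hX]; exact H.hcop.symm) (by rw [hx]; exact H.hcop.symm)
  symm
  apply D.C_eq h1
  intro h
  rw [center_iff.1 h] at hx
  have := H.hn
  omega

end H7.TL
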