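import Mathlib
import Cfsg.Agent.H7_TL5
import Cfsg.Agent.H23_FrobKer

set_option autoImplicit false

namespace H7.TL

open Subgroup Cfsg.Agent.S4314

universe u

variable {G : Type u} [Group G] [Finite G] {m n : ℕ}

theorem mem_map_iff' {z g : G} : QuotientGroup.mk' (center G) g ∈ (C z).map (QuotientGroup.mk' (center G)) ↔ g ∈ C z := by
  constructor
  · rintro ⟨h, hh, he⟩
    have h1 : h⁻¹ * g ∈ center G := QuotientGroup.eq.1 he
    have e : g = h * (h⁻¹ * g) := by group
    rw [e]
    exact (C z).mul_mem hh (mem_C.2 (mem_center_iff.1 h1 z).symm)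
  · intro h
    exact ⟨g, h, rfl⟩

theorem main (hmn : n < m) (hn : 1 < n)
    (hcop : m.Coprime n) (htop : ∀ z : G, (C z).index ≤ m) (hsecond : ∀ z : G, (C z).index < m → (C z).index ≤ n)
    (x y : G) (hx : (C x).index = n) (hy : (C y).index = m) :
    IsMulCommutative (C x) ∧ IsMulCommutative (C y) ∧
    Cfsg.IsFrobeniusComplement ((C y).map (QuotientGroup.mk' (center G))) ∧
    Cfsg.frobeniusKernel ((C y).map (QuotientGroup.mk' (center G))) =
      ((C x).map (QuotientGroup.mk' (center G)) : Set (G ⧸ center G)) := by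
  have H : Hyp G m n := ⟨hmn, hn, hcop, htop, hsecond⟩
  obtain ⟨X, y', D, hCX, hCy⟩ := exists_data H hx hy
  have hcopX : (C X).index.Coprime (C y').index := by rw [D.hX, D.hy]; exact D.H.hcop.symm
  obtain ⟨_, hfac⟩ := Cfsg.Agent.H1.Factor.index_inf_of_coprime (C X) (C y') hcopX
  rw [← hCX, ← hCy]
  have hyn : y' ∉ center G := by
    intro h
    have := center_iff.1 h
    rw [D.hy] at this
    omega
  have hXn : X ∉ center G := by
    intro h
    have := center_iff.1 h
    rw [D.hX] at this
    omega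
  have hyy : y' ∈ C y' := mem_C.2 rfl
  have hXX : X ∈ C X := mem_C.2 rfl
  have hF : Cfsg.IsFrobeniusComplement ((C y').map (QuotientGroup.mk' (center G))) := by
    refine ⟨?_, ?_, ?_⟩
    · intro h
      have h1 : QuotientGroup.mk' (center G) y' ∈ (C y').map (QuotientGroup.mk' (center G)) := mem_map_iff'.2 hyy
      rw [h, mem_bot] at h1
      exact hyn ((QuotientGroup.eq_one_iff y').1 h1)
    · intro h
      have h1 : QuotientGroup.mk' (center G) X ∈ (C y').map (QuotientGroup.mk' (center G)) := by rw [h]; exact mem_top _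
      exact hXn (D.inf_y hXX (mem_map_iff'.1 h1))
    · intro g hg
      rw [eq_bot_iff]
      rintro a ⟨ha1, ha2⟩
      obtain ⟨b, hb, hba⟩ := Subgroup.mem_smul_pointwise_iff_exists a _ _ |>.1 ha2
      obtain ⟨γ, rfl⟩ := QuotientGroup.mk'_surjective (center G) g
      obtain ⟨c, hc, rfl⟩ := hb
      rw [mem_bot]
      by_cases hcc : c ∈ center G
      · have h1 : QuotientGroup.mk' (center G) c = 1 := (QuotientGroup.eq_one_iff c).2 hcc
        rw [← hba, h1]
        simp
      · exfalso
        have h1 : QuotientGroup.mk' (center G) (γ * c * γ⁻¹) = a := by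
          rw [← hba]
          simp [MulAut.smul_def]
        have h2 : a ∈ (C y').map (QuotientGroup.mk' (center G)) := ha1
        rw [← h1, mem_map_iff'] at h2
        exact hg (mem_map_iff'.2 (D.malnormal hc hcc h2))
  haveI hKn : ((C X).map (QuotientGroup.mk' (center G))).Normal :=
    D.normal.map _ (QuotientGroup.mk'_surjective _)
  have hcompl : IsComplement' ((C X).map (QuotientGroup.mk' (center G))) ((C y').map (QuotientGroup.mk' (center G))) := by
    apply isComplement'_of_disjoint_and_mul_eq_univ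
    · rw [disjoint_iff, eq_bot_iff]
      rintro a ⟨⟨k, hk, rfl⟩, h2⟩
      rw [mem_bot]
      have h3 : k ∈ C y' := mem_map_iff'.1 h2
      exact (QuotientGroup.eq_one_iff k).2 (D.inf_y hk h3)
    · rw [Set.eq_univ_iff_forall]
      intro a
      obtain ⟨g, rfl⟩ := QuotientGroup.mk'_surjective (center G) a
      obtain ⟨k, hk, c, hc, rfl⟩ := hfac g
      rw [map_mul]
      exact Set.mul_mem_mul ⟨k, hk, rfl⟩ ⟨c, hc, rfl⟩
  refine ⟨⟨⟨fun a b => ?_⟩⟩, ⟨⟨fun a b => ?_⟩⟩, hF, Cfsg.Agent.H23.FrobKer.kernel_eq _ _ hcompl hF⟩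
  · exact Subtype.ext (mem_C.1 (D.comm b.2 a.2))
  · exact Subtype.ext (mem_C.1 (D.comm_y b.2 a.2))

end H7.TL
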