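import Mathlib
import Cfsg.Prelude
import Cfsg.Agent.H5_Unit
import Cfsg.Agent.H5_SL
import Cfsg.Agent.H7_GF9
import Cfsg.Agent.H7_GenIso

/-! `PSL(3, 2)` in `SU(3, 3)` as the stabiliser of seven frames. -/

namespace H7.U33

open Matrix GF9
open scoped MatrixGroups
open Cfsg.Agent

abbrev T := GF9 × GF9 × GF9

/-- Triples as vectors. -/
def toV (t : T) : Fin 3 → GF9 := ![t.1, t.2.1, t.2.2]

def ofV (v : Fin 3 → GF9) : T := (v 0, v 1, v 2)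

theorem toV_ofV (v : Fin 3 → GF9) : toV (ofV v) = v := by
  funext i; fin_cases i <;> rfl

theorem ofV_toV (t : T) : ofV (toV t) = t := rfl

/-- rows times vector -/
def mulT (A : T × T × T) (t : T) : T :=
  (A.1.1 * t.1 + A.1.2.1 * t.2.1 + A.1.2.2 * t.2.2,
   A.2.1.1 * t.1 + A.2.1.2.1 * t.2.1 + A.2.1.2.2 * t.2.2,
   A.2.2.1 * t.1 + A.2.2.2.1 * t.2.1 + A.2.2.2.2 * t.2.2)

/-- rows to matrix -/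
def toM (A : T × T × T) : Matrix (Fin 3) (Fin 3) GF9 := ![toV A.1, toV A.2.1, toV A.2.2]

theorem toM_mulVec (A : T × T × T) (t : T) : toM A *ᵥ toV t = toV (mulT A t) := by
  funext i
  fin_cases i <;>
    simp [Matrix.mulVec, dotProduct, Fin.sum_univ_three, toM, toV, mulT]

/-- The seven frames. -/
def fr : Fin 7 → Finset T
  | 0 => {(⟨0,0⟩, ⟨0,0⟩, ⟨1,0⟩), (⟨0,0⟩, ⟨0,0⟩, ⟨2,0⟩), (⟨0,0⟩, ⟨1,0⟩, ⟨0,0⟩), (⟨0,0⟩, ⟨2,0⟩, ⟨0,0⟩), (⟨1,0⟩, ⟨0,0⟩, ⟨0,0⟩), (⟨2,0⟩, ⟨0,0⟩, ⟨0,0⟩)}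
  | 1 => {(⟨0,0⟩, ⟨1,2⟩, ⟨1,2⟩), (⟨0,0⟩, ⟨2,1⟩, ⟨2,1⟩), (⟨1,1⟩, ⟨1,0⟩, ⟨2,0⟩), (⟨1,1⟩, ⟨2,0⟩, ⟨1,0⟩), (⟨2,2⟩, ⟨1,0⟩, ⟨2,0⟩), (⟨2,2⟩, ⟨2,0⟩, ⟨1,0⟩)}
  | 2 => {(⟨0,0⟩, ⟨1,2⟩, ⟨2,1⟩), (⟨0,0⟩, ⟨2,1⟩, ⟨1,2⟩), (⟨1,1⟩, ⟨1,0⟩, ⟨1,0⟩), (⟨1,1⟩, ⟨2,0⟩, ⟨2,0⟩), (⟨2,2⟩, ⟨1,0⟩, ⟨1,0⟩), (⟨2,2⟩, ⟨2,0⟩, ⟨2,0⟩)}
  | 3 => {(⟨1,0⟩, ⟨1,0⟩, ⟨1,1⟩), (⟨1,0⟩, ⟨1,0⟩, ⟨2,2⟩), (⟨1,2⟩, ⟨2,1⟩, ⟨0,0⟩), (⟨2,0⟩, ⟨2,0⟩, ⟨1,1⟩), (⟨2,0⟩, ⟨2,0⟩, ⟨2,2⟩), (⟨2,1⟩, ⟨1,2⟩, ⟨0,0⟩)}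
  | 4 => {(⟨1,0⟩, ⟨2,0⟩, ⟨1,1⟩), (⟨1,0⟩, ⟨2,0⟩, ⟨2,2⟩), (⟨1,2⟩, ⟨1,2⟩, ⟨0,0⟩), (⟨2,0⟩, ⟨1,0⟩, ⟨1,1⟩), (⟨2,0⟩, ⟨1,0⟩, ⟨2,2⟩), (⟨2,1⟩, ⟨2,1⟩, ⟨0,0⟩)}
  | 5 => {(⟨1,0⟩, ⟨1,1⟩, ⟨2,0⟩), (⟨1,0⟩, ⟨2,2⟩, ⟨2,0⟩), (⟨1,2⟩, ⟨0,0⟩, ⟨1,2⟩), (⟨2,0⟩, ⟨1,1⟩, ⟨1,0⟩), (⟨2,0⟩, ⟨2,2⟩, ⟨1,0⟩), (⟨2,1⟩, ⟨0,0⟩, ⟨2,1⟩)}
  | 6 => {(⟨1,0⟩, ⟨1,1⟩, ⟨1,0⟩), (⟨1,0⟩, ⟨2,2⟩, ⟨1,0⟩), (⟨1,2⟩, ⟨0,0⟩, ⟨2,1⟩), (⟨2,0⟩, ⟨1,1⟩, ⟨2,0⟩), (⟨2,0⟩, ⟨2,2⟩, ⟨2,0⟩), (⟨2,1⟩, ⟨0,0⟩, ⟨1,2⟩)}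

/-- The six matrices (rows). -/
def Ar : Fin 6 → T × T × T
  | 0 => ((⟨2,0⟩, ⟨0,0⟩, ⟨0,0⟩), (⟨0,0⟩, ⟨2,0⟩, ⟨0,0⟩), (⟨0,0⟩, ⟨0,0⟩, ⟨1,0⟩))
  | 1 => ((⟨1,0⟩, ⟨0,0⟩, ⟨0,0⟩), (⟨0,0⟩, ⟨2,0⟩, ⟨0,0⟩), (⟨0,0⟩, ⟨0,0⟩, ⟨2,0⟩))
  | 2 => ((⟨0,0⟩, ⟨2,2⟩, ⟨1,1⟩), (⟨2,1⟩, ⟨1,0⟩, ⟨1,0⟩), (⟨1,2⟩, ⟨1,0⟩, ⟨1,0⟩))
  | 3 => ((⟨2,0⟩, ⟨0,0⟩, ⟨0,0⟩), (⟨0,0⟩, ⟨0,0⟩, ⟨1,0⟩), (⟨0,0⟩, ⟨1,0⟩, ⟨0,0⟩))
  | 4 => ((⟨1,0⟩, ⟨2,0⟩, ⟨1,2⟩), (⟨2,0⟩, ⟨1,0⟩, ⟨1,2⟩), (⟨1,1⟩, ⟨1,1⟩, ⟨0,0⟩))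
  | 5 => ((⟨0,0⟩, ⟨2,0⟩, ⟨0,0⟩), (⟨2,0⟩, ⟨0,0⟩, ⟨0,0⟩), (⟨0,0⟩, ⟨0,0⟩, ⟨2,0⟩))

/-- The permutations. -/
def sg : Fin 6 → Fin 7 → Fin 7
  | 0 => ![0, 2, 1, 3, 4, 6, 5]
  | 1 => ![0, 1, 2, 4, 3, 6, 5]
  | 2 => ![2, 1, 0, 3, 6, 5, 4]
  | 3 => ![0, 1, 2, 5, 6, 3, 4]
  | 4 => ![4, 1, 6, 3, 0, 5, 2]
  | 5 => ![0, 5, 6, 3, 4, 1, 2]

/-- The labels. -/
def lab : Fin 7 → Fin 3 → ZMod 2 := ![![1, 0, 0], ![0, 1, 0], ![1, 1, 0], ![0, 0, 1], ![1, 0, 1], ![0, 1, 1], ![1, 1, 1]]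


theorem det_toM (A : T × T × T) : (toM A).det =
    A.1.1 * A.2.1.2.1 * A.2.2.2.2 - A.1.1 * A.2.1.2.2 * A.2.2.2.1 -
    A.1.2.1 * A.2.1.1 * A.2.2.2.2 + A.1.2.1 * A.2.1.2.2 * A.2.2.1 +
    A.1.2.2 * A.2.1.1 * A.2.2.2.1 - A.1.2.2 * A.2.1.2.1 * A.2.2.1 := by
  rw [Matrix.det_fin_three]
  rfl

/-- the determinant -/
def det' (A : T × T × T) : GF9 :=
    A.1.1 * A.2.1.2.1 * A.2.2.2.2 - A.1.1 * A.2.1.2.2 * A.2.2.2.1 -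
    A.1.2.1 * A.2.1.1 * A.2.2.2.2 + A.1.2.1 * A.2.1.2.2 * A.2.2.1 +
    A.1.2.2 * A.2.1.1 * A.2.2.2.1 - A.1.2.2 * A.2.1.2.1 * A.2.2.1

theorem det_Ar (k : Fin 6) : (toM (Ar k)).det = 1 := by
  rw [det_toM]
  revert k; decide

theorem hGF : Fintype.card GF9 = 3 ^ 2 := rfl

theorem unit_Ar (k : Fin 6) : ((toM (Ar k))ᵀ * (toM (Ar k)).map (fun x => x ^ 3)) = 1 := by
  revert k; decide

/-- The generators. -/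
def gen (k : Fin 6) : Cfsg.SU 3 GF9 3 :=
  ⟨⟨toM (Ar k), det_Ar k⟩, by
    have h := (H5.Unit.mem_GU_iff (q := 3) hGF 3 (SpecialLinearGroup.toGL ⟨toM (Ar k), det_Ar k⟩)).2 (by
      have h1 := unit_Ar k
      have h2 : (toM (Ar k)).map (H5.Fld.frob hGF) = (toM (Ar k)).map (fun x => x ^ 3) := by
        refine Matrix.ext fun i j => ?_
        simp only [Matrix.map_apply, H5.Fld.frob_apply]
      show (toM (Ar k))ᵀ * (toM (Ar k)).map (H5.Fld.frob hGF) = 1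
      rw [h2, h1])
    exact h⟩

/-- The action on triples. -/
@[reducible] def actT : MulAction (Cfsg.SU 3 GF9 3) T where
  smul g t := ofV (H5.Unit.mat g *ᵥ toV t)
  one_smul t := by
    show ofV ((1 : Matrix (Fin 3) (Fin 3) GF9) *ᵥ toV t) = t
    rw [Matrix.one_mulVec]; rfl
  mul_smul g h t := by
    show ofV (H5.Unit.mat (g * h) *ᵥ toV t) = ofV (H5.Unit.mat g *ᵥ toV (ofV (H5.Unit.mat h *ᵥ toV t)))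
    rw [toV_ofV, Matrix.mulVec_mulVec, H5.Unit.mat_mul]

attribute [local instance] actT

open scoped Pointwise

theorem gen_smul (k : Fin 6) (t : T) : gen k • t = mulT (Ar k) t := by
  show ofV (toM (Ar k) *ᵥ toV t) = _
  rw [toM_mulVec]; rfl

theorem fr_check : ∀ k i, (fr i).image (mulT (Ar k)) = fr (sg k i) := by decide

/-- The permutations as elements of `Perm (Fin 7)`. -/
def sp (k : Fin 6) : Equiv.Perm (Fin 7) :=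
  ⟨sg k, sg k, by revert k; decide, by revert k; decide⟩

theorem gen_fr (k : Fin 6) (i : Fin 7) : gen k • fr i = fr (sp k i) := by
  have h : gen k • fr i = (fr i).image (mulT (Ar k)) := by
    rw [← Finset.image_smul]
    apply Finset.image_congr
    intro t _
    exact gen_smul k t
  rw [h, fr_check]; rfl

theorem fr_inj : Function.Injective fr := by
  intro i j
  revert i j
  decide

/-- columns to rows -/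
def tr (A : T × T × T) : T × T × T :=
  ((A.1.1, A.2.1.1, A.2.2.1), (A.1.2.1, A.2.1.2.1, A.2.2.2.1), (A.1.2.2, A.2.1.2.2, A.2.2.2.2))

theorem faithful_check : ∀ a ∈ fr 0, ∀ b ∈ fr 0, ∀ c ∈ fr 0, det' (tr (a, b, c)) = 1 →
    (∀ i, ∀ t ∈ fr i, mulT (tr (a, b, c)) t ∈ fr i) →
    (a, b, c) = ((1, 0, 0), (0, 1, 0), (0, 0, 1)) := by decide +kernel

theorem faithful (g : Cfsg.SU 3 GF9 3) (hg : ∀ i, g • fr i = fr i) : g = 1 := by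
  set M := H5.Unit.mat g with hM
  set a : T := g • ((1, 0, 0) : T) with ha
  set b : T := g • ((0, 1, 0) : T) with hb
  set c : T := g • ((0, 0, 1) : T) with hc
  have hmem : ∀ i, ∀ t ∈ fr i, g • t ∈ fr i := by
    intro i t ht
    rw [← hg i]
    exact Finset.smul_mem_smul_finset ht
  have ha0 : a ∈ fr 0 := hmem 0 _ (by decide)
  have hb0 : b ∈ fr 0 := hmem 0 _ (by decide)
  have hc0 : c ∈ fr 0 := hmem 0 _ (by decide)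
  have eM : M = toM (tr (a, b, c)) := by
    have h1 : a = ofV (fun i => M i 0) ∧ b = ofV (fun i => M i 1) ∧ c = ofV (fun i => M i 2) := by
      refine ⟨?_, ?_, ?_⟩
      · show ofV (M *ᵥ ![1, 0, 0]) = _
        congr 1; funext i; simp [Matrix.mulVec, dotProduct, Fin.sum_univ_three]
      · show ofV (M *ᵥ ![0, 1, 0]) = _
        congr 1; funext i; simp [Matrix.mulVec, dotProduct, Fin.sum_univ_three]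
      · show ofV (M *ᵥ ![0, 0, 1]) = _
        congr 1; funext i; simp [Matrix.mulVec, dotProduct, Fin.sum_univ_three]
    obtain ⟨h2, h3, h4⟩ := h1
    rw [h2, h3, h4]
    refine Matrix.ext fun i j => ?_
    fin_cases i <;> fin_cases j <;> rfl
  have hsm : ∀ t : T, g • t = mulT (tr (a, b, c)) t := by
    intro t
    show ofV (M *ᵥ toV t) = _
    rw [eM, toM_mulVec]; rfl
  have hdet : det' (tr (a, b, c)) = 1 := by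
    have h1 : M.det = 1 := g.1.2
    rw [eM, det_toM] at h1
    exact h1
  have key := faithful_check a ha0 b hb0 c hc0 hdet
    (fun i t ht => by rw [← hsm]; exact hmem i t ht)
  apply Subtype.ext
  apply Subtype.ext
  show M = 1
  rw [eM, key]
  refine Matrix.ext fun i j => ?_
  fin_cases i <;> fin_cases j <;> rfl

/-! ### `SL(3, 2)` -/

abbrev S3 := Matrix.SpecialLinearGroup (Fin 3) (ZMod 2)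

/-- indices of the transvections -/
def ti : Fin 6 → Fin 3 := ![0, 0, 1, 1, 2, 2]
def tj : Fin 6 → Fin 3 := ![1, 2, 0, 2, 0, 1]

theorem tij (k : Fin 6) : ti k ≠ tj k := by revert k; decide

/-- The transvections. -/
def tg (k : Fin 6) : S3 := Matrix.SpecialLinearGroup.transvection (tij k) 1

theorem closure_tg : Subgroup.closure (Set.range tg) = ⊤ := by
  rw [eq_top_iff, ← H5.SL.closure_transvections, Subgroup.closure_le]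
  rintro _ ⟨i, j, hij, a, rfl⟩
  have ha : a = 0 ∨ a = 1 := by revert a; decide
  rcases ha with rfl | rfl
  · have : Matrix.SpecialLinearGroup.transvection hij (0 : ZMod 2) = 1 := by
      apply Subtype.ext
      show Matrix.transvection i j (0 : ZMod 2) = 1
      simp [Matrix.transvection]
    rw [this]; exact one_mem _
  · apply Subgroup.subset_closure
    have hk : ∀ i j : Fin 3, i ≠ j → ∃ k : Fin 6, ti k = i ∧ tj k = j := by decide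
    obtain ⟨k, rfl, rfl⟩ := hk i j hij
    exact ⟨k, rfl⟩

/-- The action on vectors. -/
@[reducible] def actS : MulAction S3 (Fin 3 → ZMod 2) where
  smul g v := (g : Matrix (Fin 3) (Fin 3) (ZMod 2)) *ᵥ v
  one_smul v := by
    show ((1 : Matrix (Fin 3) (Fin 3) (ZMod 2)) *ᵥ v) = v
    rw [Matrix.one_mulVec]
  mul_smul g h v := by
    show ((g * h : S3) : Matrix (Fin 3) (Fin 3) (ZMod 2)) *ᵥ v =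
      (g : Matrix (Fin 3) (Fin 3) (ZMod 2)) *ᵥ ((h : Matrix (Fin 3) (Fin 3) (ZMod 2)) *ᵥ v)
    rw [Matrix.mulVec_mulVec, Matrix.SpecialLinearGroup.coe_mul]

attribute [local instance] actS

theorem tg_lab (k : Fin 6) (i : Fin 7) : tg k • lab i = lab (sp k i) := by
  show (Matrix.transvection (ti k) (tj k) (1 : ZMod 2)) *ᵥ lab i = lab (sg k i)
  revert k i
  decide

theorem lab_inj : Function.Injective lab := by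
  intro i j
  revert i j
  decide

theorem faithfulS (g : S3) (hg : ∀ i, g • lab i = lab i) : g = 1 := by
  apply Subtype.ext
  ext i j
  have h0 : (g : Matrix (Fin 3) (Fin 3) (ZMod 2)) *ᵥ ![1, 0, 0] = ![1, 0, 0] := hg 0
  have h1 : (g : Matrix (Fin 3) (Fin 3) (ZMod 2)) *ᵥ ![0, 1, 0] = ![0, 1, 0] := hg 1
  have h3 : (g : Matrix (Fin 3) (Fin 3) (ZMod 2)) *ᵥ ![0, 0, 1] = ![0, 0, 1] := hg 3
  have e0 := congrFun h0 i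
  have e1 := congrFun h1 i
  have e3 := congrFun h3 i
  simp [Matrix.mulVec, dotProduct, Fin.sum_univ_three] at e0 e1 e3
  fin_cases j
  · show (g : Matrix (Fin 3) (Fin 3) (ZMod 2)) i 0 = (1 : Matrix (Fin 3) (Fin 3) (ZMod 2)) i 0
    rw [e0]; fin_cases i <;> rfl
  · show (g : Matrix (Fin 3) (Fin 3) (ZMod 2)) i 1 = (1 : Matrix (Fin 3) (Fin 3) (ZMod 2)) i 1
    rw [e1]; fin_cases i <;> rfl
  · show (g : Matrix (Fin 3) (Fin 3) (ZMod 2)) i 2 = (1 : Matrix (Fin 3) (Fin 3) (ZMod 2)) i 2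
    rw [e3]; fin_cases i <;> rfl

theorem exists_sub : Nonempty (Subgroup.closure (Set.range gen) ≃* S3) := by
  obtain ⟨e⟩ := GenIso.exists_equiv₂ (G := Cfsg.SU 3 GF9 3) (H := S3) fr fr_inj gen sp gen_fr
    (fun g _ => faithful g) lab lab_inj tg tg_lab (fun g _ => faithfulS g)
  rw [closure_tg] at e
  exact ⟨e.trans Subgroup.topEquiv⟩

end H7.U33
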