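import Mathlib
import Cfsg.Agent.H7_M24c

set_option autoImplicit false
set_option linter.all false

/-!
The octad stabilizer acts on the sixteen remaining points as an affine group, realised by matrices of degree five.
-/

namespace Cfsg.Agent.H7.Zf

open Cfsg Cfsg.Agent.H7.Golay Cfsg.Agent.H7.Oct Cfsg.Agent.H7.M24 Cfsg.Agent.H7.M24b Cfsg.Agent.H7.M24c Matrix
open scoped Pointwise

def B : Fin 5 → ℕ := ![15515712, 16771936, 4038912, 8077824, 14919680]

def O0 : Finset GolayPt := ofMask 5279

theorem O0_mem : O0 ∈ octads := (ofMask_mem_octads (by norm_num)).2 (by decide +kernel)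

def V (p : GolayPt) (i : Fin 5) : ZMod 2 := if (B i).testBit (ix p) = true then 1 else 0

theorem V_O0 {p : GolayPt} (h : p ∈ O0) : V p = 0 := by
  have : ∀ p : GolayPt, (5279 : ℕ).testBit (ix p) = true → ∀ i, (B i).testBit (ix p) = false := by decide +kernel
  funext i
  show (if (B i).testBit (ix p) = true then (1 : ZMod 2) else 0) = 0
  rw [this p (mem_ofMask.1 h) i]
  simp

theorem V_one {p : GolayPt} (h : p ∉ O0) : V p 1 = 1 := by
  have : ∀ p : GolayPt, (5279 : ℕ).testBit (ix p) = false → (B 1).testBit (ix p) = true := by decide +kernel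
  have h1 : (5279 : ℕ).testBit (ix p) = false := by
    by_contra hc
    exact h (mem_ofMask.2 (by simpa using hc))
  show (if (B 1).testBit (ix p) = true then (1 : ZMod 2) else 0) = 1
  rw [this p h1]
  simp

theorem V_inj : ∀ p q : GolayPt, p ∉ O0 → q ∉ O0 → V p = V q → p = q := by
  have h0 : ∀ p q : GolayPt, (5279 : ℕ).testBit (ix p) = false → (5279 : ℕ).testBit (ix q) = false →
      (∀ i, (B i).testBit (ix p) = (B i).testBit (ix q)) → p = q := by decide +kernel
  intro p q hp hq h
  have e : ∀ p, p ∉ O0 → (5279 : ℕ).testBit (ix p) = false := by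
    intro p hp
    by_contra hc
    exact hp (mem_ofMask.2 (by simpa using hc))
  apply h0 p q (e p hp) (e q hq)
  intro i
  have := congrFun h i
  simp only [V] at this
  by_cases h1 : (B i).testBit (ix p) = true <;> by_cases h2 : (B i).testBit (ix q) = true <;> simp_all

theorem par_chk : (octL.all fun m => !(Nat.beq (pc (Nat.land m 5279)) 4) ||
    ((List.finRange 5).all fun i => Nat.beq (Nat.mod (pc (Nat.land m (B i))) 2) 0)) = true := by decide +kernel

/-- coordinates of the points of an octad meeting `O0` in four points sum to zero -/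
theorem sum_octad {o : Finset GolayPt} (ho : o ∈ octads) (h4 : (o ∩ O0).card = 4) (i : Fin 5) : ∑ p ∈ o, V p i = 0 := by
  obtain ⟨m, hm, rfl⟩ := mem_octads_iff'.1 ho
  rw [O0, ← ofMask_and, card_ofMask] at h4
  have h := List.all_eq_true.1 par_chk m hm
  rw [Bool.or_eq_true, Bool.not_eq_true'] at h
  rcases h with h | h
  · exfalso
    have h4' : pc (Nat.land m 5279) = 4 := h4
    rw [h4'] at h
    exact absurd h (by decide)
  · have h2 := Nat.eq_of_beq_eq_true (List.all_eq_true.1 h i (List.mem_finRange i))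
    have h3 : ∑ p ∈ ofMask m, V p i = (((ofMask m ∩ ofMask (B i)).card : ℕ) : ZMod 2) := by
      have e : ofMask m ∩ ofMask (B i) = (ofMask m).filter fun p => (B i).testBit (ix p) = true := by
        ext p
        rw [Finset.mem_inter, Finset.mem_filter, mem_ofMask (m := B i)]
      rw [e, ← Finset.sum_boole]
      rfl
    rw [h3, ← ofMask_and, card_ofMask]
    have h5 : pc (m &&& B i) % 2 = 0 := h2
    exact (ZMod.natCast_eq_zero_iff _ _).2 (Nat.dvd_of_mod_eq_zero h5)

def Kz : Subgroup (Equiv.Perm GolayPt) := M24 ⊓ MulAction.stabilizer (Equiv.Perm GolayPt) O0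

theorem Kz_card : Nat.card Kz = 322560 := card_stab_octad O0_mem

theorem Kz_in {g : Equiv.Perm GolayPt} (h : g ∈ Kz) {p : GolayPt} (hp : p ∈ O0) : g p ∈ O0 := by
  have h2 : g • O0 = O0 := h.2
  rw [← h2]
  exact Finset.smul_mem_smul_finset hp

theorem Kz_out {g : Equiv.Perm GolayPt} (h : g ∈ Kz) {p : GolayPt} (hp : p ∉ O0) : g p ∉ O0 := by
  intro hc
  have h2 : g⁻¹ (g p) ∈ O0 := Kz_in (inv_mem h) hc
  rw [← Equiv.Perm.mul_apply, inv_mul_cancel] at h2
  exact hp h2

/-- the four points of an octad outside -/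
theorem plane {g : Equiv.Perm GolayPt} (hg : g ∈ Kz) {m a b c d : ℕ} (hm : m ∈ octL) (h4 : pc (Nat.land m 5279) = 4)
    (hd : a < 24 ∧ b < 24 ∧ c < 24 ∧ d < 24 ∧ a ≠ b ∧ a ≠ c ∧ a ≠ d ∧ b ≠ c ∧ b ≠ d ∧ c ≠ d)
    (hp : ∀ i, i < 24 → ((m.testBit i && !((5279 : ℕ).testBit i)) = (i == a || i == b || i == c || i == d))) :
    V (g (pt d)) = V (g (pt a)) + V (g (pt b)) + V (g (pt c)) := by
  obtain ⟨ha, hb, hc, hdd, hab, hac, had, hbc, hbd, hcd⟩ := hd
  have hset : ∀ p : GolayPt, (p ∈ ofMask m ∧ p ∉ O0) ↔ p = pt a ∨ p = pt b ∨ p = pt c ∨ p = pt d := by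
    intro p
    have h1 := hp (ix p) (ix_lt p)
    have e : ∀ x, x < 24 → (ix p = x ↔ p = pt x) := by
      intro x hx
      constructor
      · rintro rfl; rw [pt_ix]
      · rintro rfl; rw [ix_pt _ hx]
    rw [← e a ha, ← e b hb, ← e c hc, ← e d hdd, O0, mem_ofMask, mem_ofMask]
    have h2 : (m.testBit (ix p) && !((5279 : ℕ).testBit (ix p))) = true ↔
        (ix p == a || ix p == b || ix p == c || ix p == d) = true := by rw [h1]
    simpa [or_assoc] using h2
  have hne : ∀ x y, x < 24 → y < 24 → x ≠ y → pt x ≠ pt y := by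
    intro x y hx hy h e
    apply h
    rw [← ix_pt x hx, ← ix_pt y hy, e]
  funext i
  have hmo : ofMask m ∈ octads := (ofMask_mem_octads (octL_lt hm)).2 hm
  have hgo : g • ofMask m ∈ octads := (smul_mem_octads_iff hg.1).2 hmo
  have h4' : ((g • ofMask m) ∩ O0).card = 4 := by
    have h2 : g • O0 = O0 := hg.2
    rw [← h2, ← Finset.smul_finset_inter, Finset.card_smul_finset, O0, ← ofMask_and, card_ofMask]
    exact h4
  have hs := sum_octad hgo h4' i
  have hs2 : ∑ p ∈ g • ofMask m, V p i = ∑ p ∈ ofMask m, V (g p) i := by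
    have e : g • ofMask m = Finset.image (fun x => g x) (ofMask m) := rfl
    rw [e, Finset.sum_image (fun x _ y _ h => g.injective h)]
  rw [hs2] at hs
  have hs3 : ∑ p ∈ ({pt a, pt b, pt c, pt d} : Finset GolayPt), V (g p) i = ∑ p ∈ ofMask m, V (g p) i := by
    apply Finset.sum_subset
    · intro p hp
      have : p = pt a ∨ p = pt b ∨ p = pt c ∨ p = pt d := by simpa using hp
      exact ((hset p).2 this).1
    · intro p hp1 hp2
      have h5 : p ∈ O0 := by
        by_contra hc
        apply hp2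
        have := (hset p).1 ⟨hp1, hc⟩
        simpa using this
      rw [V_O0 (Kz_in hg h5)]
      rfl
  rw [hs, Finset.sum_insert, Finset.sum_insert, Finset.sum_insert, Finset.sum_singleton] at hs3
  · have h2 : ∀ x y z w : ZMod 2, x + (y + (z + w)) = 0 → w = x + y + z := by decide
    exact h2 _ _ _ _ hs3
  · simp [hne c d hc hdd hcd]
  · simp [hne b c hb hc hbc, hne b d hb hdd hbd]
  · simp [hne a b ha hb hab, hne a c ha hc hac, hne a d ha hdd had]

end Cfsg.Agent.H7.Zf
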