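import Mathlib
import Cfsg.Agent.H7_Zf1

set_option autoImplicit false
set_option linter.all false

namespace Cfsg.Agent.H7.Zf

open Cfsg Cfsg.Agent.H7.Golay Cfsg.Agent.H7.Oct Cfsg.Agent.H7.M24 Cfsg.Agent.H7.M24b Cfsg.Agent.H7.M24c Matrix
open scoped Pointwise

/-- base points -/
def bp : Fin 5 → GolayPt := ![pt 6, pt 5, pt 8, pt 9, pt 11]

theorem V_bp : ∀ i j : Fin 5, V (bp j) i = if i = 1 then 1 else if i = j then 1 else 0 := by decide +kernel
theorem bp_out : ∀ j, bp j ∉ O0 := by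
  have h : ∀ j, (5279 : ℕ).testBit (ix (bp j)) = false := by decide +kernel
  intro j hj
  have := mem_ofMask.1 hj
  rw [h j] at this
  simp at this

/-- the matrix of an element -/
def Mt (g : Equiv.Perm GolayPt) : Matrix (Fin 5) (Fin 5) (ZMod 2) := fun i j =>
  if j = 1 then V (g (bp 1)) i else V (g (bp j)) i + V (g (bp 1)) i

theorem Mt_bp (g : Equiv.Perm GolayPt) (j : Fin 5) : Mt g *ᵥ V (bp j) = V (g (bp j)) := by
  have h2 : ∀ x : ZMod 2, x + x = 0 := by decide
  have h3 : ∀ x y : ZMod 2, x + y + y = x := by decide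
  have h4 : ∀ x y : ZMod 2, y + (x + y) = x := by decide
  have h5 : ∀ x y : ZMod 2, x + y + (y + 0) = x := by decide
  funext i
  rw [Matrix.mulVec, dotProduct, Fin.sum_univ_five]
  simp only [V_bp]
  fin_cases j <;> simp [Mt, h2, h3, h4, h5]

theorem Mt_V {g : Equiv.Perm GolayPt} (hg : g ∈ Kz) (p : GolayPt) (hp : p ∉ O0) : Mt g *ᵥ V p = V (g p) := by
  have stp : ∀ m a b c d : ℕ, (m ∈ octL ∧ pc (Nat.land m 5279) = 4 ∧
      (a < 24 ∧ b < 24 ∧ c < 24 ∧ d < 24 ∧ a ≠ b ∧ a ≠ c ∧ a ≠ d ∧ b ≠ c ∧ b ≠ d ∧ c ≠ d) ∧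
      (∀ i, i < 24 → ((m.testBit i && !((5279 : ℕ).testBit i)) = (i == a || i == b || i == c || i == d)))) →
      Mt g *ᵥ V (pt a) = V (g (pt a)) → Mt g *ᵥ V (pt b) = V (g (pt b)) → Mt g *ᵥ V (pt c) = V (g (pt c)) →
      Mt g *ᵥ V (pt d) = V (g (pt d)) := by
    rintro m a b c d ⟨h1, h2, h3, h4⟩ ha hb hc
    have e1 := plane (one_mem Kz) h1 h2 h3 h4
    have e2 := plane hg h1 h2 h3 h4
    simp only [Equiv.Perm.one_apply] at e1
    rw [e1, mulVec_add, mulVec_add, ha, hb, hc, e2]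
  have p6 : Mt g *ᵥ V (pt 6) = V (g (pt 6)) := Mt_bp g 0
  have p5 : Mt g *ᵥ V (pt 5) = V (g (pt 5)) := Mt_bp g 1
  have p8 : Mt g *ᵥ V (pt 8) = V (g (pt 8)) := Mt_bp g 2
  have p9 : Mt g *ᵥ V (pt 9) = V (g (pt 9)) := Mt_bp g 3
  have p11 : Mt g *ᵥ V (pt 11) = V (g (pt 11)) := Mt_bp g 4
  have p18 := stp 267634 6 8 5 18 (by decide +kernel) p6 p8 p5
  have p14 := stp 21116 6 9 5 14 (by decide +kernel) p6 p9 p5
  have p20 := stp 1053483 8 9 5 20 (by decide +kernel) p8 p9 p5
  have p19 := stp 792232 18 9 5 19 (by decide +kernel) p18 p9 p5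
  have p23 := stp 8394986 6 11 5 23 (by decide +kernel) p6 p11 p5
  have p13 := stp 15777 8 11 5 13 (by decide +kernel) p8 p11 p5
  have p15 := stp 301236 18 11 5 15 (by decide +kernel) p18 p11 p5
  have p17 := stp 138790 9 11 5 17 (by decide +kernel) p9 p11 p5
  have p22 := stp 4216883 14 11 5 22 (by decide +kernel) p14 p11 p5
  have p16 := stp 1121336 20 11 5 16 (by decide +kernel) p20 p11 p5
  have p21 := stp 2627629 19 11 5 21 (by decide +kernel) p19 p11 p5
  have key : ∀ i, i < 24 → pt i ∉ O0 → Mt g *ᵥ V (pt i) = V (g (pt i)) := by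
    intro i hi h
    have hno : (5279 : ℕ).testBit i = false := by
      by_contra hc
      apply h
      rw [O0, mem_ofMask, ix_pt i hi]
      simpa using hc
    interval_cases i
    · exact absurd hno (by decide)
    · exact absurd hno (by decide)
    · exact absurd hno (by decide)
    · exact absurd hno (by decide)
    · exact absurd hno (by decide)
    · exact p5
    · exact p6
    · exact absurd hno (by decide)
    · exact p8
    · exact p9
    · exact absurd hno (by decide)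
    · exact p11
    · exact absurd hno (by decide)
    · exact p13
    · exact p14
    · exact p15
    · exact p16
    · exact p17
    · exact p18
    · exact p19
    · exact p20
    · exact p21
    · exact p22
    · exact p23
  have := key (ix p) (ix_lt p) (by rw [pt_ix]; exact hp)
  rwa [pt_ix] at this

theorem mat_ext {M N : Matrix (Fin 5) (Fin 5) (ZMod 2)} (h : ∀ j, M *ᵥ V (bp j) = N *ᵥ V (bp j)) : M = N := by
  have h1 : ∀ j, M *ᵥ (Pi.single j 1 : Fin 5 → ZMod 2) = N *ᵥ (Pi.single j 1 : Fin 5 → ZMod 2) := by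
    intro j
    by_cases hj : j = 1
    · subst hj
      have : V (bp 1) = (Pi.single 1 1 : Fin 5 → ZMod 2) := by decide +kernel
      rw [← this]; exact h 1
    · have : (Pi.single j 1 : Fin 5 → ZMod 2) = V (bp j) + V (bp 1) := by revert j; decide +kernel
      rw [this, mulVec_add, mulVec_add, h j, h 1]
  exact Matrix.ext_of_mulVec_single h1

theorem Mt_mul {g h : Equiv.Perm GolayPt} (hg : g ∈ Kz) (hh : h ∈ Kz) : Mt (g * h) = Mt g * Mt h := by
  apply mat_ext
  intro j
  rw [← mulVec_mulVec, Mt_bp, Mt_bp, Mt_V hg _ (Kz_out hh (bp_out j)), Equiv.Perm.mul_apply]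

theorem Mt_one : Mt 1 = 1 := by
  apply mat_ext
  intro j
  rw [Mt_bp, one_mulVec, Equiv.Perm.one_apply]

theorem Mt_det {g : Equiv.Perm GolayPt} (hg : g ∈ Kz) : (Mt g).det = 1 := by
  have h : (Mt g).det * (Mt g⁻¹).det = 1 := by
    rw [← det_mul, ← Mt_mul hg (inv_mem hg), mul_inv_cancel, Mt_one, det_one]
  have : ∀ x y : ZMod 2, x * y = 1 → x = 1 := by decide
  exact this _ _ h

noncomputable def Phi : Kz →* SpecialLinearGroup (Fin 5) (ZMod 2) where
  toFun g := ⟨Mt g.1, Mt_det g.2⟩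
  map_one' := Subtype.ext Mt_one
  map_mul' g h := Subtype.ext (Mt_mul g.2 h.2)

theorem Phi_inj : Function.Injective Phi := by
  rw [injective_iff_map_eq_one]
  intro g hg
  have h1 : Mt g.1 = 1 := congrArg (fun x : SpecialLinearGroup (Fin 5) (ZMod 2) => (x : Matrix (Fin 5) (Fin 5) (ZMod 2))) hg
  apply Subtype.ext
  apply fix_nine g.2.1 (O0ᶜ)
  · rw [Finset.card_compl, O0_mem.2]
    have : Fintype.card GolayPt = 24 := by decide +kernel
    rw [this]; norm_num
  · intro p hp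
    rw [Finset.mem_compl] at hp
    have h2 := Mt_V g.2 p hp
    rw [h1, one_mulVec] at h2
    exact (V_inj _ _ hp (Kz_out g.2 hp) h2).symm

end Cfsg.Agent.H7.Zf
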