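import Mathlib
import Cfsg.Agent.H7_Zf2
import Cfsg.Agent.H5_GL

set_option autoImplicit false
set_option linter.all false

namespace Cfsg.Agent.H7.Zf

open Cfsg Cfsg.Agent.H7.Golay Cfsg.Agent.H7.Oct Cfsg.Agent.H7.M24 Cfsg.Agent.H7.M24b Cfsg.Agent.H7.M24c Matrix
open scoped Pointwise

abbrev SL5 := Matrix.SpecialLinearGroup (Fin 5) (ZMod 2)

def Arow (g : SL5) : Prop := ∀ j : Fin 5, (g : Matrix (Fin 5) (Fin 5) (ZMod 2)) 1 j = if j = 1 then 1 else 0

theorem Phi_row (g : Kz) : Arow (Phi g) := by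
  intro j
  show Mt g.1 1 j = _
  unfold Mt
  by_cases h : j = 1
  · subst h
    simp only [if_true]
    exact V_one (Kz_out g.2 (bp_out 1))
  · simp only [h, if_false]
    rw [V_one (Kz_out g.2 (bp_out j)), V_one (Kz_out g.2 (bp_out 1))]
    decide

theorem det_sub (M : Matrix (Fin 5) (Fin 5) (ZMod 2)) (h : ∀ j : Fin 5, M 1 j = if j = 1 then 1 else 0) :
    (M.submatrix (Fin.succAbove 1) (Fin.succAbove 1)).det = M.det := by
  rw [Matrix.det_succ_row M 1]
  rw [Finset.sum_eq_single 1]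
  · rw [h 1]
    norm_num
  · intro j _ hj
    rw [h j, if_neg hj]
    ring
  · intro h; exact absurd (Finset.mem_univ _) h

noncomputable def red (g : {g : SL5 // Arow g}) : (Fin 4 → ZMod 2) × GL (Fin 4) (ZMod 2) :=
  (fun i => (g.1 : Matrix (Fin 5) (Fin 5) (ZMod 2)) (Fin.succAbove 1 i) 1,
   Matrix.GeneralLinearGroup.mk'' ((g.1 : Matrix (Fin 5) (Fin 5) (ZMod 2)).submatrix (Fin.succAbove 1) (Fin.succAbove 1))
    (by rw [det_sub _ g.2]; have := g.1.2; rw [this]; exact isUnit_one))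

theorem red_inj : Function.Injective red := by
  intro g h hgh
  have h1 : ∀ i, (g.1 : Matrix (Fin 5) (Fin 5) (ZMod 2)) (Fin.succAbove 1 i) 1 =
      (h.1 : Matrix (Fin 5) (Fin 5) (ZMod 2)) (Fin.succAbove 1 i) 1 := fun i => congrFun (congrArg Prod.fst hgh) i
  have h2 : ∀ i j, (g.1 : Matrix (Fin 5) (Fin 5) (ZMod 2)) (Fin.succAbove 1 i) (Fin.succAbove 1 j) =
      (h.1 : Matrix (Fin 5) (Fin 5) (ZMod 2)) (Fin.succAbove 1 i) (Fin.succAbove 1 j) := by
    intro i j
    have e := congrArg (fun u : GL (Fin 4) (ZMod 2) => (u : Matrix (Fin 4) (Fin 4) (ZMod 2)) i j) (congrArg Prod.snd hgh)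
    exact e
  apply Subtype.ext
  apply Subtype.ext
  ext i j
  have hs : ∀ i : Fin 5, i = 1 ∨ ∃ k : Fin 4, i = Fin.succAbove 1 k := by decide
  rcases hs i with rfl | ⟨k, rfl⟩
  · exact (g.2 j).trans (h.2 j).symm
  · rcases hs j with rfl | ⟨l, rfl⟩
    · exact h1 k
    · exact h2 k l

theorem card_A : Nat.card {g : SL5 // Arow g} ≤ 322560 := by
  have h := Nat.card_le_card_of_injective red red_inj
  have h1 : Nat.card ((Fin 4 → ZMod 2) × GL (Fin 4) (ZMod 2)) = 322560 := by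
    rw [Nat.card_prod, Matrix.card_GL_field, Nat.card_eq_fintype_card, Fintype.card_fun, Fintype.card_fin, ZMod.card]
    rw [Fin.prod_univ_four]
    simp
  omega

theorem exists_Phi (g : SL5) (hg : Arow g) : ∃ σ : Kz, Phi σ = g := by
  have hinj : Function.Injective (fun σ : Kz => (⟨Phi σ, Phi_row σ⟩ : {g : SL5 // Arow g})) := by
    intro a b h
    exact Phi_inj (congrArg Subtype.val h)
  have hbij : Function.Bijective (fun σ : Kz => (⟨Phi σ, Phi_row σ⟩ : {g : SL5 // Arow g})) := by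
    rw [Nat.bijective_iff_injective_and_card]
    refine ⟨hinj, le_antisymm (Nat.card_le_card_of_injective _ hinj) ?_⟩
    rw [Kz_card]
    exact card_A
  obtain ⟨σ, hσ⟩ := hbij.2 ⟨g, hg⟩
  exact ⟨σ, congrArg Subtype.val hσ⟩

theorem Arow_of_comm {s g : SL5} (hs : (s : Matrix (Fin 5) (Fin 5) (ZMod 2)) = Matrix.transvection 0 1 1)
    (h : s * g = g * s) : Arow g := by
  have h1 : Matrix.transvection (0 : Fin 5) 1 (1 : ZMod 2) * (g : Matrix (Fin 5) (Fin 5) (ZMod 2)) =
      (g : Matrix (Fin 5) (Fin 5) (ZMod 2)) * Matrix.transvection (0 : Fin 5) 1 (1 : ZMod 2) := by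
    have e := congrArg (fun x : SL5 => (x : Matrix (Fin 5) (Fin 5) (ZMod 2))) h
    have e1 : ((s * g : SL5) : Matrix (Fin 5) (Fin 5) (ZMod 2)) = (s : Matrix (Fin 5) (Fin 5) (ZMod 2)) * (g : Matrix (Fin 5) (Fin 5) (ZMod 2)) :=
      Matrix.SpecialLinearGroup.coe_mul s g
    have e2 : ((g * s : SL5) : Matrix (Fin 5) (Fin 5) (ZMod 2)) = (g : Matrix (Fin 5) (Fin 5) (ZMod 2)) * (s : Matrix (Fin 5) (Fin 5) (ZMod 2)) :=
      Matrix.SpecialLinearGroup.coe_mul g s
    rw [← hs, ← e1, ← e2]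
    exact e
  set M := (g : Matrix (Fin 5) (Fin 5) (ZMod 2)) with hM
  have h2 : ∀ i j, (Matrix.transvection (0 : Fin 5) 1 (1 : ZMod 2) * M) i j = (M * Matrix.transvection (0 : Fin 5) 1 (1 : ZMod 2)) i j :=
    fun i j => congrFun (congrFun h1 i) j
  have hrow : ∀ j, j ≠ 1 → M 1 j = 0 := by
    intro j hj
    have h3 := h2 0 j
    rw [Matrix.transvection_mul_apply_same, Matrix.mul_transvection_apply_of_ne _ _ _ _ hj] at h3
    have : ∀ x y : ZMod 2, x + 1 * y = x → y = 0 := by decide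
    exact this _ _ h3
  have hdet : M.det = 1 := g.2
  have h11 : M 1 1 = 1 := by
    by_contra hc
    have h0 : M 1 1 = 0 := by
      have : ∀ x : ZMod 2, x ≠ 1 → x = 0 := by decide
      exact this _ hc
    have : M.det = 0 := Matrix.det_eq_zero_of_row_eq_zero 1 (fun j => by
      by_cases hj : j = 1
      · rw [hj, h0]
      · exact hrow j hj)
    rw [hdet] at this
    exact one_ne_zero this
  intro j
  by_cases hj : j = 1
  · subst hj; rw [if_pos rfl]; exact h11
  · rw [if_neg hj]; exact hrow j hj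

/-- the involution -/
def zl : List ℕ := [0, 1, 2, 3, 4, 6, 5, 7, 18, 14, 10, 23, 12, 15, 9, 13, 21, 22, 8, 20, 19, 16, 17, 11]

theorem zl_ok : isM24 zl = true := by decide +kernel

theorem exists_z : ∃ z : Equiv.Perm GolayPt, z ∈ M24 ∧ (∀ p, p ∈ O0 ↔ z p = p) ∧ Mt z = Matrix.transvection 0 1 1 ∧
    orderOf z = 2 := by
  obtain ⟨z, hz, hr⟩ := exists_M24 zl_ok
  have hz1 : ∀ p, z p = pt (zl.getD (ix p) 0) := fun p => by rw [← hr.2, pt_ix]
  refine ⟨z, hz, ?_, ?_, ?_⟩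
  · have : ∀ p : GolayPt, (5279 : ℕ).testBit (ix p) = true ↔ pt (zl.getD (ix p) 0) = p := by decide +kernel
    intro p
    rw [O0, mem_ofMask, this, hz1]
  · have hV : ∀ i j : Fin 5, (if j = 1 then V (pt (zl.getD (ix (bp 1)) 0)) i else
        V (pt (zl.getD (ix (bp j)) 0)) i + V (pt (zl.getD (ix (bp 1)) 0)) i) =
        if i = j then 1 else if i = 0 ∧ j = 1 then 1 else 0 := by decide +kernel
    ext i j
    show (if j = 1 then V (z (bp 1)) i else V (z (bp j)) i + V (z (bp 1)) i) = _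
    rw [hz1, hz1, hV]
    fin_cases i <;> fin_cases j <;> simp [Matrix.transvection, Matrix.single_apply]
  · rw [orderOf_eq_prime_iff]
    constructor
    · ext1 p
      rw [pow_two, Equiv.Perm.mul_apply, hz1, hz1, Equiv.Perm.one_apply]
      revert p; decide +kernel
    · intro h
      have h1 := DFunLike.congr_fun h (pt 5)
      rw [hz1] at h1
      revert h1; decide +kernel

theorem s2133 (s : SL5) (hs : (s : Matrix (Fin 5) (Fin 5) (ZMod 2)) = Matrix.transvection 0 1 1) :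
    ∃ z : ↥M24, orderOf z = 2 ∧ Nonempty (↥(Subgroup.centralizer ({z} : Set ↥M24)) ≃*
      ↥(Subgroup.centralizer ({s} : Set (Matrix.SpecialLinearGroup (Fin 5) (ZMod 2))))) := by
  obtain ⟨z, hz, hfix, hM, hord⟩ := exists_z
  have hzK : z ∈ Kz := by
    refine ⟨hz, ?_⟩
    show z • O0 = O0
    have : z • O0 ⊆ O0 := by
      intro p hp
      obtain ⟨q, hq, rfl⟩ := Finset.mem_smul_finset.1 hp
      rw [Equiv.Perm.smul_def, (hfix q).1 hq]
      exact hq
    exact Finset.eq_of_subset_of_card_le this (by rw [Finset.card_smul_finset])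
  have hPz : Phi ⟨z, hzK⟩ = s := Subtype.ext (hM.trans hs.symm)
  refine ⟨⟨z, hz⟩, ?_, ?_⟩
  · rw [← hord]
    exact (orderOf_injective M24.subtype M24.subtype_injective ⟨z, hz⟩).symm
  have hK : ∀ k : Subgroup.centralizer ({(⟨z, hz⟩ : M24)} : Set ↥M24), ((k : M24) : Equiv.Perm GolayPt) ∈ Kz ∧
      ((k : M24) : Equiv.Perm GolayPt) * z = z * ((k : M24) : Equiv.Perm GolayPt) := by
    intro k
    have hc := Subgroup.mem_centralizer_singleton_iff.1 k.2
    have hc2 : ((k : M24) : Equiv.Perm GolayPt) * z = z * ((k : M24) : Equiv.Perm GolayPt) := congrArg Subtype.val hc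
    refine ⟨⟨(k : M24).2, ?_⟩, hc2⟩
    show ((k : M24) : Equiv.Perm GolayPt) • O0 = O0
    have : ((k : M24) : Equiv.Perm GolayPt) • O0 ⊆ O0 := by
      intro p hp
      obtain ⟨q, hq, rfl⟩ := Finset.mem_smul_finset.1 hp
      rw [Equiv.Perm.smul_def, hfix, ← Equiv.Perm.mul_apply, ← hc2, Equiv.Perm.mul_apply, (hfix q).1 hq]
    exact Finset.eq_of_subset_of_card_le this (by rw [Finset.card_smul_finset])
  let f : Subgroup.centralizer ({(⟨z, hz⟩ : M24)} : Set ↥M24) →* SL5 :=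
    MonoidHom.mk' (fun k => Phi ⟨_, (hK k).1⟩) (fun a b => Phi.map_mul ⟨_, (hK a).1⟩ ⟨_, (hK b).1⟩)
  have hfinj : Function.Injective f := by
    intro a b h
    have h1 := Phi_inj h
    have h2 : ((a : M24) : Equiv.Perm GolayPt) = ((b : M24) : Equiv.Perm GolayPt) :=
      congrArg (fun x : Kz => (x : Equiv.Perm GolayPt)) h1
    exact Subtype.ext (Subtype.ext h2)
  have hr : f.range = Subgroup.centralizer ({s} : Set SL5) := by
    ext g
    rw [Subgroup.mem_centralizer_singleton_iff]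
    constructor
    · rintro ⟨k, rfl⟩
      show Phi ⟨_, (hK k).1⟩ * s = s * Phi ⟨_, (hK k).1⟩
      rw [← hPz, ← Phi.map_mul, ← Phi.map_mul]
      congr 1
      exact Subtype.ext (hK k).2
    · intro hg
      obtain ⟨σ, rfl⟩ := exists_Phi g (Arow_of_comm hs hg.symm)
      rw [← hPz, ← Phi.map_mul, ← Phi.map_mul] at hg
      have h1 := congrArg Subtype.val (Phi_inj hg)
      have h1 : σ.1 * z = z * σ.1 := h1
      exact ⟨⟨⟨σ.1, σ.2.1⟩, Subgroup.mem_centralizer_singleton_iff.2 (Subtype.ext h1)⟩, rfl⟩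
  exact ⟨(MonoidHom.ofInjective hfinj).trans (MulEquiv.subgroupCongr hr)⟩

end Cfsg.Agent.H7.Zf
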