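import Mathlib
import Cfsg.Agent.H19_Transfer
import Cfsg.Agent.H20_Derange
import Cfsg.Agent.H1_HC

set_option autoImplicit false

/-! H9_FTc1: a simple group of even order has a class of size divisible by four (Thompson transfer + Jordan). -/

namespace Cfsg.Agent.H9.FTc

open Subgroup

universe u

/-- every element commutes with a conjugate of a central involution of a Sylow `2`-subgroup -/
theorem exists_class [Fact (Nat.Prime 2)] {G : Type*} [Group G] [Finite G] [IsSimpleGroup G] (hG : ¬ IsMulCommutative G) (heven : 2 ∣ Nat.card G) :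
    ∃ x : G, 4 ∣ (centralizer ({x} : Set G)).index := by
  by_contra hcon
  push Not at hcon
  obtain P : Sylow 2 G := default
  have hPne : Nat.card (P : Subgroup G) ≠ 1 := by
    intro h1
    have h2 := P.dvd_card_of_dvd_card heven
    rw [h1] at h2
    norm_num at h2
  haveI : Nontrivial (P : Subgroup G) := by
    rw [← Finite.one_lt_card_iff_nontrivial]
    have := Nat.card_pos (α := (P : Subgroup G))
    omega
  haveI : Nontrivial (center (P : Subgroup G)) := P.isPGroup'.center_nontrivial
  have h2c : 2 ∣ Nat.card (center (P : Subgroup G)) := by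
    obtain ⟨n, hn⟩ := IsPGroup.iff_card.1 (P.isPGroup'.to_subgroup (center (P : Subgroup G)))
    have h3 : 1 < Nat.card (center (P : Subgroup G)) := Finite.one_lt_card
    rw [hn] at h3 ⊢
    exact dvd_pow_self 2 (by rintro rfl; simp at h3)
  obtain ⟨z', hz'⟩ := exists_prime_orderOf_dvd_card' 2 h2c
  set z : G := ((z' : (P : Subgroup G)) : G) with hz
  have hzo : orderOf z = 2 := by
    rw [hz, orderOf_coe, orderOf_coe]; exact hz'
  have hzP : z ∈ (P : Subgroup G) := (z' : (P : Subgroup G)).2
  have hzc : ∀ g ∈ (P : Subgroup G), g * z = z * g := by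
    intro g hg
    have h3 := mem_center_iff.1 z'.2 ⟨g, hg⟩
    exact congrArg Subtype.val h3
  have hCne : centralizer ({z} : Set G) ≠ ⊤ := by
    intro h3
    have h4 : z ∈ center G := by
      rw [mem_center_iff]
      intro g
      have h5 : g ∈ centralizer ({z} : Set G) := by rw [h3]; trivial
      exact mem_centralizer_singleton_iff.1 h5
    rcases (inferInstance : (center G).Normal).eq_bot_or_eq_top with h5 | h5
    · rw [h5, mem_bot] at h4
      rw [h4, orderOf_one] at hzo
      norm_num at hzo
    · apply hG
      refine ⟨⟨fun a b => ?_⟩⟩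
      have : b ∈ center G := by rw [h5]; trivial
      exact mem_center_iff.1 this a
  obtain ⟨x, hx⟩ := Cfsg.Agent.H20.Derange.jordan _ hCne
  -- a Sylow subgroup of the centralizer of `x`
  set D := centralizer ({x} : Set G) with hD
  obtain R : Sylow 2 D := default
  have hRp : IsPGroup 2 ((R : Subgroup D).map D.subtype) := R.isPGroup'.map _
  obtain ⟨Q, hQ⟩ := hRp.exists_le_sylow
  obtain ⟨g, hg⟩ := MulAction.exists_smul_eq G P Q
  have hgQ : ∀ y ∈ (P : Subgroup G), g * y * g⁻¹ ∈ (Q : Subgroup G) := by
    intro y hy
    rw [← hg]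
    exact Subgroup.smul_mem_pointwise_smul y (MulAut.conj g) _ hy
  have hgQ' : ∀ y ∈ (Q : Subgroup G), g⁻¹ * y * g ∈ (P : Subgroup G) := by
    intro y hy
    rw [← hg] at hy
    obtain ⟨w, hw, rfl⟩ := hy
    change g⁻¹ * (g * w * g⁻¹) * g ∈ _
    have : g⁻¹ * (g * w * g⁻¹) * g = w := by group
    rw [this]; exact hw
  set w := g * z * g⁻¹ with hw
  have hwQ : w ∈ (Q : Subgroup G) := hgQ z hzP
  have hwo : orderOf w = 2 := by
    have : orderOf w = orderOf z := by
      rw [hw, ← MulAut.conj_apply]
      exact MulEquiv.orderOf_eq _ z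
    rw [this, hzo]
  -- index of R in Q
  set M := (R : Subgroup D).map D.subtype with hM
  have hMD : M ≤ D := by
    rintro _ ⟨y, _, rfl⟩
    exact y.2
  have hkey : ∀ y ∈ M, ∀ k : G, y = k * z * k⁻¹ → False := by
    intro y hy k hyk
    apply hx k
    rw [mem_centralizer_singleton_iff]
    have h3 := mem_centralizer_singleton_iff.1 (hMD hy)
    rw [hyk] at h3
    calc k⁻¹ * x * k * z = k⁻¹ * (x * (k * z * k⁻¹)) * k := by group
      _ = k⁻¹ * (k * z * k⁻¹ * x) * k := by rw [← h3]
      _ = z * (k⁻¹ * x * k) := by group
  have hwM : w ∉ M := fun h => hkey w h g rfl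
  have hidx : M.relIndex (Q : Subgroup G) = 2 := by
    have h3 : M.relIndex (Q : Subgroup G) * (Q : Subgroup G).index = M.index := relIndex_mul_index hQ
    have h4 : M.relIndex D * D.index = M.index := relIndex_mul_index hMD
    have h5 : ¬ 2 ∣ M.relIndex D := by
      have h6 : M.subgroupOf D = (R : Subgroup D) := by
        rw [hM, subgroupOf, comap_map_eq_self_of_injective D.subtype_injective]
      rw [relIndex, h6]
      exact R.not_dvd_index
    have h6 : ¬ 4 ∣ M.relIndex (Q : Subgroup G) := by
      intro h7
      have h8 : 4 ∣ M.relIndex D * D.index := by rw [h4, ← h3]; exact h7.mul_right _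
      have h9 : Nat.Coprime 4 (M.relIndex D) := by
        rw [show (4 : ℕ) = 2 ^ 2 by norm_num]
        exact Nat.Coprime.pow_left 2 ((Nat.Prime.coprime_iff_not_dvd Nat.prime_two).2 h5)
      exact hcon x (h9.dvd_of_dvd_mul_left h8)
    obtain ⟨n, hn⟩ := IsPGroup.iff_card.1 Q.isPGroup'
    have h7 : M.relIndex (Q : Subgroup G) ∣ 2 ^ n := by
      rw [← hn]; exact relIndex_dvd_card _ _
    obtain ⟨m, hm, hm2⟩ := (Nat.dvd_prime_pow Nat.prime_two).1 h7
    have hm1 : m ≠ 0 := by
      rintro rfl
      rw [pow_zero, relIndex_eq_one] at hm2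
      exact hwM (hm2 hwQ)
    have hm3 : m < 2 := by
      by_contra h8
      rw [not_lt] at h8
      apply h6
      rw [hm2]
      exact pow_dvd_pow 2 h8
    have : m = 1 := by omega
    rw [hm2, this, pow_one]
  have hodd : Odd (Q : Subgroup G).index := by
    rw [← Nat.not_even_iff_odd, even_iff_two_dvd]
    exact Q.not_dvd_index
  obtain ⟨K, hK, hK2, hwK⟩ := Cfsg.Agent.H19.Transfer.thompson hodd hidx w ⟨1, by rw [hwo, pow_one]⟩ (by
    intro k _ h3
    apply hkey _ h3 (k⁻¹ * g)
    rw [hw]; group) (by
    intro k j _
    have h3 : w ^ (2 ^ (j + 1)) = 1 := by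
      rw [pow_succ, mul_comm, pow_mul, ← hwo, pow_orderOf_eq_one, one_pow]
    rw [h3, mul_one, inv_mul_cancel]
    exact M.one_mem)
  exact Cfsg.Agent.H19.Transfer.no_index_two hG K hK2

/-- the class size condition passes to normal subgroups and quotients -/
theorem solvable_of_four (hFT : ∀ (G : Type u) [Group G] [Finite G], Odd (Nat.card G) → Group.IsSolvable G) (n : ℕ) :
    ∀ (G : Type u) [Group G] [Finite G], Nat.card G = n → (∀ x : G, ¬ 4 ∣ (centralizer ({x} : Set G)).index) → Group.IsSolvable G := by
  induction n using Nat.strong_induction_on with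
  | _ n ih =>
    intro G _ _ hn h
    by_contra hns
    haveI : Nontrivial G := by
      by_contra h1
      rw [not_nontrivial_iff_subsingleton] at h1
      exact hns inferInstance
    haveI : IsSimpleGroup G := by
      refine ⟨fun N hN => ?_⟩
      by_contra hcon
      rw [not_or] at hcon
      apply hns
      have h1 : Group.IsSolvable N := by
        apply ih (Nat.card N) _ N rfl
        · intro x h4
          apply h x
          have h5 : (centralizer ({x} : Set N)).index = (centralizer ({(x : G)} : Set G)).relIndex N := by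
            rw [relIndex]
            congr 1
            ext y
            rw [mem_centralizer_singleton_iff, mem_subgroupOf, mem_centralizer_singleton_iff]
            exact Subtype.ext_iff
          rw [h5] at h4
          exact h4.trans (Cfsg.Agent.H1.HC.relIndex_dvd_index_of_normal_right _ _)
        · rw [← hn]
          rcases lt_or_eq_of_le (Nat.le_of_dvd Nat.card_pos (Subgroup.card_subgroup_dvd_card N)) with h3 | h3
          · exact h3
          · exact absurd (Subgroup.eq_top_of_card_eq N h3) hcon.2
      have h2 : Group.IsSolvable (G ⧸ N) := by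
        apply ih (Nat.card (G ⧸ N)) _ (G ⧸ N) rfl
        · intro x h4
          obtain ⟨y, rfl⟩ := QuotientGroup.mk'_surjective N x
          apply h y
          refine h4.trans ?_
          have h5 : (centralizer ({y} : Set G)).map (QuotientGroup.mk' N) ≤ centralizer ({QuotientGroup.mk' N y} : Set (G ⧸ N)) := by
            rintro _ ⟨c, hc, rfl⟩
            rw [mem_centralizer_singleton_iff, ← map_mul, ← map_mul, mem_centralizer_singleton_iff.1 hc]
          exact (index_dvd_of_le h5).trans (index_map_dvd _ (QuotientGroup.mk'_surjective N))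
        · rw [← hn, Subgroup.card_eq_card_quotient_mul_card_subgroup N]
          have h3 : 1 < Nat.card N := by
            haveI : Nontrivial N := (Subgroup.nontrivial_iff_ne_bot N).2 hcon.1
            exact Finite.one_lt_card
          exact lt_mul_of_one_lt_right Nat.card_pos h3
      exact Group.isSolvable_of_ker_le_range N.subtype (QuotientGroup.mk' N) (by
        rw [QuotientGroup.ker_mk', Subgroup.range_subtype])
    have hnc : ¬ IsMulCommutative G := by
      intro hc
      exact hns (Group.isSolvable_of_comm fun a b => hc.is_comm.comm a b)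
    have heven : 2 ∣ Nat.card G := by
      by_contra h2
      exact hns (hFT G (Nat.odd_iff.2 (by omega)))
    haveI : Fact (Nat.Prime 2) := ⟨Nat.prime_two⟩
    obtain ⟨x, hx⟩ := exists_class hnc heven
    exact h x hx

end Cfsg.Agent.H9.FTc
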