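import Mathlib
import Cfsg.Agent.H9_Hup6
import Cfsg.Agent.S2904

set_option autoImplicit false

/-! H9_Hup7: Huppert's theorem on solvable transitive linear groups, part 7: arithmetic and the main theorem on configurations. -/

namespace Cfsg.Agent.H9.Hup

open Subgroup Module

theorem num_a {Q k d : ℕ} (hQ : 2 ≤ Q) (hk0 : 0 < k) (hk : k ≤ Q) (hd : 2 ≤ d) : ¬ (Q ^ d - 1 ∣ k * (Q - 1)) := by
  intro h
  have h1 : 0 < k * (Q - 1) := Nat.mul_pos hk0 (by omega)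
  have h2 := Nat.le_of_dvd h1 h
  have h3 : Q ^ 2 ≤ Q ^ d := Nat.pow_le_pow_right (by omega) hd
  obtain ⟨m, rfl⟩ : ∃ m, Q = m + 1 := ⟨Q - 1, by omega⟩
  have h4 : k * m ≤ (m + 1) * m := Nat.mul_le_mul_right _ hk
  simp only [Nat.add_sub_cancel] at h2
  have h5 : (m + 1) ^ 2 = (m + 1) * m + (m + 1) := by ring
  omega

theorem num_b {q : ℕ} (hq : q.Prime) (hq2 : 2 ∣ q - 1) (h : q ^ 2 - 1 ∣ 1 * (∏ i : Fin 2, (2 ^ 2 - 2 ^ (i : ℕ))) * 2 ^ 2 * (q - 1)) :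
    q ^ 2 ∈ ({9, 25, 49, 121, 529, 81} : Set ℕ) := by
  have h2 := hq.two_le
  obtain ⟨m, rfl⟩ : ∃ m, q = m + 1 := ⟨q - 1, by omega⟩
  simp only [Nat.add_sub_cancel] at hq2 h
  have hm : 0 < m := by omega
  have h3 : (m + 1) ^ 2 - 1 = (m + 2) * m := by
    have : (m + 1) ^ 2 = (m + 2) * m + 1 := by ring
    omega
  rw [h3] at h
  have h4 : m + 2 ∣ 24 := by
    have h5 : (1 * (∏ i : Fin 2, (2 ^ 2 - 2 ^ (i : ℕ))) * 2 ^ 2 : ℕ) = 24 := by decide
    rw [h5] at h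
    exact Nat.dvd_of_mul_dvd_mul_right hm h
  have h5 : m + 2 ≤ 24 := Nat.le_of_dvd (by norm_num) h4
  have h6 : m ≤ 22 := by omega
  interval_cases m <;> first | (exfalso; revert h4; decide) | (exfalso; revert hq2; decide) | (exfalso; revert hq; norm_num; done) | simp

theorem num_c {q : ℕ} (hq : q.Prime) (hq2 : 2 ∣ q - 1)
    (h : q ^ 4 - 1 ∣ 1 * (∏ i : Fin 4, (2 ^ 4 - 2 ^ (i : ℕ))) * 2 ^ 4 * (q - 1)) : q = 3 := by
  have h2 := hq.two_le
  obtain ⟨m, rfl⟩ : ∃ m, q = m + 1 := ⟨q - 1, by omega⟩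
  simp only [Nat.add_sub_cancel] at hq2 h
  have hm : 0 < m := by omega
  have h3 : (m + 1) ^ 4 - 1 = ((m + 2) * ((m + 1) ^ 2 + 1)) * m := by
    have : (m + 1) ^ 4 = ((m + 2) * ((m + 1) ^ 2 + 1)) * m + 1 := by ring
    omega
  rw [h3] at h
  have h5 : (1 * (∏ i : Fin 4, (2 ^ 4 - 2 ^ (i : ℕ))) * 2 ^ 4 : ℕ) = 2 ^ 10 * (9 * 7) * 5 := by decide
  rw [h5] at h
  have h4 : (m + 1) ^ 2 + 1 ∣ 2 ^ 10 * (9 * 7) * 5 :=
    (Dvd.intro_left _ rfl).trans (Nat.dvd_of_mul_dvd_mul_right hm h)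
  obtain ⟨c, rfl⟩ := hq2
  -- (2c+1)^2 + 1 = 2 * (2c^2 + 2c + 1)
  have h6 : (2 * c + 1) ^ 2 + 1 = 2 * (2 * c * (c + 1) + 1) := by ring
  rw [h6] at h4
  have h7 : 2 * c * (c + 1) + 1 ∣ 2 ^ 9 * (9 * 7) * 5 := by
    have : (2 ^ 10 * (9 * 7) * 5 : ℕ) = 2 * (2 ^ 9 * (9 * 7) * 5) := by norm_num
    rw [this] at h4
    exact Nat.dvd_of_mul_dvd_mul_left (by norm_num) h4
  have hcop2 : Nat.Coprime (2 * c * (c + 1) + 1) (2 ^ 9) := by
    apply Nat.Coprime.pow_right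
    rw [Nat.coprime_comm, Nat.coprime_two_left, Nat.odd_iff]
    have : 2 * c * (c + 1) = 2 * (c * (c + 1)) := by ring
    omega
  have hcop3 : Nat.Coprime (2 * c * (c + 1) + 1) 9 := by
    rw [show (9 : ℕ) = 3 ^ 2 by norm_num]
    apply Nat.Coprime.pow_right
    rw [Nat.coprime_comm]
    apply (Nat.Prime.coprime_iff_not_dvd Nat.prime_three).2
    intro hd
    have : c % 3 = 0 ∨ c % 3 = 1 ∨ c % 3 = 2 := by omega
    rw [Nat.dvd_iff_mod_eq_zero] at hd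
    rcases this with h8 | h8 | h8 <;> simp [Nat.add_mod, Nat.mul_mod, h8] at hd
  have hcop7 : Nat.Coprime (2 * c * (c + 1) + 1) 7 := by
    rw [Nat.coprime_comm]
    apply (Nat.Prime.coprime_iff_not_dvd (by norm_num)).2
    intro hd
    have : c % 7 = 0 ∨ c % 7 = 1 ∨ c % 7 = 2 ∨ c % 7 = 3 ∨ c % 7 = 4 ∨ c % 7 = 5 ∨ c % 7 = 6 := by omega
    rw [Nat.dvd_iff_mod_eq_zero] at hd
    rcases this with h8 | h8 | h8 | h8 | h8 | h8 | h8 <;> simp [Nat.add_mod, Nat.mul_mod, h8] at hd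
  have h8 : 2 * c * (c + 1) + 1 ∣ 5 :=
    ((hcop2.mul_right (hcop3.mul_right hcop7)).dvd_mul_left).1 h7
  have h9 := Nat.le_of_dvd (by norm_num) h8
  have h10 : c ≤ 1 := by nlinarith
  interval_cases c
  · omega
  · rfl

theorem num_d {q : ℕ} (hq : q.Prime) (hq2 : 2 ∣ q - 1)
    (h : q ^ 16 - 1 ∣ 1 * (∏ i : Fin 8, (2 ^ 8 - 2 ^ (i : ℕ))) * 2 ^ 8 * (q - 1)) : False := by
  have h2 := hq.two_le
  obtain ⟨m, rfl⟩ : ∃ m, q = m + 1 := ⟨q - 1, by omega⟩
  simp only [Nat.add_sub_cancel] at hq2 h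
  have hm : 0 < m := by omega
  have h3 : (m + 1) ^ 16 - 1 = (((m + 2) * ((m + 1) ^ 2 + 1) * ((m + 1) ^ 4 + 1)) * ((m + 1) ^ 8 + 1)) * m := by
    have : (m + 1) ^ 16 = (((m + 2) * ((m + 1) ^ 2 + 1) * ((m + 1) ^ 4 + 1)) * ((m + 1) ^ 8 + 1)) * m + 1 := by ring
    omega
  rw [h3] at h
  have h5 : (1 * (∏ i : Fin 8, (2 ^ 8 - 2 ^ (i : ℕ))) * 2 ^ 8 : ℕ) = 2 ^ 36 * (3 ^ 5 * (5 ^ 2 * (7 ^ 2 * (31 * 127)))) * 17 := by
    simp only [Fin.prod_univ_eight]
    norm_num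
  rw [h5] at h
  have h4 : (m + 1) ^ 8 + 1 ∣ 2 ^ 36 * (3 ^ 5 * (5 ^ 2 * (7 ^ 2 * (31 * 127)))) * 17 :=
    (Dvd.intro_left _ rfl).trans (Nat.dvd_of_mul_dvd_mul_right hm h)
  have hcop : ∀ l : ℕ, l.Prime → (∀ x : ZMod l, x ^ 8 + 1 ≠ 0) → Nat.Coprime ((m + 1) ^ 8 + 1) l := by
    intro l hl hx
    rw [Nat.coprime_comm]
    apply (Nat.Prime.coprime_iff_not_dvd hl).2
    intro hd
    apply hx ((m + 1 : ℕ) : ZMod l)
    rw [← ZMod.natCast_eq_zero_iff] at hd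
    push_cast at hd ⊢
    exact hd
  have c3 := hcop 3 (by norm_num) (by decide)
  have c5 := hcop 5 (by norm_num) (by decide)
  have c7 := hcop 7 (by norm_num) (by decide)
  have c31 := hcop 31 (by norm_num) (by decide +kernel)
  have c127 := hcop 127 (by norm_num) (by decide +kernel)
  obtain ⟨c, hc⟩ := hq2
  subst hc
  have h6 : (2 * c + 1) ^ 8 + 1 = 2 * (2 * (64 * (c * (c + 1)) ^ 4 + 64 * (c * (c + 1)) ^ 3 + 24 * (c * (c + 1)) ^ 2 + 4 * (c * (c + 1))) + 1) := by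
    ring
  set e := 64 * (c * (c + 1)) ^ 4 + 64 * (c * (c + 1)) ^ 3 + 24 * (c * (c + 1)) ^ 2 + 4 * (c * (c + 1)) with he
  have hle : 2 * e + 1 ∣ (2 * c + 1) ^ 8 + 1 := by rw [h6]; exact Dvd.intro_left _ rfl
  have h7 : 2 * e + 1 ∣ 2 ^ 35 * (3 ^ 5 * (5 ^ 2 * (7 ^ 2 * (31 * 127)))) * 17 := by
    have h8 : (2 ^ 36 * (3 ^ 5 * (5 ^ 2 * (7 ^ 2 * (31 * 127)))) * 17 : ℕ) = 2 * (2 ^ 35 * (3 ^ 5 * (5 ^ 2 * (7 ^ 2 * (31 * 127)))) * 17) := by
      norm_num
    rw [h6, h8] at h4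
    exact Nat.dvd_of_mul_dvd_mul_left (by norm_num) h4
  have d2 : Nat.Coprime (2 * e + 1) (2 ^ 35) := by
    apply Nat.Coprime.pow_right
    rw [Nat.coprime_comm, Nat.coprime_two_left, Nat.odd_iff]
    omega
  have d3 := (Nat.Coprime.coprime_dvd_left hle c3).pow_right 5
  have d5 := (Nat.Coprime.coprime_dvd_left hle c5).pow_right 2
  have d7 := (Nat.Coprime.coprime_dvd_left hle c7).pow_right 2
  have d31 := Nat.Coprime.coprime_dvd_left hle c31
  have d127 := Nat.Coprime.coprime_dvd_left hle c127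
  have h8 : 2 * e + 1 ∣ 17 :=
    ((d2.mul_right (d3.mul_right (d5.mul_right (d7.mul_right (d31.mul_right d127))))).dvd_mul_left).1 h7
  have h9 := Nat.le_of_dvd (by norm_num) h8
  have h10 : 1 ≤ c := by omega
  have h11 : 3 ^ 8 ≤ (2 * c + 1) ^ 8 := Nat.pow_le_pow_left (by omega) 8
  norm_num at h11
  omega

theorem prod_le (i : ℕ) : (∏ j : Fin (2 * i), (2 ^ (2 * i) - 2 ^ (j : ℕ))) ≤ 2 ^ (2 * i * (2 * i)) := by
  calc (∏ j : Fin (2 * i), (2 ^ (2 * i) - 2 ^ (j : ℕ))) ≤ ∏ _j : Fin (2 * i), 2 ^ (2 * i) :=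
        Finset.prod_le_prod' fun j _ => Nat.sub_le _ _
    _ = 2 ^ (2 * i * (2 * i)) := by
        rw [Finset.prod_const, Finset.card_univ, Fintype.card_fin, ← pow_mul]

theorem exp_big (i : ℕ) (hi : 8 ≤ i) : 2 * i * (2 * i) + 2 * i + 3 ≤ 3 * 2 ^ (i - 1) := by
  induction i, hi using Nat.le_induction with
  | base => norm_num
  | succ n hn ih =>
    have h1 : n + 1 - 1 = (n - 1) + 1 := by omega
    rw [h1, pow_succ]
    nlinarith

theorem num_e {q i : ℕ} (hq : q.Prime) (hq2 : 2 ∣ q - 1) (hi : 8 ≤ i)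
    (h : q ^ (2 ^ i) - 1 ∣ 1 * (∏ j : Fin (2 * i), (2 ^ (2 * i) - 2 ^ (j : ℕ))) * 2 ^ (2 * i) * (q - 1)) : False := by
  have h2 := hq.two_le
  have hq3 : 3 ≤ q := by
    by_contra hcon
    have : q = 2 := by omega
    subst this
    norm_num at hq2
  have hpos : 0 < 1 * (∏ j : Fin (2 * i), (2 ^ (2 * i) - 2 ^ (j : ℕ))) * 2 ^ (2 * i) * (q - 1) := by
    apply Nat.mul_pos _ (by omega)
    apply Nat.mul_pos _ (by positivity)
    rw [one_mul]
    apply Finset.prod_pos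
    intro j _
    have : 2 ^ (j : ℕ) < 2 ^ (2 * i) := Nat.pow_lt_pow_right (by norm_num) j.2
    omega
  have h3 := Nat.le_of_dvd hpos h
  rw [one_mul] at h3
  have h4 := prod_le i
  have hbig := exp_big i hi
  -- exponent
  obtain ⟨m, hm⟩ : ∃ m, 2 ^ i = 2 * m + 2 ∧ 3 * m = 3 * 2 ^ (i - 1) - 3 := by
    refine ⟨2 ^ (i - 1) - 1, ?_, ?_⟩
    · have h5 : 2 ^ i = 2 ^ (i - 1) * 2 := by rw [← pow_succ, Nat.sub_add_cancel (by omega)]
      have h6 : 1 ≤ 2 ^ (i - 1) := Nat.one_le_two_pow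
      omega
    · have h6 : 1 ≤ 2 ^ (i - 1) := Nat.one_le_two_pow
      omega
  obtain ⟨hm1, hm2⟩ := hm
  have h5 : q ^ (2 ^ i) - 1 ≥ (q - 1) * q ^ (2 * m + 1) := by
    rw [hm1, pow_succ q (2 * m + 1)]
    obtain ⟨t, rfl⟩ : ∃ t, q = t + 1 := ⟨q - 1, by omega⟩
    have h6 : 1 ≤ (t + 1) ^ (2 * m + 1) := Nat.one_le_pow _ _ (by omega)
    have h7 : (t + 1) ^ (2 * m + 1) * (t + 1) = t * (t + 1) ^ (2 * m + 1) + (t + 1) ^ (2 * m + 1) := by ring
    simp only [Nat.add_sub_cancel]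
    omega
  have h6 : (q - 1) * q ^ (2 * m + 1) ≤ (q - 1) * (2 ^ (2 * i * (2 * i)) * 2 ^ (2 * i)) := by
    calc (q - 1) * q ^ (2 * m + 1) ≤ q ^ (2 ^ i) - 1 := h5
      _ ≤ _ := h3
      _ ≤ 2 ^ (2 * i * (2 * i)) * 2 ^ (2 * i) * (q - 1) := Nat.mul_le_mul_right _ (Nat.mul_le_mul_right _ h4)
      _ = _ := by ring
  have h7 := Nat.le_of_mul_le_mul_left h6 (by omega)
  have h8 : 3 ^ (2 * m + 1) ≤ q ^ (2 * m + 1) := Nat.pow_le_pow_left hq3 _
  have h9 : 2 ^ (3 * m + 1) ≤ 3 ^ (2 * m + 1) := by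
    rw [pow_succ, pow_succ, pow_mul, pow_mul]
    exact Nat.mul_le_mul (Nat.pow_le_pow_left (by norm_num) m) (by norm_num)
  rw [← pow_add] at h7
  have h10 : 2 ^ (3 * m + 1) ≤ 2 ^ (2 * i * (2 * i) + 2 * i) := h9.trans (h8.trans h7)
  have h11 := (Nat.pow_le_pow_iff_right (by norm_num)).1 h10
  omega

variable {q : ℕ} {K V G : Type*} [Field K] [Algebra (ZMod q) K] [AddCommGroup V] [Module K V] [Group G]
    {f : G →* AddMonoid.End V} {A : Subgroup G} {σ : G →* (K ≃ₐ[ZMod q] K)} {φ : A →* Kˣ}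

/-- main theorem on configurations -/
theorem main [Fact q.Prime] [Finite G] [Finite K] [Finite V] [Nontrivial V] (hsol : Group.IsSolvable G)
    (h : Cf q f A σ φ) : finrank K V = 1 ∨ Nat.card V ∈ ({9, 25, 49, 121, 529, 81} : Set ℕ) := by
  have hq : q.Prime := Fact.out
  have hq2 := hq.two_le
  haveI : FiniteDimensional K V := Module.Finite.of_finite
  haveI : FiniteDimensional (ZMod q) K := Module.Finite.of_finite
  by_cases hd1 : finrank K V = 1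
  · exact Or.inl hd1
  right
  have hd0 : 0 < finrank K V := finrank_pos
  have hk0 : 0 < finrank (ZMod q) K := finrank_pos
  have hK := card_pow (q := q) (K := K)
  have hVK := Module.natCard_eq_pow_finrank (K := K) (V := V)
  set d := finrank K V with hd
  set k := finrank (ZMod q) K with hk
  have hd2 : 2 ≤ d := by omega
  have hV : Nat.card V = q ^ (k * d) := by rw [hVK, hK, pow_mul]
  have hVG := card_V_dvd h
  have hQ2 : 2 ≤ q ^ k := by
    calc 2 ≤ q := hq2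
      _ = q ^ 1 := (pow_one q).symm
      _ ≤ q ^ k := Nat.pow_le_pow_right (by omega) hk0
  have hkQ : k ≤ q ^ k := (Nat.lt_pow_self hq.one_lt).le
  by_cases hA : A = σ.ker
  · exfalso
    have h1 := card_G_eq_ker h hA
    apply num_a hQ2 hk0 hkQ hd2
    rw [pow_mul] at hV
    rw [← hV, ← hK]
    exact hVG.trans h1
  obtain ⟨B, r, hB⟩ := exists_Bd hsol h hA
  obtain ⟨s, hs2, hs⟩ := hB.exists_pow h
  have hcard := hB.card_le h
  rw [hs, ← hd] at hcard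
  have hrK := hB.r_dvd h
  rw [hK] at hrK
  have hr2 := hB.pr.two_le
  have hrd : r ≤ d := by
    have h1 : r ^ 2 ≤ d ^ 2 := (Nat.pow_le_pow_right (by omega) hs2).trans hcard
    exact (Nat.pow_le_pow_iff_left (by norm_num)).1 h1
  have hord : ∀ {s' : ℕ}, s = s' → r ^ s' = d ^ 2 → q ^ (k * d) - 1 ∣ k * (∏ i : Fin s', (r ^ s' - r ^ (i : ℕ))) * r ^ s' * (q ^ k - 1) := by
    intro s' hss' h1
    subst hss'
    have h2 := card_G_dvd h hB hs (by rw [h1])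
    rw [← hV, ← hK]
    exact hVG.trans h2
  by_cases hn2 : k * d = 2
  · -- dimension two
    have hkd : k = 1 ∧ d = 2 := by
      have : d ≤ k * d := Nat.le_mul_of_pos_left _ hk0
      have h1 : d = 2 := by omega
      rw [h1] at hn2
      exact ⟨by omega, h1⟩
    obtain ⟨hk1, hd2'⟩ := hkd
    have hr : r = 2 := by omega
    have hs' : s = 2 := by
      rw [hr, hd2'] at hcard
      have := (Nat.pow_le_pow_iff_right (by norm_num : 1 < 2)).1 hcard
      omega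
    have h1 := hord hs' (by rw [hr, hd2'])
    rw [hV, hk1, hd2', one_mul]
    rw [hk1, hd2', hr, one_mul, pow_one] at h1
    rw [hr, hk1, pow_one] at hrK
    exact num_b hq hrK h1
  have hn3 : 3 ≤ k * d := by
    have : d ≤ k * d := Nat.le_mul_of_pos_left _ hk0
    omega
  by_cases h64 : q = 2 ∧ k * d = 6
  · exfalso
    obtain ⟨hq', hkd⟩ := h64
    have hdd : d ∣ 6 := Dvd.intro_left _ hkd
    have hd6 : d ≤ 6 := Nat.le_of_dvd (by norm_num) hdd
    subst hq'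
    interval_cases hdv : d
    · -- d = 2
      have : k = 3 := by omega
      rw [this] at hrK
      norm_num at hrK
      have := (Nat.prime_dvd_prime_iff_eq hB.pr (by norm_num)).1 hrK
      omega
    · have hk2 : k = 2 := by omega
      rw [hk2] at hrK
      norm_num at hrK
      have hr3 := (Nat.prime_dvd_prime_iff_eq hB.pr (by norm_num)).1 hrK
      have hs' : s = 2 := by
        rw [hr3] at hcard
        have := (Nat.pow_le_pow_iff_right (by norm_num : 1 < 3)).1 hcard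
        omega
      have h1 := hord hs' (by rw [hr3])
      rw [hk2, hr3] at h1
      revert h1
      decide
    · omega
    · omega
    · have hk1 : k = 1 := by omega
      rw [hk1] at hrK
      norm_num at hrK
      omega
  -- Zsigmondy
  obtain ⟨p, hp, hpd, hpn⟩ := Cfsg.Agent.S2904.result q (k * d) hq.one_lt (by omega) h64 (by omega)
  have hz : Zs p q (k * d) := ⟨hp, hq, by omega, hpd, hpn⟩
  haveI := Fact.mk hp
  obtain ⟨x, hx⟩ := exists_prime_orderOf_dvd_card' (G := G) p (by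
    rw [hV] at hVG
    exact hpd.trans hVG)
  have hxp : x ^ p = 1 := by rw [← hx]; exact pow_orderOf_eq_one x
  have hx1 : x ≠ 1 := by
    rintro rfl
    rw [orderOf_one] at hx
    exact hp.one_lt.ne hx
  obtain ⟨i, h1, h2, h3, h4⟩ := zel h hB hz hV hxp hx1
  rw [← hd] at h1 h4
  have hk1 : k = 1 := by
    rw [h1] at h2
    have : 0 < r ^ i := Nat.pow_pos hB.pr.pos
    exact Nat.eq_of_mul_eq_mul_right this (by rw [h2, one_mul])
  have hdi : d = r ^ i := h1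
  have hrr : r = 2 := by
    by_contra hcon
    have hro : Odd r := hB.pr.odd_of_ne_two hcon
    have h5 : Odd (r ^ i) := hro.pow
    have h6 : Even p := by rw [h3]; exact h5.add_one
    have h7 : p = 2 := (Nat.Prime.even_iff hp).1 h6
    rw [hk1, one_mul, hdi] at hn3
    omega
  subst hrr
  rw [hk1, pow_one] at hrK
  have hs' : s = 2 * i := by
    rw [hs, hdi, ← pow_mul] at h4
    have := Nat.pow_right_injective (le_refl 2) h4
    omega
  have h5 := hord hs' (by rw [hdi, ← pow_mul, mul_comm])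
  rw [hk1, one_mul, hdi, pow_one] at h5
  rw [hV, hk1, one_mul, hdi]
  have hi2 : 2 ≤ i := by
    by_contra hcon
    have : i = 0 ∨ i = 1 := by omega
    rcases this with h6 | h6 <;> rw [hk1, one_mul, hdi, h6] at hn3 <;> norm_num at hn3
  rw [h3] at hp
  rcases (show i = 2 ∨ i = 3 ∨ i = 4 ∨ i = 5 ∨ i = 6 ∨ i = 7 ∨ 8 ≤ i by omega) with h6 | h6 | h6 | h6 | h6 | h6 | h6
  · subst h6
    have := num_c hq hrK h5
    rw [this]; norm_num
  · exfalso; subst h6; revert hp; norm_num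
  · exfalso; subst h6; exact num_d hq hrK h5
  · exfalso; subst h6; revert hp; norm_num
  · exfalso; subst h6; revert hp; norm_num
  · exfalso; subst h6; revert hp; norm_num
  · exfalso; exact num_e hq hrK h6 h5

end Cfsg.Agent.H9.Hup
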