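import Mathlib
import Cfsg.Agent.H9_Hup7

set_option autoImplicit false

/-! H9_Hup8: Huppert's theorem on solvable transitive linear groups, part 8: construction of the configuration. -/

namespace Cfsg.Agent.H9.Hup

open Subgroup Module

variable {q : ℕ} {V G : Type*} [AddCommGroup V] [Module (ZMod q) V] [Group G]

/-- the cyclic submodule generated by a vector -/
def orb (K0 : Subalgebra (ZMod q) (Module.End (ZMod q) V)) (v : V) : AddSubgroup V where
  carrier := {w | ∃ k ∈ K0, k v = w}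
  zero_mem' := ⟨0, K0.zero_mem, rfl⟩
  add_mem' := by
    rintro _ _ ⟨k, hk, rfl⟩ ⟨l, hl, rfl⟩
    exact ⟨k + l, K0.add_mem hk hl, rfl⟩
  neg_mem' := by
    rintro _ ⟨k, hk, rfl⟩
    exact ⟨-k, K0.neg_mem hk, rfl⟩

theorem mem_orb {K0 : Subalgebra (ZMod q) (Module.End (ZMod q) V)} {v w : V} : w ∈ orb K0 v ↔ ∃ k ∈ K0, k v = w := Iff.rfl

theorem ker_zero [Finite V] (f₁ : G →* Module.End (ZMod q) V) (K0 : Subalgebra (ZMod q) (Module.End (ZMod q) V))
    (hc : ∀ a ∈ K0, ∀ b ∈ K0, a * b = b * a) (hn : ∀ g, ∀ k ∈ K0, f₁ g * k * f₁ g⁻¹ ∈ K0)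
    (htr : ∀ v w : V, v ≠ 0 → w ≠ 0 → ∃ g, f₁ g v = w) (k : Module.End (ZMod q) V) (hk : k ∈ K0) (hk0 : k ≠ 0)
    (v : V) (hv : k v = 0) : v = 0 := by
  have hinv : ∀ g v, f₁ g⁻¹ (f₁ g v) = v := by
    intro g v
    have : (f₁ g⁻¹ * f₁ g) v = v := by rw [← map_mul, inv_mul_cancel, map_one]; rfl
    exact this
  have hle : ∀ g v, Nat.card (orb K0 v) ≤ Nat.card (orb K0 (f₁ g v)) := by
    intro g v
    apply Nat.card_le_card_of_injective (fun w : orb K0 v => (⟨f₁ g w, by
      obtain ⟨k, hk, hkw⟩ := w.2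
      refine ⟨f₁ g * k * f₁ g⁻¹, hn g k hk, ?_⟩
      change f₁ g (k (f₁ g⁻¹ (f₁ g v))) = _
      rw [hinv, hkw]⟩ : orb K0 (f₁ g v)))
    intro w w' hww
    apply Subtype.ext
    have := congrArg Subtype.val hww
    simp only at this
    rw [← hinv g w, this, hinv]
  have hcard : ∀ v w : V, v ≠ 0 → w ≠ 0 → Nat.card (orb K0 v) = Nat.card (orb K0 w) := by
    intro v w hv hw
    obtain ⟨g, rfl⟩ := htr v w hv hw
    obtain ⟨g', hg'⟩ := htr _ v hw hv
    apply le_antisymm (hle g v)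
    have := hle g' (f₁ g v)
    rwa [hg'] at this
  have hself : ∀ v, v ∈ orb K0 v := fun v => ⟨1, K0.one_mem, rfl⟩
  have hsub : ∀ v w, w ∈ orb K0 v → orb K0 w ≤ orb K0 v := by
    rintro v _ ⟨k, hk, rfl⟩ _ ⟨l, hl, rfl⟩
    exact ⟨l * k, K0.mul_mem hl hk, rfl⟩
  have heq : ∀ v w, v ≠ 0 → w ≠ 0 → w ∈ orb K0 v → orb K0 w = orb K0 v := by
    intro v w hv hw h
    exact AddSubgroup.eq_of_le_of_card_ge (hsub v w h) (hcard v w hv hw).le
  by_contra hv0
  obtain ⟨w, hw⟩ : ∃ w, k w ≠ 0 := by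
    by_contra hcon
    push Not at hcon
    exact hk0 (LinearMap.ext hcon)
  have hw0 : w ≠ 0 := by rintro rfl; exact hw (map_zero k)
  have hkvw : k (v + w) = k w := by rw [map_add, hv, zero_add]
  have hvw : v + w ≠ 0 := by
    intro h
    rw [h, map_zero] at hkvw
    exact hw hkvw.symm
  have h1 := heq w (k w) hw0 hw ⟨k, hk, rfl⟩
  have h2 := heq (v + w) (k w) hvw hw ⟨k, hk, hkvw⟩
  have h3 : v + w ∈ orb K0 w := by rw [← h1, h2]; exact hself _
  have h4 : v ∈ orb K0 w := by
    have := (orb K0 w).sub_mem h3 (hself w)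
    rwa [add_sub_cancel_right] at this
  have h5 := heq w v hw0 hv0 h4
  have h6 : w ∈ orb K0 v := by rw [h5]; exact hself w
  obtain ⟨l, hl, hlv⟩ := h6
  apply hw
  rw [← hlv]
  have h7 := DFunLike.congr_fun (hc k hk l hl) v
  change k (l v) = l (k v) at h7
  rw [h7, hv, map_zero]

/-- a finite commutative subalgebra without zero divisors is a Galois field -/
theorem exists_gf [Fact q.Prime] {E : Type*} [Ring E] [Nontrivial E] [Algebra (ZMod q) E] (K0 : Subalgebra (ZMod q) E) [Finite K0]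
    (hc : ∀ a ∈ K0, ∀ b ∈ K0, a * b = b * a) (hd : ∀ a ∈ K0, ∀ b ∈ K0, a * b = 0 → a = 0 ∨ b = 0) :
    ∃ (k : ℕ) (ι : GaloisField q k →ₐ[ZMod q] E), k ≠ 0 ∧ ι.range = K0 := by
  classical
  haveI : Fintype K0 := Fintype.ofFinite K0
  letI cr : CommRing K0 := { (inferInstance : Ring K0) with mul_comm := fun a b => Subtype.ext (hc a a.2 b b.2) }
  haveI : NoZeroDivisors K0 := ⟨fun {a b} h => by
    rcases hd a a.2 b b.2 (congrArg Subtype.val h) with h1 | h1
    · exact Or.inl (Subtype.ext h1)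
    · exact Or.inr (Subtype.ext h1)⟩
  haveI : IsDomain K0 := NoZeroDivisors.to_isDomain K0
  letI fl : Field K0 := Fintype.fieldOfDomain K0
  have hfd : FiniteDimensional (ZMod q) K0 := Module.Finite.of_finite
  have hcard := Module.natCard_eq_pow_finrank (K := ZMod q) (V := K0)
  rw [Nat.card_zmod] at hcard
  have hk : finrank (ZMod q) K0 ≠ 0 := finrank_pos.ne'
  have hcard2 : Nat.card (GaloisField q (finrank (ZMod q) K0)) = Nat.card K0 := by
    rw [GaloisField.card q _ hk, hcard]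
  haveI : Fintype (GaloisField q (finrank (ZMod q) K0)) := Fintype.ofFinite _
  let e : GaloisField q (finrank (ZMod q) K0) ≃+* K0 := FiniteField.ringEquivOfCardEq (by
    rw [← Nat.card_eq_fintype_card, ← Nat.card_eq_fintype_card, hcard2])
  let ι₀ : GaloisField q (finrank (ZMod q) K0) →+* E := K0.val.toRingHom.comp e.toRingHom
  have hcomm : ∀ r, ι₀ (algebraMap (ZMod q) (GaloisField q (finrank (ZMod q) K0)) r) = algebraMap (ZMod q) E r := by
    intro r
    have h1 : (ι₀.comp (algebraMap (ZMod q) (GaloisField q (finrank (ZMod q) K0)))) = algebraMap (ZMod q) E := RingHom.ext_zmod _ _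
    exact DFunLike.congr_fun h1 r
  let ι : GaloisField q (finrank (ZMod q) K0) →ₐ[ZMod q] E := { ι₀ with commutes' := hcomm }
  refine ⟨_, ι, hk, ?_⟩
  ext x
  constructor
  · rintro ⟨y, rfl⟩
    exact (e y).2
  · intro hx
    exact ⟨e.symm ⟨x, hx⟩, congrArg Subtype.val (e.apply_symm_apply ⟨x, hx⟩)⟩

/-- construction of the configuration -/
theorem exists_cf [Fact q.Prime] [Finite V] [Nontrivial V] [Finite G] (f₁ : G →* Module.End (ZMod q) V)
    (hinj : Function.Injective f₁) (htr : ∀ v w : V, v ≠ 0 → w ≠ 0 → ∃ g, f₁ g v = w) :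
    ∃ (k : ℕ) (_ : k ≠ 0) (ι : GaloisField q k →ₐ[ZMod q] Module.End (ZMod q) V) (f : G →* AddMonoid.End V) (A : Subgroup G)
      (σ : G →* (GaloisField q k ≃ₐ[ZMod q] GaloisField q k)) (φ : A →* (GaloisField q k)ˣ),
      letI : Module (GaloisField q k) V := Module.compHom V ι.toRingHom
      (∀ g v, f g v = f₁ g v) ∧ Cf q f A σ φ := by
  classical
  haveI : Finite (Module.End (ZMod q) V) := Finite.of_injective (fun T : Module.End (ZMod q) V => (T : V → V)) DFunLike.coe_injective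
  -- maximal abelian normal subgroup
  obtain ⟨A, hA⟩ := (Set.toFinite {A : Subgroup G | A.Normal ∧ ∀ x ∈ A, ∀ y ∈ A, x * y = y * x}).exists_maximal
    ⟨⊥, inferInstance, by
      intro x hx y hy
      rw [mem_bot.1 hx, mem_bot.1 hy]⟩
  obtain ⟨hAn, hAc⟩ := hA.prop
  let K0 : Subalgebra (ZMod q) (Module.End (ZMod q) V) := Algebra.adjoin (ZMod q) (f₁ '' (A : Set G))
  have hmemA : ∀ a ∈ A, f₁ a ∈ K0 := fun a ha => Algebra.subset_adjoin ⟨a, ha, rfl⟩
  have hcent : ∀ g : G, (∀ a ∈ A, a * g = g * a) → ∀ k ∈ K0, k * f₁ g = f₁ g * k := by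
    intro g hg k hk
    induction hk using Algebra.adjoin_induction with
    | mem x hx =>
      obtain ⟨a, ha, rfl⟩ := hx
      rw [← map_mul, ← map_mul, hg a ha]
    | algebraMap r => exact Algebra.commutes r _
    | add x y _ _ hx hy => rw [add_mul, mul_add, hx, hy]
    | mul x y _ _ hx hy => rw [mul_assoc, hy, ← mul_assoc, hx, mul_assoc]
  have hc : ∀ a ∈ K0, ∀ b ∈ K0, a * b = b * a := by
    intro a ha b hb
    induction hb using Algebra.adjoin_induction with
    | mem x hx =>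
      obtain ⟨c, hcA, rfl⟩ := hx
      exact hcent c (fun a' ha' => hAc a' ha' c hcA) a ha
    | algebraMap r => exact (Algebra.commutes r _).symm
    | add x y _ _ hx hy => rw [add_mul, mul_add, hx, hy]
    | mul x y _ _ hx hy => rw [← mul_assoc, hx, mul_assoc, hy, mul_assoc]
  have hinv : ∀ g, f₁ g⁻¹ * f₁ g = 1 := fun g => by rw [← map_mul, inv_mul_cancel, map_one]
  have hinv' : ∀ g, f₁ g * f₁ g⁻¹ = 1 := fun g => by rw [← map_mul, mul_inv_cancel, map_one]
  have hn : ∀ g, ∀ k ∈ K0, f₁ g * k * f₁ g⁻¹ ∈ K0 := by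
    intro g k hk
    induction hk using Algebra.adjoin_induction with
    | mem x hx =>
      obtain ⟨a, ha, rfl⟩ := hx
      rw [← map_mul, ← map_mul]
      exact hmemA _ (hAn.conj_mem a ha g)
    | algebraMap r =>
      rw [← Algebra.commutes r (f₁ g), mul_assoc, hinv', mul_one]
      exact K0.algebraMap_mem r
    | add x y _ _ hx hy => rw [mul_add, add_mul]; exact K0.add_mem hx hy
    | mul x y _ _ hx hy =>
      have h1 : f₁ g * (x * y) * f₁ g⁻¹ = (f₁ g * x * f₁ g⁻¹) * (f₁ g * y * f₁ g⁻¹) := by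
        calc f₁ g * (x * y) * f₁ g⁻¹ = f₁ g * x * 1 * y * f₁ g⁻¹ := by simp only [mul_one, mul_assoc]
          _ = f₁ g * x * (f₁ g⁻¹ * f₁ g) * y * f₁ g⁻¹ := by rw [hinv]
          _ = _ := by simp only [mul_assoc]
      rw [h1]
      exact K0.mul_mem hx hy
  have hker := ker_zero f₁ K0 hc hn htr
  have hd : ∀ a ∈ K0, ∀ b ∈ K0, a * b = 0 → a = 0 ∨ b = 0 := by
    intro a ha b hb hab
    by_cases h0 : a = 0
    · exact Or.inl h0
    right
    ext v
    exact hker a ha h0 (b v) (DFunLike.congr_fun hab v)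
  haveI : Finite K0 := Finite.of_injective (fun x : K0 => (x : Module.End (ZMod q) V)) Subtype.val_injective
  obtain ⟨k, ι, hk, hι⟩ := exists_gf K0 hc hd
  have hιinj : Function.Injective ι := ι.toRingHom.injective
  have hιK : ∀ y, ι y ∈ K0 := fun y => by rw [← hι]; exact ⟨y, rfl⟩
  -- σ
  have hs : ∀ g y, ∃ z, ι z = f₁ g * ι y * f₁ g⁻¹ := by
    intro g y
    have : f₁ g * ι y * f₁ g⁻¹ ∈ ι.range := by rw [hι]; exact hn g _ (hιK y)
    exact this
  choose s hs using hs
  have hinvs : ∀ g y, s g⁻¹ (s g y) = y := by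
    intro g y
    apply hιinj
    rw [hs, hs, inv_inv]
    calc f₁ g⁻¹ * (f₁ g * ι y * f₁ g⁻¹) * f₁ g = (f₁ g⁻¹ * f₁ g) * ι y * (f₁ g⁻¹ * f₁ g) := by simp only [mul_assoc]
      _ = ι y := by rw [hinv, one_mul, mul_one]
  let σ : G →* (GaloisField q k ≃ₐ[ZMod q] GaloisField q k) :=
    { toFun := fun g =>
        { toFun := s g
          invFun := s g⁻¹
          left_inv := hinvs g
          right_inv := fun y => by
            have := hinvs g⁻¹ y
            rwa [inv_inv] at this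
          map_mul' := fun x y => by
            apply hιinj
            rw [hs, map_mul, map_mul, hs, hs]
            calc f₁ g * (ι x * ι y) * f₁ g⁻¹ = f₁ g * ι x * 1 * ι y * f₁ g⁻¹ := by simp only [mul_one, mul_assoc]
              _ = f₁ g * ι x * (f₁ g⁻¹ * f₁ g) * ι y * f₁ g⁻¹ := by rw [hinv]
              _ = _ := by simp only [mul_assoc]
          map_add' := fun x y => by
            apply hιinj
            rw [hs, map_add, map_add, hs, hs, mul_add, add_mul]
          commutes' := fun r => by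
            apply hιinj
            rw [hs, AlgHom.commutes, ← Algebra.commutes r (f₁ g), mul_assoc, hinv', mul_one] }
      map_one' := by
        ext y
        apply hιinj
        change ι (s 1 y) = ι y
        rw [hs, map_one, inv_one, map_one, one_mul, mul_one]
      map_mul' := fun g g' => by
        ext y
        apply hιinj
        change ι (s (g * g') y) = ι (s g (s g' y))
        rw [hs, hs, hs, mul_inv_rev, map_mul, map_mul]
        simp only [mul_assoc] }
  have hσ : ∀ g y, ι (σ g y) = f₁ g * ι y * f₁ g⁻¹ := hs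
  -- φ
  have hp : ∀ a : A, ∃ z, ι z = f₁ a := by
    intro a
    have : f₁ a ∈ ι.range := by rw [hι]; exact hmemA a a.2
    exact this
  choose t ht using hp
  let φ : A →* (GaloisField q k)ˣ := MonoidHom.toHomUnits
    { toFun := t
      map_one' := by
        apply hιinj
        rw [ht, map_one]
        exact map_one f₁
      map_mul' := fun a b => by
        apply hιinj
        rw [ht, map_mul, ht, ht]
        exact map_mul f₁ _ _ }
  have hφ : ∀ a : A, ι (φ a : GaloisField q k) = f₁ a := ht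
  let f : G →* AddMonoid.End V :=
    { toFun := fun g => (f₁ g).toAddMonoidHom
      map_one' := by rw [map_one]; rfl
      map_mul' := fun g g' => by rw [map_mul]; rfl }
  have hf : ∀ g v, f g v = f₁ g v := fun g v => rfl
  refine ⟨k, hk, ι, f, A, σ, φ, hf, ?_⟩
  letI : Module (GaloisField q k) V := Module.compHom V ι.toRingHom
  have hsm : ∀ (y : GaloisField q k) (v : V), y • v = ι y v := fun y v => rfl
  refine ⟨?_, ?_, ?_, ?_, hAn, ?_, htr⟩
  · intro g g' hgg
    apply hinj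
    ext v
    exact DFunLike.congr_fun hgg v
  · intro g y v
    rw [hsm, hsm, hf, hf, hσ]
    change f₁ g (ι y v) = f₁ g (ι y (f₁ g⁻¹ (f₁ g v)))
    have : f₁ g⁻¹ (f₁ g v) = v := DFunLike.congr_fun (hinv g) v
    rw [this]
  · intro a v
    rw [hsm, hf, hφ]
  · intro g
    constructor
    · intro h1 a ha
      apply hinj
      obtain ⟨z, hz⟩ : ∃ z, ι z = f₁ a := ⟨t ⟨a, ha⟩, ht ⟨a, ha⟩⟩
      have h2 := hσ g z
      rw [h1] at h2
      change ι z = f₁ g * ι z * f₁ g⁻¹ at h2
      rw [hz] at h2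
      rw [map_mul, map_mul]
      calc f₁ a * f₁ g = f₁ g * f₁ a * f₁ g⁻¹ * f₁ g := by rw [← h2]
        _ = f₁ g * f₁ a * (f₁ g⁻¹ * f₁ g) := by simp only [mul_assoc]
        _ = f₁ g * f₁ a := by rw [hinv, mul_one]
    · intro h1
      ext y
      apply hιinj
      rw [hσ, ← hcent g h1 (ι y) (hιK y), mul_assoc, hinv', mul_one]
      rfl
  · intro N hN hNc hAN
    exact le_antisymm (hA.le_of_ge ⟨hN, hNc⟩ hAN) hAN

/-- Huppert's theorem -/
theorem huppert [Fact q.Prime] [Finite V] [Nontrivial V] [Finite G] (hsol : Group.IsSolvable G) (f₁ : G →* Module.End (ZMod q) V)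
    (hinj : Function.Injective f₁) (htr : ∀ v w : V, v ≠ 0 → w ≠ 0 → ∃ g, f₁ g v = w) :
    (∃ (k : ℕ) (_ : k ≠ 0) (e : V ≃+ GaloisField q k), ∀ g : G, ∃ (a : GaloisField q k) (σ : GaloisField q k ≃+* GaloisField q k),
      ∀ v, e (f₁ g v) = a * σ (e v)) ∨ Nat.card V ∈ ({9, 25, 49, 121, 529, 81} : Set ℕ) := by
  obtain ⟨k, hk, ι, f, A, σ, φ, hf, hcf⟩ := exists_cf f₁ hinj htr
  letI : Module (GaloisField q k) V := Module.compHom V ι.toRingHom
  rcases main hsol hcf with h1 | h1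
  · left
    obtain ⟨v0, hv0⟩ := exists_ne (0 : V)
    have h2 : ∀ v, ∃ c : GaloisField q k, c • v0 = v := fun v => exists_smul_eq_of_finrank_eq_one h1 hv0 v
    have h3 : Function.Injective (fun c : GaloisField q k => c • v0) := smul_left_injective _ hv0
    let e : GaloisField q k ≃+ V := AddEquiv.ofBijective (AddMonoidHom.mk' (fun c : GaloisField q k => c • v0) (fun a b => add_smul a b v0))
      ⟨h3, h2⟩
    have he : ∀ c, e c = c • v0 := fun c => rfl
    refine ⟨k, hk, e.symm, fun g => ?_⟩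
    obtain ⟨a, ha⟩ := h2 (f g v0)
    refine ⟨a, (σ g).toRingEquiv, fun v => ?_⟩
    rw [AddEquiv.symm_apply_eq, he]
    obtain ⟨c, hc⟩ := h2 v
    have h4 : e.symm v = c := by rw [AddEquiv.symm_apply_eq, he, hc]
    rw [h4, ← hf, ← hc, hcf.semi, ← ha, smul_smul, mul_comm]
    rfl
  · exact Or.inr h1

end Cfsg.Agent.H9.Hup
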