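import Mathlib
import Cfsg.Agent.H9_Hup8
import Cfsg.Agent.H20_Prim

set_option autoImplicit false

/-! H9_FTc2: Kantor's theorem on 2-homogeneous groups of odd order (solvable case). -/

namespace Cfsg.Agent.H9.FTc

open Subgroup Module

theorem card_sub_one_dvd {G R V : Type*} [Group G] [Finite G] [Ring R] [AddCommGroup V] [Module R V] [Finite V] [Nontrivial V]
    (f : G →* Module.End R V) (htr : ∀ v w : V, v ≠ 0 → w ≠ 0 → ∃ g, f g v = w) : Nat.card V - 1 ∣ Nat.card G := by
  letI : MulAction G V :=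
    { smul := fun g v => f g v
      one_smul := fun v => by change f 1 v = v; rw [map_one]; rfl
      mul_smul := fun g g' v => by change f (g * g') v = f g (f g' v); rw [map_mul]; rfl }
  obtain ⟨v0, hv0⟩ := exists_ne (0 : V)
  have h1 : (MulAction.orbit G v0).ncard ∣ Nat.card G := by
    rw [← MulAction.index_stabilizer]
    exact Subgroup.index_dvd_card _
  have h2 : MulAction.orbit G v0 = {0}ᶜ := by
    ext v
    constructor
    · rintro ⟨g, rfl⟩
      rw [Set.mem_compl_singleton_iff]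
      change f g v0 ≠ 0
      intro h0
      apply hv0
      have h3 : f g⁻¹ (f g v0) = v0 := by
        have : (f g⁻¹ * f g) v0 = v0 := by rw [← map_mul, inv_mul_cancel, map_one]; rfl
        exact this
      rw [← h3, h0, map_zero]
    · intro hv
      exact htr v0 v hv0 hv
  have h3 : (MulAction.orbit G v0).ncard = Nat.card V - 1 := by
    rw [h2, Set.ncard_compl, Set.ncard_singleton]
  rw [← h3]
  exact h1

/-- core -/
theorem kantor_core {G : Type*} [Group G] [Finite G] {α : Type*} [Finite α] [Nontrivial α] [MulAction G α] [FaithfulSMul G α]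
    (hsol : Group.IsSolvable G) (hodd : Odd (Nat.card G))
    (hpair : ∀ a b c d : α, a ≠ b → c ≠ d → ∃ g : G, (g • a = c ∧ g • b = d) ∨ (g • a = d ∧ g • b = c))
    (M : Subgroup G) [hMn : M.Normal] {r : ℕ} [hr : Fact r.Prime] (hMab : ∀ a ∈ M, ∀ b ∈ M, a * b = b * a)
    (hMe : ∀ a ∈ M, a ^ r = 1) (htr : ∀ x y : α, ∃ n ∈ M, n • x = y)
    {W : Type*} [AddCommGroup W] [Finite W] [Nontrivial W] [Module (ZMod r) W] (j : Multiplicative W ≃* M) :
    ∃ (p f : ℕ) (_ : Fact p.Prime), p ≠ 2 ∧ Nat.card α = p ^ f ∧ p ^ f % 4 = 3 ∧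
      ∃ e : α ≃ GaloisField p f, (∀ g : G, ∃ (a : (GaloisField p f)ˣ) (b : GaloisField p f) (φ : GaloisField p f ≃+* GaloisField p f),
        ∀ x : α, e (g • x) = a * φ (e x) + b) ∧ ∀ b : GaloisField p f, ∃ g : G, ∀ x : α, e (g • x) = e x + b := by
  classical
  have hreg : ∀ m ∈ M, ∀ ω : α, m • ω = ω → m = 1 := fun m hm ω hω =>
    Cfsg.Agent.H20.Prim.eq_one_of_centralizes M htr m (fun c hc => hMab m hm c hc) ω hω
  obtain ⟨α0⟩ : Nonempty α := inferInstance
  let ι : W → G := fun w => ((j (Multiplicative.ofAdd w) : M) : G)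
  have hιM : ∀ w, ι w ∈ M := fun w => (j (Multiplicative.ofAdd w)).2
  have hιinj : ∀ v w, ι v = ι w → v = w := fun v w h => Multiplicative.ofAdd.injective (j.injective (Subtype.ext h))
  have hιsurj : ∀ m ∈ M, ∃ w, ι w = m := fun m hm => ⟨(j.symm ⟨m, hm⟩).toAdd, congrArg Subtype.val (j.apply_symm_apply ⟨m, hm⟩)⟩
  have hιadd : ∀ v w, ι (v + w) = ι v * ι w := fun v w => by
    change ((j (Multiplicative.ofAdd (v + w)) : M) : G) = _
    rw [ofAdd_add, map_mul, Subgroup.coe_mul]
  have hι0 : ι 0 = 1 := by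
    have h1 := hιadd 0 0
    rw [add_zero] at h1
    exact (mul_eq_left.1 h1.symm)
  have hιneg : ∀ v, ι (-v) = (ι v)⁻¹ := fun v => by
    rw [eq_inv_iff_mul_eq_one, ← hιadd, neg_add_cancel, hι0]
  have hinjM : ∀ m ∈ M, ∀ m' ∈ M, m • α0 = m' • α0 → m = m' := by
    intro m hm m' hm' h
    have h1 := hreg (m'⁻¹ * m) (M.mul_mem (M.inv_mem hm') hm) α0 (by rw [mul_smul, h, inv_smul_smul])
    rw [inv_mul_eq_one] at h1
    exact h1.symm
  let ev : W ≃ α := Equiv.ofBijective (fun w => ι w • α0) ⟨fun v w h => hιinj v w (hinjM _ (hιM v) _ (hιM w) h), fun x => by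
    obtain ⟨n, hn, hx⟩ := htr α0 x
    obtain ⟨w, rfl⟩ := hιsurj n hn
    exact ⟨w, hx⟩⟩
  have hev : ∀ w, ev w = ι w • α0 := fun m => rfl
  have hne0 : ∀ v : W, v ≠ 0 → ι v ≠ 1 := fun v hv h => hv (hιinj v 0 (by rw [h, hι0]))
  have hrodd : r ≠ 2 := by
    rintro rfl
    obtain ⟨x, hx⟩ := exists_ne (0 : W)
    have h1 : orderOf (ι x) = 2 := orderOf_eq_prime (hMe _ (hιM x)) (hne0 x hx)
    have h2 : 2 ∣ Nat.card G := by
      rw [← h1]
      exact orderOf_dvd_natCard _
    rw [← Nat.not_even_iff_odd, even_iff_two_dvd] at hodd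
    exact hodd h2
  let G0 := MulAction.stabilizer G α0
  have hcex : ∀ (g : G) (w : W), ∃ w', ι w' = g * ι w * g⁻¹ := fun g w => hιsurj _ (hMn.conj_mem _ (hιM w) g)
  choose cf hcf using hcex
  let c0 : G → Module.End (ZMod r) W := fun g =>
    AddMonoidHom.toZModLinearMap r (AddMonoidHom.mk' (cf g) (fun v w => hιinj _ _ (by
      rw [hcf, hιadd, hιadd, hcf, hcf]; group)))
  have hc0 : ∀ (g : G) (x : W), ι (c0 g x) = g * ι x * g⁻¹ := fun g x => hcf g x
  let c : G0 →* Module.End (ZMod r) W :=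
    { toFun := fun g => c0 (g : G)
      map_one' := by
        refine LinearMap.ext fun x => hιinj _ _ ?_
        rw [hc0, Subgroup.coe_one, one_mul, inv_one, mul_one]; rfl
      map_mul' := fun g g' => by
        refine LinearMap.ext fun x => hιinj _ _ ?_
        rw [Module.End.mul_apply, hc0, hc0, hc0, Subgroup.coe_mul]; group }
  have hc : ∀ (g : G0) (w : W), ι (c g w) = g * ι w * (g : G)⁻¹ := fun g m => hc0 g m
  let f₁ : G0 × ℤˣ →* Module.End (ZMod r) W :=
    { toFun := fun x => ((x.2 : ℤ)) • c x.1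
      map_one' := by simp
      map_mul' := fun x y => by
        simp only [Prod.snd_mul, Prod.fst_mul, Units.val_mul, map_mul]
        rw [smul_mul_smul_comm] }
  have hf₁ : ∀ g ε, f₁ (g, ε) = (ε : ℤ) • c g := fun g ε => rfl
  have htwo : ∀ v : W, v = -v → v = 0 := by
    intro v hv
    by_contra hv0
    apply hne0 v hv0
    have h1 : ι v * ι v = 1 := by
      nth_rewrite 2 [hv]
      rw [hιneg, mul_inv_cancel]
    have h2 : (ι v) ^ 2 = 1 := by rw [pow_two]; exact h1
    have h3 : (ι v) ^ r = 1 := hMe _ (hιM v)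
    have h4 : orderOf (ι v) ∣ 1 := by
      rw [← (Nat.coprime_primes Nat.prime_two hr.out).2 hrodd.symm]
      exact Nat.dvd_gcd (orderOf_dvd_of_pow_eq_one h2) (orderOf_dvd_of_pow_eq_one h3)
    exact orderOf_eq_one_iff.1 (Nat.dvd_one.1 h4)
  have hinj : Function.Injective f₁ := by
    rw [injective_iff_map_eq_one]
    rintro ⟨g, ε⟩ h
    rw [hf₁] at h
    rcases Int.units_eq_one_or ε with rfl | rfl
    · simp only [Units.val_one, one_smul] at h
      have h1 : (g : G) = 1 := by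
        apply Cfsg.Agent.H20.Prim.eq_one_of_centralizes M htr (g : G) _ α0 g.2
        intro m hm
        obtain ⟨w, rfl⟩ := hιsurj m hm
        have h2 := hc g w
        rw [h] at h2
        change ι w = _ at h2
        rw [eq_mul_inv_iff_mul_eq] at h2
        exact h2.symm
      have : g = 1 := Subtype.ext h1
      rw [this]; rfl
    · exfalso
      simp only [Units.val_neg, Units.val_one, neg_smul, one_smul] at h
      have h1 : c g = -1 := by rw [← h, neg_neg]
      have h2 : Odd (orderOf g) := by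
        apply hodd.of_dvd_nat
        rw [← orderOf_coe]
        exact orderOf_dvd_natCard _
      have h3 : (c g) ^ orderOf g = 1 := by rw [← map_pow, pow_orderOf_eq_one, map_one]
      rw [h1, h2.neg_one_pow] at h3
      obtain ⟨v, hv⟩ := exists_ne (0 : W)
      apply hv
      apply htwo
      have := DFunLike.congr_fun h3 v
      change -v = v at this
      exact this.symm
  have htr1 : ∀ v w : W, v ≠ 0 → w ≠ 0 → ∃ g, f₁ g v = w := by
    intro v w hv hw
    have hne : ∀ v : W, v ≠ 0 → α0 ≠ ι v • α0 := by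
      intro v hv h
      exact hne0 v hv (hreg _ (hιM v) α0 h.symm)
    obtain ⟨g, hg⟩ := hpair α0 (ι v • α0) α0 (ι w • α0) (hne v hv) (hne w hw)
    rcases hg with ⟨h1, h2⟩ | ⟨h1, h2⟩
    · refine ⟨(⟨g, h1⟩, 1), ?_⟩
      rw [hf₁, Units.val_one, one_smul]
      apply hιinj
      rw [hc]
      apply hinjM _ (hMn.conj_mem _ (hιM v) g) _ (hιM w)
      have h3 : g⁻¹ • α0 = α0 := by rw [inv_smul_eq_iff, h1]
      rw [mul_smul, mul_smul, h3, h2]
    · have hst : ((ι w)⁻¹ * g) • α0 = α0 := by rw [mul_smul, h1, inv_smul_smul]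
      refine ⟨(⟨(ι w)⁻¹ * g, hst⟩, -1), ?_⟩
      rw [hf₁, Units.val_neg, Units.val_one, neg_smul, one_smul]
      have h4 : c ⟨(ι w)⁻¹ * g, hst⟩ v = -w := by
        apply hιinj
        rw [hc, hιneg]
        apply hinjM _ (hMn.conj_mem _ (hιM v) _) _ (M.inv_mem (hιM w))
        have h3 : ((ι w)⁻¹ * g)⁻¹ • α0 = α0 := by rw [inv_smul_eq_iff, hst]
        change ((ι w)⁻¹ * g * ι v * ((ι w)⁻¹ * g)⁻¹) • α0 = _
        rw [mul_smul, h3, mul_smul, mul_smul, h2]
      rw [LinearMap.neg_apply, h4, neg_neg]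
  have hsol2 : Group.IsSolvable (G0 × ℤˣ) := by
    haveI := hsol
    infer_instance
  have hcardV : Nat.card W = Nat.card α := Nat.card_congr ev
  have hd := card_sub_one_dvd f₁ htr1
  have hVodd : Odd (Nat.card W) := by
    apply hodd.of_dvd_nat
    have h1 : Nat.card W = Nat.card M := Nat.card_congr (Multiplicative.ofAdd.trans j.toEquiv)
    rw [h1]
    exact Subgroup.card_subgroup_dvd_card M
  have hG0odd : Odd (Nat.card G0) := hodd.of_dvd_nat (Subgroup.card_subgroup_dvd_card G0)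
  have hmod : Nat.card W % 4 = 3 := by
    rw [Nat.card_prod, Nat.card_eq_fintype_card (α := ℤˣ), Fintype.card_units_int] at hd
    obtain ⟨a, ha⟩ := hVodd
    obtain ⟨b, hb⟩ := hG0odd
    rw [ha, hb] at hd
    rw [ha]
    have h1 : 2 * a + 1 - 1 = 2 * a := by omega
    rw [h1] at hd
    have h2 : a ∣ 2 * b + 1 := by
      have : 2 * a ∣ 2 * (2 * b + 1) := by rwa [mul_comm (2 * b + 1) 2] at hd
      exact Nat.dvd_of_mul_dvd_mul_left (by norm_num) this
    have h3 : Odd a := Odd.of_dvd_nat ⟨b, rfl⟩ h2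
    obtain ⟨a', ha'⟩ := h3
    omega
  rcases Cfsg.Agent.H9.Hup.huppert (q := r) hsol2 f₁ hinj htr1 with ⟨k, hk, e, he⟩ | hex
  · have hcard : Nat.card W = r ^ k := by
      rw [Nat.card_congr e.toEquiv, GaloisField.card r k hk]
    refine ⟨r, k, inferInstance, hrodd, by rw [← hcardV, hcard], by rw [← hcard, hmod], ev.symm.trans e.toEquiv, ?_, ?_⟩
    · intro g
      obtain ⟨m, hm, hmg⟩ := htr α0 (g • α0)
      obtain ⟨wm, rfl⟩ := hιsurj m hm
      have hst : ((ι wm)⁻¹ * g) • α0 = α0 := by rw [mul_smul, ← hmg, inv_smul_smul]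
      obtain ⟨a, φ, haφ⟩ := he (⟨(ι wm)⁻¹ * g, hst⟩, 1)
      have ha0 : a ≠ 0 := by
        rintro rfl
        obtain ⟨v, hv⟩ := exists_ne (0 : W)
        have h1 := haφ v
        rw [zero_mul] at h1
        have h2 : f₁ (⟨(ι wm)⁻¹ * g, hst⟩, 1) v = 0 := e.injective (by rw [h1, map_zero])
        apply hv
        have h3 : f₁ (⟨(ι wm)⁻¹ * g, hst⟩, 1)⁻¹ (f₁ (⟨(ι wm)⁻¹ * g, hst⟩, 1) v) = v := by
          have : (f₁ (⟨(ι wm)⁻¹ * g, hst⟩, 1)⁻¹ * f₁ (⟨(ι wm)⁻¹ * g, hst⟩, 1)) v = v := by rw [← map_mul, inv_mul_cancel, map_one]; rfl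
          exact this
        rw [h2, map_zero] at h3
        exact h3.symm
      refine ⟨Units.mk0 a ha0, e wm, φ, fun x => ?_⟩
      obtain ⟨mx, rfl⟩ := ev.surjective x
      have h1 : g • ev mx = ev (wm + c ⟨(ι wm)⁻¹ * g, hst⟩ mx) := by
        rw [hev, hev, hιadd, hc]
        have h3 : ((ι wm)⁻¹ * g)⁻¹ • α0 = α0 := by rw [inv_smul_eq_iff, hst]
        change _ = (ι wm * ((ι wm)⁻¹ * g * ι mx * ((ι wm)⁻¹ * g)⁻¹)) • α0
        rw [mul_smul, mul_smul ((ι wm)⁻¹ * g * ι mx), h3, mul_smul, mul_smul, smul_inv_smul]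
      rw [h1]
      simp only [Equiv.trans_apply, Equiv.symm_apply_apply]
      change e (wm + c ⟨(ι wm)⁻¹ * g, hst⟩ mx) = a * φ (e mx) + e wm
      rw [map_add, add_comm]
      congr 1
      rw [← haφ, hf₁, Units.val_one, one_smul]
    · intro b
      refine ⟨ι (e.symm b), fun x => ?_⟩
      obtain ⟨mx, rfl⟩ := ev.surjective x
      have h1 : ι (e.symm b) • ev mx = ev (e.symm b + mx) := by
        rw [hev, hev, hιadd, mul_smul]
      rw [h1]
      simp only [Equiv.trans_apply, Equiv.symm_apply_apply]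
      change e (e.symm b + mx) = e mx + b
      rw [map_add, AddEquiv.apply_symm_apply, add_comm]
  · exfalso
    simp only [Set.mem_insert_iff, Set.mem_singleton_iff] at hex
    rcases hex with h | h | h | h | h | h <;> rw [h] at hmod <;> norm_num at hmod

theorem kantor {G : Type*} [Group G] [Finite G] {α : Type*} [Finite α] [Nontrivial α] [MulAction G α] [FaithfulSMul G α]
    (hsol : Group.IsSolvable G) (hodd : Odd (Nat.card G)) (hprim : MulAction.IsPreprimitive G α)
    (hG1 : Nontrivial G)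
    (hpair : ∀ a b c d : α, a ≠ b → c ≠ d → ∃ g : G, (g • a = c ∧ g • b = d) ∨ (g • a = d ∧ g • b = c)) :
    ∃ (p f : ℕ) (_ : Fact p.Prime), p ≠ 2 ∧ Nat.card α = p ^ f ∧ p ^ f % 4 = 3 ∧
      ∃ e : α ≃ GaloisField p f, (∀ g : G, ∃ (a : (GaloisField p f)ˣ) (b : GaloisField p f) (φ : GaloisField p f ≃+* GaloisField p f),
        ∀ x : α, e (g • x) = a * φ (e x) + b) ∧ ∀ b : GaloisField p f, ∃ g : G, ∀ x : α, e (g • x) = e x + b := by
  classical
  obtain ⟨M, r, hr, hMn, -, hM1, hMab, hMe⟩ := Cfsg.Agent.H9.Hup.exists_elem hsol (⊤ : Subgroup G) inferInstance top_ne_bot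
  haveI := hMn
  haveI := Fact.mk hr
  have htr := Cfsg.Agent.H20.Prim.normal_transitive hprim M hMn hM1
  haveI : Nontrivial M := (Subgroup.nontrivial_iff_ne_bot M).2 hM1
  letI cg : CommGroup M := { (inferInstance : Group M) with mul_comm := fun a b => Subtype.ext (hMab a a.2 b b.2) }
  letI acg : AddCommGroup (Additive M) := Additive.addCommGroup
  letI md : Module (ZMod r) (Additive M) := AddCommGroup.zmodModule (n := r) (by
    intro x
    have := hMe (x.toMul : G) x.toMul.2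
    exact Subtype.ext this)
  have j : Multiplicative (Additive M) ≃* M := MulEquiv.multiplicativeAdditive M
  exact @kantor_core G _ _ α _ _ _ _ hsol hodd hpair M _ r _ hMab hMe htr (Additive M) acg _ _ md j

end Cfsg.Agent.H9.FTc
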