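import Mathlib
import Cfsg.Agent.H9_Hup8
import Cfsg.Agent.H1_Nilp
import Cfsg.Agent.S2904
import Cfsg.Prelude.Def_Solvable

set_option autoImplicit false

/-! H9_FTc3: Fitting subgroup of a transitive linear group of odd order (S1161). -/

namespace Cfsg.Agent.H9.FTc3

open Subgroup Module Cfsg.Agent.H9.Hup

theorem num (k : ℕ) (hk : 2 ≤ k) : ∃ p : ℕ, p.Prime ∧ p ∣ 2 ^ k - 1 ∧ k < p ∧ ∀ i, 0 < i → i < k → p ∣ 2 ^ i - 1 → 2 * i = k := by
  by_cases h6 : k = 6
  · subst h6
    refine ⟨7, by norm_num, by norm_num, by norm_num, ?_⟩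
    intro i h0 h1 h2
    interval_cases i <;> revert h2 <;> norm_num
  · obtain ⟨p, hp, h1, h2⟩ := Cfsg.Agent.S2904.result 2 k (by norm_num) (by omega) (by omega) (by
      rintro ⟨-, m, hm⟩
      have h3 : m ≠ 0 := by rintro rfl; norm_num at hm
      have : 2 ∣ 2 ^ m := dvd_pow_self 2 h3
      omega)
    have hz : Zs p 2 k := ⟨hp, Nat.prime_two, by omega, h1, h2⟩
    exact ⟨p, hp, h1, hz.lt, fun i h0 h3 h4 => absurd h4 (h2 i h0 h3)⟩

variable {K V G : Type*} [Field K] [Algebra (ZMod 2) K] [AddCommGroup V] [Module K V] [Group G]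
    {f : G →* AddMonoid.End V} {A : Subgroup G} {σ : G →* (K ≃ₐ[ZMod 2] K)} {φ : A →* Kˣ}

theorem ker_eq [Finite G] [Finite V] [Nontrivial V] [Finite K] (hsol : Group.IsSolvable G) (h : Cf 2 f A σ φ) (hfin : finrank K V = 1) : A = σ.ker := by
  by_contra hne
  obtain ⟨B, r, hB⟩ := Cfsg.Agent.H9.Hup.exists_Bd hsol h hne
  obtain ⟨s, hs, hs2⟩ := Bd.exists_pow h hB
  haveI : FiniteDimensional K V := Module.Finite.of_finite
  have h1 := Bd.card_le h hB
  rw [hfin, hs2, one_pow] at h1
  have h2 := hB.pr.two_le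
  have h3 : r ^ 1 ≤ r ^ s := Nat.pow_le_pow_right (by omega) (by omega)
  rw [pow_one] at h3
  omega

theorem fit [Finite G] [Finite V] [Nontrivial V] [Finite K] (hodd : Odd (Nat.card G)) (hsol : Group.IsSolvable G) (h : Cf 2 f A σ φ) (hfin : finrank K V = 1) :
    Cfsg.fittingSubgroup G = A := by
  haveI := h.norm
  have hA := ker_eq hsol h hfin
  haveI : FiniteDimensional (ZMod 2) K := Module.Finite.of_finite
  apply le_antisymm
  · rw [H1.Nilp.fitting_eq_iSup]
    apply iSup_le
    rintro ⟨r, hr⟩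
    haveI := Fact.mk hr
    change Cfsg.pCore r G ≤ A
    intro x hx
    by_contra hxA
    have hσx : σ x ≠ 1 := by
      intro h1; apply hxA; rw [hA]; exact h1
    set k := finrank (ZMod 2) K with hk
    have hord : orderOf (σ x) ∣ k := by
      rw [hk, ← IsGalois.card_aut_eq_finrank (ZMod 2) K]
      exact orderOf_dvd_natCard _
    have hk2 : 2 ≤ k := by
      by_contra hlt
      have h1 : 0 < k := finrank_pos
      have h2 : k = 1 := by omega
      rw [h2, Nat.dvd_one, orderOf_eq_one_iff] at hord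
      exact hσx hord
    have hrk : r ∣ k := by
      obtain ⟨n, hn⟩ := H1.Nilp.pCore_isPGroup (G := G) r ⟨x, hx⟩
      have hn' : x ^ r ^ n = 1 := by simpa using congrArg Subtype.val hn
      have h1 : orderOf (σ x) ∣ r ^ n := orderOf_dvd_of_pow_eq_one (by rw [← map_pow, hn', map_one])
      obtain ⟨j, -, hj⟩ := (Nat.dvd_prime_pow hr).1 h1
      have hj0 : j ≠ 0 := by
        rintro rfl
        rw [pow_zero, orderOf_eq_one_iff] at hj
        exact hσx hj
      exact (dvd_pow_self r hj0).trans (hj ▸ hord)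
    obtain ⟨p, hp, hp1, hp2, hp3⟩ := num k hk2
    haveI := Fact.mk hp
    have hrp : r ≠ p := by
      rintro rfl
      have := Nat.le_of_dvd (by omega) hrk
      omega
    have hcV : Nat.card V = 2 ^ k := by
      have h1 : Nat.card V = Nat.card K ^ finrank K V := Module.natCard_eq_pow_finrank
      rw [h1, hfin, pow_one]
      exact Cfsg.Agent.H9.Hup.card_pow
    have h1 : p ∣ Nat.card G := by
      refine hp1.trans ?_
      rw [← hcV]
      exact Cfsg.Agent.H9.Hup.card_V_dvd h
    rw [← Subgroup.card_mul_index A] at h1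
    have h2 : p ∣ Nat.card A := by
      rcases hp.dvd_mul.1 h1 with h2 | h2
      · exact h2
      · exfalso
        have h3 := Cf.index_dvd σ
        rw [← hA] at h3
        have := Nat.le_of_dvd (by omega) (h2.trans h3)
        omega
    obtain ⟨y, hy⟩ := exists_prime_orderOf_dvd_card' (G := A) p h2
    have hyp : (y : G) ^ p = 1 := by
      have : y ^ p = 1 := by rw [← hy]; exact pow_orderOf_eq_one y
      simpa using congrArg Subtype.val this
    -- x commutes with y
    have hxy : x * y * x⁻¹ * (y : G)⁻¹ = 1 := by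
      have ha : x * y * x⁻¹ ∈ A := h.norm.conj_mem _ y.2 x
      have hb : x * y * x⁻¹ * (y : G)⁻¹ ∈ Cfsg.pCore r G := by
        have : x * y * x⁻¹ * (y : G)⁻¹ = x * ((y : G) * x⁻¹ * (y : G)⁻¹) := by group
        rw [this]
        exact (Cfsg.pCore r G).mul_mem hx ((H1.Nilp.pCore_normal r).conj_mem _ ((Cfsg.pCore r G).inv_mem hx) _)
      have hc : (x * y * x⁻¹ * (y : G)⁻¹) ^ p = 1 := by
        have hcomm : Commute (x * y * x⁻¹) ((y : G)⁻¹) := h.Acomm _ ha _ (A.inv_mem y.2)
        rw [hcomm.mul_pow, conj_pow, hyp, inv_pow, hyp, mul_one, mul_inv_cancel, inv_one, mul_one]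
      obtain ⟨n, hn⟩ := H1.Nilp.pCore_isPGroup (G := G) r ⟨_, hb⟩
      have hn' : (x * y * x⁻¹ * (y : G)⁻¹) ^ r ^ n = 1 := by simpa using congrArg Subtype.val hn
      rw [← orderOf_eq_one_iff]
      apply Nat.dvd_one.1
      have hcop : Nat.Coprime p (r ^ n) := Nat.Coprime.pow_right n ((Nat.coprime_primes hp hr).2 hrp.symm)
      rw [← hcop]
      exact Nat.dvd_gcd (orderOf_dvd_of_pow_eq_one hc) (orderOf_dvd_of_pow_eq_one hn')
    have hxy2 : x * y = y * x := by
      have h3 := mul_inv_eq_one.1 hxy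
      have h4 := mul_inv_eq_iff_eq_mul.1 h3
      exact h4
    -- σ x fixes φ y
    obtain ⟨v, hv⟩ := exists_ne (0 : V)
    have hfix : σ x (φ y : K) = (φ y : K) := by
      have h3 : f (x * y) v = f (y * x) v := by rw [hxy2]
      rw [map_mul, map_mul] at h3
      have h4 : f x (f (y : G) v) = f (y : G) (f x v) := h3
      rw [h.act, h.act, h.semi] at h4
      have h5 : f x v ≠ 0 := by
        intro h0
        apply hv
        have h6 : f x⁻¹ (f x v) = v := by
          have : (f x⁻¹ * f x) v = v := by rw [← map_mul, inv_mul_cancel, map_one]; rfl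
          exact this
        rw [← h6, h0, map_zero]
      exact smul_left_injective K h5 h4
    -- Frobenius
    obtain ⟨i, hi⟩ := (FiniteField.bijective_frobeniusAlgEquivOfAlgebraic_pow (ZMod 2) K).2 (σ x)
    have hi' : FiniteField.frobeniusAlgEquivOfAlgebraic (ZMod 2) K ^ (i : ℕ) = σ x := hi
    have hi0 : (i : ℕ) ≠ 0 := by
      intro h0
      rw [h0, pow_zero] at hi'
      exact hσx hi'.symm
    have hpowfix : (φ y : K) ^ (2 ^ (i : ℕ)) = (φ y : K) := by
      have h3 : ∀ (n : ℕ) (z : K), (FiniteField.frobeniusAlgEquivOfAlgebraic (ZMod 2) K ^ n) z = z ^ 2 ^ n := by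
        intro n
        induction n with
        | zero => intro z; simp
        | succ n ih =>
          intro z
          rw [pow_succ, AlgEquiv.mul_apply, ih, FiniteField.frobeniusAlgEquivOfAlgebraic_apply]
          rw [ZMod.card, ← pow_mul, pow_succ, mul_comm]
      rw [← h3, hi', hfix]
    have hordφ : orderOf (φ y) = p := by rw [orderOf_injective φ h.φinj, hy]
    have hpd : p ∣ 2 ^ (i : ℕ) - 1 := by
      rw [← hordφ]
      apply orderOf_dvd_of_pow_eq_one
      have h3 : (φ y) ^ (2 ^ (i : ℕ)) = φ y := Units.ext (by push_cast; exact hpowfix)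
      have h4 : (φ y) ^ (2 ^ (i : ℕ) - 1) * φ y = φ y := by
        rw [← pow_succ, Nat.sub_add_cancel Nat.one_le_two_pow, h3]
      exact mul_eq_right.1 h4
    have h2i := hp3 i (Nat.pos_of_ne_zero hi0) i.2 hpd
    have hsq : (σ x) ^ 2 = 1 := by
      rw [← hi', ← pow_mul, mul_comm, h2i, hk, ← FiniteField.orderOf_frobeniusAlgEquivOfAlgebraic (ZMod 2) K]
      exact pow_orderOf_eq_one _
    have h5 : orderOf (σ x) ∣ 2 := orderOf_dvd_of_pow_eq_one hsq
    have h6 : orderOf (σ x) ∣ Nat.card G := (orderOf_map_dvd σ x).trans (orderOf_dvd_natCard x)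
    rcases (Nat.dvd_prime Nat.prime_two).1 h5 with h7 | h7
    · exact hσx (orderOf_eq_one_iff.1 h7)
    · rw [h7] at h6
      exact (Nat.not_even_iff_odd.2 hodd) (even_iff_two_dvd.2 h6)
  · apply le_sSup
    refine ⟨h.norm, ?_⟩
    haveI : IsMulCommutative A := ⟨⟨fun a b => Subtype.ext (h.Acomm a a.2 b b.2)⟩⟩
    letI : CommGroup A := { (inferInstance : Group A) with mul_comm := fun a b => Subtype.ext (h.Acomm a a.2 b b.2) }
    exact CommGroup.isNilpotent

end Cfsg.Agent.H9.FTc3
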