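import Cfsg.Statements.S0276
import Mathlib
import Cfsg.Agent.H5_V4b

set_option autoImplicit false
open Cfsg

namespace Cfsg.Agent.S0276

open Cfsg.Agent.H5.V4 Cfsg.Agent.H5.SL2 Cfsg.Agent.H5.SL2Quat

/-- For q = 3 or 5 mod 8 the Sylow 2-subgroups of PSL_2(q) are elementary abelian of order 4. -/
theorem result {F : Type*} [Field F] [Fintype F] {q : ℕ} (hF : Fintype.card F = q) (hq : q % 8 = 3 ∨ q % 8 = 5) (P : Sylow 2 (Matrix.ProjectiveSpecialLinearGroup (Fin 2) F)) : IsKleinFour (P : Subgroup (Matrix.ProjectiveSpecialLinearGroup (Fin 2) F)) := by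
  have hodd : Odd (Fintype.card F) := by rw [hF, Nat.odd_iff]; omega
  have h2 := two_ne_zero' hodd
  obtain ⟨p, hp⟩ := CharP.exists F
  obtain ⟨m', hpp, hm'⟩ := FiniteField.card F p
  have hpf : Fact p.Prime := ⟨hpp⟩
  have hc := Cfsg.Agent.H5.SmallIso.card_PSL2 (F := F)
  rw [hF] at hc
  have hg : Nat.gcd 2 (q - 1) = 2 := Nat.gcd_eq_left (by omega)
  rw [hg] at hc
  obtain ⟨m, hm, hcm⟩ : ∃ m, ¬ 2 ∣ m ∧ Nat.card (Matrix.ProjectiveSpecialLinearGroup (Fin 2) F) = 4 * m := by
    rcases hq with h | h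
    · obtain ⟨k, hk⟩ : ∃ k, q = 8 * k + 3 := ⟨q / 8, by omega⟩
      refine ⟨q * (4 * k + 1) * (2 * k + 1), ?_, ?_⟩
      · rw [← even_iff_two_dvd, Nat.not_even_iff_odd]
        exact ((by rw [hk]; exact ⟨4 * k + 1, by ring⟩ : Odd q).mul ⟨2 * k, by ring⟩).mul ⟨k, by ring⟩
      · have e1 : q - 1 = 2 * (4 * k + 1) := by omega
        have e2 : q + 1 = 4 * (2 * k + 1) := by omega
        rw [e1, e2] at hc
        have : 2 * Nat.card (Matrix.ProjectiveSpecialLinearGroup (Fin 2) F) = 2 * (4 * (q * (4 * k + 1) * (2 * k + 1))) := by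
          rw [hc]; ring
        omega
    · obtain ⟨k, hk⟩ : ∃ k, q = 8 * k + 5 := ⟨q / 8, by omega⟩
      refine ⟨q * (2 * k + 1) * (4 * k + 3), ?_, ?_⟩
      · rw [← even_iff_two_dvd, Nat.not_even_iff_odd]
        exact ((by rw [hk]; exact ⟨4 * k + 2, by ring⟩ : Odd q).mul ⟨k, by ring⟩).mul ⟨2 * k + 1, by ring⟩
      · have e1 : q - 1 = 4 * (2 * k + 1) := by omega
        have e2 : q + 1 = 2 * (4 * k + 3) := by omega
        rw [e1, e2] at hc
        have : 2 * Nat.card (Matrix.ProjectiveSpecialLinearGroup (Fin 2) F) = 2 * (4 * (q * (2 * k + 1) * (4 * k + 3))) := by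
          rw [hc]; ring
        omega
  have hcard : Nat.card P = 4 := by
    rw [Sylow.card_eq_multiplicity, hcm]
    have hm0 : m ≠ 0 := by rintro rfl; exact hm (dvd_zero _)
    rw [Nat.factorization_mul (by norm_num) hm0]
    have : (4 : ℕ) = 2 ^ 2 := by norm_num
    simp only [Finsupp.add_apply, Nat.factorization_eq_zero_of_not_dvd hm, add_zero]
    rw [this, Nat.Prime.factorization_pow Nat.prime_two]
    simp
  have hexp : ∀ g : Matrix.ProjectiveSpecialLinearGroup (Fin 2) F, g ^ 4 = 1 → g ^ 2 = 1 := by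
    intro g hg4
    obtain ⟨s, rfl⟩ := π_surj g
    by_contra hne
    have h1 : s ^ 2 ≠ 1 ∧ s ^ 2 ≠ -1 := by
      rw [← map_pow] at hne
      constructor
      · intro h; apply hne; rw [h, map_one]
      · intro h; apply hne; exact π_eq_one.mpr (Or.inr h)
    have h4 : s ^ 4 = -1 := by
      rw [← map_pow] at hg4
      rcases π_eq_one.mp hg4 with h | h
      · exfalso
        apply h1.2
        exact eq_neg_one h2 (by rw [← pow_add]; exact h) h1.1
      · exact h
    have ho : orderOf s = 2 ^ (2 + 1) := by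
      apply orderOf_eq_prime_pow
      · norm_num; rw [h4]; exact neg_one_ne h2
      · have : (2 : ℕ) ^ (2 + 1) = 4 * 2 := by norm_num
        rw [this, pow_mul, h4]; simp
    have hp2 : p ≠ 2 := by
      rintro rfl
      have : (2 : F) = 0 := by exact_mod_cast CharP.cast_eq_zero F 2
      exact h2 this
    have hcop : Nat.Coprime (orderOf s) p := by
      rw [ho]
      exact (Nat.coprime_primes Nat.prime_two hpp).mpr (Ne.symm hp2) |>.pow_left 3
    have := Cfsg.Agent.H5.SL2Tor.orderOf_dvd p s hcop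
    rw [ho, hF] at this
    have h8 : (2 : ℕ) ^ (2 + 1) = 8 := by norm_num
    rw [h8] at this
    omega
  have hne1 : Monoid.exponent P ≠ 1 := by
    intro h
    rw [Monoid.exp_eq_one_iff] at h
    have h1 : Nat.card P = 1 := Nat.card_of_subsingleton (1 : P)
    rw [hcard] at h1
    omega
  have hdvd : Monoid.exponent P ∣ 2 := by
    rw [Monoid.exponent_dvd_iff_forall_pow_eq_one]
    intro g
    apply Subtype.ext
    rw [Subgroup.coe_pow, Subgroup.coe_one]
    apply hexp
    have := pow_card_eq_one' (x := g)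
    rw [hcard] at this
    exact congrArg Subtype.val this
  refine ⟨hcard, ?_⟩
  rcases (Nat.dvd_prime Nat.prime_two).mp hdvd with h | h
  · exact absurd h hne1
  · exact h

end Cfsg.Agent.S0276
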