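import Mathlib
import Cfsg.Prelude.Def_TwoFusion
import Cfsg.Agent.H9_AbAut
import Cfsg.Agent.H5_DihPS
import Cfsg.Agent.S0276

/-!
H9_JR: groups with abelian Sylow 2-subgroups of order 8 (Janko-Ree situation): triviality of perfect central
2-extensions.
-/

set_option autoImplicit false

namespace Cfsg.Agent.H9.JR

open Cfsg

/-- if all Sylow 2-subgroups are abelian, an inverted element of order dividing 4 is an involution -/
theorem sq_of_inverted {G : Type*} [Group G] [Finite G] (hab : ∀ S : Sylow 2 G, IsMulCommutative (S : Subgroup G))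
    {c g : G} (h4 : c ^ 4 = 1) (h2 : g ^ 2 = 1) (hc : g * c * g⁻¹ = c⁻¹) : c ^ 2 = 1 := by
  have h2c : IsPGroup 2 (Subgroup.zpowers c) := by
    rw [IsPGroup.iff_orderOf]
    rintro ⟨y, hy⟩
    obtain ⟨k, rfl⟩ := Subgroup.mem_zpowers_iff.1 hy
    have h1 : orderOf (c ^ k) ∣ 2 ^ 2 := by
      apply orderOf_dvd_of_pow_eq_one
      rw [← zpow_natCast, ← zpow_mul, mul_comm, zpow_mul, zpow_natCast, show 2 ^ 2 = 4 by norm_num, h4, one_zpow]
    obtain ⟨m, -, hm⟩ := (Nat.dvd_prime_pow Nat.prime_two).1 h1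
    exact ⟨m, by rw [Subgroup.orderOf_mk]; exact hm⟩
  have h2g : IsPGroup 2 (Subgroup.zpowers g) := by
    rw [IsPGroup.iff_orderOf]
    rintro ⟨y, hy⟩
    obtain ⟨k, rfl⟩ := Subgroup.mem_zpowers_iff.1 hy
    have h1 : orderOf (g ^ k) ∣ 2 ^ 1 := by
      apply orderOf_dvd_of_pow_eq_one
      rw [← zpow_natCast, ← zpow_mul, mul_comm, zpow_mul, zpow_natCast, show 2 ^ 1 = 2 by norm_num, h2, one_zpow]
    obtain ⟨m, -, hm⟩ := (Nat.dvd_prime_pow Nat.prime_two).1 h1
    exact ⟨m, by rw [Subgroup.orderOf_mk]; exact hm⟩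
  have hn : Subgroup.zpowers g ≤ Subgroup.normalizer (Subgroup.zpowers c : Set G) := by
    rw [Subgroup.zpowers_le, Subgroup.mem_normalizer_iff]
    intro x
    have hcx : ∀ k : ℤ, g * c ^ k * g⁻¹ = (c⁻¹) ^ k := by
      intro k
      rw [← hc]
      exact (conj_zpow (a := g) (b := c)).symm
    constructor
    · intro hx
      obtain ⟨k, rfl⟩ := Subgroup.mem_zpowers_iff.1 hx
      rw [hcx k]
      exact Subgroup.zpow_mem _ (inv_mem (Subgroup.mem_zpowers c)) k
    · intro hx
      obtain ⟨k, hk⟩ := Subgroup.mem_zpowers_iff.1 hx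
      have : x = c ^ (-k) := by
        have h5 : g * c ^ (-k) * g⁻¹ = g * x * g⁻¹ := by
          rw [hcx, ← hk, inv_zpow', neg_neg]
        exact (mul_left_cancel (mul_right_cancel h5)).symm
      rw [this]
      exact Subgroup.zpow_mem _ (Subgroup.mem_zpowers c) _
  have hsup := h2c.to_sup_of_normal_left' h2g hn
  obtain ⟨S, hS⟩ := hsup.exists_le_sylow
  have hcS : c ∈ (S : Subgroup G) := hS (Subgroup.mem_sup_left (Subgroup.mem_zpowers c))
  have hgS : g ∈ (S : Subgroup G) := hS (Subgroup.mem_sup_right (Subgroup.mem_zpowers g))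
  haveI := hab S
  have hcomm : g * c = c * g := congrArg Subtype.val (mul_comm' (⟨g, hgS⟩ : (S : Subgroup G)) ⟨c, hcS⟩)
  rw [hcomm, mul_inv_cancel_right] at hc
  rw [pow_two]
  exact mul_eq_one_iff_eq_inv.2 hc

theorem dih_excl {G : Type*} [Group G] [Finite G] (hab : ∀ S : Sylow 2 G, IsMulCommutative (S : Subgroup G))
    {m : ℕ} (hm : 0 < m) (f : DihedralGroup (4 * m) →* G) (hf : Function.Injective f) : False := by
  have hne : NeZero (4 * m) := ⟨by omega⟩
  have hz : ((m : ℕ) : ZMod (4 * m)) * 4 = 0 := by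
    have : ((4 * m : ℕ) : ZMod (4 * m)) = 0 := ZMod.natCast_self _
    push_cast at this
    exact (mul_comm _ _).trans this
  have h1 : (DihedralGroup.r ((m : ℕ) : ZMod (4 * m))) ^ 4 = 1 := by
    rw [DihedralGroup.r_pow]
    rw [show ((4 : ℕ) : ZMod (4 * m)) = 4 by norm_cast, hz]
    rfl
  have h2 : (DihedralGroup.sr (0 : ZMod (4 * m))) ^ 2 = 1 := by
    rw [pow_two, DihedralGroup.sr_mul_self]
  have h3 : (DihedralGroup.sr (0 : ZMod (4 * m))) * DihedralGroup.r ((m : ℕ) : ZMod (4 * m)) * (DihedralGroup.sr (0 : ZMod (4 * m)))⁻¹ =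
      (DihedralGroup.r ((m : ℕ) : ZMod (4 * m)))⁻¹ := by
    rw [mul_inv_eq_iff_eq_mul, DihedralGroup.inv_r, DihedralGroup.sr_mul_r, DihedralGroup.r_mul_sr]
    congr 1
    ring
  have h4 := sq_of_inverted hab (c := f (DihedralGroup.r ((m : ℕ) : ZMod (4 * m)))) (g := f (DihedralGroup.sr 0))
    (by rw [← map_pow, h1, map_one]) (by rw [← map_pow, h2, map_one]) (by rw [← map_inv, ← map_mul, ← map_mul, h3, map_inv])
  rw [← map_pow] at h4
  have h5 := hf (h4.trans (map_one f).symm)
  rw [DihedralGroup.r_pow] at h5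
  have h6 : ((m : ℕ) : ZMod (4 * m)) * ((2 : ℕ) : ZMod (4 * m)) = 0 := by
    have := DihedralGroup.r.inj (h5.trans (show (1 : DihedralGroup (4 * m)) = DihedralGroup.r 0 from rfl))
    exact this
  rw [← Nat.cast_mul, ZMod.natCast_eq_zero_iff] at h6
  have := Nat.le_of_dvd (by omega) h6
  omega

/-- `PSL(2,F)` in a group with abelian Sylow 2-subgroups -/
theorem mod8 {G : Type*} [Group G] [Finite G] (hab : ∀ S : Sylow 2 G, IsMulCommutative (S : Subgroup G))
    {F : Type*} [Field F] [Fintype F] (hFo : Odd (Fintype.card F))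
    (f : Matrix.ProjectiveSpecialLinearGroup (Fin 2) F →* G) (hf : Function.Injective f) :
    Fintype.card F % 8 = 3 ∨ Fintype.card F % 8 = 5 := by
  by_contra hcon
  push Not at hcon
  have h1 : Fintype.card F % 8 = 1 ∨ Fintype.card F % 8 = 7 := by
    rw [Nat.odd_iff] at hFo
    omega
  have hc1 : 1 < Fintype.card F := Fintype.one_lt_card
  have hg : Nat.gcd 2 (Fintype.card F - 1) = 2 := Nat.gcd_eq_left (by rw [Nat.odd_iff] at hFo; omega)
  rcases h1 with h1 | h1
  · obtain ⟨H, ⟨e⟩⟩ := Cfsg.Agent.H5.DihPS.exists_dihedral_sub (F := F)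
    obtain ⟨m, hm⟩ : ∃ m, (Fintype.card F - 1) / Nat.gcd 2 (Fintype.card F - 1) = 4 * m := by
      rw [hg]
      exact ⟨(Fintype.card F - 1) / 8, by omega⟩
    rw [hm] at e
    have hm0 : 0 < m := by
      rw [hg] at hm
      omega
    exact dih_excl hab hm0 ((f.comp H.subtype).comp e.symm.toMonoidHom)
      ((hf.comp Subtype.val_injective).comp e.symm.injective)
  · obtain ⟨H, ⟨e⟩⟩ := Cfsg.Agent.H5.DihPS.exists_dihedral_add (F := F)
    obtain ⟨m, hm⟩ : ∃ m, (Fintype.card F + 1) / Nat.gcd 2 (Fintype.card F - 1) = 4 * m := by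
      rw [hg]
      exact ⟨(Fintype.card F + 1) / 8, by omega⟩
    rw [hm] at e
    have hm0 : 0 < m := by
      rw [hg] at hm
      omega
    exact dih_excl hab hm0 ((f.comp H.subtype).comp e.symm.toMonoidHom)
      ((hf.comp Subtype.val_injective).comp e.symm.injective)

/-- odd order group on eight points with exactly one fixed point -/
theorem orbit_seven {R X : Type*} [Group R] [Finite R] [MulAction R X] [Finite X] (hodd : Odd (Nat.card R)) (x₀ : X)
    (hX : Nat.card X = 8) (hfix : ∀ x : X, (∀ r : R, r • x = x) → x = x₀) (h0 : ∀ r : R, r • x₀ = x₀) (x : X) (hx : x ≠ x₀) :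
    (MulAction.orbit R x).ncard = 7 := by
  classical
  have hodd' : ∀ y : X, Odd (MulAction.orbit R y).ncard := by
    intro y
    have h1 : Nat.card (MulAction.orbit R y) * Nat.card (MulAction.stabilizer R y) = Nat.card R := by
      rw [← Nat.card_prod]
      exact Nat.card_congr (MulAction.orbitProdStabilizerEquivGroup R y)
    rw [← h1] at hodd
    exact Nat.Odd.of_mul_left hodd
  have hne1 : ∀ y : X, y ≠ x₀ → (MulAction.orbit R y).ncard ≠ 1 := by
    intro y hy h
    obtain ⟨a, ha⟩ := Set.ncard_eq_one.1 h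
    apply hy
    apply hfix
    intro r
    have h1 : r • y ∈ MulAction.orbit R y := MulAction.mem_orbit y r
    have h2 : y ∈ MulAction.orbit R y := MulAction.mem_orbit_self y
    rw [ha, Set.mem_singleton_iff] at h1 h2
    rw [h1, h2]
  have hge : ∀ y : X, y ≠ x₀ → 3 ≤ (MulAction.orbit R y).ncard := by
    intro y hy
    have h1 := hne1 y hy
    obtain ⟨k, hk⟩ := hodd' y
    omega
  have hx0 : ∀ y : X, y ≠ x₀ → x₀ ∉ MulAction.orbit R y := by
    rintro y hy ⟨r, hr⟩
    apply hy
    have : y = r⁻¹ • x₀ := by rw [← hr]; simp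
    rw [this, h0]
  have hdisj : ∀ y z : X, z ∉ MulAction.orbit R y → Disjoint (MulAction.orbit R y) (MulAction.orbit R z) := by
    intro y z hz
    rw [Set.disjoint_left]
    intro w hw hw'
    apply hz
    rw [← MulAction.orbit_eq_iff] at hw hw'
    rw [← hw, hw']
    exact MulAction.mem_orbit_self z
  have huniv : (Set.univ : Set X).ncard = 8 := by rw [Set.ncard_univ, hX]
  have hA : (({x₀} : Set X) ∪ MulAction.orbit R x).ncard = 1 + (MulAction.orbit R x).ncard := by
    rw [Set.ncard_union_eq (by rw [Set.disjoint_singleton_left]; exact hx0 x hx), Set.ncard_singleton]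
  have hle : (({x₀} : Set X) ∪ MulAction.orbit R x).ncard ≤ 8 := by
    rw [← huniv]; exact Set.ncard_le_ncard (Set.subset_univ _)
  by_contra h7
  have hlt : (({x₀} : Set X) ∪ MulAction.orbit R x).ncard < 8 := by omega
  obtain ⟨y, hy⟩ : ∃ y, y ∉ ({x₀} : Set X) ∪ MulAction.orbit R x := by
    by_contra hcon
    push Not at hcon
    have : ({x₀} : Set X) ∪ MulAction.orbit R x = Set.univ := Set.eq_univ_of_forall hcon
    rw [this, huniv] at hlt
    omega
  rw [Set.mem_union, not_or, Set.mem_singleton_iff] at hy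
  have hB : ((({x₀} : Set X) ∪ MulAction.orbit R x) ∪ MulAction.orbit R y).ncard = 1 + (MulAction.orbit R x).ncard + (MulAction.orbit R y).ncard := by
    rw [Set.ncard_union_eq _, hA]
    rw [Set.disjoint_union_left]
    refine ⟨?_, hdisj x y hy.2⟩
    rw [Set.disjoint_singleton_left]; exact hx0 y hy.1
  have hleB : ((({x₀} : Set X) ∪ MulAction.orbit R x) ∪ MulAction.orbit R y).ncard ≤ 8 := by
    rw [← huniv]; exact Set.ncard_le_ncard (Set.subset_univ _)
  have h3x := hge x hx
  have h3y := hge y hy.1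
  obtain ⟨kx, hkx⟩ := hodd' x
  obtain ⟨ky, hky⟩ := hodd' y
  have hltB : ((({x₀} : Set X) ∪ MulAction.orbit R x) ∪ MulAction.orbit R y).ncard < 8 := by omega
  obtain ⟨z, hz⟩ : ∃ z, z ∉ (({x₀} : Set X) ∪ MulAction.orbit R x) ∪ MulAction.orbit R y := by
    by_contra hcon
    push Not at hcon
    have : (({x₀} : Set X) ∪ MulAction.orbit R x) ∪ MulAction.orbit R y = Set.univ := Set.eq_univ_of_forall hcon
    rw [this, huniv] at hltB
    omega
  rw [Set.mem_union, Set.mem_union, not_or, not_or, Set.mem_singleton_iff] at hz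
  have hC : (((({x₀} : Set X) ∪ MulAction.orbit R x) ∪ MulAction.orbit R y) ∪ MulAction.orbit R z).ncard =
      1 + (MulAction.orbit R x).ncard + (MulAction.orbit R y).ncard + (MulAction.orbit R z).ncard := by
    rw [Set.ncard_union_eq _, hB]
    rw [Set.disjoint_union_left, Set.disjoint_union_left]
    refine ⟨⟨?_, hdisj x z hz.1.2⟩, hdisj y z hz.2⟩
    rw [Set.disjoint_singleton_left]; exact hx0 z hz.1.1
  have hleC : (((({x₀} : Set X) ∪ MulAction.orbit R x) ∪ MulAction.orbit R y) ∪ MulAction.orbit R z).ncard ≤ 8 := by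
    rw [← huniv]; exact Set.ncard_le_ncard (Set.subset_univ _)
  have h3z := hge z hz.1.1
  omega

/-- the combinatorial lemma on the commutator form -/
theorem b_trivial {A : Type*} [CommGroup A] (b : ℤ → A) (h7 : ∀ i, b (i + 7) = b i) (hneg : ∀ i, b (-i) = b i)
    (h0 : b 0 = 1) (hsq : ∀ i, b i * b i = 1) (k : ℕ) (hk : 2 ≤ k ∧ k ≤ 6) (hrel : ∀ i, b i * b (i + 1) = b (i + k)) :
    ∀ i, b i = 1 := by
  have h4 : b 4 = b 3 := by rw [← hneg 3, ← h7 (-3)]; norm_num
  have h5 : b 5 = b 2 := by rw [← hneg 2, ← h7 (-2)]; norm_num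
  have h6 : b 6 = b 1 := by rw [← hneg 1, ← h7 (-1)]; norm_num
  have h77 : b 7 = 1 := by rw [← h0, ← h7 0]; norm_num
  have h8 : b 8 = b 1 := by rw [← h7 1]; norm_num
  have h9 : b 9 = b 2 := by rw [← h7 2]; norm_num
  have h10 : b 10 = b 3 := by rw [← h7 3]; norm_num
  have r0 := hrel 0
  have r1 := hrel 1
  have r2 := hrel 2
  have r3 := hrel 3
  have r4 := hrel 4
  have s1 := hsq 1
  have s2 := hsq 2
  have s3 := hsq 3
  have key : b 1 = 1 ∧ b 2 = 1 ∧ b 3 = 1 := by
    obtain ⟨hk1, hk2⟩ := hk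
    interval_cases k
    · norm_num at r0 r1 r2 r3 r4
      rw [h0, one_mul] at r0
      rw [← r0, s1] at r1
      rw [h4, ← r1, mul_one] at r2
      rw [r2] at r0
      exact ⟨r0, r2, r1.symm⟩
    · norm_num at r0 r1 r2 r3 r4
      rw [h0, one_mul] at r0
      rw [h4, ← r0] at r1
      have e2 : b 2 = 1 := by
        have : b 1 * b 2 = b 1 * 1 := by rw [r1, mul_one]
        exact mul_left_cancel this
      rw [h5, e2, one_mul] at r2
      exact ⟨r0.trans r2, e2, r2⟩
    · norm_num at r0 r1 r2 r3 r4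
      rw [h0, one_mul, h4] at r0
      rw [h5] at r1
      have e1 : b 1 = 1 := mul_eq_right.1 r1
      have e3 : b 3 = 1 := by rw [← r0, e1]
      rw [h6, e3, mul_one, e1] at r2
      exact ⟨e1, r2, e3⟩
    · norm_num at r0 r1 r2 r3 r4
      rw [h0, one_mul, h5] at r0
      rw [h6] at r1
      have e2 : b 2 = 1 := mul_eq_left.1 r1
      rw [e2] at r0
      rw [h77, e2, one_mul] at r2
      exact ⟨r0, e2, r2⟩
    · norm_num at r0 r1 r2 r3 r4
      rw [h77] at r1
      rw [h8] at r2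
      rw [h4, h9, s3] at r3
      rw [← r3, mul_one] at r1
      rw [r1, ← r3, one_mul] at r2
      exact ⟨r1, r3.symm, r2⟩
  intro i
  have hper : ∀ (n : ℤ) (j : ℤ), b (j + 7 * n) = b j := by
    intro n
    induction n using Int.induction_on with
    | zero => intro j; norm_num
    | succ n ih =>
      intro j
      rw [show j + 7 * ((n : ℤ) + 1) = (j + 7 * n) + 7 by ring, h7, ih]
    | pred n ih =>
      intro j
      have := h7 (j + 7 * (-(n : ℤ) - 1))
      rw [← this, show j + 7 * (-(n : ℤ) - 1) + 7 = j + 7 * (-(n : ℤ)) by ring, ih]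
  have hi : b i = b (i % 7) := by
    rw [← hper (i / 7) (i % 7), Int.emod_add_mul_ediv]
  rw [hi]
  have hlt : i % 7 < 7 := Int.emod_lt_of_pos _ (by norm_num)
  have hge : 0 ≤ i % 7 := Int.emod_nonneg _ (by norm_num)
  generalize i % 7 = j at hlt hge
  interval_cases j
  · exact h0
  · exact key.1
  · exact key.2.1
  · exact key.2.2
  · rw [h4]; exact key.2.2
  · rw [h5]; exact key.2.1
  · rw [h6]; exact key.1

/-- no nontrivial element of the abelian Sylow 2-subgroup is centralized by its normalizer -/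
theorem no_central {G : Type*} [Group G] [Finite G] [IsSimpleGroup G] (hG : ¬ IsMulCommutative G)
    (S : Sylow 2 G) (hS : IsMulCommutative (S : Subgroup G)) {x : G} (hx : x ∈ (S : Subgroup G)) (hx2 : x ^ 2 = 1)
    (hn : ∀ n ∈ Subgroup.normalizer (S : Set G), n * x * n⁻¹ = x) : x = 1 := by
  by_contra hx1
  have hxo : orderOf x = 2 := orderOf_eq_prime hx2 hx1
  have hcen : x ∈ Subgroup.centralizer (Subgroup.normalizer (S : Set G) : Set G) := by
    rw [Subgroup.mem_centralizer_iff]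
    intro n hnn
    have := hn n hnn
    rw [mul_inv_eq_iff_eq_mul] at this
    exact this
  have hiso := AbAut.isolated_of_central S hS hxo hx hcen
  have hst := Cfsg.Agent.H4.ZStar.zstar hiso
  haveI hnorm : (oddCore G).Normal := Cfsg.Agent.H1.Nilp.pPrimeCore_normal 2
  have hcop : (Nat.card (oddCore G)).Coprime 2 := Cfsg.Agent.H11.Cores.pPrimeCore_coprime 2
  rcases hnorm.eq_bot_or_eq_top with h | h
  · have hxc : x ∈ Subgroup.center G := by
      rw [Subgroup.mem_center_iff]
      intro g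
      have h1 := hst g
      rw [h, Subgroup.mem_bot, mul_inv_eq_one, mul_inv_eq_iff_eq_mul] at h1
      exact h1.symm
    rcases (inferInstance : (Subgroup.center G).Normal).eq_bot_or_eq_top with h2 | h2
    · rw [h2, Subgroup.mem_bot] at hxc
      exact hx1 hxc
    · apply hG
      rw [isMulCommutative_iff]
      intro a b
      have : b ∈ Subgroup.center G := by rw [h2]; trivial
      exact Subgroup.mem_center_iff.1 this a
  · rw [h, Subgroup.card_top] at hcop
    have h2 : 2 ∣ Nat.card G := by rw [← hxo]; exact orderOf_dvd_natCard x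
    have := Nat.Coprime.eq_one_of_dvd hcop.symm h2
    omega

/-- an element of order seven on the elementary abelian Sylow 2-subgroup of order 8 -/
theorem exists_seven {G : Type*} [Group G] [Finite G] [IsSimpleGroup G] (hG : ¬ IsMulCommutative G)
    (S : Sylow 2 G) (hS : IsMulCommutative (S : Subgroup G)) (h8 : Nat.card (S : Subgroup G) = 8)
    (h2 : ∀ x ∈ (S : Subgroup G), x ^ 2 = 1) :
    ∃ n ∈ Subgroup.normalizer (S : Set G), (∀ x ∈ (S : Subgroup G), n ^ (7 : ℤ) * x * (n ^ (7 : ℤ))⁻¹ = x) ∧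
      (∀ x ∈ (S : Subgroup G), n * x * n⁻¹ = x → x = 1) ∧
      (∀ x ∈ (S : Subgroup G), x ≠ 1 → ∀ y ∈ (S : Subgroup G), y ≠ 1 → ∃ i : ℤ, y = n ^ i * x * (n ^ i)⁻¹) := by
  classical
  set N := Subgroup.normalizer (S : Set G) with hN
  set ρ : N →* MulAut (S : Subgroup G) := (S : Subgroup G).normalizerMonoidHom with hρ
  have hρapp : ∀ (n : N) (x : (S : Subgroup G)), ((ρ n x : (S : Subgroup G)) : G) = n * x * (n : G)⁻¹ := fun n x => rfl
  have hSN : (S : Subgroup G) ≤ N := Subgroup.le_normalizer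
  have hodd : Odd (Nat.card ρ.range) := by
    have h1 : Nat.card ρ.range = ρ.ker.index := (Subgroup.index_ker ρ).symm
    rw [h1]
    have h3 : (S : Subgroup G).subgroupOf N ≤ ρ.ker := by
      intro s hs
      rw [MonoidHom.mem_ker]
      ext x
      rw [hρapp, MulAut.one_apply]
      have : (s : G) * x = x * s := congrArg Subtype.val (mul_comm' (⟨s.1, hs⟩ : (S : Subgroup G)) x)
      rw [this, mul_inv_cancel_right]
    have h4 := Subgroup.index_dvd_of_le h3
    have h5 : ((S : Subgroup G).subgroupOf N).index ∣ (S : Subgroup G).index := Subgroup.relIndex_dvd_index_of_le hSN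
    have h6 : ¬ 2 ∣ (S : Subgroup G).index := S.not_dvd_index
    rw [← Nat.not_even_iff_odd, even_iff_two_dvd]
    exact fun h => h6 (h.trans (h4.trans h5))
  have hfix : ∀ x : (S : Subgroup G), (∀ r : ρ.range, r • x = x) → x = 1 := by
    intro x hx
    apply Subtype.ext
    refine no_central hG S hS x.2 (h2 x x.2) ?_
    intro n hn
    have := hx ⟨ρ ⟨n, hn⟩, ⟨n, hn⟩, rfl⟩
    exact congrArg Subtype.val this
  have h0 : ∀ r : ρ.range, r • (1 : (S : Subgroup G)) = 1 := by
    intro r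
    exact map_one (r : MulAut (S : Subgroup G))
  have hnt : ∃ x : (S : Subgroup G), x ≠ 1 := by
    by_contra hcon
    push Not at hcon
    haveI : Subsingleton (S : Subgroup G) := ⟨fun a b => (hcon a).trans (hcon b).symm⟩
    rw [Nat.card_of_subsingleton (1 : (S : Subgroup G))] at h8
    omega
  obtain ⟨x₁, hx₁⟩ := hnt
  have h7 := orbit_seven hodd (1 : (S : Subgroup G)) h8 hfix h0 x₁ hx₁
  have h7d : 7 ∣ Nat.card ρ.range := by
    have h1 : Nat.card (MulAction.orbit ρ.range x₁) * Nat.card (MulAction.stabilizer ρ.range x₁) = Nat.card ρ.range := by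
      rw [← Nat.card_prod]
      exact Nat.card_congr (MulAction.orbitProdStabilizerEquivGroup ρ.range x₁)
    rw [← h1, show Nat.card (MulAction.orbit ρ.range x₁) = 7 from h7]
    exact dvd_mul_right _ _
  haveI : Fact (Nat.Prime 7) := ⟨by norm_num⟩
  obtain ⟨r₀, hr₀⟩ := exists_prime_orderOf_dvd_card' 7 h7d
  obtain ⟨n, hn⟩ := r₀.2
  have hr : orderOf (ρ n) = 7 := by rw [hn, Subgroup.orderOf_coe]; exact hr₀
  have hzc : Nat.card (Subgroup.zpowers (ρ n)) = 7 := by rw [Nat.card_zpowers, hr]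
  have hpg : IsPGroup 7 (Subgroup.zpowers (ρ n)) := IsPGroup.of_card (n := 1) (by rw [hzc, pow_one])
  -- fixed points
  have hfp : ∀ x : (S : Subgroup G), ρ n x = x → x = 1 := by
    have hmod := hpg.card_modEq_card_fixedPoints (α := (S : Subgroup G))
    rw [h8] at hmod
    have hle : Nat.card (MulAction.fixedPoints (Subgroup.zpowers (ρ n)) (S : Subgroup G)) ≤ 8 := by
      rw [← h8]; exact Finite.card_subtype_le _
    have hfixmem : ∀ x : (S : Subgroup G), ρ n x = x → x ∈ MulAction.fixedPoints (Subgroup.zpowers (ρ n)) (S : Subgroup G) := by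
      rintro x hx ⟨m, hm⟩
      obtain ⟨i, rfl⟩ := Subgroup.mem_zpowers_iff.1 hm
      have : ρ n ∈ MulAction.stabilizer (MulAut (S : Subgroup G)) x := hx
      exact Subgroup.zpow_mem _ this i
    have hc : Nat.card (MulAction.fixedPoints (Subgroup.zpowers (ρ n)) (S : Subgroup G)) = 1 ∨
        Nat.card (MulAction.fixedPoints (Subgroup.zpowers (ρ n)) (S : Subgroup G)) = 8 := by
      unfold Nat.ModEq at hmod
      omega
    rcases hc with hc | hc
    · intro x hx
      have h1 := hfixmem x hx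
      have h2 := hfixmem 1 (map_one _)
      have hss := (Nat.card_eq_one_iff_unique.1 hc).1
      exact congrArg Subtype.val (hss.elim ⟨x, h1⟩ ⟨1, h2⟩)
    · exfalso
      have hall : MulAction.fixedPoints (Subgroup.zpowers (ρ n)) (S : Subgroup G) = Set.univ := by
        apply Set.eq_of_subset_of_ncard_le (Set.subset_univ _)
        rw [Set.ncard_univ, h8]
        exact hc.ge
      have : ρ n = 1 := by
        ext x
        have h1 : x ∈ MulAction.fixedPoints (Subgroup.zpowers (ρ n)) (S : Subgroup G) := by rw [hall]; trivial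
        exact congrArg Subtype.val (h1 ⟨ρ n, Subgroup.mem_zpowers _⟩)
      rw [this, orderOf_one] at hr
      omega
  have hz : ∀ (i : ℤ) (x : (S : Subgroup G)), (((ρ n) ^ i) x : G) = (n : G) ^ i * x * ((n : G) ^ i)⁻¹ := by
    intro i x
    rw [← map_zpow, hρapp, Subgroup.coe_zpow]
  refine ⟨n, n.2, ?_, ?_, ?_⟩
  · intro x hx
    have h1 := hz 7 ⟨x, hx⟩
    have h3 : (ρ n) ^ (7 : ℤ) = 1 := by
      have : (ρ n) ^ (7 : ℕ) = 1 := by rw [← hr]; exact pow_orderOf_eq_one _
      exact_mod_cast this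
    rw [h3, MulAut.one_apply] at h1
    exact h1.symm
  · intro x hx hnx
    have h1 := hfp ⟨x, hx⟩ (Subtype.ext hnx)
    exact congrArg Subtype.val h1
  · intro x hx hx1 y hy hy1
    have hx1' : (⟨x, hx⟩ : (S : Subgroup G)) ≠ 1 := fun h => hx1 (congrArg Subtype.val h)
    -- orbit of zpowers
    have h7x := orbit_seven (R := Subgroup.zpowers (ρ n)) (X := (S : Subgroup G)) (by rw [hzc]; decide) 1 h8
      (fun z hz' => hfp z (hz' ⟨ρ n, Subgroup.mem_zpowers _⟩)) (fun r => map_one (r : MulAut (S : Subgroup G))) ⟨x, hx⟩ hx1'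
    have hnot : (1 : (S : Subgroup G)) ∉ MulAction.orbit (Subgroup.zpowers (ρ n)) (⟨x, hx⟩ : (S : Subgroup G)) := by
      rintro ⟨r, hr'⟩
      apply hx1'
      have h3 : (r : MulAut (S : Subgroup G)) ⟨x, hx⟩ = 1 := hr'
      exact (MulEquiv.map_eq_one_iff _).1 h3
    have huniv : insert (1 : (S : Subgroup G)) (MulAction.orbit (Subgroup.zpowers (ρ n)) (⟨x, hx⟩ : (S : Subgroup G))) = Set.univ := by
      apply Set.eq_of_subset_of_ncard_le (Set.subset_univ _)
      rw [Set.ncard_univ, Set.ncard_insert_of_notMem hnot, h7x, h8]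
    have hy' : (⟨y, hy⟩ : (S : Subgroup G)) ∈ insert (1 : (S : Subgroup G)) (MulAction.orbit (Subgroup.zpowers (ρ n)) (⟨x, hx⟩ : (S : Subgroup G))) := by
      rw [huniv]; trivial
    rcases hy' with h | ⟨⟨r, hr'⟩, hry⟩
    · exact absurd (congrArg Subtype.val h) hy1
    · obtain ⟨i, rfl⟩ := Subgroup.mem_zpowers_iff.1 hr'
      refine ⟨i, ?_⟩
      rw [← hz i ⟨x, hx⟩]
      exact (congrArg Subtype.val hry).symm

/-- perfect central 2-extensions split when the Sylow 2-subgroup is elementary abelian of order 8 -/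
theorem ext_trivial {G L : Type*} [Group G] [Finite G] [IsSimpleGroup G] [Group L] [Finite L] (hG : ¬ IsMulCommutative G)
    (S : Sylow 2 G) (hS : IsMulCommutative (S : Subgroup G)) (h8 : Nat.card (S : Subgroup G) = 8)
    (h2 : ∀ x ∈ (S : Subgroup G), x ^ 2 = 1) (π : L →* G) (hπ : Function.Surjective π)
    (hZ : π.ker ≤ Subgroup.center L) (hZ2 : IsPGroup 2 π.ker) (hL : commutator L = ⊤) : π.ker = ⊥ := by
  classical
  obtain ⟨n, hn, hn7, hnf, hnt⟩ := exists_seven hG S hS h8 h2
  obtain ⟨n', hn'⟩ := hπ n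
  have hnt' : ∃ x ∈ (S : Subgroup G), x ≠ 1 := by
    by_contra hcon
    push Not at hcon
    have : (S : Subgroup G) = ⊥ := by rw [eq_bot_iff]; intro x hx; exact hcon x hx
    rw [this, Subgroup.card_bot] at h8
    omega
  obtain ⟨x, hx, hx1⟩ := hnt'
  obtain ⟨x', hx'⟩ := hπ x
  -- the conjugates
  set c : ℤ → L := fun i => n' ^ i * x' * (n' ^ i)⁻¹ with hc
  have hπc : ∀ i, π (c i) = n ^ i * x * (n ^ i)⁻¹ := by
    intro i
    simp only [hc, map_mul, map_inv, map_zpow, hn', hx']
  have hni : ∀ (i : ℤ) (y : G), y ∈ (S : Subgroup G) → n ^ i * y * (n ^ i)⁻¹ ∈ (S : Subgroup G) := by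
    intro i y hy
    have h1 : n ^ i ∈ Subgroup.normalizer (S : Set G) := Subgroup.zpow_mem _ hn i
    exact (Subgroup.mem_normalizer_iff.1 h1 y).1 hy
  have hπcS : ∀ i, π (c i) ∈ (S : Subgroup G) := by
    intro i; rw [hπc]; exact hni i x hx
  have hScomm : ∀ a ∈ (S : Subgroup G), ∀ b ∈ (S : Subgroup G), a * b = b * a := by
    intro a ha b hb
    exact congrArg Subtype.val (mul_comm' (⟨a, ha⟩ : (S : Subgroup G)) ⟨b, hb⟩)
  have hcen : ∀ a b : L, π a ∈ (S : Subgroup G) → π b ∈ (S : Subgroup G) → a * b * a⁻¹ * b⁻¹ ∈ Subgroup.center L := by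
    intro a b ha hb
    apply hZ
    rw [MonoidHom.mem_ker, map_mul, map_mul, map_mul, map_inv, map_inv, hScomm _ ha _ hb]
    group
  have hkerc : ∀ z ∈ π.ker, ∀ y : L, z * y = y * z := by
    intro z hz y
    exact (Subgroup.mem_center_iff.1 (hZ hz) y).symm
  -- congruence
  have hcongr : ∀ a b b' : L, π b = π b' → a * b * a⁻¹ * b⁻¹ = a * b' * a⁻¹ * b'⁻¹ := by
    intro a b b' hb
    have hz : b'⁻¹ * b ∈ π.ker := by rw [MonoidHom.mem_ker, map_mul, map_inv, hb, inv_mul_cancel]
    obtain ⟨z, hz', hbz⟩ : ∃ z ∈ π.ker, b = b' * z := ⟨b'⁻¹ * b, hz, by group⟩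
    rw [hbz]
    have h3 := hkerc z hz'
    calc a * (b' * z) * a⁻¹ * (b' * z)⁻¹ = a * b' * (z * a⁻¹) * z⁻¹ * b'⁻¹ := by group
      _ = a * b' * a⁻¹ * b'⁻¹ := by rw [h3]; group
  set b : ℤ → Subgroup.center L := fun i => ⟨c 0 * c i * (c 0)⁻¹ * (c i)⁻¹, hcen _ _ (hπcS 0) (hπcS i)⟩ with hb
  have hbv : ∀ i, (b i : L) = c 0 * c i * (c 0)⁻¹ * (c i)⁻¹ := fun i => rfl
  have hcconj : ∀ i j, n' ^ i * c j * (n' ^ i)⁻¹ = c (i + j) := by
    intro i j
    simp only [hc, zpow_add]
    group
  have hbconj : ∀ i j, c i * c j * (c i)⁻¹ * (c j)⁻¹ = b (j - i) := by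
    intro i j
    have h3 : n' ^ i * (b (j - i) : L) * (n' ^ i)⁻¹ = b (j - i) := by
      rw [Subgroup.mem_center_iff.1 (b (j - i)).2 (n' ^ i)]; group
    rw [← h3, hbv]
    calc c i * c j * (c i)⁻¹ * (c j)⁻¹ = c (i + 0) * c (i + (j - i)) * (c (i + 0))⁻¹ * (c (i + (j - i)))⁻¹ := by
          rw [add_zero, add_sub_cancel]
      _ = _ := by
          rw [← hcconj i 0, ← hcconj i (j - i)]; group
  have hb7 : ∀ i, b (i + 7) = b i := by
    intro i
    apply Subtype.ext
    rw [hbv, hbv]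
    apply hcongr
    rw [hπc, hπc, add_comm, zpow_add]
    have := hn7 _ (hni i x hx)
    rw [← this]
    group
  have hbmul : ∀ i j, ∀ y : L, π y ∈ (S : Subgroup G) → π (c i * c j) = π y →
      (b i : L) * (b j : L) = c 0 * y * (c 0)⁻¹ * y⁻¹ := by
    intro i j y hy hy'
    rw [← hcongr (c 0) _ _ hy', hbv i]
    have h3 := Subgroup.mem_center_iff.1 (b j).2 (c i)
    calc (c 0 * c i * (c 0)⁻¹ * (c i)⁻¹) * (b j : L) = c 0 * c i * (c 0)⁻¹ * (c i)⁻¹ * (b j * c i) * (c i)⁻¹ := by group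
      _ = c 0 * c i * (c 0)⁻¹ * (c i)⁻¹ * (c i * b j) * (c i)⁻¹ := by rw [h3]
      _ = c 0 * (c i * c j) * (c 0)⁻¹ * (c i * c j)⁻¹ := by rw [hbv j]; group
  have hb0 : b 0 = 1 := by
    apply Subtype.ext
    rw [hbv, Subgroup.coe_one]; group
  have hbneg : ∀ i, b (-i) = (b i)⁻¹ := by
    intro i
    apply Subtype.ext
    rw [Subgroup.coe_inv, hbv i]
    have := hbconj i 0
    rw [zero_sub] at this
    rw [← this]
    group
  have hbsq : ∀ i, b i * b i = 1 := by
    intro i
    apply Subtype.ext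
    rw [Subgroup.coe_mul, Subgroup.coe_one, hbmul i i 1 (by rw [map_one]; exact one_mem _)]
    · group
    · rw [map_mul, map_one, ← pow_two]
      exact h2 _ (hπcS i)
  have hbneg' : ∀ i, b (-i) = b i := by
    intro i
    rw [hbneg, inv_eq_iff_mul_eq_one]
    exact hbsq i
  -- the relation
  have hx0 : π (c 0) = x := by rw [hπc]; simp
  have hx1' : π (c 1) = n * x * n⁻¹ := by rw [hπc, zpow_one]
  obtain ⟨k, hk, hrel⟩ : ∃ k : ℕ, (2 ≤ k ∧ k ≤ 6) ∧ π (c 0 * c 1) = π (c k) := by
    have hy : π (c 0 * c 1) ∈ (S : Subgroup G) := by rw [map_mul]; exact mul_mem (hπcS 0) (hπcS 1)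
    have hne : π (c 0) ≠ π (c 1) := by
      rw [hx0, hx1']
      intro h
      exact hx1 (hnf x hx h.symm)
    have hy1 : π (c 0 * c 1) ≠ 1 := by
      intro h
      apply hne
      rw [map_mul, mul_eq_one_iff_eq_inv] at h
      rw [h, inv_eq_iff_mul_eq_one, ← pow_two]
      exact h2 _ (hπcS 1)
    obtain ⟨i, hi⟩ := hnt x hx hx1 _ hy hy1
    rw [← hπc] at hi
    have hper : ∀ (m : ℤ) (j : ℤ), π (c (j + 7 * m)) = π (c j) := by
      have h1 : ∀ j : ℤ, π (c (j + 7)) = π (c j) := by
        intro j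
        rw [hπc, hπc, add_comm, zpow_add]
        have := hn7 _ (hni j x hx)
        rw [← this]
        group
      intro m
      induction m using Int.induction_on with
      | zero => intro j; norm_num
      | succ m ih =>
        intro j
        rw [show j + 7 * ((m : ℤ) + 1) = (j + 7 * m) + 7 by ring, h1, ih]
      | pred m ih =>
        intro j
        have := h1 (j + 7 * (-(m : ℤ) - 1))
        rw [← this, show j + 7 * (-(m : ℤ) - 1) + 7 = j + 7 * (-(m : ℤ)) by ring, ih]
    have hi' : π (c i) = π (c (i % 7)) := by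
      rw [← hper (i / 7) (i % 7), Int.emod_add_mul_ediv]
    have hlt : i % 7 < 7 := Int.emod_lt_of_pos _ (by norm_num)
    have hge : 0 ≤ i % 7 := Int.emod_nonneg _ (by norm_num)
    have hcx : ∀ j, π (c j) ≠ 1 := by
      intro j h
      rw [hπc, mul_inv_eq_one, mul_eq_left] at h
      exact hx1 h
    refine ⟨(i % 7).toNat, ⟨?_, by omega⟩, ?_⟩
    · by_contra hlt2
      have h01 : i % 7 = 0 ∨ i % 7 = 1 := by omega
      rcases h01 with h | h
      · rw [hi', h, map_mul, mul_eq_left] at hi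
        exact hcx 1 hi
      · rw [hi', h, map_mul, mul_eq_right] at hi
        exact hcx 0 hi
    · rw [hi, hi', Int.toNat_of_nonneg hge]
  have hbrel : ∀ i, b i * b (i + 1) = b (i + k) := by
    intro i
    apply Subtype.ext
    rw [Subgroup.coe_mul, hbmul i (i + 1) (c (i + k)) (hπcS _), hbv]
    have h3 : ∀ a b : L, π (n' ^ i * a * (n' ^ i)⁻¹ * (n' ^ i * b * (n' ^ i)⁻¹)) = n ^ i * π (a * b) * (n ^ i)⁻¹ := by
      intro a b
      simp only [map_mul, map_inv, map_zpow, hn']
      group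
    have h4 : c i * c (i + 1) = n' ^ i * c 0 * (n' ^ i)⁻¹ * (n' ^ i * c 1 * (n' ^ i)⁻¹) := by
      rw [hcconj, hcconj, add_zero]
    rw [h4, h3, hrel, ← hcconj]
    simp only [map_mul, map_inv, map_zpow, hn']
  letI : CommGroup (Subgroup.center L) :=
    { (inferInstance : Group (Subgroup.center L)) with
      mul_comm := fun a b => Subtype.ext (Subgroup.mem_center_iff.1 b.2 a) }
  have hb1 := b_trivial b hb7 hbneg' hb0 hbsq k hk hbrel
  -- the preimage of S is abelian
  have hSt : ∀ a ∈ (S : Subgroup G).comap π, ∀ d ∈ (S : Subgroup G).comap π, a * d = d * a := by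
    have hcc : ∀ i j, c i * c j = c j * c i := by
      intro i j
      have := hbconj i j
      rw [hb1, Subgroup.coe_one, mul_inv_eq_one, mul_inv_eq_iff_eq_mul] at this
      exact this
    have hform : ∀ a ∈ (S : Subgroup G).comap π, a ∈ π.ker ∨ ∃ i, ∃ z ∈ π.ker, a = c i * z := by
      intro a ha
      by_cases h1 : π a = 1
      · exact Or.inl h1
      · right
        obtain ⟨i, hi⟩ := hnt x hx hx1 _ ha h1
        refine ⟨i, (c i)⁻¹ * a, ?_, by group⟩
        rw [MonoidHom.mem_ker, map_mul, map_inv, hπc, hi, inv_mul_cancel]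
    intro a ha d hd
    rcases hform a ha with h1 | ⟨i, z, hz, rfl⟩
    · exact hkerc a h1 d
    · rcases hform d hd with h1 | ⟨j, w, hw, rfl⟩
      · exact (hkerc d h1 _).symm
      · calc c i * z * (c j * w) = c i * (z * c j) * w := by group
          _ = (c i * c j) * z * w := by rw [hkerc z hz]; group
          _ = (c j * c i) * (z * w) := by rw [hcc]; group
          _ = (c j * c i) * (w * z) := by rw [hkerc z hz]
          _ = c j * (c i * w) * z := by group
          _ = c j * w * (c i * z) := by rw [← hkerc w hw]; group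
  have hSt2 : IsPGroup 2 ((S : Subgroup G).comap π) := S.isPGroup'.comap_of_ker_isPGroup π hZ2
  have hidx : ¬ 2 ∣ ((S : Subgroup G).comap π).index := by
    rw [Subgroup.index_comap_of_surjective _ hπ]
    exact S.not_dvd_index
  set T : Sylow 2 L := hSt2.toSylow hidx with hT
  have hTv : (T : Subgroup L) = (S : Subgroup G).comap π := rfl
  have hTc : IsMulCommutative (T : Subgroup L) := by
    rw [isMulCommutative_iff]
    rintro ⟨a, ha⟩ ⟨d, hd⟩
    apply Subtype.ext
    exact hSt a ha d hd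
  -- transfer
  have iK := Cfsg.Agent.H2.Fusion.pResidual_normal (G := L) 2
  have hKtop : Cfsg.pResidual 2 L = ⊤ := by
    have h3 := Cfsg.Agent.H2.Fusion2.sup_pResidual T
    rw [eq_top_iff, ← hL, commutator_def, Subgroup.commutator_le]
    intro g₁ _ g₂ _
    have hg : ∀ g : L, ∃ t ∈ (T : Subgroup L), ∃ r ∈ Cfsg.pResidual 2 L, g = t * r := by
      intro g
      have h4 : g ∈ (T : Subgroup L) ⊔ Cfsg.pResidual 2 L := by rw [h3]; trivial
      rw [← SetLike.mem_coe, Subgroup.mul_normal] at h4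
      obtain ⟨t, ht, r, hr, rfl⟩ := h4
      exact ⟨t, ht, r, hr, rfl⟩
    obtain ⟨t₁, ht₁, r₁, hr₁, rfl⟩ := hg g₁
    obtain ⟨t₂, ht₂, r₂, hr₂, rfl⟩ := hg g₂
    rw [← QuotientGroup.eq_one_iff, commutatorElement_def]
    simp only [QuotientGroup.mk_mul, QuotientGroup.mk_inv, (QuotientGroup.eq_one_iff r₁).2 hr₁, (QuotientGroup.eq_one_iff r₂).2 hr₂,
      mul_one]
    rw [← QuotientGroup.mk_mul, hSt t₁ ht₁ t₂ ht₂, QuotientGroup.mk_mul]
    group
  set N := Subgroup.normalizer (T : Set L) with hN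
  have hPN : (T : Subgroup L) ≤ N := Subgroup.le_normalizer
  set A : Subgroup N := (T : Subgroup L).subgroupOf N with hA
  have iA : A.Normal := Subgroup.normal_in_normalizer (H := (T : Subgroup L))
  have hAc : IsMulCommutative A := by
    rw [isMulCommutative_iff]
    intro a b
    apply Subtype.ext
    apply Subtype.ext
    exact hSt a.1.1 a.2 b.1.1 b.2
  have hHall : Nat.Coprime (Nat.card A) A.index := (T.subtype hPN).card_coprime_index
  obtain ⟨h3, h4, h5⟩ := Cfsg.Agent.S0090.result A hAc hHall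
  have hmapA : ⁅A, (⊤ : Subgroup N)⁆.map N.subtype = ⁅(T : Subgroup L), N⁆ := by
    rw [Subgroup.map_commutator, hA, Subgroup.map_subgroupOf_eq_of_le hPN, ← MonoidHom.range_eq_map,
      Subgroup.range_subtype]
  have hPK := Cfsg.Agent.H2.Fusion4.inf_pResidual_of_abelian T hTc
  rw [hKtop, inf_top_eq, ← hmapA] at hPK
  rw [eq_bot_iff]
  intro z hz
  have hzT : z ∈ (T : Subgroup L) := by
    rw [hTv, Subgroup.mem_comap]
    have : π z = 1 := hz
    rw [this]; exact one_mem _
  have hz6 : z ∈ ⁅A, (⊤ : Subgroup N)⁆.map N.subtype := by rw [← hPK]; exact hzT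
  obtain ⟨z', hz', hzz⟩ := hz6
  rw [h3] at hz'
  have h7 : z' ∈ (commutator N ⊓ A) ⊓ (Subgroup.center N ⊓ A) := by
    refine ⟨hz', ?_, hz'.2⟩
    change z' ∈ Subgroup.center N
    rw [Subgroup.mem_center_iff]
    intro g
    apply Subtype.ext
    have h8 : (z' : L) = z := hzz
    rw [Subgroup.coe_mul, Subgroup.coe_mul, h8]
    exact (hkerc z hz _).symm
  rw [h4, Subgroup.mem_bot] at h7
  rw [Subgroup.mem_bot, ← hzz, h7]
  rfl

end Cfsg.Agent.H9.JR
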