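import Mathlib

set_option autoImplicit false
open scoped Pointwise

namespace Cfsg.Agent.H9.MinNorm

/-- adjoining a factor -/
def consMulEquiv (m : ℕ) (T : Type*) [Group T] : (Fin m → T) × T ≃* (Fin (m + 1) → T) where
  toFun x := Fin.cons x.2 x.1
  invFun f := (fun i => f i.succ, f 0)
  left_inv := by rintro ⟨f, t⟩; simp
  right_inv := by intro f; exact Fin.cons_self_tail f
  map_mul' := by
    rintro ⟨f, t⟩ ⟨f', t'⟩
    funext i
    refine Fin.cases ?_ (fun j => ?_) i
    · simp
    · simp

/-- subgroups with trivial intersection normalising each other commute -/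
theorem commute_of_normalize {H : Type*} [Group H] (A B : Subgroup H) (hAB : A ⊓ B = ⊥)
    (h1 : ∀ a ∈ A, ∀ b ∈ B, a * b * a⁻¹ ∈ B) (h2 : ∀ b ∈ B, ∀ a ∈ A, b * a * b⁻¹ ∈ A) :
    ∀ a ∈ A, ∀ b ∈ B, a * b = b * a := by
  intro a ha b hb
  have h3 : a * b * a⁻¹ * b⁻¹ ∈ A ⊓ B := by
    constructor
    · have : a * b * a⁻¹ * b⁻¹ = a * (b * a⁻¹ * b⁻¹) := by group
      rw [this]
      exact A.mul_mem ha (h2 b hb _ (A.inv_mem ha))
    · exact B.mul_mem (h1 a ha b hb) (B.inv_mem hb)
  rw [hAB, Subgroup.mem_bot] at h3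
  have h4 : a * b = b * a := by
    calc a * b = (a * b * a⁻¹ * b⁻¹) * (b * a) := by group
      _ = b * a := by rw [h3, one_mul]
  exact h4

noncomputable def supMulEquiv {H : Type*} [Group H] (A B : Subgroup H) (hAB : A ⊓ B = ⊥)
    (hc : ∀ a ∈ A, ∀ b ∈ B, a * b = b * a) : A × B ≃* (A ⊔ B : Subgroup H) := by
  have hcomm : ∀ (m : A) (n : B), Commute (A.subtype m) (B.subtype n) := fun m n => hc m m.2 n n.2
  let φ : A × B →* H := MonoidHom.noncommCoprod A.subtype B.subtype hcomm
  have hφ : Function.Injective φ := by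
    rw [injective_iff_map_eq_one]
    rintro ⟨a, b⟩ h
    have h1 : (a : H) * b = 1 := h
    have h2 : (a : H) ∈ A ⊓ B := ⟨a.2, by
      rw [eq_inv_of_mul_eq_one_left h1]; exact B.inv_mem b.2⟩
    rw [hAB, Subgroup.mem_bot] at h2
    rw [h2, one_mul] at h1
    exact Prod.ext (Subtype.ext h2) (Subtype.ext h1)
  have hr : φ.range = A ⊔ B := by
    rw [MonoidHom.noncommCoprod_range]
    simp
  exact (MonoidHom.ofInjective hφ).trans (MulEquiv.subgroupCongr hr)

theorem main {H : Type*} [Group H] [Finite H] (N : Subgroup H) [N.Normal] (hN : N ≠ ⊥)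
    (hmin : ∀ M : Subgroup H, M.Normal → M ≤ N → M = ⊥ ∨ M = N) :
    ∃ (T : Subgroup H) (m : ℕ), T ≤ N ∧ IsSimpleGroup T ∧ 0 < m ∧ Nonempty (N ≃* (Fin m → T)) ∧
      (∀ n ∈ N, ∀ t ∈ T, n * t * n⁻¹ ∈ T) := by
  classical
  -- subgroups of N normalised by N
  let P : Subgroup H → Prop := fun M => M ≤ N ∧ ∀ n ∈ N, ∀ x ∈ M, n * x * n⁻¹ ∈ M
  obtain ⟨T, ⟨hTP, hTne⟩, hTmin⟩ : ∃ T, (P T ∧ T ≠ ⊥) ∧ ∀ M, P M → M ≠ ⊥ → M ≤ T → M = T := by
    have hfin : {M : Subgroup H | P M ∧ M ≠ ⊥}.Finite := Set.toFinite _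
    have hne : {M : Subgroup H | P M ∧ M ≠ ⊥}.Nonempty :=
      ⟨N, ⟨le_rfl, fun n hn x hx => N.mul_mem (N.mul_mem hn hx) (N.inv_mem hn)⟩, hN⟩
    obtain ⟨T, hT⟩ := hfin.exists_minimal hne
    exact ⟨T, hT.prop, fun M h1 h2 h3 => le_antisymm h3 (hT.le_of_le ⟨h1, h2⟩ h3)⟩
  -- conjugates
  let c : H → Subgroup H := fun h => T.map (MulAut.conj h).toMonoidHom
  have hcmem : ∀ h x, x ∈ c h ↔ h⁻¹ * x * h ∈ T := by
    intro h x
    constructor
    · rintro ⟨t, ht, rfl⟩
      simpa [MulAut.conj_apply, mul_assoc] using ht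
    · intro hx
      exact ⟨_, hx, by simp [MulAut.conj_apply, mul_assoc]⟩
  have hcP : ∀ h, P (c h) := by
    intro h
    refine ⟨?_, ?_⟩
    · intro x hx
      rw [hcmem] at hx
      have h1 := hTP.1 hx
      have := (inferInstance : N.Normal).conj_mem _ h1 h
      simpa [mul_assoc] using this
    · intro n hn x hx
      rw [hcmem] at hx ⊢
      have h1 : h⁻¹ * n * h ∈ N := by
        have := (inferInstance : N.Normal).conj_mem _ hn h⁻¹
        simpa using this
      have := hTP.2 _ h1 _ hx
      simpa [mul_assoc] using this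
  have hcmin : ∀ h M, P M → M ≤ c h → M = ⊥ ∨ M = c h := by
    intro h M hM hle
    by_cases hb : M = ⊥
    · exact Or.inl hb
    right
    apply le_antisymm hle
    let M' : Subgroup H := M.map (MulAut.conj h⁻¹).toMonoidHom
    have hM'mem : ∀ x, x ∈ M' ↔ h * x * h⁻¹ ∈ M := by
      intro x
      constructor
      · rintro ⟨t, ht, rfl⟩
        simpa [MulAut.conj_apply, mul_assoc] using ht
      · intro hx
        exact ⟨_, hx, by simp [MulAut.conj_apply, mul_assoc]⟩
    have h1 : M' ≤ T := by
      intro x hx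
      rw [hM'mem] at hx
      have := (hcmem _ _).1 (hle hx)
      simpa [mul_assoc] using this
    have h2 : P M' := by
      refine ⟨h1.trans hTP.1, ?_⟩
      intro n hn x hx
      rw [hM'mem] at hx ⊢
      have h3 : h * n * h⁻¹ ∈ N := (inferInstance : N.Normal).conj_mem _ hn h
      have := hM.2 _ h3 _ hx
      simpa [mul_assoc] using this
    have h3 : M' ≠ ⊥ := by
      intro h4
      apply hb
      rw [Subgroup.eq_bot_iff_forall] at h4 ⊢
      intro x hx
      have := h4 (h⁻¹ * x * h) (by rw [hM'mem]; simpa [mul_assoc] using hx)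
      have h5 : x = h * (h⁻¹ * x * h) * h⁻¹ := by group
      rw [h5, this]; simp
    have h4 := hTmin M' h2 h3 h1
    intro x hx
    rw [hcmem, ← h4, hM'mem] at hx
    simpa [mul_assoc] using hx
  -- the join of all conjugates is N
  have hgen : ∀ K : Subgroup H, (∀ h, c h ≤ K) → N ≤ K := by
    intro K hK
    have h1 : Subgroup.normalClosure (T : Set H) ≤ N := Subgroup.normalClosure_le_normal hTP.1
    have h2 := hmin _ Subgroup.normalClosure_normal h1
    have h3 : Subgroup.normalClosure (T : Set H) = N := by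
      refine h2.resolve_left ?_
      intro h
      apply hTne
      rw [eq_bot_iff, ← h]
      exact Subgroup.subset_normalClosure
    rw [← h3]
    unfold Subgroup.normalClosure
    rw [Subgroup.closure_le]
    intro x hx
    rw [Group.mem_conjugatesOfSet_iff] at hx
    obtain ⟨t, ht, hconj⟩ := hx
    rw [isConj_iff] at hconj
    obtain ⟨h, rfl⟩ := hconj
    apply hK h
    rw [hcmem]
    simpa [mul_assoc] using ht
  have hcT : c 1 = T := by
    ext x; rw [hcmem]; simp
  -- T is simple
  have hsimple : IsSimpleGroup T := by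
    haveI : Nontrivial T := (Subgroup.nontrivial_iff_ne_bot T).2 hTne
    refine ⟨fun K hK => ?_⟩
    let K' : Subgroup H := K.map T.subtype
    have hK'T : K' ≤ T := Subgroup.map_subtype_le K
    have hK'mem : ∀ (x : H) (hx : x ∈ T), x ∈ K' ↔ (⟨x, hx⟩ : T) ∈ K := by
      intro x hx
      constructor
      · rintro ⟨⟨y, hy⟩, hyK, rfl⟩; exact hyK
      · intro h; exact ⟨_, h, rfl⟩
    have hK' : P K' := by
      refine ⟨hK'T.trans hTP.1, ?_⟩
      -- N normalises K'
      have h1 : N ≤ Subgroup.normalizer (K' : Set H) := by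
        apply hgen
        intro h
        -- c h = T or commutes with T
        by_cases hhT : c h = T
        · rw [hhT]
          intro t ht
          rw [Subgroup.mem_normalizer_iff]
          intro x
          constructor
          · intro hx
            have hxT := hK'T hx
            have h2 : t * x * t⁻¹ ∈ T := T.mul_mem (T.mul_mem ht hxT) (T.inv_mem ht)
            rw [hK'mem _ h2]
            exact hK.conj_mem ⟨x, hxT⟩ ((hK'mem _ hxT).1 hx) ⟨t, ht⟩
          · intro hx
            have hxT := hK'T hx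
            have h2 : x ∈ T := by
              have : x = t⁻¹ * (t * x * t⁻¹) * t := by group
              rw [this]
              exact T.mul_mem (T.mul_mem (T.inv_mem ht) hxT) ht
            rw [hK'mem _ h2]
            have := hK.conj_mem ⟨_, hxT⟩ ((hK'mem _ hxT).1 hx) ⟨t, ht⟩⁻¹
            have e : (⟨t, ht⟩⁻¹ : T) * ⟨t * x * t⁻¹, hxT⟩ * (⟨t, ht⟩⁻¹)⁻¹ = ⟨x, h2⟩ := by
              apply Subtype.ext
              simp [mul_assoc]
            rw [e] at this
            exact this
        · have hdisj : c h ⊓ T = ⊥ := by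
            have hP : P (c h ⊓ T) := ⟨inf_le_right.trans hTP.1, fun n hn x hx =>
              ⟨(hcP h).2 n hn x hx.1, hTP.2 n hn x hx.2⟩⟩
            rcases hcmin h _ hP inf_le_left with h2 | h2
            · exact h2
            · exfalso
              apply hhT
              have h3 : c h ≤ T := by rw [← h2]; exact inf_le_right
              have h4 : c h ≠ ⊥ := by
                intro h5
                apply hTne
                rw [Subgroup.eq_bot_iff_forall] at h5 ⊢
                intro x hx
                have := h5 (h * x * h⁻¹) (by rw [hcmem]; simpa [mul_assoc] using hx)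
                have h5 : x = h⁻¹ * (h * x * h⁻¹) * h := by group
                rw [h5, this]; simp
              exact hTmin _ (hcP h) h4 h3
          have hcm := commute_of_normalize (c h) T hdisj
            (fun a ha b hb => hTP.2 a ((hcP h).1 ha) b hb) (fun b hb a ha => (hcP h).2 b (hTP.1 hb) a ha)
          intro y hy
          rw [Subgroup.mem_normalizer_iff]
          intro x
          constructor
          · intro hx
            rw [hcm y hy x (hK'T hx), mul_inv_cancel_right]; exact hx
          · intro hx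
            have h3 := hcm y hy _ (hK'T hx)
            have h4 : y * x * y⁻¹ = x := by
              have : y * (y * x * y⁻¹) = y * x := by rw [h3]; group
              exact mul_left_cancel this
            rwa [h4] at hx
      intro n hn x hx
      exact (Subgroup.mem_normalizer_iff.1 (h1 hn) x).1 hx
    rcases hcmin 1 K' hK' (by rw [hcT]; exact hK'T) with h | h
    · left
      rw [Subgroup.eq_bot_iff_forall] at h ⊢
      intro x hx
      exact Subtype.ext (h x ⟨x, hx, rfl⟩)
    · right
      rw [Subgroup.eq_top_iff']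
      intro x
      rw [hcT] at h
      rw [← hK'mem x x.2, h]
      exact x.2
  -- maximal product
  let Q : Subgroup H → Prop := fun M => P M ∧ ∃ m, Nonempty (M ≃* (Fin m → T))
  obtain ⟨M, hMQ, hMmax⟩ : ∃ M, Q M ∧ ∀ M', Q M' → M ≤ M' → M = M' := by
    have hfin : {M : Subgroup H | Q M}.Finite := Set.toFinite _
    have hne : {M : Subgroup H | Q M}.Nonempty := by
      refine ⟨⊥, ⟨bot_le, fun n hn x hx => ?_⟩, 0, ⟨?_⟩⟩
      · rw [Subgroup.mem_bot] at hx ⊢; rw [hx]; simp
      · exact MulEquiv.ofUnique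
    obtain ⟨M, hM⟩ := hfin.exists_maximal hne
    exact ⟨M, hM.prop, fun M' h1 h2 => le_antisymm h2 (hM.le_of_ge h1 h2)⟩
  have hMN : M = N := by
    apply le_antisymm hMQ.1.1
    apply hgen
    intro h
    by_contra hle
    have hdisj : M ⊓ c h = ⊥ := by
      have hP : P (M ⊓ c h) := ⟨inf_le_right.trans (hcP h).1, fun n hn x hx =>
        ⟨hMQ.1.2 n hn x hx.1, (hcP h).2 n hn x hx.2⟩⟩
      rcases hcmin h _ hP inf_le_right with h2 | h2
      · exact h2
      · exfalso
        apply hle
        rw [← h2]; exact inf_le_left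
    have hcm := commute_of_normalize M (c h) hdisj
      (fun a ha b hb => (hcP h).2 a (hMQ.1.1 ha) b hb) (fun b hb a ha => hMQ.1.2 b ((hcP h).1 hb) a ha)
    obtain ⟨m, ⟨e⟩⟩ := hMQ.2
    have hQ : Q (M ⊔ c h) := by
      refine ⟨⟨sup_le hMQ.1.1 (hcP h).1, ?_⟩, m + 1, ⟨?_⟩⟩
      · intro n hn x hx
        have h1 : (M ⊔ c h).map (MulAut.conj n).toMonoidHom ≤ M ⊔ c h := by
          rw [Subgroup.map_sup]
          apply sup_le_sup
          · rintro _ ⟨y, hy, rfl⟩
            exact hMQ.1.2 n hn y hy
          · rintro _ ⟨y, hy, rfl⟩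
            exact (hcP h).2 n hn y hy
        exact h1 ⟨x, hx, rfl⟩
      · have e1 := (supMulEquiv M (c h) hdisj hcm).symm
        have e2 : c h ≃* T := (T.equivMapOfInjective (MulAut.conj h).toMonoidHom (MulAut.conj h).injective).symm
        exact e1.trans ((MulEquiv.prodCongr e e2).trans (consMulEquiv m T))
    have := hMmax _ hQ le_sup_left
    apply hle
    rw [this]; exact le_sup_right
  subst hMN
  obtain ⟨m, ⟨e⟩⟩ := hMQ.2
  refine ⟨T, m, hTP.1, hsimple, ?_, ⟨e⟩, hTP.2⟩
  rcases Nat.eq_zero_or_pos m with h | h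
  · exfalso
    subst h
    apply hN
    rw [Subgroup.eq_bot_iff_forall]
    intro x hx
    have : (⟨x, hx⟩ : M) = 1 := e.injective (Subsingleton.elim _ _)
    exact congrArg Subtype.val this
  · exact h

end Cfsg.Agent.H9.MinNorm
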