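import Mathlib

set_option autoImplicit false
set_option linter.unusedVariables false

/-! A simple group of order 504: no subgroup of index 7 when an element of order 7 is inverted by an involution. -/

namespace Cfsg.Agent.H9.OrA

variable {G : Type*} [Group G] [Finite G] [IsSimpleGroup G]

theorem no7 (h : Nat.card G = 504) {x t : G} (hx : orderOf x = 7) (ht : orderOf t = 2) (hinv : t * x * t⁻¹ = x⁻¹)
    (H : Subgroup G) : H.index ≠ 7 := by
  classical
  intro hidx
  haveI : Fact (Nat.Prime 7) := ⟨by norm_num⟩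
  haveI : Fintype (G ⧸ H) := Fintype.ofFinite _
  have hcard : Fintype.card (G ⧸ H) = 7 := by
    rw [← Nat.card_eq_fintype_card]; exact hidx
  let φ : G →* Equiv.Perm (G ⧸ H) := MulAction.toPermHom G (G ⧸ H)
  -- faithful
  have hφ : φ.ker = ⊥ := by
    refine (φ.normal_ker.eq_bot_or_eq_top).resolve_right fun htop => ?_
    have h1 : ∀ g : G, g ∈ H := by
      intro g
      have h2 : g ∈ φ.ker := by rw [htop]; trivial
      have h3 : φ g = 1 := h2
      have h4 : g • ((1 : G) : G ⧸ H) = ((1 : G) : G ⧸ H) := by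
        have := congrArg (fun p : Equiv.Perm (G ⧸ H) => p ((1 : G) : G ⧸ H)) h3
        exact this
      have h5 : ((g * 1 : G) : G ⧸ H) = ((1 : G) : G ⧸ H) := h4
      rw [mul_one, eq_comm, QuotientGroup.eq] at h5
      simpa using h5
    have h2 : H = ⊤ := by rw [eq_top_iff]; intro g _; exact h1 g
    rw [h2, Subgroup.index_top] at hidx
    norm_num at hidx
  have hinj : Function.Injective φ := (MonoidHom.ker_eq_bot_iff φ).1 hφ
  -- the sign
  have hsign : ∀ g : G, Equiv.Perm.sign (φ g) = 1 := by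
    let ψ : G →* ℤˣ := Equiv.Perm.sign.comp φ
    have h1 : ψ.ker = ⊤ := by
      refine (ψ.normal_ker.eq_bot_or_eq_top).resolve_left fun hbot => ?_
      have h2 : Function.Injective ψ := (MonoidHom.ker_eq_bot_iff ψ).1 hbot
      have h3 := Nat.card_le_card_of_injective ψ h2
      rw [h, Nat.card_eq_fintype_card] at h3
      have h4 : Fintype.card ℤˣ = 2 := by decide
      omega
    intro g
    have h2 : g ∈ ψ.ker := by rw [h1]; trivial
    exact h2
  -- x acts as a 7-cycle
  have hxo : orderOf (φ x) = 7 := by rw [orderOf_injective φ hinj, hx]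
  have hto : orderOf (φ t) = 2 := by rw [orderOf_injective φ hinj, ht]
  have hcyc : (φ x).IsCycle := Equiv.Perm.isCycle_of_prime_order' (by rw [hxo]; norm_num) (by rw [hxo, hcard]; norm_num)
  have hsupp : (φ x).support = Finset.univ := by
    apply Finset.eq_univ_of_card
    rw [hcard, ← hcyc.orderOf, hxo]
  have hmove : ∀ a, φ x a ≠ a := fun a => by
    rw [← Equiv.Perm.mem_support, hsupp]; exact Finset.mem_univ a
  have hpow : ∀ i : ℕ, t * x ^ i * t⁻¹ = (x ^ i)⁻¹ := by
    intro i
    rw [← conj_pow, hinv, inv_pow]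
  -- t has at most one fixed point
  have hfix : ∀ a b, φ t a = a → φ t b = b → a = b := by
    intro a b ha hb
    obtain ⟨i, hi⟩ := hcyc.exists_pow_eq (hmove a) (hmove b)
    have h1 : φ t * φ x ^ i = (φ x ^ i)⁻¹ * φ t := by
      rw [← map_pow, ← map_inv, ← map_mul, ← map_mul]
      congr 1
      rw [← hpow i]; group
    have h2 : φ t ((φ x ^ i) a) = (φ x ^ i)⁻¹ (φ t a) := by
      have := congrArg (fun p : Equiv.Perm (G ⧸ H) => p a) h1
      exact this
    rw [hi, hb, ha] at h2
    have h3 : (φ x ^ (2 * i)) a = a := by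
      rw [two_mul, pow_add, Equiv.Perm.mul_apply, hi, h2]
      exact Equiv.apply_symm_apply _ _
    have h4 : φ x ^ (2 * i) = 1 := hcyc.pow_eq_one_iff.2 ⟨a, hmove a, h3⟩
    have h5 : 7 ∣ 2 * i := by rw [← hxo]; exact orderOf_dvd_of_pow_eq_one h4
    have h6 : 7 ∣ i := (Nat.Coprime.dvd_mul_left (by norm_num)).1 h5
    obtain ⟨k, rfl⟩ := h6
    have h7 : φ x ^ 7 = 1 := by rw [← hxo]; exact pow_orderOf_eq_one _
    rw [pow_mul, h7, one_pow] at hi
    exact hi
  -- the cycle type of t
  obtain ⟨n, hn⟩ := Equiv.Perm.cycleType_prime_order (σ := φ t) (by rw [hto]; norm_num)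
  rw [hto] at hn
  have hs1 : (φ t).support.card = 2 * (n + 1) := by
    rw [← Equiv.Perm.sum_cycleType, hn, Multiset.sum_replicate, smul_eq_mul, mul_comm]
  have hs2 : (φ t).supportᶜ.card ≤ 1 := by
    rw [Finset.card_le_one]
    intro a ha b hb
    rw [Finset.mem_compl, Equiv.Perm.notMem_support] at ha hb
    exact hfix a b ha hb
  rw [Finset.card_compl, hcard, hs1] at hs2
  have hs3 : (φ t).support.card ≤ 7 := by rw [← hcard]; exact Finset.card_le_univ _
  have hn2 : n = 2 := by omega
  subst hn2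
  have h8 := hsign t
  rw [Equiv.Perm.sign_of_cycleType, hn] at h8
  simp at h8
  revert h8
  decide

end Cfsg.Agent.H9.OrA
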