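import Mathlib
import Cfsg.Agent.H21_O168
import Cfsg.Agent.S0074

/-!
# Sylow 3-subgroups in simple groups of order 504
-/

set_option autoImplicit false
open scoped Pointwise Nat commutatorElement

namespace Cfsg.Agent.H9.OrC
open MulAction Subgroup

variable {G : Type*} [Group G] [Finite G]

/-- an involution `τ` normalising the abelian group `P` with `P = [N, N]`, `N = P⟨τ⟩`, inverts `P` -/
theorem inv_of {P N : Subgroup G} (hc : ∀ a ∈ P, ∀ b ∈ P, a * b = b * a) {τ : G} (hτ2 : τ * τ = 1)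
    (hτ : ∀ a ∈ P, τ * a * τ⁻¹ ∈ P) (hN : ∀ n ∈ N, n ∈ P ∨ ∃ a ∈ P, n = a * τ) (hP : P ≤ ⁅N, N⁆) :
    ∀ a ∈ P, τ * a * τ⁻¹ = a⁻¹ := by
  have hτi : τ⁻¹ = τ := inv_eq_of_mul_eq_one_left hτ2
  rw [hτi] at hτ ⊢
  -- the subgroup of inverted elements
  let I : Subgroup G :=
    { carrier := {a | a ∈ P ∧ τ * a * τ = a⁻¹}
      one_mem' := ⟨P.one_mem, by rw [mul_one, inv_one, hτ2]⟩
      mul_mem' := by
        rintro a b ⟨ha, ha'⟩ ⟨hb, hb'⟩
        refine ⟨P.mul_mem ha hb, ?_⟩
        calc τ * (a * b) * τ = (τ * a * τ) * (τ * b * τ) := by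
              rw [show (τ * a * τ) * (τ * b * τ) = τ * a * (τ * τ) * b * τ by group, hτ2]; group
          _ = a⁻¹ * b⁻¹ := by rw [ha', hb']
          _ = (a * b)⁻¹ := by rw [← mul_inv_rev, hc b hb a ha]
      inv_mem' := by
        rintro a ⟨ha, ha'⟩
        refine ⟨P.inv_mem ha, ?_⟩
        have : (τ * a * τ)⁻¹ = τ * a⁻¹ * τ := by rw [mul_inv_rev, mul_inv_rev, hτi]; group
        rw [← this, ha'] }
  have hI : ∀ w ∈ P, w * (τ * w * τ)⁻¹ ∈ I := by
    intro w hw
    have hw' := hτ w hw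
    refine ⟨P.mul_mem hw (P.inv_mem hw'), ?_⟩
    have e1 : (τ * w * τ)⁻¹ = τ * w⁻¹ * τ := by rw [mul_inv_rev, mul_inv_rev, hτi]; group
    rw [mul_inv_rev w, inv_inv, e1]
    calc τ * (w * (τ * w⁻¹ * τ)) * τ = (τ * w * τ) * w⁻¹ * (τ * τ) := by group
      _ = (τ * w * τ) * w⁻¹ := by rw [hτ2, mul_one]
  have hI2 : ∀ w ∈ P, (τ * w * τ) * w⁻¹ ∈ I := by
    intro w hw
    have := I.inv_mem (hI w hw)
    rwa [mul_inv_rev, inv_inv] at this
  have hIP : I ≤ P := fun x hx => hx.1
  have hNI : ⁅N, N⁆ ≤ I := by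
    rw [Subgroup.commutator_le]
    intro g hg k hk
    rw [commutatorElement_def]
    rcases hN g hg with ha | ⟨a, ha, rfl⟩ <;> rcases hN k hk with hb | ⟨b, hb, rfl⟩
    · rw [hc g ha k hb]
      have : k * g * g⁻¹ * k⁻¹ = 1 := by group
      rw [this]; exact I.one_mem
    · -- g * (b τ) * g⁻¹ * (b τ)⁻¹ = g b (τ g⁻¹ τ) b⁻¹ = g (τ g τ)⁻¹
      have h1 : (τ * g⁻¹ * τ) ∈ P := hτ _ (P.inv_mem ha)
      have e1 : (τ * g * τ)⁻¹ = τ * g⁻¹ * τ := by rw [mul_inv_rev, mul_inv_rev, hτi]; group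
      have : g * (b * τ) * g⁻¹ * (b * τ)⁻¹ = g * (τ * g * τ)⁻¹ := by
        rw [mul_inv_rev, hτi, e1]
        calc g * (b * τ) * g⁻¹ * (τ * b⁻¹) = g * (b * (τ * g⁻¹ * τ)) * b⁻¹ := by group
          _ = g * ((τ * g⁻¹ * τ) * b) * b⁻¹ := by rw [hc b hb _ h1]
          _ = _ := by group
      rw [this]; exact hI g ha
    · have h1 : (τ * k * τ) ∈ P := hτ _ hb
      have : a * τ * k * (a * τ)⁻¹ * k⁻¹ = (τ * k * τ) * k⁻¹ := by
        rw [mul_inv_rev, hτi]
        calc a * τ * k * (τ * a⁻¹) * k⁻¹ = (a * (τ * k * τ)) * a⁻¹ * k⁻¹ := by group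
          _ = ((τ * k * τ) * a) * a⁻¹ * k⁻¹ := by rw [hc a ha _ h1]
          _ = _ := by group
      rw [this]; exact hI2 k hb
    · have h1 : (τ * b * τ) ∈ P := hτ _ hb
      have h2 : (τ * a⁻¹ * τ) ∈ P := hτ _ (P.inv_mem ha)
      have e1 : (τ * a * τ)⁻¹ = τ * a⁻¹ * τ := by rw [mul_inv_rev, mul_inv_rev, hτi]; group
      have : a * τ * (b * τ) * (a * τ)⁻¹ * (b * τ)⁻¹ = (a * (τ * a * τ)⁻¹) * ((τ * b * τ) * b⁻¹) := by
        rw [mul_inv_rev, mul_inv_rev, hτi, e1]
        calc a * τ * (b * τ) * (τ * a⁻¹) * (τ * b⁻¹) = a * (τ * b) * (τ * τ) * a⁻¹ * τ * b⁻¹ := by group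
          _ = a * (τ * b) * a⁻¹ * τ * b⁻¹ := by rw [hτ2, mul_one]
          _ = a * (τ * b) * (τ * τ) * a⁻¹ * τ * b⁻¹ := by rw [hτ2, mul_one]
          _ = a * ((τ * b * τ) * (τ * a⁻¹ * τ)) * b⁻¹ := by group
          _ = a * ((τ * a⁻¹ * τ) * (τ * b * τ)) * b⁻¹ := by rw [hc _ h1 _ h2]
          _ = _ := by group
      rw [this]; exact I.mul_mem (hI a ha) (hI2 b hb)
  intro a ha
  exact (hNI (hP ha)).2

omit [Finite G] in
theorem RIM {H K : Subgroup G} (hHK : H ≤ K) : Nat.card H * H.relIndex K = Nat.card K := by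
  have h1 := Subgroup.card_mul_index (H.subgroupOf K)
  rw [Nat.card_congr (Subgroup.subgroupOfEquivOfLe hHK).toEquiv] at h1
  exact h1

omit [Finite G] in
theorem mem_norm_zpowers {g u : G} (h1 : g * u * g⁻¹ ∈ Subgroup.zpowers u) (h2 : g⁻¹ * u * g ∈ Subgroup.zpowers u) :
    g ∈ Subgroup.normalizer ((Subgroup.zpowers u : Subgroup G) : Set G) := by
  rw [Subgroup.mem_normalizer_iff]
  intro x
  constructor
  · intro hx
    obtain ⟨i, rfl⟩ := Subgroup.mem_zpowers_iff.mp hx
    rw [← conj_zpow]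
    exact (Subgroup.zpowers u).zpow_mem h1 i
  · intro hx
    obtain ⟨i, hi⟩ := Subgroup.mem_zpowers_iff.mp hx
    have h3 : x = (g⁻¹ * u * g) ^ i := by
      have h4 := conj_zpow (i := i) (a := g⁻¹) (b := u)
      rw [inv_inv] at h4
      rw [h4, hi]; group
    rw [h3]
    exact (Subgroup.zpowers u).zpow_mem h2 i

variable [IsSimpleGroup G]

theorem card_P3 (h : Nat.card G = 504) (P : Sylow 3 G) : Nat.card (P : Subgroup G) = 9 := by
  rw [Sylow.card_eq_multiplicity, h, show (504 : ℕ).factorization 3 = 2 by decide +kernel]; norm_num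

theorem index_ge (h : Nat.card G = 504) (H : Subgroup G) (hH : H ≠ ⊤) : 7 ≤ H.index := by
  have h1 := H9.PermIndex.card_dvd_factorial H hH
  rw [h] at h1
  by_contra h2
  have h3 : (H.index)! ∣ 6 ! := Nat.factorial_dvd_factorial (by omega)
  have h4 := h1.trans h3
  revert h4; decide

theorem n3 (h : Nat.card G = 504) (h7 : ∀ H : Subgroup G, H.index ≠ 7) : Nat.card (Sylow 3 G) = 28 := by
  obtain ⟨Q⟩ : Nonempty (Sylow 3 G) := inferInstance
  have hQ := card_P3 h Q
  have h1 := card_sylow_modEq_one 3 G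
  have h2 := Q.card_dvd_index
  have h3 := (Q : Subgroup G).card_mul_index
  rw [hQ, h] at h3
  have h4 : (Q : Subgroup G).index = 56 := by omega
  rw [h4] at h2
  have h5 := H21.O168.syl_ne_one Q (by omega) (by omega)
  have h6 : 7 ≤ Nat.card (Sylow 3 G) := by
    rw [Sylow.card_eq_index_normalizer Q]
    apply index_ge h
    intro htop
    apply h5
    rw [Sylow.card_eq_index_normalizer Q, htop, Subgroup.index_top]
  have h7' : Nat.card (Sylow 3 G) ≠ 7 := by
    rw [Sylow.card_eq_index_normalizer Q]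
    exact h7 _
  have h8 := Nat.le_of_dvd (by norm_num) h2
  unfold Nat.ModEq at h1
  generalize Nat.card (Sylow 3 G) = n at *
  interval_cases n <;> omega

theorem syl3 (h : Nat.card G = 504) (h7 : ∀ H : Subgroup G, H.index ≠ 7)
    (hC7 : ∀ x : G, orderOf x = 7 → Nat.card (Subgroup.centralizer ({x} : Set G)) = 7) :
    Nat.card (Sylow 3 G) = 28 ∧ ∀ u : G, orderOf u = 3 → Nat.card (Subgroup.centralizer ({u} : Set G)) = 9 := by
  refine ⟨n3 h h7, fun u hu => ?_⟩
  have hperf : commutator G = ⊤ := by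
    rcases (inferInstance : (commutator G).Normal).eq_bot_or_eq_top with h1 | h1
    · exfalso
      have hcomm : ∀ a b : G, a * b = b * a := by
        intro a b
        have h2 : ⁅a, b⁆ ∈ commutator G := Subgroup.commutator_mem_commutator (Subgroup.mem_top a) (Subgroup.mem_top b)
        rw [h1, Subgroup.mem_bot] at h2
        exact commutatorElement_eq_one_iff_mul_comm.mp h2
      obtain ⟨P⟩ : Nonempty (Sylow 3 G) := inferInstance
      refine H21.O168.not_cent P (by rw [card_P3 h P]; norm_num) (by rw [card_P3 h P, h]; norm_num) ?_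
      intro g _
      rw [Subgroup.mem_centralizer_iff]
      intro b _
      exact hcomm b g
    · exact h1
  -- Sylow subgroup containing u
  have hpg : IsPGroup 3 (Subgroup.zpowers u) :=
    IsPGroup.of_card (n := 1) (by rw [Nat.card_zpowers, hu, pow_one])
  obtain ⟨P, hPu⟩ := hpg.exists_le_sylow
  have huP : u ∈ (P : Subgroup G) := hPu (Subgroup.mem_zpowers u)
  have hPc := card_P3 h P
  have hN : Nat.card (Subgroup.normalizer ((P : Subgroup G) : Set G)) = 18 := by
    have := H21.O168.card_stab P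
    rw [n3 h h7, h] at this
    omega
  have hcomm : ∀ a ∈ (P : Subgroup G), ∀ b ∈ (P : Subgroup G), a * b = b * a := by
    intro a ha b hb
    have h2 := IsPGroup.isMulCommutative_of_card_eq_prime_sq (p := 3) (G := (P : Subgroup G)) (by rw [hPc]; norm_num)
    have h3 := h2.is_comm.comm ⟨a, ha⟩ ⟨b, hb⟩
    exact congrArg Subtype.val h3
  have hPleN : (P : Subgroup G) ≤ Subgroup.normalizer ((P : Subgroup G) : Set G) := Subgroup.le_normalizer
  obtain ⟨τ', hτ'⟩ := exists_prime_orderOf_dvd_card' (G := Subgroup.normalizer ((P : Subgroup G) : Set G)) 2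
    (by rw [hN]; norm_num)
  obtain ⟨τ, hτN⟩ := τ'
  rw [Subgroup.orderOf_mk] at hτ'
  have hτ2 : τ * τ = 1 := by have := pow_orderOf_eq_one τ; rwa [hτ', sq] at this
  have hτP : τ ∉ (P : Subgroup G) := by
    intro hmem
    have h1 : orderOf (⟨τ, hmem⟩ : (P : Subgroup G)) ∣ Nat.card (P : Subgroup G) := orderOf_dvd_natCard _
    rw [Subgroup.orderOf_mk, hτ', hPc] at h1
    omega
  have hconj : ∀ a ∈ (P : Subgroup G), τ * a * τ⁻¹ ∈ (P : Subgroup G) := fun a ha =>
    (Subgroup.mem_normalizer_iff.mp hτN a).mp ha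
  have hidx : (P : Subgroup G).relIndex (Subgroup.normalizer ((P : Subgroup G) : Set G)) = 2 := by
    have := RIM hPleN
    rw [hPc, hN] at this
    omega
  have hNs : ∀ n ∈ Subgroup.normalizer ((P : Subgroup G) : Set G), n ∈ (P : Subgroup G) ∨
      ∃ a ∈ (P : Subgroup G), n = a * τ := by
    intro n hn
    by_cases hnP : n ∈ (P : Subgroup G)
    · exact Or.inl hnP
    right
    refine ⟨n * τ⁻¹, ?_, by group⟩
    have h2 := Subgroup.mul_mem_iff_of_index_two (H := (P : Subgroup G).subgroupOf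
      (Subgroup.normalizer ((P : Subgroup G) : Set G))) hidx (a := ⟨n, hn⟩) (b := ⟨τ, hτN⟩⁻¹)
    rw [Subgroup.inv_mem_iff] at h2
    simp only [Subgroup.mem_subgroupOf] at h2
    exact h2.mpr (iff_of_false hnP hτP)
  have hPN : (P : Subgroup G) ≤ ⁅Subgroup.normalizer ((P : Subgroup G) : Set G),
      Subgroup.normalizer ((P : Subgroup G) : Set G)⁆ := by
    have h1 := Cfsg.Agent.S0074.result P
      (IsPGroup.isMulCommutative_of_card_eq_prime_sq (p := 3) (G := (P : Subgroup G)) (by rw [hPc]; norm_num))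
    rw [hperf, top_inf_eq] at h1
    intro x hx
    rw [h1] at hx
    exact hx.1
  have hinv := inv_of hcomm hτ2 hconj hNs hPN
  have hu1 : u ≠ 1 := by rintro rfl; rw [orderOf_one] at hu; omega
  have huu : u⁻¹ ≠ u := by
    intro h1
    have h2 : u ^ 2 = 1 := by rw [sq]; nth_rewrite 1 [← h1]; group
    have := orderOf_dvd_of_pow_eq_one h2
    rw [hu] at this
    omega
  set K := Subgroup.centralizer ({u} : Set G) with hK
  have hPK : (P : Subgroup G) ≤ K := by
    intro x hx
    rw [hK, Subgroup.mem_centralizer_singleton_iff]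
    exact hcomm x hx u huP
  have hNK : ∀ g ∈ K, g ∈ Subgroup.normalizer ((P : Subgroup G) : Set G) → g ∈ (P : Subgroup G) := by
    intro g hgK hgN
    rcases hNs g hgN with h1 | ⟨a, ha, rfl⟩
    · exact h1
    · exfalso
      have h2 := Subgroup.mem_centralizer_singleton_iff.mp hgK
      have h3 := hinv u huP
      have h4 : (a * τ) * u * (a * τ)⁻¹ = u := by rw [h2]; group
      have h5 : (a * τ) * u * (a * τ)⁻¹ = u⁻¹ := by
        calc (a * τ) * u * (a * τ)⁻¹ = a * (τ * u * τ⁻¹) * a⁻¹ := by group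
          _ = a * u⁻¹ * a⁻¹ := by rw [h3]
          _ = u⁻¹ * a * a⁻¹ := by rw [hcomm a ha _ ((P : Subgroup G).inv_mem huP)]
          _ = u⁻¹ := by group
      exact huu (h5.symm.trans h4)
  obtain ⟨k, hk⟩ : 9 ∣ Nat.card K := by rw [← hPc]; exact Subgroup.card_dvd_of_le hPK
  have hKG : Nat.card K * K.index = 504 := by rw [Subgroup.card_mul_index, h]
  have hk56 : k * K.index = 56 := by rw [hk] at hKG; nlinarith
  have h7k : ¬ 7 ∣ k := by
    rintro ⟨m, rfl⟩
    obtain ⟨x, hx⟩ := exists_prime_orderOf_dvd_card' (G := K) 7 (by rw [hk]; exact ⟨9 * m, by ring⟩)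
    have hx7 : orderOf (x : G) = 7 := by rw [Subgroup.orderOf_coe, hx]
    have h1 := hC7 x hx7
    have hux : u ∈ Subgroup.centralizer ({(x : G)} : Set G) := by
      rw [Subgroup.mem_centralizer_singleton_iff]
      exact (Subgroup.mem_centralizer_singleton_iff.mp x.2).symm
    have h2 : orderOf (⟨u, hux⟩ : Subgroup.centralizer ({(x : G)} : Set G)) ∣ _ := orderOf_dvd_natCard _
    rw [Subgroup.orderOf_mk, hu, h1] at h2
    omega
  have hk8 : k ≠ 8 := by
    rintro rfl
    exact h7 K (by omega)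
  have hk2 : k ≠ 2 := by
    rintro rfl
    have h1 : (P : Subgroup G).relIndex K = 2 := by
      have := RIM hPK
      rw [hPc, hk] at this
      omega
    haveI h2 : ((P : Subgroup G).subgroupOf K).Normal := Subgroup.normal_of_index_eq_two h1
    have h3 := (Subgroup.normal_subgroupOf_iff_le_normalizer hPK).mp h2
    have h4 : K ≤ (P : Subgroup G) := fun g hg => hNK g hg (h3 hg)
    have h5 := Subgroup.card_le_of_le h4
    rw [hk, hPc] at h5
    omega
  have hk4 : k ≠ 4 := by
    rintro rfl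
    set M := Subgroup.normalizer ((Subgroup.zpowers u : Subgroup G) : Set G) with hM
    have hτM : τ ∈ M := by
      have h3 := hinv u huP
      have h4 : τ⁻¹ = τ := inv_eq_of_mul_eq_one_left hτ2
      refine mem_norm_zpowers ?_ ?_
      · rw [h3]; exact (Subgroup.zpowers u).inv_mem (Subgroup.mem_zpowers u)
      · rw [h4] at h3 ⊢
        rw [h3]; exact (Subgroup.zpowers u).inv_mem (Subgroup.mem_zpowers u)
    have hKM : K ≤ M := by
      intro g hg
      have h3 := Subgroup.mem_centralizer_singleton_iff.mp hg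
      refine mem_norm_zpowers ?_ ?_
      · rw [h3]
        have : u * g * g⁻¹ = u := by group
        rw [this]; exact Subgroup.mem_zpowers u
      · rw [mul_assoc, ← h3]
        have : g⁻¹ * (g * u) = u := by group
        rw [this]; exact Subgroup.mem_zpowers u
    have hτK : τ ∉ K := by
      intro h1
      have h2 := Subgroup.mem_centralizer_singleton_iff.mp h1
      have h3 := hinv u huP
      rw [h2] at h3
      apply huu
      rw [← h3]; group
    have hne : K ≠ M := by
      intro h1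
      exact hτK (h1 ▸ hτM)
    obtain ⟨m, hm⟩ := Subgroup.card_dvd_of_le hKM
    have hm1 : m ≠ 1 := by
      rintro rfl
      exact hne (Subgroup.eq_of_le_of_card_ge hKM (by rw [hm, mul_one]))
    have hMG : Nat.card M * M.index = 504 := by rw [Subgroup.card_mul_index, h]
    have hmi : m * M.index = 14 := by rw [hm, hk] at hMG; nlinarith
    have hMt : M ≠ ⊤ := by
      intro htop
      have hnorm : (Subgroup.zpowers u).Normal := Subgroup.normalizer_eq_top_iff.mp htop
      rcases hnorm.eq_bot_or_eq_top with h1 | h1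
      · exact hu1 (Subgroup.zpowers_eq_bot.mp h1)
      · have h2 := Nat.card_zpowers u
        rw [h1, Subgroup.card_top, h, hu] at h2
        omega
    have h8 := index_ge h M hMt
    have h9 := h7 M
    have h10 : M.index ≤ 14 := Nat.le_of_dvd (by norm_num) ⟨m, by rw [mul_comm]; exact hmi.symm⟩
    have h11 : m ≠ 0 := by rintro rfl; omega
    have h12 : m ≤ 14 := Nat.le_of_dvd (by norm_num) ⟨M.index, hmi.symm⟩
    generalize M.index = i at *
    interval_cases m <;> omega
  have hk0 : k ≤ 56 := Nat.le_of_dvd (by norm_num) ⟨K.index, hk56.symm⟩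
  have hk1 : k = 1 := by
    have hdv : k ∣ 56 := ⟨K.index, hk56.symm⟩
    have hcop : Nat.Coprime k 7 := ((Nat.Prime.coprime_iff_not_dvd (by norm_num)).mpr h7k).symm
    have h8 : k ∣ 8 := by
      have : k ∣ 8 * 7 := hdv
      exact hcop.dvd_of_dvd_mul_right this
    have h9 := Nat.le_of_dvd (by norm_num) h8
    interval_cases k <;> omega
  rw [hk, hk1]

end Cfsg.Agent.H9.OrC
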