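import Mathlib

set_option autoImplicit false
set_option linter.unusedSectionVars false
set_option linter.style.haveILetI false

/-!
Simple groups of order 504: centralizers of involutions.
-/

namespace Cfsg.Agent.H9.OrD

section

variable {G : Type*} [Group G] [Finite G]

theorem syl_card {p a m : ℕ} [hp : Fact p.Prime] (P : Sylow p G) (h : Nat.card G = p ^ a * m) (hm : ¬ p ∣ m) :
    Nat.card P = p ^ a := by
  have hm0 : m ≠ 0 := by rintro rfl; exact hm (dvd_zero _)
  have h1 : (p ^ a * m).factorization p = a := by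
    rw [Nat.factorization_mul (pow_ne_zero _ hp.out.ne_zero) hm0, Finsupp.add_apply, hp.out.factorization_pow,
      Finsupp.single_eq_same, Nat.factorization_eq_zero_of_not_dvd hm, add_zero]
  rw [Sylow.card_eq_multiplicity, h, h1]

theorem mem_pow {H : Subgroup G} {x : G} (hx : x ∈ H) : x ^ Nat.card H = 1 := by
  have := pow_card_eq_one' (x := (⟨x, hx⟩ : H))
  exact congrArg Subtype.val this

/-- counting nonidentity elements of a TI family of Sylow subgroups -/
theorem count {p m n : ℕ} [Fact p.Prime] (hm : ∀ P : Sylow p G, Nat.card P = m) (hn : Nat.card (Sylow p G) = n)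
    (hTI : ∀ P Q : Sylow p G, ∀ x : G, x ∈ P → x ∈ Q → x ≠ 1 → P = Q) :
    n * (m - 1) ≤ Nat.card {x : G // x ≠ 1 ∧ x ^ m = 1} := by
  classical
  letI : Fintype (Sylow p G) := Fintype.ofFinite _
  have h1 : Nat.card (Σ P : Sylow p G, {x : P // x ≠ 1}) = n * (m - 1) := by
    rw [Nat.card_sigma]
    have : ∀ P : Sylow p G, Nat.card {x : P // x ≠ 1} = m - 1 := by
      intro P
      letI : Fintype P := Fintype.ofFinite _
      rw [Nat.card_eq_fintype_card, Fintype.card_subtype_compl, Fintype.card_subtype_eq, ← Nat.card_eq_fintype_card]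
      exact congrArg (· - 1) (hm P)
    rw [Finset.sum_congr rfl fun P _ => this P, Finset.sum_const, Finset.card_univ, ← Nat.card_eq_fintype_card, hn,
      smul_eq_mul]
  rw [← h1]
  let f : (Σ P : Sylow p G, {x : P // x ≠ 1}) → {x : G // x ≠ 1 ∧ x ^ m = 1} := fun s =>
    ⟨s.2.1.1, fun h => s.2.2 (Subtype.ext h), by
      have := mem_pow (H := (s.1 : Subgroup G)) s.2.1.2
      rwa [hm] at this⟩
  apply Nat.card_le_card_of_injective f
  rintro ⟨P, ⟨⟨x, hxP⟩, hx1⟩⟩ ⟨Q, ⟨⟨y, hyQ⟩, hy1⟩⟩ hxy
  have hxy' : x = y := congrArg Subtype.val hxy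
  subst hxy'
  have hx1' : x ≠ 1 := fun h => hx1 (Subtype.ext h)
  obtain rfl := hTI P Q x hxP hyQ hx1'
  rfl

theorem class_count (t : G) {n : ℕ} (hn : (Subgroup.centralizer ({t} : Set G)).index = n) :
    n ≤ Nat.card {x : G // ∃ g : G, x = g * t * g⁻¹} := by
  rw [← hn, Subgroup.index]
  let f : (G ⧸ Subgroup.centralizer ({t} : Set G)) → {x : G // ∃ g : G, x = g * t * g⁻¹} := fun q =>
    ⟨q.out * t * q.out⁻¹, q.out, rfl⟩
  apply Nat.card_le_card_of_injective f
  intro a b hab
  have h : a.out * t * a.out⁻¹ = b.out * t * b.out⁻¹ := congrArg Subtype.val hab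
  rw [← a.out_eq', ← b.out_eq']
  apply QuotientGroup.eq.2
  rw [Subgroup.mem_centralizer_singleton_iff]
  have h2 : a.out⁻¹ * (b.out * t * b.out⁻¹) * b.out = t * a.out⁻¹ * b.out := by
    rw [← h]; group
  calc a.out⁻¹ * b.out * t = a.out⁻¹ * (b.out * t * b.out⁻¹) * b.out := by group
    _ = t * a.out⁻¹ * b.out := h2
    _ = _ := by group

theorem comm_mem {x y : G} (h : x ∈ Subgroup.centralizer ({y} : Set G)) : y ∈ Subgroup.centralizer ({x} : Set G) := by
  rw [Subgroup.mem_centralizer_singleton_iff] at h ⊢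
  exact h.symm

theorem order3 {x : G} (h1 : x ≠ 1) (h9 : x ^ 9 = 1) : ∃ k : ℕ, orderOf (x ^ k) = 3 := by
  have h := orderOf_dvd_of_pow_eq_one h9
  have h2 : orderOf x ∈ Nat.divisors 9 := Nat.mem_divisors.2 ⟨h, by norm_num⟩
  have h3 : Nat.divisors 9 = {1, 3, 9} := by decide
  rw [h3] at h2
  simp only [Finset.mem_insert, Finset.mem_singleton] at h2
  rcases h2 with h2 | h2 | h2
  · exact absurd (orderOf_eq_one_iff.1 h2) h1
  · exact ⟨1, by rw [pow_one, h2]⟩
  · refine ⟨3, ?_⟩
    rw [orderOf_pow, h2]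
    norm_num

theorem final (h : Nat.card G = 504) (h7 : Nat.card (Sylow 7 G) = 36) (h3 : Nat.card (Sylow 3 G) = 28)
    (hC7 : ∀ x : G, orderOf x = 7 → Nat.card (Subgroup.centralizer ({x} : Set G)) = 7)
    (hC3 : ∀ u : G, orderOf u = 3 → Nat.card (Subgroup.centralizer ({u} : Set G)) = 9) :
    ∀ t : G, orderOf t = 2 → Nat.card (Subgroup.centralizer ({t} : Set G)) = 8 ∧
      ∀ c ∈ Subgroup.centralizer ({t} : Set G), c ^ 2 = 1 := by
  classical
  haveI : Fact (Nat.Prime 7) := ⟨by norm_num⟩
  haveI : Fact (Nat.Prime 3) := ⟨by norm_num⟩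
  haveI : Fact (Nat.Prime 2) := ⟨by norm_num⟩
  have hP7 : ∀ P : Sylow 7 G, Nat.card P = 7 := fun P => by
    have := syl_card (a := 1) (m := 72) P (by rw [h]; norm_num) (by norm_num)
    simpa using this
  have hP3 : ∀ P : Sylow 3 G, Nat.card P = 9 := fun P => by
    have := syl_card (a := 2) (m := 56) P (by rw [h]; norm_num) (by norm_num)
    simpa using this
  have hP2 : ∀ P : Sylow 2 G, Nat.card P = 8 := fun P => by
    have := syl_card (a := 3) (m := 63) P (by rw [h]; norm_num) (by norm_num)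
    simpa using this
  have cop : ∀ (x : G) (a b : ℕ), Nat.Coprime a b → x ^ a = 1 → x ^ b = 1 → x = 1 := by
    intro x a b hab ha hb
    have h1 := Nat.dvd_gcd (orderOf_dvd_of_pow_eq_one ha) (orderOf_dvd_of_pow_eq_one hb)
    rw [hab, Nat.dvd_one] at h1
    exact orderOf_eq_one_iff.1 h1
  have o7 : ∀ x : G, x ≠ 1 → x ^ 7 = 1 → orderOf x = 7 := fun x h1 h2 => orderOf_eq_prime h2 h1
  have TI7 : ∀ P Q : Sylow 7 G, ∀ x : G, x ∈ P → x ∈ Q → x ≠ 1 → P = Q := by
    intro P Q x hxP hxQ hx
    have e : ∀ R : Sylow 7 G, x ∈ R → (R : Subgroup G) = Subgroup.zpowers x := by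
      intro R hR
      symm
      apply Subgroup.eq_of_le_of_card_ge
      · exact (Subgroup.zpowers_le).2 hR
      · rw [Nat.card_zpowers, o7 x hx (by have := mem_pow (H := (R : Subgroup G)) hR; rwa [hP7 R] at this)]
        exact (hP7 R).le
    exact Sylow.ext ((e P hxP).trans (e Q hxQ).symm)
  have TI3 : ∀ P Q : Sylow 3 G, ∀ x : G, x ∈ P → x ∈ Q → x ≠ 1 → P = Q := by
    intro P Q x hxP hxQ hx
    have hx9 : x ^ 9 = 1 := by have := mem_pow (H := (P : Subgroup G)) hxP; rwa [hP3 P] at this
    obtain ⟨k, hk⟩ := order3 hx hx9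
    have e : ∀ R : Sylow 3 G, x ∈ R → (R : Subgroup G) = Subgroup.centralizer ({x ^ k} : Set G) := by
      intro R hR
      apply Subgroup.eq_of_le_of_card_ge
      · intro y hy
        rw [Subgroup.mem_centralizer_singleton_iff]
        have hcomm : ∀ a b : R, a * b = b * a := by
          letI := IsPGroup.commGroupOfCardEqPrimeSq (p := 3) (G := R) (by rw [hP3 R]; norm_num)
          exact fun a b => mul_comm a b
        have := hcomm ⟨y, hy⟩ ⟨x ^ k, pow_mem hR k⟩
        exact congrArg Subtype.val this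
      · rw [hC3 _ hk]
        exact (hP3 R).ge
    exact Sylow.ext ((e P hxP).trans (e Q hxQ).symm)
  -- centralizers of involutions
  have inv2 : ∀ t : G, orderOf t = 2 → t ^ 2 = 1 ∧ t ≠ 1 := fun t ht =>
    ⟨by rw [← ht]; exact pow_orderOf_eq_one t, by rintro rfl; simp at ht⟩
  have cdvd : ∀ t : G, orderOf t = 2 → Nat.card (Subgroup.centralizer ({t} : Set G)) ∣ 8 := by
    intro t ht
    obtain ⟨t2, t1⟩ := inv2 t ht
    have hd : Nat.card (Subgroup.centralizer ({t} : Set G)) ∣ 8 * 63 := by
      have := Subgroup.card_subgroup_dvd_card (Subgroup.centralizer ({t} : Set G))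
      rwa [h] at this
    apply Nat.Coprime.dvd_of_dvd_mul_right _ hd
    have n3 : ¬ 3 ∣ Nat.card (Subgroup.centralizer ({t} : Set G)) := by
      intro hdv
      obtain ⟨u, hu⟩ := exists_prime_orderOf_dvd_card' 3 hdv
      have hu' : orderOf (u : G) = 3 := by rw [Subgroup.orderOf_coe, hu]
      have h9 := mem_pow (comm_mem u.2)
      rw [hC3 _ hu'] at h9
      exact t1 (cop t 2 9 (by norm_num) t2 h9)
    have n7 : ¬ 7 ∣ Nat.card (Subgroup.centralizer ({t} : Set G)) := by
      intro hdv
      obtain ⟨u, hu⟩ := exists_prime_orderOf_dvd_card' 7 hdv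
      have hu' : orderOf (u : G) = 7 := by rw [Subgroup.orderOf_coe, hu]
      have h9 := mem_pow (comm_mem u.2)
      rw [hC7 _ hu'] at h9
      exact t1 (cop t 2 7 (by norm_num) t2 h9)
    have c3 := ((Nat.Prime.coprime_iff_not_dvd (by norm_num : Nat.Prime 3)).2 n3).symm
    have c7 := ((Nat.Prime.coprime_iff_not_dvd (by norm_num : Nat.Prime 7)).2 n7).symm
    have : (63 : ℕ) = 3 * 3 * 7 := by norm_num
    rw [this]
    exact (c3.mul_right c3).mul_right c7
  -- a central involution of a Sylow 2-subgroup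
  obtain ⟨S⟩ : Nonempty (Sylow 2 G) := inferInstance
  have hSp : IsPGroup 2 (S : Subgroup G) := S.isPGroup'
  haveI : Nontrivial (S : Subgroup G) := by
    rw [← Finite.one_lt_card_iff_nontrivial]
    have := hP2 S
    change 1 < Nat.card S
    omega
  haveI := hSp.center_nontrivial
  have hzd : 2 ∣ Nat.card (Subgroup.center (S : Subgroup G)) := by
    obtain ⟨k, hk⟩ := (hSp.to_subgroup (Subgroup.center (S : Subgroup G))).exists_card_eq
    have h1 : 1 < Nat.card (Subgroup.center (S : Subgroup G)) := Finite.one_lt_card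
    rw [hk] at h1 ⊢
    rcases k with _ | k
    · simp at h1
    · exact dvd_pow_self 2 (Nat.succ_ne_zero k)
  obtain ⟨z, hz⟩ := exists_prime_orderOf_dvd_card' 2 hzd
  set t0 : G := ((z : (S : Subgroup G)) : G) with ht0
  have hto : orderOf t0 = 2 := by rw [ht0, Subgroup.orderOf_coe, Subgroup.orderOf_coe, hz]
  have hSle : (S : Subgroup G) ≤ Subgroup.centralizer ({t0} : Set G) := by
    intro y hy
    rw [Subgroup.mem_centralizer_singleton_iff]
    have := (Subgroup.mem_center_iff.1 z.2) ⟨y, hy⟩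
    exact congrArg Subtype.val this
  have hc0 : Nat.card (Subgroup.centralizer ({t0} : Set G)) = 8 := by
    apply Nat.dvd_antisymm (cdvd t0 hto)
    have := Subgroup.card_dvd_of_le hSle
    have h8 : Nat.card (S : Subgroup G) = 8 := hP2 S
    rwa [h8] at this
  have hidx : (Subgroup.centralizer ({t0} : Set G)).index = 63 := by
    have := (Subgroup.centralizer ({t0} : Set G)).card_mul_index
    rw [hc0, h] at this
    omega
  -- counting
  letI : Fintype G := Fintype.ofFinite G
  set A : Finset G := Finset.univ.filter (fun x => x ≠ 1 ∧ x ^ 7 = 1) with hA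
  set B : Finset G := Finset.univ.filter (fun x => x ≠ 1 ∧ x ^ 9 = 1) with hB
  set K : Finset G := Finset.univ.filter (fun x => ∃ g : G, x = g * t0 * g⁻¹) with hK
  have cA : 216 ≤ A.card := by
    have := count (p := 7) (m := 7) (n := 36) hP7 h7 TI7
    rw [Nat.card_eq_fintype_card, Fintype.card_subtype] at this
    omega
  have cB : 224 ≤ B.card := by
    have := count (p := 3) (m := 9) (n := 28) hP3 h3 TI3
    rw [Nat.card_eq_fintype_card, Fintype.card_subtype] at this
    omega
  have cK : 63 ≤ K.card := by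
    have := class_count t0 hidx
    rw [Nat.card_eq_fintype_card, Fintype.card_subtype] at this
    omega
  have K2 : ∀ x ∈ K, x ^ 2 = 1 ∧ x ≠ 1 := by
    intro x hx
    obtain ⟨g, rfl⟩ := (Finset.mem_filter.1 hx).2
    obtain ⟨i1, i2⟩ := inv2 t0 hto
    refine ⟨?_, ?_⟩
    · rw [sq] at i1 ⊢
      calc g * t0 * g⁻¹ * (g * t0 * g⁻¹) = g * (t0 * t0) * g⁻¹ := by group
        _ = 1 := by rw [i1]; group
    · intro h1
      apply i2
      calc t0 = g⁻¹ * (g * t0 * g⁻¹) * g := by group
        _ = 1 := by rw [h1]; group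
  have dAB : Disjoint A B := by
    rw [Finset.disjoint_left]
    intro x h1 h2
    exact (Finset.mem_filter.1 h1).2.1 (cop x 7 9 (by norm_num) (Finset.mem_filter.1 h1).2.2 (Finset.mem_filter.1 h2).2.2)
  have dABK : Disjoint (A ∪ B) K := by
    rw [Finset.disjoint_left]
    intro x h1 h2
    rcases Finset.mem_union.1 h1 with h1 | h1
    · exact (K2 x h2).2 (cop x 7 2 (by norm_num) (Finset.mem_filter.1 h1).2.2 (K2 x h2).1)
    · exact (K2 x h2).2 (cop x 9 2 (by norm_num) (Finset.mem_filter.1 h1).2.2 (K2 x h2).1)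
  have d1 : Disjoint ((A ∪ B) ∪ K) {(1 : G)} := by
    rw [Finset.disjoint_singleton_right]
    intro h1
    rcases Finset.mem_union.1 h1 with h1 | h1
    · rcases Finset.mem_union.1 h1 with h1 | h1
      · exact (Finset.mem_filter.1 h1).2.1 rfl
      · exact (Finset.mem_filter.1 h1).2.1 rfl
    · exact (K2 1 h1).2 rfl
  have hall : ((A ∪ B) ∪ K) ∪ {(1 : G)} = Finset.univ := by
    apply Finset.eq_univ_of_card
    apply le_antisymm (Finset.card_le_univ _)
    rw [Finset.card_union_of_disjoint d1, Finset.card_union_of_disjoint dABK, Finset.card_union_of_disjoint dAB,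
      Finset.card_singleton, ← Nat.card_eq_fintype_card, h]
    omega
  have key : ∀ t : G, orderOf t = 2 → ∀ c ∈ Subgroup.centralizer ({t} : Set G), c ≠ 1 → c ∈ K := by
    intro t ht c hc c1
    obtain ⟨t2, t1⟩ := inv2 t ht
    have hm : c ∈ ((A ∪ B) ∪ K) ∪ {(1 : G)} := by rw [hall]; exact Finset.mem_univ c
    rcases Finset.mem_union.1 hm with hm | hm
    · rcases Finset.mem_union.1 hm with hm | hm
      · exfalso
        rcases Finset.mem_union.1 hm with hm | hm
        · have h9 := mem_pow (comm_mem hc)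
          rw [hC7 c (o7 c c1 (Finset.mem_filter.1 hm).2.2)] at h9
          exact t1 (cop t 2 7 (by norm_num) t2 h9)
        · obtain ⟨k, hk⟩ := order3 c1 (Finset.mem_filter.1 hm).2.2
          have h9 := mem_pow (comm_mem (pow_mem hc k))
          rw [hC3 _ hk] at h9
          exact t1 (cop t 2 9 (by norm_num) t2 h9)
      · exact hm
    · exact absurd (Finset.mem_singleton.1 hm) c1
  intro t ht
  obtain ⟨t2, t1⟩ := inv2 t ht
  have htK : t ∈ K := key t ht t (by rw [Subgroup.mem_centralizer_singleton_iff]) t1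
  refine ⟨?_, ?_⟩
  · obtain ⟨g, hg⟩ := (Finset.mem_filter.1 htK).2
    have hle : 8 ≤ Nat.card (Subgroup.centralizer ({t} : Set G)) := by
      rw [← hc0]
      let f : Subgroup.centralizer ({t0} : Set G) → Subgroup.centralizer ({t} : Set G) := fun c =>
        ⟨g * c * g⁻¹, by
          have hc := c.2
          rw [Subgroup.mem_centralizer_singleton_iff] at hc ⊢
          rw [hg]
          calc g * (c : G) * g⁻¹ * (g * t0 * g⁻¹) = g * ((c : G) * t0) * g⁻¹ := by group
            _ = g * (t0 * (c : G)) * g⁻¹ := by rw [hc]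
            _ = _ := by group⟩
      apply Nat.card_le_card_of_injective f
      intro a b hab
      apply Subtype.ext
      have : g * (a : G) * g⁻¹ = g * (b : G) * g⁻¹ := congrArg Subtype.val hab
      exact mul_left_cancel (mul_right_cancel this)
    have hdv := Nat.le_of_dvd (by norm_num) (cdvd t ht)
    omega
  · intro c hc
    by_cases c1 : c = 1
    · rw [c1, one_pow]
    · exact (K2 c (key t ht c hc c1)).1

end

end Cfsg.Agent.H9.OrD
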