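import Cfsg.Statements.S0118
import Mathlib
import Cfsg.Agent.H18_ZJF2
import Cfsg.Agent.H18_PStab
import Cfsg.Agent.H12_ZJ5

set_option autoImplicit false
open Cfsg

namespace Cfsg.Agent.S0118

/-- Glauberman's ZJ-Theorem, in the case of groups with no section isomorphic to SL(2,p), p odd: conjugation of subsets of a Sylow p-subgroup P inside P is always induced from the normalizer of Z(J(P)). -/
theorem result {G : Type*} [Group G] [Finite G] {p : ℕ} [Fact p.Prime] (hp : p ≠ 2) (hfree : ¬ ∃ (H K : Subgroup G) (hK : (K.subgroupOf H).Normal), Nonempty ((H ⧸ K.subgroupOf H) ≃* Matrix.SpecialLinearGroup (Fin 2) (ZMod p))) (P : Sylow p G) (A : Set G) (hA : A ⊆ (P : Set G)) (g : G) (hAg : (fun a => g⁻¹ * a * g) '' A ⊆ (P : Set G)) : ∃ n ∈ Subgroup.normalizer (Cfsg.centerThompsonOf p (P : Subgroup G) : Set G), ∀ a ∈ A, n⁻¹ * a * n = g⁻¹ * a * g := by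
  have hgood : Cfsg.Agent.H18.ZJF.Good p G := by
    intro X _ _ hX _
    apply Cfsg.Agent.H18.PStab.stable_of_sl hp
    intro h
    obtain ⟨H, K, hK, e⟩ := Cfsg.Agent.H13.Sec.involves_trans h hX
    exact hfree ⟨H, K, hK, e⟩
  have h1 := Cfsg.Agent.H18.ZJF.main_ctl hp (n := p) (by
      have h2 := (Fact.out : p.Prime).two_le
      obtain ⟨k, hk⟩ := (Fact.out : p.Prime).odd_of_ne_two hp
      have : p * (p - 1) / 2 = p * k := by
        rw [hk, Nat.add_sub_cancel, mul_left_comm, Nat.mul_div_cancel_left _ (by norm_num)]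
      rw [this]; exact dvd_mul_right _ _) dvd_rfl _ G rfl hgood (P : Subgroup G) (P : Subgroup G)
    (Cfsg.Agent.H13.Syl.isSylIn_sylow_top P) le_rfl (fun x _ g hg => hg) (fun z hz => hz)
  rw [Cfsg.Agent.H12.ZJ.ZJJ_p] at h1
  obtain ⟨x, hx, hx2⟩ := h1 (Subgroup.closure A) ((Subgroup.closure_le _).2 hA) g⁻¹ (by
    rintro _ ⟨a, ha, rfl⟩
    change g⁻¹ * a * g⁻¹⁻¹ ∈ (P : Subgroup G)
    rw [inv_inv]
    have h2 : Subgroup.closure A ≤ (P : Subgroup G).comap (MulAut.conj g⁻¹).toMonoidHom := by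
      rw [Subgroup.closure_le]
      intro b hb
      change g⁻¹ * b * g⁻¹⁻¹ ∈ (P : Subgroup G)
      rw [inv_inv]
      exact hAg ⟨b, hb, rfl⟩
    have h3 := h2 ha
    change g⁻¹ * a * g⁻¹⁻¹ ∈ (P : Subgroup G) at h3
    rwa [inv_inv] at h3)
  refine ⟨x⁻¹, inv_mem hx, fun a ha => ?_⟩
  have h2 := hx2 a (Subgroup.subset_closure ha)
  rw [inv_inv] at h2 ⊢
  exact h2

end Cfsg.Agent.S0118
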