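import Mathlib
import Cfsg.Agent.S0118
import Cfsg.Agent.H18_Off4
import Cfsg.Agent.H2_PCons
import Cfsg.Agent.H2_Fusion
import Cfsg.Agent.H5_SL2Quat
import Cfsg.Agent.H12_ZJ5

set_option autoImplicit false
set_option linter.all false

/-! Glauberman's ZJ step for solvable groups with abelian Sylow 2-subgroups -/

namespace Cfsg.Agent.H9.Pp

open Subgroup Cfsg

theorem no_sl2 {H : Type*} [Group H] [Finite H] (p : ℕ) [Fact p.Prime] (hp : p ≠ 2)
    (h2 : ∀ S : Sylow 2 H, ∀ x ∈ S, ∀ y ∈ S, x * y = y * x) :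
    ¬ ∃ (K L : Subgroup H) (hL : (L.subgroupOf K).Normal), Nonempty ((K ⧸ L.subgroupOf K) ≃* Matrix.SpecialLinearGroup (Fin 2) (ZMod p)) := by
  rintro ⟨K, L, hL, ⟨e⟩⟩
  haveI : Fact (Nat.Prime 2) := ⟨Nat.prime_two⟩
  let f : K →* Matrix.SpecialLinearGroup (Fin 2) (ZMod p) := e.toMonoidHom.comp (QuotientGroup.mk' (L.subgroupOf K))
  have hf : Function.Surjective f := e.surjective.comp (QuotientGroup.mk'_surjective _)
  obtain ⟨T⟩ : Nonempty (Sylow 2 K) := inferInstance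
  obtain ⟨S, hS⟩ := (T.isPGroup'.map K.subtype).exists_le_sylow
  have hT : ∀ x ∈ T, ∀ y ∈ T, x * y = y * x := by
    intro x hx y hy
    apply Subtype.ext
    exact h2 S x (hS ⟨x, hx, rfl⟩) y (hS ⟨y, hy, rfl⟩)
  have hTm : ∀ x ∈ T.mapSurjective hf, ∀ y ∈ T.mapSurjective hf, x * y = y * x := by
    rintro _ ⟨x, hx, rfl⟩ _ ⟨y, hy, rfl⟩
    rw [← map_mul, ← map_mul, hT x hx y hy]
  obtain ⟨k, hk, ⟨q⟩⟩ := Cfsg.Agent.H5.SL2Quat.sylow_two (F := ZMod p)
    (by rw [ZMod.card]; exact (Fact.out : p.Prime).odd_of_ne_two hp) (T.mapSurjective hf)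
  have hcomm : ∀ x y : QuaternionGroup (2^k), x * y = y * x := by
    intro x y
    have h3 := hTm _ (q.symm x).2 _ (q.symm y).2
    have h4 : q.symm x * q.symm y = q.symm y * q.symm x := Subtype.ext h3
    rw [← map_mul, ← map_mul] at h4
    exact q.symm.injective h4
  have h3 := hcomm (QuaternionGroup.xa 0) (QuaternionGroup.a 1)
  rw [QuaternionGroup.xa_mul_a, QuaternionGroup.a_mul_xa] at h3
  have h4 : (0 + 1 : ZMod (2 * 2 ^ k)) = 0 - 1 := by
    injection h3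
  have h5 : ((2 : ℕ) : ZMod (2 * 2 ^ k)) = 0 := by
    push_cast
    linear_combination h4
  rw [ZMod.natCast_eq_zero_iff] at h5
  have h6 := Nat.le_of_dvd (by norm_num) h5
  have h7 : 2 ≤ 2 ^ k := by
    calc 2 = 2 ^ 1 := by norm_num
      _ ≤ 2 ^ k := Nat.pow_le_pow_right (by norm_num) hk
  omega

theorem zj_step {H : Type*} [Group H] [Finite H] [Group.IsSolvable H] (p : ℕ) [Fact p.Prime] (hp : p ≠ 2)
    (h2 : ∀ S : Sylow 2 H, ∀ x ∈ S, ∀ y ∈ S, x * y = y * x) (P : Sylow p H) :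
    Cfsg.pPrimeCore p H ⊔ Subgroup.normalizer (Cfsg.centerThompsonOf p (P : Subgroup H) : Set H) = ⊤ := by
  classical
  haveI hON : (pPrimeCore p H).Normal := Cfsg.Agent.H1.Nilp.pPrimeCore_normal p
  haveI hpc : (pCore p (H ⧸ pPrimeCore p H)).Normal := Cfsg.Agent.H1.Nilp.pCore_normal p
  set O := pPrimePCore p H with hO
  haveI hOn : O.Normal := by rw [hO, pPrimePCore]; infer_instance
  set Q : Subgroup H := (P : Subgroup H) ⊓ O with hQ
  have hQp : IsPGroup p Q := P.isPGroup'.to_le inf_le_left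
  have hQS : IsPGroup p (Q.subgroupOf O) := hQp.comap_subtype
  have hQi : ¬ p ∣ (Q.subgroupOf O).index := Cfsg.Agent.H2.Fusion.not_dvd_relIndex_inf P O
  let QS : Sylow p O := hQS.toSylow hQi
  have hQSmap : ((QS : Subgroup O)).map O.subtype = Q := by
    rw [IsPGroup.toSylow_coe, subgroupOf_map_subtype, inf_eq_left]
    exact inf_le_right
  -- Frattini
  have hfr : Subgroup.normalizer (Q : Set H) ⊔ O = ⊤ := by
    have := Sylow.normalizer_sup_eq_top QS
    rwa [hQSmap] at this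
  -- centralizer
  have hcent : Subgroup.centralizer (Q : Set H) ≤ O := by
    have h := Cfsg.Agent.H18.Off.isPConstrained_of_isSolvable (G := H) p QS
    rwa [hQSmap] at h
  -- O = pPrimeCore ⊔ Q
  have hOQ : O ≤ pPrimeCore p H ⊔ Q := by
    have h1 := Cfsg.Agent.H2.PCons.map_sylow (QuotientGroup.mk' (pPrimeCore p H)) (QuotientGroup.mk'_surjective _)
      (by rw [QuotientGroup.ker_mk']; exact Cfsg.Agent.H1.Nilp.pPrimeCore_coprime (G := H) p)
      (Cfsg.Agent.H11.Cores.pPrimeCore_quotient p) QS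
    rw [hQSmap] at h1
    intro x hx
    have h2' : QuotientGroup.mk' (pPrimeCore p H) x ∈ pCore p (H ⧸ pPrimeCore p H) := hx
    rw [← h1] at h2'
    obtain ⟨q, hq, hqx⟩ := h2'
    have h3 : q⁻¹ * x ∈ pPrimeCore p H := QuotientGroup.eq.1 hqx
    have h4 : x = q * (q⁻¹ * x) := by group
    rw [h4]
    exact mul_mem (mem_sup_right hq) (mem_sup_left h3)
  have hPN : (P : Subgroup H) ≤ Subgroup.normalizer (Cfsg.centerThompsonOf p (P : Subgroup H) : Set H) := by
    rw [← Cfsg.Agent.H12.ZJ.ZJJ_p]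
    exact le_normalizer.trans (Cfsg.Agent.H12.ZJ.normalizer_le_ZJJ _ _)
  have hON2 : O ≤ pPrimeCore p H ⊔ Subgroup.normalizer (Cfsg.centerThompsonOf p (P : Subgroup H) : Set H) :=
    hOQ.trans (sup_le_sup_left (inf_le_left.trans hPN) _)
  rw [eq_top_iff, ← hfr]
  refine sup_le ?_ hON2
  intro h hh
  obtain ⟨n, hn, hn2⟩ := Cfsg.Agent.S0118.result hp (no_sl2 p hp h2) P (Q : Set H)
    (fun x hx => hx.1) h (by
      rintro _ ⟨a, ha, rfl⟩
      have h1 : h⁻¹ * a * h⁻¹⁻¹ ∈ Q := (mem_normalizer_iff.1 (inv_mem hh) a).1 ha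
      rw [inv_inv] at h1
      exact h1.1)
  have h3 : h * n⁻¹ ∈ Subgroup.centralizer (Q : Set H) := by
    rw [mem_centralizer_iff]
    intro a ha
    have h4 := hn2 a ha
    have h5 : n⁻¹ * a * n = h⁻¹ * a * h := h4
    have h6 : a * (h * n⁻¹) = h * (h⁻¹ * a * h) * n⁻¹ := by group
    rw [h6, ← h5]
    group
  have h4 := hON2 (hcent h3)
  have h5 : h = (h * n⁻¹) * n := by group
  rw [h5]
  exact mul_mem h4 (mem_sup_right hn)

end Cfsg.Agent.H9.Pp
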