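import Mathlib
import Cfsg.Agent.H9_CountP
import Cfsg.Agent.H20_SelfNorm
import Cfsg.Agent.H12_Core

set_option autoImplicit false
set_option linter.all false

/-! the count in groups whose `p'`-subgroups are abelian -/

namespace Cfsg.Agent.H9.Pp

open Subgroup

variable {G : Type*} [Group G]

theorem mem_mapconj {M : Subgroup G} {g y : G} : y ∈ M.map (MulAut.conj g).toMonoidHom ↔ g⁻¹ * y * g ∈ M := by
  constructor
  · rintro ⟨z, hz, rfl⟩
    show g⁻¹ * (g * z * g⁻¹) * g ∈ M
    have : g⁻¹ * (g * z * g⁻¹) * g = z := by group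
    rw [this]; exact hz
  · intro h
    refine ⟨_, h, ?_⟩
    show g * (g⁻¹ * y * g) * g⁻¹ = y
    group

theorem mapconj_eq_iff {M : Subgroup G} {g h : G} :
    M.map (MulAut.conj g).toMonoidHom = M.map (MulAut.conj h).toMonoidHom ↔ g⁻¹ * h ∈ normalizer (M : Set G) := by
  rw [Subgroup.ext_iff, mem_normalizer_iff]
  simp only [mem_mapconj]
  constructor
  · intro H z
    have h1 := H (h * z * h⁻¹)
    have e1 : h⁻¹ * (h * z * h⁻¹) * h = z := by group
    have e2 : g⁻¹ * (h * z * h⁻¹) * g = g⁻¹ * h * z * (g⁻¹ * h)⁻¹ := by group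
    rw [e1, e2] at h1
    exact h1.symm
  · intro H y
    have h1 := H (h⁻¹ * y * h)
    have e2 : g⁻¹ * h * (h⁻¹ * y * h) * (g⁻¹ * h)⁻¹ = g⁻¹ * y * g := by group
    rw [e2] at h1
    exact h1.symm

theorem card_mapconj (M : Subgroup G) (g : G) : Nat.card (M.map (MulAut.conj g).toMonoidHom) = Nat.card M :=
  Subgroup.card_map_of_injective (MulAut.conj g).injective

theorem card_conj [Finite G] (M : Subgroup G) :
    Nat.card {K : Subgroup G // ∃ g : G, K = M.map (MulAut.conj g).toMonoidHom} * Nat.card (normalizer (M : Set G)) = Nat.card G := by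
  let f : G ⧸ normalizer (M : Set G) → {K : Subgroup G // ∃ g : G, K = M.map (MulAut.conj g).toMonoidHom} :=
    Quotient.lift (fun g => ⟨M.map (MulAut.conj g).toMonoidHom, g, rfl⟩) (by
      intro a b hab
      have h1 : a⁻¹ * b ∈ normalizer (M : Set G) := QuotientGroup.leftRel_apply.1 hab
      exact Subtype.ext (mapconj_eq_iff.2 h1))
  have hf : Function.Bijective f := by
    constructor
    · intro x y hxy
      obtain ⟨a, rfl⟩ := QuotientGroup.mk_surjective x
      obtain ⟨b, rfl⟩ := QuotientGroup.mk_surjective y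
      rw [QuotientGroup.eq]
      exact mapconj_eq_iff.1 (congrArg Subtype.val hxy)
    · rintro ⟨K, g, rfl⟩
      exact ⟨QuotientGroup.mk g, rfl⟩
  rw [← Nat.card_eq_of_bijective f hf]
  exact (Subgroup.card_eq_card_quotient_mul_card_subgroup _).symm

theorem mapconj_mul (M : Subgroup G) (g h : G) :
    (M.map (MulAut.conj g).toMonoidHom).map (MulAut.conj h).toMonoidHom = M.map (MulAut.conj (h * g)).toMonoidHom := by
  ext y
  rw [mem_mapconj, mem_mapconj, mem_mapconj]
  have : g⁻¹ * (h⁻¹ * y * h) * g = (h * g)⁻¹ * y * (h * g) := by group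
  rw [this]

theorem mapconj_one (M : Subgroup G) : M.map (MulAut.conj (1 : G)).toMonoidHom = M := by
  ext y
  rw [mem_mapconj]
  simp

theorem cen_mapconj (x g : G) : (centralizer ({x} : Set G)).map (MulAut.conj g).toMonoidHom = centralizer ({g * x * g⁻¹} : Set G) := by
  ext y
  rw [mem_mapconj, mem_centralizer_singleton_iff, mem_centralizer_singleton_iff]
  constructor
  · intro h
    calc y * (g * x * g⁻¹) = g * (g⁻¹ * y * g * x) * g⁻¹ := by group
      _ = g * (x * (g⁻¹ * y * g)) * g⁻¹ := by rw [h]
      _ = g * x * g⁻¹ * y := by group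
  · intro h
    calc g⁻¹ * y * g * x = g⁻¹ * (y * (g * x * g⁻¹)) * g := by group
      _ = g⁻¹ * (g * x * g⁻¹ * y) * g := by rw [h]
      _ = x * (g⁻¹ * y * g) := by group

theorem count {G : Type*} [Group G] [Finite G] [IsSimpleGroup G] (p : ℕ) [hp' : Fact p.Prime] (hp : p ≠ 2)
    (hab : ∀ H : Subgroup G, (Nat.card H).Coprime p → ∀ x ∈ H, ∀ y ∈ H, x * y = y * x) (P : Sylow p G) (hP : Nat.card P = p)
    (hC : Subgroup.centralizer ((P : Subgroup G) : Set G) ≤ P)
    (hN : Nat.card (Subgroup.normalizer ((P : Subgroup G) : Set G)) = 2 * p) : False := by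
  classical
  have hpp := hp'.out
  -- centralizers of elements of order p
  have hcp : ∀ h g : G, orderOf h = p → g * h = h * g → orderOf g ∣ p := by
    intro h g hh hgh
    have h1 : IsPGroup p (zpowers h) := IsPGroup.of_card (n := 1) (by rw [Nat.card_zpowers, hh, pow_one])
    obtain ⟨Q, hQ⟩ := h1.exists_le_sylow
    obtain ⟨a, ha⟩ := MulAction.exists_smul_eq G P Q
    have hQc : Nat.card (Q : Subgroup G) = p := (Q.card_eq_multiplicity.trans P.card_eq_multiplicity.symm).trans hP
    have hQe : zpowers h = (Q : Subgroup G) := Subgroup.eq_of_le_of_card_ge hQ (by rw [hQc, Nat.card_zpowers, hh])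
    have h2 : a⁻¹ * g * a ∈ centralizer ((P : Subgroup G) : Set G) := by
      rw [mem_centralizer_iff]
      intro z hz
      have h3 : a * z * a⁻¹ ∈ (Q : Subgroup G) := by
        rw [← ha]
        exact ⟨z, hz, rfl⟩
      rw [← hQe] at h3
      obtain ⟨i, hi⟩ := h3
      have hi : h ^ i = a * z * a⁻¹ := hi
      have h4 : g * (a * z * a⁻¹) = a * z * a⁻¹ * g := by
        rw [← hi]
        exact (Commute.zpow_right (show Commute g h from hgh) i)
      calc z * (a⁻¹ * g * a) = a⁻¹ * (a * z * a⁻¹ * g) * a := by group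
        _ = a⁻¹ * (g * (a * z * a⁻¹)) * a := by rw [h4]
        _ = a⁻¹ * g * a * z := by group
    have h5 := orderOf_dvd_natCard (⟨_, hC h2⟩ : (P : Subgroup G))
    rw [hP, orderOf_mk] at h5
    have h6 : orderOf (a⁻¹ * g * a) = orderOf g := by
      have := orderOf_injective (MulAut.conj a⁻¹).toMonoidHom (MulAut.conj a⁻¹).injective g
      rw [← this]
      congr 1
      show a⁻¹ * g * a = a⁻¹ * g * a⁻¹⁻¹
      rw [inv_inv]
    rwa [h6] at h5
  have hgood : ∀ x : G, x ≠ 1 → ¬ p ∣ orderOf x → ¬ p ∣ Nat.card (centralizer ({x} : Set G)) := by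
    intro x hx hpx hd
    obtain ⟨⟨y, hy⟩, hyo⟩ := exists_prime_orderOf_dvd_card' p hd
    rw [orderOf_mk] at hyo
    rw [mem_centralizer_singleton_iff] at hy
    rcases (Nat.dvd_prime hpp).1 (hcp y x hyo hy.symm) with h1 | h1
    · exact hx (orderOf_eq_one_iff.1 h1)
    · exact hpx (dvd_of_eq h1.symm)
  have hcop : ∀ {m : ℕ}, ¬ p ∣ m → m.Coprime p := fun h => ((Nat.Prime.coprime_iff_not_dvd hpp).2 h).symm
  have habx : ∀ x : G, x ≠ 1 → ¬ p ∣ orderOf x → ∀ a ∈ centralizer ({x} : Set G), ∀ b ∈ centralizer ({x} : Set G), a * b = b * a :=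
    fun x hx hpx => hab _ (hcop (hgood x hx hpx))
  have hxx : ∀ x : G, x ∈ centralizer ({x} : Set G) := fun x => mem_centralizer_singleton_iff.2 rfl
  have hord : ∀ x : G, x ≠ 1 → ¬ p ∣ orderOf x → ∀ y ∈ centralizer ({x} : Set G), ¬ p ∣ orderOf y := by
    intro x hx hpx y hy hd
    have h1 := orderOf_dvd_natCard (⟨y, hy⟩ : centralizer ({x} : Set G))
    rw [orderOf_mk] at h1
    exact hgood x hx hpx (hd.trans h1)
  have heq : ∀ x : G, x ≠ 1 → ¬ p ∣ orderOf x → ∀ y ∈ centralizer ({x} : Set G), y ≠ 1 →
      centralizer ({y} : Set G) = centralizer ({x} : Set G) := by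
    intro x hx hpx y hy hy1
    have hpy := hord x hx hpx y hy
    have hxy : x ∈ centralizer ({y} : Set G) := mem_centralizer_singleton_iff.2 (mem_centralizer_singleton_iff.1 hy).symm
    apply le_antisymm
    · intro z hz
      exact mem_centralizer_singleton_iff.2 (habx y hy1 hpy z hz x hxy)
    · intro z hz
      exact mem_centralizer_singleton_iff.2 (habx x hx hpx z hz y hy)
  -- nonabelian
  have hna : ∃ a b : G, a * b ≠ b * a := by
    by_contra hcon
    push Not at hcon
    have h1 : normalizer ((P : Subgroup G) : Set G) ≤ (P : Subgroup G) := by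
      intro z _
      apply hC
      rw [mem_centralizer_iff]
      intro w _
      exact hcon w z
    have h2 := Subgroup.card_le_of_le h1
    rw [hN, hP] at h2
    have := hpp.pos
    omega
  have hcG : Nat.card G = p * (P : Subgroup G).index := by
    have h := (P : Subgroup G).card_mul_index
    rw [hP] at h
    exact h.symm
  have hp2 : ¬ p ^ 2 ∣ Nat.card G := by
    intro h
    rw [hcG, pow_two] at h
    exact P.not_dvd_index (Nat.dvd_of_mul_dvd_mul_left hpp.pos h)
  -- normalizers
  have hnorm : ∀ x : G, x ≠ 1 → ¬ p ∣ orderOf x →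
      Nat.card (normalizer ((centralizer ({x} : Set G) : Subgroup G) : Set G)) = p * Nat.card (centralizer ({x} : Set G)) := by
    intro x hx hpx
    set M := centralizer ({x} : Set G) with hM
    set N := normalizer (M : Set G) with hNdef
    have hMN : M ≤ N := le_normalizer
    have hcN : Nat.card N = Nat.card M * M.relIndex N := by
      have h1 := (M.subgroupOf N).card_mul_index
      rw [Nat.card_congr (Subgroup.subgroupOfEquivOfLe hMN).toEquiv] at h1
      exact h1.symm
    have hr : ∀ r : ℕ, r.Prime → r ∣ M.relIndex N → r = p := by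
      intro r hrp hd
      by_contra hne
      haveI : Fact r.Prime := ⟨hrp⟩
      obtain ⟨R⟩ : Nonempty (Sylow r N) := inferInstance
      have hle : (R : Subgroup N) ≤ M.subgroupOf N := by
        intro z hz
        obtain ⟨b, hb⟩ := (IsPGroup.iff_orderOf.1 R.isPGroup') ⟨z, hz⟩
        rw [orderOf_mk] at hb
        have hzo : orderOf (z : G) = r ^ b := by rw [Subgroup.orderOf_coe, hb]
        have h1 := Cfsg.Agent.H12.Core.card_sup_dvd (A := zpowers (z : G)) (B := M) (zpowers_le.2 z.2)
        rw [Nat.card_zpowers, hzo] at h1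
        have h2 : (Nat.card (zpowers (z : G) ⊔ M : Subgroup G)).Coprime p := by
          apply Nat.Coprime.coprime_dvd_left h1
          apply Nat.Coprime.mul_left
          · exact Nat.Coprime.pow_left _ ((Nat.coprime_primes hrp hpp).2 hne)
          · exact hcop (hgood x hx hpx)
        rw [mem_subgroupOf]
        exact mem_centralizer_singleton_iff.2 (hab _ h2 z (mem_sup_left (mem_zpowers _)) x (mem_sup_right (hxx x)))
      have h3 := index_dvd_of_le hle
      exact R.not_dvd_index (hd.trans h3)
    have hrne : M.relIndex N ≠ 0 := Subgroup.index_ne_zero_of_finite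
    have hpm := Nat.eq_prime_pow_of_unique_prime_dvd hrne (fun {d} hd hdd => hr d hd hdd)
    have hm1 : (M.relIndex N).primeFactorsList.length ≤ 1 := by
      by_contra hcon
      apply hp2
      have h1 : p ^ 2 ∣ M.relIndex N := by
        rw [hpm]; exact pow_dvd_pow p (by omega)
      exact h1.trans ((Dvd.intro_left _ hcN.symm).trans (Subgroup.card_subgroup_dvd_card N))
    have hrel : M.relIndex N = p := by
      rcases Nat.eq_zero_or_pos (M.relIndex N).primeFactorsList.length with h0 | h0
      · exfalso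
        rw [h0, pow_zero] at hpm
        have hNM : N ≤ M := Subgroup.relIndex_eq_one.1 hpm
        -- a Sylow subgroup
        have hM1 : Nat.card M ≠ 1 := by
          intro h
          have h1 : M = ⊥ := Subgroup.card_eq_one.1 h
          have h2 : x ∈ M := hxx x
          rw [h1, mem_bot] at h2
          exact hx h2
        obtain ⟨r, hrp, hrM⟩ := Nat.exists_prime_and_dvd hM1
        haveI : Fact r.Prime := ⟨hrp⟩
        obtain ⟨⟨y, hy⟩, hyo⟩ := exists_prime_orderOf_dvd_card' r hrM
        rw [orderOf_mk] at hyo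
        have hy1 : y ≠ 1 := by
          rintro rfl
          rw [orderOf_one] at hyo
          exact hrp.one_lt.ne hyo
        have hcy := heq x hx hpx y hy hy1
        have hrne' : r ≠ p := fun h => hgood x hx hpx (h ▸ hrM)
        obtain ⟨R, hR⟩ := (IsPGroup.of_card (n := 1) (by rw [Nat.card_zpowers, hyo, pow_one]) : IsPGroup r (zpowers y)).exists_le_sylow
        have hyR : y ∈ (R : Subgroup G) := hR (mem_zpowers y)
        have hRab := hab (R : Subgroup G) (by
          obtain ⟨k, hk⟩ := IsPGroup.iff_card.1 R.isPGroup'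
          rw [hk]
          exact Nat.Coprime.pow_left _ ((Nat.coprime_primes hrp hpp).2 hrne'))
        have hRM : (R : Subgroup G) ≤ M := by
          intro z hz
          rw [hM, ← hcy]
          exact mem_centralizer_singleton_iff.2 (hRab z hz y hyR)
        refine Cfsg.Agent.H20.SelfNorm.burnside_simple inferInstance hna R ?_ ?_
        · intro h
          rw [h, mem_bot] at hyR
          exact hy1 hyR
        · intro g hg
          have h1 : g * y * g⁻¹ ∈ (R : Subgroup G) := (mem_normalizer_iff.1 hg y).1 hyR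
          have h2 : g * y * g⁻¹ ≠ 1 := by
            intro h
            exact hy1 (by rwa [mul_inv_eq_one, mul_eq_left] at h)
          have h3 := heq x hx hpx _ (hRM h1) h2
          have h4 : M.map (MulAut.conj g).toMonoidHom = M := by
            conv_lhs => rw [hM, ← hcy]
            rw [cen_mapconj, h3]
          have h5 : g ∈ N := by
            have h6 : M.map (MulAut.conj 1).toMonoidHom = M.map (MulAut.conj g).toMonoidHom := by rw [mapconj_one, h4]
            have h7 := mapconj_eq_iff.1 h6
            rwa [inv_one, one_mul] at h7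
          have h8 := hNM h5
          rw [mem_centralizer_iff]
          intro z hz
          exact habx x hx hpx z (hRM hz) g h8
      · have h1 : (M.relIndex N).primeFactorsList.length = 1 := by omega
        rw [h1, pow_one] at hpm
        exact hpm
    rw [hcN, hrel, mul_comm]
  -- size
  have hsize : ∀ x : G, x ≠ 1 → ¬ p ∣ orderOf x → p + 1 ≤ Nat.card (centralizer ({x} : Set G)) := by
    intro x hx hpx
    have h1 : p ∣ Nat.card (normalizer ((centralizer ({x} : Set G) : Subgroup G) : Set G)) := by
      rw [hnorm x hx hpx]; exact dvd_mul_right _ _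
    obtain ⟨⟨w, hw⟩, hwo⟩ := exists_prime_orderOf_dvd_card' p h1
    rw [orderOf_mk] at hwo
    have hv : ∀ v ∈ zpowers w, v * x * v⁻¹ ∈ centralizer ({x} : Set G) := by
      intro v hv
      exact (mem_normalizer_iff.1 ((zpowers_le.2 hw) hv) x).1 (hxx x)
    have hinj : Function.Injective (fun o : Option (zpowers w) => match o with
        | none => (1 : centralizer ({x} : Set G))
        | some v => ⟨(v : G) * x * (v : G)⁻¹, hv v v.2⟩) := by
      rintro (_ | ⟨v, hv1⟩) (_ | ⟨v', hv2⟩) h
      · rfl
      · exfalso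
        have h2 : (1 : G) = v' * x * v'⁻¹ := congrArg Subtype.val h
        apply hx
        have h3 := h2.symm
        rwa [mul_inv_eq_one, mul_eq_left] at h3
      · exfalso
        have h2 : v * x * v⁻¹ = (1 : G) := congrArg Subtype.val h
        apply hx
        rwa [mul_inv_eq_one, mul_eq_left] at h2
      · have h2 : v * x * v⁻¹ = v' * x * v'⁻¹ := congrArg Subtype.val h
        have h3 : v'⁻¹ * v ∈ centralizer ({x} : Set G) := by
          rw [mem_centralizer_singleton_iff]
          calc v'⁻¹ * v * x = v'⁻¹ * (v * x * v⁻¹) * v := by group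
            _ = v'⁻¹ * (v' * x * v'⁻¹) * v := by rw [h2]
            _ = x * (v'⁻¹ * v) := by group
        have h4 : v'⁻¹ * v ∈ zpowers w := mul_mem (inv_mem hv2) hv1
        have h5 := orderOf_dvd_of_mem_zpowers h4
        rw [hwo] at h5
        have h6 : v'⁻¹ * v = 1 := by
          rcases (Nat.dvd_prime hpp).1 h5 with h7 | h7
          · exact orderOf_eq_one_iff.1 h7
          · exact absurd (dvd_of_eq h7.symm) (hord x hx hpx _ h3)
        have h7 : v = v' := (inv_mul_eq_one.1 h6).symm
        subst h7
        rfl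
    have h2 := Nat.card_le_card_of_injective _ hinj
    rw [Finite.card_option, Nat.card_zpowers, hwo] at h2
    exact h2
  -- the count
  obtain ⟨k, hk⟩ : ∃ k, k = Nat.card (Sylow p G) := ⟨_, rfl⟩
  have hGk : Nat.card G = 2 * p * k := by
    rw [← hN, hk, P.card_eq_index_normalizer]
    exact (card_mul_index _).symm
  cases nonempty_fintype G
  let S : Finset G := Finset.univ.filter (fun x => x ≠ 1 ∧ ¬ p ∣ orderOf x)
  have hmemS : ∀ y, y ∈ S ↔ y ≠ 1 ∧ ¬ p ∣ orderOf y := by
    intro y
    rw [Finset.mem_filter]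
    exact ⟨fun h => h.2, fun h => ⟨Finset.mem_univ _, h⟩⟩
  let c : G → Subgroup G := fun x => centralizer ({x} : Set G)
  let MM : Finset (Subgroup G) := S.image c
  have hS : S.card = ∑ M ∈ MM, (Nat.card M - 1) := by
    rw [Finset.card_eq_sum_card_image c S]
    apply Finset.sum_congr rfl
    intro M hM
    obtain ⟨x, hx, rfl⟩ := Finset.mem_image.1 hM
    obtain ⟨hx1, hxp⟩ := (hmemS x).1 hx
    have h1 : S.filter (fun y => c y = c x) = (Finset.univ.filter (fun y => y ∈ c x)).erase 1 := by
      ext y
      rw [Finset.mem_filter, Finset.mem_erase, Finset.mem_filter, Finset.mem_filter]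
      constructor
      · rintro ⟨⟨_, h2, h3⟩, h4⟩
        exact ⟨h2, Finset.mem_univ _, by rw [← h4]; exact hxx y⟩
      · rintro ⟨h2, _, h3⟩
        exact ⟨⟨Finset.mem_univ _, h2, hord x hx1 hxp y h3⟩, heq x hx1 hxp y h3 h2⟩
    rw [h1, Finset.card_erase_of_mem (Finset.mem_filter.2 ⟨Finset.mem_univ _, one_mem _⟩)]
    congr 1
    rw [Nat.card_eq_fintype_card, Fintype.card_subtype]
  have hbad : ∀ g : G, p ∣ orderOf g → orderOf g = p := by
    intro g hd
    have h1 : orderOf (g ^ (orderOf g / p)) = p := orderOf_pow_orderOf_div (orderOf_pos g).ne' hd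
    have h2 := hcp _ g h1 ((Commute.refl g).pow_right _)
    exact Nat.dvd_antisymm h2 hd
  have htot : Nat.card G = k * (p - 1) + (S.card + 1) := by
    have h1 := Cfsg.Agent.H9.CountP.card_order_p P hP
    rw [← hk] at h1
    have h2 : Nat.card {g : G // orderOf g = p} = (Finset.univ.filter (fun g : G => orderOf g = p)).card := by
      rw [Nat.card_eq_fintype_card, Fintype.card_subtype]
    have h3 : (Finset.univ.filter (fun g : G => ¬ orderOf g = p)) = insert 1 S := by
      ext g
      rw [Finset.mem_filter, Finset.mem_insert, hmemS]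
      constructor
      · rintro ⟨_, h4⟩
        by_cases hg : g = 1
        · exact Or.inl hg
        · exact Or.inr ⟨hg, fun h => h4 (hbad g h)⟩
      · rintro (rfl | ⟨_, h4⟩)
        · exact ⟨Finset.mem_univ _, by rw [orderOf_one]; exact hpp.one_lt.ne⟩
        · exact ⟨Finset.mem_univ _, fun h => h4 (dvd_of_eq h.symm)⟩
    have h4 : (1 : G) ∉ S := by
      rw [hmemS]
      exact fun h => h.1 rfl
    have h5 := Finset.card_filter_add_card_filter_not (s := (Finset.univ : Finset G)) (fun g : G => orderOf g = p)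
    rw [h3, Finset.card_insert_of_notMem h4, ← h2, h1, Finset.card_univ, ← Nat.card_eq_fintype_card] at h5
    exact h5.symm
  have hconjMM : ∀ M ∈ MM, ∀ g : G, M.map (MulAut.conj g).toMonoidHom ∈ MM := by
    intro M hM g
    obtain ⟨x, hx, rfl⟩ := Finset.mem_image.1 hM
    rw [hmemS] at hx
    rw [show (c x).map (MulAut.conj g).toMonoidHom = c (g * x * g⁻¹) from cen_mapconj x g]
    apply Finset.mem_image_of_mem
    rw [hmemS]
    have h6 : orderOf (g * x * g⁻¹) = orderOf x := orderOf_injective (MulAut.conj g).toMonoidHom (MulAut.conj g).injective x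
    exact ⟨fun h => hx.1 (by rwa [mul_inv_eq_one, mul_eq_left] at h), by rw [h6]; exact hx.2⟩
  let orb : Subgroup G → Set (Subgroup G) := fun M => {K | ∃ g : G, K = M.map (MulAut.conj g).toMonoidHom}
  have hself : ∀ M : Subgroup G, M ∈ orb M := fun M => ⟨1, (mapconj_one M).symm⟩
  have hdiv : 2 * k ∣ ∑ M ∈ MM, Nat.card M := by
    rw [← Finset.sum_fiberwise_of_maps_to (g := orb) (t := MM.image orb) (fun M hM => Finset.mem_image_of_mem _ hM)]
    apply Finset.dvd_sum
    intro O hO
    obtain ⟨M0, hM0, rfl⟩ := Finset.mem_image.1 hO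
    have h1 : ∀ M ∈ MM.filter (fun M => orb M = orb M0), Nat.card M = Nat.card M0 := by
      intro M hM
      have h2 := hself M
      rw [(Finset.mem_filter.1 hM).2] at h2
      obtain ⟨g, hg⟩ := h2
      rw [hg, card_mapconj]
    rw [Finset.sum_congr rfl h1, Finset.sum_const, smul_eq_mul]
    have h2 : (MM.filter (fun M => orb M = orb M0)).card = Nat.card {K : Subgroup G // ∃ g : G, K = M0.map (MulAut.conj g).toMonoidHom} := by
      symm
      apply Nat.subtype_card
      intro K
      rw [Finset.mem_filter]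
      constructor
      · rintro ⟨h3, h4⟩
        have h5 := hself K
        rw [h4] at h5
        exact h5
      · rintro ⟨g, rfl⟩
        refine ⟨hconjMM M0 hM0 g, ?_⟩
        ext K
        constructor
        · rintro ⟨h, rfl⟩
          exact ⟨h * g, mapconj_mul _ _ _⟩
        · rintro ⟨h, rfl⟩
          exact ⟨h * g⁻¹, by rw [mapconj_mul, inv_mul_cancel_right]⟩
    rw [h2]
    obtain ⟨x, hx, rfl⟩ := Finset.mem_image.1 hM0
    rw [hmemS] at hx
    have h3 := card_conj (c x)
    rw [show Nat.card (normalizer ((c x : Subgroup G) : Set G)) = p * Nat.card (c x) from hnorm x hx.1 hx.2, hGk] at h3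
    refine dvd_of_eq (Nat.eq_of_mul_eq_mul_left hpp.pos ?_)
    rw [← mul_assoc, mul_comm p 2, ← h3]
    ring
  obtain ⟨T, hT⟩ := hdiv
  have hsum : S.card + MM.card = 2 * k * T := by
    rw [← hT, hS, Finset.card_eq_sum_ones, ← Finset.sum_add_distrib]
    apply Finset.sum_congr rfl
    intro M hM
    exact Nat.sub_add_cancel Nat.card_pos
  have hge : MM.card * (p + 1) ≤ 2 * k * T := by
    rw [← hT, ← smul_eq_mul]
    apply Finset.card_nsmul_le_sum
    intro M hM
    obtain ⟨x, hx, rfl⟩ := Finset.mem_image.1 hM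
    rw [hmemS] at hx
    exact hsize x hx.1 hx.2
  -- an involution
  obtain ⟨⟨t, ht⟩, hto⟩ := exists_prime_orderOf_dvd_card' (G := normalizer ((P : Subgroup G) : Set G)) 2 (by rw [hN]; exact dvd_mul_right _ _)
  rw [orderOf_mk] at hto
  have ht1 : t ≠ 1 := by
    rintro rfl
    rw [orderOf_one] at hto
    omega
  have htp : ¬ p ∣ orderOf t := by
    rw [hto]
    intro h
    exact hp ((Nat.prime_dvd_prime_iff_eq hpp Nat.prime_two).1 h)
  have htS : c t ∈ MM := Finset.mem_image_of_mem _ ((hmemS t).2 ⟨ht1, htp⟩)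
  have hn1 : MM.card ≤ 1 := by
    obtain ⟨a, ha⟩ := hpp.odd_of_ne_two hp
    have ha1 : 1 ≤ a := by
      have := hpp.two_le
      omega
    rw [htot] at hGk
    have e1 : k * (p - 1) = 2 * (k * a) := by
      have : p - 1 = 2 * a := by omega
      rw [this]; ring
    have e2 : 2 * p * k = 4 * (k * a) + 2 * k := by rw [ha]; ring
    rw [e1, e2] at hGk
    have e3 : MM.card * (p + 1) = 2 * (MM.card * a) + 2 * MM.card := by rw [ha]; ring
    rw [e3] at hge
    rcases Nat.lt_or_ge T (a + 2) with hTa | hTa
    · have h1 : k * T ≤ k * (a + 1) := Nat.mul_le_mul_left _ (by omega)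
      have e4 : k * (a + 1) = k * a + k := by ring
      have e5 : 2 * k * T = 2 * (k * T) := by ring
      omega
    · exfalso
      obtain ⟨b, rfl⟩ : ∃ b, T = a + 1 + (b + 1) := ⟨T - a - 2, by omega⟩
      have e5 : 2 * k * (a + 1 + (b + 1)) = 2 * (k * a) + 4 * k + 2 * (k * b) := by ring
      rw [e5] at hsum hge
      have e6 : MM.card = 1 + 2 * k + 2 * (k * b) := by omega
      have e7 : MM.card * a = a + 2 * (k * a) + 2 * (k * b * a) := by rw [e6]; ring
      have h8 : k * b ≤ k * b * a := Nat.le_mul_of_pos_right _ ha1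
      have h9 : k ≤ k * a := Nat.le_mul_of_pos_right _ ha1
      omega
  have hunique : ∀ M ∈ MM, M = c t := by
    intro M hM
    exact Finset.card_le_one.1 hn1 _ hM _ htS
  have hnormal : (c t).Normal := by
    refine ⟨fun y hy g => ?_⟩
    have h1 := hunique _ (hconjMM _ htS g)
    rw [← h1, mem_mapconj]
    have : g⁻¹ * (g * y * g⁻¹) * g = y := by group
    rw [this]; exact hy
  rcases IsSimpleGroup.eq_bot_or_eq_top_of_normal (c t) hnormal with h | h
  · have h1 : t ∈ c t := hxx t
    rw [h, mem_bot] at h1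
    exact ht1 h1
  · apply hgood t ht1 htp
    have h1 : centralizer ({t} : Set G) = ⊤ := h
    rw [h1, card_top, hcG]
    exact dvd_mul_right _ _

end Cfsg.Agent.H9.Pp
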