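import Mathlib
import Cfsg.Prelude
import Cfsg.Agent.H1_Hall
import Cfsg.Agent.H26_HH

set_option autoImplicit false

/-! S1936, part K: solvable groups with commutative subgroups of order prime to `p`. -/

namespace Cfsg.Agent.H9.Pp

open Subgroup
open scoped Pointwise

universe u

section K

variable {Y : Type u} [Group Y] [Finite Y]

theorem pCore_quot (p : ℕ) [hp : Fact p.Prime] : Cfsg.pCore p (Y ⧸ Cfsg.pCore p Y) = ⊥ := by
  haveI := H1.Nilp.pCore_normal (G := Y) p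
  set N := Cfsg.pCore p Y with hN
  haveI := H1.Nilp.pCore_normal (G := Y ⧸ N) p
  have h1 : IsPGroup p ((Cfsg.pCore p (Y ⧸ N)).comap (QuotientGroup.mk' N)) := by
    apply IsPGroup.comap_of_ker_isPGroup (H1.Nilp.pCore_isPGroup p)
    rw [QuotientGroup.ker_mk']
    exact H1.Nilp.pCore_isPGroup p
  have h2 : (Cfsg.pCore p (Y ⧸ N)).comap (QuotientGroup.mk' N) ≤ N :=
    H1.Nilp.le_pCore inferInstance h1
  rw [eq_bot_iff]
  intro x hx
  obtain ⟨y, rfl⟩ := QuotientGroup.mk'_surjective N x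
  exact (QuotientGroup.eq_one_iff y).mpr (h2 hx)

theorem hall_core [Group.IsSolvable Y] (p : ℕ) [hp : Fact p.Prime]
    {L : Subgroup Y} (hab : ∀ x ∈ L, ∀ y ∈ L, x * y = y * x)
    (hL : (Nat.card L).Coprime p) (hLi : ∃ n, L.index = p ^ n) :
    L.map (QuotientGroup.mk' (Cfsg.pCore p Y)) = Cfsg.pPrimeCore p (Y ⧸ Cfsg.pCore p Y) ∧
    centralizer (Cfsg.pPrimeCore p (Y ⧸ Cfsg.pCore p Y) : Set (Y ⧸ Cfsg.pCore p Y)) ≤
      Cfsg.pPrimeCore p (Y ⧸ Cfsg.pCore p Y) := by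
  haveI := H1.Nilp.pCore_normal (G := Y) p
  have h0 := pCore_quot (Y := Y) p
  set N := Cfsg.pCore p Y with hN
  set f := QuotientGroup.mk' N with hf
  haveI hRn := H1.Nilp.pPrimeCore_normal (G := Y ⧸ N) p
  have hRc := H1.Nilp.pPrimeCore_coprime (G := Y ⧸ N) p
  set R := Cfsg.pPrimeCore p (Y ⧸ N) with hR
  obtain ⟨n, hn⟩ := hLi
  have hcc : centralizer (R : Set (Y ⧸ N)) ≤ R :=
    H26.HH.centralizer_pPrimeCore_le (H22.PSolv.isPSolvable_of_isSolvable inferInstance) h0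
  have h1 : (Nat.card (L.map f)).Coprime p :=
    Nat.Coprime.coprime_dvd_left (Subgroup.card_map_dvd L f) hL
  have h2 : (L.map f).index ∣ p ^ n := by
    rw [← hn]
    exact Subgroup.index_map_dvd _ (QuotientGroup.mk'_surjective N)
  have h3 : R ≤ L.map f := by
    obtain ⟨g, hg⟩ := H1.Hall.hall_dominance (G := Y ⧸ N) (H := L.map f) (K := R)
      ((h1.pow_right n).coprime_dvd_right h2) ((hRc.pow_right n).coprime_dvd_right h2)
    rwa [Subgroup.Normal.conj_smul_eq_self] at hg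
  refine ⟨le_antisymm ?_ h3, hcc⟩
  refine le_trans ?_ hcc
  rintro _ ⟨x, hx, rfl⟩
  rw [mem_centralizer_iff]
  intro r hr
  obtain ⟨y, hy, rfl⟩ := h3 hr
  rw [← map_mul, ← map_mul, hab _ hx _ hy]

theorem psub_le [Group.IsSolvable Y] (p : ℕ) [hp : Fact p.Prime]
    {L : Subgroup Y} (hab : ∀ x ∈ L, ∀ y ∈ L, x * y = y * x)
    (hL : (Nat.card L).Coprime p) (hLi : ∃ n, L.index = p ^ n) {X : Subgroup Y}
    (hX : IsPGroup p X) (hLX : L ≤ normalizer (X : Set Y)) : X ≤ Cfsg.pCore p Y := by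
  haveI := H1.Nilp.pCore_normal (G := Y) p
  obtain ⟨h1, h2⟩ := hall_core p hab hL hLi
  set N := Cfsg.pCore p Y with hN
  set f := QuotientGroup.mk' N with hf
  haveI hRn := H1.Nilp.pPrimeCore_normal (G := Y ⧸ N) p
  have hRc := H1.Nilp.pPrimeCore_coprime (G := Y ⧸ N) p
  set R := Cfsg.pPrimeCore p (Y ⧸ N) with hR
  have hXp : IsPGroup p (X.map f) := hX.map f
  have hbot : X.map f ⊓ R = ⊥ := by
    obtain ⟨k, hk⟩ := IsPGroup.iff_card.mp hXp
    apply Subgroup.inf_eq_bot_of_coprime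
    rw [hk]
    exact (hRc.symm.pow_left k)
  have h3 : X.map f ≤ centralizer (R : Set (Y ⧸ N)) := by
    rintro _ ⟨x, hx, rfl⟩
    rw [mem_centralizer_iff]
    intro r hr
    rw [← h1] at hr
    obtain ⟨l, hl, rfl⟩ := hr
    have e : f l * f x * (f l)⁻¹ * (f x)⁻¹ ∈ X.map f ⊓ R := by
      refine ⟨⟨l * x * l⁻¹ * x⁻¹, mul_mem ((mem_normalizer_iff.mp (hLX hl) x).mp hx) (inv_mem hx), by simp⟩, ?_⟩
      have : f x * (f l)⁻¹ * (f x)⁻¹ ∈ R := hRn.conj_mem _ (inv_mem (h1 ▸ mem_map_of_mem f hl)) _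
      have h4 : f l ∈ R := h1 ▸ mem_map_of_mem f hl
      have := mul_mem h4 this
      simpa [mul_assoc] using this
    rw [hbot, mem_bot] at e
    have := mul_inv_eq_one.mp e
    exact mul_inv_eq_iff_eq_mul.mp this
  have h4 : X.map f = ⊥ := by
    rw [eq_bot_iff, ← hbot]
    exact le_inf le_rfl (h3.trans h2)
  rw [Subgroup.map_eq_bot_iff, QuotientGroup.ker_mk'] at h4
  exact h4

theorem exists_hall [Group.IsSolvable Y] (p : ℕ) [hp : Fact p.Prime] :
    ∃ L : Subgroup Y, (Nat.card L).Coprime p ∧ ∃ n, L.index = p ^ n := by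
  obtain ⟨m, hm1, hm2⟩ : ∃ m, Nat.card Y = m * p ^ (Nat.card Y).factorization p ∧ m.Coprime p := by
    refine ⟨Nat.card Y / p ^ (Nat.card Y).factorization p, ?_, ?_⟩
    · rw [mul_comm]; exact (Nat.ordProj_mul_ordCompl_eq_self _ _).symm
    · exact (Nat.coprime_ordCompl hp.out Nat.card_pos.ne').symm
  obtain ⟨L, hL⟩ := H1.Hall.hall_exists (G := Y) m _ hm1 (hm2.pow_right _)
  exact ⟨L, hL ▸ hm2, _, H1.Hall.index_of_card hm1 hL⟩

/-- any `p'`-subgroup is contained in a Hall `p'`-subgroup -/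
theorem exists_hall_ge [Group.IsSolvable Y] (p : ℕ) [hp : Fact p.Prime] {T : Subgroup Y}
    (hT : (Nat.card T).Coprime p) :
    ∃ L : Subgroup Y, T ≤ L ∧ (Nat.card L).Coprime p ∧ ∃ n, L.index = p ^ n := by
  obtain ⟨L, hL, n, hn⟩ := exists_hall (Y := Y) p
  obtain ⟨g, hg⟩ := H1.Hall.hall_dominance (G := Y) (H := L) (K := T)
    (by rw [hn]; exact hL.pow_right n) (by rw [hn]; exact hT.pow_right n)
  refine ⟨MulAut.conj g⁻¹ • L, ?_, ?_, n, ?_⟩
  · intro x hx
    rw [Subgroup.mem_pointwise_smul_iff_inv_smul_mem, ← map_inv, inv_inv]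
    exact hg (Subgroup.smul_mem_pointwise_smul _ _ _ hx)
  · rw [H1.Basic.card_conj]; exact hL
  · rw [← hn]
    have h1 := L.card_mul_index
    have h2 := (MulAut.conj g⁻¹ • L).card_mul_index
    rw [H1.Basic.card_conj] at h2
    exact Nat.eq_of_mul_eq_mul_left Nat.card_pos (h2.trans h1.symm)

/-- Frattini type factorization -/
theorem core_sup_normalizer [Group.IsSolvable Y] (p : ℕ) [hp : Fact p.Prime] (hp2 : p ≠ 2)
    (hab : ∀ H : Subgroup Y, (Nat.card H).Coprime p → ∀ x ∈ H, ∀ y ∈ H, x * y = y * x)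
    (T : Sylow 2 Y) : Cfsg.pCore p Y ⊔ normalizer ((T : Subgroup Y) : Set Y) = ⊤ := by
  haveI : Fact (Nat.Prime 2) := ⟨Nat.prime_two⟩
  haveI := H1.Nilp.pCore_normal (G := Y) p
  have hTc : (Nat.card T).Coprime p := by
    obtain ⟨k, hk⟩ := IsPGroup.iff_card.mp T.isPGroup'
    change (Nat.card (T : Subgroup Y)).Coprime p
    rw [hk]
    exact Nat.Coprime.pow_left _ ((Nat.coprime_primes Nat.prime_two hp.out).mpr hp2.symm)
  obtain ⟨L, hTL, hL, hLi⟩ := exists_hall_ge p hTc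
  obtain ⟨h1, h2⟩ := hall_core p (hab L hL) hL hLi
  set N := Cfsg.pCore p Y with hN
  set f := QuotientGroup.mk' N with hf
  have hfs : Function.Surjective f := QuotientGroup.mk'_surjective N
  haveI hRn := H1.Nilp.pPrimeCore_normal (G := Y ⧸ N) p
  set R := Cfsg.pPrimeCore p (Y ⧸ N) with hR
  set T' : Sylow 2 (Y ⧸ N) := T.mapSurjective hfs with hT'
  have hT'c : (T' : Subgroup (Y ⧸ N)) = (T : Subgroup Y).map f := Sylow.coe_mapSurjective hfs T
  have hTR : (T' : Subgroup (Y ⧸ N)) ≤ R := by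
    rw [hT'c, ← h1]; exact Subgroup.map_mono hTL
  have hRab : ∀ x ∈ R, ∀ y ∈ R, x * y = y * x := by
    intro x hx y hy
    rw [← h1] at hx hy
    obtain ⟨a, ha, rfl⟩ := hx
    obtain ⟨b, hb, rfl⟩ := hy
    rw [← map_mul, ← map_mul, hab L hL a ha b hb]
  have hT'n : (T' : Subgroup (Y ⧸ N)).Normal := by
    constructor
    intro t ht g
    -- the conjugate Sylow subgroup
    have h3 : IsPGroup 2 (g • T' : Sylow 2 (Y ⧸ N)) := (g • T').isPGroup'
    have h4 : ((g • T' : Sylow 2 (Y ⧸ N)) : Subgroup (Y ⧸ N)) ≤ R := by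
      intro z hz
      rw [Sylow.coe_subgroup_smul, Subgroup.mem_pointwise_smul_iff_inv_smul_mem] at hz
      have h5 := hRn.conj_mem _ (hTR hz) g
      simpa [MulAut.smul_def, mul_assoc] using h5
    have h5 : IsPGroup 2 (((g • T' : Sylow 2 (Y ⧸ N)) : Subgroup (Y ⧸ N)) ⊔ (T' : Subgroup (Y ⧸ N)) : Subgroup _) := by
      apply IsPGroup.to_sup_of_normal_right' (g • T').isPGroup' T'.isPGroup'
      intro a ha
      rw [mem_normalizer_iff]
      intro b
      constructor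
      · intro hb
        rwa [hRab a (h4 ha) b (hTR hb), mul_inv_cancel_right]
      · intro hb
        have := hRab a (h4 ha) _ (hTR hb)
        have e : b = a⁻¹ * (a * b * a⁻¹) * a := by group
        rw [e]
        have h6 : a⁻¹ * (a * b * a⁻¹) * a = a * b * a⁻¹ := by
          rw [mul_assoc, ← this]; group
        rw [h6]
        exact hb
    have h6 : ((g • T' : Sylow 2 (Y ⧸ N)) : Subgroup (Y ⧸ N)) ⊔ (T' : Subgroup (Y ⧸ N)) = T' :=
      T'.is_maximal' h5 le_sup_right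
    have h7 : g * t * g⁻¹ ∈ ((g • T' : Sylow 2 (Y ⧸ N)) : Subgroup (Y ⧸ N)) := by
      rw [Sylow.coe_subgroup_smul]
      have := Subgroup.smul_mem_pointwise_smul t (MulAut.conj g) (T' : Subgroup (Y ⧸ N)) ht
      simpa [MulAut.smul_def] using this
    rw [← h6]
    exact Subgroup.mem_sup_left h7
  have hNT : ((T' : Subgroup (Y ⧸ N)).comap f) = N ⊔ T := by
    rw [hT'c, Subgroup.comap_map_eq, QuotientGroup.ker_mk', sup_comm]
  haveI hNTn : (N ⊔ (T : Subgroup Y)).Normal := by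
    rw [← hNT]; exact hT'n.comap f
  have hTle : (T : Subgroup Y) ≤ N ⊔ T := le_sup_right
  have h8 := Sylow.normalizer_sup_eq_top (T.subtype hTle)
  have h9 : ((T.subtype hTle : Sylow 2 (N ⊔ (T : Subgroup Y) : Subgroup Y)) : Subgroup _).map (N ⊔ (T : Subgroup Y) : Subgroup Y).subtype = T := by
    rw [Sylow.coe_subtype, Subgroup.subgroupOf_map_subtype, inf_eq_left.mpr hTle]
  rw [h9] at h8
  rw [eq_top_iff, ← h8]
  refine sup_le le_sup_right (sup_le le_sup_left ?_)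
  exact (Subgroup.le_normalizer).trans le_sup_right

end K

end Cfsg.Agent.H9.Pp
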