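import Mathlib
import Cfsg.Prelude
import Cfsg.Agent.H9_PpK
import Cfsg.Agent.H4_SE
import Cfsg.Agent.H22_Gen

set_option autoImplicit false

/-! S1936, part U: minimal counterexample, strongly embedded subgroups. -/

namespace Cfsg.Agent.H9.Pp

open Subgroup
open scoped Pointwise

universe u

/-- minimal counterexample -/
structure MC (p : ℕ) (G : Type u) [Group G] [Finite G] : Prop where
  pp : p.Prime
  p5 : 5 ≤ p
  simp : IsSimpleGroup G
  ns : ¬ Group.IsSolvable G
  sub : ∀ H : Subgroup G, H ≠ ⊤ → Group.IsSolvable H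
  ab : ∀ H : Subgroup G, (Nat.card H).Coprime p → ∀ x ∈ H, ∀ y ∈ H, x * y = y * x

variable {G : Type u} [Group G] [Finite G] {p : ℕ}

theorem MC.ab' (h : MC p G) (Y : Subgroup G) : ∀ H : Subgroup Y, (Nat.card H).Coprime p →
    ∀ x ∈ H, ∀ y ∈ H, x * y = y * x := by
  intro H hH x hx y hy
  have h1 : (Nat.card (H.map Y.subtype)).Coprime p := by
    rwa [Subgroup.card_map_of_injective Y.subtype_injective]
  have := h.ab _ h1 _ (mem_map_of_mem _ hx) _ (mem_map_of_mem _ hy)
  exact Subtype.ext (by simpa using this)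

theorem MC.two (h : MC p G) {T : Subgroup G} (hT : IsPGroup 2 T) : (Nat.card T).Coprime p := by
  haveI : Fact (Nat.Prime 2) := ⟨Nat.prime_two⟩
  obtain ⟨k, hk⟩ := IsPGroup.iff_card.mp hT
  rw [hk]
  exact Nat.Coprime.pow_left _ ((Nat.coprime_primes Nat.prime_two h.pp).mpr (by have := h.p5; omega))

theorem cent_le {H : Subgroup G} (hH : Cfsg.IsStronglyEmbedded H) {t : G} (ht : orderOf t = 2)
    (htH : t ∈ H) : centralizer ({t} : Set G) ≤ H := by
  intro g hg
  apply H4.SE.mem_of_invol hH ht htH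
  rw [mem_centralizer_singleton_iff] at hg
  rwa [mul_assoc, ← hg, inv_mul_cancel_left]

theorem MC.uniq (h : MC p G) {H : Subgroup G} (hH : Cfsg.IsStronglyEmbedded H) {Y : Subgroup G}
    (hY : Y ≠ ⊤) {x y : G} (hx : x ∈ Y) (hy : y ∈ Y) (ox : orderOf x = 2) (oy : orderOf y = 2)
    (hxy : x ≠ y) (hc : x * y = y * x) (hxH : x ∈ H) : Y ≤ H := by
  haveI : Fact (Nat.Prime 2) := ⟨Nat.prime_two⟩
  haveI : Fact p.Prime := ⟨h.pp⟩
  have hp2 : p ≠ 2 := by have := h.p5; omega
  haveI := h.sub Y hY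
  have x2 : x ^ 2 = 1 := by rw [← ox, pow_orderOf_eq_one]
  have y2 : y ^ 2 = 1 := by rw [← oy, pow_orderOf_eq_one]
  have hyH : y ∈ H := cent_le hH ox hxH (mem_centralizer_singleton_iff.mpr hc.symm)
  have oxy : orderOf (x * y) = 2 := by
    apply orderOf_eq_prime
    · rw [(show Commute x y from hc).mul_pow, x2, y2, one_mul]
    · intro e
      apply hxy
      have : x = y⁻¹ := mul_eq_one_iff_eq_inv.mp e
      rw [this]; rw [pow_two] at y2
      exact (inv_eq_of_mul_eq_one_left y2)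
  have hW : IsPGroup 2 (Subgroup.zpowers (⟨x, hx⟩ : Y) ⊔ Subgroup.zpowers (⟨y, hy⟩ : Y) : Subgroup Y) := by
    apply IsPGroup.to_sup_of_normal_right'
    · exact H4.Util.zpowers_isPGroup (k := 1) (by rw [Subgroup.orderOf_mk]; simpa using ox)
    · exact H4.Util.zpowers_isPGroup (k := 1) (by rw [Subgroup.orderOf_mk]; simpa using oy)
    · rw [zpowers_le]
      apply Subgroup.centralizer_le_normalizer
      rw [mem_centralizer_iff]
      intro z hz
      obtain ⟨k, rfl⟩ := mem_zpowers_iff.mp hz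
      have : Commute (⟨x, hx⟩ : Y) ⟨y, hy⟩ := Subtype.ext hc
      exact (this.symm.zpow_left k)
  obtain ⟨T, hT⟩ := hW.exists_le_sylow
  set T' : Subgroup G := (T : Subgroup Y).map Y.subtype with hT'
  have hTY : T' ≤ Y := map_subtype_le _
  have hT2 : IsPGroup 2 T' := T.isPGroup'.map _
  have hTab : ∀ a ∈ T', ∀ b ∈ T', a * b = b * a := h.ab T' (h.two hT2)
  have hxT : x ∈ T' := ⟨⟨x, hx⟩, hT (Subgroup.mem_sup_left (mem_zpowers _)), rfl⟩
  have hyT : y ∈ T' := ⟨⟨y, hy⟩, hT (Subgroup.mem_sup_right (mem_zpowers _)), rfl⟩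
  have hTH : T' ≤ H := fun t ht =>
    cent_le hH ox hxH (mem_centralizer_singleton_iff.mpr (hTab _ ht _ hxT))
  have htop := core_sup_normalizer (Y := Y) p hp2 (h.ab' Y) T
  have hOn := H1.Nilp.pCore_normal (G := Y) p
  set O : Subgroup G := (Cfsg.pCore p Y).map Y.subtype with hO
  have hOY : Y ≤ normalizer (O : Set G) := by
    have := Subgroup.le_normalizer_map (H := Cfsg.pCore p Y) Y.subtype
    rw [Subgroup.normalizer_eq_top_iff.mpr hOn, ← MonoidHom.range_eq_map, range_subtype] at this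
    exact this
  have hOp : IsPGroup p O := (H1.Nilp.pCore_isPGroup p).map _
  have hcop : (Nat.card T').Coprime (Nat.card O) := by
    obtain ⟨k, hk⟩ := IsPGroup.iff_card.mp hOp
    rw [hk]
    exact (h.two hT2).pow_right k
  have hOH : O ≤ H := by
    refine H22.Gen.gen_pp (A := T') (p := 2) hTab (hTY.trans hOY) hcop ?_ hxT hyT ?_ ?_ ?_ ?_
    · rw [← ox, ← Subgroup.orderOf_mk x hxT]; exact orderOf_dvd_natCard _
    · rw [x2]; exact one_mem _
    · rw [y2]; exact one_mem _
    · exact inf_le_right.trans (cent_le hH oy hyH)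
    · intro j hj
      interval_cases j
      · rw [pow_zero, mul_one]; exact inf_le_right.trans (cent_le hH ox hxH)
      · rw [pow_one]; exact inf_le_right.trans (cent_le hH oxy (mul_mem hxH hyH))
  intro g hg
  have hg' : (⟨g, hg⟩ : Y) ∈ Cfsg.pCore p Y ⊔ normalizer ((T : Subgroup Y) : Set Y) := by
    rw [htop]; trivial
  rw [← SetLike.mem_coe, Subgroup.normal_mul] at hg'
  obtain ⟨a, ha, b, hb, hab⟩ := hg'
  have e : g = (a : G) * (b : G) := by
    have := congrArg Subtype.val hab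
    simpa using this.symm
  rw [e]
  refine mul_mem (hOH (mem_map_of_mem Y.subtype ha)) ?_
  apply H4.SE.mem_of_invol hH ox hxH
  apply hTH
  have hb' : b⁻¹ ∈ normalizer ((T : Subgroup Y) : Set Y) := inv_mem hb
  have hxT0 : (⟨x, hx⟩ : Y) ∈ (T : Subgroup Y) := hT (Subgroup.mem_sup_left (mem_zpowers _))
  have := (mem_normalizer_iff.mp hb' _).mp hxT0
  exact ⟨_, this, by simp⟩

end Cfsg.Agent.H9.Pp
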