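import Mathlib
import Cfsg.Prelude
import Cfsg.Agent.H9_PpU
import Cfsg.Agent.H3_Burnside
import Cfsg.Agent.H22_Hall

set_option autoImplicit false

/-! S1936, part M: the main reduction. -/

namespace Cfsg.Agent.H9.Pp

open Subgroup

universe u

def HP (p : ℕ) (G : Type u) [Group G] : Prop :=
  ∀ H : Subgroup G, (Nat.card ↥H).Coprime p → IsMulCommutative ↥H ∧ ∀ x ∈ H, x ^ (p - 1) = 1

theorem HP.sub {p : ℕ} {G : Type u} [Group G] (h : HP p G) (K : Subgroup G) : HP p K := by
  intro H hH
  have h1 : (Nat.card (H.map K.subtype)).Coprime p := by
    rwa [Subgroup.card_map_of_injective K.subtype_injective]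
  obtain ⟨h2, h3⟩ := h _ h1
  constructor
  · refine ⟨⟨?_⟩⟩
    intro x y
    have h4 := h2.is_comm.comm ⟨_, mem_map_of_mem K.subtype x.2⟩ ⟨_, mem_map_of_mem K.subtype y.2⟩
    have h5 : (x : K).1 * (y : K).1 = (y : K).1 * (x : K).1 := congrArg Subtype.val h4
    exact Subtype.ext (Subtype.ext h5)
  · intro x hx
    have := h3 _ (mem_map_of_mem K.subtype hx)
    exact Subtype.ext (by simpa using this)

/-- transfer of the property along a surjection when a subgroup of order prime to `p` can be lifted -/
theorem HP.of_lift {p : ℕ} {G Q : Type u} [Group G] [Group Q] (h : HP p G) (φ : G →* Q)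
    (hl : ∀ H : Subgroup Q, (Nat.card ↥H).Coprime p → ∃ K : Subgroup G, (Nat.card ↥K).Coprime p ∧
      K.map φ = H) : HP p Q := by
  intro H hH
  obtain ⟨K, hK, rfl⟩ := hl H hH
  obtain ⟨h2, h3⟩ := h K hK
  constructor
  · refine ⟨⟨?_⟩⟩
    rintro ⟨_, ⟨x, hx, rfl⟩⟩ ⟨_, ⟨y, hy, rfl⟩⟩
    have h4 := h2.is_comm.comm ⟨x, hx⟩ ⟨y, hy⟩
    have h5 : x * y = y * x := congrArg Subtype.val h4
    apply Subtype.ext
    change φ x * φ y = φ y * φ x
    rw [← map_mul, h5, map_mul]
  · rintro _ ⟨x, hx, rfl⟩
    rw [← map_pow, h3 x hx, map_one]

theorem reduce.{v} (hno : ∀ (p : ℕ) (G : Type v) [Group G] [Finite G], ¬ MC p G) {G : Type v}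
    [Group G] [Finite G] (p : ℕ) [Fact p.Prime]
    (h : ∀ H : Subgroup G, (Nat.card ↥H).Coprime p →
      IsMulCommutative ↥H ∧ ∀ x ∈ H, x ^ (p - 1) = 1) : Group.IsSolvable G := by
  have hp : p.Prime := Fact.out
  have main : ∀ (n : ℕ) (G : Type v) [Group G] [Finite G], Nat.card G = n → HP p G →
      Group.IsSolvable G := by
    intro n
    induction n using Nat.strong_induction_on with
    | _ n ih =>
      intro G _ _ hn h
      classical
      -- orders of elements of prime order r ≠ p divide p - 1
      have hr : ∀ r : ℕ, r.Prime → r ∣ Nat.card G → r ≠ p → r ∣ p - 1 := by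
        intro r hr hrd hrp
        haveI : Fact r.Prime := ⟨hr⟩
        obtain ⟨x, hx⟩ := exists_prime_orderOf_dvd_card' (G := G) r hrd
        have h1 : (Nat.card (zpowers x)).Coprime p := by
          rw [Nat.card_zpowers, hx]
          exact (Nat.coprime_primes hr hp).mpr hrp
        have h2 := (h _ h1).2 x (mem_zpowers x)
        rw [← hx]
        exact orderOf_dvd_of_pow_eq_one h2
      by_cases hp5 : 5 ≤ p
      · -- proper subgroups are solvable
        have hsub : ∀ H : Subgroup G, H ≠ ⊤ → Group.IsSolvable H := by
          intro H hH
          refine ih (Nat.card H) ?_ H rfl (h.sub H)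
          rw [← hn]
          refine lt_of_le_of_ne (Subgroup.card_le_card_group H) ?_
          intro h1
          exact hH (Subgroup.eq_top_of_card_eq H h1)
        by_contra hns
        have hnt : Nontrivial G := by
          by_contra hcon
          rw [not_nontrivial_iff_subsingleton] at hcon
          exact hns inferInstance
        have hsimp : IsSimpleGroup G := by
          refine ⟨fun N hN => ?_⟩
          by_contra hcon
          push Not at hcon
          obtain ⟨hNb, hNt⟩ := hcon
          -- quotients by nontrivial normal q-subgroups
          have hNs := hsub N hNt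
          obtain ⟨q, hq, M, hMn, hM1, hMq⟩ : ∃ (q : ℕ) (_ : q.Prime) (M : Subgroup G), M.Normal ∧
              M ≠ ⊥ ∧ IsPGroup q M := by
            obtain ⟨M, hMN, hMn, hM1, hmin⟩ := H1.Hall.exists_minimal_normal (G := G) hN hNb
            haveI := hMn
            have hMs : Group.IsSolvable M := by
              haveI := hNs
              exact solvable_of_solvable_injective (Subgroup.inclusion_injective hMN)
            obtain ⟨q, hq, hMq⟩ := H22.Hall.minimal_normal_isPGroup M hMs hM1 hmin
            exact ⟨q, hq, M, hMn, hM1, hMq⟩
          haveI : Fact q.Prime := ⟨hq⟩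
          haveI := hMn
          have hM2 : 1 < Nat.card M := by
            rw [Finite.one_lt_card_iff_nontrivial]
            exact (Subgroup.nontrivial_iff_ne_bot M).mpr hM1
          have hGM : Nat.card G = Nat.card (G ⧸ M) * Nat.card M := Subgroup.card_eq_card_quotient_mul_card_subgroup M
          have hlt : Nat.card (G ⧸ M) < n := by
            rw [← hn, hGM]
            exact lt_mul_of_one_lt_right Nat.card_pos hM2
          have hQ : HP p (G ⧸ M) := by
            refine h.of_lift (QuotientGroup.mk' M) ?_
            intro H hH
            have hMK : M ≤ H.comap (QuotientGroup.mk' M) := by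
              intro x hx
              rw [mem_comap]
              have : QuotientGroup.mk' M x = 1 := by
                rw [← MonoidHom.mem_ker, QuotientGroup.ker_mk']
                exact hx
              rw [this]
              exact H.one_mem
            have hmap : (H.comap (QuotientGroup.mk' M)).map (QuotientGroup.mk' M) = H :=
              Subgroup.map_comap_eq_self_of_surjective (QuotientGroup.mk'_surjective M) H
            have hcard : Nat.card (H.comap (QuotientGroup.mk' M)) = Nat.card M * Nat.card H := by
              have h1 := Subgroup.card_mul_index (H.comap (QuotientGroup.mk' M))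
              have h2 := Subgroup.card_mul_index H
              rw [Subgroup.index_comap_of_surjective _ (QuotientGroup.mk'_surjective M), hGM, ← h2] at h1
              have h3 : 0 < H.index := Nat.pos_of_ne_zero Subgroup.index_ne_zero_of_finite
              have h4 : Nat.card (H.comap (QuotientGroup.mk' M)) * H.index = (Nat.card M * Nat.card H) * H.index := by
                rw [h1]; ring
              exact Nat.eq_of_mul_eq_mul_right h3 h4
            by_cases hqp : q = p
            · subst hqp
              generalize hK : H.comap (QuotientGroup.mk' M) = K at hMK hmap hcard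
              have hcM : Nat.card (M.subgroupOf K) = Nat.card M :=
                Nat.card_congr (Subgroup.subgroupOfEquivOfLe hMK).toEquiv
              have hidx : (M.subgroupOf K).index = Nat.card H := by
                have h1 := Subgroup.card_mul_index (M.subgroupOf K)
                rw [hcM, hcard] at h1
                exact Nat.eq_of_mul_eq_mul_left Nat.card_pos h1
              obtain ⟨k, hk⟩ := IsPGroup.iff_card.mp hMq
              have hco : (Nat.card (M.subgroupOf K)).Coprime (M.subgroupOf K).index := by
                rw [hcM, hidx, hk]
                exact Nat.Coprime.pow_left _ hH.symm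
              obtain ⟨C, hC⟩ := Subgroup.exists_right_complement'_of_coprime hco
              have hcC : Nat.card C = Nat.card H := by
                have h1 := hC.card_mul
                rw [hcM, hcard] at h1
                exact Nat.eq_of_mul_eq_mul_left Nat.card_pos h1
              refine ⟨C.map K.subtype, ?_, ?_⟩
              · rw [Subgroup.card_map_of_injective K.subtype_injective, hcC]
                exact hH
              · have h1 : M.subgroupOf K ⊔ C = ⊤ := hC.sup_eq_top
                have h2 : (M.subgroupOf K ⊔ C).map K.subtype = K := by
                  rw [h1, ← MonoidHom.range_eq_map, K.range_subtype]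
                rw [Subgroup.map_sup, Subgroup.subgroupOf_map_subtype, inf_eq_left.mpr hMK] at h2
                conv_rhs => rw [← hmap, ← h2, Subgroup.map_sup]
                have h3 : M.map (QuotientGroup.mk' M) = ⊥ := by
                  rw [Subgroup.map_eq_bot_iff, QuotientGroup.ker_mk']
                rw [h3, bot_sup_eq]
            · refine ⟨H.comap (QuotientGroup.mk' M), ?_, hmap⟩
              rw [hcard]
              refine Nat.Coprime.mul_left ?_ hH
              obtain ⟨k, hk⟩ := IsPGroup.iff_card.mp hMq
              rw [hk]
              exact Nat.Coprime.pow_left _ ((Nat.coprime_primes hq hp).mpr hqp)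
          have hQs := ih _ hlt (G ⧸ M) rfl hQ
          apply hns
          haveI : Group.IsNilpotent M := hMq.isNilpotent
          haveI : Group.IsSolvable M := inferInstance
          haveI := hQs
          exact solvable_of_ker_le_range M.subtype (QuotientGroup.mk' M) (by
            rw [QuotientGroup.ker_mk', M.range_subtype])
        exact hno p G ⟨hp, hp5, hsimp, hns, hsub, fun H hH x hx y hy => by
          have := (h H hH).1.is_comm.comm ⟨x, hx⟩ ⟨y, hy⟩
          exact congrArg Subtype.val this⟩
      · -- p = 2 or 3
        have hp23 : p = 2 ∨ p = 3 := by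
          have h2 := hp.two_le
          have h4 : p ≠ 4 := by rintro rfl; exact absurd hp (by norm_num)
          omega
        have h1 : ∀ r : ℕ, r.Prime → r ∣ Nat.card G → r = 2 ∨ r = 3 := by
          intro r hr' hrd
          by_cases hrp : r = p
          · omega
          · have := Nat.le_of_dvd (by have := hp.two_le; omega) (hr r hr' hrd hrp)
            have := hr'.two_le
            omega
        have h2 : Nat.card G = 2 ^ (Nat.card G).factorization 2 * 3 ^ (Nat.card G).factorization 3 := by
          have h3 : (Nat.card G).factorization.support ⊆ {2, 3} := by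
            intro r hr'
            rw [Nat.support_factorization, Nat.mem_primeFactors] at hr'
            have := h1 r hr'.1 hr'.2.1
            simpa using this
          conv_lhs => rw [← Nat.factorization_prod_pow_eq_self (n := Nat.card G) Nat.card_pos.ne']
          rw [Finsupp.prod_of_support_subset _ h3 _ (by intros; simp)]
          rw [Finset.prod_pair (by norm_num)]
        exact H3.Burnside.burnside _ G 2 3 _ _ Nat.prime_two Nat.prime_three rfl h2
  exact main _ G rfl h

end Cfsg.Agent.H9.Pp
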