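import Mathlib

set_option autoImplicit false

namespace Cfsg.Agent.H9.Pp

theorem mers {p r k : ℕ} (hp : p.Prime) (hp2 : p ≠ 2) (hr : 2 ≤ r) (h : 2 ^ r = p ^ k + 1) : k = 1 := by
  have hodd : Odd p := hp.odd_of_ne_two hp2
  have h4 : 4 ∣ p ^ k + 1 := by
    rw [← h]
    exact pow_dvd_pow 2 hr
  rcases Nat.even_or_odd k with hk | hk
  · exfalso
    obtain ⟨m, rfl⟩ := hk
    have h1 : p ^ (m + m) % 4 = 1 := by
      rw [← two_mul, pow_mul, Nat.pow_mod]
      obtain ⟨j, rfl⟩ := hodd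
      have h2 : (2 * j + 1) ^ 2 % 4 = 1 := by
        have : (2 * j + 1) ^ 2 = 4 * (j * j + j) + 1 := by ring
        rw [this]; omega
      rw [h2, one_pow]; rfl
    omega
  · have h1 : emultiplicity (2 : ℤ) ((p : ℤ) ^ k - (-1) ^ k) = emultiplicity (2 : ℤ) ((p : ℤ) - (-1)) := by
      apply emultiplicity_pow_sub_pow_of_prime
      · exact Int.prime_two
      · obtain ⟨j, rfl⟩ := hodd
        exact ⟨j + 1, by push_cast; ring⟩
      · intro h2
        have h3 : 2 ∣ p := by exact_mod_cast h2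
        obtain ⟨j, rfl⟩ := hodd
        omega
      · intro h2
        obtain ⟨j, rfl⟩ := hk
        have h3 : (2 : ℤ) ∣ 2 * (j : ℤ) + 1 := by exact_mod_cast h2
        omega
    rw [hk.neg_one_pow] at h1
    have h2 : ((2 : ℤ) ^ r) ∣ (p : ℤ) ^ k - (-1) := by
      refine ⟨1, ?_⟩
      have : ((2 ^ r : ℕ) : ℤ) = ((p ^ k + 1 : ℕ) : ℤ) := by rw [h]
      push_cast at this
      rw [this]; ring
    have h3 : ((2 : ℤ) ^ r) ∣ (p : ℤ) - (-1) := by
      rw [pow_dvd_iff_le_emultiplicity, ← h1, ← pow_dvd_iff_le_emultiplicity]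
      exact h2
    have h4' : (2 ^ r : ℕ) ∣ p + 1 := by
      have : (((2 ^ r : ℕ) : ℤ)) ∣ ((p + 1 : ℕ) : ℤ) := by
        push_cast
        have e : (p : ℤ) + 1 = (p : ℤ) - (-1) := by ring
        rw [e]; exact h3
      exact_mod_cast this
    have h5 := Nat.le_of_dvd (Nat.succ_pos p) h4'
    rw [h] at h5
    have h6 : p ^ k ≤ p ^ 1 := by rw [pow_one]; omega
    have h7 := (Nat.pow_le_pow_iff_right hp.one_lt).1 h6
    obtain ⟨j, rfl⟩ := hk
    omega

end Cfsg.Agent.H9.Pp
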