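import Mathlib
import Cfsg.Agent.H9_SuzField2

/-!
# Quadratic maps of type A
-/

set_option autoImplicit false

namespace Cfsg.Agent.H9.SuzF

variable {F : Type*} [Field F] [Fintype F] [CharP F 2]

theorem quad_form (γ : F →+ F →+ F) (Q : F → F) (κ : Fˣ →* Fˣ)
    (hQ : ∀ s t, Q (s + t) = Q s + Q t + γ s t) (hQu : ∀ (u : Fˣ) s, Q (u * s) = κ u * Q s)
    (hγ : γ ≠ 0) :
    ∃ (σ τ : F ≃+* F) (a : F), a ≠ 0 ∧ σ ≠ τ ∧ ∀ s, Q s = a * (σ s * τ s) := by
  classical
  have hγu : ∀ (u : Fˣ) s t, γ (u * s) (u * t) = κ u * γ s t := by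
    intro u s t
    have h1 := hQ (u * s) (u * t)
    rw [← mul_add, hQu, hQu, hQu, hQ s t] at h1
    linear_combination -h1
  have hQ0 : Q 0 = 0 := by
    have h1 := hQ 0 0
    rw [add_zero, map_zero, add_zero] at h1
    exact left_eq_add.mp h1
  have halt : ∀ s, γ s s = 0 := by
    intro s
    have h1 := hQ s s
    rw [add_self, hQ0, add_self, zero_add] at h1
    exact h1.symm
  -- coefficients
  let c : (F ≃+* F) → (F ≃+* F) → F := fun σ τ => coef (cf γ σ) τ
  have hc : ∀ s t, γ s t = ∑ σ : F ≃+* F, ∑ τ : F ≃+* F, c σ τ * τ t * σ s := by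
    intro s t
    rw [cf_spec]
    refine Finset.sum_congr rfl (fun σ _ => ?_)
    rw [coef_spec (cf γ σ) t, Finset.sum_mul]
  have hcu : ∀ (d : (F ≃+* F) → (F ≃+* F) → F), (∀ s t, γ s t = ∑ σ : F ≃+* F, ∑ τ : F ≃+* F, d σ τ * τ t * σ s) → ∀ σ τ, c σ τ = d σ τ := by
    intro d hd σ τ
    have h1 : ∀ t σ, cf γ σ t = ∑ τ : F ≃+* F, d σ τ * τ t := by
      intro t σ
      refine cf_unique γ t (fun σ => ∑ τ : F ≃+* F, d σ τ * τ t) (fun s => ?_) σ
      rw [hd s t]
      refine Finset.sum_congr rfl (fun σ _ => ?_)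
      rw [Finset.sum_mul]
    exact congrFun (coef_unique (cf γ σ) (d σ) (fun t => h1 t σ)) τ
  have hcz : ∀ σ τ, c σ τ ≠ 0 → ∀ u : Fˣ, σ u * τ u = κ u := by
    intro σ τ hne u
    have h1 := hcu (fun σ τ => (κ u : F)⁻¹ * (c σ τ * τ u * σ u)) (fun s t => by
      have h2 := hγu u s t
      rw [hc (u * s) (u * t)] at h2
      have h3 : γ s t = (κ u : F)⁻¹ * ∑ σ : F ≃+* F, ∑ τ : F ≃+* F, c σ τ * τ (u * t) * σ (u * s) := by
        rw [h2, ← mul_assoc, inv_mul_cancel₀ (Units.ne_zero _), one_mul]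
      rw [h3, Finset.mul_sum]
      refine Finset.sum_congr rfl (fun σ _ => ?_)
      rw [Finset.mul_sum]
      refine Finset.sum_congr rfl (fun τ _ => ?_)
      rw [map_mul, map_mul]
      ring) σ τ
    have h2 : (κ u : F) * c σ τ = c σ τ * τ u * σ u := by
      conv_lhs => rw [h1]
      rw [← mul_assoc, mul_inv_cancel₀ (Units.ne_zero _), one_mul]
    have h3 : c σ τ * (σ u * τ u) = c σ τ * κ u := by rw [mul_comm _ (κ u : F), h2]; ring
    exact mul_left_cancel₀ hne h3
  obtain ⟨σ, τ, hne⟩ : ∃ σ τ, c σ τ ≠ 0 := by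
    by_contra hcon
    push Not at hcon
    apply hγ
    ext s t
    rw [hc]
    simp [hcon]
  have hst := hcz σ τ hne
  have hpair : ∀ σ' τ', c σ' τ' ≠ 0 → (σ' = σ ∧ τ' = τ) ∨ (σ' = τ ∧ τ' = σ) := by
    intro σ' τ' h'
    have h1 := hcz σ' τ' h'
    have h2 := ml (σ' : F →+* F) (τ' : F →+* F) (σ : F →+* F) (τ : F →+* F) (fun k => by
      by_cases hk : k = 0
      · simp [hk]
      · have e1 := h1 (Units.mk0 k hk)
        have e2 := hst (Units.mk0 k hk)
        rw [Units.val_mk0] at e1 e2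
        change σ' k * τ' k = σ k * τ k
        rw [e1, e2])
    rcases h2 with ⟨h3, h4⟩ | ⟨h3, h4⟩
    · exact Or.inl ⟨RingEquiv.ext (fun x => DFunLike.congr_fun h3 x), RingEquiv.ext (fun x => DFunLike.congr_fun h4 x)⟩
    · exact Or.inr ⟨RingEquiv.ext (fun x => DFunLike.congr_fun h3 x), RingEquiv.ext (fun x => DFunLike.congr_fun h4 x)⟩
  have hzero : ∀ σ' τ', ¬ ((σ' = σ ∧ τ' = τ) ∨ (σ' = τ ∧ τ' = σ)) → c σ' τ' = 0 := by
    intro σ' τ' h'
    by_contra h''
    exact h' (hpair σ' τ' h'')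
  have hστ : σ ≠ τ := by
    rintro rfl
    have h1 := halt 1
    rw [hc, Finset.sum_eq_single σ, Finset.sum_eq_single σ] at h1
    · rw [map_one, mul_one, mul_one] at h1
      exact hne h1
    · intro τ' _ h'
      rw [hzero σ τ' (by rintro (⟨-, h⟩ | ⟨-, h⟩) <;> exact h' h), zero_mul, zero_mul]
    · intro h; exact absurd (Finset.mem_univ _) h
    · intro σ' _ h'
      refine Finset.sum_eq_zero (fun τ' _ => ?_)
      rw [hzero σ' τ' (by rintro (⟨h, -⟩ | ⟨h, -⟩) <;> exact h' h), zero_mul, zero_mul]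
    · intro h; exact absurd (Finset.mem_univ _) h
  have hform : ∀ s t, γ s t = c σ τ * (σ s * τ t) + c τ σ * (τ s * σ t) := by
    intro s t
    rw [hc, ← Finset.sum_subset (Finset.subset_univ {σ, τ}), Finset.sum_pair hστ, Finset.sum_eq_single τ, Finset.sum_eq_single σ]
    · ring
    · intro τ' _ h'
      rw [hzero τ τ' (by
        rintro (⟨h, -⟩ | ⟨-, h⟩)
        · exact hστ h.symm
        · exact h' h), zero_mul, zero_mul]
    · intro h; exact absurd (Finset.mem_univ _) h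
    · intro τ' _ h'
      rw [hzero σ τ' (by
        rintro (⟨-, h⟩ | ⟨h, -⟩)
        · exact h' h
        · exact hστ h), zero_mul, zero_mul]
    · intro h; exact absurd (Finset.mem_univ _) h
    · intro σ' _ h'
      simp only [Finset.mem_insert, Finset.mem_singleton, not_or] at h'
      refine Finset.sum_eq_zero (fun τ' _ => ?_)
      rw [hzero σ' τ' (by
        rintro (⟨h, -⟩ | ⟨h, -⟩)
        · exact h'.1 h
        · exact h'.2 h), zero_mul, zero_mul]
  have hsym : c τ σ = c σ τ := by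
    have h1 := halt 1
    rw [hform] at h1
    simp only [map_one, mul_one] at h1
    exact (CharTwo.add_eq_zero.1 h1).symm
  -- the additive part
  let ℓ : F →+ F := AddMonoidHom.mk' (fun s => Q s + c σ τ * (σ s * τ s)) (by
    intro s t
    rw [hQ, hform, hsym, map_add, map_add]
    have e1 := add_self (c σ τ * (σ s * τ t))
    have e2 := add_self (c σ τ * (σ t * τ s))
    linear_combination e1 + e2)
  have hℓ : ∀ s, ℓ s = Q s + c σ τ * (σ s * τ s) := fun s => rfl
  have hℓu : ∀ (u : Fˣ) s, ℓ (u * s) = κ u * ℓ s := by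
    intro u s
    rw [hℓ, hℓ, hQu, map_mul, map_mul, ← hst u]
    ring
  have hℓ1 : ℓ 1 = 0 := by
    by_contra h1
    apply hστ
    ext x
    by_cases hx0 : x = 0
    · rw [hx0, map_zero, map_zero]
    by_cases hx1 : x = 1
    · rw [hx1, map_one, map_one]
    have hx1' : x + 1 ≠ 0 := fun e => hx1 (CharTwo.add_eq_zero.1 e)
    have a1 := hℓu (Units.mk0 x hx0) 1
    have a2 := hℓu (Units.mk0 _ hx1') 1
    rw [← hst, Units.val_mk0, mul_one] at a1 a2
    rw [map_add, a1, map_add σ, map_add τ, map_one σ, map_one τ] at a2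
    have h2 : (σ x + τ x) * ℓ 1 = 0 := by linear_combination -a2
    exact CharTwo.add_eq_zero.1 ((mul_eq_zero.1 h2).resolve_right h1)
  refine ⟨σ, τ, c σ τ, hne, hστ, fun s => ?_⟩
  have h1 : ℓ s = 0 := by
    by_cases hs : s = 0
    · rw [hs, map_zero]
    · have := hℓu (Units.mk0 s hs) 1
      rw [Units.val_mk0, mul_one, hℓ1, mul_zero] at this
      exact this
  rw [hℓ] at h1
  exact CharTwo.add_eq_zero.1 h1

/-- if `s ↦ s φ(s)` is injective then `φ` has odd order -/
theorem odd_order (φ : F ≃+* F) (hinj : ∀ u : F, u ≠ 0 → u * φ u = 1 → u = 1) : Odd (orderOf φ) := by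
  classical
  by_contra hev
  rw [Nat.not_odd_iff_even] at hev
  let S : Finset (F ≃+* F) := Finset.univ.filter (fun g => g ∈ Subgroup.zpowers (φ ^ 2))
  have hφS : φ ∉ Subgroup.zpowers (φ ^ 2) := by
    intro h
    obtain ⟨k, hk⟩ := Subgroup.mem_zpowers_iff.mp h
    have h1 : φ ^ (2 * k - 1) = 1 := by
      rw [zpow_sub, zpow_one, zpow_mul]
      have h2 : φ ^ (2 : ℤ) = φ ^ 2 := by norm_cast
      rw [h2, hk, mul_inv_cancel]
    have h2 := orderOf_dvd_iff_zpow_eq_one.mpr h1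
    obtain ⟨m, hm⟩ := hev
    rw [hm] at h2
    push_cast at h2
    have h3 : (2 : ℤ) ∣ 2 * k - 1 := dvd_trans ⟨m, by ring⟩ h2
    omega
  -- a trace fixed by φ² and not by φ
  obtain ⟨t, ht⟩ : ∃ t : F, φ (∑ g ∈ S, g t) ≠ ∑ g ∈ S, g t := by
    by_contra hcon
    push Not at hcon
    have h1 : comb (fun g : F ≃+* F => if g ∈ S then (1 : F) else 0) = comb (fun g : F ≃+* F => if φ⁻¹ * g ∈ S then (1 : F) else 0) := by
      ext t
      rw [comb_apply, comb_apply]
      have e1 : ∑ g : F ≃+* F, (if g ∈ S then (1 : F) else 0) * g t = ∑ g ∈ S, g t := by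
        simp [ite_mul, Finset.sum_ite_mem]
      have e2 : ∑ g : F ≃+* F, (if φ⁻¹ * g ∈ S then (1 : F) else 0) * g t = φ (∑ g ∈ S, g t) := by
        have e3 : ∑ g : F ≃+* F, (if φ⁻¹ * g ∈ S then (1 : F) else 0) * g t =
            ∑ g : F ≃+* F, (if g ∈ S then (1 : F) else 0) * (φ * g) t := by
          refine (Fintype.sum_equiv (Equiv.mulLeft φ) _ _ (fun g => ?_)).symm
          rw [Equiv.coe_mulLeft, inv_mul_cancel_left]
        rw [e3, map_sum]
        simp [ite_mul, Finset.sum_ite_mem]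
      rw [e1, e2, hcon]
    have h2 := comb_bij.1 h1
    have h3 := congrFun h2 1
    simp only [mul_one] at h3
    have h4 : (1 : F ≃+* F) ∈ S := by
      rw [Finset.mem_filter]
      exact ⟨Finset.mem_univ _, one_mem _⟩
    rw [if_pos h4] at h3
    split_ifs at h3 with h5
    · rw [Finset.mem_filter] at h5
      apply hφS
      have := inv_mem h5.2
      rwa [inv_inv] at this
    · exact one_ne_zero h3
  have hfix : φ (φ (∑ g ∈ S, g t)) = ∑ g ∈ S, g t := by
    rw [map_sum, map_sum]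
    refine Finset.sum_bij (fun g _ => φ ^ 2 * g) ?_ ?_ ?_ ?_
    · intro g hg
      rw [Finset.mem_filter] at hg ⊢
      exact ⟨Finset.mem_univ _, mul_mem (Subgroup.mem_zpowers _) hg.2⟩
    · intro a _ b _ hab
      exact mul_left_cancel hab
    · intro g hg
      rw [Finset.mem_filter] at hg
      refine ⟨(φ ^ 2)⁻¹ * g, ?_, mul_inv_cancel_left _ _⟩
      rw [Finset.mem_filter]
      exact ⟨Finset.mem_univ _, mul_mem (inv_mem (Subgroup.mem_zpowers _)) hg.2⟩
    · intro g _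
      rw [pow_two]
      rfl
  generalize ∑ g ∈ S, g t = y at ht hfix
  have hy0 : y ≠ 0 := by
    rintro rfl
    exact ht (map_zero _)
  have hφy : φ y ≠ 0 := by rwa [Ne, map_eq_zero_iff _ φ.injective]
  have h1 := hinj (y * (φ y)⁻¹) (mul_ne_zero hy0 (inv_ne_zero hφy)) (by
    rw [map_mul, map_inv₀, hfix]
    field_simp)
  apply ht
  field_simp at h1
  exact h1.symm

end Cfsg.Agent.H9.SuzF
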