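import Mathlib
import Cfsg.Prelude.Def_LieRecognition

/-!
# Central extensions of elementary abelian 2-groups with the same squaring map
-/

set_option autoImplicit false

namespace Cfsg.Agent.H9.SuzExt

open Subgroup

/-- extension of homomorphisms modulo squares -/
theorem ext_hom {G : Type*} [Group G] {F : Type*} [AddCommGroup F] (hF2 : ∀ f : F, f + f = 0) (N Z : Subgroup G)
    (hN : ∀ x, x * x ∈ N) (e : G → F) (he : ∀ x ∈ Z, ∀ y ∈ Z, e (x * y) = e x + e y) (hk : ∀ x ∈ Z, x ∈ N → e x = 0) :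
    ∃ lam : G →* Multiplicative F, (∀ x ∈ Z, lam x = Multiplicative.ofAdd (e x)) ∧ ∀ x ∈ N, lam x = 1 := by
  classical
  have hcm : ∀ x y : G, x⁻¹ * y⁻¹ * x * y ∈ N := by
    intro x y
    have h1 : x⁻¹ * y⁻¹ * x * y = (x⁻¹ * x⁻¹) * ((x * y⁻¹) * (x * y⁻¹)) * (y * y) := by group
    rw [h1]
    exact mul_mem (mul_mem (hN _) (hN _)) (hN _)
  haveI : N.Normal := by
    constructor
    intro n hn g
    have h2 : g * n * g⁻¹ = n * (n⁻¹ * (g⁻¹)⁻¹ * n * g⁻¹) := by group
    rw [h2]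
    exact mul_mem hn (hcm _ _)
  letI : CommGroup (G ⧸ N) :=
    { (inferInstance : Group (G ⧸ N)) with
      mul_comm := by
        intro a b
        obtain ⟨x, rfl⟩ := QuotientGroup.mk_surjective a
        obtain ⟨y, rfl⟩ := QuotientGroup.mk_surjective b
        rw [← QuotientGroup.mk_mul, ← QuotientGroup.mk_mul, QuotientGroup.eq]
        have h2 : (x * y)⁻¹ * (y * x) = y⁻¹ * x⁻¹ * y * x := by group
        rw [h2]
        exact hcm y x }
  letI mV : Module (ZMod 2) (Additive (G ⧸ N)) := AddCommGroup.zmodModule (fun v => by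
    rw [two_nsmul]
    obtain ⟨x, hx⟩ := QuotientGroup.mk_surjective (Additive.toMul v)
    change Additive.ofMul (Additive.toMul v * Additive.toMul v) = 0
    rw [← hx, ← QuotientGroup.mk_mul]
    exact (QuotientGroup.eq_one_iff (N := N) _).2 (hN x))
  letI mF : Module (ZMod 2) F := AddCommGroup.zmodModule (fun v => by rw [two_nsmul]; exact hF2 v)
  let π : G → Additive (G ⧸ N) := fun x => Additive.ofMul (QuotientGroup.mk x)
  have hπadd : ∀ x y, π (x * y) = π x + π y := fun x y => rfl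
  have hπ0 : ∀ x, π x = 0 ↔ x ∈ N := fun x => QuotientGroup.eq_one_iff (N := N) x
  have hwd : ∀ x ∈ Z, ∀ y ∈ Z, π x = π y → e x = e y := by
    intro x hx y hy hxy
    have h1 : y⁻¹ * x ∈ N := by
      rw [← hπ0]
      have h2 := hπadd y (y⁻¹ * x)
      rw [mul_inv_cancel_left, hxy] at h2
      exact left_eq_add.mp h2
    have h2 := he y hy (y⁻¹ * x) (mul_mem (inv_mem hy) hx)
    rw [mul_inv_cancel_left, hk _ (mul_mem (inv_mem hy) hx) h1, add_zero] at h2
    exact h2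
  let p₀ : AddSubgroup (Additive (G ⧸ N)) :=
    { carrier := {v | ∃ x ∈ Z, π x = v}
      add_mem' := by
        rintro _ _ ⟨x, hx, rfl⟩ ⟨y, hy, rfl⟩
        exact ⟨x * y, mul_mem hx hy, rfl⟩
      zero_mem' := ⟨1, one_mem _, rfl⟩
      neg_mem' := by
        rintro _ ⟨x, hx, rfl⟩
        exact ⟨x⁻¹, inv_mem hx, rfl⟩ }
  let p : Submodule (ZMod 2) (Additive (G ⧸ N)) := AddSubgroup.toZModSubmodule 2 p₀
  have hp : ∀ v : p, ∃ x ∈ Z, π x = v := fun v => v.2
  choose r hrZ hr using hp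
  let f₀ : p →+ F := AddMonoidHom.mk' (fun v => e (r v)) (by
    intro a b
    rw [← he _ (hrZ a) _ (hrZ b)]
    apply hwd _ (hrZ _) _ (mul_mem (hrZ a) (hrZ b))
    rw [hr, hπadd, hr, hr]
    rfl)
  let f : p →ₗ[ZMod 2] F := f₀.toZModLinearMap 2
  obtain ⟨g, hg⟩ := LinearMap.exists_extend f
  let lam : G →* Multiplicative F :=
    { toFun := fun x => Multiplicative.ofAdd (g (π x))
      map_one' := by
        have : π 1 = 0 := rfl
        rw [this, map_zero]; rfl
      map_mul' := fun x y => by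
        rw [hπadd, map_add]; rfl }
  refine ⟨lam, fun x hx => ?_, fun x hx => ?_⟩
  · change Multiplicative.ofAdd (g (π x)) = Multiplicative.ofAdd (e x)
    congr 1
    have hxp : π x ∈ p := ⟨x, hx, rfl⟩
    have h1 := LinearMap.congr_fun hg ⟨π x, hxp⟩
    change g (π x) = e (r ⟨π x, hxp⟩) at h1
    rw [h1]
    exact hwd _ (hrZ _) x hx (hr _)
  · change Multiplicative.ofAdd (g (π x)) = 1
    rw [(hπ0 x).2 hx, map_zero]; rfl

/-- two central extensions with the same squaring map are isomorphic -/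
theorem graph_iso {P A : Type*} [Group P] [Group A] {F : Type*} [AddCommGroup F] (hF2 : ∀ f : F, f + f = 0)
    (w : P →* Multiplicative F) (w' : A →* Multiplicative F) (hw : Function.Surjective w) (hw' : Function.Surjective w')
    (ζ : P → F) (ζ' : A → F) (hζ : ∀ x ∈ w.ker, ∀ y ∈ w.ker, ζ (x * y) = ζ x + ζ y)
    (hζ' : ∀ x ∈ w'.ker, ∀ y ∈ w'.ker, ζ' (x * y) = ζ' x + ζ' y)
    (hi : ∀ x ∈ w.ker, ζ x = 0 → x = 1) (hi' : ∀ x ∈ w'.ker, ζ' x = 0 → x = 1)
    (hs : ∀ f, ∃ x ∈ w.ker, ζ x = f) (hs' : ∀ f, ∃ x ∈ w'.ker, ζ' x = f)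
    (N : Multiplicative F → F) (hsq : ∀ x, x * x ∈ w.ker ∧ ζ (x * x) = N (w x))
    (hsq' : ∀ x, x * x ∈ w'.ker ∧ ζ' (x * x) = N (w' x)) : Nonempty (P ≃* A) := by
  classical
  have hζ1 : ζ 1 = 0 := by
    have := hζ 1 (one_mem _) 1 (one_mem _)
    rw [one_mul] at this
    exact left_eq_add.mp this
  have hζ1' : ζ' 1 = 0 := by
    have := hζ' 1 (one_mem _) 1 (one_mem _)
    rw [one_mul] at this
    exact left_eq_add.mp this
  have hζi : ∀ x ∈ w.ker, ζ x⁻¹ = - ζ x := by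
    intro x hx
    have := hζ _ (inv_mem hx) _ hx
    rw [inv_mul_cancel, hζ1] at this
    exact eq_neg_of_add_eq_zero_left this.symm
  have hζi' : ∀ x ∈ w'.ker, ζ' x⁻¹ = - ζ' x := by
    intro x hx
    have := hζ' _ (inv_mem hx) _ hx
    rw [inv_mul_cancel, hζ1'] at this
    exact eq_neg_of_add_eq_zero_left this.symm
  let D : Subgroup (P × A) := (w.comp (MonoidHom.fst P A)).eqLocus (w'.comp (MonoidHom.snd P A))
  have hD : ∀ d : D, w d.1.1 = w' d.1.2 := fun d => d.2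
  let Z : Subgroup D := (w.comp ((MonoidHom.fst P A).comp D.subtype)).ker
  have hZ : ∀ d : D, d ∈ Z ↔ w d.1.1 = 1 := fun d => Iff.rfl
  let N₀ : Subgroup D :=
    { carrier := {d | w d.1.1 = 1 ∧ ζ d.1.1 = ζ' d.1.2}
      one_mem' := ⟨map_one w, by
        change ζ 1 = ζ' 1
        rw [hζ1, hζ1']⟩
      mul_mem' := by
        rintro a b ⟨ha, ha2⟩ ⟨hb, hb2⟩
        refine ⟨?_, ?_⟩
        · change w (a.1.1 * b.1.1) = 1
          rw [map_mul, ha, hb, one_mul]
        · change ζ (a.1.1 * b.1.1) = ζ' (a.1.2 * b.1.2)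
          rw [hζ _ ha _ hb, hζ' _ (by rw [MonoidHom.mem_ker, ← hD, ha]) _ (by rw [MonoidHom.mem_ker, ← hD, hb]), ha2, hb2]
      inv_mem' := by
        rintro a ⟨ha, ha2⟩
        refine ⟨?_, ?_⟩
        · change w (a.1.1)⁻¹ = 1
          rw [map_inv, ha, inv_one]
        · change ζ (a.1.1)⁻¹ = ζ' (a.1.2)⁻¹
          rw [hζi _ ha, hζi' _ (by rw [MonoidHom.mem_ker, ← hD, ha]), ha2] }
  obtain ⟨lam, hlam1, hlam2⟩ := ext_hom hF2 N₀ Z (fun d => ⟨(hsq d.1.1).1, by
      change ζ (d.1.1 * d.1.1) = ζ' (d.1.2 * d.1.2)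
      rw [(hsq _).2, (hsq' _).2, hD]⟩) (fun d => ζ d.1.1 + ζ' d.1.2)
    (fun a ha b hb => by
      change ζ (a.1.1 * b.1.1) + ζ' (a.1.2 * b.1.2) = (ζ a.1.1 + ζ' a.1.2) + (ζ b.1.1 + ζ' b.1.2)
      have ha' : a.1.1 ∈ w.ker := ha
      have hb' : b.1.1 ∈ w.ker := hb
      rw [hζ _ ha' _ hb', hζ' _ (by rw [MonoidHom.mem_ker, ← hD]; exact ha) _ (by rw [MonoidHom.mem_ker, ← hD]; exact hb)]
      abel)
    (fun a _ ha => by
      change ζ a.1.1 + ζ' a.1.2 = 0
      rw [ha.2]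
      exact hF2 _)
  let C : Subgroup D := lam.ker
  let p₁ : C →* P := (MonoidHom.fst P A).comp (D.subtype.comp C.subtype)
  let p₂ : C →* A := (MonoidHom.snd P A).comp (D.subtype.comp C.subtype)
  have hkerP : ∀ z : P, ∀ z' : A, ∀ (h : w z = w' z'), w z = 1 → lam ⟨(z, z'), h⟩ = Multiplicative.ofAdd (ζ z + ζ' z') := by
    intro z z' h h1
    exact hlam1 ⟨(z, z'), h⟩ h1
  have hb1 : Function.Bijective p₁ := by
    constructor
    · rw [injective_iff_map_eq_one]
      rintro ⟨⟨⟨x, a⟩, hxa⟩, hC⟩ h1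
      have hx : x = 1 := h1
      subst hx
      have h2 := hkerP 1 a hxa (map_one w)
      have h3 : lam ⟨(1, a), hxa⟩ = 1 := hC
      rw [h2, hζ1, zero_add] at h3
      have h4 : ζ' a = 0 := h3
      have h5 : a = 1 := hi' a (by
        rw [MonoidHom.mem_ker]
        have : w 1 = w' a := hxa
        rw [← this, map_one]) h4
      subst h5
      rfl
    · intro x
      obtain ⟨a, ha⟩ := hw' (w x)
      obtain ⟨z', hz', hz2⟩ := hs' (- Multiplicative.toAdd (lam ⟨(x, a), ha.symm⟩))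
      have h1 : w x = w' (a * z') := by rw [map_mul, ha, show w' z' = 1 from hz', mul_one]
      refine ⟨⟨⟨(x, a * z'), h1⟩, ?_⟩, rfl⟩
      have h2 : (1 : Multiplicative F) = w' z' := (show w' z' = 1 from hz').symm
      have hz1 : w 1 = w' z' := by rw [map_one, ← h2]
      have h3 : (⟨(x, a * z'), h1⟩ : D) = ⟨(x, a), ha.symm⟩ * ⟨(1, z'), hz1⟩ := by
        apply Subtype.ext
        exact Prod.ext (mul_one x).symm rfl
      have h4 : lam ⟨(1, z'), hz1⟩ = Multiplicative.ofAdd (ζ' z') := by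
        have := hkerP 1 z' hz1 (map_one w)
        rwa [hζ1, zero_add] at this
      change lam _ = 1
      rw [h3, map_mul, h4, hz2]
      exact add_neg_cancel (Multiplicative.toAdd (lam ⟨(x, a), ha.symm⟩))
  have hb2 : Function.Bijective p₂ := by
    constructor
    · rw [injective_iff_map_eq_one]
      rintro ⟨⟨⟨x, a⟩, hxa⟩, hC⟩ h1
      have ha : a = 1 := h1
      subst ha
      have hx1 : w x = 1 := by
        have : w x = w' 1 := hxa
        rw [this, map_one]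
      have h2 := hkerP x 1 hxa hx1
      have h3 : lam ⟨(x, 1), hxa⟩ = 1 := hC
      rw [h2, hζ1', add_zero] at h3
      have h4 : ζ x = 0 := h3
      have h5 : x = 1 := hi x hx1 h4
      subst h5
      rfl
    · intro a
      obtain ⟨x, hx⟩ := hw (w' a)
      obtain ⟨z, hz, hz2⟩ := hs (- Multiplicative.toAdd (lam ⟨(x, a), hx⟩))
      have h1 : w (x * z) = w' a := by rw [map_mul, hx, show w z = 1 from hz, mul_one]
      refine ⟨⟨⟨(x * z, a), h1⟩, ?_⟩, rfl⟩
      have hz1 : w z = w' 1 := by rw [map_one]; exact hz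
      have h3 : (⟨(x * z, a), h1⟩ : D) = ⟨(x, a), hx⟩ * ⟨(z, 1), hz1⟩ := by
        apply Subtype.ext
        exact Prod.ext rfl (mul_one a).symm
      have h4 : lam ⟨(z, 1), hz1⟩ = Multiplicative.ofAdd (ζ z) := by
        have := hkerP z 1 hz1 hz
        rwa [hζ1', add_zero] at this
      change lam _ = 1
      rw [h3, map_mul, h4, hz2]
      exact add_neg_cancel (Multiplicative.toAdd (lam ⟨(x, a), hx⟩))
  exact ⟨(MulEquiv.ofBijective p₁ hb1).symm.trans (MulEquiv.ofBijective p₂ hb2)⟩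

end Cfsg.Agent.H9.SuzExt
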