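import Mathlib
import Cfsg.Agent.H9_SuzExt
import Cfsg.Agent.H9_SuzA
import Cfsg.Agent.H9_Suz11

/-!
# Suzuki 2-groups of order `q^2` are of type A
-/

set_option autoImplicit false

universe u w

namespace Cfsg.Agent.H9.Suz

open Subgroup

section typeA
variable {F : Type*} [Field F] [CharP F 2] (φ : F ≃+* F)

/-- elements of the type A group -/
def mat (x y : F) : Matrix (Fin 3) (Fin 3) F := !![1, 0, 0; x, 1, 0; y, φ x, 1]

theorem mat_mul (x y x' y' : F) : mat φ x y * mat φ x' y' = mat φ (x + x') (y + φ x * x' + y') := by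
  ext i j
  fin_cases i <;> fin_cases j <;> simp [mat, Matrix.mul_apply, Fin.sum_univ_three, map_add]

theorem mat_one : mat φ 0 0 = 1 := by
  ext i j
  fin_cases i <;> fin_cases j <;> simp [mat]

theorem neg_char2 (x : F) : -x = x := CharTwo.neg_eq x

theorem mat_inv (x y : F) : mat φ x y * mat φ x (y + φ x * x) = 1 := by
  rw [mat_mul, ← mat_one φ, SuzF.add_self]
  congr 1
  have h1 := SuzF.add_self (y + φ x * x)
  exact h1

theorem mat_inv' (x y : F) : mat φ x (y + φ x * x) * mat φ x y = 1 := by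
  rw [mat_mul, ← mat_one φ, SuzF.add_self]
  congr 1
  have h1 := SuzF.add_self (φ x * x)
  have h2 := SuzF.add_self y
  linear_combination h1 + h2

/-- as an invertible matrix -/
def gmat (x y : F) : GL (Fin 3) F := ⟨mat φ x y, mat φ x (y + φ x * x), mat_inv φ x y, mat_inv' φ x y⟩

theorem mem_typeA (g : GL (Fin 3) F) : g ∈ Cfsg.suzukiTypeA F (φ : F →+* F) ↔ ∃ x y, g = gmat φ x y := by
  constructor
  · intro hg
    refine Subgroup.closure_induction (p := fun g _ => ∃ x y, g = gmat φ x y) ?_ ?_ ?_ ?_ hg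
    · rintro g ⟨x, y, h⟩
      exact ⟨x, y, Units.ext h⟩
    · exact ⟨0, 0, Units.ext (mat_one φ).symm⟩
    · rintro a b _ _ ⟨x, y, rfl⟩ ⟨x', y', rfl⟩
      exact ⟨_, _, Units.ext (mat_mul φ x y x' y')⟩
    · rintro a _ ⟨x, y, rfl⟩
      exact ⟨x, y + φ x * x, Units.ext rfl⟩
  · rintro ⟨x, y, rfl⟩
    exact Subgroup.subset_closure ⟨x, y, rfl⟩

theorem gmat_mul (x y x' y' : F) : gmat φ x y * gmat φ x' y' = gmat φ (x + x') (y + φ x * x' + y') :=
  Units.ext (mat_mul φ x y x' y')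

/-- first coordinate -/
def wA : Cfsg.suzukiTypeA F (φ : F →+* F) →* Multiplicative F where
  toFun g := Multiplicative.ofAdd ((g : GL (Fin 3) F) 1 0)
  map_one' := by simp
  map_mul' := by
    rintro ⟨a, ha⟩ ⟨b, hb⟩
    obtain ⟨x, y, rfl⟩ := (mem_typeA φ a).1 ha
    obtain ⟨x', y', rfl⟩ := (mem_typeA φ b).1 hb
    change Multiplicative.ofAdd ((gmat φ x y * gmat φ x' y' : GL (Fin 3) F) 1 0) = Multiplicative.ofAdd ((gmat φ x y : GL (Fin 3) F) 1 0) * Multiplicative.ofAdd ((gmat φ x' y' : GL (Fin 3) F) 1 0)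
    rw [gmat_mul]
    rfl

theorem iso_typeA {P : Type*} [Group P] (w : P →* Multiplicative F) (hw : Function.Surjective w)
    (ζ : P → F) (hζ : ∀ x ∈ w.ker, ∀ y ∈ w.ker, ζ (x * y) = ζ x + ζ y)
    (hi : ∀ x ∈ w.ker, ζ x = 0 → x = 1) (hs : ∀ f, ∃ x ∈ w.ker, ζ x = f)
    (hsq : ∀ x, x * x ∈ w.ker ∧ ζ (x * x) = Multiplicative.toAdd (w x) * φ (Multiplicative.toAdd (w x))) :
    Nonempty (P ≃* Cfsg.suzukiTypeA F (φ : F →+* F)) := by
  have hker : ∀ g : Cfsg.suzukiTypeA F (φ : F →+* F), g ∈ (wA φ).ker ↔ ∃ y, (g : GL (Fin 3) F) = gmat φ 0 y := by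
    intro g
    obtain ⟨x, y, hg⟩ := (mem_typeA φ (g : GL (Fin 3) F)).1 g.2
    rw [MonoidHom.mem_ker]
    have h1 : wA φ g = Multiplicative.ofAdd x := by
      change Multiplicative.ofAdd ((g : GL (Fin 3) F) 1 0) = _
      rw [hg]; rfl
    rw [h1]
    constructor
    · intro h2
      have h3 : x = 0 := h2
      exact ⟨y, by rw [hg, h3]⟩
    · rintro ⟨y', hy'⟩
      have h3 : (g : GL (Fin 3) F) 1 0 = 0 := by rw [hy']; rfl
      have h4 : (g : GL (Fin 3) F) 1 0 = x := by rw [hg]; rfl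
      rw [← h4, h3]; rfl
  refine SuzExt.graph_iso (fun f => SuzF.add_self f) w (wA φ) hw ?_ ζ (fun g => (g : GL (Fin 3) F) 2 0) hζ ?_ hi ?_ hs ?_
    (fun s => Multiplicative.toAdd s * φ (Multiplicative.toAdd s)) hsq ?_
  · intro s
    exact ⟨⟨gmat φ (Multiplicative.toAdd s) 0, (mem_typeA φ _).2 ⟨_, _, rfl⟩⟩, rfl⟩
  · intro a ha b hb
    obtain ⟨y, hy⟩ := (hker a).1 ha
    obtain ⟨y', hy'⟩ := (hker b).1 hb
    change ((a : GL (Fin 3) F) * (b : GL (Fin 3) F)) 2 0 = (a : GL (Fin 3) F) 2 0 + (b : GL (Fin 3) F) 2 0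
    rw [hy, hy', gmat_mul, map_zero, zero_mul, add_zero, add_zero]
    rfl
  · intro a ha h0
    obtain ⟨y, hy⟩ := (hker a).1 ha
    change (a : GL (Fin 3) F) 2 0 = 0 at h0
    rw [hy] at h0
    have h1 : y = 0 := h0
    apply Subtype.ext
    rw [hy, h1]
    exact Units.ext (mat_one φ)
  · intro f
    refine ⟨⟨gmat φ 0 f, (mem_typeA φ _).2 ⟨_, _, rfl⟩⟩, (hker _).2 ⟨f, rfl⟩, rfl⟩
  · rintro ⟨a, ha⟩
    obtain ⟨x, y, rfl⟩ := (mem_typeA φ a).1 ha
    have e : (gmat φ x y * gmat φ x y) = gmat φ 0 (x * φ x) := by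
      rw [gmat_mul, SuzF.add_self]
      congr 1
      have := SuzF.add_self y
      linear_combination this
    constructor
    · rw [hker]
      exact ⟨x * φ x, e⟩
    · change (gmat φ x y * gmat φ x y) 2 0 = x * φ x
      rw [e]; rfl

end typeA

section
variable {K : Type w} {P : Type u} [Group K] [Group P] [MulDistribMulAction K P]

theorem type_A (h : SZ K P) (hnab : ∃ x y : P, x * y ≠ y * x) (hcard : Nat.card P = (Nat.card K + 1) ^ 2) :
    ∃ (F : Type) (_ : Field F) (_ : Fintype F) (φ : F ≃+* F), Fintype.card F = Nat.card K + 1 ∧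
      φ ≠ RingEquiv.refl F ∧ Odd (orderOf φ) ∧ Nonempty (P ≃* Cfsg.suzukiTypeA F (φ : F →+* F)) := by
  classical
  haveI := h.fin
  obtain ⟨F, i1, i2, i3, χ₀, ζ, hF, hχ₀, hζ⟩ := exists_base h
  obtain ⟨hsq, hcm, hcen, -⟩ := higman h hnab
  have hDZ : ∀ x y : P, D x y ∈ Z1 P := fun x y => hcm y x
  obtain ⟨χ, v, hχ, hv⟩ := exists_coord h (A := Z1 P) (H := ⊤) h.inv_Z1 (fun _ _ _ => Subgroup.mem_top _) le_top
    (fun x _ y _ => hcm x y) (by rw [Subgroup.card_top, hcard, h.card_Z1, pow_two]) hF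
  have hvadd : ∀ x y, v (x * y) = v x + v y := fun x y => hv.add x (mem_top _) y (mem_top _)
  have hvker : ∀ x, v x = 0 ↔ x ∈ Z1 P := fun x => hv.ker x (mem_top _)
  have hvsurj : ∀ c, ∃ x, v x = c := fun c => by
    obtain ⟨x, -, hx⟩ := hv.surj c
    exact ⟨x, hx⟩
  have hveq : ∀ (k : K) x, v (k • x) = χ k * v x := fun k x => hv.eqv k x (mem_top _)
  have hDr : ∀ x a b : P, D x (a * b) = D x a * D x b := by
    intro x a b
    have h1 : D x (a * b) = b⁻¹ * D x a * x⁻¹ * b * x := by simp only [D]; group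
    have h2 : b⁻¹ * D x a = D x a * b⁻¹ := Z1_center (hDZ x a) b⁻¹
    rw [h1, h2]
    simp only [D]; group
  obtain ⟨γ, hγ⟩ := descend2 (H := (⊤ : Subgroup P)) (H' := (⊤ : Subgroup P)) (π := v) (π' := v) (β := fun x y => ζ (D x y))
    hv.surj hv.surj hv.add hv.add
    (fun x _ y _ z _ => by
      change ζ (D (x * y) z) = ζ (D x z) + ζ (D y z)
      rw [D_mul_left (Z1_center (hDZ x z) y).symm (Z1_center (hDZ x z) _), hζ.add _ (hDZ x z) _ (hDZ y z)])
    (fun x _ y _ z _ => by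
      change ζ (D x (y * z)) = ζ (D x y) + ζ (D x z)
      rw [hDr, hζ.add _ (hDZ x y) _ (hDZ x z)])
    (fun x _ h0 z _ => by
      change ζ (D x z) = 0
      rw [D_one_of_comm (Z1_center ((hvker x).1 h0) z).symm, hζ.one])
    (fun y _ h0 x _ => by
      change ζ (D x y) = 0
      rw [D_one_of_comm (Z1_center ((hvker y).1 h0) x), hζ.one])
  have hγ' : ∀ x y, γ (v x) (v y) = ζ (D x y) := fun x y => hγ x (mem_top _) y (mem_top _)
  have hqd : ∀ x y, v x = v y → x * x = y * y := by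
    intro x y he
    have h1 : y⁻¹ * x ∈ Z1 P := by
      rw [← hvker]
      have h2 := hvadd y (y⁻¹ * x)
      rw [mul_inv_cancel_left, he] at h2
      exact left_eq_add.mp h2
    have h2 : x = y * (y⁻¹ * x) := by group
    generalize y⁻¹ * x = z at h1 h2
    rw [h2]
    calc y * z * (y * z) = y * (z * y) * z := by group
      _ = y * (y * z) * z := by rw [Z1_center h1 y]
      _ = (y * y) * (z * z) := by group
      _ = y * y := by rw [Z1_sq h1, mul_one]
  choose r hr using hvsurj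
  let Q : F → F := fun s => ζ (r s * r s)
  have hQ : ∀ x, Q (v x) = ζ (x * x) := by
    intro x
    change ζ (r (v x) * r (v x)) = _
    rw [hqd _ x (hr _)]
  have hQadd : ∀ s t, Q (s + t) = Q s + Q t + γ s t := by
    intro s t
    obtain ⟨x, rfl⟩ : ∃ x, v x = s := ⟨r s, hr s⟩
    obtain ⟨y, rfl⟩ : ∃ x, v x = t := ⟨r t, hr t⟩
    rw [← hvadd, hQ, hQ, hQ, hγ']
    have e1 : (x * y) * (x * y) = (x * x) * (y * y) * (D x y) := by
      have e2 : y * x = x * y * D x y := by simp only [D]; group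
      calc (x * y) * (x * y) = x * (y * x) * y := by group
        _ = x * x * y * (D x y * y) := by rw [e2]; group
        _ = x * x * y * (y * D x y) := by rw [Z1_center (hDZ x y) y]
        _ = (x * x) * (y * y) * D x y := by group
    rw [e1, hζ.add _ (mul_mem (hsq x) (hsq y)) _ (hDZ x y), hζ.add _ (hsq x) _ (hsq y)]
  let e : K ≃* Fˣ := MulEquiv.ofBijective χ hχ
  have he : ∀ u : Fˣ, χ (e.symm u) = u := fun u => e.apply_symm_apply u
  have hQu : ∀ (u : Fˣ) s, Q (u * s) = (χ₀.comp (e.symm : Fˣ →* K)) u * Q s := by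
    intro u s
    obtain ⟨x, rfl⟩ : ∃ x, v x = s := ⟨r s, hr s⟩
    have h1 := hveq (e.symm u) x
    rw [he] at h1
    rw [← h1, hQ, hQ, ← smul_mul', hζ.eqv _ _ (hsq x)]
    rfl
  have hγne : γ ≠ 0 := by
    intro h0
    obtain ⟨a, b, hab⟩ := hnab
    apply hab
    apply comm_of_D
    apply coord_Z1_zero hζ (hDZ a b)
    rw [← hγ', h0]; rfl
  obtain ⟨σ, τ, a, ha, hστ, hQf⟩ := SuzF.quad_form γ Q (χ₀.comp (e.symm : Fˣ →* K)) hQadd hQu hγne
  let φ : F ≃+* F := σ.symm.trans τ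
  have hφ : ∀ s, φ (σ s) = τ s := fun s => by
    change τ (σ.symm (σ s)) = τ s
    rw [RingEquiv.symm_apply_apply]
  refine ⟨F, i1, i2, φ, ?_, ?_, ?_, ?_⟩
  · rw [← Nat.card_eq_fintype_card, hF]
  · intro h0
    apply hστ
    ext s
    rw [← hφ s, h0, RingEquiv.refl_apply]
  · apply SuzF.odd_order
    intro u hu huφ
    have hs0 : σ.symm u ≠ 0 := by rwa [Ne, map_eq_zero_iff _ σ.symm.injective]
    have h1 := hQf (σ.symm u)
    rw [← hφ, RingEquiv.apply_symm_apply, huφ, mul_one] at h1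
    have h2 := hQf 1
    rw [map_one, map_one, mul_one, mul_one] at h2
    have h3 := hQu (Units.mk0 _ hs0) 1
    rw [Units.val_mk0, mul_one, h1, h2] at h3
    have h4 : ((χ₀.comp (e.symm : Fˣ →* K)) (Units.mk0 _ hs0) : F) = 1 := by
      have h5 : a * 1 = a * ((χ₀.comp (e.symm : Fˣ →* K)) (Units.mk0 _ hs0) : F) := by
        rw [mul_one, mul_comm]; exact h3
      exact (mul_left_cancel₀ ha h5).symm
    have h5 : (χ₀.comp (e.symm : Fˣ →* K)) (Units.mk0 _ hs0) = 1 := Units.ext h4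
    have hinj : Function.Injective (χ₀.comp (e.symm : Fˣ →* K)) := hχ₀.1.comp e.symm.injective
    have h6 : Units.mk0 _ hs0 = 1 := hinj (by rw [h5, map_one])
    have h7 : σ.symm u = 1 := congrArg Units.val h6
    rw [← RingEquiv.apply_symm_apply σ u, h7, map_one]
  · let w₀ : P →* Multiplicative F :=
      { toFun := fun x => Multiplicative.ofAdd (σ (v x))
        map_one' := by
          rw [(hvker 1).2 (one_mem _), map_zero]; rfl
        map_mul' := fun x y => by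
          rw [hvadd, map_add]; rfl }
    have hker : ∀ x, x ∈ w₀.ker ↔ x ∈ Z1 P := by
      intro x
      rw [MonoidHom.mem_ker]
      change σ (v x) = 0 ↔ _
      rw [map_eq_zero_iff _ σ.injective, hvker]
    refine iso_typeA φ w₀ ?_ (fun x => a⁻¹ * ζ x) ?_ ?_ ?_ ?_
    · intro s
      refine ⟨r (σ.symm (Multiplicative.toAdd s)), ?_⟩
      change Multiplicative.ofAdd (σ (v _)) = s
      rw [hr, RingEquiv.apply_symm_apply]; rfl
    · intro x hx y hy
      change a⁻¹ * ζ (x * y) = a⁻¹ * ζ x + a⁻¹ * ζ y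
      rw [hζ.add _ ((hker x).1 hx) _ ((hker y).1 hy), mul_add]
    · intro x hx h0
      apply coord_Z1_zero hζ ((hker x).1 hx)
      exact (mul_eq_zero.1 h0).resolve_left (inv_ne_zero ha)
    · intro f
      obtain ⟨z, hz, hzf⟩ := hζ.surj (a * f)
      refine ⟨z, (hker z).2 hz, ?_⟩
      change a⁻¹ * ζ z = f
      rw [hzf, ← mul_assoc, inv_mul_cancel₀ ha, one_mul]
    · intro x
      refine ⟨(hker _).2 (hsq x), ?_⟩
      change a⁻¹ * ζ (x * x) = σ (v x) * φ (σ (v x))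
      rw [← hQ, hQf, hφ, ← mul_assoc, inv_mul_cancel₀ ha, one_mul]

end

end Cfsg.Agent.H9.Suz
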