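import Mathlib
import Cfsg.Agent.H9_ZassX
import Cfsg.Agent.H9_Suz10
import Cfsg.Agent.H9_SuzB
import Cfsg.Agent.H3_Zass6

/-!
# Zassenhaus groups with nonabelian kernel of 2-power order: group theoretic set-up
-/

set_option autoImplicit false

namespace Cfsg.Agent.H9.ZT

open Cfsg Cfsg.Agent.H9.ZassA Cfsg.Agent.H9.ZassC Cfsg.Agent.H3.Zass Cfsg.Agent.H3.Zass2 Cfsg.Agent.H9.Suz

variable {G Ω : Type*} [Group G] [MulAction G Ω]

/-- squaring is injective modulo `Z` if `|P| = q²` -/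
theorem sq_inj_of_sz {K P : Type*} [Group K] [Group P] [MulDistribMulAction K P] (h : SZ K P)
    (hnab : ∃ x y : P, x * y ≠ y * x) (hcard : Nat.card P = (Nat.card K + 1) ^ 2) {x y : P}
    (hxy : x * x = y * y) : x * y⁻¹ ∈ Z1 P := by
  classical
  haveI := h.fin
  obtain ⟨F, i1, i2, i3, χ₀, ζ, hF, hχ₀, hζ⟩ := exists_base h
  obtain ⟨hsq, hcm, hcen, -⟩ := higman h hnab
  obtain ⟨χ, v, hχ, hv⟩ := exists_coord h (A := Z1 P) (H := ⊤) h.inv_Z1 (fun _ _ _ => Subgroup.mem_top _) le_top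
    (fun x _ y _ => hcm x y) (by rw [Subgroup.card_top, hcard, h.card_Z1, pow_two]) hF
  have hvadd : ∀ x y, v (x * y) = v x + v y := fun x y => hv.add x (Subgroup.mem_top _) y (Subgroup.mem_top _)
  have hvker : ∀ x, v x = 0 ↔ x ∈ Z1 P := fun x => hv.ker x (Subgroup.mem_top _)
  have hveq : ∀ (k : K) x, v (k • x) = χ k * v x := fun k x => hv.eqv k x (Subgroup.mem_top _)
  have hvinv : ∀ x, v x⁻¹ = - v x := fun x => hv.inv (Subgroup.mem_top _)
  by_cases hx : x ∈ Z1 P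
  · have hy : y ∈ Z1 P := by rw [h.mem_Z1, ← hxy]; exact Z1_sq hx
    exact mul_mem hx (inv_mem hy)
  have hy : y ∉ Z1 P := by rw [h.mem_Z1, ← hxy, ← h.mem_Z1]; exact hx
  have hvx : v x ≠ 0 := fun e => hx ((hvker x).mp e)
  have hvy : v y ≠ 0 := fun e => hy ((hvker y).mp e)
  obtain ⟨k, hk⟩ := hχ.2 (Units.mk0 (v y / v x) (div_ne_zero hvy hvx))
  have h1 : v (k • x) = v y := by
    rw [hveq, hk, Units.val_mk0, div_mul_cancel₀ _ hvx]
  have h2 : (k • x)⁻¹ * y ∈ Z1 P := by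
    rw [← hvker, hvadd, hvinv, h1, neg_add_cancel]
  have h3 : y * y = k • (x * x) := by
    have e1 : y = (k • x) * ((k • x)⁻¹ * y) := by group
    generalize (k • x)⁻¹ * y = z at h2 e1
    rw [e1, smul_mul']
    calc (k • x) * z * ((k • x) * z) = (k • x) * (z * (k • x)) * z := by group
      _ = (k • x) * ((k • x) * z) * z := by rw [Z1_center h2 (k • x)]
      _ = (k • x) * (k • x) * (z * z) := by group
      _ = (k • x) * (k • x) := by rw [Z1_sq h2, mul_one]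
  have h4 : k = 1 := by
    apply h.free k (x * x)
    · intro e; exact hx (h.mem_Z1.mpr e)
    · exact Z1_sq (hsq x)
    · rw [← h3, hxy]
  rw [h4, one_smul] at h1
  rw [← hvker, hvadd, hvinv, h1, add_neg_cancel]

/-- the hypotheses -/
structure Hyp {G Ω : Type*} [Group G] [MulAction G Ω] (a b : Ω) (U : Subgroup G) : Prop where
  zass : IsZassenhausGroup G Ω
  simple : IsSimpleGroup G
  ab : a ≠ b
  ker : Ker U a
  pg : IsPGroup 2 U
  nab : ∃ u ∈ U, ∃ v ∈ U, u * v ≠ v * u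

variable {a b : Ω} {U : Subgroup G}

section
variable [Finite G] [Fintype Ω] (h : Hyp a b U)
include h

omit [Finite G] [Fintype Ω] in
theorem Hyp.zg : ZG G Ω := ZG.of_zass h.zass

theorem Hyp.odd : Odd (Nat.card (EE G a b)) := by
  rw [← Nat.not_even_iff_odd]
  intro hev
  haveI : Fact (Nat.Prime 2) := ⟨Nat.prime_two⟩
  obtain ⟨z, hz⟩ := exists_prime_orderOf_dvd_card' (G := EE G a b) 2 hev.two_dvd
  have hz' : orderOf (z : G) = 2 := by rw [Subgroup.orderOf_coe, hz]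
  have hz2 := Cfsg.Agent.H3.Zass5.sq_of_order hz'
  have hz1 : (z : G) ≠ 1 := by
    intro h1
    rw [h1, orderOf_one] at hz'
    norm_num at hz'
  obtain ⟨u, hu, v, hv, huv⟩ := h.nab
  exact huv (h.ker.comm_of_even h.zg h.ab (mem_E.mp z.2).1 (mem_E.mp z.2).2 hz1 hz2 u hu v hv)

theorem Hyp.card : Fintype.card Ω = Nat.card U + 1 := by
  have := Ker.card h.ab h.ker
  have h1 : 0 < Fintype.card Ω := Fintype.card_pos_iff.mpr ⟨a⟩
  omega

omit [Fintype Ω] in
theorem Hyp.even : Even (Nat.card U) := by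
  haveI : Fact (Nat.Prime 2) := ⟨Nat.prime_two⟩
  obtain ⟨n, hn⟩ := (IsPGroup.iff_card.mp h.pg)
  rcases Nat.eq_zero_or_pos n with rfl | h0
  · exfalso
    obtain ⟨u, hu, v, hv, huv⟩ := h.nab
    rw [pow_zero, Subgroup.card_eq_one] at hn
    rw [hn, Subgroup.mem_bot] at hu hv
    exact huv (by rw [hu, hv])
  · rw [hn]
    exact (Nat.even_pow.mpr ⟨even_two, h0.ne'⟩)

omit [Finite G] [Fintype Ω] in
theorem Hyp.hfix : ∀ u ∈ U, u ≠ 1 → ∀ c : Ω, u • c = c → c = a := by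
  intro u hu hu1 c huc
  by_contra hc
  exact hu1 (h.ker.free u hu c hc huc)

omit [Finite G] [Fintype Ω] in
theorem Hyp.hle : U ≤ MulAction.stabilizer G a := fun u hu => h.ker.le u hu

theorem Hyp.hcard : Nat.card U + 1 = Fintype.card Ω := h.card.symm

theorem Hyp.one_lt : 1 < Nat.card (EE G a b) := one_lt_card_E h.zass h.ab

theorem Hyp.mem_of_inv {z : G} (hz : orderOf z = 2) (hza : z • a = a) : z ∈ U := by
  rw [mem_H_iff h.zass a U h.hle h.hcard h.hfix]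
  refine ⟨hza, Or.inr fun c hc => ?_⟩
  by_contra hca
  exact Cfsg.Agent.H3.Zass5.inv_fix h.zass h.ab h.odd hz hca hc hza

theorem Hyp.card_inv_fix : Nat.card {x : G // orderOf x = 2 ∧ x • a = a} = Nat.card (EE G a b) := by
  haveI := h.simple
  exact Cfsg.Agent.H3.Zass6.card_inv_fix h.zass h.ab h.odd h.card h.even

/-- the conjugation action -/
@[reducible] def Hyp.act : MulDistribMulAction (EE G a b) U where
  smul k u := ⟨(k : G) * u * (k : G)⁻¹, h.ker.nrm k (mem_E.mp k.2).1 u u.2⟩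
  one_smul u := Subtype.ext (by change ((1 : EE G a b) : G) * u * ((1 : EE G a b) : G)⁻¹ = u; simp)
  mul_smul k l u := Subtype.ext (by
    change ((k * l : EE G a b) : G) * u * ((k * l : EE G a b) : G)⁻¹ = k * (l * u * (l : G)⁻¹) * (k : G)⁻¹
    push_cast
    group)
  smul_mul k u v := Subtype.ext (by
    change (k : G) * ((u * v : U) : G) * (k : G)⁻¹ = (k * u * (k : G)⁻¹) * (k * v * (k : G)⁻¹)
    push_cast
    group)
  smul_one k := Subtype.ext (by change (k : G) * ((1 : U) : G) * (k : G)⁻¹ = ((1 : U) : G); simp)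

omit [Finite G] [Fintype Ω] in
theorem Hyp.free {k u : G} (hk : k ∈ EE G a b) (hk1 : k ≠ 1) (hu : u ∈ U) (hku : k * u * k⁻¹ = u) : u = 1 :=
  h.ker.fpf h.zg h.ab (mem_E.mp hk).1 (mem_E.mp hk).2 hk1 hu hku

/-- `K` is regular on the involutions of `U` -/
theorem Hyp.trans {x y : G} (hx : orderOf x = 2) (hxa : x • a = a) (hy : orderOf y = 2) (hya : y • a = a) :
    ∃ k ∈ EE G a b, k * x * k⁻¹ = y := by
  classical
  let f : EE G a b → {x : G // orderOf x = 2 ∧ x • a = a} := fun k =>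
    ⟨(k : G) * x * (k : G)⁻¹, by
      rw [← hx]
      exact orderOf_injective (MulAut.conj (k : G)).toMonoidHom (MulAut.conj (k : G)).injective x, by
      rw [mul_smul, mul_smul, inv_smul_eq_iff.mpr (mem_E.mp k.2).1.symm, hxa, (mem_E.mp k.2).1]⟩
  have hf : Function.Injective f := by
    intro k l hkl
    have h1 : (k : G) * x * (k : G)⁻¹ = (l : G) * x * (l : G)⁻¹ := congrArg Subtype.val hkl
    by_contra hne
    have h2 : ((l : G)⁻¹ * k) * x * ((l : G)⁻¹ * k)⁻¹ = x := by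
      have e1 : ((l : G)⁻¹ * k) * x * ((l : G)⁻¹ * k)⁻¹ = (l : G)⁻¹ * ((k : G) * x * (k : G)⁻¹) * l := by group
      rw [e1, h1]; group
    have h3 : (l : G)⁻¹ * k ≠ 1 := by
      intro e
      exact hne (Subtype.ext (inv_mul_eq_one.mp e).symm)
    have h4 := h.free ((EE G a b).mul_mem ((EE G a b).inv_mem l.2) k.2) h3 (h.mem_of_inv hx hxa) h2
    rw [h4, orderOf_one] at hx
    norm_num at hx
  have hb := (Nat.bijective_iff_injective_and_card f).mpr ⟨hf, h.card_inv_fix.symm⟩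
  obtain ⟨k, hk⟩ := hb.2 ⟨y, hy, hya⟩
  exact ⟨k, k.2, congrArg Subtype.val hk⟩

theorem Hyp.comm_K {x y : G} (hx : x ∈ EE G a b) (hy : y ∈ EE G a b) : x * y = y * x := by
  haveI := h.simple
  exact Cfsg.Agent.H3.Zass4.comm_E h.zass h.ab h.odd hx hy

theorem Hyp.sz : @SZ (EE G a b) U _ _ h.act := by
  letI := h.act
  have key : ∀ x : U, x ≠ 1 → x * x = 1 → orderOf (x : G) = 2 := by
    intro x hx1 hx2
    apply Cfsg.Agent.H3.Zass5.order_of_sq
    · exact congrArg Subtype.val hx2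
    · intro e; exact hx1 (Subtype.ext e)
  refine ⟨inferInstance, h.pg, fun x y => Subtype.ext (h.comm_K x.2 y.2), ?_, ?_, ?_⟩
  · have h1 := h.card_inv_fix
    have h2 := h.one_lt
    rw [← h1] at h2
    haveI := Finite.one_lt_card_iff_nontrivial.mp h2
    obtain ⟨x, y, hxy⟩ := exists_pair_ne {x : G // orderOf x = 2 ∧ x • a = a}
    have hx : orderOf (x : G) = 2 := x.2.1
    have hy : orderOf (y : G) = 2 := y.2.1
    refine ⟨⟨x, h.mem_of_inv x.2.1 x.2.2⟩, ⟨y, h.mem_of_inv y.2.1 y.2.2⟩, ?_, ?_, ?_, ?_, ?_⟩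
    · intro e; exact hxy (Subtype.ext (congrArg (fun t : U => (t : G)) e))
    · intro e
      have : (x : G) = 1 := congrArg Subtype.val e
      rw [this, orderOf_one] at hx; norm_num at hx
    · exact Subtype.ext (Cfsg.Agent.H3.Zass5.sq_of_order hx)
    · intro e
      have : (y : G) = 1 := congrArg Subtype.val e
      rw [this, orderOf_one] at hy; norm_num at hy
    · exact Subtype.ext (Cfsg.Agent.H3.Zass5.sq_of_order hy)
  · intro x y hx1 hx2 hy1 hy2
    obtain ⟨k, hk, hkx⟩ := h.trans (key x hx1 hx2) (h.ker.le _ x.2) (key y hy1 hy2) (h.ker.le _ y.2)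
    exact ⟨⟨k, hk⟩, Subtype.ext hkx⟩
  · intro k x hx1 hx2 hkx
    by_contra hk1
    exact hx1 (Subtype.ext (h.free k.2 (fun e => hk1 (Subtype.ext e)) x.2 (congrArg Subtype.val hkx)))

/-- the subgroup of involutions of `U` -/
def ZU (U : Subgroup G) : Subgroup G := (Z1 U).map U.subtype

theorem Hyp.mem_ZU {x : G} : x ∈ ZU U ↔ x ∈ U ∧ x * x = 1 := by
  letI := h.act
  constructor
  · rintro ⟨y, hy, rfl⟩
    exact ⟨y.2, congrArg Subtype.val hy.2⟩
  · rintro ⟨hx, hx2⟩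
    exact ⟨⟨x, hx⟩, h.sz.mem_Z1.mpr (Subtype.ext hx2), rfl⟩

theorem Hyp.card_ZU : Nat.card (ZU U) = Nat.card (EE G a b) + 1 := by
  letI := h.act
  rw [ZU, Subgroup.card_map_of_injective (Subgroup.subtype_injective _), h.sz.card_Z1]

theorem Hyp.nab' : ∃ x y : U, x * y ≠ y * x := by
  obtain ⟨u, hu, v, hv, huv⟩ := h.nab
  exact ⟨⟨u, hu⟩, ⟨v, hv⟩, fun e => huv (congrArg Subtype.val e)⟩

theorem Hyp.ZU_comm {z u : G} (hz : z ∈ ZU U) (hu : u ∈ U) : u * z = z * u := by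
  obtain ⟨y, hy, rfl⟩ := hz
  exact congrArg Subtype.val (Z1_center hy ⟨u, hu⟩)

theorem Hyp.sq_mem {u : G} (hu : u ∈ U) : u * u ∈ ZU U := by
  letI := h.act
  exact ⟨⟨u, hu⟩ * ⟨u, hu⟩, (higman h.sz h.nab').1 ⟨u, hu⟩, rfl⟩

theorem Hyp.comm_mem {u v : G} (hu : u ∈ U) (hv : v ∈ U) : u⁻¹ * v⁻¹ * u * v ∈ ZU U := by
  letI := h.act
  exact ⟨_, (higman h.sz h.nab').2.1 ⟨u, hu⟩ ⟨v, hv⟩, rfl⟩

theorem Hyp.card_U : Nat.card U = (Nat.card (EE G a b) + 1) ^ 2 ∨ Nat.card U = (Nat.card (EE G a b) + 1) ^ 3 := by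
  letI := h.act
  exact (higman h.sz h.nab').2.2.2

theorem Hyp.ZU_le : ZU U ≤ U := by
  rintro x hx
  exact (h.mem_ZU.mp hx).1

theorem Hyp.q_pow : ∃ n : ℕ, Nat.card (EE G a b) + 1 = 2 ^ n := by
  haveI : Fact (Nat.Prime 2) := ⟨Nat.prime_two⟩
  obtain ⟨n, hn⟩ := IsPGroup.iff_card.mp (h.pg.to_le h.ZU_le)
  exact ⟨n, by rw [← h.card_ZU, hn]⟩

theorem Hyp.invol_mem_ZU {z : G} (hz : orderOf z = 2) (hza : z • a = a) : z ∈ ZU U :=
  h.mem_ZU.mpr ⟨h.mem_of_inv hz hza, Cfsg.Agent.H3.Zass5.sq_of_order hz⟩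

omit [Fintype Ω] in
theorem centralizer_invol [Fintype Ω] {z : G} (hz : orderOf z = 2) (hza : z • a = a) :
    Subgroup.centralizer ({z} : Set G) = U := by
  haveI := h.simple
  exact Cfsg.Agent.H3.Zass5.inv_central h.zass h.ab h.odd h.card h.even h.hle h.hcard h.hfix (h.mem_of_inv hz hza) hz

/-- squaring is injective modulo `Z` if `|U| = q²` -/
theorem Hyp.sq_inj (hc : Nat.card U = (Nat.card (EE G a b) + 1) ^ 2) {x y : G} (hx : x ∈ U) (hy : y ∈ U)
    (hxy : x * x = y * y) : x * y⁻¹ ∈ ZU U := by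
  letI := h.act
  exact ⟨_, sq_inj_of_sz h.sz h.nab' hc (x := ⟨x, hx⟩) (y := ⟨y, hy⟩) (Subtype.ext hxy), rfl⟩

end

end Cfsg.Agent.H9.ZT
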