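import Mathlib
import Cfsg.Agent.H9_ZT1

/-!
# Zassenhaus groups with nonabelian kernel of 2-power order: fixed point free strongly real elements
-/

set_option autoImplicit false

namespace Cfsg.Agent.H9.ZT

open Cfsg Cfsg.Agent.H9.ZassA Cfsg.Agent.H9.ZassC Cfsg.Agent.H3.Zass Cfsg.Agent.H3.Zass2 Cfsg.Agent.H9.Suz
  Cfsg.Agent.H3.Zass5

variable {G Ω : Type*} [Group G] [MulAction G Ω]

/-- fixed point free strongly real elements -/
def SR (Ω : Type*) {G : Type*} [Group G] [MulAction G Ω] (x : G) : Prop :=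
  (∀ c : Ω, x • c ≠ c) ∧ ∃ s : G, orderOf s = 2 ∧ s * x * s⁻¹ = x⁻¹

variable {a b : Ω} {U : Subgroup G}

section
variable [Finite G] [Fintype Ω] (h : Hyp a b U)
include h

theorem Hyp.odd' {c d : Ω} (hcd : c ≠ d) : Odd (Nat.card (EE G c d)) := by
  rw [card_E_conj h.zass h.ab hcd]; exact h.odd

theorem Hyp.exists_fix {s : G} (hs : orderOf s = 2) : ∃ c : Ω, s • c = c := by
  classical
  haveI := h.simple
  have h1 := inv_fix_card h.zass h.ab h.odd h.card hs
  rw [if_pos h.even] at h1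
  obtain ⟨c, hc⟩ := Finset.card_pos.mp (by rw [h1]; exact one_pos)
  exact ⟨c, (Finset.mem_filter.mp hc).2⟩

theorem Hyp.fix_unique {s : G} (hs : orderOf s = 2) {c d : Ω} (hc : s • c = c) (hd : s • d = d) : c = d := by
  by_contra hcd
  exact inv_fix h.zass h.ab h.odd hs hcd hc hd

theorem Hyp.fpf_of_comm {x : G} (hx : ∀ c : Ω, x • c ≠ c) {y : G} (hxy : y * x = x * y) (hy : y ≠ 1) :
    ∀ c : Ω, y • c ≠ c := by
  intro c hc
  haveI := h.simple
  have h1 : y • (x • c) = x • c := by rw [← mul_smul, hxy, mul_smul, hc]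
  have h2 : y • (x • (x • c)) = x • (x • c) := by rw [← mul_smul, hxy, mul_smul, h1]
  have hne : c ≠ x • c := (hx c).symm
  have h3 : x • (x • c) = c := by
    rcases fix_two h.zass hy hne hc h1 h2 with h3 | h3
    · exact h3
    · exact absurd h3 (hx _)
  have hodd := h.odd' hne
  obtain ⟨t, ht, ht1, ht2⟩ := exists_inv h.zass hne hodd
  have htt := sq_of_order ht
  have hti : t⁻¹ = t := inv_eq_of_mul_eq_one_left htt
  have h4 : t * x ∈ EE G c (x • c) := by
    rw [mem_E, mul_smul, mul_smul, h3, ht1, ht2]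
    exact ⟨rfl, rfl⟩
  have h5 := Cfsg.Agent.H3.Zass4.inverts h.zass hne hodd htt ht1 ht2 h4
  have h6 : x * x = 1 := by
    have e1 : t * (t * x) * t⁻¹ = x * t⁻¹ := by rw [← mul_assoc t t x, htt, one_mul]
    rw [e1, mul_inv_rev] at h5
    have h7 := mul_right_cancel h5
    calc x * x = x⁻¹ * x := by rw [← h7]
      _ = 1 := inv_mul_cancel x
  have hx1 : x ≠ 1 := by
    rintro rfl
    exact hx c (one_smul _ _)
  obtain ⟨d, hd⟩ := h.exists_fix (order_of_sq h6 hx1)
  exact hx d hd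

theorem Hyp.no_comm {x : G} (hx : ∀ c : Ω, x • c ≠ c) {s : G} (hs : orderOf s = 2) : s * x ≠ x * s := by
  intro hc
  obtain ⟨d, hd⟩ := h.exists_fix hs
  refine h.fpf_of_comm hx hc ?_ d hd
  rintro rfl
  rw [orderOf_one] at hs
  norm_num at hs

omit [Finite G] [Fintype Ω] in
omit h in
theorem SR.ne_one [Nonempty Ω] {x : G} (hx : SR Ω x) : x ≠ 1 := by
  rintro rfl
  obtain ⟨c⟩ := ‹Nonempty Ω›
  exact hx.1 c (one_smul _ _)

theorem Hyp.odd_centralizer {x : G} (hx : SR Ω x) : Odd (Nat.card (Subgroup.centralizer ({x} : Set G))) := by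
  rw [← Nat.not_even_iff_odd]
  intro hev
  haveI : Fact (Nat.Prime 2) := ⟨Nat.prime_two⟩
  obtain ⟨z, hz⟩ := exists_prime_orderOf_dvd_card' (G := Subgroup.centralizer ({x} : Set G)) 2 hev.two_dvd
  have hz' : orderOf (z : G) = 2 := by rw [Subgroup.orderOf_coe, hz]
  exact h.no_comm hx.1 hz' (Subgroup.mem_centralizer_singleton_iff.mp z.2)

/-- an involution inverting `x` inverts the centralizer of `x` -/
theorem Hyp.inverts {x : G} (hx : ∀ c : Ω, x • c ≠ c) {s : G} (hs : orderOf s = 2) (hsx : s * x * s⁻¹ = x⁻¹) :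
    ∀ y ∈ Subgroup.centralizer ({x} : Set G), s * y * s⁻¹ = y⁻¹ := by
  have hss := sq_of_order hs
  apply inv_of_fpf (K := Subgroup.centralizer ({x} : Set G)) hss
  · intro y hy
    rw [Subgroup.mem_centralizer_singleton_iff] at hy ⊢
    have h1 : s * y * s⁻¹ * x⁻¹ = x⁻¹ * (s * y * s⁻¹) := by
      rw [← hsx]
      calc s * y * s⁻¹ * (s * x * s⁻¹) = s * (y * x) * s⁻¹ := by group
        _ = s * (x * y) * s⁻¹ := by rw [hy]
        _ = s * x * s⁻¹ * (s * y * s⁻¹) := by group
    calc s * y * s⁻¹ * x = x * (x⁻¹ * (s * y * s⁻¹)) * x := by group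
      _ = x * (s * y * s⁻¹ * x⁻¹) * x := by rw [h1]
      _ = x * (s * y * s⁻¹) := by group
  · intro y hy hc
    rw [Subgroup.mem_centralizer_singleton_iff] at hy
    by_contra hy1
    have h2 := h.fpf_of_comm hx hy hy1
    exact h.no_comm h2 hs (mul_inv_eq_iff_eq_mul.mp hc)

/-- tori -/
def Tor (Ω : Type*) {G : Type*} [Group G] [MulAction G Ω] (A : Subgroup G) : Prop :=
  ∃ x : G, SR Ω x ∧ A = Subgroup.centralizer ({x} : Set G)

theorem Hyp.tor_comm {A : Subgroup G} (hA : Tor Ω A) : ∀ x ∈ A, ∀ y ∈ A, x * y = y * x := by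
  obtain ⟨z, ⟨hz, s, hs, hsz⟩, rfl⟩ := hA
  have h1 := h.inverts hz hs hsz
  intro x hx y hy
  have h2 := h1 _ (Subgroup.mul_mem _ (Subgroup.inv_mem _ hx) (Subgroup.inv_mem _ hy))
  have h3 := h1 _ (Subgroup.inv_mem _ hx)
  have h4 := h1 _ (Subgroup.inv_mem _ hy)
  have h5 : s * (x⁻¹ * y⁻¹) * s⁻¹ = (s * x⁻¹ * s⁻¹) * (s * y⁻¹ * s⁻¹) := by group
  rw [h5, h3, h4] at h2
  rw [inv_inv, inv_inv, mul_inv_rev, inv_inv, inv_inv] at h2
  exact h2

theorem Hyp.tor_sr {A : Subgroup G} (hA : Tor Ω A) {y : G} (hy : y ∈ A) (hy1 : y ≠ 1) : SR Ω y := by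
  obtain ⟨z, ⟨hz, s, hs, hsz⟩, rfl⟩ := hA
  exact ⟨h.fpf_of_comm hz (Subgroup.mem_centralizer_singleton_iff.mp hy) hy1, s, hs, h.inverts hz hs hsz y hy⟩

theorem Hyp.tor_cent {A : Subgroup G} (hA : Tor Ω A) {y : G} (hy : y ∈ A) (hy1 : y ≠ 1) :
    Subgroup.centralizer ({y} : Set G) = A := by
  have hc := h.tor_comm hA
  have hy' := h.tor_sr hA hy hy1
  have hc' := h.tor_comm ⟨y, hy', rfl⟩
  apply le_antisymm
  · intro w hw
    obtain ⟨z, hz, rfl⟩ := hA
    have hzy : z ∈ Subgroup.centralizer ({y} : Set G) := by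
      rw [Subgroup.mem_centralizer_singleton_iff] at hy ⊢
      exact hy.symm
    rw [Subgroup.mem_centralizer_singleton_iff]
    exact hc' w hw z hzy
  · intro w hw
    rw [Subgroup.mem_centralizer_singleton_iff]
    exact hc w hw y hy

theorem Hyp.tor_odd {A : Subgroup G} (hA : Tor Ω A) : Odd (Nat.card A) := by
  obtain ⟨z, hz, rfl⟩ := hA
  exact h.odd_centralizer hz

omit [Finite G] [Fintype Ω] in
theorem Hyp.tor_ne {A : Subgroup G} (hA : Tor Ω A) : ∃ y ∈ A, y ≠ 1 := by
  haveI : Nonempty Ω := ⟨a⟩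
  obtain ⟨z, hz, rfl⟩ := hA
  exact ⟨z, Subgroup.mem_centralizer_singleton_iff.mpr rfl, hz.ne_one⟩

omit [Finite G] [Fintype Ω] in
omit h in
theorem centralizer_conj (g x : G) : Subgroup.centralizer ({g * x * g⁻¹} : Set G) =
    (Subgroup.centralizer ({x} : Set G)).map (MulAut.conj g).toMonoidHom := by
  ext y
  rw [Subgroup.mem_centralizer_singleton_iff, Subgroup.mem_map]
  constructor
  · intro hy
    refine ⟨g⁻¹ * y * g, ?_, ?_⟩
    · rw [Subgroup.mem_centralizer_singleton_iff]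
      calc g⁻¹ * y * g * x = g⁻¹ * (y * (g * x * g⁻¹)) * g := by group
        _ = g⁻¹ * ((g * x * g⁻¹) * y) * g := by rw [hy]
        _ = x * (g⁻¹ * y * g) := by group
    · change g * (g⁻¹ * y * g) * g⁻¹ = y
      group
  · rintro ⟨w, hw, rfl⟩
    rw [Subgroup.mem_centralizer_singleton_iff] at hw
    change g * w * g⁻¹ * (g * x * g⁻¹) = g * x * g⁻¹ * (g * w * g⁻¹)
    calc g * w * g⁻¹ * (g * x * g⁻¹) = g * (w * x) * g⁻¹ := by group
      _ = g * (x * w) * g⁻¹ := by rw [hw]
      _ = g * x * g⁻¹ * (g * w * g⁻¹) := by group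

/-- conjugate elements of a torus are conjugate in the normalizer -/
theorem Hyp.tor_TI {A : Subgroup G} (hA : Tor Ω A) {y g : G} (hy : y ∈ A) (hy1 : y ≠ 1) (hgy : g * y * g⁻¹ ∈ A) :
    g ∈ Subgroup.normalizer (A : Set G) := by
  have hg1 : g * y * g⁻¹ ≠ 1 := by
    intro e
    apply hy1
    calc y = g⁻¹ * (g * y * g⁻¹) * g := by group
      _ = 1 := by rw [e]; group
  have h1 := h.tor_cent hA hy hy1
  have h2 := h.tor_cent hA hgy hg1
  rw [centralizer_conj, h1] at h2
  rw [Subgroup.mem_normalizer_iff]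
  intro w
  constructor
  · intro hw
    rw [← h2]
    exact ⟨w, hw, rfl⟩
  · intro hw
    rw [← h2] at hw
    obtain ⟨v, hv, hvw⟩ := hw
    have : v = w := by
      have e1 : g * v * g⁻¹ = g * w * g⁻¹ := hvw
      exact mul_left_cancel (mul_right_cancel e1)
    rw [← this]; exact hv

theorem Hyp.tor_inv {A : Subgroup G} (hA : Tor Ω A) : ∃ s : G, orderOf s = 2 ∧ ∀ y ∈ A, s * y * s⁻¹ = y⁻¹ := by
  obtain ⟨z, ⟨hz, s, hs, hsz⟩, rfl⟩ := hA
  exact ⟨s, hs, h.inverts hz hs hsz⟩

omit [Finite G] [Fintype Ω] in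
omit h in
theorem SR.conj {x : G} (hx : SR Ω x) (g : G) : SR Ω (g * x * g⁻¹) := by
  obtain ⟨h1, s, hs, hsx⟩ := hx
  refine ⟨fun c hc => h1 (g⁻¹ • c) ?_, g * s * g⁻¹, ?_, ?_⟩
  · rw [mul_smul, mul_smul, smul_eq_iff_eq_inv_smul] at hc
    exact hc
  · rw [← hs]
    exact orderOf_injective (MulAut.conj g).toMonoidHom (MulAut.conj g).injective s
  · calc g * s * g⁻¹ * (g * x * g⁻¹) * (g * s * g⁻¹)⁻¹ = g * (s * x * s⁻¹) * g⁻¹ := by group
      _ = (g * x * g⁻¹)⁻¹ := by rw [hsx]; group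

omit [Finite G] [Fintype Ω] in
omit h in
theorem Tor.conj {A : Subgroup G} (hA : Tor Ω A) (g : G) : Tor Ω (A.map (MulAut.conj g).toMonoidHom) := by
  obtain ⟨x, hx, rfl⟩ := hA
  exact ⟨g * x * g⁻¹, hx.conj g, (centralizer_conj g x).symm⟩

/-- an involution normalizing a torus inverts it -/
theorem Hyp.tor_inv_of_norm {A : Subgroup G} (hA : Tor Ω A) {s : G} (hs : orderOf s = 2)
    (hn : s ∈ Subgroup.normalizer (A : Set G)) : ∀ y ∈ A, s * y * s⁻¹ = y⁻¹ := by
  apply inv_of_fpf (K := A) (sq_of_order hs)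
  · intro y hy
    exact (Subgroup.mem_normalizer_iff.mp hn y).mp hy
  · intro y hy hc
    by_contra hy1
    exact h.no_comm (h.tor_sr hA hy hy1).1 hs (mul_inv_eq_iff_eq_mul.mp hc)

omit [Finite G] [Fintype Ω] in
omit h in
theorem norm_of_inv {A : Subgroup G} {s : G} (hi : ∀ y ∈ A, s * y * s⁻¹ = y⁻¹) :
    s ∈ Subgroup.normalizer (A : Set G) := by
  rw [Subgroup.mem_normalizer_iff]
  intro y
  constructor
  · intro hy
    rw [hi y hy]
    exact A.inv_mem hy
  · intro hy
    have h1 := hi _ hy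
    have h2 : (s * y * s⁻¹)⁻¹ = s * y⁻¹ * s⁻¹ := by group
    rw [h2] at h1
    have h3 : s * y * s⁻¹ = y⁻¹ := mul_left_cancel (mul_right_cancel h1)
    rw [h3] at hy
    exact (inv_mem_iff).mp hy

/-- `N(A) = A P` with `P = N(A) ∩ C(s)` -/
theorem Hyp.card_norm {A : Subgroup G} (hA : Tor Ω A) {s : G} (hs : orderOf s = 2)
    (hi : ∀ y ∈ A, s * y * s⁻¹ = y⁻¹) :
    Nat.card (Subgroup.normalizer (A : Set G)) =
      Nat.card A * Nat.card ↥(Subgroup.normalizer (A : Set G) ⊓ Subgroup.centralizer ({s} : Set G)) := by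
  classical
  rw [← Nat.card_prod]
  let f : A × ↥(Subgroup.normalizer (A : Set G) ⊓ Subgroup.centralizer ({s} : Set G)) →
      Subgroup.normalizer (A : Set G) := fun p =>
    ⟨(p.1 : G) * p.2, mul_mem (Subgroup.le_normalizer p.1.2) p.2.2.1⟩
  symm
  refine Nat.card_congr (Equiv.ofBijective f ⟨?_, ?_⟩)
  · rintro ⟨y, w⟩ ⟨y', w'⟩ he
    have h1 : (y : G) * w = y' * w' := congrArg Subtype.val he
    have h2 : (y' : G)⁻¹ * y = w' * (w : G)⁻¹ := by
      rw [inv_mul_eq_iff_eq_mul, ← mul_assoc, ← h1]; group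
    have h3 : (y' : G)⁻¹ * y = 1 := by
      by_contra hne
      have h4 : (y' : G)⁻¹ * y ∈ A := mul_mem (A.inv_mem y'.2) y.2
      have h5 : (y' : G)⁻¹ * y ∈ Subgroup.centralizer ({s} : Set G) := by
        rw [h2]; exact mul_mem w'.2.2 (Subgroup.inv_mem _ w.2.2)
      exact h.no_comm (h.tor_sr hA h4 hne).1 hs (Subgroup.mem_centralizer_singleton_iff.mp h5).symm
    have h6 : (y : G) = y' := (inv_mul_eq_one.mp h3).symm
    have h7 : (w : G) = w' := by rw [h6] at h1; exact mul_left_cancel h1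
    exact Prod.ext (Subtype.ext h6) (Subtype.ext h7)
  · rintro ⟨g, hg⟩
    -- g s g⁻¹ s⁻¹ ∈ A
    have hn := norm_of_inv hi
    have hgs : orderOf (g * s * g⁻¹) = 2 := by
      rw [← hs]
      exact orderOf_injective (MulAut.conj g).toMonoidHom (MulAut.conj g).injective s
    have hi' := h.tor_inv_of_norm hA hgs (mul_mem (mul_mem hg hn) (inv_mem hg))
    have h1 : g * s * g⁻¹ * s⁻¹ ∈ A := by
      obtain ⟨z, hz, hz1⟩ := h.tor_ne hA
      rw [← h.tor_cent hA hz hz1, Subgroup.mem_centralizer_singleton_iff]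
      have e1 := hi z hz
      have e2 := hi' z hz
      have e3 : s⁻¹ * z * s = z⁻¹ := by
        have : z = s * z⁻¹ * s⁻¹ := by
          have e4 := hi z⁻¹ (A.inv_mem hz)
          rw [inv_inv] at e4
          exact e4.symm
        calc s⁻¹ * z * s = s⁻¹ * (s * z⁻¹ * s⁻¹) * s := by rw [← this]
          _ = z⁻¹ := by group
      have e5 : s⁻¹ * z = z⁻¹ * s⁻¹ := by
        rw [← e3]; group
      have e6 : g * s * g⁻¹ * z⁻¹ = z * (g * s * g⁻¹) := by
        have e7 := hi' z⁻¹ (A.inv_mem hz)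
        rw [inv_inv, mul_inv_eq_iff_eq_mul] at e7
        exact e7
      calc g * s * g⁻¹ * s⁻¹ * z = g * s * g⁻¹ * (s⁻¹ * z) := by group
        _ = g * s * g⁻¹ * (z⁻¹ * s⁻¹) := by rw [e5]
        _ = (g * s * g⁻¹ * z⁻¹) * s⁻¹ := by group
        _ = z * (g * s * g⁻¹) * s⁻¹ := by rw [e6]
        _ = z * (g * s * g⁻¹ * s⁻¹) := by group
    obtain ⟨y, hy⟩ : ∃ y, y = g * s * g⁻¹ * s⁻¹ := ⟨_, rfl⟩
    rw [← hy] at h1
    -- square root
    obtain ⟨m, hm⟩ := h.tor_odd hA
    obtain ⟨w, hw⟩ : ∃ w, w = y ^ (m + 1) := ⟨_, rfl⟩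
    have hwA : w ∈ A := by rw [hw]; exact pow_mem h1 _
    have hww : w * w = y := by
      have h3 : y ^ (2 * m + 1) = 1 := by
        rw [← hm]
        have := pow_card_eq_one' (x := (⟨y, h1⟩ : A))
        exact congrArg Subtype.val this
      rw [hw, ← pow_add, show m + 1 + (m + 1) = (2 * m + 1) + 1 by ring, pow_succ, h3, one_mul]
    have hwn : w⁻¹ * g ∈ Subgroup.normalizer (A : Set G) ⊓ Subgroup.centralizer ({s} : Set G) := by
      refine Subgroup.mem_inf.mpr ⟨mul_mem (inv_mem (Subgroup.le_normalizer hwA)) hg, ?_⟩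
      rw [Subgroup.mem_centralizer_singleton_iff]
      -- w⁻¹ g s = s w⁻¹ g
      have e1 : g * s = y * s * g := by rw [hy]; group
      have e2 : s * w⁻¹ = w * s := by
        have := hi w⁻¹ (A.inv_mem hwA)
        rw [inv_inv, mul_inv_eq_iff_eq_mul] at this
        exact this
      calc w⁻¹ * g * s = w⁻¹ * (g * s) := by group
        _ = w⁻¹ * (y * s * g) := by rw [e1]
        _ = w⁻¹ * (w * w * s * g) := by rw [hww]
        _ = (w * s) * g := by group
        _ = (s * w⁻¹) * g := by rw [e2]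
        _ = s * (w⁻¹ * g) := by group
    refine ⟨(⟨w, hwA⟩, ⟨w⁻¹ * g, hwn⟩), Subtype.ext ?_⟩
    change w * (w⁻¹ * g) = g
    group

omit [Finite G] [Fintype Ω] in
theorem Hyp.conj (g : G) : Hyp (g • a) (g • b) (U.map (MulAut.conj g).toMonoidHom) where
  zass := h.zass
  simple := h.simple
  ab := fun e => h.ab (smul_left_cancel g e)
  ker := by
    refine ⟨?_, ?_, ?_, ?_⟩
    · rintro _ ⟨u, hu, rfl⟩
      change (g * u * g⁻¹) • (g • a) = g • a
      rw [mul_smul, mul_smul, inv_smul_smul, h.ker.le u hu]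
    · rintro x hx _ ⟨u, hu, rfl⟩
      change x * (g * u * g⁻¹) * x⁻¹ ∈ _
      have h1 : (g⁻¹ * x * g) • a = a := by
        rw [mul_smul, mul_smul, hx, inv_smul_smul]
      refine ⟨(g⁻¹ * x * g) * u * (g⁻¹ * x * g)⁻¹, h.ker.nrm _ h1 u hu, ?_⟩
      change g * ((g⁻¹ * x * g) * u * (g⁻¹ * x * g)⁻¹) * g⁻¹ = _
      group
    · intro y z hy hz
      obtain ⟨k, hk, hkz⟩ := h.ker.reg (g⁻¹ • y) (g⁻¹ • z) (fun e => hy (by rw [← e, smul_inv_smul]))
        (fun e => hz (by rw [← e, smul_inv_smul]))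
      refine ⟨g * k * g⁻¹, ⟨k, hk, rfl⟩, ?_⟩
      rw [mul_smul, mul_smul, hkz, smul_inv_smul]
    · rintro _ ⟨u, hu, rfl⟩ y hy hky
      have h1 : (g * u * g⁻¹) • y = y := hky
      have h2 : u • (g⁻¹ • y) = g⁻¹ • y := by
        rw [mul_smul, mul_smul, smul_eq_iff_eq_inv_smul] at h1
        exact h1
      have h3 := h.ker.free u hu (g⁻¹ • y) (fun e => hy (by rw [← e, smul_inv_smul])) h2
      rw [h3]
      exact map_one _
  pg := h.pg.map _
  nab := by
    obtain ⟨u, hu, v, hv, huv⟩ := h.nab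
    refine ⟨_, ⟨u, hu, rfl⟩, _, ⟨v, hv, rfl⟩, ?_⟩
    intro e
    rw [← map_mul, ← map_mul] at e
    exact huv ((MulAut.conj g).injective e)

theorem Hyp.exists_conj {s : G} (hs : orderOf s = 2) : ∃ (a' b' : Ω) (U' : Subgroup G), Hyp a' b' U' ∧
    s • a' = a' ∧ Nat.card U' = Nat.card U ∧ Nat.card (EE G a' b') = Nat.card (EE G a b) := by
  obtain ⟨c, hc⟩ := h.exists_fix hs
  haveI := pretrans h.zass
  obtain ⟨g, rfl⟩ := MulAction.exists_smul_eq G a c
  refine ⟨g • a, g • b, _, h.conj g, hc, ?_, ?_⟩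
  · exact Subgroup.card_map_of_injective (MulAut.conj g).injective
  · exact card_E_conj h.zass h.ab (fun e => h.ab (smul_left_cancel g e))

/-- a 2-subgroup of `U` with a unique involution -/
theorem Hyp.card_P {P : Subgroup G} (hPU : P ≤ U) {s : G} (hs : orderOf s = 2) (hsP : s ∈ P)
    (huniq : ∀ w ∈ P, orderOf w = 2 → w = s) :
    (Nat.card P = 2 ∨ Nat.card P = 4 ∨ Nat.card P = 8) ∧
      (Nat.card U = (Nat.card (EE G a b) + 1) ^ 2 → Nat.card P = 2 ∨ Nat.card P = 4) := by
  classical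
  haveI := Fintype.ofFinite G
  have hss := sq_of_order hs
  have hs1 : s ≠ 1 := by rintro rfl; rw [orderOf_one] at hs; norm_num at hs
  have huniq' : ∀ w ∈ P, w * w = 1 → w = 1 ∨ w = s := by
    intro w hw hww
    by_cases hw1 : w = 1
    · exact Or.inl hw1
    · exact Or.inr (huniq w hw (order_of_sq hww hw1))
  have hsc : ∀ w ∈ P, w * s = s * w := fun w hw => h.ZU_comm (h.mem_ZU.mpr ⟨hPU hsP, hss⟩) (hPU hw)
  have hsq : ∀ w ∈ P, w ≠ 1 → w ≠ s → w * w = s := by
    intro w hw hw1 hws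
    have h1 := h.mem_ZU.mp (h.sq_mem (hPU hw))
    rcases huniq' (w * w) (mul_mem hw hw) h1.2 with h2 | h2
    · rcases huniq' w hw h2 with h3 | h3
      · exact absurd h3 hw1
      · exact absurd h3 hws
    · exact h2
  haveI : Fact (Nat.Prime 2) := ⟨Nat.prime_two⟩
  obtain ⟨n, hn⟩ := IsPGroup.iff_card.mp (h.pg.to_le hPU)
  have hn1 : 1 ≤ n := by
    rcases Nat.eq_zero_or_pos n with h0 | h0
    · exfalso
      rw [h0, pow_zero, Subgroup.card_eq_one] at hn
      rw [hn, Subgroup.mem_bot] at hsP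
      exact hs1 hsP
    · exact h0
  have hcardP : Nat.card P = (Finset.univ.filter (fun x : G => x ∈ P)).card := by
    rw [Nat.card_eq_fintype_card, Fintype.card_subtype]
  -- commuting elements
  have hcm : ∀ x ∈ P, ∀ y ∈ P, x ≠ 1 → x ≠ s → x * y = y * x → y = 1 ∨ y = s ∨ y = x ∨ y = x * s := by
    intro x hx y hy hx1 hxs hxy
    by_cases hy1 : y = 1
    · exact Or.inl hy1
    by_cases hys : y = s
    · exact Or.inr (Or.inl hys)
    have h1 := hsq x hx hx1 hxs
    have h2 := hsq y hy hy1 hys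
    have h3 : (x⁻¹ * y) * (x⁻¹ * y) = 1 := by
      have e1 : y * x⁻¹ = x⁻¹ * y := by
        rw [mul_inv_eq_iff_eq_mul, mul_assoc, ← hxy]; group
      calc (x⁻¹ * y) * (x⁻¹ * y) = x⁻¹ * (y * x⁻¹) * y := by group
        _ = x⁻¹ * (x⁻¹ * y) * y := by rw [e1]
        _ = (x * x)⁻¹ * (y * y) := by group
        _ = 1 := by rw [h1, h2, inv_mul_cancel]
    rcases huniq' _ (mul_mem (inv_mem hx) hy) h3 with h4 | h4
    · exact Or.inr (Or.inr (Or.inl (inv_mul_eq_one.mp h4).symm))
    · exact Or.inr (Or.inr (Or.inr (inv_mul_eq_iff_eq_mul.mp h4)))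
  have h8 : Nat.card P ≤ 8 := by
    by_cases hx : ∃ x ∈ P, x ≠ 1 ∧ x ≠ s
    · obtain ⟨x, hx, hx1, hxs⟩ := hx
      by_cases hy : ∃ y ∈ P, x * y ≠ y * x
      · obtain ⟨y, hy, hxy⟩ := hy
        have hcom : ∀ w ∈ P, x * w ≠ w * x → x⁻¹ * w⁻¹ * x * w = s := by
          intro w hw hxw
          have h1 := h.mem_ZU.mp (h.comm_mem (hPU hx) (hPU hw))
          rcases huniq' _ (mul_mem (mul_mem (mul_mem (inv_mem hx) (inv_mem hw)) hx) hw) h1.2 with h2 | h2
          · exfalso
            apply hxw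
            calc x * w = w * x * (x⁻¹ * w⁻¹ * x * w) := by group
              _ = w * x := by rw [h2, mul_one]
          · exact h2
        have hsub : (Finset.univ.filter (fun x : G => x ∈ P)) ⊆
            ({1, s, x, x * s, y, s * y, x * y, x * s * y} : Finset G) := by
          intro w hw
          rw [Finset.mem_filter] at hw
          simp only [Finset.mem_insert, Finset.mem_singleton]
          by_cases hxw : x * w = w * x
          · rcases hcm x hx w hw.2 hx1 hxs hxw with h1 | h1 | h1 | h1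
            · exact Or.inl h1
            · exact Or.inr (Or.inl h1)
            · exact Or.inr (Or.inr (Or.inl h1))
            · exact Or.inr (Or.inr (Or.inr (Or.inl h1)))
          · have e1 := hcom w hw.2 hxw
            have e2 := hcom y hy hxy
            have e3 : x * (w * y⁻¹) = (w * y⁻¹) * x := by
              have e4 : w⁻¹ * x * w = x * s := by rw [← e1]; group
              have e5 : y⁻¹ * x * y = x * s := by rw [← e2]; group
              have e6 : w⁻¹ * x * w = y⁻¹ * x * y := by rw [e4, e5]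
              calc x * (w * y⁻¹) = w * (w⁻¹ * x * w) * y⁻¹ := by group
                _ = w * (y⁻¹ * x * y) * y⁻¹ := by rw [e6]
                _ = (w * y⁻¹) * x := by group
            have e7 : w = (w * y⁻¹) * y := by group
            rcases hcm x hx (w * y⁻¹) (mul_mem hw.2 (inv_mem hy)) hx1 hxs e3 with h1 | h1 | h1 | h1
            · rw [h1, one_mul] at e7
              exact Or.inr (Or.inr (Or.inr (Or.inr (Or.inl e7))))
            · rw [h1] at e7
              exact Or.inr (Or.inr (Or.inr (Or.inr (Or.inr (Or.inl e7)))))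
            · rw [h1] at e7
              exact Or.inr (Or.inr (Or.inr (Or.inr (Or.inr (Or.inr (Or.inl e7))))))
            · rw [h1] at e7
              exact Or.inr (Or.inr (Or.inr (Or.inr (Or.inr (Or.inr (Or.inr e7))))))
        rw [hcardP]
        refine (Finset.card_le_card hsub).trans ?_
        exact (Finset.card_insert_le _ _).trans
          (Nat.succ_le_succ ((Finset.card_insert_le _ _).trans (Nat.succ_le_succ Finset.card_le_six)))
      · push Not at hy
        have hsub : (Finset.univ.filter (fun x : G => x ∈ P)) ⊆ ({1, s, x, x * s} : Finset G) := by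
          intro w hw
          rw [Finset.mem_filter] at hw
          simp only [Finset.mem_insert, Finset.mem_singleton]
          exact hcm x hx w hw.2 hx1 hxs (hy w hw.2)
        rw [hcardP]
        exact ((Finset.card_le_card hsub).trans Finset.card_le_four).trans (by norm_num)
    · push Not at hx
      have hsub : (Finset.univ.filter (fun x : G => x ∈ P)) ⊆ ({1, s} : Finset G) := by
        intro w hw
        rw [Finset.mem_filter] at hw
        simp only [Finset.mem_insert, Finset.mem_singleton]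
        by_cases hw1 : w = 1
        · exact Or.inl hw1
        · exact Or.inr (hx w hw.2 hw1)
      rw [hcardP]
      exact ((Finset.card_le_card hsub).trans Finset.card_le_two).trans (by norm_num)
  have h1 : Nat.card P = 2 ∨ Nat.card P = 4 ∨ Nat.card P = 8 := by
    rw [hn] at h8 ⊢
    have : n ≤ 3 := by
      by_contra hcon
      push Not at hcon
      have : 2 ^ 4 ≤ 2 ^ n := Nat.pow_le_pow_right (by norm_num) hcon
      omega
    interval_cases n
    · left; norm_num
    · right; left; norm_num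
    · right; right; norm_num
  refine ⟨h1, fun hcU => ?_⟩
  have h4 : Nat.card P ≤ 4 := by
    by_cases hx : ∃ x ∈ P, x ≠ 1 ∧ x ≠ s
    · obtain ⟨x, hx, hx1, hxs⟩ := hx
      have hsub : (Finset.univ.filter (fun x : G => x ∈ P)) ⊆ ({1, s, x, s * x} : Finset G) := by
        intro w hw
        rw [Finset.mem_filter] at hw
        simp only [Finset.mem_insert, Finset.mem_singleton]
        by_cases hw1 : w = 1
        · exact Or.inl hw1
        by_cases hws : w = s
        · exact Or.inr (Or.inl hws)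
        have h2 := h.sq_inj hcU (hPU hw.2) (hPU hx) (by rw [hsq w hw.2 hw1 hws, hsq x hx hx1 hxs])
        have h3 := h.mem_ZU.mp h2
        have e7 : w = (w * x⁻¹) * x := by group
        rcases huniq' _ (mul_mem hw.2 (inv_mem hx)) h3.2 with h4 | h4
        · rw [h4, one_mul] at e7
          exact Or.inr (Or.inr (Or.inl e7))
        · rw [h4] at e7
          exact Or.inr (Or.inr (Or.inr e7))
      rw [hcardP]
      exact (Finset.card_le_card hsub).trans Finset.card_le_four
    · push Not at hx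
      have hsub : (Finset.univ.filter (fun x : G => x ∈ P)) ⊆ ({1, s} : Finset G) := by
        intro w hw
        rw [Finset.mem_filter] at hw
        simp only [Finset.mem_insert, Finset.mem_singleton]
        by_cases hw1 : w = 1
        · exact Or.inl hw1
        · exact Or.inr (hx w hw.2 hw1)
      rw [hcardP]
      exact ((Finset.card_le_card hsub).trans Finset.card_le_two).trans (by norm_num)
  omega

/-- the index `|N(A) : A|` -/
theorem Hyp.exists_N {A : Subgroup G} (hA : Tor Ω A) : ∃ N : ℕ, Nat.card (Subgroup.normalizer (A : Set G)) =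
    Nat.card A * N ∧ N ∣ Nat.card A - 1 ∧
    (N = 2 ∨ N = 4 ∨ N = 8) ∧ (Nat.card U = (Nat.card (EE G a b) + 1) ^ 2 → N = 2 ∨ N = 4) := by
  obtain ⟨s, hs, hi⟩ := h.tor_inv hA
  obtain ⟨a', b', U', h', hsa, hU, hE⟩ := h.exists_conj hs
  refine ⟨_, h.card_norm hA hs hi, ?_, ?_⟩
  · have h2 := dvd_card_invariant (Subgroup.normalizer (A : Set G) ⊓ Subgroup.centralizer ({s} : Set G))
      ((A : Set G) \ {1} : Set G) (by
        rintro w hw y ⟨hy, hy1⟩
        refine ⟨(Subgroup.mem_normalizer_iff.mp (Subgroup.mem_inf.mp hw).1 y).mp hy, ?_⟩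
        intro e
        apply hy1
        have e' : w * y * w⁻¹ = 1 := e
        change y = 1
        calc y = w⁻¹ * (w * y * w⁻¹) * w := by group
          _ = 1 := by rw [e']; group) (by
        rintro w hw y ⟨hy, hy1⟩ he
        by_contra hw1
        obtain ⟨-, hwC⟩ := Subgroup.mem_inf.mp hw
        rw [Subgroup.mem_centralizer_singleton_iff] at hwC
        have hwA : w ∈ A := by
          rw [← h.tor_cent hA hy hy1, Subgroup.mem_centralizer_singleton_iff]
          exact mul_inv_eq_iff_eq_mul.mp he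
        exact h.no_comm (h.tor_sr hA hwA hw1).1 hs hwC.symm)
    have h3 : Nat.card ((A : Set G) \ {1} : Set G) = Nat.card A - 1 := by
      rw [Nat.card_coe_set_eq, Set.ncard_sdiff_singleton_of_mem (Subgroup.one_mem A)]
      rfl
    rwa [h3] at h2
  rw [← hU, ← hE]
  have hss := sq_of_order hs
  apply h'.card_P (s := s) _ hs
  · refine Subgroup.mem_inf.mpr ⟨norm_of_inv hi, ?_⟩
    rw [Subgroup.mem_centralizer_singleton_iff]
  · intro w hw hw2
    obtain ⟨hwN, hwC⟩ := Subgroup.mem_inf.mp hw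
    rw [Subgroup.mem_centralizer_singleton_iff] at hwC
    have hiw := h.tor_inv_of_norm hA hw2 hwN
    obtain ⟨z, hz, hz1⟩ := h.tor_ne hA
    have h1 : w * s ∈ A := by
      rw [← h.tor_cent hA hz hz1, Subgroup.mem_centralizer_singleton_iff]
      have e1 := hi z hz
      have e2 := hiw z⁻¹ (A.inv_mem hz)
      rw [inv_inv] at e2
      have e3 : s * z = z⁻¹ * s := mul_inv_eq_iff_eq_mul.mp e1
      have e4 : w * z⁻¹ = z * w := mul_inv_eq_iff_eq_mul.mp e2
      calc w * s * z = w * (s * z) := by group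
        _ = w * (z⁻¹ * s) := by rw [e3]
        _ = (w * z⁻¹) * s := by group
        _ = z * w * s := by rw [e4]
        _ = z * (w * s) := by group
    by_contra hne
    have h2 : w * s ≠ 1 := by
      intro e
      apply hne
      rw [mul_eq_one_iff_eq_inv] at e
      rw [e, inv_eq_of_mul_eq_one_left hss]
    apply h.no_comm (h.tor_sr hA h1 h2).1 hs
    rw [← mul_assoc, ← hwC]
  · rw [← centralizer_invol h' hs hsa]
    exact inf_le_right

end

end Cfsg.Agent.H9.ZT
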