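import Mathlib
import Cfsg.Agent.H9_ZT2

/-!
# Zassenhaus groups with nonabelian kernel of 2-power order: counting strongly real elements
-/

set_option autoImplicit false

namespace Cfsg.Agent.H9.ZT

open Cfsg Cfsg.Agent.H9.ZassA Cfsg.Agent.H9.ZassC Cfsg.Agent.H3.Zass Cfsg.Agent.H3.Zass2 Cfsg.Agent.H9.Suz
  Cfsg.Agent.H3.Zass5

variable {G Ω : Type*} [Group G] [MulAction G Ω]

/-- number of involutions `x` with `x z` an involution -/
noncomputable def nn {G : Type*} [Group G] [Fintype G] (z : G) : ℕ := by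
  classical
  exact (Finset.univ.filter fun x : G => orderOf x = 2 ∧ orderOf (x * z) = 2).card

/-- fixed points -/
noncomputable def fixs (Ω : Type*) {G : Type*} [Group G] [MulAction G Ω] [Fintype Ω] (z : G) : Finset Ω := by
  classical
  exact Finset.univ.filter fun c : Ω => z • c = c

theorem mem_fixs [Fintype Ω] {z : G} {c : Ω} : c ∈ fixs Ω z ↔ z • c = c := by
  classical
  simp [fixs]

variable {a b : Ω} {U : Subgroup G}

section
variable [Fintype G] [Fintype Ω] (h : Hyp a b U)
include h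

theorem Hyp.nn_le (z : G) : nn z ≤ Nat.card (Subgroup.centralizer ({z} : Set G)) := by
  classical
  rw [nn]
  convert Cfsg.Agent.H3.Zass6.n_le z

theorem Hyp.nn_ge {z s : G} (hz : ∀ w : G, orderOf w = 2 → w ≠ z) (hs : orderOf s = 2) (hc : s * z ≠ z * s)
    (hi : ∀ y ∈ Subgroup.centralizer ({z} : Set G), s * y * s⁻¹ = y⁻¹) :
    nn z = Nat.card (Subgroup.centralizer ({z} : Set G)) := by
  classical
  apply le_antisymm (h.nn_le z)
  rw [nn, Nat.card_eq_fintype_card, Fintype.card_subtype]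
  have hss := sq_of_order hs
  have hsi : s⁻¹ = s := inv_eq_of_mul_eq_one_left hss
  apply Finset.card_le_card_of_injOn (fun y => y * s)
  · intro y hy
    have hy' : y ∈ Subgroup.centralizer ({z} : Set G) := by simpa using hy
    have hyz := Subgroup.mem_centralizer_singleton_iff.mp hy'
    have h1 := hi y hy'
    have h0 : z ∈ Subgroup.centralizer ({z} : Set G) := Subgroup.mem_centralizer_singleton_iff.mpr rfl
    have h2 := hi z h0
    have hys2 : (y * s) * (y * s) = 1 := by
      have : s * y = y⁻¹ * s := mul_inv_eq_iff_eq_mul.mp h1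
      calc (y * s) * (y * s) = y * (s * y) * s := by group
        _ = y * (y⁻¹ * s) * s := by rw [this]
        _ = s * s := by group
        _ = 1 := hss
    have hys1 : y * s ≠ 1 := by
      intro e
      have : y = s := by rw [mul_eq_one_iff_eq_inv.mp e, hsi]
      rw [this] at hyz
      exact hc hyz
    have hz3 : (y * s * z) * (y * s * z) = 1 := by
      have e1 : s * z = z⁻¹ * s := mul_inv_eq_iff_eq_mul.mp h2
      have e2 : y * s * z = y * z⁻¹ * s := by rw [mul_assoc, e1]; group
      have h3 := hi (y * z⁻¹) (mul_mem hy' (inv_mem h0))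
      have h4 : s * (y * z⁻¹) = (y * z⁻¹)⁻¹ * s := mul_inv_eq_iff_eq_mul.mp h3
      rw [e2]
      calc y * z⁻¹ * s * (y * z⁻¹ * s) = y * z⁻¹ * (s * (y * z⁻¹)) * s := by group
        _ = y * z⁻¹ * ((y * z⁻¹)⁻¹ * s) * s := by rw [h4]
        _ = s * s := by group
        _ = 1 := hss
    have hz4 : y * s * z ≠ 1 := by
      intro e
      have : y * s = z⁻¹ := mul_eq_one_iff_eq_inv.mp e
      have h5 : z = y * s := by
        rw [← inv_inv z, ← this, inv_eq_of_mul_eq_one_left hys2]
      exact hz _ (order_of_sq hys2 hys1) h5.symm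
    rw [Finset.mem_coe, Finset.mem_filter]
    exact ⟨Finset.mem_univ _, order_of_sq hys2 hys1, order_of_sq hz3 hz4⟩
  · intro x _ y _ hxy
    exact mul_right_cancel hxy

theorem Hyp.nn_sr {z : G} (hz : SR Ω z) : nn z = Nat.card (Subgroup.centralizer ({z} : Set G)) := by
  obtain ⟨hz1, s, hs, hsz⟩ := hz
  refine h.nn_ge (z := z) (s := s) ?_ hs (h.no_comm hz1 hs) (h.inverts hz1 hs hsz)
  intro w hw hwz
  obtain ⟨c, hc⟩ := h.exists_fix hw
  rw [hwz] at hc
  exact hz1 c hc

omit [Fintype Ω] h in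
theorem nn_not_sr {z : G} (hz1 : ∀ c : Ω, z • c ≠ c) (hz : ¬ SR Ω z) : nn z = 0 := by
  classical
  rw [nn, Finset.card_eq_zero, Finset.filter_eq_empty_iff]
  rintro x - ⟨hx, hxz⟩
  exact hz ⟨hz1, x, hx, Cfsg.Agent.H3.Zass6.inverts_of hx hxz⟩

theorem Hyp.cent_two {z : G} (hz1 : z ≠ 1) {c d : Ω} (hcd : c ≠ d) (hc : z • c = c) (hd : z • d = d) :
    Subgroup.centralizer ({z} : Set G) = EE G c d := by
  haveI := h.simple
  have hodd := h.odd' hcd
  have hzE : z ∈ EE G c d := mem_E.mpr ⟨hc, hd⟩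
  apply le_antisymm
  · intro y hy
    rw [Subgroup.mem_centralizer_singleton_iff] at hy
    rw [mem_E]
    rcases E_TI h.zass hcd hzE (g := y) (by
      have : y * z * y⁻¹ = z := by rw [hy]; group
      rw [this]; exact hzE) hz1 with h1 | h1
    · exact h1
    · exfalso
      obtain ⟨t, ht, ht1, ht2⟩ := exists_inv h.zass hcd hodd
      have htt := sq_of_order ht
      have hy2 : t * y ∈ EE G c d := by
        rw [mem_E, mul_smul, mul_smul, h1.1, h1.2, ht2, ht1]
        exact ⟨rfl, rfl⟩
      have e1 := Cfsg.Agent.H3.Zass4.inverts h.zass hcd hodd htt ht1 ht2 hzE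
      have e2 := Cfsg.Agent.H3.Zass4.comm_E h.zass hcd hodd hy2 hzE
      -- t y z = z t y, y z = z y → t z y = z t y → t z = z t
      have e3 : t * z = z * t := by
        have : t * z * y = z * t * y := by
          calc t * z * y = t * (z * y) := by group
            _ = t * (y * z) := by rw [hy]
            _ = t * y * z := by group
            _ = z * (t * y) := e2
            _ = z * t * y := by group
        exact mul_right_cancel this
      have e4 : z = z⁻¹ := by
        rw [← e1, e3]; group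
      have e5 : z * z = 1 := by
        nth_rewrite 1 [e4]; exact inv_mul_cancel z
      exact inv_fix h.zass h.ab h.odd (order_of_sq e5 hz1) hcd hc hd
  · intro y hy
    rw [Subgroup.mem_centralizer_singleton_iff]
    exact Cfsg.Agent.H3.Zass4.comm_E h.zass hcd hodd hy hzE

theorem Hyp.nn_two {z : G} (hz1 : z ≠ 1) {c d : Ω} (hcd : c ≠ d) (hc : z • c = c) (hd : z • d = d) :
    nn z = Nat.card (EE G a b) := by
  haveI := h.simple
  have hodd := h.odd' hcd
  have hzE : z ∈ EE G c d := mem_E.mpr ⟨hc, hd⟩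
  have hcent := h.cent_two hz1 hcd hc hd
  obtain ⟨t, ht, ht1, ht2⟩ := exists_inv h.zass hcd hodd
  have htt := sq_of_order ht
  rw [← card_E_conj h.zass h.ab hcd, ← hcent]
  apply h.nn_ge (s := t)
  · intro w hw hwz
    rw [hwz] at hw
    exact inv_fix h.zass h.ab h.odd hw hcd hc hd
  · exact ht
  · intro e
    have e1 := Cfsg.Agent.H3.Zass4.inverts h.zass hcd hodd htt ht1 ht2 hzE
    have e4 : z = z⁻¹ := by
      rw [← e1, e]; group
    have e5 : z * z = 1 := by
      nth_rewrite 1 [e4]; exact inv_mul_cancel z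
    exact inv_fix h.zass h.ab h.odd (order_of_sq e5 hz1) hcd hc hd
  · rw [hcent]
    intro y hy
    exact Cfsg.Agent.H3.Zass4.inverts h.zass hcd hodd htt ht1 ht2 hy

theorem Hyp.nn_one : nn (1 : G) = Nat.card {x : G // orderOf x = 2} := by
  classical
  rw [nn, Nat.card_eq_fintype_card, Fintype.card_subtype]
  simp only [mul_one, and_self]

/-- elements with exactly one fixed point -/
theorem Hyp.nn_fix {z : G} (hz1 : z ≠ 1) {c : Ω} (hc : z • c = c) (huniq : ∀ d, z • d = d → d = c) :
    nn z = if orderOf z = 2 then Nat.card (EE G a b) - 1 else 0 := by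
  classical
  haveI := h.simple
  obtain ⟨d, hcd⟩ : ∃ d, c ≠ d := by
    by_cases hca : c = a
    · exact ⟨b, hca ▸ h.ab⟩
    · exact ⟨a, hca⟩
  have hodd := h.odd' hcd
  have hpi : ∀ x : G, orderOf x = 2 → orderOf (x * z) = 2 → orderOf z = 2 ∧ x • c = c := fun x hx hxz =>
    (Cfsg.Agent.H3.Zass6.prod_inv h.zass hcd hodd h.card hx hxz hz1 hc huniq).2
  split_ifs with hz2
  · -- the involutions fixing `c`
    have hf := Cfsg.Agent.H3.Zass6.card_inv_fix h.zass hcd hodd h.card h.even
    rw [card_E_conj h.zass h.ab hcd, Nat.card_eq_fintype_card, Fintype.card_subtype] at hf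
    have hzm : z ∈ Finset.univ.filter (fun x : G => orderOf x = 2 ∧ x • c = c) := by
      rw [Finset.mem_filter]; exact ⟨Finset.mem_univ _, hz2, hc⟩
    rw [← hf, ← Finset.card_erase_of_mem hzm, nn]
    congr 1
    ext x
    rw [Finset.mem_filter, Finset.mem_erase, Finset.mem_filter]
    constructor
    · rintro ⟨-, hx, hxz⟩
      refine ⟨?_, Finset.mem_univ _, hx, (hpi x hx hxz).2⟩
      rintro rfl
      rw [sq_of_order hx, orderOf_one] at hxz
      norm_num at hxz
    · rintro ⟨hne, -, hx, hxc⟩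
      refine ⟨Finset.mem_univ _, hx, ?_⟩
      obtain ⟨a', b', U', h', hxa, -, -⟩ := h.exists_conj hx
      have hca : c = a' := h.fix_unique hx hxc hxa
      have hza : z • a' = a' := hca ▸ hc
      have h1 := h'.invol_mem_ZU hx hxa
      have h2 := h'.invol_mem_ZU hz2 hza
      apply order_of_sq
      · exact (h'.mem_ZU.mp (mul_mem h1 h2)).2
      · intro e
        apply hne
        rw [mul_eq_one_iff_eq_inv.mp e, inv_eq_of_mul_eq_one_left (sq_of_order hz2)]
  · rw [nn, Finset.card_eq_zero, Finset.filter_eq_empty_iff]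
    rintro x - ⟨hx, hxz⟩
    exact hz2 (hpi x hx hxz).1

theorem Hyp.card_inv : Nat.card {x : G // orderOf x = 2} = Nat.card (EE G a b) * (Nat.card U + 1) := by
  haveI := h.simple
  have := Cfsg.Agent.H3.Zass5.card_inv h.zass h.ab h.odd h.card
  rwa [if_pos h.even] at this

theorem Hyp.card_G : Nat.card G = (Nat.card U + 1) * (Nat.card U * Nat.card (EE G a b)) :=
  Cfsg.Agent.H3.Zass2.card_G h.zass h.ab h.card

theorem Hyp.fixs_le {z : G} (hz : z ≠ 1) : (fixs Ω z).card ≤ 2 := by
  classical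
  have := fix_card h.zass h.ab hz
  rw [fixs]
  convert this using 2

/-- elements with exactly two fixed points -/
noncomputable def F2s (G Ω : Type*) [Group G] [MulAction G Ω] [Fintype G] [Fintype Ω] : Finset G := by
  classical
  exact Finset.univ.filter (fun z : G => z ≠ 1 ∧ (fixs Ω z).card = 2)

omit h in
theorem mem_F2s {z : G} : z ∈ F2s G Ω ↔ z ≠ 1 ∧ (fixs Ω z).card = 2 := by
  classical
  simp [F2s]

theorem Hyp.card_F2 : 2 * (F2s G Ω).card =
    (Nat.card U + 1) * Nat.card U * (Nat.card (EE G a b) - 1) := by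
  classical
  obtain ⟨e, he⟩ : ∃ e, e = Nat.card (EE G a b) := ⟨_, rfl⟩
  obtain ⟨u, hu⟩ : ∃ u, u = Nat.card U := ⟨_, rfl⟩
  rw [← he, ← hu]
  have h1 := Finset.sum_card_bipartiteAbove_eq_sum_card_bipartiteBelow
    (s := (Finset.univ : Finset G)) (t := (Finset.univ : Finset (Ω × Ω)))
    (r := fun z p => z ≠ 1 ∧ p.1 ≠ p.2 ∧ z • p.1 = p.1 ∧ z • p.2 = p.2)
  have h2 : ∀ z : G, (Finset.bipartiteAbove (fun (z : G) (p : Ω × Ω) => z ≠ 1 ∧ p.1 ≠ p.2 ∧ z • p.1 = p.1 ∧ z • p.2 = p.2)
      Finset.univ z).card = if z ∈ F2s G Ω then 2 else 0 := by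
    intro z
    simp only [mem_F2s]
    by_cases hz : z = 1
    · rw [if_neg (fun h => h.1 hz), Finset.card_eq_zero]
      ext p
      simp [Finset.mem_bipartiteAbove, hz]
    · have h3 : Finset.bipartiteAbove (fun (z : G) (p : Ω × Ω) => z ≠ 1 ∧ p.1 ≠ p.2 ∧ z • p.1 = p.1 ∧ z • p.2 = p.2)
          Finset.univ z = (fixs Ω z).offDiag := by
        ext p
        rw [Finset.mem_bipartiteAbove, Finset.mem_offDiag, mem_fixs, mem_fixs]
        constructor
        · rintro ⟨-, -, h1, h2, h3⟩; exact ⟨h2, h3, h1⟩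
        · rintro ⟨h2, h3, h1⟩; exact ⟨Finset.mem_univ _, hz, h1, h2, h3⟩
      rw [h3, Finset.offDiag_card]
      have h4 := h.fixs_le hz
      obtain ⟨m, hm⟩ : ∃ m, m = (fixs Ω z).card := ⟨_, rfl⟩
      rw [← hm] at h4 ⊢
      interval_cases m
      · simp
      · simp
      · simp [hz]
  have h3 : ∀ p : Ω × Ω, (Finset.bipartiteBelow (fun (z : G) (p : Ω × Ω) => z ≠ 1 ∧ p.1 ≠ p.2 ∧ z • p.1 = p.1 ∧ z • p.2 = p.2)
      Finset.univ p).card = if p.1 ≠ p.2 then e - 1 else 0 := by
    intro p
    by_cases hp : p.1 = p.2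
    · rw [if_neg (fun h => h hp), Finset.card_eq_zero]
      ext z
      simp [Finset.mem_bipartiteBelow, hp]
    · rw [if_pos hp]
      have h4 : Nat.card (EE G p.1 p.2) = e := by rw [card_E_conj h.zass h.ab hp, he]
      have h5 : Finset.bipartiteBelow (fun (z : G) (p : Ω × Ω) => z ≠ 1 ∧ p.1 ≠ p.2 ∧ z • p.1 = p.1 ∧ z • p.2 = p.2)
          Finset.univ p = (Finset.univ.filter (fun z : G => z ∈ EE G p.1 p.2)).erase 1 := by
        ext z
        rw [Finset.mem_bipartiteBelow, Finset.mem_erase, Finset.mem_filter, mem_E]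
        constructor
        · rintro ⟨h0, h1, h2, h3, h4⟩; exact ⟨h1, h0, h3, h4⟩
        · rintro ⟨h1, h0, h3, h4⟩; exact ⟨h0, h1, hp, h3, h4⟩
      rw [h5, Finset.card_erase_of_mem, ← h4, Nat.card_eq_fintype_card, Fintype.card_subtype]
      rw [Finset.mem_filter]
      exact ⟨Finset.mem_univ _, one_mem _⟩
  rw [Finset.sum_congr rfl fun z _ => h2 z, Finset.sum_congr rfl fun p _ => h3 p, Finset.sum_ite_mem,
    Finset.univ_inter,
    ← Finset.sum_filter, Finset.sum_const, Finset.sum_const, smul_eq_mul, smul_eq_mul] at h1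
  have h6 : (Finset.univ.filter (fun p : Ω × Ω => p.1 ≠ p.2)).card = (u + 1) * u := by
    have : Finset.univ.filter (fun p : Ω × Ω => p.1 ≠ p.2) = (Finset.univ : Finset Ω).offDiag := by
      ext p
      simp [Finset.mem_offDiag]
    rw [this, Finset.offDiag_card, Finset.card_univ, h.card, ← hu]
    rw [show (u + 1) * (u + 1) = (u + 1) * u + (u + 1) by ring, Nat.add_sub_cancel]
  rw [h6] at h1
  rw [mul_comm 2]; exact h1

/-- strongly real fixed point free elements -/
noncomputable def SRs (G Ω : Type*) [Group G] [MulAction G Ω] [Fintype G] : Finset G := by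
  classical
  exact Finset.univ.filter (fun x : G => SR Ω x)

omit [Fintype Ω] h in
theorem mem_SRs {x : G} : x ∈ SRs G Ω ↔ SR Ω x := by
  classical
  simp [SRs]

theorem Hyp.sum_sr : 2 * ∑ x ∈ SRs G Ω, Nat.card (Subgroup.centralizer ({x} : Set G)) =
    Nat.card G * (Nat.card (EE G a b) + 1) := by
  classical
  have hI := h.card_inv
  have hG := h.card_G
  have hF := h.card_F2
  have he1 := h.one_lt
  have hu1 : 0 < Nat.card U := Nat.card_pos
  obtain ⟨e, he⟩ : ∃ e, e = Nat.card (EE G a b) := ⟨_, rfl⟩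
  obtain ⟨u, hu⟩ : ∃ u, u = Nat.card U := ⟨_, rfl⟩
  obtain ⟨I, hI0⟩ : ∃ I, I = Nat.card {x : G // orderOf x = 2} := ⟨_, rfl⟩
  rw [← he, ← hu] at hI hG hF
  rw [← he] at he1
  rw [← hu] at hu1
  rw [← he]
  rw [← hI0] at hI
  have hpt : ∀ z : G, nn z = (if z = 1 then I else 0) + (if orderOf z = 2 then e - 1 else 0) +
      (if z ∈ F2s G Ω then e else 0) +
      (if z ∈ SRs G Ω then Nat.card (Subgroup.centralizer ({z} : Set G)) else 0) := by
    intro z
    by_cases hz : z = 1
    · subst hz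
      have h1 : (1 : G) ∉ SRs G Ω := by
        rw [mem_SRs]
        intro hs
        exact hs.1 a (one_smul _ _)
      have h3 : (1 : G) ∉ F2s G Ω := by
        rw [mem_F2s]
        exact fun hs => hs.1 rfl
      have h4 : ¬ (orderOf (1 : G) = 2) := by rw [orderOf_one]; norm_num
      rw [if_pos rfl, if_neg h4, if_neg h3, if_neg h1, h.nn_one, hI0, add_zero, add_zero, add_zero]
    rw [if_neg hz, zero_add]
    have h2 := h.fixs_le hz
    have hF2 : z ∈ F2s G Ω ↔ (fixs Ω z).card = 2 := by
      rw [mem_F2s]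
      exact ⟨fun h => h.2, fun h => ⟨hz, h⟩⟩
    obtain ⟨m, hm⟩ : ∃ m, m = (fixs Ω z).card := ⟨_, rfl⟩
    rw [← hm] at h2 hF2
    interval_cases m
    · -- no fixed points
      have h3 := Finset.card_eq_zero.mp hm.symm
      have h4 : ∀ c : Ω, z • c ≠ c := by
        intro c hc
        have := mem_fixs.mpr hc
        rw [h3] at this
        simp at this
      have h5 : orderOf z ≠ 2 := by
        intro h5
        obtain ⟨c, hc⟩ := h.exists_fix h5
        exact h4 c hc
      have h8 : z ∉ F2s G Ω := by rw [hF2]; norm_num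
      rw [if_neg h5, if_neg h8, zero_add, zero_add]
      split_ifs with h6
      · exact h.nn_sr (mem_SRs.mp h6)
      · exact nn_not_sr h4 (fun h => h6 (mem_SRs.mpr h))
    · -- one fixed point
      obtain ⟨c, hc⟩ := Finset.card_eq_one.mp hm.symm
      have hc' : z • c = c := by
        rw [← mem_fixs, hc]; simp
      have h6 : z ∉ SRs G Ω := by
        rw [mem_SRs]
        intro hs
        exact hs.1 c hc'
      have h8 : z ∉ F2s G Ω := by rw [hF2]; norm_num
      rw [if_neg h6, if_neg h8, add_zero, add_zero]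
      have h7 := h.nn_fix hz hc' (fun d hd => by
        have := mem_fixs.mpr hd
        rw [hc] at this
        simpa using this)
      rw [h7, ← he]
    · -- two fixed points
      obtain ⟨c, d, hcd, hc⟩ := Finset.card_eq_two.mp hm.symm
      have hc' : z • c = c := by
        rw [← mem_fixs, hc]; simp
      have hd' : z • d = d := by
        rw [← mem_fixs, hc]; simp
      have h6 : z ∉ SRs G Ω := by
        rw [mem_SRs]
        intro hs
        exact hs.1 c hc'
      have h5 : orderOf z ≠ 2 := fun h5 => hcd (h.fix_unique h5 hc' hd')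
      rw [if_neg h6, if_neg h5, if_pos (hF2.mpr rfl), zero_add, add_zero, h.nn_two hz hcd hc' hd', he]
  have hsum : ∑ z : G, nn z = I ^ 2 := by
    rw [hI0]
    have := Cfsg.Agent.H3.Zass6.sum_n (G := G)
    rw [← this]
    refine Finset.sum_congr rfl fun z _ => ?_
    rw [nn]
  rw [Finset.sum_congr rfl fun z _ => hpt z, Finset.sum_add_distrib, Finset.sum_add_distrib, Finset.sum_add_distrib,
    Finset.sum_ite_eq' Finset.univ (1 : G) (fun _ => I), if_pos (Finset.mem_univ _), ← Finset.sum_filter,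
    Finset.sum_const, Finset.sum_ite_mem, Finset.sum_ite_mem, Finset.univ_inter, Finset.univ_inter, Finset.sum_const,
    smul_eq_mul, smul_eq_mul] at hsum
  have hI2 : (Finset.univ.filter (fun z : G => orderOf z = 2)).card = I := by
    rw [hI0, Nat.card_eq_fintype_card, Fintype.card_subtype]
  rw [hI2] at hsum
  obtain ⟨S, hS⟩ : ∃ S, S = ∑ x ∈ SRs G Ω, Nat.card (Subgroup.centralizer ({x} : Set G)) := ⟨_, rfl⟩
  obtain ⟨F, hFd⟩ : ∃ F, F = (F2s G Ω).card := ⟨_, rfl⟩
  rw [← hFd] at hF hsum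
  rw [← hS] at hsum ⊢
  rw [hG]
  obtain ⟨k, rfl⟩ : ∃ k, e = k + 1 := ⟨e - 1, by omega⟩
  rw [Nat.add_sub_cancel] at hsum hF
  rw [hI] at hsum
  nlinarith
end

end Cfsg.Agent.H9.ZT
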