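import Mathlib
import Cfsg.Agent.H9_ZT3

/-!
# Zassenhaus groups with nonabelian kernel of 2-power order: conjugacy classes of tori
-/

set_option autoImplicit false

namespace Cfsg.Agent.H9.ZT

open Cfsg Cfsg.Agent.H9.ZassA Cfsg.Agent.H9.ZassC Cfsg.Agent.H3.Zass Cfsg.Agent.H3.Zass2 Cfsg.Agent.H9.Suz
  Cfsg.Agent.H3.Zass5

open scoped Pointwise

variable {G Ω : Type*} [Group G] [MulAction G Ω]

/-- nontrivial elements with a conjugate in `A` -/
noncomputable def cls {G : Type*} [Group G] [Fintype G] (A : Subgroup G) : Finset G := by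
  classical
  exact Finset.univ.filter (fun x : G => x ≠ 1 ∧ ∃ g : G, g * x * g⁻¹ ∈ A)

theorem mem_cls [Fintype G] {A : Subgroup G} {x : G} : x ∈ cls A ↔ x ≠ 1 ∧ ∃ g : G, g * x * g⁻¹ ∈ A := by
  classical
  simp [cls]

/-- conjugate subgroups -/
def Cj {G : Type*} [Group G] (A B : Subgroup G) : Prop := ∃ g : G, B = A.map (MulAut.conj g).toMonoidHom

theorem card_centralizer_conj (g x : G) : Nat.card (Subgroup.centralizer ({g * x * g⁻¹} : Set G)) =
    Nat.card (Subgroup.centralizer ({x} : Set G)) := by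
  rw [centralizer_conj]
  exact Subgroup.card_map_of_injective (MulAut.conj g).injective

variable {a b : Ω} {U : Subgroup G}

section
variable [Fintype G] [Fintype Ω] (h : Hyp a b U)
include h

theorem Hyp.card_cls {A : Subgroup G} (hA : Tor Ω A) :
    (cls A).card * Nat.card (Subgroup.normalizer (A : Set G)) = Nat.card G * (Nat.card A - 1) := by
  classical
  have h1 := Finset.sum_card_bipartiteAbove_eq_sum_card_bipartiteBelow
    (s := (Finset.univ : Finset G)) (t := (Finset.univ : Finset G))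
    (r := fun g x => x ≠ 1 ∧ g * x * g⁻¹ ∈ A)
  have h2 : ∀ g : G, (Finset.bipartiteAbove (fun (g : G) (x : G) => x ≠ 1 ∧ g * x * g⁻¹ ∈ A)
      Finset.univ g).card = Nat.card A - 1 := by
    intro g
    have h3 : Nat.card A - 1 = ((Finset.univ.filter (fun x : G => x ∈ A)).erase 1).card := by
      rw [Finset.card_erase_of_mem (Finset.mem_filter.mpr ⟨Finset.mem_univ _, one_mem _⟩), Nat.card_eq_fintype_card,
        Fintype.card_subtype]
    rw [h3]
    refine Finset.card_bij (fun x _ => g * x * g⁻¹) ?_ ?_ ?_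
    · intro x hx
      rw [Finset.mem_bipartiteAbove] at hx
      rw [Finset.mem_erase, Finset.mem_filter]
      refine ⟨?_, Finset.mem_univ _, hx.2.2⟩
      intro e
      apply hx.2.1
      calc x = g⁻¹ * (g * x * g⁻¹) * g := by group
        _ = 1 := by rw [e]; group
    · intro x _ y _ hxy
      exact mul_left_cancel (mul_right_cancel hxy)
    · intro y hy
      rw [Finset.mem_erase, Finset.mem_filter] at hy
      refine ⟨g⁻¹ * y * g, ?_, by group⟩
      rw [Finset.mem_bipartiteAbove]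
      refine ⟨Finset.mem_univ _, ?_, ?_⟩
      · intro e
        apply hy.1
        calc y = g * (g⁻¹ * y * g) * g⁻¹ := by group
          _ = 1 := by rw [e]; group
      · have : g * (g⁻¹ * y * g) * g⁻¹ = y := by group
        rw [this]; exact hy.2.2
  have h4 : ∀ x : G, (Finset.bipartiteBelow (fun (g : G) (x : G) => x ≠ 1 ∧ g * x * g⁻¹ ∈ A)
      Finset.univ x).card = if x ∈ cls A then Nat.card (Subgroup.normalizer (A : Set G)) else 0 := by
    intro x
    split_ifs with hx
    · rw [mem_cls] at hx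
      obtain ⟨hx1, g₀, hg₀⟩ := hx
      rw [Nat.card_eq_fintype_card, Fintype.card_subtype]
      symm
      refine Finset.card_bij (fun n _ => n * g₀) ?_ ?_ ?_
      · intro n hn
        rw [Finset.mem_filter] at hn
        rw [Finset.mem_bipartiteBelow]
        refine ⟨Finset.mem_univ _, hx1, ?_⟩
        have : n * g₀ * x * (n * g₀)⁻¹ = n * (g₀ * x * g₀⁻¹) * n⁻¹ := by group
        rw [this]
        exact (Subgroup.mem_normalizer_iff.mp hn.2 _).mp hg₀
      · intro x _ y _ hxy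
        exact mul_right_cancel hxy
      · intro g hg
        rw [Finset.mem_bipartiteBelow] at hg
        refine ⟨g * g₀⁻¹, ?_, by group⟩
        rw [Finset.mem_filter]
        refine ⟨Finset.mem_univ _, h.tor_TI hA hg₀ ?_ ?_⟩
        · intro e
          apply hx1
          calc x = g₀⁻¹ * (g₀ * x * g₀⁻¹) * g₀ := by group
            _ = 1 := by rw [e]; group
        · have : g * g₀⁻¹ * (g₀ * x * g₀⁻¹) * (g * g₀⁻¹)⁻¹ = g * x * g⁻¹ := by group
          rw [this]
          exact hg.2.2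
    · rw [Finset.card_eq_zero]
      ext g
      rw [Finset.mem_bipartiteBelow]
      simp only [Finset.notMem_empty, iff_false]
      rintro ⟨-, h1, h2⟩
      exact hx (mem_cls.mpr ⟨h1, g, h2⟩)
  rw [Finset.sum_congr rfl fun z _ => h2 z, Finset.sum_congr rfl fun p _ => h4 p, Finset.sum_ite_mem,
    Finset.univ_inter, Finset.sum_const, Finset.sum_const, smul_eq_mul, smul_eq_mul, Finset.card_univ,
    ← Nat.card_eq_fintype_card] at h1
  exact h1.symm

theorem Hyp.cls_sr {A : Subgroup G} (hA : Tor Ω A) {x : G} (hx : x ∈ cls A) : x ∈ SRs G Ω := by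
  obtain ⟨hx1, g, hg⟩ := mem_cls.mp hx
  rw [mem_SRs]
  have hne : g * x * g⁻¹ ≠ 1 := by
    intro e
    apply hx1
    calc x = g⁻¹ * (g * x * g⁻¹) * g := by group
      _ = 1 := by rw [e]; group
  have h1 := (h.tor_sr hA hg hne).conj g⁻¹
  have h2 : g⁻¹ * (g * x * g⁻¹) * g⁻¹⁻¹ = x := by group
  rwa [h2] at h1

theorem Hyp.sum_cls {A : Subgroup G} (hA : Tor Ω A) {N : ℕ}
    (hN : Nat.card (Subgroup.normalizer (A : Set G)) = Nat.card A * N) :
    (∑ x ∈ cls A, Nat.card (Subgroup.centralizer ({x} : Set G))) * N = Nat.card G * (Nat.card A - 1) := by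
  have h1 : ∀ x ∈ cls A, Nat.card (Subgroup.centralizer ({x} : Set G)) = Nat.card A := by
    intro x hx
    obtain ⟨hx1, g, hg⟩ := mem_cls.mp hx
    have hne : g * x * g⁻¹ ≠ 1 := by
      intro e
      apply hx1
      calc x = g⁻¹ * (g * x * g⁻¹) * g := by group
        _ = 1 := by rw [e]; group
    rw [← card_centralizer_conj g, h.tor_cent hA hg hne]
  rw [Finset.sum_congr rfl h1, Finset.sum_const, smul_eq_mul, ← h.card_cls hA, hN]
  ring

theorem Hyp.cj_of_mem {A B : Subgroup G} (hA : Tor Ω A) (hB : Tor Ω B) {x : G} (hxA : x ∈ cls A) (hxB : x ∈ cls B) :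
    Cj A B := by
  obtain ⟨hx1, g, hg⟩ := mem_cls.mp hxA
  obtain ⟨-, k, hk⟩ := mem_cls.mp hxB
  have hne : ∀ g : G, g * x * g⁻¹ ≠ 1 := by
    intro g e
    apply hx1
    calc x = g⁻¹ * (g * x * g⁻¹) * g := by group
      _ = 1 := by rw [e]; group
  have h1 := h.tor_cent hA hg (hne g)
  have h2 := h.tor_cent hB hk (hne k)
  refine ⟨k * g⁻¹, ?_⟩
  rw [← h1, ← h2, ← centralizer_conj]
  congr 2
  group

/-- tori contain Sylow subgroups -/
theorem Hyp.exists_sylow {A : Subgroup G} (hA : Tor Ω A) {p : ℕ} [hp : Fact p.Prime] (hpA : p ∣ Nat.card A) :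
    ∃ P : Sylow p G, (P : Subgroup G) ≤ A ∧ ∃ x ∈ (P : Subgroup G), x ≠ 1 := by
  obtain ⟨x, hx⟩ := exists_prime_orderOf_dvd_card' (G := A) p hpA
  have hx' : orderOf (x : G) = p := by rw [Subgroup.orderOf_coe, hx]
  have hx1 : (x : G) ≠ 1 := by
    intro e
    rw [e, orderOf_one] at hx'
    exact hp.out.one_lt.ne hx'
  have hpg : IsPGroup p (Subgroup.zpowers (x : G)) := by
    apply IsPGroup.of_card (n := 1)
    rw [Nat.card_zpowers, hx', pow_one]
  obtain ⟨P, hP⟩ := hpg.exists_le_sylow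
  have hxP : (x : G) ∈ (P : Subgroup G) := hP (Subgroup.mem_zpowers _)
  refine ⟨P, ?_, x, hxP, hx1⟩
  haveI : Nontrivial (P : Subgroup G) := ⟨⟨⟨x, hxP⟩, 1, fun e => hx1 (congrArg Subtype.val e)⟩⟩
  haveI := P.2.center_nontrivial
  obtain ⟨z, hz⟩ := exists_ne (1 : Subgroup.center (P : Subgroup G))
  have hz1 : ((z : (P : Subgroup G)) : G) ≠ 1 := fun e => hz (Subtype.ext (Subtype.ext e))
  have hzA : ((z : (P : Subgroup G)) : G) ∈ A := by
    rw [← h.tor_cent hA x.2 hx1, Subgroup.mem_centralizer_singleton_iff]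
    have := Subgroup.mem_center_iff.mp z.2 ⟨x, hxP⟩
    exact (congrArg Subtype.val this).symm
  intro y hy
  rw [← h.tor_cent hA hzA hz1, Subgroup.mem_centralizer_singleton_iff]
  have := Subgroup.mem_center_iff.mp z.2 ⟨y, hy⟩
  exact congrArg Subtype.val this

theorem Hyp.coprime {A B : Subgroup G} (hA : Tor Ω A) (hB : Tor Ω B) (hAB : ¬ Cj A B) :
    Nat.Coprime (Nat.card A) (Nat.card B) := by
  apply Nat.Coprime.symm
  apply Nat.Coprime.symm
  rw [Nat.coprime_iff_gcd_eq_one]
  by_contra hne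
  obtain ⟨p, hp, hpd⟩ := Nat.exists_prime_and_dvd hne
  haveI : Fact p.Prime := ⟨hp⟩
  obtain ⟨P, hPA, x, hxP, hx1⟩ := h.exists_sylow hA (hpd.trans (Nat.gcd_dvd_left _ _))
  obtain ⟨Q, hQB, -⟩ := h.exists_sylow hB (hpd.trans (Nat.gcd_dvd_right _ _))
  obtain ⟨g, hg⟩ := MulAction.exists_smul_eq G P Q
  apply hAB
  apply h.cj_of_mem hA hB (x := x)
  · exact mem_cls.mpr ⟨hx1, 1, by simpa using hPA hxP⟩
  · refine mem_cls.mpr ⟨hx1, g, hQB ?_⟩
    rw [← hg]
    change g * x * g⁻¹ ∈ (MulAut.conj g • (P : Subgroup G))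
    rw [Subgroup.mem_pointwise_smul_iff_inv_smul_mem]
    have : (MulAut.conj g)⁻¹ • (g * x * g⁻¹) = x := by
      rw [← map_inv]
      change g⁻¹ * (g * x * g⁻¹) * g⁻¹⁻¹ = x
      group
    rw [this]
    exact hxP

theorem Hyp.card_dvd {A : Subgroup G} (hA : Tor Ω A) : Nat.card A ∣ Nat.card U + 1 := by
  rw [h.hcard, ← Nat.card_eq_fintype_card]
  apply H3.Grp.dvd_card_of_stabilizer (N := A)
  intro x
  have h1 : MulAction.stabilizer A x = ⊥ := by
    rw [Subgroup.eq_bot_iff_forall]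
    intro y hy
    by_contra hne
    exact (h.tor_sr hA y.2 (fun e => hne (Subtype.ext e))).1 x hy
  rw [h1, Subgroup.index_bot]

end

end Cfsg.Agent.H9.ZT
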