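import Cfsg.Agent.HL_Bart4

set_option autoImplicit false
open Cfsg

namespace Cfsg.Agent.HL.Bart
open Cfsg.Agent.H17.Base Cfsg.Agent.H17.LLemma

universe u

/-- `[g, a]` -/
def cf {G : Type*} [Group G] (a g : G) : G := g * a * g⁻¹ * a⁻¹

theorem cf_iter_val {G : Type*} [Group G] {X : Subgroup G} (a : X) (k : ℕ) (x : X) :
    ((((cf a)^[k]) x : X) : G) = ((cf (a : G))^[k]) (x : G) := by
  induction k generalizing x with
  | zero => rfl
  | succ k ih =>
    rw [Function.iterate_succ_apply, Function.iterate_succ_apply, ih]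
    rfl

theorem iter_aux (n : ℕ) : ∀ (G : Type u) [Group G] [Finite G], Nat.card G = n → ∀ a : G,
    Full (Subgroup.zpowers a) → ∀ k : ℕ, Subgroup.closure (insert a (Set.range ((cf a)^[k]))) = ⊤ := by
  induction n using Nat.strong_induction_on with
  | _ n ih =>
    intro G _ _ hn a hf k
    by_contra hne
    set K := Subgroup.closure (insert a (Set.range ((cf a)^[k]))) with hK
    have haK : a ∈ K := Subgroup.subset_closure (Set.mem_insert _ _)
    have hAK : Subgroup.zpowers a ≤ K := by rw [Subgroup.zpowers_le]; exact haK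
    have hY : Y (Subgroup.zpowers a) ≤ K := by
      refine Y_le fun X h1 h2 => ?_
      have haX : a ∈ X := h2.1 (Subgroup.mem_zpowers a)
      have e : (Subgroup.zpowers a).subgroupOf X = Subgroup.zpowers (⟨a, haX⟩ : X) := by
        apply Subgroup.map_injective X.subtype_injective
        rw [Subgroup.map_subgroupOf_eq_of_le h2.1, MonoidHom.map_zpowers]
        rfl
      have h3 := h2.full
      rw [e] at h3
      have h4 := ih (Nat.card X) (by
        rw [← hn]
        have := card_lt_of_lt (lt_top_iff_ne_top.2 h1)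
        rwa [Subgroup.card_top] at this) X rfl _ h3 k
      intro x hx
      have h5 : (⟨x, hx⟩ : X) ∈ Subgroup.closure (insert (⟨a, haX⟩ : X) (Set.range ((cf (⟨a, haX⟩ : X))^[k]))) := by
        rw [h4]; trivial
      have h6 : Subgroup.closure (insert (⟨a, haX⟩ : X) (Set.range ((cf (⟨a, haX⟩ : X))^[k]))) ≤ K.comap X.subtype := by
        rw [Subgroup.closure_le]
        rintro y (rfl | ⟨z, rfl⟩)
        · exact haK
        · show ((((cf (⟨a, haX⟩ : X))^[k]) z : X) : G) ∈ K
          rw [cf_iter_val]
          exact Subgroup.subset_closure (Set.mem_insert_of_mem _ ⟨_, rfl⟩)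
      exact h6 h5
    have hAne : Subgroup.zpowers a ≠ ⊤ := fun h => hne (top_le_iff.1 (by rw [← h]; exact hAK))
    have hYne : Y (Subgroup.zpowers a) ≠ ⊤ := fun h => hne (top_le_iff.1 (by rw [← h]; exact hY))
    obtain ⟨M, h1, h2, h3⟩ := main _ hAne hf hYne
    obtain ⟨M', h4, h5⟩ := exists_coatom_ge hne
    have h6 := h3 M' h4 (hAK.trans h5)
    subst h6
    have haM : a ∈ M' := h5 haK
    have hNM : Nz M' ≤ M' := by
      have h7 : Nz M' ≠ ⊤ := fun h8 => h1.1 (hf M' h2 h8.ge)
      obtain ⟨L, hL1, hL2⟩ := exists_coatom_ge h7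
      have h8 := coatom_eq h1 hL1 (Subgroup.le_normalizer.trans hL2)
      rw [← h8] at hL2; exact hL2
    have key : ∀ g, cf a g ∈ M' → g ∈ M' := by
      intro g hg
      have h7 : g * a * g⁻¹ ∈ M' := by
        have := M'.mul_mem hg haM
        rwa [cf, inv_mul_cancel_right] at this
      have h8 : Subgroup.zpowers a ≤ cj g⁻¹ M' := by
        rw [Subgroup.zpowers_le, mem_cj, inv_inv]; exact h7
      have h9 := h3 _ (coatom_cj h1 g⁻¹) h8
      have h10 := hNM (mem_Nz_iff_cj.2 h9)
      exact (Subgroup.inv_mem_iff M').1 h10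
    have key2 : ∀ (j : ℕ) (g : G), ((cf a)^[j]) g ∈ M' → g ∈ M' := by
      intro j
      induction j with
      | zero => exact fun g h => h
      | succ j ihj =>
        intro g h
        rw [Function.iterate_succ_apply] at h
        exact key g (ihj _ h)
    apply h1.1
    rw [eq_top_iff]
    intro g _
    exact key2 k g (h5 (Subgroup.subset_closure (Set.mem_insert_of_mem _ ⟨g, rfl⟩)))

theorem iter {G : Type*} [Group G] [Finite G] {a : G} (hf : Full (Subgroup.zpowers a)) (k : ℕ) :
    Subgroup.closure (insert a (Set.range ((cf a)^[k]))) = ⊤ :=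
  iter_aux _ G rfl a hf k

end Cfsg.Agent.HL.Bart
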