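import Mathlib
import Cfsg.Prelude.Def_Characters
import Cfsg.Prelude.Def_Blocks
import Cfsg.Agent.H3_CharGal
import Cfsg.Agent.H3_CharQuot
import Cfsg.Agent.H10_BlockOrth
import Cfsg.Agent.H10_BlockPrin
import Cfsg.Agent.H10_BlockHZ
import Cfsg.Agent.H26_B0
import Cfsg.Agent.H26_Kernel

/-!
# Kazarin's theorem, character-theoretic core
-/

set_option autoImplicit false

open scoped ComplexConjugate

namespace Cfsg.Agent.HL.Kaz

open Cfsg Cfsg.Agent.H3.CharBasic Cfsg.Agent.H3.CharIrr Cfsg.Agent.H3.CharComplete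
  Cfsg.Agent.H3.CharInd Cfsg.Agent.H3.CharInt Cfsg.Agent.H3.CharGal Cfsg.Agent.H3.CharQuot
  Cfsg.Agent.H3.CharMult Cfsg.Agent.H10.BlockLoc Cfsg.Agent.H10.BlockIdem

variable {H : Type*} [Group H] [Finite H]

/-- if `H/N` is commutative and `N` is in the kernel then the degree is one -/
theorem deg_one (N : Subgroup H) [N.Normal] (hc : ∀ a b : H, a * b * a⁻¹ * b⁻¹ ∈ N)
    {χ : H → ℂ} (h : IsIrrCharacter H χ) (hN : ∀ n ∈ N, χ n = χ 1) : χ 1 = 1 := by
  obtain ⟨χ', h1, h2⟩ := IsIrr.descend h N hN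
  have h3 : ∀ a b : H ⧸ N, a * b = b * a := by
    intro a b
    induction a using QuotientGroup.induction_on with
    | _ a =>
    induction b using QuotientGroup.induction_on with
    | _ b =>
    have h4 := hc b⁻¹ a⁻¹
    rw [← QuotientGroup.mk_mul, ← QuotientGroup.mk_mul, QuotientGroup.eq]
    convert hc b⁻¹ a⁻¹ using 1
    group
  have h4 := IsIrr.one_of_comm h3 h1
  have h5 := h2 1
  rw [← h5]; exact h4

section core

variable (N : Subgroup H) [hNn : N.Normal] (τ : H)

theorem comm_mem (hgen : N ⊔ Subgroup.zpowers τ = ⊤) (a b : H) : a * b * a⁻¹ * b⁻¹ ∈ N := by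
  have key : ∀ x : H, ∃ n ∈ N, ∃ k : ℤ, x = n * τ ^ k := by
    intro x
    have hx : x ∈ N ⊔ Subgroup.zpowers τ := by rw [hgen]; trivial
    obtain ⟨n, hn, y, hy, rfl⟩ := Subgroup.mem_sup_of_normal_left.mp hx
    obtain ⟨k, rfl⟩ := Subgroup.mem_zpowers_iff.mp hy
    exact ⟨n, hn, k, rfl⟩
  obtain ⟨n, hn, k, rfl⟩ := key a
  obtain ⟨m, hm, l, rfl⟩ := key b
  have h1 := (QuotientGroup.eq_one_iff (N := N) n).mpr hn
  have h2 := (QuotientGroup.eq_one_iff (N := N) m).mpr hm
  rw [← QuotientGroup.eq_one_iff]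
  simp only [QuotientGroup.mk_mul, QuotientGroup.mk_inv, QuotientGroup.mk_zpow, h1, h2, one_mul]
  group

/-- the group of linear characters trivial on `N` in the principal block -/
def L (M : Ideal AlgInt) [M.IsMaximal] : Subgroup (H →* ℂˣ) where
  carrier := {f | (∀ n ∈ N, f n = 1) ∧
    ∀ g : H, MemLocalIdeal M (((Subgroup.centralizer ({g} : Set H)).index : ℂ) -
      ((Subgroup.centralizer ({g} : Set H)).index : ℂ) * (f g : ℂ))}
  one_mem' := ⟨fun _ _ => rfl, fun g => by simpa using ideal_zero⟩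
  mul_mem' {a b} ha hb := by
    refine ⟨fun n hn => ?_, fun g => ?_⟩
    · rw [MonoidHom.mul_apply, ha.1 n hn, hb.1 n hn, one_mul]
    · have h1 := ha.2 g
      have h2 := hb.2 g
      have h3 : IsIntegral ℤ ((a g : ℂˣ) : ℂ) :=
        IsChar.isIntegral (IsIrr.isCharacter (isIrr_of_hom_units a)) g
      have h4 := ideal_mul_left (M := M) (memLocalRing_of_integral (Ideal.IsMaximal.ne_top ‹_›) h3) h2
      have h5 := ideal_add h1 h4
      convert h5 using 1
      rw [MonoidHom.mul_apply]; push_cast; ring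
  inv_mem' {a} ha := by
    refine ⟨fun n hn => ?_, fun g => ?_⟩
    · rw [MonoidHom.inv_apply, ha.1 n hn, inv_one]
    · have h1 := ha.2 g
      have h3 : IsIntegral ℤ ((a⁻¹ g : ℂˣ) : ℂ) :=
        IsChar.isIntegral (IsIrr.isCharacter (isIrr_of_hom_units a⁻¹)) g
      have h4 := ideal_mul_left (M := M) (memLocalRing_of_integral (Ideal.IsMaximal.ne_top ‹_›) h3) h1
      have h5 := ideal_neg h4
      convert h5 using 1
      rw [MonoidHom.inv_apply, Units.val_inv_eq_inv_val]
      field_simp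
      ring

theorem card_L_dvd (hgen : N ⊔ Subgroup.zpowers τ = ⊤) {r : ℕ} (hr : r ≠ 0) (hτ : τ ^ r = 1)
    (M : Ideal AlgInt) [M.IsMaximal] : Nat.card (L N M) ∣ r := by
  have : NeZero r := ⟨hr⟩
  let φ : L N M →* rootsOfUnity r ℂ :=
    { toFun := fun f => ⟨f.1 τ, by
        rw [mem_rootsOfUnity, ← map_pow, hτ, map_one]⟩
      map_one' := rfl
      map_mul' := fun _ _ => rfl }
  have hinj : Function.Injective φ := by
    intro f g hfg
    have h1 : f.1 τ = g.1 τ := congrArg Subtype.val hfg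
    apply Subtype.ext
    have h2 : (N ⊔ Subgroup.zpowers τ) ≤ (MonoidHom.eqLocus f.1 g.1) := by
      refine sup_le ?_ ?_
      · intro n hn
        show f.1 n = g.1 n
        rw [f.2.1 n hn, g.2.1 n hn]
      · rw [Subgroup.zpowers_le]
        exact h1
    ext x
    have h3 : x ∈ MonoidHom.eqLocus f.1 g.1 := h2 (by rw [hgen]; trivial)
    exact congrArg (fun x : ℂˣ => (x : ℂ)) h3
  have h1 := Subgroup.card_dvd_of_injective φ hinj
  have h2 : Nat.card (rootsOfUnity r ℂ) = r := by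
    exact Complex.card_rootsOfUnity r
  rwa [h2] at h1

open Classical in
theorem card_eq (hgen : N ⊔ Subgroup.zpowers τ = ⊤) (M : Ideal AlgInt) [M.IsMaximal] [Fintype H]
    [Fintype (IrrCharacter H)] :
    (Finset.univ.filter (fun χ : IrrCharacter H => χ ∈ principalBlock M H ∧
      ∀ n ∈ N, (χ : H → ℂ) n = (χ : H → ℂ) 1)).card = Nat.card (L N M) := by
  rw [← Fintype.card_subtype, ← Nat.card_eq_fintype_card]
  symm
  let F : L N M → {χ : IrrCharacter H // χ ∈ principalBlock M H ∧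
      ∀ n ∈ N, (χ : H → ℂ) n = (χ : H → ℂ) 1} := fun f =>
    ⟨⟨fun g => (f.1 g : ℂ), isIrr_of_hom_units f.1⟩, by
      rw [Cfsg.Agent.H26.B0.mem_principal_iff]
      intro g
      have := f.2.2 g
      rw [centralChar]
      simpa using this, fun n hn => by
        show ((f.1 n : ℂˣ) : ℂ) = ((f.1 1 : ℂˣ) : ℂ)
        rw [f.2.1 n hn, map_one]⟩
  refine Nat.card_congr (Equiv.ofBijective F ⟨?_, ?_⟩)
  · intro f g hfg
    apply Subtype.ext
    ext x
    have h1 := congrArg (fun z => (z.1 : IrrCharacter H)) hfg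
    exact congrFun (congrArg (fun z : IrrCharacter H => (z : H → ℂ)) h1) x
  · rintro ⟨χ, h1, h2⟩
    have h3 := deg_one N (comm_mem N τ hgen) χ.2 h2
    obtain ⟨f, hf⟩ := IsChar.hom_units_of_one (IsIrr.isCharacter χ.2) h3
    rw [Cfsg.Agent.H26.B0.mem_principal_iff] at h1
    refine ⟨⟨f, fun n hn => ?_, fun g => ?_⟩, ?_⟩
    · have := h2 n hn
      rw [hf, hf, map_one] at this
      exact Units.ext this
    · have := h1 g
      rw [centralChar, h3, div_one, hf] at this
      exact this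
    · apply Subtype.ext
      apply Subtype.ext
      funext g
      exact (hf g).symm

end core

end Cfsg.Agent.HL.Kaz
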