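import Mathlib
import Cfsg.Agent.HL_KazA

/-!
# Kazarin's theorem, character-theoretic core (2)
-/

set_option autoImplicit false

open scoped ComplexConjugate

namespace Cfsg.Agent.HL.Kaz

open Cfsg Cfsg.Agent.H3.CharBasic Cfsg.Agent.H3.CharIrr Cfsg.Agent.H3.CharComplete
  Cfsg.Agent.H3.CharInd Cfsg.Agent.H3.CharInt Cfsg.Agent.H3.CharGal Cfsg.Agent.H3.CharQuot
  Cfsg.Agent.H3.CharMult Cfsg.Agent.H10.BlockLoc Cfsg.Agent.H10.BlockIdem

variable {H : Type*} [Group H] [Finite H]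

theorem ker_dich (N : Subgroup H) [hNn : N.Normal] [hs : IsSimpleGroup N]
    (hC : Subgroup.centralizer (N : Set H) = ⊥) {χ : H → ℂ} (hχ : IsCharacter H χ) :
    (∀ n ∈ N, χ n = χ 1) ∨ (∀ g : H, χ g = χ 1 → g = 1) := by
  have hK := chKer_normal hχ
  have h1 : ((chKer χ hχ).subgroupOf N).Normal := hK.comap _
  rcases h1.eq_bot_or_eq_top with h | h
  · right
    intro g hg
    have hgK : g ∈ chKer χ hχ := hg
    have h2 : g ∈ Subgroup.centralizer (N : Set H) := by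
      rw [Subgroup.mem_centralizer_iff]
      intro n hn
      have h3 : n * g * n⁻¹ * g⁻¹ ∈ chKer χ hχ :=
        (chKer χ hχ).mul_mem (hK.conj_mem g hgK n) ((chKer χ hχ).inv_mem hgK)
      have h4 : n * (g * n⁻¹ * g⁻¹) ∈ N := N.mul_mem hn (hNn.conj_mem _ (N.inv_mem hn) g)
      have h5 : n * g * n⁻¹ * g⁻¹ ∈ N := by convert h4 using 1; group
      have h6 : (⟨n * g * n⁻¹ * g⁻¹, h5⟩ : N) ∈ (chKer χ hχ).subgroupOf N := by
        rw [Subgroup.mem_subgroupOf]; exact h3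
      rw [h, Subgroup.mem_bot] at h6
      have h7 : n * g * n⁻¹ * g⁻¹ = 1 := congrArg Subtype.val h6
      calc n * g = (n * g * n⁻¹ * g⁻¹) * (g * n) := by group
        _ = g * n := by rw [h7, one_mul]
    rwa [hC, Subgroup.mem_bot] at h2
  · left
    intro n hn
    have : (⟨n, hn⟩ : N) ∈ (chKer χ hχ).subgroupOf N := by rw [h]; trivial
    exact this

section core

variable (N : Subgroup H) [hNn : N.Normal] [hs : IsSimpleGroup N]
  (hC : Subgroup.centralizer (N : Set H) = ⊥)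
  (τ : H) (hτ1 : τ ≠ 1) {p a : ℕ} (hp : p.Prime)
  (hidx : (Subgroup.centralizer ({τ} : Set H)).index = p ^ a)

include hC hτ1 hp hidx in
/-- Burnside's lemma: characters of degree prime to `p`, not trivial on `N`, vanish at `τ` -/
theorem vanish {χ : H → ℂ} (hχ : IsIrrCharacter H χ) (hN : ¬ ∀ n ∈ N, χ n = χ 1)
    {d : ℕ} (hd : χ 1 = d) (hpd : ¬ p ∣ d) : χ τ = 0 := by
  rcases ker_dich N hC (IsIrr.isCharacter hχ) with h | h
  · exact absurd h hN
  · obtain ⟨n, ρ, hρ, hρχ⟩ := hχ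
    have hfin : Module.finrank ℂ (Fin n → ℂ) = d := by
      rw [← hρχ, Representation.char_one] at hd
      exact_mod_cast hd
    have hcop : Nat.Coprime (Module.finrank ℂ (Fin n → ℂ))
        (Subgroup.centralizer ({τ} : Set H)).index := by
      rw [hfin, hidx]
      exact Nat.Coprime.pow_right _ ((Nat.Prime.coprime_iff_not_dvd hp).mpr hpd).symm
    rcases burnside_lemma ρ hρ τ hcop with h0 | h1
    · rw [← hρχ]; exact h0
    · exfalso
      obtain ⟨ω, hω⟩ := (norm_char_eq_iff ρ τ).mp h1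
      have h2 : τ ∈ Subgroup.centralizer (N : Set H) := by
        rw [Subgroup.mem_centralizer_iff]
        intro m _
        have h3 : ρ (m * τ * m⁻¹ * τ⁻¹) = 1 := by
          have h4 : ρ τ * ρ m = ρ m * ρ τ := by rw [hω]; ext v; simp
          rw [map_mul, map_mul, map_mul, ← h4, mul_assoc (ρ τ), ← map_mul ρ m, mul_inv_cancel,
            map_one, mul_one, ← map_mul, mul_inv_cancel, map_one]
        have h5 : χ (m * τ * m⁻¹ * τ⁻¹) = χ 1 := by
          rw [← hρχ]; exact (rep_eq_one_iff ρ _).mp h3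
        have h6 := h _ h5
        calc m * τ = (m * τ * m⁻¹ * τ⁻¹) * (τ * m) := by group
          _ = τ * m := by rw [h6, one_mul]
      rw [hC, Subgroup.mem_bot] at h2
      exact hτ1 h2

include hC hτ1 hp hidx in
/-- every character in the principal `q`-block, `q ≠ p`, not trivial on `N`, has degree
divisible by `p` -/
theorem dvd_of_principal {q : ℕ} {M : Ideal AlgInt} (hM : IsPModular q M) (hqp : q ≠ p)
    [Fintype H] (χ : IrrCharacter H) (hB : χ ∈ principalBlock M H)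
    (hN : ¬ ∀ n ∈ N, (χ : H → ℂ) n = (χ : H → ℂ) 1) {d : ℕ} (hd : (χ : H → ℂ) 1 = d) : p ∣ d := by
  have := hM.2.1
  by_contra hpd
  have h0 := vanish N hC τ hτ1 hp hidx χ.2 hN hd hpd
  rw [Cfsg.Agent.H26.B0.mem_principal_iff] at hB
  have h1 := hB τ
  rw [centralChar, h0, mul_zero, zero_div, sub_zero, hidx] at h1
  have h2 := (ideal_natCast_iff hM (p ^ a)).mp (by simpa using h1)
  have h3 := (Nat.Prime.dvd_of_dvd_pow hM.1 h2)
  exact hqp ((Nat.prime_dvd_prime_iff_eq hM.1 hp).mp h3)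

include hC hτ1 hp hidx in
open Classical in
theorem r_eq_p {r : ℕ} (hr : r.Prime) (hτ : τ ^ r = 1) (hgen : N ⊔ Subgroup.zpowers τ = ⊤)
    {q : ℕ} (hq : q.Prime) (hqp : q ≠ p) (hqN : q ∣ Nat.card N) : r = p := by
  obtain ⟨M, hM⟩ := Cfsg.Agent.H26.Kernel.exists_isPModular q hq
  have := hM.2.1
  have : Fact q.Prime := ⟨hq⟩
  have := Fintype.ofFinite H
  have := Fintype.ofFinite (IrrCharacter H)
  obtain ⟨g', hg'⟩ := exists_prime_orderOf_dvd_card' q hqN
  set g : H := (g' : H) with hgdef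
  have hg : orderOf g = q := by rw [hgdef, Subgroup.orderOf_coe]; exact hg'
  have hgN : g ∈ N := g'.2
  have hB : IsPBlock M (principalBlock M H) :=
    ⟨⟨fun _ => 1, isIrr_one⟩, rfl⟩
  have h0 := Cfsg.Agent.H10.BlockOrth.weak_orth hM hB 1 g
    (by rw [orderOf_one, Nat.dvd_one]; exact hq.one_lt.ne') (by rw [hg])
  -- choose quotients
  have key : ∀ χ : IrrCharacter H, ∃ b : ℂ, IsIntegral ℤ b ∧
      (if χ ∈ principalBlock M H then (χ : H → ℂ) 1 * conj ((χ : H → ℂ) g) else 0) =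
      (if (χ ∈ principalBlock M H ∧ ∀ n ∈ N, (χ : H → ℂ) n = (χ : H → ℂ) 1) then 1 else 0) + p * b := by
    intro χ
    by_cases h1 : χ ∈ principalBlock M H
    · by_cases h2 : ∀ n ∈ N, (χ : H → ℂ) n = (χ : H → ℂ) 1
      · refine ⟨0, isIntegral_zero, ?_⟩
        have h3 := deg_one N (comm_mem N τ hgen) χ.2 h2
        rw [if_pos h1, if_pos ⟨h1, h2⟩, h2 g hgN, h3]
        simp
      · obtain ⟨d, hd, hd1⟩ := IsIrr.one_eq_nat χ.2
        obtain ⟨e, he⟩ := dvd_of_principal N hC τ hτ1 hp hidx hM hqp χ h1 h2 hd1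
        refine ⟨e * conj ((χ : H → ℂ) g), ?_, ?_⟩
        · exact (isIntegral_algebraMap (R := ℤ) (A := ℂ) (x := (e : ℤ))).mul
            (isIntegral_conj (IsChar.isIntegral (IsIrr.isCharacter χ.2) g))
        · rw [if_pos h1, if_neg (fun h => h2 h.2), hd1, he]; push_cast; ring
    · exact ⟨0, isIntegral_zero, by rw [if_neg h1, if_neg (fun h => h1 h.1)]; simp⟩
  choose b hb hbe using key
  rw [Finset.sum_congr rfl fun χ _ => hbe χ, Finset.sum_add_distrib, ← Finset.mul_sum,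
    Finset.sum_boole, card_eq N τ hgen M] at h0
  have hp0 : (p : ℂ) ≠ 0 := by exact_mod_cast hp.ne_zero
  have h3 : ((Nat.card (L N M) : ℕ) : ℂ) / (p : ℂ) = -∑ χ, b χ := by
    rw [div_eq_iff hp0]; linear_combination h0
  have h4 : p ∣ Nat.card (L N M) := dvd_of_isIntegral_div hp.ne_zero
    (by rw [h3]; exact (IsIntegral.sum _ fun χ _ => hb χ).neg)
  have h5 := h4.trans (card_L_dvd N τ hgen hr.ne_zero hτ M)
  exact ((Nat.prime_dvd_prime_iff_eq hp hr).mp h5).symm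

include hC hτ1 hp hidx in
open Classical in
theorem case_p (hτ : τ ^ p = 1) (hgen : N ⊔ Subgroup.zpowers τ = ⊤) (hpN : p ∣ Nat.card N)
    (hind : N.index = 1 ∨ N.index = p) : False := by
  obtain ⟨M, hM⟩ := Cfsg.Agent.H26.Kernel.exists_isPModular p hp
  have := hM.2.1
  have : Fact p.Prime := ⟨hp⟩
  have := Fintype.ofFinite H
  have := Fintype.ofFinite (IrrCharacter H)
  have hordτ : orderOf τ = p := orderOf_eq_prime hτ hτ1
  -- all characters not trivial on N have degree divisible by p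
  have hdiv : ∀ χ : IrrCharacter H, (¬ ∀ n ∈ N, (χ : H → ℂ) n = (χ : H → ℂ) 1) →
      ∃ e : ℕ, (χ : H → ℂ) 1 = (p * e : ℕ) := by
    intro χ h2
    obtain ⟨d, hd, hd1⟩ := IsIrr.one_eq_nat χ.2
    by_cases hpd : p ∣ d
    · obtain ⟨e, he⟩ := hpd
      exact ⟨e, by rw [hd1, he]⟩
    · exfalso
      have h3 := vanish N hC τ hτ1 hp hidx χ.2 h2 hd1 hpd
      have h4 := Cfsg.Agent.H10.BlockHZ.char_sub_mem hM (IsIrr.isCharacter χ.2)
        (Commute.one_right τ) ⟨1, by rw [hordτ, pow_one]⟩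
        (by rw [orderOf_one, Nat.dvd_one]; exact hp.one_lt.ne')
      rw [mul_one, h3, zero_sub, hd1] at h4
      have h5 := ideal_neg h4
      rw [neg_neg] at h5
      exact hpd ((ideal_natCast_iff hM d).mp h5)
  have h1 := sum_sq (G := H)
  have h2 := Cfsg.Agent.H10.BlockPrin.sum_sq_ker (G := H) N
  have key : ∀ χ : IrrCharacter H, ∃ e : ℕ, (χ : H → ℂ) 1 ^ 2 =
      (if (∀ u ∈ N, (χ : H → ℂ) u = (χ : H → ℂ) 1) then
      (χ : H → ℂ) 1 * conj ((χ : H → ℂ) 1) else 0) + ((p ^ 2 * e : ℕ) : ℂ) := by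
    intro χ
    by_cases h3 : ∀ u ∈ N, (χ : H → ℂ) u = (χ : H → ℂ) 1
    · refine ⟨0, ?_⟩
      rw [if_pos h3, deg_one N (comm_mem N τ hgen) χ.2 h3]; simp
    · obtain ⟨e, he⟩ := hdiv χ h3
      refine ⟨e ^ 2, ?_⟩
      rw [if_neg h3, he]; push_cast; ring
  choose e he using key
  rw [Finset.sum_congr rfl fun χ _ => he χ, Finset.sum_add_distrib, h2] at h1
  have h3 : N.index + p ^ 2 * ∑ χ, e χ = Nat.card H := by
    have : ((N.index + p ^ 2 * ∑ χ, e χ : ℕ) : ℂ) = (Nat.card H : ℂ) := by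
      rw [← h1]; push_cast; rw [Finset.mul_sum]
    exact_mod_cast this
  rw [← N.card_mul_index] at h3
  obtain ⟨k, hk⟩ := hpN
  rw [hk] at h3
  have hpp := hp.one_lt
  rcases hind with h | h
  · rw [h] at h3
    have h4 : p ∣ 1 := by
      have h5 : p ∣ 1 + p ^ 2 * ∑ χ, e χ := by rw [h3]; exact ⟨k, by ring⟩
      exact (Nat.dvd_add_left (Dvd.intro (p * ∑ χ, e χ) (by ring))).mp h5
    exact hp.one_lt.ne' (Nat.dvd_one.mp h4)
  · rw [h] at h3
    have h4 : 1 + p * ∑ χ, e χ = p * k := by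
      have h5 : p * (1 + p * ∑ χ, e χ) = p * (p * k) := by linarith
      exact Nat.eq_of_mul_eq_mul_left hp.pos h5
    have h5 : p ∣ 1 := by
      have h6 : p ∣ 1 + p * ∑ χ, e χ := by rw [h4]; exact ⟨k, rfl⟩
      exact (Nat.dvd_add_left (Dvd.intro _ rfl)).mp h6
    exact hp.one_lt.ne' (Nat.dvd_one.mp h5)

end core

end Cfsg.Agent.HL.Kaz
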