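import Mathlib
import Cfsg.Agent.HL_KazB
import Cfsg.Agent.H1_Basic
import Cfsg.Agent.H1_Nilp
import Cfsg.Agent.H11_FStar

/-!
# Kazarin's theorem: automorphisms of simple groups and the general case
-/

set_option autoImplicit false

open scoped ComplexConjugate

namespace Cfsg.Agent.HL.Kaz

open Cfsg

/-- a nontrivial automorphism of a nonabelian simple group does not have a centralizer of
prime power index -/
theorem aut_false {S : Type*} [Group S] [Finite S] [hs : IsSimpleGroup S]
    (hna : ¬ ∀ a b : S, a * b = b * a) (σ : MulAut S) (hσ : σ ≠ 1) {p a : ℕ} (hp : p.Prime)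
    (F : Subgroup S) (hF : ∀ s ∈ F, σ s = s) (hidx : F.index ∣ p ^ a) : False := by
  classical
  have hcen : Subgroup.center S = ⊥ := by
    rcases (inferInstance : (Subgroup.center S).Normal).eq_bot_or_eq_top with h | h
    · exact h
    · exfalso
      apply hna
      intro x y
      have : y ∈ Subgroup.center S := by rw [h]; trivial
      exact Subgroup.mem_center_iff.mp this x
  have hconj : ∀ s : S, (∀ t : S, s * t = t * s) → s = 1 := by
    intro s hs'
    have : s ∈ Subgroup.center S := Subgroup.mem_center_iff.mpr fun t => (hs' t).symm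
    rwa [hcen, Subgroup.mem_bot] at this
  -- reduce to prime order
  have ho : orderOf σ ≠ 1 := fun h => hσ (orderOf_eq_one_iff.mp h)
  obtain ⟨r, hr, hro⟩ := Nat.exists_prime_and_dvd ho
  obtain ⟨k, hk⟩ := hro
  have hpos : 0 < orderOf σ := orderOf_pos σ
  set τ : MulAut S := σ ^ k with hτdef
  have hkpos : 0 < k := by
    rcases Nat.eq_zero_or_pos k with h | h
    · rw [h, mul_zero] at hk; omega
    · exact h
  have hτr : τ ^ r = 1 := by rw [hτdef, ← pow_mul, mul_comm, ← hk, pow_orderOf_eq_one]
  have hτ1 : τ ≠ 1 := by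
    intro h
    have h1 := orderOf_dvd_of_pow_eq_one h
    have h2 := Nat.le_of_dvd hkpos h1
    rw [hk] at h2
    have := hr.two_le
    nlinarith
  have hτF : ∀ s ∈ F, τ s = s := by
    intro s hs'
    have : ∀ j : ℕ, (σ ^ j) s = s := by
      intro j
      induction j with
      | zero => rfl
      | succ j ih => rw [pow_succ, MulAut.mul_apply, hF s hs', ih]
    exact this k
  -- the group H
  set H : Subgroup (MulAut S) := (MulAut.conj : S →* MulAut S).range ⊔ Subgroup.zpowers τ with hH
  have hNm : ((MulAut.conj : S →* MulAut S).range).Normal := by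
    constructor
    rintro _ ⟨s, rfl⟩ g
    refine ⟨g s, ?_⟩
    ext x
    simp [MulAut.conj_apply]
  set N : Subgroup H := ((MulAut.conj : S →* MulAut S).range).subgroupOf H with hN
  have hNn : N.Normal := hNm.comap _
  have hτH : τ ∈ H := (le_sup_right : _ ≤ H) (Subgroup.mem_zpowers τ)
  set t : H := ⟨τ, hτH⟩ with ht
  let f : S →* H := (MulAut.conj : S →* MulAut S).codRestrict H (fun s =>
    (le_sup_left : _ ≤ H) ⟨s, rfl⟩)
  have hfr : f.range = N := by
    ext ⟨x, hx⟩
    constructor
    · rintro ⟨s, hs'⟩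
      rw [hN, Subgroup.mem_subgroupOf]
      exact ⟨s, congrArg Subtype.val hs'⟩
    · intro h
      rw [hN, Subgroup.mem_subgroupOf] at h
      obtain ⟨s, hs'⟩ := h
      exact ⟨s, Subtype.ext hs'⟩
  have hfi : Function.Injective f := by
    rw [injective_iff_map_eq_one]
    intro s hs'
    have h1 : MulAut.conj s = 1 := congrArg Subtype.val hs'
    apply hconj
    intro t'
    have h2 := congrArg (fun φ : MulAut S => φ t') h1
    simp only [MulAut.conj_apply, MulAut.one_apply] at h2
    calc s * t' = (s * t' * s⁻¹) * s := by group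
      _ = t' * s := by rw [h2]
  have e : S ≃* N := (MonoidHom.ofInjective hfi).trans (MulEquiv.subgroupCongr hfr)
  have hsN : IsSimpleGroup N := e.isSimpleGroup_congr.mp hs
  have hC : Subgroup.centralizer (N : Set H) = ⊥ := by
    rw [eq_bot_iff]
    intro x hx
    rw [Subgroup.mem_bot]
    rw [Subgroup.mem_centralizer_iff] at hx
    apply Subtype.ext
    ext s
    have h1 := hx (f s) (by rw [SetLike.mem_coe, ← hfr]; exact ⟨s, rfl⟩)
    have h2 : MulAut.conj s * (x : MulAut S) = (x : MulAut S) * MulAut.conj s := congrArg Subtype.val h1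
    have h3 : s⁻¹ * (x : MulAut S) s = 1 := by
      apply hconj
      intro u
      have h4 := congrArg (fun φ : MulAut S => φ ((x : MulAut S)⁻¹ u)) h2
      simp only [MulAut.mul_apply, MulAut.conj_apply, MulAut.apply_inv_self, map_mul, map_inv] at h4
      have h5 : s⁻¹ * (s * u * s⁻¹) * (x : MulAut S) s =
        s⁻¹ * ((x : MulAut S) s * u * ((x : MulAut S) s)⁻¹) * (x : MulAut S) s := by rw [h4]
      calc s⁻¹ * (x : MulAut S) s * u = s⁻¹ * ((x : MulAut S) s * u * ((x : MulAut S) s)⁻¹) * (x : MulAut S) s := by group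
        _ = s⁻¹ * (s * u * s⁻¹) * (x : MulAut S) s := h5.symm
        _ = u * (s⁻¹ * (x : MulAut S) s) := by group
    exact (inv_mul_eq_one.mp h3).symm
  have hgen : N ⊔ Subgroup.zpowers t = ⊤ := by
    rw [eq_top_iff]
    rintro ⟨x, hx⟩ -
    obtain ⟨n, hn, y, hy, rfl⟩ := Subgroup.mem_sup_of_normal_left.mp hx
    obtain ⟨j, rfl⟩ := Subgroup.mem_zpowers_iff.mp hy
    have hnH : n ∈ H := (le_sup_left : _ ≤ H) hn
    have h1 : (⟨n, hnH⟩ : H) ∈ N := by rw [hN, Subgroup.mem_subgroupOf]; exact hn
    have h2 : (⟨n * τ ^ j, hx⟩ : H) = ⟨n, hnH⟩ * t ^ j := Subtype.ext rfl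
    rw [h2]
    exact Subgroup.mul_mem_sup h1 (Subgroup.zpow_mem _ (Subgroup.mem_zpowers t) j)
  have ht1 : t ≠ 1 := fun h => hτ1 (congrArg Subtype.val h)
  have htr : t ^ r = 1 := Subtype.ext hτr
  -- the index of the centralizer
  have hidx1 : (Subgroup.centralizer ({t} : Set H)).index =
      ((Subgroup.centralizer ({t} : Set H)).comap f).index := by
    rw [Subgroup.index_comap, hfr]
    apply Cfsg.Agent.H1.Basic.index_eq_relIndex_of_factor
    intro g
    have hg : g ∈ N ⊔ Subgroup.zpowers t := by rw [hgen]; trivial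
    obtain ⟨n, hn, y, hy, rfl⟩ := Subgroup.mem_sup_of_normal_left.mp hg
    refine ⟨n, hn, y, ?_, rfl⟩
    obtain ⟨j, rfl⟩ := Subgroup.mem_zpowers_iff.mp hy
    rw [Subgroup.mem_centralizer_singleton_iff]
    exact (Commute.refl t).zpow_left j
  have hidx2 : (Subgroup.centralizer ({t} : Set H)).index ∣ p ^ a := by
    rw [hidx1]
    refine (Subgroup.index_dvd_of_le ?_).trans hidx
    intro s hs'
    rw [Subgroup.mem_comap, Subgroup.mem_centralizer_singleton_iff]
    apply Subtype.ext
    ext u
    show (MulAut.conj s * τ) u = (τ * MulAut.conj s) u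
    simp only [MulAut.mul_apply, MulAut.conj_apply, map_mul, map_inv, hτF s hs']
  obtain ⟨b, -, hb⟩ := (Nat.dvd_prime_pow hp).mp hidx2
  -- p divides |N|
  have hCt : (Subgroup.centralizer ({t} : Set H)) ≠ ⊤ := by
    intro h
    apply ht1
    have : t ∈ Subgroup.centralizer (N : Set H) := by
      rw [Subgroup.mem_centralizer_iff]
      intro n _
      have : n ∈ Subgroup.centralizer ({t} : Set H) := by rw [h]; trivial
      exact Subgroup.mem_centralizer_singleton_iff.mp this
    rwa [hC, Subgroup.mem_bot] at this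
  have hb0 : b ≠ 0 := by
    rintro rfl
    rw [pow_zero, Subgroup.index_eq_one] at hb
    exact hCt hb
  have hcardN : Nat.card S = Nat.card N := Nat.card_congr e.toEquiv
  have hpN : p ∣ Nat.card N := by
    have h1 : p ∣ (Subgroup.centralizer ({t} : Set H)).index := by rw [hb]; exact dvd_pow_self p hb0
    rw [hidx1] at h1
    rw [← hcardN]
    exact h1.trans (Subgroup.index_dvd_card _)
  -- another prime
  obtain ⟨q, hq, hqp, hqN⟩ : ∃ q : ℕ, q.Prime ∧ q ≠ p ∧ q ∣ Nat.card N := by
    by_contra hcon
    push Not at hcon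
    have : Fact p.Prime := ⟨hp⟩
    have h1 : IsPGroup p S := by
      rw [IsPGroup.iff_card]
      refine ⟨_, Nat.eq_prime_pow_of_unique_prime_dvd Nat.card_pos.ne' ?_⟩
      intro d hd hdS
      by_contra hdp
      exact hcon d hd hdp (hcardN ▸ hdS)
    have h2 := h1.bot_lt_center
    rw [hcen] at h2
    exact lt_irrefl _ h2
  have hrp := r_eq_p N hC t ht1 hp hb hr htr hgen hq hqp hqN
  subst hrp
  refine case_p N hC t ht1 hp hb htr hgen hpN ?_
  have h1 : N.index ∣ r := by
    have h2 : N.index = Nat.card (H ⧸ N) := rfl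
    rw [h2]
    have h3 : ∀ x : H ⧸ N, x ∈ Subgroup.zpowers (t : H ⧸ N) := by
      intro x
      induction x using QuotientGroup.induction_on with
      | _ x =>
      have hg : x ∈ N ⊔ Subgroup.zpowers t := by rw [hgen]; trivial
      obtain ⟨n, hn, y, hy, rfl⟩ := Subgroup.mem_sup_of_normal_left.mp hg
      obtain ⟨j, rfl⟩ := Subgroup.mem_zpowers_iff.mp hy
      refine ⟨j, ?_⟩
      show (t : H ⧸ N) ^ j = _
      rw [QuotientGroup.mk_mul, (QuotientGroup.eq_one_iff n).mpr hn, one_mul, QuotientGroup.mk_zpow]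
    rw [← orderOf_eq_card_of_forall_mem_zpowers h3]
    apply orderOf_dvd_of_pow_eq_one
    rw [← QuotientGroup.mk_pow, htr, QuotientGroup.mk_one]
  exact (Nat.dvd_prime hr).mp h1

/-- the relative index with a subnormal subgroup divides the index -/
theorem relIndex_dvd_of_subnormal {G : Type*} [Group G] [Finite G] (C : Subgroup G) {K : Subgroup G}
    (hK : K.IsSubnormal) : C.relIndex K ∣ C.index := by
  induction hK with
  | top => rw [Subgroup.relIndex_top_right]
  | step A B hle hB hN ih =>
    refine dvd_trans ?_ ih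
    have h1 : C.relIndex A = (C.subgroupOf B).relIndex (A.subgroupOf B) :=
      (Subgroup.relIndex_subgroupOf hle).symm
    have h2 : (C.subgroupOf B).relIndex (A.subgroupOf B ⊔ C.subgroupOf B) =
        (C.subgroupOf B).relIndex (A.subgroupOf B) := by
      apply Cfsg.Agent.H1.Basic.relIndex_eq_of_factor le_sup_left
      intro l hl
      obtain ⟨x, hx, y, hy, rfl⟩ := Subgroup.mem_sup_of_normal_left.mp hl
      exact ⟨x, hx, by simpa using hy⟩
    rw [h1, ← h2, Subgroup.relIndex]
    exact Dvd.intro _ (Subgroup.relIndex_mul_index le_sup_right)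

end Cfsg.Agent.HL.Kaz
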