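import Mathlib
import Cfsg.Agent.HL_KazC
import Cfsg.Agent.H1_Hall
import Cfsg.Agent.H22_PSolv

/-!
# Kazarin's theorem
-/

set_option autoImplicit false

namespace Cfsg.Agent.HL.Kaz

open Cfsg Cfsg.Agent.H11.Components Cfsg.Agent.H11.FStar Cfsg.Agent.H11.Cores

/-- in a group with trivial Fitting subgroup no nontrivial class has prime power size -/
theorem eq_one_of_fitting {G : Type*} [Group G] [Finite G] (hfit : fittingSubgroup G = ⊥)
    {p a : ℕ} (hp : p.Prime) (x : G)
    (hidx : (Subgroup.centralizer ({x} : Set G)).index ∣ p ^ a) : x = 1 := by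
  classical
  set C := Subgroup.centralizer ({x} : Set G) with hC
  by_contra hx1
  have hsub : ∀ K : Subgroup G, K.IsSubnormal → C.relIndex K ∣ p ^ a := fun K hK =>
    (relIndex_dvd_of_subnormal C hK).trans hidx
  -- some component is not centralized by x
  obtain ⟨K, hK, hKx⟩ : ∃ K : Subgroup G, IsComponent K ∧ ¬ K ≤ C := by
    by_contra hcon
    push Not at hcon
    apply hx1
    have h1 : x ∈ Subgroup.centralizer (generalizedFittingSubgroup G : Set G) := by
      rw [Subgroup.mem_centralizer_iff]
      intro h hh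
      have h2 : generalizedFittingSubgroup G ≤ C := by
        refine sup_le ?_ ?_
        · exact sSup_le fun K hK => hcon K hK
        · rw [hfit]; exact bot_le
      exact (Subgroup.mem_centralizer_singleton_iff.mp (h2 hh))
    have h2 := centralizer_generalizedFitting_le h1
    have h3 : x ∈ fittingSubgroup G := by
      refine mem_fitting_of_mem_center (N := generalizedFittingSubgroup G) ?_ h2 ?_
      · have : (generalizedFittingSubgroup G).Normal := inferInstance
        exact this.isSubnormal
      · intro y hy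
        exact (Subgroup.mem_centralizer_iff.mp h1) y hy
    rwa [hfit, Subgroup.mem_bot] at h3
  have hKc : Subgroup.center K = ⊥ := by
    rw [eq_bot_iff]
    intro z hz
    rw [Subgroup.mem_bot]
    apply Subtype.ext
    have h3 : (z : G) ∈ fittingSubgroup G := by
      refine mem_fitting_of_mem_center hK.1 z.2 ?_
      intro y hy
      exact congrArg Subtype.val (Subgroup.mem_center_iff.mp hz ⟨y, hy⟩)
    rw [hfit, Subgroup.mem_bot] at h3
    exact h3
  have hKs : IsSimpleGroup K := by
    have h1 := hK.2.2
    exact ((QuotientGroup.quotientMulEquivOfEq hKc).trans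
      (QuotientGroup.quotientBot (G := K))).isSimpleGroup_congr.mp h1
  have hKna : ¬ ∀ a b : K, a * b = b * a := by
    intro h
    exact IsQuasisimple.not_isMulCommutative hK.2 ⟨⟨h⟩⟩
  have : Fact p.Prime := ⟨hp⟩
  by_cases hKK : K.map (MulAut.conj x).toMonoidHom = K
  · have hxn : x ∈ Subgroup.normalizer (K : Set G) := by
      rw [Subgroup.mem_normalizer_iff]
      intro h
      constructor
      · intro hh
        have : x * h * x⁻¹ ∈ K.map (MulAut.conj x).toMonoidHom := ⟨h, hh, rfl⟩
        rwa [hKK] at this
      · intro hh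
        have hh : x * h * x⁻¹ ∈ K := hh
        rw [← hKK] at hh
        obtain ⟨k, hk, hk2⟩ := hh
        have : k = h := by
          have h3 : x * k * x⁻¹ = x * h * x⁻¹ := hk2
          simpa using h3
        rw [← this]; exact hk
    refine aut_false (S := K) hKna (K.normalizerMonoidHom ⟨x, hxn⟩) ?_ hp (C.subgroupOf K) ?_
      (hsub K hK.1)
    · intro h
      apply hKx
      intro k hk
      rw [hC, Subgroup.mem_centralizer_singleton_iff]
      have h1 := congrArg (fun φ : MulAut K => ((φ ⟨k, hk⟩ : K) : G)) h
      have h2 : x * k * x⁻¹ = k := by simpa using h1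
      calc k * x = (x * k * x⁻¹) * x := by rw [h2]
        _ = x * k := by group
    · intro s hs'
      rw [Subgroup.mem_subgroupOf, hC, Subgroup.mem_centralizer_singleton_iff] at hs'
      apply Subtype.ext
      simp only [Subgroup.normalizerMonoidHom_apply_apply_coe]
      rw [← hs']; group
  · -- K^x ≠ K
    have hcomm : ⁅K.map (MulAut.conj x).toMonoidHom, K⁆ = ⊥ :=
      commutator_eq_bot_of_ne ((isComponent_map_conj K x).mpr hK) hK hKK
    have hCK : C.subgroupOf K = ⊥ := by
      rw [eq_bot_iff]
      intro z hz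
      rw [Subgroup.mem_subgroupOf, hC, Subgroup.mem_centralizer_singleton_iff] at hz
      have hz2 : (z : G) ∈ K.map (MulAut.conj x).toMonoidHom := by
        refine ⟨z, z.2, ?_⟩
        show x * (z : G) * x⁻¹ = z
        rw [← hz]; group
      rw [← hKc, Subgroup.mem_center_iff]
      intro y
      apply Subtype.ext
      have h1 := (Subgroup.commutator_eq_bot_iff_le_centralizer.mp hcomm) hz2
      exact (Subgroup.mem_centralizer_iff.mp h1 y y.2)
    have h1 := hsub K hK.1
    rw [Subgroup.relIndex, hCK, Subgroup.index_bot] at h1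
    obtain ⟨b, -, hb⟩ := (Nat.dvd_prime_pow hp).mp h1
    have h2 : IsPGroup p K := IsPGroup.of_card hb
    exact IsQuasisimple.not_isNilpotent hK.2 h2.isNilpotent

theorem index_centralizer_mk {G : Type*} [Group G] [Finite G] (N : Subgroup G) [N.Normal] (x : G) :
    (Subgroup.centralizer ({(x : G ⧸ N)} : Set (G ⧸ N))).index ∣
      (Subgroup.centralizer ({x} : Set G)).index := by
  rw [← Subgroup.index_comap_of_surjective _ (QuotientGroup.mk'_surjective N)]
  apply Subgroup.index_dvd_of_le
  intro g hg
  rw [Subgroup.mem_centralizer_singleton_iff] at hg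
  rw [Subgroup.mem_comap, Subgroup.mem_centralizer_singleton_iff]
  show ((g : G ⧸ N)) * (x : G ⧸ N) = (x : G ⧸ N) * (g : G ⧸ N)
  rw [← QuotientGroup.mk_mul, hg, QuotientGroup.mk_mul]

theorem kazarin (n : ℕ) : ∀ (G : Type*) [Group G] [Finite G] (p a : ℕ) (x : G),
    Nat.card G = n → p.Prime → (Subgroup.centralizer ({x} : Set G)).index ∣ p ^ a →
    Group.IsSolvable (Subgroup.normalClosure ({x} : Set G)) := by
  induction n using Nat.strong_induction_on with
  | _ n ih =>
  intro G _ _ p a x hcard hp hidx
  by_cases hfit : fittingSubgroup G = ⊥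
  · have h1 := eq_one_of_fitting hfit hp x hidx
    rw [h1]
    have h2 : Subgroup.normalClosure ({1} : Set G) = ⊥ := by
      rw [eq_bot_iff]
      exact Subgroup.normalClosure_le_normal (by simp)
    rw [h2]
    infer_instance
  · set F := fittingSubgroup G with hF
    have hFn : F.Normal := inferInstance
    have hlt : Nat.card (G ⧸ F) < n := by
      rw [← hcard, ← Subgroup.card_mul_index F]
      have h1 : 1 < Nat.card F := by
        rw [Finite.one_lt_card_iff_nontrivial]
        exact (Subgroup.nontrivial_iff_ne_bot F).mpr hfit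
      have h2 : 0 < F.index := Nat.pos_of_ne_zero Subgroup.index_ne_zero_of_finite
      show F.index < _
      nlinarith
    have h1 := ih _ hlt (G ⧸ F) p a (x : G ⧸ F) rfl hp ((index_centralizer_mk F x).trans hidx)
    have h2 : (Subgroup.normalClosure ({x} : Set G)).map (QuotientGroup.mk' F) ≤
        Subgroup.normalClosure ({(x : G ⧸ F)} : Set (G ⧸ F)) := by
      rw [Subgroup.map_le_iff_le_comap]
      exact Subgroup.normalClosure_le_normal (by
        rintro y rfl
        exact Subgroup.subset_normalClosure rfl)
    set X := Subgroup.normalClosure ({x} : Set G) with hX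
    have h3 : Group.IsSolvable (X.map (QuotientGroup.mk' F)) :=
      Group.isSolvable_of_isSolvable_injective (Subgroup.inclusion_injective h2)
    have h4 : Group.IsSolvable F := by
      have := Cfsg.Agent.H1.Nilp.fitting_nilpotent (G := G)
      infer_instance
    have h6 : Group.IsSolvable (X ⊓ F : Subgroup G) :=
      Group.isSolvable_of_isSolvable_injective (Subgroup.inclusion_injective (inf_le_right : X ⊓ F ≤ F))
    exact Group.isSolvable_of_ker_le_range (Subgroup.inclusion (inf_le_left : X ⊓ F ≤ X))
      ((QuotientGroup.mk' F).subgroupMap X) (by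
        rintro ⟨y, hy⟩ hy2
        have h5 : (y : G ⧸ F) = 1 := congrArg Subtype.val hy2
        rw [QuotientGroup.eq_one_iff] at h5
        exact ⟨⟨y, hy, h5⟩, rfl⟩)

theorem kazarin' {G : Type*} [Group G] [Finite G] {p a : ℕ} (hp : p.Prime) (x : G)
    (hidx : (Subgroup.centralizer ({x} : Set G)).index ∣ p ^ a) :
    Group.IsSolvable (Subgroup.normalClosure ({x} : Set G)) :=
  kazarin _ G p a x rfl hp hidx

/-- with `O_p(G) = 1` an element with class of `p`-power size lies in an abelian normal
subgroup -/
theorem comm_of_pCore {G : Type*} [Group G] [Finite G] {p a : ℕ} [hpF : Fact p.Prime] (x : G)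
    (hidx : (Subgroup.centralizer ({x} : Set G)).index ∣ p ^ a) (hcore : pCore p G = ⊥) (g h : G) :
    (g * x * g⁻¹) * (h * x * h⁻¹) = (h * x * h⁻¹) * (g * x * g⁻¹) := by
  classical
  have hp := hpF.out
  set X := Subgroup.normalClosure ({x} : Set G) with hX
  have hXs : Group.IsSolvable X := kazarin' hp x hidx
  have hxX : x ∈ X := Subgroup.subset_normalClosure rfl
  -- every nilpotent normal subgroup is centralized by x
  have key : ∀ (y : G), (Subgroup.centralizer ({y} : Set G)).index ∣ p ^ a →
      fittingSubgroup G ≤ Subgroup.centralizer ({y} : Set G) := by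
    intro y hy
    rw [Cfsg.Agent.H1.Nilp.fitting_eq_iSup]
    apply iSup_le
    rintro ⟨q, hq⟩
    by_cases hqp : q = p
    · subst hqp
      show pCore q G ≤ _
      rw [hcore]; exact bot_le
    · have hqF : Fact q.Prime := ⟨hq⟩
      have h1 : (pCore q G).Normal := Cfsg.Agent.H1.Nilp.pCore_normal q
      have h2 := (relIndex_dvd_of_subnormal (Subgroup.centralizer ({y} : Set G)) h1.isSubnormal).trans hy
      obtain ⟨n, hn⟩ := IsPGroup.iff_card.mp (Cfsg.Agent.H1.Nilp.pCore_isPGroup (G := G) q)
      have h3 : (Subgroup.centralizer ({y} : Set G)).relIndex (pCore q G) ∣ q ^ n := by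
        rw [← hn]; exact Subgroup.relIndex_dvd_card _ _
      have h4 : Nat.Coprime (p ^ a) (q ^ n) :=
        Nat.Coprime.pow _ _ ((Nat.coprime_primes hp hq).mpr (Ne.symm hqp))
      have h5 := Nat.eq_one_of_dvd_coprimes h4 h2 h3
      rwa [Subgroup.relIndex_eq_one] at h5
  have hxF : x ∈ fittingSubgroup G := by
    have h1 : (⟨x, hxX⟩ : X) ∈ Subgroup.centralizer (fittingSubgroup X : Set X) := by
      rw [Subgroup.mem_centralizer_iff]
      intro y hy
      apply Subtype.ext
      have h2 : (y : G) ∈ fittingSubgroup G := by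
        have h3 : (fittingSubgroup X).map X.subtype ≤ fittingSubgroup G := by
          rw [map_fittingSubgroup_of_isSubnormal (inferInstance : X.Normal).isSubnormal]
          exact inf_le_left
        exact h3 ⟨y, hy, rfl⟩
      exact Subgroup.mem_centralizer_singleton_iff.mp (key x hidx h2)
    have h2 := Cfsg.Agent.H1.Hall.centralizer_fitting_le h1
    have h3 : (fittingSubgroup X).map X.subtype ≤ fittingSubgroup G := by
      rw [map_fittingSubgroup_of_isSubnormal (inferInstance : X.Normal).isSubnormal]
      exact inf_le_left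
    exact h3 ⟨⟨x, hxX⟩, h2, rfl⟩
  have hFn : (fittingSubgroup G).Normal := inferInstance
  have hgF := hFn.conj_mem x hxF g
  have hh : (Subgroup.centralizer ({h * x * h⁻¹} : Set G)).index ∣ p ^ a := by
    have h1 : Subgroup.centralizer ({h * x * h⁻¹} : Set G) =
        (Subgroup.centralizer ({x} : Set G)).map (MulAut.conj h).toMonoidHom := by
      ext y
      rw [Subgroup.mem_centralizer_singleton_iff]
      constructor
      · intro hy
        refine ⟨h⁻¹ * y * h, ?_, ?_⟩
        · rw [SetLike.mem_coe, Subgroup.mem_centralizer_singleton_iff]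
          calc h⁻¹ * y * h * x = h⁻¹ * (y * (h * x * h⁻¹)) * h := by group
            _ = h⁻¹ * ((h * x * h⁻¹) * y) * h := by rw [hy]
            _ = x * (h⁻¹ * y * h) := by group
        · show h * (h⁻¹ * y * h) * h⁻¹ = y
          group
      · rintro ⟨z, hz, rfl⟩
        rw [SetLike.mem_coe, Subgroup.mem_centralizer_singleton_iff] at hz
        show (h * z * h⁻¹) * (h * x * h⁻¹) = (h * x * h⁻¹) * (h * z * h⁻¹)
        calc (h * z * h⁻¹) * (h * x * h⁻¹) = h * (z * x) * h⁻¹ := by group
          _ = h * (x * z) * h⁻¹ := by rw [hz]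
          _ = _ := by group
    rw [h1]
    have h2 : ((Subgroup.centralizer ({x} : Set G)).map (MulAut.conj h).toMonoidHom).index =
        (Subgroup.centralizer ({x} : Set G)).index :=
      Subgroup.index_map_equiv _ (MulAut.conj h)
    rw [h2]; exact hidx
  exact Subgroup.mem_centralizer_singleton_iff.mp (key _ hh hgF)

/-- Camina-Camina: `[x^G, x^G] ⊆ O_p(G)` -/
theorem comm_mem_pCore {G : Type*} [Group G] [Finite G] {p a : ℕ} [hpF : Fact p.Prime] (x : G)
    (hidx : (Subgroup.centralizer ({x} : Set G)).index ∣ p ^ a) (g h : G) :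
    (g * x * g⁻¹) * (h * x * h⁻¹) * (g * x * g⁻¹)⁻¹ * (h * x * h⁻¹)⁻¹ ∈ pCore p G := by
  have hN : (pCore p G).Normal := Cfsg.Agent.H1.Nilp.pCore_normal p
  have h1 := comm_of_pCore (G := G ⧸ pCore p G) (x : G ⧸ pCore p G)
    ((index_centralizer_mk (pCore p G) x).trans hidx) Cfsg.Agent.H22.PSolv.pCore_quotient
    (g : G ⧸ pCore p G) (h : G ⧸ pCore p G)
  rw [← QuotientGroup.eq_one_iff]
  simp only [QuotientGroup.mk_mul, QuotientGroup.mk_inv]
  rw [h1]; group

end Cfsg.Agent.HL.Kaz
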