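import Mathlib
import Cfsg.Agent.HL_FTC
import Cfsg.Agent.H4_ZStar
import Cfsg.Agent.H2_Quad
import Cfsg.Agent.H1_Coprime2
import Cfsg.Agent.H1_Coprime
import Cfsg.Agent.H11_Cores

/-! `G = QN`, `C_N(Q) = C_N(t)` for some `1 ≠ t ∈ Z(Q) ∩ Q'` ⇒ `[N, Q]` has odd order. -/

set_option autoImplicit false
set_option linter.unusedSectionVars false
open Subgroup Cfsg
open scoped commutatorElement Pointwise

universe u

namespace Cfsg.Agent.HL.QN

theorem comm_lt' {L : Type*} [Group L] [Finite L] {p : ℕ} [Fact p.Prime] {G H : Subgroup L} (hH : IsPGroup p H)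
    (hG : IsPGroup p G) (hGH : G ≤ normalizer (H : Set L)) (hne : H ≠ ⊥) : ⁅H, G⁆ < H := by
  refine lt_of_le_of_ne (Cfsg.Agent.H2.Quad.commutator_le_left_of_normalizes hGH) ?_
  intro h
  have hsup : IsPGroup p (H ⊔ G : Subgroup L) := hH.to_sup_of_normal_left' hG hGH
  have hnil : Group.IsNilpotent (H ⊔ G : Subgroup L) := hsup.isNilpotent
  apply Cfsg.Agent.H1.Coprime.commutator_lt_of_nilpotent hnil le_sup_left hne
  exact h.ge.trans (Subgroup.commutator_mono le_rfl le_sup_right)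

variable {G : Type u} [Group G] [Finite G]

theorem part1 {N Q : Subgroup G} [N.Normal] (hQ : IsPGroup 2 Q) {t : G} (htQ : t ∈ ⁅Q, Q⁆)
    (hC : N ⊓ centralizer (Q : Set G) = N ⊓ centralizer ({t} : Set G)) :
    ∀ (k : ℕ) (T : Subgroup G), Nat.card T = k → T ≤ N → IsPGroup 2 T → Q ≤ normalizer (T : Set G) →
      T ≤ centralizer (Q : Set G) := by
  intro k
  induction k using Nat.strong_induction_on with
  | _ k ih =>
  intro T hk hTN hT hQT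
  by_cases hT1 : T = ⊥
  · rw [hT1]; exact bot_le
  set D := ⁅T, Q ⊔ T⁆ with hD
  have hQTp : IsPGroup 2 (Q ⊔ T : Subgroup G) := by
    rw [sup_comm]; exact hT.to_sup_of_normal_left' hQ hQT
  have hDT : D < T := comm_lt' hT hQTp (sup_le hQT Subgroup.le_normalizer) hT1
  have hnD : Q ⊔ T ≤ normalizer (D : Set G) := Subgroup.normalizer_commutator_ge_right _ _
  have hDC : D ≤ centralizer (Q : Set G) := ih (Nat.card D) (by
    rw [← hk]; exact Set.ncard_lt_ncard hDT (Set.toFinite _)) D rfl (hDT.le.trans hTN) (hT.to_le hDT.le)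
      (le_sup_left.trans hnD)
  have hcm : ∀ x ∈ D, ∀ q ∈ Q, q * x = x * q := fun x hx q hq => Subgroup.mem_centralizer_iff.1 (hDC hx) q hq
  have hc : ∀ u ∈ T, ∀ q ∈ Q, q * u * q⁻¹ * u⁻¹ ∈ D := by
    intro u hu q hq
    have h1 : ⁅u, q⁆ ∈ D := Subgroup.commutator_mem_commutator hu (Subgroup.mem_sup_left hq)
    have h2 := inv_mem h1
    rwa [commutatorElement_inv, commutatorElement_def] at h2
  have key : ∀ u ∈ T, ∀ a ∈ Q, ∀ b ∈ Q, (a * b) * u * (a * b)⁻¹ = (b * a) * u * (b * a)⁻¹ := by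
    intro u hu a ha b hb
    set x := a * u * a⁻¹ * u⁻¹ with hx
    set w := b * u * b⁻¹ * u⁻¹ with hw
    have hxD : x ∈ D := hc u hu a ha
    have hwD : w ∈ D := hc u hu b hb
    have e1 : (a * b) * u * (a * b)⁻¹ * u⁻¹ = w * x := by
      have : (a * b) * u * (a * b)⁻¹ * u⁻¹ = (a * w) * a⁻¹ * x := by rw [hw, hx]; group
      rw [this, hcm w hwD a ha]; group
    have e2 : (b * a) * u * (b * a)⁻¹ * u⁻¹ = x * w := by
      have : (b * a) * u * (b * a)⁻¹ * u⁻¹ = (b * x) * b⁻¹ * w := by rw [hw, hx]; group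
      rw [this, hcm x hxD b hb]; group
    have hy : u⁻¹ * x * u * x⁻¹ ∈ D := by
      refine mul_mem ?_ (inv_mem hxD)
      have := (Subgroup.mem_normalizer_iff.1 (hnD (Subgroup.mem_sup_right (inv_mem hu))) x).1 hxD
      simpa using this
    have e3 : x * w = w * x := by
      have h1 := hcm _ hy b hb
      have h2 := hcm x hxD b hb
      have h3 : x * w * x⁻¹ = w := by
        calc x * w * x⁻¹ = (x * b) * u * b⁻¹ * u⁻¹ * x⁻¹ := by rw [hw]; group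
          _ = b * x * u * b⁻¹ * u⁻¹ * x⁻¹ := by rw [h2]
          _ = b * u * (u⁻¹ * x * u * x⁻¹) * (x * b⁻¹) * u⁻¹ * x⁻¹ := by group
          _ = b * u * (u⁻¹ * x * u * x⁻¹) * (b⁻¹ * x) * u⁻¹ * x⁻¹ := by
              have h4 : x * b⁻¹ = b⁻¹ * x := by
                have := hcm x hxD b⁻¹ (inv_mem hb); exact this.symm
              rw [h4]
          _ = b * u * ((u⁻¹ * x * u * x⁻¹) * b⁻¹) * x * u⁻¹ * x⁻¹ := by group
          _ = b * u * (b⁻¹ * (u⁻¹ * x * u * x⁻¹)) * x * u⁻¹ * x⁻¹ := by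
              rw [← hcm _ hy b⁻¹ (inv_mem hb)]
          _ = w := by rw [hw]; group
      calc x * w = x * w * x⁻¹ * x := by group
        _ = w * x := by rw [h3]
    have e4 : (a * b) * u * (a * b)⁻¹ * u⁻¹ = (b * a) * u * (b * a)⁻¹ * u⁻¹ := by rw [e1, e2, e3]
    exact mul_right_cancel e4
  have hTt : T ≤ centralizer ({t} : Set G) := by
    intro u hu
    have h1 : ⁅Q, Q⁆ ≤ centralizer ({u} : Set G) := by
      rw [Subgroup.commutator_le]
      intro a ha b hb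
      rw [Subgroup.mem_centralizer_singleton_iff, commutatorElement_def]
      have h2 := key u hu a⁻¹ (inv_mem ha) b⁻¹ (inv_mem hb)
      have h3 : a * b * (a⁻¹ * b⁻¹ * u * (a⁻¹ * b⁻¹)⁻¹) = a * b * (b⁻¹ * a⁻¹ * u * (b⁻¹ * a⁻¹)⁻¹) := by rw [h2]
      have h4 : a * b * a⁻¹ * b⁻¹ * u = u * (a * b * a⁻¹ * b⁻¹) := by
        calc a * b * a⁻¹ * b⁻¹ * u = a * b * (a⁻¹ * b⁻¹ * u * (a⁻¹ * b⁻¹)⁻¹) * (a⁻¹ * b⁻¹) := by group
          _ = a * b * (b⁻¹ * a⁻¹ * u * (b⁻¹ * a⁻¹)⁻¹) * (a⁻¹ * b⁻¹) := by rw [h3]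
          _ = u * (a * b * a⁻¹ * b⁻¹) := by group
      exact h4
    have h2 := Subgroup.mem_centralizer_singleton_iff.1 (h1 htQ)
    exact Subgroup.mem_centralizer_singleton_iff.2 h2.symm
  intro u hu
  have : u ∈ N ⊓ centralizer (Q : Set G) := by rw [hC]; exact ⟨hTN hu, hTt hu⟩
  exact this.2

theorem nrm {A N : Subgroup G} [hN : N.Normal] {y : G} (hy : y ∈ A) (x : G) : x ∈ A ⊓ N ↔ y * x * y⁻¹ ∈ A ⊓ N := by
  rw [Subgroup.mem_inf, Subgroup.mem_inf]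
  constructor
  · rintro ⟨hx1, hx2⟩
    exact ⟨A.mul_mem (A.mul_mem hy hx1) (A.inv_mem hy), hN.conj_mem x hx2 y⟩
  · rintro ⟨hx1, hx2⟩
    have e : x = y⁻¹ * (y * x * y⁻¹) * y := by group
    refine ⟨?_, ?_⟩
    · rw [e]; exact A.mul_mem (A.mul_mem (A.inv_mem hy) hx1) hy
    · rw [e]; have := hN.conj_mem _ hx2 y⁻¹; simpa using this

theorem isolated {N Q : Subgroup G} [N.Normal] (hG : Q ⊔ N = ⊤) (hQ : IsPGroup 2 Q)
    (h1 : ∀ T : Subgroup G, T ≤ N → IsPGroup 2 T → Q ≤ normalizer (T : Set G) → T ≤ centralizer (Q : Set G))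
    {z : G} (hz : orderOf z = 2) (hzZ : z ∈ Q ⊓ centralizer (Q : Set G)) (hzQ : z ∈ ⁅Q, Q⁆) :
    IsIsolatedInvolution z := by
  obtain ⟨P, hP⟩ := hQ.exists_le_sylow
  have hzc : ∀ q ∈ Q, q * z = z * q := fun q hq => Subgroup.mem_centralizer_iff.1 hzZ.2 q hq
  rw [← H4.Iso.isolated_iff_sylow P hz (hP hzZ.1)]
  intro g hg
  have hg' : g⁻¹ ∈ Q ⊔ N := by rw [hG]; trivial
  rw [Subgroup.mem_sup_of_normal_right] at hg'
  obtain ⟨q₀, hq₀, n₀, hn₀, hgq⟩ := hg'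
  set n := n₀⁻¹ with hn
  have hnN : n ∈ N := inv_mem hn₀
  have hgz : g * z * g⁻¹ = n * z * n⁻¹ := by
    have e : g = n * q₀⁻¹ := by rw [← inv_inv g, ← hgq, hn]; group
    rw [e]
    have := hzc q₀⁻¹ (inv_mem hq₀)
    calc n * q₀⁻¹ * z * (n * q₀⁻¹)⁻¹ = n * (q₀⁻¹ * z) * q₀ * n⁻¹ := by group
      _ = n * (z * q₀⁻¹) * q₀ * n⁻¹ := by rw [this]
      _ = n * z * n⁻¹ := by group
  rw [hgz] at hg ⊢
  -- Q centralizes z' = n z n⁻¹
  have hT : (P : Subgroup G) ⊓ N ≤ centralizer (Q : Set G) := by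
    refine h1 _ inf_le_right (P.isPGroup'.to_le inf_le_left) ?_
    intro q hq
    rw [Subgroup.mem_normalizer_iff]
    exact nrm (hP hq)
  have hs : z⁻¹ * (n * z * n⁻¹) ∈ (P : Subgroup G) ⊓ N := by
    refine Subgroup.mem_inf.2 ⟨Subgroup.mul_mem _ (Subgroup.inv_mem _ (hP hzZ.1)) hg, ?_⟩
    have : z⁻¹ * (n * z * n⁻¹) = (z⁻¹ * n * z⁻¹⁻¹) * n⁻¹ := by group
    rw [this]
    exact mul_mem (Subgroup.Normal.conj_mem inferInstance n hnN z⁻¹) (inv_mem hnN)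
  have hQz : ∀ q ∈ Q, q * (n * z * n⁻¹) = (n * z * n⁻¹) * q := by
    intro q hq
    have e1 := Subgroup.mem_centralizer_iff.1 (hT hs) q hq
    have e2 := hzc q hq
    have e3 : n * z * n⁻¹ = z * (z⁻¹ * (n * z * n⁻¹)) := by group
    rw [e3, ← mul_assoc, e2, mul_assoc, e1, ← mul_assoc]
  set C := centralizer ({z} : Set G) with hC
  have hmemC : ∀ x : G, x ∈ C ↔ x * z = z * x := fun x => Subgroup.mem_centralizer_singleton_iff
  have hQC : Q ≤ C := fun q hq => (hmemC q).2 (hzc q hq)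
  set R := MulAut.conj n⁻¹ • Q with hR
  have hRmem : ∀ q ∈ Q, n⁻¹ * q * n ∈ R := fun q hq => by
    have : MulAut.conj n⁻¹ • q ∈ R := Subgroup.smul_mem_pointwise_smul _ _ _ hq
    simpa [MulAut.smul_def, MulAut.conj_apply] using this
  have hRC : R ≤ C := by
    intro x hx
    obtain ⟨q, hq, rfl⟩ := hx
    have e := hQz q hq
    rw [hmemC]
    show (n⁻¹ * q * n⁻¹⁻¹) * z = z * (n⁻¹ * q * n⁻¹⁻¹)
    calc (n⁻¹ * q * n⁻¹⁻¹) * z = n⁻¹ * (q * (n * z * n⁻¹)) * n := by group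
      _ = n⁻¹ * ((n * z * n⁻¹) * q) * n := by rw [e]
      _ = z * (n⁻¹ * q * n⁻¹⁻¹) := by group
  have hRp : IsPGroup 2 R := hQ.of_equiv (Subgroup.equivSMul (MulAut.conj n⁻¹) Q)
  have hQ' : IsPGroup 2 (Q.subgroupOf C) := hQ.comap_of_injective C.subtype C.subtype_injective
  have hR' : IsPGroup 2 (R.subgroupOf C) := hRp.comap_of_injective C.subtype C.subtype_injective
  obtain ⟨P1, hP1⟩ := hQ'.exists_le_sylow
  obtain ⟨P2, hP2⟩ := hR'.exists_le_sylow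
  obtain ⟨c, hc⟩ := MulAction.exists_smul_eq C P2 P1
  set PP := (P1 : Subgroup C).map C.subtype with hPP
  have hPPp : IsPGroup 2 PP := P1.isPGroup'.map _
  have hQPP : Q ≤ PP := fun q hq => ⟨⟨q, hQC hq⟩, hP1 (Subgroup.mem_subgroupOf.2 hq), rfl⟩
  have hcR : ∀ x ∈ R, (c : G) * x * (c : G)⁻¹ ∈ PP := by
    intro x hx
    have hx2 : (⟨x, hRC hx⟩ : C) ∈ P2 := hP2 (Subgroup.mem_subgroupOf.2 hx)
    have hx3 : c * ⟨x, hRC hx⟩ * c⁻¹ ∈ P1 := by
      rw [← hc]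
      have := (H4.Iso.mem_smul_sylow P2 c (c * ⟨x, hRC hx⟩ * c⁻¹)).2 (by
        have : c⁻¹ * (c * ⟨x, hRC hx⟩ * c⁻¹) * c = ⟨x, hRC hx⟩ := by group
        rw [this]; exact hx2)
      exact this
    exact ⟨_, hx3, rfl⟩
  have hcG : (c : G) ∈ Q ⊔ N := by rw [hG]; trivial
  rw [Subgroup.mem_sup_of_normal_right] at hcG
  obtain ⟨q', hq', n₁, hn₁, hcq⟩ := hcG
  have hn₁C : n₁ ∈ C := by
    have : n₁ = q'⁻¹ * (c : G) := by rw [← hcq]; group
    rw [this]; exact mul_mem (inv_mem (hQC hq')) c.2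
  set m := n * n₁⁻¹ with hm
  have hmN : m ∈ N := mul_mem hnN (inv_mem hn₁)
  have hmQ : ∀ q ∈ Q, m⁻¹ * q * m ∈ PP := by
    intro q hq
    have e1 := hcR _ (hRmem q hq)
    have e2 : m⁻¹ * q * m = q'⁻¹ * ((c : G) * (n⁻¹ * q * n) * (c : G)⁻¹) * q' := by
      rw [hm, ← hcq]; group
    rw [e2]
    exact mul_mem (mul_mem (inv_mem (hQPP hq')) e1) (hQPP hq')
  have hmz : m * z * m⁻¹ = n * z * n⁻¹ := by
    have e := (hmemC n₁).1 hn₁C
    calc m * z * m⁻¹ = n * (n₁⁻¹ * (z * n₁)) * n⁻¹ := by rw [hm]; group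
      _ = n * (n₁⁻¹ * (n₁ * z)) * n⁻¹ := by rw [e]
      _ = n * z * n⁻¹ := by group
  -- T1
  have hnorm : ∀ y ∈ PP, ∀ τ, τ ∈ PP ⊓ N ↔ y * τ * y⁻¹ ∈ PP ⊓ N := fun y hy => nrm hy
  have hT1 : PP ⊓ N ≤ centralizer (Q : Set G) := by
    refine h1 _ inf_le_right (hPPp.to_le inf_le_left) ?_
    intro q hq
    rw [Subgroup.mem_normalizer_iff]
    exact hnorm q (hQPP hq)
  have hT2 : MulAut.conj m • (PP ⊓ N) ≤ centralizer (Q : Set G) := by
    refine h1 _ ?_ ?_ ?_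
    · rintro _ ⟨x, hx, rfl⟩
      exact Subgroup.Normal.conj_mem inferInstance x hx.2 m
    · exact (hPPp.to_le inf_le_left).of_equiv (Subgroup.equivSMul (MulAut.conj m) _)
    · intro q hq
      rw [Subgroup.mem_normalizer_iff]
      intro x
      have hmem : ∀ x, x ∈ MulAut.conj m • (PP ⊓ N) ↔ m⁻¹ * x * m ∈ PP ⊓ N := fun x => by
        rw [Subgroup.mem_pointwise_smul_iff_inv_smul_mem]
        simp only [← map_inv, MulAut.smul_def, MulAut.conj_apply, inv_inv]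
      rw [hmem, hmem, hnorm _ (hmQ q hq)]
      have : m⁻¹ * q * m * (m⁻¹ * x * m) * (m⁻¹ * q * m)⁻¹ = m⁻¹ * (q * x * q⁻¹) * m := by group
      rw [this]
  have hτ : ∀ q ∈ Q, q⁻¹ * (m⁻¹ * q * m) ∈ PP ⊓ N := by
    intro q hq
    refine Subgroup.mem_inf.2 ⟨PP.mul_mem (PP.inv_mem (hQPP hq)) (hmQ q hq), ?_⟩
    have : q⁻¹ * (m⁻¹ * q * m) = (q⁻¹ * m⁻¹ * q⁻¹⁻¹) * m := by group
    rw [this]
    exact mul_mem (Subgroup.Normal.conj_mem inferInstance _ (inv_mem hmN) q⁻¹) hmN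
  have hcomm : ⁅Q, Q⁆ ≤ centralizer ({m} : Set G) := by
    rw [Subgroup.commutator_le]
    intro a ha b hb
    rw [Subgroup.mem_centralizer_singleton_iff]
    set τ := a⁻¹ * (m⁻¹ * a * m) with hτ1
    set σ := b⁻¹ * (m⁻¹ * b * m) with hσ1
    have ea : m⁻¹ * a * m = a * τ := by rw [hτ1]; group
    have eb : m⁻¹ * b * m = b * σ := by rw [hσ1]; group
    have h2 : b * τ = τ * b := Subgroup.mem_centralizer_iff.1 (hT1 (hτ a ha)) b hb
    have h3 : a * σ = σ * a := Subgroup.mem_centralizer_iff.1 (hT1 (hτ b hb)) a ha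
    have h2a : a * τ = τ * a := Subgroup.mem_centralizer_iff.1 (hT1 (hτ a ha)) a ha
    have h3b : b * σ = σ * b := Subgroup.mem_centralizer_iff.1 (hT1 (hτ b hb)) b hb
    have h4 : (b * σ) * τ = τ * (b * σ) := by
      have hmem : m * τ * m⁻¹ ∈ MulAut.conj m • (PP ⊓ N) := ⟨τ, hτ a ha, rfl⟩
      have := Subgroup.mem_centralizer_iff.1 (hT2 hmem) b hb
      rw [← eb]
      calc m⁻¹ * b * m * τ = m⁻¹ * (b * (m * τ * m⁻¹)) * m := by group
        _ = m⁻¹ * ((m * τ * m⁻¹) * b) * m := by rw [this]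
        _ = τ * (m⁻¹ * b * m) := by group
    have h5 : σ * τ = τ * σ := by
      have : b * (σ * τ) = b * (τ * σ) := by
        rw [← mul_assoc, h4, ← mul_assoc, ← h2, mul_assoc]
      exact mul_left_cancel this
    have h6 : m⁻¹ * ⁅a, b⁆ * m = ⁅a, b⁆ := by
      have e : m⁻¹ * ⁅a, b⁆ * m = ⁅m⁻¹ * a * m, m⁻¹ * b * m⁆ := by
        rw [commutatorElement_def, commutatorElement_def]; group
      rw [e, ea, eb, commutatorElement_def, commutatorElement_def]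
      have c1 : Commute a τ := h2a
      have c2 : Commute a σ := h3
      have c3 : Commute b τ := h2
      have c4 : Commute b σ := h3b
      have c5 : Commute σ τ := h5
      calc a * τ * (b * σ) * (a * τ)⁻¹ * (b * σ)⁻¹ = a * (τ * b) * σ * τ⁻¹ * a⁻¹ * (σ⁻¹ * b⁻¹) := by group
        _ = a * (b * τ) * σ * τ⁻¹ * a⁻¹ * (b⁻¹ * σ⁻¹) := by rw [h2, (c4.inv_inv.symm).eq]
        _ = a * b * (τ * σ * τ⁻¹) * a⁻¹ * b⁻¹ * σ⁻¹ := by group
        _ = a * b * σ * a⁻¹ * b⁻¹ * σ⁻¹ := by rw [← h5]; group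
        _ = a * b * (σ * a⁻¹) * b⁻¹ * σ⁻¹ := by group
        _ = a * b * (a⁻¹ * σ) * b⁻¹ * σ⁻¹ := by rw [(c2.symm.inv_right).eq]
        _ = a * b * a⁻¹ * (σ * b⁻¹) * σ⁻¹ := by group
        _ = a * b * a⁻¹ * (b⁻¹ * σ) * σ⁻¹ := by rw [(c4.symm.inv_right).eq]
        _ = a * b * a⁻¹ * b⁻¹ := by group
    calc ⁅a, b⁆ * m = m * (m⁻¹ * ⁅a, b⁆ * m) := by group
      _ = m * ⁅a, b⁆ := by rw [h6]
  have hfin := Subgroup.mem_centralizer_singleton_iff.1 (hcomm hzQ)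
  rw [← hmz, ← hfin]
  group

end Cfsg.Agent.HL.QN
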