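import Mathlib
import Cfsg.Agent.HL_QN

set_option autoImplicit false
set_option linter.unusedSectionVars false
open Subgroup Cfsg
open scoped commutatorElement Pointwise

universe u

namespace Cfsg.Agent.HL.QN

theorem odd_of_dvd {a b : ℕ} (h : a ∣ b) (hb : Odd b) : Odd a := Odd.of_dvd_nat hb h

theorem main (k : ℕ) : ∀ (G : Type u) [Group G] [Finite G], Nat.card G = k → ∀ (N Q : Subgroup G) [N.Normal],
    Q ⊔ N = ⊤ → IsPGroup 2 Q → Q ⊓ N = ⊥ → ∀ t : G, t ≠ 1 → t ∈ Q ⊓ centralizer (Q : Set G) → t ∈ ⁅Q, Q⁆ →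
    N ⊓ centralizer (Q : Set G) = N ⊓ centralizer ({t} : Set G) → Odd (Nat.card ↥⁅N, Q⁆) := by
  induction k using Nat.strong_induction_on with
  | _ k ih =>
  intro G _ _ hk N Q _ hG hQ hdisj t ht1 htZ htQ hC
  have h1 := fun T : Subgroup G => part1 (N := N) hQ htQ hC (Nat.card T) T rfl
  have hqt : ∀ q ∈ Q, q * t = t * q := fun q hq => Subgroup.mem_centralizer_iff.1 htZ.2 q hq
  -- the involution z
  obtain ⟨j, hj⟩ : ∃ j, orderOf t = 2 ^ j := by
    obtain ⟨j, hj⟩ := hQ ⟨t, htZ.1⟩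
    have h2 : t ^ 2 ^ j = 1 := by simpa using congrArg Subtype.val hj
    obtain ⟨i, -, hi⟩ := (Nat.dvd_prime_pow Nat.prime_two).1 (orderOf_dvd_of_pow_eq_one h2)
    exact ⟨i, hi⟩
  have hj0 : j ≠ 0 := by
    rintro rfl
    rw [pow_zero, orderOf_eq_one_iff] at hj
    exact ht1 hj
  obtain ⟨i, rfl⟩ := Nat.exists_eq_succ_of_ne_zero hj0
  set z := t ^ 2 ^ i with hz
  have hz2 : orderOf z = 2 := by
    rw [hz, orderOf_pow' t (pow_ne_zero _ two_ne_zero), hj, Nat.succ_eq_add_one, pow_succ]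
    rw [Nat.gcd_eq_right (Dvd.intro _ rfl), Nat.mul_div_cancel_left _ (by positivity)]
  have hzQ : z ∈ Q := Subgroup.pow_mem _ htZ.1 _
  have hqz : ∀ q ∈ Q, q * z = z * q := fun q hq => by
    have : Commute q t := hqt q hq
    exact (this.pow_right _).eq
  have hzZ : z ∈ Q ⊓ centralizer (Q : Set G) :=
    Subgroup.mem_inf.2 ⟨hzQ, Subgroup.mem_centralizer_iff.2 hqz⟩
  have hzQ' : z ∈ ⁅Q, Q⁆ := Subgroup.pow_mem _ htQ _
  have hI : IsIsolatedInvolution z := isolated hG hQ (fun T hT hTp hTn => h1 T hT hTp hTn) hz2 hzZ hzQ'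
  have hzz : z * z = 1 := by rw [← pow_two, ← hz2, pow_orderOf_eq_one]
  have hzinv : z⁻¹ = z := inv_eq_of_mul_eq_one_left hzz
  set O := oddCore G ⊓ N with hO
  have hOodd : Odd (Nat.card O) := by
    have h2 : Odd (Nat.card (oddCore G)) := Nat.coprime_two_right.mp (Cfsg.Agent.H11.Cores.pPrimeCore_coprime 2)
    exact odd_of_dvd (Subgroup.card_dvd_of_le inf_le_left) h2
  haveI : O.Normal := Subgroup.normal_inf_normal _ _
  have hzO : ∀ n ∈ N, n⁻¹ * (z * n * z⁻¹) ∈ O := by
    intro n hn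
    refine Subgroup.mem_inf.2 ⟨?_, ?_⟩
    · have h5 := H4.ZStar.zstar hI n
      have h6 := (inferInstance : (oddCore G).Normal).conj_mem _ h5 n⁻¹
      have h7 : n⁻¹ * (z * n * z⁻¹ * n⁻¹) * n⁻¹⁻¹ = n⁻¹ * (z * n * z⁻¹) := by group
      rwa [h7] at h6
    · exact N.mul_mem (N.inv_mem hn) (Subgroup.Normal.conj_mem inferInstance n hn z)
  have hzpow : ∀ a ∈ Subgroup.zpowers z, a = 1 ∨ a = z := by
    intro a ha
    obtain ⟨e, rfl⟩ := Subgroup.mem_zpowers_iff.1 ha
    rcases Int.even_or_odd' e with ⟨f, rfl | rfl⟩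
    · left; rw [zpow_mul]; have : z ^ (2 : ℤ) = 1 := by rw [zpow_two, hzz]
      rw [this, one_zpow]
    · right; rw [zpow_add, zpow_mul]; have : z ^ (2 : ℤ) = 1 := by rw [zpow_two, hzz]
      rw [this, one_zpow, one_mul, zpow_one]
  have key : ∀ n ∈ N, ∃ d ∈ O, n * d ∈ centralizer ({z} : Set G) := by
    intro n hn
    obtain ⟨d, hd, h2⟩ := H1.Coprime.exists_mul_mem_centralizer (A := Subgroup.zpowers z) (D := O)
      (by rw [Subgroup.normalizer_eq_top]; exact le_top)
      (by rw [Nat.card_zpowers, hz2]; exact (Nat.coprime_two_left).2 hOodd)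
      (Or.inl inferInstance) n (by
        intro a ha
        rcases hzpow a ha with rfl | rfl
        · simp
        · exact hzO n hn)
    refine ⟨d, hd, Subgroup.mem_centralizer_singleton_iff.2 ?_⟩
    exact (Subgroup.mem_centralizer_iff.1 h2 z (Subgroup.mem_zpowers z)).symm
  set C := centralizer ({z} : Set G) with hCdef
  have hmemC : ∀ x : G, x ∈ C ↔ x * z = z * x := fun x => Subgroup.mem_centralizer_singleton_iff
  have hQC : Q ≤ C := fun q hq => (hmemC q).2 (hqz q hq)
  -- enough: an odd order subgroup of `C` containing `[N ∩ C, Q]`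
  have red : ∀ M : Subgroup G, Odd (Nat.card M) → (∀ c ∈ N ⊓ C, ∀ q ∈ Q, ⁅c, q⁆ ∈ M) → Odd (Nat.card ↥⁅N, Q⁆) := by
    intro M hM hc
    have hle : ⁅N, Q⁆ ≤ M ⊔ O := by
      rw [Subgroup.commutator_le]
      intro n hn q hq
      obtain ⟨d, hd, hnd⟩ := key n hn
      set c := n * d with hcdef
      have hcN : c ∈ N ⊓ C := Subgroup.mem_inf.2 ⟨N.mul_mem hn hd.2, hnd⟩
      have e : ⁅n, q⁆ = (c * (d⁻¹ * (q * d * q⁻¹)) * c⁻¹) * ⁅c, q⁆ := by
        rw [commutatorElement_def, commutatorElement_def, hcdef]; group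
      rw [e]
      refine Subgroup.mul_mem _ (Subgroup.mem_sup_right ?_) (Subgroup.mem_sup_left (hc c hcN q hq))
      exact Subgroup.Normal.conj_mem inferInstance _ (O.mul_mem (O.inv_mem hd) (Subgroup.Normal.conj_mem inferInstance _ hd q)) c
    refine odd_of_dvd (Subgroup.card_dvd_of_le hle) ?_
    have h2 : Nat.card ↥(M ⊔ O) ∣ Nat.card M * Nat.card O := by
      have h3 : O.relIndex (M ⊔ O) = O.relIndex M := Subgroup.relIndex_sup_right _ _
      have h4 := H12.Hall.relIndex_mul (A := O) (B := M ⊔ O) le_sup_right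
      rw [← h4, h3]
      exact mul_dvd_mul_right (Subgroup.relIndex_dvd_card _ _) _
    exact odd_of_dvd h2 (hM.mul hOodd)
  by_cases hzt : z = t
  · refine red ⊥ (by rw [Subgroup.card_bot]; exact odd_one) ?_
    intro c hc q hq
    have h2 : c ∈ N ⊓ centralizer (Q : Set G) := by rw [hC, ← hzt]; exact hc
    have h3 := Subgroup.mem_centralizer_iff.1 h2.2 q hq
    rw [Subgroup.mem_bot, commutatorElement_eq_one_iff_mul_comm]
    exact h3.symm
  · -- pass to `C / ⟨z⟩`
    have hzC : z ∈ C := hQC hzQ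
    set z' : C := ⟨z, hzC⟩ with hz'
    set Z := Subgroup.zpowers z' with hZ
    have hZ2 : ∀ a : C, a ∈ Z → a = 1 ∨ a = z' := by
      intro a ha
      have h2 : (a : G) ∈ Subgroup.zpowers z := by
        obtain ⟨e, rfl⟩ := Subgroup.mem_zpowers_iff.1 ha
        exact Subgroup.mem_zpowers_iff.2 ⟨e, by simp [hz']⟩
      rcases hzpow _ h2 with h3 | h3
      · left; exact Subtype.ext h3
      · right; exact Subtype.ext h3
    haveI : Z.Normal := by
      refine ⟨fun a ha g => ?_⟩
      rcases hZ2 a ha with rfl | rfl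
      · simp
      · have : g * z' * g⁻¹ = z' := by
          apply Subtype.ext
          have := (hmemC g).1 g.2
          show (g : G) * z * (g : G)⁻¹ = z
          rw [this]; group
        rw [this]; exact ha
    set N' := N.subgroupOf C with hN'
    set Q' := Q.subgroupOf C with hQ'
    set f := QuotientGroup.mk' Z with hf
    haveI : (N'.map f).Normal := Subgroup.Normal.map inferInstance _ (QuotientGroup.mk'_surjective Z)
    have hf1 : ∀ a : C, f a = 1 ↔ a ∈ Z := fun a => by rw [hf]; exact QuotientGroup.eq_one_iff a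
    have hcard : Nat.card (C ⧸ Z) < k := by
      have h2 : Nat.card C = Nat.card (C ⧸ Z) * Nat.card Z := Subgroup.card_eq_card_quotient_mul_card_subgroup Z
      have h3 : Nat.card Z = 2 := by
        rw [hZ, Nat.card_zpowers, ← hz2, hz']
        exact (Subgroup.orderOf_mk (H := C) z hzC)
      have h4 : Nat.card C ≤ Nat.card G := Subgroup.card_le_card_group C
      have h5 : 0 < Nat.card (C ⧸ Z) := Nat.card_pos
      rw [h3] at h2
      omega
    have hNZ : ∀ a : C, (a : G) ∈ N → a ∈ Z → a = 1 := by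
      intro a haN haZ
      rcases hZ2 a haZ with h2 | h2
      · exact h2
      · exfalso
        rw [h2] at haN
        have : z ∈ Q ⊓ N := Subgroup.mem_inf.2 ⟨hzQ, haN⟩
        rw [hdisj, Subgroup.mem_bot] at this
        rw [this, orderOf_one] at hz2
        omega
    set t' : C := ⟨t, hQC htZ.1⟩ with ht'
    have hcommN : ∀ n : C, (n : G) ∈ N → ∀ x : C, Commute (f n) (f x) → Commute n x := by
      intro n hn x hx
      have h2 : f (n * x * n⁻¹ * x⁻¹) = 1 := by
        rw [map_mul, map_mul, map_mul, map_inv, map_inv, hx.eq]; group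
      rw [hf1] at h2
      have h3 : n * x * n⁻¹ * x⁻¹ = 1 := by
        refine hNZ _ ?_ h2
        have : ((n * x * n⁻¹ * x⁻¹ : C) : G) = (n : G) * ((x : G) * (n : G)⁻¹ * (x : G)⁻¹) := by
          push_cast; group
        rw [this]
        exact N.mul_mem hn (Subgroup.Normal.conj_mem inferInstance _ (N.inv_mem hn) _)
      show n * x = x * n
      have h4 : n * x = (n * x * n⁻¹ * x⁻¹) * (x * n) := by group
      rw [h4, h3, one_mul]
    have res := ih (Nat.card (C ⧸ Z)) hcard (C ⧸ Z) rfl (N'.map f) (Q'.map f) ?_ ?_ ?_ (f t') ?_ ?_ ?_ ?_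
    · -- conclusion
      have hNQ : ⁅N', Q'⁆ ≤ N' := Subgroup.commutator_le_left N' Q'
      have hinj : Set.InjOn f ((⁅N', Q'⁆ : Subgroup C) : Set C) := by
        intro a ha b hb hab
        have h2 : f (a * b⁻¹) = 1 := by rw [map_mul, map_inv, hab, mul_inv_cancel]
        rw [hf1] at h2
        have h3 : a * b⁻¹ = 1 := hNZ _ (by
          have := N'.mul_mem (hNQ ha) (N'.inv_mem (hNQ hb))
          exact this) h2
        exact mul_inv_eq_one.1 h3
      have hcd : Nat.card ↥⁅N', Q'⁆ = Nat.card ↥⁅N'.map f, Q'.map f⁆ := by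
        rw [← Subgroup.map_commutator]
        show Nat.card ((⁅N', Q'⁆ : Subgroup C) : Set C) = Nat.card (f '' ((⁅N', Q'⁆ : Subgroup C) : Set C))
        exact (Nat.card_image_of_injOn hinj).symm
      refine red (⁅N', Q'⁆.map C.subtype) ?_ ?_
      · rw [Subgroup.card_map_of_injective C.subtype_injective, hcd]; exact res
      · intro c hc q hq
        refine ⟨⁅(⟨c, hc.2⟩ : C), ⟨q, hQC hq⟩⁆, ?_, rfl⟩
        exact Subgroup.commutator_mem_commutator (Subgroup.mem_subgroupOf.2 hc.1) (Subgroup.mem_subgroupOf.2 hq)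
    · rw [← Subgroup.map_sup, eq_top_iff]
      have h2 : Q' ⊔ N' = ⊤ := by
        rw [eq_top_iff]
        intro c _
        have hcG : (c : G) ∈ Q ⊔ N := by rw [hG]; trivial
        rw [Subgroup.mem_sup_of_normal_right] at hcG
        obtain ⟨q, hq, n, hn, hcq⟩ := hcG
        have hnC : n ∈ C := by
          have : n = q⁻¹ * (c : G) := by rw [← hcq]; group
          rw [this]; exact C.mul_mem (C.inv_mem (hQC hq)) c.2
        have : c = ⟨q, hQC hq⟩ * ⟨n, hnC⟩ := Subtype.ext hcq.symm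
        rw [this]
        exact Subgroup.mul_mem _ (Subgroup.mem_sup_left (Subgroup.mem_subgroupOf.2 hq))
          (Subgroup.mem_sup_right (Subgroup.mem_subgroupOf.2 hn))
      rw [h2, Subgroup.map_top_of_surjective _ (QuotientGroup.mk'_surjective Z)]
    · exact (hQ.comap_of_injective C.subtype C.subtype_injective).map f
    · rw [eq_bot_iff]
      rintro _ ⟨⟨q, hq, rfl⟩, ⟨n, hn, hqn⟩⟩
      have h2 : f (n⁻¹ * q) = 1 := by rw [map_mul, map_inv, hqn, inv_mul_cancel]
      rw [hf1] at h2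
      have hnQ : (n : G) ∈ Q := by
        have e : (n : G) = q * (((n⁻¹ * q : C) : G))⁻¹ := by push_cast; group
        rw [e]
        refine Q.mul_mem hq (Q.inv_mem ?_)
        rcases hZ2 _ h2 with h3 | h3
        · rw [h3]; exact Q.one_mem
        · rw [h3]; exact hzQ
      have h3 : (n : G) ∈ Q ⊓ N := Subgroup.mem_inf.2 ⟨hnQ, hn⟩
      rw [hdisj, Subgroup.mem_bot] at h3
      have h4 : n = 1 := Subtype.ext h3
      rw [Subgroup.mem_bot, ← hqn, h4, map_one]
    · intro h2
      rw [hf1] at h2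
      rcases hZ2 _ h2 with h3 | h3
      · exact ht1 (congrArg Subtype.val h3)
      · exact hzt (congrArg Subtype.val h3).symm
    · refine Subgroup.mem_inf.2 ⟨⟨t', Subgroup.mem_subgroupOf.2 htZ.1, rfl⟩, Subgroup.mem_centralizer_iff.2 ?_⟩
      rintro _ ⟨q, hq, rfl⟩
      rw [← map_mul, ← map_mul]
      congr 1
      exact Subtype.ext (hqt q hq)
    · rw [← Subgroup.map_commutator]
      refine ⟨t', ?_, rfl⟩
      have h2 : ⁅Q', Q'⁆.map C.subtype = ⁅Q, Q⁆ := by
        rw [Subgroup.map_commutator, hQ', Subgroup.subgroupOf_map_subtype, inf_eq_left.2 hQC]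
      rw [← h2] at htQ
      obtain ⟨y, hy, hyt⟩ := htQ
      have : y = t' := Subtype.ext hyt
      rwa [← this]
    · apply le_antisymm
      · refine inf_le_inf_left _ (Subgroup.centralizer_le ?_)
        rw [Set.singleton_subset_iff]
        exact ⟨t', Subgroup.mem_subgroupOf.2 htZ.1, rfl⟩
      · rintro _ ⟨⟨n, hn, rfl⟩, hc⟩
        refine Subgroup.mem_inf.2 ⟨⟨n, hn, rfl⟩, Subgroup.mem_centralizer_iff.2 ?_⟩
        have h2 : Commute n t' := hcommN n hn t' (Subgroup.mem_centralizer_singleton_iff.1 hc)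
        have h3 : (n : G) ∈ N ⊓ centralizer (Q : Set G) := by
          rw [hC]
          exact Subgroup.mem_inf.2 ⟨hn, Subgroup.mem_centralizer_singleton_iff.2 (congrArg Subtype.val h2.eq)⟩
        rintro _ ⟨q, hq, rfl⟩
        rw [← map_mul, ← map_mul]
        congr 1
        exact Subtype.ext (Subgroup.mem_centralizer_iff.1 h3.2 q hq)

end Cfsg.Agent.HL.QN
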