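import Cfsg.Agent.HL_SzSubJ
import Cfsg.Agent.HL_SzModelB

/-! counting solvable two-generator subgroups of Suzuki groups: the abstract part. -/

set_option autoImplicit false

namespace Cfsg.Agent.HL.SzSolv

/-- centraliser -/
abbrev C {G : Type*} [Group G] (z : G) : Subgroup G := Subgroup.centralizer ({z} : Set G)
/-- normaliser of the centraliser -/
abbrev N {G : Type*} [Group G] (z : G) : Subgroup G := Subgroup.normalizer ((Subgroup.centralizer ({z} : Set G) : Subgroup G) : Set G)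

/-- the abstract hypotheses -/
structure SZ (G : Type*) [Group G] [Fintype G] (q : ℕ) : Prop where
  ge : 8 ≤ q
  cardG : Nat.card G = q ^ 2 * (q ^ 2 + 1) * (q - 1)
  two : ∀ g : G, Odd (orderOf g) ∨ orderOf g = 2 ∨ orderOf g = 4
  cent : ∀ (P : Sylow 2 G) (x : G), x ∈ (P : Subgroup G) → x ≠ 1 → C x ≤ (P : Subgroup G)
  odd : ∀ z : G, z ≠ 1 → Odd (orderOf z) → Odd (Nat.card (C z)) ∧
    ∀ w ∈ C z, w ≠ 1 → C w = C z
  nrm : ∀ z : G, z ≠ 1 → Odd (orderOf z) →
    Nat.card (N z) = 2 * Nat.card (C z) ∨ Nat.card (N z) = 4 * Nat.card (C z)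
  oddm : ∀ z w : G, z ≠ 1 → Odd (orderOf z) → Odd (orderOf w) → w ∈ N z → w ∈ C z

section gen
variable {G : Type*} [Group G]

theorem mem_C {x a : G} : a ∈ C x ↔ a * x = x * a := by
  rw [Subgroup.mem_centralizer_iff]
  simp only [Set.mem_singleton_iff, forall_eq]
  exact eq_comm

theorem self_C (x : G) : x ∈ C x := by rw [mem_C]

theorem C_le_N (x : G) : C x ≤ N x := Subgroup.le_normalizer

end gen

variable {G : Type*} [Group G] [Fintype G] {q : ℕ}

theorem SZ.comm (H : SZ G q) {z : G} (hz : z ≠ 1) (ho : Odd (orderOf z)) {a b : G} (ha : a ∈ C z) (hb : b ∈ C z) :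
    a * b = b * a := by
  by_cases h1 : b = 1
  · rw [h1]; simp
  · have := (H.odd z hz ho).2 b hb h1
    have h2 : a ∈ C b := by rw [this]; exact ha
    exact mem_C.mp h2

theorem SZ.odd_of_mem (H : SZ G q) {z : G} (hz : z ≠ 1) (ho : Odd (orderOf z)) {a : G} (ha : a ∈ C z) : Odd (orderOf a) := by
  have h1 : orderOf a ∣ Nat.card (C z) := by
    have := orderOf_dvd_natCard (⟨a, ha⟩ : C z)
    rwa [Subgroup.orderOf_mk] at this
  exact Odd.of_dvd_nat (H.odd z hz ho).1 h1

theorem two_of {x : G} (hx : orderOf x = 2 ∨ orderOf x = 4) : ¬ Odd (orderOf x) := by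
  rcases hx with h | h <;> rw [h] <;> decide

theorem pElem {x : G} (hx : orderOf x = 2 ∨ orderOf x = 4) : ∃ k, x ^ 2 ^ k = 1 := by
  refine ⟨2, ?_⟩
  apply orderOf_dvd_iff_pow_eq_one.mp
  rcases hx with h | h <;> rw [h] <;> norm_num

theorem small_comm {H : Type*} [Group H] [Finite H] (hH : Nat.card H ≤ 4) (a b : H) : a * b = b * a := by
  have h0 : 0 < Nat.card H := Nat.card_pos
  have h1 : Nat.card H = 1 ∨ Nat.card H = 2 ∨ Nat.card H = 3 ∨ Nat.card H = 2 ^ 2 := by omega
  rcases h1 with h | h | h | h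
  · haveI := (Nat.card_eq_one_iff_unique.mp h).1
    exact Subsingleton.elim _ _
  · haveI : Fact (Nat.Prime 2) := ⟨by norm_num⟩
    haveI := isCyclic_of_prime_card h
    letI : CommGroup H := IsCyclic.commGroup
    exact mul_comm a b
  · haveI : Fact (Nat.Prime 3) := ⟨by norm_num⟩
    haveI := isCyclic_of_prime_card h
    letI : CommGroup H := IsCyclic.commGroup
    exact mul_comm a b
  · haveI : Fact (Nat.Prime 2) := ⟨by norm_num⟩
    exact IsPGroup.commutative_of_card_eq_prime_sq h a b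

/-- product counting -/
theorem card_mul_le (A B K : Subgroup G) (hA : A ≤ K) (hB : B ≤ K) (hAB : ∀ x, x ∈ A → x ∈ B → x = 1) :
    Nat.card A * Nat.card B ≤ Nat.card K := by
  rw [← Nat.card_prod]
  refine Nat.card_le_card_of_injective (fun p : A × B => (⟨p.1.1 * p.2.1, mul_mem (hA p.1.2) (hB p.2.2)⟩ : K)) ?_
  rintro ⟨⟨a, ha⟩, ⟨b, hb⟩⟩ ⟨⟨a', ha'⟩, ⟨b', hb'⟩⟩ h
  have h1 : a * b = a' * b' := congrArg Subtype.val h
  have h2 : a'⁻¹ * a = b' * b⁻¹ := by
    rw [inv_mul_eq_iff_eq_mul, ← mul_assoc, ← h1]; group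
  have h3 : a'⁻¹ * a = 1 := hAB _ (mul_mem (inv_mem ha') ha) (by rw [h2]; exact mul_mem hb' (inv_mem hb))
  have h4 : a = a' := by rw [inv_mul_eq_one] at h3; exact h3.symm
  subst h4
  have h5 : b = b' := mul_left_cancel h1
  subst h5
  rfl

/-- the index -/
noncomputable def kk (z : G) : ℕ := Nat.card (N z) / Nat.card (C z)

theorem card_C_pos (z : G) : 0 < Nat.card (C z) := Nat.card_pos

theorem SZ.kk_spec (H : SZ G q) {z : G} (hz : z ≠ 1) (ho : Odd (orderOf z)) :
    (kk z = 2 ∨ kk z = 4) ∧ Nat.card (N z) = kk z * Nat.card (C z) := by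
  have hp := card_C_pos z
  rcases H.nrm z hz ho with h | h
  · have : kk z = 2 := by
      unfold kk; rw [h]; exact Nat.mul_div_cancel _ hp
    exact ⟨Or.inl this, by rw [this]; exact h⟩
  · have : kk z = 4 := by
      unfold kk; rw [h]; exact Nat.mul_div_cancel _ hp
    exact ⟨Or.inr this, by rw [this]; exact h⟩

theorem SZ.P_C (H : SZ G q) (P : Sylow 2 G) {z : G} (hz : z ≠ 1) (ho : Odd (orderOf z)) {t : G} (ht : t ∈ C z)
    (hP : t ∈ (P : Subgroup G)) : t = 1 := by
  have h1 := H.odd_of_mem hz ho ht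
  obtain ⟨k, hk⟩ := P.2 ⟨t, hP⟩
  have h2 : t ^ 2 ^ k = 1 := congrArg Subtype.val hk
  have h3 : orderOf t ∣ 2 ^ k := orderOf_dvd_of_pow_eq_one h2
  have h4 : Nat.Coprime (orderOf t) (2 ^ k) := Nat.Coprime.pow_right _ (Nat.coprime_two_right.mpr h1)
  exact orderOf_eq_one_iff.mp (Nat.Coprime.eq_one_of_dvd h4 h3)

/-- an element of the normaliser of `C z` in `P` commutes with all elements of `C z` normalising `P`. -/
theorem SZ.comm_P (H : SZ G q) (P : Sylow 2 G) {z : G} (hz : z ≠ 1) (ho : Odd (orderOf z)) {x t : G} (hx : x ∈ N z)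
    (hxP : x ∈ (P : Subgroup G)) (ht : t ∈ C z) (htP : t ∈ Subgroup.normalizer ((P : Subgroup G) : Set G)) : x * t = t * x := by
  have h1 : x * t * x⁻¹ * t⁻¹ ∈ (P : Subgroup G) := by
    have : x * t * x⁻¹ * t⁻¹ = x * (t * x⁻¹ * t⁻¹) := by group
    rw [this]
    exact mul_mem hxP ((Subgroup.mem_normalizer_iff.mp htP _).mp (inv_mem hxP))
  have h2 : x * t * x⁻¹ * t⁻¹ ∈ C z :=
    mul_mem ((Subgroup.mem_normalizer_iff.mp hx _).mp ht) (inv_mem ht)
  have h3 := H.P_C P hz ho h2 h1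
  have h4 : x * t = (x * t * x⁻¹ * t⁻¹) * (t * x) := by group
  rw [h4, h3, one_mul]

theorem SZ.inf_bot (H : SZ G q) (P : Sylow 2 G) {z : G} (hz : z ≠ 1) (ho : Odd (orderOf z)) {x : G} (hx : x ∈ N z)
    (hx2 : orderOf x = 2 ∨ orderOf x = 4)
    (hxP : x ∈ (P : Subgroup G)) {t : G} (ht : t ∈ C z) (htP : t ∈ Subgroup.normalizer ((P : Subgroup G) : Set G)) : t = 1 := by
  by_contra ht1
  have h1 := H.comm_P P hz ho hx hxP ht htP
  have h2 : x ∈ C z := by
    rw [← (H.odd z hz ho).2 t ht ht1]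
    exact mem_C.mpr h1
  exact two_of hx2 (H.odd_of_mem hz ho h2)

theorem SZ.exists_Q (H : SZ G q) {z : G} (hz : z ≠ 1) (ho : Odd (orderOf z)) {x : G} (hx : x ∈ N z)
    (hx2 : orderOf x = 2 ∨ orderOf x = 4) : ∃ Q : Subgroup G, Q ≤ N z ∧ x ∈ Q ∧ Nat.card Q = kk z := by
  haveI : Fact (Nat.Prime 2) := ⟨by norm_num⟩
  have hpg : IsPGroup 2 (Subgroup.zpowers (⟨x, hx⟩ : N z)) := by
    rw [IsPGroup.iff_card]
    rw [Nat.card_zpowers, Subgroup.orderOf_mk]
    rcases hx2 with h | h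
    · exact ⟨1, by rw [h]; norm_num⟩
    · exact ⟨2, by rw [h]; norm_num⟩
  obtain ⟨Q, hQ⟩ := hpg.exists_le_sylow
  refine ⟨(Q : Subgroup (N z)).map (N z).subtype, ?_, ?_, ?_⟩
  · exact Subgroup.map_subtype_le _
  · exact ⟨⟨x, hx⟩, hQ (Subgroup.mem_zpowers _), rfl⟩
  · have h1 : Nat.card ((Q : Subgroup (N z)).map (N z).subtype) = Nat.card Q :=
      Subgroup.card_map_of_injective (N z).subtype_injective
    rw [h1, Sylow.card_eq_multiplicity]
    obtain ⟨hk, hN⟩ := H.kk_spec hz ho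
    rw [hN]
    have hodd := (H.odd z hz ho).1
    have hc0 : Nat.card (C z) ≠ 0 := (card_C_pos z).ne'
    have hf : (Nat.card (C z)).factorization 2 = 0 := by
      apply Nat.factorization_eq_zero_of_not_dvd
      intro hd
      rw [Nat.odd_iff] at hodd
      omega
    rcases hk with h | h
    · rw [h, Nat.factorization_mul (by norm_num) hc0, Finsupp.add_apply, hf]
      simp [Nat.Prime.factorization_self (by norm_num : Nat.Prime 2)]
    · rw [h, Nat.factorization_mul (by norm_num) hc0, Finsupp.add_apply, hf]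
      have : (4 : ℕ).factorization 2 = 2 := by
        have : (4 : ℕ) = 2 ^ 2 := by norm_num
        rw [this, Nat.factorization_pow, Finsupp.smul_apply, Nat.Prime.factorization_self (by norm_num)]
        rfl
      rw [this]
      norm_num

theorem SZ.card_inf (H : SZ G q) (P : Sylow 2 G) {z : G} (hz : z ≠ 1) (ho : Odd (orderOf z)) {x : G} (hx : x ∈ N z)
    (hx2 : orderOf x = 2 ∨ orderOf x = 4) (hxP : x ∈ (P : Subgroup G)) :
    Nat.card (N z ⊓ Subgroup.normalizer ((P : Subgroup G) : Set G) : Subgroup G) = kk z := by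
  obtain ⟨hk, hN⟩ := H.kk_spec hz ho
  apply le_antisymm
  · have h1 := card_mul_le (N z ⊓ Subgroup.normalizer ((P : Subgroup G) : Set G) : Subgroup G) (C z) (N z) inf_le_left (C_le_N z)
      (fun t h1 h2 => H.inf_bot P hz ho hx hx2 hxP h2 h1.2)
    rw [hN] at h1
    exact Nat.le_of_mul_le_mul_right h1 (card_C_pos z)
  · obtain ⟨Q, hQN, hxQ, hQ⟩ := H.exists_Q hz ho hx hx2
    rw [← hQ]
    apply Nat.card_le_card_of_injective (Subgroup.inclusion ?_) (Subgroup.inclusion_injective _)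
    apply le_inf hQN
    intro w hw
    apply Subgroup.le_normalizer
    have hx1 : x ≠ 1 := by
      rintro rfl
      rw [orderOf_one] at hx2; omega
    apply H.cent P x hxP hx1
    rw [mem_C]
    have h4 : Nat.card Q ≤ 4 := by rw [hQ]; omega
    exact congrArg Subtype.val (small_comm h4 ⟨w, hw⟩ ⟨x, hxQ⟩)

theorem SZ.inter (H : SZ G q) (P : Sylow 2 G) {z z' : G} (hz : z ≠ 1) (ho : Odd (orderOf z)) (hz' : z' ≠ 1) (ho' : Odd (orderOf z'))
    (hne : C z ≠ C z') {x : G} (hx : x ∈ N z) (hx' : x ∈ N z')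
    (hx2 : orderOf x = 2 ∨ orderOf x = 4) (hxP : x ∈ (P : Subgroup G)) {y : G} (hy : y ∈ N z) (hy' : y ∈ N z') :
    y ∈ (P : Subgroup G) := by
  obtain ⟨hk, hN⟩ := H.kk_spec hz ho
  have h1 := card_mul_le (N z ⊓ N z' : Subgroup G) (C z) (N z) inf_le_left (C_le_N z) (by
    intro t ht htC
    by_contra ht1
    have h2 : t ∈ C z' := H.oddm z' t hz' ho' (H.odd_of_mem hz ho htC) ht.2
    exact hne (by rw [← (H.odd z hz ho).2 t htC ht1, ← (H.odd z' hz' ho').2 t h2 ht1]))
  rw [hN] at h1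
  have h2 := Nat.le_of_mul_le_mul_right h1 (card_C_pos z)
  have h4 : Nat.card (N z ⊓ N z' : Subgroup G) ≤ 4 := by omega
  have hx1 : x ≠ 1 := by
    rintro rfl
    rw [orderOf_one] at hx2; omega
  apply H.cent P x hxP hx1
  rw [mem_C]
  exact congrArg Subtype.val (small_comm h4 (⟨y, hy, hy'⟩ : (N z ⊓ N z' : Subgroup G)) ⟨x, hx, hx'⟩)

/-- involutions invert -/
theorem SZ.inverts (H : SZ G q) {z : G} (hz : z ≠ 1) (ho : Odd (orderOf z)) {t : G} (ht : t ∈ N z) (ht2 : orderOf t = 2)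
    {c : G} (hc : c ∈ C z) : t * c * t⁻¹ = c⁻¹ := by
  have htt : t * t = 1 := by rw [← pow_two, ← ht2]; exact pow_orderOf_eq_one t
  have hti : t⁻¹ = t := inv_eq_of_mul_eq_one_left htt
  have h1 : t * c * t⁻¹ ∈ C z := (Subgroup.mem_normalizer_iff.mp ht _).mp hc
  -- c * t c t⁻¹ is fixed
  have h2 : t * (c * (t * c * t⁻¹)) * t⁻¹ = c * (t * c * t⁻¹) := by
    have e1 : t * (c * (t * c * t⁻¹)) * t⁻¹ = (t * c * t⁻¹) * ((t * t) * c * (t * t)⁻¹) := by group
    rw [e1, htt, inv_one, mul_one, one_mul]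
    exact H.comm hz ho h1 hc
  by_cases h3 : c * (t * c * t⁻¹) = 1
  · exact (inv_eq_of_mul_eq_one_right h3).symm
  · exfalso
    have h4 : c * (t * c * t⁻¹) ∈ C z := mul_mem hc h1
    have h5 : t ∈ C z := by
      rw [← (H.odd z hz ho).2 _ h4 h3, mem_C]
      rw [mul_inv_eq_iff_eq_mul] at h2
      exact h2
    exact two_of (Or.inl ht2) (H.odd_of_mem hz ho h5)

/-- number of involutions in the normaliser of `C z` -/
theorem SZ.card_inv (H : SZ G q) {z : G} (hz : z ≠ 1) (ho : Odd (orderOf z)) :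
    Nat.card {x : G // x ∈ N z ∧ orderOf x = 2} = Nat.card (C z) := by
  haveI : Fact (Nat.Prime 2) := ⟨by norm_num⟩
  obtain ⟨hk, hN⟩ := H.kk_spec hz ho
  have hd : 2 ∣ Nat.card (N z) := by
    rw [hN]
    apply Dvd.dvd.mul_right
    rcases hk with h | h <;> rw [h] <;> norm_num
  obtain ⟨⟨t, ht⟩, ht2⟩ := exists_prime_orderOf_dvd_card' 2 hd
  rw [Subgroup.orderOf_mk] at ht2
  have htt : t * t = 1 := by rw [← pow_two, ← ht2]; exact pow_orderOf_eq_one t
  have hti : t⁻¹ = t := inv_eq_of_mul_eq_one_left htt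
  symm
  refine Nat.card_congr (Equiv.ofBijective (fun c : C z => (⟨t * c.1, mul_mem ht (C_le_N z c.2), ?_⟩ : {x : G // x ∈ N z ∧ orderOf x = 2})) ⟨?_, ?_⟩)
  · apply orderOf_eq_prime
    · have := H.inverts hz ho ht ht2 c.2
      rw [hti] at this
      rw [pow_two]
      calc t * c.1 * (t * c.1) = (t * c.1 * t) * c.1 := by group
        _ = 1 := by rw [this]; group
    · intro h
      have h1 : t ∈ C z := by
        have : t = c.1⁻¹ := eq_inv_of_mul_eq_one_left h
        rw [this]; exact inv_mem c.2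
      exact two_of (Or.inl ht2) (H.odd_of_mem hz ho h1)
  · intro a b hab
    exact Subtype.ext (mul_left_cancel (congrArg Subtype.val hab))
  · rintro ⟨x, hx, hx2⟩
    refine ⟨⟨t * x, ?_⟩, ?_⟩
    · rw [mem_C]
      have e1 := H.inverts hz ho hx hx2 (self_C z)
      have e2 := H.inverts hz ho ht ht2 (inv_mem (self_C z))
      have e3 : t * x * z * (t * x)⁻¹ = z := by
        calc t * x * z * (t * x)⁻¹ = t * (x * z * x⁻¹) * t⁻¹ := by group
          _ = z := by rw [e1, e2, inv_inv]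
      exact mul_inv_eq_iff_eq_mul.mp e3
    · apply Subtype.ext
      change t * (t * x) = x
      rw [← mul_assoc, htt, one_mul]

theorem SZ.card_four (H : SZ G q) {z : G} (hz : z ≠ 1) (ho : Odd (orderOf z)) :
    Nat.card {x : G // x ∈ N z ∧ orderOf x = 4} + 2 * Nat.card (C z) = Nat.card (N z) := by
  classical
  have h2 := H.card_inv hz ho
  have e0 : Nat.card (N z) = (Finset.univ.filter (fun x : G => x ∈ N z)).card := by
    rw [Nat.card_eq_fintype_card]
    exact Fintype.card_subtype _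
  have e1 : Nat.card (C z) = (Finset.univ.filter (fun x : G => x ∈ C z)).card := by
    rw [Nat.card_eq_fintype_card]
    exact Fintype.card_subtype _
  have e2 : Nat.card {x : G // x ∈ N z ∧ orderOf x = 2} = (Finset.univ.filter (fun x : G => x ∈ N z ∧ orderOf x = 2)).card := by
    rw [Nat.card_eq_fintype_card]
    exact Fintype.card_subtype _
  have e3 : Nat.card {x : G // x ∈ N z ∧ orderOf x = 4} = (Finset.univ.filter (fun x : G => x ∈ N z ∧ orderOf x = 4)).card := by
    rw [Nat.card_eq_fintype_card]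
    exact Fintype.card_subtype _
  have e4 : Finset.univ.filter (fun x : G => x ∈ N z) =
      (Finset.univ.filter (fun x : G => x ∈ N z ∧ orderOf x = 4) ∪ Finset.univ.filter (fun x : G => x ∈ N z ∧ orderOf x = 2)) ∪
        Finset.univ.filter (fun x : G => x ∈ C z) := by
    ext x
    simp only [Finset.mem_filter, Finset.mem_univ, true_and, Finset.mem_union]
    constructor
    · intro hx
      rcases H.two x with h | h | h
      · right; exact H.oddm z x hz ho h hx
      · left; right; exact ⟨hx, h⟩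
      · left; left; exact ⟨hx, h⟩
    · rintro ((h | h) | h)
      · exact h.1
      · exact h.1
      · exact C_le_N z h
  have e5 : Nat.card (N z) = Nat.card {x : G // x ∈ N z ∧ orderOf x = 4} + Nat.card {x : G // x ∈ N z ∧ orderOf x = 2} + Nat.card (C z) := by
    rw [e0, e3, e2, e1, e4, Finset.card_union_of_disjoint, Finset.card_union_of_disjoint]
    · rw [Finset.disjoint_left]
      intro x h1 h2
      simp only [Finset.mem_filter, Finset.mem_univ, true_and] at h1 h2
      omega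
    · rw [Finset.disjoint_left]
      intro x h1 h2
      simp only [Finset.mem_filter, Finset.mem_univ, true_and, Finset.mem_union] at h1 h2
      have h3 := H.odd_of_mem hz ho h2
      rcases h1 with h | h
      · exact two_of (Or.inr h.2) h3
      · exact two_of (Or.inl h.2) h3
  rw [e5, h2]; ring

end Cfsg.Agent.HL.SzSolv
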