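import Cfsg.Agent.HL_SzSolvA

/-! counting solvable two-generator subgroups of Suzuki groups: the abstract part 2. -/

set_option autoImplicit false
set_option linter.unusedSectionVars false
set_option linter.style.haveILetI false

namespace Cfsg.Agent.HL.SzSolv

section gen
variable {G : Type*} [Group G]

theorem C_conj (g z : G) : C (g * z * g⁻¹) = (C z).map (MulAut.conj g).toMonoidHom := by
  exact Cfsg.Agent.HL.SzAbs.cent_conj_map g z

theorem mem_C_conj (g z w : G) : g * w * g⁻¹ ∈ C (g * z * g⁻¹) ↔ w ∈ C z := by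
  rw [mem_C, mem_C]
  constructor
  · intro h
    have e1 : g * w * g⁻¹ * (g * z * g⁻¹) = g * (w * z) * g⁻¹ := by group
    have e2 : g * z * g⁻¹ * (g * w * g⁻¹) = g * (z * w) * g⁻¹ := by group
    rw [e1, e2] at h
    exact mul_left_cancel (mul_right_cancel h)
  · intro h
    have e1 : g * w * g⁻¹ * (g * z * g⁻¹) = g * (w * z) * g⁻¹ := by group
    have e2 : g * z * g⁻¹ * (g * w * g⁻¹) = g * (z * w) * g⁻¹ := by group
    rw [e1, e2, h]

theorem mem_N_conj (g z w : G) : g * w * g⁻¹ ∈ N (g * z * g⁻¹) ↔ w ∈ N z := by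
  have key : ∀ (g z w : G), w ∈ N z → g * w * g⁻¹ ∈ N (g * z * g⁻¹) := by
    intro g z w h
    rw [Subgroup.mem_normalizer_iff] at h ⊢
    intro c
    have e1 : c = g * (g⁻¹ * c * g) * g⁻¹ := by group
    have e2 : g * w * g⁻¹ * c * (g * w * g⁻¹)⁻¹ = g * (w * (g⁻¹ * c * g) * w⁻¹) * g⁻¹ := by group
    constructor
    · intro hc
      change _ ∈ C _
      rw [e2, mem_C_conj]
      exact (h _).mp (by
        change _ ∈ C _
        rw [← mem_C_conj g, ← e1]; exact hc)
    · intro hc
      change _ ∈ C _ at hc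
      change _ ∈ C _
      rw [e2, mem_C_conj] at hc
      rw [e1, mem_C_conj]
      exact (h _).mpr hc
  constructor
  · intro h
    have := key g⁻¹ _ _ h
    have e1 : g⁻¹ * (g * w * g⁻¹) * g⁻¹⁻¹ = w := by group
    have e2 : g⁻¹ * (g * z * g⁻¹) * g⁻¹⁻¹ = z := by group
    rwa [e1, e2] at this
  · exact key g z w

theorem card_C_conj (g z : G) : Nat.card (C (g * z * g⁻¹)) = Nat.card (C z) :=
  (Nat.card_congr (Equiv.subtypeEquiv (MulAut.conj g).toEquiv (fun a => by
    change a ∈ C z ↔ g * a * g⁻¹ ∈ C _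
    rw [mem_C_conj]))).symm

theorem card_N_conj (g z : G) : Nat.card (N (g * z * g⁻¹)) = Nat.card (N z) :=
  (Nat.card_congr (Equiv.subtypeEquiv (MulAut.conj g).toEquiv (fun a => by
    change a ∈ N z ↔ g * a * g⁻¹ ∈ N _
    rw [mem_N_conj]))).symm

theorem kk_conj (g z : G) : kk (g * z * g⁻¹) = kk z := by
  unfold kk
  rw [card_C_conj, card_N_conj]

end gen

variable {G : Type*} [Group G] [Fintype G] {q : ℕ}

open scoped Classical in
/-- odd order elements -/
noncomputable def O (G : Type*) [Group G] [Fintype G] : Finset G := Finset.univ.filter (fun z : G => z ≠ 1 ∧ Odd (orderOf z))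

theorem mem_O {z : G} : z ∈ O G ↔ z ≠ 1 ∧ Odd (orderOf z) := by
  classical
  simp [O]

open scoped Classical in
/-- the weight function -/
noncomputable def ff (x : G) : ℕ := ∑ z ∈ O G, if x ∈ N z then kk z else 0

theorem ff_conj (g x : G) : ff (g * x * g⁻¹) = ff x := by
  classical
  unfold ff
  symm
  apply Finset.sum_bij (fun z _ => g * z * g⁻¹)
  · intro z hz
    rw [mem_O] at hz ⊢
    refine ⟨?_, ?_⟩
    · intro h
      apply hz.1
      have : z = g⁻¹ * (g * z * g⁻¹) * g := by group
      rw [this, h]; group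
    · have : orderOf (g * z * g⁻¹) = orderOf z := by
        exact orderOf_injective (MulAut.conj g).toMonoidHom (MulAut.conj g).injective z
      rw [this]; exact hz.2
  · intro a _ b _ h
    exact mul_left_cancel (mul_right_cancel h)
  · intro b hb
    refine ⟨g⁻¹ * b * g, ?_, by group⟩
    rw [mem_O] at hb ⊢
    refine ⟨?_, ?_⟩
    · intro h
      apply hb.1
      have : b = g * (g⁻¹ * b * g) * g⁻¹ := by group
      rw [this, h]; group
    · have : orderOf (g⁻¹ * b * g) = orderOf b := by
        have := orderOf_injective (MulAut.conj g⁻¹).toMonoidHom (MulAut.conj g⁻¹).injective b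
        rw [← this]
        congr 1
        change _ = g⁻¹ * b * g⁻¹⁻¹
        rw [inv_inv]
      rw [this]; exact hb.2
  · intro z _
    rw [kk_conj]
    simp only [mem_N_conj]

theorem ff_inv (x : G) : ff x⁻¹ = ff x := by
  classical
  unfold ff
  simp only [inv_mem_iff]

/-- double counting -/
theorem sum_ff (p : G → Prop) [DecidablePred p] (c : ℕ → ℕ → ℕ)
    (hc : ∀ z ∈ O G, Nat.card {x : G // x ∈ N z ∧ p x} = c (Nat.card (N z)) (Nat.card (C z))) :
    ∑ x ∈ Finset.univ.filter (fun x : G => p x), ff x = ∑ z ∈ O G, kk z * c (Nat.card (N z)) (Nat.card (C z)) := by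
  classical
  unfold ff
  rw [Finset.sum_comm]
  apply Finset.sum_congr rfl
  intro z hz
  rw [← hc z hz, Nat.card_eq_fintype_card, Fintype.card_subtype, ← Finset.sum_filter, Finset.sum_const, smul_eq_mul, mul_comm]
  congr 2
  ext x
  simp only [Finset.mem_filter, Finset.mem_univ, true_and]
  exact and_comm

theorem SZ.card_R (H : SZ G q) (P : Sylow 2 G) {x : G} (hx2 : orderOf x = 2 ∨ orderOf x = 4) (hxP : x ∈ (P : Subgroup G)) :
    Nat.card {y : G // y ∉ Subgroup.normalizer ((P : Subgroup G) : Set G) ∧ ∃ z ∈ O G, x ∈ N z ∧ y ∈ N z} = ff x := by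
  classical
  set NP := Subgroup.normalizer ((P : Subgroup G) : Set G) with hNP
  set T : Finset (Subgroup G) := ((O G).filter (fun z => x ∈ N z)).image C with hT
  let Y : Subgroup G → Finset G := fun U => Finset.univ.filter (fun y => y ∈ Subgroup.normalizer (U : Set G) ∧ y ∉ NP)
  have e1 : Nat.card {y : G // y ∉ NP ∧ ∃ z ∈ O G, x ∈ N z ∧ y ∈ N z} = (T.biUnion Y).card := by
    rw [Nat.card_eq_fintype_card, Fintype.card_subtype]
    congr 1
    ext y
    simp only [Finset.mem_filter, Finset.mem_univ, true_and, Finset.mem_biUnion, hT, Finset.mem_image, Y]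
    constructor
    · rintro ⟨h1, z, hz, hxz, hyz⟩
      exact ⟨C z, ⟨z, ⟨hz, hxz⟩, rfl⟩, hyz, h1⟩
    · rintro ⟨_, ⟨z, ⟨hz, hxz⟩, rfl⟩, hyz, h1⟩
      exact ⟨h1, z, hz, hxz, hyz⟩
  have e2 : (T.biUnion Y).card = ∑ U ∈ T, (Y U).card := by
    apply Finset.card_biUnion
    intro U hU V hV hUV
    rw [Finset.mem_coe, hT, Finset.mem_image] at hU hV
    simp only [Finset.mem_filter] at hU hV
    obtain ⟨z, ⟨hz, hxz⟩, rfl⟩ := hU
    obtain ⟨z', ⟨hz', hxz'⟩, rfl⟩ := hV
    rw [mem_O] at hz hz'
    change Disjoint (Y (C z)) (Y (C z'))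
    rw [Finset.disjoint_left]
    intro y hy hy'
    simp only [Finset.mem_filter, Finset.mem_univ, true_and, Y] at hy hy'
    apply hy.2
    exact Subgroup.le_normalizer (H.inter P hz.1 hz.2 hz'.1 hz'.2 hUV hxz hxz' hx2 hxP hy.1 hy'.1)
  have e3 : ∀ z ∈ (O G).filter (fun z => x ∈ N z), (Y (C z)).card + kk z = kk z * Nat.card (C z) := by
    intro z hz
    rw [Finset.mem_filter, mem_O] at hz
    obtain ⟨⟨hz1, ho⟩, hxz⟩ := hz
    have h1 := H.card_inf P hz1 ho hxz hx2 hxP
    have h2 := (H.kk_spec hz1 ho).2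
    rw [← h2, ← h1]
    rw [Nat.card_eq_fintype_card, Nat.card_eq_fintype_card]
    rw [Fintype.card_subtype, Fintype.card_subtype]
    rw [← Finset.card_union_of_disjoint]
    · congr 1
      ext y
      simp only [Finset.mem_filter, Finset.mem_univ, true_and, Finset.mem_union, Subgroup.mem_inf, Y]
      change (y ∈ N z ∧ y ∉ NP) ∨ (y ∈ N z ∧ y ∈ NP) ↔ y ∈ N z
      constructor
      · rintro (h | h)
        · exact h.1
        · exact h.1
      · intro h
        by_cases h5 : y ∈ NP
        · exact Or.inr ⟨h, h5⟩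
        · exact Or.inl ⟨h, h5⟩
    · rw [Finset.disjoint_left]
      intro y h3 h4
      simp only [Finset.mem_filter, Finset.mem_univ, true_and, Subgroup.mem_inf, Y] at h3 h4
      exact h3.2 h4.2
  have e4 : ∑ U ∈ T, (Y U).card = ∑ z ∈ (O G).filter (fun z => x ∈ N z), kk z := by
    rw [hT]
    apply Finset.sum_image'
    intro z hz
    have hz' := hz
    rw [Finset.mem_filter, mem_O] at hz'
    obtain ⟨⟨hz1, ho⟩, hxz⟩ := hz'
    have e5 : ∀ j ∈ ((O G).filter (fun z => x ∈ N z)).filter (fun j => C j = C z), kk j = kk z := by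
      intro j hj
      rw [Finset.mem_filter] at hj
      unfold kk N
      change Nat.card (Subgroup.normalizer ((C j : Subgroup G) : Set G)) / Nat.card (C j) = _
      rw [hj.2]
    rw [Finset.sum_congr rfl e5, Finset.sum_const, smul_eq_mul]
    have e6 : (((O G).filter (fun z => x ∈ N z)).filter (fun j => C j = C z)).card + 1 = Nat.card (C z) := by
      rw [Nat.card_eq_fintype_card, Fintype.card_subtype]
      have : Finset.univ.filter (fun w : G => w ∈ C z) = insert 1 (((O G).filter (fun z => x ∈ N z)).filter (fun j => C j = C z)) := by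
        ext w
        simp only [Finset.mem_filter, Finset.mem_univ, true_and, Finset.mem_insert, mem_O]
        constructor
        · intro hw
          by_cases hw1 : w = 1
          · exact Or.inl hw1
          · right
            have h7 := (H.odd z hz1 ho).2 w hw hw1
            refine ⟨⟨⟨hw1, H.odd_of_mem hz1 ho hw⟩, ?_⟩, h7⟩
            change x ∈ Subgroup.normalizer ((C w : Subgroup G) : Set G)
            rw [h7]; exact hxz
        · rintro (rfl | ⟨⟨⟨h1, h2⟩, h3⟩, h4⟩)
          · exact one_mem _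
          · rw [← h4]; exact self_C w
      rw [this, Finset.card_insert_of_notMem]
      simp [mem_O]
    have h8 := e3 z hz
    rw [← e6] at h8
    have : kk z * ((((O G).filter (fun z => x ∈ N z)).filter (fun j => C j = C z)).card + 1) =
      (((O G).filter (fun z => x ∈ N z)).filter (fun j => C j = C z)).card * kk z + kk z := by ring
    omega
  rw [e1, e2, e4]
  unfold ff
  rw [Finset.sum_filter]

end Cfsg.Agent.HL.SzSolv
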