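import Cfsg.Agent.HL_SzSolvB

/-! counting solvable two-generator subgroups of Suzuki groups: the abstract part 3. -/

set_option autoImplicit false
set_option linter.unusedSectionVars false
set_option linter.style.haveILetI false

namespace Cfsg.Agent.HL.SzSolv

/-- Borel subgroup -/
abbrev B {G : Type*} [Group G] (P : Sylow 2 G) : Subgroup G := Subgroup.normalizer ((P : Subgroup G) : Set G)

structure SZ2 (G : Type*) [Group G] [Fintype G] (q : ℕ) : Prop extends SZ G q where
  cinv : Nat.card {x : G // orderOf x = 2} = (q - 1) * (q ^ 2 + 1)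
  c4 : Nat.card {x : G // orderOf x = 4} = q * (q - 1) * (q ^ 2 + 1)
  conj2 : ∀ x y : G, orderOf x = 2 → orderOf y = 2 → ∃ g, g * x * g⁻¹ = y
  conj4 : ∀ x y : G, orderOf x = 4 → orderOf y = 4 → ∃ g, g * x * g⁻¹ = y ∨ g * x * g⁻¹ = y⁻¹
  sum1 : ∑ z ∈ O G, Nat.card (N z) = Nat.card G * (3 * q - 2)
  sum2 : ∑ z ∈ O G, kk z * (Nat.card (N z) - 2 * Nat.card (C z)) = 4 * q * Nat.card G
  cardN : ∀ P : Sylow 2 G, Nat.card (B P) = q ^ 2 * (q - 1)
  ti : ∀ (P Q : Sylow 2 G) (x : G), x ∈ (P : Subgroup G) → x ∈ (Q : Subgroup G) → x ≠ 1 → P = Q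
  sub : ∀ M : Subgroup G, Group.IsSolvable M ↔ (∃ P : Sylow 2 G, M ≤ B P) ∨ (∃ z ∈ O G, M ≤ N z)

variable {G : Type*} [Group G] [Fintype G] {q : ℕ}

theorem SZ2.ff2 (H : SZ2 G q) {x : G} (hx : orderOf x = 2) : ff x = q ^ 2 * (3 * q - 2) := by
  classical
  have h1 := sum_ff (G := G) (fun x => orderOf x = 2) (fun a b => b)
    (fun z hz => H.card_inv (mem_O.mp hz).1 (mem_O.mp hz).2)
  have h2 : ∑ z ∈ O G, kk z * Nat.card (C z) = Nat.card G * (3 * q - 2) := by
    rw [← H.sum1]
    exact Finset.sum_congr rfl (fun z hz => (H.kk_spec (mem_O.mp hz).1 (mem_O.mp hz).2).2.symm)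
  rw [h2] at h1
  have h3 : ∑ y ∈ Finset.univ.filter (fun x : G => orderOf x = 2), ff y = Nat.card {x : G // orderOf x = 2} * ff x := by
    rw [Finset.sum_congr rfl (g := fun _ => ff x), Finset.sum_const, smul_eq_mul, Nat.card_eq_fintype_card, Fintype.card_subtype]
    intro y hy
    rw [Finset.mem_filter] at hy
    obtain ⟨g, rfl⟩ := H.conj2 x y hx hy.2
    exact ff_conj g x
  rw [h3, H.cinv, H.cardG] at h1
  have hq := H.ge
  have hpos : 0 < (q - 1) * (q ^ 2 + 1) := Nat.mul_pos (by omega) (by positivity)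
  apply Nat.eq_of_mul_eq_mul_left hpos
  rw [h1]; ring

theorem SZ2.ff4 (H : SZ2 G q) {x : G} (hx : orderOf x = 4) : ff x = 4 * q ^ 2 := by
  classical
  have h1 := sum_ff (G := G) (fun x => orderOf x = 4) (fun a b => a - 2 * b)
    (fun z hz => by
      have := H.card_four (mem_O.mp hz).1 (mem_O.mp hz).2
      omega)
  rw [H.sum2] at h1
  have h3 : ∑ y ∈ Finset.univ.filter (fun x : G => orderOf x = 4), ff y = Nat.card {x : G // orderOf x = 4} * ff x := by
    rw [Finset.sum_congr rfl (g := fun _ => ff x), Finset.sum_const, smul_eq_mul, Nat.card_eq_fintype_card, Fintype.card_subtype]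
    intro y hy
    rw [Finset.mem_filter] at hy
    obtain ⟨g, h | h⟩ := H.conj4 x y hx hy.2
    · rw [← h]; exact ff_conj g x
    · rw [← ff_inv y, ← h]; exact ff_conj g x
  rw [h3, H.c4, H.cardG] at h1
  have hq := H.ge
  have hpos : 0 < q * (q - 1) * (q ^ 2 + 1) := Nat.mul_pos (Nat.mul_pos (by omega) (by omega)) (by positivity)
  apply Nat.eq_of_mul_eq_mul_left hpos
  rw [h1]; ring

theorem two_elt_mem (P : Sylow 2 G) {x : G} (hx2 : orderOf x = 2 ∨ orderOf x = 4) (hx : x ∈ B P) : x ∈ (P : Subgroup G) := by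
  have hpg : IsPGroup 2 (Subgroup.zpowers x) := by
    haveI : Fact (Nat.Prime 2) := ⟨by norm_num⟩
    rw [IsPGroup.iff_card, Nat.card_zpowers]
    rcases hx2 with h | h
    · exact ⟨1, by rw [h]; norm_num⟩
    · exact ⟨2, by rw [h]; norm_num⟩
  have h1 : Subgroup.zpowers x ≤ B P := by rwa [Subgroup.zpowers_le]
  have h2 := hpg.inf_normalizer_sylow P
  have h3 : x ∈ Subgroup.zpowers x ⊓ (P : Subgroup G) := by
    rw [← h2]
    exact ⟨Subgroup.mem_zpowers x, hx⟩
  exact h3.2

theorem closure_le_iff (x y : G) (M : Subgroup G) : Subgroup.closure ({x, y} : Set G) ≤ M ↔ x ∈ M ∧ y ∈ M := by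
  rw [Subgroup.closure_le]
  constructor
  · intro h
    exact ⟨h (by simp), h (by simp)⟩
  · rintro ⟨h1, h2⟩ z (rfl | hz)
    · exact h1
    · rw [Set.mem_singleton_iff.mp hz]; exact h2

theorem SZ2.main2 (H : SZ2 G q) {x : G} (hx2 : orderOf x = 2 ∨ orderOf x = 4) :
    Nat.card {y : G // Group.IsSolvable (Subgroup.closure ({x, y} : Set G))} = q ^ 2 * (q - 1) + ff x := by
  classical
  haveI : Fact (Nat.Prime 2) := ⟨by norm_num⟩
  have hx1 : x ≠ 1 := by
    rintro rfl
    rw [orderOf_one] at hx2; omega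
  have hpg : IsPGroup 2 (Subgroup.zpowers x) := by
    rw [IsPGroup.iff_card, Nat.card_zpowers]
    rcases hx2 with h | h
    · exact ⟨1, by rw [h]; norm_num⟩
    · exact ⟨2, by rw [h]; norm_num⟩
  obtain ⟨P, hP⟩ := hpg.exists_le_sylow
  have hxP : x ∈ (P : Subgroup G) := hP (Subgroup.mem_zpowers x)
  have e1 : ∀ y, Group.IsSolvable (Subgroup.closure ({x, y} : Set G)) ↔ (y ∈ B P ∨ (y ∉ B P ∧ ∃ z ∈ O G, x ∈ N z ∧ y ∈ N z)) := by
    intro y
    rw [H.sub]
    simp only [closure_le_iff]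
    constructor
    · rintro (⟨Q, h1, h2⟩ | h)
      · left
        have := H.ti P Q x hxP (two_elt_mem Q hx2 h1) hx1
        rw [this]; exact h2
      · by_cases hy : y ∈ B P
        · exact Or.inl hy
        · exact Or.inr ⟨hy, h⟩
    · rintro (h | ⟨-, h⟩)
      · exact Or.inl ⟨P, Subgroup.le_normalizer hxP, h⟩
      · exact Or.inr h
  have e2 : Nat.card {y : G // Group.IsSolvable (Subgroup.closure ({x, y} : Set G))} =
      Nat.card (B P) + Nat.card {y : G // y ∉ B P ∧ ∃ z ∈ O G, x ∈ N z ∧ y ∈ N z} := by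
    rw [Nat.card_congr (Equiv.subtypeEquivRight e1)]
    rw [Nat.card_eq_fintype_card, Nat.card_eq_fintype_card, Nat.card_eq_fintype_card]
    rw [Fintype.card_subtype, Fintype.card_subtype, Fintype.card_subtype, ← Finset.card_union_of_disjoint]
    · congr 1
      ext y
      simp only [Finset.mem_filter, Finset.mem_univ, true_and, Finset.mem_union]
    · rw [Finset.disjoint_left]
      intro y h1 h2
      simp only [Finset.mem_filter, Finset.mem_univ, true_and] at h1 h2
      exact h2.1 h1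
  rw [e2, H.cardN, H.card_R P hx2 hxP]

theorem SZ2.res2 (H : SZ2 G q) {x : G} (hx2 : orderOf x = 2) :
    Nat.card {y : G // Group.IsSolvable (Subgroup.closure ({x, y} : Set G))} = q ^ 2 * (4 * q - 3) := by
  rw [H.main2 (Or.inl hx2), H.ff2 hx2, ← mul_add]
  congr 1
  have := H.ge
  omega

theorem SZ2.res4 (H : SZ2 G q) {x : G} (hx2 : orderOf x = 4) :
    Nat.card {y : G // Group.IsSolvable (Subgroup.closure ({x, y} : Set G))} = q ^ 2 * (q + 3) := by
  rw [H.main2 (Or.inr hx2), H.ff4 hx2, mul_comm 4, ← mul_add]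
  congr 1
  have := H.ge
  omega

theorem SZ2.odd_iff (H : SZ2 G q) {x : G} (hx : x ∈ O G) (y : G) :
    Group.IsSolvable (Subgroup.closure ({x, y} : Set G)) ↔ (∃ P : Sylow 2 G, x ∈ B P ∧ y ∈ B P) ∨ y ∈ N x := by
  rw [H.sub]
  simp only [closure_le_iff]
  rw [mem_O] at hx
  constructor
  · rintro (h | ⟨z, hz, h1, h2⟩)
    · exact Or.inl h
    · rw [mem_O] at hz
      right
      have h3 := H.oddm z x hz.1 hz.2 hx.2 h1
      have h4 := (H.odd z hz.1 hz.2).2 x h3 hx.1
      change y ∈ Subgroup.normalizer ((C x : Subgroup G) : Set G)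
      rw [h4]; exact h2
  · rintro (h | h)
    · exact Or.inl h
    · exact Or.inr ⟨x, mem_O.mpr hx, C_le_N x (self_C x), h⟩

theorem SZ2.res_fpf (H : SZ2 G q) {x : G} (hx : x ∈ O G) (hP : ∀ P : Sylow 2 G, x ∉ B P) :
    Nat.card {y : G // Group.IsSolvable (Subgroup.closure ({x, y} : Set G))} = Nat.card (N x) := by
  apply Nat.card_congr (Equiv.subtypeEquivRight ?_)
  intro y
  rw [H.odd_iff hx]
  constructor
  · rintro (⟨P, h, -⟩ | h)
    · exact absurd h (hP P)
    · exact h
  · exact Or.inr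

theorem SZ2.res_split (H : SZ2 G q) {x : G} (hx : x ∈ O G) (P Q : Sylow 2 G) (hPQ : ∀ R : Sylow 2 G, x ∈ B R ↔ (R = P ∨ R = Q))
    (hC : B P ⊓ B Q = C x) (hcard : Nat.card (C x) = q - 1) (hN : Nat.card (N x) = 2 * (q - 1)) :
    Nat.card {y : G // Group.IsSolvable (Subgroup.closure ({x, y} : Set G))} = 2 * q ^ 2 * (q - 1) := by
  classical
  have hx' := mem_O.mp hx
  have hN' : ∀ (R : Sylow 2 G) (y : G), x ∈ B R → y ∈ B R → y ∈ N x → y ∈ C x := by
    intro R y hxR hyR hyN
    rcases H.two y with h | h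
    · exact H.oddm x y hx'.1 hx'.2 h hyN
    · rw [mem_C]
      exact H.comm_P R hx'.1 hx'.2 hyN (two_elt_mem R h hyR) (self_C x) hxR
  have hxP : x ∈ B P := (hPQ P).mpr (Or.inl rfl)
  have hxQ : x ∈ B Q := (hPQ Q).mpr (Or.inr rfl)
  have e1 : ∀ y, Group.IsSolvable (Subgroup.closure ({x, y} : Set G)) ↔ ((y ∈ B P ∨ y ∈ B Q) ∨ (y ∈ N x)) := by
    intro y
    rw [H.odd_iff hx]
    constructor
    · rintro (⟨R, h1, h2⟩ | h)
      · left
        rcases (hPQ R).mp h1 with rfl | rfl
        · exact Or.inl h2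
        · exact Or.inr h2
      · exact Or.inr h
    · rintro ((h | h) | h)
      · exact Or.inl ⟨P, hxP, h⟩
      · exact Or.inl ⟨Q, hxQ, h⟩
      · exact Or.inr h
  rw [Nat.card_congr (Equiv.subtypeEquivRight e1), Nat.card_eq_fintype_card, Fintype.card_subtype]
  have f1 : (Finset.univ.filter (fun y : G => (y ∈ B P ∨ y ∈ B Q) ∨ y ∈ N x)) =
    (Finset.univ.filter (fun y : G => y ∈ B P) ∪ Finset.univ.filter (fun y : G => y ∈ B Q)) ∪ Finset.univ.filter (fun y : G => y ∈ N x) := by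
    ext y
    simp only [Finset.mem_filter, Finset.mem_univ, true_and, Finset.mem_union]
  have f2 := Finset.card_union_add_card_inter (Finset.univ.filter (fun y : G => y ∈ B P)) (Finset.univ.filter (fun y : G => y ∈ B Q))
  have f3 := Finset.card_union_add_card_inter (Finset.univ.filter (fun y : G => y ∈ B P) ∪ Finset.univ.filter (fun y : G => y ∈ B Q))
    (Finset.univ.filter (fun y : G => y ∈ N x))
  have f4 : Finset.univ.filter (fun y : G => y ∈ B P) ∩ Finset.univ.filter (fun y : G => y ∈ B Q) = Finset.univ.filter (fun y : G => y ∈ C x) := by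
    ext y
    simp only [Finset.mem_filter, Finset.mem_univ, true_and, Finset.mem_inter]
    rw [← hC]; rfl
  have f5 : (Finset.univ.filter (fun y : G => y ∈ B P) ∪ Finset.univ.filter (fun y : G => y ∈ B Q)) ∩
    (Finset.univ.filter (fun y : G => y ∈ N x)) = Finset.univ.filter (fun y : G => y ∈ C x) := by
    ext y
    simp only [Finset.mem_filter, Finset.mem_univ, true_and, Finset.mem_inter, Finset.mem_union]
    constructor
    · rintro ⟨h | h, h2⟩
      · exact hN' P y hxP h h2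
      · exact hN' Q y hxQ h h2
    · intro h
      have h3 : y ∈ B P ⊓ B Q := by rw [hC]; exact h
      exact ⟨Or.inl h3.1, C_le_N x h⟩
  have g1 : (Finset.univ.filter (fun y : G => y ∈ B P)).card = q ^ 2 * (q - 1) := by
    rw [← H.cardN P, Nat.card_eq_fintype_card, Fintype.card_subtype]
  have g2 : (Finset.univ.filter (fun y : G => y ∈ B Q)).card = q ^ 2 * (q - 1) := by
    rw [← H.cardN Q, Nat.card_eq_fintype_card, Fintype.card_subtype]
  have g3 : (Finset.univ.filter (fun y : G => y ∈ C x)).card = q - 1 := by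
    rw [← hcard, Nat.card_eq_fintype_card, Fintype.card_subtype]
  have g4 : (Finset.univ.filter (fun y : G => y ∈ N x)).card = 2 * (q - 1) := by
    rw [← hN, Nat.card_eq_fintype_card, Fintype.card_subtype]
  rw [f1]
  rw [f4, g1, g2, g3] at f2
  rw [f5, g3, g4] at f3
  have : 2 * q ^ 2 * (q - 1) = 2 * (q ^ 2 * (q - 1)) := by ring
  omega

end Cfsg.Agent.HL.SzSolv
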