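import Cfsg.Agent.HL_SzSolvC
import Cfsg.Agent.HL_SzFix2

/-! counting solvable two-generator subgroups of Suzuki groups: concrete facts. -/

set_option autoImplicit false
set_option linter.unusedSectionVars false
set_option linter.style.haveILetI false

namespace Cfsg.Agent.HL.SzSolv

open Cfsg.Agent.HL.SzAbs Cfsg.Agent.HL.TI Cfsg.Agent.HL.Sz

section gen
variable {G : Type*} [Group G]

theorem conj_ne {y g : G} (hy1 : y ≠ 1) : g * y * g⁻¹ ≠ 1 := by
  intro h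
  apply hy1
  have : y = g⁻¹ * (g * y * g⁻¹) * g := by group
  rw [this, h]; group

/-- TI from centralisers -/
theorem ti_of_cent (T : Subgroup G) (hC : ∀ t ∈ T, t ≠ 1 → C t = T) :
    ∀ y ∈ T, y ≠ 1 → ∀ g : G, g * y * g⁻¹ ∈ T → g ∈ Subgroup.normalizer (T : Set G) := by
  intro y hy hy1 g hg
  have h1 := hC y hy hy1
  have h2 := hC _ hg (conj_ne hy1)
  rw [Subgroup.mem_normalizer_iff]
  intro w
  constructor
  · intro hw
    have : g * w * g⁻¹ ∈ C (g * y * g⁻¹) := by rw [mem_C_conj, h1]; exact hw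
    rw [h2] at this; exact this
  · intro hw
    have : g * w * g⁻¹ ∈ C (g * y * g⁻¹) := by rw [h2]; exact hw
    rw [mem_C_conj, h1] at this; exact this

theorem card_of_conj (T : Subgroup G) (hC : ∀ t ∈ T, t ≠ 1 → C t = T) {z : G} (hz : z ∈ conjSet T) :
    Nat.card (C z) = Nat.card T ∧ Nat.card (N z) = Nat.card (Subgroup.normalizer (T : Set G)) := by
  obtain ⟨hz1, g, hg⟩ := hz
  have h0 : g⁻¹ * z * g ≠ 1 := by
    intro h
    apply hz1
    have : z = g * (g⁻¹ * z * g) * g⁻¹ := by group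
    rw [this, h]; group
  have h1 := hC _ hg h0
  have h2 : z = g * (g⁻¹ * z * g) * g⁻¹ := by group
  constructor
  · rw [h2, card_C_conj, h1]
  · rw [h2, card_N_conj]
    change Nat.card (Subgroup.normalizer ((C (g⁻¹ * z * g) : Subgroup G) : Set G)) = _
    rw [h1]

theorem sum_conjSet [Fintype G] (T : Subgroup G) (hC : ∀ t ∈ T, t ≠ 1 → C t = T) (S : Finset G)
    (hS : ∀ z, z ∈ S ↔ z ∈ conjSet T) (φ : ℕ → ℕ → ℕ) :
    ∑ z ∈ S, φ (Nat.card (N z)) (Nat.card (C z)) = S.card * φ (Nat.card (Subgroup.normalizer (T : Set G))) (Nat.card T) := by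
  rw [Finset.sum_congr rfl (g := fun _ => φ (Nat.card (Subgroup.normalizer (T : Set G))) (Nat.card T)), Finset.sum_const, smul_eq_mul]
  intro z hz
  obtain ⟨h1, h2⟩ := card_of_conj T hC ((hS z).mp hz)
  rw [h1, h2]

theorem card_S [Fintype G] (T : Subgroup G) (hC : ∀ t ∈ T, t ≠ 1 → C t = T) (S : Finset G)
    (hS : ∀ z, z ∈ S ↔ z ∈ conjSet T) :
    S.card * Nat.card (Subgroup.normalizer (T : Set G)) = Nat.card G * (Nat.card T - 1) := by
  classical
  rw [← card_conjSet T (ti_of_cent T hC)]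
  congr 1
  rw [Nat.card_coe_set_eq]
  have : conjSet T = (S : Set G) := by
    ext z; rw [Finset.mem_coe, hS]
  rw [this, Set.ncard_coe_finset]

end gen

section

variable {F : Type*} [Field F] {m : ℕ} {θ : F →+* F}

theorem syl_conj [Fintype F] (hm : 1 ≤ m) (hF : Fintype.card F = 2 ^ (2 * m + 1)) (h : IsTits θ)
    (hθ : ∀ x, θ x = x ^ (2 ^ (m + 1))) (P : Sylow 2 (Cfsg.Sz F m)) :
    ∃ x : Cfsg.Sz F m, x • sylU hm hF h hθ = P ∧
      (∀ w, w ∈ (P : Subgroup (Cfsg.Sz F m)) ↔ x⁻¹ * w * x ∈ Usub h hθ) ∧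
      (∀ w, w ∈ B P ↔ x⁻¹ * w * x ∈ Subgroup.normalizer ((Usub h hθ : Subgroup (Cfsg.Sz F m)) : Set (Cfsg.Sz F m))) := by
  obtain ⟨v, hv⟩ := MulAction.exists_smul_eq (Cfsg.Sz F m) (sylU hm hF h hθ) P
  have hv' : (P : Subgroup (Cfsg.Sz F m)) = (Usub h hθ).map (MulAut.conj v).toMonoidHom := by
    rw [← hv, Sylow.coe_subgroup_smul, sylU_coe]; rfl
  have hmem : ∀ w, w ∈ (P : Subgroup (Cfsg.Sz F m)) ↔ v⁻¹ * w * v ∈ Usub h hθ := by
    intro w
    rw [hv']
    constructor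
    · rintro ⟨a, ha, rfl⟩
      have : v⁻¹ * ((MulAut.conj v).toMonoidHom a) * v = a := by
        change v⁻¹ * (v * a * v⁻¹) * v = a
        group
      rw [this]; exact ha
    · intro hw
      refine ⟨_, hw, ?_⟩
      change v * (v⁻¹ * w * v) * v⁻¹ = w
      group
  refine ⟨v, hv, hmem, fun w => ?_⟩
  constructor
  · intro h1
    rw [Subgroup.mem_normalizer_iff] at h1 ⊢
    intro c
    have h2 := h1 (v * c * v⁻¹)
    rw [hmem, hmem] at h2
    have e1 : v⁻¹ * (v * c * v⁻¹) * v = c := by group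
    have e2 : v⁻¹ * (w * (v * c * v⁻¹) * w⁻¹) * v = (v⁻¹ * w * v) * c * (v⁻¹ * w * v)⁻¹ := by group
    rw [e1, e2] at h2
    exact h2
  · intro h1
    rw [Subgroup.mem_normalizer_iff] at h1 ⊢
    intro c
    rw [hmem, hmem]
    have h2 := h1 (v⁻¹ * c * v)
    have e2 : v⁻¹ * (w * c * w⁻¹) * v = (v⁻¹ * w * v) * (v⁻¹ * c * v) * (v⁻¹ * w * v)⁻¹ := by group
    rw [e2]
    exact h2

theorem fcent [Fintype F] (hm : 1 ≤ m) (hF : Fintype.card F = 2 ^ (2 * m + 1)) (P : Sylow 2 (Cfsg.Sz F m))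
    (x : Cfsg.Sz F m) (hx : x ∈ (P : Subgroup (Cfsg.Sz F m))) (hx1 : x ≠ 1) : C x ≤ (P : Subgroup (Cfsg.Sz F m)) := by
  obtain ⟨θ, h, hθ⟩ := exists_theta hF
  obtain ⟨v, -, h1, -⟩ := syl_conj hm hF h hθ P
  intro c hc
  rw [h1] at hx ⊢
  apply cent_Usub hm hF h hθ _ hx (conj_ne_one hx1)
  have h2 := (mem_C_conj v⁻¹ x c).mpr hc
  rw [inv_inv] at h2
  exact h2

theorem fti [Fintype F] (hm : 1 ≤ m) (hF : Fintype.card F = 2 ^ (2 * m + 1)) (P Q : Sylow 2 (Cfsg.Sz F m))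
    (x : Cfsg.Sz F m) (hx : x ∈ (P : Subgroup (Cfsg.Sz F m))) (hx' : x ∈ (Q : Subgroup (Cfsg.Sz F m))) (hx1 : x ≠ 1) : P = Q := by
  obtain ⟨θ, h, hθ⟩ := exists_theta hF
  obtain ⟨v, hv, h1, -⟩ := syl_conj hm hF h hθ P
  rw [h1] at hx
  have h2 : v⁻¹ * x * v ∈ ((v⁻¹ • Q : Sylow 2 (Cfsg.Sz F m)) : Subgroup (Cfsg.Sz F m)) := by
    rw [Sylow.coe_subgroup_smul]
    refine ⟨x, hx', ?_⟩
    change v⁻¹ * x * v⁻¹⁻¹ = _
    rw [inv_inv]
  have h3 := sylow_eq hm hF h hθ (v⁻¹ • Q) _ (conj_ne_one hx1) h2 hx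
  have h4 : v⁻¹ • Q = sylU hm hF h hθ := by
    apply Sylow.ext
    rw [h3, sylU_coe]
  rw [← hv, ← h4, smul_inv_smul]

theorem fcardN [Fintype F] (hm : 1 ≤ m) (hF : Fintype.card F = 2 ^ (2 * m + 1)) (P : Sylow 2 (Cfsg.Sz F m)) :
    Nat.card (B P) = (2 ^ (2 * m + 1)) ^ 2 * (2 ^ (2 * m + 1) - 1) := by
  obtain ⟨θ, h, hθ⟩ := exists_theta hF
  obtain ⟨v, hv, -, h1⟩ := syl_conj hm hF h hθ P
  rw [← card_stabilizer hm hF, ← normalizer_Usub hm hF h hθ]
  refine Nat.card_congr (Equiv.subtypeEquiv (MulAut.conj v⁻¹).toEquiv (fun a => ?_))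
  rw [h1]
  change _ ↔ v⁻¹ * a * v⁻¹⁻¹ ∈ _
  rw [inv_inv]

theorem fD [Fintype F] (hm : 1 ≤ m) (hF : Fintype.card F = 2 ^ (2 * m + 1)) (h : IsTits θ)
    (hθ : ∀ x, θ x = x ^ (2 ^ (m + 1))) : ∀ t ∈ Dsub h hθ, t ≠ 1 → C t = Dsub h hθ :=
  fun t ht ht1 => cent_Dsub hm hF h hθ t ht ht1

theorem U_order [Fintype F] (h : IsTits θ)
    (hθ : ∀ x, θ x = x ^ (2 ^ (m + 1))) (g : Cfsg.Sz F m) (hg : g ∈ Usub h hθ) : orderOf g ∣ 4 := by
  apply orderOf_dvd_of_pow_eq_one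
  obtain ⟨a, b, hab⟩ := hg
  apply Subtype.ext
  change g.1 ^ (2 * 2) = 1
  have h2 := h.two
  rw [hab, pow_mul, sq, sq, U_pow_two h, U_mul h, ← U_zero θ]
  congr 1
  · ring
  · rw [map_zero]
    linear_combination (θ a * a) * h2

theorem U_order_two [Fintype F] (h : IsTits θ)
    (hθ : ∀ x, θ x = x ^ (2 ^ (m + 1))) (g : Cfsg.Sz F m) (hg : g ∈ Usub h hθ) (hodd : Odd (orderOf g)) : g = 1 := by
  have h1 := U_order h hθ g hg
  have h2 : Nat.Coprime (orderOf g) 4 := by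
    have h3 : Nat.Coprime (orderOf g) (2 ^ 2) := Nat.Coprime.pow_right _ (Nat.coprime_two_right.mpr hodd)
    exact h3
  exact orderOf_eq_one_iff.mp (Nat.Coprime.eq_one_of_dvd h2 h1)

theorem orderOf_conj_inv {G : Type*} [Group G] (x g : G) : orderOf (x⁻¹ * g * x) = orderOf g := orderOf_conj' g x

theorem ftwo [Fintype F] (hm : 1 ≤ m) (hF : Fintype.card F = 2 ^ (2 * m + 1)) (g : Cfsg.Sz F m) :
    Odd (orderOf g) ∨ orderOf g = 2 ∨ orderOf g = 4 := by
  obtain ⟨θ, h, hθ⟩ := exists_theta hF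
  letI := act hθ
  haveI : Fintype (Cfsg.Sz F m) := Fintype.ofFinite _
  rcases tri hm hF h hθ g with h1 | ⟨x, hx⟩ | ⟨x, hx⟩
  · exact Or.inl ((zd hm hF h hθ).fpf_odd h1)
  · have h2 := U_order h hθ _ hx
    rw [orderOf_conj_inv] at h2
    have h3 : orderOf g ≤ 4 := Nat.le_of_dvd (by norm_num) h2
    have h4 : 0 < orderOf g := orderOf_pos g
    have h5 : orderOf g = 1 ∨ orderOf g = 2 ∨ orderOf g = 3 ∨ orderOf g = 4 := by omega
    rcases h5 with h6 | h6 | h6 | h6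
    · left; rw [h6]; decide
    · right; left; exact h6
    · rw [h6] at h2; omega
    · right; right; exact h6
  · left
    have h2 := odd_orderOf_D hF h hθ _ hx
    rwa [orderOf_conj_inv] at h2

theorem fodd [Fintype F] (hm : 1 ≤ m) (hF : Fintype.card F = 2 ^ (2 * m + 1)) (z : Cfsg.Sz F m) (hz : z ≠ 1) (ho : Odd (orderOf z)) :
    Odd (Nat.card (C z)) ∧ ∀ w ∈ C z, w ≠ 1 → C w = C z := by
  obtain ⟨-, h2, h3⟩ := odd_cent hm hF z hz ho
  refine ⟨?_, h3⟩
  have hq : 2 ^ (2 * m + 1) = 2 * 2 ^ (2 * m) := by rw [pow_succ]; ring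
  have hr : 2 ^ (m + 1) = 2 * 2 ^ m := by rw [pow_succ]; ring
  have hp : 0 < 2 ^ (2 * m) := by positivity
  have hle : 2 ^ (m + 1) ≤ 2 ^ (2 * m + 1) := Nat.pow_le_pow_right (by norm_num) (by omega)
  simp only [Set.mem_insert_iff, Set.mem_singleton_iff] at h2
  rw [Nat.odd_iff]
  change Nat.card (Subgroup.centralizer ({z} : Set (Cfsg.Sz F m))) % 2 = 1
  rcases h2 with h2 | h2 | h2 <;> rw [h2] <;> omega

theorem fnrm [Fintype F] (hm : 1 ≤ m) (hF : Fintype.card F = 2 ^ (2 * m + 1)) (z : Cfsg.Sz F m) (hz : z ≠ 1) (ho : Odd (orderOf z)) :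
    Nat.card (N z) = 2 * Nat.card (C z) ∨ Nat.card (N z) = 4 * Nat.card (C z) := by
  obtain ⟨θ, h, hθ⟩ := exists_theta hF
  letI := act hθ
  haveI : Fintype (Cfsg.Sz F m) := Fintype.ofFinite _
  rcases tri hm hF h hθ z with h1 | ⟨x, hx⟩ | ⟨x, hx⟩
  · right
    exact (zd hm hF h hθ).card_norm h1
  · exfalso
    have h2 := U_order_two h hθ _ hx (by rw [orderOf_conj_inv]; exact ho)
    exact conj_ne_one hz h2
  · left
    obtain ⟨h1, h2⟩ := card_of_conj (Dsub h hθ) (fD hm hF h hθ) (z := z) ⟨hz, x, hx⟩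
    rw [h1, h2, card_norm_D hm hF h hθ, card_Dsub hF h hθ]

theorem sz [Fintype F] (hm : 1 ≤ m) (hF : Fintype.card F = 2 ^ (2 * m + 1)) [Fintype (Cfsg.Sz F m)] :
    SZ (Cfsg.Sz F m) (2 ^ (2 * m + 1)) where
  ge := q_ge hm
  cardG := card_Sz hm hF
  two := ftwo hm hF
  cent := fcent hm hF
  odd := fodd hm hF
  nrm := fnrm hm hF
  oddm := fun z w hz ho hw hn => odd_mem hm hF z w hz ho hw hn

theorem fconj2 [Fintype F] (hm : 1 ≤ m) (hF : Fintype.card F = 2 ^ (2 * m + 1)) (x y : Cfsg.Sz F m)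
    (hx : orderOf x = 2) (hy : orderOf y = 2) : ∃ g, g * x * g⁻¹ = y := by
  obtain ⟨θ, h, hθ⟩ := exists_theta hF
  have key : ∀ t : Cfsg.Sz F m, orderOf t = 2 → ∃ v : Cfsg.Sz F m, v⁻¹ * t * v = Ue h hθ 0 1 := by
    intro t ht
    apply inv_conj_std hm hF h hθ t
    · rw [← pow_two, ← ht]; exact pow_orderOf_eq_one t
    · rintro rfl; rw [orderOf_one] at ht; omega
  obtain ⟨v, hv⟩ := key x hx
  obtain ⟨u, hu⟩ := key y hy
  refine ⟨u * v⁻¹, ?_⟩
  have e1 : u * v⁻¹ * x * (u * v⁻¹)⁻¹ = u * (v⁻¹ * x * v) * u⁻¹ := by group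
  rw [e1, hv, ← hu]; group

/-- conjugating elements of `U` of order four -/
theorem conj_std4 [Fintype F] (hm : 1 ≤ m) (hF : Fintype.card F = 2 ^ (2 * m + 1)) (h : IsTits θ)
    (hθ : ∀ x, θ x = x ^ (2 ^ (m + 1))) (x : Cfsg.Sz F m) (hx : orderOf x = 4) :
    ∃ v : Cfsg.Sz F m, v⁻¹ * x * v = Ue h hθ 1 0 ∨ v⁻¹ * x * v = (Ue h hθ 1 0)⁻¹ := by
  classical
  have h2 := h.two
  haveI : Fact (Nat.Prime 2) := ⟨by norm_num⟩
  have hpg : IsPGroup 2 (Subgroup.zpowers x) := by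
    rw [IsPGroup.iff_card, Nat.card_zpowers]
    exact ⟨2, by rw [hx]; norm_num⟩
  obtain ⟨P, hP⟩ := hpg.exists_le_sylow
  have hxP : x ∈ (P : Subgroup (Cfsg.Sz F m)) := hP (Subgroup.mem_zpowers x)
  obtain ⟨v, -, h1, -⟩ := syl_conj hm hF h hθ P
  rw [h1] at hxP
  obtain ⟨a, b, hab⟩ := hxP
  have ha : a ≠ 0 := by
    rintro rfl
    have h3 : (v⁻¹ * x * v) ^ 2 = 1 := by
      apply Subtype.ext
      change (v⁻¹ * x * v).1 ^ 2 = 1
      rw [hab, sq, U_mul h, ← U_zero θ]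
      congr 1
      · ring
      · linear_combination b * h2
    have h4 := orderOf_dvd_of_pow_eq_one h3
    rw [orderOf_conj_inv, hx] at h4
    omega
  -- make a = 1
  obtain ⟨k0, hk0⟩ := theta_surj θ a⁻¹
  have hk0' : k0 ≠ 0 := by
    rintro rfl
    rw [map_zero] at hk0
    exact inv_ne_zero ha hk0.symm
  let k : Fˣ := Units.mk0 k0 hk0'
  have hk : θ (k : F) * a = 1 := by
    change θ k0 * a = 1
    rw [hk0]; exact inv_mul_cancel₀ ha
  set b' := θ (k : F) * (k : F) ^ 2 * b with hb'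
  have e1 : De h hθ k * (v⁻¹ * x * v) * (De h hθ k)⁻¹ = Ue h hθ 1 b' := by
    apply Subtype.ext
    change D θ k * (v⁻¹ * x * v).1 * (D θ k)⁻¹ = U θ 1 b'
    rw [hab, D_U h, hk, mul_inv_cancel_right]
  -- image of c ↦ θ c + c has index two
  have hex : ∃ c : F, b' = θ c + c ∨ b' = θ c + c + 1 := by
    by_contra hcon
    push Not at hcon
    let φ : F →+ F := { toFun := fun c => θ c + c, map_zero' := by simp, map_add' := by intro a b; rw [map_add]; ring }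
    have hker : ∀ c, φ c = 0 ↔ c = 0 ∨ c = 1 := by
      intro c
      constructor
      · intro hc
        have hc' : θ c + c = 0 := hc
        have hc2 : θ c = c := by linear_combination hc' - c * h2
        have hc3 : c ^ 2 = c := by
          have := h.sq c
          rw [hc2, hc2] at this
          exact this.symm
        have hc4 : c * (c - 1) = 0 := by linear_combination hc3
        rcases mul_eq_zero.mp hc4 with h5 | h5
        · exact Or.inl h5
        · exact Or.inr (by linear_combination h5)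
      · rintro (rfl | rfl)
        · exact map_zero φ
        · change θ 1 + 1 = 0
          rw [map_one]; linear_combination h2
    -- three disjoint cosets
    have hcard : Nat.card F = Nat.card φ.ker * Nat.card φ.range := by
      rw [mul_comm]
      have := AddSubgroup.card_eq_card_quotient_mul_card_addSubgroup φ.ker
      rw [this]
      congr 1
      exact Nat.card_congr (QuotientAddGroup.quotientKerEquivRange φ).toEquiv
    have hk2 : Nat.card φ.ker = 2 := by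
      have : (φ.ker : Set F) = {0, 1} := by
        ext c
        rw [SetLike.mem_coe, AddMonoidHom.mem_ker, hker]
        simp
      change Nat.card ((φ.ker : Set F)) = 2
      rw [this, Nat.card_coe_set_eq, Set.ncard_pair zero_ne_one]
    rw [hk2] at hcard
    -- map range ⊕ range → F injective missing b'
    have hinj : Function.Injective (fun p : φ.range ⊕ φ.range => (Sum.elim (fun r => r.1) (fun r => r.1 + 1) p : F)) := by
      rintro (⟨a, a', rfl⟩ | ⟨a, a', rfl⟩) (⟨c, c', rfl⟩ | ⟨c, c', rfl⟩) hac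
      · exact congrArg Sum.inl (Subtype.ext hac)
      · exfalso
        simp only [Sum.elim_inl, Sum.elim_inr] at hac
        change θ a' + a' = θ c' + c' + 1 at hac
        apply h.add_one_ne (a' + c')
        rw [map_add]
        linear_combination hac + (θ c' + c' + 1) * h2
      · exfalso
        simp only [Sum.elim_inl, Sum.elim_inr] at hac
        change θ a' + a' + 1 = θ c' + c' at hac
        apply h.add_one_ne (a' + c')
        rw [map_add]
        linear_combination hac + (θ c' + c') * h2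
      · exact congrArg Sum.inr (Subtype.ext (add_right_cancel hac))
    haveI : Fintype (φ.range ⊕ φ.range) := Fintype.ofFinite _
    have hbij : Function.Bijective (fun p : φ.range ⊕ φ.range => (Sum.elim (fun r => r.1) (fun r => r.1 + 1) p : F)) := by
      rw [Fintype.bijective_iff_injective_and_card]
      refine ⟨hinj, ?_⟩
      rw [← Nat.card_eq_fintype_card, ← Nat.card_eq_fintype_card, hcard, Nat.card_sum]
      ring
    obtain ⟨p, hp⟩ := hbij.2 b'
    rcases p with ⟨_, c, rfl⟩ | ⟨_, c, rfl⟩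
    · exact (hcon c).1 hp.symm
    · exact (hcon c).2 hp.symm
  obtain ⟨c, hc⟩ := hex
  -- conjugate by U(c,0)
  have e2 : Ue h hθ c 0 * Ue h hθ 1 b' * (Ue h hθ c 0)⁻¹ = Ue h hθ 1 (b' + (θ c + c)) := by
    rw [mul_inv_eq_iff_eq_mul]
    apply Subtype.ext
    change U θ c 0 * U θ 1 b' = U θ 1 (b' + (θ c + c)) * U θ c 0
    rw [U_mul h, U_mul h]
    congr 1
    · ring
    · rw [map_one]; linear_combination (-c) * h2
  have e3 : (Ue h hθ 1 0)⁻¹ = Ue h hθ 1 1 := by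
    apply Subtype.ext
    change (U θ 1 0)⁻¹ = U θ 1 1
    rw [U_inv h, map_one]; congr 1; ring
  refine ⟨v * (De h hθ k)⁻¹ * (Ue h hθ c 0)⁻¹, ?_⟩
  have e4 : (v * (De h hθ k)⁻¹ * (Ue h hθ c 0)⁻¹)⁻¹ * x * (v * (De h hθ k)⁻¹ * (Ue h hθ c 0)⁻¹) =
      Ue h hθ 1 (b' + (θ c + c)) := by
    rw [← e2, ← e1]; group
  rw [e4, e3]
  rcases hc with hc | hc
  · left
    congr 1
    rw [hc]; linear_combination (θ c + c) * h2
  · right
    congr 1
    rw [hc]; linear_combination (θ c + c) * h2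

theorem fconj4 [Fintype F] (hm : 1 ≤ m) (hF : Fintype.card F = 2 ^ (2 * m + 1)) (x y : Cfsg.Sz F m)
    (hx : orderOf x = 4) (hy : orderOf y = 4) : ∃ g, g * x * g⁻¹ = y ∨ g * x * g⁻¹ = y⁻¹ := by
  obtain ⟨θ, h, hθ⟩ := exists_theta hF
  obtain ⟨v, hv⟩ := conj_std4 hm hF h hθ x hx
  obtain ⟨u, hu⟩ := conj_std4 hm hF h hθ y hy
  refine ⟨u * v⁻¹, ?_⟩
  have e1 : u * v⁻¹ * x * (u * v⁻¹)⁻¹ = u * (v⁻¹ * x * v) * u⁻¹ := by group
  have e2 : y = u * (u⁻¹ * y * u) * u⁻¹ := by group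
  rw [e1]
  rcases hv with hv | hv <;> rcases hu with hu | hu
  · left; rw [hv, ← hu]; group
  · right; rw [hv, e2, hu]; group
  · right; rw [hv, e2, hu]; group
  · left; rw [hv, ← hu]; group

end

end Cfsg.Agent.HL.SzSolv
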