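import Cfsg.Agent.HL_SzSolvD
import Cfsg.Agent.HL_SzSubI

/-! counting solvable two-generator subgroups of Suzuki groups: the structure. -/

set_option autoImplicit false
set_option linter.unusedSectionVars false
set_option linter.style.haveILetI false

namespace Cfsg.Agent.HL.SzSolv

open Cfsg.Agent.HL.SzAbs Cfsg.Agent.HL.TI Cfsg.Agent.HL.Sz

variable {F : Type*} [Field F] {m : ℕ} {θ : F →+* F}

/-- the three families of odd order elements. -/
theorem three [Fintype F] (hm : 1 ≤ m) (hF : Fintype.card F = 2 ^ (2 * m + 1)) (h : IsTits θ)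
    (hθ : ∀ x, θ x = x ^ (2 ^ (m + 1))) [Fintype (Cfsg.Sz F m)] :
    ∃ T1 T2 : Subgroup (Cfsg.Sz F m), (∀ t ∈ T1, t ≠ 1 → C t = T1) ∧ (∀ t ∈ T2, t ≠ 1 → C t = T2) ∧
      Nat.card T1 + Nat.card T2 = 2 * (2 ^ (2 * m + 1) + 1) ∧ 2 ≤ Nat.card T1 ∧ 2 ≤ Nat.card T2 ∧
      Nat.card (Subgroup.normalizer (T1 : Set (Cfsg.Sz F m))) = 4 * Nat.card T1 ∧
      Nat.card (Subgroup.normalizer (T2 : Set (Cfsg.Sz F m))) = 4 * Nat.card T2 ∧
      Disjoint (conjSet T1) (conjSet T2) ∧ Disjoint (conjSet T1) (conjSet (Dsub h hθ)) ∧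
      Disjoint (conjSet T2) (conjSet (Dsub h hθ)) ∧
      (∀ z, z ∈ O (Cfsg.Sz F m) ↔ (z ∈ conjSet T1 ∨ z ∈ conjSet T2) ∨ z ∈ conjSet (Dsub h hθ)) ∧
      (letI := act hθ; Fpf (Cfsg.Sz F m) (Option (F × F)) = conjSet T1 ∪ conjSet T2) := by
  letI := act hθ
  have H := zd hm hF h hθ
  obtain ⟨x, y, hx, hy, h1, h2, h3, h4, h5⟩ := H.main
  set q := 2 ^ (2 * m + 1) with hq
  have hq8 : 8 ≤ q := q_ge hm
  have hcx : ∀ t ∈ C x, t ≠ 1 → C t = C x := fun t ht ht1 => H.centralizer_eq hx ht ht1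
  have hcy : ∀ t ∈ C y, t ≠ 1 → C t = C y := fun t ht ht1 => H.centralizer_eq hy ht ht1
  have h5x := H.five_le hx
  have h5y := H.five_le hy
  have hdx := H.card_dvd hx
  have hdy := H.card_dvd hy
  have hD := fD hm hF h hθ
  have hcD : Nat.card (Dsub h hθ) = q - 1 := card_Dsub hF h hθ
  have dis : ∀ (T T' : Subgroup (Cfsg.Sz F m)), (∀ t ∈ T, t ≠ 1 → C t = T) → (∀ t ∈ T', t ≠ 1 → C t = T') →
      Nat.card T ≠ Nat.card T' → Disjoint (conjSet T) (conjSet T') := by
    intro T T' hT hT' hne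
    rw [Set.disjoint_left]
    intro z hz hz'
    apply hne
    rw [← (card_of_conj T hT hz).1, ← (card_of_conj T' hT' hz').1]
  have hneD : ∀ w : Cfsg.Sz F m, Good q w → Nat.card (C w) ≠ Nat.card (Dsub h hθ) := by
    intro w hw hcon
    rw [hcD] at hcon
    have hd := H.card_dvd hw
    have h6 : q - 1 ∣ q ^ 2 + 1 := by rw [← hcon]; exact hd
    have h7 := Nat.Coprime.eq_one_of_dvd H.cop3.symm h6
    omega
  refine ⟨C x, C y, hcx, hcy, h1, le_trans (by norm_num) h5x, le_trans (by norm_num) h5y, h3, h4, ?_, ?_, ?_, ?_, h5⟩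
  · apply dis _ _ hcx hcy
    intro hcon
    change Nat.card (Subgroup.centralizer ({x} : Set (Cfsg.Sz F m))) = Nat.card (Subgroup.centralizer ({y} : Set (Cfsg.Sz F m))) at hcon
    rw [hcon] at h1 h2
    have h6 : Nat.card (Subgroup.centralizer ({y} : Set (Cfsg.Sz F m))) = q + 1 := by omega
    rw [h6] at h2
    nlinarith
  · exact dis _ _ hcx hD (hneD x hx)
  · exact dis _ _ hcy hD (hneD y hy)
  · intro z
    rw [mem_O]
    constructor
    · rintro ⟨hz1, ho⟩
      rcases tri hm hF h hθ z with h6 | ⟨v, hv⟩ | ⟨v, hv⟩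
      · left
        rw [h5] at h6
        exact h6
      · exfalso
        exact conj_ne_one hz1 (U_order_two h hθ _ hv (by rw [orderOf_conj_inv]; exact ho))
      · right
        exact ⟨hz1, v, hv⟩
    · rintro ((h6 | h6) | h6)
      · have : z ∈ Fpf (Cfsg.Sz F m) (Option (F × F)) := by rw [h5]; exact Or.inl h6
        exact ⟨h6.1, H.fpf_odd this⟩
      · have : z ∈ Fpf (Cfsg.Sz F m) (Option (F × F)) := by rw [h5]; exact Or.inr h6
        exact ⟨h6.1, H.fpf_odd this⟩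
      · refine ⟨h6.1, ?_⟩
        obtain ⟨-, v, hv⟩ := h6
        have h7 := odd_orderOf_D hF h hθ _ hv
        rwa [orderOf_conj_inv] at h7

theorem sums [Fintype F] (hm : 1 ≤ m) (hF : Fintype.card F = 2 ^ (2 * m + 1)) [Fintype (Cfsg.Sz F m)] :
    (∑ z ∈ O (Cfsg.Sz F m), Nat.card (N z) = Nat.card (Cfsg.Sz F m) * (3 * 2 ^ (2 * m + 1) - 2)) ∧
    (∑ z ∈ O (Cfsg.Sz F m), kk z * (Nat.card (N z) - 2 * Nat.card (C z)) = 4 * 2 ^ (2 * m + 1) * Nat.card (Cfsg.Sz F m)) ∧
    (2 * (O (Cfsg.Sz F m)).card = (2 ^ (2 * m + 1)) ^ 2 * (2 ^ (2 * m + 1) - 1) * ((2 ^ (2 * m + 1)) * (2 ^ (2 * m + 1) - 1)) +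
      (2 ^ (2 * m + 1)) ^ 2 * ((2 ^ (2 * m + 1)) ^ 2 + 1) * (2 ^ (2 * m + 1) - 2)) := by
  classical
  obtain ⟨θ, h, hθ⟩ := exists_theta hF
  obtain ⟨T1, T2, hT1, hT2, hs, hc1, hc2, hn1, hn2, hd12, hd1, hd2, hO, hfpf⟩ := three hm hF h hθ
  have hD := fD hm hF h hθ
  set q := 2 ^ (2 * m + 1) with hq
  have hq8 : 8 ≤ q := q_ge hm
  have hcD : Nat.card (Dsub h hθ) = q - 1 := card_Dsub hF h hθ
  have hnD : Nat.card (Subgroup.normalizer ((Dsub h hθ : Subgroup (Cfsg.Sz F m)) : Set (Cfsg.Sz F m))) = 2 * (q - 1) := card_norm_D hm hF h hθ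
  have hcG : Nat.card (Cfsg.Sz F m) = q ^ 2 * (q ^ 2 + 1) * (q - 1) := card_Sz hm hF
  set S1 : Finset (Cfsg.Sz F m) := Finset.univ.filter (fun z => z ∈ conjSet T1) with hS1
  set S2 : Finset (Cfsg.Sz F m) := Finset.univ.filter (fun z => z ∈ conjSet T2) with hS2
  set S3 : Finset (Cfsg.Sz F m) := Finset.univ.filter (fun z => z ∈ conjSet (Dsub h hθ)) with hS3
  have m1 : ∀ z, z ∈ S1 ↔ z ∈ conjSet T1 := by intro z; simp [hS1]
  have m2 : ∀ z, z ∈ S2 ↔ z ∈ conjSet T2 := by intro z; simp [hS2]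
  have m3 : ∀ z, z ∈ S3 ↔ z ∈ conjSet (Dsub h hθ) := by intro z; simp [hS3]
  have hO' : O (Cfsg.Sz F m) = (S1 ∪ S2) ∪ S3 := by
    ext z
    rw [hO, Finset.mem_union, Finset.mem_union, m1, m2, m3]
  have dj1 : Disjoint S1 S2 := by
    rw [Finset.disjoint_left]
    intro z h1 h2
    exact (Set.disjoint_left.mp hd12) ((m1 z).mp h1) ((m2 z).mp h2)
  have dj2 : Disjoint (S1 ∪ S2) S3 := by
    rw [Finset.disjoint_left]
    intro z h1 h2
    rw [Finset.mem_union, m1, m2] at h1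
    rcases h1 with h1 | h1
    · exact (Set.disjoint_left.mp hd1) h1 ((m3 z).mp h2)
    · exact (Set.disjoint_left.mp hd2) h1 ((m3 z).mp h2)
  have c1 := card_S T1 hT1 S1 m1
  have c2 := card_S T2 hT2 S2 m2
  have c3 := card_S _ hD S3 m3
  rw [hcD, hnD] at c3
  rw [hn1] at c1
  rw [hn2] at c2
  refine ⟨?_, ?_, ?_⟩
  · rw [hO', Finset.sum_union dj2, Finset.sum_union dj1]
    rw [sum_conjSet T1 hT1 S1 m1 (fun a _ => a), sum_conjSet T2 hT2 S2 m2 (fun a _ => a), sum_conjSet _ hD S3 m3 (fun a _ => a)]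
    rw [hn1, hn2, hnD, c1, c2, c3, ← mul_add, ← mul_add]
    congr 1
    omega
  · rw [hO', Finset.sum_union dj2, Finset.sum_union dj1]
    have s1 := sum_conjSet T1 hT1 S1 m1 (fun a b => a / b * (a - 2 * b))
    have s2 := sum_conjSet T2 hT2 S2 m2 (fun a b => a / b * (a - 2 * b))
    have s3 := sum_conjSet _ hD S3 m3 (fun a b => a / b * (a - 2 * b))
    unfold kk
    rw [s1, s2, s3, hn1, hn2, hnD, hcD]
    have e1 : 4 * Nat.card T1 / Nat.card T1 = 4 := Nat.mul_div_cancel _ (by omega)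
    have e2 : 4 * Nat.card T2 / Nat.card T2 = 4 := Nat.mul_div_cancel _ (by omega)
    have e3 : 4 * Nat.card T1 - 2 * Nat.card T1 = 2 * Nat.card T1 := by omega
    have e4 : 4 * Nat.card T2 - 2 * Nat.card T2 = 2 * Nat.card T2 := by omega
    have e5 : 2 * (q - 1) - 2 * (q - 1) = 0 := by omega
    rw [e1, e2, e3, e4, e5, mul_zero, mul_zero, add_zero]
    have e6 : S1.card * (4 * (2 * Nat.card T1)) + S2.card * (4 * (2 * Nat.card T2)) =
      2 * (S1.card * (4 * Nat.card T1) + S2.card * (4 * Nat.card T2)) := by ring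
    rw [e6, c1, c2, ← mul_add]
    have e7 : Nat.card T1 - 1 + (Nat.card T2 - 1) = 2 * q := by omega
    rw [e7]; ring
  · rw [hO', Finset.card_union_of_disjoint dj2]
    letI := act hθ
    have H := zd hm hF h hθ
    have h2f := H.two_fpf
    have f1 : (S1 ∪ S2).card = Nat.card (Fpf (Cfsg.Sz F m) (Option (F × F))) := by
      have f0 : Fpf (Cfsg.Sz F m) (Option (F × F)) = conjSet T1 ∪ conjSet T2 := hfpf
      rw [f0, Nat.card_coe_set_eq]
      have : conjSet T1 ∪ conjSet T2 = ((S1 ∪ S2 : Finset (Cfsg.Sz F m)) : Set (Cfsg.Sz F m)) := by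
        ext z
        rw [Finset.mem_coe, Finset.mem_union, m1, m2]
        rfl
      rw [this, Set.ncard_coe_finset]
    rw [mul_add, f1, h2f]
    have f2 : 2 * S3.card = q ^ 2 * (q ^ 2 + 1) * (q - 2) := by
      have hp : 0 < q - 1 := by omega
      apply Nat.eq_of_mul_eq_mul_right hp
      rw [hcG] at c3
      have e8 : q - 1 - 1 = q - 2 := by omega
      rw [e8] at c3
      calc 2 * S3.card * (q - 1) = S3.card * (2 * (q - 1)) := by ring
        _ = _ := c3
        _ = _ := by ring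
    rw [f2]
    ring

theorem counts [Fintype F] (hm : 1 ≤ m) (hF : Fintype.card F = 2 ^ (2 * m + 1)) [Fintype (Cfsg.Sz F m)] :
    Nat.card {x : Cfsg.Sz F m // orderOf x = 2} = (2 ^ (2 * m + 1) - 1) * ((2 ^ (2 * m + 1)) ^ 2 + 1) ∧
    Nat.card {x : Cfsg.Sz F m // orderOf x = 4} = 2 ^ (2 * m + 1) * (2 ^ (2 * m + 1) - 1) * ((2 ^ (2 * m + 1)) ^ 2 + 1) := by
  classical
  obtain ⟨θ, h, hθ⟩ := exists_theta hF
  have h2 := h.two
  have hO := (sums hm hF).2.2
  set q := 2 ^ (2 * m + 1) with hq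
  have hq8 : 8 ≤ q := q_ge hm
  have hcG : Nat.card (Cfsg.Sz F m) = q ^ 2 * (q ^ 2 + 1) * (q - 1) := card_Sz hm hF
  have i1 : Nat.card {x : Cfsg.Sz F m // orderOf x = 2} = (q - 1) * (q ^ 2 + 1) := by
    have f1 := card_fibers (Usub h hθ) (fun c : Cfsg.Sz F m => c * Ue h hθ 0 1 * c⁻¹) (fun c c' => comm_iff_U hm hF h hθ c c')
    rw [card_Usub hF, hcG] at f1
    have f2 : Nat.card (Set.range (fun c : Cfsg.Sz F m => c * Ue h hθ 0 1 * c⁻¹)) = Nat.card {x : Cfsg.Sz F m // orderOf x = 2} := by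
      apply Nat.card_congr (Equiv.subtypeEquivRight ?_)
      intro x
      have ho : orderOf (Ue h hθ 0 1 : Cfsg.Sz F m) = 2 := by
        apply orderOf_eq_prime
        · apply Subtype.ext
          change U θ 0 1 ^ 2 = 1
          rw [sq, U_mul h, ← U_zero θ]
          congr 1
          · ring
          · linear_combination h2
        · intro hcon
          have := congrArg Subtype.val hcon
          change U θ 0 1 = 1 at this
          rw [← U_zero θ] at this
          exact one_ne_zero (U_inj this).2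
      constructor
      · rintro ⟨c, rfl⟩
        have : orderOf (c * Ue h hθ 0 1 * c⁻¹) = orderOf (Ue h hθ 0 1 : Cfsg.Sz F m) :=
          orderOf_injective (MulAut.conj c).toMonoidHom (MulAut.conj c).injective _
        change orderOf (c * Ue h hθ 0 1 * c⁻¹) = 2
        rw [this, ho]
      · intro hx
        obtain ⟨g, hg⟩ := fconj2 hm hF _ x ho hx
        exact ⟨g, hg⟩
    rw [f2] at f1
    have hp : 0 < q ^ 2 := by positivity
    apply Nat.eq_of_mul_eq_mul_right hp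
    rw [← f1]; ring
  refine ⟨i1, ?_⟩
  -- total count
  have t1 : Nat.card (Cfsg.Sz F m) = 1 + (O (Cfsg.Sz F m)).card + Nat.card {x : Cfsg.Sz F m // orderOf x = 2} +
      Nat.card {x : Cfsg.Sz F m // orderOf x = 4} := by
    have c0 : Nat.card (Cfsg.Sz F m) = (Finset.univ : Finset (Cfsg.Sz F m)).card := by
      rw [Nat.card_eq_fintype_card, Finset.card_univ]
    have c2 : Nat.card {x : Cfsg.Sz F m // orderOf x = 2} = (Finset.univ.filter (fun x : Cfsg.Sz F m => orderOf x = 2)).card := by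
      rw [Nat.card_eq_fintype_card]; exact Fintype.card_subtype _
    have c4 : Nat.card {x : Cfsg.Sz F m // orderOf x = 4} = (Finset.univ.filter (fun x : Cfsg.Sz F m => orderOf x = 4)).card := by
      rw [Nat.card_eq_fintype_card]; exact Fintype.card_subtype _
    have e1 : (Finset.univ : Finset (Cfsg.Sz F m)) = (insert 1 (O (Cfsg.Sz F m)) ∪ Finset.univ.filter (fun x => orderOf x = 2)) ∪
        Finset.univ.filter (fun x => orderOf x = 4) := by
      symm
      rw [Finset.eq_univ_iff_forall]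
      intro x
      simp only [Finset.mem_union, Finset.mem_insert, Finset.mem_filter, Finset.mem_univ, true_and, mem_O]
      by_cases hx : x = 1
      · exact Or.inl (Or.inl (Or.inl hx))
      · rcases ftwo hm hF x with h6 | h6 | h6
        · exact Or.inl (Or.inl (Or.inr ⟨hx, h6⟩))
        · exact Or.inl (Or.inr h6)
        · exact Or.inr h6
    have e2 : ((insert 1 (O (Cfsg.Sz F m)) ∪ Finset.univ.filter (fun x : Cfsg.Sz F m => orderOf x = 2)) ∪
        Finset.univ.filter (fun x : Cfsg.Sz F m => orderOf x = 4)).card = 1 + (O (Cfsg.Sz F m)).card + (Finset.univ.filter (fun x : Cfsg.Sz F m => orderOf x = 2)).card +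
        (Finset.univ.filter (fun x : Cfsg.Sz F m => orderOf x = 4)).card := ?_
    · rw [c0, c2, c4, ← e2, ← e1]
    rw [Finset.card_union_of_disjoint, Finset.card_union_of_disjoint, Finset.card_insert_of_notMem]
    · ring
    · simp [mem_O]
    · rw [Finset.disjoint_left]
      intro x h1 h2
      rw [Finset.mem_insert, mem_O] at h1
      rw [Finset.mem_filter] at h2
      rcases h1 with rfl | h1
      · rw [orderOf_one] at h2; omega
      · exact two_of (Or.inl h2.2) h1.2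
    · rw [Finset.disjoint_left]
      intro x h1 h2
      rw [Finset.mem_union, Finset.mem_insert, mem_O, Finset.mem_filter] at h1
      rw [Finset.mem_filter] at h2
      rcases h1 with (rfl | h1) | h1
      · rw [orderOf_one] at h2; omega
      · exact two_of (Or.inr h2.2) h1.2
      · omega
  rw [i1, hcG] at t1
  obtain ⟨k, hk⟩ : ∃ k, q = k + 8 := ⟨q - 8, by omega⟩
  have hk1 : q - 1 = k + 7 := by omega
  have hk2 : q - 2 = k + 6 := by omega
  rw [hk1] at t1 hO ⊢
  rw [hk2] at hO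
  rw [hk] at t1 hO ⊢
  have t2 : 2 * ((k + 8) ^ 2 * ((k + 8) ^ 2 + 1) * (k + 7)) = 2 + 2 * (O (Cfsg.Sz F m)).card + 2 * ((k + 7) * ((k + 8) ^ 2 + 1)) +
      2 * Nat.card {x : Cfsg.Sz F m // orderOf x = 4} := by
    rw [t1]; ring
  rw [hO] at t2
  have t3 : 2 * Nat.card {x : Cfsg.Sz F m // orderOf x = 4} = 2 * ((k + 8) * (k + 7) * ((k + 8) ^ 2 + 1)) := by
    nlinarith [t2]
  omega

end Cfsg.Agent.HL.SzSolv
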