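import Cfsg.Agent.HL_SzSolvE

/-! counting solvable two-generator subgroups of Suzuki groups: final. -/

set_option autoImplicit false
set_option linter.unusedSectionVars false
set_option linter.style.haveILetI false

namespace Cfsg.Agent.HL.SzSolv

open Cfsg.Agent.HL.SzAbs Cfsg.Agent.HL.TI Cfsg.Agent.HL.Sz
open scoped commutatorElement

/-- solvable from a normal solvable subgroup with commutative quotient -/
theorem solvable_of_comm {G : Type*} [Group G] (K A : Subgroup G) (hA : Group.IsSolvable A)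
    (hcomm : ∀ a ∈ K, ∀ b ∈ K, a * b * a⁻¹ * b⁻¹ ∈ A) : Group.IsSolvable K := by
  have hle : commutator K ≤ (A.subgroupOf K) := by
    rw [commutator_def, Subgroup.commutator_le]
    intro a _ b _
    rw [Subgroup.mem_subgroupOf]
    exact hcomm a.1 a.2 b.1 b.2
  have h1 : Group.IsSolvable (commutator K) := by
    have h2 : Function.Injective (((K.subtype).comp (commutator K).subtype).codRestrict A (fun x => by
        have := hle x.2
        rw [Subgroup.mem_subgroupOf] at this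
        exact this)) := by
      intro a b hab
      have := congrArg Subtype.val hab
      exact Subtype.ext (Subtype.ext this)
    exact solvable_of_solvable_injective h2
  refine solvable_of_ker_le_range (commutator K).subtype (Abelianization.of (G := K)) ?_
  rw [Abelianization.ker_of, Subgroup.range_subtype]

variable {F : Type*} [Field F] {m : ℕ} {θ : F →+* F}

theorem solv_N [Fintype F] (hm : 1 ≤ m) (hF : Fintype.card F = 2 ^ (2 * m + 1)) (z : Cfsg.Sz F m) (hz : z ≠ 1) (ho : Odd (orderOf z)) :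
    Group.IsSolvable (N z) := by
  haveI : Fintype (Cfsg.Sz F m) := Fintype.ofFinite _
  have H := sz hm hF
  have hA : Group.IsSolvable (C z) := by
    apply Group.isSolvable_of_comm
    intro a b
    exact Subtype.ext (H.comm hz ho a.2 b.2)
  apply solvable_of_comm (N z) (C z) hA
  intro a ha b hb
  -- quotient of order ≤ 4
  haveI hnorm : ((C z).subgroupOf (N z)).Normal := Subgroup.normal_in_normalizer
  have hidx : Nat.card (N z ⧸ (C z).subgroupOf (N z)) ≤ 4 := by
    have h1 : ((C z).subgroupOf (N z)).index * Nat.card (C z) = Nat.card (N z) := by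
      have h0 := Subgroup.card_mul_index ((C z).subgroupOf (N z))
      rw [Nat.card_congr (Subgroup.subgroupOfEquivOfLe (C_le_N z)).toEquiv] at h0
      rw [mul_comm]; exact h0
    have h2 : Nat.card (N z ⧸ (C z).subgroupOf (N z)) = ((C z).subgroupOf (N z)).index := rfl
    rw [h2]
    have h3 := card_C_pos z
    rcases H.nrm z hz ho with h4 | h4 <;> rw [h4] at h1
    · have := Nat.eq_of_mul_eq_mul_right h3 h1
      omega
    · have := Nat.eq_of_mul_eq_mul_right h3 h1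
      omega
  have h5 := small_comm hidx (QuotientGroup.mk (⟨a, ha⟩ : N z)) (QuotientGroup.mk (⟨b, hb⟩ : N z))
  have h6 : (QuotientGroup.mk' ((C z).subgroupOf (N z))) ((⟨a, ha⟩ : N z) * ⟨b, hb⟩ * (⟨a, ha⟩)⁻¹ * (⟨b, hb⟩)⁻¹) = 1 := by
    rw [map_mul, map_mul, map_mul, map_inv, map_inv]
    have h5' : (QuotientGroup.mk' ((C z).subgroupOf (N z))) (⟨a, ha⟩ : N z) * (QuotientGroup.mk' ((C z).subgroupOf (N z))) (⟨b, hb⟩ : N z) =
      (QuotientGroup.mk' ((C z).subgroupOf (N z))) (⟨b, hb⟩ : N z) * (QuotientGroup.mk' ((C z).subgroupOf (N z))) (⟨a, ha⟩ : N z) := h5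
    rw [h5']; group
  rw [← MonoidHom.mem_ker, QuotientGroup.ker_mk', Subgroup.mem_subgroupOf] at h6
  exact h6

theorem solv_B [Fintype F] (hm : 1 ≤ m) (hF : Fintype.card F = 2 ^ (2 * m + 1)) (P : Sylow 2 (Cfsg.Sz F m)) :
    Group.IsSolvable (B P) := by
  obtain ⟨θ, h, hθ⟩ := exists_theta hF
  obtain ⟨v, -, h1, h2⟩ := syl_conj hm hF h hθ P
  haveI : Fact (Nat.Prime 2) := ⟨by norm_num⟩
  haveI : Finite (P : Subgroup (Cfsg.Sz F m)) := inferInstance
  haveI : Group.IsNilpotent (P : Subgroup (Cfsg.Sz F m)) := P.2.isNilpotent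
  apply solvable_of_comm (B P) (P : Subgroup (Cfsg.Sz F m)) inferInstance
  intro a ha b hb
  rw [h2, mem_normalizer_Usub hm hF h hθ] at ha hb
  rw [h1]
  obtain ⟨a1, b1, k1, e1⟩ := stab_infty hm hF h hθ _ (v⁻¹ * a * v).2 ha
  obtain ⟨a2, b2, k2, e2⟩ := stab_infty hm hF h hθ _ (v⁻¹ * b * v).2 hb
  obtain ⟨e, f, hef⟩ := comm_BB h a1 b1 a2 b2 k1 k2
  refine ⟨e, f, ?_⟩
  rw [← hef, ← e1, ← e2]
  have : v⁻¹ * (a * b * a⁻¹ * b⁻¹) * v = ⁅v⁻¹ * a * v, v⁻¹ * b * v⁆ := by
    rw [commutatorElement_def]; group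
  rw [this]
  rfl

theorem fsub [Fintype F] (hm : 1 ≤ m) (hp : (2 * m + 1).Prime) (hF : Fintype.card F = 2 ^ (2 * m + 1)) [Fintype (Cfsg.Sz F m)] (M : Subgroup (Cfsg.Sz F m)) :
    Group.IsSolvable M ↔ (∃ P : Sylow 2 (Cfsg.Sz F m), M ≤ B P) ∨ (∃ z ∈ O (Cfsg.Sz F m), M ≤ N z) := by
  constructor
  · intro hM
    rcases subgroups hm hF M with h1 | ⟨x, hx1, hx2, hx3⟩ | ⟨K, u, hK, hu⟩
    · exact Or.inl h1
    · exact Or.inr ⟨x, mem_O.mpr ⟨hx1, hx2⟩, hx3⟩
    · exfalso
      obtain ⟨k, hk1, hk2, hk3⟩ := subfield_card hF K hK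
      have hk4 : 2 * k + 1 = 2 * m + 1 := by
        rcases (Nat.dvd_prime hp).mp hk3 with h | h
        · omega
        · exact h
      rw [hk4] at hk2
      have htop := std_top hF K hk2
      have hMt : M = ⊤ := by
        rw [eq_top_iff]
        intro x _
        rw [hu, htop]
        exact Subgroup.mem_top _
      subst hMt
      haveI := hM
      have hG : Group.IsSolvable (Cfsg.Sz F m) := solvable_of_solvable_injective (f := (Subgroup.topEquiv (G := Cfsg.Sz F m)).symm.toMonoidHom)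
        (Subgroup.topEquiv (G := Cfsg.Sz F m)).symm.injective
      have hs := simple hm hF
      have := hs.toNontrivial
      have h5 := Group.IsSolvable.commutator_lt_top_of_nontrivial (Cfsg.Sz F m)
      rw [perfect hm hF] at h5
      exact lt_irrefl _ h5
  · rintro (⟨P, hP⟩ | ⟨z, hz, hM⟩)
    · haveI := solv_B hm hF P
      exact solvable_of_solvable_injective (Subgroup.inclusion_injective hP)
    · haveI := solv_N hm hF z (mem_O.mp hz).1 (mem_O.mp hz).2
      exact solvable_of_solvable_injective (Subgroup.inclusion_injective hM)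

theorem sz2 [Fintype F] (hm : 1 ≤ m) (hp : (2 * m + 1).Prime) (hF : Fintype.card F = 2 ^ (2 * m + 1)) [Fintype (Cfsg.Sz F m)] :
    SZ2 (Cfsg.Sz F m) (2 ^ (2 * m + 1)) where
  toSZ := sz hm hF
  cinv := (counts hm hF).1
  c4 := (counts hm hF).2
  conj2 := fconj2 hm hF
  conj4 := fconj4 hm hF
  sum1 := (sums hm hF).1
  sum2 := (sums hm hF).2.1
  cardN := fcardN hm hF
  ti := fti hm hF
  sub := fsub hm hp hF

/-- x of order dividing q²+1. -/
theorem case_fpf [Fintype F] (hm : 1 ≤ m) (hp : (2 * m + 1).Prime) (hF : Fintype.card F = 2 ^ (2 * m + 1)) [Fintype (Cfsg.Sz F m)]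
    (x : Cfsg.Sz F m) (hx1 : x ≠ 1) (hx : orderOf x ∣ (2 ^ (2 * m + 1)) ^ 2 + 1) :
    Nat.card {y : Cfsg.Sz F m // Group.IsSolvable (Subgroup.closure ({x, y} : Set (Cfsg.Sz F m)))} = 4 * Nat.card (C x) ∧
    (Nat.card (C x) = 2 ^ (2 * m + 1) + 2 ^ (m + 1) + 1 ∨ Nat.card (C x) = 2 ^ (2 * m + 1) - 2 ^ (m + 1) + 1) := by
  obtain ⟨θ, h, hθ⟩ := exists_theta hF
  letI := act hθ
  have H := zd hm hF h hθ
  have ho : Odd (orderOf x) := H.odd_of_dvd hx
  have hf : x ∈ Fpf (Cfsg.Sz F m) (Option (F × F)) := by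
    rcases tri hm hF h hθ x with h1 | ⟨v, hv⟩ | ⟨v, hv⟩
    · exact h1
    · exfalso
      exact conj_ne_one hx1 (U_order_two h hθ _ hv (by rw [orderOf_conj_inv]; exact ho))
    · exfalso
      have h2 : orderOf (v⁻¹ * x * v) ∣ Nat.card (Dsub h hθ) := by
        have := orderOf_dvd_natCard (⟨_, hv⟩ : Dsub h hθ)
        rwa [Subgroup.orderOf_mk] at this
      rw [orderOf_conj_inv, card_Dsub hF h hθ] at h2
      have h3 := Nat.Coprime.eq_one_of_dvd (Nat.Coprime.coprime_dvd_left hx H.cop3) h2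
      exact hx1 (orderOf_eq_one_iff.mp h3)
  constructor
  · rw [(sz2 hm hp hF).res_fpf (mem_O.mpr ⟨hx1, ho⟩)]
    · exact H.card_norm hf
    · intro P hP
      obtain ⟨p, hp⟩ := borel_fix hm hF h hθ P
      rw [hp] at hP
      exact hf p ((act_eq_iff hθ x p p).mpr hP)
  · exact (H.card_cent (r := 2 ^ (m + 1)) (by rw [← pow_add, ← pow_succ']; congr 1; omega) hf).2

theorem case_split [Fintype F] (hm : 1 ≤ m) (hp : (2 * m + 1).Prime) (hF : Fintype.card F = 2 ^ (2 * m + 1)) [Fintype (Cfsg.Sz F m)]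
    (x : Cfsg.Sz F m) (hx1 : x ≠ 1) (hx : orderOf x ∣ 2 ^ (2 * m + 1) - 1) :
    Nat.card {y : Cfsg.Sz F m // Group.IsSolvable (Subgroup.closure ({x, y} : Set (Cfsg.Sz F m)))} =
      2 * (2 ^ (2 * m + 1)) ^ 2 * (2 ^ (2 * m + 1) - 1) := by
  obtain ⟨θ, h, hθ⟩ := exists_theta hF
  letI := act hθ
  have H := zd hm hF h hθ
  have hq8 := q_ge hm
  have ho : Odd (orderOf x) := by
    apply Odd.of_dvd_nat _ hx
    have h2 := two_dvd_q m
    rw [Nat.odd_iff]; omega
  obtain ⟨v, hv⟩ : ∃ v, v⁻¹ * x * v ∈ Dsub h hθ := by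
    rcases tri hm hF h hθ x with h1 | ⟨v, hv⟩ | ⟨v, hv⟩
    · exfalso
      have h2 := H.order_dvd_fpf h1
      have h3 := Nat.Coprime.eq_one_of_dvd (Nat.Coprime.coprime_dvd_left h2 H.cop3) hx
      exact hx1 (orderOf_eq_one_iff.mp h3)
    · exfalso
      exact conj_ne_one hx1 (U_order_two h hθ _ hv (by rw [orderOf_conj_inv]; exact ho))
    · exact ⟨v, hv⟩
  obtain ⟨k, hk⟩ := (mem_Dsub h hθ _).mp hv
  have hk1 : k ≠ 1 := by
    rintro rfl
    rw [D_one] at hk
    exact conj_ne_one hx1 (Subtype.ext hk)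
  have hcj : x ∈ conjSet (Dsub h hθ) := ⟨hx1, v, hv⟩
  obtain ⟨c1, c2⟩ := card_of_conj _ (fD hm hF h hθ) hcj
  rw [card_Dsub hF h hθ] at c1
  rw [card_norm_D hm hF h hθ] at c2
  -- membership in Borel subgroups
  have hB : ∀ g w : Cfsg.Sz F m, w ∈ B (g • sylU hm hF h hθ) ↔ (g⁻¹ * w * g).1 • pt θ none = pt θ none := by
    intro g w
    obtain ⟨g', e1, e2, e3⟩ := syl_conj hm hF h hθ (g • sylU hm hF h hθ)
    have e4 : g'⁻¹ * g ∈ Subgroup.normalizer ((Usub h hθ : Subgroup (Cfsg.Sz F m)) : Set (Cfsg.Sz F m)) := by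
      have e5 : (g'⁻¹ * g) • sylU hm hF h hθ = sylU hm hF h hθ := by
        rw [mul_smul, ← e1, inv_smul_smul]
      have := Sylow.smul_eq_iff_mem_normalizer.mp e5
      exact this
    rw [e3, ← mem_normalizer_Usub hm hF h hθ]
    have e6 : g'⁻¹ * w * g' = (g'⁻¹ * g) * (g⁻¹ * w * g) * (g'⁻¹ * g)⁻¹ := by group
    rw [e6]
    constructor
    · intro h7
      have := mul_mem (mul_mem (inv_mem e4) h7) e4
      have e8 : (g'⁻¹ * g)⁻¹ * (g'⁻¹ * g * (g⁻¹ * w * g) * (g'⁻¹ * g)⁻¹) * (g'⁻¹ * g) = g⁻¹ * w * g := by group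
      rwa [e8] at this
    · intro h7
      exact mul_mem (mul_mem e4 h7) (inv_mem e4)
  have hP : ∀ w : Cfsg.Sz F m, w ∈ B (v • sylU hm hF h hθ) ↔ (v⁻¹ * w * v).1 • pt θ none = pt θ none := hB v
  have hQ : ∀ w : Cfsg.Sz F m, w ∈ B ((v * We h hθ) • sylU hm hF h hθ) ↔ (v⁻¹ * w * v).1 • pt θ (some (0, 0)) = pt θ (some (0, 0)) := by
    intro w
    rw [hB]
    change ((v.1 * W F)⁻¹ * w.1 * (v.1 * W F)) • pt θ none = pt θ none ↔ (v.1⁻¹ * w.1 * v.1) • pt θ (some (0, 0)) = pt θ (some (0, 0))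
    rw [mul_smul, mul_smul, mul_smul, W_none, inv_smul_eq_iff, mul_smul v.1 (W F), W_none, mul_smul, mul_smul, inv_smul_eq_iff]
  apply (sz2 hm hp hF).res_split (mem_O.mpr ⟨hx1, ho⟩) (v • sylU hm hF h hθ) ((v * We h hθ) • sylU hm hF h hθ) _ _ c1 c2
  · intro R
    constructor
    · intro hxR
      obtain ⟨g, e1, e2, e3⟩ := syl_conj hm hF h hθ R
      rw [← e1, hB] at hxR
      -- x fixes g • none
      obtain ⟨p, hp'⟩ := exists_coe hθ (v⁻¹ * g) none
      have e4 : D θ k • pt θ p = pt θ p := by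
        rw [← hk]
        change (v.1⁻¹ * x.1 * v.1) • pt θ p = pt θ p
        have e5 : g.1 • pt θ none = v.1 • pt θ p := by
          rw [← hp']
          change _ = v.1 • (v.1⁻¹ * g.1) • pt θ none
          rw [mul_smul, smul_inv_smul]
        change (g.1⁻¹ * x.1 * g.1) • pt θ none = pt θ none at hxR
        rw [mul_smul, mul_smul, inv_smul_eq_iff] at hxR ⊢
        rw [← e5]; exact hxR
      rcases D_fix h k hk1 p e4 with rfl | rfl
      · left
        rw [← e1]
        have e6 : v⁻¹ * g ∈ Subgroup.normalizer ((Usub h hθ : Subgroup (Cfsg.Sz F m)) : Set (Cfsg.Sz F m)) := by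
          rw [mem_normalizer_Usub hm hF h hθ]; exact hp'
        have e7 : (v⁻¹ * g) • sylU hm hF h hθ = sylU hm hF h hθ := Sylow.smul_eq_iff_mem_normalizer.mpr e6
        rw [mul_smul, inv_smul_eq_iff] at e7
        exact e7
      · right
        rw [← e1]
        have e6 : (v * We h hθ)⁻¹ * g ∈ Subgroup.normalizer ((Usub h hθ : Subgroup (Cfsg.Sz F m)) : Set (Cfsg.Sz F m)) := by
          rw [mem_normalizer_Usub hm hF h hθ]
          change ((v.1 * W F)⁻¹ * g.1) • pt θ none = pt θ none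
          change (v.1⁻¹ * g.1) • pt θ none = pt θ (some (0, 0)) at hp'
          rw [mul_inv_rev, mul_assoc, mul_smul, hp', W_inv, W_zero]
        have e7 : ((v * We h hθ)⁻¹ * g) • sylU hm hF h hθ = sylU hm hF h hθ := Sylow.smul_eq_iff_mem_normalizer.mpr e6
        rw [mul_smul, inv_smul_eq_iff] at e7
        exact e7
    · rintro (rfl | rfl)
      · rw [hP, hk, D_none]
      · rw [hQ, hk]
        rw [D_some h]; simp
  · ext w
    rw [Subgroup.mem_inf, hP, hQ]
    have e1 : w ∈ C x ↔ v⁻¹ * w * v ∈ C (v⁻¹ * x * v) := by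
      have := mem_C_conj v⁻¹ x w
      rw [inv_inv] at this
      exact this.symm
    rw [e1, fD hm hF h hθ _ hv (conj_ne_one hx1)]
    constructor
    · rintro ⟨h1, h2⟩
      rw [mem_Dsub]
      exact stab_two hm hF h hθ _ (v⁻¹ * w * v).2 h1 h2
    · intro h1
      obtain ⟨l, hl⟩ := (mem_Dsub h hθ _).mp h1
      rw [hl, D_none, D_some h]
      simp

end Cfsg.Agent.HL.SzSolv
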