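import Cfsg.Agent.HL_SzSubI

/-! Suzuki groups: more on subgroups. -/

set_option autoImplicit false
set_option linter.unusedSimpArgs false
open scoped Pointwise MatrixGroups Matrix commutatorElement

namespace Cfsg.Agent.HL.Sz

open Cfsg.Agent.HL.SzAbs Cfsg.Agent.HL.TI

section

variable {F : Type*} [Field F] {m : ℕ} {θ : F →+* F}

/-- Sylow 2-normalisers are point stabilisers -/
theorem borel_fix [Fintype F] (hm : 1 ≤ m) (hF : Fintype.card F = 2 ^ (2 * m + 1)) (h : IsTits θ)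
    (hθ : ∀ x, θ x = x ^ (2 ^ (m + 1))) (P : Sylow 2 (Cfsg.Sz F m)) :
    ∃ p : Option (F × F), ∀ w : Cfsg.Sz F m, w ∈ Subgroup.normalizer ((P : Subgroup (Cfsg.Sz F m)) : Set (Cfsg.Sz F m)) ↔
      w.1 • pt θ p = pt θ p := by
  obtain ⟨v, hv⟩ := MulAction.exists_smul_eq (Cfsg.Sz F m) (sylU hm hF h hθ) P
  have hv' : (P : Subgroup (Cfsg.Sz F m)) = (Usub h hθ).map (MulAut.conj v).toMonoidHom := by
    rw [← hv, Sylow.coe_subgroup_smul, sylU_coe]; rfl
  obtain ⟨p, hp⟩ := exists_coe hθ v none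
  refine ⟨p, fun w => ?_⟩
  have h1 : w ∈ Subgroup.normalizer ((P : Subgroup (Cfsg.Sz F m)) : Set (Cfsg.Sz F m)) ↔
      v⁻¹ * w * v ∈ Subgroup.normalizer ((Usub h hθ : Subgroup (Cfsg.Sz F m)) : Set (Cfsg.Sz F m)) := by
    constructor
    · intro h1
      rw [hv'] at h1
      have h2 := norm_conj _ v⁻¹ (v⁻¹ * w * v) (by
        have : v⁻¹⁻¹ * (v⁻¹ * w * v) * v⁻¹ = w := by group
        rw [this]; exact h1)
      have h3 : ((Usub h hθ).map (MulAut.conj v).toMonoidHom).map (MulAut.conj v⁻¹).toMonoidHom = Usub h hθ := by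
        rw [Subgroup.map_map]
        have : (MulAut.conj v⁻¹).toMonoidHom.comp (MulAut.conj v).toMonoidHom = MonoidHom.id _ := by
          ext x
          simp [mul_assoc]
        rw [this, Subgroup.map_id]
      rw [h3] at h2
      exact h2
    · intro h1
      rw [hv']
      exact norm_conj _ v w h1
  rw [h1, mem_normalizer_Usub hm hF h hθ]
  change (v.1⁻¹ * w.1 * v.1) • pt θ none = pt θ none ↔ _
  rw [mul_smul, mul_smul, hp, inv_smul_eq_iff, hp]

theorem D_fix (h : IsTits θ) (k : Fˣ) (hk : k ≠ 1) (p : Option (F × F)) (hp : D θ k • pt θ p = pt θ p) :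
    p = none ∨ p = some (0, 0) := by
  rcases p with _ | ⟨x, y⟩
  · left; rfl
  · right
    rw [D_some h] at hp
    have := pt_inj θ hp
    simp only [Option.some.injEq, Prod.mk.injEq] at this
    have hx : x = 0 := by
      by_contra hx
      apply hk
      apply Units.ext
      apply h.eq_one_of_theta
      exact mul_right_cancel₀ hx (by rw [this.1, one_mul])
    have hy : y = 0 := by
      by_contra hy
      apply hk
      apply Units.ext
      apply h.eq_one_of_theta_mul_sq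
      exact mul_right_cancel₀ hy (by rw [this.2, one_mul])
    rw [hx, hy]

theorem norm_D_perm [Fintype F] (hm : 1 ≤ m) (hF : Fintype.card F = 2 ^ (2 * m + 1)) (h : IsTits θ)
    (hθ : ∀ x, θ x = x ^ (2 ^ (m + 1))) (w : Cfsg.Sz F m)
    (hw : w ∈ Subgroup.normalizer ((Dsub h hθ : Subgroup (Cfsg.Sz F m)) : Set (Cfsg.Sz F m))) (p : Option (F × F))
    (hp : p = none ∨ p = some (0, 0)) : ∃ r : Option (F × F), (r = none ∨ r = some (0, 0)) ∧ w.1 • pt θ p = pt θ r := by
  obtain ⟨k, hk⟩ := exists_unit_ne_one hm hF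
  obtain ⟨r, hr⟩ := exists_coe hθ w p
  refine ⟨r, ?_, hr⟩
  have h1 : De h hθ k ∈ Dsub h hθ := ⟨k, rfl⟩
  have h2 := (Subgroup.mem_normalizer_iff.mp (inv_mem hw) _).mp h1
  obtain ⟨l, hl⟩ := (mem_Dsub h hθ _).mp h2
  have h3 : (w⁻¹ * De h hθ k * w⁻¹⁻¹).1 • pt θ p = pt θ p := by
    rw [hl]
    rcases hp with rfl | rfl
    · rw [D_none]
    · rw [D_some h]; simp
  change (w.1⁻¹ * D θ k * w.1⁻¹⁻¹) • pt θ p = pt θ p at h3
  rw [inv_inv, mul_smul, mul_smul, inv_smul_eq_iff, hr] at h3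
  exact D_fix h k hk r h3

theorem norm_D_sq [Fintype F] (hm : 1 ≤ m) (hF : Fintype.card F = 2 ^ (2 * m + 1)) (h : IsTits θ)
    (hθ : ∀ x, θ x = x ^ (2 ^ (m + 1))) (w : Cfsg.Sz F m)
    (hw : w ∈ Subgroup.normalizer ((Dsub h hθ : Subgroup (Cfsg.Sz F m)) : Set (Cfsg.Sz F m))) :
    w ∈ Dsub h hθ ∨ (We h hθ * w ∈ Dsub h hθ) := by
  obtain ⟨r, hr, hr'⟩ := norm_D_perm hm hF h hθ w hw none (Or.inl rfl)
  obtain ⟨s, hs, hs'⟩ := norm_D_perm hm hF h hθ w hw (some (0, 0)) (Or.inr rfl)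
  have hrs : r ≠ s := by
    rintro rfl
    rw [← hs'] at hr'
    have := pt_inj θ (smul_left_cancel _ hr')
    simp at this
  rcases hr with rfl | rfl
  · rcases hs with rfl | rfl
    · exact absurd rfl hrs
    · left
      rw [mem_Dsub]
      exact stab_two hm hF h hθ w.1 w.2 hr' hs'
  · rcases hs with rfl | rfl
    · right
      rw [mem_Dsub]
      apply stab_two hm hF h hθ _ (We h hθ * w).2
      · change (W F * w.1) • pt θ none = _
        rw [mul_smul, hr', W_zero]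
      · change (W F * w.1) • pt θ (some (0, 0)) = _
        rw [mul_smul, hs', W_none]
    · exact absurd rfl hrs

theorem We_conj (h : IsTits θ) (hθ : ∀ x, θ x = x ^ (2 ^ (m + 1))) (k : Fˣ) :
    We h hθ * De h hθ k * (We h hθ)⁻¹ = De h hθ k⁻¹ := by
  rw [mul_inv_eq_iff_eq_mul]
  exact Subtype.ext (W_D θ k)

theorem We_mem_norm (h : IsTits θ) (hθ : ∀ x, θ x = x ^ (2 ^ (m + 1))) :
    We h hθ ∈ Subgroup.normalizer ((Dsub h hθ : Subgroup (Cfsg.Sz F m)) : Set (Cfsg.Sz F m)) := by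
  have key : ∀ a, a ∈ Dsub h hθ → We h hθ * a * (We h hθ)⁻¹ ∈ Dsub h hθ := by
    rintro _ ⟨k, rfl⟩
    change We h hθ * De h hθ k * (We h hθ)⁻¹ ∈ _
    rw [We_conj]; exact ⟨k⁻¹, rfl⟩
  rw [Subgroup.mem_normalizer_iff]
  intro a
  refine ⟨key a, fun ha => ?_⟩
  have h1 := key _ ha
  have hinv : (We h hθ)⁻¹ = We h hθ := inv_eq_of_mul_eq_one_right (We_mul_We h hθ)
  have h2 : We h hθ * (We h hθ * a * (We h hθ)⁻¹) * (We h hθ)⁻¹ = a := by
    rw [hinv]
    calc We h hθ * (We h hθ * a * We h hθ) * We h hθ = (We h hθ * We h hθ) * a * (We h hθ * We h hθ) := by group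
      _ = a := by rw [We_mul_We]; group
  rw [h2] at h1
  exact h1

theorem We_not_mem (h : IsTits θ) (hθ : ∀ x, θ x = x ^ (2 ^ (m + 1))) : We h hθ ∉ Dsub h hθ := by
  intro hh
  obtain ⟨k, hk⟩ := (mem_Dsub h hθ _).mp hh
  have h1 : W F • pt θ none = pt θ none := by
    change (We h hθ : Cfsg.Sz F m).1 • _ = _
    rw [hk, D_none]
  rw [W_none] at h1
  have := pt_inj θ h1
  simp at this

theorem card_norm_D [Fintype F] (hm : 1 ≤ m) (hF : Fintype.card F = 2 ^ (2 * m + 1)) (h : IsTits θ)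
    (hθ : ∀ x, θ x = x ^ (2 ^ (m + 1))) :
    Nat.card (Subgroup.normalizer ((Dsub h hθ : Subgroup (Cfsg.Sz F m)) : Set (Cfsg.Sz F m))) = 2 * (2 ^ (2 * m + 1) - 1) := by
  set N := Subgroup.normalizer ((Dsub h hθ : Subgroup (Cfsg.Sz F m)) : Set (Cfsg.Sz F m)) with hN
  have hle : Dsub h hθ ≤ N := Subgroup.le_normalizer
  have h1 : (Dsub h hθ).relIndex N = 2 := by
    rw [Subgroup.relIndex]
    apply Subgroup.index_eq_two_iff.mpr
    refine ⟨⟨We h hθ, We_mem_norm h hθ⟩, ?_⟩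
    rintro ⟨b, hb⟩
    rw [Subgroup.mem_subgroupOf, Subgroup.mem_subgroupOf]
    change Xor' (b * We h hθ ∈ Dsub h hθ) (b ∈ Dsub h hθ)
    rcases norm_D_sq hm hF h hθ b⁻¹ (inv_mem hb) with h2 | h2
    · right
      have hb' : b ∈ Dsub h hθ := by simpa using inv_mem h2
      refine ⟨hb', ?_⟩
      intro h3
      exact We_not_mem h hθ ((Subgroup.mul_mem_cancel_left _ hb').mp h3)
    · left
      have hinv : (We h hθ)⁻¹ = We h hθ := inv_eq_of_mul_eq_one_right (We_mul_We h hθ)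
      have h3 : b * We h hθ ∈ Dsub h hθ := by
        have := inv_mem h2
        rw [mul_inv_rev, inv_inv, hinv] at this
        exact this
      refine ⟨h3, ?_⟩
      intro hb'
      exact We_not_mem h hθ ((Subgroup.mul_mem_cancel_left _ hb').mp h3)
  have h2 := Subgroup.index_mul_card ((Dsub h hθ).subgroupOf N)
  rw [Nat.card_congr (Subgroup.subgroupOfEquivOfLe hle).toEquiv, card_Dsub hF h hθ] at h2
  rw [← h2, ← h1]
  rfl

/-- conjugation of normalisers of centralisers -/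
theorem norm_cent_conj {G : Type*} [Group G] (x w v : G) :
    w ∈ Subgroup.normalizer ((Subgroup.centralizer ({x} : Set G) : Subgroup G) : Set G) ↔
    v⁻¹ * w * v ∈ Subgroup.normalizer ((Subgroup.centralizer ({v⁻¹ * x * v} : Set G) : Subgroup G) : Set G) := by
  constructor
  · intro hw
    have h1 := norm_conj (Subgroup.centralizer ({x} : Set G)) v⁻¹ (v⁻¹ * w * v) (by
      have : v⁻¹⁻¹ * (v⁻¹ * w * v) * v⁻¹ = w := by group
      rw [this]; exact hw)
    rw [← cent_conj_map, inv_inv] at h1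
    exact h1
  · intro hw
    have h1 := norm_conj (Subgroup.centralizer ({v⁻¹ * x * v} : Set G)) v w hw
    rw [← cent_map] at h1
    exact h1

theorem pow4_mem [Fintype F] (hm : 1 ≤ m) (hF : Fintype.card F = 2 ^ (2 * m + 1)) (x w : Cfsg.Sz F m) (hx1 : x ≠ 1)
    (hx : Odd (orderOf x))
    (hn : w ∈ Subgroup.normalizer ((Subgroup.centralizer ({x} : Set (Cfsg.Sz F m)) : Subgroup (Cfsg.Sz F m)) : Set (Cfsg.Sz F m))) :
    w ^ 4 ∈ Subgroup.centralizer ({x} : Set (Cfsg.Sz F m)) := by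
  classical
  obtain ⟨θ, h, hθ⟩ := exists_theta hF
  haveI : Fintype (Cfsg.Sz F m) := Fintype.ofFinite _
  letI := act hθ
  have H := zd hm hF h hθ
  rcases tri hm hF h hθ x with hf | ⟨y, hy⟩ | ⟨y, hy⟩
  · have h1 := H.card_norm hf
    set C := Subgroup.centralizer ({x} : Set (Cfsg.Sz F m)) with hC
    set N := Subgroup.normalizer ((C : Subgroup (Cfsg.Sz F m)) : Set (Cfsg.Sz F m)) with hN
    have hle : C ≤ N := Subgroup.le_normalizer
    have h2 := Subgroup.index_mul_card (C.subgroupOf N)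
    rw [Nat.card_congr (Subgroup.subgroupOfEquivOfLe hle).toEquiv, h1] at h2
    have h3 : (C.subgroupOf N).index = 4 := Nat.eq_of_mul_eq_mul_right Nat.card_pos h2
    haveI : (C.subgroupOf N).Normal := Subgroup.normal_in_normalizer
    have h4 := Subgroup.pow_index_mem (C.subgroupOf N) (⟨w, hn⟩ : N)
    rw [h3] at h4
    exact h4
  · exfalso
    have h1 := orderOf_conj' x y
    obtain ⟨k, hk⟩ := (IsPGroup.iff_orderOf.mp (isPGroup_Usub hF h hθ)) ⟨_, hy⟩
    rw [Subgroup.orderOf_mk, h1] at hk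
    rw [hk] at hx
    rcases Nat.eq_zero_or_pos k with h0 | h0
    · rw [h0, pow_zero] at hk
      exact hx1 (orderOf_eq_one_iff.mp hk)
    · exact (Nat.not_odd_iff_even.mpr ((Nat.even_pow.mpr ⟨even_two, by omega⟩))) hx
  · rw [norm_cent_conj x w y, cent_Dsub hm hF h hθ _ hy (conj_ne_one hx1)] at hn
    have key : (y⁻¹ * w * y) ^ 2 ∈ Dsub h hθ := by
      rcases norm_D_sq hm hF h hθ _ hn with h1 | h1
      · exact pow_mem h1 2
      · obtain ⟨k, hk⟩ := h1
        have h2 : y⁻¹ * w * y = We h hθ * De h hθ k := by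
          have : We h hθ * (We h hθ * (y⁻¹ * w * y)) = y⁻¹ * w * y := by rw [← mul_assoc, We_mul_We, one_mul]
          rw [← this, ← hk]; rfl
        have hinv : (We h hθ)⁻¹ = We h hθ := inv_eq_of_mul_eq_one_right (We_mul_We h hθ)
        have h3 : (We h hθ * De h hθ k) ^ 2 = 1 := by
          rw [pow_two]
          calc We h hθ * De h hθ k * (We h hθ * De h hθ k) = (We h hθ * De h hθ k * (We h hθ)⁻¹) * De h hθ k := by rw [hinv]; group
            _ = 1 := by rw [We_conj, De_mul, inv_mul_cancel, De_one]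
        rw [h2, h3]; exact one_mem _
    have h4 : (y⁻¹ * w * y) ^ 4 ∈ Dsub h hθ := by
      have := pow_mem key 2
      rwa [← pow_mul] at this
    rw [← cent_Dsub hm hF h hθ _ hy (conj_ne_one hx1)] at h4
    have h5 : (y⁻¹ * w * y) ^ 4 = y⁻¹ * w ^ 4 * y := by
      have := conj_pow (i := 4) (a := y⁻¹) (b := w)
      rw [inv_inv] at this
      exact this
    rw [h5] at h4
    rw [cent_map y x]
    refine ⟨_, h4, ?_⟩
    change y * (y⁻¹ * w ^ 4 * y) * y⁻¹ = w ^ 4
    group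

theorem odd_mem [Fintype F] (hm : 1 ≤ m) (hF : Fintype.card F = 2 ^ (2 * m + 1)) (x w : Cfsg.Sz F m) (hx1 : x ≠ 1)
    (hx : Odd (orderOf x)) (hw : Odd (orderOf w))
    (hn : w ∈ Subgroup.normalizer ((Subgroup.centralizer ({x} : Set (Cfsg.Sz F m)) : Subgroup (Cfsg.Sz F m)) : Set (Cfsg.Sz F m))) :
    w ∈ Subgroup.centralizer ({x} : Set (Cfsg.Sz F m)) := by
  have h1 := pow4_mem hm hF x w hx1 hx hn
  have h2 : Nat.Coprime (orderOf w) 4 := by
    have := (hw.coprime_two_right).pow_right 2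
    simpa using this
  obtain ⟨k, hk⟩ := exists_pow_eq_self_of_coprime h2.symm
  rw [← hk]
  exact pow_mem h1 k

end

end Cfsg.Agent.HL.Sz
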