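import Cfsg.Statements.S0102
import Mathlib
import Cfsg.Agent.H2_Fusion4

set_option autoImplicit false
open Cfsg

namespace Cfsg.Agent.S0102

/-- A finite perfect group with cyclic Sylow p-subgroups has no perfect central extension whose kernel has order divisible by p. -/
theorem result {G : Type*} {H : Type*} [Group G] [Group H] [Finite G] [Finite H] (hG : commutator G = ⊤) {p : ℕ} [Fact p.Prime] (hcyc : ∀ P : Sylow p G, IsCyclic P) (σ : H →* G) (hσ : Function.Surjective σ) (hz : σ.ker ≤ Subgroup.center H) (hH : commutator H = ⊤) : ¬ p ∣ Nat.card σ.ker := by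
  intro hd
  have hmem : ∀ x ∈ σ.ker, ∀ P : Sylow p H, (∃ k, orderOf x = p ^ k) → x ∈ P := by
    intro x hx P ⟨k, hk⟩
    have h1 : x ∈ Subgroup.normalizer ((P : Subgroup H) : Set H) := by
      rw [Subgroup.mem_normalizer_iff]
      intro y
      have h2 := Subgroup.mem_center_iff.1 (hz hx) y
      rw [← h2, mul_inv_cancel_right]
    exact Cfsg.Agent.H2.Fusion4.mem_sylow_of_mem_normalizer P h1 hk
  obtain ⟨x, hx⟩ := exists_prime_orderOf_dvd_card' p hd
  obtain ⟨P⟩ : Nonempty (Sylow p H) := inferInstance
  have hxo : orderOf (x : H) = p := by rw [Subgroup.orderOf_coe, hx]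
  have hxP : (x : H) ∈ (P : Subgroup H) := hmem x x.2 P ⟨1, by rw [hxo, pow_one]⟩
  have hcycQ := hcyc (P.mapSurjective hσ)
  let f : (P : Subgroup H) →* (P.mapSurjective hσ : Subgroup G) :=
    (σ.comp (P : Subgroup H).subtype).codRestrict _ (fun y => by
      rw [Sylow.coe_mapSurjective]
      exact ⟨y, y.2, rfl⟩)
  have hcommP : ∀ a b : (P : Subgroup H), a * b = b * a := by
    have : IsCyclic (P.mapSurjective hσ : Subgroup G) := hcycQ
    apply commutative_of_cyclic_center_quotient f
    intro y hy
    rw [Subgroup.mem_center_iff]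
    intro w
    have h1 : (y : H) ∈ σ.ker := congrArg Subtype.val hy
    exact Subtype.ext (Subgroup.mem_center_iff.1 (hz h1) w)
  have h1 := Cfsg.Agent.H2.Fusion4.mem_commutator_of_central P (hz x.2) (by rw [hH]; trivial) hxP
  have h2 : commutator (P : Subgroup H) = ⊥ := by
    rw [_root_.commutator_def, eq_bot_iff, Subgroup.commutator_le]
    intro a _ b _
    open scoped commutatorElement in
    have : ⁅a, b⁆ = 1 := commutatorElement_eq_one_iff_mul_comm.2 (hcommP a b)
    rw [this]; exact one_mem _
  rw [h2, Subgroup.mem_bot] at h1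
  have h3 : (x : H) = 1 := congrArg Subtype.val h1
  rw [h3, orderOf_one] at hxo
  exact (Fact.out : p.Prime).ne_one hxo.symm

end Cfsg.Agent.S0102
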