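import Cfsg.Statements.S0159
import Cfsg.Agent.H3_CharComplete

set_option autoImplicit false
open Cfsg

namespace Cfsg.Agent.S0159

/-- The number of solutions of s * s = 1 in a finite group equals the sum, over the irreducible characters χ, of (the average over s of χ (s * s)) times χ 1. -/
theorem result {G : Type*} [Group G] [Fintype G] : (Nat.card {s : G // s * s = 1} : ℂ) = ∑ᶠ χ : Cfsg.IrrCharacter G, ((Nat.card G : ℂ)⁻¹ * ∑ s : G, (χ : G → ℂ) (s * s)) * (χ : G → ℂ) 1 := by
  classical
  have := Fintype.ofFinite (Cfsg.IrrCharacter G)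
  rw [finsum_eq_sum_of_fintype]
  let N : G → ℂ := fun g => ∑ s : G, if s * s = g then 1 else 0
  have hN : Cfsg.IsClassFunction G N := by
    intro x y
    simp only [N]
    rw [← Equiv.sum_comp (MulAut.conj y).toEquiv]
    refine Finset.sum_congr rfl fun s _ => ?_
    have h1 : ∀ z, (MulAut.conj y).toEquiv z = y * z * y⁻¹ := fun _ => rfl
    simp only [h1]
    have h2 : y * s * y⁻¹ * (y * s * y⁻¹) = y * (s * s) * y⁻¹ := by group
    rw [h2]
    have h3 : (y * (s * s) * y⁻¹ = y * x * y⁻¹) ↔ (s * s = x) :=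
      ⟨fun h => mul_left_cancel (mul_right_cancel h), fun h => by rw [h]⟩
    simp only [h3]
  have h1 : (Nat.card {s : G // s * s = 1} : ℂ) = N 1 := by
    simp only [N, Finset.sum_boole]
    rw [Nat.card_eq_fintype_card, Fintype.card_subtype]
  rw [h1, Cfsg.Agent.H3.CharComplete.expand_apply N hN 1]
  refine Finset.sum_congr rfl fun χ _ => ?_
  congr 1
  rw [Cfsg.Agent.H3.CharIrr.ci_eq_sum_inv _ (Cfsg.Agent.H3.CharIrr.IsIrr.isCharacter χ.2)]
  congr 1
  simp only [N, Finset.sum_mul]
  rw [Finset.sum_comm, ← Equiv.sum_comp (Equiv.inv G)]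
  refine Finset.sum_congr rfl fun s _ => ?_
  simp

end Cfsg.Agent.S0159
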