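import Cfsg.Statements.S0213
import Mathlib
import Cfsg.Agent.H4_Count

set_option autoImplicit false
open Cfsg

namespace Cfsg.Agent.S0213

open Cfsg.Agent.H4.Inv Cfsg.Agent.H4.Count Cfsg.Agent.H4.Util

/-- Thompson Order Formula, two-class case: if every involution of the finite group G is conjugate to exactly one of the non-conjugate involutions x₁, x₂, and nᵢ is the number of pairs (u, v) with u conjugate to x₁, v conjugate to x₂ and xᵢ in the cyclic group generated by uv, then |G| = |C(x₂)| n₁ + |C(x₁)| n₂. -/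
theorem result {G : Type*} [Group G] [Finite G] (x₁ x₂ : G) (h₁ : orderOf x₁ = 2) (h₂ : orderOf x₂ = 2) (hnc : ¬ IsConj x₁ x₂) (hall : ∀ t : G, orderOf t = 2 → IsConj x₁ t ∨ IsConj x₂ t) : Nat.card G = Nat.card (Subgroup.centralizer ({x₂} : Set G)) * Nat.card {p : G × G // IsConj x₁ p.1 ∧ IsConj x₂ p.2 ∧ x₁ ∈ Subgroup.zpowers (p.1 * p.2)} + Nat.card (Subgroup.centralizer ({x₁} : Set G)) * Nat.card {p : G × G // IsConj x₁ p.1 ∧ IsConj x₂ p.2 ∧ x₂ ∈ Subgroup.zpowers (p.1 * p.2)} := by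
  classical
  set P := {p : G × G // IsConj x₁ p.1 ∧ IsConj x₂ p.2} with hP
  have ho1 : ∀ a : G, IsConj x₁ a → orderOf a = 2 := by
    intro a h
    obtain ⟨c, hc⟩ := isConj_iff.mp h
    rw [← hc, orderOf_conj]; exact h₁
  have ho2 : ∀ a : G, IsConj x₂ a → orderOf a = 2 := by
    intro a h
    obtain ⟨c, hc⟩ := isConj_iff.mp h
    rw [← hc, orderOf_conj]; exact h₂
  -- the central involution
  have hz : ∀ p : P, orderOf ((p.1.1 * p.1.2) ^ (orderOf (p.1.1 * p.1.2) / 2)) = 2 := by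
    rintro ⟨⟨u, v⟩, hu, hv⟩
    simp only at hu hv ⊢
    have heven : Even (orderOf (u * v)) := by
      rw [← Nat.not_odd_iff_even]
      intro hodd
      exact hnc ((hu.trans (isConj_of_odd (ho1 u hu) (ho2 v hv) hodd)).trans hv.symm)
    exact (even_central (ho1 u hu) (ho2 v hv) (orderOf_pos _).ne' heven).1
  have huniq : ∀ (p : P) (w : G), orderOf w = 2 → w ∈ Subgroup.zpowers (p.1.1 * p.1.2) →
      w = (p.1.1 * p.1.2) ^ (orderOf (p.1.1 * p.1.2) / 2) := by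
    intro p w hw hmem
    have h1 : IsCyclic (Subgroup.zpowers (p.1.1 * p.1.2)) := inferInstance
    have h2 := cyclic_unique_involution h1 (a := ⟨w, hmem⟩)
      (b := ⟨(p.1.1 * p.1.2) ^ (orderOf (p.1.1 * p.1.2) / 2), Subgroup.pow_mem _ (Subgroup.mem_zpowers _) _⟩)
    have := h2 (by rw [← Subgroup.orderOf_coe]; exact hw) (by rw [← Subgroup.orderOf_coe]; exact hz p)
    exact congrArg Subtype.val this
  -- the counting
  let A : G → Type _ := fun x => Σ w : {w : G // ∃ g, g * x * g⁻¹ = w},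
    {p : G × G // IsConj x₁ p.1 ∧ IsConj x₂ p.2 ∧ (w : G) ∈ Subgroup.zpowers (p.1 * p.2)}
  have hA : ∀ x : G, Nat.card (A x) = Nat.card {w : G // ∃ g, g * x * g⁻¹ = w} *
      Nat.card {p : G × G // IsConj x₁ p.1 ∧ IsConj x₂ p.2 ∧ x ∈ Subgroup.zpowers (p.1 * p.2)} := by
    intro x
    haveI : Fintype {w : G // ∃ g, g * x * g⁻¹ = w} := Fintype.ofFinite _
    rw [Nat.card_sigma]
    rw [Finset.sum_congr rfl (g := fun _ => Nat.card {p : G × G // IsConj x₁ p.1 ∧ IsConj x₂ p.2 ∧ x ∈ Subgroup.zpowers (p.1 * p.2)})]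
    · rw [Finset.sum_const, Finset.card_univ, Nat.card_eq_fintype_card (α := {w : G // ∃ g, g * x * g⁻¹ = w}), smul_eq_mul]
    · rintro ⟨w, g, rfl⟩ -
      have e : ∀ a u v : G, IsConj x₁ u → IsConj x₂ v → IsConj x₁ (a * u * a⁻¹) ∧ IsConj x₂ (a * v * a⁻¹) := by
        intro a u v hu hv
        exact ⟨hu.trans (isConj_iff.mpr ⟨a, rfl⟩), hv.trans (isConj_iff.mpr ⟨a, rfl⟩)⟩
      have e2 : ∀ a u v w : G, w ∈ Subgroup.zpowers (u * v) → a * w * a⁻¹ ∈ Subgroup.zpowers (a * u * a⁻¹ * (a * v * a⁻¹)) := by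
        rintro a u v _ ⟨n, rfl⟩
        refine ⟨n, ?_⟩
        simp only
        rw [← conj_zpow]
        congr 1
        group
      refine Nat.card_congr ⟨fun p => ⟨(g⁻¹ * p.1.1 * g⁻¹⁻¹, g⁻¹ * p.1.2 * g⁻¹⁻¹), ⟨(e g⁻¹ _ _ p.2.1 p.2.2.1).1, (e g⁻¹ _ _ p.2.1 p.2.2.1).2, ?_⟩⟩,
        fun p => ⟨(g * p.1.1 * g⁻¹, g * p.1.2 * g⁻¹), ⟨(e g _ _ p.2.1 p.2.2.1).1, (e g _ _ p.2.1 p.2.2.1).2, ?_⟩⟩, ?_, ?_⟩
      · have := e2 g⁻¹ _ _ _ p.2.2.2
        have e3 : g⁻¹ * (g * x * g⁻¹) * g⁻¹⁻¹ = x := by group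
        rw [e3] at this
        exact this
      · exact e2 g _ _ _ p.2.2.2
      · rintro ⟨⟨u, v⟩, h⟩
        apply Subtype.ext
        simp only [Prod.mk.injEq]
        constructor <;> group
      · rintro ⟨⟨u, v⟩, h⟩
        apply Subtype.ext
        simp only [Prod.mk.injEq]
        constructor <;> group
  have hPc : Nat.card P = Nat.card {w : G // ∃ g, g * x₁ * g⁻¹ = w} * Nat.card {w : G // ∃ g, g * x₂ * g⁻¹ = w} := by
    rw [← Nat.card_prod]
    refine Nat.card_congr ⟨fun p => (⟨p.1.1, isConj_iff.mp p.2.1⟩, ⟨p.1.2, isConj_iff.mp p.2.2⟩),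
      fun q => ⟨(q.1.1, q.2.1), isConj_iff.mpr q.1.2, isConj_iff.mpr q.2.2⟩, ?_, ?_⟩
    · rintro ⟨⟨u, v⟩, h⟩; rfl
    · rintro ⟨⟨u, hu⟩, ⟨v, hv⟩⟩; rfl
  have hsum : Nat.card P = Nat.card (A x₁) + Nat.card (A x₂) := by
    rw [← Nat.card_sum]
    symm
    refine Nat.card_eq_of_bijective (fun q : A x₁ ⊕ A x₂ => (match q with
      | Sum.inl a => (⟨a.2.1, a.2.2.1, a.2.2.2.1⟩ : P)
      | Sum.inr a => (⟨a.2.1, a.2.2.1, a.2.2.2.1⟩ : P))) ⟨?_, ?_⟩
    · have huq : ∀ (w w' : G) (q : G × G), orderOf w = 2 → orderOf w' = 2 → IsConj x₁ q.1 → IsConj x₂ q.2 →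
          w ∈ Subgroup.zpowers (q.1 * q.2) → w' ∈ Subgroup.zpowers (q.1 * q.2) → w = w' := by
        intro w w' q hw hw' hq1 hq2 h1 h2
        rw [huniq ⟨q, hq1, hq2⟩ w hw h1, huniq ⟨q, hq1, hq2⟩ w' hw' h2]
      have hoc : ∀ x g : G, orderOf x = 2 → orderOf (g * x * g⁻¹) = 2 := fun x g h => by
        rw [orderOf_conj]; exact h
      rintro (⟨⟨w, g, rfl⟩, ⟨q, hq⟩⟩ | ⟨⟨w, g, rfl⟩, ⟨q, hq⟩⟩) (⟨⟨w', g', rfl⟩, ⟨q', hq'⟩⟩ | ⟨⟨w', g', rfl⟩, ⟨q', hq'⟩⟩) h
      · have h' : q = q' := congrArg Subtype.val h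
        subst h'
        have hw := huq _ _ q (hoc _ g h₁) (hoc _ g' h₁) hq.1 hq.2.1 hq.2.2 hq'.2.2
        congr 1
        apply Sigma.ext
        · exact Subtype.ext hw
        · simp only
          congr 1
          · ext p; rw [hw]
          · exact proof_irrel_heq _ _
      · exfalso
        have h' : q = q' := congrArg Subtype.val h
        subst h'
        have hw := huq _ _ q (hoc _ g h₁) (hoc _ g' h₂) hq.1 hq.2.1 hq.2.2 hq'.2.2
        apply hnc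
        have c1 : IsConj x₁ (g * x₁ * g⁻¹) := isConj_iff.mpr ⟨g, rfl⟩
        have c2 : IsConj x₂ (g' * x₂ * g'⁻¹) := isConj_iff.mpr ⟨g', rfl⟩
        rw [hw] at c1
        exact c1.trans c2.symm
      · exfalso
        have h' : q = q' := congrArg Subtype.val h
        subst h'
        have hw := huq _ _ q (hoc _ g h₂) (hoc _ g' h₁) hq.1 hq.2.1 hq.2.2 hq'.2.2
        apply hnc
        have c1 : IsConj x₂ (g * x₂ * g⁻¹) := isConj_iff.mpr ⟨g, rfl⟩
        have c2 : IsConj x₁ (g' * x₁ * g'⁻¹) := isConj_iff.mpr ⟨g', rfl⟩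
        rw [hw] at c1
        exact c2.trans c1.symm
      · have h' : q = q' := congrArg Subtype.val h
        subst h'
        have hw := huq _ _ q (hoc _ g h₂) (hoc _ g' h₂) hq.1 hq.2.1 hq.2.2 hq'.2.2
        congr 1
        apply Sigma.ext
        · exact Subtype.ext hw
        · simp only
          congr 1
          · ext p; rw [hw]
          · exact proof_irrel_heq _ _
    · rintro ⟨⟨u, v⟩, hu, hv⟩
      have hzz := hz ⟨(u, v), hu, hv⟩
      simp only at hzz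
      have hmem : (u * v) ^ (orderOf (u * v) / 2) ∈ Subgroup.zpowers (u * v) :=
        Subgroup.pow_mem _ (Subgroup.mem_zpowers _) _
      rcases hall _ hzz with h | h
      · exact ⟨Sum.inl ⟨⟨_, isConj_iff.mp h⟩, ⟨(u, v), hu, hv, hmem⟩⟩, rfl⟩
      · exact ⟨Sum.inr ⟨⟨_, isConj_iff.mp h⟩, ⟨(u, v), hu, hv, hmem⟩⟩, rfl⟩
  rw [hA, hA, hPc] at hsum
  have c1 := class_card x₁
  have c2 := class_card x₂
  set X1 := Nat.card {w : G // ∃ g, g * x₁ * g⁻¹ = w} with hX1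
  set X2 := Nat.card {w : G // ∃ g, g * x₂ * g⁻¹ = w} with hX2
  set C1 := Nat.card (Subgroup.centralizer ({x₁} : Set G)) with hC1
  set C2 := Nat.card (Subgroup.centralizer ({x₂} : Set G)) with hC2
  set N1 := Nat.card {p : G × G // IsConj x₁ p.1 ∧ IsConj x₂ p.2 ∧ x₁ ∈ Subgroup.zpowers (p.1 * p.2)} with hN1
  set N2 := Nat.card {p : G × G // IsConj x₁ p.1 ∧ IsConj x₂ p.2 ∧ x₂ ∈ Subgroup.zpowers (p.1 * p.2)} with hN2
  have hG0 : 0 < Nat.card G := Nat.card_pos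
  apply Nat.eq_of_mul_eq_mul_left hG0
  calc Nat.card G * Nat.card G = (C1 * X1) * (C2 * X2) := by rw [← c1, ← c2]
    _ = C1 * C2 * (X1 * X2) := by ring
    _ = C1 * C2 * (X1 * N1 + X2 * N2) := by rw [hsum]
    _ = (C1 * X1) * (C2 * N1) + (C2 * X2) * (C1 * N2) := by ring
    _ = Nat.card G * (C2 * N1) + Nat.card G * (C1 * N2) := by rw [← c1, ← c2]
    _ = Nat.card G * (C2 * N1 + C1 * N2) := by ring

end Cfsg.Agent.S0213
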