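import Cfsg.Statements.S0436

set_option autoImplicit false
open Cfsg

namespace Cfsg.Agent.S0436

theorem braid {G : Type*} [Group G] {E : Set G} (hE : Cfsg.IsThreeTranspositionSet E) {a e : G}
    (ha : a ∈ E) (he : e ∈ E) (h : ¬ Commute e a) : e * a * e = a * e * a := by
  have h2 : ∀ d ∈ E, d * d = 1 := fun d hd => by
    have := pow_orderOf_eq_one d
    rw [hE.1 d hd, pow_two] at this; exact this
  have hi : ∀ d ∈ E, d⁻¹ = d := fun d hd => inv_eq_of_mul_eq_one_left (h2 d hd)
  rcases hE.2 e he a ha with h1 | h1
  · exfalso; apply h
    rw [pow_two] at h1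
    have : e * a = (e * a)⁻¹ := eq_inv_of_mul_eq_one_left h1
    rw [mul_inv_rev, hi a ha, hi e he] at this
    exact this
  · have h3 : (e * a * e) * (a * e * a) = 1 := by
      rw [← h1]; simp only [pow_succ, pow_zero, one_mul, mul_assoc]
    have h4 : e * a * e = (a * e * a)⁻¹ := eq_inv_of_mul_eq_one_left h3
    rw [h4]; simp only [mul_inv_rev, hi a ha, hi e he, mul_assoc]

/-- For distinct commuting members a, b of a set of 3-transpositions E, a member e of E centralises the product a * b if and only if it centralises both a and b. -/
theorem result {G : Type*} [Group G] {E : Set G} (hE : Cfsg.IsThreeTranspositionSet E) {a b e : G} (ha : a ∈ E) (hb : b ∈ E) (he : e ∈ E) (hab : a ≠ b) (hcomm : Commute a b) : Commute e (a * b) ↔ (Commute e a ∧ Commute e b) := by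
  constructor
  · intro hc
    have h2 : ∀ d ∈ E, d * d = 1 := fun d hd => by
      have := pow_orderOf_eq_one d
      rw [hE.1 d hd, pow_two] at this; exact this
    by_cases hea : Commute e a
    · refine ⟨hea, ?_⟩
      have : b = a * (a * b) := by rw [← mul_assoc, h2 a ha, one_mul]
      rw [this]; exact hea.mul_right hc
    · exfalso
      have heb : ¬ Commute e b := by
        intro heb
        apply hea
        have : a = (a * b) * b := by rw [mul_assoc, h2 b hb, mul_one]
        rw [this]; exact hc.mul_right heb
      have e1 := braid hE ha he hea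
      have e2 := braid hE hb he heb
      have h3 : e * (a * b) * e = a * b := by
        rw [hc.eq, mul_assoc, h2 e he, mul_one]
      have h4 : (e * a * e) * (e * b * e) = a * b := by
        have : (e * a * e) * (e * b * e) = e * a * (e * e) * b * e := by group
        rw [this, h2 e he, mul_one, ← h3]; group
      rw [e1, e2] at h4
      have h5 : a * (e * (a * b) * e) * b = a * b := by
        refine Eq.trans ?_ h4
        group
      rw [h3] at h5
      have h6 : a * b = 1 := by
        have := h5
        have h7 : a⁻¹ * (a * (a * b) * b) * b⁻¹ = a⁻¹ * (a * b) * b⁻¹ := by rw [this]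
        have h8 : a⁻¹ * (a * (a * b) * b) * b⁻¹ = a * b := by group
        have h9 : a⁻¹ * (a * b) * b⁻¹ = 1 := by group
        rw [h8, h9] at h7; exact h7
      apply hab
      have : b = b⁻¹ := (eq_inv_of_mul_eq_one_left (h2 b hb))
      rw [this]; exact eq_inv_of_mul_eq_one_left h6
  · rintro ⟨h1, h2⟩
    exact h1.mul_right h2

end Cfsg.Agent.S0436
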