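import Cfsg.Statements.S0437
import Cfsg.Agent.S0436

set_option autoImplicit false
open Cfsg

namespace Cfsg.Agent.S0437

/-- For three distinct, pairwise commuting members a, b, c of a set of 3-transpositions E, a member e of E centralises a * b * c if and only if it centralises each of a, b and c. -/
theorem result {G : Type*} [Group G] {E : Set G} (hE : Cfsg.IsThreeTranspositionSet E) {a b c e : G} (ha : a ∈ E) (hb : b ∈ E) (hc : c ∈ E) (he : e ∈ E) (hab : a ≠ b) (hac : a ≠ c) (hbc : b ≠ c) (h₁ : Commute a b) (h₂ : Commute a c) (h₃ : Commute b c) : Commute e (a * b * c) ↔ (Commute e a ∧ Commute e b ∧ Commute e c) := by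
  have h2 : ∀ d ∈ E, d * d = 1 := fun d hd => by
    have := pow_orderOf_eq_one d
    rw [hE.1 d hd, pow_two] at this; exact this
  have hi : ∀ d ∈ E, d⁻¹ = d := fun d hd => inv_eq_of_mul_eq_one_left (h2 d hd)
  constructor
  · intro hcm
    by_cases hec : Commute e c
    · have h : Commute e (a * b) := by
        have : a * b = (a * b * c) * c := by rw [mul_assoc, h2 c hc, mul_one]
        rw [this]; exact hcm.mul_right hec
      have := (Cfsg.Agent.S0436.result hE ha hb he hab h₁).1 h
      exact ⟨this.1, this.2, hec⟩
    by_cases hea : Commute e a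
    · have h : Commute e (b * c) := by
        have : b * c = a * (a * b * c) := by
          rw [← mul_assoc, ← mul_assoc, h2 a ha, one_mul]
        rw [this]; exact hea.mul_right hcm
      have := (Cfsg.Agent.S0436.result hE hb hc he hbc h₃).1 h
      exact ⟨hea, this.1, this.2⟩
    by_cases heb : Commute e b
    · have h : Commute e (a * c) := by
        have : a * c = b * (a * b * c) := by
          rw [h₁.eq, ← mul_assoc, ← mul_assoc, h2 b hb, one_mul]
        rw [this]; exact heb.mul_right hcm
      have := (Cfsg.Agent.S0436.result hE ha hc he hac h₂).1 h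
      exact ⟨this.1, heb, this.2⟩
    exfalso
    have e1 := Cfsg.Agent.S0436.braid hE ha he hea
    have e2 := Cfsg.Agent.S0436.braid hE hb he heb
    have e3 := Cfsg.Agent.S0436.braid hE hc he hec
    have k1 : e * (a * b * c) * e = a * b * c := by
      rw [hcm.eq, mul_assoc, h2 e he, mul_one]
    have k2 : (e * a * e) * (e * b * e) * (e * c * e) = a * b * c := by
      rw [← k1]
      have : (e * a * e) * (e * b * e) * (e * c * e) = e * a * (e * e) * b * (e * e) * c * e := by group
      rw [this, h2 e he, mul_one, mul_one]; group
    rw [e1, e2, e3] at k2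
    -- a e a b e b c e c = a b c
    have k3 : e * (a * b) * e * (b * c) * e = b := by
      have h7 : a⁻¹ * (a * e * a * (b * e * b) * (c * e * c)) * c⁻¹ = a⁻¹ * (a * b * c) * c⁻¹ := by
        rw [k2]
      have h8 : a⁻¹ * (a * e * a * (b * e * b) * (c * e * c)) * c⁻¹
          = e * (a * b) * e * (b * c) * e := by group
      have h9 : a⁻¹ * (a * b * c) * c⁻¹ = b := by group
      rw [h8, h9] at h7; exact h7
    -- e a b e = b e (b c)⁻¹ = b e c b
    have k4 : e * a * b * e = b * e * (c * b) := by
      have h7 : (e * (a * b) * e * (b * c) * e) * e * (c * b) = b * e * (c * b) := by rw [k3]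
      have h8 : (e * (a * b) * e * (b * c) * e) * e * (c * b)
          = e * a * b * e * (b * (c * (e * e) * c) * b) := by group
      rw [h8, h2 e he, mul_one, h2 c hc, mul_one, h2 b hb, mul_one] at h7
      exact h7
    -- a b e = e b e c b = b e b c b = b e c
    have k5 : a * b * e = b * e * c := by
      have h7 : e * (e * a * b * e) = e * (b * e * (c * b)) := by rw [k4]
      have h8 : e * (e * a * b * e) = (e * e) * (a * b * e) := by group
      have h9 : e * (b * e * (c * b)) = (e * b * e) * (c * b) := by group
      rw [h8, h9, h2 e he, one_mul, e2, h₃.symm.eq] at h7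
      rw [h7]
      have : b * e * b * (b * c) = b * e * ((b * b) * c) := by group
      rw [this, h2 b hb, one_mul]
    have k6 : a * e = e * c := by
      have h7 : b * (a * b * e) = b * (b * e * c) := by rw [k5]
      have h8 : b * (a * b * e) = (b * a) * b * e := by group
      have h9 : b * (b * e * c) = (b * b) * (e * c) := by group
      rw [h8, h9, h2 b hb, one_mul, ← h₁.eq, mul_assoc a b b, h2 b hb, mul_one] at h7
      exact h7
    have k7 : c = e * a * e := by
      have h7 : e * (a * e) = e * (e * c) := by rw [k6]
      have h8 : e * (e * c) = (e * e) * c := by group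
      rw [h8, h2 e he, one_mul] at h7
      rw [← h7]; group
    rw [e1] at k7
    have k8 : a * c * a = e := by
      rw [k7]
      have : a * (a * e * a) * a = (a * a) * e * (a * a) := by group
      rw [this, h2 a ha, one_mul, mul_one]
    have k9 : a * c * a = c := by rw [h₂.eq, mul_assoc, h2 a ha, mul_one]
    apply hec
    rw [← k8, k9]
  · rintro ⟨h1, h2', h3⟩
    exact (h1.mul_right h2').mul_right h3

end Cfsg.Agent.S0437
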