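import Cfsg.Statements.S0519
import Mathlib
import Cfsg.Agent.H19_Rank1

set_option autoImplicit false
open Cfsg

namespace Cfsg.Agent.S0519

/-- the normal four-group of `D_8` -/
def K4 : Subgroup (DihedralGroup 4) where
  carrier := {x | x = DihedralGroup.r 0 ∨ x = DihedralGroup.r 2 ∨ x = DihedralGroup.sr 0 ∨ x = DihedralGroup.sr 2}
  one_mem' := Or.inl rfl
  mul_mem' := by
    rintro a b (rfl | rfl | rfl | rfl) (rfl | rfl | rfl | rfl) <;> decide
  inv_mem' := by
    rintro a (rfl | rfl | rfl | rfl) <;> decide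

theorem K4_false {P : Type*} [Group P] (hn : ∀ A : Subgroup P, A.Normal → IsMulCommutative A → IsCyclic A)
    (e : P ≃* DihedralGroup 4) : False := by
  have hmem : ∀ x : DihedralGroup 4, x ∈ K4 ↔ (x = DihedralGroup.r 0 ∨ x = DihedralGroup.r 2 ∨ x = DihedralGroup.sr 0 ∨ x = DihedralGroup.sr 2) :=
    fun x => Iff.rfl
  have hnorm : K4.Normal := by
    constructor
    intro x hx g
    rw [hmem] at hx ⊢
    revert hx
    revert x g
    decide
  have hsq : ∀ x ∈ K4, x ^ 2 = 1 := by
    intro x hx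
    rw [hmem] at hx
    revert x
    decide
  have hcomm : ∀ x ∈ K4, ∀ y ∈ K4, x * y = y * x := by
    intro x hx y hy
    rw [hmem] at hx hy
    revert x y
    decide
  have h1 : IsCyclic (K4.comap e.toMonoidHom) := by
    apply hn
    · exact hnorm.comap _
    · refine ⟨⟨fun x y => ?_⟩⟩
      apply Subtype.ext
      apply e.injective
      change e ((x : P) * y) = e ((y : P) * x)
      rw [map_mul, map_mul]
      exact hcomm _ x.2 _ y.2
  obtain ⟨g, hg⟩ := h1.exists_generator
  have hg2 : g ^ 2 = 1 := by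
    apply Subtype.ext
    apply e.injective
    change e ((g : P) ^ 2) = e 1
    rw [map_pow, map_one]
    exact hsq _ g.2
  have hcard : ∀ x : (K4.comap e.toMonoidHom), x = 1 ∨ x = g := by
    intro x
    obtain ⟨i, rfl⟩ := hg x
    change g ^ i = 1 ∨ g ^ i = g
    rcases Int.even_or_odd' i with ⟨l, hl | hl⟩
    · left; rw [hl, zpow_mul, zpow_ofNat, hg2, one_zpow]
    · right; rw [hl, zpow_add, zpow_mul, zpow_ofNat, hg2, one_zpow, one_mul, zpow_one]
  have m1 : e.symm (DihedralGroup.r 2) ∈ K4.comap e.toMonoidHom := by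
    rw [Subgroup.mem_comap]
    change e (e.symm _) ∈ K4
    rw [MulEquiv.apply_symm_apply, hmem]; decide
  have m2 : e.symm (DihedralGroup.sr 0) ∈ K4.comap e.toMonoidHom := by
    rw [Subgroup.mem_comap]
    change e (e.symm _) ∈ K4
    rw [MulEquiv.apply_symm_apply, hmem]; decide
  have n1 : (DihedralGroup.r 2 : DihedralGroup 4) ≠ 1 := by decide
  have n2 : (DihedralGroup.sr 0 : DihedralGroup 4) ≠ 1 := by decide
  have n3 : (DihedralGroup.r 2 : DihedralGroup 4) ≠ DihedralGroup.sr 0 := by decide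
  rcases hcard ⟨_, m1⟩ with h | h
  · apply n1
    have := congrArg Subtype.val h
    exact (map_eq_one_iff _ e.symm.injective).1 this
  · rcases hcard ⟨_, m2⟩ with h' | h'
    · apply n2
      have := congrArg Subtype.val h'
      exact (map_eq_one_iff _ e.symm.injective).1 this
    · apply n3
      exact e.symm.injective (congrArg Subtype.val (h.trans h'.symm))

/-- Let P be a finite p-group in which every abelian normal subgroup is cyclic, but which has a non-cyclic abelian
subgroup. Then p = 2 and P is generalized quaternion, dihedral of order at least 16, or quasi-dihedral. -/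
theorem result {P : Type*} [Group P] [Finite P] (p : ℕ) [Fact p.Prime]
    (hP : IsPGroup p P) (hn : ∀ A : Subgroup P, A.Normal → IsMulCommutative A → IsCyclic A)
    (hm : ∃ B : Subgroup P, IsMulCommutative B ∧ ¬ IsCyclic B) :
    p = 2 ∧ ((∃ n : ℕ, Nonempty (P ≃* QuaternionGroup n)) ∨ (∃ n : ℕ, 8 ≤ n ∧ Nonempty (P ≃* DihedralGroup n)) ∨
      Cfsg.IsQuasiDihedral P) := by
  rcases Cfsg.Agent.H19.Rank1.classify hP hn with h | ⟨hp2, h8, h⟩
  · exfalso
    obtain ⟨B, -, hB⟩ := hm
    exact hB inferInstance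
  · refine ⟨hp2, ?_⟩
    rcases h with ⟨k, ⟨e⟩⟩ | ⟨k, hc, a, b, ha, hb, hab⟩ | ⟨k, ⟨e⟩⟩
    · right; left
      rcases Nat.eq_zero_or_pos k with rfl | hk
      · exfalso
        exact K4_false hn e
      · refine ⟨2 ^ (k + 2), ?_, ⟨e⟩⟩
        calc 8 = 2 ^ 3 := rfl
          _ ≤ 2 ^ (k + 2) := Nat.pow_le_pow_right (by norm_num) (by omega)
    · right; right
      exact ⟨k + 3, by omega, hc, a, b, ha, hb, hab⟩
    · left
      exact ⟨_, ⟨e⟩⟩

end Cfsg.Agent.S0519
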