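import Cfsg.Statements.S0664
import Cfsg.Agent.H18_PStab
import Cfsg.Agent.H18_ZJF3

set_option autoImplicit false
open Cfsg

namespace Cfsg.Agent.S0664


/-- Glauberman's ZJ-Theorem in its section-free form: for odd p, a finite group with no section isomorphic to Qd(p) whose largest normal p-subgroup contains its centralizer has Z(J(S)) normal, J(S) the abelian-version Thompson subgroup of a Sylow p-subgroup S. -/
theorem result {G : Type*} [Group G] [Finite G] {p : ℕ} [Fact p.Prime] (hp : p ≠ 2) (hfree : ¬ ∃ (K R : Subgroup G) (hR : (R.subgroupOf K).Normal), Nonempty ((K ⧸ R.subgroupOf K) ≃* ↥(Cfsg.qd p))) (hc : Subgroup.centralizer (Cfsg.pCore p G : Set G) ≤ Cfsg.pCore p G) (S : Sylow p G) : (Cfsg.centerThompsonAOf ((S : Subgroup G))).Normal := by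
  have hst : Cfsg.IsNormalizerPStable p G := H18.PStab.stable_of_qd hp hfree
  have h0 := H12.ZJ.zj_normal hp H12.ZJ.dvd_zero_aux (dvd_zero p) (H13.Syl.isSylIn_sylow_top S)
    (D := (S : Subgroup G)) le_rfl (fun x _ g hg => hg) (H12.ZJ.stab_of_isNormalizerPStable hst _) hc
  rw [H12.ZJ.ZJJ_zero] at h0
  exact h0

end Cfsg.Agent.S0664
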