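import Cfsg.Statements.S0721
import Mathlib
import Cfsg.Agent.H9_MinNorm

set_option autoImplicit false
open Cfsg

namespace Cfsg.Agent.S0721

theorem exists_type0 (T : Type*) [Group T] [Finite T] : ∃ (T' : Type) (_ : Group T'), Nonempty (T ≃* T') := by
  haveI : Small.{0} T := Countable.toSmall T
  exact ⟨Shrink.{0} T, inferInstance, ⟨Shrink.mulEquiv.symm⟩⟩

/-- A minimal normal subgroup of a finite group is isomorphic to a direct power `T ^ m` of a simple group `T` (possibly of prime order). -/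
theorem result {H : Type*} [Group H] [Finite H] (N : Subgroup H) [N.Normal] (hN : N ≠ ⊥) (hmin : ∀ M : Subgroup H, M.Normal → M ≤ N → M = ⊥ ∨ M = N) : ∃ (T : Type) (_ : Group T) (m : ℕ), IsSimpleGroup T ∧ 0 < m ∧ Nonempty (N ≃* (Fin m → T)) := by
  classical
  obtain ⟨T, m, -, hT, hm, ⟨e⟩, -⟩ := H9.MinNorm.main N hN hmin
  obtain ⟨T', hT', ⟨e1⟩⟩ := exists_type0 T
  refine ⟨T', hT', m, ?_, hm, ⟨e.trans (MulEquiv.piCongrRight (fun _ => e1))⟩⟩
  exact e1.symm.isSimpleGroup

end Cfsg.Agent.S0721
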