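import Cfsg.Statements.S0824
import Mathlib
import Cfsg.Agent.H5_SymO
import Cfsg.Agent.S0288

set_option autoImplicit false
open Cfsg

namespace Cfsg.Agent.S0824


theorem two_cases {F : Type*} [Field F] [Fintype F] (hF : Fintype.card F = 2) (a : F) : a = 0 ∨ a = 1 := by
  by_contra hcon
  push Not at hcon
  classical
  have h1 : ({0, 1, a} : Finset F).card = 3 := by
    rw [Finset.card_insert_of_notMem, Finset.card_insert_of_notMem, Finset.card_singleton]
    · simp [hcon.2.symm]
    · simp [hcon.1.symm]
  have h2 := Finset.card_le_univ ({0, 1, a} : Finset F)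
  omega

/-- O⁻_4(2) ≅ S_5: the isometry group of the form x y + z_1² + z_1 z_2 + z_2² over the field with 2 elements is isomorphic to the symmetric group on 5 letters. -/
theorem result {F : Type*} [Field F] [Fintype F] (hF : Fintype.card F = 2) : Nonempty (↥(Cfsg.isometryGroup F (Cfsg.quadFormMinus 1 F 1 1)) ≃* Equiv.Perm (Fin 5)) := by
  have hc : CharP F 2 := charP_of_card_eq_prime hF
  apply H5.SymO.iso5
  have hab : ∀ z₁ z₂ : F, z₁ ^ 2 + 1 * z₁ * z₂ + 1 * z₂ ^ 2 = 0 → z₁ = 0 ∧ z₂ = 0 := by
    intro z₁ z₂ h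
    rcases two_cases hF z₁ with rfl | rfl <;> rcases two_cases hF z₂ with rfl | rfl
    · simp
    · simp at h
    · simp at h
    · exfalso
      have : (1 : F) = 0 := by linear_combination h - H5.SymSp.two_zero (F := F)
      exact one_ne_zero this
  rw [S0288.result hF 2 (by norm_num) 1 1 hab, Nat.card_perm, Nat.card_eq_fintype_card, Fintype.card_fin]
  simp [Finset.prod_range_succ, Nat.factorial]

end Cfsg.Agent.S0824
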