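import Cfsg.Statements.S0932
import Cfsg.Agent.H10_BlockInd

set_option autoImplicit false
open Cfsg

namespace Cfsg.Agent.S0932

/-- Let H be a subgroup of the finite group G and ξ a character of H. For every g ∈ G, the sum of ξ h / ξ 1 over the elements h ∈ H that are conjugate in G to g equals the central character at g of the character of G induced from ξ (class size times value divided by degree). -/
theorem result {G : Type*} [Group G] [Fintype G] (H : Subgroup G) (ξ : H → ℂ) (hξ : Cfsg.IsCharacter H ξ) (g : G) : Cfsg.inducedCentralChar H ξ g = Cfsg.centralChar (Cfsg.indFun H ξ) g := by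
  classical
  haveI : Fintype H := Fintype.ofFinite H
  open Cfsg.Agent.H3.CharInd Cfsg.Agent.H3.CharComplete in
  have h1 : ∑ x : G, extendByZero H ξ (x⁻¹ * g * x) =
      Nat.card (Subgroup.centralizer ({g} : Set G)) • ∑ y ∈ Finset.univ.filter (IsConj g), extendByZero H ξ y := by
    rw [← sum_conj (fun y => extendByZero H ξ y) g]
    rw [← Equiv.sum_comp (Equiv.inv G)]
    refine Finset.sum_congr rfl fun x _ => ?_
    simp
  have h2 : ∑ y ∈ Finset.univ.filter (IsConj g), extendByZero H ξ y =
      ∑ h : H, if IsConj g (h : G) then ξ h else 0 := by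
    rw [Finset.sum_filter]
    have h3 : ∀ y : G, (if IsConj g y then extendByZero H ξ y else 0) =
        if y ∈ H then (if IsConj g y then extendByZero H ξ y else 0) else 0 := by
      intro y
      by_cases hy : y ∈ H
      · rw [if_pos hy]
      · rw [if_neg hy, Cfsg.Agent.H3.CharInd.ext_not_mem H ξ hy]
        simp
    rw [Finset.sum_congr rfl fun y _ => h3 y, Cfsg.Agent.H10.BlockInd.sum_mem_eq H
      (fun y => if IsConj g y then extendByZero H ξ y else 0)]
    refine Finset.sum_congr rfl fun h _ => ?_
    rw [Cfsg.Agent.H3.CharInd.ext_coe]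
  have h4 : inducedCentralChar H ξ g = (∑ h : H, if IsConj g (h : G) then ξ h else 0) / ξ 1 := by
    rw [inducedCentralChar, finsum_mem_eq_finite_toFinset_sum _ (Set.toFinite _)]
    have e : (Set.toFinite {h : H | IsConj g (h : G)}).toFinset =
        Finset.univ.filter (fun h : H => IsConj g (h : G)) := by ext; simp
    rw [e, Finset.sum_filter, Finset.sum_div]
    refine Finset.sum_congr rfl fun h _ => ?_
    split_ifs
    · rfl
    · exact (zero_div _).symm
  rw [h4, centralChar, Cfsg.Agent.H3.CharInd.ind_one, indFun, h1, h2, nsmul_eq_mul]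
  have e1 := (Subgroup.centralizer ({g} : Set G)).card_mul_index
  have e2 := H.card_mul_index
  have e3 : ((Nat.card (Subgroup.centralizer ({g} : Set G)) : ℂ)) *
      ((Subgroup.centralizer ({g} : Set G)).index : ℂ) = (Nat.card H : ℂ) * (H.index : ℂ) := by
    rw [← Nat.cast_mul, ← Nat.cast_mul, e1, e2]
  have hH : (Nat.card H : ℂ) ≠ 0 := Nat.cast_ne_zero.2 Nat.card_pos.ne'
  have hI : (H.index : ℂ) ≠ 0 := Nat.cast_ne_zero.2 Subgroup.index_ne_zero_of_finite
  generalize (∑ h : H, if IsConj g (h : G) then ξ h else 0) = S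
  by_cases hξ1 : ξ 1 = 0
  · rw [hξ1]; simp
  · rw [div_eq_div_iff hξ1 (mul_ne_zero hI hξ1)]
    have : ((Subgroup.centralizer ({g} : Set G)).index : ℂ) * ((Nat.card H : ℂ)⁻¹ *
        ((Nat.card (Subgroup.centralizer ({g} : Set G)) : ℂ) * S)) =
        ((Nat.card (Subgroup.centralizer ({g} : Set G)) : ℂ) *
          ((Subgroup.centralizer ({g} : Set G)).index : ℂ)) * (Nat.card H : ℂ)⁻¹ * S := by ring
    rw [this, e3]
    field_simp

end Cfsg.Agent.S0932
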