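import Cfsg.Statements.S1011
import Cfsg.Agent.H9_OrA
import Cfsg.Agent.H5_OrB
import Cfsg.Agent.H9_OrC
import Cfsg.Agent.H9_OrD
import Cfsg.Agent.H4_Elab4
import Cfsg.Agent.H9_FieldCongr

set_option autoImplicit false
open Cfsg

namespace Cfsg.Agent.S1011

/-- A simple group of order 504 is isomorphic to the projective special linear group of dimension 2 over the field with 8 elements. -/
theorem result {G : Type*} [Group G] [Finite G] [IsSimpleGroup G] (h : Nat.card G = 504) {F : Type*} [Field F] [Fintype F] (hF : Fintype.card F = 8) : Nonempty (G ≃* Matrix.ProjectiveSpecialLinearGroup (Fin 2) F) := by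
  obtain ⟨hn7, hC7, x, t, hx, ht, hxt⟩ := Cfsg.Agent.H5.OrB.syl7 (G := G) h
  have h7 := Cfsg.Agent.H9.OrA.no7 (G := G) h hx ht hxt
  obtain ⟨hn3, hC3⟩ := Cfsg.Agent.H9.OrC.syl3 (G := G) h h7 hC7
  have hfin := Cfsg.Agent.H9.OrD.final (G := G) h hn7 hn3 hC7 hC3
  obtain ⟨T⟩ : Nonempty (Sylow 2 G) := inferInstance
  have hT : Nat.card (T : Subgroup G) = 8 := by
    rw [Sylow.card_eq_multiplicity, h, show (504 : ℕ).factorization 2 = 3 by decide +kernel]; norm_num
  have hinvol : ∀ g : G, g ∈ (T : Subgroup G) → ∃ z : G, z ∈ (T : Subgroup G) ∧ orderOf z = 2 ∧ z * g = g * z := by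
    intro g hg
    haveI : Fact (Nat.Prime 2) := ⟨Nat.prime_two⟩
    haveI : Nontrivial (T : Subgroup G) := Finite.one_lt_card_iff_nontrivial.mp (by rw [hT]; norm_num)
    haveI : Nontrivial (Subgroup.center (T : Subgroup G)) := T.isPGroup'.center_nontrivial
    have h2 : 2 ∣ Nat.card (Subgroup.center (T : Subgroup G)) := by
      obtain ⟨n, hn⟩ := (T.isPGroup'.to_subgroup (Subgroup.center (T : Subgroup G))).exists_card_eq
      have h3 : 1 < Nat.card (Subgroup.center (T : Subgroup G)) := Finite.one_lt_card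
      rw [hn] at h3 ⊢
      refine dvd_pow_self 2 ?_
      rintro rfl
      simp at h3
    obtain ⟨z, hz⟩ := exists_prime_orderOf_dvd_card' (G := Subgroup.center (T : Subgroup G)) 2 h2
    refine ⟨((z : (T : Subgroup G)) : G), (z : (T : Subgroup G)).2, ?_, ?_⟩
    · rw [Subgroup.orderOf_coe, Subgroup.orderOf_coe, hz]
    · have h4 := Subgroup.mem_center_iff.mp z.2 ⟨g, hg⟩
      exact (congrArg Subtype.val h4).symm
  have hexp : ∀ g : G, g ∈ (T : Subgroup G) → g ^ 2 = 1 := by
    intro g hg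
    obtain ⟨z, _, hz2, hzg⟩ := hinvol g hg
    exact (hfin z hz2).2 g (Subgroup.mem_centralizer_singleton_iff.mpr hzg.symm)
  have hnc : ¬ IsCyclic (T : Subgroup G) := by
    intro hc
    obtain ⟨g, hg⟩ := hc.exists_generator
    have h1 : orderOf g = 8 := by rw [orderOf_eq_card_of_forall_mem_zpowers hg, hT]
    have h2 : g ^ 2 = 1 := Subtype.ext (hexp g g.2)
    have h3 := orderOf_dvd_of_pow_eq_one h2
    rw [h1] at h3
    omega
  have hnn : ¬ (T : Subgroup G).Normal := by
    intro hn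
    rcases hn.eq_bot_or_eq_top with h1 | h1
    · rw [h1, Subgroup.card_bot] at hT; omega
    · rw [h1, Subgroup.card_top, h] at hT; omega
  obtain ⟨F', hF', hFf', hcard, ⟨e⟩⟩ := Cfsg.Agent.H4.Elab4.main T (fun t ht => by
    have h2 := (hfin t ht).2
    refine ⟨⟨⟨fun a b => ?_⟩⟩, h2⟩
    have ha : a * a = 1 := Subtype.ext (by have := h2 a a.2; rwa [sq] at this)
    have hb : b * b = 1 := Subtype.ext (by have := h2 b b.2; rwa [sq] at this)
    have hab : (a * b) * (a * b) = 1 := Subtype.ext (by have := h2 (a * b : _) (a * b).2; rwa [sq] at this)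
    have ha' : a⁻¹ = a := inv_eq_of_mul_eq_one_left ha
    have hb' : b⁻¹ = b := inv_eq_of_mul_eq_one_left hb
    have hab' : (a * b)⁻¹ = a * b := inv_eq_of_mul_eq_one_left hab
    rw [mul_inv_rev, ha', hb'] at hab'
    exact hab'.symm) hnn hnc
  rw [hT] at hcard
  obtain ⟨e2⟩ := Cfsg.Agent.H9.FieldCongr.psl (n := 2) (FiniteField.ringEquivOfCardEq (K := F') (K' := F) (by rw [hcard, hF]))
  exact ⟨e.trans e2⟩

end Cfsg.Agent.S1011
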