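import Cfsg.Statements.S1138
import Mathlib
import Cfsg.Agent.H9_Suz11

set_option autoImplicit false
open Cfsg

namespace Cfsg.Agent.S1138

/-- Let `P` be a Suzuki 2-group with `|Z(P)| = q`. Then every square lies in `Z(P)` and `P/Z(P)` is abelian (so elementary abelian), `|P| = q²` or `|P| = q³`, and `P` has exponent 4. -/
theorem result {P : Type*} [Group P] (hP : Cfsg.IsSuzukiTwoGroup P) :
    (∀ x : P, x * x ∈ Subgroup.center P) ∧ (∀ x y : P, x⁻¹ * y⁻¹ * x * y ∈ Subgroup.center P) ∧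
      (Nat.card P = Nat.card (Subgroup.center P) ^ 2 ∨ Nat.card P = Nat.card (Subgroup.center P) ^ 3) ∧
      Monoid.exponent P = 4 := by
  obtain ⟨K, h, -⟩ := Cfsg.Agent.H9.Suz.of_suzuki hP
  obtain ⟨h1, h2, h3, h4⟩ := Cfsg.Agent.H9.Suz.higman h hP.2.2.1
  haveI := h.fin
  rw [h3]
  refine ⟨h1, h2, ?_, ?_⟩
  · rw [h.card_Z1]
    exact h4
  · have h5 : Monoid.exponent P ∣ 4 := by
      apply Monoid.exponent_dvd_of_forall_pow_eq_one
      intro x
      have h6 : x ^ 4 = (x * x) * (x * x) := by simp only [pow_succ, pow_zero, one_mul, mul_assoc]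
      rw [h6]
      exact Cfsg.Agent.H9.Suz.Z1_sq (h1 x)
    have h6 : ¬ Monoid.exponent P ∣ 2 := by
      intro h7
      obtain ⟨a, b, hab⟩ := hP.2.2.1
      apply hab
      have h8 : a ∈ Cfsg.Agent.H9.Suz.Z1 P := by
        rw [h.mem_Z1, ← pow_two]
        exact Monoid.exponent_dvd_iff_forall_pow_eq_one.mp h7 a
      exact (Cfsg.Agent.H9.Suz.Z1_center h8 b).symm
    have h7 := (Nat.dvd_prime_pow Nat.prime_two (m := 2)).1 (by exact h5)
    obtain ⟨j, hj, hj2⟩ := h7
    interval_cases j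
    · rw [hj2] at h6
      exact absurd (by norm_num) h6
    · rw [hj2] at h6
      exact absurd (by norm_num) h6
    · exact hj2

end Cfsg.Agent.S1138
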