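import Cfsg.Statements.S1153
import Cfsg.Agent.H6_Ree5

set_option autoImplicit false
open Cfsg

namespace Cfsg.Agent.S1153

/-- In the small Ree group ²G₂(q), q = 3^(2m+1), realised as G¹ inside the Chevalley group G₂ over the field with q elements, with `B¹ = G¹ ∩ B`: in the action of `G¹` on the cosets of `B¹`, the joint stabiliser of any three distinct cosets has order at most 2, and for some three distinct cosets it has order exactly 2. -/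
theorem result {K : Type*} [Field K] [Fintype K] {m : ℕ} (hK : Fintype.card K = 3 ^ (2 * m + 1)) :
    (∀ x y z : ↥(Cfsg.Lie.twistedG2 K (3 ^ m)) ⧸ ((Cfsg.Lie.chevG2.borelSubgroup K ⊓ Cfsg.Lie.twistedG2 K (3 ^ m))).subgroupOf (Cfsg.Lie.twistedG2 K (3 ^ m)), x ≠ y → x ≠ z → y ≠ z →
        Nat.card ↥(MulAction.stabilizer ↥(Cfsg.Lie.twistedG2 K (3 ^ m)) x ⊓ MulAction.stabilizer ↥(Cfsg.Lie.twistedG2 K (3 ^ m)) y ⊓ MulAction.stabilizer ↥(Cfsg.Lie.twistedG2 K (3 ^ m)) z) ≤ 2) ∧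
      ∃ x y z : ↥(Cfsg.Lie.twistedG2 K (3 ^ m)) ⧸ ((Cfsg.Lie.chevG2.borelSubgroup K ⊓ Cfsg.Lie.twistedG2 K (3 ^ m))).subgroupOf (Cfsg.Lie.twistedG2 K (3 ^ m)), x ≠ y ∧ x ≠ z ∧ y ≠ z ∧
        Nat.card ↥(MulAction.stabilizer ↥(Cfsg.Lie.twistedG2 K (3 ^ m)) x ⊓ MulAction.stabilizer ↥(Cfsg.Lie.twistedG2 K (3 ^ m)) y ⊓ MulAction.stabilizer ↥(Cfsg.Lie.twistedG2 K (3 ^ m)) z) = 2 := by
  classical
  obtain ⟨R, hφ, hU, hH, hB⟩ := Cfsg.Agent.H6.Ree.exists_RG hK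
  have hBB : (Cfsg.Lie.chevG2.borelSubgroup K ⊓ Cfsg.Lie.twistedG2 K (3 ^ m)).subgroupOf (Cfsg.Lie.twistedG2 K (3 ^ m)) = R.B := by
    ext x
    rw [Subgroup.mem_subgroupOf, Subgroup.mem_inf, R.mem_B, ← hB]
    exact ⟨fun h => h.1, fun h => ⟨h, x.2⟩⟩
  rw [hBB]
  have hle : ∀ t u v : K, ¬ (t = 0 ∧ u = 0 ∧ v = 0) →
      Nat.card {s : Kˣ // (t = 0 ∨ s = 1) ∧ (u = 0 ∨ s = 1 ∨ s = -1) ∧ (v = 0 ∨ s = 1)} ≤ 2 := by
    intro t u v hne
    have h1 : ∀ s : Kˣ, (t = 0 ∨ s = 1) ∧ (u = 0 ∨ s = 1 ∨ s = -1) ∧ (v = 0 ∨ s = 1) → s = 1 ∨ s = -1 := by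
      rintro s ⟨h1, h2, h3⟩
      by_cases ht : t = 0
      · by_cases hu : u = 0
        · by_cases hv : v = 0
          · exact absurd ⟨ht, hu, hv⟩ hne
          · exact Or.inl (h3.resolve_left hv)
        · exact h2.resolve_left hu
      · exact Or.inl (h1.resolve_left ht)
    calc Nat.card {s : Kˣ // (t = 0 ∨ s = 1) ∧ (u = 0 ∨ s = 1 ∨ s = -1) ∧ (v = 0 ∨ s = 1)} ≤
        Nat.card {s : Kˣ // s = 1 ∨ s = -1} := Nat.card_le_card_of_injective (fun x => ⟨x.1, h1 _ x.2⟩)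
          (fun a b h => Subtype.ext (congrArg (fun z : {s : Kˣ // s = 1 ∨ s = -1} => z.1) h))
      _ ≤ 2 := by
        have e : Nat.card {s : Kˣ // s = 1 ∨ s = -1} = Nat.card ({1, -1} : Finset Kˣ) :=
          Nat.card_congr (Equiv.subtypeEquivRight fun s => by simp)
        rw [e, Nat.card_eq_fintype_card, Fintype.card_coe]
        exact Finset.card_le_two
  refine ⟨fun x y z h1 h2 h3 => ?_, ?_⟩
  · obtain ⟨g, b, hb, hb1, rfl, rfl, rfl⟩ := R.third h1 h2 h3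
    obtain ⟨t, u, v, hbw⟩ := R.mem_U.1 hb
    rw [R.card_three hb hbw]
    apply hle
    rintro ⟨rfl, rfl, rfl⟩
    exact hb1 (hbw.trans R.w_zero)
  · have hb := R.w_mem 0 1 0
    refine ⟨((1 : ↥(Cfsg.Lie.twistedG2 K (3 ^ m))) : _ ⧸ R.B), ((1 * R.n : ↥(Cfsg.Lie.twistedG2 K (3 ^ m))) : _ ⧸ R.B),
      ((1 * R.w 0 1 0 * R.n : ↥(Cfsg.Lie.twistedG2 K (3 ^ m))) : _ ⧸ R.B), ?_, ?_, ?_, ?_⟩
    · intro h
      rw [R.mk_eq_iff, inv_one, one_mul, one_mul] at h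
      exact R.n_not_mem h
    · intro h
      rw [R.mk_eq_iff, inv_one, one_mul, one_mul] at h
      have := R.big_not_B (R.wB 0 1 0) (one_mem R.B)
      rw [mul_one] at this
      exact this h
    · intro h
      rw [R.mk_eq_iff, one_mul, one_mul, R.n_inv, ← mul_assoc] at h
      have h1 := R.n_conj_B hb h
      exact one_ne_zero (R.w_one_iff.1 h1).2.1
    · rw [R.card_three hb rfl]
      have e : Nat.card {s : Kˣ // ((0 : K) = 0 ∨ s = 1) ∧ ((1 : K) = 0 ∨ s = 1 ∨ s = -1) ∧ ((0 : K) = 0 ∨ s = 1)} =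
          Nat.card ({1, -1} : Finset Kˣ) :=
        Nat.card_congr (Equiv.subtypeEquivRight fun s => by simp)
      rw [e, Nat.card_eq_fintype_card, Fintype.card_coe]
      apply Finset.card_pair
      intro h
      have h1 := congrArg Units.val h
      rw [Units.val_neg, Units.val_one] at h1
      exact R.neg_one_ne h1.symm

end Cfsg.Agent.S1153
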