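import Cfsg.Statements.S1285
import Cfsg.Agent.H11_SF2

set_option autoImplicit false
open Cfsg

namespace Cfsg.Agent.S1285

/-- Let θ be a solvable A-signalizer functor on the finite group G with A elementary abelian of rank at least 3, and suppose that for some prime q every θ a (a ∈ A non-identity) is a q-group. Then θ is complete. -/
theorem result {G : Type*} [Group G] [Finite G] (p : ℕ) [Fact p.Prime] (A : Subgroup G) (hA : Cfsg.IsElementaryAbelian p A) (hA3 : p ^ 3 ≤ Nat.card ↥A) (θ : G → Subgroup G) (hθ : Cfsg.IsSolvableSignalizerFunctor p A θ) (q : ℕ) [Fact q.Prime] (hq : ∀ a ∈ A, a ≠ 1 → IsPGroup q ↥(θ a)) : Cfsg.IsCompleteSignalizerFunctor p A θ := by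
  have hp : p.Prime := Fact.out
  refine ⟨hθ.1, ?_⟩
  by_cases hqp : q = p
  · subst hqp
    refine ⟨⊥, ?_, ?_, fun a ha ha1 => ?_⟩
    · intro b _ x hx
      rw [Subgroup.mem_bot] at hx ⊢
      rw [hx]; group
    · rw [Subgroup.card_bot]; exact hp.one_lt.ne' ∘ Nat.dvd_one.mp
    · obtain ⟨n, hn⟩ := (hq a ha ha1).exists_card_eq
      have h1 := hθ.1.2.1 a ha ha1
      rcases Nat.eq_zero_or_pos n with h | h
      · rw [h, pow_zero] at hn
        rw [Subgroup.card_eq_one.mp hn, bot_inf_eq]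
      · exact absurd (hn ▸ dvd_pow_self q h.ne') h1
  · obtain ⟨Q, hQ, h⟩ := H11.SF.complete_of_qgroups hqp hA hA3 hθ hq
    exact ⟨Q, hQ.1.2.2.1, hQ.1.2.1, h⟩

end Cfsg.Agent.S1285
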