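import Cfsg.Statements.S1312
import Cfsg.Agent.H11_Bender
import Cfsg.Agent.H11_FStar

set_option autoImplicit false
open Cfsg

namespace Cfsg.Agent.S1312

open Subgroup Cfsg.Agent.H11.Cores Cfsg.Agent.H11.Components Cfsg.Agent.H13.Syl
  Cfsg.Agent.H11.Bal Cfsg.Agent.H11.CompOf Cfsg.Agent.H11.Bender Cfsg.Agent.H11.FStar
open scoped commutatorElement

theorem comp_transfer {G : Type*} [Group G] [Finite G] {M N : Subgroup G}
    (h1 : (Cfsg.generalizedFittingSubgroup ↥M).map M.subtype ≤ N)
    (h2 : (Cfsg.generalizedFittingSubgroup ↥N).map N.subtype ≤ M) {K : Subgroup G}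
    (hK : Cfsg.IsComponentOf K M) : Cfsg.IsComponentOf K N := by
  have hcN : ∀ L : Subgroup G, Cfsg.IsComponentOf L N → L ≤ M ⊓ N := by
    intro L hL
    refine le_inf (le_trans ?_ h2) hL.1
    rw [← map_subgroupOf_eq_of_le hL.1]
    exact Subgroup.map_mono (le_generalizedFitting_of_isComponent hL.2)
  have hKX : K ≤ M ⊓ N := by
    refine le_inf hK.1 (le_trans ?_ h1)
    rw [← map_subgroupOf_eq_of_le hK.1]
    exact Subgroup.map_mono (le_generalizedFitting_of_isComponent hK.2)
  have hKc : Cfsg.IsComponentOf K (M ⊓ N) := mono_of hK hKX inf_le_left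
  by_contra hcon
  have hq := isQuasisimple_of hK
  -- K centralizes F*(N)
  have e1 : (Cfsg.layer ↥N).map N.subtype ≤ centralizer (K : Set G) := by
    rw [Subgroup.map_le_iff_le_comap, layer_le_iff]
    intro L hL
    rw [← Subgroup.map_le_iff_le_comap]
    have hL' : Cfsg.IsComponentOf (L.map N.subtype) N := by
      refine ⟨map_subtype_le L, ?_⟩
      rw [Subgroup.subgroupOf, comap_map_eq_self_of_injective (subtype_injective N)]
      exact hL
    have hne : L.map N.subtype ≠ K := fun h => hcon (h ▸ hL')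
    rw [← commutator_eq_bot_iff_le_centralizer]
    exact commutator_of_ne (mono_of hL' (hcN _ hL') inf_le_right) hKc hne
  have hfn : Group.IsNilpotent ↥((Cfsg.fittingSubgroup ↥N).map N.subtype) := by
    have h3 : Group.IsNilpotent (Cfsg.fittingSubgroup ↥N) := Cfsg.Agent.H1.Nilp.fitting_nilpotent
    exact (Group.isNilpotent_congr ((Cfsg.fittingSubgroup ↥N).equivMapOfInjective N.subtype
      (subtype_injective N))).mp h3
  have hfX : (Cfsg.fittingSubgroup ↥N).map N.subtype ≤ M ⊓ N :=
    le_inf ((Subgroup.map_mono fitting_le_generalizedFitting).trans h2) (map_subtype_le _)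
  have hfnorm : N ≤ normalizer (((Cfsg.fittingSubgroup ↥N).map N.subtype : Subgroup G) : Set G) := by
    haveI : (Cfsg.fittingSubgroup ↥N).Normal := Cfsg.Agent.H1.Nilp.fitting_normal
    have := Subgroup.le_normalizer_map (H := Cfsg.fittingSubgroup ↥N) N.subtype
    rw [Subgroup.normalizer_eq_top, ← MonoidHom.range_eq_map, range_subtype] at this
    exact this
  have e2 : (Cfsg.fittingSubgroup ↥N).map N.subtype ≤ centralizer (K : Set G) := by
    have hn : (((Cfsg.fittingSubgroup ↥N).map N.subtype).subgroupOf (M ⊓ N)).Normal :=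
      normal_subgroupOf_of_le_normalizer (inf_le_right.trans hfnorm)
    rcases le_or_commutator_eq_bot hKc.2 hn.isSubnormal with h | h
    · exfalso
      have h3 : K ≤ (Cfsg.fittingSubgroup ↥N).map N.subtype := by
        intro k hk
        have : (⟨k, hKX hk⟩ : ↥(M ⊓ N)) ∈ K.subgroupOf (M ⊓ N) := mem_subgroupOf.mpr hk
        exact mem_subgroupOf.mp (h this)
      have h4 : Group.IsNilpotent K := Cfsg.Agent.H1.Nilp.isNilpotent_of_le h3 hfn
      exact IsQuasisimple.not_isSolvable hq inferInstance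
    · rw [← commutator_eq_bot_iff_le_centralizer, commutator_comm]
      exact (commutator_subgroupOf_eq_bot_iff hKX hfX).mp h
  have e3 : (Cfsg.generalizedFittingSubgroup ↥N).map N.subtype ≤ centralizer (K : Set G) := by
    rw [Cfsg.generalizedFittingSubgroup, Subgroup.map_sup]
    exact sup_le e1 e2
  have e4 : K ≤ (Cfsg.generalizedFittingSubgroup ↥N).map N.subtype := by
    intro k hk
    have hkN : k ∈ N := (hKX hk).2
    refine ⟨⟨k, hkN⟩, ?_, rfl⟩
    apply centralizer_generalizedFitting_le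
    rw [mem_centralizer_iff]
    intro f hf
    apply Subtype.ext
    exact (mem_centralizer_iff.mp (e3 ⟨f, hf, rfl⟩) k hk).symm
  apply IsQuasisimple.not_isMulCommutative hq
  refine ⟨⟨fun a b => Subtype.ext ?_⟩⟩
  exact (mem_centralizer_iff.mp (e3 (e4 b.2)) a a.2)

theorem norm_eq {G : Type*} [Group G] [IsSimpleGroup G] {M X : Subgroup G} (hM : IsCoatom M)
    (hX : X ≠ ⊥) (hXM : X ≤ M) (hMX : M ≤ normalizer (X : Set G)) :
    normalizer (X : Set G) = M := by
  rcases hM.le_iff.mp hMX with h | h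
  · exfalso
    have hn : X.Normal := normalizer_eq_top_iff.mp h
    rcases hn.eq_bot_or_eq_top with h1 | h1
    · exact hX h1
    · rw [h1, top_le_iff] at hXM
      exact hM.1 hXM
  · exact h

theorem layer_bot {G : Type*} [Group G] [Finite G] [IsSimpleGroup G] {M N : Subgroup G}
    (hM : IsCoatom M) (hN : IsCoatom N) (hMN : M ≠ N)
    (h1 : (Cfsg.generalizedFittingSubgroup ↥M).map M.subtype ≤ N)
    (h2 : (Cfsg.generalizedFittingSubgroup ↥N).map N.subtype ≤ M) : Cfsg.layer ↥M = ⊥ := by
  have hle : ∀ M N : Subgroup G, (Cfsg.generalizedFittingSubgroup ↥M).map M.subtype ≤ N →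
      (Cfsg.generalizedFittingSubgroup ↥N).map N.subtype ≤ M →
      (Cfsg.layer ↥M).map M.subtype ≤ (Cfsg.layer ↥N).map N.subtype := by
    intro M N h1 h2
    rw [Subgroup.map_le_iff_le_comap, layer_le_iff]
    intro L hL
    rw [← Subgroup.map_le_iff_le_comap]
    have hL' : Cfsg.IsComponentOf (L.map M.subtype) M := by
      refine ⟨map_subtype_le L, ?_⟩
      rw [Subgroup.subgroupOf, comap_map_eq_self_of_injective (subtype_injective M)]
      exact hL
    have h3 := comp_transfer h1 h2 hL'
    rw [← map_subgroupOf_eq_of_le h3.1]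
    exact Subgroup.map_mono (le_layer h3.2)
  have heq : (Cfsg.layer ↥M).map M.subtype = (Cfsg.layer ↥N).map N.subtype :=
    le_antisymm (hle M N h1 h2) (hle N M h2 h1)
  have hnorm : ∀ M : Subgroup G, M ≤ normalizer (((Cfsg.layer ↥M).map M.subtype : Subgroup G) : Set G) := by
    intro M
    haveI : (Cfsg.layer ↥M).Normal := inferInstance
    have := Subgroup.le_normalizer_map (H := Cfsg.layer ↥M) M.subtype
    rw [Subgroup.normalizer_eq_top, ← MonoidHom.range_eq_map, range_subtype] at this
    exact this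
  by_contra hne
  have hne' : (Cfsg.layer ↥M).map M.subtype ≠ ⊥ := fun h =>
    hne ((Subgroup.map_eq_bot_iff_of_injective _ (subtype_injective M)).mp h)
  have h3 := norm_eq hM hne' (map_subtype_le _) (hnorm M)
  have h4 := norm_eq hN (heq ▸ hne') (map_subtype_le _) (hnorm N)
  rw [heq] at h3
  exact hMN (h3.symm.trans h4)

/-- Let G be a non-abelian finite simple group and M ≠ N maximal subgroups of G with F*(M) ≤ N and F*(N) ≤ M. Then there is a prime p such that F*(M) and F*(N) are both p-groups. -/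
theorem result {G : Type*} [Group G] [Finite G] [IsSimpleGroup G] (hna : ¬ IsMulCommutative G) (M N : Subgroup G) (hM : IsCoatom M) (hN : IsCoatom N) (hMN : M ≠ N) (h1 : (Cfsg.generalizedFittingSubgroup ↥M).map M.subtype ≤ N) (h2 : (Cfsg.generalizedFittingSubgroup ↥N).map N.subtype ≤ M) : ∃ p : ℕ, p.Prime ∧ IsPGroup p ↥(Cfsg.generalizedFittingSubgroup ↥M) ∧ IsPGroup p ↥(Cfsg.generalizedFittingSubgroup ↥N) := by
  classical
  have l1 := layer_bot hM hN hMN h1 h2
  have l2 := layer_bot hN hM hMN.symm h2 h1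
  have f1 : Cfsg.generalizedFittingSubgroup ↥M = Cfsg.fittingSubgroup ↥M :=
    layer_eq_bot_iff_generalizedFitting.mp l1
  have f2 : Cfsg.generalizedFittingSubgroup ↥N = Cfsg.fittingSubgroup ↥N :=
    layer_eq_bot_iff_generalizedFitting.mp l2
  rw [f1] at h1 ⊢
  rw [f2] at h2 ⊢
  set A := (Cfsg.fittingSubgroup ↥M).map M.subtype with hA
  set B := (Cfsg.fittingSubgroup ↥N).map N.subtype with hB
  have nil : ∀ M : Subgroup G, Group.IsNilpotent ↥((Cfsg.fittingSubgroup ↥M).map M.subtype) := by
    intro M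
    have h3 : Group.IsNilpotent (Cfsg.fittingSubgroup ↥M) := Cfsg.Agent.H1.Nilp.fitting_nilpotent
    exact (Group.isNilpotent_congr ((Cfsg.fittingSubgroup ↥M).equivMapOfInjective M.subtype
      (subtype_injective M))).mp h3
  have norm : ∀ M : Subgroup G,
      M ≤ normalizer (((Cfsg.fittingSubgroup ↥M).map M.subtype : Subgroup G) : Set G) := by
    intro M
    haveI : (Cfsg.fittingSubgroup ↥M).Normal := Cfsg.Agent.H1.Nilp.fitting_normal
    have := Subgroup.le_normalizer_map (H := Cfsg.fittingSubgroup ↥M) M.subtype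
    rw [Subgroup.normalizer_eq_top, ← MonoidHom.range_eq_map, range_subtype] at this
    exact this
  have cent : ∀ M : Subgroup G, Cfsg.generalizedFittingSubgroup ↥M = Cfsg.fittingSubgroup ↥M →
      M ⊓ centralizer (((Cfsg.fittingSubgroup ↥M).map M.subtype : Subgroup G) : Set G) ≤
        (Cfsg.fittingSubgroup ↥M).map M.subtype := by
    rintro M hM x ⟨hx, hxc⟩
    refine ⟨⟨x, hx⟩, ?_, rfl⟩
    rw [SetLike.mem_coe, ← hM]
    apply centralizer_generalizedFitting_le
    rw [hM, mem_centralizer_iff]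
    intro f hf
    apply Subtype.ext
    exact mem_centralizer_iff.mp hxc f ⟨f, hf, rfl⟩
  have sub : ∀ M : Subgroup G, ∀ X : Subgroup G, X ≤ M → (X.subgroupOf M).IsSubnormal →
      Group.IsNilpotent X → X ≤ (Cfsg.fittingSubgroup ↥M).map M.subtype := by
    intro M X hX hXs hXn
    rw [← map_subgroupOf_eq_of_le hX]
    apply Subgroup.map_mono
    apply le_fittingSubgroup_of_isSubnormal hXs
    exact (Group.isNilpotent_congr (subgroupOfEquivOfLe hX)).mpr hXn
  have hAM : A ≤ M := map_subtype_le _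
  have hBN : B ≤ N := map_subtype_le _
  have hAne : A ≠ ⊥ := by
    intro h
    have h3 : M = ⊥ := by
      rw [eq_bot_iff, ← h]
      intro x hx
      have hxc : x ∈ centralizer (A : Set G) := by
        rw [h, mem_centralizer_iff]
        intro y hy
        rw [SetLike.mem_coe, mem_bot] at hy
        rw [hy]; group
      exact cent M f1 ⟨hx, hxc⟩
    apply hna
    obtain ⟨x, hx⟩ := exists_ne (1 : G)
    have h4 : zpowers x = ⊤ := by
      rcases hM.le_iff.mp (show M ≤ zpowers x by rw [h3]; exact bot_le) with h4 | h4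
      · exact h4
      · exfalso; apply hx; rw [h3] at h4; exact (zpowers_eq_bot.mp h4)
    refine ⟨⟨fun a b => ?_⟩⟩
    have ha : a ∈ zpowers x := by rw [h4]; trivial
    have hb : b ∈ zpowers x := by rw [h4]; trivial
    obtain ⟨i, rfl⟩ := ha
    obtain ⟨j, rfl⟩ := hb
    exact (Commute.zpow_zpow_self x i j).eq
  have hAc : Nat.card A ≠ 1 := fun h => hAne (Subgroup.eq_bot_of_card_eq A h)
  obtain ⟨p, hp, hpd⟩ := Nat.exists_prime_and_dvd hAc
  haveI : Fact p.Prime := ⟨hp⟩
  have hQA : QQ p A ≠ ⊥ := by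
    intro h
    obtain ⟨x, hx⟩ := exists_prime_orderOf_dvd_card' p hpd
    have h3 : (x : G) ^ p ^ 1 = 1 := by
      rw [pow_one]
      have := pow_orderOf_eq_one x
      rw [hx] at this
      exact congrArg Subtype.val this
    have h4 := mem_QQ_of_pow p (nil M) x.2 ⟨1, h3⟩
    rw [← hA, h, mem_bot] at h4
    have h5 : x = 1 := Subtype.ext h4
    rw [h5, orderOf_one] at hx
    exact hp.one_lt.ne hx
  have hMQ := (norm M).trans (normalizer_le_normalizer_QQ p _)
  have hMO := (norm M).trans (normalizer_le_normalizer_OO p _)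
  have hNQ := (norm N).trans (normalizer_le_normalizer_QQ p _)
  have hNO := (norm N).trans (normalizer_le_normalizer_OO p _)
  rw [← hA] at hMQ hMO
  rw [← hB] at hNQ hNO
  have c1 : ⁅QQ p A, OO p B⁆ = ⊥ :=
    comm_of_normalize (((QQ_le p A).trans h1).trans hNO) (((OO_le p B).trans h2).trans hMQ)
      (QQ_OO_disjoint (QQ_isPGroup p A) (OO_coprime p B))
  have hQB : QQ p B ≠ ⊥ := by
    intro h
    have h3 : OO p B = B := by
      have := sup_eq_of_nilpotent p (nil N)
      rw [← hB, h, bot_sup_eq] at this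
      exact this
    rw [h3, commutator_eq_bot_iff_le_centralizer] at c1
    have h4 : QQ p A ≤ B := by
      intro x hx
      exact cent N f2 ⟨h1 (QQ_le p A hx), c1 hx⟩
    apply hQA
    have h5 : QQ p A ≤ OO p B := by rw [h3]; exact h4
    have h6 := QQ_OO_disjoint (QQ_isPGroup p A) (OO_coprime p B)
    rw [eq_bot_iff, ← disjoint_iff.mp h6]
    exact le_inf le_rfl h5
  have nQA := norm_eq hM hQA ((QQ_le p A).trans hAM) hMQ
  have nQB := norm_eq hN hQB ((QQ_le p B).trans hBN) hNQ
  have k1 : OO p B ≤ OO p A := half p hAM h1 h2 hBN (norm M) (norm N) (nil M) (nil N)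
    (cent M f1) (sub M) (inf_le_right.trans ((centralizer_le_normalizer _).trans nQB.le))
  have k2 : OO p A ≤ OO p B := half p hBN h2 h1 hAM (norm N) (norm M) (nil N) (nil M)
    (cent N f2) (sub N) (inf_le_right.trans ((centralizer_le_normalizer _).trans nQA.le))
  have k3 : OO p A = OO p B := le_antisymm k2 k1
  have k4 : OO p A = ⊥ := by
    by_contra hne
    have h3 := norm_eq hM hne ((OO_le p A).trans hAM) hMO
    have h4 := norm_eq hN (k3 ▸ hne) ((OO_le p B).trans hBN) hNO
    rw [k3] at h3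
    exact hMN (h3.symm.trans h4)
  have fin : ∀ M : Subgroup G, OO p ((Cfsg.fittingSubgroup ↥M).map M.subtype) = ⊥ →
      IsPGroup p ↥(Cfsg.fittingSubgroup ↥M) := by
    intro M h
    have h3 := sup_eq_of_nilpotent p (nil M)
    rw [h, sup_bot_eq] at h3
    have h4 : IsPGroup p ↥((Cfsg.fittingSubgroup ↥M).map M.subtype) := by
      rw [← h3]; exact QQ_isPGroup p _
    exact h4.of_equiv ((Cfsg.fittingSubgroup ↥M).equivMapOfInjective M.subtype
      (subtype_injective M)).symm
  exact ⟨p, hp, fin M k4, fin N (by rw [← hB, ← k3]; exact k4)⟩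

end Cfsg.Agent.S1312
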