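import Cfsg.Statements.S1313
import Mathlib
import Cfsg.Agent.H11_FStar

set_option autoImplicit false
open Cfsg

namespace Cfsg.Agent.S1313

/-- For a finite group H, |H| ≤ |F*(H)|!. -/
theorem result {H : Type*} [Group H] [Finite H] : Nat.card H ≤ Nat.factorial (Nat.card ↥(Cfsg.generalizedFittingSubgroup H)) := by
  classical
  set F := Cfsg.generalizedFittingSubgroup H with hF
  haveI : F.Normal := inferInstance
  let φ : H →* MulAut F := MulAut.conjNormal
  have hker : φ.ker ≤ F := by
    intro x hx
    apply H11.FStar.centralizer_generalizedFitting_le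
    rw [Subgroup.mem_centralizer_iff]
    intro y hy
    have h1 : φ x ⟨y, hy⟩ = ⟨y, hy⟩ := by rw [MonoidHom.mem_ker.mp hx]; rfl
    have h2 : x * y * x⁻¹ = y := by
      have := congrArg Subtype.val h1
      simpa [φ] using this
    have h3 : x * y = y * x := by
      calc x * y = x * y * x⁻¹ * x := by group
        _ = y * x := by rw [h2]
    exact h3.symm
  have h1 : Nat.card H = Nat.card φ.ker * Nat.card φ.range := by
    have := Subgroup.card_mul_index φ.ker
    rw [Subgroup.index_ker] at this
    exact this.symm
  have h2 : Nat.card φ.ker ≤ Nat.card F := H11.Cores.card_le_card hker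
  -- embed `MulAut F` in the permutations of the non-identity elements
  let ψ : MulAut F → Equiv.Perm {x : F // x ≠ 1} := fun a =>
    (a.toEquiv).subtypeEquiv (fun x => by
      constructor
      · intro hx h; apply hx; exact (map_eq_one_iff a a.injective).mp h
      · intro hx h; apply hx; subst h; exact map_one a)
  have hψ : Function.Injective ψ := by
    intro a b hab
    ext x
    by_cases hx : x = 1
    · rw [hx, map_one, map_one]
    · have := congrArg (fun e => ((e ⟨x, hx⟩ : {x : F // x ≠ 1}) : F)) hab
      exact congrArg Subtype.val this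
  have h3 : Nat.card (MulAut F) ≤ (Nat.card F - 1).factorial := by
    have h4 := Nat.card_le_card_of_injective ψ hψ
    have h5 : Nat.card (Equiv.Perm {x : F // x ≠ 1}) = (Nat.card F - 1).factorial := by
      haveI := Fintype.ofFinite F
      rw [Nat.card_eq_fintype_card, Fintype.card_perm, Nat.card_eq_fintype_card]
      congr 1
      rw [Fintype.card_subtype_compl]
      simp
    rwa [h5] at h4
  have h6 : Nat.card φ.range ≤ (Nat.card F - 1).factorial :=
    (Nat.card_le_card_of_injective _ (Subtype.val_injective)).trans h3
  rw [h1]
  calc Nat.card φ.ker * Nat.card φ.range ≤ Nat.card F * (Nat.card F - 1).factorial :=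
        Nat.mul_le_mul h2 h6
    _ = (Nat.card F).factorial := Nat.mul_factorial_pred Nat.card_pos.ne'

end Cfsg.Agent.S1313
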