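import Cfsg.Statements.S1349
import Cfsg.Agent.H11_ThD2

set_option autoImplicit false
open Cfsg

namespace Cfsg.Agent.S1349

open Subgroup Cfsg.Agent.H11.ThD in
theorem main {G : Type*} [Group G] [Finite G] (L A : Subgroup G) (hLs : Group.IsSolvable ↥L)
    (hLodd : Odd (Nat.card ↥L)) (hA : Cfsg.IsElementaryAbelian 2 A) (d : ℕ)
    (hAd : Nat.card ↥A = 2 ^ d) (hAL : A ≤ Subgroup.normalizer (L : Set G))
    (hfaith : A ⊓ Subgroup.centralizer (L : Set G) = ⊥) :
    ∃ (Ai : Fin d → Subgroup G) (Li : Fin d → Subgroup G) (n : Fin d → ℕ),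
      (∀ i, Ai i ≤ A ∧ Nat.card ↥(Ai i) = 2 ∧ Li i ≤ L ∧ Odd (n i) ∧ 3 ≤ n i ∧
        Nonempty (↥(Ai i ⊔ Li i) ≃* DihedralGroup (n i))) ∧ (⨆ i, Ai i) = A ∧
      ∀ i j, i ≠ j → ∀ x ∈ Ai i ⊔ Li i, ∀ y ∈ Ai j ⊔ Li j, x * y = y * x := by
  classical
  have hA2 : ∀ a ∈ A, a * a = 1 := fun a ha => by rw [← pow_two]; exact hA.2 a ha
  have hAc : ∀ a ∈ A, ∀ b ∈ A, a * b = b * a := fun a ha b hb =>
    congrArg Subtype.val (hA.1.1.1 ⟨a, ha⟩ ⟨b, hb⟩)
  set F := fittingOf L with hF
  have hFn : Group.IsNilpotent F := Cfsg.Agent.H12.Core.fittingOf_isNilpotent L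
  have hFL : F ≤ L := Cfsg.Agent.H12.Core.fittingOf_le L
  have hAF : A ≤ normalizer (F : Set G) := hAL.trans (Cfsg.Agent.H12.Core.normalizer_le_normalizer_fittingOf L)
  have hcop : ∀ X : Subgroup G, X ≤ L → (Nat.card A).Coprime (Nat.card X) := by
    intro X hX
    rw [hAd]
    apply Nat.Coprime.pow_left
    rw [Nat.coprime_two_left]
    exact hLodd.of_dvd_nat (card_dvd_of_le hX)
  obtain ⟨Y, hYF, hYc, hYA, hYself⟩ := exists_maxab A F hA2
    (fun a ha c hc => (Subgroup.mem_normalizer_iff.mp (hAF ha) c).mp hc) hFn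
  have hAY : A ⊓ centralizer (Y : Set G) = ⊥ := by
    rw [eq_bot_iff, ← hfaith]
    refine le_inf inf_le_left ?_
    have hcB : ∀ X : Subgroup G, X ≤ L → (Nat.card (A ⊓ centralizer (Y : Set G) : Subgroup G)).Coprime (Nat.card X) :=
      fun X hX => (hcop X hX).coprime_dvd_left (card_dvd_of_le inf_le_left)
    have h1 := cent_of_selfcent hFn (inf_le_left.trans hAF) (hcB F hFL) hYF hYself
      (inf_le_right : A ⊓ centralizer (Y : Set G) ≤ _)
    exact Cfsg.Agent.H12.Loc.le_centralizer_of_fitting hLs (inf_le_left.trans hAL) (hcB L le_rfl) h1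
  set E : Set G := {y | y ∈ Y ∧ ∀ a ∈ A, a * y * a⁻¹ = y ∨ a * y * a⁻¹ = y⁻¹} with hE
  have hoddY : ∀ y ∈ Y, y = y⁻¹ → y = 1 := by
    intro y hy h
    have h1 : y * y = 1 := by
      nth_rewrite 1 [h]; group
    have h2 : orderOf y ∣ 2 := orderOf_dvd_of_pow_eq_one (by rw [pow_two]; exact h1)
    have h3 : Odd (orderOf y) := hLodd.of_dvd_nat (Subgroup.orderOf_dvd_natCard _ (hFL (hYF hy)))
    rcases (Nat.dvd_prime Nat.prime_two).mp h2 with h4 | h4
    · exact orderOf_eq_one_iff.mp h4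
    · rw [h4] at h3; exact absurd h3 (by decide)
  obtain ⟨a, y, haA, hyE, hy1, hinv, hcom, hgen⟩ := dual E (fun y hy => hoddY y hy.1) d A hAd hA2
    (fun a ha y hy => hy.2 a ha) (by
      intro b hb hb1
      -- the subgroup inverted by `b`
      let V : Subgroup G :=
        { carrier := {y | y ∈ Y ∧ b * y * b⁻¹ = y⁻¹}
          one_mem' := ⟨one_mem _, by group⟩
          mul_mem' := by
            rintro u v ⟨hu, hu'⟩ ⟨hv, hv'⟩
            refine ⟨mul_mem hu hv, ?_⟩
            calc b * (u * v) * b⁻¹ = (b * u * b⁻¹) * (b * v * b⁻¹) := by group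
              _ = u⁻¹ * v⁻¹ := by rw [hu', hv']
              _ = (v * u)⁻¹ := (mul_inv_rev v u).symm
              _ = (u * v)⁻¹ := by rw [hYc u hu v hv]
          inv_mem' := by
            rintro u ⟨hu, hu'⟩
            refine ⟨inv_mem hu, ?_⟩
            calc b * u⁻¹ * b⁻¹ = (b * u * b⁻¹)⁻¹ := by group
              _ = _ := by rw [hu'] }
      have hVmem : ∀ u, u ∈ V ↔ (u ∈ Y ∧ b * u * b⁻¹ = u⁻¹) := fun u => Iff.rfl
      have hbi : b⁻¹ = b := inv_eq_of_mul_eq_one_left (hA2 b hb)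
      have hVne : V ≠ ⊥ := by
        intro hbot
        apply hb1
        rw [← mem_bot, ← hAY]
        refine ⟨hb, mem_centralizer_iff.mpr ?_⟩
        intro u hu
        have h1 : u⁻¹ * (b * u * b⁻¹) ∈ V := by
          rw [hVmem]
          refine ⟨mul_mem (inv_mem hu) (hYA b hb u hu), ?_⟩
          calc b * (u⁻¹ * (b * u * b⁻¹)) * b⁻¹ = (b * u * b⁻¹)⁻¹ * ((b * b) * u * (b * b)⁻¹) := by group
            _ = _ := by rw [hA2 b hb]; group
        rw [hbot, mem_bot] at h1
        have h2 := inv_mul_eq_one.mp h1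
        have h3 := mul_inv_eq_iff_eq_mul.mp h2.symm
        exact h3.symm
      obtain ⟨v, hvV, hv1, hve⟩ := eig A V hA2 (fun u hu w hw => hYc u hu.1 w hw.1) (by
        intro c hc u hu
        rw [hVmem] at hu ⊢
        refine ⟨hYA c hc u hu.1, ?_⟩
        calc b * (c * u * c⁻¹) * b⁻¹ = (b * c) * u * (b * c)⁻¹ := by group
          _ = (c * b) * u * (c * b)⁻¹ := by rw [hAc b hb c hc]
          _ = c * (b * u * b⁻¹) * c⁻¹ := by group
          _ = _ := by rw [hu.2]; group) hVne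
      refine ⟨v, ⟨hvV.1, hve⟩, ?_⟩
      rw [hvV.2]
      intro h
      exact hv1 (hoddY v hvV.1 h.symm))
  have hyL : ∀ i, y i ∈ L := fun i => hFL (hYF (hyE i).1)
  have hodd : ∀ i, Odd (orderOf (y i)) := fun i =>
    hLodd.of_dvd_nat (Subgroup.orderOf_dvd_natCard _ (hyL i))
  have hane : ∀ i, a i ≠ 1 := by
    intro i h
    have h1 := hinv i
    rw [h] at h1
    apply hy1 i
    apply hoddY _ (hyE i).1
    simpa using h1
  have hao : ∀ i, orderOf (a i) = 2 := fun i =>
    orderOf_eq_prime (by rw [pow_two]; exact hA2 _ (haA i)) (hane i)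
  refine ⟨fun i => zpowers (a i), fun i => zpowers (y i), fun i => orderOf (y i), ?_, ?_, ?_⟩
  · intro i
    refine ⟨zpowers_le.mpr (haA i), by rw [Nat.card_zpowers, hao i], zpowers_le.mpr (hyL i), hodd i, ?_, ?_⟩
    · have h1 := hodd i
      have h2 : orderOf (y i) ≠ 1 := fun h => hy1 i (orderOf_eq_one_iff.mp h)
      obtain ⟨k, hk⟩ := h1
      have h5 : k ≠ 0 := by rintro rfl; exact h2 hk
      change 3 ≤ orderOf (y i)
      omega
    · apply dih_iso (hA2 _ (haA i)) (hinv i)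
      intro h
      have h1 : orderOf (a i) ∣ orderOf (y i) := by
        rw [← Nat.card_zpowers (y i)]
        exact Subgroup.orderOf_dvd_natCard _ h
      rw [hao i] at h1
      exact (Nat.not_even_iff_odd.mpr (hodd i)) (even_iff_two_dvd.mpr h1)
  · exact le_antisymm (iSup_le fun i => zpowers_le.mpr (haA i)) hgen
  · intro i j hij x hx w hw
    have hcomm' : ∀ i j, i ≠ j → a i * y j = y j * a i := fun i j h =>
      mul_inv_eq_iff_eq_mul.mp (hcom i j h)
    have hyy : ∀ i j, y i * y j = y j * y i := fun i j => hYc _ (hyE i).1 _ (hyE j).1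
    have h1 : zpowers (a i) ⊔ zpowers (y i) ≤ centralizer ((zpowers (a j) ⊔ zpowers (y j) : Subgroup G) : Set G) := by
      apply sup_le
      · rw [zpowers_le, ← zpowers_le, le_centralizer_iff]
        apply sup_le
        · rw [zpowers_le]
          refine mem_centralizer_iff.mpr ?_
          rintro _ ⟨k, rfl⟩
          exact ((show Commute (a j) (a i) from hAc _ (haA j) _ (haA i)).zpow_right k).eq.symm
        · rw [zpowers_le]
          refine mem_centralizer_iff.mpr ?_
          rintro _ ⟨k, rfl⟩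
          exact ((show Commute (a i) (y j) from hcomm' i j hij).zpow_left k).eq
      · rw [zpowers_le, ← zpowers_le, le_centralizer_iff]
        apply sup_le
        · rw [zpowers_le]
          refine mem_centralizer_iff.mpr ?_
          rintro _ ⟨k, rfl⟩
          exact ((show Commute (a j) (y i) from hcomm' j i (fun h => hij h.symm)).zpow_right k).eq.symm
        · rw [zpowers_le]
          refine mem_centralizer_iff.mpr ?_
          rintro _ ⟨k, rfl⟩
          exact ((show Commute (y i) (y j) from hyy i j).zpow_left k).eq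
    exact (mem_centralizer_iff.mp (h1 hx) w hw).symm

/-- Let G be finite, L ≤ G solvable of odd order, and A an elementary abelian 2-subgroup of order 2^d (d ≥ 1) normalizing L with C_A(L) = 1. Then there are subgroups A_1, …, A_d of A of order 2 generating A and subgroups L_1, …, L_d of L such that each A_i ⊔ L_i is dihedral of order 2 n_i with n_i odd and at least 3, and A_i ⊔ L_i commutes elementwise with A_j ⊔ L_j for i ≠ j. -/
theorem result {G : Type*} [Group G] [Finite G] (L A : Subgroup G) (hLs : Group.IsSolvable ↥L) (hLodd : Odd (Nat.card ↥L)) (hA : Cfsg.IsElementaryAbelian 2 A) (d : ℕ) (hd : 1 ≤ d) (hAd : Nat.card ↥A = 2 ^ d) (hAL : A ≤ Subgroup.normalizer (L : Set G)) (hfaith : A ⊓ Subgroup.centralizer (L : Set G) = ⊥) : ∃ (Ai : Fin d → Subgroup G) (Li : Fin d → Subgroup G) (n : Fin d → ℕ), (∀ i, Ai i ≤ A ∧ Nat.card ↥(Ai i) = 2 ∧ Li i ≤ L ∧ Odd (n i) ∧ 3 ≤ n i ∧ Nonempty (↥(Ai i ⊔ Li i) ≃* DihedralGroup (n i))) ∧ (⨆ i, Ai i) = A ∧ ∀ i j,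 i ≠ j → ∀ x ∈ Ai i ⊔ Li i, ∀ y ∈ Ai j ⊔ Li j, x * y = y * x := by
  exact main L A hLs hLodd hA d hAd hAL hfaith

end Cfsg.Agent.S1349
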