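import Cfsg.Statements.S1850
import Cfsg.Agent.S2922
import Cfsg.Agent.H18_CharP
import Cfsg.Agent.H22_Basic

set_option autoImplicit false
open Cfsg

namespace Cfsg.Agent.S1850

/-- Let G be a non-abelian finite simple QTKE-group and T a Sylow 2-subgroup of G. If U is a nontrivial 2-subgroup of G with U ∩ Z(T) ≠ 1, then F*(N_G(U)) = O₂(N_G(U)). -/
theorem result {G : Type*} [Group G] [Finite G] [IsSimpleGroup G]
    (hG : ¬ IsMulCommutative G) (hQ : Cfsg.IsQTKE G) (T : Sylow 2 G) (U : Subgroup G)
    (hU : IsPGroup 2 ↥U) (hZ : U ⊓ ((T : Subgroup G) ⊓ Subgroup.centralizer ((T : Subgroup G) : Set G)) ≠ ⊥) :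
    Subgroup.normalizer (U : Set G) ∈ Cfsg.calHe G := by
  classical
  haveI : Fact (Nat.Prime 2) := ⟨Nat.prime_two⟩
  obtain ⟨z, hz, hz1⟩ := (Subgroup.bot_or_exists_ne_one _).resolve_left hZ
  obtain ⟨hzU, hzT, hzC⟩ := hz
  -- the chain argument
  have chain : ∀ (n : ℕ) (C : Subgroup G), C ≤ U → Nat.card U - Nat.card C = n →
      Cfsg.generalizedFittingSubgroup ↥(Subgroup.normalizer (C : Set G)) = Cfsg.pCore 2 ↥(Subgroup.normalizer (C : Set G)) →
      Cfsg.generalizedFittingSubgroup ↥(Subgroup.normalizer (U : Set G)) = Cfsg.pCore 2 ↥(Subgroup.normalizer (U : Set G)) := by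
    intro n
    induction n using Nat.strong_induction_on with
    | _ n ih =>
      intro C hC hn h
      by_cases hCU : C = U
      · rw [← hCU]; exact h
      have hlt : C < U := lt_of_le_of_ne hC hCU
      haveI hnil : Group.IsNilpotent U := hU.isNilpotent
      have hnc : C.subgroupOf U < Subgroup.normalizer ((C.subgroupOf U : Subgroup U) : Set U) := by
        apply Group.normalizerCondition_of_isNilpotent (G := U)
        rw [lt_top_iff_ne_top, Ne, Subgroup.subgroupOf_eq_top]
        exact not_le_of_gt hlt
      set B : Subgroup G := (Subgroup.normalizer ((C.subgroupOf U : Subgroup U) : Set U)).map U.subtype with hB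
      have hBU : B ≤ U := Subgroup.map_subtype_le _
      have hCB : C ≤ B := by
        have h1 := Subgroup.map_mono (f := U.subtype) hnc.le
        rwa [Subgroup.subgroupOf_map_subtype, inf_eq_left.mpr hC] at h1
      have hCBne : C < B := by
        refine lt_of_le_of_ne hCB ?_
        intro h0
        have h1 : (C.subgroupOf U).map U.subtype = B := by
          rw [Subgroup.subgroupOf_map_subtype, inf_eq_left.mpr hC]; exact h0
        have h2 := Subgroup.map_injective U.subtype_injective h1
        exact hnc.ne h2
      have hnorm : (C.subgroupOf B).Normal := by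
        rw [Subgroup.normal_subgroupOf_iff_le_normalizer hCB]
        rintro _ ⟨b, hb, rfl⟩
        rw [Subgroup.mem_normalizer_iff]
        intro x
        constructor
        · intro hx
          have h1 := (Subgroup.mem_normalizer_iff.1 hb ⟨x, hC hx⟩).1 hx
          exact h1
        · intro hx
          have hxU : x ∈ U := by
            have h1 := U.mul_mem (U.mul_mem (U.inv_mem b.2) (hC hx)) b.2
            have e : (b : G)⁻¹ * (U.subtype b * x * (U.subtype b)⁻¹) * b = x := by
              show (b : G)⁻¹ * ((b : G) * x * (b : G)⁻¹) * b = x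
              group
            rwa [e] at h1
          exact (Subgroup.mem_normalizer_iff.1 hb ⟨x, hxU⟩).2 hx
      have h1 := (Cfsg.Agent.S2922.result (p := 2) B C (hU.to_le hBU) hCB hnorm h).1
      refine ih (Nat.card U - Nat.card B) ?_ B hBU rfl h1
      have h2 := Cfsg.Agent.H22.Basic.card_lt_of_lt hCBne
      have h3 := Cfsg.Agent.H22.Basic.card_le_of_le hBU
      omega
  have hzU' : Subgroup.zpowers z ≤ U := by rwa [Subgroup.zpowers_le]
  refine chain _ (Subgroup.zpowers z) hzU' rfl ?_
  have h1 : Cfsg.IsOfCharacteristicTwo ↥(Subgroup.normalizer ((Subgroup.zpowers z : Subgroup G) : Set G)) := by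
    refine hQ.2.2 _ ⟨Subgroup.zpowers z, hU.to_le hzU', ?_, rfl⟩ ⟨T, ?_⟩
    · rwa [Ne, Subgroup.zpowers_eq_bot]
    · intro t ht
      have hc : t * z = z * t := Subgroup.mem_centralizer_iff.1 hzC t ht
      rw [Subgroup.mem_normalizer_iff]
      have key : ∀ x ∈ Subgroup.zpowers z, t * x * t⁻¹ = x := by
        intro x hx
        obtain ⟨k, rfl⟩ := Subgroup.mem_zpowers_iff.1 hx
        rw [((show Commute t z from hc).zpow_right k).eq, mul_inv_cancel_right]
      intro x
      constructor
      · intro hx
        rw [key x hx]; exact hx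
      · intro hx
        have h2 := key _ hx
        have h3 : x = t * x * t⁻¹ := by
          have h4 : t * (t * x * t⁻¹) * t⁻¹ = t * x * t⁻¹ := h2
          have h5 : t * x * t⁻¹ = x := by
            have := mul_left_cancel (mul_right_cancel h4)
            exact this
          exact h5.symm
        rw [h3]; exact hx
  exact Cfsg.Agent.H18.CharP.hasCharP_iff.1 h1

end Cfsg.Agent.S1850
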