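import Cfsg.Statements.S1892
import Cfsg.Agent.H13_Sec3
import Cfsg.Agent.H22_PSolv
import Cfsg.Agent.H1_Nilp

set_option autoImplicit false
open Cfsg

namespace Cfsg.Agent.S1892

open scoped commutatorElement

/-- Let S be a finite p-solvable group with no nontrivial normal subgroup of order prime to p, A a p-subgroup of S, and Q a nontrivial A-invariant subgroup of order prime to p with [A, Q] = Q. Then the commutator [O_p(S), A, Q] is nontrivial. -/
theorem result {S : Type*} [Group S] [Finite S] {p : ℕ} [Fact p.Prime]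
    (hS : Cfsg.IsPSolvable p S) (hred : Cfsg.pPrimeCore p S = ⊥)
    (A Q : Subgroup S) (hA : IsPGroup p A) (hQ : ¬ p ∣ Nat.card Q) (hQ1 : Q ≠ ⊥)
    (hinv : ∀ a ∈ A, ∀ x ∈ Q, a * x * a⁻¹ ∈ Q) (hAQ : ⁅A, Q⁆ = Q) :
    ⁅⁅Cfsg.pCore p S, A⁆, Q⁆ ≠ ⊥ := by
  intro hbot
  set P := Cfsg.pCore p S with hP
  have hPn : P.Normal := H1.Nilp.pCore_normal p
  have hPp : IsPGroup p P := H1.Nilp.pCore_isPGroup p
  have hAN : A ≤ Subgroup.normalizer (Q : Set S) := by
    intro a ha
    rw [H13.Syl.mem_normalizer_iff_cj]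
    apply Subgroup.eq_of_le_of_card_ge _ (by rw [H13.Syl.card_cj])
    rw [H13.Syl.cj_le_iff_forall]
    exact hinv a ha
  set C := P ⊓ Subgroup.centralizer (Q : Set S) with hC
  have hNC : Subgroup.normalizer (Q : Set S) ≤ Subgroup.normalizer (C : Set S) := by
    refine le_trans (le_inf ?_ (H13.Sec.normalizer_le_normalizer_centralizer Q)) Subgroup.inf_normalizer_le_normalizer_inf
    rw [Subgroup.normalizer_eq_top P]; exact le_top
  have hCconj : ∀ g ∈ Subgroup.normalizer (Q : Set S), ∀ c ∈ C, g * c * g⁻¹ ∈ C := fun g hg c hc =>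
    (Subgroup.mem_normalizer_iff.1 (hNC hg) c).1 hc
  -- elements acting trivially on P/C
  let T : Subgroup S :=
    { carrier := {g | g ∈ Subgroup.normalizer (Q : Set S) ∧ ∀ r ∈ P, r⁻¹ * (g * r * g⁻¹) ∈ C}
      one_mem' := by
        refine ⟨one_mem _, fun r hr => ?_⟩
        have : r⁻¹ * (1 * r * 1⁻¹) = 1 := by group
        rw [this]; exact C.one_mem
      mul_mem' := by
        rintro g h ⟨hg, hg'⟩ ⟨hh, hh'⟩
        refine ⟨mul_mem hg hh, fun r hr => ?_⟩
        have e : r⁻¹ * (g * h * r * (g * h)⁻¹) = (r⁻¹ * (g * r * g⁻¹)) * (g * (r⁻¹ * (h * r * h⁻¹)) * g⁻¹) := by group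
        rw [e]
        exact mul_mem (hg' r hr) (hCconj g hg _ (hh' r hr))
      inv_mem' := by
        rintro g ⟨hg, hg'⟩
        refine ⟨inv_mem hg, fun r hr => ?_⟩
        have h1 := hg' (g⁻¹ * r * g) (by
          have := hPn.conj_mem r hr g⁻¹
          rwa [inv_inv] at this)
        have h2 := inv_mem h1
        have e : ((g⁻¹ * r * g)⁻¹ * (g * (g⁻¹ * r * g) * g⁻¹))⁻¹ = r⁻¹ * (g⁻¹ * r * g⁻¹⁻¹) := by group
        rwa [e] at h2 }
  have hAT : A ≤ T := by
    intro a ha
    refine ⟨hAN ha, fun r hr => ?_⟩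
    refine Subgroup.mem_inf.2 ⟨mul_mem (inv_mem hr) (hPn.conj_mem r hr a), ?_⟩
    have h1 : r⁻¹ * (a * r * a⁻¹) ∈ ⁅P, A⁆ := by
      have h2 : ⁅r⁻¹, a⁆ ∈ ⁅P, A⁆ := Subgroup.commutator_mem_commutator (inv_mem hr) ha
      have e : ⁅r⁻¹, a⁆ = r⁻¹ * (a * r * a⁻¹) := by rw [commutatorElement_def]; group
      rwa [e] at h2
    exact (Subgroup.commutator_eq_bot_iff_le_centralizer.1 hbot) h1
  have hQT : Q ≤ T := by
    rw [← hAQ, Subgroup.commutator_le]
    intro a ha x hx
    have hxN : x ∈ Subgroup.normalizer (Q : Set S) := Subgroup.le_normalizer hx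
    have h1 : x * a * x⁻¹ ∈ T := by
      refine ⟨mul_mem (mul_mem hxN (hAN ha)) (inv_mem hxN), fun r hr => ?_⟩
      have h2 := (hAT ha).2 (x⁻¹ * r * x) (by
          have := hPn.conj_mem r hr x⁻¹
          rwa [inv_inv] at this)
      have h3 := hCconj x hxN _ h2
      have e : x * ((x⁻¹ * r * x)⁻¹ * (a * (x⁻¹ * r * x) * a⁻¹)) * x⁻¹ = r⁻¹ * (x * a * x⁻¹ * r * (x * a * x⁻¹)⁻¹) := by group
      rwa [e] at h3
    have e : ⁅a, x⁆ = a * (x * a * x⁻¹)⁻¹ := by rw [commutatorElement_def]; group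
    rw [e]
    exact mul_mem (hAT ha) (inv_mem h1)
  have hQcop : (Nat.card Q).Coprime p := ((Nat.Prime.coprime_iff_not_dvd Fact.out).2 hQ).symm
  have hQC : Q ≤ Subgroup.centralizer (P : Set S) := by
    intro x hx
    rw [Subgroup.mem_centralizer_iff]
    intro r hr
    set c := r⁻¹ * (x * r * x⁻¹) with hc
    have hcC : c ∈ C := (hQT hx).2 r hr
    have h1 : x * r = r * c * x := by rw [hc]; group
    have h2 : c * x = x * c := (Subgroup.mem_centralizer_iff.1 (Subgroup.mem_inf.1 hcC).2 x hx).symm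
    have h3 : ∀ k : ℕ, x ^ k * r = r * c ^ k * x ^ k := by
      intro k
      induction k with
      | zero => simp
      | succ k ih =>
        have h4 : x * c ^ k = c ^ k * x := ((show Commute c x from h2).pow_left k).symm.eq
        calc x ^ (k + 1) * r = x * (x ^ k * r) := by rw [pow_succ']; group
          _ = x * (r * c ^ k * x ^ k) := by rw [ih]
          _ = (x * r) * c ^ k * x ^ k := by group
          _ = (r * c * x) * c ^ k * x ^ k := by rw [h1]
          _ = r * c * (x * c ^ k) * x ^ k := by group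
          _ = r * c * (c ^ k * x) * x ^ k := by rw [h4]
          _ = r * c ^ (k + 1) * x ^ (k + 1) := by rw [pow_succ' c k, pow_succ' x k]; group
    have h5 := h3 (Nat.card Q)
    have h6 : x ^ Nat.card Q = 1 := by
      have := orderOf_dvd_iff_pow_eq_one.1 (Subgroup.orderOf_dvd_natCard Q hx)
      exact this
    rw [h6, one_mul, mul_one] at h5
    have h7 : c ^ Nat.card Q = 1 := (mul_eq_left.1 h5.symm)
    have h8 : c = 1 := by
      rw [← orderOf_eq_one_iff]
      obtain ⟨m, hm⟩ := IsPGroup.iff_card.1 hPp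
      have h9 : orderOf c ∣ p ^ m := by rw [← hm]; exact Subgroup.orderOf_dvd_natCard P (Subgroup.mem_inf.1 hcC).1
      exact Nat.eq_one_of_dvd_coprimes (Nat.Coprime.pow_right m hQcop) (orderOf_dvd_of_pow_eq_one h7) h9
    rw [h8, mul_one] at h1
    exact h1.symm
  have hfin := hQC.trans (H22.PSolv.centralizer_pCore_le hS hred)
  apply hQ1
  rw [eq_bot_iff]
  intro x hx
  exact Subgroup.mem_bot.2 (H13.Sec.inf_eq_bot_of_coprime hQcop hPp hx (hfin hx))

end Cfsg.Agent.S1892
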