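import Cfsg.Statements.S1894
import Cfsg.Agent.H2_PGroup

set_option autoImplicit false
open Cfsg

namespace Cfsg.Agent.S1894

/-- Let P be a finite p-group, A a normal subgroup of P and B an abelian subgroup of A that is normal in P. Then some subgroup C of A containing B is normal in P and is self-centralizing and normal in A (C ∈ SCN(A)). -/
theorem result {P : Type*} [Group P] [Finite P] {p : ℕ} [Fact p.Prime] (hP : IsPGroup p P)
    (A : Subgroup P) [A.Normal] (B : Subgroup P) [B.Normal] (hBA : B ≤ A) (hB : IsMulCommutative B) :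
    ∃ C : Subgroup P, C.Normal ∧ B ≤ C ∧ Cfsg.IsSCN A C := by
  classical
  -- maximal normal abelian subgroup of P between B and A
  have hfin : Set.Finite {C : Subgroup P | C.Normal ∧ IsMulCommutative C ∧ B ≤ C ∧ C ≤ A} := Set.toFinite _
  obtain ⟨C, hC⟩ := hfin.exists_maximal ⟨B, inferInstance, hB, le_rfl, hBA⟩
  obtain ⟨⟨hCn, hCc, hBC, hCA⟩, hmax⟩ := hC
  refine ⟨C, hCn, hBC, hCA, by rw [Subgroup.normalizer_eq_top]; exact le_top, ?_⟩
  have hle : C ≤ A ⊓ Subgroup.centralizer (C : Set P) := by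
    refine le_inf hCA ?_
    intro x hx
    rw [Subgroup.mem_centralizer_iff]
    intro y hy
    exact congrArg Subtype.val (hCc.is_comm.comm (⟨y, hy⟩ : C) ⟨x, hx⟩)
  refine le_antisymm ?_ hle
  by_contra hne
  set D := A ⊓ Subgroup.centralizer (C : Set P) with hD
  have hDn : D.Normal := inferInstance
  -- D/C is a nontrivial normal subgroup of P/C
  have h1 : IsPGroup p (P ⧸ C) := hP.to_quotient C
  have h2 : (D.map (QuotientGroup.mk' C)).Normal := hDn.map _ (QuotientGroup.mk'_surjective C)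
  have h3 : D.map (QuotientGroup.mk' C) ≠ ⊥ := by
    intro h
    rw [Subgroup.map_eq_bot_iff, QuotientGroup.ker_mk'] at h
    exact hne h
  have hnil : Group.IsNilpotent (P ⧸ C) := h1.isNilpotent
  have h4 : D.map (QuotientGroup.mk' C) ⊓ Subgroup.center (P ⧸ C) ≠ ⊥ := by
    exact H2.PGroup.inf_center_ne_bot h1 h3
  obtain ⟨⟨y', hy'⟩, hy1⟩ := (Subgroup.ne_bot_iff_exists_ne_one).1 h4
  obtain ⟨⟨x, hx, rfl⟩, hyc⟩ := hy'
  have hxC : x ∉ C := fun h => hy1 (Subtype.ext ((QuotientGroup.eq_one_iff x).2 h))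
  have hcen : ∀ g : P ⧸ C, g * (QuotientGroup.mk' C x) = (QuotientGroup.mk' C x) * g := Subgroup.mem_center_iff.1 hyc
  have hZn : (Subgroup.zpowers (QuotientGroup.mk' C x)).Normal := by
    constructor
    rintro _ ⟨k, rfl⟩ g
    refine ⟨k, ?_⟩
    have h5 : Commute g (QuotientGroup.mk' C x) := hcen g
    have h6 := (h5.zpow_right k).eq
    show (QuotientGroup.mk' C x) ^ k = g * (QuotientGroup.mk' C x) ^ k * g⁻¹
    rw [h6, mul_inv_cancel_right]
  set E := (Subgroup.zpowers (QuotientGroup.mk' C x)).comap (QuotientGroup.mk' C) with hE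
  have hEn : E.Normal := hZn.comap _
  have hCE : C ≤ E := by
    intro c hc
    have h5 : QuotientGroup.mk' C c = 1 := (QuotientGroup.eq_one_iff c).2 hc
    rw [hE, Subgroup.mem_comap, h5]
    exact Subgroup.one_mem _
  have hxE : x ∈ E := by rw [hE, Subgroup.mem_comap]; exact Subgroup.mem_zpowers _
  have hform : ∀ e ∈ E, ∃ k : ℤ, ∃ c ∈ C, e = x ^ k * c := by
    rintro e ⟨k, hk⟩
    refine ⟨k, x⁻¹ ^ k * e, ?_, by simp⟩
    rw [← QuotientGroup.eq_one_iff]
    have hk' : (QuotientGroup.mk' C x) ^ k = QuotientGroup.mk' C e := hk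
    show QuotientGroup.mk' C (x⁻¹ ^ k * e) = 1
    rw [map_mul, map_zpow, map_inv, ← hk']; simp
  have hcc : ∀ c ∈ C, x * c = c * x := fun c hc => by
    have h5 := Subgroup.mem_centralizer_iff.1 hx.2 c hc
    exact h5.symm
  have hCcm : ∀ c ∈ C, ∀ d ∈ C, c * d = d * c := fun c hc d hd =>
    congrArg Subtype.val (hCc.is_comm.comm (⟨c, hc⟩ : C) ⟨d, hd⟩)
  have hEc : IsMulCommutative E := by
    refine ⟨⟨fun e f => Subtype.ext ?_⟩⟩
    obtain ⟨k, c, hc, he⟩ := hform e e.2
    obtain ⟨l, d, hd, hf⟩ := hform f f.2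
    show (e : P) * f = f * e
    rw [he, hf]
    have c1 : Commute x c := hcc c hc
    have c2 : Commute x d := hcc d hd
    have c3 : Commute c d := hCcm c hc d hd
    have c4 : Commute (x ^ k * c) (x ^ l * d) := by
      apply Commute.mul_left
      · exact Commute.mul_right ((Commute.refl x).zpow_zpow k l) (c2.zpow_left k)
      · exact Commute.mul_right (c1.zpow_left l).symm c3
    exact c4.eq
  have hEA : E ≤ A := by
    intro e he
    obtain ⟨k, c, hc, rfl⟩ := hform e he
    exact A.mul_mem (A.zpow_mem hx.1 k) (hCA hc)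
  exact hxC (hmax ⟨hEn, hEc, hBC.trans hCE, hEA⟩ hCE hxE)

end Cfsg.Agent.S1894
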