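import Cfsg.Statements.S1897
import Cfsg.Agent.H7_U33
import Cfsg.Agent.S0255

set_option autoImplicit false
open Cfsg

namespace Cfsg.Agent.S1897


open H7

/-- change of field -/
theorem exists_hom {F F' : Type*} [Field F] [Field F'] (σ : F ≃+* F') (n q : ℕ) :
    ∃ f : Cfsg.SU n F q →* Cfsg.SU n F' q, Function.Injective f := by
  let f : Cfsg.SU n F q →* Cfsg.SU n F' q :=
    ((Matrix.SpecialLinearGroup.map (σ : F →+* F')).comp (Cfsg.SU n F q).subtype).codRestrict _ (by
    intro g u v
    obtain ⟨u', rfl⟩ : ∃ u' : Fin n → F, u = fun i => σ (u' i) := ⟨fun i => σ.symm (u i), by ext i; simp⟩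
    obtain ⟨v', rfl⟩ : ∃ v' : Fin n → F, v = fun i => σ (v' i) := ⟨fun i => σ.symm (v i), by ext i; simp⟩
    have h1 : ∀ x y : Fin n → F, Cfsg.hermForm n F' q (fun i => σ (x i)) (fun i => σ (y i)) =
        σ (Cfsg.hermForm n F q x y) := by
      intro x y
      unfold Cfsg.hermForm
      rw [map_sum]
      exact Finset.sum_congr rfl fun i _ => by rw [map_mul, map_pow]
    have h2 : ∀ x : Fin n → F, (((H5.Unit.mat g).map σ).mulVec (fun i => σ (x i))) =
        fun i => σ (((H5.Unit.mat g).mulVec x) i) := by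
      intro x
      ext i
      simp only [Matrix.mulVec, dotProduct, Matrix.map_apply, map_sum, map_mul]
    have h3 : Cfsg.hermForm n F q ((H5.Unit.mat g).mulVec u') ((H5.Unit.mat g).mulVec v') =
      Cfsg.hermForm n F q u' v' := g.2 u' v'
    change Cfsg.hermForm n F' q (((H5.Unit.mat g).map σ).mulVec (fun i => σ (u' i)))
      (((H5.Unit.mat g).map σ).mulVec (fun i => σ (v' i))) = _
    rw [h2, h2, h1, h1, h3])
  refine ⟨f, ?_⟩
  intro a b h
  have h1 := congrArg H5.Unit.mat h
  apply Subtype.ext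
  apply Subtype.ext
  refine Matrix.ext fun i j => ?_
  have := congrFun (congrFun h1 i) j
  exact σ.injective this


/-- The projective special unitary group PSU₃(3) (realised over the field with 9 elements) has a subgroup isomorphic to PSL₂(7). -/
theorem result {F : Type*} [Field F] [Fintype F] (hF : Fintype.card F = 9)
    {K : Type*} [Field K] [Fintype K] (hK : Fintype.card K = 7) :
    ∃ H : Subgroup (Cfsg.PSU 3 F 3), Nonempty (H ≃* Matrix.ProjectiveSpecialLinearGroup (Fin 2) K) := by
  have hF' : Fintype.card F = 3 ^ 2 := by rw [hF]; norm_num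
  let σ : H7.GF9 ≃+* F := FiniteField.ringEquivOfCardEq (by rw [hF]; rfl)
  obtain ⟨f, hf⟩ := exists_hom σ 3 3
  obtain ⟨e⟩ := H7.U33.exists_sub
  have hc : Subgroup.center (Cfsg.SU 3 F 3) = ⊥ := by
    have h1 := H5.Unit.card_center_SU hF' (n := 3) (by norm_num)
    exact Subgroup.card_eq_one.1 (h1.trans (by decide))
  let e1 : Cfsg.SU 3 F 3 ≃* Cfsg.PSU 3 F 3 :=
    ((QuotientGroup.quotientMulEquivOfEq hc).trans QuotientGroup.quotientBot).symm
  have hz : Subgroup.center (Matrix.SpecialLinearGroup (Fin 3) (ZMod 2)) = ⊥ := by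
    rw [eq_bot_iff]
    intro A hA
    rw [Matrix.SpecialLinearGroup.mem_center_iff] at hA
    obtain ⟨c, hc, hA⟩ := hA
    have hc0 : c = 1 := by
      clear hA
      revert hc; revert c; decide
    rw [Subgroup.mem_bot]
    apply Subtype.ext
    rw [← hA, hc0]
    simp
  let e2 : Matrix.ProjectiveSpecialLinearGroup (Fin 3) (ZMod 2) ≃* Matrix.SpecialLinearGroup (Fin 3) (ZMod 2) :=
    (QuotientGroup.quotientMulEquivOfEq hz).trans QuotientGroup.quotientBot
  obtain ⟨e3⟩ := Cfsg.Agent.S0255.result (F := K) (K := ZMod 2) hK (by decide)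
  let g : Matrix.SpecialLinearGroup (Fin 3) (ZMod 2) →* Cfsg.PSU 3 F 3 :=
    (e1.toMonoidHom.comp f).comp ((Subgroup.subtype _).comp e.symm.toMonoidHom)
  have hg : Function.Injective g := by
    intro a b h
    have h1 := e1.injective h
    have h2 := hf h1
    exact e.symm.injective (Subtype.ext h2)
  exact ⟨g.range, ⟨((MonoidHom.ofInjective hg).symm.trans e2.symm).trans e3.symm⟩⟩

end Cfsg.Agent.S1897
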