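import Cfsg.Statements.S1898
import Cfsg.Agent.H23_Omega

set_option autoImplicit false
open Cfsg

namespace Cfsg.Agent.S1898

open scoped commutatorElement

/-- Let X be a finite 2-group whose derived subgroup is elementary abelian and central. Then the subgroup generated by the elements of order dividing 4 has exponent dividing 4, and every automorphism of X fixing each element of order dividing 4 has 2-power order. -/
theorem result {X : Type*} [Group X] [Finite X] (hX : IsPGroup 2 X)
    (hel : Cfsg.IsElementaryAbelian 2 (commutator X)) (hcen : commutator X ≤ Subgroup.center X) :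
    (∀ x ∈ Subgroup.closure {g : X | g ^ 4 = 1}, x ^ 4 = 1) ∧
      ∀ φ : MulAut X, (∀ g : X, g ^ 4 = 1 → φ g = g) → ∃ k : ℕ, φ ^ (2 ^ k) = 1 := by
  classical
  have h2f := Fact.mk Nat.prime_two
  have hcomm2 : ∀ g h : X, ⁅g, h⁆ ^ 2 = 1 := fun g h =>
    hel.2 _ (Subgroup.commutator_mem_commutator (Subgroup.mem_top g) (Subgroup.mem_top h))
  have hcen' : ∀ g h k : X, k * ⁅g, h⁆ = ⁅g, h⁆ * k := fun g h k =>
    Subgroup.mem_center_iff.1 (hcen (Subgroup.commutator_mem_commutator (Subgroup.mem_top g) (Subgroup.mem_top h))) k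
  have hsq : ∀ g h : X, (g * h) ^ 2 = ⁅h, g⁆ * (g ^ 2 * h ^ 2) := by
    intro g h
    have e1 : (g * h) ^ 2 = g * (h * g) * h := by rw [pow_two]; group
    have e2 : h * g = ⁅h, g⁆ * (g * h) := by rw [commutatorElement_def]; group
    rw [e1, e2, ← mul_assoc, hcen' h g g]
    simp only [pow_two]; group
  have hfour : ∀ g h : X, (g * h) ^ 4 = g ^ 4 * h ^ 4 := by
    intro g h
    have e1 : (g * h) ^ 4 = ((g * h) ^ 2) ^ 2 := by rw [← pow_mul]
    have hc : Commute ⁅h, g⁆ (g ^ 2 * h ^ 2) := (hcen' h g _).symm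
    have h3 : ⁅h ^ 2, g ^ 2⁆ = 1 := by
      -- [h^2, y] = 1 for all y
      have h4 : ∀ y : X, ⁅h ^ 2, y⁆ = 1 := by
        intro y
        have e3 : ⁅h ^ 2, y⁆ = h * ⁅h, y⁆ * h⁻¹ * ⁅h, y⁆ := by
          simp only [commutatorElement_def, pow_two]; group
        rw [e3, hcen' h y h, mul_inv_cancel_right, ← pow_two, hcomm2]
      exact h4 _
    rw [e1, hsq, hc.mul_pow, hcomm2, one_mul, hsq, h3, one_mul, ← pow_mul, ← pow_mul]
  have hclosed : ∀ x ∈ Subgroup.closure {g : X | g ^ 4 = 1}, x ^ 4 = 1 := by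
    intro x hx
    induction hx using Subgroup.closure_induction with
    | mem x hx => exact hx
    | one => exact one_pow 4
    | mul x y _ _ hx hy => rw [hfour, hx, hy, one_mul]
    | inv x _ hx => rw [inv_pow, hx, inv_one]
  refine ⟨hclosed, ?_⟩
  intro φ hφ
  have hfin : Finite (MulAut X) := inferInstance
  obtain ⟨a, m, hm, hord⟩ := Nat.exists_eq_pow_mul_and_not_dvd (orderOf_pos φ).ne' 2 (by norm_num)
  refine ⟨a, ?_⟩
  set ψ := φ ^ (2 ^ a) with hψ
  have hψo : orderOf ψ = m := by
    rw [hψ, orderOf_pow_of_dvd (by positivity) ⟨m, hord⟩, hord]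
    exact Nat.mul_div_cancel_left _ (by positivity)
  have hψfix : ∀ g : X, g ^ 4 = 1 → ψ g = g := by
    intro g hg
    have : ∀ n : ℕ, (φ ^ n) g = g := by
      intro n
      induction n with
      | zero => rfl
      | succ n ih => rw [pow_succ', MulAut.mul_apply, ih, hφ g hg]
    exact this _
  let Γ := X ⋊[MonoidHom.id (MulAut X)] MulAut X
  have hΓ : Finite Γ := Finite.of_equiv (X × MulAut X) SemidirectProduct.equivProd.symm
  let inl : X →* Γ := SemidirectProduct.inl
  let inr : MulAut X →* Γ := SemidirectProduct.inr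
  have hK : inl.range.Normal := by
    have : inl.range = (SemidirectProduct.rightHom : Γ →* MulAut X).ker := SemidirectProduct.range_inl_eq_ker_rightHom
    rw [this]; infer_instance
  have hA := H23.Omega.omega (G := Γ) (p := 2) (A := Subgroup.zpowers (inr ψ)) (K := inl.range)
    (by rw [Subgroup.normalizer_eq_top]; exact le_top)
    (by
      have := (hX.to_subgroup (⊤ : Subgroup X)).map inl
      rwa [← MonoidHom.range_eq_map] at this)
    (by
      rw [Nat.card_zpowers, orderOf_injective inr SemidirectProduct.inr_injective, hψo]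
      exact ((Nat.Prime.coprime_iff_not_dvd Nat.prime_two).2 hm).symm)
    (by
      rintro _ ⟨g, rfl⟩ hg _ ⟨k, rfl⟩
      have hg4 : g ^ 4 = 1 := by
        apply SemidirectProduct.inl_injective (φ := MonoidHom.id (MulAut X))
        rcases hg with hg | ⟨_, hg⟩
        · have h5 : (inl g) ^ 4 = 1 := by
            have : (inl g) ^ 4 = ((inl g) ^ 2) ^ 2 := by rw [← pow_mul]
            rw [this, hg, one_pow]
          rw [map_pow, map_one]; exact h5
        · rw [map_pow, map_one]; exact hg
      have h6 : ∀ k : ℤ, (ψ ^ k) g = g := by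
        have h7 : ψ ∈ MulAction.stabilizer (MulAut X) g := hψfix g hg4
        intro k
        exact zpow_mem h7 k
      have h8 : inr (ψ ^ k) * inl g * (inr (ψ ^ k))⁻¹ = inl g := by
        have := SemidirectProduct.inl_aut (φ := MonoidHom.id (MulAut X)) (ψ ^ k) g
        have h9 : inl ((ψ ^ k) g) = inr (ψ ^ k) * inl g * inr (ψ ^ k)⁻¹ := this
        rw [h6 k, map_inv] at h9
        exact h9.symm
      show (inr ψ) ^ k * inl g = inl g * (inr ψ) ^ k
      rw [← map_zpow]
      exact mul_inv_eq_iff_eq_mul.1 h8)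
  have hψ1 : ψ = 1 := by
    ext g
    have h1 := Subgroup.mem_centralizer_iff.1 (hA (Subgroup.mem_zpowers _)) (inl g) ⟨g, rfl⟩
    have h9 : inl (ψ g) = inr ψ * inl g * inr ψ⁻¹ := SemidirectProduct.inl_aut (φ := MonoidHom.id (MulAut X)) ψ g
    rw [map_inv, ← h1, mul_inv_cancel_right] at h9
    exact SemidirectProduct.inl_injective h9
  exact hψ1

end Cfsg.Agent.S1898
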