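import Cfsg.Statements.S1899
-- import your own Cfsg.Agent.* helpers here

set_option autoImplicit false
open Cfsg

namespace Cfsg.Agent.S1899

/-- Let a dihedral group of order 2n, n odd and n > 1, act on a finite abelian 2-group A through automorphisms d and t with d^n = 1, t² = 1 and t d t⁻¹ = d⁻¹, and suppose that d fixes only the identity. Then A is the internal direct product of C_A(t) and its image under d. -/
theorem result {A : Type*} [CommGroup A] [Finite A] (hA : IsPGroup 2 A)
    {n : ℕ} (hn : Odd n) (hn1 : 1 < n) (d t : MulAut A) (hd : d ^ n = 1) (ht : t ^ 2 = 1) (hdt : t * d * t⁻¹ = d⁻¹)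
    (hfix : ∀ a : A, d a = a → a = 1) :
    (MulEquiv.toMonoidHom t).eqLocus (MonoidHom.id A) ⊓ ((MulEquiv.toMonoidHom t).eqLocus (MonoidHom.id A)).map d.toMonoidHom = ⊥ ∧
      (MulEquiv.toMonoidHom t).eqLocus (MonoidHom.id A) ⊔ ((MulEquiv.toMonoidHom t).eqLocus (MonoidHom.id A)).map d.toMonoidHom = ⊤ := by
  classical
  have htt : t * t = 1 := by rw [← sq]; exact ht
  have hti : t⁻¹ = t := inv_eq_of_mul_eq_one_left htt
  have htd : t * d * t = d⁻¹ := by rw [← hdt, hti]
  have hfix2 : ∀ a : A, d (d a) = a → a = 1 := by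
    intro a ha
    -- order of d on a is odd
    have h1 : (d ^ 2) a = a := by rw [sq, MulAut.mul_apply]; exact ha
    have h2 : ∀ k : ℕ, ((d ^ 2) ^ k) a = a := by
      intro k
      induction k with
      | zero => simp
      | succ k ih => rw [pow_succ, MulAut.mul_apply, h1, ih]
    obtain ⟨m, hm⟩ := hn
    apply hfix
    have h3 := h2 m
    rw [← pow_mul] at h3
    have h4 : d ^ (2 * m + 1) = 1 := by rw [← hm]; exact hd
    have h5 : d ^ (2 * m) = d⁻¹ := by
      rw [pow_succ] at h4
      exact eq_inv_of_mul_eq_one_left h4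
    rw [h5] at h3
    calc d a = d (d⁻¹ a) := by rw [h3]
      _ = (d * d⁻¹) a := rfl
      _ = a := by rw [mul_inv_cancel]; rfl
  have htt' : ∀ a, t (t a) = a := fun a => by
    have : (t * t) a = a := by rw [htt]; rfl
    exact this
  have htd' : ∀ a, t (d (t a)) = d⁻¹ a := fun a => by
    have : (t * d * t) a = d⁻¹ a := by rw [htd]
    exact this
  have hdi : ∀ a, d (d⁻¹ a) = a := fun a => by
    have : (d * d⁻¹) a = a := by rw [mul_inv_cancel]; rfl
    exact this
  have hdi' : ∀ a, d⁻¹ (d a) = a := fun a => by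
    have : (d⁻¹ * d) a = a := by rw [inv_mul_cancel]; rfl
    exact this
  -- membership
  have hmem : ∀ a : A, a ∈ (MulEquiv.toMonoidHom t).eqLocus (MonoidHom.id A) ↔ t a = a := fun a => Iff.rfl
  have hmem2 : ∀ a : A, a ∈ ((MulEquiv.toMonoidHom t).eqLocus (MonoidHom.id A)).map d.toMonoidHom ↔
      t (d⁻¹ a) = d⁻¹ a := by
    intro a
    constructor
    · rintro ⟨b, hb, rfl⟩
      show t (d⁻¹ (d b)) = d⁻¹ (d b)
      rw [hdi']; exact hb
    · intro h
      exact ⟨d⁻¹ a, h, hdi a⟩
  constructor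
  · rw [eq_bot_iff]
    intro a ha
    obtain ⟨h1, h2⟩ := Subgroup.mem_inf.1 ha
    rw [hmem] at h1
    rw [hmem2] at h2
    rw [Subgroup.mem_bot]
    apply hfix2
    -- t d⁻¹ a = d⁻¹ a, t a = a  =>  d a = d⁻¹ a
    have h3 : t (d a) = d⁻¹ a := by
      have := htd' a
      rwa [h1] at this
    have h4 : d a = d⁻¹ a := by
      rw [← htt' (d a), h3, h2]
    rw [h4, hdi]
  · rw [eq_top_iff]
    intro a _
    -- x ↦ x / d² x is surjective
    let f : A →* A := (MonoidHom.id A) / ((d * d : MulAut A).toMonoidHom)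
    have hf : ∀ x, f x = x / d (d x) := fun x => rfl
    have hinj : Function.Injective f := by
      rw [injective_iff_map_eq_one]
      intro x hx
      rw [hf, div_eq_one] at hx
      exact hfix2 x hx.symm
    obtain ⟨x, hx⟩ := (Finite.injective_iff_surjective.1 hinj) a
    rw [hf] at hx
    have e1 : a = (x * t x) * (t x * d (d x))⁻¹ := by
      rw [← hx, mul_inv, ← mul_assoc, mul_assoc x, mul_inv_cancel, mul_one, div_eq_mul_inv]
    rw [e1]
    refine Subgroup.mul_mem_sup ?_ (inv_mem ?_)
    · rw [hmem, map_mul, htt', mul_comm]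
    · rw [hmem2]
      have h5 : d⁻¹ (t x * d (d x)) = d⁻¹ (t x) * d x := by rw [map_mul, hdi']
      have h6 : t (d⁻¹ (t x)) = d x := by
        have h7 : t * d⁻¹ * t = d := by rw [← htd]; rw [← mul_assoc, ← mul_assoc, htt, one_mul, mul_assoc, htt, mul_one]
        have h8 : (t * d⁻¹ * t) x = d x := by rw [h7]
        exact h8
      have h7 : t (d x) = d⁻¹ (t x) := by
        have h9 := htd' (t x)
        rwa [htt'] at h9
      rw [h5, map_mul, h6, h7, mul_comm]

end Cfsg.Agent.S1899
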