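import Cfsg.Statements.S1900
import Cfsg.Agent.H13_Two
import Cfsg.Agent.H1_Partition

set_option autoImplicit false
open Cfsg

namespace Cfsg.Agent.S1900

/-- Let S = PQ be a finite group with P a normal Sylow p-subgroup and Q elementary abelian of order q², q a prime different from p. If exactly two subgroups X₁, X₂ of order q in Q have a nontrivial centralizer in P, then P is the internal direct product of C_P(X₁) and C_P(X₂): they commute elementwise, meet trivially and generate P. -/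
theorem result {S : Type*} [Group S] [Finite S] {p q : ℕ} [Fact p.Prime] [Fact q.Prime] (hpq : p ≠ q)
    (P : Sylow p S) [(P : Subgroup S).Normal] (Q : Subgroup S) (hQ : Cfsg.IsElementaryAbelian q Q) (hQc : Nat.card Q = q ^ 2)
    (hS : (P : Subgroup S) ⊔ Q = ⊤)
    (X₁ X₂ : Subgroup S) (h₁ : X₁ ≤ Q) (h₂ : X₂ ≤ Q) (h₁₂ : X₁ ≠ X₂) (hc₁ : Nat.card X₁ = q) (hc₂ : Nat.card X₂ = q)
    (hf₁ : (P : Subgroup S) ⊓ Subgroup.centralizer (X₁ : Set S) ≠ ⊥)
    (hf₂ : (P : Subgroup S) ⊓ Subgroup.centralizer (X₂ : Set S) ≠ ⊥)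
    (honly : ∀ X : Subgroup S, X ≤ Q → Nat.card X = q →
      (P : Subgroup S) ⊓ Subgroup.centralizer (X : Set S) ≠ ⊥ → X = X₁ ∨ X = X₂) :
    ⁅(P : Subgroup S) ⊓ Subgroup.centralizer (X₁ : Set S), (P : Subgroup S) ⊓ Subgroup.centralizer (X₂ : Set S)⁆ = ⊥ ∧
      ((P : Subgroup S) ⊓ Subgroup.centralizer (X₁ : Set S)) ⊓ ((P : Subgroup S) ⊓ Subgroup.centralizer (X₂ : Set S)) = ⊥ ∧
      ((P : Subgroup S) ⊓ Subgroup.centralizer (X₁ : Set S)) ⊔ ((P : Subgroup S) ⊓ Subgroup.centralizer (X₂ : Set S)) = P := by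
  have hQcard := hQc
  obtain ⟨hQc, hQe⟩ := hQ
  have hQQ : ∀ x ∈ Q, ∀ y ∈ Q, x * y = y * x := fun x hx y hy =>
    congrArg Subtype.val (hQc.is_comm.comm (⟨x, hx⟩ : Q) ⟨y, hy⟩)
  have hq : q.Prime := Fact.out
  have hp : p.Prime := Fact.out
  have hcop : (Nat.card Q).Coprime (Nat.card (P : Subgroup S)) := by
    obtain ⟨n, hn⟩ := IsPGroup.iff_card.mp P.isPGroup'
    rw [hn, hQcard]
    exact Nat.Coprime.pow _ _ ((Nat.coprime_primes hq hp).2 hpq.symm)
  have hz : ∀ a ∈ Q, a ≠ 1 → Nat.card (Subgroup.zpowers a) = q := fun a ha h1 => by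
    rw [Nat.card_zpowers]; exact orderOf_eq_prime (hQe a ha) h1
  -- generation
  have hgen : ∀ K ≤ (P : Subgroup S), Q ≤ Subgroup.normalizer (K : Set S) →
      K ≤ (K ⊓ Subgroup.centralizer (X₁ : Set S)) ⊔ (K ⊓ Subgroup.centralizer (X₂ : Set S)) := by
    intro K hK hQK
    refine (H1.Partition.generation_pgroup hq hpq.symm (P.isPGroup'.to_le hK) hQK hQcard hQe).trans ?_
    refine iSup₂_le ?_
    rintro b ⟨hb, hb1⟩
    have hcz : Subgroup.centralizer ({b} : Set S) = Subgroup.centralizer ((Subgroup.zpowers b : Subgroup S) : Set S) := by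
      rw [← Subgroup.centralizer_closure, ← Subgroup.zpowers_eq_closure]
    by_cases h : (P : Subgroup S) ⊓ Subgroup.centralizer ((Subgroup.zpowers b : Subgroup S) : Set S) = ⊥
    · have : K ⊓ Subgroup.centralizer ({b} : Set S) = ⊥ := by
        rw [eq_bot_iff, ← h, ← hcz]; exact inf_le_inf_right _ hK
      rw [this]; exact bot_le
    · rcases honly (Subgroup.zpowers b) (by rw [Subgroup.zpowers_le]; exact hb) (hz b hb hb1) h with h | h
      · rw [hcz, h]; exact le_sup_left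
      · rw [hcz, h]; exact le_sup_right
  have hprime : ∀ X : Subgroup S, Nat.card X = q → ∀ x ∈ X, x ≠ 1 → Subgroup.zpowers x = X := by
    intro X hX x hx hx1
    apply Subgroup.eq_of_le_of_card_ge
    · rw [Subgroup.zpowers_le]; exact hx
    · rw [hX, Nat.card_zpowers]
      have h1 : orderOf x ∣ q := by rw [← hX]; exact Subgroup.orderOf_dvd_natCard X hx
      rcases (Nat.dvd_prime hq).1 h1 with h | h
      · exact absurd (orderOf_eq_one_iff.1 h) hx1
      · rw [h]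
  have hne : ∀ X : Subgroup S, Nat.card X = q → ∃ x ∈ X, x ≠ 1 := by
    intro X hX
    have : X ≠ ⊥ := by
      intro h
      rw [h, Subgroup.card_bot] at hX
      exact hq.one_lt.ne hX
    obtain ⟨⟨x, hx⟩, hx1⟩ := (Subgroup.ne_bot_iff_exists_ne_one).1 this
    exact ⟨x, hx, fun h => hx1 (Subtype.ext h)⟩
  obtain ⟨x₁, hx₁, hx₁1⟩ := hne X₁ hc₁
  obtain ⟨x₂, hx₂, hx₂1⟩ := hne X₂ hc₂
  have hX₁ := hprime X₁ hc₁ x₁ hx₁ hx₁1
  have hX₂ := hprime X₂ hc₂ x₂ hx₂ hx₂1
  have hx12 : x₁ ∉ X₂ := fun h => h₁₂ (by rw [← hX₁]; exact hprime X₂ hc₂ x₁ h hx₁1)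
  have hx21 : x₂ ∉ X₁ := fun h => h₁₂ (by rw [← hX₂]; exact (hprime X₁ hc₁ x₂ h hx₂1).symm)
  have hX : X₁ ⊔ X₂ = Q := by
    apply Subgroup.eq_of_le_of_card_ge (sup_le h₁ h₂)
    rw [hQcard]
    have h1 : Nat.card (X₁ ⊔ X₂ : Subgroup S) ∣ q ^ 2 := by rw [← hQcard]; exact Subgroup.card_dvd_of_le (sup_le h₁ h₂)
    obtain ⟨k, hk, hk2⟩ := (Nat.dvd_prime_pow hq).1 h1
    have hlt : X₁ < X₁ ⊔ X₂ := by
      refine lt_of_le_of_ne le_sup_left ?_
      intro h
      apply hx21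
      rw [h]; exact Subgroup.mem_sup_right hx₂
    have h2 : q < Nat.card (X₁ ⊔ X₂ : Subgroup S) := by
      rw [← hc₁]
      apply lt_of_not_ge
      intro hge
      exact hlt.ne (Subgroup.eq_of_le_of_card_ge hlt.le hge)
    rw [hk2] at h2 ⊢
    have : k = 2 := by
      interval_cases k
      · simp at h2; exact absurd h2 (by have := hq.one_lt; omega)
      · simp at h2
      · rfl
    rw [this]
  have hCQ : (P : Subgroup S) ⊓ Subgroup.centralizer (Q : Set S) = ⊥ := by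
    have ha : x₁ * x₂ ∈ Q := mul_mem (h₁ hx₁) (h₂ hx₂)
    have ha1 : x₁ * x₂ ≠ 1 := by
      intro h
      apply hx12
      rw [eq_inv_of_mul_eq_one_left h]; exact inv_mem hx₂
    by_contra hne'
    have h3 : (P : Subgroup S) ⊓ Subgroup.centralizer ((Subgroup.zpowers (x₁ * x₂) : Subgroup S) : Set S) ≠ ⊥ := by
      intro h
      apply hne'
      rw [eq_bot_iff, ← h]
      exact inf_le_inf_left _ (Subgroup.centralizer_le (by
        have : Subgroup.zpowers (x₁ * x₂) ≤ Q := by rw [Subgroup.zpowers_le]; exact ha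
        exact this))
    rcases honly _ (by rw [Subgroup.zpowers_le]; exact ha) (hz _ ha ha1) h3 with h | h
    · apply hx21
      have h4 : x₁ * x₂ ∈ X₁ := by rw [← h]; exact Subgroup.mem_zpowers _
      have := mul_mem (inv_mem hx₁) h4
      rwa [inv_mul_cancel_left] at this
    · apply hx12
      have h4 : x₁ * x₂ ∈ X₂ := by rw [← h]; exact Subgroup.mem_zpowers _
      have := mul_mem h4 (inv_mem hx₂)
      rwa [mul_inv_cancel_right] at this
  refine ⟨H13.Two.comm_eq_bot P.isPGroup'.isNilpotent hQc hcop hS h₁ h₂ hX hCQ hgen, ?_, ?_⟩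
  · rw [eq_bot_iff, ← hCQ]
    intro v hv
    obtain ⟨hv1, hv2⟩ := Subgroup.mem_inf.1 hv
    obtain ⟨hvP, hvC1⟩ := Subgroup.mem_inf.1 hv1
    obtain ⟨_, hvC2⟩ := Subgroup.mem_inf.1 hv2
    refine Subgroup.mem_inf.2 ⟨hvP, ?_⟩
    have : Subgroup.zpowers v ≤ Subgroup.centralizer (Q : Set S) := by
      rw [Subgroup.le_centralizer_iff, ← hX, sup_le_iff]
      exact ⟨Subgroup.le_centralizer_iff.1 (by rw [Subgroup.zpowers_le]; exact hvC1),
        Subgroup.le_centralizer_iff.1 (by rw [Subgroup.zpowers_le]; exact hvC2)⟩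
    exact this (Subgroup.mem_zpowers v)
  · apply le_antisymm (sup_le inf_le_left inf_le_left)
    exact hgen _ le_rfl (by rw [Subgroup.normalizer_eq_top]; exact le_top)

end Cfsg.Agent.S1900
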