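import Cfsg.Statements.S1901
import Cfsg.Agent.H13_PSol

set_option autoImplicit false
open Cfsg

namespace Cfsg.Agent.S1901

/-- Let G be a finite p-solvable group and Q a subgroup of order prime to p such that p divides the index of C_G(Q) in N_G(Q). Then Q normalizes no Sylow p-subgroup of G. -/
theorem result {G : Type*} [Group G] [Finite G] {p : ℕ} [Fact p.Prime]
    (hG : Cfsg.IsPSolvable p G) (Q : Subgroup G) (hQ : ¬ p ∣ Nat.card Q)
    (hA : p ∣ (Subgroup.centralizer (Q : Set G)).relIndex (Subgroup.normalizer (Q : Set G)))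
    (P : Sylow p G) : ¬ Q ≤ Subgroup.normalizer ((P : Subgroup G) : Set G) := by
  intro hcon
  obtain ⟨x, hx, hxp, hxC⟩ := Cfsg.Agent.H13.PSol.exists_p_element hA
  exact hxC (Cfsg.Agent.H13.PSol.mem_centralizer_of_normalizes _ G rfl hG Q P hQ
    (Cfsg.Agent.H13.Syl.isSylIn_sylow_top P) hcon x hx hxp)

end Cfsg.Agent.S1901
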