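import Cfsg.Statements.S1902
import Cfsg.Agent.H18_PS4
import Cfsg.Agent.H1_Nilp
import Cfsg.Agent.H11_Cores

set_option autoImplicit false
open Cfsg

namespace Cfsg.Agent.S1902

open Subgroup
open Cfsg.Agent.H18.KS (le_normalizer_iff_conj)

/-- Let p be an odd prime, G a finite p-solvable group, and B an elementary abelian subgroup of order p² such that B is the subgroup generated by the elements of order p of some Sylow p-subgroup of C_G(b₀), for some nontrivial b₀ ∈ B. Then every B-invariant subgroup of G of order prime to p lies in O_{p'}(G). -/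
theorem result {G : Type*} [Group G] [Finite G] {p : ℕ} [Fact p.Prime] (hp : p ≠ 2)
    (hG : Cfsg.IsPSolvable p G) (B : Subgroup G) (hB : Cfsg.IsElementaryAbelian p B) (hBc : Nat.card B = p ^ 2)
    (b₀ : G) (hb₀ : b₀ ∈ B) (hb₁ : b₀ ≠ 1) (P : Sylow p ↥(Subgroup.centralizer ({b₀} : Set G)))
    (hBP : B = Subgroup.closure {x : G | x ∈ ((P : Subgroup ↥(Subgroup.centralizer ({b₀} : Set G))).map
      (Subgroup.centralizer ({b₀} : Set G)).subtype : Subgroup G) ∧ orderOf x = p})
    (Q : Subgroup G) (hQ : ¬ p ∣ Nat.card Q) (hinv : ∀ b ∈ B, ∀ x ∈ Q, b * x * b⁻¹ ∈ Q) :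
    Q ≤ Cfsg.pPrimeCore p G := by
  classical
  haveI hn : (Cfsg.pPrimeCore p G).Normal := Cfsg.Agent.H1.Nilp.pPrimeCore_normal p
  set K := Cfsg.pPrimeCore p G with hK
  have hKp : (Nat.card K).Coprime p := Cfsg.Agent.H1.Nilp.pPrimeCore_coprime (G := G) p
  set f := QuotientGroup.mk' K with hf
  have hfs : Function.Surjective f := QuotientGroup.mk'_surjective _
  have hker : ∀ x : G, f x = 1 ↔ x ∈ K := fun x => by
    rw [← MonoidHom.mem_ker, hf, QuotientGroup.ker_mk']
  have h1 : Cfsg.pPrimeCore p (G ⧸ K) = ⊥ := Cfsg.Agent.H11.Cores.pPrimeCore_quotient p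
  have hpp : p.Prime := Fact.out
  have pel : ∀ x : G, x ∈ K → x ^ p = 1 → x = 1 := by
    intro x hx hxp
    have h2 : orderOf x ∣ Nat.card K := Subgroup.orderOf_dvd_natCard K hx
    have h3 : orderOf x ∣ p := orderOf_dvd_of_pow_eq_one hxp
    exact orderOf_eq_one_iff.mp (Nat.eq_one_of_dvd_coprimes hKp h2 h3)
  have hBcomm : ∀ x ∈ B, ∀ y ∈ B, x * y = y * x := fun x hx y hy =>
    congrArg Subtype.val (hB.1.is_comm.comm ⟨x, hx⟩ ⟨y, hy⟩)
  have hBQ : B ≤ normalizer (Q : Set G) := by
    rw [le_normalizer_iff_conj]; exact hinv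
  have hcQ : (Nat.card Q).Coprime p := ((Nat.Prime.coprime_iff_not_dvd hpp).mpr hQ).symm
  have main : Q.map f = ⊥ := by
    refine Cfsg.Agent.H18.PS.core_case hp (Cfsg.Agent.H22.PSolv.isPSolvable_quotient K hG) h1 (B := B.map f) (b := f b₀)
      ?_ ?_ ?_ ⟨b₀, hb₀, rfl⟩ ?_ ?_ ?_ ?_
    · rintro _ ⟨x, hx, rfl⟩ _ ⟨y, hy, rfl⟩
      rw [← map_mul, hBcomm x hx y hy, map_mul]
    · rintro _ ⟨x, hx, rfl⟩
      rw [← map_pow, hB.2 x hx, map_one]
    · rw [← hBc]; exact card_map_dvd _ _
    · intro h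
      exact hb₁ (pel b₀ ((hker _).mp h) (hB.2 b₀ hb₀))
    · -- elements of order `p` of `O_p` centralizing `b₀`
      intro r hr hrb hrp
      -- lift of the centralizer
      have hlift : ∀ y : G ⧸ K, y * f b₀ = f b₀ * y → ∃ c ∈ centralizer ({b₀} : Set G), f c = y := by
        intro y hy
        obtain ⟨g, rfl⟩ := hfs y
        have hbp : IsPGroup p (zpowers b₀) := IsPGroup.of_card (n := 1) (by
          rw [Nat.card_zpowers, pow_one]; exact orderOf_eq_prime (hB.2 b₀ hb₀) hb₁)
        have hcop : (Nat.card (zpowers b₀)).Coprime (Nat.card K) := by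
          obtain ⟨n, hn⟩ := IsPGroup.iff_card.mp hbp
          rw [hn]; exact Nat.Coprime.pow_left n hKp.symm
        have hsol : Group.IsSolvable (zpowers b₀) := Group.isSolvable_of_comm mul_comm'
        obtain ⟨d, hd, hgd⟩ := Cfsg.Agent.H1.Coprime.exists_mul_mem_centralizer (A := zpowers b₀) (D := K)
          (by rw [normalizer_eq_top]; exact le_top) hcop (Or.inl hsol) g (by
            intro a ha
            obtain ⟨i, rfl⟩ := mem_zpowers_iff.mp ha
            rw [← hker]
            have hc : Commute (f b₀) (f g) := hy.symm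
            rw [map_mul, map_mul, map_mul, map_inv, map_inv, map_zpow, (hc.zpow_left i).eq]
            group)
        refine ⟨g * d, ?_, ?_⟩
        · rw [mem_centralizer_singleton_iff]
          exact (hgd b₀ (mem_zpowers b₀)).symm
        · rw [map_mul, (hker d).mpr hd, mul_one]
      let g : ↥(centralizer ({b₀} : Set G)) →* G ⧸ K := f.comp (centralizer ({b₀} : Set G)).subtype
      let Q' : Sylow p g.range := P.mapSurjective g.rangeRestrict_surjective
      haveI hRn : (Cfsg.pCore p (G ⧸ K)).Normal := Cfsg.pCore_normal p (G ⧸ K)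
      have hRp : IsPGroup p ↥((Cfsg.pCore p (G ⧸ K)).subgroupOf g.range) := by
        have h2 : IsPGroup p ↥(Cfsg.pCore p (G ⧸ K)) := Cfsg.Agent.H1.Nilp.pCore_isPGroup p
        exact h2.comap_of_injective _ (subtype_injective _)
      have hle : (Cfsg.pCore p (G ⧸ K)).subgroupOf g.range ≤ (Q' : Subgroup g.range) := hRp.le_sylow_of_normal Q'
      obtain ⟨c, hc, hcr⟩ := hlift r hrb
      have hrg : r ∈ g.range := ⟨⟨c, hc⟩, hcr⟩
      have h3 : (⟨r, hrg⟩ : g.range) ∈ (Q' : Subgroup g.range) := hle hr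
      obtain ⟨y, hy, hyr⟩ := h3
      have hyr' : f (y : G) = r := congrArg Subtype.val hyr
      refine ⟨y, ?_, hyr'⟩
      have hyp : (y : G) ^ p = 1 := by
        have h4 : (y : G) ^ p ∈ K := by rw [← hker, map_pow, hyr', hrp]
        obtain ⟨k, hk⟩ := P.2 ⟨y, hy⟩
        have hk' : (y : G) ^ (p ^ k) = 1 := by
          have := congrArg (fun z : (P : Subgroup ↥(centralizer ({b₀} : Set G))) => ((z : ↥(centralizer ({b₀} : Set G))) : G)) hk
          simpa using this
        have h5 : orderOf ((y : G) ^ p) ∣ Nat.card K := Subgroup.orderOf_dvd_natCard K h4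
        have h6 : orderOf ((y : G) ^ p) ∣ p ^ k := by
          apply orderOf_dvd_of_pow_eq_one
          rw [← pow_mul, mul_comm, pow_mul, hk', one_pow]
        exact orderOf_eq_one_iff.mp (Nat.eq_one_of_dvd_coprimes (Nat.Coprime.pow_right k hKp) h5 h6)
      by_cases hy1 : (y : G) = 1
      · rw [hy1]; exact B.one_mem
      · rw [hBP]
        apply Subgroup.subset_closure
        exact ⟨⟨y, hy, rfl⟩, orderOf_eq_prime hyp hy1⟩
    · exact Nat.Coprime.coprime_dvd_left (card_map_dvd _ _) hcQ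
    · exact (map_mono hBQ).trans (le_normalizer_map _)
  intro x hx
  rw [← hker]
  have h2 : f x ∈ Q.map f := ⟨x, hx, rfl⟩
  rwa [main, mem_bot] at h2

end Cfsg.Agent.S1902
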