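import Cfsg.Statements.S1907
import Cfsg.Agent.H13_Sec3
import Cfsg.Agent.H1_Coprime
import Cfsg.Agent.H1_Nilp

set_option autoImplicit false
open Cfsg

namespace Cfsg.Agent.S1907

/-- Let P be a Sylow p-subgroup of a finite group G, H = P ∩ O_{p',p}(G), N = N_G(H) and D = O_{p'}(G). (a) If y is an element of p-power order of N and d ∈ D with d⁻¹ y d ∈ N, then d = d₁ d₂ with d₁ ∈ C_D(y) and d₂ ∈ C_D(H). (b) Two elements of P that are conjugate in G are conjugate in N. -/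
theorem result {G : Type*} [Group G] [Finite G] {p : ℕ} [Fact p.Prime] (P : Sylow p G) :
    (∀ y ∈ Subgroup.normalizer (((P : Subgroup G) ⊓ Cfsg.pPrimePCore p G : Subgroup G) : Set G), (∃ k : ℕ, orderOf y = p ^ k) →
      ∀ d ∈ Cfsg.pPrimeCore p G, d⁻¹ * y * d ∈ Subgroup.normalizer (((P : Subgroup G) ⊓ Cfsg.pPrimePCore p G : Subgroup G) : Set G) →
        ∃ d₁ ∈ Cfsg.pPrimeCore p G ⊓ Subgroup.centralizer ({y} : Set G),
          ∃ d₂ ∈ Cfsg.pPrimeCore p G ⊓ Subgroup.centralizer (((P : Subgroup G) ⊓ Cfsg.pPrimePCore p G : Subgroup G) : Set G), d = d₁ * d₂) ∧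
    ∀ x y : G, x ∈ (P : Subgroup G) → y ∈ (P : Subgroup G) → IsConj x y →
      ∃ n ∈ Subgroup.normalizer (((P : Subgroup G) ⊓ Cfsg.pPrimePCore p G : Subgroup G) : Set G), n * x * n⁻¹ = y := by
  set O := Cfsg.pPrimeCore p G with hO
  have hOn : O.Normal := H1.Nilp.pPrimeCore_normal p
  have hOc : (Nat.card O).Coprime p := H1.Nilp.pPrimeCore_coprime p
  set L := Cfsg.pPrimePCore p G with hL
  have hLn : L.Normal := by
    rw [hL]; unfold Cfsg.pPrimePCore
    have := H1.Nilp.pCore_normal (G := G ⧸ Cfsg.pPrimeCore p G) p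
    infer_instance
  set D := (P : Subgroup G) ⊓ L with hD
  have hPi : H13.Syl.IsSylIn p (P : Subgroup G) ⊤ := H13.Syl.isSylIn_sylow_top P
  have hDp : IsPGroup p D := P.isPGroup'.to_le inf_le_left
  have hcent : ∀ x ∈ Subgroup.normalizer (D : Set G), x ∈ O → x ∈ O ⊓ Subgroup.centralizer (D : Set G) := by
    intro x hxN hxO
    refine Subgroup.mem_inf.2 ⟨hxO, ?_⟩
    rw [Subgroup.mem_centralizer_iff]
    intro a ha
    have h1 : x * a * x⁻¹ ∈ D := (Subgroup.mem_normalizer_iff.1 hxN a).1 ha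
    have h2 : x * a * x⁻¹ * a⁻¹ ∈ D := mul_mem h1 (inv_mem ha)
    have h3 : x * a * x⁻¹ * a⁻¹ ∈ O := by
      have : x * a * x⁻¹ * a⁻¹ = x * (a * x⁻¹ * a⁻¹) := by group
      rw [this]; exact mul_mem hxO (hOn.conj_mem _ (inv_mem hxO) a)
    have h5 := H13.Sec.inf_eq_bot_of_coprime hOc hDp h3 h2
    have h6 : x * a * x⁻¹ = a := by rwa [mul_inv_eq_one] at h5
    rw [mul_inv_eq_iff_eq_mul] at h6
    exact h6.symm
  have part1 : ∀ y ∈ Subgroup.normalizer (D : Set G), (∃ k : ℕ, orderOf y = p ^ k) →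
      ∀ d ∈ O, d⁻¹ * y * d ∈ Subgroup.normalizer (D : Set G) →
        ∃ d₁ ∈ O ⊓ Subgroup.centralizer ({y} : Set G), ∃ d₂ ∈ O ⊓ Subgroup.centralizer (D : Set G), d = d₁ * d₂ := by
    intro y hy hyk d hd hyd
    obtain ⟨k, hk⟩ := hyk
    have hcop : (Nat.card (Subgroup.zpowers y)).Coprime (Nat.card (O ⊓ Subgroup.centralizer (D : Set G) : Subgroup G)) := by
      rw [Nat.card_zpowers, hk]
      apply Nat.Coprime.pow_left
      exact (Nat.Coprime.coprime_dvd_left (Subgroup.card_dvd_of_le inf_le_left) hOc).symm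
    obtain ⟨c, hc, hdc⟩ := H1.Coprime.exists_mul_mem_centralizer (A := Subgroup.zpowers y)
      (D := O ⊓ Subgroup.centralizer (D : Set G)) (by
        rw [Subgroup.zpowers_le]
        refine Subgroup.inf_normalizer_le_normalizer_inf ⟨?_, ?_⟩
        · rw [Subgroup.normalizer_eq_top]; trivial
        · exact H13.Sec.normalizer_le_normalizer_centralizer D hy) hcop
      (Or.inl (by
        have : IsPGroup p (Subgroup.zpowers y) := by
          rw [IsPGroup.iff_card]; exact ⟨k, by rw [Nat.card_zpowers, hk]⟩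
        have := this.isNilpotent
        infer_instance)) d (by
        rintro a ⟨j, rfl⟩
        apply hcent
        · have h1 : (d⁻¹ * y * d) ^ j ∈ Subgroup.normalizer (D : Set G) := zpow_mem hyd j
          have h2 : (d⁻¹ * y * d) ^ j = d⁻¹ * y ^ j * d := by
            have := conj_zpow (i := j) (a := d⁻¹) (b := y)
            rwa [inv_inv] at this
          have h3 : d⁻¹ * (y ^ j * d * (y ^ j)⁻¹) = (d⁻¹ * y * d) ^ j * (y ^ j)⁻¹ := by rw [h2]; group
          show d⁻¹ * (y ^ j * d * (y ^ j)⁻¹) ∈ _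
          rw [h3]
          exact mul_mem h1 (inv_mem (zpow_mem hy j))
        · exact mul_mem (inv_mem hd) (hOn.conj_mem _ hd _))
    refine ⟨d * c, Subgroup.mem_inf.2 ⟨mul_mem hd hc.1, ?_⟩, c⁻¹, inv_mem hc, by group⟩
    rw [Subgroup.mem_centralizer_singleton_iff]
    exact (Subgroup.mem_centralizer_iff.1 hdc y (Subgroup.mem_zpowers y)).symm
  refine ⟨part1, ?_⟩
  intro x y hx hy hxy
  obtain ⟨g, rfl⟩ := isConj_iff.1 hxy
  have hPN : (P : Subgroup G) ≤ Subgroup.normalizer (D : Set G) := by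
    refine le_trans (le_inf Subgroup.le_normalizer ?_) Subgroup.inf_normalizer_le_normalizer_inf
    rw [Subgroup.normalizer_eq_top]; exact le_top
  have hDi : H13.Syl.IsSylIn p D L := hPi.inf_of_le_normalizer le_top (by
    rw [Subgroup.normalizer_eq_top])
  have hmapS := H13.Sec.isSylIn_map_surj (QuotientGroup.mk' O) (QuotientGroup.mk'_surjective _) hPi
  have hLle : ∀ l ∈ L, ∃ a ∈ O, ∃ b ∈ D, l = b * a := by
    intro l hl
    have h1 : QuotientGroup.mk' O l ∈ Cfsg.pCore p (G ⧸ O) := hl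
    have h2 := H13.Sec.mem_sup_of_mk_mem (H13.Sec.pCore_le_of_isSylIn hmapS h1)
    obtain ⟨b, hb, a, ha, rfl⟩ := Subgroup.mem_sup_of_normal_right.1 h2
    refine ⟨a, ha, b, ⟨hb, ?_⟩, rfl⟩
    have hOL : O ≤ L := by
      intro o ho
      show QuotientGroup.mk' O o ∈ Cfsg.pCore p (G ⧸ O)
      have : QuotientGroup.mk' O o = 1 := (QuotientGroup.eq_one_iff o).2 ho
      rw [this]; exact one_mem _
    have := mul_mem hl (inv_mem (hOL ha))
    rwa [mul_inv_cancel_right] at this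
  -- g = n * d
  obtain ⟨n, hn, d, hd, rfl⟩ : ∃ n ∈ Subgroup.normalizer (D : Set G), ∃ d ∈ O, g = n * d := by
    have h1 : H13.Syl.IsSylIn p (H13.Syl.cj g D) L := by
      have := hDi.cj g
      rwa [H13.Syl.cj_eq_of_normal g L] at this
    obtain ⟨l, hl, hlq⟩ := hDi.exists_conj_eq h1
    rw [← H13.Syl.cj_mul] at hlq
    have h2 : l * g ∈ Subgroup.normalizer (D : Set G) := H13.Syl.mem_normalizer_iff_cj.2 hlq
    obtain ⟨a, ha, b, hb, rfl⟩ := hLle l hl
    have h3 : a * g ∈ Subgroup.normalizer (D : Set G) := by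
      have := mul_mem (inv_mem (Subgroup.le_normalizer hb)) h2
      rwa [mul_assoc, inv_mul_cancel_left] at this
    refine ⟨a * g, h3, g⁻¹ * a⁻¹ * g, ?_, by group⟩
    have := hOn.conj_mem _ (inv_mem ha) g⁻¹
    rwa [inv_inv] at this
  have h1 : d⁻¹⁻¹ * x * d⁻¹ ∈ Subgroup.normalizer (D : Set G) := by
    have h2 := mul_mem (mul_mem (inv_mem hn) (hPN hy)) hn
    have e : n⁻¹ * (n * d * x * (n * d)⁻¹) * n = d⁻¹⁻¹ * x * d⁻¹ := by group
    rwa [e] at h2
  have hxk : ∃ k : ℕ, orderOf x = p ^ k := by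
    obtain ⟨k, hk⟩ := IsPGroup.iff_orderOf.1 P.isPGroup' ⟨x, hx⟩
    exact ⟨k, by rwa [Subgroup.orderOf_mk] at hk⟩
  obtain ⟨d₁, hd₁, d₂, hd₂, hdd⟩ := part1 x (hPN hx) hxk d⁻¹ (inv_mem hd) h1
  refine ⟨n * d₂⁻¹, mul_mem hn (Subgroup.centralizer_le_normalizer _ (inv_mem hd₂.2)), ?_⟩
  have h5 : d₁ * x = x * d₁ := Subgroup.mem_centralizer_singleton_iff.1 hd₁.2
  have h6 : d = d₂⁻¹ * d₁⁻¹ := by rw [← inv_inv d, hdd, mul_inv_rev]
  rw [h6]
  calc n * d₂⁻¹ * x * (n * d₂⁻¹)⁻¹ = n * d₂⁻¹ * (d₁⁻¹ * (d₁ * x)) * d₂ * n⁻¹ := by group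
    _ = n * d₂⁻¹ * (d₁⁻¹ * (x * d₁)) * d₂ * n⁻¹ := by rw [h5]
    _ = n * (d₂⁻¹ * d₁⁻¹) * x * (n * (d₂⁻¹ * d₁⁻¹))⁻¹ := by group

end Cfsg.Agent.S1907
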