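import Cfsg.Statements.S1939
import Cfsg.Agent.H13_Syl

set_option autoImplicit false
open Cfsg

namespace Cfsg.Agent.S1939

/-- Let S be a Sylow p-subgroup of the finite group G and a an element of S that is the only G-conjugate of a lying in S. Then every power of a has the same property: for every n, the only G-conjugate of a^n lying in S is a^n. -/
theorem result {G : Type*} [Group G] [Finite G] {p : ℕ} [Fact p.Prime] (S : Sylow p G) (a : G)
    (haS : a ∈ (S : Subgroup G)) (hwc : ∀ g : G, g * a * g⁻¹ ∈ (S : Subgroup G) → g * a * g⁻¹ = a) (n : ℕ) :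
    ∀ g : G, g * a ^ n * g⁻¹ ∈ (S : Subgroup G) → g * a ^ n * g⁻¹ = a ^ n := by
  open Cfsg.Agent.H13.Syl in
  intro g hg
  have hSyl := isSylIn_sylow_top S
  have hcen : ∀ s ∈ (S : Subgroup G), s * a = a * s := by
    intro s hs
    have := hwc s ((S : Subgroup G).mul_mem ((S : Subgroup G).mul_mem hs haS) ((S : Subgroup G).inv_mem hs))
    calc s * a = s * a * s⁻¹ * s := by group
      _ = a * s := by rw [this]
  have hpa : IsPGroup p (Subgroup.zpowers a) :=
    S.isPGroup'.to_le (by rw [Subgroup.zpowers_le]; exact haS)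
  have haC : a ∈ Subgroup.centralizer ({g * a ^ n * g⁻¹} : Set G) := by
    rw [Subgroup.mem_centralizer_singleton_iff]
    exact (hcen _ hg).symm
  have hgC : g * a * g⁻¹ ∈ Subgroup.centralizer ({g * a ^ n * g⁻¹} : Set G) := by
    rw [Subgroup.mem_centralizer_singleton_iff]
    have : a * a ^ n = a ^ n * a := by rw [← pow_succ', ← pow_succ]
    calc g * a * g⁻¹ * (g * a ^ n * g⁻¹) = g * (a * a ^ n) * g⁻¹ := by group
      _ = g * a ^ n * g⁻¹ * (g * a * g⁻¹) := by rw [this]; group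
  obtain ⟨R, haR, hR⟩ := exists_isSylIn_ge (p := p) (A := Subgroup.zpowers a) hpa
    (by rw [Subgroup.zpowers_le]; exact haC)
  obtain ⟨c, hc, hcR⟩ := hR.exists_conj_le (A := cj g (Subgroup.zpowers a)) (isPGroup_cj hpa) (by
    rw [cj_le_iff_forall]
    intro x hx
    obtain ⟨k, rfl⟩ := Subgroup.mem_zpowers_iff.1 hx
    have := Subgroup.zpow_mem _ hgC k
    rwa [conj_zpow] at this)
  obtain ⟨h, _, hhS⟩ := hSyl.exists_conj_le hR.2.1 le_top
  have h1 : h * a * h⁻¹ = a := hwc h (hhS (conj_mem_cj (haR (Subgroup.mem_zpowers a))))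
  have h2 : (h * (c * g)) * a * (h * (c * g))⁻¹ = a := by
    apply hwc
    have h3 : c * (g * a * g⁻¹) * c⁻¹ ∈ R := hcR (conj_mem_cj (conj_mem_cj (Subgroup.mem_zpowers a)))
    have h4 := hhS (conj_mem_cj (g := h) h3)
    have h5 : h * (c * (g * a * g⁻¹) * c⁻¹) * h⁻¹ = (h * (c * g)) * a * (h * (c * g))⁻¹ := by group
    rwa [h5] at h4
  have h3 : (c * g) * a * (c * g)⁻¹ = a := by
    have h6 : h * ((c * g) * a * (c * g)⁻¹) * h⁻¹ = h * a * h⁻¹ := by
      calc h * ((c * g) * a * (c * g)⁻¹) * h⁻¹ = (h * (c * g)) * a * (h * (c * g))⁻¹ := by group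
        _ = a := h2
        _ = h * a * h⁻¹ := h1.symm
    have h7 := mul_right_cancel h6
    exact mul_left_cancel h7
  have h4 : (c * g) * a ^ n * (c * g)⁻¹ = a ^ n := by
    rw [← conj_pow, h3]
  rw [Subgroup.mem_centralizer_singleton_iff] at hc
  have h5 : c * (g * a ^ n * g⁻¹) * c⁻¹ = g * a ^ n * g⁻¹ := by rw [hc]; group
  calc g * a ^ n * g⁻¹ = c * (g * a ^ n * g⁻¹) * c⁻¹ := h5.symm
    _ = (c * g) * a ^ n * (c * g)⁻¹ := by group
    _ = a ^ n := h4

end Cfsg.Agent.S1939
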