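import Cfsg.Statements.S1940
-- import your own Cfsg.Agent.* helpers here

set_option autoImplicit false
open Cfsg

namespace Cfsg.Agent.S1940

/-- Let the finite group L act by automorphisms on the finite abelian group M, and let N be an L-invariant subgroup of M such that M/N is a p-group on which L acts trivially (every l • m lies in the coset mN). If every element of M is a product of an element of N and an element fixed by a Sylow p-subgroup T of L, then every element of M is a product of an element of N and an element fixed by all of L. -/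
theorem result {L : Type*} [Group L] [Finite L] {M : Type*} [CommGroup M] [Finite M] [MulDistribMulAction L M]
    {p : ℕ} [Fact p.Prime] (N : Subgroup M) (hN : ∀ (l : L) (m : M), m ∈ N → l • m ∈ N)
    (hquot : IsPGroup p (M ⧸ N)) (htriv : ∀ (l : L) (m : M), (l • m) * m⁻¹ ∈ N) (T : Sylow p L)
    (hT : ∀ m : M, ∃ n ∈ N, ∃ c : M, (∀ t ∈ (T : Subgroup L), t • c = c) ∧ m = n * c) :
    ∀ m : M, ∃ n ∈ N, ∃ c : M, (∀ l : L, l • c = c) ∧ m = n * c := by
  intro m
  classical
  obtain ⟨n, hn, c, hc, rfl⟩ := hT m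
  -- the product over cosets
  have hwd : ∀ a b : L, (QuotientGroup.leftRel (T : Subgroup L)).r a b → a • c = b • c := by
    intro a b hab
    rw [QuotientGroup.leftRel_apply] at hab
    have h1 : (a⁻¹ * b) • c = c := hc _ hab
    calc a • c = a • ((a⁻¹ * b) • c) := by rw [h1]
      _ = b • c := by rw [smul_smul, mul_inv_cancel_left]
  let f : L ⧸ (T : Subgroup L) → M := fun q => Quotient.liftOn' q (fun l => l • c) hwd
  have hf : ∀ l : L, f (QuotientGroup.mk l) = l • c := fun l => rfl
  have := Fintype.ofFinite (L ⧸ (T : Subgroup L))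
  let d : M := ∏ q : L ⧸ (T : Subgroup L), f q
  have hd : ∀ l : L, l • d = d := by
    intro l
    show l • (∏ q : L ⧸ (T : Subgroup L), f q) = _
    rw [Finset.smul_prod']
    have h1 : ∀ q : L ⧸ (T : Subgroup L), l • f q = f (l • q) := by
      intro q
      induction q using QuotientGroup.induction_on with
      | H a => rw [hf]; show _ = f (QuotientGroup.mk (l • a)); rw [hf, smul_eq_mul, mul_smul]
    rw [Finset.prod_congr rfl (fun q _ => h1 q)]
    exact Fintype.prod_equiv (MulAction.toPerm l) _ _ (fun q => rfl)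
  set k := Fintype.card (L ⧸ (T : Subgroup L)) with hk
  have hdk : (QuotientGroup.mk d : M ⧸ N) = (QuotientGroup.mk c) ^ k := by
    show (QuotientGroup.mk' N) (∏ q : L ⧸ (T : Subgroup L), f q) = (QuotientGroup.mk' N c) ^ k
    rw [map_prod, Finset.prod_eq_pow_card (b := QuotientGroup.mk' N c)]
    · rfl
    · intro q _
      induction q using QuotientGroup.induction_on with
      | H a =>
        rw [hf]
        show (QuotientGroup.mk (a • c) : M ⧸ N) = QuotientGroup.mk c
        rw [QuotientGroup.eq, ← N.inv_mem_iff, mul_inv_rev, inv_inv, mul_comm]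
        exact htriv a c
  have hkp : k.Coprime (Nat.card (M ⧸ N)) := by
    obtain ⟨r, hr⟩ := hquot.exists_card_eq
    rw [hr]
    apply Nat.Coprime.pow_right
    rw [hk, ← Nat.card_eq_fintype_card]
    exact ((Nat.Prime.coprime_iff_not_dvd Fact.out).2 T.not_dvd_index).symm
  obtain ⟨r, hr⟩ : ∃ r : ℤ, ∀ x : M ⧸ N, (x ^ k) ^ r = x := by
    refine ⟨Nat.gcdA k (Nat.card (M ⧸ N)), fun x => ?_⟩
    have h1 := Nat.gcd_eq_gcd_ab k (Nat.card (M ⧸ N))
    rw [hkp.gcd_eq_one] at h1
    have h2 : x ^ ((k : ℤ) * Nat.gcdA k (Nat.card (M ⧸ N)) + (Nat.card (M ⧸ N) : ℤ) * Nat.gcdB k (Nat.card (M ⧸ N))) = x := by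
      rw [← h1]; simp
    rw [zpow_add, zpow_mul, zpow_mul, zpow_natCast, zpow_natCast, pow_card_eq_one', one_zpow, mul_one] at h2
    exact h2
  refine ⟨n * (c * (d ^ r)⁻¹), ?_, d ^ r, ?_, ?_⟩
  · refine N.mul_mem hn ?_
    rw [← QuotientGroup.eq_one_iff, QuotientGroup.mk_mul, QuotientGroup.mk_inv, QuotientGroup.mk_zpow, hdk, hr,
      mul_inv_cancel]
  · intro l
    rw [smul_zpow', hd]
  · rw [mul_assoc, mul_assoc, inv_mul_cancel, mul_one]

end Cfsg.Agent.S1940
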