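import Cfsg.Statements.S1944
import Cfsg.Agent.H13_Opp

set_option autoImplicit false
open Cfsg

namespace Cfsg.Agent.S1944

/-- Let S be a Sylow p-subgroup of the finite group G and suppose that the centre Z(S) lies in O_{p',p}(G). The elements of S each of which is its only G-conjugate in S form a subgroup W of Z(S); W is then a direct factor of Z(S): there is a subgroup K of Z(S) with W ∩ K = 1 and WK = Z(S). -/
theorem result {G : Type*} [Group G] [Finite G] {p : ℕ} [Fact p.Prime] (S : Sylow p G)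
    (hZ : ((S : Subgroup G) ⊓ Subgroup.centralizer ((S : Subgroup G) : Set G)) ≤ Cfsg.pPrimePCore p G) :
    ∃ W K : Subgroup G, (∀ x : G, x ∈ W ↔ (x ∈ (S : Subgroup G) ∧ ∀ g : G, g * x * g⁻¹ ∈ (S : Subgroup G) → g * x * g⁻¹ = x)) ∧
      K ≤ ((S : Subgroup G) ⊓ Subgroup.centralizer ((S : Subgroup G) : Set G)) ∧ W ⊓ K = ⊥ ∧ W ⊔ K = ((S : Subgroup G) ⊓ Subgroup.centralizer ((S : Subgroup G) : Set G)) := by
  have hSi : H13.Syl.IsSylIn p (S : Subgroup G) ⊤ := H13.Syl.isSylIn_sylow_top S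
  set O := Cfsg.pPrimeCore p G with hO
  have hOn : O.Normal := H1.Nilp.pPrimeCore_normal p
  have hOc : (Nat.card O).Coprime p := H1.Nilp.pPrimeCore_coprime p
  set L := Cfsg.pPrimePCore p G with hL
  have hLn : L.Normal := H13.Opp.pPrimePCore_normal
  set T := (S : Subgroup G) ⊓ L with hT
  set N := Subgroup.normalizer (T : Set G) with hN
  set Z := (S : Subgroup G) ⊓ Subgroup.centralizer ((S : Subgroup G) : Set G) with hZdef
  have hTS : T ≤ S := inf_le_left
  have hSN : (S : Subgroup G) ≤ N := by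
    refine le_trans (le_inf Subgroup.le_normalizer ?_) Subgroup.inf_normalizer_le_normalizer_inf
    rw [Subgroup.normalizer_eq_top L]; exact le_top
  have hNs : H13.Syl.IsSylIn p (S : Subgroup G) N := hSi.mono hSN le_top
  set V := T ⊓ Subgroup.centralizer (T : Set G) with hV
  have hVp : IsPGroup p V := S.isPGroup'.to_le (inf_le_left.trans hTS)
  have hVc : IsMulCommutative V := ⟨⟨fun a b => Subtype.ext
    ((Subgroup.mem_centralizer_iff.1 (Subgroup.mem_inf.1 b.2).2 a (Subgroup.mem_inf.1 a.2).1))⟩⟩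
  have hNV : N ≤ Subgroup.normalizer (V : Set G) :=
    le_trans (le_inf le_rfl (H13.Sec.normalizer_le_normalizer_centralizer T)) Subgroup.inf_normalizer_le_normalizer_inf
  obtain ⟨K, hK, hK1, hK2⟩ := H13.Opp.direct_factor hNs hVp hVc hNV
  have hZV : V ⊓ Subgroup.centralizer ((S : Subgroup G) : Set G) = Z := by
    apply le_antisymm
    · exact inf_le_inf_right _ (inf_le_left.trans hTS)
    · refine le_inf (le_inf (le_inf inf_le_left hZ) ?_) inf_le_right
      exact inf_le_right.trans (Subgroup.centralizer_le hTS)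
  rw [hZV] at hK hK2
  refine ⟨V ⊓ Subgroup.centralizer (N : Set G), K, ?_, hK, hK1, hK2⟩
  intro x
  constructor
  · intro hx
    obtain ⟨hxV, hxN⟩ := Subgroup.mem_inf.1 hx
    have hxT : x ∈ T := (Subgroup.mem_inf.1 hxV).1
    refine ⟨hTS hxT, ?_⟩
    intro g hg
    obtain ⟨n, hn, a, ha, rfl⟩ := H13.Opp.decomp hSi g
    have h1 : n * a * x * (n * a)⁻¹ ∈ T := Subgroup.mem_inf.2 ⟨hg, hLn.conj_mem x (Subgroup.mem_inf.1 hxT).2 _⟩
    have h2 : a * x * a⁻¹ ∈ T := by
      rw [Subgroup.mem_normalizer_iff.1 hn]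
      have : n * (a * x * a⁻¹) * n⁻¹ = n * a * x * (n * a)⁻¹ := by group
      rw [this]; exact h1
    have h3 : a * x * a⁻¹ * x⁻¹ ∈ O := by
      have : a * x * a⁻¹ * x⁻¹ = a * (x * a⁻¹ * x⁻¹) := by group
      rw [this]; exact mul_mem ha (hOn.conj_mem _ (inv_mem ha) x)
    have h5 := H13.Sec.inf_eq_bot_of_coprime hOc (S.isPGroup'.to_le hTS) h3 (mul_mem h2 (inv_mem hxT))
    have h6 : a * x * a⁻¹ = x := by rwa [mul_inv_eq_one] at h5
    have h7 : n * x * n⁻¹ = x := by
      have := Subgroup.mem_centralizer_iff.1 hxN n hn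
      rw [this]; group
    calc n * a * x * (n * a)⁻¹ = n * (a * x * a⁻¹) * n⁻¹ := by group
      _ = x := by rw [h6, h7]
  · rintro ⟨hxS, hx⟩
    have hxZ : x ∈ Z := by
      refine Subgroup.mem_inf.2 ⟨hxS, ?_⟩
      rw [Subgroup.mem_centralizer_iff]
      intro s hs
      have := hx s (mul_mem (mul_mem hs hxS) (inv_mem hs))
      rwa [mul_inv_eq_iff_eq_mul] at this
    have hxV : x ∈ V := by
      rw [← hZV] at hxZ; exact (Subgroup.mem_inf.1 hxZ).1
    refine Subgroup.mem_inf.2 ⟨hxV, ?_⟩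
    rw [Subgroup.mem_centralizer_iff]
    intro n hn
    have h1 : n * x * n⁻¹ ∈ T := (Subgroup.mem_normalizer_iff.1 hn x).1 (Subgroup.mem_inf.1 hxV).1
    have := hx n (hTS h1)
    rwa [mul_inv_eq_iff_eq_mul] at this

end Cfsg.Agent.S1944
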