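import Cfsg.Statements.S1946
import Cfsg.Agent.H13_Min
import Cfsg.Agent.H2_Fusion3
import Cfsg.Agent.H13_Sec2

set_option autoImplicit false
open Cfsg

namespace Cfsg.Agent.S1946

open scoped commutatorElement

/-- Let P be a Sylow p-subgroup of the finite group G. Then G has a normal p-complement if and only if P controls the fusion of its elements of order dividing p (dividing 4 when p = 2): whenever such an element a of P has a G-conjugate g a g⁻¹ in P, that conjugate is already x a x⁻¹ for some x in P. -/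
theorem result {G : Type*} [Group G] [Finite G] {p : ℕ} [Fact p.Prime] (P : Sylow p G) :
    Cfsg.HasNormalPComplement p G ↔
      ∀ a ∈ (P : Subgroup G), (a ^ p = 1 ∨ (p = 2 ∧ a ^ 4 = 1)) → ∀ g : G, g * a * g⁻¹ ∈ (P : Subgroup G) →
        ∃ x ∈ (P : Subgroup G), g * a * g⁻¹ = x * a * x⁻¹ := by
  constructor
  · intro hG a ha _ g hga
    obtain ⟨N, hN, hNc⟩ := (H2.Basic.npc_iff_sylow P).1 hG
    have hcop : (Nat.card N).Coprime p := by
      rw [← hNc.index_eq_card]
      exact ((Nat.Prime.coprime_iff_not_dvd Fact.out).2 P.not_dvd_index).symm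
    have hsup : (P : Subgroup G) ⊔ N = ⊤ := hNc.symm.sup_eq_top
    have hg : g ∈ (P : Subgroup G) ⊔ N := by rw [hsup]; trivial
    obtain ⟨x, hx, n, hn, rfl⟩ := Subgroup.mem_sup_of_normal_right.1 hg
    refine ⟨x, hx, ?_⟩
    have h1 : n * a * n⁻¹ ∈ (P : Subgroup G) := by
      have := mul_mem (mul_mem (inv_mem hx) hga) hx
      have e : x⁻¹ * (x * n * a * (x * n)⁻¹) * x = n * a * n⁻¹ := by group
      rwa [e] at this
    have h2 : n * a * n⁻¹ * a⁻¹ ∈ (P : Subgroup G) := mul_mem h1 (inv_mem ha)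
    have h3 : n * a * n⁻¹ * a⁻¹ ∈ N := by
      have : n * a * n⁻¹ * a⁻¹ = n * (a * n⁻¹ * a⁻¹) := by group
      rw [this]; exact mul_mem hn (hN.conj_mem _ (inv_mem hn) a)
    have h5 := H13.Sec.inf_eq_bot_of_coprime hcop P.isPGroup' h3 h2
    have h6 : n * a * n⁻¹ = a := by rwa [mul_inv_eq_one] at h5
    calc x * n * a * (x * n)⁻¹ = x * (n * a * n⁻¹) * x⁻¹ := by group
      _ = x * a * x⁻¹ := by rw [h6]
  · intro h
    apply H2.Fusion3.npc_of_frobenius_sylow P
    intro Q hQP g hg hgp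
    by_contra hgC
    obtain ⟨U, hUQ, hU1, hUN, hUA, hUΩ, -⟩ := H13.Min.exists_min (P.isPGroup'.to_le hQP) hg hgp hgC
    have hUP : U ≤ (P : Subgroup G) := hUQ.trans hQP
    set W := ⁅U, (P : Subgroup G)⁆ with hW
    have hWn : ∀ x ∈ U, ∀ w ∈ W, x * w * x⁻¹ ∈ W := by
      intro x hx w hw
      have h1 : (P : Subgroup G) ≤ Subgroup.normalizer (W : Set G) := Subgroup.normalizer_commutator_ge_right _ _
      exact (Subgroup.mem_normalizer_iff.1 (h1 (hUP hx)) w).1 hw
    have key : ∀ a ∈ Subgroup.zpowers g, ∀ u ∈ U, a * u * a⁻¹ * u⁻¹ ∈ W := by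
      intro a ha u hu
      have hu' : u ∈ Subgroup.closure {x : G | x ∈ U ∧ (x ^ p = 1 ∨ (p = 2 ∧ x ^ 4 = 1))} := by rw [hUΩ]; exact hu
      have hcl : ∀ u ∈ Subgroup.closure {x : G | x ∈ U ∧ (x ^ p = 1 ∨ (p = 2 ∧ x ^ 4 = 1))}, u ∈ U ∧ a * u * a⁻¹ * u⁻¹ ∈ W := by
        intro u hu
        induction hu using Subgroup.closure_induction with
        | mem x hx =>
          obtain ⟨hxU, hx'⟩ := hx
          refine ⟨hxU, ?_⟩
          have h1 : a * x * a⁻¹ ∈ (P : Subgroup G) := hUP ((Subgroup.mem_normalizer_iff.1 (hUN ha) x).1 hxU)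
          obtain ⟨y, hy, hyx⟩ := h x (hUP hxU) hx' a h1
          rw [hyx, hW, Subgroup.commutator_comm]
          exact Subgroup.commutator_mem_commutator hy hxU
        | one => exact ⟨one_mem _, by simp [W.one_mem]⟩
        | mul x y _ _ hx hy =>
          refine ⟨mul_mem hx.1 hy.1, ?_⟩
          have e : a * (x * y) * a⁻¹ * (x * y)⁻¹ = (a * x * a⁻¹ * x⁻¹) * (x * (a * y * a⁻¹ * y⁻¹) * x⁻¹) := by group
          rw [e]
          exact mul_mem hx.2 (hWn x hx.1 _ hy.2)
        | inv x _ hx =>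
          refine ⟨inv_mem hx.1, ?_⟩
          have h1 := hWn x⁻¹ (inv_mem hx.1) _ (inv_mem hx.2)
          have e : x⁻¹ * (a * x * a⁻¹ * x⁻¹)⁻¹ * x⁻¹⁻¹ = a * x⁻¹ * a⁻¹ * x⁻¹⁻¹ := by group
          rwa [e] at h1
      exact (hcl u hu').2
    have hUW : U ≤ W := by
      conv_lhs => rw [← hUA]
      rw [Subgroup.commutator_le]
      intro u hu a ha
      have := inv_mem (key a ha u hu)
      have e : (a * u * a⁻¹ * u⁻¹)⁻¹ = ⁅u, a⁆ := by rw [commutatorElement_def]; group
      rwa [e] at this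
    exact H1.Coprime.commutator_lt_of_nilpotent P.isPGroup'.isNilpotent hUP hU1 hUW

end Cfsg.Agent.S1946
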