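import Cfsg.Statements.S1947
import Cfsg.Agent.H13_Min
import Cfsg.Agent.H2_Fusion3

set_option autoImplicit false
open Cfsg

namespace Cfsg.Agent.S1947

/-- Let G be a finite group and p a prime. If every element of G of order dividing p (dividing 4 when p = 2) lies in some fixed term Z_n(G) of the upper central series, then G has a normal p-complement. -/
theorem result {G : Type*} [Group G] [Finite G] {p : ℕ} [Fact p.Prime] (n : ℕ)
    (h : ∀ a : G, (a ^ p = 1 ∨ (p = 2 ∧ a ^ 4 = 1)) → a ∈ Subgroup.upperCentralSeries G n) : Cfsg.HasNormalPComplement p G := by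
  apply H2.Fusion3.npc_of_frobenius
  intro Q hQ g hg hgp
  by_contra hgC
  obtain ⟨U, hUQ, hU1, hUN, hUA, hUΩ, -⟩ := H13.Min.exists_min hQ hg hgp hgC
  apply hU1
  have hUn : U ≤ Subgroup.upperCentralSeries G n := by
    rw [← hUΩ, Subgroup.closure_le]
    rintro x ⟨_, hx⟩
    exact h x hx
  have key : ∀ k : ℕ, k ≤ n → U ≤ Subgroup.upperCentralSeries G (n - k) := by
    intro k
    induction k with
    | zero => intro _; exact hUn
    | succ k ih =>
      intro hk
      have h1 := ih (by omega)
      rw [← hUA, Subgroup.commutator_le]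
      intro u hu a _
      have h2 : n - k = (n - (k + 1)) + 1 := by omega
      have h3 := h1 hu
      rw [h2] at h3
      exact Subgroup.mem_upperCentralSeries_succ_iff.1 h3 a
  have h0 := key n le_rfl
  rw [Nat.sub_self, Subgroup.upperCentralSeries_zero, le_bot_iff] at h0
  exact h0

end Cfsg.Agent.S1947
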