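import Cfsg.Statements.S1948
import Cfsg.Agent.H13_Sec2
import Cfsg.Agent.H2_PCons

set_option autoImplicit false
open Cfsg

namespace Cfsg.Agent.S1948

/-- Let S be a Sylow p-subgroup of the finite group G. Then G = N_G(S)·O_{p'}(G) if and only if G is p-constrained and N_G(S) controls fusion in S, in the sense that whenever a subgroup Q of S has a conjugate g Q g⁻¹ inside S, the element g is a product n c with n normalizing S and c centralizing Q. -/
theorem result {G : Type*} [Group G] [Finite G] {p : ℕ} [Fact p.Prime] (S : Sylow p G) :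
    Subgroup.normalizer ((S : Subgroup G) : Set G) ⊔ Cfsg.pPrimeCore p G = ⊤ ↔
      (Cfsg.IsPConstrained p G ∧
        ∀ Q : Subgroup G, Q ≤ (S : Subgroup G) → ∀ g : G, Q.map (MulAut.conj g).toMonoidHom ≤ (S : Subgroup G) →
          ∃ n ∈ Subgroup.normalizer ((S : Subgroup G) : Set G), ∃ c ∈ Subgroup.centralizer (Q : Set G), g = n * c) := by
  have hSi : H13.Syl.IsSylIn p (S : Subgroup G) ⊤ := H13.Syl.isSylIn_sylow_top S
  have hOn : (Cfsg.pPrimeCore p G).Normal := H1.Nilp.pPrimeCore_normal p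
  have hOc : (Nat.card (Cfsg.pPrimeCore p G)).Coprime p := H1.Nilp.pPrimeCore_coprime p
  have hmapS := H13.Sec.isSylIn_map_surj (QuotientGroup.mk' (Cfsg.pPrimeCore p G))
    (QuotientGroup.mk'_surjective _) hSi
  have hq := H11.Cores.pPrimeCore_quotient (G := G) p
  constructor
  · intro h
    constructor
    · rw [H2.PCons.pc_iff_quotient]
      apply H13.Sec.centralizer_le_of_inf_le hmapS hq
      refine inf_le_left.trans ?_
      apply le_sSup
      refine ⟨?_, hmapS.isPGroup⟩
      rw [← Subgroup.normalizer_eq_top_iff, eq_top_iff]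
      have h1 : (⊤ : Subgroup G).map (QuotientGroup.mk' (Cfsg.pPrimeCore p G)) = ⊤ :=
        Subgroup.map_top_of_surjective _ (QuotientGroup.mk'_surjective _)
      rw [← h1, ← h, Subgroup.map_sup, sup_le_iff]
      constructor
      · exact Subgroup.le_normalizer_map _
      · have h2 : (Cfsg.pPrimeCore p G).map (QuotientGroup.mk' (Cfsg.pPrimeCore p G)) = ⊥ := by
          rw [Subgroup.map_eq_bot_iff, QuotientGroup.ker_mk']
        rw [h2]; exact bot_le
    · intro Q hQ g hg
      have hgt : g ∈ Subgroup.normalizer ((S : Subgroup G) : Set G) ⊔ Cfsg.pPrimeCore p G := by rw [h]; trivial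
      obtain ⟨n, hn, a, ha, rfl⟩ := Subgroup.mem_sup_of_normal_right.1 hgt
      refine ⟨n, hn, a, ?_, rfl⟩
      rw [Subgroup.mem_centralizer_iff]
      intro q hqQ
      have h1 : (n * a) * q * (n * a)⁻¹ ∈ (S : Subgroup G) := hg ⟨q, hqQ, rfl⟩
      have h2 : a * q * a⁻¹ ∈ (S : Subgroup G) := by
        rw [Subgroup.mem_normalizer_iff.1 hn]
        have : n * (a * q * a⁻¹) * n⁻¹ = (n * a) * q * (n * a)⁻¹ := by group
        rw [this]; exact h1
      have h3 : a * q * a⁻¹ * q⁻¹ ∈ (S : Subgroup G) := mul_mem h2 (inv_mem (hQ hqQ))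
      have h4 : a * q * a⁻¹ * q⁻¹ ∈ Cfsg.pPrimeCore p G := by
        have : a * q * a⁻¹ * q⁻¹ = a * (q * a⁻¹ * q⁻¹) := by group
        rw [this]; exact mul_mem ha (hOn.conj_mem _ (inv_mem ha) q)
      have h5 := H13.Sec.inf_eq_bot_of_coprime hOc S.isPGroup' h4 h3
      have h6 : a * q * a⁻¹ = q := by rwa [mul_inv_eq_one] at h5
      rw [mul_inv_eq_iff_eq_mul] at h6
      exact h6.symm
  · rintro ⟨hc, hctr⟩
    set L := Cfsg.pPrimePCore p G with hL
    have hLn : L.Normal := by
      rw [hL]; unfold Cfsg.pPrimePCore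
      have := H1.Nilp.pCore_normal (G := G ⧸ Cfsg.pPrimeCore p G) p
      infer_instance
    set Q := (S : Subgroup G) ⊓ L with hQ
    have hQi : H13.Syl.IsSylIn p Q L := hSi.inf_of_le_normalizer le_top (by
      rw [Subgroup.normalizer_eq_top])
    have hLle : L ≤ Subgroup.normalizer ((S : Subgroup G) : Set G) ⊔ Cfsg.pPrimeCore p G := by
      intro x hx
      have h1 : QuotientGroup.mk' (Cfsg.pPrimeCore p G) x ∈ Cfsg.pCore p (G ⧸ Cfsg.pPrimeCore p G) := hx
      have h2 := H13.Sec.mem_sup_of_mk_mem (H13.Sec.pCore_le_of_isSylIn hmapS h1)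
      exact (sup_le_sup_right Subgroup.le_normalizer _) h2
    obtain ⟨T, hT⟩ := hQi.exists_sylow
    have hCQ : Subgroup.centralizer (Q : Set G) ≤ L := by
      have := hc T
      rw [hT, Subgroup.map_subgroupOf_eq_of_le inf_le_right] at this
      exact this
    rw [eq_top_iff]
    intro g _
    have h1 : H13.Syl.IsSylIn p (H13.Syl.cj g Q) L := by
      have := hQi.cj g
      rwa [H13.Syl.cj_eq_of_normal g L] at this
    obtain ⟨l, hl, hlq⟩ := hQi.exists_conj_eq h1
    rw [← H13.Syl.cj_mul] at hlq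
    obtain ⟨n, hn, c, hcc, hnc⟩ := hctr Q inf_le_left (l * g) (by
      show H13.Syl.cj (l * g) Q ≤ _
      rw [hlq]; exact inf_le_left)
    have h2 : g = l⁻¹ * (n * c) := by rw [← hnc]; group
    rw [h2]
    exact mul_mem (hLle (inv_mem hl)) (mul_mem (Subgroup.mem_sup_left hn) (hLle (hCQ hcc)))

end Cfsg.Agent.S1948
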