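import Cfsg.Statements.S1952
import Cfsg.Agent.H13_Wr

set_option autoImplicit false
open Cfsg

namespace Cfsg.Agent.S1952

/-- Let P be a finite p-group with a normal elementary abelian subgroup A of index p, and let x ∈ A and y ∈ P with y outside A. If the product of the p conjugates y^(-i) x y^i (i = 0, …, p−1) is not the identity, then the wreath product Z_p ≀ Z_p, realised as a Sylow p-subgroup of the symmetric group of degree p², is a homomorphic image of P. -/
theorem result {P : Type*} [Group P] [Finite P] {p : ℕ} [Fact p.Prime] (hP : IsPGroup p P) (A : Subgroup P) [A.Normal]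
    (hA : Cfsg.IsElementaryAbelian p A) (hidx : A.index = p) (x y : P) (hx : x ∈ A) (hy : y ∉ A)
    (hprod : ((List.range p).map (fun i => (y ^ i)⁻¹ * x * y ^ i)).prod ≠ 1) :
    ∃ (Q : Sylow p (Equiv.Perm (Fin (p ^ 2)))) (f : P →* ↥(Q : Subgroup (Equiv.Perm (Fin (p ^ 2))))), Function.Surjective f := by
  classical
  have hpp : p.Prime := Fact.out
  have hyp : y ^ p ∈ A := by
    rw [← hidx]
    exact Subgroup.pow_index_mem A y
  obtain ⟨M, hMA, hMi, hML⟩ := H13.Wr.exists_hyperplane hA hx hyp hprod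
  have hMidx : M.index = p ^ 2 := by
    rw [← Subgroup.relIndex_mul_index hMA, hMi, hidx, pow_two]
  have hcard : Nat.card (P ⧸ M) = p ^ 2 := hMidx
  let e : (P ⧸ M) ≃ Fin (p ^ 2) := Finite.equivFinOfCardEq hcard
  let f0 : P →* Equiv.Perm (Fin (p ^ 2)) := (e.permCongrHom.toMonoidHom).comp (MulAction.toPermHom P (P ⧸ M))
  have hker : f0.ker = M.normalCore := by
    rw [Subgroup.normalCore_eq_ker]
    ext g
    rw [MonoidHom.mem_ker, MonoidHom.mem_ker]
    show e.permCongrHom (MulAction.toPermHom P (P ⧸ M) g) = 1 ↔ _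
    rw [MulEquiv.map_eq_one_iff]
  have hcore : M.normalCore ≤ M := Subgroup.normalCore_le M
  have hidx2 : p ^ (p + 1) ≤ Nat.card f0.range := by
    rw [← Subgroup.index_ker, hker, ← Subgroup.relIndex_mul_index (hcore.trans hMA), hidx, pow_succ]
    exact Nat.mul_le_mul_right p (hML _ inferInstance hcore)
  have hrp : IsPGroup p f0.range := by
    have := (hP.to_subgroup (⊤ : Subgroup P)).map f0
    rwa [← MonoidHom.range_eq_map] at this
  have hnd : ¬ p ∣ f0.range.index := by
    intro hd
    obtain ⟨m, hm⟩ := IsPGroup.iff_card.1 hrp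
    have hm' : p + 1 ≤ m := by
      rw [hm] at hidx2
      exact (Nat.pow_le_pow_iff_right hpp.one_lt).1 hidx2
    have h1 : p ^ (p + 2) ∣ (p ^ 2).factorial := by
      have h2 : Nat.card f0.range * f0.range.index = (p ^ 2).factorial := by
        rw [Subgroup.card_mul_index, Nat.card_perm, Nat.card_fin]
      rw [← h2, hm]
      have : p ^ (p + 2) = p ^ (p + 1) * p := by rw [← pow_succ]
      rw [this]
      exact Nat.mul_dvd_mul (Nat.pow_dvd_pow p hm') hd
    have h3 : p + 2 ≤ padicValNat p (p ^ 2).factorial :=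
      (padicValNat_dvd_iff_le (Nat.factorial_ne_zero _)).1 h1
    have h4 := sub_one_mul_padicValNat_factorial (p := p) (p ^ 2)
    have h5 : (p.digits (p ^ 2)).sum = 1 := by
      have := Nat.digits_base_pow_mul (b := p) (k := 2) (m := 1) hpp.one_lt (by norm_num)
      rw [mul_one] at this
      rw [this, Nat.digits_of_lt p 1 one_ne_zero hpp.one_lt]
      simp
    rw [h5] at h4
    obtain ⟨q, hq⟩ : ∃ q, p = q + 2 := ⟨p - 2, by have := hpp.two_le; omega⟩
    have h6 : (p - 1) * (p + 2) ≤ p ^ 2 - 1 := by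
      rw [← h4]; exact Nat.mul_le_mul_left _ h3
    rw [hq] at h6
    have e1 : q + 2 - 1 = q + 1 := by omega
    rw [e1] at h6
    have e2 : (q + 2) ^ 2 - 1 = q ^ 2 + 4 * q + 3 := by
      have : (q + 2) ^ 2 = q ^ 2 + 4 * q + 3 + 1 := by ring
      omega
    rw [e2] at h6
    nlinarith
  refine ⟨hrp.toSylow hnd, f0.rangeRestrict, f0.rangeRestrict_surjective⟩

end Cfsg.Agent.S1952
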