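import Cfsg.Statements.S1953
import Cfsg.Agent.H18_NF4

set_option autoImplicit false
open Cfsg

namespace Cfsg.Agent.S1953

open Subgroup Cfsg.Agent.H13.Syl Cfsg.Agent.H18.NF Cfsg.Agent.H18.ZJF

/-- Let p be an odd prime and P a Sylow p-subgroup of the finite group G, and suppose that for no p-subgroup Q of G does N_G(Q)/C_G(Q) have a section isomorphic to SL₂(p). Call a subgroup Q of P centric-radical when Z(Q) is a Sylow p-subgroup of C_G(Q) and the only normal subgroup X of N_G(Q) containing Q·C_G(Q) such that the index of Q·C_G(Q) in X is a power of p is Q·C_G(Q) itself (that is, N_G(Q)/Q·C_G(Q) has no nontrivial normal p-subgroup). Then there is a centric-radical subgroup Q of P contained in every centric-radical subgroup of P; it is normal in P, and N_G(Q) controls strong fusion in P: whenever a subgroup A of P has g A g⁻¹ ≤ P, the element g is a product h c with h in N_G(Q) and c centralizing A. -/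
theorem result {G : Type*} [Group G] [Finite G] {p : ℕ} [Fact p.Prime] (hp : p ≠ 2) (P : Sylow p G)
    (hfree : ∀ Q : Subgroup G, IsPGroup p ↥Q → ¬ ∃ (H K : Subgroup G) (_ : (K.subgroupOf H).Normal),
      Subgroup.centralizer (Q : Set G) ≤ K ∧ K ≤ H ∧ H ≤ Subgroup.normalizer (Q : Set G) ∧
      Nonempty ((↥H ⧸ K.subgroupOf H) ≃* Matrix.SpecialLinearGroup (Fin 2) (ZMod p)))
    (cr : Subgroup G → Prop)
    (hcr : ∀ Q : Subgroup G, cr Q ↔ (Q ≤ (P : Subgroup G) ∧
      (∃ R : Sylow p ↥(Subgroup.centralizer (Q : Set G)),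
        (R : Subgroup ↥(Subgroup.centralizer (Q : Set G))).map (Subgroup.centralizer (Q : Set G)).subtype = Q ⊓ Subgroup.centralizer (Q : Set G)) ∧
      ∀ X : Subgroup G, X ≤ Subgroup.normalizer (Q : Set G) →
        (∀ n ∈ Subgroup.normalizer (Q : Set G), X.map (MulAut.conj n).toMonoidHom = X) →
        Q ⊔ Subgroup.centralizer (Q : Set G) ≤ X → (∃ k : ℕ, (Q ⊔ Subgroup.centralizer (Q : Set G)).relIndex X = p ^ k) →
        X = Q ⊔ Subgroup.centralizer (Q : Set G))) :
    ∃ Q : Subgroup G, cr Q ∧ (∀ R : Subgroup G, cr R → Q ≤ R) ∧ (∀ x ∈ (P : Subgroup G), Q.map (MulAut.conj x).toMonoidHom = Q) ∧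
      ∀ A : Subgroup G, A ≤ (P : Subgroup G) → ∀ g : G, A.map (MulAut.conj g).toMonoidHom ≤ (P : Subgroup G) →
        ∃ h ∈ Subgroup.normalizer (Q : Set G), ∃ c ∈ Subgroup.centralizer (A : Set G), g = h * c := by
  have hst := stable_of_free hp hfree
  have hS := isSylIn_sylow_top P
  obtain ⟨Q, hQ, hmax⟩ := exists_max (P : Subgroup G)
  have hmc := max_constrained hp hst hS hQ hmax
  obtain ⟨hQS, hSQ, hQc⟩ := id hQ
  have hCN : centralizer (Q : Set G) ≤ normalizer (Q : Set G) := centralizer_le_normalizer _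
  have hNC : normalizer (Q : Set G) ≤ normalizer ((centralizer (Q : Set G) : Subgroup G) : Set G) := by
    intro x hx
    rw [mem_normalizer_iff_cj] at hx ⊢
    rw [cj_centralizer, hx]
  refine ⟨Q, (hcr Q).2 ⟨hQS, ?_, ?_⟩, ?_, ?_, ?_⟩
  · have h1 : IsSylIn p ((P : Subgroup G) ⊓ centralizer (Q : Set G)) (centralizer (Q : Set G)) :=
      (hS.mono hSQ le_top).inf_of_le_normalizer hCN hNC
    have h2 : (P : Subgroup G) ⊓ centralizer (Q : Set G) = Q ⊓ centralizer (Q : Set G) :=
      le_antisymm (le_inf hmc inf_le_right) (inf_le_inf_right _ hQS)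
    rw [h2] at h1
    obtain ⟨R, hR⟩ := h1.exists_sylow
    refine ⟨R, ?_⟩
    rw [hR, subgroupOf_map_subtype, inf_assoc, inf_idem]
  · intro X hXN hXinv hX hk
    exact max_radical hp hst hS hQ hmax hXN (fun n hn => mem_normalizer_iff_cj.2 (hXinv n hn)) hX hk
  · intro R hR
    obtain ⟨hRS, ⟨T, hT⟩, hRr⟩ := (hcr R).1 hR
    refine le_of_cr hS hQ hRS ?_ (fun X h1 h2 h3 h4 => hRr X h1 h2 h3 h4)
    rw [← hT]
    exact isSylIn_map_subtype T
  · intro x hx
    exact mem_normalizer_iff_cj.1 (hSQ hx)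
  · intro A hA g hg
    obtain ⟨x, hx, hx2⟩ := hQc A hA g hg
    refine ⟨x, hx, x⁻¹ * g, ?_, by group⟩
    rw [mem_centralizer_iff]
    intro a ha
    have h1 := hx2 a ha
    calc a * (x⁻¹ * g) = x⁻¹ * (x * a * x⁻¹) * g := by group
      _ = x⁻¹ * g * a := by rw [h1]; group

end Cfsg.Agent.S1953
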