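import Cfsg.Statements.S1954
import Cfsg.Agent.H13_RC

set_option autoImplicit false
open Cfsg

namespace Cfsg.Agent.S1954

/-- Let N be a normal subgroup of the finite group G, P a Sylow p-subgroup of G, and V a subgroup of P ∩ N normal in P ∩ N such that N_N(V) controls strong fusion in P ∩ N with respect to N (whenever a subgroup A of P ∩ N has n A n⁻¹ ≤ P ∩ N for some n in N, then n = h c with h in N_N(V) and c in C_N(A)). Let W be the subgroup generated by the conjugates of V under N_G(P ∩ N). Then N_G(W) controls strong fusion in P with respect to G. -/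
theorem result {G : Type*} [Group G] [Finite G] {p : ℕ} [Fact p.Prime] (N : Subgroup G) [N.Normal] (P : Sylow p G) (V : Subgroup G)
    (hV : V ≤ (P : Subgroup G) ⊓ N) (hVn : ∀ x ∈ (P : Subgroup G) ⊓ N, V.map (MulAut.conj x).toMonoidHom = V)
    (hctrl : ∀ A : Subgroup G, A ≤ (P : Subgroup G) ⊓ N → ∀ n ∈ N, A.map (MulAut.conj n).toMonoidHom ≤ (P : Subgroup G) ⊓ N →
      ∃ h ∈ N ⊓ Subgroup.normalizer (V : Set G), ∃ c ∈ N ⊓ Subgroup.centralizer (A : Set G), n = h * c)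
    (W : Subgroup G) (hW : W = Subgroup.closure (⋃ x ∈ Subgroup.normalizer (((P : Subgroup G) ⊓ N : Subgroup G) : Set G),
      ((V.map (MulAut.conj x).toMonoidHom : Subgroup G) : Set G))) :
    ∀ A : Subgroup G, A ≤ (P : Subgroup G) → ∀ g : G, A.map (MulAut.conj g).toMonoidHom ≤ (P : Subgroup G) →
        ∃ h ∈ Subgroup.normalizer (W : Set G), ∃ c ∈ Subgroup.centralizer (A : Set G), g = h * c := by
  set D₀ := (P : Subgroup G) ⊓ N with hD₀
  have hPi : H13.Syl.IsSylIn p (P : Subgroup G) ⊤ := H13.Syl.isSylIn_sylow_top P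
  have hNt : ∀ K : Subgroup G, K ≤ Subgroup.normalizer (N : Set G) := fun K => by
    rw [Subgroup.normalizer_eq_top]; exact le_top
  have hD₀s : H13.Syl.IsSylIn p D₀ N := hPi.inf_of_le_normalizer le_top (hNt ⊤)
  have hVx : ∀ x ∈ Subgroup.normalizer (D₀ : Set G), H13.Syl.cj x V ≤ D₀ := by
    intro x hx
    refine (H13.Syl.cj_mono hV).trans ?_
    rw [H13.Syl.cj_eq_of_mem_normalizer hx]
  have hWmem : ∀ x ∈ Subgroup.normalizer (D₀ : Set G), ∀ v ∈ V, x * v * x⁻¹ ∈ W := by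
    intro x hx v hv
    rw [hW]
    apply Subgroup.subset_closure
    rw [Set.mem_iUnion₂]
    exact ⟨x, hx, ⟨v, hv, rfl⟩⟩
  have hWle : ∀ K : Subgroup G, (∀ x ∈ Subgroup.normalizer (D₀ : Set G), ∀ v ∈ V, x * v * x⁻¹ ∈ K) → W ≤ K := by
    intro K hK
    rw [hW, Subgroup.closure_le]
    intro y hy
    rw [Set.mem_iUnion₂] at hy
    obtain ⟨x, hx, ⟨v, hv, rfl⟩⟩ := hy
    exact hK x hx v hv
  have hWD : W ≤ D₀ := hWle _ (fun x hx v hv => hVx x hx ⟨v, hv, rfl⟩)
  have hnormW : ∀ g : G, (∀ x ∈ Subgroup.normalizer (D₀ : Set G), ∀ v ∈ V, g * (x * v * x⁻¹) * g⁻¹ ∈ W) →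
      g ∈ Subgroup.normalizer (W : Set G) := by
    intro g hg
    rw [H13.Syl.mem_normalizer_iff_cj]
    apply Subgroup.eq_of_le_of_card_ge _ (by rw [H13.Syl.card_cj])
    rw [H13.Syl.cj_le_iff]
    apply hWle
    intro x hx v hv
    rw [H13.Syl.mem_cj, inv_inv]
    exact hg x hx v hv
  have hWN : Subgroup.normalizer ((D₀ : Subgroup G) : Set G) ≤ Subgroup.normalizer (W : Set G) := by
    intro g hg
    apply hnormW
    intro x hx v hv
    have := hWmem (g * x) (mul_mem hg hx) v hv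
    have e : g * x * v * (g * x)⁻¹ = g * (x * v * x⁻¹) * g⁻¹ := by group
    rwa [e] at this
  apply H13.RC.step2 hPi hWD hWN
  -- control by N_N(W)
  intro A hA n hn hAn
  have hSs : H13.Syl.IsSylIn p (D₀.subgroupOf N) (⊤ : Subgroup N) := by
    refine ⟨le_top, hD₀s.isPGroup.comap_subtype, ?_⟩
    rw [Subgroup.relIndex_top_right]
    exact hD₀s.not_dvd
  have hnsub : ∀ K : Subgroup G, K ≤ N → ∀ h : N, h ∈ Subgroup.normalizer ((K.subgroupOf N : Subgroup N) : Set N) ↔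
      (h : G) ∈ Subgroup.normalizer (K : Set G) := by
    intro K hK h
    rw [Subgroup.mem_normalizer_iff, Subgroup.mem_normalizer_iff]
    constructor
    · intro hh y
      constructor
      · intro hy
        exact (hh ⟨y, hK hy⟩).1 hy
      · intro hy
        have hyN : y ∈ N := by
          have h1 := mul_mem (mul_mem (inv_mem h.2) (hK hy)) h.2
          have e : (h : G)⁻¹ * (h * y * (h : G)⁻¹) * h = y := by group
          rwa [e] at h1
        exact (hh ⟨y, hyN⟩).2 hy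
    · intro hh y
      exact hh y
  obtain ⟨h', hh', c', hc', hnc⟩ := H13.RC.step1 hSs
    {V' | ∃ x ∈ Subgroup.normalizer (D₀ : Set G), V' = (H13.Syl.cj x V).subgroupOf N} (by
      rintro _ ⟨x, hx, rfl⟩
      refine ⟨Subgroup.comap_mono (hVx x hx), ?_⟩
      intro s hs
      rw [hnsub _ ((hVx x hx).trans inf_le_right), H13.Syl.mem_normalizer_iff_cj]
      have h1 : x⁻¹ * s * x ∈ D₀ := by
        have := (Subgroup.mem_normalizer_iff.1 (inv_mem hx) (s : G)).1 hs
        rwa [inv_inv] at this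
      have h2 := hVn _ h1
      have h3 : H13.Syl.cj (x⁻¹ * s * x) V = V := h2
      calc H13.Syl.cj (s : G) (H13.Syl.cj x V) = H13.Syl.cj x (H13.Syl.cj (x⁻¹ * s * x) V) := by
            rw [← H13.Syl.cj_mul, ← H13.Syl.cj_mul]; congr 1; group
        _ = _ := by rw [h3]) (by
      rintro _ ⟨x, hx, rfl⟩ A' hA' g' hg'
      have hxi : x⁻¹ ∈ Subgroup.normalizer (D₀ : Set G) := inv_mem hx
      obtain ⟨h, hh, c, hc, hnc⟩ := hctrl (H13.Syl.cj x⁻¹ (A'.map N.subtype)) (by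
        have h1 : A'.map N.subtype ≤ D₀ := by
          rintro _ ⟨a, ha, rfl⟩; exact hA' ha
        refine (H13.Syl.cj_mono h1).trans ?_
        rw [H13.Syl.cj_eq_of_mem_normalizer hxi]) (x⁻¹ * g' * x) (by
        have := ‹N.Normal›.conj_mem _ g'.2 x⁻¹
        rwa [inv_inv] at this) (by
        show H13.Syl.cj (x⁻¹ * g' * x) (H13.Syl.cj x⁻¹ (A'.map N.subtype)) ≤ D₀
        have h1 : H13.Syl.cj (x⁻¹ * g' * x) (H13.Syl.cj x⁻¹ (A'.map N.subtype)) = H13.Syl.cj x⁻¹ (H13.Syl.cj (g' : G) (A'.map N.subtype)) := by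
          rw [← H13.Syl.cj_mul, ← H13.Syl.cj_mul]; congr 1; group
        have h2 : H13.Syl.cj (g' : G) (A'.map N.subtype) ≤ D₀ := by
          rintro _ ⟨_, ⟨a, ha, rfl⟩, rfl⟩
          exact hg' ⟨a, ha, rfl⟩
        rw [h1]
        refine (H13.Syl.cj_mono h2).trans ?_
        rw [H13.Syl.cj_eq_of_mem_normalizer hxi])
      obtain ⟨hhN, hhV⟩ := Subgroup.mem_inf.1 hh
      obtain ⟨hcN, hcA⟩ := Subgroup.mem_inf.1 hc
      refine ⟨⟨x * h * x⁻¹, ‹N.Normal›.conj_mem _ hhN x⟩, ?_, ⟨x * c * x⁻¹, ‹N.Normal›.conj_mem _ hcN x⟩, ?_, ?_⟩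
      · rw [hnsub _ ((hVx x hx).trans inf_le_right), H13.Syl.mem_normalizer_iff_cj]
        show H13.Syl.cj (x * h * x⁻¹) (H13.Syl.cj x V) = _
        calc H13.Syl.cj (x * h * x⁻¹) (H13.Syl.cj x V) = H13.Syl.cj x (H13.Syl.cj h V) := by
              rw [← H13.Syl.cj_mul, ← H13.Syl.cj_mul]; congr 1; group
          _ = _ := by rw [H13.Syl.cj_eq_of_mem_normalizer hhV]
      · rw [Subgroup.mem_centralizer_iff]
        intro a ha
        apply Subtype.ext
        show (a : G) * (x * c * x⁻¹) = x * c * x⁻¹ * a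
        have h1 := Subgroup.mem_centralizer_iff.1 hcA (x⁻¹ * a * x) (by
          refine ⟨a, ⟨a, ha, rfl⟩, ?_⟩
          show x⁻¹ * (a : G) * x⁻¹⁻¹ = _
          rw [inv_inv])
        calc (a : G) * (x * c * x⁻¹) = x * ((x⁻¹ * a * x) * c) * x⁻¹ := by group
          _ = x * (c * (x⁻¹ * a * x)) * x⁻¹ := by rw [h1]
          _ = x * c * x⁻¹ * a := by group
      · apply Subtype.ext
        show (g' : G) = x * h * x⁻¹ * (x * c * x⁻¹)
        calc (g' : G) = x * (x⁻¹ * g' * x) * x⁻¹ := by group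
          _ = x * (h * c) * x⁻¹ := by rw [hnc]
          _ = _ := by group)
    (A.subgroupOf N) (Subgroup.comap_mono hA) ⟨n, hn⟩ (by
      rintro _ ⟨a, ha, rfl⟩
      exact hAn ⟨a, ha, rfl⟩)
  refine ⟨h', Subgroup.mem_inf.2 ⟨h'.2, ?_⟩, c', Subgroup.mem_inf.2 ⟨c'.2, ?_⟩, congrArg Subtype.val hnc⟩
  · apply hnormW
    intro x hx v hv
    have h1 : h' ∈ Subgroup.normalizer (((H13.Syl.cj x V).subgroupOf N : Subgroup N) : Set N) := by
      have h2 := (Subgroup.mem_iInf.1 hh') ((H13.Syl.cj x V).subgroupOf N)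
      exact (Subgroup.mem_iInf.1 h2) ⟨x, hx, rfl⟩
    rw [hnsub _ ((hVx x hx).trans inf_le_right), Subgroup.mem_normalizer_iff] at h1
    have h3 := (h1 (x * v * x⁻¹)).1 ⟨v, hv, rfl⟩
    obtain ⟨v', hv', hv2⟩ := h3
    rw [← hv2]
    exact hWmem x hx v' hv'
  · rw [Subgroup.mem_centralizer_iff]
    intro a ha
    have haN : a ∈ N := (hA ha).2
    exact congrArg Subtype.val (Subgroup.mem_centralizer_iff.1 hc' ⟨a, haN⟩ ha)

end Cfsg.Agent.S1954
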