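import Cfsg.Statements.S1956
import Cfsg.Agent.H13_Syl

set_option autoImplicit false
open Cfsg

namespace Cfsg.Agent.S1956

/-- Let P be a Sylow p-subgroup of the finite group G such that every element of P of order dividing p (dividing 4 when p = 2) is central in P. Then the fusion of these elements is controlled by N_G(P): if such an element a of P has g a g⁻¹ in P, then g = n c with n normalizing P and c commuting with a. -/
theorem result {G : Type*} [Group G] [Finite G] {p : ℕ} [Fact p.Prime] (P : Sylow p G)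
    (hcen : ∀ a ∈ (P : Subgroup G), (a ^ p = 1 ∨ (p = 2 ∧ a ^ 4 = 1)) → ∀ y ∈ (P : Subgroup G), a * y = y * a) :
    ∀ a ∈ (P : Subgroup G), (a ^ p = 1 ∨ (p = 2 ∧ a ^ 4 = 1)) → ∀ g : G, g * a * g⁻¹ ∈ (P : Subgroup G) →
      ∃ n ∈ Subgroup.normalizer ((P : Subgroup G) : Set G), ∃ c : G, c * a = a * c ∧ g = n * c := by
  open Cfsg.Agent.H13.Syl in
  intro a ha hap g hg
  have hSyl := isSylIn_sylow_top P
  have hb : (g * a * g⁻¹) ^ p = 1 ∨ (p = 2 ∧ (g * a * g⁻¹) ^ 4 = 1) := by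
    rw [conj_pow, conj_pow]
    rcases hap with h | ⟨h1, h2⟩
    · left; rw [h]; group
    · right; refine ⟨h1, ?_⟩; rw [h2]; group
  have h1 : (P : Subgroup G) ≤ Subgroup.centralizer ({g * a * g⁻¹} : Set G) := by
    intro y hy
    rw [Subgroup.mem_centralizer_singleton_iff]
    exact (hcen _ hg hb y hy).symm
  have h2 : cj g (P : Subgroup G) ≤ Subgroup.centralizer ({g * a * g⁻¹} : Set G) := by
    rw [← cj_centralizer_singleton]
    apply cj_mono
    intro y hy
    rw [Subgroup.mem_centralizer_singleton_iff]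
    exact (hcen _ ha hap y hy).symm
  have h3 := hSyl.mono h1 le_top
  have h4 := (cj_top g ▸ hSyl.cj g).mono h2 le_top
  obtain ⟨x, hx, hxP⟩ := h3.exists_conj_eq h4
  rw [← cj_mul] at hxP
  refine ⟨x * g, mem_normalizer_iff_cj.2 hxP, g⁻¹ * x⁻¹ * g, ?_, by group⟩
  rw [Subgroup.mem_centralizer_singleton_iff] at hx
  have h5 : x⁻¹ * (g * a * g⁻¹) = (g * a * g⁻¹) * x⁻¹ := by
    rw [eq_mul_inv_iff_mul_eq, mul_assoc, ← hx]; group
  calc g⁻¹ * x⁻¹ * g * a = g⁻¹ * (x⁻¹ * (g * a * g⁻¹)) * g := by group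
    _ = a * (g⁻¹ * x⁻¹ * g) := by rw [h5]; group

end Cfsg.Agent.S1956
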