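import Cfsg.Statements.S2015
import Cfsg.Agent.H13_KT

set_option autoImplicit false
universe u
open Cfsg

namespace Cfsg.Agent.S2015

/-- For p ≥ 5, every finite p-group P has a characteristic subgroup K containing Z(P), depending only on P, whose normalizer controls transfer wherever P is a Sylow subgroup: for every finite group G and every embedding ι of P onto a Sylow p-subgroup of G, the intersection of ι(P) with the derived subgroup of G equals its intersection with the derived subgroup of N_G(ι(K)). -/
theorem result (p : ℕ) [Fact p.Prime] (hp : 5 ≤ p) (P : Type u) [Group P] [Finite P] (hP : IsPGroup p P) : ∃ K : Subgroup P, K.Characteristic ∧ Subgroup.center P ≤ K ∧ ∀ (G : Type u) [Group G] [Finite G] (ι : P →* G), Function.Injective ι → (∃ T : Sylow p G, (T : Subgroup G) = ι.range) → ι.range ⊓ commutator G = ι.range ⊓ (commutator ↥(Subgroup.normalizer ((K.map ι : Subgroup G) : Set G))).map (Subgroup.normalizer ((K.map ι : Subgroup G) : Set G)).subtype := by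
  have hlow : Cfsg.kInfLower P = H13.K.KLow (⊤ : Subgroup P) := by
    show (⨆ n, Cfsg.kSeqEven P n) = ⨆ n, H13.K.KE ⊤ n
    congr 1; ext1 n; exact H13.K.kSeqEven_eq P n
  have hchar := H13.K.isCharPFunctor_lower.{u} p
  refine ⟨Cfsg.kInfLower P, ?_, ?_, ?_⟩
  · rw [Subgroup.characteristic_iff_map_eq]
    intro φ
    exact hchar.2 P P hP φ
  · rw [hlow]
    refine le_trans ?_ (H13.K.center_le_KLow ⊤)
    exact le_inf le_top (Subgroup.center_le_centralizer _)
  · rintro G _ _ ι hι ⟨T, hT⟩
    have h1 := H13.CF.ctr_all (H13.Sec.induced_isConjugacyFunctor (X := G) hchar)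
      (H13.KT.transfer_lower hp G) (H13.Syl.isSylIn_sylow_top T)
    have h2 : (Cfsg.kInfLower P).map ι = Cfsg.inducedFunctor Cfsg.kInfLower (T : Subgroup G) := by
      rw [hlow, H13.K.map_KLow ι hι, H13.K.induced_lower, hT, MonoidHom.range_eq_map]
    rw [← hT, h2]
    rw [top_inf_eq] at h1
    rw [_root_.commutator_def G, h1]
    congr 1
    rw [_root_.commutator_def, Subgroup.map_commutator, ← MonoidHom.range_eq_map, Subgroup.range_subtype]

end Cfsg.Agent.S2015
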