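import Cfsg.Statements.S2162

set_option autoImplicit false
open Cfsg

namespace Cfsg.Agent.S2162

open Module Submodule

theorem structure_sq {F V : Type*} [Field F] [AddCommGroup V] [Module F V] [FiniteDimensional F V] (N : V →ₗ[F] V)
    (hN : ∀ v, N (N v) = 0) {r s : ℕ} (hr : finrank F (LinearMap.range N) = r) (hV : finrank F V = 2 * r + s) :
    ∃ e : V ≃ₗ[F] (Fin r → F) × (Fin r → F) × (Fin s → F), ∀ v, e (N v) = (0, (e v).1, 0) := by
  obtain ⟨C, hC⟩ := (LinearMap.ker N).exists_isCompl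
  have hCK := hC.symm
  obtain ⟨T', hT'⟩ := ((LinearMap.range N).comap (LinearMap.ker N).subtype).exists_isCompl
  have hNK : ∀ v, N v ∈ LinearMap.ker N := fun v => LinearMap.mem_ker.2 (hN v)
  let νl : C →ₗ[F] ((LinearMap.range N).comap (LinearMap.ker N).subtype) :=
    LinearMap.codRestrict _ (LinearMap.codRestrict (LinearMap.ker N) (N ∘ₗ C.subtype) (fun c => hNK _)) (fun c => ⟨c, rfl⟩)
  have hνb : Function.Bijective νl := by
    constructor
    · rw [← LinearMap.ker_eq_bot, LinearMap.ker_eq_bot']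
      intro c hc
      have h1 : N c = 0 := congrArg (fun x : ((LinearMap.range N).comap (LinearMap.ker N).subtype) => ((x : LinearMap.ker N) : V)) hc
      have h2 : (c : V) ∈ C ⊓ LinearMap.ker N := ⟨c.2, LinearMap.mem_ker.2 h1⟩
      rw [hCK.inf_eq_bot, Submodule.mem_bot] at h2
      exact Subtype.ext h2
    · rintro ⟨⟨x, hx⟩, hx2⟩
      obtain ⟨v, hv⟩ : ∃ v, N v = x := hx2
      have h1 : v ∈ C ⊔ LinearMap.ker N := by rw [hCK.sup_eq_top]; trivial
      obtain ⟨c, hc, k, hk, rfl⟩ := Submodule.mem_sup.1 h1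
      refine ⟨⟨c, hc⟩, Subtype.ext (Subtype.ext ?_)⟩
      show N c = x
      rw [← hv, map_add, LinearMap.mem_ker.1 hk, add_zero]
  let ν := LinearEquiv.ofBijective νl hνb
  have hfk := LinearMap.finrank_range_add_finrank_ker N
  have hfC := Submodule.finrank_add_eq_of_isCompl hCK
  have hfR := LinearEquiv.finrank_eq ν
  have hfT := Submodule.finrank_add_eq_of_isCompl hT'
  let φ : C ≃ₗ[F] (Fin r → F) := LinearEquiv.ofFinrankEq _ _ (by rw [Module.finrank_fin_fun]; omega)
  let τ : T' ≃ₗ[F] (Fin s → F) := LinearEquiv.ofFinrankEq _ _ (by rw [Module.finrank_fin_fun]; omega)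
  let e1 := (C.prodEquivOfIsCompl (LinearMap.ker N) hCK).symm
  let e2 := (((LinearMap.range N).comap (LinearMap.ker N).subtype).prodEquivOfIsCompl T' hT').symm
  refine ⟨e1 ≪≫ₗ (φ.prodCongr (e2 ≪≫ₗ ((ν.symm ≪≫ₗ φ).prodCongr τ))), ?_⟩
  intro v
  have h1 : e1 (N v) = (0, ⟨N v, hNK v⟩) := by
    show (C.prodEquivOfIsCompl (LinearMap.ker N) hCK).symm (N v) = _
    exact Submodule.prodEquivOfIsCompl_symm_apply_right _ _ hCK ⟨N v, hNK v⟩
  have h2 : N v = N ((e1 v).1 : V) := by
    have h3 : v = ((e1 v).1 : V) + ((e1 v).2 : V) := by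
      have h4 := (C.prodEquivOfIsCompl (LinearMap.ker N) hCK).apply_symm_apply v
      rw [Submodule.coe_prodEquivOfIsCompl'] at h4
      exact h4.symm
    conv_lhs => rw [h3]
    rw [map_add, LinearMap.mem_ker.1 (e1 v).2.2, add_zero]
  have h3 : e2 ⟨N v, hNK v⟩ = (ν (e1 v).1, 0) := by
    have h4 : (⟨N v, hNK v⟩ : LinearMap.ker N) = ((ν (e1 v).1 : ((LinearMap.range N).comap (LinearMap.ker N).subtype)) : LinearMap.ker N) :=
      Subtype.ext h2
    rw [h4]
    exact Submodule.prodEquivOfIsCompl_symm_apply_left _ _ hT' _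
  show (φ (e1 (N v)).1, (φ (ν.symm (e2 (e1 (N v)).2).1), τ (e2 (e1 (N v)).2).2)) = (0, φ (e1 v).1, 0)
  rw [h1]
  simp only [h3, map_zero, LinearEquiv.symm_apply_apply]

theorem sq_root {F : Type*} [Field F] [Fintype F] [CharP F 2] (c : F) : ∃ d : F, d * d = c := by
  obtain ⟨d, hd⟩ := FiniteField.isSquare_of_char_two (ringChar.eq F 2) c
  exact ⟨d, hd.symm⟩

theorem sq_zero {F : Type*} [Field F] [CharP F 2] {n : ℕ} (a : Matrix.SpecialLinearGroup (Fin n) F) (ha : orderOf a = 2) :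
    ((a : Matrix (Fin n) (Fin n) F) - 1) * ((a : Matrix (Fin n) (Fin n) F) - 1) = 0 := by
  have h1 : a * a = 1 := by rw [← pow_two, ← ha, pow_orderOf_eq_one]
  have h2 : (a : Matrix (Fin n) (Fin n) F) * a = 1 := by
    have := congrArg (fun M : Matrix.SpecialLinearGroup (Fin n) F => (M : Matrix (Fin n) (Fin n) F)) h1
    simpa using this
  rw [sub_mul, mul_sub, h2, mul_one, one_mul]
  have h3 : (2 : F) = 0 := CharTwo.two_eq_zero
  ext i j
  have h4 : ∀ x y : F, x - y - (y - x) = 0 := by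
    intro x y
    have : x - y - (y - x) = 2 * (x - y) := by ring
    rw [this, h3, zero_mul]
  exact h4 _ _

theorem rank_pos {F : Type*} [Field F] {n : ℕ} (a : Matrix.SpecialLinearGroup (Fin n) F) (ha : orderOf a = 2) :
    0 < ((a : Matrix (Fin n) (Fin n) F) - 1).rank := by
  rw [Nat.pos_iff_ne_zero]
  intro h
  have h1 : LinearMap.range (Matrix.mulVecLin ((a : Matrix (Fin n) (Fin n) F) - 1)) = ⊥ := Submodule.finrank_eq_zero.1 h
  rw [LinearMap.range_eq_bot] at h1
  have h2 : (a : Matrix (Fin n) (Fin n) F) - 1 = 0 := by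
    apply Matrix.toLin'.injective
    rw [map_zero, ← h1]; rfl
  have h3 : a = 1 := by
    apply Subtype.ext
    exact sub_eq_zero.1 h2
  rw [h3, orderOf_one] at ha
  omega

theorem exists_basis {F : Type*} [Field F] [CharP F 2] {n : ℕ} (a : Matrix.SpecialLinearGroup (Fin n) F) (ha : orderOf a = 2) :
    2 * ((a : Matrix (Fin n) (Fin n) F) - 1).rank ≤ n ∧ ∀ s, n = 2 * ((a : Matrix (Fin n) (Fin n) F) - 1).rank + s →
    ∃ e : (Fin n → F) ≃ₗ[F] (Fin ((a : Matrix (Fin n) (Fin n) F) - 1).rank → F) × (Fin ((a : Matrix (Fin n) (Fin n) F) - 1).rank → F) × (Fin s → F),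
      ∀ v, e (((a : Matrix (Fin n) (Fin n) F) - 1).mulVecLin v) = (0, (e v).1, 0) := by
  have hN : ∀ v, ((a : Matrix (Fin n) (Fin n) F) - 1).mulVecLin (((a : Matrix (Fin n) (Fin n) F) - 1).mulVecLin v) = 0 := by
    intro v
    rw [Matrix.mulVecLin_apply, Matrix.mulVecLin_apply, Matrix.mulVec_mulVec, sq_zero a ha, Matrix.zero_mulVec]
  have hle : LinearMap.range ((a : Matrix (Fin n) (Fin n) F) - 1).mulVecLin ≤ LinearMap.ker ((a : Matrix (Fin n) (Fin n) F) - 1).mulVecLin := by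
    rintro _ ⟨v, rfl⟩
    exact LinearMap.mem_ker.2 (hN v)
  have h1 := Submodule.finrank_mono hle
  have h2 := LinearMap.finrank_range_add_finrank_ker ((a : Matrix (Fin n) (Fin n) F) - 1).mulVecLin
  rw [Module.finrank_fin_fun] at h2
  have h3 : finrank F (LinearMap.range ((a : Matrix (Fin n) (Fin n) F) - 1).mulVecLin) = ((a : Matrix (Fin n) (Fin n) F) - 1).rank := rfl
  refine ⟨by omega, fun s hs => structure_sq _ hN h3 ?_⟩
  rw [Module.finrank_fin_fun]
  exact hs

/-- Conjugacy of involutions in the special linear group over a finite field of characteristic two, in dimension at least 3: two elements of order 2 of SL_n(F) are conjugate in SL_n(F) exactly when the matrices a − 1 and b − 1 have the same rank (the rank of a − 1 is the dimension of the commutator space [V, a]). -/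
theorem result {F : Type*} [Field F] [Fintype F] [CharP F 2] {n : ℕ} (hn : 3 ≤ n) (a b : Matrix.SpecialLinearGroup (Fin n) F) (ha : orderOf a = 2) (hb : orderOf b = 2) :
    IsConj a b ↔ ((a : Matrix (Fin n) (Fin n) F) - 1).rank = ((b : Matrix (Fin n) (Fin n) F) - 1).rank := by
  classical
  constructor
  · intro h
    obtain ⟨c, hc⟩ := isConj_iff.1 h
    have h1 : (b : Matrix (Fin n) (Fin n) F) - 1 = (c : Matrix (Fin n) (Fin n) F) * ((a : Matrix (Fin n) (Fin n) F) - 1) * ((c⁻¹ : Matrix.SpecialLinearGroup (Fin n) F) : Matrix (Fin n) (Fin n) F) := by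
      rw [← hc, mul_sub, sub_mul, mul_one]
      have h2 : (c : Matrix (Fin n) (Fin n) F) * ((c⁻¹ : Matrix.SpecialLinearGroup (Fin n) F) : Matrix (Fin n) (Fin n) F) = 1 := by
        have := congrArg (fun M : Matrix.SpecialLinearGroup (Fin n) F => (M : Matrix (Fin n) (Fin n) F)) (mul_inv_cancel c)
        rw [Matrix.SpecialLinearGroup.coe_mul, Matrix.SpecialLinearGroup.coe_one] at this
        exact this
      rw [h2, Matrix.SpecialLinearGroup.coe_mul, Matrix.SpecialLinearGroup.coe_mul]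
    rw [h1, Matrix.rank_mul_eq_left_of_isUnit_det _ _ (by rw [(c⁻¹ : Matrix.SpecialLinearGroup (Fin n) F).2]; exact isUnit_one),
      Matrix.rank_mul_eq_right_of_isUnit_det _ _ (by rw [c.2]; exact isUnit_one)]
  · intro h
    obtain ⟨hle, ha'⟩ := exists_basis a ha
    obtain ⟨-, hb'⟩ := exists_basis b hb
    have hpos := rank_pos a ha
    obtain ⟨s, hs⟩ : ∃ s, n = 2 * ((a : Matrix (Fin n) (Fin n) F) - 1).rank + s := ⟨n - 2 * ((a : Matrix (Fin n) (Fin n) F) - 1).rank, by omega⟩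
    obtain ⟨e1, he1⟩ := ha' s hs
    rw [← h] at hb'
    obtain ⟨e2, he2⟩ := hb' s hs
    generalize ((a : Matrix (Fin n) (Fin n) F) - 1).rank = r at *
    let g0 : (Fin n → F) ≃ₗ[F] (Fin n → F) := e1 ≪≫ₗ e2.symm
    have hg0 : ∀ v, g0 (((a : Matrix (Fin n) (Fin n) F) - 1).mulVecLin v) = ((b : Matrix (Fin n) (Fin n) F) - 1).mulVecLin (g0 v) := by
      intro v
      apply e2.injective
      rw [he2]
      show e2 (e2.symm (e1 _)) = (0, (e2 (e2.symm (e1 v))).1, 0)
      rw [LinearEquiv.apply_symm_apply, LinearEquiv.apply_symm_apply, he1]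
    obtain ⟨d, hd⟩ := sq_root (LinearMap.det (g0 : (Fin n → F) →ₗ[F] (Fin n → F)))⁻¹
    let A : (Fin r → F) →ₗ[F] (Fin r → F) := Matrix.toLin' (Matrix.diagonal (fun i => if i = ⟨0, hpos⟩ then d else 1))
    have hA : LinearMap.det A = d := by
      show LinearMap.det (Matrix.toLin' (Matrix.diagonal (fun i => if i = ⟨0, hpos⟩ then d else 1)) : (Fin r → F) →ₗ[F] (Fin r → F)) = d
      rw [LinearMap.det_toLin', Matrix.det_diagonal, Finset.prod_ite_eq']
      simp
    let D : (Fin n → F) →ₗ[F] (Fin n → F) := (e1.symm : _ →ₗ[F] (Fin n → F)) ∘ₗ (A.prodMap (A.prodMap (LinearMap.id : (Fin s → F) →ₗ[F] (Fin s → F)))) ∘ₗ (e1 : (Fin n → F) →ₗ[F] _)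
    have hD : LinearMap.det D = d * d := by
      have h1 := LinearMap.det_conj (A.prodMap (A.prodMap (LinearMap.id (R := F) (M := Fin s → F)))) e1.symm
      rw [LinearEquiv.symm_symm] at h1
      show LinearMap.det ((e1.symm : _ →ₗ[F] (Fin n → F)) ∘ₗ (A.prodMap (A.prodMap (LinearMap.id : (Fin s → F) →ₗ[F] (Fin s → F)))) ∘ₗ (e1 : (Fin n → F) →ₗ[F] _)) = _
      rw [h1, LinearMap.det_prodMap, LinearMap.det_prodMap, hA, LinearMap.det_id, mul_one]
    have hDN : ∀ v, D (((a : Matrix (Fin n) (Fin n) F) - 1).mulVecLin v) = ((a : Matrix (Fin n) (Fin n) F) - 1).mulVecLin (D v) := by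
      intro v
      apply e1.injective
      rw [he1]
      show e1 (e1.symm ((A.prodMap (A.prodMap (LinearMap.id : (Fin s → F) →ₗ[F] (Fin s → F)))) (e1 _))) = (0, (e1 (e1.symm ((A.prodMap (A.prodMap (LinearMap.id : (Fin s → F) →ₗ[F] (Fin s → F)))) (e1 v)))).1, 0)
      rw [LinearEquiv.apply_symm_apply, LinearEquiv.apply_symm_apply, he1]
      simp
    let G : (Fin n → F) →ₗ[F] (Fin n → F) := (g0 : (Fin n → F) →ₗ[F] (Fin n → F)) ∘ₗ D
    have hG : LinearMap.det G = 1 := by
      show LinearMap.det ((g0 : (Fin n → F) →ₗ[F] (Fin n → F)) ∘ₗ D) = 1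
      rw [LinearMap.det_comp, hD, hd, mul_inv_cancel₀ (LinearEquiv.isUnit_det' g0).ne_zero]
    have hGN : ∀ v, G (((a : Matrix (Fin n) (Fin n) F) - 1).mulVecLin v) = ((b : Matrix (Fin n) (Fin n) F) - 1).mulVecLin (G v) := by
      intro v
      show g0 (D _) = ((b : Matrix (Fin n) (Fin n) F) - 1).mulVecLin (g0 (D v))
      rw [hDN, hg0]
    have hm : LinearMap.toMatrix' G * ((a : Matrix (Fin n) (Fin n) F) - 1) = ((b : Matrix (Fin n) (Fin n) F) - 1) * LinearMap.toMatrix' G := by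
      apply Matrix.toLin'.injective
      rw [Matrix.toLin'_mul, Matrix.toLin'_mul, Matrix.toLin'_toMatrix']
      apply LinearMap.ext
      intro v
      exact hGN v
    obtain ⟨g, hg⟩ : ∃ g : Matrix.SpecialLinearGroup (Fin n) F, (g : Matrix (Fin n) (Fin n) F) = LinearMap.toMatrix' G :=
      ⟨⟨LinearMap.toMatrix' G, by rw [LinearMap.det_toMatrix', hG]⟩, rfl⟩
    refine isConj_iff.2 ⟨g, ?_⟩
    rw [mul_inv_eq_iff_eq_mul]
    apply Subtype.ext
    show (g : Matrix (Fin n) (Fin n) F) * (a : Matrix (Fin n) (Fin n) F) = (b : Matrix (Fin n) (Fin n) F) * (g : Matrix (Fin n) (Fin n) F)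
    rw [hg]
    rw [mul_sub, sub_mul, mul_one, one_mul] at hm
    exact sub_left_injective hm

end Cfsg.Agent.S2162
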