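import Cfsg.Statements.S2163

set_option autoImplicit false
open Cfsg

namespace Cfsg.Agent.S2163

theorem rank_eq_of_factor {F : Type*} [Field F] {n ℓ : ℕ} (E : Matrix (Fin n) (Fin n) F)
    (W : Matrix (Fin n) (Fin ℓ) F) (Z : Matrix (Fin ℓ) (Fin n) F)
    (X : Matrix (Fin ℓ) (Fin n) F) (Y : Matrix (Fin n) (Fin ℓ) F)
    (hE : E = W * Z) (h1 : X * W = 1) (h2 : Z * Y = 1) : E.rank = ℓ := by
  apply le_antisymm
  · rw [hE]
    refine (Matrix.rank_mul_le_left W Z).trans ?_
    simpa using W.rank_le_card_width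
  · have h3 : X * E * Y = 1 := by
      rw [hE, ← Matrix.mul_assoc, h1, Matrix.one_mul, h2]
    have h4 : (X * E * Y).rank = ℓ := by
      rw [h3, Matrix.rank_one, Fintype.card_fin]
    calc ℓ = (X * E * Y).rank := h4.symm
      _ ≤ (X * E).rank := Matrix.rank_mul_le_left _ _
      _ ≤ E.rank := Matrix.rank_mul_le_right _ _

/-- Over a finite field of characteristic two and for n ≥ 3: for every ℓ with 1 ≤ ℓ and 2ℓ ≤ n, the matrix j_ℓ that is the identity plus the entries 1 in positions (n − ℓ + i, i) for i < ℓ (an identity block of size ℓ in the lower left corner) lies in SL_n(F), has order 2, and j_ℓ − 1 has rank ℓ. Together with the conjugacy criterion by rank, these matrices represent the conjugacy classes of involutions of SL_n(F). -/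
theorem result {F : Type*} [Field F] [Fintype F] [CharP F 2] {n : ℕ} (hn : 3 ≤ n) (ℓ : ℕ) (h1 : 1 ≤ ℓ) (h2 : 2 * ℓ ≤ n) :
    ∃ a : Matrix.SpecialLinearGroup (Fin n) F, (a : Matrix (Fin n) (Fin n) F) = 1 + Matrix.of (fun i j : Fin n => if j.val < ℓ ∧ i.val = j.val + (n - ℓ) then (1 : F) else 0) ∧ orderOf a = 2 ∧ ((a : Matrix (Fin n) (Fin n) F) - 1).rank = ℓ := by
  set E : Matrix (Fin n) (Fin n) F := Matrix.of (fun i j : Fin n => if j.val < ℓ ∧ i.val = j.val + (n - ℓ) then (1 : F) else 0) with hE
  have hEE : E * E = 0 := by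
    ext i k
    rw [Matrix.mul_apply, Matrix.zero_apply]
    apply Finset.sum_eq_zero
    intro j _
    simp only [hE, Matrix.of_apply]
    by_cases hj : j.val < ℓ
    · have : ¬ (k.val < ℓ ∧ j.val = k.val + (n - ℓ)) := by omega
      simp [this]
    · simp [hj]
  have : Nonempty (Fin n) := ⟨⟨0, by omega⟩⟩
  have hsq : (1 + E) * (1 + E) = 1 := by
    have : (1 + E) * (1 + E) = 1 + (E + E) + E * E := by noncomm_ring
    rw [this, hEE, CharTwo.add_self_eq_zero]; simp
  have hdet : (1 + E).det = 1 := by
    have h3 : (1 + E).det * (1 + E).det = 1 := by rw [← Matrix.det_mul, hsq, Matrix.det_one]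
    have h4 : ((1 + E).det - 1) ^ 2 = 0 := by
      rw [CharTwo.sub_eq_add, CharTwo.add_sq, pow_two, h3, one_pow, CharTwo.add_self_eq_zero]
    exact sub_eq_zero.1 (pow_eq_zero_iff (by norm_num) |>.1 h4)
  have hrank : E.rank = ℓ := by
    refine rank_eq_of_factor E
      (Matrix.of fun (i : Fin n) (k : Fin ℓ) => if i.val = k.val + (n - ℓ) then (1 : F) else 0)
      (Matrix.of fun (k : Fin ℓ) (j : Fin n) => if j.val = k.val then (1 : F) else 0)
      (Matrix.of fun (k : Fin ℓ) (i : Fin n) => if i.val = k.val + (n - ℓ) then (1 : F) else 0)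
      (Matrix.of fun (j : Fin n) (k : Fin ℓ) => if j.val = k.val then (1 : F) else 0) ?_ ?_ ?_
    · ext i j
      rw [Matrix.mul_apply]
      simp only [hE, Matrix.of_apply]
      by_cases hj : j.val < ℓ
      · rw [Finset.sum_eq_single (⟨j.val, hj⟩ : Fin ℓ)]
        · simp [hj]
        · intro b _ hb
          have : ¬ (j.val = b.val) := fun h => hb (Fin.ext h.symm)
          simp [this]
        · simp
      · rw [Finset.sum_eq_zero]
        · simp [hj]
        · intro b _
          have : ¬ (j.val = b.val) := by have := b.2; omega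
          simp [this]
    · ext k k'
      rw [Matrix.mul_apply]
      simp only [Matrix.of_apply]
      rw [Finset.sum_eq_single (⟨k.val + (n - ℓ), by have := k.2; omega⟩ : Fin n)]
      · simp [Matrix.one_apply, Fin.ext_iff]
      · intro b _ hb
        have : ¬ (b.val = k.val + (n - ℓ)) := fun h => hb (Fin.ext h)
        simp [this]
      · simp
    · ext k k'
      rw [Matrix.mul_apply]
      simp only [Matrix.of_apply]
      rw [Finset.sum_eq_single (⟨k.val, by have := k.2; omega⟩ : Fin n)]
      · simp [Matrix.one_apply, Fin.ext_iff]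
      · intro b _ hb
        have : ¬ (b.val = k.val) := fun h => hb (Fin.ext h)
        simp [this]
      · simp
  obtain ⟨a, ha⟩ : ∃ a : Matrix.SpecialLinearGroup (Fin n) F,
      (a : Matrix (Fin n) (Fin n) F) = 1 + E := ⟨⟨1 + E, hdet⟩, rfl⟩
  refine ⟨a, ha, ?_, ?_⟩
  · rw [orderOf_eq_prime_iff]
    constructor
    · apply Matrix.SpecialLinearGroup.ext
      intro i j
      rw [pow_two, Matrix.SpecialLinearGroup.coe_mul, Matrix.SpecialLinearGroup.coe_one, ha, hsq]
    · intro h
      have h5 := congrArg (fun x : Matrix.SpecialLinearGroup (Fin n) F => (x : Matrix (Fin n) (Fin n) F)) h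
      simp only [Matrix.SpecialLinearGroup.coe_one, ha] at h5
      have h6 : E = 0 := by simpa using h5
      rw [h6, Matrix.rank_zero] at hrank
      omega
  · rw [ha]; simpa using hrank

end Cfsg.Agent.S2163
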