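import Cfsg.Statements.S2165

set_option autoImplicit false
open Cfsg

namespace Cfsg.Agent.S2165

theorem rank_eq_of_factor {F : Type*} [Field F] {n ℓ : ℕ} (E : Matrix (Fin n) (Fin n) F)
    (W : Matrix (Fin n) (Fin ℓ) F) (Z : Matrix (Fin ℓ) (Fin n) F)
    (X : Matrix (Fin ℓ) (Fin n) F) (Y : Matrix (Fin n) (Fin ℓ) F)
    (hE : E = W * Z) (h1 : X * W = 1) (h2 : Z * Y = 1) : E.rank = ℓ := by
  apply le_antisymm
  · rw [hE]
    refine (Matrix.rank_mul_le_left W Z).trans ?_
    simpa using W.rank_le_card_width
  · have h3 : X * E * Y = 1 := by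
      rw [hE, ← Matrix.mul_assoc, h1, Matrix.one_mul, h2]
    have h4 : (X * E * Y).rank = ℓ := by
      rw [h3, Matrix.rank_one, Fintype.card_fin]
    calc ℓ = (X * E * Y).rank := h4.symm
      _ ≤ (X * E).rank := Matrix.rank_mul_le_left _ _
      _ ≤ E.rank := Matrix.rank_mul_le_right _ _

/-- the index map -/
def swapFun (n ℓ : ℕ) (h2 : 2 * ℓ ≤ n) (i : Fin n) : Fin n :=
  if h : i.val < ℓ then ⟨i.val + (n - ℓ), by omega⟩
  else if n - ℓ ≤ i.val then ⟨i.val - (n - ℓ), by omega⟩ else i

theorem swapFun_swapFun (n ℓ : ℕ) (h2 : 2 * ℓ ≤ n) (i : Fin n) :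
    swapFun n ℓ h2 (swapFun n ℓ h2 i) = i := by
  unfold swapFun
  by_cases h : i.val < ℓ
  · rw [dif_pos h]
    have h3 : ¬ ((⟨i.val + (n - ℓ), by omega⟩ : Fin n).val < ℓ) := by simp only; omega
    rw [dif_neg h3, if_pos (by simp only; omega)]
    apply Fin.ext
    simp
  · rw [dif_neg h]
    by_cases h4 : n - ℓ ≤ i.val
    · rw [if_pos h4]
      have : (⟨i.val - (n - ℓ), by omega⟩ : Fin n).val < ℓ := by simp only; omega
      rw [dif_pos this]
      apply Fin.ext
      simp only
      omega
    · rw [if_neg h4, dif_neg h, if_neg h4]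

theorem entry_iff (n ℓ : ℕ) (h2 : 2 * ℓ ≤ n) (i j : Fin n) :
    ((j.val < ℓ ∧ i.val = j.val + (n - ℓ)) ∨ (i.val < ℓ ∧ j.val = i.val + (n - ℓ)) ∨ (i = j ∧ ℓ ≤ i.val ∧ i.val < n - ℓ)) ↔ j = swapFun n ℓ h2 i := by
  unfold swapFun
  rw [Fin.ext_iff, Fin.ext_iff]
  split_ifs <;> (try simp only) <;> omega

/-- In SU_n(q), q even, n ≥ 3 (matrices of determinant 1 over the field with q² elements preserving Σ u_i v_i^q): for every ℓ with 1 ≤ ℓ and 2ℓ ≤ n, the permutation matrix of the involution of {0, …, n−1} exchanging i and n − ℓ + i for each i < ℓ lies in SU_n(q), has order 2, and differs from the identity by a matrix of rank ℓ. So every rank between 1 and n/2 occurs for involutions of SU_n(q). -/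
theorem result {F : Type*} [Field F] [Fintype F] [CharP F 2] {n q : ℕ} (hF : Fintype.card F = q ^ 2) (hn : 3 ≤ n) (ℓ : ℕ) (h1 : 1 ≤ ℓ) (h2 : 2 * ℓ ≤ n) :
    ∃ a : ↥(Cfsg.SU n F q), (((a : Matrix.SpecialLinearGroup (Fin n) F) : Matrix (Fin n) (Fin n) F) = Matrix.of (fun i j : Fin n => if (j.val < ℓ ∧ i.val = j.val + (n - ℓ)) ∨ (i.val < ℓ ∧ j.val = i.val + (n - ℓ)) ∨ (i = j ∧ ℓ ≤ i.val ∧ i.val < n - ℓ) then (1 : F) else 0)) ∧ orderOf a = 2 ∧ ((((a : Matrix.SpecialLinearGroup (Fin n) F) : Matrix (Fin n) (Fin n) F)) - 1).rank = ℓ := by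
  set π := swapFun n ℓ h2 with hπ
  have hππ : ∀ i, π (π i) = i := swapFun_swapFun n ℓ h2
  have hinj : ∀ i j, π i = π j ↔ i = j := fun i j =>
    ⟨fun h => by rw [← hππ i, h, hππ], fun h => by rw [h]⟩
  set A : Matrix (Fin n) (Fin n) F := Matrix.of (fun i j : Fin n => if j = π i then (1 : F) else 0) with hA
  have hAeq : Matrix.of (fun i j : Fin n => if (j.val < ℓ ∧ i.val = j.val + (n - ℓ)) ∨ (i.val < ℓ ∧ j.val = i.val + (n - ℓ)) ∨ (i = j ∧ ℓ ≤ i.val ∧ i.val < n - ℓ) then (1 : F) else 0) = A := by
    ext i j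
    simp only [hA, Matrix.of_apply, entry_iff n ℓ h2 i j, hπ]
  rw [hAeq]
  have : Nonempty (Fin n) := ⟨⟨0, by omega⟩⟩
  have hmv : ∀ (u : Fin n → F) (i : Fin n), (A.mulVec u) i = u (π i) := by
    intro u i
    simp [Matrix.mulVec, dotProduct, hA]
  have hsq : A * A = 1 := by
    ext i j
    rw [Matrix.mul_apply, Finset.sum_eq_single (π i)]
    · simp only [hA, Matrix.of_apply, if_true, hππ, one_mul, Matrix.one_apply, eq_comm]
    · intro b _ hb
      simp [hA, hb]
    · simp
  have hdet : A.det = 1 := by
    have h3 : A.det * A.det = 1 := by rw [← Matrix.det_mul, hsq, Matrix.det_one]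
    have h4 : (A.det - 1) ^ 2 = 0 := by
      rw [CharTwo.sub_eq_add, CharTwo.add_sq, pow_two, h3, one_pow, CharTwo.add_self_eq_zero]
    exact sub_eq_zero.1 (pow_eq_zero_iff (by norm_num) |>.1 h4)
  have hrank : (A - 1).rank = ℓ := by
    refine rank_eq_of_factor (A - 1)
      (Matrix.of fun (i : Fin n) (k : Fin ℓ) => if i.val = k.val ∨ i.val = k.val + (n - ℓ) then (1 : F) else 0)
      (Matrix.of fun (k : Fin ℓ) (j : Fin n) => if j.val = k.val ∨ j.val = k.val + (n - ℓ) then (1 : F) else 0)
      (Matrix.of fun (k : Fin ℓ) (i : Fin n) => if i.val = k.val then (1 : F) else 0)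
      (Matrix.of fun (j : Fin n) (k : Fin ℓ) => if j.val = k.val then (1 : F) else 0) ?_ ?_ ?_
    · ext i j
      rw [Matrix.mul_apply]
      simp only [hA, Matrix.of_apply, Matrix.sub_apply, Matrix.one_apply]
      by_cases hi : i.val < ℓ
      · rw [Finset.sum_eq_single (⟨i.val, hi⟩ : Fin ℓ)]
        · have hpi : π i = ⟨i.val + (n - ℓ), by omega⟩ := by
            rw [hπ]; unfold swapFun; rw [dif_pos hi]
          rw [hpi]
          simp only [true_or, if_true, one_mul]
          by_cases hj1 : j.val = i.val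
          · have : ¬ (j = ⟨i.val + (n - ℓ), by omega⟩) := by
              intro h; rw [Fin.ext_iff] at h; simp only at h; omega
            have hij : i = j := Fin.ext hj1.symm
            rw [if_neg this, if_pos hij, if_pos (Or.inl hj1), CharTwo.sub_eq_add, zero_add]
          · have hij : ¬ (i = j) := fun h => hj1 (by rw [h])
            rw [if_neg hij, sub_zero]
            by_cases hj2 : j.val = i.val + (n - ℓ)
            · rw [if_pos (Fin.ext hj2), if_pos (Or.inr hj2)]
            · rw [if_neg (fun h => hj2 (by rw [h])), if_neg (by tauto)]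
        · intro b _ hb
          have : ¬ (i.val = b.val ∨ i.val = b.val + (n - ℓ)) := by
            rintro (h | h)
            · exact hb (Fin.ext h.symm)
            · omega
          simp [this]
        · simp
      · by_cases hi2 : n - ℓ ≤ i.val
        · have hpi : π i = ⟨i.val - (n - ℓ), by omega⟩ := by
            rw [hπ]; unfold swapFun; rw [dif_neg hi, if_pos hi2]
          rw [Finset.sum_eq_single (⟨i.val - (n - ℓ), by omega⟩ : Fin ℓ)]
          · rw [hpi]
            rw [if_pos (Or.inr (by simp only; omega) : (i.val = _ ∨ i.val = _)), one_mul]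
            by_cases hj1 : j.val = i.val
            · have h7 : ¬ (j = ⟨i.val - (n - ℓ), by omega⟩) := by
                intro h; rw [Fin.ext_iff] at h; simp only at h; omega
              have hij : i = j := Fin.ext hj1.symm
              rw [if_neg h7, if_pos hij, if_pos (Or.inr (by simp only; omega)), CharTwo.sub_eq_add, zero_add]
            · have hij : ¬ (i = j) := fun h => hj1 (by rw [h])
              rw [if_neg hij, sub_zero]
              by_cases hj2 : j.val = i.val - (n - ℓ)
              · rw [if_pos (Fin.ext hj2), if_pos (Or.inl hj2)]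
              · rw [if_neg (fun h => hj2 (by rw [h])), if_neg (by simp only; omega)]
          · intro b _ hb
            have : ¬ (i.val = b.val ∨ i.val = b.val + (n - ℓ)) := by
              rintro (h | h)
              · have := b.2; omega
              · exact hb (Fin.ext (by simp only; omega))
            simp [this]
          · simp
        · have hpi : π i = i := by
            rw [hπ]; unfold swapFun; rw [dif_neg hi, if_neg hi2]
          rw [hpi, Finset.sum_eq_zero]
          · by_cases hij : i = j
            · rw [if_pos hij.symm, if_pos hij, sub_self]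
            · rw [if_neg (fun h => hij h.symm), if_neg hij, sub_self]
          · intro b _
            have : ¬ (i.val = b.val ∨ i.val = b.val + (n - ℓ)) := by have := b.2; omega
            simp [this]
    · ext k k'
      rw [Matrix.mul_apply]
      simp only [Matrix.of_apply]
      rw [Finset.sum_eq_single (⟨k.val, by have := k.2; omega⟩ : Fin n)]
      · simp only [if_true, one_mul, Matrix.one_apply, Fin.ext_iff]
        have h8 : (k.val = k'.val ∨ k.val = k'.val + (n - ℓ)) ↔ k.val = k'.val := by
          have := k.2; omega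
        simp only [h8]
      · intro b _ hb
        have : ¬ (b.val = k.val) := fun h => hb (Fin.ext h)
        simp [this]
      · simp
    · ext k k'
      rw [Matrix.mul_apply]
      simp only [Matrix.of_apply]
      rw [Finset.sum_eq_single (⟨k'.val, by have := k'.2; omega⟩ : Fin n)]
      · simp only [if_true, mul_one, Matrix.one_apply, Fin.ext_iff]
        have h8 : (k'.val = k.val ∨ k'.val = k.val + (n - ℓ)) ↔ k.val = k'.val := by
          have := k'.2; omega
        simp only [h8]
      · intro b _ hb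
        have : ¬ (b.val = k'.val) := fun h => hb (Fin.ext h)
        simp [this]
      · simp
  obtain ⟨a, ha⟩ : ∃ a : Matrix.SpecialLinearGroup (Fin n) F,
      (a : Matrix (Fin n) (Fin n) F) = A := ⟨⟨A, hdet⟩, rfl⟩
  have haU : a ∈ Cfsg.SU n F q := by
    intro u v
    have h9 : slToMat n F a = A := by rw [← ha]; rfl
    rw [h9]
    simp only [hermForm, hmv]
    exact Equiv.sum_comp (Equiv.mk π π hππ hππ) (fun i => u i * v i ^ q)
  refine ⟨⟨a, haU⟩, ha, ?_, ?_⟩
  · rw [Subgroup.orderOf_mk, orderOf_eq_prime_iff]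
    constructor
    · apply Matrix.SpecialLinearGroup.ext
      intro i j
      rw [pow_two, Matrix.SpecialLinearGroup.coe_mul, Matrix.SpecialLinearGroup.coe_one, ha, hsq]
    · intro h
      have h5 := congrArg (fun x : Matrix.SpecialLinearGroup (Fin n) F => (x : Matrix (Fin n) (Fin n) F)) h
      simp only [Matrix.SpecialLinearGroup.coe_one, ha] at h5
      rw [h5, sub_self, Matrix.rank_zero] at hrank
      omega
  · simp only [ha]; exact hrank

end Cfsg.Agent.S2165
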