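import Cfsg.Statements.S2164
import Mathlib
import Cfsg.Agent.H5_Inv2U
import Cfsg.Agent.S2165

set_option autoImplicit false
open Cfsg

namespace Cfsg.Agent.S2164

open Cfsg.Agent.H5 Cfsg.Agent.H5.I2 Cfsg.Agent.H5.Unit Matrix Module

/-- the matrix of an element of `SU` -/
abbrev mt {F : Type*} [Field F] {n q : ℕ} (a : Cfsg.SU n F q) : Matrix (Fin n) (Fin n) F :=
  ((a : Matrix.SpecialLinearGroup (Fin n) F) : Matrix (Fin n) (Fin n) F)

theorem sq_one_of {F : Type*} [Field F] [CharP F 2] {y : F} (h : y * y = 1) : y = 1 := by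
  have h2 : (2 : F) = 0 := CharTwo.two_eq_zero
  have : (y - 1) ^ 2 = 0 := by linear_combination h - (y - 1) * h2
  exact sub_eq_zero.1 (pow_eq_zero_iff two_ne_zero |>.1 this)

theorem exists_diag {F : Type*} [Field F] [Fintype F] [CharP F 2] {n q : ℕ} (hF : Fintype.card F = q ^ 2) (ℓ : ℕ) (h1 : 1 ≤ ℓ)
    (h2 : 2 * ℓ ≤ n) (p : Cfsg.SU n F q)
    (hp : mt p = Matrix.of (fun i j : Fin n => if (j.val < ℓ ∧ i.val = j.val + (n - ℓ)) ∨ (i.val < ℓ ∧ j.val = i.val + (n - ℓ)) ∨ (i = j ∧ ℓ ≤ i.val ∧ i.val < n - ℓ) then (1 : F) else 0))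
    (u : F) (hu : u ^ (q + 1) = 1) :
    ∃ D : Cfsg.GU n F q, D * suHom n F q p = suHom n F q p * D ∧ ((D : GL (Fin n) F) : Matrix (Fin n) (Fin n) F).det = u := by
  obtain ⟨x, hx⟩ := FiniteField.isSquare_of_char_two (ringChar.eq_iff.2 inferInstance) u
  have hxq : x ^ (q + 1) = 1 := by
    apply sq_one_of
    rw [← mul_pow, ← hx, hu]
  have hx0 : x ≠ 0 := by
    rintro rfl
    rw [zero_pow (by omega)] at hxq
    exact zero_ne_one hxq
  let d : Fin n → Fˣ := fun i => if i.val = 0 ∨ i.val = n - ℓ then Units.mk0 x hx0 else 1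
  let g : GL (Fin n) F := ⟨Matrix.diagonal (fun i => (d i : F)), Matrix.diagonal (fun i => (((d i)⁻¹ : Fˣ) : F)),
    by rw [Matrix.diagonal_mul_diagonal]; simp, by rw [Matrix.diagonal_mul_diagonal]; simp⟩
  have hg : (g : Matrix (Fin n) (Fin n) F) = Matrix.diagonal (fun i => (d i : F)) := rfl
  have hd : ∀ i, (d i : F) ^ (q + 1) = 1 := by
    intro i
    simp only [d]
    split_ifs
    · exact hxq
    · simp
  refine ⟨⟨g, diag_mem_GU hF d hd g hg⟩, ?_, ?_⟩
  · apply Subtype.ext
    apply Units.ext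
    change Matrix.diagonal (fun i => (d i : F)) * mt p = mt p * Matrix.diagonal (fun i => (d i : F))
    ext i j
    rw [Matrix.diagonal_mul, Matrix.mul_diagonal, hp, Matrix.of_apply]
    split_ifs with h
    · rw [mul_one, one_mul]
      have hij : (i.val = 0 ∨ i.val = n - ℓ) ↔ (j.val = 0 ∨ j.val = n - ℓ) := by
        rcases h with h | h | ⟨h, h'⟩
        · have := i.2; have := j.2; omega
        · have := i.2; have := j.2; omega
        · rw [h]
      simp only [d, hij]
    · simp
  · change (Matrix.diagonal (fun i => (d i : F))).det = u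
    rw [Matrix.det_diagonal]
    have h3 : ∀ i : Fin n, (d i : F) = if i.val = 0 ∨ i.val = n - ℓ then x else 1 := by
      intro i
      simp only [d]
      split_ifs <;> simp
    rw [Finset.prod_congr rfl (fun i _ => h3 i), ← Finset.prod_filter, Finset.prod_const]
    have h4 : (Finset.univ.filter (fun i : Fin n => i.val = 0 ∨ i.val = n - ℓ)) =
        {⟨0, by omega⟩, ⟨n - ℓ, by omega⟩} := by
      ext i
      simp [Fin.ext_iff]
    rw [h4, Finset.card_pair (by simp [Fin.ext_iff]; omega), pow_two, hx]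

theorem su_conj_std {F : Type*} [Field F] [Fintype F] [CharP F 2] {n q : ℕ} (hF : Fintype.card F = q ^ 2)
    {a p : Cfsg.SU n F q} (ha : a ^ 2 = 1) (hp : p ^ 2 = 1) (hr : (mt a - 1).rank = (mt p - 1).rank)
    (hD : ∀ u : F, u ^ (q + 1) = 1 → ∃ D : Cfsg.GU n F q, D * suHom n F q p = suHom n F q p * D ∧
      ((D : GL (Fin n) F) : Matrix (Fin n) (Fin n) F).det = u) : IsConj a p := by
  obtain ⟨h, hh⟩ := gu_conj hF (a := suHom n F q a) (b := suHom n F q p) (by rw [← map_pow, ha, map_one])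
    (by rw [← map_pow, hp, map_one]) hr
  have hdet := det_GU hF h.2
  have hdet0 : ((h : GL (Fin n) F) : Matrix (Fin n) (Fin n) F).det ≠ 0 := by
    intro h0
    rw [h0, zero_pow (by omega)] at hdet
    exact zero_ne_one hdet
  obtain ⟨D, hD1, hD2⟩ := hD (((h : GL (Fin n) F) : Matrix (Fin n) (Fin n) F).det)⁻¹ (by rw [inv_pow, hdet, inv_one])
  have hmem : D * h ∈ (suHom n F q).range := by
    rw [range_suHom hF, MonoidHom.mem_ker]
    apply Subtype.ext
    ext
    change (((D : GL (Fin n) F) : Matrix (Fin n) (Fin n) F) * ((h : GL (Fin n) F) : Matrix (Fin n) (Fin n) F)).det = 1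
    rw [Matrix.det_mul, hD2, inv_mul_cancel₀ hdet0]
  obtain ⟨g, hg⟩ := hmem
  rw [isConj_iff]
  refine ⟨g, ?_⟩
  apply suHom_injective
  rw [_root_.map_mul, _root_.map_mul, _root_.map_inv, hg, _root_.mul_inv_rev]
  calc D * h * suHom n F q a * (h⁻¹ * D⁻¹) = D * (h * suHom n F q a * h⁻¹) * D⁻¹ := by group
    _ = suHom n F q p := by rw [hh, hD1, mul_inv_cancel_right]

theorem rank_bounds {F : Type*} [Field F] [Fintype F] [CharP F 2] {n q : ℕ}
    {a : Cfsg.SU n F q} (ha : orderOf a = 2) : 1 ≤ (mt a - 1).rank ∧ 2 * (mt a - 1).rank ≤ n := by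
  have ha2 : mt a * mt a = 1 := by
    have : a * a = 1 := by rw [← pow_two]; exact orderOf_dvd_iff_pow_eq_one.1 ha.dvd
    exact congrArg (fun x : Cfsg.SU n F q => mt x) this
  constructor
  · by_contra hlt
    have h0 : (mt a - 1).rank = 0 := by omega
    rw [Matrix.rank, Submodule.finrank_eq_zero, LinearMap.range_eq_bot] at h0
    have : mt a = 1 := by
      apply ext_mulVec
      intro v
      have := LinearMap.congr_fun h0 v
      rw [Matrix.mulVecLin_apply, Matrix.sub_mulVec, LinearMap.zero_apply, sub_eq_zero] at this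
      exact this
    have h1 : a = 1 := by
      apply Subtype.ext
      apply Subtype.ext
      exact this
    rw [h1, orderOf_one] at ha
    omega
  · have h1 := LinearMap.finrank_range_add_finrank_ker (mt a - 1).mulVecLin
    have h2 : LinearMap.range (mt a - 1).mulVecLin ≤ LinearMap.ker (mt a - 1).mulVecLin := by
      rintro _ ⟨v, rfl⟩
      rw [LinearMap.mem_ker, Matrix.mulVecLin_apply, Matrix.mulVecLin_apply, Matrix.mulVec_mulVec]
      have h2 : (2 : F) = 0 := CharTwo.two_eq_zero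
      have : (mt a - 1) * (mt a - 1) = 0 := by
        have e : (mt a - 1) * (mt a - 1) = (2 : F) • (1 - mt a) := by
          rw [mul_sub, sub_mul, ha2, mul_one, one_mul, two_smul]
          abel
        rw [e, h2, zero_smul]
      rw [this, Matrix.zero_mulVec]
    have h3 := Submodule.finrank_mono h2
    rw [Module.finrank_fin_fun] at h1
    change 2 * finrank F (LinearMap.range (mt a - 1).mulVecLin) ≤ n
    omega

theorem su_conj {F : Type*} [Field F] [Fintype F] [CharP F 2] {n q : ℕ} (hF : Fintype.card F = q ^ 2) (hn : 3 ≤ n)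
    {a b : Cfsg.SU n F q} (ha : orderOf a = 2) (hb : orderOf b = 2) (hr : (mt a - 1).rank = (mt b - 1).rank) :
    IsConj a b := by
  obtain ⟨h1, h2⟩ := rank_bounds ha
  obtain ⟨p, hp1, hp2, hp3⟩ := Cfsg.Agent.S2165.result hF hn _ h1 h2
  have hD := exists_diag hF _ h1 h2 p hp1
  have e1 := su_conj_std hF (orderOf_dvd_iff_pow_eq_one.1 ha.dvd) (orderOf_dvd_iff_pow_eq_one.1 hp2.dvd) hp3.symm hD
  have e2 := su_conj_std hF (orderOf_dvd_iff_pow_eq_one.1 hb.dvd) (orderOf_dvd_iff_pow_eq_one.1 hp2.dvd)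
    (hr.symm.trans hp3.symm) hD
  exact e1.trans e2.symm

theorem sl_conj_rank {F : Type*} [Field F] {n : ℕ} {a b : Matrix.SpecialLinearGroup (Fin n) F} (h : IsConj a b) :
    ((a : Matrix (Fin n) (Fin n) F) - 1).rank = ((b : Matrix (Fin n) (Fin n) F) - 1).rank := by
  obtain ⟨c, hc⟩ := isConj_iff.1 h
  have hc1 : (c : Matrix (Fin n) (Fin n) F) * (a : Matrix (Fin n) (Fin n) F) *
      ((c⁻¹ : Matrix.SpecialLinearGroup (Fin n) F) : Matrix (Fin n) (Fin n) F) = (b : Matrix (Fin n) (Fin n) F) :=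
    congrArg Subtype.val hc
  have hc2 : (c : Matrix (Fin n) (Fin n) F) *
      ((c⁻¹ : Matrix.SpecialLinearGroup (Fin n) F) : Matrix (Fin n) (Fin n) F) = 1 :=
    congrArg Subtype.val (mul_inv_cancel c)
  exact (rank_conj hc2 hc1).symm

/-- Conjugacy of involutions in the special unitary group SU_n(q), q even, n ≥ 3, realised over the field F with q² elements as the matrices of determinant 1 preserving the form Σ u_i v_i^q: for two elements of order 2 of SU_n(q) the following are equivalent — they are conjugate in SU_n(q); they are conjugate in SL_n(F); the matrices a − 1 and b − 1 have the same rank. -/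
theorem result {F : Type*} [Field F] [Fintype F] [CharP F 2] {n q : ℕ} (hF : Fintype.card F = q ^ 2) (hn : 3 ≤ n) (a b : ↥(Cfsg.SU n F q)) (ha : orderOf a = 2) (hb : orderOf b = 2) :
    (IsConj a b ↔ IsConj (a : Matrix.SpecialLinearGroup (Fin n) F) (b : Matrix.SpecialLinearGroup (Fin n) F)) ∧
    (IsConj a b ↔ (((a : Matrix.SpecialLinearGroup (Fin n) F) : Matrix (Fin n) (Fin n) F) - 1).rank = (((b : Matrix.SpecialLinearGroup (Fin n) F) : Matrix (Fin n) (Fin n) F) - 1).rank) := by
  have hsl : IsConj a b → IsConj (a : Matrix.SpecialLinearGroup (Fin n) F) (b : Matrix.SpecialLinearGroup (Fin n) F) :=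
    fun h => (Cfsg.SU n F q).subtype.map_isConj h
  refine ⟨⟨hsl, fun h => su_conj hF hn ha hb (sl_conj_rank h)⟩, ⟨fun h => sl_conj_rank (hsl h), fun h => su_conj hF hn ha hb h⟩⟩

end Cfsg.Agent.S2164
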