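import Cfsg.Statements.S2167
import Mathlib
import Cfsg.Agent.H5_Concrete

set_option autoImplicit false
open Cfsg

namespace Cfsg.Agent.S2167

open Module Cfsg.Agent.H5.Conc

section
variable {F V : Type*} [Field F] [AddCommGroup V] [Module F V] [FiniteDimensional F V]

/-- a subspace nondegenerate for an alternating form has even dimension -/
theorem even_of_nondeg (B : LinearMap.BilinForm F V) (hB : B.IsAlt) : ∀ (k : ℕ) (W : Submodule F V), finrank F W = k →
    (∀ w ∈ W, (∀ u ∈ W, B w u = 0) → w = 0) → Even k := by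
  intro k
  induction k using Nat.strong_induction_on with
  | _ k ih =>
    intro W hW hnd
    rcases Nat.eq_zero_or_pos k with rfl | hk
    · exact Even.zero
    have hWb : W ≠ ⊥ := by
      rintro rfl
      rw [finrank_bot] at hW
      omega
    obtain ⟨x, hxW, hx0⟩ := Submodule.exists_mem_ne_zero_of_ne_bot hWb
    obtain ⟨y, hyW, hxy⟩ : ∃ y ∈ W, B x y ≠ 0 := by
      by_contra hcon
      push Not at hcon
      exact hx0 (hnd x hxW hcon)
    have hyx : B y x = - B x y := by rw [← hB.neg_eq]
    let φ : W →ₗ[F] F × F := LinearMap.prod ((B x).comp W.subtype) ((B y).comp W.subtype)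
    have hφ : Function.Surjective φ := by
      rintro ⟨c, d⟩
      refine ⟨(c * (B x y)⁻¹) • ⟨y, hyW⟩ - (d * (B x y)⁻¹) • ⟨x, hxW⟩, ?_⟩
      apply Prod.ext
      · show B x ((c * (B x y)⁻¹) • y - (d * (B x y)⁻¹) • x) = c
        rw [map_sub, map_smul, map_smul, hB x, smul_zero, sub_zero, smul_eq_mul]
        field_simp
      · show B y ((c * (B x y)⁻¹) • y - (d * (B x y)⁻¹) • x) = d
        rw [map_sub, map_smul, map_smul, hB y, smul_zero, zero_sub, smul_eq_mul, hyx]
        field_simp
    have hker := LinearMap.finrank_range_add_finrank_ker φ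
    rw [LinearMap.range_eq_top.mpr hφ, finrank_top, hW] at hker
    have h2 : finrank F (F × F) = 2 := by simp
    rw [h2] at hker
    let W' : Submodule F V := (LinearMap.ker φ).map W.subtype
    have hW' : finrank F W' = k - 2 := by
      rw [Submodule.finrank_map_subtype_eq]; omega
    have hmem : ∀ v, v ∈ W' ↔ v ∈ W ∧ B x v = 0 ∧ B y v = 0 := by
      intro v
      constructor
      · rintro ⟨⟨w, hw⟩, hwk, rfl⟩
        have h3 : φ ⟨w, hw⟩ = 0 := hwk
        exact ⟨hw, congrArg Prod.fst h3, congrArg Prod.snd h3⟩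
      · rintro ⟨hw, h3, h4⟩
        exact ⟨⟨v, hw⟩, Prod.ext h3 h4, rfl⟩
    have hev := ih (k - 2) (by omega) W' hW' (by
      intro w hw hwu
      obtain ⟨hwW, hxw, hyw⟩ := (hmem w).mp hw
      apply hnd w hwW
      intro u hu
      -- decompose `u`
      set u' := u - ((B x u) * (B x y)⁻¹) • y + ((B y u) * (B x y)⁻¹) • x with hu'
      have hu'W : u' ∈ W' := by
        rw [hmem]
        refine ⟨W.add_mem (W.sub_mem hu (W.smul_mem _ hyW)) (W.smul_mem _ hxW), ?_, ?_⟩
        · rw [hu', map_add, map_sub, map_smul, map_smul, hB x, smul_zero, add_zero, smul_eq_mul]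
          field_simp
          ring
        · rw [hu', map_add, map_sub, map_smul, map_smul, hB y, smul_zero, sub_zero, smul_eq_mul, hyx]
          field_simp
          ring
      have h5 := hwu u' hu'W
      have hwx : B w x = 0 := by rw [← hB.neg_eq, hxw, neg_zero]
      have hwy : B w y = 0 := by rw [← hB.neg_eq, hyw, neg_zero]
      rw [hu', map_add, map_sub, map_smul, map_smul, hwx, hwy, smul_zero, smul_zero, sub_zero, add_zero] at h5
      exact h5)
    have h3 : k = (k - 2) + 2 := by omega
    rw [h3]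
    exact hev.add (by norm_num)

/-- the rank of an alternating form is even -/
theorem even_rank (f : LinearMap.BilinForm F V) (hnd : ∀ v, (∀ u, f u v = 0) → v = 0) (n : V →ₗ[F] V)
    (hn : ∀ v, f v (n v) = 0) : Even (finrank F (LinearMap.range n)) := by
  let B : LinearMap.BilinForm F V := f.compl₂ n
  have hBapp : ∀ v w, B v w = f v (n w) := fun v w => rfl
  have hB : B.IsAlt := fun v => by rw [hBapp, hn]
  obtain ⟨W, hW⟩ := Submodule.exists_isCompl (LinearMap.ker n)
  have h1 := Submodule.finrank_add_eq_of_isCompl hW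
  have h2 := LinearMap.finrank_range_add_finrank_ker n
  have h3 : finrank F W = finrank F (LinearMap.range n) := by omega
  rw [← h3]
  apply even_of_nondeg B hB _ W rfl
  intro w hw hwu
  have h4 : ∀ v, B v w = 0 := by
    intro v
    obtain ⟨a, ha, b, hb, rfl⟩ := Submodule.mem_sup.mp (show v ∈ LinearMap.ker n ⊔ W by rw [hW.sup_eq_top]; trivial)
    have h5 : B w (a + b) = 0 := by
      rw [map_add, hwu b hb, add_zero, hBapp, LinearMap.mem_ker.mp ha, map_zero]
    rw [← hB.neg_eq, h5, neg_zero]
  have h5 : n w = 0 := hnd _ (fun u => by rw [← hBapp]; exact h4 u)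
  have h6 : w ∈ LinearMap.ker n ⊓ W := ⟨h5, hw⟩
  rw [hW.inf_eq_bot] at h6
  exact (Submodule.mem_bot F).mp h6
end

/-- For an involution t of the symplectic group Sp_{2m}(F), m ≥ 2, F a finite field of characteristic two (matrices A with A J Aᵀ = J acting on column vectors, alternating form f(u, v) = u ⬝ (J v)): the set V(t) of vectors v with f(v, t v) = 0 has either q^{2m} or q^{2m−1} elements, q the order of F (it is a subspace of codimension at most 1), and if it is the whole space then t − 1 has even rank. -/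
theorem result {F : Type*} [Field F] [Fintype F] [CharP F 2] {m : ℕ} (hm : 2 ≤ m) (a : ↥(Matrix.symplecticGroup (Fin m) F)) (ha : orderOf a = 2) :
    (Nat.card {v : Fin m ⊕ Fin m → F // Cfsg.sympForm m F v (Matrix.mulVec ((a : ↥(Matrix.symplecticGroup (Fin m) F)) : Matrix (Fin m ⊕ Fin m) (Fin m ⊕ Fin m) F) v) = 0} = Fintype.card F ^ (2 * m) ∨ Nat.card {v : Fin m ⊕ Fin m → F // Cfsg.sympForm m F v (Matrix.mulVec ((a : ↥(Matrix.symplecticGroup (Fin m) F)) : Matrix (Fin m ⊕ Fin m) (Fin m ⊕ Fin m) F) v) = 0} * Fintype.card F = Fintype.card F ^ (2 * m)) ∧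
    ((∀ v : Fin m ⊕ Fin m → F, Cfsg.sympForm m F v (Matrix.mulVec ((a : ↥(Matrix.symplecticGroup (Fin m) F)) : Matrix (Fin m ⊕ Fin m) (Fin m ⊕ Fin m) F) v) = 0) → Even (((a : ↥(Matrix.symplecticGroup (Fin m) F)) : Matrix (Fin m ⊕ Fin m) (Fin m ⊕ Fin m) F) - 1).rank) := by
  classical
  have h2 : (2 : F) = 0 := by
    have := CharP.cast_eq_zero F 2
    exact_mod_cast this
  set A : Matrix (Fin m ⊕ Fin m) (Fin m ⊕ Fin m) F := ((a : ↥(Matrix.symplecticGroup (Fin m) F)) : Matrix (Fin m ⊕ Fin m) (Fin m ⊕ Fin m) F) with hA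
  have hAA : A * A = 1 := by
    have h3 : a ^ 2 = 1 := by rw [← ha, pow_orderOf_eq_one]
    rw [pow_two] at h3
    exact congrArg Subtype.val h3
  have hAf : ∀ u v, Cfsg.sympForm m F (A.mulVec u) (A.mulVec v) = Cfsg.sympForm m F u v :=
    (mem_symplecticGroup_iff A).mp a.2
  have hAv : ∀ v, A.mulVec (A.mulVec v) = v := by
    intro v
    rw [Matrix.mulVec_mulVec, hAA, Matrix.one_mulVec]
  have hB := sympB_alt m F
  have hBa := sympB_apply m F
  have hsymm : ∀ u v, Cfsg.sympForm m F u v = Cfsg.sympForm m F v u := by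
    intro u v
    rw [← hBa, ← hBa, ← hB.neg_eq, neg_eq_iff_add_eq_zero, ← two_mul, h2, zero_mul]
  have hself : ∀ v, Cfsg.sympForm m F v v = 0 := fun v => by rw [← hBa]; exact hB v
  -- additivity
  let q : (Fin m ⊕ Fin m → F) →+ F :=
    { toFun := fun v => Cfsg.sympForm m F v (A.mulVec v)
      map_zero' := by rw [← hBa]; simp
      map_add' := by
        intro v w
        have h3 : Cfsg.sympForm m F w (A.mulVec v) = Cfsg.sympForm m F v (A.mulVec w) := by
          rw [← hAf, hAv, hsymm]
        have h4 : Cfsg.sympForm m F (v + w) (A.mulVec (v + w)) = Cfsg.sympForm m F v (A.mulVec v) + Cfsg.sympForm m F v (A.mulVec w) +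
            (Cfsg.sympForm m F w (A.mulVec v) + Cfsg.sympForm m F w (A.mulVec w)) := by
          rw [Matrix.mulVec_add, ← hBa, ← hBa, ← hBa, ← hBa, ← hBa, map_add, map_add, LinearMap.add_apply, LinearMap.add_apply]
          ring
        rw [h4, h3]
        linear_combination (Cfsg.sympForm m F v (A.mulVec w)) * h2 }
  have hq : ∀ v, q v = Cfsg.sympForm m F v (A.mulVec v) := fun v => rfl
  have hsm : ∀ (c : F) v, q (c • v) = c ^ 2 * q v := by
    intro c v
    rw [hq, hq, Matrix.mulVec_smul, ← hBa, ← hBa, map_smul, map_smul, LinearMap.smul_apply, smul_eq_mul, smul_eq_mul]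
    ring
  constructor
  · have hcard : Nat.card (Fin m ⊕ Fin m → F) = Fintype.card F ^ (2 * m) := by
      rw [Nat.card_eq_fintype_card, Fintype.card_fun, Fintype.card_sum, Fintype.card_fin, two_mul]
    have hkc := AddSubgroup.card_mul_index q.ker
    rw [AddSubgroup.index_ker, hcard] at hkc
    have hkc' : Nat.card {v : Fin m ⊕ Fin m → F // Cfsg.sympForm m F v (A.mulVec v) = 0} = Nat.card q.ker := rfl
    rw [hkc']
    by_cases h0 : ∀ v, q v = 0
    · left
      have h3 : q.range = ⊥ := by
        rw [eq_bot_iff]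
        rintro _ ⟨v, rfl⟩
        rw [h0 v]; exact AddSubgroup.zero_mem _
      rw [h3, AddSubgroup.card_bot, mul_one] at hkc
      exact hkc
    · right
      push Not at h0
      obtain ⟨v, hv⟩ := h0
      have h3 : q.range = ⊤ := by
        rw [eq_top_iff]
        intro b _
        obtain ⟨c, hc⟩ := FiniteField.isSquare_of_char_two (ringChar.eq F 2 ▸ rfl : ringChar F = 2) (b * (q v)⁻¹)
        refine ⟨c • v, ?_⟩
        rw [hsm, pow_two, ← hc]
        field_simp
      rw [h3, Nat.card_congr AddSubgroup.topEquiv.toEquiv, Nat.card_eq_fintype_card (α := F)] at hkc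
      exact hkc
  · intro h0
    rw [Matrix.rank]
    apply even_rank (sympB m F) _ _ _
    · intro v hv
      have h3 := sympFrm_nondeg (m := m) (F := F)
      apply h3
      intro u
      have h4 := hv u
      show sympB m F v u = 0
      rw [← hB.neg_eq, h4, neg_zero]
    · intro v
      rw [hBa, Matrix.mulVecLin_apply, Matrix.sub_mulVec, Matrix.one_mulVec, ← hBa, map_sub, hBa, hBa, h0 v, hself, sub_zero]

end Cfsg.Agent.S2167
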