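import Cfsg.Statements.S2166
import Mathlib
import Cfsg.Agent.H5_Symp
import Cfsg.Agent.S2167
import Cfsg.Agent.H5_Inv2
import Cfsg.Agent.H5_Sym2

set_option autoImplicit false
open Cfsg

namespace Cfsg.Agent.S2166

open Cfsg.Agent.H5 Cfsg.Agent.H5.Symp Cfsg.Agent.H5.Conc Cfsg.Agent.H5.I2 Matrix Module

theorem sp_sq {F : Type*} [Field F] {m : ℕ} {a : Matrix.symplecticGroup (Fin m) F} (ha : orderOf a = 2)
    (v : Fin m ⊕ Fin m → F) : (spEquiv m F a).1 ((spEquiv m F a).1 v) = v := by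
  have h : a * a = 1 := by
    rw [← pow_two]; exact orderOf_dvd_iff_pow_eq_one.1 ha.dvd
  have h1 : spEquiv m F a * spEquiv m F a = 1 := by rw [← _root_.map_mul, h, _root_.map_one]
  exact congrArg (fun x : (sympFrm m F).isom => x.1 v) h1

theorem sp_bf {F : Type*} [Field F] {m : ℕ} {a : Matrix.symplecticGroup (Fin m) F} (ha : orderOf a = 2) :
    (∀ w, bf (sympFrm m F) (spEquiv m F a).1 w w = 0) ↔
      ∀ v, Cfsg.sympForm m F v ((a : Matrix (Fin m ⊕ Fin m) (Fin m ⊕ Fin m) F) *ᵥ v) = 0 := by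
  have key : ∀ v, bf (sympFrm m F) (spEquiv m F a).1 ⟨nn (spEquiv m F a).1 v, v, rfl⟩ ⟨nn (spEquiv m F a).1 v, v, rfl⟩ =
      Cfsg.sympForm m F v ((a : Matrix (Fin m ⊕ Fin m) (Fin m ⊕ Fin m) F) *ᵥ v) := by
    intro v
    rw [bf_eq (spEquiv m F a).2 (sp_sq ha) v _ _ rfl]
    change (sympFrm m F).B v (nn (spEquiv m F a).1 v) = _
    rw [nn_apply, sympFrm_B, sub_right, Cfsg.Agent.H5.Symp.self, sub_zero, spEquiv_apply]
  constructor
  · intro h v
    rw [← key]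
    exact h _
  · rintro h ⟨_, v, rfl⟩
    rw [key]
    exact h v

theorem sp_conj {F : Type*} [Field F] [Fintype F] [CharP F 2] {m : ℕ} {a b : Matrix.symplecticGroup (Fin m) F}
    (ha : orderOf a = 2) (hb : orderOf b = 2)
    (hr : ((a : Matrix (Fin m ⊕ Fin m) (Fin m ⊕ Fin m) F) - 1).rank = ((b : Matrix (Fin m ⊕ Fin m) (Fin m ⊕ Fin m) F) - 1).rank)
    (hab : (∀ v, Cfsg.sympForm m F v ((a : Matrix (Fin m ⊕ Fin m) (Fin m ⊕ Fin m) F) *ᵥ v) = 0) ↔
      ∀ v, Cfsg.sympForm m F v ((b : Matrix (Fin m ⊕ Fin m) (Fin m ⊕ Fin m) F) *ᵥ v) = 0) : IsConj a b := by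
  have h2 : (2 : F) = 0 := CharTwo.two_eq_zero
  have hsq : ∀ x : F, IsSquare x := FiniteField.isSquare_of_char_two (ringChar.eq_iff.2 inferInstance)
  have hnd := sympFrm_nondeg m F
  have hsy : ∀ {c : Matrix.symplecticGroup (Fin m) F} (hc : orderOf c = 2) x y,
      bf (sympFrm m F) (spEquiv m F c).1 x y = bf (sympFrm m F) (spEquiv m F c).1 y x := by
    intro c hc x y
    rw [bf_symm (spEquiv m F c).2 (sp_sq hc) y x]
    rw [RingHom.id_apply]
    linear_combination (-bf (sympFrm m F) (spEquiv m F c).1 y x) * h2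
  have hn : ∀ {c : Matrix.symplecticGroup (Fin m) F} (hc : orderOf c = 2) x,
      (∀ y, bf (sympFrm m F) (spEquiv m F c).1 x y = 0) → x = 0 := fun {c} hc x hx =>
    bf_nondeg hnd (spEquiv m F c).2 (sp_sq hc) x hx
  have hd : finrank F (LinearMap.range (nn (spEquiv m F a).1)) = finrank F (LinearMap.range (nn (spEquiv m F b).1)) := by
    rw [finrank_range_nn (A := (a : Matrix (Fin m ⊕ Fin m) (Fin m ⊕ Fin m) F)) (fun v => spEquiv_apply m F a v),
      finrank_range_nn (A := (b : Matrix (Fin m ⊕ Fin m) (Fin m ⊕ Fin m) F)) (fun v => spEquiv_apply m F b v), hr]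
  rw [← sp_bf ha, ← sp_bf hb] at hab
  obtain ⟨φ, hφ⟩ : ∃ φ : LinearMap.range (nn (spEquiv m F a).1) ≃ₗ[F] LinearMap.range (nn (spEquiv m F b).1),
      ∀ x y, bf (sympFrm m F) (spEquiv m F b).1 (φ x) (φ y) = bf (sympFrm m F) (spEquiv m F a).1 x y := by
    by_cases hal : ∀ w, bf (sympFrm m F) (spEquiv m F a).1 w w = 0
    · exact Cfsg.Agent.H5.Sym2.alt_isometric _ hal (hn ha) _ (hab.1 hal) (hn hb) hd
    · have hbl : ¬ ∀ w, bf (sympFrm m F) (spEquiv m F b).1 w w = 0 := fun h => hal (hab.2 h)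
      push Not at hal hbl
      exact Cfsg.Agent.H5.Sym2.ortho_isometric h2 hsq _ (hsy ha) (hn ha) hal _ (hsy hb) (hn hb) hbl hd
  obtain ⟨g, hg, -, hg2⟩ := conj_of_equiv hnd (spEquiv m F a).2 (sp_sq ha) (spEquiv m F b).2 (sp_sq hb) φ hφ
    (fun w => rfl)
  rw [isConj_iff]
  refine ⟨(spEquiv m F).symm ⟨g, hg⟩, ?_⟩
  apply (spEquiv m F).injective
  rw [_root_.map_mul, _root_.map_mul, _root_.map_inv, MulEquiv.apply_symm_apply, mul_inv_eq_iff_eq_mul]
  apply Subtype.ext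
  apply LinearEquiv.ext
  intro v
  exact hg2 v

/-- Conjugacy of involutions in the symplectic group Sp_{2m}(F), F a finite field of characteristic two, m ≥ 2 (Sp taken as the matrices A with A J Aᵀ = J, acting on column vectors, with the alternating form f(u, v) = u ⬝ (J v)). For an involution t write V(t) for the set of vectors v with f(v, t v) = 0 (a subspace). Two involutions a, b are conjugate in Sp_{2m}(F) exactly when a − 1 and b − 1 have the same rank and, in case that rank is even, V(a) and V(b) have the same number of elements. -/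
theorem result {F : Type*} [Field F] [Fintype F] [CharP F 2] {m : ℕ} (hm : 2 ≤ m) (a b : ↥(Matrix.symplecticGroup (Fin m) F)) (ha : orderOf a = 2) (hb : orderOf b = 2) :
    IsConj a b ↔ ((((a : ↥(Matrix.symplecticGroup (Fin m) F)) : Matrix (Fin m ⊕ Fin m) (Fin m ⊕ Fin m) F) - 1).rank = (((b : ↥(Matrix.symplecticGroup (Fin m) F)) : Matrix (Fin m ⊕ Fin m) (Fin m ⊕ Fin m) F) - 1).rank ∧
      (Even (((a : ↥(Matrix.symplecticGroup (Fin m) F)) : Matrix (Fin m ⊕ Fin m) (Fin m ⊕ Fin m) F) - 1).rank → Nat.card {v : Fin m ⊕ Fin m → F // Cfsg.sympForm m F v (Matrix.mulVec ((a : ↥(Matrix.symplecticGroup (Fin m) F)) : Matrix (Fin m ⊕ Fin m) (Fin m ⊕ Fin m) F) v) = 0} = Nat.card {v : Fin m ⊕ Fin m → F // Cfsg.sympForm m F v (Matrix.mulVec ((b : ↥(Matrix.symplecticGroup (Fin m) F)) : Matrix (Fin m ⊕ Fin m) (Fin m ⊕ Fin m) F) v) = 0})) := by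
  constructor
  · intro h
    obtain ⟨c, hc⟩ := isConj_iff.1 h
    have hc1 : (c : Matrix (Fin m ⊕ Fin m) (Fin m ⊕ Fin m) F) * (a : Matrix (Fin m ⊕ Fin m) (Fin m ⊕ Fin m) F) *
        ((c⁻¹ : Matrix.symplecticGroup (Fin m) F) : Matrix (Fin m ⊕ Fin m) (Fin m ⊕ Fin m) F) =
        (b : Matrix (Fin m ⊕ Fin m) (Fin m ⊕ Fin m) F) := congrArg Subtype.val hc
    have hc2 : (c : Matrix (Fin m ⊕ Fin m) (Fin m ⊕ Fin m) F) *
        ((c⁻¹ : Matrix.symplecticGroup (Fin m) F) : Matrix (Fin m ⊕ Fin m) (Fin m ⊕ Fin m) F) = 1 :=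
      congrArg Subtype.val (mul_inv_cancel c)
    have hc3 : ((c⁻¹ : Matrix.symplecticGroup (Fin m) F) : Matrix (Fin m ⊕ Fin m) (Fin m ⊕ Fin m) F) *
        (c : Matrix (Fin m ⊕ Fin m) (Fin m ⊕ Fin m) F) = 1 := congrArg Subtype.val (inv_mul_cancel c)
    refine ⟨(rank_conj hc2 hc1).symm, fun _ => ?_⟩
    have hiso := (mem_symplecticGroup_iff (c : Matrix (Fin m ⊕ Fin m) (Fin m ⊕ Fin m) F)).1 c.2
    have hv : ∀ v, Cfsg.sympForm m F ((c : Matrix (Fin m ⊕ Fin m) (Fin m ⊕ Fin m) F) *ᵥ v)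
        ((b : Matrix (Fin m ⊕ Fin m) (Fin m ⊕ Fin m) F) *ᵥ ((c : Matrix (Fin m ⊕ Fin m) (Fin m ⊕ Fin m) F) *ᵥ v)) =
        Cfsg.sympForm m F v ((a : Matrix (Fin m ⊕ Fin m) (Fin m ⊕ Fin m) F) *ᵥ v) := by
      intro v
      rw [← hiso v, Matrix.mulVec_mulVec, Matrix.mulVec_mulVec, ← hc1]
      congr 2
      rw [mul_assoc _ _ (c : Matrix (Fin m ⊕ Fin m) (Fin m ⊕ Fin m) F), hc3, mul_one]
    refine Nat.card_congr ((spEquiv m F c).1.toEquiv.subtypeEquiv (fun v => ?_))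
    rw [← hv]
    exact Iff.rfl
  · rintro ⟨hr, hcard⟩
    have hfin : ∀ (c : Matrix.symplecticGroup (Fin m) F), (∀ v, Cfsg.sympForm m F v ((c : Matrix (Fin m ⊕ Fin m) (Fin m ⊕ Fin m) F) *ᵥ v) = 0) ↔
        Nat.card (Fin m ⊕ Fin m → F) ≤ Nat.card {v : Fin m ⊕ Fin m → F // Cfsg.sympForm m F v ((c : Matrix (Fin m ⊕ Fin m) (Fin m ⊕ Fin m) F) *ᵥ v) = 0} := by
      intro c
      constructor
      · intro h
        exact (Nat.card_congr (Equiv.subtypeUnivEquiv h)).ge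
      · intro h v
        obtain ⟨w, hw⟩ := (Subtype.val_injective.bijective_of_nat_card_le h).2 v
        rw [← hw]; exact w.2
    apply sp_conj ha hb hr
    have evA := (Cfsg.Agent.S2167.result hm a ha).2
    have evB := (Cfsg.Agent.S2167.result hm b hb).2
    constructor
    · intro h
      have hc := hcard (evA h)
      rw [hfin] at h ⊢
      rw [← hc]; exact h
    · intro h
      have hc := hcard (hr ▸ evB h)
      rw [hfin] at h ⊢
      rw [hc]; exact h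

end Cfsg.Agent.S2166
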