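import Cfsg.Statements.S2168
import Mathlib
import Cfsg.Agent.H5_Inv2

set_option autoImplicit false
open Cfsg

namespace Cfsg.Agent.S2168

open Module Cfsg.Agent.H16.Quad

/-- Involutions in the full isometry group O of the hyperbolic quadratic form Σ x_i y_i in dimension 2m over a finite field F of characteristic two, m ≥ 4 (plus type): two elements of order 2 of O are conjugate in O exactly when they are conjugate under the group of all invertible matrices preserving the polar bilinear form (u, v) ↦ Q(u + v) − Q(u) − Q(v) (the symplectic group of that form). -/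
theorem result {F : Type*} [Field F] [Fintype F] [CharP F 2] {m : ℕ} (hm : 4 ≤ m) (t s : ↥(Cfsg.isometryGroup F (Cfsg.quadFormPlus m F))) (ht : orderOf t = 2) (hs : orderOf s = 2) :
    IsConj t s ↔ ∃ g ∈ Cfsg.preserving (Units.coeHom (Matrix (Fin m ⊕ Fin m) (Fin m ⊕ Fin m) F)) (fun u v => Cfsg.quadFormPlus m F (u + v) - Cfsg.quadFormPlus m F u - Cfsg.quadFormPlus m F v), g * ((t : ↥(Cfsg.isometryGroup F (Cfsg.quadFormPlus m F))) : GL (Fin m ⊕ Fin m) F) * g⁻¹ = ((s : ↥(Cfsg.isometryGroup F (Cfsg.quadFormPlus m F))) : GL (Fin m ⊕ Fin m) F) := by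
  have hmem : ∀ (Q' : (Fin m ⊕ Fin m → F) → F) (hQ' : ⇑(plusQ F m) = Q')
      (t s : ↥(Cfsg.isometryGroup F Q')), orderOf t = 2 → orderOf s = 2 → (IsConj t s ↔
        ∃ g ∈ Cfsg.preserving (Units.coeHom (Matrix (Fin m ⊕ Fin m) (Fin m ⊕ Fin m) F)) (fun u v => Q' (u + v) - Q' u - Q' v),
          g * (t : GL (Fin m ⊕ Fin m) F) * g⁻¹ = (s : GL (Fin m ⊕ Fin m) F)) := by
    rintro _ rfl t s ht hs
    exact Cfsg.Agent.H5.I2.iso_conj_iff (nd_plusQ m) t s (orderOf_dvd_iff_pow_eq_one.1 ht.dvd) (orderOf_dvd_iff_pow_eq_one.1 hs.dvd)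
  exact hmem _ (coe_plusQ F m) t s ht hs

end Cfsg.Agent.S2168
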