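import Cfsg.Statements.S2172
import Mathlib
import Cfsg.Agent.H5_Inv2

set_option autoImplicit false
open Cfsg

namespace Cfsg.Agent.S2172

open Module Cfsg.Agent.H16.Quad Cfsg.Agent.H5.I2

/-- Splitting of involution classes from O to Ω for the hyperbolic quadratic form Q = Σ x_i y_i in dimension 2m over a finite field F of characteristic two, m ≥ 4. Let t, s be involutions of the commutator subgroup Ω that are conjugate in the full isometry group O. If it is not the case that t − 1 has rank m and Q(v + t v) = 0 for every vector v, then t and s are conjugate by an element of Ω. If t − 1 has rank m and Q(v + t v) = 0 for all v, then t and s are conjugate by an element of Ω exactly when the intersection of the images of t − 1 and s − 1 has even dimension (so the class of t in O meets at most two classes of Ω). -/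
theorem result {F : Type*} [Field F] [Fintype F] [CharP F 2] {m : ℕ} (hm : 4 ≤ m) (t s : ↥(Cfsg.isometryGroup F (Cfsg.quadFormPlus m F))) (ht : orderOf t = 2) (hs : orderOf s = 2) (htO : t ∈ Cfsg.Omega F (Cfsg.quadFormPlus m F)) (hsO : s ∈ Cfsg.Omega F (Cfsg.quadFormPlus m F)) (hconj : IsConj t s) :
    (¬ (((((t : ↥(Cfsg.isometryGroup F (Cfsg.quadFormPlus m F))) : GL (Fin m ⊕ Fin m) F) : Matrix (Fin m ⊕ Fin m) (Fin m ⊕ Fin m) F) - 1).rank = m ∧ ∀ v : Fin m ⊕ Fin m → F, Cfsg.quadFormPlus m F (v + Matrix.mulVec (((t : ↥(Cfsg.isometryGroup F (Cfsg.quadFormPlus m F))) : GL (Fin m ⊕ Fin m) F) : Matrix (Fin m ⊕ Fin m) (Fin m ⊕ Fin m) F) v) = 0) →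
      ∃ g ∈ Cfsg.Omega F (Cfsg.quadFormPlus m F), g * t * g⁻¹ = s) ∧
    ((((((t : ↥(Cfsg.isometryGroup F (Cfsg.quadFormPlus m F))) : GL (Fin m ⊕ Fin m) F) : Matrix (Fin m ⊕ Fin m) (Fin m ⊕ Fin m) F) - 1).rank = m ∧ ∀ v : Fin m ⊕ Fin m → F, Cfsg.quadFormPlus m F (v + Matrix.mulVec (((t : ↥(Cfsg.isometryGroup F (Cfsg.quadFormPlus m F))) : GL (Fin m ⊕ Fin m) F) : Matrix (Fin m ⊕ Fin m) (Fin m ⊕ Fin m) F) v) = 0) →
      ((∃ g ∈ Cfsg.Omega F (Cfsg.quadFormPlus m F), g * t * g⁻¹ = s) ↔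
        Even (Module.finrank F ↥(LinearMap.range (Matrix.toLin' ((((t : ↥(Cfsg.isometryGroup F (Cfsg.quadFormPlus m F))) : GL (Fin m ⊕ Fin m) F) : Matrix (Fin m ⊕ Fin m) (Fin m ⊕ Fin m) F) - 1)) ⊓ LinearMap.range (Matrix.toLin' ((((s : ↥(Cfsg.isometryGroup F (Cfsg.quadFormPlus m F))) : GL (Fin m ⊕ Fin m) F) : Matrix (Fin m ⊕ Fin m) (Fin m ⊕ Fin m) F) - 1)))))) := by
  have hfr0 : finrank F (Fin m ⊕ Fin m → F) = 2 * m := finrank_plus m
  have hmem : ∀ (Q' : (Fin m ⊕ Fin m → F) → F) (hQ' : ⇑(plusQ F m) = Q')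
      (t s : ↥(Cfsg.isometryGroup F Q')), orderOf t = 2 → t ∈ Cfsg.Omega F Q' → IsConj t s →
      (¬ ((((t : GL (Fin m ⊕ Fin m) F) : Matrix (Fin m ⊕ Fin m) (Fin m ⊕ Fin m) F) - 1).rank = m ∧
        ∀ v : Fin m ⊕ Fin m → F, Q' (v + Matrix.mulVec ((t : GL (Fin m ⊕ Fin m) F) : Matrix (Fin m ⊕ Fin m) (Fin m ⊕ Fin m) F) v) = 0) →
        ∃ g ∈ Cfsg.Omega F Q', g * t * g⁻¹ = s) ∧
      (((((t : GL (Fin m ⊕ Fin m) F) : Matrix (Fin m ⊕ Fin m) (Fin m ⊕ Fin m) F) - 1).rank = m ∧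
        ∀ v : Fin m ⊕ Fin m → F, Q' (v + Matrix.mulVec ((t : GL (Fin m ⊕ Fin m) F) : Matrix (Fin m ⊕ Fin m) (Fin m ⊕ Fin m) F) v) = 0) →
        ((∃ g ∈ Cfsg.Omega F Q', g * t * g⁻¹ = s) ↔
          Even (Module.finrank F ↥(LinearMap.range (Matrix.toLin' (((t : GL (Fin m ⊕ Fin m) F) : Matrix (Fin m ⊕ Fin m) (Fin m ⊕ Fin m) F) - 1)) ⊓ LinearMap.range (Matrix.toLin' (((s : GL (Fin m ⊕ Fin m) F) : Matrix (Fin m ⊕ Fin m) (Fin m ⊕ Fin m) F) - 1)))))) := by
    rintro _ rfl t s ht htO hc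
    have hnd := nd_plusQ (F := F) m
    have hfr : Nat.card F ≠ 2 ∨ finrank F (Fin m ⊕ Fin m → F) ≠ 4 := Or.inr (by omega)
    have ht2 : t ^ 2 = 1 := orderOf_dvd_iff_pow_eq_one.1 ht.dvd
    have hneg : ∀ v : Fin m ⊕ Fin m → F, -v = v := fun v => by
      funext i; exact CharTwo.neg_eq _
    have hiff : ∀ v : Fin m ⊕ Fin m → F, v + Matrix.mulVec ((t : GL (Fin m ⊕ Fin m) F) : Matrix (Fin m ⊕ Fin m) (Fin m ⊕ Fin m) F) v
        = (toOG (plusQ F m) t).1 v - v := fun v => by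
      rw [toOG_apply, sub_eq_add_neg, hneg, add_comm]
    rw [rank_eq_imS]
    simp only [hiff]
    refine ⟨fun hn => ?_, fun hy => ?_⟩
    · rcases conj_Omega_or hnd hfr (by omega) ht2 hc with h | h
      · exact h
      · exfalso
        apply hn
        refine ⟨by have := h.2; omega, fun v => h.1 _ ⟨v, rfl⟩⟩
    · have hU : IsMax (plusQ F m) (imS (toOG (plusQ F m) t).1) := by
        refine ⟨?_, by rw [hy.1, hfr0]⟩
        rintro _ ⟨v, rfl⟩
        exact hy.2 v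
      have hev : Even (finrank F (imS (toOG (plusQ F m) t).1)) := by
        rw [← rank_eq_imS]
        exact (mem_Omega_iff_even hnd hfr t).1 htO
      rw [range_eq_imS, range_eq_imS]
      constructor
      · rintro ⟨g, hg, hgt⟩
        rw [imS_conj hgt]
        exact (mem_Omega_iff_max hnd hfr hU hev g).1 hg
      · intro h
        obtain ⟨g, hgt⟩ := isConj_iff.1 hc
        rw [imS_conj hgt] at h
        exact ⟨g, (mem_Omega_iff_max hnd hfr hU hev g).2 h, hgt⟩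
  exact hmem _ (coe_plusQ F m) t s ht htO hconj

end Cfsg.Agent.S2172
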