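import Cfsg.Statements.S2173
import Mathlib
import Cfsg.Agent.H5_Inv2

set_option autoImplicit false
open Cfsg

namespace Cfsg.Agent.S2173

open Module Cfsg.Agent.H16.Quad

/-- For the quadratic form Σ x_i y_i + (z₁² + c z₁ z₂ + d z₂²) in dimension 2m with anisotropic binary part over a finite field F of characteristic two, m ≥ 4 (minus type): two involutions of the commutator subgroup Ω that are conjugate in the full isometry group O are conjugate by an element of Ω (no class of involutions of O inside Ω splits). -/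
theorem result {F : Type*} [Field F] [Fintype F] [CharP F 2] {m : ℕ} (hm : 4 ≤ m) (c d : F) (hcd : ∀ z₁ z₂ : F, z₁ ^ 2 + c * z₁ * z₂ + d * z₂ ^ 2 = 0 → z₁ = 0 ∧ z₂ = 0) (t s : ↥(Cfsg.isometryGroup F (Cfsg.quadFormMinus (m - 1) F c d))) (ht : orderOf t = 2) (hs : orderOf s = 2) (htO : t ∈ Cfsg.Omega F (Cfsg.quadFormMinus (m - 1) F c d)) (hsO : s ∈ Cfsg.Omega F (Cfsg.quadFormMinus (m - 1) F c d)) (hconj : IsConj t s) :
    ∃ g ∈ Cfsg.Omega F (Cfsg.quadFormMinus (m - 1) F c d), g * t * g⁻¹ = s := by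
  have hfr0 : finrank F ((Fin (m - 1) ⊕ Fin (m - 1)) ⊕ Fin 2 → F) = 2 * m := by
    rw [Module.finrank_fintype_fun_eq_card]
    simp only [Fintype.card_sum, Fintype.card_fin]; omega
  have hmem : ∀ (Q' : ((Fin (m - 1) ⊕ Fin (m - 1)) ⊕ Fin 2 → F) → F) (hQ' : ⇑(minusQ F (m - 1) c d) = Q')
      (t s : ↥(Cfsg.isometryGroup F Q')), orderOf t = 2 → IsConj t s → ∃ g ∈ Cfsg.Omega F Q', g * t * g⁻¹ = s := by
    rintro _ rfl t s ht hc
    rcases Cfsg.Agent.H5.I2.conj_Omega_or (nd_minusQ (m - 1) hcd) (Or.inr (by omega)) (by omega)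
      (orderOf_dvd_iff_pow_eq_one.1 ht.dvd) hc with h | h
    · exact h
    · exfalso
      have h1 := (minusQ_isMinus (m - 1) hcd).ts_le (nd_minusQ (m - 1) hcd) h.1
      have h2 := h.2
      omega
  exact hmem _ (coe_minusQ F (m - 1) c d) t s ht hconj

end Cfsg.Agent.S2173
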