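import Cfsg.Statements.S2222
import Cfsg.Agent.H14_SylowSym

set_option autoImplicit false
open Cfsg

namespace Cfsg.Agent.S2222

open Cfsg.Agent.H14.SylowSym
open scoped Pointwise

theorem pronormal_of_normalizer {G : Type*} [Group G] [Finite G] (H : Subgroup G)
    (Q : Sylow 2 G) (hQ : (Q : Subgroup G) ≤ H)
    (hN : Subgroup.normalizer ((Q : Subgroup G) : Set G) ≤ Subgroup.normalizer (H : Set G)) :
    Cfsg.IsPronormal H := by
  intro g
  set K := H ⊔ H.map (MulAut.conj g).toMonoidHom with hK
  have hQK : (Q : Subgroup G) ≤ K := hQ.trans le_sup_left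
  have hgQK : ((g • Q : Sylow 2 G) : Subgroup G) ≤ K := by
    rw [Sylow.coe_subgroup_smul]
    refine le_trans ?_ (le_sup_right : H.map (MulAut.conj g).toMonoidHom ≤ K)
    intro x hx
    rw [Subgroup.mem_pointwise_smul_iff_inv_smul_mem] at hx
    refine ⟨(MulAut.conj g)⁻¹ • x, hQ hx, ?_⟩
    simp only [MulAut.smul_def, MulAut.conj_inv_apply, MulEquiv.coe_toMonoidHom, MulAut.conj_apply]
    group
  obtain ⟨k, hk⟩ := MulAction.exists_smul_eq K ((g • Q).subtype hgQK) (Q.subtype hQK)
  simp_rw [Sylow.smul_subtype, Subgroup.smul_def, smul_smul] at hk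
  have h1 : (k : G) * g ∈ Subgroup.normalizer ((Q : Subgroup G) : Set G) :=
    Sylow.smul_eq_iff_mem_normalizer.mp (Sylow.subtype_injective hk)
  have h2 := hN h1
  refine ⟨(k : G)⁻¹, inv_mem k.2, ?_⟩
  have key : ∀ y : G, y ∈ H ↔ ((k : G) * g) * y * ((k : G) * g)⁻¹ ∈ H :=
    fun y => Subgroup.mem_normalizer_iff.1 h2 y
  ext x
  constructor
  · rintro ⟨y, hy, rfl⟩
    refine ⟨((k : G) * g) * y * ((k : G) * g)⁻¹, (key y).1 hy, ?_⟩
    simp only [MulEquiv.coe_toMonoidHom, MulAut.conj_apply]
    group
  · rintro ⟨y, hy, rfl⟩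
    refine ⟨((k : G) * g)⁻¹ * y * ((k : G) * g), ?_, ?_⟩
    · rw [SetLike.mem_coe, key]
      have : (k : G) * g * (((k : G) * g)⁻¹ * y * ((k : G) * g)) * ((k : G) * g)⁻¹ = y := by group
      rw [this]; exact hy
    · simp only [MulEquiv.coe_toMonoidHom, MulAut.conj_apply]
      group

theorem card_map_conj {G : Type*} [Group G] (H : Subgroup G) (g : G) :
    Nat.card (H.map (MulAut.conj g).toMonoidHom) = Nat.card H :=
  Nat.card_congr (H.equivMapOfInjective _ (MulAut.conj g).injective).toEquiv.symm

theorem pronormal_of_index {G : Type*} [Group G] [Finite G] (H : Subgroup G)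
    (h : H.index = 1 ∨ H.index.Prime) : Cfsg.IsPronormal H := by
  intro g
  set K := H ⊔ H.map (MulAut.conj g).toMonoidHom with hK
  have h1 : K.index ∣ H.index := Subgroup.index_dvd_of_le le_sup_left
  have h2 : K.index = 1 ∨ K.index = H.index := by
    rcases h with h | h
    · left; rw [h] at h1; exact Nat.dvd_one.1 h1
    · exact (Nat.dvd_prime h).1 h1
  rcases h2 with h2 | h2
  · rw [Subgroup.index_eq_one] at h2
    exact ⟨g, by rw [h2]; trivial, rfl⟩
  · refine ⟨1, one_mem _, ?_⟩
    have h3 : Nat.card K = Nat.card H := by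
      have e1 := K.card_mul_index
      have e2 := H.card_mul_index
      rw [h2] at e1
      have hpos : 0 < H.index := Nat.pos_of_ne_zero Subgroup.index_ne_zero_of_finite
      exact Nat.eq_of_mul_eq_mul_right hpos (e1.trans e2.symm)
    have h4 : H = K := Subgroup.eq_of_le_of_card_ge le_sup_left (le_of_eq h3)
    have h5 : H.map (MulAut.conj g).toMonoidHom ≤ H := by
      conv_rhs => rw [h4]
      exact le_sup_right
    have h6 := Subgroup.eq_of_le_of_card_ge h5 (le_of_eq (card_map_conj H g).symm)
    rw [h6]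
    ext x
    simp

/-- In the alternating group of degree n ≥ 5 every subgroup H of odd index is pronormal: for every element g, the subgroups H and gHg⁻¹ are conjugate by an element of the subgroup they generate. -/
theorem result (n : ℕ) (hn : 5 ≤ n)
    (H : Subgroup (alternatingGroup (Fin n))) (hH : Odd H.index) : Cfsg.IsPronormal H := by
  rcases Nat.lt_or_ge 5 n with h6 | h5
  · obtain ⟨Q, hQ⟩ := exists_sylow_le H hH
    apply pronormal_of_normalizer H Q hQ
    rw [SN_alt n h6 Q]
    exact hQ.trans Subgroup.le_normalizer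
  · have hn5 : n = 5 := le_antisymm h5 hn
    subst hn5
    have hcard : Nat.card (alternatingGroup (Fin 5)) = 60 := by
      rw [Nat.card_eq_fintype_card]
      have : Nontrivial (Fin 5) := inferInstance
      have h := two_mul_card_alternatingGroup (α := Fin 5)
      rw [Fintype.card_perm, Fintype.card_fin] at h
      have : Nat.factorial 5 = 120 := rfl
      omega
    have h1 := H.card_mul_index
    rw [hcard] at h1
    have h2 : H.index ∣ 15 := by
      have h3 : H.index ∣ 4 * 15 := Dvd.intro_left _ h1
      exact (Nat.Coprime.dvd_of_dvd_mul_left (Nat.Coprime.pow_right 2 (Nat.coprime_two_right.2 hH) : H.index.Coprime (2 ^ 2)) h3)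
    have h4 : H.index = 1 ∨ H.index = 3 ∨ H.index = 5 ∨ H.index = 15 := by
      have h5 : H.index ∈ Nat.divisors 15 := Nat.mem_divisors.2 ⟨h2, by norm_num⟩
      have h6 : Nat.divisors 15 = {1, 3, 5, 15} := by decide
      rw [h6] at h5
      simpa using h5
    rcases h4 with h | h | h | h
    · exact pronormal_of_index H (Or.inl h)
    · exact pronormal_of_index H (Or.inr (by rw [h]; norm_num))
    · exact pronormal_of_index H (Or.inr (by rw [h]; norm_num))
    · obtain ⟨Q, hQ⟩ := exists_sylow_le H hH
      apply pronormal_of_normalizer H Q hQ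
      have h7 : Nat.card H = 2 ^ 2 := by rw [h] at h1; omega
      have h8 : IsPGroup 2 H := IsPGroup.of_card h7
      have h9 := Q.is_maximal' h8 hQ
      rw [h9]

end Cfsg.Agent.S2222
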