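import Cfsg.Statements.S2231
import Cfsg.Agent.H18_Qd
import Cfsg.Agent.H17_Involves

set_option autoImplicit false
open Cfsg

namespace Cfsg.Agent.S2231

open Subgroup

theorem comm_psl {p : ℕ} [Fact p.Prime] {K : Type*} [Field K] [Fintype K] [CharP K p]
    (R : Subgroup (Matrix.ProjectiveSpecialLinearGroup (Fin 2) K)) (hR : IsPGroup p R) :
    ∀ x ∈ R, ∀ y ∈ R, x * y = y * x := by
  classical
  obtain ⟨T, hT⟩ := hR.exists_le_sylow
  have hsurj : Function.Surjective (QuotientGroup.mk' (Subgroup.center (Matrix.SpecialLinearGroup (Fin 2) K))) :=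
    QuotientGroup.mk'_surjective _
  obtain ⟨T0, hT0⟩ := Sylow.mapSurjective_surjective hsurj p T
  obtain ⟨g, hg⟩ := H5.SL2.exists_conj p T0
  have hU : ∀ x ∈ H5.SL2.U K, ∀ y ∈ H5.SL2.U K, x * y = y * x := by
    intro x hx y hy
    obtain ⟨a, rfl⟩ := H5.SL2.mem_U.1 hx
    obtain ⟨b, rfl⟩ := H5.SL2.mem_U.1 hy
    rw [H5.SL2.u_mul, H5.SL2.u_mul, add_comm]
  have hT0c : ∀ x ∈ (T0 : Subgroup (Matrix.SpecialLinearGroup (Fin 2) K)), ∀ y ∈ (T0 : Subgroup (Matrix.SpecialLinearGroup (Fin 2) K)), x * y = y * x := by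
    intro x hx y hy
    rw [hg, Subgroup.mem_pointwise_smul_iff_inv_smul_mem] at hx hy
    have h1 := hU _ hx _ hy
    rw [← smul_mul', ← smul_mul'] at h1
    exact smul_left_cancel _ h1
  intro x hx y hy
  have hx' := hT hx
  have hy' := hT hy
  rw [← hT0] at hx' hy'
  obtain ⟨a, ha, rfl⟩ := hx'
  obtain ⟨b, hb, rfl⟩ := hy'
  rw [← map_mul, ← map_mul, hT0c a ha b hb]

/-- Let p be an odd prime and K a finite field of characteristic p. Then Qd(p) (the natural semidirect product of an elementary abelian group of order p² by SL₂(p)) is not involved in the projective special linear group PSL₂(K). -/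
theorem result {p : ℕ} [Fact p.Prime] (hp : p ≠ 2) {K : Type*} [Field K] [Fintype K] [CharP K p] : ¬ Cfsg.Involves ↥(Cfsg.qd p) (Matrix.ProjectiveSpecialLinearGroup (Fin 2) K) := by
  classical
  intro h
  rw [H17.Involves.involves_iff] at h
  obtain ⟨L, f, hf⟩ := h
  obtain ⟨m, hm⟩ := H18.Qd.exists_isQd (MulEquiv.refl (Cfsg.qd p))
  haveI := hm.finite
  haveI : Finite L := inferInstance
  obtain ⟨T', hT'⟩ : ∃ T' : Subgroup L, T' = hm.T.comap f := ⟨_, rfl⟩
  obtain ⟨P1⟩ : Nonempty (Sylow p T') := inferInstance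
  let f1 : T' →* hm.T := (f.comp T'.subtype).codRestrict _ (fun x => by
    have h : (x : L) ∈ hm.T.comap f := by rw [← hT']; exact x.2
    exact h)
  have hf1 : Function.Surjective f1 := by
    rintro ⟨y, hy⟩
    obtain ⟨x, rfl⟩ := hf y
    exact ⟨⟨x, by rw [hT']; exact hy⟩, rfl⟩
  have htop : ((P1.mapSurjective hf1 : Sylow p hm.T) : Subgroup hm.T) = ⊤ := by
    have h1 : IsPGroup p (⊤ : Subgroup hm.T) := IsPGroup.of_equiv hm.isPGroup_T Subgroup.topEquiv.symm
    exact ((P1.mapSurjective hf1).is_maximal' h1 le_top).symm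
  have hcomm : ∀ x ∈ hm.T, ∀ y ∈ hm.T, x * y = y * x := by
    intro x hx y hy
    have hx' : (⟨x, hx⟩ : hm.T) ∈ ((P1.mapSurjective hf1 : Sylow p hm.T) : Subgroup hm.T) := by rw [htop]; trivial
    have hy' : (⟨y, hy⟩ : hm.T) ∈ ((P1.mapSurjective hf1 : Sylow p hm.T) : Subgroup hm.T) := by rw [htop]; trivial
    obtain ⟨a, ha, ha'⟩ := hx'
    obtain ⟨b, hb, hb'⟩ := hy'
    have hPp : IsPGroup p ((((P1 : Subgroup T').map T'.subtype).map L.subtype) : Subgroup (Matrix.ProjectiveSpecialLinearGroup (Fin 2) K)) :=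
      (P1.isPGroup'.map _).map _
    have h3 := comm_psl _ hPp ((a : L) : _) ⟨a, ⟨a, ha, rfl⟩, rfl⟩ ((b : L) : _) ⟨b, ⟨b, hb, rfl⟩, rfl⟩
    have h4 : (a : L) * (b : L) = (b : L) * (a : L) := Subtype.ext h3
    have h5 : f a = x := congrArg Subtype.val ha'
    have h6 : f b = y := congrArg Subtype.val hb'
    rw [← h5, ← h6, ← map_mul, ← map_mul, h4]
  have h1 : m (H5.SL2.u 1) 0 ∈ hm.T := hm.mem_T.2 ⟨1, 0, rfl⟩
  have h2 : m 1 ![0, 1] ∈ hm.T := hm.V_le_T (hm.mem_V.2 ⟨_, rfl⟩)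
  have h3 := hcomm _ h1 _ h2
  rw [hm.mul, hm.mul] at h3
  have h4 := (hm.inj h3).2
  have h5 := congrFun h4 0
  simp [H5.SL2.u] at h5

end Cfsg.Agent.S2231
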