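import Cfsg.Statements.S2232
import Mathlib
import Cfsg.Agent.H17_U3e
import Cfsg.Agent.H27_Qd3
import Cfsg.Agent.H17_Involves

set_option autoImplicit false
open Cfsg

namespace Cfsg.Agent.S2232

open Matrix Cfsg.Agent.H5 Cfsg.Agent.H5.Unit Cfsg.Agent.H5.USim Cfsg.Agent.H5.Herm Cfsg.Agent.H5.Frm Cfsg.Agent.H5.Conc Cfsg.Agent.H17.U3

section
variable {F : Type*} [Field F] [Fintype F] {q : ℕ} (hF : Fintype.card F = q ^ 2)

local notation "hh" => Cfsg.hermForm 3 F q

theorem mat_one' : mat (1 : Cfsg.SU 3 F q) = 1 := rfl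

include hF in
theorem fix_form {v y x : Fin 3 → F} (hv : hh v v = 0) (hy : hh y y = 0) (hvy : hh v y = 1) (hx1 : hh x v = 0) (hx2 : hh x y = 0)
    (hxx : hh x x = 1) {u : Cfsg.SU 3 F q} (hu : mat u *ᵥ v = v) :
    mat u *ᵥ x = hh (mat u *ᵥ x) y • v + hh (mat u *ᵥ x) x • x ∧
    mat u *ᵥ y = hh (mat u *ᵥ y) y • v + y + hh (mat u *ᵥ y) x • x := by
  have hyv : hh y v = 1 := by rw [← herm_swap hF, hvy, one_pow]
  have hLv : ∀ z, hh (mat u *ᵥ z) v = hh z v := by
    intro z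
    conv_lhs => rw [← hu]
    rw [SU_herm]
  have hexp := expand hF hv hy hvy hx1 hx2 hxx
  constructor
  · have h2 := hexp (mat u *ᵥ x)
    rw [hLv, hx1, zero_smul, add_zero] at h2
    exact h2
  · have h2 := hexp (mat u *ᵥ y)
    rw [hLv, hyv, one_smul] at h2
    exact h2

include hF in
theorem one_eig {p : ℕ} [hp : Fact p.Prime] [CharP F p] {v y x : Fin 3 → F} (hv : hh v v = 0) (hy : hh y y = 0) (hvy : hh v y = 1) (hx1 : hh x v = 0) (hx2 : hh x y = 0)
    (hxx : hh x x = 1) {u : Cfsg.SU 3 F q} (hu : mat u *ᵥ v = v) {k : ℕ} (hk : u ^ p ^ k = 1) : hh (mat u *ᵥ x) x = 1 := by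
  have hx1' := zero_symm hF hx1
  have hform := (fix_form hF hv hy hvy hx1 hx2 hxx hu).1
  have hfix : ∀ k : ℕ, mat (u ^ k) *ᵥ v = v := by
    intro k
    induction k with
    | zero => rw [pow_zero, mat_one', one_mulVec]
    | succ k ih => rw [pow_succ, mat_mul, ← mulVec_mulVec, hu, ih]
  have hmul : ∀ k : ℕ, hh (mat (u ^ k) *ᵥ x) x = hh (mat u *ᵥ x) x ^ k := by
    intro k
    induction k with
    | zero =>
      rw [pow_zero, pow_zero, mat_one', one_mulVec, hxx]
    | succ k ih =>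
      have h3 : hh (mat (u ^ k) *ᵥ v) x = 0 := by rw [hfix, hx1']
      rw [pow_succ, mat_mul, ← mulVec_mulVec]
      conv_lhs => rw [hform]
      rw [mulVec_add, mulVec_smul, mulVec_smul, herm_add_left, herm_smul_left, herm_smul_left, h3, ih, pow_succ]
      ring
  have h4 := hmul (p ^ k)
  rw [hk, mat_one', one_mulVec, hxx] at h4
  have h5 : (hh (mat u *ᵥ x) x - 1) ^ p ^ k = 0 := by
    rw [sub_pow_char_pow, one_pow, ← h4, sub_self]
  exact sub_eq_zero.1 (pow_eq_zero_iff (pow_ne_zero _ hp.out.ne_zero) |>.1 h5)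

include hF in
theorem unip {p : ℕ} [hp : Fact p.Prime] [CharP F p] {v y x : Fin 3 → F} (hv : hh v v = 0) (hy : hh y y = 0) (hvy : hh v y = 1) (hx1 : hh x v = 0) (hx2 : hh x y = 0)
    (hxx : hh x x = 1) {u : Cfsg.SU 3 F q} (hu : mat u *ᵥ v = v) (h1 : hh (mat u *ᵥ x) x = 1) : u ^ p ^ 2 = 1 := by
  obtain ⟨e1, e2⟩ := fix_form hF hv hy hvy hx1 hx2 hxx hu
  rw [h1, one_smul] at e1
  have hexp := expand hF hv hy hvy hx1 hx2 hxx
  set M : Matrix (Fin 3) (Fin 3) F := mat u - 1 with hM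
  have m1 : M *ᵥ v = 0 := by rw [hM, sub_mulVec, hu, one_mulVec, sub_self]
  have m2 : M *ᵥ x = hh (mat u *ᵥ x) y • v := by
    rw [hM, sub_mulVec, one_mulVec]
    conv_lhs => rw [e1]
    rw [add_sub_cancel_right]
  have m3 : M *ᵥ y = hh (mat u *ᵥ y) y • v + hh (mat u *ᵥ y) x • x := by
    rw [hM, sub_mulVec, one_mulVec]
    conv_lhs => rw [e2]
    abel
  have h3 : M ^ 3 = 0 := by
    have h4 : ∀ z, M ^ 3 *ᵥ z = 0 := by
      intro z
      rw [pow_succ, sq, ← mulVec_mulVec, ← mulVec_mulVec]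
      rw [hexp z]
      simp only [mulVec_add, mulVec_smul, m1, m2, m3, smul_zero, zero_add, add_zero]
    ext i j
    have := congrFun (h4 (Pi.single j 1)) i
    rw [mulVec_single_one] at this
    exact this
  have hpp2 : 3 ≤ p ^ 2 := by
    have := hp.out.two_le
    nlinarith
  have h5 : M ^ p ^ 2 = 0 := pow_eq_zero_of_le hpp2 h3
  have h6 : (mat u) ^ p ^ 2 = 1 := by
    have h7 : mat u = 1 + M := by rw [hM]; abel
    rw [h7, add_pow_char_pow_of_commute _ _ (Commute.one_left M), one_pow, h5, add_zero]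
  have hmp : ∀ k : ℕ, mat (u ^ k) = mat u ^ k := by
    intro k
    induction k with
    | zero => rw [pow_zero, pow_zero]; rfl
    | succ k ih => rw [pow_succ, mat_mul, ih, pow_succ]
  have h8 : mat (u ^ p ^ 2) = 1 := by
    rw [hmp, h6]
  exact Subtype.ext (Subtype.ext h8)
end

theorem p_part {G : Type*} [Group G] [Finite G] {p : ℕ} [hp : Fact p.Prime] (g : G) : ∃ k a : ℕ, (g ^ k) ^ p ^ a = 1 ∧ k % p = 1 := by
  have h0 : orderOf g ≠ 0 := (orderOf_pos g).ne'
  obtain ⟨a, m, hm, hn⟩ := Nat.exists_eq_pow_mul_and_not_dvd h0 p hp.out.ne_one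
  have hc : Nat.Coprime m p := ((hp.out.coprime_iff_not_dvd).2 hm).symm
  obtain ⟨k, hk1, hk2⟩ := Nat.chineseRemainder hc 0 1
  refine ⟨k, a, ?_, ?_⟩
  · rw [← pow_mul]
    apply orderOf_dvd_iff_pow_eq_one.1
    rw [hn, mul_comm]
    exact Nat.mul_dvd_mul ((Nat.modEq_zero_iff_dvd).1 hk1) dvd_rfl
  · have := hk2
    rw [Nat.ModEq, Nat.mod_eq_of_lt hp.out.one_lt] at this
    exact this

/-- Let p be an odd prime, q a power of p and K a finite field with q² elements. Then Qd(p) (the natural semidirect product of an elementary abelian group of order p² by SL₂(p)) is not involved in the projective special unitary group PSU₃(q) realised over K. -/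
theorem result {p : ℕ} [Fact p.Prime] (hp : p ≠ 2) {K : Type*} [Field K] [Fintype K] [CharP K p] (n : ℕ) (hn : 1 ≤ n) (hK : Fintype.card K = (p ^ n) ^ 2) : ¬ Cfsg.Involves ↥(Cfsg.qd p) (Cfsg.PSU 3 K (p ^ n)) := by
  classical
  intro hinv
  have hq2 : Fintype.card K = (p ^ n) ^ 2 := hK
  have hG := H17.Involves.involves_quotient (N := Subgroup.center (Cfsg.SU 3 K (p ^ n))) hinv
  obtain ⟨T, v, hq, hall⟩ := H27.Qd.stepA hG
  have hpq : p ∣ p ^ n := dvd_pow_self p (by omega)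
  obtain ⟨e, he0, he, hefix⟩ := exists_fixed hK hpq T hq.pg
  obtain ⟨y, hy, hey⟩ := exists_partner' hK he0 he
  obtain ⟨x, hx1, hx2, hxx⟩ := exists_unit_perp2 hK (le_refl 3) he hey
  -- `T` is not trivial
  obtain ⟨t₀, ht₀, hvt₀⟩ := hq.surj ![1, 0]
  have ht₀1 : t₀ ≠ 1 := by
    rintro rfl
    rw [hq.one] at hvt₀
    have := congrFun hvt₀ 0
    simp at this
  -- the point is fixed by the normalizer
  have hline : ∀ h ∈ Subgroup.normalizer (T : Set (Cfsg.SU 3 K (p ^ n))), ∃ c : K, mat h *ᵥ e = c • e := by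
    intro h hh'
    set w := mat h *ᵥ e with hw
    have hww : Cfsg.hermForm 3 K (p ^ n) w w = 0 := by rw [hw, SU_herm, he]
    have hwfix : mat t₀ *ᵥ w = w := by
      have h1 : h⁻¹ * t₀ * h ∈ T := by
        have := (Subgroup.mem_normalizer_iff.1 (Subgroup.inv_mem _ hh') t₀).1 ht₀
        simpa using this
      have h2 := hefix _ h1
      rw [hw, mulVec_mulVec, ← mat_mul]
      conv_rhs => rw [← h2]
      rw [mulVec_mulVec, ← mat_mul]
      congr 2
      group
    by_cases hew : Cfsg.hermForm 3 K (p ^ n) w e = 0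
    · have h1 := expand hK he hy hey hx1 hx2 hxx w
      rw [hew, zero_smul, add_zero] at h1
      have h5 : Cfsg.hermForm 3 K (p ^ n) w x = 0 := by
        have h3 := hww
        rw [h1, herm_add_left, herm_smul_left, herm_smul_left, ← h1] at h3
        have h4 : Cfsg.hermForm 3 K (p ^ n) e w = 0 := zero_symm hK hew
        rw [h4, mul_zero, zero_add] at h3
        rcases mul_eq_zero.1 h3 with h6 | h6
        · exact h6
        · exact zero_symm hK h6
      rw [h5, zero_smul, add_zero] at h1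
      exact ⟨_, h1⟩
    · exfalso
      have hwe := herm_swap hK w e
      obtain ⟨y', hy'⟩ : ∃ y' : Fin 3 → K, y' = (Cfsg.hermForm 3 K (p ^ n) w e)⁻¹ • w := ⟨_, rfl⟩
      have hy1 : Cfsg.hermForm 3 K (p ^ n) y' y' = 0 := by
        rw [hy', herm_smul_left, herm_smul_right, hww, mul_zero, mul_zero]
      have hy2 : Cfsg.hermForm 3 K (p ^ n) e y' = 1 := by
        rw [hy', herm_smul_right, inv_pow, hwe, inv_mul_cancel₀]
        rw [← hwe]
        exact pow_ne_zero _ hew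
      have hyf : mat t₀ *ᵥ y' = y' := by
        rw [hy', mulVec_smul, hwfix]
      obtain ⟨x', hx1', hx2', hxx'⟩ := exists_unit_perp2 hK (le_refl 3) he hy2
      obtain ⟨k, hk⟩ := hq.pg ⟨t₀, ht₀⟩
      have hk' : t₀ ^ p ^ k = 1 := by
        have := congrArg Subtype.val hk
        simpa using this
      have h1 := one_eig hK he hy1 hy2 hx1' hx2' hxx' (hefix _ ht₀) hk'
      have h2 := (fix_form hK he hy1 hy2 hx1' hx2' hxx' (hefix _ ht₀)).1
      have h3 : Cfsg.hermForm 3 K (p ^ n) (mat t₀ *ᵥ x') y' = 0 := by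
        conv_lhs => rw [← hyf]
        rw [SU_herm, hx2']
      rw [h1, h3, zero_smul, zero_add, one_smul] at h2
      apply ht₀1
      have h4 : ∀ z, mat t₀ *ᵥ z = z := by
        intro z
        have h5 := expand hK he hy1 hy2 hx1' hx2' hxx' z
        rw [h5, mulVec_add, mulVec_add, mulVec_smul, mulVec_smul, mulVec_smul, hefix _ ht₀, hyf, h2]
      have h6 : mat t₀ = 1 := by
        ext i j
        have := congrFun (h4 (Pi.single j 1)) i
        rw [mulVec_single_one] at this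
        rw [one_apply, ← Pi.single_apply]
        exact this
      exact Subtype.ext (Subtype.ext h6)
  -- `p`-elements of the normalizer
  have hP : ∀ A : Matrix.SpecialLinearGroup (Fin 2) (ZMod p), A ^ p = 1 → ∃ (h : Cfsg.SU 3 K (p ^ n)) (a : ℕ), H27.Qd.Act T v h A ∧ h ^ p ^ a = 1 := by
    intro A hA
    obtain ⟨h, hh'⟩ := hall A
    obtain ⟨k, a, hk1, hk2⟩ := p_part (p := p) h
    refine ⟨h ^ k, a, ?_, hk1⟩
    have h1 := H27.Qd.act_pow hh' k
    have h2 : A ^ k = A := by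
      rw [← Nat.div_add_mod k p, hk2, pow_add, pow_mul, hA, one_pow, one_mul, pow_one]
    rwa [h2] at h1
  have hfe : ∀ (h : Cfsg.SU 3 K (p ^ n)) (a : ℕ), h ∈ Subgroup.normalizer (T : Set (Cfsg.SU 3 K (p ^ n))) → h ^ p ^ a = 1 → mat h *ᵥ e = e := by
    intro h a hN ha
    obtain ⟨c, hc⟩ := hline h hN
    have hpow : ∀ k : ℕ, mat (h ^ k) *ᵥ e = c ^ k • e := by
      intro k
      induction k with
      | zero => rw [pow_zero, pow_zero, mat_one', one_mulVec, one_smul]
      | succ k ih => rw [pow_succ, mat_mul, ← mulVec_mulVec, hc, mulVec_smul, ih, smul_smul, pow_succ, mul_comm]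
    have h1 := hpow (p ^ a)
    rw [ha, mat_one', one_mulVec] at h1
    have h2 : (1 : K) • e = c ^ p ^ a • e := by rw [one_smul]; exact h1
    have h3 : (1 : K) = c ^ p ^ a := smul_left_injective K he0 h2
    have h5 : (c - 1) ^ p ^ a = 0 := by
      rw [sub_pow_char_pow, one_pow, ← h3, sub_self]
    have h6 : c = 1 := sub_eq_zero.1 (pow_eq_zero_iff (pow_ne_zero _ (Fact.out : p.Prime).ne_zero) |>.1 h5)
    rw [hc, h6, one_smul]
  obtain ⟨A, hA⟩ : ∃ A : Matrix.SpecialLinearGroup (Fin 2) (ZMod p), A = ⟨!![1, 1; 0, 1], by rw [Matrix.det_fin_two_of]; ring⟩ := ⟨_, rfl⟩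
  obtain ⟨B, hB⟩ : ∃ B : Matrix.SpecialLinearGroup (Fin 2) (ZMod p), B = ⟨!![1, 0; 1, 1], by rw [Matrix.det_fin_two_of]; ring⟩ := ⟨_, rfl⟩
  have hpow : ∀ C : Matrix.SpecialLinearGroup (Fin 2) (ZMod p), ((C : Matrix (Fin 2) (Fin 2) (ZMod p)) - 1) ^ 2 = 0 → C ^ p = 1 := by
    intro C hC
    have h1 : ((C : Matrix (Fin 2) (Fin 2) (ZMod p)) - 1) ^ p = 0 := pow_eq_zero_of_le (Fact.out : p.Prime).two_le hC
    rw [sub_pow_char_of_commute _ (Commute.one_right _), one_pow, sub_eq_zero] at h1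
    apply Subtype.ext
    rw [Matrix.SpecialLinearGroup.coe_pow, h1, Matrix.SpecialLinearGroup.coe_one]
  have hAp : A ^ p = 1 := by
    apply hpow
    rw [hA, sq]
    ext i j
    fin_cases i <;> fin_cases j <;> simp [Matrix.mul_apply, Fin.sum_univ_two]
  have hBp : B ^ p = 1 := by
    apply hpow
    rw [hB, sq]
    ext i j
    fin_cases i <;> fin_cases j <;> simp [Matrix.mul_apply, Fin.sum_univ_two]
  obtain ⟨h₁, a₁, hact1, hp1⟩ := hP A hAp
  obtain ⟨h₂, a₂, hact2, hp2⟩ := hP B hBp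
  have f1 := hfe h₁ a₁ hact1.1 hp1
  have f2 := hfe h₂ a₂ hact2.1 hp2
  have g1 := one_eig hK he hy hey hx1 hx2 hxx f1 hp1
  have g2 := one_eig hK he hy hey hx1 hx2 hxx f2 hp2
  have hx1' := zero_symm hK hx1
  have f12 : mat (h₁ * h₂) *ᵥ e = e := by rw [mat_mul, ← mulVec_mulVec, f2, f1]
  have g12 : Cfsg.hermForm 3 K (p ^ n) (mat (h₁ * h₂) *ᵥ x) x = 1 := by
    have h3 := (fix_form hK he hy hey hx1 hx2 hxx f2).1
    rw [g2, one_smul] at h3
    rw [mat_mul, ← mulVec_mulVec, h3, mulVec_add, mulVec_smul, f1, herm_add_left, herm_smul_left, hx1', g1]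
    ring
  have hun := unip hK he hy hey hx1 hx2 hxx f12 g12
  have hact := H27.Qd.act_pow (hact1.mul hact2) (p ^ 2)
  rw [hun] at hact
  have hAB : (A * B) ^ p ^ 2 = 1 := (H27.Qd.Act.unique hq H27.Qd.act_one hact).symm
  have hAB' : ((A * B : Matrix.SpecialLinearGroup (Fin 2) (ZMod p)) : Matrix (Fin 2) (Fin 2) (ZMod p)) ^ p ^ 2 = 1 := by
    rw [← Matrix.SpecialLinearGroup.coe_pow, hAB, Matrix.SpecialLinearGroup.coe_one]
  have hnil : IsNilpotent (((A * B : Matrix.SpecialLinearGroup (Fin 2) (ZMod p)) : Matrix (Fin 2) (Fin 2) (ZMod p)) - 1) := by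
    refine ⟨p ^ 2, ?_⟩
    rw [sub_pow_char_pow_of_commute _ _ (Commute.one_right _), one_pow, hAB', sub_self]
  have htr := Matrix.isNilpotent_trace_of_isNilpotent hnil
  have htr0 := htr.eq_zero
  rw [Matrix.SpecialLinearGroup.coe_mul, hA, hB] at htr0
  simp [Matrix.trace_fin_two, Matrix.mul_apply, Fin.sum_univ_two] at htr0
  have h10 : (1 : ZMod p) = 0 := by linear_combination htr0
  exact one_ne_zero h10

end Cfsg.Agent.S2232
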