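import Cfsg.Statements.S2239
import Cfsg.Agent.HL_SzSubI

set_option autoImplicit false
open Cfsg

namespace Cfsg.Agent.S2239

/-- Subfield subgroups of the Suzuki group: let q = 2^(2m+1) and s = 2^(2k+1) with m, k ≥ 1 and 2k+1 dividing 2m+1 (so q is a power of s), both groups realised as stabilisers in SL₄ of the Suzuki–Tits ovoid. Then Sz(q) has a subgroup isomorphic to Sz(s), and any two subgroups of Sz(q) isomorphic to Sz(s) are conjugate. -/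
theorem result {F : Type*} [Field F] [Fintype F] {m : ℕ} (hm : 1 ≤ m) (hF : Fintype.card F = 2 ^ (2 * m + 1)) {K : Type*} [Field K] [Fintype K] {k : ℕ} (hk : 1 ≤ k) (hK : Fintype.card K = 2 ^ (2 * k + 1)) (hdiv : 2 * k + 1 ∣ 2 * m + 1) :
    (∃ S : Subgroup ↥(Cfsg.Sz F m), Nonempty (↥S ≃* ↥(Cfsg.Sz K k))) ∧
    ∀ S₁ S₂ : Subgroup ↥(Cfsg.Sz F m), Nonempty (↥S₁ ≃* ↥(Cfsg.Sz K k)) → Nonempty (↥S₂ ≃* ↥(Cfsg.Sz K k)) →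
      ∃ g : ↥(Cfsg.Sz F m), S₂ = S₁.map (MulAut.conj g).toMonoidHom := by
  obtain ⟨θ, h, hθ⟩ := Cfsg.Agent.HL.Sz.exists_theta hF
  refine ⟨Cfsg.Agent.HL.Sz.exists_sub hm hF hk hK hdiv, ?_⟩
  rintro S₁ S₂ ⟨e1⟩ ⟨e2⟩
  obtain ⟨K1, u1, hc1, h1⟩ := Cfsg.Agent.HL.Sz.sub_iso hm hF hk hK S₁ e1
  obtain ⟨K2, u2, hc2, h2⟩ := Cfsg.Agent.HL.Sz.sub_iso hm hF hk hK S₂ e2
  have hKK : K1 = K2 := Cfsg.Agent.HL.Sz.subfield_eq K1 K2 (hc1.trans hc2.symm)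
  subst hKK
  refine ⟨u2 * u1⁻¹, ?_⟩
  ext x
  rw [h2]
  constructor
  · intro hx
    refine ⟨u1 * (u2⁻¹ * x * u2) * u1⁻¹, ?_, ?_⟩
    · rw [SetLike.mem_coe, h1]
      have : u1⁻¹ * (u1 * (u2⁻¹ * x * u2) * u1⁻¹) * u1 = u2⁻¹ * x * u2 := by group
      rw [this]; exact hx
    · change (u2 * u1⁻¹) * (u1 * (u2⁻¹ * x * u2) * u1⁻¹) * (u2 * u1⁻¹)⁻¹ = x
      group
  · rintro ⟨y, hy, rfl⟩
    rw [SetLike.mem_coe, h1] at hy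
    change u2⁻¹ * ((u2 * u1⁻¹) * y * (u2 * u1⁻¹)⁻¹) * u2 ∈ _
    have : u2⁻¹ * ((u2 * u1⁻¹) * y * (u2 * u1⁻¹)⁻¹) * u2 = u1⁻¹ * y * u1 := by group
    rw [this]; exact hy

end Cfsg.Agent.S2239
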