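import Cfsg.Statements.S2245
import Cfsg.Agent.H14_SylowMax2

set_option autoImplicit false
open Cfsg

namespace Cfsg.Agent.S2245

open Cfsg.Agent.H14.SylowSym Cfsg.Agent.H14.SylowMax in
/-- For n ≥ 5 with n ≠ 6, a Sylow 2-subgroup of the alternating group A_n lies in exactly one maximal subgroup of A_n if and only if n = 2^k + 1 for some k ≥ 2; the same holds for the symmetric group S_n. -/
theorem result (n : ℕ) (hn : 5 ≤ n) (h6 : n ≠ 6) :
    ((∀ R : Sylow 2 ↥(alternatingGroup (Fin n)), (∃! M : Subgroup ↥(alternatingGroup (Fin n)), IsCoatom M ∧ (R : Subgroup ↥(alternatingGroup (Fin n))) ≤ M) ↔ ∃ k : ℕ, 2 ≤ k ∧ n = 2 ^ k + 1) ∧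
    (∀ R : Sylow 2 (Equiv.Perm (Fin n)), (∃! M : Subgroup (Equiv.Perm (Fin n)), IsCoatom M ∧ (R : Subgroup (Equiv.Perm (Fin n))) ≤ M) ↔ ∃ k : ℕ, 2 ≤ k ∧ n = 2 ^ k + 1)) := by
  obtain ⟨e⟩ := exists_equiv_Pt n
  have hn' : 2 * (n / 2) + n % 2 = n := by omega
  have h1 := main (m := n / 2) (r := n % 2) (by omega) (by omega) (by omega)
  rw [hn'] at h1
  refine ⟨?_, ?_⟩
  · exact UM_sylow_congr e.symm.altCongrHom _ (h1 (alternatingGroup _) le_rfl)
  · exact UM_sylow_congr ((Subgroup.topEquiv).trans e.symm.permCongrHom) _ (h1 ⊤ le_top)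

end Cfsg.Agent.S2245
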