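import Cfsg.Statements.S2251
import Cfsg.Agent.HL_SzSubH

set_option autoImplicit false
open Cfsg

namespace Cfsg.Agent.S2251

/-- The subgroups of the Suzuki group: with q = 2^(2m+1), m ≥ 1, r = 2^m and the group realised as the stabiliser in SL₄ of the Suzuki–Tits ovoid, every proper subgroup is contained in the normalizer of a Sylow 2-subgroup, or in the normalizer of a cyclic subgroup of order q − 1, q + 2r + 1 or q − 2r + 1, or in a subgroup isomorphic to a smaller Suzuki group Sz(s) with s = 2^(2k+1) ≥ 8 and 2k+1 a proper divisor of 2m+1. -/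
theorem result {F : Type*} [Field F] [Fintype F] {m : ℕ} (hm : 1 ≤ m) (hF : Fintype.card F = 2 ^ (2 * m + 1)) (M : Subgroup ↥(Cfsg.Sz F m)) (hM : M ≠ ⊤) :
    (∃ P : Sylow 2 ↥(Cfsg.Sz F m), M ≤ Subgroup.normalizer ((P : Subgroup ↥(Cfsg.Sz F m)) : Set ↥(Cfsg.Sz F m))) ∨
    (∃ U : Subgroup ↥(Cfsg.Sz F m), IsCyclic ↥U ∧ Nat.card ↥U ∈ ({2 ^ (2 * m + 1) - 1, 2 ^ (2 * m + 1) + 2 ^ (m + 1) + 1, 2 ^ (2 * m + 1) - 2 ^ (m + 1) + 1} : Set ℕ) ∧
      M ≤ Subgroup.normalizer (U : Set ↥(Cfsg.Sz F m))) ∨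
    (∃ (K : Type) (_ : Field K) (_ : Fintype K) (k : ℕ), 1 ≤ k ∧ k < m ∧ Fintype.card K = 2 ^ (2 * k + 1) ∧ 2 * k + 1 ∣ 2 * m + 1 ∧
      ∃ S : Subgroup ↥(Cfsg.Sz F m), Nonempty (↥S ≃* ↥(Cfsg.Sz K k)) ∧ M ≤ S) := by
  rcases Cfsg.Agent.HL.Sz.subgroups hm hF M with ⟨P, hP⟩ | ⟨x, hx1, hxo, hx⟩ | ⟨K, u, hK, hu⟩
  · exact Or.inl ⟨P, hP⟩
  · right; left
    obtain ⟨h1, h2, _⟩ := Cfsg.Agent.HL.Sz.odd_cent hm hF x hx1 hxo
    exact ⟨_, h1, h2, hx⟩
  · right; right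
    obtain ⟨k, hk1, hk, hdiv⟩ := Cfsg.Agent.HL.Sz.subfield_card hF K hK
    have hle : k ≤ m := by
      have := Nat.le_of_dvd (by omega) hdiv
      omega
    have hkm : k < m := by
      rcases lt_or_eq_of_le hle with h | h
      · exact h
      · exfalso
        subst h
        apply hM
        rw [Cfsg.Agent.HL.Sz.std_top hF K hk] at hu
        ext x
        rw [hu]
        exact ⟨fun _ => trivial, fun _ => trivial⟩
    letI : Fintype (GaloisField 2 (2 * k + 1)) := Fintype.ofFinite _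
    have hc : Fintype.card (GaloisField 2 (2 * k + 1)) = 2 ^ (2 * k + 1) := by
      rw [← Nat.card_eq_fintype_card, GaloisField.card 2 _ (by omega)]
    refine ⟨GaloisField 2 (2 * k + 1), inferInstance, inferInstance, k, hk1, hkm, hc, hdiv,
      (Cfsg.Agent.HL.Sz.Std F m K).map (MulAut.conj u).toMonoidHom, ?_, ?_⟩
    · obtain ⟨e⟩ := Cfsg.Agent.HL.Sz.std_iso hm hF K hk1 hk hdiv hc
      have e2 := (Cfsg.Agent.HL.Sz.Std F m K).equivMapOfInjective (MulAut.conj u).toMonoidHom (MulAut.conj u).injective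
      exact ⟨e2.symm.trans e⟩
    · intro x hx
      refine ⟨_, (hu x).mp hx, ?_⟩
      change u * (u⁻¹ * x * u) * u⁻¹ = x
      group

end Cfsg.Agent.S2251
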