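import Cfsg.Statements.S2254
import Cfsg.Agent.H7_Nilp5

set_option autoImplicit false
open Cfsg

namespace Cfsg.Agent.S2254

/-- Let n ≡ 3 (mod 4). Then every nilpotent subgroup of the symmetric group on n letters has order at most 3 times the order of a Sylow 2-subgroup of the symmetric group on n − 3 letters; the bound is attained by a nilpotent subgroup isomorphic to the direct product of such a Sylow 2-subgroup with a cyclic group of order 3; and any two nilpotent subgroups attaining the bound are conjugate. -/
theorem result  (n : ℕ) (hn : n % 4 = 3)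
    (P : Sylow 2 (Equiv.Perm (Fin (n - 3)))) :
    (∀ N : Subgroup (Equiv.Perm (Fin n)), Group.IsNilpotent N → Nat.card N ≤ 3 * Nat.card P) ∧
    (∃ M : Subgroup (Equiv.Perm (Fin n)), Group.IsNilpotent M ∧ Nat.card M = 3 * Nat.card P ∧
      Nonempty (M ≃* (↥(P : Subgroup (Equiv.Perm (Fin (n - 3)))) × Multiplicative (ZMod 3)))) ∧
    (∀ N₁ N₂ : Subgroup (Equiv.Perm (Fin n)), Group.IsNilpotent N₁ → Group.IsNilpotent N₂ →
      Nat.card N₁ = 3 * Nat.card P → Nat.card N₂ = 3 * Nat.card P →
      ∃ g : Equiv.Perm (Fin n), N₂ = N₁.map (MulAut.conj g).toMonoidHom) := by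
    classical
    haveI : Fact (Nat.Prime 2) := ⟨Nat.prime_two⟩
    have hP : Nat.card P = 2 ^ _root_.H7.Nilp.v (n - 3) := _root_.H7.Nilp.card_sylow (n - 3) P
    have hPnil : Group.IsNilpotent P := P.2.isNilpotent
    refine ⟨?_, ?_, ?_⟩
    · intro N hN
      have h1 := _root_.H7.Nilp.main N (Fin n) hN
      rw [Nat.card_fin, _root_.H7.Nilp.h_three n hn] at h1
      rw [hP]; exact h1
    · obtain ⟨e⟩ : Nonempty (Fin (n - 3) ⊕ Multiplicative (ZMod 3) ≃ Fin n) := by
        apply Nonempty.intro
        apply Fintype.equivOfCardEq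
        simp only [Fintype.card_sum, Fintype.card_fin, Fintype.card_multiplicative, ZMod.card]
        omega
      let c : Equiv.Perm (Fin (n - 3) ⊕ Multiplicative (ZMod 3)) →* Equiv.Perm (Fin n) :=
        { toFun := fun σ => e.permCongr σ
          map_one' := by ext x; simp
          map_mul' := by intro a b; ext x; simp }
      have hc : Function.Injective c := e.permCongr.injective
      let f : ↥(P : Subgroup (Equiv.Perm (Fin (n - 3)))) × Multiplicative (ZMod 3) →* Equiv.Perm (Fin n) :=
        (c.comp (Equiv.Perm.sumCongrHom _ _)).comp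
          ((Subgroup.subtype _).prodMap (MulAction.toPermHom (Multiplicative (ZMod 3)) (Multiplicative (ZMod 3))))
      have hf : Function.Injective f := by
        apply (hc.comp Equiv.Perm.sumCongrHom_injective).comp
        exact Function.Injective.prodMap (Subgroup.subtype_injective _) MulAction.toPerm_injective
      refine ⟨f.range, ?_, ?_, ⟨(MonoidHom.ofInjective hf).symm⟩⟩
      · haveI := hPnil
        exact Group.nilpotent_of_surjective f.rangeRestrict (MonoidHom.rangeRestrict_surjective _)
      · rw [← Nat.card_congr (MonoidHom.ofInjective hf).toEquiv, Nat.card_prod, mul_comm]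
        congr 1
        rw [Nat.card_eq_fintype_card, Fintype.card_multiplicative, ZMod.card]
    · intro N₁ N₂ hN₁ hN₂ hc₁ hc₂
      rw [hP] at hc₁ hc₂
      obtain ⟨z1, T1, hz1, hT1, hcm1, hN1⟩ := _root_.H7.Nilp.struct' N₁ hN₁ _ hc₁
      obtain ⟨z2, T2, hz2, hT2, hcm2, hN2⟩ := _root_.H7.Nilp.struct' N₂ hN₂ _ hc₂
      have hs : ∀ (z : Equiv.Perm (Fin n)) (T : Subgroup (Equiv.Perm (Fin n))), orderOf z = 3 →
          Nat.card T = 2 ^ _root_.H7.Nilp.v (n - 3) → (∀ t ∈ T, t * z = z * t) → z.support.card = 3 := by
        intro z T hz hT hcm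
        by_contra hs
        have h1 := _root_.H7.Nilp.moves hz T _ hT hcm hs
        rw [Fintype.card_fin] at h1
        rcases Nat.lt_or_ge n 7 with h7 | h7
        · have h3 : n = 3 := by omega
          subst h3
          have h4 := _root_.H7.Nilp.support_ge hz
          have h5 := Finset.card_le_univ z.support
          rw [Fintype.card_fin] at h5
          omega
        · have h4 := _root_.H7.Nilp.v_gap n hn h7
          omega
      have hs1 := hs z1 T1 hz1 hT1 hcm1
      have hs2 := hs z2 T2 hz2 hT2 hcm2
      have hconj : IsConj z1 z2 := by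
        rw [Equiv.Perm.isConj_iff_cycleType_eq, (card_support_eq_three_iff.1 hs1).cycleType,
          (card_support_eq_three_iff.1 hs2).cycleType]
      obtain ⟨g0, hg0⟩ := isConj_iff.1 hconj
      obtain ⟨g, -, hg⟩ := _root_.H7.Nilp.conj_final ⊤ z1 z2 g0 T1 T2 (fun _ _ _ _ => Subgroup.mem_top _)
        (Subgroup.mem_top _) hg0 le_top le_top _ hz2 hs2 hcm1 hcm2 hT1 hT2 (by
          rw [Subgroup.comap_top, Subgroup.card_top, Nat.card_perm, _root_.H7.Nilp.card_fix hs2, Fintype.card_fin,
            Nat.factorization_def _ Nat.prime_two]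
          rfl)
      exact ⟨g, by rw [hN1, hN2]; exact hg⟩

end Cfsg.Agent.S2254
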