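import Cfsg.Statements.S2255
import Cfsg.Agent.H7_Nilp3

set_option autoImplicit false
open Cfsg

namespace Cfsg.Agent.S2255


open MulAction in
theorem prime_trans (r : ℕ) (hr : r.Prime) (G Ω : Type) [Group G] [Finite G] [MulAction G Ω] [Finite Ω] [FaithfulSMul G Ω]
    (hnil : Group.IsNilpotent G) (hn : Nat.card Ω = r) (ω : Ω) (htr : orbit G ω = Set.univ) : IsPGroup r G := by
  have hrG : r ∣ Nat.card G := by
    have h1 := _root_.H7.Nilp.card_orbit_dvd (A := G) ω
    rw [htr] at h1
    rwa [Nat.card_congr (Equiv.Set.univ Ω), hn] at h1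
  by_cases hG : ∃ p : ℕ, p.Prime ∧ IsPGroup p G
  · obtain ⟨p, hp, hG⟩ := hG
    haveI : Fact p.Prime := ⟨hp⟩
    obtain ⟨k, hk⟩ := IsPGroup.iff_card.1 hG
    rw [hk] at hrG
    have := (Nat.prime_dvd_prime_iff_eq hr hp).1 (hr.dvd_of_dvd_pow hrG)
    rw [this]; exact hG
  exfalso
  push Not at hG
  haveI : IsPretransitive G Ω := by
    rw [isPretransitive_iff_orbit_eq_univ (G := G) (X := Ω) ω]
    exact htr
  obtain ⟨A, B, hA, hB, hA1, hB1, hcop, hAB, hc, hcard⟩ := _root_.H7.Nilp.split hnil hG
  haveI := _root_.H7.Nilp.faithful_orbit A B hAB hc ω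
  haveI := _root_.H7.Nilp.faithful_orbit B A (by rw [sup_comm]; exact hAB) (fun b hb a ha => (hc a ha b hb).symm) ω
  haveI : Nontrivial A := (Subgroup.nontrivial_iff_ne_bot A).2 hA1
  haveI : Nontrivial B := (Subgroup.nontrivial_iff_ne_bot B).2 hB1
  have ha2 := _root_.H7.Nilp.two_le_orbit (A := A) ω
  have hb2 := _root_.H7.Nilp.two_le_orbit (A := B) ω
  have ha3 := _root_.H7.Nilp.card_orbit_dvd (A := A) ω
  have hb3 := _root_.H7.Nilp.card_orbit_dvd (A := B) ω
  have ha4 : Nat.card (orbit A ω) ∣ r := by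
    have := (IsBlock.orbit_of_normal (N := A) ω).ncard_dvd_card ⟨ω, mem_orbit_self ω⟩
    rwa [hn] at this
  have hb4 : Nat.card (orbit B ω) ∣ r := by
    have := (IsBlock.orbit_of_normal (N := B) ω).ncard_dvd_card ⟨ω, mem_orbit_self ω⟩
    rwa [hn] at this
  have hcop2 : (Nat.card (orbit A ω)).Coprime (Nat.card (orbit B ω)) :=
    (hcop.coprime_dvd_left ha3).coprime_dvd_right hb3
  have e1 : Nat.card (orbit A ω) = r := ((Nat.dvd_prime hr).1 ha4).resolve_left (by omega)
  have e2 : Nat.card (orbit B ω) = r := ((Nat.dvd_prime hr).1 hb4).resolve_left (by omega)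
  rw [e1, e2, Nat.coprime_self] at hcop2
  exact hr.one_lt.ne' hcop2

theorem sq_ge4 (n : ℕ) (hn : 16 ≤ n) : 4 * 3 ^ (n - 1) ≤ (_root_.H7.Nilp.h n) ^ 2 := by
  obtain ⟨_, _, _, _, _, _, _, _, _, _, _, _, _, _, _, _, f16, f17, f18, f19, f20, f21, f22, f23⟩ := _root_.H7.Nilp.h_small
  induction n using Nat.strong_induction_on with
  | _ n ih =>
    rcases Nat.lt_or_ge n 24 with h16 | h16
    · interval_cases n
      · rw [f16]; norm_num
      · rw [f17]; norm_num
      · rw [f18]; norm_num
      · rw [f19]; norm_num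
      · rw [f20]; norm_num
      · rw [f21]; norm_num
      · rw [f22]; norm_num
      · rw [f23]; norm_num
    · have h1 := ih (n - 8) (by omega) (by omega)
      have h2 := _root_.H7.Nilp.h_8 (n - 8)
      rw [show n - 8 + 8 = n by omega] at h2
      have h3 := Nat.pow_le_pow_left h2 2
      have h4 : 3 ^ (n - 1) = 3 ^ (n - 8 - 1) * 6561 := by
        rw [show n - 1 = (n - 8 - 1) + 8 by omega, pow_add]; norm_num
      rw [h4]
      nlinarith

open MulAction in
theorem odd_bound (n : ℕ) (h2 : 2 ≤ n) (hn : n % 4 ≠ 3) (h5 : n ≠ 5) (h6 : n ≠ 6) (h9 : n ≠ 9)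
    (L : Subgroup (Equiv.Perm (Fin n))) (hL : Group.IsNilpotent L) (hodd : Odd (Nat.card L)) :
    2 * Nat.card L ≤ _root_.H7.Nilp.h n := by
  obtain ⟨hb1, hb2⟩ := _root_.H7.Nilp.odd_aux n L (Fin n) hL hodd (Nat.card_fin n) (by omega)
  set c := Nat.card L with hc
  obtain ⟨_, _, f2, _, f4, _, _, _, f8, _, f10, _, f12, f13, f14, _⟩ := _root_.H7.Nilp.h_small
  have heven : Even n → c ^ 2 ≤ 3 ^ (n - 2) := by
    intro he
    apply hb2
    rintro ⟨ω, hω⟩
    have h1 := _root_.H7.Nilp.card_orbit_dvd (A := L) ω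
    rw [hω, Nat.card_congr (Equiv.Set.univ (Fin n)), Nat.card_fin] at h1
    have h3 := hodd.of_dvd_nat h1
    exact (Nat.not_odd_iff_even.2 he) h3
  have hsq : ∀ m k : ℕ, c ^ 2 ≤ k → k < (m + 1) ^ 2 → c ≤ m := by
    intro m k hk hm
    by_contra hcon
    have h3 : m + 1 ≤ c := by omega
    have h4 := Nat.pow_le_pow_left h3 2
    omega
  rcases Nat.lt_or_ge n 16 with h16 | h16
  · have hcases : n = 2 ∨ n = 4 ∨ n = 8 ∨ n = 10 ∨ n = 12 ∨ n = 13 ∨ n = 14 := by omega
    rcases hcases with h | h | h | h | h | h | h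
    · subst h
      have := hsq 1 _ (heven (by decide)) (by norm_num)
      rw [f2]; omega
    · subst h
      have := hsq 3 _ (heven (by decide)) (by norm_num)
      rw [f4]; omega
    · subst h
      have := hsq 27 _ (heven (by decide)) (by norm_num)
      rw [f8]; omega
    · subst h
      have := hsq 81 _ (heven (by decide)) (by norm_num)
      rw [f10]; omega
    · subst h
      have := hsq 243 _ (heven (by decide)) (by norm_num)
      rw [f12]; omega
    · subst h
      rw [f13]
      by_cases htr : ∃ ω : Fin 13, orbit L ω = Set.univ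
      · obtain ⟨ω, hω⟩ := htr
        have hpg := prime_trans 13 (by norm_num) L (Fin 13) hL (Nat.card_fin 13) ω hω
        haveI : Fact (Nat.Prime 13) := ⟨by norm_num⟩
        obtain ⟨k, hk⟩ := IsPGroup.iff_card.1 hpg
        have hdv := _root_.H7.Nilp.card_dvd_fact L (Fin 13)
        rw [hk, Nat.card_fin] at hdv
        have hk1 : k ≤ 1 := by
          by_contra hcon
          have h3 : 13 ^ 2 ∣ 13 ^ k := pow_dvd_pow 13 (by omega)
          have h4 := h3.trans hdv
          norm_num [Nat.factorial] at h4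
        have : c ≤ 13 := by
          rw [hc, hk]
          calc 13 ^ k ≤ 13 ^ 1 := Nat.pow_le_pow_right (by norm_num) hk1
            _ = 13 := by norm_num
        omega
      · have := hsq 500 _ (hb2 htr) (by norm_num)
        omega
    · subst h
      have := hsq 729 _ (heven (by decide)) (by norm_num)
      rw [f14]; omega
  · have h3 := sq_ge4 n h16
    have h4 : (2 * c) ^ 2 ≤ (_root_.H7.Nilp.h n) ^ 2 := by
      calc (2 * c) ^ 2 = 4 * c ^ 2 := by ring
        _ ≤ 4 * 3 ^ (n - 1) := Nat.mul_le_mul_left _ hb1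
        _ ≤ _ := h3
    exact (Nat.pow_le_pow_iff_left (by norm_num)).1 h4


/-- Let n be a natural number not congruent to 3 modulo 4, with n ∉ {5, 6, 9}. Then every nilpotent subgroup of the alternating group on n letters has order at most the order of a Sylow 2-subgroup of the alternating group (so the nilpotent subgroups of largest order are exactly the Sylow 2-subgroups). -/
theorem result  (n : ℕ) (hn : n % 4 ≠ 3)
    (h5 : n ≠ 5) (h6 : n ≠ 6) (h9 : n ≠ 9)
    (N : Subgroup (alternatingGroup (Fin n))) (hN : Group.IsNilpotent N)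
    (P : Sylow 2 (alternatingGroup (Fin n))) :
    Nat.card N ≤ Nat.card P := by
    classical
    haveI : Fact (Nat.Prime 2) := ⟨Nat.prime_two⟩
    rcases Nat.lt_or_ge n 2 with h2 | h2
    · have hsub : Subsingleton (alternatingGroup (Fin n)) := by
        have : Subsingleton (Equiv.Perm (Fin n)) := by
          interval_cases n
          · infer_instance
          · infer_instance
        infer_instance
      have h1 : Nat.card N ≤ 1 := by
        haveI : Subsingleton N := inferInstance
        exact Finite.card_le_one_iff_subsingleton.2 inferInstance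
      exact h1.trans Nat.card_pos
    have hP : 2 * Nat.card P = _root_.H7.Nilp.h n := by
      rw [_root_.H7.Nilp.h_eq_pow n hn, P.card_eq_multiplicity]
      haveI : Nontrivial (Fin n) := Fin.nontrivial_iff_two_le.2 h2
      have h3 := two_mul_nat_card_alternatingGroup (α := Fin n)
      rw [Nat.card_perm, Nat.card_fin] at h3
      have h4 : _root_.H7.Nilp.v n = (Nat.card (alternatingGroup (Fin n))).factorization 2 + 1 := by
        unfold _root_.H7.Nilp.v
        rw [← h3, ← Nat.factorization_def _ Nat.prime_two, Nat.factorization_mul (by norm_num) Nat.card_pos.ne']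
        rw [Finsupp.add_apply, Nat.Prime.factorization_self Nat.prime_two, add_comm]
      rw [h4, pow_succ, mul_comm]
    set M := N.map (alternatingGroup (Fin n)).subtype with hM
    have hMN : Nat.card M = Nat.card N := Subgroup.card_map_of_injective (Subgroup.subtype_injective _)
    have hMnil : Group.IsNilpotent M := by
      haveI := hN
      exact Group.nilpotent_of_mulEquiv (N.equivMapOfInjective _ (Subgroup.subtype_injective _))
    obtain ⟨L, hML, hLmax⟩ := (Set.toFinite {L : Subgroup (Equiv.Perm (Fin n)) | M ≤ L ∧ Group.IsNilpotent L}).exists_le_maximal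
      (show M ∈ _ from ⟨le_rfl, hMnil⟩)
    have hLn : Group.IsNilpotent L := hLmax.1.2
    have hLm : ∀ K : Subgroup (Equiv.Perm (Fin n)), L ≤ K → Group.IsNilpotent K → K = L := by
      intro K hLK hK
      exact le_antisymm (hLmax.2 (show K ∈ _ from ⟨hML.trans hLK, hK⟩) hLK) hLK
    have hMA : ∀ x ∈ M, Equiv.Perm.sign x = 1 := by
      rintro _ ⟨x, _, rfl⟩
      exact Equiv.Perm.mem_alternatingGroup.1 x.2
    have hLcard := _root_.H7.Nilp.main L (Fin n) hLn
    rw [Nat.card_fin] at hLcard
    by_cases hA : ∀ x ∈ L, Equiv.Perm.sign x = 1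
    · have hodd := _root_.H7.Nilp.odd_of_max L hLn hLm hA
      have h3 : Nat.card M ≤ Nat.card L := Nat.le_of_dvd Nat.card_pos (Subgroup.card_dvd_of_le hML)
      have h4 : 2 * Nat.card L ≤ _root_.H7.Nilp.h n := odd_bound n h2 hn h5 h6 h9 L hLn hodd
      omega
    · push Not at hA
      obtain ⟨x, hx, hx1⟩ := hA
      let s : L →* ℤˣ := Equiv.Perm.sign.comp L.subtype
      have hs : Function.Surjective s := by
        intro u
        rcases Int.units_eq_one_or u with rfl | rfl
        · exact ⟨1, map_one s⟩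
        · exact ⟨⟨x, hx⟩, (Int.units_eq_one_or (s ⟨x, hx⟩)).resolve_left hx1⟩
      have hidx : s.ker.index = 2 := by
        rw [Subgroup.index_ker, MonoidHom.range_eq_top.2 hs, Subgroup.card_top, Nat.card_eq_fintype_card]
        rfl
      have h3 := Subgroup.card_mul_index s.ker
      rw [hidx] at h3
      have h4 : M.subgroupOf L ≤ s.ker := by
        intro y hy
        exact hMA _ hy
      have h5' : Nat.card (M.subgroupOf L) = Nat.card M := Nat.card_congr (Subgroup.subgroupOfEquivOfLe hML).toEquiv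
      have h6' := Nat.le_of_dvd Nat.card_pos (Subgroup.card_dvd_of_le h4)
      omega

end Cfsg.Agent.S2255
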