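import Cfsg.Statements.S2256
import Cfsg.Agent.H7_Nilp5
import Cfsg.Agent.S2255

set_option autoImplicit false
open Cfsg

namespace Cfsg.Agent.S2256


theorem card_alt_fact (Ω : Type*) [Fintype Ω] [DecidableEq Ω] (m : ℕ) (hm : Fintype.card Ω = m) (h2 : 2 ≤ m) :
    _root_.H7.Nilp.v m = (Nat.card (alternatingGroup Ω)).factorization 2 + 1 := by
  haveI : Nontrivial Ω := Fintype.one_lt_card_iff_nontrivial.1 (by omega)
  have h3 := two_mul_nat_card_alternatingGroup (α := Ω)
  rw [Nat.card_perm, Nat.card_eq_fintype_card (α := Ω), hm] at h3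
  unfold _root_.H7.Nilp.v
  rw [← h3, ← Nat.factorization_def _ Nat.prime_two, Nat.factorization_mul (by norm_num) Nat.card_pos.ne']
  rw [Finsupp.add_apply, Nat.Prime.factorization_self Nat.prime_two, add_comm]

theorem card_syl_alt (Ω : Type*) [Fintype Ω] [DecidableEq Ω] (m : ℕ) (hm : Fintype.card Ω = m) (h2 : 2 ≤ m)
    (P : Sylow 2 (alternatingGroup Ω)) : 2 * Nat.card P = 2 ^ _root_.H7.Nilp.v m := by
  haveI : Fact (Nat.Prime 2) := ⟨Nat.prime_two⟩
  rw [card_alt_fact Ω m hm h2, P.card_eq_multiplicity, pow_succ, mul_comm]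

open MulAction in
theorem odd_intrans (n : ℕ) (hno : Odd n) (G Ω : Type) [Group G] [Finite G] [MulAction G Ω] [Finite Ω] [FaithfulSMul G Ω]
    (hnil : Group.IsNilpotent G) (hodd : Odd (Nat.card G)) (hn : Nat.card Ω = n) (ω : Ω)
    (htr : orbit G ω ≠ Set.univ) : (Nat.card G) ^ 2 ≤ 3 ^ (n - 3) := by
  set K := (toPermHom G (orbit G ω)).ker with hK
  have h1 : Nat.card G = Nat.card K * Nat.card (toPermHom G (orbit G ω)).range := by
    rw [← Subgroup.card_mul_index K, hK, Subgroup.index_ker]
  haveI : FaithfulSMul K (_root_.H7.Nilp.compl K ω) := by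
    constructor
    intro x y hxy
    apply Subtype.ext
    apply FaithfulSMul.eq_of_smul_eq_smul (α := Ω)
    intro a
    by_cases ha : a ∈ orbit G ω
    · have h2 : ∀ z : K, (z : G) • a = a := by
        intro z
        have h3 := MonoidHom.mem_ker.1 z.2
        have h4 := congrArg (fun e : Equiv.Perm (orbit G ω) => (e ⟨a, ha⟩ : Ω)) h3
        exact h4
      rw [h2, h2]
    · exact congrArg Subtype.val (hxy ⟨a, ha⟩)
  have hsum : Nat.card (orbit G ω) + Nat.card (_root_.H7.Nilp.compl K ω) = n := by
    have h5 : Nat.card (_root_.H7.Nilp.compl K ω) = ((orbit G ω)ᶜ : Set Ω).ncard := rfl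
    have h6 : Nat.card (orbit G ω) = (orbit G ω).ncard := rfl
    rw [h5, h6, Set.ncard_add_ncard_compl, hn]
  have hpos1 : 0 < Nat.card (orbit G ω) := by
    haveI : Nonempty (orbit G ω) := ⟨⟨ω, mem_orbit_self ω⟩⟩
    exact Nat.card_pos
  have hpos2 : 0 < Nat.card (_root_.H7.Nilp.compl K ω) := by
    obtain ⟨a, ha⟩ := (Set.ne_univ_iff_exists_notMem _).1 htr
    haveI : Nonempty (_root_.H7.Nilp.compl K ω) := ⟨⟨a, ha⟩⟩
    exact Nat.card_pos
  have ho : Odd (Nat.card (orbit G ω)) := hodd.of_dvd_nat (_root_.H7.Nilp.card_orbit_dvd (A := G) ω)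
  have hKo : Odd (Nat.card K) := hodd.of_dvd_nat (Subgroup.card_subgroup_dvd_card K)
  have hbe : ¬ Odd (Nat.card (_root_.H7.Nilp.compl K ω)) := by
    intro hb
    have := ho.add_odd hb
    rw [hsum] at this
    exact (Nat.not_odd_iff_even.2 this) hno
  have h7 := (_root_.H7.Nilp.odd_aux (Nat.card (_root_.H7.Nilp.compl K ω)) K (_root_.H7.Nilp.compl K ω)
    (by haveI := hnil; infer_instance) hKo rfl hpos2).2 (by
      rintro ⟨w, hw⟩
      apply hbe
      have h8 := _root_.H7.Nilp.card_orbit_dvd (A := K) w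
      rw [hw, Nat.card_congr (Equiv.Set.univ _)] at h8
      exact hKo.of_dvd_nat h8)
  have h8 := (_root_.H7.Nilp.odd_aux (Nat.card (orbit G ω)) (toPermHom G (orbit G ω)).range (orbit G ω)
    (by
      haveI := hnil
      exact Group.nilpotent_of_surjective (toPermHom G (orbit G ω)).rangeRestrict
        (MonoidHom.rangeRestrict_surjective _))
    (hodd.of_dvd_nat (by rw [h1]; exact Dvd.intro_left _ rfl)) rfl hpos1).1
  have hb2 : 2 ≤ Nat.card (_root_.H7.Nilp.compl K ω) := by
    by_contra hcon
    apply hbe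
    rw [show Nat.card (_root_.H7.Nilp.compl K ω) = 1 by omega]
    exact odd_one
  calc (Nat.card G) ^ 2 = Nat.card K ^ 2 * Nat.card (toPermHom G (orbit G ω)).range ^ 2 := by
        rw [h1]; ring
    _ ≤ 3 ^ (Nat.card (_root_.H7.Nilp.compl K ω) - 2) * 3 ^ (Nat.card (orbit G ω) - 1) := Nat.mul_le_mul h7 h8
    _ = 3 ^ (Nat.card (_root_.H7.Nilp.compl K ω) - 2 + (Nat.card (orbit G ω) - 1)) := by rw [pow_add]
    _ ≤ 3 ^ (n - 3) := Nat.pow_le_pow_right (by norm_num) (by omega)

open MulAction in
theorem trans15 (G Ω : Type) [Group G] [Finite G] [MulAction G Ω] [Finite Ω] [FaithfulSMul G Ω]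
    (hnil : Group.IsNilpotent G) (hodd : Odd (Nat.card G)) (hn : Nat.card Ω = 15) (ω : Ω)
    (htr : orbit G ω = Set.univ) : (Nat.card G) ^ 2 ≤ 3 ^ 12 := by
  have h15 : 15 ∣ Nat.card G := by
    have h1 := _root_.H7.Nilp.card_orbit_dvd (A := G) ω
    rw [htr] at h1
    rwa [Nat.card_congr (Equiv.Set.univ Ω), hn] at h1
  by_cases hG : ∃ p : ℕ, p.Prime ∧ IsPGroup p G
  · exfalso
    obtain ⟨p, hp, hG⟩ := hG
    haveI : Fact p.Prime := ⟨hp⟩
    obtain ⟨k, hk⟩ := IsPGroup.iff_card.1 hG
    rw [hk] at h15
    have h3 := (Nat.prime_dvd_prime_iff_eq Nat.prime_three hp).1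
      (Nat.prime_three.dvd_of_dvd_pow ((show 3 ∣ 15 by norm_num).trans h15))
    have h5 := (Nat.prime_dvd_prime_iff_eq Nat.prime_five hp).1
      (Nat.prime_five.dvd_of_dvd_pow ((show 5 ∣ 15 by norm_num).trans h15))
    omega
  push Not at hG
  haveI : IsPretransitive G Ω := by
    rw [isPretransitive_iff_orbit_eq_univ (G := G) (X := Ω) ω]
    exact htr
  obtain ⟨A, B, hA, hB, hA1, hB1, hcop, hAB, hc, hcard⟩ := _root_.H7.Nilp.split hnil hG
  haveI := _root_.H7.Nilp.faithful_orbit A B hAB hc ω
  haveI := _root_.H7.Nilp.faithful_orbit B A (by rw [sup_comm]; exact hAB) (fun b hb a ha => (hc a ha b hb).symm) ω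
  haveI : Nontrivial A := (Subgroup.nontrivial_iff_ne_bot A).2 hA1
  haveI : Nontrivial B := (Subgroup.nontrivial_iff_ne_bot B).2 hB1
  have ha2 := _root_.H7.Nilp.two_le_orbit (A := A) ω
  have hb2 := _root_.H7.Nilp.two_le_orbit (A := B) ω
  have ha3 := _root_.H7.Nilp.card_orbit_dvd (A := A) ω
  have hb3 := _root_.H7.Nilp.card_orbit_dvd (A := B) ω
  have ha4 : Nat.card (orbit A ω) ∣ 15 := by
    have := (IsBlock.orbit_of_normal (N := A) ω).ncard_dvd_card ⟨ω, mem_orbit_self ω⟩
    rwa [hn] at this
  have hb4 : Nat.card (orbit B ω) ∣ 15 := by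
    have := (IsBlock.orbit_of_normal (N := B) ω).ncard_dvd_card ⟨ω, mem_orbit_self ω⟩
    rwa [hn] at this
  have hcop2 : (Nat.card (orbit A ω)).Coprime (Nat.card (orbit B ω)) :=
    (hcop.coprime_dvd_left ha3).coprime_dvd_right hb3
  have hab : Nat.card (orbit A ω) * Nat.card (orbit B ω) ∣ 15 := hcop2.mul_dvd_of_dvd_of_dvd ha4 hb4
  have hle := Nat.le_of_dvd (by norm_num) hab
  set a := Nat.card (orbit A ω) with ha
  set b := Nat.card (orbit B ω) with hb
  have hAo : Odd (Nat.card A) := hodd.of_dvd_nat (Subgroup.card_subgroup_dvd_card A)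
  have hBo : Odd (Nat.card B) := hodd.of_dvd_nat (Subgroup.card_subgroup_dvd_card B)
  have hA4 := (_root_.H7.Nilp.odd_aux a A (orbit A ω) (by haveI := hnil; infer_instance) hAo ha.symm (by omega)).1
  have hB4 := (_root_.H7.Nilp.odd_aux b B (orbit B ω) (by haveI := hnil; infer_instance) hBo hb.symm (by omega)).1
  calc (Nat.card G) ^ 2 ≤ (Nat.card A * Nat.card B) ^ 2 := Nat.pow_le_pow_left hcard 2
    _ = Nat.card A ^ 2 * Nat.card B ^ 2 := by ring
    _ ≤ 3 ^ (a - 1) * 3 ^ (b - 1) := Nat.mul_le_mul hA4 hB4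
    _ = 3 ^ (a - 1 + (b - 1)) := by rw [pow_add]
    _ ≤ 3 ^ 12 := Nat.pow_le_pow_right (by norm_num) (by
        have h9 : a ≤ 7 := by nlinarith
        have h10 : b ≤ 7 := by nlinarith
        omega)

open MulAction in
theorem odd_bound3 (n : ℕ) (hn : n % 4 = 3) (h7 : 7 ≤ n)
    (L : Subgroup (Equiv.Perm (Fin n))) (hL : Group.IsNilpotent L) (hodd : Odd (Nat.card L)) :
    2 * Nat.card L ≤ _root_.H7.Nilp.h n := by
  have hnodd : Odd n := by rw [Nat.odd_iff]; omega
  obtain ⟨_, _, _, _, _, _, _, f7, _, _, _, f11, _, _, _, f15, _⟩ := _root_.H7.Nilp.h_small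
  obtain ⟨hb1, -⟩ := _root_.H7.Nilp.odd_aux n L (Fin n) hL hodd (Nat.card_fin n) (by omega)
  haveI : NeZero n := ⟨by omega⟩
  have hint : orbit L (0 : Fin n) ≠ Set.univ → (Nat.card L) ^ 2 ≤ 3 ^ (n - 3) := fun htr =>
    odd_intrans n hnodd L (Fin n) hL hodd (Nat.card_fin n) 0 htr
  have hsq : ∀ m k : ℕ, (Nat.card L) ^ 2 ≤ k → k < (m + 1) ^ 2 → Nat.card L ≤ m := by
    intro m k hk hm
    by_contra hcon
    have h3 : m + 1 ≤ Nat.card L := by omega
    have h4 := Nat.pow_le_pow_left h3 2
    omega
  have hprime : n.Prime → ¬ n ^ 2 ∣ n.factorial → orbit L (0 : Fin n) = Set.univ → Nat.card L ≤ n := by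
    intro hp hnd htr
    have hpg := S2255.prime_trans n hp L (Fin n) hL (Nat.card_fin n) 0 htr
    haveI : Fact n.Prime := ⟨hp⟩
    obtain ⟨k, hk⟩ := IsPGroup.iff_card.1 hpg
    have hdv := _root_.H7.Nilp.card_dvd_fact L (Fin n)
    rw [hk, Nat.card_fin] at hdv
    have hk1 : k ≤ 1 := by
      by_contra hcon
      exact hnd ((pow_dvd_pow n (by omega)).trans hdv)
    rw [hk]
    calc n ^ k ≤ n ^ 1 := Nat.pow_le_pow_right (by omega) hk1
      _ = n := pow_one n
  rcases Nat.lt_or_ge n 16 with h16 | h16
  · have hcases : n = 7 ∨ n = 11 ∨ n = 15 := by omega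
    rcases hcases with h | h | h
    · subst h
      rw [f7]
      by_cases htr : orbit L (0 : Fin 7) = Set.univ
      · have := hprime (by norm_num) (by norm_num [Nat.factorial]) htr
        omega
      · have := hsq 9 _ (hint htr) (by norm_num)
        omega
    · subst h
      rw [f11]
      by_cases htr : orbit L (0 : Fin 11) = Set.univ
      · have := hprime (by norm_num) (by norm_num [Nat.factorial]) htr
        omega
      · have := hsq 81 _ (hint htr) (by norm_num)
        omega
    · subst h
      rw [f15]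
      by_cases htr : orbit L (0 : Fin 15) = Set.univ
      · have := hsq 729 _ (trans15 L (Fin 15) hL hodd (Nat.card_fin 15) 0 htr) (by norm_num)
        omega
      · have := hsq 729 _ (hint htr) (by norm_num)
        omega
  · have h3 := S2255.sq_ge4 n h16
    have h4 : (2 * Nat.card L) ^ 2 ≤ (_root_.H7.Nilp.h n) ^ 2 := by
      calc (2 * Nat.card L) ^ 2 = 4 * (Nat.card L) ^ 2 := by ring
        _ ≤ 4 * 3 ^ (n - 1) := Nat.mul_le_mul_left _ hb1
        _ ≤ _ := h3
    exact (Nat.pow_le_pow_iff_left (by norm_num)).1 h4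


/-- Let n ≡ 3 (mod 4) with n ≥ 7. Then every nilpotent subgroup of the alternating group on n letters has order at most 3 times the order of a Sylow 2-subgroup of the alternating group on n − 3 letters; the bound is attained by a nilpotent subgroup isomorphic to the direct product of such a Sylow 2-subgroup with a cyclic group of order 3; and any two nilpotent subgroups of the alternating group attaining the bound are conjugate in it. -/
theorem result  (n : ℕ) (hn : n % 4 = 3) (h7 : 7 ≤ n)
    (P : Sylow 2 (alternatingGroup (Fin (n - 3)))) :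
    (∀ N : Subgroup (alternatingGroup (Fin n)), Group.IsNilpotent N → Nat.card N ≤ 3 * Nat.card P) ∧
    (∃ M : Subgroup (alternatingGroup (Fin n)), Group.IsNilpotent M ∧ Nat.card M = 3 * Nat.card P ∧
      Nonempty (M ≃* (↥(P : Subgroup (alternatingGroup (Fin (n - 3)))) × Multiplicative (ZMod 3)))) ∧
    (∀ N₁ N₂ : Subgroup (alternatingGroup (Fin n)), Group.IsNilpotent N₁ → Group.IsNilpotent N₂ →
      Nat.card N₁ = 3 * Nat.card P → Nat.card N₂ = 3 * Nat.card P →
      ∃ g : alternatingGroup (Fin n), N₂ = N₁.map (MulAut.conj g).toMonoidHom) := by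
    classical
    haveI : Fact (Nat.Prime 2) := ⟨Nat.prime_two⟩
    have hPc := card_syl_alt (Fin (n - 3)) (n - 3) (Fintype.card_fin _) (by omega) P
    have hPnil : Group.IsNilpotent P := P.2.isNilpotent
    have hv := _root_.H7.Nilp.v_gap n hn h7
    have hP : Nat.card P = 2 ^ (_root_.H7.Nilp.v (n - 3) - 1) := by
      have h1 : 2 ^ _root_.H7.Nilp.v (n - 3) = 2 * 2 ^ (_root_.H7.Nilp.v (n - 3) - 1) := by
        rw [← pow_succ']; congr 1; omega
      omega
    refine ⟨?_, ?_, ?_⟩
    · intro N hN
      set M := N.map (alternatingGroup (Fin n)).subtype with hM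
      have hMN : Nat.card M = Nat.card N := Subgroup.card_map_of_injective (Subgroup.subtype_injective _)
      have hMnil : Group.IsNilpotent M := by
        haveI := hN
        exact Group.nilpotent_of_mulEquiv (N.equivMapOfInjective _ (Subgroup.subtype_injective _))
      obtain ⟨L, hML, hLmax⟩ := (Set.toFinite {L : Subgroup (Equiv.Perm (Fin n)) | M ≤ L ∧ Group.IsNilpotent L}).exists_le_maximal
        (show M ∈ _ from ⟨le_rfl, hMnil⟩)
      have hLn : Group.IsNilpotent L := hLmax.1.2
      have hLm : ∀ K : Subgroup (Equiv.Perm (Fin n)), L ≤ K → Group.IsNilpotent K → K = L := by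
        intro K hLK hK
        exact le_antisymm (hLmax.2 (show K ∈ _ from ⟨hML.trans hLK, hK⟩) hLK) hLK
      have hMA : ∀ x ∈ M, Equiv.Perm.sign x = 1 := by
        rintro _ ⟨x, _, rfl⟩
        exact Equiv.Perm.mem_alternatingGroup.1 x.2
      have hLcard := _root_.H7.Nilp.main L (Fin n) hLn
      rw [Nat.card_fin] at hLcard
      have hh := _root_.H7.Nilp.h_three n hn
      by_cases hA : ∀ x ∈ L, Equiv.Perm.sign x = 1
      · have hodd := _root_.H7.Nilp.odd_of_max L hLn hLm hA
        have h3 : Nat.card M ≤ Nat.card L := Nat.le_of_dvd Nat.card_pos (Subgroup.card_dvd_of_le hML)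
        have h4 : 2 * Nat.card L ≤ _root_.H7.Nilp.h n := odd_bound3 n hn h7 L hLn hodd
        omega
      · push Not at hA
        obtain ⟨x, hx, hx1⟩ := hA
        let s : L →* ℤˣ := Equiv.Perm.sign.comp L.subtype
        have hs : Function.Surjective s := by
          intro u
          rcases Int.units_eq_one_or u with rfl | rfl
          · exact ⟨1, map_one s⟩
          · exact ⟨⟨x, hx⟩, (Int.units_eq_one_or (s ⟨x, hx⟩)).resolve_left hx1⟩
        have hidx : s.ker.index = 2 := by
          rw [Subgroup.index_ker, MonoidHom.range_eq_top.2 hs, Subgroup.card_top, Nat.card_eq_fintype_card]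
          rfl
        have h3 := Subgroup.card_mul_index s.ker
        rw [hidx] at h3
        have h4 : M.subgroupOf L ≤ s.ker := by
          intro y hy
          exact hMA _ hy
        have h5' : Nat.card (M.subgroupOf L) = Nat.card M := Nat.card_congr (Subgroup.subgroupOfEquivOfLe hML).toEquiv
        have h6' := Nat.le_of_dvd Nat.card_pos (Subgroup.card_dvd_of_le h4)
        omega
    · obtain ⟨e⟩ : Nonempty (Fin (n - 3) ⊕ Multiplicative (ZMod 3) ≃ Fin n) := by
        apply Nonempty.intro
        apply Fintype.equivOfCardEq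
        simp only [Fintype.card_sum, Fintype.card_fin, Fintype.card_multiplicative, ZMod.card]
        omega
      let c : Equiv.Perm (Fin (n - 3) ⊕ Multiplicative (ZMod 3)) →* Equiv.Perm (Fin n) :=
        { toFun := fun σ => e.permCongr σ
          map_one' := by ext x; simp
          map_mul' := by intro a b; ext x; simp }
      have hc : Function.Injective c := e.permCongr.injective
      let f0 : ↥(P : Subgroup (alternatingGroup (Fin (n - 3)))) × Multiplicative (ZMod 3) →* Equiv.Perm (Fin n) :=
        (c.comp (Equiv.Perm.sumCongrHom _ _)).comp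
          (((Subgroup.subtype _).comp (Subgroup.subtype _)).prodMap
            (MulAction.toPermHom (Multiplicative (ZMod 3)) (Multiplicative (ZMod 3))))
      have hf0 : Function.Injective f0 := by
        apply (hc.comp Equiv.Perm.sumCongrHom_injective).comp
        exact Function.Injective.prodMap ((Subgroup.subtype_injective _).comp (Subgroup.subtype_injective _))
          MulAction.toPerm_injective
      have hf0s : ∀ x, f0 x ∈ alternatingGroup (Fin n) := by
        rintro ⟨a, b⟩
        rw [Equiv.Perm.mem_alternatingGroup]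
        have h1 : Equiv.Perm.sign (f0 (a, b)) = Equiv.Perm.sign ((a : alternatingGroup (Fin (n - 3))) : Equiv.Perm (Fin (n - 3))) *
            Equiv.Perm.sign (MulAction.toPermHom (Multiplicative (ZMod 3)) (Multiplicative (ZMod 3)) b) := by
          change Equiv.Perm.sign (e.permCongr _) = _
          rw [Equiv.Perm.sign_permCongr]
          exact Equiv.Perm.sign_sumCongr _ _
        rw [h1, Equiv.Perm.mem_alternatingGroup.1 (a : alternatingGroup (Fin (n - 3))).2, one_mul]
        set u := Equiv.Perm.sign (MulAction.toPermHom (Multiplicative (ZMod 3)) (Multiplicative (ZMod 3)) b) with hu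
        have h2 : u ^ 3 = 1 := by
          rw [hu, ← map_pow, ← map_pow]
          have h3 : b ^ 3 = 1 := by
            have h4 := pow_card_eq_one' (x := b)
            rwa [Nat.card_eq_fintype_card, Fintype.card_multiplicative, ZMod.card] at h4
          rw [h3, map_one, map_one]
        rcases Int.units_eq_one_or u with h3 | h3
        · exact h3
        · rw [h3] at h2
          exact absurd h2 (by decide)
      let f : ↥(P : Subgroup (alternatingGroup (Fin (n - 3)))) × Multiplicative (ZMod 3) →* alternatingGroup (Fin n) :=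
        f0.codRestrict _ hf0s
      have hf : Function.Injective f := by
        intro x y hxy
        exact hf0 (congrArg Subtype.val hxy)
      refine ⟨f.range, ?_, ?_, ⟨(MonoidHom.ofInjective hf).symm⟩⟩
      · haveI := hPnil
        exact Group.nilpotent_of_surjective f.rangeRestrict (MonoidHom.rangeRestrict_surjective _)
      · rw [← Nat.card_congr (MonoidHom.ofInjective hf).toEquiv, Nat.card_prod, mul_comm]
        congr 1
        rw [Nat.card_eq_fintype_card, Fintype.card_multiplicative, ZMod.card]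
    · intro N₁ N₂ hN₁ hN₂ hc₁ hc₂
      rw [hP] at hc₁ hc₂
      have hmap : ∀ N : Subgroup (alternatingGroup (Fin n)), Group.IsNilpotent N →
          Group.IsNilpotent (N.map (alternatingGroup (Fin n)).subtype) := by
        intro N hN
        haveI := hN
        exact Group.nilpotent_of_mulEquiv (N.equivMapOfInjective _ (Subgroup.subtype_injective _))
      have hmc : ∀ N : Subgroup (alternatingGroup (Fin n)), Nat.card (N.map (alternatingGroup (Fin n)).subtype) = Nat.card N :=
        fun N => Subgroup.card_map_of_injective (Subgroup.subtype_injective _)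
      have hmA : ∀ N : Subgroup (alternatingGroup (Fin n)), N.map (alternatingGroup (Fin n)).subtype ≤ alternatingGroup (Fin n) := by
        rintro N _ ⟨x, _, rfl⟩
        exact x.2
      obtain ⟨z1, T1, hz1, hT1, hcm1, hN1⟩ := _root_.H7.Nilp.struct' _ (hmap N₁ hN₁) _ ((hmc N₁).trans hc₁)
      obtain ⟨z2, T2, hz2, hT2, hcm2, hN2⟩ := _root_.H7.Nilp.struct' _ (hmap N₂ hN₂) _ ((hmc N₂).trans hc₂)
      have hs : ∀ (z : Equiv.Perm (Fin n)) (T : Subgroup (Equiv.Perm (Fin n))), orderOf z = 3 →
          Nat.card T = 2 ^ (_root_.H7.Nilp.v (n - 3) - 1) → (∀ t ∈ T, t * z = z * t) → z.support.card = 3 := by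
        intro z T hz hT hcm
        by_contra hs
        have h1 := _root_.H7.Nilp.moves hz T _ hT hcm hs
        rw [Fintype.card_fin] at h1
        omega
      have hs1 := hs z1 T1 hz1 hT1 hcm1
      have hs2 := hs z2 T2 hz2 hT2 hcm2
      have hconj : IsConj z1 z2 := by
        rw [Equiv.Perm.isConj_iff_cycleType_eq, (card_support_eq_three_iff.1 hs1).cycleType,
          (card_support_eq_three_iff.1 hs2).cycleType]
      obtain ⟨g1, hg1⟩ := isConj_iff.1 hconj
      obtain ⟨g0, hg0A, hg0⟩ : ∃ g0 ∈ alternatingGroup (Fin n), g0 * z1 * g0⁻¹ = z2 := by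
        by_cases hsg : Equiv.Perm.sign g1 = 1
        · exact ⟨g1, Equiv.Perm.mem_alternatingGroup.2 hsg, hg1⟩
        · have hsg' : Equiv.Perm.sign g1 = -1 := (Int.units_eq_one_or _).resolve_left hsg
          -- a transposition commuting with z1
          have h4 : 1 < (z1.supportᶜ).card := by
            rw [Finset.card_compl, hs1, Fintype.card_fin]; omega
          obtain ⟨a, ha, b, hb, hab⟩ := Finset.one_lt_card.1 h4
          rw [Finset.mem_compl, Equiv.Perm.notMem_support] at ha hb
          have hd : Equiv.Perm.Disjoint (Equiv.swap a b) z1 := by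
            intro x
            by_cases hx : z1 x = x
            · exact Or.inr hx
            · left
              apply Equiv.swap_apply_of_ne_of_ne
              · rintro rfl; exact hx ha
              · rintro rfl; exact hx hb
          refine ⟨g1 * Equiv.swap a b, ?_, ?_⟩
          · rw [Equiv.Perm.mem_alternatingGroup, map_mul, hsg', Equiv.Perm.sign_swap hab]
            decide
          · have h5 := hd.commute.eq
            calc g1 * Equiv.swap a b * z1 * (g1 * Equiv.swap a b)⁻¹
                = g1 * (Equiv.swap a b * z1) * (Equiv.swap a b)⁻¹ * g1⁻¹ := by group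
              _ = g1 * (z1 * Equiv.swap a b) * (Equiv.swap a b)⁻¹ * g1⁻¹ := by rw [h5]
              _ = g1 * z1 * g1⁻¹ := by group
              _ = z2 := hg1
      have hT1A : T1 ≤ alternatingGroup (Fin n) := by
        have : T1 ≤ N₁.map (alternatingGroup (Fin n)).subtype := by rw [hN1]; exact le_sup_right
        exact this.trans (hmA N₁)
      have hT2A : T2 ≤ alternatingGroup (Fin n) := by
        have : T2 ≤ N₂.map (alternatingGroup (Fin n)).subtype := by rw [hN2]; exact le_sup_right
        exact this.trans (hmA N₂)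
      have hcomap : (alternatingGroup (Fin n)).comap (Equiv.Perm.ofSubtype (p := fun x => z2 x = x)) =
          alternatingGroup {x // z2 x = x} := by
        ext k
        rw [Subgroup.mem_comap, Equiv.Perm.mem_alternatingGroup, Equiv.Perm.mem_alternatingGroup, Equiv.Perm.sign_ofSubtype]
      have hcf := _root_.H7.Nilp.card_fix hs2
      rw [Fintype.card_fin] at hcf
      obtain ⟨g, hgA, hg⟩ := _root_.H7.Nilp.conj_final (alternatingGroup (Fin n)) z1 z2 g0 T1 T2
        (fun g hg x hx => Subgroup.mul_mem _ (Subgroup.mul_mem _ hg hx) (Subgroup.inv_mem _ hg))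
        hg0A hg0 hT1A hT2A _ hz2 hs2 hcm1 hcm2 hT1 hT2 (by
          rw [hcomap]
          have h6 := card_alt_fact {x // z2 x = x} (n - 3) (by rw [← Nat.card_eq_fintype_card]; exact hcf) (by omega)
          omega)
      refine ⟨⟨g, hgA⟩, ?_⟩
      apply Subgroup.map_injective (alternatingGroup (Fin n)).subtype_injective
      rw [hN2, hg, ← hN1, Subgroup.map_map, Subgroup.map_map]
      congr 1

end Cfsg.Agent.S2256
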