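import Cfsg.Statements.S2259
import Cfsg.Agent.HL_SzSolvF
import Cfsg.Agent.HL_SzModelB

set_option autoImplicit false
open Cfsg

namespace Cfsg.Agent.S2259

/-- Let G be the Suzuki group Sz(q), q = 2^(2m+1) with 2m + 1 prime and m ≥ 1, realised inside Sp_4(F) for F the field of order q, write r = 2^(m+1) (so r² = 2q), and for x ∈ G call the solubilizer of x the set of y ∈ G such that x and y generate a solvable subgroup. Then the solubilizer of an involution has q²(4q − 3) elements; that of an element of order 4 has q²(q + 3) elements; that of a non-identity element of order dividing q − 1 has 2q²(q − 1) elements; that of a non-identity element of order dividing q + r + 1 has 4(q + r + 1) elements; and that of a non-identity element of order dividing q − r + 1 has 4(q − r + 1) elements. -/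
theorem result {F : Type*} [Field F] [Fintype F] {m : ℕ} (hm : 1 ≤ m)
    (hp : (2 * m + 1).Prime) (hF : Fintype.card F = 2 ^ (2 * m + 1)) (x : ↥(Cfsg.Lie.Sz F (2 ^ (m + 1)))) :
    (orderOf x = 2 → Nat.card {y : ↥(Cfsg.Lie.Sz F (2 ^ (m + 1))) // Group.IsSolvable ↥(Subgroup.closure ({x, y} : Set (↥(Cfsg.Lie.Sz F (2 ^ (m + 1))))))} = (2 ^ (2 * m + 1)) ^ 2 * (4 * 2 ^ (2 * m + 1) - 3)) ∧
    (orderOf x = 4 → Nat.card {y : ↥(Cfsg.Lie.Sz F (2 ^ (m + 1))) // Group.IsSolvable ↥(Subgroup.closure ({x, y} : Set (↥(Cfsg.Lie.Sz F (2 ^ (m + 1))))))} = (2 ^ (2 * m + 1)) ^ 2 * (2 ^ (2 * m + 1) + 3)) ∧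
    (x ≠ 1 → orderOf x ∣ 2 ^ (2 * m + 1) - 1 →
      Nat.card {y : ↥(Cfsg.Lie.Sz F (2 ^ (m + 1))) // Group.IsSolvable ↥(Subgroup.closure ({x, y} : Set (↥(Cfsg.Lie.Sz F (2 ^ (m + 1))))))} = 2 * (2 ^ (2 * m + 1)) ^ 2 * (2 ^ (2 * m + 1) - 1)) ∧
    (x ≠ 1 → orderOf x ∣ 2 ^ (2 * m + 1) + 2 ^ (m + 1) + 1 → Nat.card {y : ↥(Cfsg.Lie.Sz F (2 ^ (m + 1))) // Group.IsSolvable ↥(Subgroup.closure ({x, y} : Set (↥(Cfsg.Lie.Sz F (2 ^ (m + 1))))))} = 4 * (2 ^ (2 * m + 1) + 2 ^ (m + 1) + 1)) ∧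
    (x ≠ 1 → orderOf x ∣ 2 ^ (2 * m + 1) - 2 ^ (m + 1) + 1 → Nat.card {y : ↥(Cfsg.Lie.Sz F (2 ^ (m + 1))) // Group.IsSolvable ↥(Subgroup.closure ({x, y} : Set (↥(Cfsg.Lie.Sz F (2 ^ (m + 1))))))} = 4 * (2 ^ (2 * m + 1) - 2 ^ (m + 1) + 1)) := by
  classical
  have hF0 := hF
  let e := Cfsg.Agent.HL.Sz.modelEquiv (F := F) (m := m) hm hF
  haveI : Fintype (Cfsg.Sz F m) := Fintype.ofFinite _
  set x' : Cfsg.Sz F m := e.symm x with hx'
  have hex : e x' = x := e.apply_symm_apply x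
  have ho : orderOf x' = orderOf x := by
    rw [← hex]; exact (MulEquiv.orderOf_eq e x').symm
  have hne : x ≠ 1 → x' ≠ 1 := by
    intro h h1
    apply h
    rw [← hex, h1, map_one]
  have hcard : Nat.card {y : ↥(Cfsg.Lie.Sz F (2 ^ (m + 1))) // Group.IsSolvable ↥(Subgroup.closure ({x, y} : Set (↥(Cfsg.Lie.Sz F (2 ^ (m + 1))))))} =
      Nat.card {y : Cfsg.Sz F m // Group.IsSolvable (Subgroup.closure ({x', y} : Set (Cfsg.Sz F m)))} := by
    symm
    refine Nat.card_congr (Equiv.subtypeEquiv e.toEquiv (fun y => ?_))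
    have h1 : Subgroup.closure ({x, e y} : Set (↥(Cfsg.Lie.Sz F (2 ^ (m + 1))))) = (Subgroup.closure ({x', y} : Set (Cfsg.Sz F m))).map e.toMonoidHom := by
      rw [MonoidHom.map_closure]
      congr 1
      rw [Set.image_pair]
      change {x, e y} = {e x', e y}
      rw [hex]
    change _ ↔ Group.IsSolvable ↥(Subgroup.closure ({x, e y} : Set (↥(Cfsg.Lie.Sz F (2 ^ (m + 1))))))
    rw [h1]
    have f := (Subgroup.closure ({x', y} : Set (Cfsg.Sz F m))).equivMapOfInjective e.toMonoidHom e.injective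
    constructor
    · intro h
      haveI := h
      exact solvable_of_surjective (f := f.toMonoidHom) f.surjective
    · intro h
      haveI := h
      exact solvable_of_surjective (f := f.symm.toMonoidHom) f.symm.surjective
  rw [hcard, ← ho]
  have H := Cfsg.Agent.HL.SzSolv.sz2 (F := F) hm hp hF
  have hr : 2 ^ (m + 1) * 2 ^ (m + 1) = 2 * 2 ^ (2 * m + 1) := by
    rw [← pow_add, ← pow_succ']; congr 1; omega
  have hrq : 2 ^ (m + 1) ≤ 2 ^ (2 * m + 1) := Nat.pow_le_pow_right (by norm_num) (by omega)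
  set q := 2 ^ (2 * m + 1) with hq
  set r := 2 ^ (m + 1) with hr0
  have hprod : (q + r + 1) * (q - r + 1) = q ^ 2 + 1 := by
    obtain ⟨s, hs⟩ : ∃ s, q = r + s := ⟨q - r, by omega⟩
    have h1 : q - r = s := by omega
    rw [h1, hs]
    rw [hs] at hr
    nlinarith
  have hcop : Nat.Coprime (q + r + 1) (q - r + 1) := by
    have hodd : Nat.Coprime (q - r + 1) 2 := by
      have h2 : Nat.Coprime (q ^ 2 + 1) 2 := Cfsg.Agent.HL.Sz.c2 (Cfsg.Agent.HL.Sz.two_dvd_q m)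
      exact Nat.Coprime.coprime_dvd_left ⟨q + r + 1, by rw [← hprod]; ring⟩ h2
    have h3 : Nat.Coprime (q - r + 1) r := by rw [hr0]; exact Nat.Coprime.pow_right _ hodd
    have h4 : Nat.Coprime (q - r + 1) (2 * r) := Nat.Coprime.mul_right hodd h3
    have h5 : q + r + 1 = 2 * r + (q - r + 1) := by omega
    rw [h5, Nat.coprime_add_self_left]
    exact h4.symm
  have hdvdC : orderOf x' ∣ Nat.card (Cfsg.Agent.HL.SzSolv.C x') := Cfsg.Agent.HL.SzAbs.order_dvd_card x'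
  refine ⟨fun h => H.res2 h, fun h => H.res4 h, fun h1 h2 => Cfsg.Agent.HL.SzSolv.case_split hm hp hF x' (hne h1) h2, ?_, ?_⟩
  · intro h1 h2
    obtain ⟨c1, c2⟩ := Cfsg.Agent.HL.SzSolv.case_fpf hm hp hF x' (hne h1) (by
      rw [← hq, ← hprod]; exact Dvd.dvd.mul_right h2 _)
    rw [c1]
    rcases c2 with c2 | c2
    · rw [c2]
    · exfalso
      rw [c2] at hdvdC
      have h3 := Nat.Coprime.eq_one_of_dvd (Nat.Coprime.coprime_dvd_left h2 hcop) hdvdC
      exact hne h1 (orderOf_eq_one_iff.mp h3)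
  · intro h1 h2
    obtain ⟨c1, c2⟩ := Cfsg.Agent.HL.SzSolv.case_fpf hm hp hF x' (hne h1) (by
      rw [← hq, ← hprod]; exact Dvd.dvd.mul_left h2 _)
    rw [c1]
    rcases c2 with c2 | c2
    · exfalso
      rw [c2] at hdvdC
      have h3 := Nat.Coprime.eq_one_of_dvd (Nat.Coprime.coprime_dvd_left h2 hcop.symm) hdvdC
      exact hne h1 (orderOf_eq_one_iff.mp h3)
    · rw [c2]

end Cfsg.Agent.S2259
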