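import Cfsg.Statements.S2268

set_option autoImplicit false
open Cfsg

namespace Cfsg.Agent.S2268

open scoped Pointwise

theorem part1 {G : Type*} [Group G] [Finite G] {p : ℕ} [Fact p.Prime]
    (P : Sylow p G) (hP : IsMulCommutative (P : Subgroup G)) (Q : Subgroup G) (hQ : Q ≤ (P : Subgroup G)) :
    Subgroup.normalizer (Q : Set G) =
      (Subgroup.normalizer (Q : Set G) ⊓ Subgroup.normalizer ((P : Subgroup G) : Set G)) ⊔ Subgroup.centralizer (Q : Set G) := by
  apply le_antisymm
  · intro x hx
    have hPC : (P : Subgroup G) ≤ Subgroup.centralizer (Q : Set G) := by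
      intro y hy
      rw [Subgroup.mem_centralizer_iff]
      intro h hh
      have := hP.is_comm.comm ⟨h, hQ hh⟩ ⟨y, hy⟩
      exact congrArg Subtype.val this
    have hPC2 : ((x • P : Sylow p G) : Subgroup G) ≤ Subgroup.centralizer (Q : Set G) := by
      intro y hy
      rw [Sylow.coe_subgroup_smul, Subgroup.mem_pointwise_smul_iff_inv_smul_mem] at hy
      rw [Subgroup.mem_centralizer_iff]
      intro h hh
      have h1 : x⁻¹ * h * x ∈ Q := by
        have := (Subgroup.mem_normalizer_iff.1 ((Subgroup.normalizer (Q : Set G)).inv_mem hx) h).1 hh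
        simpa using this
      have h2 := hPC hy
      rw [Subgroup.mem_centralizer_iff] at h2
      have h3 := h2 _ h1
      simp only [MulAut.smul_def, MulAut.conj_inv_apply] at h3
      have h4 := congrArg (fun z => x * z * x⁻¹) h3
      simpa [mul_assoc] using h4
    obtain ⟨c, hc⟩ := MulAction.exists_smul_eq (Subgroup.centralizer (Q : Set G)) ((x • P).subtype hPC2) (P.subtype hPC)
    simp_rw [Sylow.smul_subtype, Subgroup.smul_def, smul_smul] at hc
    have h6 : (c : G) * x ∈ Subgroup.normalizer ((P : Subgroup G) : Set G) :=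
      Sylow.smul_eq_iff_mem_normalizer.mp (Sylow.subtype_injective hc)
    have h7 : (c : G) ∈ Subgroup.normalizer (Q : Set G) := Subgroup.centralizer_le_normalizer _ c.2
    have h8 : x = (c : G)⁻¹ * ((c : G) * x) := by group
    rw [h8]
    exact Subgroup.mul_mem _ (Subgroup.mem_sup_right (Subgroup.inv_mem _ c.2))
      (Subgroup.mem_sup_left ⟨Subgroup.mul_mem _ h7 hx, h6⟩)
  · exact sup_le inf_le_left (Subgroup.centralizer_le_normalizer _)

/-- Let G be a finite group with an abelian Sylow p-subgroup P and let Q ≤ P. Then N_G(Q) = (N_G(Q) ∩ N_G(P))·C_G(Q), so that N_G(Q)/C_G(Q) is a homomorphic image of the subgroup (N_G(Q) ∩ N_G(P))/C_G(P) of N_G(P)/C_G(P); in particular the order of N_G(Q)/C_G(Q) divides the order of N_G(P)/C_G(P). -/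
theorem result {G : Type*} [Group G] [Finite G] {p : ℕ} [Fact p.Prime]
    (P : Sylow p G) (hP : IsMulCommutative (P : Subgroup G)) (Q : Subgroup G) (hQ : Q ≤ (P : Subgroup G)) :
    Subgroup.normalizer (Q : Set G) =
      (Subgroup.normalizer (Q : Set G) ⊓ Subgroup.normalizer ((P : Subgroup G) : Set G)) ⊔ Subgroup.centralizer (Q : Set G) ∧
    ((Subgroup.centralizer (Q : Set G)).subgroupOf (Subgroup.normalizer (Q : Set G))).index ∣ ((Subgroup.centralizer ((P : Subgroup G) : Set G)).subgroupOf (Subgroup.normalizer ((P : Subgroup G) : Set G))).index := by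
  refine ⟨part1 P hP Q hQ, ?_⟩
  set NQ := Subgroup.normalizer (Q : Set G) with hNQ
  set NP := Subgroup.normalizer ((P : Subgroup G) : Set G) with hNP
  set CQ := Subgroup.centralizer (Q : Set G) with hCQ
  set CP := Subgroup.centralizer ((P : Subgroup G) : Set G) with hCP
  set K := NQ ⊓ NP with hK
  have h1 : NQ = K ⊔ CQ := part1 P hP Q hQ
  have hCPCQ : CP ≤ CQ := Subgroup.centralizer_le hQ
  have hCQNQ : CQ ≤ NQ := Subgroup.centralizer_le_normalizer _
  have hCPK : CP ≤ K := le_inf (hCPCQ.trans hCQNQ) (Subgroup.centralizer_le_normalizer _)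
  have hnorm : (CQ.subgroupOf NQ).Normal := by
    rw [hCQ, hNQ]; infer_instance
  have e1 : (CQ.subgroupOf NQ).index = CQ.relIndex K := by
    have h2 : (K.subgroupOf NQ) ⊔ (CQ.subgroupOf NQ) = ⊤ := by
      rw [← Subgroup.subgroupOf_sup (inf_le_left) hCQNQ, ← h1, Subgroup.subgroupOf_self]
    have h3 := Subgroup.relIndex_sup_right (H := K.subgroupOf NQ) (K := CQ.subgroupOf NQ)
    rw [h2, Subgroup.relIndex_top_right] at h3
    rw [h3, Subgroup.relIndex_subgroupOf inf_le_left]
  have e2 : CQ.relIndex K ∣ CP.relIndex K := Subgroup.relIndex_dvd_of_le_left K hCPCQ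
  have e3 : CP.relIndex K ∣ CP.relIndex NP := by
    rw [← Subgroup.relIndex_mul_relIndex CP K NP hCPK inf_le_right]
    exact dvd_mul_right _ _
  change _ ∣ CP.relIndex NP
  rw [e1]
  exact e2.trans e3

end Cfsg.Agent.S2268
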