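import Cfsg.Statements.S2269
import Mathlib

set_option autoImplicit false
open Cfsg

namespace Cfsg.Agent.S2269

open Equiv.Perm Subgroup in
/-- an element of odd prime order of `A_n`, `n ≥ p + 2`, is real -/
theorem real_of {n p : ℕ} [hp : Fact p.Prime] (hp2 : p ≠ 2) (hn : p + 2 ≤ n) (x : alternatingGroup (Fin n)) (hx : orderOf x = p) :
    ∃ g : alternatingGroup (Fin n), g⁻¹ * x * g = x⁻¹ := by
  have hxo : orderOf (x : Equiv.Perm (Fin n)) = p := by rw [← hx, Subgroup.orderOf_coe]
  have h1 : IsConj (x : Equiv.Perm (Fin n)) ((x : Equiv.Perm (Fin n))⁻¹) := by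
    rw [Equiv.Perm.isConj_iff_cycleType_eq, Equiv.Perm.cycleType_inv]
  obtain ⟨σ, hσ⟩ := isConj_iff.1 h1
  have h2 : ∃ π : Equiv.Perm (Fin n), π * x = x * π ∧ Equiv.Perm.sign π = -1 := by
    by_contra hcon
    push Not at hcon
    have h3 : Subgroup.centralizer {(x : Equiv.Perm (Fin n))} ≤ alternatingGroup (Fin n) := by
      intro π hπ
      rw [Subgroup.mem_centralizer_singleton_iff] at hπ
      rw [Equiv.Perm.mem_alternatingGroup]
      rcases Int.units_eq_one_or (Equiv.Perm.sign π) with h | h
      · exact h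
      · exact absurd h (hcon π hπ)
    rw [Equiv.Perm.centralizer_le_alternating_iff] at h3
    obtain ⟨_, h4, h5⟩ := h3
    obtain ⟨k, hk⟩ := Equiv.Perm.cycleType_prime_order (σ := (x : Equiv.Perm (Fin n))) (by rw [hxo]; exact hp.out)
    rw [hxo] at hk
    have h6 := h5 p
    rw [hk, Multiset.count_replicate_self] at h6
    rw [hk, Multiset.sum_replicate, Fintype.card_fin, smul_eq_mul] at h4
    have h7 : k = 0 := by omega
    rw [h7] at h4
    omega
  have key : ∀ τ : Equiv.Perm (Fin n), τ * x * τ⁻¹ = (x : Equiv.Perm (Fin n))⁻¹ → Equiv.Perm.sign τ = 1 →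
      ∃ g : alternatingGroup (Fin n), g⁻¹ * x * g = x⁻¹ := by
    intro τ hτ hs
    refine ⟨⟨τ⁻¹, Equiv.Perm.mem_alternatingGroup.2 (by rw [Equiv.Perm.sign_inv, hs])⟩, ?_⟩
    apply Subtype.ext
    change (τ⁻¹)⁻¹ * (x : Equiv.Perm (Fin n)) * τ⁻¹ = _
    rw [inv_inv, hτ]
    rfl
  rcases Int.units_eq_one_or (Equiv.Perm.sign σ) with h | h
  · exact key σ hσ h
  · obtain ⟨π, hπ1, hπ2⟩ := h2
    apply key (σ * π)
    · have : σ * π * (x : Equiv.Perm (Fin n)) * (σ * π)⁻¹ = σ * (π * x) * π⁻¹ * σ⁻¹ := by group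
      rw [this, hπ1, ← hσ]
      group
    · rw [Equiv.Perm.sign_mul, h, hπ2]
      rfl

/-- if `N(P)` inverts an element of odd prime order then `N(P)/C(P)` has even order -/
theorem even_of_inv {G : Type*} [Group G] (P : Subgroup G) (x n : G) (hx : x ∈ P) (hn : n ∈ Subgroup.normalizer (P : Set G))
    (hinv : n⁻¹ * x * n = x⁻¹) (hx2 : x * x ≠ 1) :
    2 ∣ ((Subgroup.centralizer (P : Set G)).subgroupOf (Subgroup.normalizer (P : Set G))).index := by
  by_contra hodd
  rw [← even_iff_two_dvd, Nat.not_even_iff_odd] at hodd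
  have hker := Subgroup.normalizerMonoidHom_ker P
  haveI : ((Subgroup.centralizer (P : Set G)).subgroupOf (Subgroup.normalizer (P : Set G))).Normal := by
    rw [← hker]; infer_instance
  have h1 := Subgroup.pow_index_mem ((Subgroup.centralizer (P : Set G)).subgroupOf (Subgroup.normalizer (P : Set G)))
    (⟨n, hn⟩ : Subgroup.normalizer (P : Set G))
  rw [Subgroup.mem_subgroupOf, Subgroup.mem_centralizer_iff] at h1
  have h2 := h1 x hx
  change x * (n ^ _) = n ^ _ * x at h2
  obtain ⟨k, hk⟩ := hodd
  rw [hk] at h2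
  have h3 : ∀ j : ℕ, x * n ^ (2 * j) = n ^ (2 * j) * x := by
    have h4 : x * n = n * x⁻¹ := by rw [← hinv]; group
    have h5 : x⁻¹ * n = n * x := by
      have := congrArg (fun y => y⁻¹) hinv
      simp only [mul_inv_rev, inv_inv] at this
      rw [← mul_assoc] at this
      nth_rw 2 [← this]
      group
    intro j
    induction j with
    | zero => simp
    | succ j ih =>
      have : n ^ (2 * (j + 1)) = n ^ (2 * j) * (n * n) := by rw [mul_add, mul_one, pow_add, pow_two]
      rw [this, ← mul_assoc, ih, mul_assoc, ← mul_assoc x n n, h4, mul_assoc n x⁻¹ n, h5]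
      group
  have h6 : x * n ^ (2 * k + 1) = n ^ (2 * k + 1) * x⁻¹ := by
    rw [pow_succ, ← mul_assoc, h3, mul_assoc, mul_assoc]
    congr 1
    rw [← hinv]; group
  rw [h6] at h2
  have h7 := mul_left_cancel h2
  apply hx2
  nth_rw 1 [← h7]
  exact inv_mul_cancel x

open Equiv in
theorem exists_emb {n : ℕ} (hn : 6 ≤ n) : ∃ Φ : Perm (Fin 6) →* Perm (Fin n), Function.Injective Φ ∧
    ∀ σ, Perm.sign (Φ σ) = Perm.sign σ := by
  refine ⟨Equiv.Perm.viaEmbeddingHom (Fin.castLEEmb hn), Equiv.Perm.viaEmbeddingHom_injective _, fun σ => ?_⟩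
  rw [Equiv.Perm.viaEmbeddingHom_apply, Equiv.Perm.viaEmbedding]
  exact @Perm.sign_extendDomain _ _ _ _ _ _ σ _ (fun a => Classical.propDecidable _) _

open Equiv in
/-- for `n ≥ 6` the Sylow 2-subgroups of `A_n` are not abelian -/
theorem nonab {n : ℕ} (hn : 6 ≤ n) (P : Sylow 2 (alternatingGroup (Fin n)))
    (hP : IsMulCommutative (P : Subgroup (alternatingGroup (Fin n)))) : False := by
  obtain ⟨Φ, hΦi, hΦs⟩ := exists_emb hn
  let a6 : Perm (Fin 6) := swap 0 1 * swap 1 2 * swap 2 3 * swap 4 5
  let b6 : Perm (Fin 6) := swap 0 2 * swap 4 5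
  have ha : Perm.sign a6 = 1 := by decide
  have hb : Perm.sign b6 = 1 := by decide
  have ha4 : a6 ^ 4 = 1 := by decide
  have hb2 : b6 ^ 2 = 1 := by decide
  have hab : b6 * a6 * b6⁻¹ = a6⁻¹ := by decide
  have hne : a6 * b6 ≠ b6 * a6 := by decide
  let a : alternatingGroup (Fin n) := ⟨Φ a6, Perm.mem_alternatingGroup.2 (by rw [hΦs, ha])⟩
  let b : alternatingGroup (Fin n) := ⟨Φ b6, Perm.mem_alternatingGroup.2 (by rw [hΦs, hb])⟩
  have ha4' : a ^ 4 = 1 := by
    apply Subtype.ext
    change (Φ a6) ^ 4 = 1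
    rw [← map_pow, ha4, map_one]
  have hb2' : b ^ 2 = 1 := by
    apply Subtype.ext
    change (Φ b6) ^ 2 = 1
    rw [← map_pow, hb2, map_one]
  have hab' : b * a * b⁻¹ = a⁻¹ := by
    apply Subtype.ext
    change Φ b6 * Φ a6 * (Φ b6)⁻¹ = (Φ a6)⁻¹
    rw [← map_inv, ← map_inv, ← map_mul, ← map_mul, hab]
  have hne' : a * b ≠ b * a := by
    intro h
    apply hne
    apply hΦi
    rw [map_mul Φ a6 b6, map_mul Φ b6 a6]
    exact congrArg Subtype.val h
  have hK : IsPGroup 2 (Subgroup.zpowers a) := by
    rintro ⟨_, m, rfl⟩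
    refine ⟨2, Subtype.ext ?_⟩
    change (a ^ m) ^ (2 ^ 2) = 1
    rw [← zpow_natCast, ← zpow_mul, mul_comm, zpow_mul, zpow_natCast, show 2 ^ 2 = 4 by norm_num, ha4', one_zpow]
  have hL : IsPGroup 2 (Subgroup.zpowers b) := by
    rintro ⟨_, m, rfl⟩
    refine ⟨1, Subtype.ext ?_⟩
    change (b ^ m) ^ (2 ^ 1) = 1
    rw [← zpow_natCast, ← zpow_mul, mul_comm, zpow_mul, zpow_natCast, pow_one, hb2', one_zpow]
  have hLK : Subgroup.zpowers b ≤ Subgroup.normalizer ((Subgroup.zpowers a : Subgroup (alternatingGroup (Fin n))) : Set (alternatingGroup (Fin n))) := by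
    rw [Subgroup.zpowers_le, Subgroup.mem_normalizer_iff]
    have h1 : ∀ y : alternatingGroup (Fin n), y ∈ Subgroup.zpowers a → b * y * b⁻¹ ∈ Subgroup.zpowers a := by
      rintro _ ⟨m, rfl⟩
      change b * a ^ m * b⁻¹ ∈ _
      rw [← conj_zpow, hab']
      exact Subgroup.zpow_mem _ (Subgroup.inv_mem _ (Subgroup.mem_zpowers a)) m
    intro y
    refine ⟨h1 y, fun hy => ?_⟩
    have h2 := h1 _ hy
    have h3 : b * (b * y * b⁻¹) * b⁻¹ = b ^ 2 * y * (b ^ 2)⁻¹ := by rw [pow_two, mul_inv_rev]; simp only [mul_assoc]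
    rwa [h3, hb2', one_mul, inv_one, mul_one] at h2
  have hT := IsPGroup.to_sup_of_normal_left' hK hL hLK
  obtain ⟨Q, hQ⟩ := hT.exists_le_sylow
  have haQ : a ∈ (Q : Subgroup (alternatingGroup (Fin n))) := hQ (Subgroup.mem_sup_left (Subgroup.mem_zpowers a))
  have hbQ : b ∈ (Q : Subgroup (alternatingGroup (Fin n))) := hQ (Subgroup.mem_sup_right (Subgroup.mem_zpowers b))
  have e : P ≃* Q := Sylow.equiv P Q
  apply hne'
  have h4 : (⟨a, haQ⟩ : Q) * ⟨b, hbQ⟩ = ⟨b, hbQ⟩ * ⟨a, haQ⟩ := by
    apply e.symm.injective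
    rw [map_mul, map_mul]
    exact hP.is_comm.comm _ _
  exact congrArg Subtype.val h4

theorem cyc_of_lt {n p : ℕ} [hp : Fact p.Prime] (hn : n < 2 * p) (P : Sylow p (alternatingGroup (Fin n))) :
    IsCyclic (P : Subgroup (alternatingGroup (Fin n))) := by
  have h1 : Nat.card (P : Subgroup (alternatingGroup (Fin n))) ∣ n.factorial := by
    have h2 : Nat.card (P : Subgroup (alternatingGroup (Fin n))) ∣ Nat.card (alternatingGroup (Fin n)) :=
      Subgroup.card_subgroup_dvd_card _
    have h3 : Nat.card (alternatingGroup (Fin n)) ∣ Nat.card (Equiv.Perm (Fin n)) := Subgroup.card_subgroup_dvd_card _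
    have h4 : Nat.card (Equiv.Perm (Fin n)) = n.factorial := by
      rw [Nat.card_eq_fintype_card, Fintype.card_perm, Fintype.card_fin]
    rw [h4] at h3
    exact h2.trans h3
  obtain ⟨k, hk⟩ := P.2.exists_card_eq
  have h2 : padicValNat p n.factorial ≤ 1 := by
    rw [← padicValNat_mul_div_factorial, padicValNat_factorial_mul]
    have h3 : n / p < 2 := Nat.div_lt_of_lt_mul (by rw [mul_comm]; exact hn)
    interval_cases h : n / p
    · simp
    · simp
  have h3 : k ≤ 1 := by
    rw [hk, padicValNat_dvd_iff_le (Nat.factorial_ne_zero n)] at h1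
    omega
  interval_cases k
  · rw [pow_zero] at hk
    haveI : Subsingleton (P : Subgroup (alternatingGroup (Fin n))) := (Nat.card_eq_one_iff_unique.1 hk).1
    infer_instance
  · rw [pow_one] at hk
    exact isCyclic_of_prime_card hk

theorem a5_order {x : Equiv.Perm (Fin 5)} (hs : Equiv.Perm.sign x = 1) (h4 : x ^ 4 = 1) : x ^ 2 = 1 := by
  revert hs h4
  revert x
  decide +kernel

/-- Let n ≥ 5 and let P be an abelian Sylow p-subgroup of the alternating group A_n. Then N(P)/C(P) (taken in A_n) has even order, or P is cyclic, except when n = 5 and p = 2, where P is a four-group and N(P)/C(P) has order 3. -/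
theorem result (n : ℕ) (hn : 5 ≤ n) {p : ℕ} [Fact p.Prime]
    (P : Sylow p (alternatingGroup (Fin n))) (hP : IsMulCommutative (P : Subgroup (alternatingGroup (Fin n)))) :
    (¬ (n = 5 ∧ p = 2) → 2 ∣ ((Subgroup.centralizer ((P : Subgroup (alternatingGroup (Fin n))) : Set (alternatingGroup (Fin n)))).subgroupOf (Subgroup.normalizer ((P : Subgroup (alternatingGroup (Fin n))) : Set (alternatingGroup (Fin n))))).index ∨ IsCyclic (P : Subgroup (alternatingGroup (Fin n)))) ∧
    ((n = 5 ∧ p = 2) → ((Subgroup.centralizer ((P : Subgroup (alternatingGroup (Fin n))) : Set (alternatingGroup (Fin n)))).subgroupOf (Subgroup.normalizer ((P : Subgroup (alternatingGroup (Fin n))) : Set (alternatingGroup (Fin n))))).index = 3 ∧ IsKleinFour (P : Subgroup (alternatingGroup (Fin n)))) := by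
  have hpp : p.Prime := Fact.out
  constructor
  · intro hne
    by_cases hcyc : IsCyclic (P : Subgroup (alternatingGroup (Fin n)))
    · exact Or.inr hcyc
    · left
      by_cases hp2 : p = 2
      · subst hp2
        have hn6 : 6 ≤ n := by
          by_contra h
          exact hne ⟨by omega, rfl⟩
        exact (nonab hn6 P hP).elim
      · have hge : 2 * p ≤ n := by
          by_contra h
          exact hcyc (cyc_of_lt (by omega) P)
        have hp3 : 3 ≤ p := by
          have := hpp.two_le
          omega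
        have hPne : (P : Subgroup (alternatingGroup (Fin n))) ≠ ⊥ := by
          intro h
          apply hcyc
          rw [h]
          infer_instance
        obtain ⟨k, hk⟩ := P.2.exists_card_eq
        have hk0 : k ≠ 0 := by
          rintro rfl
          rw [pow_zero] at hk
          exact hPne (Subgroup.card_eq_one.1 hk)
        obtain ⟨x, hx⟩ := exists_prime_orderOf_dvd_card' (G := (P : Subgroup (alternatingGroup (Fin n)))) p (by
          rw [hk]
          exact dvd_pow_self p hk0)
        have hx' : orderOf (x : alternatingGroup (Fin n)) = p := by rw [Subgroup.orderOf_coe, hx]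
        obtain ⟨g, hg⟩ := real_of hp2 (by omega) (x : alternatingGroup (Fin n)) hx'
        obtain ⟨m, hm, hmx⟩ := P.conj_eq_normalizer_conj_of_mem (x : alternatingGroup (Fin n)) g x.2 (by
          rw [hg]
          exact Subgroup.inv_mem _ x.2)
        refine even_of_inv _ (x : alternatingGroup (Fin n)) m x.2 hm (by rw [← hmx, hg]) ?_
        intro h
        have h1 : orderOf (x : alternatingGroup (Fin n)) ∣ 2 := orderOf_dvd_iff_pow_eq_one.2 (by rw [pow_two, h])
        rw [hx'] at h1
        have := Nat.le_of_dvd (by norm_num) h1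
        omega
  · rintro ⟨rfl, rfl⟩
    have hc5 : Nat.card (alternatingGroup (Fin 5)) = 60 := by
      have := two_mul_nat_card_alternatingGroup (α := Fin 5)
      rw [Nat.card_eq_fintype_card (α := Equiv.Perm (Fin 5)), Fintype.card_perm, Fintype.card_fin] at this
      have h2 : (5 : ℕ).factorial = 120 := by decide
      rw [h2] at this
      omega
    have hcP : Nat.card (P : Subgroup (alternatingGroup (Fin 5))) = 4 := by
      rw [P.card_eq_multiplicity, hc5]
      have : (60 : ℕ) = 2 ^ 2 * 15 := by norm_num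
      rw [this, Nat.factorization_mul (by norm_num) (by norm_num), Nat.Prime.factorization_pow Nat.prime_two]
      simp [Nat.factorization_eq_zero_of_not_dvd (show ¬ 2 ∣ 15 by norm_num)]
    have hsq : ∀ x : (P : Subgroup (alternatingGroup (Fin 5))), x ^ 2 = 1 := by
      intro x
      have h1 : x ^ 4 = 1 := by rw [← hcP]; exact pow_card_eq_one'
      apply Subtype.ext
      apply Subtype.ext
      exact a5_order (x := ((x : alternatingGroup (Fin 5)) : Equiv.Perm (Fin 5)))
        (Equiv.Perm.mem_alternatingGroup.1 (x : alternatingGroup (Fin 5)).2)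
        (congrArg (fun y : (P : Subgroup (alternatingGroup (Fin 5))) => ((y : alternatingGroup (Fin 5)) : Equiv.Perm (Fin 5))) h1)
    have hK4 : IsKleinFour (P : Subgroup (alternatingGroup (Fin 5))) := by
      refine ⟨hcP, ?_⟩
      have h1 : Monoid.exponent (P : Subgroup (alternatingGroup (Fin 5))) ∣ 2 := Monoid.exponent_dvd_of_forall_pow_eq_one hsq
      rcases (Nat.dvd_prime Nat.prime_two).1 h1 with h | h
      · exfalso
        rw [Monoid.exp_eq_one_iff] at h
        have := Nat.card_eq_one_iff_unique.2 ⟨h, ⟨1⟩⟩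
        omega
      · exact h
    refine ⟨?_, hK4⟩
    set N := Subgroup.normalizer ((P : Subgroup (alternatingGroup (Fin 5))) : Set (alternatingGroup (Fin 5))) with hN
    set C := Subgroup.centralizer ((P : Subgroup (alternatingGroup (Fin 5))) : Set (alternatingGroup (Fin 5))) with hC
    have hPC : (P : Subgroup (alternatingGroup (Fin 5))) ≤ C := by
      intro x hx
      rw [hC, Subgroup.mem_centralizer_iff]
      intro y hy
      exact congrArg Subtype.val (hP.is_comm.comm (⟨y, hy⟩ : (P : Subgroup (alternatingGroup (Fin 5)))) ⟨x, hx⟩)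
    have hPN : (P : Subgroup (alternatingGroup (Fin 5))) ≤ N := Subgroup.le_normalizer
    -- index divides 15
    have h15 : (C.subgroupOf N).index ∣ 15 := by
      have h1 : C.relIndex N ∣ (P : Subgroup (alternatingGroup (Fin 5))).relIndex N :=
        Subgroup.relIndex_dvd_of_le_left N hPC
      have h2 : (P : Subgroup (alternatingGroup (Fin 5))).relIndex N ∣ (P : Subgroup (alternatingGroup (Fin 5))).index :=
        Subgroup.relIndex_dvd_index_of_le hPN
      have h3 := Subgroup.card_mul_index (P : Subgroup (alternatingGroup (Fin 5)))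
      rw [hcP, hc5] at h3
      have h4 : (P : Subgroup (alternatingGroup (Fin 5))).index = 15 := by omega
      rw [h4] at h2
      exact h1.trans h2
    have h24 : (C.subgroupOf N).index ∣ 24 := by
      have h1 := Subgroup.normalizerMonoidHom_ker (P : Subgroup (alternatingGroup (Fin 5)))
      rw [← h1, Subgroup.index_ker]
      have h2 : Nat.card ((P : Subgroup (alternatingGroup (Fin 5))).normalizerMonoidHom).range ∣
          Nat.card (MulAut (P : Subgroup (alternatingGroup (Fin 5)))) := Subgroup.card_subgroup_dvd_card _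
      have h3 : Nat.card (MulAut (P : Subgroup (alternatingGroup (Fin 5)))) ∣
          Nat.card (Equiv.Perm (P : Subgroup (alternatingGroup (Fin 5)))) := by
        have h4 : Function.Injective (MulAut.toPerm (P : Subgroup (alternatingGroup (Fin 5)))) := fun f g h =>
          MulEquiv.ext (fun x => congrArg (fun σ : Equiv.Perm _ => σ x) h)
        exact Subgroup.card_dvd_of_injective _ h4
      have h4 : Nat.card (Equiv.Perm (P : Subgroup (alternatingGroup (Fin 5)))) = 24 := by
        classical
        haveI := Fintype.ofFinite (P : Subgroup (alternatingGroup (Fin 5)))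
        rw [Nat.card_eq_fintype_card, Fintype.card_perm, ← Nat.card_eq_fintype_card, hcP]
        decide
      rw [← h4]
      exact h2.trans h3
    have h3 : (C.subgroupOf N).index ∣ 3 := by
      have := Nat.dvd_gcd h15 h24
      have h5 : Nat.gcd 15 24 = 3 := by decide
      rwa [h5] at this
    rcases (Nat.dvd_prime Nat.prime_three).1 h3 with h | h
    · exfalso
      -- two distinct involutions of P are conjugate
      obtain ⟨x, y, hx, hy, hxy⟩ : ∃ x y : (P : Subgroup (alternatingGroup (Fin 5))), x ≠ 1 ∧ y ≠ 1 ∧ x ≠ y := by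
        classical
        haveI := Fintype.ofFinite (P : Subgroup (alternatingGroup (Fin 5)))
        have h1 : 2 < Fintype.card (P : Subgroup (alternatingGroup (Fin 5))) := by
          rw [← Nat.card_eq_fintype_card, hcP]; norm_num
        obtain ⟨x, y, z, h2, h3, h4⟩ := Fintype.two_lt_card_iff.1 h1
        by_cases hx1 : x = 1
        · exact ⟨y, z, fun h => h2 (by rw [hx1, h]), fun h => h3 (by rw [hx1, h]), h4⟩
        · by_cases hy1 : y = 1
          · exact ⟨x, z, hx1, fun h => h4 (by rw [hy1, h]), h3⟩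
          · exact ⟨x, y, hx1, hy1, h2⟩
      have hcy : ∀ x : (P : Subgroup (alternatingGroup (Fin 5))), x ≠ 1 →
          IsConj (Equiv.swap (0 : Fin 5) 4 * Equiv.swap 1 3) ((x : alternatingGroup (Fin 5)) : Equiv.Perm (Fin 5)) := by
        intro x hx
        apply alternatingGroup.isConj_swap_mul_swap_of_cycleType_two (x : alternatingGroup (Fin 5)).2
        · intro h
          exact hx (Subtype.ext (Subtype.ext h))
        · intro m hm
          have h1 : m ∣ orderOf ((x : alternatingGroup (Fin 5)) : Equiv.Perm (Fin 5)) := Equiv.Perm.dvd_of_mem_cycleType hm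
          have h2 : orderOf ((x : alternatingGroup (Fin 5)) : Equiv.Perm (Fin 5)) ∣ 2 := by
            rw [orderOf_dvd_iff_pow_eq_one]
            exact congrArg (fun y : (P : Subgroup (alternatingGroup (Fin 5))) => ((y : alternatingGroup (Fin 5)) : Equiv.Perm (Fin 5))) (hsq x)
          have h3 := Nat.le_of_dvd (by norm_num) (h1.trans h2)
          have h4 := Equiv.Perm.two_le_of_mem_cycleType hm
          omega
      have hconj : IsConj (x : alternatingGroup (Fin 5)) (y : alternatingGroup (Fin 5)) := by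
        let x0 : alternatingGroup (Fin 5) := ⟨Equiv.swap (0 : Fin 5) 4 * Equiv.swap 1 3, by
          rw [Equiv.Perm.mem_alternatingGroup]; decide⟩
        have hct : ∀ x : (P : Subgroup (alternatingGroup (Fin 5))), x ≠ 1 → IsConj x0 (x : alternatingGroup (Fin 5)) := by
          intro x hx
          obtain ⟨g, hg⟩ := isConj_iff.1 (hcy x hx)
          rcases Int.units_eq_one_or (Equiv.Perm.sign g) with h | h
          · exact isConj_iff.2 ⟨⟨g, Equiv.Perm.mem_alternatingGroup.2 h⟩, Subtype.ext hg⟩
          · refine isConj_iff.2 ⟨⟨g * Equiv.swap (0 : Fin 5) 4, Equiv.Perm.mem_alternatingGroup.2 (by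
              rw [Equiv.Perm.sign_mul, h, Equiv.Perm.sign_swap (by decide)]; rfl)⟩, Subtype.ext ?_⟩
            change g * Equiv.swap (0 : Fin 5) 4 * (Equiv.swap (0 : Fin 5) 4 * Equiv.swap 1 3) * (g * Equiv.swap (0 : Fin 5) 4)⁻¹ = _
            have e1 : Equiv.swap (0 : Fin 5) 4 * (Equiv.swap (0 : Fin 5) 4 * Equiv.swap 1 3) * (Equiv.swap (0 : Fin 5) 4)⁻¹ =
                Equiv.swap (0 : Fin 5) 4 * Equiv.swap 1 3 := by decide
            rw [mul_inv_rev, mul_assoc g, mul_assoc, ← mul_assoc _ _ g⁻¹, e1, ← hg]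
            simp only [mul_assoc]
        exact (hct x hx).symm.trans (hct y hy)
      obtain ⟨g, hg⟩ := isConj_iff.1 hconj
      obtain ⟨m, hm, hmx⟩ := P.conj_eq_normalizer_conj_of_mem (x : alternatingGroup (Fin 5)) g⁻¹ x.2 (by
        rw [inv_inv, hg]
        exact y.2)
      rw [Subgroup.index_eq_one] at h
      have h1 : (⟨m, hm⟩ : N) ∈ C.subgroupOf N := by rw [h]; exact Subgroup.mem_top _
      rw [Subgroup.mem_subgroupOf, hC, Subgroup.mem_centralizer_iff] at h1
      have h2 := h1 x x.2
      change (x : alternatingGroup (Fin 5)) * m = m * x at h2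
      apply hxy
      apply Subtype.ext
      rw [← hg]
      rw [inv_inv] at hmx
      rw [hmx, mul_assoc, h2, inv_mul_cancel_left]
    · exact h

end Cfsg.Agent.S2269
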