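import Cfsg.Statements.S2270


set_option autoImplicit false
open Cfsg

namespace Cfsg.Agent.S2270

/-- Let n ≥ 3, p an odd prime, and P an abelian Sylow p-subgroup of the symmetric group S_n (with p dividing n!, so that P ≠ 1). Then N(P)/C(P) has even order. -/
theorem result (n : ℕ) (hn : 3 ≤ n) {p : ℕ} [Fact p.Prime] (hp : p ≠ 2) (hpn : p ≤ n)
    (P : Sylow p (Equiv.Perm (Fin n))) (hP : IsMulCommutative (P : Subgroup (Equiv.Perm (Fin n)))) :
    2 ∣ ((Subgroup.centralizer ((P : Subgroup (Equiv.Perm (Fin n))) : Set (Equiv.Perm (Fin n)))).subgroupOf (Subgroup.normalizer ((P : Subgroup (Equiv.Perm (Fin n))) : Set (Equiv.Perm (Fin n))))).index := by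
  classical
  have hp' : p.Prime := Fact.out
  have hP1 : (P : Subgroup (Equiv.Perm (Fin n))) ≠ ⊥ := by
    intro h
    have h1 := P.card_eq_multiplicity
    have h2 : Nat.card (P : Subgroup (Equiv.Perm (Fin n))) = 1 := by rw [h]; exact Subgroup.card_bot
    rw [h2, Nat.card_eq_fintype_card, Fintype.card_perm, Fintype.card_fin] at h1
    have h3 : 1 ≤ n.factorial.factorization p := (hp'.dvd_iff_one_le_factorization (Nat.factorial_ne_zero n)).mp (hp'.dvd_factorial.mpr hpn)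
    have h4 := Nat.one_lt_pow (by omega : n.factorial.factorization p ≠ 0) hp'.one_lt
    omega
  obtain ⟨⟨x, hx⟩, hx1'⟩ := (Subgroup.ne_bot_iff_exists_ne_one).mp hP1
  have hx1 : x ≠ 1 := fun h => hx1' (Subtype.ext h)
  have hcj : IsConj x x⁻¹ := (Equiv.Perm.isConj_iff_cycleType_eq).mpr (Equiv.Perm.cycleType_inv x).symm
  obtain ⟨g, hg⟩ := isConj_iff.mp hcj
  obtain ⟨m, hm, hm2⟩ := P.conj_eq_normalizer_conj_of_mem x g⁻¹ hx (by rw [inv_inv, hg]; exact (P : Subgroup (Equiv.Perm (Fin n))).inv_mem hx)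
  rw [inv_inv, hg] at hm2
  have hm' : m⁻¹ ∈ (Subgroup.normalizer ((P : Subgroup (Equiv.Perm (Fin n))) : Set (Equiv.Perm (Fin n)))) := Subgroup.inv_mem _ hm
  have s1 : SemiconjBy m⁻¹ x x⁻¹ := by
    change m⁻¹ * x = x⁻¹ * m⁻¹
    rw [hm2]; group
  have s2 : SemiconjBy m⁻¹ x⁻¹ x := by
    have := s1.inv_right
    rwa [inv_inv] at this
  have s3 : Commute (m⁻¹ * m⁻¹) x := s2.mul_left s1
  by_contra hodd
  haveI : ((Subgroup.centralizer ((P : Subgroup (Equiv.Perm (Fin n))) : Set (Equiv.Perm (Fin n)))).subgroupOf (Subgroup.normalizer ((P : Subgroup (Equiv.Perm (Fin n))) : Set (Equiv.Perm (Fin n))))).Normal := by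
    rw [← Subgroup.normalizerMonoidHom_ker]
    exact MonoidHom.normal_ker _
  have hpow := Subgroup.pow_index_mem ((Subgroup.centralizer ((P : Subgroup (Equiv.Perm (Fin n))) : Set (Equiv.Perm (Fin n)))).subgroupOf (Subgroup.normalizer ((P : Subgroup (Equiv.Perm (Fin n))) : Set (Equiv.Perm (Fin n))))) (⟨m⁻¹, hm'⟩ : ↥(Subgroup.normalizer ((P : Subgroup (Equiv.Perm (Fin n))) : Set (Equiv.Perm (Fin n)))))
  obtain ⟨l, hl⟩ : Odd ((Subgroup.centralizer ((P : Subgroup (Equiv.Perm (Fin n))) : Set (Equiv.Perm (Fin n)))).subgroupOf (Subgroup.normalizer ((P : Subgroup (Equiv.Perm (Fin n))) : Set (Equiv.Perm (Fin n))))).index := by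
    rw [← Nat.not_even_iff_odd, even_iff_two_dvd]; exact hodd
  rw [hl, Subgroup.mem_subgroupOf] at hpow
  have h5 := (Subgroup.mem_centralizer_iff.mp hpow) x hx
  have h6 : SemiconjBy ((m⁻¹) ^ (2 * l + 1)) x x⁻¹ := by
    rw [pow_succ, pow_mul, pow_two]
    have h7 : Commute ((m⁻¹ * m⁻¹) ^ l) x⁻¹ := (s3.inv_right).pow_left l
    exact SemiconjBy.mul_left h7 s1
  have h8 : x * (m⁻¹) ^ (2 * l + 1) = x⁻¹ * (m⁻¹) ^ (2 * l + 1) := by
    rw [← h6.eq]
    exact h5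
  have h9 : x = x⁻¹ := mul_right_cancel h8
  have h10 : x ^ 2 = 1 := by rw [pow_two]; nth_rw 1 [h9]; exact inv_mul_cancel x
  obtain ⟨k, hk⟩ := P.isPGroup' ⟨x, hx⟩
  have h11 : x ^ p ^ k = 1 := congrArg Subtype.val hk
  have h12 : orderOf x ∣ Nat.gcd 2 (p ^ k) := Nat.dvd_gcd (orderOf_dvd_of_pow_eq_one h10) (orderOf_dvd_of_pow_eq_one h11)
  rw [Nat.Coprime.gcd_eq_one (Nat.Coprime.pow_right k ((Nat.coprime_primes Nat.prime_two hp').mpr (Ne.symm hp))), Nat.dvd_one, orderOf_eq_one_iff] at h12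
  exact hx1 h12

end Cfsg.Agent.S2270
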