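import Cfsg.Statements.S2333
import Cfsg.Agent.H15_WtSpE

set_option autoImplicit false
open Cfsg

namespace Cfsg.Agent.S2333

/-- For a finite field F of even order q and n ≥ 2 with (n, q) ≠ (2, 2), every irreducible complex representation of the symplectic group Sp_{2n}(F) of degree at least 2 has degree at least (q^n − 1)(q^n − q)/(2(q + 1)). -/
theorem result {F : Type*} [Field F] [Fintype F] [DecidableEq F] (n : ℕ) (hn : 2 ≤ n) (heven : Even (Fintype.card F)) (hex : (n, Fintype.card F) ≠ (2, 2)) :
    (∀ (k : ℕ) (ρ : Representation ℂ (Matrix.symplecticGroup (Fin n) F) (Fin k → ℂ)), ρ.IsIrreducible → 2 ≤ k → (Fintype.card F ^ n - 1) * (Fintype.card F ^ n - Fintype.card F) / (2 * (Fintype.card F + 1)) ≤ k) := by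
  intro d ρ hρ hd
  obtain ⟨k, rfl⟩ : ∃ k, n = k + 1 := ⟨n - 1, by omega⟩
  have h2 : (2 : F) = 0 := by
    have hc : ringChar F = 2 := by
      by_contra hne
      have := FiniteField.odd_card_of_char_ne_two hne
      rw [Nat.even_iff] at heven
      omega
    have := ringChar.Nat.cast_ringChar (R := F)
    rw [hc] at this
    exact_mod_cast this
  have hchar : ringChar ℂ ≠ ringChar F := by
    intro h0
    have h1 : ringChar ℂ = 0 := ringChar.eq_zero
    rw [h1] at h0
    exact CharP.ringChar_ne_zero_of_finite F h0.symm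
  have h := Cfsg.Agent.H15.WtSp.even_rep_bound (F := F) (k := k) (K := ℂ) (V := Fin d → ℂ) (by omega) h2
    hchar ρ (by
      by_contra hcon
      push Not at hcon
      have h3 := Cfsg.Agent.H15.Wt.irr_triv ρ hρ hcon
      rw [Module.finrank_fin_fun] at h3
      omega)
  rw [Module.finrank_fin_fun] at h
  exact Nat.div_le_of_le_mul h

end Cfsg.Agent.S2333
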