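import Cfsg.Statements.S2334
import Cfsg.Agent.H15_WtSUo

set_option autoImplicit false
open Cfsg

namespace Cfsg.Agent.S2334

/-- For odd n ≥ 3 and a finite field F with q² elements, (n, q) ≠ (3, 2), every irreducible complex representation of the special unitary group SU_n(q) (the determinant-one isometries of the standard Hermitian form over F) of degree at least 2 has degree at least (q^n − q)/(q + 1). -/
theorem result {F : Type*} [Field F] [Fintype F] [DecidableEq F] (n q : ℕ) (hn : 3 ≤ n) (hodd : Odd n) (hF : Fintype.card F = q ^ 2) (hex : (n, q) ≠ (3, 2)) :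
    (∀ (k : ℕ) (ρ : Representation ℂ (Cfsg.SU n F q) (Fin k → ℂ)), ρ.IsIrreducible → 2 ≤ k → (q ^ n - q) / (q + 1) ≤ k) := by
  intro d ρ hρ hd
  obtain ⟨k, hk⟩ : ∃ k, n = 2 * (k + 1) + 1 := by
    obtain ⟨r, hr⟩ := hodd
    exact ⟨r - 1, by omega⟩
  have hchar : ringChar ℂ ≠ ringChar F := by
    intro h0
    have h1 : ringChar ℂ = 0 := ringChar.eq_zero
    rw [h1] at h0
    haveI : Finite F := Finite.of_fintype F
    exact CharP.ringChar_ne_zero_of_finite F h0.symm
  have h := Cfsg.Agent.H15.WtSUo.su_odd (F := F) (n := n) (q := q) hF (k := k) (K := ℂ) (V := Fin d → ℂ) hk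
    (by rintro ⟨rfl, rfl⟩; exact hex rfl)
    hchar ρ (by
      by_contra hcon
      push Not at hcon
      have h3 := Cfsg.Agent.H15.Wt.irr_triv ρ hρ hcon
      rw [Module.finrank_fin_fun] at h3
      omega)
  rw [Module.finrank_fin_fun] at h
  exact Nat.div_le_of_le_mul h

end Cfsg.Agent.S2334
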