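import Cfsg.Statements.S2337
import Cfsg.Agent.H15_Wt2
import Cfsg.Agent.HL_SzModelB
import Cfsg.Agent.HL_SzSimple

set_option autoImplicit false
open Cfsg

namespace Cfsg.Agent.S2337

open Cfsg.Agent.HL.Sz Cfsg.Agent.H15 Module

theorem sz_bound {F : Type*} [Field F] [Fintype F] {m : ℕ} (hF : Fintype.card F = 2 ^ (2 * m + 1))
    {θ : F →+* F} (h : IsTits θ) {K V G : Type*} [Field K] [IsAlgClosed K] [AddCommGroup V] [Module K V]
    [FiniteDimensional K V] [Group G] (hK : ringChar K ≠ ringChar F) (r : G →* Module.End K V) (U' : F → F → G) (D' : Fˣ → G)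
    (hU : ∀ a b c d, U' a b * U' c d = U' (a + c) (b + d + θ a * c))
    (hD : ∀ (k : Fˣ) b, D' k * U' 0 b = U' 0 (θ k * k ^ 2 * b) * D' k)
    (hr : ∃ b, r (U' 0 b) ≠ 1) : 2 ^ m * (2 ^ (2 * m + 1) - 1) ≤ finrank K V := by
  classical
  obtain ⟨ψ, hψ, hψθ⟩ := Wt.exists_inv_addChar (K := K) (F := F) hK
  have hu : ∀ x y, U' 0 (x + y) = U' 0 x * U' 0 y := fun x y => by rw [hU]; simp
  obtain ⟨φ, hφ, hW⟩ := Wt.exists_W (r := r) (u := fun b => U' 0 b) hK hψ hu hr
  let L : F → (F →ₗ[F] F) := fun t => LinearMap.mulLeft F t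
  have hL : ∀ t x, L t x = t * x := fun t x => rfl
  have hs : φ = L (φ 1) := by
    apply LinearMap.ext
    intro x
    rw [hL, mul_comm, ← smul_eq_mul, ← map_smul, smul_eq_mul, mul_one]
  have hs0 : φ 1 ≠ 0 := by
    intro h0
    apply hφ
    rw [hs, h0]
    apply LinearMap.ext
    intro x
    rw [hL, zero_mul, LinearMap.zero_apply]
  set s := φ 1 with hsdef
  rw [hs] at hW
  clear_value s
  -- surjectivity of k ↦ θ k k²
  have hsurj : ∀ t : Fˣ, ∃ k : Fˣ, θ k * (k : F) ^ 2 = t := by
    let f : Fˣ →* Fˣ :=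
      { toFun := fun k => (Units.map θ.toMonoidHom k) * k ^ 2
        map_one' := by simp
        map_mul' := fun a b => by rw [map_mul, mul_pow, mul_mul_mul_comm] }
    have hf : Function.Injective f := by
      rw [injective_iff_map_eq_one]
      intro k hk
      apply Units.ext
      apply h.eq_one_of_theta_mul_sq
      exact congrArg Units.val hk
    have hf2 := Finite.surjective_of_injective hf
    intro t
    obtain ⟨k, hk⟩ := hf2 t
    exact ⟨k, congrArg Units.val hk⟩
  have hle : ∀ a b : F, a ≠ 0 → b ≠ 0 →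
      finrank K (Wt.W r (fun b => U' 0 b) ψ (L a)) ≤ finrank K (Wt.W r (fun b => U' 0 b) ψ (L b)) := by
    intro a b ha hb
    obtain ⟨k, hk⟩ := hsurj (Units.mk0 (a / b) (div_ne_zero ha hb))
    rw [Units.val_mk0] at hk
    refine Wt.finrank_W_le (D' k) (fun x => b / a * x) ?_ ?_
    · intro x
      rw [hD, hk]
      congr 2
      field_simp
    · intro x
      rw [hL, hL]
      field_simp
  have hcomm : ∀ a b, U' 0 b * U' a 0 = U' a 0 * U' 0 b := by
    intro a b
    rw [hU, hU]
    simp
  have hx : ∀ (g : G), (∀ b, U' 0 b * g = g * U' 0 b) → ∀ v ∈ Wt.W r (fun b => U' 0 b) ψ (L s),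
      r g v ∈ Wt.W r (fun b => U' 0 b) ψ (L s) := by
    intro g hg v hv
    exact Wt.W_map g id hg (fun x => rfl) hv
  obtain ⟨d₀, hd₀⟩ := theta_surj θ (θ s / s ^ 2)
  have hdim : 2 ^ m ≤ finrank K (Wt.W r (fun b => U' 0 b) ψ (L s)) := by
    have h1 := Wt.pair_bound r (Wt.W r (fun b => U' 0 b) ψ (L s)) hW (fun a => U' a 0)
      (fun a v hv => hx _ (hcomm a) v hv) (fun a v hv => hx _ (fun b => by
        have := hcomm a b
        rw [mul_inv_eq_iff_eq_mul, mul_assoc, this, inv_mul_cancel_left]) v hv)
      (fun a c => ψ (s * (θ a * c + θ c * a))) (fun a c => (ψ.val_isUnit _).ne_zero) (by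
        intro a c v hv
        have h2 : U' a 0 * U' c 0 = U' 0 (θ a * c + θ c * a) * (U' c 0 * U' a 0) := by
          rw [hU, hU, hU]
          have h22 := h.two
          congr 1
          · ring
          · simp only [map_zero, zero_mul]
            linear_combination (-θ c * a) * h22
        have h3 : r (U' c 0) (r (U' a 0) v) ∈ Wt.W r (fun b => U' 0 b) ψ (L s) :=
          hx _ (hcomm c) _ (hx _ (hcomm a) v hv)
        rw [Wt.mem_W] at h3
        rw [← Module.End.mul_apply, ← map_mul, h2, map_mul, map_mul, Module.End.mul_apply, Module.End.mul_apply, h3, hL])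
      (Finset.univ.image (fun a c => ψ (s * (θ a * c + θ c * a)))) (by
        intro χ hχ
        obtain ⟨a, _, ha⟩ := Finset.mem_image.mp hχ
        exact ⟨a, ha⟩)
    have h2 := Finset.card_le_mul_card_image (f := fun (a : F) (c : F) => ψ (s * (θ a * c + θ c * a))) Finset.univ 2 (by
      intro χ hχ
      obtain ⟨a, _, rfl⟩ := Finset.mem_image.mp hχ
      refine le_trans (Finset.card_le_card (t := {a, a + d₀}) ?_) Finset.card_le_two
      intro a' ha'
      have ha'2 := (Finset.mem_filter.mp ha').2
      have h22 := h.two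
      have hsq : ∀ x, ψ (x ^ 2) = ψ x := fun x => by rw [← h.sq, hψθ, hψθ]
      have h3 : ∀ c, ψ ((s ^ 2 * θ (a + a') ^ 2 + θ s * θ (a + a')) * c ^ 2) = 1 := by
        intro c
        have h4 : ψ (s * (θ a' * c + θ c * a')) = ψ (s * (θ a * c + θ c * a)) := congrFun ha'2 c
        have h5 : ψ (s * (θ (a + a') * c)) * ψ (s * (θ c * (a + a'))) = 1 := by
          rw [← AddChar.map_add_eq_mul]
          have h6 : s * (θ (a + a') * c) + s * (θ c * (a + a')) = s * (θ a' * c + θ c * a') + (s * (θ a * c + θ c * a)) := by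
            rw [map_add]; ring
          rw [h6, AddChar.map_add_eq_mul, h4, ← AddChar.map_add_eq_mul, ← two_mul, h22, zero_mul, AddChar.map_zero_eq_one]
        rw [← hsq (s * (θ (a + a') * c)), ← hψθ θ (s * (θ c * (a + a'))), ← AddChar.map_add_eq_mul] at h5
        rw [← h5]
        congr 1
        simp only [map_mul, h.sq]
        ring
      have h4 : s ^ 2 * θ (a + a') ^ 2 + θ s * θ (a + a') = 0 := by
        by_contra hne
        apply hψ
        ext y
        obtain ⟨l, hl⟩ : ∃ l : F, l ^ 2 = y / (s ^ 2 * θ (a + a') ^ 2 + θ s * θ (a + a')) := by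
          have : Function.Injective (fun x : F => x ^ 2) := fun x y hxy => h.sq_inj hxy
          exact Finite.surjective_of_injective this _
        have h5 := h3 l
        rw [hl, mul_div_cancel₀ _ hne] at h5
        rw [h5, AddChar.one_apply]
      rw [Finset.mem_insert, Finset.mem_singleton]
      have h5 : θ (a + a') * (s ^ 2 * θ (a + a') + θ s) = 0 := by linear_combination h4
      rcases mul_eq_zero.mp h5 with h6 | h6
      · left
        have h7 : a + a' = 0 := by
          apply θ.injective
          rw [h6, map_zero]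
        linear_combination h7 - a * h22
      · right
        have h7 : a + a' = d₀ := by
          apply θ.injective
          rw [hd₀]
          have hs2 : s ^ 2 ≠ 0 := pow_ne_zero 2 hs0
          field_simp
          linear_combination h6 - θ s * h22
        linear_combination h7 - a * h22)
    rw [Finset.card_univ, hF] at h2
    have h3 : (2 ^ m) ^ 2 ≤ (finrank K (Wt.W r (fun b => U' 0 b) ψ (L s))) ^ 2 := by
      have h4 := h2.trans (Nat.mul_le_mul_left 2 h1)
      rw [pow_succ, mul_comm] at h4
      rw [← pow_mul, mul_comm m 2]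
      exact Nat.le_of_mul_le_mul_left h4 (by norm_num)
    exact (Nat.pow_le_pow_iff_left (by norm_num)).mp h3
  have hfin := Wt.W_bound (r := r) (u := fun b => U' 0 b) hψ hu (Ω := Fˣ) (fun t => L t) (by
    intro a b hab
    apply Units.ext
    have := congrArg (fun f : F →ₗ[F] F => f 1) hab
    simpa [hL] using this) (2 ^ m) (fun t => hdim.trans (hle s t hs0 t.ne_zero))
  rw [Fintype.card_units, hF, mul_comm] at hfin
  exact hfin


/-- For the Suzuki group Sz(q), q = 2^(2m+1) with m ≥ 1 (realised inside Sp₄ over the field with q elements), every irreducible complex representation of degree at least 2 has degree at least 2^m·(q − 1). -/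
theorem result {F : Type*} [Field F] [Fintype F] (m : ℕ) (hm : 1 ≤ m) (hF : Fintype.card F = 2 ^ (2 * m + 1)) :
    (∀ (k : ℕ) (ρ : Representation ℂ (Cfsg.Lie.Sz F (2 ^ (m + 1))) (Fin k → ℂ)), ρ.IsIrreducible → 2 ≤ k → 2 ^ m * (2 ^ (2 * m + 1) - 1) ≤ k) := by
  classical
  intro k ρ hρ hk
  obtain ⟨θ, h, hθ⟩ := exists_theta hF
  let e := modelEquiv hm hF
  let r : Cfsg.Sz F m →* Module.End ℂ (Fin k → ℂ) := (MonoidHom.comp ρ e.toMonoidHom)
  have hchar : ringChar ℂ ≠ ringChar F := by
    intro h0
    have h1 : ringChar ℂ = 0 := ringChar.eq_zero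
    rw [h1] at h0
    exact CharP.ringChar_ne_zero_of_finite F h0.symm
  have hfin := sz_bound (V := Fin k → ℂ) hF h hchar r (fun a b => ⟨U θ a b, U_mem h hθ a b⟩) (fun k => ⟨D θ k, D_mem h hθ k⟩)
    (fun a b c d => Subtype.ext (U_mul h a b c d)) (fun k b => Subtype.ext (by
      have := D_U h k 0 b
      rw [mul_zero] at this
      exact this)) (by
      by_contra hcon
      push Not at hcon
      have hsimp := simple hm hF
      have hker : r.ker = ⊤ := by
        rcases hsimp.eq_bot_or_eq_top_of_normal r.ker inferInstance with h1 | h1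
        · exfalso
          have h2 : (⟨U θ 0 1, U_mem h hθ 0 1⟩ : Cfsg.Sz F m) ∈ r.ker := MonoidHom.mem_ker.mpr (hcon 1)
          rw [h1, Subgroup.mem_bot] at h2
          have h3 := congrArg Subtype.val h2
          have h4 : U θ (0 : F) 1 = U θ 0 0 := by rw [U_zero]; exact h3
          exact one_ne_zero (U_inj h4).2
        · exact h1
      have h1 : ∀ g, ρ g = 1 := by
        intro g
        have h2 : e.symm g ∈ r.ker := by rw [hker]; trivial
        have h3 : ρ (e (e.symm g)) = 1 := MonoidHom.mem_ker.mp h2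
        rwa [e.apply_symm_apply] at h3
      have h2 := Wt.irr_triv ρ hρ h1
      rw [Module.finrank_fin_fun] at h2
      omega)
  rw [Module.finrank_fin_fun] at hfin
  exact hfin

end Cfsg.Agent.S2337
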