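import Cfsg.Statements.S2347
import Cfsg.Agent.H15_Weil

set_option autoImplicit false
open Cfsg

namespace Cfsg.Agent.S2347

/-- Smallest degree of a non-linear irreducible complex representation of the symplectic group Sp_{2n} over a finite field of odd order q, n ≥ 2: every irreducible complex representation of degree at least 2 has degree at least (q^n − 1)/2, and there is an irreducible complex representation of exactly that degree (a Weil representation). -/
theorem result {F : Type*} [Field F] [Fintype F] [DecidableEq F] (n : ℕ) (hn : 2 ≤ n) (hodd : Odd (Fintype.card F)) :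
    (∀ (k : ℕ) (ρ : Representation ℂ (Matrix.symplecticGroup (Fin n) F) (Fin k → ℂ)), ρ.IsIrreducible → 2 ≤ k → (Fintype.card F ^ n - 1) / 2 ≤ k) ∧
    (∃ ρ : Representation ℂ (Matrix.symplecticGroup (Fin n) F) (Fin ((Fintype.card F ^ n - 1) / 2) → ℂ), ρ.IsIrreducible) := by
  classical
  obtain ⟨k, rfl⟩ : ∃ k, n = k + 1 := ⟨n - 1, by omega⟩
  have hchar : ringChar ℂ ≠ ringChar F := by
    intro h0
    have h1 : ringChar ℂ = 0 := ringChar.eq_zero
    rw [h1] at h0
    exact CharP.ringChar_ne_zero_of_finite F h0.symm
  have h2 : (2 : F) ≠ 0 := by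
    intro h0
    have h1 : ringChar F ∣ 2 := (ringChar.spec F 2).mp (by exact_mod_cast h0)
    have h3 : ringChar F = 2 := by
      rcases (Nat.dvd_prime Nat.prime_two).mp h1 with h3 | h3
      · exact absurd h3 CharP.ringChar_ne_one
      · exact h3
    have h4 := FiniteField.even_card_of_char_two h3
    rw [Nat.odd_iff] at hodd
    omega
  have hbound : ∀ {V : Type} [AddCommGroup V] [Module ℂ V] [FiniteDimensional ℂ V]
      (r : Matrix.symplecticGroup (Fin (k + 1)) F →* Module.End ℂ V), (∃ g, r g ≠ 1) →
      (Fintype.card F ^ (k + 1) - 1) / 2 ≤ Module.finrank ℂ V := by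
    intro V _ _ _ r hr
    have := Cfsg.Agent.H15.WtSp.odd_rep_bound (F := F) (k := k) (by omega) hodd hchar r hr
    omega
  refine ⟨?_, ?_⟩
  · intro d ρ hρ hd
    have h := hbound ρ (by
      by_contra hcon
      push Not at hcon
      have h3 := Cfsg.Agent.H15.Wt.irr_triv ρ hρ hcon
      rw [Module.finrank_fin_fun] at h3
      omega)
    rwa [Module.finrank_fin_fun] at h
  · obtain ⟨ψ, hψ⟩ := Cfsg.Agent.H15.Wt.exists_addChar (K := ℂ) (F := F) hchar
    set d := (Fintype.card F ^ (k + 1) - 1) / 2 with hd
    have hfr : Module.finrank ℂ (Cfsg.Agent.H15.Weil.Vs F (k + 1) (-1)) = Module.finrank ℂ (Fin d → ℂ) := by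
      rw [Cfsg.Agent.H15.Weil.finrank_odd hodd h2, Module.finrank_fin_fun]
    let e := LinearEquiv.ofFinrankEq _ _ hfr
    let W := Cfsg.Agent.H15.Weil.weil (n := k + 1) ψ hψ h2
    let ρ : Representation ℂ (Matrix.symplecticGroup (Fin (k + 1)) F) (Fin d → ℂ) :=
      { toFun := fun g => e.toLinearMap ∘ₗ (W g) ∘ₗ e.symm.toLinearMap
        map_one' := by
          rw [map_one]
          apply LinearMap.ext
          intro v
          simp
        map_mul' := fun g h => by
          rw [map_mul]
          apply LinearMap.ext
          intro v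
          simp }
    refine ⟨ρ, ?_⟩
    haveI : Finite (Matrix.symplecticGroup (Fin (k + 1)) F) := by
      haveI : Finite F := Finite.of_fintype F
      exact Subtype.finite
    apply Cfsg.Agent.H15.Weil.irr_of_min ρ
    · obtain ⟨g, hg⟩ := Cfsg.Agent.H15.Weil.weil_nontrivial (n := k + 1) ψ hψ h2 hn
      refine ⟨g, fun h => hg ?_⟩
      apply LinearMap.ext
      intro v
      have h3 := congrArg (fun f : Module.End ℂ (Fin d → ℂ) => e.symm (f (e v))) h
      have h4 : e.symm (e (W g (e.symm (e v)))) = e.symm (e v) := h3
      rw [e.symm_apply_apply, e.symm_apply_apply] at h4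
      exact h4
    · intro N σ hN
      by_contra hcon
      push Not at hcon
      have := hbound σ hcon
      rw [Module.finrank_fin_fun] at hN
      omega
    · intro N σ hN
      by_contra hcon
      push Not at hcon
      have := hbound σ hcon
      rw [Module.finrank_fin_fun] at hN
      omega

end Cfsg.Agent.S2347
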