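import Cfsg.Statements.S2352
import Cfsg.Agent.H15_Laws

set_option autoImplicit false
open Cfsg

namespace Cfsg.Agent.S2352

/-- A non-trivial law holds in only finitely many alternating groups: for every non-trivial element w of the free group on countably many generators there is N such that for all n ≥ N some substitution of elements of the alternating group of degree n into w is not the identity. -/
theorem result (w : FreeGroup ℕ) (hw : w ≠ 1) :
    ∃ N : ℕ, ∀ n : ℕ, N ≤ n → ∃ f : ℕ → alternatingGroup (Fin n), FreeGroup.lift f w ≠ 1 := by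
  obtain ⟨N, hN⟩ := Cfsg.Agent.H15.Laws.sl2_word w hw
  obtain ⟨p, hpN, hp⟩ := Nat.exists_infinite_primes N
  haveI : Fact p.Prime := ⟨hp⟩
  obtain ⟨f, hf⟩ := hN (ZMod p) (by rw [ZMod.card]; exact hpN)
  obtain ⟨M, hM⟩ := Cfsg.Agent.H15.Laws.embed_alternating (Matrix.SpecialLinearGroup (Fin 2) (ZMod p))
  refine ⟨M, fun n hn => ?_⟩
  obtain ⟨φ, hφ⟩ := hM n hn
  refine ⟨fun j => φ (f j), ?_⟩
  have h1 : FreeGroup.lift (fun j => φ (f j)) = φ.comp (FreeGroup.lift f) := by
    ext j
    simp
  rw [h1]
  intro h2
  have h3 : FreeGroup.lift f w = 1 := by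
    apply hφ
    rw [map_one]
    exact h2
  rw [h3] at hf
  simp at hf

end Cfsg.Agent.S2352
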