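import Cfsg.Statements.S2355
import Cfsg.Agent.H15_LawsCl

set_option autoImplicit false
open Cfsg

namespace Cfsg.Agent.S2355

theorem card_bound {F : Type*} [Field F] [Fintype F] {ι : Type} [Fintype ι] [DecidableEq ι]
    {G H : Type*} [Group G] [Group H] (j : H → Matrix ι ι F) (hj : Function.Injective j)
    (e : G ≃* H ⧸ Subgroup.center H) (B : ℕ) (hF : Fintype.card F ≤ B)
    (hD : Fintype.card ι * Fintype.card ι ≤ B) : Nat.card G ≤ B ^ B := by
  haveI : Finite H := Finite.of_injective j hj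
  refine (Cfsg.Agent.H15.LawsCl.card_le_of_equiv_quot _ e).trans
    ((Cfsg.Agent.H15.LawsCl.card_mat_le j hj B hD).trans (Nat.pow_le_pow_left hF B))

theorem isometry_inj {F : Type*} [Field F] {ι : Type} [Fintype ι] [DecidableEq ι] (Q : (ι → F) → F) :
    Function.Injective (fun x : Cfsg.Omega F Q => (((x : Cfsg.isometryGroup F Q) :
      Matrix.GeneralLinearGroup ι F) : Matrix ι ι F)) := by
  intro x y h
  exact Subtype.ext (Subtype.ext (Units.ext h))


/-- A non-trivial law is satisfied by only finitely many finite simple groups that are alternating or classical, up to isomorphism: for every non-trivial element w of the free group on countably many generators there is a bound N such that every alternating group of degree ≥ 5 and every simple classical group (linear, symplectic, unitary or orthogonal, in this problem's sense) in which w is a law has order at most N. -/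
theorem result (w : FreeGroup ℕ) (hw : w ≠ 1) :
    ∃ N : ℕ, ∀ (G : Type*) [Group G] [Finite G],
      (Cfsg.IsAlternating G ∨ Cfsg.IsPSL G ∨ Cfsg.IsPSp G ∨ Cfsg.IsPSU G ∨ Cfsg.IsPOmegaOdd G ∨
          Cfsg.IsPOmegaPlus G ∨ Cfsg.IsPOmegaMinus G) →
      (∀ f : ℕ → G, FreeGroup.lift f w = 1) → Nat.card G ≤ N := by
  obtain ⟨N1, hN1⟩ := Cfsg.Agent.H15.LawsCl.core w hw
  obtain ⟨N2, hN2⟩ := Cfsg.Agent.H15.LawsCl.alt_word w hw
  obtain ⟨N3, hN3⟩ := Cfsg.Agent.H15.LawsCl.su_part w hw
  refine ⟨((2 * (N1 + N3) + 3) ^ 2) ^ ((2 * (N1 + N3) + 3) ^ 2) + N2.factorial, ?_⟩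
  intro G _ _ hor hG
  have hsq : ∀ d : ℕ, d ≤ 2 * (N1 + N3) + 3 → d * d ≤ (2 * (N1 + N3) + 3) ^ 2 := by
    intro d hd
    rw [sq]
    exact Nat.mul_le_mul hd hd
  have hle : ∀ d : ℕ, d ≤ 2 * (N1 + N3) + 3 → d ≤ (2 * (N1 + N3) + 3) ^ 2 := by
    intro d hd
    nlinarith
  rcases hor with h | h | h | h | h | h | h
  · obtain ⟨n, hn, ⟨e⟩⟩ := h
    by_cases hlt : N2 ≤ n
    · obtain ⟨f, hf⟩ := hN2 n hlt
      exact absurd (Cfsg.Agent.H15.LawsCl.law_equiv e w hG f) hf
    · have h1 : Nat.card G ≤ N2.factorial := by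
        rw [Nat.card_congr e.toEquiv]
        refine (Nat.card_le_card_of_injective (fun x : alternatingGroup (Fin n) =>
          (x : Equiv.Perm (Fin n))) Subtype.val_injective).trans ?_
        rw [Nat.card_eq_fintype_card, Fintype.card_perm, Fintype.card_fin]
        exact Nat.factorial_le (by omega)
      omega
  · obtain ⟨F, _, _, n, hn, -, ⟨e⟩⟩ := h
    by_cases hor : N1 ≤ Fintype.card F ∨ N1 ≤ n
    · exact (Cfsg.Agent.H15.LawsCl.psl_part w n (hN1 F n hn hor) e hG).elim
    · push Not at hor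
      refine le_trans (card_bound (fun x : Matrix.SpecialLinearGroup (Fin n) F => (x : Matrix (Fin n) (Fin n) F))
        (fun x y h => Subtype.ext h) e _ (hle _ (by omega)) ?_) (Nat.le_add_right _ _)
      rw [Fintype.card_fin]
      exact hsq _ (by omega)
  · obtain ⟨F, _, _, m, hm, -, ⟨e⟩⟩ := h
    by_cases hor : N1 ≤ Fintype.card F ∨ N1 ≤ m
    · exact (Cfsg.Agent.H15.LawsCl.sp_part w m (hN1 F m hm hor) e hG).elim
    · push Not at hor
      refine le_trans (card_bound (fun x : Matrix.symplecticGroup (Fin m) F =>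
        (x : Matrix (Fin m ⊕ Fin m) (Fin m ⊕ Fin m) F))
        (fun x y h => Subtype.ext h) e _ (hle _ (by omega)) ?_) (Nat.le_add_right _ _)
      rw [Fintype.card_sum, Fintype.card_fin]
      exact hsq _ (by omega)
  · obtain ⟨F, _, _, n, q, hF, hn, -, ⟨e⟩⟩ := h
    by_cases hor : N3 ≤ q ∨ N3 ≤ n
    · exact (hN3 F n q hF (by omega) hor G e hG).elim
    · push Not at hor
      refine le_trans (card_bound (fun x : Cfsg.SU n F q =>
        ((x : Matrix.SpecialLinearGroup (Fin n) F) : Matrix (Fin n) (Fin n) F))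
        (fun x y h => Subtype.ext (Subtype.ext h)) e _ ?_ ?_) (Nat.le_add_right _ _)
      · rw [hF, sq]
        exact hsq _ (by omega)
      · rw [Fintype.card_fin]
        exact hsq _ (by omega)
  · obtain ⟨F, _, _, m, hm, -, ⟨e⟩⟩ := h
    by_cases hor : N1 ≤ Fintype.card F ∨ N1 ≤ m
    · exact (Cfsg.Agent.H15.LawsCl.o_part w m hm (hN1 F m (by omega) hor) _
        (Cfsg.Agent.H15.LawsCl.embOdd F m) (Cfsg.Agent.H15.LawsCl.embOdd_inj F m) e hG).elim
    · push Not at hor
      refine le_trans (card_bound _ (isometry_inj _) e _ (hle _ (by omega)) ?_) (Nat.le_add_right _ _)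
      simp only [Fintype.card_sum, Fintype.card_fin, Fintype.card_unit]
      exact hsq _ (by omega)
  · obtain ⟨F, _, _, m, hm, ⟨e⟩⟩ := h
    by_cases hor : N1 ≤ Fintype.card F ∨ N1 ≤ m
    · exact (Cfsg.Agent.H15.LawsCl.o_part w m (by omega) (hN1 F m (by omega) hor) _
        (MonoidHom.id _) Function.injective_id e hG).elim
    · push Not at hor
      refine le_trans (card_bound _ (isometry_inj _) e _ (hle _ (by omega)) ?_) (Nat.le_add_right _ _)
      simp only [Fintype.card_sum, Fintype.card_fin]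
      exact hsq _ (by omega)
  · obtain ⟨F, _, _, m, a, b, hm, -, ⟨e⟩⟩ := h
    by_cases hor : N1 ≤ Fintype.card F ∨ N1 ≤ m - 1
    · exact (Cfsg.Agent.H15.LawsCl.o_part w (m - 1) (by omega) (hN1 F (m - 1) (by omega) hor) _
        (Cfsg.Agent.H15.LawsCl.embMinus F (m - 1) a b)
        (Cfsg.Agent.H15.LawsCl.embMinus_inj F (m - 1) a b) e hG).elim
    · push Not at hor
      refine le_trans (card_bound _ (isometry_inj _) e _ (hle _ (by omega)) ?_) (Nat.le_add_right _ _)
      simp only [Fintype.card_sum, Fintype.card_fin]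
      exact hsq _ (by omega)

end Cfsg.Agent.S2355
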