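import Cfsg.Statements.S2459
import Cfsg.Agent.H15_Sour

set_option autoImplicit false
open Cfsg

namespace Cfsg.Agent.S2459


/-- the chosen element of order 13 -/
def xm : Matrix (Fin 3) (Fin 3) (ZMod 3) := !![0, 0, 1; 1, 0, 1; 0, 1, 0]

/-- the chosen element of order 13 -/
def x0 : Matrix.SpecialLinearGroup (Fin 3) (ZMod 3) := ⟨xm, by decide⟩

/-- being a product of two conjugates of `x0` -/
def Good (M : Matrix (Fin 3) (Fin 3) (ZMod 3)) : Prop :=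
  ∃ U V : Matrix.SpecialLinearGroup (Fin 3) (ZMod 3), M =
    (((U * x0 * U⁻¹) * (V * x0 * V⁻¹) : Matrix.SpecialLinearGroup (Fin 3) (ZMod 3)) : Matrix (Fin 3) (Fin 3) (ZMod 3))

theorem cert (M u v w : Matrix (Fin 3) (Fin 3) (ZMod 3)) (hu : u.det = 1) (hv : v.det = 1)
    (h1 : u * w = v) (h2 : M * v = u * xm * w * xm) : Good M := by
  refine ⟨⟨u, hu⟩, ⟨v, hv⟩, ?_⟩
  set U : Matrix.SpecialLinearGroup (Fin 3) (ZMod 3) := ⟨u, hu⟩ with hU
  set V : Matrix.SpecialLinearGroup (Fin 3) (ZMod 3) := ⟨v, hv⟩ with hV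
  have e1 : ((U⁻¹ * V : Matrix.SpecialLinearGroup (Fin 3) (ZMod 3)) : Matrix (Fin 3) (Fin 3) (ZMod 3)) = w := by
    rw [Matrix.SpecialLinearGroup.coe_mul]
    show ((U⁻¹ : Matrix.SpecialLinearGroup (Fin 3) (ZMod 3)) : Matrix (Fin 3) (Fin 3) (ZMod 3)) * v = w
    rw [← h1, ← mul_assoc]
    show ((U⁻¹ : Matrix.SpecialLinearGroup (Fin 3) (ZMod 3)) : Matrix (Fin 3) (Fin 3) (ZMod 3)) *
      (U : Matrix (Fin 3) (Fin 3) (ZMod 3)) * w = w
    rw [← Matrix.SpecialLinearGroup.coe_mul, inv_mul_cancel, Matrix.SpecialLinearGroup.coe_one, one_mul]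
  have e2 : (((U * x0 * U⁻¹) * (V * x0 * V⁻¹) : Matrix.SpecialLinearGroup (Fin 3) (ZMod 3)) :
      Matrix (Fin 3) (Fin 3) (ZMod 3)) * v = M * v := by
    rw [h2]
    have : ((U * x0 * U⁻¹) * (V * x0 * V⁻¹)) * V = U * x0 * (U⁻¹ * V) * x0 := by group
    have h3 := congrArg Subtype.val this
    rw [← e1]
    exact h3
  have h4 : v * ((V⁻¹ : Matrix.SpecialLinearGroup (Fin 3) (ZMod 3)) : Matrix (Fin 3) (Fin 3) (ZMod 3)) = 1 := by
    show (V : Matrix (Fin 3) (Fin 3) (ZMod 3)) * _ = 1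
    rw [← Matrix.SpecialLinearGroup.coe_mul, mul_inv_cancel, Matrix.SpecialLinearGroup.coe_one]
  have h5 := congrArg (· * ((V⁻¹ : Matrix.SpecialLinearGroup (Fin 3) (ZMod 3)) : Matrix (Fin 3) (Fin 3) (ZMod 3))) e2
  simp only [mul_assoc, h4, mul_one] at h5
  rw [← h5]
  simp only [mul_assoc]

theorem cases3 (s : ZMod 3) : s = 0 ∨ s = 1 ∨ s = 2 := by
  revert s; decide


set_option maxRecDepth 10000 in
theorem comp_case (s w : ZMod 3) : Good !![0, 0, 1; 1, 0, s; 0, 1, w] := by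
  rcases cases3 s with rfl | rfl | rfl <;> rcases cases3 w with rfl | rfl | rfl
  · exact cert _ !![0, 0, 1; 0, 1, 0; 2, 0, 2] !![0, 0, 2; 2, 1, 0; 1, 0, 0] !![2, 0, 1; 2, 1, 0; 0, 0, 2] (by decide) (by decide) (by decide) (by decide)
  · exact cert _ !![0, 0, 1; 0, 1, 0; 2, 0, 1] !![0, 0, 2; 0, 1, 0; 1, 0, 1] !![2, 0, 1; 0, 1, 0; 0, 0, 2] (by decide) (by decide) (by decide) (by decide)
  · exact cert _ !![0, 0, 1; 0, 1, 0; 2, 1, 1] !![0, 0, 1; 2, 1, 1; 1, 1, 0] !![1, 0, 2; 2, 1, 1; 0, 0, 1] (by decide) (by decide) (by decide) (by decide)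
  · exact cert _ !![0, 0, 1; 0, 2, 0; 1, 0, 2] !![0, 0, 2; 1, 1, 2; 2, 1, 1] !![2, 1, 0; 2, 2, 1; 0, 0, 2] (by decide) (by decide) (by decide) (by decide)
  · exact cert _ !![0, 0, 1; 0, 1, 0; 2, 2, 2] !![0, 0, 2; 0, 1, 1; 1, 1, 1] !![2, 1, 2; 0, 1, 1; 0, 0, 2] (by decide) (by decide) (by decide) (by decide)
  · exact cert _ !![0, 0, 1; 0, 1, 0; 2, 0, 0] !![0, 0, 1; 1, 1, 2; 1, 2, 2] !![2, 1, 1; 1, 1, 2; 0, 0, 1] (by decide) (by decide) (by decide) (by decide)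
  · exact cert _ !![0, 0, 1; 0, 1, 0; 2, 2, 0] !![0, 0, 2; 1, 1, 0; 1, 0, 2] !![1, 2, 1; 1, 1, 0; 0, 0, 2] (by decide) (by decide) (by decide) (by decide)
  · exact cert _ !![0, 0, 1; 0, 1, 0; 2, 1, 2] !![0, 0, 2; 0, 1, 2; 1, 2, 1] !![2, 2, 2; 0, 1, 2; 0, 0, 2] (by decide) (by decide) (by decide) (by decide)
  · exact cert _ !![0, 0, 1; 0, 1, 1; 2, 1, 1] !![0, 0, 2; 0, 1, 2; 1, 0, 1] !![2, 1, 1; 0, 1, 0; 0, 0, 2] (by decide) (by decide) (by decide) (by decide)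

set_option maxRecDepth 10000 in
theorem red_case1 (q r s : ZMod 3) : Good !![0, 1, q; 1, r, s; 0, 0, 2] := by
  rcases cases3 q with rfl | rfl | rfl <;> rcases cases3 r with rfl | rfl | rfl <;>
    rcases cases3 s with rfl | rfl | rfl
  · exact cert _ !![0, 0, 1; 0, 2, 1; 1, 0, 0] !![0, 0, 1; 2, 1, 0; 0, 2, 0] !![0, 2, 0; 1, 2, 1; 0, 0, 1] (by decide) (by decide) (by decide) (by decide)
  · exact cert _ !![0, 0, 1; 0, 2, 1; 1, 0, 1] !![0, 0, 1; 2, 1, 0; 1, 1, 0] !![1, 1, 2; 1, 2, 1; 0, 0, 1] (by decide) (by decide) (by decide) (by decide)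
  · exact cert _ !![0, 0, 1; 0, 1, 1; 2, 0, 0] !![0, 0, 1; 1, 1, 2; 0, 1, 0] !![0, 2, 0; 1, 1, 1; 0, 0, 1] (by decide) (by decide) (by decide) (by decide)
  · exact cert _ !![0, 0, 1; 0, 1, 1; 2, 1, 0] !![0, 0, 1; 1, 1, 2; 0, 1, 2] !![1, 0, 2; 1, 1, 1; 0, 0, 1] (by decide) (by decide) (by decide) (by decide)
  · exact cert _ !![0, 0, 1; 0, 1, 1; 2, 1, 1] !![0, 0, 2; 2, 2, 1; 2, 0, 0] !![0, 2, 1; 2, 2, 2; 0, 0, 2] (by decide) (by decide) (by decide) (by decide)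
  · exact cert _ !![0, 0, 1; 0, 1, 1; 2, 2, 0] !![0, 0, 2; 2, 2, 1; 0, 1, 1] !![1, 0, 0; 2, 2, 2; 0, 0, 2] (by decide) (by decide) (by decide) (by decide)
  · exact cert _ !![0, 0, 1; 0, 1, 1; 2, 0, 2] !![0, 0, 1; 1, 1, 2; 1, 2, 2] !![2, 1, 0; 1, 1, 1; 0, 0, 1] (by decide) (by decide) (by decide) (by decide)
  · exact cert _ !![0, 0, 1; 0, 1, 1; 2, 0, 1] !![0, 0, 1; 1, 1, 2; 2, 0, 1] !![1, 0, 0; 1, 1, 1; 0, 0, 1] (by decide) (by decide) (by decide) (by decide)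
  · exact cert _ !![0, 0, 1; 0, 2, 1; 1, 0, 2] !![0, 0, 1; 2, 1, 0; 2, 0, 0] !![2, 0, 1; 1, 2, 1; 0, 0, 1] (by decide) (by decide) (by decide) (by decide)
  · exact cert _ !![0, 0, 1; 0, 1, 0; 2, 1, 2] !![0, 0, 2; 0, 1, 2; 1, 1, 2] !![2, 0, 1; 0, 1, 2; 0, 0, 2] (by decide) (by decide) (by decide) (by decide)
  · exact cert _ !![0, 0, 1; 0, 1, 0; 2, 0, 2] !![0, 0, 2; 0, 1, 0; 1, 2, 1] !![2, 1, 0; 0, 1, 0; 0, 0, 2] (by decide) (by decide) (by decide) (by decide)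
  · exact cert _ !![0, 0, 1; 0, 1, 0; 2, 0, 1] !![0, 0, 2; 2, 1, 0; 2, 2, 0] !![1, 1, 2; 2, 1, 0; 0, 0, 2] (by decide) (by decide) (by decide) (by decide)
  · exact cert _ !![0, 0, 1; 0, 1, 1; 2, 1, 2] !![0, 0, 2; 2, 0, 0; 1, 1, 2] !![1, 2, 0; 2, 0, 1; 0, 0, 2] (by decide) (by decide) (by decide) (by decide)
  · exact cert _ !![0, 0, 1; 0, 1, 2; 2, 1, 1] !![0, 0, 2; 1, 1, 1; 0, 2, 1] !![1, 2, 1; 1, 1, 0; 0, 0, 2] (by decide) (by decide) (by decide) (by decide)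
  · exact cert _ !![0, 0, 1; 0, 1, 0; 2, 2, 2] !![0, 0, 1; 1, 0, 1; 2, 1, 0] !![0, 2, 1; 1, 0, 1; 0, 0, 1] (by decide) (by decide) (by decide) (by decide)
  · exact cert _ !![0, 0, 1; 0, 1, 1; 2, 0, 0] !![0, 0, 2; 1, 1, 2; 0, 2, 0] !![0, 1, 0; 1, 1, 0; 0, 0, 2] (by decide) (by decide) (by decide) (by decide)
  · exact cert _ !![0, 0, 1; 0, 1, 1; 2, 2, 1] !![0, 0, 1; 2, 2, 2; 0, 2, 2] !![1, 2, 1; 2, 2, 1; 0, 0, 1] (by decide) (by decide) (by decide) (by decide)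
  · exact cert _ !![0, 0, 1; 0, 1, 0; 2, 0, 0] !![0, 0, 1; 1, 1, 2; 0, 1, 0] !![0, 2, 0; 1, 1, 2; 0, 0, 1] (by decide) (by decide) (by decide) (by decide)
  · exact cert _ !![0, 0, 1; 0, 2, 0; 1, 0, 2] !![0, 0, 1; 1, 1, 2; 2, 0, 1] !![2, 0, 2; 2, 2, 1; 0, 0, 1] (by decide) (by decide) (by decide) (by decide)
  · exact cert _ !![0, 0, 1; 0, 1, 0; 2, 2, 2] !![0, 0, 2; 1, 0, 1; 1, 2, 0] !![1, 1, 0; 1, 0, 1; 0, 0, 2] (by decide) (by decide) (by decide) (by decide)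
  · exact cert _ !![0, 0, 1; 0, 1, 1; 2, 2, 1] !![0, 0, 1; 0, 2, 2; 1, 1, 0] !![2, 0, 0; 0, 2, 1; 0, 0, 1] (by decide) (by decide) (by decide) (by decide)
  · exact cert _ !![0, 0, 1; 0, 1, 2; 2, 0, 0] !![0, 0, 1; 1, 1, 2; 0, 1, 0] !![0, 2, 0; 1, 1, 0; 0, 0, 1] (by decide) (by decide) (by decide) (by decide)
  · exact cert _ !![0, 0, 1; 0, 1, 0; 2, 2, 0] !![0, 0, 1; 0, 2, 2; 1, 0, 0] !![2, 1, 1; 0, 2, 2; 0, 0, 1] (by decide) (by decide) (by decide) (by decide)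
  · exact cert _ !![0, 0, 1; 0, 1, 0; 2, 0, 0] !![0, 0, 2; 1, 1, 2; 0, 2, 0] !![0, 1, 0; 1, 1, 2; 0, 0, 2] (by decide) (by decide) (by decide) (by decide)
  · exact cert _ !![0, 0, 1; 1, 0, 0; 2, 1, 2] !![0, 0, 2; 0, 1, 2; 1, 1, 2] !![0, 1, 2; 1, 2, 0; 0, 0, 2] (by decide) (by decide) (by decide) (by decide)
  · exact cert _ !![0, 0, 1; 0, 1, 0; 2, 0, 1] !![0, 0, 1; 0, 1, 0; 2, 1, 2] !![1, 2, 2; 0, 1, 0; 0, 0, 1] (by decide) (by decide) (by decide) (by decide)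
  · exact cert _ !![0, 0, 1; 0, 2, 0; 1, 1, 1] !![0, 0, 2; 2, 0, 1; 2, 1, 0] !![1, 1, 2; 1, 0, 2; 0, 0, 2] (by decide) (by decide) (by decide) (by decide)

set_option maxRecDepth 10000 in
theorem red_case2 (q r s : ZMod 3) : Good !![0, 2, q; 1, r, s; 0, 0, 1] := by
  rcases cases3 q with rfl | rfl | rfl <;> rcases cases3 r with rfl | rfl | rfl <;>
    rcases cases3 s with rfl | rfl | rfl
  · exact cert _ !![0, 0, 1; 0, 1, 1; 2, 2, 1] !![0, 0, 1; 2, 1, 0; 2, 0, 2] !![2, 2, 0; 2, 1, 2; 0, 0, 1] (by decide) (by decide) (by decide) (by decide)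
  · exact cert _ !![0, 0, 1; 0, 2, 1; 1, 1, 0] !![0, 0, 2; 2, 2, 1; 2, 0, 0] !![1, 2, 2; 1, 1, 1; 0, 0, 2] (by decide) (by decide) (by decide) (by decide)
  · exact cert _ !![0, 0, 1; 0, 1, 1; 2, 1, 0] !![0, 0, 2; 1, 2, 0; 2, 0, 1] !![2, 2, 0; 1, 2, 1; 0, 0, 2] (by decide) (by decide) (by decide) (by decide)
  · exact cert _ !![0, 0, 1; 0, 1, 1; 2, 2, 2] !![0, 0, 1; 2, 1, 0; 1, 1, 2] !![0, 1, 1; 2, 1, 2; 0, 0, 1] (by decide) (by decide) (by decide) (by decide)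
  · exact cert _ !![0, 0, 1; 0, 1, 1; 2, 0, 0] !![0, 0, 1; 2, 1, 0; 0, 2, 0] !![0, 1, 0; 2, 1, 2; 0, 0, 1] (by decide) (by decide) (by decide) (by decide)
  · exact cert _ !![0, 0, 1; 0, 2, 1; 1, 0, 1] !![0, 0, 1; 1, 1, 2; 2, 0, 1] !![2, 0, 0; 2, 2, 2; 0, 0, 1] (by decide) (by decide) (by decide) (by decide)
  · exact cert _ !![0, 0, 1; 0, 1, 1; 2, 0, 2] !![0, 0, 1; 2, 1, 0; 2, 0, 0] !![1, 0, 2; 2, 1, 2; 0, 0, 1] (by decide) (by decide) (by decide) (by decide)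
  · exact cert _ !![0, 0, 1; 0, 1, 2; 2, 0, 0] !![0, 0, 2; 2, 1, 0; 0, 1, 0] !![0, 2, 0; 2, 1, 2; 0, 0, 2] (by decide) (by decide) (by decide) (by decide)
  · exact cert _ !![0, 0, 1; 0, 1, 1; 2, 0, 1] !![0, 0, 1; 2, 1, 0; 1, 1, 0] !![2, 2, 1; 2, 1, 2; 0, 0, 1] (by decide) (by decide) (by decide) (by decide)
  · exact cert _ !![0, 0, 1; 0, 1, 1; 2, 2, 0] !![0, 0, 2; 0, 1, 1; 1, 0, 2] !![2, 2, 2; 0, 1, 2; 0, 0, 2] (by decide) (by decide) (by decide) (by decide)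
  · exact cert _ !![0, 0, 1; 0, 1, 0; 2, 1, 2] !![0, 0, 2; 2, 0, 1; 2, 1, 0] !![0, 2, 2; 2, 0, 1; 0, 0, 2] (by decide) (by decide) (by decide) (by decide)
  · exact cert _ !![0, 0, 1; 0, 1, 1; 2, 0, 1] !![0, 0, 2; 0, 1, 0; 1, 2, 1] !![2, 1, 1; 0, 1, 1; 0, 0, 2] (by decide) (by decide) (by decide) (by decide)
  · exact cert _ !![0, 0, 1; 0, 1, 1; 2, 2, 1] !![0, 0, 2; 1, 2, 2; 0, 2, 2] !![2, 2, 0; 1, 2, 0; 0, 0, 2] (by decide) (by decide) (by decide) (by decide)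
  · exact cert _ !![0, 0, 1; 0, 1, 0; 2, 0, 0] !![0, 0, 2; 2, 1, 0; 0, 1, 0] !![0, 2, 0; 2, 1, 0; 0, 0, 2] (by decide) (by decide) (by decide) (by decide)
  · exact cert _ !![0, 0, 1; 0, 1, 0; 2, 0, 1] !![0, 0, 2; 0, 1, 0; 1, 1, 1] !![2, 2, 1; 0, 1, 0; 0, 0, 2] (by decide) (by decide) (by decide) (by decide)
  · exact cert _ !![0, 0, 1; 0, 1, 0; 2, 2, 2] !![0, 0, 1; 1, 0, 1; 1, 1, 2] !![1, 2, 2; 1, 0, 1; 0, 0, 1] (by decide) (by decide) (by decide) (by decide)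
  · exact cert _ !![0, 0, 1; 0, 1, 0; 2, 2, 0] !![0, 0, 2; 1, 1, 0; 2, 1, 2] !![0, 1, 1; 1, 1, 0; 0, 0, 2] (by decide) (by decide) (by decide) (by decide)
  · exact cert _ !![0, 0, 1; 0, 1, 0; 2, 0, 2] !![0, 0, 1; 1, 1, 2; 2, 0, 1] !![1, 0, 1; 1, 1, 2; 0, 0, 1] (by decide) (by decide) (by decide) (by decide)
  · exact cert _ !![0, 0, 1; 0, 1, 1; 2, 0, 0] !![0, 0, 2; 2, 1, 0; 0, 1, 0] !![0, 2, 0; 2, 1, 1; 0, 0, 2] (by decide) (by decide) (by decide) (by decide)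
  · exact cert _ !![0, 0, 1; 0, 1, 2; 2, 2, 0] !![0, 0, 2; 2, 2, 2; 2, 0, 0] !![2, 1, 2; 2, 2, 1; 0, 0, 2] (by decide) (by decide) (by decide) (by decide)
  · exact cert _ !![0, 0, 1; 0, 1, 0; 2, 0, 2] !![0, 0, 1; 0, 1, 0; 2, 2, 2] !![1, 1, 0; 0, 1, 0; 0, 0, 1] (by decide) (by decide) (by decide) (by decide)
  · exact cert _ !![0, 0, 1; 0, 1, 1; 2, 2, 0] !![0, 0, 2; 1, 0, 0; 2, 2, 2] !![0, 1, 0; 1, 0, 1; 0, 0, 2] (by decide) (by decide) (by decide) (by decide)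
  · exact cert _ !![0, 0, 1; 0, 2, 0; 1, 0, 1] !![0, 0, 2; 2, 1, 0; 2, 2, 0] !![2, 2, 1; 1, 2, 0; 0, 0, 2] (by decide) (by decide) (by decide) (by decide)
  · exact cert _ !![0, 0, 1; 0, 1, 0; 2, 1, 2] !![0, 0, 1; 2, 0, 1; 1, 2, 0] !![1, 1, 0; 2, 0, 1; 0, 0, 1] (by decide) (by decide) (by decide) (by decide)
  · exact cert _ !![0, 0, 1; 0, 1, 2; 2, 1, 0] !![0, 0, 1; 1, 0, 1; 2, 1, 1] !![2, 2, 1; 1, 0, 2; 0, 0, 1] (by decide) (by decide) (by decide) (by decide)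
  · exact cert _ !![0, 0, 1; 0, 1, 0; 2, 0, 0] !![0, 0, 1; 2, 1, 0; 0, 2, 0] !![0, 1, 0; 2, 1, 0; 0, 0, 1] (by decide) (by decide) (by decide) (by decide)
  · exact cert _ !![0, 0, 1; 0, 2, 0; 1, 2, 2] !![0, 0, 2; 1, 1, 0; 0, 2, 2] !![2, 1, 1; 2, 2, 0; 0, 0, 2] (by decide) (by decide) (by decide) (by decide)

theorem aux1 : ∀ p w : ZMod 3, 1 = -(p * w) → (p = 1 ∧ w = 2) ∨ (p = 2 ∧ w = 1) := by decide

theorem aux2 : ∀ d : ZMod 3, d ≠ 0 → d = 1 ∨ d = -1 := by decide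

theorem zmod3_case (A : Matrix.SpecialLinearGroup (Fin 3) (ZMod 3))
    (hA : ∀ a : ZMod 3, (A : Matrix (Fin 3) (Fin 3) (ZMod 3)) ≠ Matrix.scalar (Fin 3) a) :
    ∃ u v : Matrix.SpecialLinearGroup (Fin 3) (ZMod 3), A = (u * x0 * u⁻¹) * (v * x0 * v⁻¹) := by
  haveI : Fact (Nat.Prime 3) := ⟨Nat.prime_three⟩
  obtain ⟨P, p, q, r, s, t, w, hP, hAP⟩ := Cfsg.Agent.H15.Sour.form3 (A : Matrix (Fin 3) (Fin 3) (ZMod 3)) hA 0
  -- normal form
  have key : ∃ P M : Matrix (Fin 3) (Fin 3) (ZMod 3), P.det ≠ 0 ∧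
      (A : Matrix (Fin 3) (Fin 3) (ZMod 3)) * P = P * M ∧ Good M := by
    by_cases ht : t = 0
    · subst ht
      refine ⟨P, _, hP, hAP, ?_⟩
      have e1 := congrArg Matrix.det hAP
      rw [Matrix.det_mul, Matrix.det_mul, mul_comm] at e1
      have e2 := mul_left_cancel₀ hP e1
      rw [Matrix.SpecialLinearGroup.det_coe, Matrix.det_fin_three] at e2
      simp at e2
      have hpw : (p = 1 ∧ w = 2) ∨ (p = 2 ∧ w = 1) := aux1 p w e2
      rcases hpw with ⟨rfl, rfl⟩ | ⟨rfl, rfl⟩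
      · exact red_case1 q r s
      · exact red_case2 q r s
    · have hcomp : (A : Matrix (Fin 3) (Fin 3) (ZMod 3)) * (P * !![1, 0, p; 0, 1, r; 0, 0, t]) =
          (P * !![1, 0, p; 0, 1, r; 0, 0, t]) * !![0, 0, q * t - p * w; 1, 0, p + s * t - r * w; 0, 1, r + w] := by
        rw [← mul_assoc, hAP, mul_assoc, mul_assoc]
        congr 1
        ext i j
        fin_cases i <;> fin_cases j <;> simp [Matrix.mul_apply, Fin.sum_univ_three] <;> ring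
      have hdet : (P * !![1, 0, p; 0, 1, r; 0, 0, t]).det ≠ 0 := by
        rw [Matrix.det_mul]
        refine mul_ne_zero hP ?_
        simp [Matrix.det_fin_three, ht]
      refine ⟨_, _, hdet, hcomp, ?_⟩
      have e1 := congrArg Matrix.det hcomp
      rw [Matrix.det_mul _ (!![0, 0, q * t - p * w; 1, 0, p + s * t - r * w; 0, 1, r + w]),
        Matrix.det_mul _ (P * !![1, 0, p; 0, 1, r; 0, 0, t]), mul_comm] at e1
      have e2 := mul_left_cancel₀ hdet e1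
      rw [Matrix.SpecialLinearGroup.det_coe, Matrix.det_fin_three] at e2
      simp at e2
      rw [← e2]
      exact comp_case _ _
  obtain ⟨P, M, hP, hAP, U, V, hM⟩ := key
  -- make the determinant one
  have hdet : P.det = 1 ∨ P.det = -1 := aux2 _ hP
  have key2 : ∃ P' : Matrix.SpecialLinearGroup (Fin 3) (ZMod 3),
      (A : Matrix (Fin 3) (Fin 3) (ZMod 3)) * (P' : Matrix (Fin 3) (Fin 3) (ZMod 3)) = P' * M := by
    rcases hdet with h | h
    · exact ⟨⟨P, h⟩, hAP⟩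
    · refine ⟨⟨-P, ?_⟩, ?_⟩
      · rw [Matrix.det_neg, h]
        simp
      · show (A : Matrix (Fin 3) (Fin 3) (ZMod 3)) * (-P) = -P * M
        rw [mul_neg, neg_mul, hAP]
  obtain ⟨P', hP'⟩ := key2
  have h6 : A * P' = P' * ((U * x0 * U⁻¹) * (V * x0 * V⁻¹)) := by
    apply Subtype.ext
    rw [hM] at hP'
    exact hP'
  refine ⟨P' * U, P' * V, ?_⟩
  have h7 : A = P' * ((U * x0 * U⁻¹) * (V * x0 * V⁻¹)) * P'⁻¹ := by
    rw [← h6]; group
  rw [h7]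
  group

theorem x0_pow : x0 ^ 13 = 1 := by
  have h : xm ^ 13 = 1 := by
    have h2 : xm * xm = !![0, 1, 0; 0, 1, 1; 1, 0, 1] := by decide
    have h4 : xm ^ 4 = !![0, 1, 1; 1, 1, 2; 1, 1, 1] := by
      rw [show xm ^ 4 = (xm * xm) * (xm * xm) by noncomm_ring, h2]; decide
    have h8 : xm ^ 8 = !![2, 2, 0; 0, 1, 2; 2, 0, 1] := by
      rw [show xm ^ 8 = xm ^ 4 * xm ^ 4 by rw [← pow_add], h4]; decide
    rw [show xm ^ 13 = xm ^ 8 * xm ^ 4 * xm by rw [← pow_add, ← pow_succ], h8, h4]; decide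
  apply Subtype.ext
  rw [Matrix.SpecialLinearGroup.coe_pow]
  exact h

theorem sl_case {F : Type*} [Field F] [Fintype F] (p : ℕ) [Fact p.Prime] [CharP F p]
    (h3 : 3 ≤ Fintype.card F) :
    ∃ x : Matrix.SpecialLinearGroup (Fin 3) F, (∃ k, ¬ p ∣ k ∧ x ^ k = 1) ∧
      ∀ A : Matrix.SpecialLinearGroup (Fin 3) F,
        (∀ a : F, (A : Matrix (Fin 3) (Fin 3) F) ≠ Matrix.scalar (Fin 3) a) →
        ∃ u v : Matrix.SpecialLinearGroup (Fin 3) F, A = (u * x * u⁻¹) * (v * x * v⁻¹) := by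
  classical
  by_cases h4 : 4 ≤ Fintype.card F
  · obtain ⟨a, ha⟩ : ∃ a : F, a ∉ ({0, 1, -1} : Finset F) := by
      by_contra hcon
      push Not at hcon
      have : Finset.univ ⊆ ({0, 1, -1} : Finset F) := fun a _ => hcon a
      have h2 := Finset.card_le_card this
      rw [Finset.card_univ] at h2
      have h3 : ({0, 1, -1} : Finset F).card ≤ 3 := Finset.card_le_three
      omega
    simp only [Finset.mem_insert, Finset.mem_singleton, not_or] at ha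
    obtain ⟨ha0, ha1, ham⟩ := ha
    have h : 1 * a * a⁻¹ = 1 := by field_simp
    refine ⟨Cfsg.Agent.H15.Sour.dg 1 a a⁻¹ h, ⟨Fintype.card F - 1, ?_, ?_⟩, ?_⟩
    · intro hd
      have h5 : p ∣ Fintype.card F := by
        rw [← Nat.card_eq_fintype_card]
        obtain ⟨n, _, hn⟩ := FiniteField.card F p
        rw [Nat.card_eq_fintype_card, hn]
        exact dvd_pow_self p n.ne_zero
      have h6 : p ∣ 1 := by
        have := Nat.dvd_sub h5 hd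
        rwa [Nat.sub_sub_self (by omega)] at this
      exact (Fact.out : p.Prime).one_lt.ne' (Nat.dvd_one.mp h6)
    · apply Subtype.ext
      rw [Matrix.SpecialLinearGroup.coe_pow]
      have hdiag : ((Cfsg.Agent.H15.Sour.dg 1 a a⁻¹ h : Matrix.SpecialLinearGroup (Fin 3) F) :
          Matrix (Fin 3) (Fin 3) F) = Matrix.diagonal ![1, a, a⁻¹] := by
        show !![1, 0, 0; 0, a, 0; 0, 0, a⁻¹] = _
        ext i j
        fin_cases i <;> fin_cases j <;> simp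
      rw [hdiag, Matrix.diagonal_pow]
      show _ = (1 : Matrix (Fin 3) (Fin 3) F)
      rw [← Matrix.diagonal_one]
      congr 1
      ext i
      have h7 : a ^ (Fintype.card F - 1) = 1 := FiniteField.pow_card_sub_one_eq_one a ha0
      fin_cases i <;> simp [h7]
    · intro A hA
      refine Cfsg.Agent.H15.Sour.sl3_product h (Ne.symm ha1) ?_ ?_ A hA
      · intro h8
        apply ha1
        field_simp at h8
        exact h8
      · intro h8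
        have h9 : (a - 1) * (a + 1) = 0 := by
          field_simp at h8
          linear_combination h8
        rcases mul_eq_zero.mp h9 with h | h
        · exact ha1 (by linear_combination h)
        · exact ham (by linear_combination h)
  · have hc : Fintype.card F = 3 := by omega
    have hp : p = 3 := by
      obtain ⟨n, _, hn⟩ := FiniteField.card F p
      rw [hc] at hn
      have : p ∣ 3 := by rw [hn]; exact dvd_pow_self p n.ne_zero
      exact (Nat.prime_dvd_prime_iff_eq Fact.out Nat.prime_three).mp this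
    subst hp
    let e : ZMod 3 ≃+* F := ZMod.ringEquiv F hc
    let φ : Matrix.SpecialLinearGroup (Fin 3) (ZMod 3) →* Matrix.SpecialLinearGroup (Fin 3) F :=
      Matrix.SpecialLinearGroup.map (e : ZMod 3 →+* F)
    let ψ : Matrix.SpecialLinearGroup (Fin 3) F →* Matrix.SpecialLinearGroup (Fin 3) (ZMod 3) :=
      Matrix.SpecialLinearGroup.map (e.symm : F →+* ZMod 3)
    have hφψ : ∀ A, φ (ψ A) = A := by
      intro A
      apply Subtype.ext
      ext i j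
      show e (e.symm _) = _
      simp
    refine ⟨φ x0, ⟨13, by decide, by rw [← map_pow, x0_pow, map_one]⟩, ?_⟩
    intro A hA
    obtain ⟨u, v, huv⟩ := zmod3_case (ψ A) (by
      intro a ha
      apply hA (e a)
      have h1 : (A : Matrix (Fin 3) (Fin 3) F) = ((ψ A : Matrix.SpecialLinearGroup (Fin 3) (ZMod 3)) :
        Matrix (Fin 3) (Fin 3) (ZMod 3)).map e := by
        ext i j
        show _ = e (e.symm _)
        simp
      rw [h1, ha]
      ext i j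
      by_cases hij : i = j
      · subst hij; simp
      · simp [hij])
    refine ⟨φ u, φ v, ?_⟩
    rw [← hφψ A, huv]
    simp only [map_mul, map_inv]

/-- A form of Thompson's conjecture for PSL(3,q), q > 2 (covering the non-identity elements), with a semisimple class: for F a finite field of characteristic p with more than 2 elements there is an element x of PSL(3,F) of order prime to p such that every non-identity element of PSL(3,F) is a product of two conjugates of x. -/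
theorem result {F : Type*} [Field F] [Fintype F] (p : ℕ) [Fact p.Prime] [CharP F p] (h3 : 3 ≤ Fintype.card F) :
    ∃ x : Matrix.ProjectiveSpecialLinearGroup (Fin 3) F, ¬ p ∣ orderOf x ∧ ∀ g : Matrix.ProjectiveSpecialLinearGroup (Fin 3) F, g ≠ 1 → ∃ u v : Matrix.ProjectiveSpecialLinearGroup (Fin 3) F, g = (u * x * u⁻¹) * (v * x * v⁻¹) := by
  obtain ⟨x, ⟨k, hk, hxk⟩, hx⟩ := sl_case (F := F) p h3
  refine ⟨QuotientGroup.mk' _ x, ?_, ?_⟩
  · intro hd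
    apply hk
    refine hd.trans (orderOf_dvd_of_pow_eq_one ?_)
    rw [← map_pow, hxk, map_one]
  · intro g hg
    obtain ⟨A, rfl⟩ := QuotientGroup.mk'_surjective _ g
    obtain ⟨u, v, huv⟩ := hx A (by
      intro a ha
      apply hg
      rw [QuotientGroup.mk'_apply, QuotientGroup.eq_one_iff, Matrix.SpecialLinearGroup.mem_center_iff]
      refine ⟨a, ?_, ?_⟩
      · have h1 := congrArg Matrix.det ha
        rw [Matrix.SpecialLinearGroup.det_coe] at h1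
        simpa using h1.symm
      · exact ha.symm)
    refine ⟨QuotientGroup.mk' _ u, QuotientGroup.mk' _ v, ?_⟩
    rw [huv]
    simp only [map_mul, map_inv]

end Cfsg.Agent.S2459
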