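import Cfsg.Statements.S2486
import Cfsg.Agent.H15_Bruhat

set_option autoImplicit false
open scoped Pointwise
open Cfsg

namespace Cfsg.Agent.S2486

open Matrix Cfsg.Agent.H15.Bruhat

abbrev K (n : ℕ) := Matrix.SpecialLinearGroup (Fin n) (ZMod 2)

/-- upper triangular matrices -/
def up (n : ℕ) : Subgroup (K n) where
  carrier := {g | (g : Matrix (Fin n) (Fin n) (ZMod 2)).BlockTriangular id}
  one_mem' := by
    change ((1 : K n) : Matrix (Fin n) (Fin n) (ZMod 2)).BlockTriangular id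
    rw [Matrix.SpecialLinearGroup.coe_one]
    exact Matrix.blockTriangular_one
  mul_mem' := fun {a b} ha hb => by
    change ((a * b : K n) : Matrix (Fin n) (Fin n) (ZMod 2)).BlockTriangular id
    rw [Matrix.SpecialLinearGroup.coe_mul]
    exact ha.mul hb
  inv_mem' := fun {a} ha => by
    change ((a⁻¹ : K n) : Matrix (Fin n) (Fin n) (ZMod 2)).BlockTriangular id
    have h1 : ((a⁻¹ : K n) : Matrix (Fin n) (Fin n) (ZMod 2)) = (a : Matrix (Fin n) (Fin n) (ZMod 2))⁻¹ := by
      rw [Matrix.inv_def, a.2, Ring.inverse_one, one_smul, Matrix.SpecialLinearGroup.coe_inv]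
    rw [h1]
    haveI : Invertible (a : Matrix (Fin n) (Fin n) (ZMod 2)) := Matrix.invertibleOfIsUnitDet _ (by rw [a.2]; exact isUnit_one)
    exact Matrix.blockTriangular_inv_of_blockTriangular ha

theorem mem_up {n : ℕ} {g : K n} : g ∈ up n ↔ (g : Matrix (Fin n) (Fin n) (ZMod 2)).BlockTriangular id := Iff.rfl

theorem z2 (x : ZMod 2) (h : x ≠ 0) : x = 1 := by revert x; decide

theorem det_one {n : ℕ} {g : Matrix (Fin n) (Fin n) (ZMod 2)} (h : IsUnit g) : g.det = 1 :=
  z2 _ ((Matrix.isUnit_iff_isUnit_det g).mp h).ne_zero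

theorem pm_det {n : ℕ} (w : Equiv.Perm (Fin n)) : (pm (ZMod 2) w).det = 1 := by
  apply det_one
  refine isUnit_iff_exists.mpr ⟨pm (ZMod 2) w⁻¹, ?_, ?_⟩
  · rw [← pm_mul, mul_inv_cancel, pm_one]
  · rw [← pm_mul, inv_mul_cancel, pm_one]

/-- permutation element -/
def pe {n : ℕ} (w : Equiv.Perm (Fin n)) : K n := ⟨pm (ZMod 2) w, pm_det w⟩

/-- transvection -/
def tr {n : ℕ} (i j : Fin n) (h : i ≠ j) : K n := ⟨Matrix.transvection i j 1, Matrix.det_transvection_of_ne i j h 1⟩

theorem tr_ne {n : ℕ} (i j : Fin n) (h : i ≠ j) : tr i j h ≠ 1 := by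
  intro e
  have := congrFun (congrFun (congrArg Subtype.val e) i) j
  change Matrix.transvection i j (1 : ZMod 2) i j = (1 : Matrix (Fin n) (Fin n) (ZMod 2)) i j at this
  rw [Matrix.one_apply_ne h, Matrix.transvection, Matrix.add_apply, Matrix.one_apply_ne h, Matrix.single_apply_same, zero_add] at this
  exact one_ne_zero this

theorem tr_up {n : ℕ} (i j : Fin n) (h : i < j) : tr i j h.ne ∈ up n := by
  rw [mem_up]
  intro a b hab
  simp only [id] at hab
  change Matrix.transvection i j (1 : ZMod 2) a b = 0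
  rw [Matrix.transvection, Matrix.add_apply, Matrix.one_apply_ne hab.ne', zero_add, Matrix.single_apply_of_ne]
  rintro ⟨rfl, rfl⟩
  exact absurd h (not_lt.mpr hab.le)

theorem pe_tr {n : ℕ} (w : Equiv.Perm (Fin n)) (i j : Fin n) (h : i ≠ j) : pe w * tr i j h = tr (w i) (w j) (w.injective.ne h) * pe w := by
  apply Subtype.ext
  rw [Matrix.SpecialLinearGroup.coe_mul, Matrix.SpecialLinearGroup.coe_mul]
  change pm (ZMod 2) w * Matrix.transvection i j 1 = Matrix.transvection (w i) (w j) 1 * pm (ZMod 2) w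
  rw [Matrix.transvection, Matrix.transvection, Matrix.mul_add, Matrix.add_mul, Matrix.mul_one, Matrix.one_mul]
  congr 1
  ext a b
  rw [Matrix.mul_apply, Matrix.mul_apply]
  simp only [pm_apply, Matrix.single_apply]
  rw [Finset.sum_eq_single i, Finset.sum_eq_single (w j)]
  · by_cases h1 : a = w i <;> by_cases h2 : b = j
    · subst h1; subst h2; simp
    · subst h1; simp [h2, Ne.symm h2, w.injective.ne_iff]
    · subst h2; simp [h1, Ne.symm h1]
    · simp [h1, Ne.symm h1]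
  · intro c _ hc
    simp [hc.symm]
  · intro hc; exact absurd (Finset.mem_univ _) hc
  · intro c _ hc
    simp [hc.symm]
  · intro hc; exact absurd (Finset.mem_univ _) hc

theorem claimB {n : ℕ} (g : K n) (h : ∀ u ∈ up n, g * u * g⁻¹ ∈ up n → u = 1) : ∃ u ∈ up n, ∃ u' ∈ up n, g = u * pe Fin.revPerm * u' := by
  obtain ⟨b, b', w, hb, hb', hbt, hbt', e⟩ := bruhat_mat n (g : Matrix (Fin n) (Fin n) (ZMod 2)) ((Matrix.isUnit_iff_isUnit_det _).mpr (by rw [g.2]; exact isUnit_one))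
  obtain ⟨u, hu⟩ : ∃ u : K n, (u : Matrix (Fin n) (Fin n) (ZMod 2)) = b := ⟨⟨b, det_one hb⟩, rfl⟩
  obtain ⟨u', hu'⟩ : ∃ u : K n, (u : Matrix (Fin n) (Fin n) (ZMod 2)) = b' := ⟨⟨b', det_one hb'⟩, rfl⟩
  have hg : g = u * pe w * u' := by
    apply Subtype.ext
    rw [Matrix.SpecialLinearGroup.coe_mul, Matrix.SpecialLinearGroup.coe_mul, hu, hu', e]
    rfl
  have mu : u ∈ up n := by rw [mem_up, hu]; exact hbt
  have mu' : u' ∈ up n := by rw [mem_up, hu']; exact hbt'
  refine ⟨u, mu, u', mu', ?_⟩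
  have hw : ∀ i j, i < j → w j < w i := by
    intro i j hij
    by_contra hlt
    push Not at hlt
    have hlt' : w i < w j := lt_of_le_of_ne hlt (w.injective.ne hij.ne)
    have h1 : u'⁻¹ * tr i j hij.ne * u' = 1 := by
      apply h
      · exact (up n).mul_mem ((up n).mul_mem ((up n).inv_mem mu') (tr_up i j hij)) mu'
      · have : g * (u'⁻¹ * tr i j hij.ne * u') * g⁻¹ = u * tr (w i) (w j) hlt'.ne * u⁻¹ := by
          rw [hg]
          have h2 := pe_tr w i j hij.ne
          calc u * pe w * u' * (u'⁻¹ * tr i j hij.ne * u') * (u * pe w * u')⁻¹ = u * (pe w * tr i j hij.ne) * (pe w)⁻¹ * u⁻¹ := by group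
            _ = _ := by rw [h2]; group
        rw [this]
        exact (up n).mul_mem ((up n).mul_mem mu (tr_up _ _ hlt')) ((up n).inv_mem mu)
    have h3 : tr i j hij.ne = 1 := by
      have : tr i j hij.ne = u' * (u'⁻¹ * tr i j hij.ne * u') * u'⁻¹ := by group
      rw [this, h1]; group
    exact tr_ne _ _ _ h3
  have hw' : w = Fin.revPerm := by
    have hm : StrictMono (fun i => (w i).rev) := fun i j hij => Fin.rev_lt_rev.mpr (hw i j hij)
    have h4 : (fun i => (w i).rev) = id := hm.eq_id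
    ext i
    have h5 := congrFun h4 i
    simp only [id] at h5
    have h6 := congrArg Fin.rev h5
    rw [Fin.rev_rev] at h6
    rw [Fin.revPerm_apply, h6]
  rw [hg, hw']

open scoped Pointwise in
theorem core {G : Type*} [Group G] [Finite G] {n : ℕ} (N : Subgroup G) [N.Normal]
    (e : N ≃* Matrix.SpecialLinearGroup (Fin n) (ZMod 2)) (hidx : N.index = 2)
    (H : Sylow 2 G) (hU : ∀ u ∈ up n, ((e.symm u : N) : G) ∈ (H : Subgroup G)) (x : G) :
    (H : Subgroup G) ⊓ MulAut.conj x • (H : Subgroup G) ≠ ⊥ := by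
  intro hbot
  -- an element of H outside N
  obtain ⟨v, hvH, hvN⟩ : ∃ v ∈ (H : Subgroup G), v ∉ N := by
    by_contra hcon
    push Not at hcon
    have hle : (H : Subgroup G) ≤ N := hcon
    have h1 := Subgroup.card_dvd_of_le hle
    rw [Sylow.card_eq_multiplicity, ← N.card_mul_index, hidx, Nat.factorization_mul Nat.card_pos.ne' (by norm_num), Finsupp.add_apply,
      Nat.Prime.factorization_self Nat.prime_two] at h1
    have h2 := (Nat.prime_two.pow_dvd_iff_le_factorization Nat.card_pos.ne').mp h1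
    omega
  have hmem : ∀ y : G, y ∈ MulAut.conj x • (H : Subgroup G) ↔ x⁻¹ * y * x ∈ (H : Subgroup G) := by
    intro y
    rw [Subgroup.mem_pointwise_smul_iff_inv_smul_mem, ← map_inv, MulAut.smul_def, MulAut.conj_apply, inv_inv]
  have hbot' : ∀ y ∈ (H : Subgroup G), x⁻¹ * y * x ∈ (H : Subgroup G) → y = 1 := by
    intro y h1 h2
    have h3 : y ∈ (H : Subgroup G) ⊓ MulAut.conj x • (H : Subgroup G) := ⟨h1, (hmem y).mpr h2⟩
    rwa [hbot, Subgroup.mem_bot] at h3
  have hout : ∀ a b : G, a ∉ N → b ∉ N → a * b ∈ N := fun a b ha hb => (Subgroup.mul_mem_iff_of_index_two hidx).mpr (by simp [ha, hb])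
  -- reduce to x ∈ N
  obtain ⟨y, hy⟩ : ∃ y : N, ∀ z ∈ (H : Subgroup G), (y : G)⁻¹ * z * y ∈ (H : Subgroup G) → z = 1 := by
    by_cases hx : x ∈ N
    · exact ⟨⟨x, hx⟩, hbot'⟩
    · refine ⟨⟨x * v, hout _ _ hx hvN⟩, fun z hz h1 => hbot' z hz ?_⟩
      have h2 : v * ((x * v)⁻¹ * z * (x * v)) * v⁻¹ ∈ (H : Subgroup G) :=
        (H : Subgroup G).mul_mem ((H : Subgroup G).mul_mem hvH h1) ((H : Subgroup G).inv_mem hvH)
      rwa [show v * ((x * v)⁻¹ * z * (x * v)) * v⁻¹ = x⁻¹ * z * x by group] at h2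
  have hcl : ∀ m : N, (∀ z ∈ (H : Subgroup G), (m : G)⁻¹ * z * m ∈ (H : Subgroup G) → z = 1) → ∃ u ∈ up n, ∃ u' ∈ up n, e m = u * pe Fin.revPerm * u' := by
    intro m hm
    apply claimB
    intro u hu hgu
    have h1 := hm _ (hU _ hgu) (by
      have : ((m : G)⁻¹ * ((e.symm (e m * u * (e m)⁻¹) : N) : G) * m) = ((e.symm u : N) : G) := by
        rw [map_mul, map_mul, map_inv, e.symm_apply_apply, ← Subgroup.coe_inv, ← Subgroup.coe_mul, ← Subgroup.coe_mul]
        congr 1
        group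
      rw [this]
      exact hU _ hu)
    have h2 : e.symm (e m * u * (e m)⁻¹) = 1 := Subtype.ext h1
    rw [EmbeddingLike.map_eq_one_iff, mul_inv_eq_one, mul_eq_left] at h2
    exact h2
  obtain ⟨a, ha, a', ha', h1⟩ := hcl y hy
  obtain ⟨m, hm⟩ : ∃ m : N, (m : G) = v * y * v⁻¹ := ⟨⟨v * y * v⁻¹, Subgroup.Normal.conj_mem ‹N.Normal› _ y.2 v⟩, rfl⟩
  obtain ⟨b, hb, b', hb', h2⟩ := hcl m (by
    intro z hz hz'
    have h3 := hy (v⁻¹ * z * v) ((H : Subgroup G).mul_mem ((H : Subgroup G).mul_mem ((H : Subgroup G).inv_mem hvH) hz) hvH) (by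
      have h4 := (H : Subgroup G).mul_mem ((H : Subgroup G).mul_mem ((H : Subgroup G).inv_mem hvH) hz') hvH
      rw [hm] at h4
      rwa [show v⁻¹ * ((v * (y : G) * v⁻¹)⁻¹ * z * (v * (y : G) * v⁻¹)) * v = (y : G)⁻¹ * (v⁻¹ * z * v) * y by group] at h4)
    have h5 : z = v * (v⁻¹ * z * v) * v⁻¹ := by group
    rw [h5, h3]; group)
  have h3 : m = e.symm (b * a⁻¹) * y * e.symm (a'⁻¹ * b') := by
    apply e.injective
    rw [map_mul, map_mul, e.apply_symm_apply, e.apply_symm_apply, h1, h2]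
    group
  have h4 : v * y * v⁻¹ = ((e.symm (b * a⁻¹) : N) : G) * y * ((e.symm (a'⁻¹ * b') : N) : G) := by
    rw [← hm, h3]; rfl
  obtain ⟨s, hs⟩ : ∃ s, s = e.symm (b * a⁻¹) := ⟨_, rfl⟩
  obtain ⟨s', hs'⟩ : ∃ s', s' = e.symm (a'⁻¹ * b') := ⟨_, rfl⟩
  have hsH : (s : G) ∈ (H : Subgroup G) := by rw [hs]; exact hU _ ((up n).mul_mem hb ((up n).inv_mem ha))
  have hsH' : (s' : G) ∈ (H : Subgroup G) := by rw [hs']; exact hU _ ((up n).mul_mem ((up n).inv_mem ha') hb')
  rw [← hs, ← hs'] at h4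
  have h5 := hy ((s : G)⁻¹ * v) ((H : Subgroup G).mul_mem ((H : Subgroup G).inv_mem hsH) hvH) (by
    have h6 : (y : G)⁻¹ * ((s : G)⁻¹ * v) * y = s' * v := by
      have h7 : v * y = (s : G) * y * s' * v := by rw [← h4]; group
      calc (y : G)⁻¹ * ((s : G)⁻¹ * v) * y = (y : G)⁻¹ * (s : G)⁻¹ * (v * y) := by group
        _ = s' * v := by rw [h7]; group
    rw [h6]
    exact (H : Subgroup G).mul_mem hsH' hvH)
  exact hvN ((inv_mul_eq_one.mp h5) ▸ s.2)

/-- Let n ≥ 4 and let G be a finite group with a normal subgroup N of index 2 isomorphic to SL(n,2) and with trivial centralizer in G (so G is the extension of the simple group L_n(2) by its inverse-transpose automorphism, its full automorphism group). Then any two Sylow 2-subgroups of G have a non-trivial intersection: for a Sylow 2-subgroup H and every x ∈ G, H ∩ H^x ≠ 1. -/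
theorem result {G : Type*} [Group G] [Finite G] {n : ℕ} (hn : 4 ≤ n) (N : Subgroup G) [N.Normal]
    (e : N ≃* Matrix.SpecialLinearGroup (Fin n) (ZMod 2)) (hidx : N.index = 2)
    (hC : Subgroup.centralizer (N : Set G) = ⊥)
    (H : Sylow 2 G) (x : G) :
    (H : Subgroup G) ⊓ MulAut.conj x • (H : Subgroup G) ≠ ⊥ := by
  classical
  -- the upper unitriangular group is a 2-group
  have hup : IsPGroup 2 (up n) := by
    rintro ⟨g, hg⟩
    refine ⟨n, ?_⟩
    rw [mem_up] at hg
    have hdiag : ∀ i, (g : Matrix (Fin n) (Fin n) (ZMod 2)) i i = 1 := by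
      intro i
      apply z2
      have h1 := Matrix.det_of_upperTriangular hg
      rw [g.2] at h1
      have h2 : (∏ i, (g : Matrix (Fin n) (Fin n) (ZMod 2)) i i) ≠ 0 := by rw [← h1]; exact one_ne_zero
      exact Finset.prod_ne_zero_iff.mp h2 i (Finset.mem_univ i)
    have hch := Matrix.charpoly_of_upperTriangular _ hg
    have hch' : (g : Matrix (Fin n) (Fin n) (ZMod 2)).charpoly = (Polynomial.X - Polynomial.C 1) ^ n := by
      rw [hch, Finset.prod_congr rfl (fun i _ => by rw [hdiag i]), Finset.prod_const, Finset.card_univ, Fintype.card_fin]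
    have hCH := Matrix.aeval_self_charpoly (g : Matrix (Fin n) (Fin n) (ZMod 2))
    rw [hch', map_pow, map_sub, Polynomial.aeval_X, Polynomial.aeval_C, map_one] at hCH
    have h2 : ((g : Matrix (Fin n) (Fin n) (ZMod 2)) - 1) ^ 2 ^ n = 0 := pow_eq_zero_of_le (Nat.lt_pow_self (by norm_num)).le hCH
    haveI : Nonempty (Fin n) := ⟨⟨0, by omega⟩⟩
    haveI : CharP (Matrix (Fin n) (Fin n) (ZMod 2)) 2 := Matrix.charP 2
    rw [sub_pow_char_pow_of_commute 2 n (Commute.one_right (g : Matrix (Fin n) (Fin n) (ZMod 2))), one_pow, sub_eq_zero] at h2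
    apply Subtype.ext
    apply Subtype.ext
    rw [Subgroup.coe_pow, Matrix.SpecialLinearGroup.coe_pow, h2]
    rfl
  obtain ⟨S, hS⟩ := (hup.map (N.subtype.comp (e.symm.toMonoidHom))).exists_le_sylow
  obtain ⟨g, hg⟩ := MulAction.exists_smul_eq G S H
  have hx : ∀ y : G, g⁻¹ * y * g ∈ (S : Subgroup G) → y ∈ (H : Subgroup G) := by
    intro y hy
    rw [← hg, Sylow.coe_subgroup_smul, Subgroup.mem_pointwise_smul_iff_inv_smul_mem, ← map_inv, MulAut.smul_def, MulAut.conj_apply, inv_inv]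
    exact hy
  apply core N ((MulAut.conjNormal g⁻¹ : MulAut N).trans e) hidx H _ x
  intro u hu
  apply hx
  have : g⁻¹ * ((((MulAut.conjNormal g⁻¹ : MulAut N).trans e).symm u : N) : G) * g = ((e.symm u : N) : G) := by
    change g⁻¹ * (((MulAut.conjNormal g⁻¹ : MulAut N).symm (e.symm u) : N) : G) * g = _
    rw [MulAut.conjNormal_symm_apply]
    group
  rw [this]
  exact hS ⟨u, hu, rfl⟩

end Cfsg.Agent.S2486
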