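import Cfsg.Agent.H16_OSy
import Cfsg.Statements.S2487
-- import your own Cfsg.Agent.* helpers here

set_option autoImplicit false
open scoped Pointwise
open Cfsg

namespace Cfsg.Agent.S2487

/-- Let m ≥ 4 and let G be the full isometry group of the hyperbolic quadratic form x₁y₁ + ⋯ + x_m y_m on the 2m-dimensional space over the field with 2 elements (the orthogonal group O⁺(2m,2), which contains Ω⁺(2m,2) with index 2). Then any two Sylow 2-subgroups of G have a non-trivial intersection: for a Sylow 2-subgroup H and every x ∈ G, H ∩ H^x ≠ 1. -/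
theorem result {F : Type*} [Field F] [Fintype F] (hF : Fintype.card F = 2) {m : ℕ} (hm : 4 ≤ m)
    (H : Sylow 2 (Cfsg.isometryGroup F (Cfsg.quadFormPlus m F)))
    (x : Cfsg.isometryGroup F (Cfsg.quadFormPlus m F)) :
    (H : Subgroup (Cfsg.isometryGroup F (Cfsg.quadFormPlus m F))) ⊓ MulAut.conj x • (H : Subgroup _) ≠ ⊥ := by
  classical
  obtain ⟨k, rfl⟩ : ∃ k, m = k + 1 := ⟨m - 1, by omega⟩
  haveI : Finite (Cfsg.isometryGroup F (Cfsg.quadFormPlus (k + 1) F)) := inferInstance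
  refine H16.OSy.key _ (H16.OSy.isPGroup_C0 hF k) (fun a b => ?_) H x
  let U := H16.OSy.U0 F k
  let La : (Fin (k + 1) ⊕ Fin (k + 1) → F) →ₗ[F] (Fin (k + 1) ⊕ Fin (k + 1) → F) :=
    Matrix.mulVecLin ((a : Matrix.GeneralLinearGroup (Fin (k + 1) ⊕ Fin (k + 1)) F) : Matrix (Fin (k + 1) ⊕ Fin (k + 1)) (Fin (k + 1) ⊕ Fin (k + 1)) F)
  let Lb : (Fin (k + 1) ⊕ Fin (k + 1) → F) →ₗ[F] (Fin (k + 1) ⊕ Fin (k + 1) → F) :=
    Matrix.mulVecLin ((b : Matrix.GeneralLinearGroup (Fin (k + 1) ⊕ Fin (k + 1)) F) : Matrix (Fin (k + 1) ⊕ Fin (k + 1)) (Fin (k + 1) ⊕ Fin (k + 1)) F)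
  obtain ⟨t, ht1, ht⟩ := H16.OSy.exists_t hF (U.map La ⊔ U.map Lb) (by
    have h1 := Submodule.finrank_map_le La U
    have h2 := Submodule.finrank_map_le Lb U
    have h3 := Submodule.finrank_add_le_finrank_add_finrank (U.map La) (U.map Lb)
    have h4 := H16.OSy.finrank_U0 (F := F) k
    change Module.finrank F U ≤ k at h4
    omega)
  have key : ∀ c : Cfsg.isometryGroup F (Cfsg.quadFormPlus (k + 1) F),
      (∀ u ∈ U, Matrix.mulVec ((t : Matrix.GeneralLinearGroup (Fin (k + 1) ⊕ Fin (k + 1)) F) : Matrix (Fin (k + 1) ⊕ Fin (k + 1)) (Fin (k + 1) ⊕ Fin (k + 1)) F)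
        (Matrix.mulVec ((c : Matrix.GeneralLinearGroup (Fin (k + 1) ⊕ Fin (k + 1)) F) : Matrix (Fin (k + 1) ⊕ Fin (k + 1)) (Fin (k + 1) ⊕ Fin (k + 1)) F) u) =
        (Matrix.mulVec ((c : Matrix.GeneralLinearGroup (Fin (k + 1) ⊕ Fin (k + 1)) F) : Matrix (Fin (k + 1) ⊕ Fin (k + 1)) (Fin (k + 1) ⊕ Fin (k + 1)) F) u)) →
      c⁻¹ * t * c ∈ H16.OSy.Cu F (k + 1) (U : Set _) := by
    intro c hc u hu
    have h1 : (((c⁻¹ * t * c : Cfsg.isometryGroup F (Cfsg.quadFormPlus (k + 1) F)) : Matrix.GeneralLinearGroup (Fin (k + 1) ⊕ Fin (k + 1)) F) :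
        Matrix (Fin (k + 1) ⊕ Fin (k + 1)) (Fin (k + 1) ⊕ Fin (k + 1)) F) =
        ((c⁻¹ : Cfsg.isometryGroup F (Cfsg.quadFormPlus (k + 1) F)) : Matrix.GeneralLinearGroup (Fin (k + 1) ⊕ Fin (k + 1)) F).1 *
        (t : Matrix.GeneralLinearGroup (Fin (k + 1) ⊕ Fin (k + 1)) F).1 * (c : Matrix.GeneralLinearGroup (Fin (k + 1) ⊕ Fin (k + 1)) F).1 := rfl
    have h2 : ((c⁻¹ : Cfsg.isometryGroup F (Cfsg.quadFormPlus (k + 1) F)) : Matrix.GeneralLinearGroup (Fin (k + 1) ⊕ Fin (k + 1)) F).1 *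
        (c : Matrix.GeneralLinearGroup (Fin (k + 1) ⊕ Fin (k + 1)) F).1 = 1 :=
      congrArg (fun z : Cfsg.isometryGroup F (Cfsg.quadFormPlus (k + 1) F) => (z : Matrix.GeneralLinearGroup (Fin (k + 1) ⊕ Fin (k + 1)) F).1) (inv_mul_cancel c)
    rw [h1, ← Matrix.mulVec_mulVec, ← Matrix.mulVec_mulVec, hc u hu, Matrix.mulVec_mulVec, h2, Matrix.one_mulVec]
  exact ⟨t, ht1, key a fun u hu => ht _ (Submodule.mem_sup_left ⟨u, hu, rfl⟩), key b fun u hu => ht _ (Submodule.mem_sup_right ⟨u, hu, rfl⟩)⟩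

end Cfsg.Agent.S2487
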