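import Cfsg.Statements.S2488
import Cfsg.Agent.H21_O360

set_option autoImplicit false
open scoped Pointwise
open Cfsg

namespace Cfsg.Agent.S2488

open scoped Pointwise in
/-- two-subsets -/
def Y2 (X : Type*) := {s : Finset X // s.card = 2}

open scoped Pointwise in
instance {G X : Type*} [Group G] [MulAction G X] [DecidableEq X] : MulAction G (Y2 X) where
  smul g s := ⟨g • s.1, by rw [Finset.card_smul_finset]; exact s.2⟩
  one_smul s := Subtype.ext (one_smul G s.1)
  mul_smul g h s := Subtype.ext (mul_smul g h s.1)

open scoped Pointwise in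
theorem Y2_smul {G X : Type*} [Group G] [MulAction G X] [DecidableEq X] (g : G) (s : Y2 X) : (g • s).1 = g • s.1 := rfl

open scoped Pointwise in
theorem core {G X : Type*} [Group G] [Finite G] [MulAction G X] [Fintype X] [DecidableEq X] (hX : Fintype.card X = 10) (hG : Nat.card G = 1440)
    (ht : ∀ a b c d : X, a ≠ b → c ≠ d → ∃ g : G, g • a = c ∧ g • b = d) (H : Sylow 2 G) (x : G) :
    (H : Subgroup G) ⊓ MulAut.conj x • (H : Subgroup G) ≠ ⊥ := by
  classical
  haveI : Fintype (Y2 X) := inferInstanceAs (Fintype {s : Finset X // s.card = 2})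
  have hY : Nat.card (Y2 X) = 45 := by
    change Nat.card {s : Finset X // s.card = 2} = 45
    rw [Nat.card_eq_fintype_card, Fintype.card_finset_len, hX]
    rfl
  haveI : MulAction.IsPretransitive G (Y2 X) := by
    constructor
    rintro ⟨s, hs⟩ ⟨t, ht'⟩
    obtain ⟨a, b, hab, rfl⟩ := Finset.card_eq_two.mp hs
    obtain ⟨c, d, hcd, rfl⟩ := Finset.card_eq_two.mp ht'
    obtain ⟨g, h1, h2⟩ := ht a b c d hab hcd
    refine ⟨g, Subtype.ext ?_⟩
    change g • ({a, b} : Finset X) = {c, d}
    rw [Finset.smul_finset_insert, Finset.smul_finset_singleton, h1, h2]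
  have hst : ∀ y : Y2 X, Nat.card (MulAction.stabilizer G y) = 32 := by
    intro y
    have h1 := MulAction.index_stabilizer_of_transitive G y
    have h2 := (MulAction.stabilizer G y).card_mul_index
    rw [h1, hY, hG] at h2
    omega
  have hHc : Nat.card (H : Subgroup G) = 32 := by
    rw [Sylow.card_eq_multiplicity, hG, show (1440 : ℕ).factorization 2 = 5 by decide +kernel]; norm_num
  obtain ⟨y, hy⟩ := H.isPGroup'.nonempty_fixed_point_of_prime_not_dvd_card (Y2 X) (by rw [hY]; norm_num)
  have hHy : (H : Subgroup G) = MulAction.stabilizer G y := by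
    apply Subgroup.eq_of_le_of_card_ge
    · intro h hh
      exact hy ⟨h, hh⟩
    · rw [hst, hHc]
  have hHx : MulAut.conj x • (H : Subgroup G) = MulAction.stabilizer G (x • y) := by
    rw [hHy, MulAction.stabilizer_smul_eq_stabilizer_map_conj]
    rfl
  intro hbot
  rw [hHx] at hbot
  have hinj : Function.Injective (fun h : (H : Subgroup G) => ((h : G) • (x • y)).1) := by
    intro h k e
    have e1 : (h : G) • (x • y) = (k : G) • (x • y) := Subtype.ext e
    have e2 : ((k : G)⁻¹ * h) • (x • y) = x • y := by rw [mul_smul, e1, inv_smul_smul]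
    have e3 : (k : G)⁻¹ * h ∈ (H : Subgroup G) ⊓ MulAction.stabilizer G (x • y) :=
      ⟨(H : Subgroup G).mul_mem ((H : Subgroup G).inv_mem k.2) h.2, e2⟩
    rw [hbot, Subgroup.mem_bot] at e3
    exact Subtype.ext (inv_mul_eq_one.mp e3).symm
  have hD : ((Finset.powersetCard 2 (Finset.univ : Finset X)).filter (fun s => Disjoint s y.1)).card = 28 := by
    have : (Finset.powersetCard 2 (Finset.univ : Finset X)).filter (fun s => Disjoint s y.1) = Finset.powersetCard 2 (Finset.univ \ y.1) := by
      ext s
      rw [Finset.mem_filter, Finset.mem_powersetCard, Finset.mem_powersetCard]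
      constructor
      · rintro ⟨⟨-, h1⟩, h2⟩
        refine ⟨fun z hz => ?_, h1⟩
        rw [Finset.mem_sdiff]
        exact ⟨Finset.mem_univ _, fun h3 => (Finset.disjoint_left.mp h2) hz h3⟩
      · rintro ⟨h1, h2⟩
        refine ⟨⟨Finset.subset_univ _, h2⟩, ?_⟩
        rw [Finset.disjoint_left]
        intro z hz hz'
        exact (Finset.mem_sdiff.mp (h1 hz)).2 hz'
    rw [this, Finset.card_powersetCard, Finset.card_sdiff_of_subset (Finset.subset_univ _), Finset.card_univ, hX, y.2]
    decide
  have hP : (Finset.powersetCard 2 (Finset.univ : Finset X)).card = 45 := by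
    rw [Finset.card_powersetCard, Finset.card_univ, hX]; decide
  have hDc : ((Finset.powersetCard 2 (Finset.univ : Finset X)).filter (fun s => ¬ Disjoint s y.1)).card = 17 := by
    have := Finset.card_filter_add_card_filter_not (s := Finset.powersetCard 2 (Finset.univ : Finset X)) (fun s => Disjoint s y.1)
    omega
  have hdis : ∀ h : (H : Subgroup G), Disjoint ((h : G) • (x • y)).1 y.1 ↔ Disjoint (x • y).1 y.1 := by
    intro h
    have e1 : (h : G) • y = y := hy h
    have e2 : (h : G) • y.1 = y.1 := congrArg Subtype.val e1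
    nth_rw 1 [← e2]
    rw [Y2_smul]
    rw [Finset.disjoint_iff_inter_eq_empty, Finset.disjoint_iff_inter_eq_empty, ← Finset.smul_finset_inter, Finset.smul_finset_eq_empty]
  haveI := Fintype.ofFinite (H : Subgroup G)
  by_cases hd : Disjoint (x • y).1 y.1
  · have := Finset.card_le_card_of_injOn (s := Finset.univ) (t := (Finset.powersetCard 2 (Finset.univ : Finset X)).filter (fun s => Disjoint s y.1))
      (fun h : (H : Subgroup G) => ((h : G) • (x • y)).1) (by
        intro h _
        rw [Finset.mem_coe, Finset.mem_filter, Finset.mem_powersetCard]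
        exact ⟨⟨Finset.subset_univ _, ((h : G) • (x • y)).2⟩, (hdis h).mpr hd⟩) (hinj.injOn)
    rw [hD, Finset.card_univ, ← Nat.card_eq_fintype_card, hHc] at this
    omega
  · have := Finset.card_le_card_of_injOn (s := Finset.univ) (t := (Finset.powersetCard 2 (Finset.univ : Finset X)).filter (fun s => ¬ Disjoint s y.1))
      (fun h : (H : Subgroup G) => ((h : G) • (x • y)).1) (by
        intro h _
        rw [Finset.mem_coe, Finset.mem_filter, Finset.mem_powersetCard]
        exact ⟨⟨Finset.subset_univ _, ((h : G) • (x • y)).2⟩, fun h' => hd ((hdis h).mp h')⟩) (hinj.injOn)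
    rw [hDc, Finset.card_univ, ← Nat.card_eq_fintype_card, hHc] at this
    omega

/-- Let G be a finite group with a normal subgroup N of index 4 isomorphic to the alternating group of degree 6 and with trivial centralizer in G (so G is the full automorphism group of A₆). Then any two Sylow 2-subgroups of G have a non-trivial intersection: for a Sylow 2-subgroup H and every x ∈ G, H ∩ H^x ≠ 1. -/
theorem result {G : Type*} [Group G] [Finite G] (N : Subgroup G) [N.Normal]
    (e : N ≃* alternatingGroup (Fin 6)) (hidx : N.index = 4)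
    (hC : Subgroup.centralizer (N : Set G) = ⊥)
    (H : Sylow 2 G) (x : G) :
    (H : Subgroup G) ⊓ MulAut.conj x • (H : Subgroup G) ≠ ⊥ := by
  classical
  have h6 : Nat.card (alternatingGroup (Fin 6)) = 360 := by
    rw [Nat.card_eq_fintype_card]
    have := two_mul_card_alternatingGroup (α := Fin 6)
    rw [Fintype.card_perm, Fintype.card_fin] at this
    have h7 : Nat.factorial 6 = 720 := by decide
    omega
  have hN : Nat.card N = 360 := by rw [Nat.card_congr e.toEquiv, h6]
  haveI : IsSimpleGroup (alternatingGroup (Fin 6)) := alternatingGroup.isSimpleGroup (by simp)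
  haveI : IsSimpleGroup N := e.isSimpleGroup
  have hG : Nat.card G = 1440 := by
    have := N.card_mul_index
    rw [hN, hidx] at this
    omega
  have h2t : ∀ a b c d : Sylow 3 N, a ≠ b → c ≠ d → ∃ n : N, MulAut.conj n • a = c ∧ MulAut.conj n • b = d := by
    intro a b c d hab hcd
    obtain ⟨n, hn⟩ := MulAction.exists_smul_eq N a c
    have hb : n • b ≠ c := by
      intro h
      rw [← hn] at h
      exact hab (smul_left_cancel _ h).symm
    obtain ⟨m, hm, hm2⟩ := H21.O360.exists_two hN c hb (Ne.symm hcd)
    refine ⟨m * n, ?_, ?_⟩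
    · change (m * n) • a = c
      rw [mul_smul, hn]
      exact H21.O168.smul_syl_iff.mpr (Subgroup.le_normalizer hm)
    · change (m * n) • b = d
      rw [mul_smul, hm2]
  letI : MulAction G (Sylow 3 N) := MulAction.compHom (Sylow 3 N) (MulAut.conjNormal : G →* MulAut N)
  haveI := Fintype.ofFinite (Sylow 3 N)
  apply core (X := Sylow 3 N) (by rw [← Nat.card_eq_fintype_card]; exact H21.O360.n3 hN) hG
  intro a b c d hab hcd
  obtain ⟨n, h1, h2⟩ := h2t a b c d hab hcd
  refine ⟨(n : G), ?_, ?_⟩
  · change (MulAut.conjNormal (n : G) : MulAut N) • a = c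
    rw [MulAut.conjNormal_val]
    exact h1
  · change (MulAut.conjNormal (n : G) : MulAut N) • b = d
    rw [MulAut.conjNormal_val]
    exact h2

end Cfsg.Agent.S2488
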