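import Cfsg.Statements.S2505
import Mathlib

set_option autoImplicit false
open Cfsg

namespace Cfsg.Agent.S2505

def f : ℕ → ℕ
  | 0 => 1
  | 1 => 1
  | 2 => 2
  | 3 => 3
  | 4 => 4
  | n + 5 => 3 * f (n + 2)

theorem f_step (n : ℕ) : f (n + 5) = 3 * f (n + 2) := by rw [f]

theorem f1 : ∀ a : ℕ, f a ≤ f (a + 1)
  | 0 => by simp [f]
  | 1 => by simp [f]
  | 2 => by simp [f]
  | 3 => by simp [f]
  | 4 => by simp [f]
  | a + 5 => by
    have := f1 (a + 2)
    rw [f_step, show a + 5 + 1 = (a + 1) + 5 by ring, f_step, show a + 1 + 2 = a + 2 + 1 by ring]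
    omega

theorem f2 : ∀ a : ℕ, 2 * f a ≤ f (a + 2)
  | 0 => by simp [f]
  | 1 => by simp [f]
  | 2 => by simp [f]
  | 3 => by simp [f]
  | 4 => by simp [f]
  | a + 5 => by
    have := f2 (a + 2)
    rw [f_step, show a + 5 + 2 = (a + 2) + 5 by ring, f_step]
    omega

theorem f3 : ∀ a : ℕ, 3 * f a ≤ f (a + 3)
  | 0 => by simp [f]
  | 1 => by simp [f]
  | a + 2 => by
    rw [show a + 2 + 3 = a + 5 by ring, f_step]

theorem f4 : ∀ a : ℕ, 4 * f a ≤ f (a + 4)
  | 0 => by simp [f]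
  | 1 => by simp [f]
  | 2 => by simp [f]
  | 3 => by simp [f]
  | 4 => by simp [f]
  | a + 5 => by
    have := f4 (a + 2)
    rw [f_step, show a + 5 + 4 = (a + 4) + 5 by ring, f_step, show a + 4 + 2 = a + 2 + 4 by ring]
    omega

theorem fb : ∀ b a : ℕ, b * f a ≤ f (b + a)
  | 0, a => by simp
  | 1, a => by rw [one_mul, add_comm]; exact f1 a
  | 2, a => by rw [add_comm]; exact f2 a
  | 3, a => by rw [add_comm]; exact f3 a
  | 4, a => by rw [add_comm]; exact f4 a
  | b + 5, a => by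
    have h1 := fb (b + 2) a
    have h2 := f3 (b + 2 + a)
    have h3 : (b + 5) * f a ≤ 3 * ((b + 2) * f a) := by
      rw [← mul_assoc]
      exact Nat.mul_le_mul_right _ (by omega)
    rw [show b + 5 + a = b + 2 + a + 3 by ring]
    omega

theorem prod_le {ι : Type*} (s : Finset ι) (n : ι → ℕ) : ∏ i ∈ s, n i ≤ f (∑ i ∈ s, n i) := by
  classical
  induction s using Finset.induction_on with
  | empty => simp [f]
  | insert j s hj ih =>
    rw [Finset.prod_insert hj, Finset.sum_insert hj]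
    exact (Nat.mul_le_mul_left _ ih).trans (fb _ _)

theorem f_zero (k : ℕ) : f (3 * k) = 3 ^ k := by
  induction k using Nat.strong_induction_on with
  | _ k ih =>
    rcases k with _ | _ | k
    · simp [f]
    · simp [f]
    · rw [show 3 * (k + 1 + 1) = (3 * k + 1) + 5 by ring, f_step, show 3 * k + 1 + 2 = 3 * (k + 1) by ring, ih (k + 1) (by omega)]
      ring

theorem f_one (k : ℕ) : f (3 * (k + 1) + 1) = 4 * 3 ^ k := by
  induction k with
  | zero => simp [f]
  | succ k ih =>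
    rw [show 3 * (k + 1 + 1) + 1 = (3 * k + 2) + 5 by ring, f_step, show 3 * k + 2 + 2 = 3 * (k + 1) + 1 by ring, ih]
    ring

theorem f_two (k : ℕ) : f (3 * k + 2) = 2 * 3 ^ k := by
  induction k with
  | zero => simp [f]
  | succ k ih =>
    rw [show 3 * (k + 1) + 2 = 3 * k + 5 by ring, f_step, ih]
    ring

theorem upper {n : ℕ} (A : Subgroup (Equiv.Perm (Fin n))) (hA : IsMulCommutative A) : Nat.card A ≤ f n := by
  classical
  let Ω := MulAction.orbitRel.Quotient A (Fin n)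
  haveI : Fintype Ω := Fintype.ofFinite _
  let r : Ω → Fin n := fun ω => Quotient.out ω
  let g : A → (∀ ω : Ω, MulAction.orbit A (r ω)) := fun a ω => ⟨a • r ω, MulAction.mem_orbit _ _⟩
  have hg : Function.Injective g := by
    intro a b hab
    apply Subtype.ext
    apply Equiv.ext
    intro y
    have h1 : ∀ ω, a • r ω = b • r ω := fun ω => congrArg Subtype.val (congrFun hab ω)
    obtain ⟨c, hc⟩ : ∃ c : A, c • r (Quotient.mk'' y : Ω) = y := by
      have h2 : (Quotient.mk'' (r (Quotient.mk'' y : Ω)) : Ω) = Quotient.mk'' y := Quotient.out_eq' _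
      have h3 : (MulAction.orbitRel A (Fin n)) (r (Quotient.mk'' y : Ω)) y := Quotient.exact h2
      have h4 := (MulAction.orbitRel A (Fin n)).symm h3
      exact h4
    show a • y = b • y
    rw [← hc, ← mul_smul, ← mul_smul, hA.is_comm.comm a c, hA.is_comm.comm b c, mul_smul, mul_smul, h1]
  have h1 := Nat.card_le_card_of_injective g hg
  rw [Nat.card_pi] at h1
  have h2 : ∑ ω : Ω, Nat.card (MulAction.orbit A (r ω)) = n := by
    have h3 := Nat.card_congr (MulAction.selfEquivSigmaOrbits A (Fin n))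
    rw [Nat.card_sigma] at h3
    simp only [Nat.card_eq_fintype_card, Fintype.card_fin] at h3 ⊢
    exact h3.symm
  calc Nat.card A ≤ _ := h1
    _ ≤ f (∑ ω : Ω, Nat.card (MulAction.orbit A (r ω))) := prod_le _ _
    _ = f n := by rw [h2]

def act {ι : Type*} [DecidableEq ι] (B : ι → Type*) [∀ i, Group (B i)] : (∀ i, B i) →* Equiv.Perm (Σ i, B i) where
  toFun u := Equiv.sigmaCongrRight (fun i => Equiv.mulLeft (u i))
  map_one' := by
    apply Equiv.ext
    rintro ⟨i, x⟩
    show (⟨i, 1 * x⟩ : Σ i, B i) = ⟨i, x⟩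
    rw [one_mul]
  map_mul' u v := by
    apply Equiv.ext
    rintro ⟨i, x⟩
    show (⟨i, u i * v i * x⟩ : Σ i, B i) = ⟨i, u i * (v i * x)⟩
    rw [mul_assoc]

theorem act_inj {ι : Type*} [DecidableEq ι] (B : ι → Type*) [∀ i, Group (B i)] : Function.Injective (act B) := by
  intro u v h
  funext i
  have h1 : act B u ⟨i, 1⟩ = act B v ⟨i, 1⟩ := by rw [h]
  simp [act] at h1
  exact h1

theorem lower {t N : ℕ} (n : Fin t → ℕ) (hn : ∀ i, n i ≠ 0) (hs : ∑ i, n i = N) :
    ∃ A : Subgroup (Equiv.Perm (Fin N)), IsMulCommutative A ∧ Nat.card A = ∏ i, n i := by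
  classical
  haveI : ∀ i, NeZero (n i) := fun i => ⟨hn i⟩
  let B : Fin t → Type := fun i => Multiplicative (ZMod (n i))
  haveI : ∀ i, Finite (B i) := fun i => (inferInstance : Finite (ZMod (n i)))
  have hc : Nat.card (Σ i, B i) = N := by
    rw [Nat.card_sigma, ← hs]
    exact Finset.sum_congr rfl (fun i _ => Nat.card_zmod (n i))
  let e : (Σ i, B i) ≃ Fin N := Finite.equivFinOfCardEq hc
  let φ : (∀ i, B i) →* Equiv.Perm (Fin N) := e.permCongrHom.toMonoidHom.comp (act B)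
  have hφ : Function.Injective φ := e.permCongrHom.injective.comp (act_inj B)
  refine ⟨φ.range, ?_, ?_⟩
  · constructor
    constructor
    rintro ⟨_, u, rfl⟩ ⟨_, v, rfl⟩
    apply Subtype.ext
    show φ u * φ v = φ v * φ u
    rw [← map_mul, ← map_mul, mul_comm]
  · rw [← Nat.card_congr (MonoidHom.ofInjective hφ).toEquiv, Nat.card_pi]
    exact Finset.prod_congr rfl (fun i _ => by
      show Nat.card (ZMod (n i)) = n i
      exact Nat.card_zmod (n i))

/-- The largest order of an abelian subgroup of the symmetric group of degree n is 3^k when n = 3k, 4·3^(k−1) when n = 3k + 1, and 2·3^k when n = 3k + 2, for every k ≥ 1. -/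
theorem result (k : ℕ) (hk : 1 ≤ k) :
    IsGreatest {c : ℕ | ∃ A : Subgroup (Equiv.Perm (Fin (3 * k))), IsMulCommutative A ∧ Nat.card A = c} (3 ^ k) ∧
    IsGreatest {c : ℕ | ∃ A : Subgroup (Equiv.Perm (Fin (3 * k + 1))), IsMulCommutative A ∧ Nat.card A = c}
      (4 * 3 ^ (k - 1)) ∧
    IsGreatest {c : ℕ | ∃ A : Subgroup (Equiv.Perm (Fin (3 * k + 2))), IsMulCommutative A ∧ Nat.card A = c}
      (2 * 3 ^ k) := by
  refine ⟨⟨?_, ?_⟩, ⟨?_, ?_⟩, ⟨?_, ?_⟩⟩
  · obtain ⟨A, hA, hc⟩ := lower (t := k) (N := 3 * k) (fun _ => 3) (fun _ => by norm_num) (by simp; ring)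
    exact ⟨A, hA, by rw [hc]; simp⟩
  · rintro c ⟨A, hA, rfl⟩
    rw [← f_zero]
    exact upper A hA
  · obtain ⟨j, rfl⟩ : ∃ j, k = j + 1 := ⟨k - 1, by omega⟩
    obtain ⟨A, hA, hc⟩ := lower (t := j + 1) (N := 3 * (j + 1) + 1) (Fin.cons 4 (fun _ => 3)) (fun i => by refine Fin.cases ?_ (fun _ => ?_) i <;> simp) (by rw [Fin.sum_univ_succ]; simp; ring)
    exact ⟨A, hA, by rw [hc, Fin.prod_univ_succ]; simp⟩
  · rintro c ⟨A, hA, rfl⟩
    obtain ⟨j, rfl⟩ : ∃ j, k = j + 1 := ⟨k - 1, by omega⟩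
    rw [Nat.add_sub_cancel, ← f_one]
    exact upper A hA
  · obtain ⟨A, hA, hc⟩ := lower (t := k + 1) (N := 3 * k + 2) (Fin.cons 2 (fun _ => 3)) (fun i => by refine Fin.cases ?_ (fun _ => ?_) i <;> simp) (by rw [Fin.sum_univ_succ]; simp; ring)
    exact ⟨A, hA, by rw [hc, Fin.prod_univ_succ]; simp⟩
  · rintro c ⟨A, hA, rfl⟩
    rw [← f_two]
    exact upper A hA

end Cfsg.Agent.S2505
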