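import Cfsg.Statements.S2514
import Mathlib

set_option autoImplicit false
open Cfsg

namespace Cfsg.Agent.S2514

/-- the maximal element orders -/
def mu (G : Type*) [Group G] : Set ℕ :=
  {n : ℕ | n ∈ Set.range (orderOf : G → ℕ) ∧ ∀ m ∈ Set.range (orderOf : G → ℕ), n ∣ m → m = n}

theorem exists_mu {G : Type*} [Group G] [Finite G] (g : G) : ∃ m ∈ mu G, orderOf g ∣ m := by
  classical
  obtain ⟨h, hh, hmax⟩ := Set.exists_max_image {h : G | orderOf g ∣ orderOf h} (fun h => orderOf h) (Set.toFinite _) ⟨g, dvd_refl _⟩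
  refine ⟨orderOf h, ⟨⟨h, rfl⟩, ?_⟩, hh⟩
  rintro _ ⟨h', rfl⟩ hd
  have h1 := hmax h' (dvd_trans hh hd)
  have h2 := Nat.le_of_dvd (orderOf_pos h') hd
  exact le_antisymm h1 h2

theorem exists_order {G : Type*} [Group G] [Finite G] {m n : ℕ} (hm : m ∈ mu G) (hn : n ∣ m) : ∃ g : G, orderOf g = n := by
  obtain ⟨⟨g, rfl⟩, -⟩ := hm
  exact ⟨_, orderOf_pow_orderOf_div (orderOf_pos g).ne' hn⟩

theorem dvd_pi {ι G : Type*} [Group G] (x : ι → G) (d : ℕ) : orderOf x ∣ d ↔ ∀ i, orderOf (x i) ∣ d := by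
  rw [orderOf_dvd_iff_pow_eq_one, funext_iff]
  constructor
  · intro h i
    rw [orderOf_dvd_iff_pow_eq_one]
    exact h i
  · intro h i
    exact orderOf_dvd_iff_pow_eq_one.mp (h i)

theorem dvd_prod {G H : Type*} [Group G] [Group H] (x : G × H) (d : ℕ) : orderOf x ∣ d ↔ orderOf x.1 ∣ d ∧ orderOf x.2 ∣ d := by
  rw [orderOf_dvd_iff_pow_eq_one, orderOf_dvd_iff_pow_eq_one, orderOf_dvd_iff_pow_eq_one, Prod.ext_iff]
  rfl

theorem eq_of_dvd {m n : ℕ} (h : ∀ d, m ∣ d ↔ n ∣ d) : m = n :=
  Nat.dvd_antisymm ((h n).mpr (dvd_refl n)) ((h m).mp (dvd_refl m))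

theorem main {G H : Type*} [Group G] [Finite G] [Group H] [Finite H] (k : ℕ)
    (hsub : mu H ⊆ mu G) (hfew : (mu G \ mu H).ncard < k + 1) :
    Set.range (orderOf : (Fin (k + 1) → G) → ℕ) = Set.range (orderOf : (Fin k → G) × H → ℕ) := by
  classical
  apply Set.Subset.antisymm
  · rintro _ ⟨x, rfl⟩
    have h1 : ∀ i, ∃ m ∈ mu G, orderOf (x i) ∣ m := fun i => exists_mu (x i)
    choose m hm hd using h1
    by_cases hinj : Function.Injective m
    · obtain ⟨j, hj⟩ : ∃ j, m j ∈ mu H := by
        by_contra hcon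
        push Not at hcon
        have h2 : Set.range m ⊆ mu G \ mu H := by
          rintro _ ⟨i, rfl⟩
          exact ⟨hm i, hcon i⟩
        have hfin : (mu G \ mu H).Finite := (Set.toFinite (Set.range (orderOf : G → ℕ))).subset (fun n hn => hn.1.1)
        have h3 := Set.ncard_le_ncard h2 hfin
        rw [← Set.image_univ, Set.ncard_image_of_injective _ hinj, Set.ncard_univ, Nat.card_fin] at h3
        omega
      obtain ⟨h, hh⟩ := exists_order hj (hd j)
      refine ⟨(fun i => x (j.succAbove i), h), ?_⟩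
      apply eq_of_dvd
      intro d
      rw [dvd_prod, dvd_pi, dvd_pi, Fin.forall_iff_succAbove j, hh, and_comm]
    · rw [Function.Injective] at hinj
      push Not at hinj
      obtain ⟨i, j, hij, hne⟩ := hinj
      have hdj : orderOf (x j) ∣ m i := by rw [hij]; exact hd j
      obtain ⟨g, hg⟩ := exists_order (hm i) (Nat.lcm_dvd (hd i) hdj)
      refine ⟨(fun l => if j.succAbove l = i then g else x (j.succAbove l), 1), ?_⟩
      apply eq_of_dvd
      intro d
      rw [dvd_prod, dvd_pi, dvd_pi, Fin.forall_iff_succAbove j]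
      obtain ⟨l₀, hl₀⟩ := Fin.exists_succAbove_eq hne
      constructor
      · rintro ⟨h1, -⟩
        have h2 := h1 l₀
        simp only [hl₀, if_true] at h2
        rw [hg] at h2
        refine ⟨(Nat.dvd_lcm_right _ _).trans h2, ?_⟩
        intro l
        by_cases hl : j.succAbove l = i
        · rw [hl]; exact (Nat.dvd_lcm_left _ _).trans h2
        · have h3 := h1 l
          simp only [hl, if_false] at h3
          exact h3
      · rintro ⟨h1, h2⟩
        refine ⟨?_, by simp⟩
        intro l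
        by_cases hl : j.succAbove l = i
        · simp only [hl, if_true]
          rw [hg]
          apply Nat.lcm_dvd _ h1
          rw [← hl]; exact h2 l
        · simp only [hl, if_false]
          exact h2 l
  · rintro _ ⟨⟨x, h⟩, rfl⟩
    obtain ⟨m, hm, hd⟩ := exists_mu h
    obtain ⟨g, hg⟩ := exists_order (hsub hm) hd
    refine ⟨Fin.cons g x, ?_⟩
    apply eq_of_dvd
    intro d
    rw [dvd_prod, dvd_pi, dvd_pi, Fin.forall_fin_succ]
    simp only [Fin.cons_zero, Fin.cons_succ]
    rw [hg, and_comm]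

/-- For a finite group X write μ(X) for the set of element orders of X that are maximal under divisibility. Let G and H be finite groups and k ≥ 1 such that μ(H) ⊆ μ(G) and μ(G) has fewer than k elements outside μ(H). Then the direct product of k copies of G has the same set of element orders as the direct product of k − 1 copies of G with H. -/
theorem result {G H : Type*} [Group G] [Finite G] [Group H] [Finite H] (k : ℕ) (hk : 1 ≤ k)
    (hsub : {n : ℕ | n ∈ Set.range (orderOf : H → ℕ) ∧ ∀ m ∈ Set.range (orderOf : H → ℕ), n ∣ m → m = n} ⊆ {n : ℕ | n ∈ Set.range (orderOf : G → ℕ) ∧ ∀ m ∈ Set.range (orderOf : G → ℕ), n ∣ m → m = n})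
    (hfew : ({n : ℕ | n ∈ Set.range (orderOf : G → ℕ) ∧ ∀ m ∈ Set.range (orderOf : G → ℕ), n ∣ m → m = n} \ {n : ℕ | n ∈ Set.range (orderOf : H → ℕ) ∧ ∀ m ∈ Set.range (orderOf : H → ℕ), n ∣ m → m = n}).ncard < k) :
    Set.range (orderOf : (Fin k → G) → ℕ) = Set.range (orderOf : (Fin (k - 1) → G) × H → ℕ) := by
  obtain ⟨k, rfl⟩ := Nat.exists_eq_add_of_le' hk
  exact main k hsub hfew

end Cfsg.Agent.S2514
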