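import Cfsg.Statements.S2515
import Cfsg.Agent.H15_TW1

set_option autoImplicit false
open Cfsg

namespace Cfsg.Agent.S2515

open Cfsg.Agent.H15.TW in
theorem mem_set {α : ℕ} (hα : 3 ≤ α) (hodd : Odd α) {R : Set ℕ} (h1 : ∀ n ∈ R, n ∣ 6 ∨ n ∣ 9 ∨ n ∣ 3 ^ α - 1 ∨ n ∣ (3 ^ α + 1) / 2)
    (h6 : 6 ∈ R) (h9 : 9 ∈ R) (hs : 3 ^ α - 1 ∈ R) (ha : (3 ^ α + 1) / 2 ∈ R) :
    {n : ℕ | n ∈ R ∧ ∀ m ∈ R, n ∣ m → m = n} = ({6, 9, 3 ^ α - 1, (3 ^ α + 1) / 2} : Set ℕ) := by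
  obtain ⟨s, hs'⟩ : ∃ s, α = 2 * s + 3 := by
    obtain ⟨t, ht⟩ := hodd
    exact ⟨t - 1, by omega⟩
  obtain ⟨N, hN⟩ : ∃ N, 3 ^ α = 8 * (3 * N) + 27 := by
    rw [hs']
    clear hs' ha hs h1 hα hodd
    induction s with
    | zero => exact ⟨0, by norm_num⟩
    | succ s ih =>
      obtain ⟨N, hN⟩ := ih
      refine ⟨9 * N + 9, ?_⟩
      rw [show 2 * (s + 1) + 3 = (2 * s + 3) + 2 by ring, pow_add, hN]
      ring
  have e1 : 3 ^ α - 1 = 24 * N + 26 := by omega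
  have e2 : (3 ^ α + 1) / 2 = 12 * N + 14 := by omega
  rw [e1] at hs h1 ⊢
  rw [e2] at ha h1 ⊢
  -- pairwise non-divisibility
  have nd : ∀ a b : ℕ, (a = 6 ∨ a = 9 ∨ a = 24 * N + 26 ∨ a = 12 * N + 14) → (b = 6 ∨ b = 9 ∨ b = 24 * N + 26 ∨ b = 12 * N + 14) → a ∣ b → b = a := by
    intro a b hA hB hab
    have hle := Nat.le_of_dvd (by omega) hab
    rcases hA with rfl | rfl | rfl | rfl <;> rcases hB with rfl | rfl | rfl | rfl
    · rfl
    · omega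
    · omega
    · omega
    · omega
    · rfl
    · omega
    · omega
    · omega
    · omega
    · rfl
    · omega
    · omega
    · omega
    · exfalso
      have h3 : 24 * N + 26 = (12 * N + 14) * 2 - 2 := by omega
      have h4 : 12 * N + 14 ∣ 2 := by
        have h5 : 2 = (12 * N + 14) * 2 - (24 * N + 26) := by omega
        rw [h5]
        exact Nat.dvd_sub (Dvd.intro _ rfl) hab
      have := Nat.le_of_dvd (by norm_num) h4
      omega
    · rfl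
  have hR : ∀ b : ℕ, (b = 6 ∨ b = 9 ∨ b = 24 * N + 26 ∨ b = 12 * N + 14) → b ∈ R := by
    rintro b (rfl | rfl | rfl | rfl)
    · exact h6
    · exact h9
    · exact hs
    · exact ha
  have h1' : ∀ n ∈ R, ∃ b, (b = 6 ∨ b = 9 ∨ b = 24 * N + 26 ∨ b = 12 * N + 14) ∧ n ∣ b := by
    intro n hn
    rcases h1 n hn with h | h | h | h
    · exact ⟨_, Or.inl rfl, h⟩
    · exact ⟨_, Or.inr (Or.inl rfl), h⟩
    · exact ⟨_, Or.inr (Or.inr (Or.inl rfl)), h⟩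
    · exact ⟨_, Or.inr (Or.inr (Or.inr rfl)), h⟩
  ext n
  simp only [Set.mem_setOf_eq, Set.mem_insert_iff, Set.mem_singleton_iff]
  constructor
  · rintro ⟨hn, hmax⟩
    obtain ⟨b, hb, hnb⟩ := h1' n hn
    rw [← hmax b (hR b hb) hnb]
    exact hb
  · intro hn
    refine ⟨hR n hn, fun m hm hnm => ?_⟩
    obtain ⟨b, hb, hmb⟩ := h1' m hm
    have h5 := nd n b hn hb (hnm.trans hmb)
    rw [h5] at hmb
    exact Nat.dvd_antisymm hmb hnm


/-- Let q = 3^α with α ≥ 3 odd. There is a finite group H having a non-trivial normal 3-subgroup and whose element orders maximal under divisibility are exactly 6, 9, q − 1 and (q + 1)/2. -/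
theorem result (α : ℕ) (hα : 3 ≤ α) (hodd : Odd α) :
    ∃ (H : Type) (_ : Group H) (_ : Fintype H), (∃ P : Subgroup H, P.Normal ∧ P ≠ ⊥ ∧ IsPGroup 3 ↥P) ∧
      {n : ℕ | n ∈ Set.range (orderOf : H → ℕ) ∧ ∀ m ∈ Set.range (orderOf : H → ℕ), n ∣ m → m = n} = ({6, 9, 3 ^ α - 1, (3 ^ α + 1) / 2} : Set ℕ) := by
  classical
  haveI : Fact (Nat.Prime 3) := ⟨Nat.prime_three⟩
  let F := GaloisField 3 α
  letI : Fintype F := Fintype.ofFinite F
  have hα0 : α ≠ 0 := by omega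
  have hF : Fintype.card F = 3 ^ α := by
    rw [← Nat.card_eq_fintype_card]
    exact GaloisField.card 3 α hα0
  have hq : 3 ^ α % 8 = 3 := by
    obtain ⟨t, rfl⟩ := hodd
    rw [pow_add, pow_mul, Nat.mul_mod, Nat.pow_mod]
    norm_num
  let H0 : Subgroup (Equiv.Perm (Cfsg.Agent.H15.TW.VV F)) := Cfsg.Agent.H15.TW.HH F
  refine ⟨↥H0, inferInstance, Fintype.ofFinite _, ?_, ?_⟩
  · let P : Subgroup ↥H0 :=
      { carrier := {f | ∃ v, ∀ X, (f : Equiv.Perm (Cfsg.Agent.H15.TW.VV F)) X = X + v}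
        one_mem' := ⟨0, fun X => by simp⟩
        mul_mem' := by
          rintro f g ⟨v, hv⟩ ⟨w, hw⟩
          refine ⟨w + v, fun X => ?_⟩
          rw [Subgroup.coe_mul, Equiv.Perm.mul_apply, hw, hv, add_assoc]
        inv_mem' := by
          rintro f ⟨v, hv⟩
          refine ⟨-v, fun X => ?_⟩
          rw [Subgroup.coe_inv, Equiv.Perm.inv_eq_iff_eq, hv, neg_add_cancel_right] }
    refine ⟨P, ⟨?_⟩, ?_, ?_⟩
    · rintro f ⟨v, hv⟩ g
      obtain ⟨a, w, hg⟩ := g.2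
      refine ⟨Cfsg.Agent.H15.TW.L F a v, fun X => ?_⟩
      have h1 : ∀ Y, (g : Equiv.Perm (Cfsg.Agent.H15.TW.VV F)) Y = Cfsg.Agent.H15.TW.L F a Y + w := fun Y => by rw [hg]; rfl
      have h2 : ((g * f * g⁻¹ : ↥H0) : Equiv.Perm (Cfsg.Agent.H15.TW.VV F)) X = (g : Equiv.Perm (Cfsg.Agent.H15.TW.VV F)) ((f : Equiv.Perm (Cfsg.Agent.H15.TW.VV F)) ((g : Equiv.Perm (Cfsg.Agent.H15.TW.VV F))⁻¹ X)) := rfl
      rw [h2, hv, h1, map_add, add_right_comm, ← h1]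
      congr 1
      exact Equiv.apply_symm_apply _ X
    · intro h
      have h1 : (⟨Cfsg.Agent.H15.TW.mk 1 1, ⟨1, 1, rfl⟩⟩ : ↥H0) ∈ P := by
        refine ⟨1, fun X => ?_⟩
        show Cfsg.Agent.H15.TW.mk 1 1 X = X + 1
        rw [Cfsg.Agent.H15.TW.mk_apply, map_one]
        rfl
      rw [h, Subgroup.mem_bot] at h1
      have h2 : Cfsg.Agent.H15.TW.mk (F := F) 1 1 = 1 := congrArg Subtype.val h1
      have h3 := (Cfsg.Agent.H15.TW.mk_eq_one.1 h2).2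
      exact one_ne_zero h3
    · rintro ⟨f, v, hv⟩
      refine ⟨1, ?_⟩
      apply Subtype.ext
      apply Subtype.ext
      rw [pow_one]
      have h1 : (f : Equiv.Perm (Cfsg.Agent.H15.TW.VV F)) = Cfsg.Agent.H15.TW.mk 1 v := by
        ext1 X
        rw [hv, Cfsg.Agent.H15.TW.mk_apply, map_one]
        rfl
      show (f : Equiv.Perm (Cfsg.Agent.H15.TW.VV F)) ^ 3 = 1
      rw [h1]
      exact Cfsg.Agent.H15.TW.trans_cube v (map_one _)
  · have hord : ∀ f : ↥H0, orderOf f = orderOf (f : Equiv.Perm (Cfsg.Agent.H15.TW.VV F)) := fun f => (Subgroup.orderOf_coe f).symm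
    have hex : ∀ n, (∃ a v, orderOf (Cfsg.Agent.H15.TW.mk (F := F) a v) = n) → n ∈ Set.range (orderOf : ↥H0 → ℕ) := by
      rintro n ⟨a, v, h⟩
      exact ⟨⟨Cfsg.Agent.H15.TW.mk a v, ⟨a, v, rfl⟩⟩, by rw [hord]; exact h⟩
    apply mem_set hα hodd
    · rintro n ⟨f, rfl⟩
      rw [hord]
      obtain ⟨a, v, hf⟩ := f.2
      rw [hf]
      rcases Cfsg.Agent.H15.TW.order_dvd hF hq a v with h | h | h | h
      · exact Or.inl (orderOf_dvd_of_pow_eq_one h)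
      · exact Or.inr (Or.inl (orderOf_dvd_of_pow_eq_one h))
      · exact Or.inr (Or.inr (Or.inl (orderOf_dvd_of_pow_eq_one h)))
      · exact Or.inr (Or.inr (Or.inr (orderOf_dvd_of_pow_eq_one h)))
    · exact hex _ Cfsg.Agent.H15.TW.exists_six
    · exact hex _ Cfsg.Agent.H15.TW.exists_nine
    · exact hex _ (Cfsg.Agent.H15.TW.exists_sub hF hq)
    · exact hex _ (Cfsg.Agent.H15.TW.exists_add hF hq)

end Cfsg.Agent.S2515
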