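import Cfsg.Statements.S2516
import Mathlib

set_option autoImplicit false
open Cfsg

namespace Cfsg.Agent.S2516

section
variable {F : Type*} [Field F] {V : Type*} [AddCommGroup V] [Module F V] {G : Type*} [Group G] (ρ : Representation F G V)

/-- the action -/
abbrev act : G →* MulAut (Multiplicative V) :=
  (MulAutMultiplicative V).symm.toMonoidHom.comp ((DistribMulAction.toAddAut ((V →ₗ[F] V)ˣ) V).comp ρ.asGroupHom)

theorem act_apply (g : G) (v : V) : act ρ g (Multiplicative.ofAdd v) = Multiplicative.ofAdd (ρ g v) := rfl

theorem pow_right (x : Multiplicative V ⋊[act ρ] G) (n : ℕ) : (x ^ n).right = x.right ^ n := by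
  induction n with
  | zero => rw [pow_zero, pow_zero]; rfl
  | succ n ih => rw [pow_succ, SemidirectProduct.mul_right, ih, pow_succ]

theorem pow_left (x : Multiplicative V ⋊[act ρ] G) (n : ℕ) :
    (x ^ n).left = Multiplicative.ofAdd ((∑ i ∈ Finset.range n, (ρ x.right) ^ i) (Multiplicative.toAdd x.left)) := by
  induction n with
  | zero => simp
  | succ n ih =>
    rw [pow_succ, SemidirectProduct.mul_left, ih, pow_right, Finset.sum_range_succ, LinearMap.add_apply, ofAdd_add]
    congr 1
    rw [← map_pow]
    rfl
end

/-- Let F be a field of characteristic p > 0, V a non-zero finite-dimensional F-vector space, G a finite group and ρ a representation of G on V; form the semidirect product V ⋊ G. For g ∈ G of order k, the coset Vg contains an element of order pk if and only if the minimal polynomial of ρ(g) does not divide 1 + X + ⋯ + X^(k−1). -/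
theorem result {F : Type*} [Field F] (p : ℕ) [Fact p.Prime] [CharP F p] {V : Type*} [AddCommGroup V] [Module F V] [FiniteDimensional F V] [Nontrivial V]
    {G : Type*} [Group G] [Finite G] (ρ : Representation F G V) (g : G) :
    (∃ x : Multiplicative V ⋊[(MulAutMultiplicative V).symm.toMonoidHom.comp
        ((DistribMulAction.toAddAut ((V →ₗ[F] V)ˣ) V).comp ρ.asGroupHom)] G,
        x.right = g ∧ orderOf x = p * orderOf g) ↔
      ¬ (minpoly F (ρ g) ∣ ∑ i ∈ Finset.range (orderOf g), (Polynomial.X : Polynomial F) ^ i) := by
  classical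
  have hp : p.Prime := Fact.out
  set k := orderOf g with hk
  have hk0 : 0 < k := orderOf_pos g
  have hmin : (minpoly F (ρ g) ∣ ∑ i ∈ Finset.range k, (Polynomial.X : Polynomial F) ^ i) ↔
      ∑ i ∈ Finset.range k, (ρ g) ^ i = 0 := by
    rw [minpoly.dvd_iff, map_sum]
    simp
  rw [hmin]
  have key : ∀ x : Multiplicative V ⋊[act ρ] G, x.right = g →
      orderOf x = k * orderOf (x ^ k) := by
    intro x hx
    have h1 : k ∣ orderOf x := by
      rw [hk, ← hx]
      exact orderOf_dvd_of_pow_eq_one (by rw [← pow_right, pow_orderOf_eq_one]; rfl)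
    have hxk : (x ^ k).right = 1 := by rw [pow_right, hx, hk, pow_orderOf_eq_one]
    by_cases h0 : orderOf x = 0
    · exfalso
      -- `x ^ k` has order dividing p
      have h2 : (x ^ k) ^ p = 1 := by
        have h3 : ∀ y : Multiplicative V ⋊[act ρ] G, y.right = 1 → y ^ p = 1 := by
          intro y hy
          apply SemidirectProduct.ext
          · rw [pow_left, hy, map_one]
            simp only [one_pow, Finset.sum_const, Finset.card_range]
            rw [LinearMap.smul_apply, Module.End.one_apply, ← Nat.cast_smul_eq_nsmul F, CharP.cast_eq_zero, zero_smul]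
            rfl
          · rw [pow_right, hy, one_pow]; rfl
        exact h3 _ hxk
      rw [← pow_mul, ← orderOf_dvd_iff_pow_eq_one, h0] at h2
      have := Nat.eq_zero_of_zero_dvd h2
      rcases Nat.mul_eq_zero.mp this with h4 | h4
      · omega
      · exact hp.ne_zero h4
    · rw [orderOf_pow_of_dvd hk0.ne' h1, Nat.mul_div_cancel' h1]
  have hpk : ∀ x : Multiplicative V ⋊[act ρ] G, x.right = g → (x ^ k) ^ p = 1 := by
    intro x hx
    have hxk : (x ^ k).right = 1 := by rw [pow_right, hx, hk, pow_orderOf_eq_one]
    have h3 : ∀ y : Multiplicative V ⋊[act ρ] G, y.right = 1 → y ^ p = 1 := by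
      intro y hy
      apply SemidirectProduct.ext
      · rw [pow_left, hy, map_one]
        simp only [one_pow, Finset.sum_const, Finset.card_range]
        rw [LinearMap.smul_apply, Module.End.one_apply, ← Nat.cast_smul_eq_nsmul F, CharP.cast_eq_zero, zero_smul]
        rfl
      · rw [pow_right, hy, one_pow]; rfl
    exact h3 _ hxk
  constructor
  · rintro ⟨x, hx, ho⟩ hzero
    have h1 : x ^ k = 1 := by
      apply SemidirectProduct.ext
      · rw [pow_left, hx, hzero]; rfl
      · rw [pow_right, hx, hk, pow_orderOf_eq_one]; rfl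
    have h2 := key x hx
    rw [h1, orderOf_one, mul_one] at h2
    have h3 : p * k = k := ho.symm.trans h2
    have h4 : p * k = 1 * k := by rw [h3, one_mul]
    exact hp.one_lt.ne' (Nat.eq_of_mul_eq_mul_right hk0 h4)
  · intro hne
    obtain ⟨v, hv⟩ : ∃ v, (∑ i ∈ Finset.range k, (ρ g) ^ i) v ≠ 0 := by
      by_contra hcon
      push Not at hcon
      exact hne (LinearMap.ext hcon)
    refine ⟨⟨Multiplicative.ofAdd v, g⟩, rfl, ?_⟩
    have h1 := key ⟨Multiplicative.ofAdd v, g⟩ rfl
    have h2 : orderOf ((⟨Multiplicative.ofAdd v, g⟩ : Multiplicative V ⋊[act ρ] G) ^ k) = p := by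
      apply orderOf_eq_prime
      · exact hpk _ rfl
      · intro h3
        have h4 := congrArg SemidirectProduct.left h3
        rw [pow_left] at h4
        exact hv h4
    rw [h2, mul_comm] at h1
    exact h1

end Cfsg.Agent.S2516
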