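import Cfsg.Statements.S4279
import Cfsg.Agent.H6_InvG2c

set_option autoImplicit false
open Cfsg

namespace Cfsg.Agent.S4279

/-- In the Chevalley group G of type G₂ over a finite field F of odd order q, the centralizer of an involution t has order q²(q² − 1)² and contains two elementwise commuting subgroups, each isomorphic to SL(2, F), which meet exactly in the subgroup generated by t and whose join has index 2 in the centralizer. -/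
theorem result {F : Type*} [Field F] [Fintype F] (hF : Odd (Fintype.card F)) (t : ↥(Cfsg.Lie.chevG2.group F)) (ht : orderOf t = 2) : Nat.card (Subgroup.centralizer ({t} : Set ↥(Cfsg.Lie.chevG2.group F))) = Fintype.card F ^ 2 * (Fintype.card F ^ 2 - 1) ^ 2 ∧ ∃ L₁ L₂ : Subgroup ↥(Cfsg.Lie.chevG2.group F), Nonempty (L₁ ≃* Matrix.SpecialLinearGroup (Fin 2) F) ∧ Nonempty (L₂ ≃* Matrix.SpecialLinearGroup (Fin 2) F) ∧ (∀ x ∈ L₁, ∀ y ∈ L₂, x * y = y * x) ∧ L₁ ⊓ L₂ = Subgroup.zpowers t ∧ L₁ ⊔ L₂ ≤ Subgroup.centralizer ({t} : Set ↥(Cfsg.Lie.chevG2.group F)) ∧ (L₁ ⊔ L₂).relIndex (Subgroup.centralizer ({t} : Set ↥(Cfsg.Lie.chevG2.group F))) = 2 := by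
  have hm : Cfsg.Agent.H6.Chev.modelG2.hHom (Cfsg.Agent.H6.Chev.sgn F 1) ∈ Cfsg.Lie.chevG2.group F :=
    Cfsg.Agent.H6.Chev.modelG2.B_le_G (Cfsg.Agent.H6.Chev.Model.H_le_B (Cfsg.Agent.H6.Chev.modelG2.hHom_mem _))
  have h2 := Cfsg.Agent.H6.Chev.two_ne_zero_of_odd hF
  obtain ⟨s, hs⟩ : ∃ s : ↥(Cfsg.Lie.chevG2.group F), (s : GL Cfsg.Lie.chevG2.Idx F) =
      Cfsg.Agent.H6.Chev.modelG2.hHom (Cfsg.Agent.H6.Chev.sgn F 1) := ⟨⟨_, hm⟩, rfl⟩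
  have h1 := Cfsg.Agent.H6.Chev.modelG2.isConj_cov1 hF Cfsg.Agent.H6.Chev.baseG2 Cfsg.Agent.H6.Chev.hinjG2
    Cfsg.Agent.H6.Chev.hcarG2 Cfsg.Agent.H6.Chev.ckclsG20 Cfsg.Agent.H6.Chev.ckcovG2 s t hs ht
  have hcs := Cfsg.Agent.H6.Chev.centG20 hF s hs
  have hct : Nat.card (Subgroup.centralizer ({t} : Set ↥(Cfsg.Lie.chevG2.group F))) =
      Fintype.card F ^ 2 * (Fintype.card F ^ 2 - 1) ^ 2 := by
    rw [Cfsg.Agent.H6.Chev.card_centralizer_of_isConj h1, hcs]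
  obtain ⟨ψ₁, ψ₂, i1, i2, hcom, e1, e2⟩ := Cfsg.Agent.H6.Chev.exG2 h2 s hs
  obtain ⟨g, hg⟩ := isConj_iff.1 h1.symm
  refine ⟨hct, ?_⟩
  refine Cfsg.Agent.H6.Chev.abs_G2 h2 ((MulAut.conj g).toMonoidHom.comp ψ₁) ((MulAut.conj g).toMonoidHom.comp ψ₂) ?_ ?_ ?_ t ?_ ?_ hct
  · exact (MulAut.conj g).injective.comp i1
  · exact (MulAut.conj g).injective.comp i2
  · intro x y
    show (MulAut.conj g) (ψ₁ x) * (MulAut.conj g) (ψ₂ y) = (MulAut.conj g) (ψ₂ y) * (MulAut.conj g) (ψ₁ x)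
    rw [← map_mul, hcom, map_mul]
  · show (MulAut.conj g) (ψ₁ (-1)) = t
    rw [e1, MulAut.conj_apply, hg]
  · show (MulAut.conj g) (ψ₂ (-1)) = t
    rw [e2, MulAut.conj_apply, hg]

end Cfsg.Agent.S4279
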