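import Cfsg.Statements.S2518
import Cfsg.Agent.H15_G3c
import Cfsg.Agent.S0243
import Cfsg.Agent.S4279
import Cfsg.Agent.H21_SpecPSL2

set_option autoImplicit false
open Cfsg

namespace Cfsg.Agent.S2518

theorem two_primes {r s : ℕ} (hr : r.Prime) (hs : s.Prime) (hrs : r ≠ s) (h : r * s ∣ 6) : (r = 2 ∧ s = 3) ∨ (r = 3 ∧ s = 2) := by
  have h1 : r ∣ 6 := (Dvd.intro _ rfl).trans h
  have h2 : s ∣ 6 := (Dvd.intro_left _ rfl).trans h
  have e : ∀ t : ℕ, t.Prime → t ∣ 6 → t = 2 ∨ t = 3 := by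
    intro t ht h
    have : t ∣ 2 * 3 := h
    rcases ht.dvd_mul.1 this with h | h
    · exact Or.inl ((Nat.prime_dvd_prime_iff_eq ht Nat.prime_two).1 h)
    · exact Or.inr ((Nat.prime_dvd_prime_iff_eq ht Nat.prime_three).1 h)
  rcases e r hr h1 with rfl | rfl <;> rcases e s hs h2 with rfl | rfl
  · exact absurd rfl hrs
  · exact Or.inl ⟨rfl, rfl⟩
  · exact Or.inr ⟨rfl, rfl⟩
  · exact absurd rfl hrs

theorem pr {r : ℕ} (hr : r.Prime) {a b : ℕ} (h : r ∣ 2 ^ (a + 1) * (3 ^ (b + 1) * (7 * 13))) : r = 2 ∨ r = 3 ∨ r = 7 ∨ r = 13 := by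
  rw [hr.dvd_mul, hr.dvd_mul, hr.dvd_mul] at h
  rcases h with h | h | h | h
  · exact Or.inl ((Nat.prime_dvd_prime_iff_eq hr Nat.prime_two).1 (hr.dvd_of_dvd_pow h))
  · exact Or.inr (Or.inl ((Nat.prime_dvd_prime_iff_eq hr Nat.prime_three).1 (hr.dvd_of_dvd_pow h)))
  · exact Or.inr (Or.inr (Or.inl ((Nat.prime_dvd_prime_iff_eq hr (by norm_num)).1 h)))
  · exact Or.inr (Or.inr (Or.inr ((Nat.prime_dvd_prime_iff_eq hr (by norm_num)).1 h)))

theorem pr' {r : ℕ} {a b : ℕ} (h : r = 2 ∨ r = 3 ∨ r = 7 ∨ r = 13) : r ∣ 2 ^ (a + 1) * (3 ^ (b + 1) * (7 * 13)) := by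
  rcases h with rfl | rfl | rfl | rfl
  · exact Dvd.dvd.mul_right (dvd_pow_self 2 (by omega)) _
  · exact Dvd.dvd.mul_left (Dvd.dvd.mul_right (dvd_pow_self 3 (by omega)) _) _
  · exact Dvd.dvd.mul_left (Dvd.dvd.mul_left (Dvd.intro _ rfl) _) _
  · exact Dvd.dvd.mul_left (Dvd.dvd.mul_left (Dvd.intro_left _ rfl) _) _

/-- the prime graph of `G₂(3)`. -/
theorem graphG {F : Type*} [Field F] [Fintype F] (hF : Fintype.card F = 3) {r s : ℕ} (hr : r.Prime) (hs : s.Prime) (hrs : r ≠ s) :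
    (∃ x : ↥(Cfsg.Lie.chevG2.group F), orderOf x = r * s) ↔ ((r = 2 ∧ s = 3) ∨ (r = 3 ∧ s = 2)) := by
  have hcard : Nat.card ↥(Cfsg.Lie.chevG2.group F) = 4245696 := by rw [Cfsg.Agent.S1059.result (F := F) hF]; norm_num
  haveI : Finite ↥(Cfsg.Lie.chevG2.group F) := Nat.finite_of_card_ne_zero (by rw [hcard]; norm_num)
  have hodd : Odd (Fintype.card F) := by rw [hF]; decide
  have h576 : ∀ t : ↥(Cfsg.Lie.chevG2.group F), orderOf t = 2 → Nat.card (Subgroup.centralizer ({t} : Set ↥(Cfsg.Lie.chevG2.group F))) = 576 := by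
    intro t ht
    rw [(Cfsg.Agent.S4279.result hodd t ht).1, hF]; norm_num
  have hinv : ∀ l : ℕ, l.Prime → l ≠ 2 → ¬ l ∣ 576 → ¬ ∃ x : ↥(Cfsg.Lie.chevG2.group F), orderOf x = 2 * l := by
    rintro l hl hl2 hn ⟨y, hy⟩
    have h1 : orderOf (y ^ l) = 2 := by
      rw [orderOf_pow_of_dvd hl.ne_zero (by rw [hy]; exact Dvd.intro_left _ rfl), hy, Nat.mul_div_cancel _ hl.pos]
    have h2 : orderOf (y ^ 2) = l := by
      rw [orderOf_pow_of_dvd two_ne_zero (by rw [hy]; exact Dvd.intro _ rfl), hy, Nat.mul_div_cancel_left _ (by norm_num)]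
    have h3 : y ^ 2 ∈ Subgroup.centralizer ({y ^ l} : Set ↥(Cfsg.Lie.chevG2.group F)) := by
      rw [Subgroup.mem_centralizer_singleton_iff, ← pow_add, ← pow_add, add_comm]
    have h4 := Subgroup.orderOf_dvd_natCard _ h3
    rw [h576 _ h1, h2] at h4
    exact hn h4
  have h14 := hinv 7 (by norm_num) (by norm_num) (by norm_num)
  have h26 := hinv 13 (by norm_num) (by norm_num) (by norm_num)
  obtain ⟨x7, o7, c7⟩ := Cfsg.Agent.H15.G3.ex7 (F := F) hF
  obtain ⟨x13, o13, c13⟩ := Cfsg.Agent.H15.G3.ex13 (F := F) hF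
  have h21 : ¬ ∃ y : ↥(Cfsg.Lie.chevG2.group F), orderOf y = 7 * 3 := Cfsg.Agent.H15.G3.no_mul (m := 606528) (by norm_num) (by norm_num) (by norm_num)
    (by rw [hcard]) (by norm_num) o7 c7 (by norm_num)
  have h39 : ¬ ∃ y : ↥(Cfsg.Lie.chevG2.group F), orderOf y = 13 * 3 := Cfsg.Agent.H15.G3.no_mul (m := 326592) (by norm_num) (by norm_num) (by norm_num)
    (by rw [hcard]) (by norm_num) o13 c13 (by norm_num)
  have h91 : ¬ ∃ y : ↥(Cfsg.Lie.chevG2.group F), orderOf y = 13 * 7 := Cfsg.Agent.H15.G3.no_mul (m := 326592) (by norm_num) (by norm_num) (by norm_num)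
    (by rw [hcard]) (by norm_num) o13 c13 (by norm_num)
  have h6 : ∃ y : ↥(Cfsg.Lie.chevG2.group F), orderOf y = 6 := by
    haveI : Fact (Nat.Prime 2) := ⟨Nat.prime_two⟩
    haveI : Fact (Nat.Prime 3) := ⟨Nat.prime_three⟩
    obtain ⟨t, ht⟩ := exists_prime_orderOf_dvd_card' (G := ↥(Cfsg.Lie.chevG2.group F)) 2 (by rw [hcard]; norm_num)
    obtain ⟨u, hu⟩ := exists_prime_orderOf_dvd_card' (G := Subgroup.centralizer ({t} : Set ↥(Cfsg.Lie.chevG2.group F))) 3 (by rw [h576 t ht]; norm_num)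
    have hc : Commute t u.1 := (Subgroup.mem_centralizer_singleton_iff.1 u.2).symm
    have hu' : orderOf u.1 = 3 := by rw [← hu]; exact Subgroup.orderOf_coe u
    exact ⟨t * u.1, by rw [hc.orderOf_mul_eq_mul_orderOf_of_coprime (by rw [ht, hu']; norm_num), ht, hu']⟩
  constructor
  · rintro ⟨x, hx⟩
    have hd : r * s ∣ 2 ^ (5 + 1) * (3 ^ (5 + 1) * (7 * 13)) := by
      rw [← hx, show 2 ^ (5 + 1) * (3 ^ (5 + 1) * (7 * 13)) = Nat.card ↥(Cfsg.Lie.chevG2.group F) by rw [hcard]; norm_num]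
      exact orderOf_dvd_natCard x
    have e1 := pr hr ((Dvd.intro _ rfl).trans hd)
    have e2 := pr hs ((Dvd.intro_left _ rfl).trans hd)
    rcases e1 with rfl | rfl | rfl | rfl <;> rcases e2 with rfl | rfl | rfl | rfl
    · exact absurd rfl hrs
    · exact Or.inl ⟨rfl, rfl⟩
    · exact absurd ⟨x, hx⟩ h14
    · exact absurd ⟨x, hx⟩ h26
    · exact Or.inr ⟨rfl, rfl⟩
    · exact absurd rfl hrs
    · exact absurd ⟨x, hx⟩ h21
    · exact absurd ⟨x, hx⟩ h39
    · exact absurd ⟨x, hx⟩ h14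
    · exact absurd ⟨x, hx⟩ h21
    · exact absurd rfl hrs
    · exact absurd ⟨x, hx⟩ h91
    · exact absurd ⟨x, hx⟩ h26
    · exact absurd ⟨x, hx⟩ h39
    · exact absurd ⟨x, hx⟩ h91
    · exact absurd rfl hrs
  · rintro (⟨rfl, rfl⟩ | ⟨rfl, rfl⟩) <;> exact h6


/-- Let F₃ be the field with 3 elements and F₁₃ the field with 13 elements. The Chevalley group G₂(F₃) and PSL(2, F₁₃) have the same prime graph: the same prime divisors of their orders, and for distinct primes r, s an element of order rs in one iff in the other. -/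
theorem result {F : Type*} [Field F] [Fintype F] (hF : Fintype.card F = 3) {E : Type*} [Field E] [Fintype E] (hE : Fintype.card E = 13) :
    ((∀ r : ℕ, r.Prime → (r ∣ Nat.card ↥(Cfsg.Lie.chevG2.group F) ↔ r ∣ Nat.card (Matrix.ProjectiveSpecialLinearGroup (Fin 2) E))) ∧
      (∀ r s : ℕ, r.Prime → s.Prime → r ≠ s → ((∃ x : ↥(Cfsg.Lie.chevG2.group F), orderOf x = r * s) ↔ (∃ y : (Matrix.ProjectiveSpecialLinearGroup (Fin 2) E), orderOf y = r * s)))) := by
  haveI : Fact (Nat.Prime 13) := ⟨by norm_num⟩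
  haveI : CharP E 13 := charP_of_card_eq_prime_pow (p := 13) (f := 1) (by rw [hE]; rfl)
  have hcG : Nat.card ↥(Cfsg.Lie.chevG2.group F) = 2 ^ (5 + 1) * (3 ^ (5 + 1) * (7 * 13)) := by rw [Cfsg.Agent.S1059.result (F := F) hF]; norm_num
  have hcE : Nat.card (Matrix.ProjectiveSpecialLinearGroup (Fin 2) E) = 2 ^ (1 + 1) * (3 ^ (0 + 1) * (7 * 13)) := by
    have h := Cfsg.Agent.S0243.result (F := E) hE 2 (by norm_num)
    rw [Fin.prod_univ_two] at h
    have h1 : Nat.gcd 2 (13 - 1) = 2 := by decide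
    rw [h1] at h
    simp only [Fin.val_zero, Fin.val_one] at h
    norm_num at h ⊢
    omega
  refine ⟨fun r hr => ?_, fun r s hr hs hrs => ?_⟩
  · rw [hcG, hcE]
    exact ⟨fun h => pr' (pr hr h), fun h => pr' (pr hr h)⟩
  · rw [graphG hF hr hs hrs]
    constructor
    · intro h
      have h6 : (6 : ℕ) ∈ Set.range (orderOf : Matrix.ProjectiveSpecialLinearGroup (Fin 2) E → ℕ) := by
        rw [Cfsg.Agent.H21.SpecPSL2.spectrum (F := E) 13 (by rw [hE]; norm_num), hE]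
        right; left; decide
      obtain ⟨y, hy⟩ := h6
      rcases h with ⟨rfl, rfl⟩ | ⟨rfl, rfl⟩ <;> exact ⟨y, hy⟩
    · rintro ⟨y, hy⟩
      have h := Cfsg.Agent.H21.SpecPSL2.order_dvd (F := E) 13 y
      rw [hE, hy] at h
      have h1 : Nat.gcd 2 (13 - 1) = 2 := by decide
      rw [h1] at h
      have hnp : ∀ l : ℕ, l.Prime → ¬ r * s ∣ l := by
        intro l hl h
        rcases (Nat.dvd_prime hl).1 h with h | h
        · have := Nat.eq_one_of_mul_eq_one_right h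
          exact hr.one_lt.ne' this
        · exact Nat.not_prime_mul hr.one_lt.ne' hs.one_lt.ne' (h ▸ hl)
      rcases h with h | h | h
      · exact absurd h (hnp 13 (by norm_num))
      · exact two_primes hr hs hrs h
      · exact absurd h (hnp 7 (by norm_num))

end Cfsg.Agent.S2518
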