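import Cfsg.Statements.S2521

set_option autoImplicit false
open Cfsg

namespace Cfsg.Agent.S2521

theorem result {B : Type*} [Group B] [Finite B] (U T : Subgroup B) [U.Normal] (hU : Group.IsNilpotent ↥U) (hT : IsMulCommutative ↥T)
    (hcompl : Subgroup.IsComplement' U T) (t : B) (ht : t ∈ T) (hreg : Subgroup.centralizer ({t} : Set B) = T) (u : B) (hu : u ∈ U) :
    ∃ b : B, b * t * b⁻¹ = t * u := by
  let f : U → U := fun x => ⟨t⁻¹ * x * t * (x : B)⁻¹, by
    have h1 : t⁻¹ * (x : B) * t ∈ U := by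
      have := Subgroup.Normal.conj_mem (inferInstance : U.Normal) x x.2 t⁻¹
      simpa using this
    exact U.mul_mem h1 (U.inv_mem x.2)⟩
  have hinj : Function.Injective f := by
    intro x y hxy
    have h : t⁻¹ * (x : B) * t * (x : B)⁻¹ = t⁻¹ * (y : B) * t * (y : B)⁻¹ := congrArg Subtype.val hxy
    have h1 : (x : B) * t * (x : B)⁻¹ = y * t * (y : B)⁻¹ := by
      have := congrArg (fun z => t * z) h
      simpa [mul_assoc] using this
    have h2 : (y : B)⁻¹ * x ∈ Subgroup.centralizer ({t} : Set B) := by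
      rw [Subgroup.mem_centralizer_singleton_iff]
      calc (y : B)⁻¹ * x * t = (y : B)⁻¹ * (x * t * (x : B)⁻¹) * x := by group
        _ = (y : B)⁻¹ * (y * t * (y : B)⁻¹) * x := by rw [h1]
        _ = t * ((y : B)⁻¹ * x) := by group
    rw [hreg] at h2
    have h3 : (y : B)⁻¹ * x ∈ U := U.mul_mem (U.inv_mem y.2) x.2
    have h4 : (y : B)⁻¹ * x = 1 := by
      have := hcompl.disjoint
      rw [Subgroup.disjoint_def] at this
      exact this h3 h2
    apply Subtype.ext
    exact (inv_mul_eq_one.1 h4).symm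
  have hsurj : Function.Surjective f := Finite.surjective_of_injective hinj
  obtain ⟨x, hx⟩ := hsurj ⟨u, hu⟩
  have hx' : t⁻¹ * (x : B) * t * (x : B)⁻¹ = u := congrArg Subtype.val hx
  refine ⟨x, ?_⟩
  rw [← hx']; group

end Cfsg.Agent.S2521
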