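import Cfsg.Statements.S2593
import Mathlib
import Cfsg.Agent.H5_Inv3
import Cfsg.Agent.S2166
import Cfsg.Agent.S2167

set_option autoImplicit false
open Cfsg

namespace Cfsg.Agent.S2593

open Module Cfsg.Agent.H16.Quad Cfsg.Agent.H5.I2 Cfsg.Agent.H5 Cfsg.Agent.H5.Conc Matrix

theorem polar_eq_symp {F : Type*} [Field F] [CharP F 2] {m : ℕ} (u v : Fin m ⊕ Fin m → F) :
    QuadraticMap.polar ⇑(plusQ F m) u v = Cfsg.sympForm m F u v := by
  rw [polar_plusQ, sympForm_eq]
  refine Finset.sum_congr rfl fun i _ => ?_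
  rw [CharTwo.sub_eq_add]
  ring

/-- orthogonal matrices as symplectic ones -/
theorem exists_sp {F : Type*} [Field F] [CharP F 2] {m : ℕ} (t : Cfsg.isometryGroup F ⇑(plusQ F m)) :
    ∃ g : Matrix.symplecticGroup (Fin m) F, (g : Matrix (Fin m ⊕ Fin m) (Fin m ⊕ Fin m) F) =
      ((t : GL (Fin m ⊕ Fin m) F) : Matrix (Fin m ⊕ Fin m) (Fin m ⊕ Fin m) F) := by
  refine ⟨⟨_, (mem_symplecticGroup_iff _).2 fun u v => ?_⟩, rfl⟩
  rw [← polar_eq_symp, ← polar_eq_symp]
  exact (toOG_isom t).1 u v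

/-- Number of conjugacy classes of involutions in the symplectic group Sp_2m(F) over a finite field of characteristic two (m ≥ 1): for each s with 1 ≤ s ≤ m there is one class with rank(t − 1) = s if s is odd and two if s is even (according as v ↦ f(v, tv), f the symplectic form, vanishes identically or not), so m + ⌊m/2⌋ classes in all. -/
theorem result {F : Type*} [Field F] [Fintype F] [CharP F 2] {m : ℕ} (hm : 1 ≤ m) : Nat.card {C : ConjClasses ↥(Matrix.symplecticGroup (Fin m) F) // ∃ g : Matrix.symplecticGroup (Fin m) F, ConjClasses.mk g = C ∧ orderOf g = 2} = m + m / 2 := by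
  classical
  obtain ⟨inv, hinv⟩ : ∃ inv : Matrix.symplecticGroup (Fin m) F → ℕ × Bool, inv = fun g : Matrix.symplecticGroup (Fin m) F =>
    (((g : Matrix (Fin m ⊕ Fin m) (Fin m ⊕ Fin m) F) - 1).rank,
      decide (∀ v, Cfsg.sympForm m F v ((g : Matrix (Fin m ⊕ Fin m) (Fin m ⊕ Fin m) F) *ᵥ v) = 0)) := ⟨_, rfl⟩
  have hB : ∀ v : Fin m ⊕ Fin m → F, ∀ M : Matrix (Fin m ⊕ Fin m) (Fin m ⊕ Fin m) F,
      Cfsg.sympForm m F v ((M - 1) *ᵥ v) = Cfsg.sympForm m F v (M *ᵥ v) := fun v M => by
    rw [Matrix.sub_mulVec, Matrix.one_mulVec, Symp.sub_right, Symp.self, sub_zero]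
  have hev : ∀ g : Matrix.symplecticGroup (Fin m) F, (∀ v, Cfsg.sympForm m F v ((g : Matrix (Fin m ⊕ Fin m) (Fin m ⊕ Fin m) F) *ᵥ v) = 0) →
      Even (((g : Matrix (Fin m ⊕ Fin m) (Fin m ⊕ Fin m) F) - 1).rank) := by
    intro g hg
    have h1 := Cfsg.Agent.S2167.even_rank (sympB m F) (fun v hv => by
      apply sympFrm_nondeg m F v
      intro u
      exact (sympFrm m F).refl (hv u)) (((g : Matrix (Fin m ⊕ Fin m) (Fin m ⊕ Fin m) F) - 1).mulVecLin) (fun v => by
        rw [sympB_apply, Matrix.mulVecLin_apply, hB]; exact hg v)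
    exact h1
  have hrk : ∀ g : Matrix.symplecticGroup (Fin m) F, orderOf g = 2 →
      0 < ((g : Matrix (Fin m ⊕ Fin m) (Fin m ⊕ Fin m) F) - 1).rank ∧ ((g : Matrix (Fin m ⊕ Fin m) (Fin m ⊕ Fin m) F) - 1).rank ≤ m := by
    intro g hg
    have hg2 : (g : Matrix (Fin m ⊕ Fin m) (Fin m ⊕ Fin m) F) * (g : Matrix (Fin m ⊕ Fin m) (Fin m ⊕ Fin m) F) = 1 := by
      have : g * g = 1 := by rw [← pow_two]; exact orderOf_dvd_iff_pow_eq_one.1 hg.dvd
      exact congrArg Subtype.val this
    obtain ⟨M, hM⟩ : ∃ M, M = (g : Matrix (Fin m ⊕ Fin m) (Fin m ⊕ Fin m) F) := ⟨_, rfl⟩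
    rw [← hM] at hg2 ⊢
    constructor
    · rw [Nat.pos_iff_ne_zero]
      intro h0
      rw [Matrix.rank, Submodule.finrank_eq_zero, LinearMap.range_eq_bot] at h0
      have h1 : M = 1 := by
        apply Matrix.ext_of_mulVec_single
        intro i
        have := LinearMap.congr_fun h0 (Pi.single i 1)
        rw [Matrix.mulVecLin_apply, Matrix.sub_mulVec, LinearMap.zero_apply, sub_eq_zero] at this
        exact this
      have h2 : g = 1 := Subtype.ext (hM.symm.trans h1)
      rw [h2, orderOf_one] at hg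
      omega
    · have h1 := LinearMap.finrank_range_add_finrank_ker (M - 1).mulVecLin
      have h2 : LinearMap.range (M - 1).mulVecLin ≤ LinearMap.ker (M - 1).mulVecLin := by
        rintro _ ⟨v, rfl⟩
        rw [LinearMap.mem_ker, Matrix.mulVecLin_apply, Matrix.mulVecLin_apply, Matrix.mulVec_mulVec]
        have h2 : (2 : F) = 0 := CharTwo.two_eq_zero
        have : (M - 1) * (M - 1) = 0 := by
          have e : (M - 1) * (M - 1) = (2 : F) • (1 - M) := by
            rw [mul_sub, sub_mul, hg2, mul_one, one_mul, two_smul]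
            abel
          rw [e, h2, zero_smul]
        rw [this, Matrix.zero_mulVec]
      have h3 := Submodule.finrank_mono h2
      rw [finrank_plus] at h1
      change finrank F (LinearMap.range (M - 1).mulVecLin) ≤ m
      omega
  have hcount : Nat.card {C : ConjClasses ↥(Matrix.symplecticGroup (Fin m) F) // ∃ g : Matrix.symplecticGroup (Fin m) F, ConjClasses.mk g = C ∧ orderOf g = 2} =
      (types m m (fun _ => True)).card := by
    apply card_classes (P := fun g : Matrix.symplecticGroup (Fin m) F => orderOf g = 2) inv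
    · intro g hg
      rw [mem_types, hinv]
      obtain ⟨h1, h2⟩ := hrk g hg
      by_cases ha : ∀ v, Cfsg.sympForm m F v ((g : Matrix (Fin m ⊕ Fin m) (Fin m ⊕ Fin m) F) *ᵥ v) = 0
      · right
        exact ⟨decide_eq_true ha, h1, h2, (hev g ha).two_dvd⟩
      · left
        exact ⟨decide_eq_false ha, h1, h2, trivial⟩
    · rintro ⟨s, c⟩ hs
      rw [mem_types] at hs
      obtain ⟨t, ht, ht2⟩ : ∃ t : Cfsg.isometryGroup F ⇑(plusQ F m), orderOf t = 2 ∧ ty t = (s, c) := by
        rcases hs with ⟨h1, h2, h3, -⟩ | ⟨h1, h2, h3, h4⟩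
        · obtain ⟨t, ht, ht2⟩ := (famPlus (F := F) m).exists_false (nd_plusQ m) h2 h3
          exact ⟨t, ht, by rw [ht2]; exact Prod.ext rfl h1.symm⟩
        · obtain ⟨t, ht, ht2, -⟩ := (famPlus (F := F) m).exists_true (nd_plusQ m) h2 h3 h4
          exact ⟨t, ht, by rw [ht2]; exact Prod.ext rfl h1.symm⟩
      obtain ⟨g, hg⟩ := exists_sp t
      have ht3 : t * t = 1 := by rw [← pow_two]; exact orderOf_dvd_iff_pow_eq_one.1 ht.dvd
      refine ⟨g, ?_, ?_⟩
      · change orderOf g = 2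
        rw [orderOf_eq_prime_iff]
        constructor
        · apply Subtype.ext
          rw [pow_two]
          change (g : Matrix (Fin m ⊕ Fin m) (Fin m ⊕ Fin m) F) * (g : Matrix (Fin m ⊕ Fin m) (Fin m ⊕ Fin m) F) = 1
          rw [hg]
          exact congrArg (fun x : Cfsg.isometryGroup F ⇑(plusQ F m) => ((x : GL (Fin m ⊕ Fin m) F) : Matrix (Fin m ⊕ Fin m) (Fin m ⊕ Fin m) F)) ht3
        · intro h1
          have : t = 1 := by
            apply Subtype.ext
            apply Units.ext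
            rw [← hg, h1]
            rfl
          rw [this, orderOf_one] at ht
          omega
      · rw [hinv]
        have h1 : ((g : Matrix (Fin m ⊕ Fin m) (Fin m ⊕ Fin m) F) - 1).rank = s := by
          rw [hg, ← rk_eq]; exact congrArg Prod.fst ht2
        have h2 : (∀ v, Cfsg.sympForm m F v ((g : Matrix (Fin m ⊕ Fin m) (Fin m ⊕ Fin m) F) *ᵥ v) = 0) ↔ IsAl t := by
          refine forall_congr' fun v => ?_
          have h3 := quad_Q_bf (toOG_isom t) (toOG_sq (by rw [pow_two]; exact ht3)) ⟨nn (toOG (plusQ F m) t).1 v, v, rfl⟩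
          rw [h3, bf_eq (toOG_isom t) (toOG_sq (by rw [pow_two]; exact ht3)) v _ _ rfl]
          change _ ↔ QuadraticMap.polar ⇑(plusQ F m) v (nn (toOG (plusQ F m) t).1 v) = 0
          rw [polar_eq_symp, nn_apply, toOG_apply, Symp.sub_right, Symp.self, sub_zero, hg]
        have h4 : c = decide (IsAl t) := by
          have h5 : (ty t).2 = c := congrArg Prod.snd ht2
          rw [← h5, ty]
        refine Prod.ext h1 ?_
        change decide _ = c
        rw [h4, decide_eq_decide]
        exact h2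
    · intro g h hg hh
      rw [hinv]
      change _ ↔ (_, _) = (_, _)
      rw [Prod.mk.injEq, decide_eq_decide]
      constructor
      · intro hc
        obtain ⟨c, hc⟩ := isConj_iff.1 hc
        have hc1 : (c : Matrix (Fin m ⊕ Fin m) (Fin m ⊕ Fin m) F) * (g : Matrix (Fin m ⊕ Fin m) (Fin m ⊕ Fin m) F) *
            ((c⁻¹ : Matrix.symplecticGroup (Fin m) F) : Matrix (Fin m ⊕ Fin m) (Fin m ⊕ Fin m) F) =
            (h : Matrix (Fin m ⊕ Fin m) (Fin m ⊕ Fin m) F) := congrArg Subtype.val hc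
        have hc2 : (c : Matrix (Fin m ⊕ Fin m) (Fin m ⊕ Fin m) F) *
            ((c⁻¹ : Matrix.symplecticGroup (Fin m) F) : Matrix (Fin m ⊕ Fin m) (Fin m ⊕ Fin m) F) = 1 :=
          congrArg Subtype.val (mul_inv_cancel c)
        have hc3 : ((c⁻¹ : Matrix.symplecticGroup (Fin m) F) : Matrix (Fin m ⊕ Fin m) (Fin m ⊕ Fin m) F) *
            (c : Matrix (Fin m ⊕ Fin m) (Fin m ⊕ Fin m) F) = 1 := congrArg Subtype.val (inv_mul_cancel c)
        refine ⟨(rank_conj hc2 hc1).symm, ?_⟩
        have hiso := (mem_symplecticGroup_iff (c : Matrix (Fin m ⊕ Fin m) (Fin m ⊕ Fin m) F)).1 c.2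
        have hv : ∀ v, Cfsg.sympForm m F ((c : Matrix (Fin m ⊕ Fin m) (Fin m ⊕ Fin m) F) *ᵥ v)
            ((h : Matrix (Fin m ⊕ Fin m) (Fin m ⊕ Fin m) F) *ᵥ ((c : Matrix (Fin m ⊕ Fin m) (Fin m ⊕ Fin m) F) *ᵥ v)) =
            Cfsg.sympForm m F v ((g : Matrix (Fin m ⊕ Fin m) (Fin m ⊕ Fin m) F) *ᵥ v) := by
          intro v
          rw [← hiso v, Matrix.mulVec_mulVec, Matrix.mulVec_mulVec, ← hc1]
          congr 2
          rw [mul_assoc _ _ (c : Matrix (Fin m ⊕ Fin m) (Fin m ⊕ Fin m) F), hc3, mul_one]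
        constructor
        · intro H v
          obtain ⟨u, hu⟩ := (spEquiv m F c).1.surjective v
          rw [← hu]
          exact (hv u).trans (H u)
        · intro H v
          rw [← hv]
          exact H _
      · rintro ⟨h1, h2⟩
        exact Cfsg.Agent.S2166.sp_conj hg hh h1 h2
  rw [hcount, card_types, Finset.filter_true_of_mem (fun _ _ => trivial), Nat.card_Ioc, Nat.sub_zero]

end Cfsg.Agent.S2593
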