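import Cfsg.Agent.H16_DL2
import Cfsg.Statements.S2648
-- import your own Cfsg.Agent.* helpers here

set_option autoImplicit false
open Cfsg

namespace Cfsg.Agent.S2648

/-- Let q be odd, F a field with q elements and n ≥ 1. A Sylow 2-subgroup R of the symplectic group Sp_{2n}(F) has derived length exactly k + 1, where 2^k ≤ 2n < 2^{k+1}: the (k+1)-st term of its derived series is trivial and the k-th is not. -/
theorem result {F : Type*} [Field F] [Fintype F] [DecidableEq F] (q : ℕ) (hF : Fintype.card F = q) (hq : Odd q) (n : ℕ) (hn : 1 ≤ n) (R : Sylow 2 ↥(Matrix.symplecticGroup (Fin n) F)) : derivedSeries ↥(R : Subgroup ↥(Matrix.symplecticGroup (Fin n) F)) (Nat.log 2 (2 * n) + 1) = ⊥ ∧ derivedSeries ↥(R : Subgroup ↥(Matrix.symplecticGroup (Fin n) F)) (Nat.log 2 (2 * n)) ≠ ⊥ := by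
  constructor
  · have h2 : (2 : F) ≠ 0 := by
      intro h
      have hc : ringChar F = 2 := by
        have h1 : ringChar F ∣ 2 := (ringChar.spec F 2).1 (by exact_mod_cast h)
        rcases (Nat.dvd_prime Nat.prime_two).1 h1 with h3 | h3
        · exact absurd h3 (CharP.ringChar_ne_one)
        · exact h3
      have := FiniteField.even_card_iff_char_two.1 hc
      rw [Nat.odd_iff] at hq
      omega
    refine H16.DL.upper (ι := Fin n ⊕ Fin n) (Matrix.symplecticGroup (Fin n) F).subtype Subtype.coe_injective h2 ?_ R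
    rw [Fintype.card_sum, Fintype.card_fin, ← two_mul]
    exact Nat.lt_pow_succ_log_self (by norm_num) _
  · have h1 := ((H16.DL.hasS_one (F := F) (hF ▸ hq)).pow (Nat.log 2 n)).mono (Nat.pow_log_le_self 2 (by omega))
    have h3 : Nat.log 2 (2 * n) = 1 + Nat.log 2 n := by
      rw [mul_comm, Nat.log_mul_base (by norm_num) (by omega), add_comm]
    rw [h3]
    exact h1.sylow R

end Cfsg.Agent.S2648
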