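import Cfsg.Statements.S2788
import Cfsg.Agent.H17_Zig

set_option autoImplicit false
open Cfsg

namespace Cfsg.Agent.S2788

open Cfsg.Agent.H17.Base Cfsg.Agent.H17.Zig in
/-- Let H act faithfully by conjugation on the elementary abelian p-subgroup V of a finite group with H ≅ SL₂(F), F a field with p^n elements, S a Sylow p-subgroup of H, and A ≤ S a subgroup of order at least 3 acting quadratically on V ([V, A, A] = 1). Then |V/C_V(a)| ≥ p^n for every nonidentity a ∈ A. -/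
theorem result {G : Type*} [Group G] [Finite G] {p : ℕ} [Fact p.Prime] (V H : Subgroup G) (hV : Cfsg.IsElementaryAbelian p V) (hHV : H ≤ Subgroup.normalizer (V : Set G)) (hf : H ⊓ Subgroup.centralizer (V : Set G) = ⊥) {F : Type*} [Field F] [Fintype F] (n : ℕ) (hF : Fintype.card F = p ^ n) (hiso : Nonempty (↥H ≃* Matrix.SpecialLinearGroup (Fin 2) F)) (S : Sylow p ↥H) (T : Subgroup G) (hT : T = ((S : Subgroup ↥H).map H.subtype)) (A : Subgroup G) (hA : A ≤ T) (hA3 : 3 ≤ Nat.card A) (hquad : ⁅⁅V, A⁆, A⁆ = ⊥) : ∀ a ∈ A, a ≠ 1 → p ^ n ≤ ((V ⊓ Subgroup.centralizer ({a} : Set G))).relIndex V := by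
  have hp := (Fact.out : p.Prime)
  obtain ⟨e⟩ := hiso
  intro a ha ha1
  have hVc := hV.1
  have hVp := ea_isPGroup hV
  have hTH : T ≤ H := by rw [hT]; exact Subgroup.map_subtype_le _
  have haH : a ∈ H := hTH (hA ha)
  have hTp : IsPGroup p T := by rw [hT]; exact S.isPGroup'.map _
  have hn0 : 0 < n := Nat.pos_of_ne_zero (charP_of_card hp hF).2
  by_cases hM : n = 1 ∧ ∃ m : ℕ, p + 1 = 2 ^ m
  · rw [hM.1, pow_one]
    exact trivial_bound hVp hf haH ha1
  · obtain ⟨r, k, hr, hr2, hrp, hk, hd, hprim⟩ := exists_prim hp hn0 hM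
    obtain ⟨i, hi⟩ := isPGroup_iff_forall_mem.1 hTp a (hA ha)
    have hs1 : e ⟨a, haH⟩ ≠ 1 := by
      intro h
      rw [map_eq_one_iff e e.injective] at h
      exact ha1 (congrArg Subtype.val h)
    have hsp : (e ⟨a, haH⟩) ^ p ^ i = 1 := by
      rw [← map_pow, map_eq_one_iff e e.injective]
      exact Subtype.ext hi
    obtain ⟨g, hg⟩ := sl2_main hp hF hd ((Nat.coprime_primes hr Nat.prime_two).2 hr2 |>.pow_left k) (e ⟨a, haH⟩) hs1 hsp
    have h1 := (main hVc hVp hHV hf e.toMonoidHom e.surjective hr hrp hk hprim haH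
      ⟨g, fun m hm => hg m (by
        have hm' : (e ⟨a, haH⟩ * (g * e ⟨a, haH⟩ * g⁻¹)) ^ m = 1 := hm
        rw [hm']; exact one_mem _)⟩).1
    rw [mul_comm 2 n, pow_mul] at h1
    exact (Nat.pow_le_pow_iff_left two_ne_zero).1 h1

end Cfsg.Agent.S2788
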