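import Cfsg.Statements.S2897
import Cfsg.Agent.H17_PC
import Cfsg.Agent.H1_Subn2

set_option autoImplicit false
open Cfsg

namespace Cfsg.Agent.S2897

/-- Let p be a prime dividing the order of the finite group G, suppose G has parabolic characteristic p, let S be a Sylow p-subgroup of G and G₁ a normal subgroup of G. If Ω₁(Z(S ∩ G₁)) is nontrivial and contained in Ω₁(Z(S)), then G₁ has parabolic characteristic p. -/
theorem result {G : Type*} [Group G] [Finite G] {p : ℕ} [Fact p.Prime] (hdiv : p ∣ Nat.card G) (hG : Cfsg.IsOfParabolicCharacteristic p G) (S : Sylow p G) (G₁ : Subgroup G) [G₁.Normal] (hne : Cfsg.omegaOne p (((S : Subgroup G) ⊓ G₁) ⊓ Subgroup.centralizer (((S : Subgroup G) ⊓ G₁ : Subgroup G) : Set G)) ≠ ⊥) (hle : Cfsg.omegaOne p (((S : Subgroup G) ⊓ G₁) ⊓ Subgroup.centralizer (((S : Subgroup G) ⊓ G₁ : Subgroup G) : Set G)) ≤ Cfsg.omegaOne p ((S : Subgroup G) ⊓ Subgroup.centralizer ((S : Subgroup G) : Set G))) : Cfsg.IsOfParabolicCharacteristic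 p ↥G₁ := by
  obtain ⟨Q, hQ⟩ := Cfsg.Agent.H1.Subn.sylow_inf_subnormal p G₁ (inferInstance : G₁.Normal).isSubnormal S
  rw [Cfsg.Agent.H17.PC.parabolic_iff Q]
  intro z hz1 hz
  obtain ⟨h1, h2, h3⟩ := Cfsg.Agent.H17.PC.mem_omega_center.mp hz
  have h4 : (z : G) ∈ Cfsg.omegaOne p ((S : Subgroup G) ⊓ Subgroup.centralizer ((S : Subgroup G) : Set G)) := by
    apply hle
    rw [Cfsg.Agent.H17.PC.mem_omega_center]
    rw [hQ, Subgroup.mem_subgroupOf] at h1
    refine ⟨⟨h1, z.2⟩, ?_, ?_⟩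
    · rw [Subgroup.mem_centralizer_iff]
      rintro s ⟨hsS, hsG⟩
      have h5 := Subgroup.mem_centralizer_iff.mp h2 ⟨s, hsG⟩ (by rw [hQ]; exact hsS)
      exact congrArg Subtype.val h5
    · exact congrArg Subtype.val h3
  have hC := (Cfsg.Agent.H17.PC.parabolic_iff S).mp hG z (fun h => hz1 (Subtype.ext h)) h4
  have h1 : (G₁.subgroupOf (Subgroup.centralizer {(z : G)})).IsSubnormal :=
    (inferInstance : G₁.Normal).isSubnormal.subgroupOf
  refine Cfsg.Agent.H17.PC.hasCharP_equiv ?_ (Cfsg.Agent.H18.CharP2.hasCharP_of_isSubnormal hC h1)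
  refine { toFun := fun x => ⟨⟨x.1.1, x.2⟩, ?_⟩, invFun := fun x => ⟨⟨x.1.1, ?_⟩, x.1.2⟩, left_inv := ?_, right_inv := ?_, map_mul' := ?_ }
  · apply Subgroup.mem_centralizer_singleton_iff.mpr
    exact Subtype.ext (Subgroup.mem_centralizer_singleton_iff.mp x.1.2)
  · apply Subgroup.mem_centralizer_singleton_iff.mpr
    exact congrArg Subtype.val (Subgroup.mem_centralizer_singleton_iff.mp x.2)
  · intro x; rfl
  · intro x; rfl
  · intro x y; rfl

end Cfsg.Agent.S2897
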