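import Cfsg.Statements.S2898
import Cfsg.Agent.H17_PC
import Cfsg.Agent.H1_Subn2
import Cfsg.Agent.H11_Cores

set_option autoImplicit false
open Cfsg

namespace Cfsg.Agent.S2898

/-- the odd core meets the centralizer of `z` trivially -/
theorem inf_eq_bot {G : Type*} [Group G] [Finite G] {z : G}
    (hC : Cfsg.Agent.H18.CharP.HasCharP 2 ↥(Subgroup.centralizer ({z} : Set G))) {x : G}
    (hx : x ∈ Cfsg.oddCore G) (hxz : x * z = z * x) : x = 1 := by
  have : Fact (Nat.Prime 2) := ⟨Nat.prime_two⟩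
  have hcop : (Nat.card (Cfsg.oddCore G)).Coprime 2 := Cfsg.Agent.H11.Cores.pPrimeCore_coprime 2
  have hn : (Cfsg.oddCore G).Normal := inferInstance
  have hxo : (orderOf x).Coprime 2 := by
    have := orderOf_dvd_natCard (⟨x, hx⟩ : Cfsg.oddCore G)
    rw [Subgroup.orderOf_mk] at this
    exact Nat.Coprime.coprime_dvd_left this hcop
  apply hC.elim (x := x) (by rw [Subgroup.mem_centralizer_singleton_iff]; exact hxz) hxo
  intro y hy
  have h1 : y * x * y⁻¹ * x⁻¹ ∈ Cfsg.oddCore G := (Cfsg.oddCore G).mul_mem (hn.conj_mem x hx y) ((Cfsg.oddCore G).inv_mem hx)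
  have hxN : x ∈ Subgroup.normalizer (Cfsg.Agent.H18.CharP.oP 2 (Subgroup.centralizer ({z} : Set G)) : Set G) := by
    apply Cfsg.Agent.H18.CharP.le_normalizer_oP
    apply Subgroup.le_normalizer
    rw [Subgroup.mem_centralizer_singleton_iff]; exact hxz
  have h2 : y * x * y⁻¹ * x⁻¹ ∈ Cfsg.Agent.H18.CharP.oP 2 (Subgroup.centralizer ({z} : Set G)) := by
    have h3 := (Subgroup.mem_normalizer_iff.mp hxN y⁻¹).mp (Subgroup.inv_mem _ hy)
    have h4 := Subgroup.mul_mem _ hy h3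
    have e : y * (x * y⁻¹ * x⁻¹) = y * x * y⁻¹ * x⁻¹ := by group
    rw [e] at h4
    exact h4
  have h3 := Cfsg.Agent.H18.CharP.eq_one_of_pgroup
    (Cfsg.Agent.H18.CharP.oP_isPGroup (p := 2) (Subgroup.centralizer ({z} : Set G))) (x := y * x * y⁻¹ * x⁻¹) (by
      have := orderOf_dvd_natCard (⟨y * x * y⁻¹ * x⁻¹, h1⟩ : Cfsg.oddCore G)
      rw [Subgroup.orderOf_mk] at this
      exact Nat.Coprime.coprime_dvd_left this hcop) h2
  calc y * x = (y * x * y⁻¹ * x⁻¹) * (x * y) := by group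
    _ = x * y := by rw [h3, one_mul]

/-- Let G be a finite group of even order with parabolic characteristic 2. If the centre of G ⧸ O(G) is trivial, then O(G) = 1. -/
theorem result {G : Type*} [Group G] [Finite G] (h2 : 2 ∣ Nat.card G) (hG : Cfsg.IsOfParabolicCharacteristic 2 G) [hN : (Cfsg.oddCore G).Normal] (hZ : Subgroup.center (G ⧸ Cfsg.oddCore G) = ⊥) : Cfsg.oddCore G = ⊥ := by
  classical
  have : Fact (Nat.Prime 2) := ⟨Nat.prime_two⟩
  by_contra hO1
  set O := Cfsg.oddCore G with hO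
  have hcop : (Nat.card O).Coprime 2 := Cfsg.Agent.H11.Cores.pPrimeCore_coprime 2
  obtain ⟨S⟩ : Nonempty (Sylow 2 G) := inferInstance
  have hC := (Cfsg.Agent.H17.PC.parabolic_iff S).mp hG
  have hS1 : (S : Subgroup G) ≠ ⊥ := by
    intro h
    have h1 := S.card_eq_multiplicity
    rw [h, Subgroup.card_bot] at h1
    have h2 : 1 ≤ (Nat.card G).factorization 2 :=
      (Nat.Prime.dvd_iff_one_le_factorization Nat.prime_two (Nat.card_pos).ne').mp h2
    have h3 : 2 ^ 1 ≤ 2 ^ (Nat.card G).factorization 2 := Nat.pow_le_pow_right (by norm_num) h2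
    omega
  obtain ⟨z, hzS, hz1, hzp, hzc⟩ := Cfsg.Agent.H17.PC.exists_central S.2 hS1 le_rfl Subgroup.le_normalizer
  have hzC : z ∈ Cfsg.omegaOne 2 ((S : Subgroup G) ⊓ Subgroup.centralizer ((S : Subgroup G) : Set G)) := by
    rw [Cfsg.Agent.H17.PC.mem_omega_center]
    exact ⟨hzS, Subgroup.mem_centralizer_iff.mpr hzc, hzp⟩
  have hzz : z * z = 1 := by rw [← pow_two]; exact hzp
  have hzi : z⁻¹ = z := inv_eq_of_mul_eq_one_left hzz
  have hfix := fun (x : G) (hx : x ∈ O) (hxz : x * z = z * x) => inf_eq_bot (hC z hz1 hzC) hx hxz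
  -- `z` inverts `O`
  have hinv : ∀ x ∈ O, z * x * z⁻¹ = x⁻¹ := by
    let f : O → O := fun x => ⟨x * (z * (x : G)⁻¹ * z⁻¹), O.mul_mem x.2 (hN.conj_mem _ (O.inv_mem x.2) z)⟩
    have hf : Function.Injective f := by
      intro x y hxy
      have h1 : (x : G) * (z * (x : G)⁻¹ * z⁻¹) = y * (z * (y : G)⁻¹ * z⁻¹) := congrArg Subtype.val hxy
      have h2 : (y : G)⁻¹ * x = 1 := by
        apply hfix _ (O.mul_mem (O.inv_mem y.2) x.2)
        calc (y : G)⁻¹ * x * z = (y : G)⁻¹ * (x * (z * (x : G)⁻¹ * z⁻¹)) * z * x := by group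
          _ = (y : G)⁻¹ * (y * (z * (y : G)⁻¹ * z⁻¹)) * z * x := by rw [h1]
          _ = z * ((y : G)⁻¹ * x) := by group
      exact Subtype.ext (inv_mul_eq_one.mp h2).symm
    have hs := Finite.surjective_of_injective hf
    intro x hx
    obtain ⟨y, hy⟩ := hs ⟨x, hx⟩
    have h1 : (y : G) * (z * (y : G)⁻¹ * z⁻¹) = x := congrArg Subtype.val hy
    rw [← h1, hzi]
    calc z * ((y : G) * (z * (y : G)⁻¹ * z)) * z = z * y * z * (y : G)⁻¹ * (z * z) := by group
      _ = z * y * z⁻¹ * (y : G)⁻¹ := by rw [hzz, hzi, mul_one]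
      _ = (y * (z * (y : G)⁻¹ * z⁻¹))⁻¹ := by group
      _ = (y * (z * (y : G)⁻¹ * z))⁻¹ := by rw [hzi]
  -- `C_G(O) ≤ O`
  have hCn : (Subgroup.centralizer (O : Set G)).Normal := inferInstance
  have hCO : Subgroup.centralizer (O : Set G) ≤ O := by
    apply Cfsg.Agent.H11.Cores.le_pPrimeCore 2 (hN := hCn)
    rw [Nat.coprime_comm, Nat.Prime.coprime_iff_not_dvd Nat.prime_two]
    intro hdvd
    obtain ⟨Q, hQ⟩ := Cfsg.Agent.H1.Subn.sylow_inf_subnormal 2 (Subgroup.centralizer (O : Set G))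
      hCn.isSubnormal S
    have hQ1 : (Q : Subgroup ↥(Subgroup.centralizer (O : Set G))) ≠ ⊥ := by
      intro h
      have h1 := Q.card_eq_multiplicity
      rw [h, Subgroup.card_bot] at h1
      have h2 : 1 ≤ (Nat.card (Subgroup.centralizer (O : Set G))).factorization 2 :=
        (Nat.Prime.dvd_iff_one_le_factorization Nat.prime_two (Nat.card_pos).ne').mp hdvd
      have h3 : 2 ^ 1 ≤ 2 ^ (Nat.card (Subgroup.centralizer (O : Set G))).factorization 2 :=
        Nat.pow_le_pow_right (by norm_num) h2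
      omega
    have hR1 : (S : Subgroup G) ⊓ Subgroup.centralizer (O : Set G) ≠ ⊥ := by
      intro h
      apply hQ1
      rw [hQ, Subgroup.subgroupOf_eq_bot, disjoint_iff]
      exact h
    obtain ⟨w, hwS, hw1, hwp, hwc⟩ := Cfsg.Agent.H17.PC.exists_central S.2 hR1 inf_le_left (by
      intro s hs
      rw [Subgroup.mem_normalizer_iff]
      intro t
      constructor
      · rintro ⟨h1, h2⟩
        exact ⟨(S : Subgroup G).mul_mem ((S : Subgroup G).mul_mem hs h1) ((S : Subgroup G).inv_mem hs), hCn.conj_mem t h2 s⟩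
      · rintro ⟨h1, h2⟩
        have h3 := hCn.conj_mem _ h2 s⁻¹
        have h4 := (S : Subgroup G).mul_mem ((S : Subgroup G).mul_mem ((S : Subgroup G).inv_mem hs) h1) hs
        have e1 : s⁻¹ * (s * t * s⁻¹) * s⁻¹⁻¹ = t := by group
        have e2 : s⁻¹ * (s * t * s⁻¹) * s = t := by group
        rw [e1] at h3
        rw [e2] at h4
        exact ⟨h4, h3⟩)
    apply hO1
    rw [eq_bot_iff]
    intro x hx
    rw [Subgroup.mem_bot]
    refine inf_eq_bot (hC w hw1 ?_) hx (Subgroup.mem_centralizer_iff.mp hwS.2 x hx)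
    rw [Cfsg.Agent.H17.PC.mem_omega_center]
    exact ⟨hwS.1, Subgroup.mem_centralizer_iff.mpr hwc, hwp⟩
  -- `z` is central modulo `O`
  have hzO : z ∈ O := by
    rw [← QuotientGroup.eq_one_iff]
    have h1 : (z : G ⧸ O) ∈ Subgroup.center (G ⧸ O) := by
      rw [Subgroup.mem_center_iff]
      intro g
      obtain ⟨g, rfl⟩ := QuotientGroup.mk_surjective g
      rw [← QuotientGroup.mk_mul, ← QuotientGroup.mk_mul, QuotientGroup.eq]
      apply hCO
      rw [Subgroup.mem_centralizer_iff]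
      intro x hx
      have h2 : g⁻¹ * (z * x * z⁻¹) * g = (g⁻¹ * x * g)⁻¹ := by rw [hinv x hx]; group
      have h3 : z * (g⁻¹ * x * g) * z⁻¹ = (g⁻¹ * x * g)⁻¹ := by
        apply hinv
        have := hN.conj_mem x hx g⁻¹
        rwa [inv_inv] at this
      rw [← h3] at h2
      have h4 : z * x * z⁻¹ = x⁻¹ := hinv x hx
      -- want `x * ((g z)⁻¹ (z g)) = ((g z)⁻¹ (z g)) * x`
      have hgx : ∀ y ∈ O, z⁻¹ * y * z = y⁻¹ := by
        intro y hy
        have := hinv y hy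
        rw [hzi] at this ⊢
        exact this
      have h5 : g * x * g⁻¹ ∈ O := hN.conj_mem x hx g
      have h6 : z * (g * x * g⁻¹) * z⁻¹ = (g * x * g⁻¹)⁻¹ := hinv _ h5
      have h7 : z⁻¹ * x⁻¹ * z = x := by rw [hgx _ (O.inv_mem hx), inv_inv]
      calc x * ((g * z)⁻¹ * (z * g)) = (z⁻¹ * x⁻¹ * z) * ((g * z)⁻¹ * (z * g)) := by rw [h7]
        _ = z⁻¹ * g⁻¹ * (g * x * g⁻¹)⁻¹ * z * g := by group
        _ = z⁻¹ * g⁻¹ * (z * (g * x * g⁻¹) * z⁻¹) * z * g := by rw [h6]
        _ = (g * z)⁻¹ * (z * g) * x := by group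
    rw [hZ] at h1
    exact h1
  have h1 : orderOf z ∣ Nat.card O := by
    have := orderOf_dvd_natCard (⟨z, hzO⟩ : O)
    rwa [Subgroup.orderOf_mk] at this
  rw [orderOf_eq_prime hzp hz1] at h1
  exact (Nat.Prime.coprime_iff_not_dvd Nat.prime_two).mp (Nat.coprime_comm.mp hcop) h1

end Cfsg.Agent.S2898
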