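import Cfsg.Statements.S2905
import Cfsg.Agent.H17_PMin

set_option autoImplicit false
open Cfsg

namespace Cfsg.Agent.S2905

/-- Let P be a finite p-minimal group (a Sylow p-subgroup S is not normal and lies in a unique maximal subgroup M of P) and let F be the normal core of M. Then: every subnormal subgroup N of P contained in M satisfies N ∩ S ≤ O_p(P); if O^p(P) has a normal Sylow p-subgroup then the order of P has at most two prime divisors; every normal subgroup N of P either contains O^p(P) or is contained in F; and O^p(P)F ⧸ F is a minimal normal subgroup of P ⧸ F. -/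
theorem result {P : Type*} [Group P] [Finite P] {p : ℕ} [Fact p.Prime] (hP : Cfsg.IsPMinimal p P) (S : Sylow p P) (M : Subgroup P) (hM : IsCoatom M) (hSM : (S : Subgroup P) ≤ M) [hF : M.normalCore.Normal] : (∀ N : Subgroup P, N.IsSubnormal → N ≤ M → N ⊓ (S : Subgroup P) ≤ Cfsg.pCore p P) ∧ ((∀ T : Sylow p ↥(Cfsg.pResidual p P), (T : Subgroup ↥(Cfsg.pResidual p P)).Normal) → (Nat.card P).primeFactors.card ≤ 2) ∧ (∀ N : Subgroup P, N.Normal → Cfsg.pResidual p P ≤ N ∨ N ≤ M.normalCore) ∧ (∀ N : Subgroup P, N.Normal → M.normalCore ≤ N → N ≤ Cfsg.pResidual p P ⊔ M.normalCore → N = M.normalCore ∨ N = Cfsg.pResidual p P ⊔ M.normalCore) ∧ M.normalCore < Cfsg.pResidual p P ⊔ M.normalCore := by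
  have hpp : p.Prime := Fact.out
  have hu := Cfsg.Agent.H17.PMin.uq_of hP S hM hSM
  have hdich := fun (N : Subgroup P) (hN : N.Normal) => Cfsg.Agent.H17.PMin.normal_dich hu hN
  refine ⟨fun N hN hNM => Cfsg.Agent.H17.PMin.subnormal_inf_le hu hN hNM, ?_, ?_, ?_, ?_⟩
  · intro hT
    set K := Cfsg.pResidual p P with hK
    obtain ⟨T⟩ : Nonempty (Sylow p ↥K) := inferInstance
    have hTn := hT T
    have hKn : K.Normal := inferInstance
    set T₀ := (T : Subgroup K).map K.subtype with hT₀
    have hTc : (T : Subgroup K).Characteristic := Sylow.characteristic_of_normal T hTn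
    have hT₀n : T₀.Normal := by
      rw [← Subgroup.normalizer_eq_top_iff, eq_top_iff]
      have h1 := Cfsg.Agent.H11.Cores.le_normalizer_map_subtype_of_characteristic K (T : Subgroup K)
      rwa [Subgroup.normalizer_eq_top_iff.mpr hKn] at h1
    have hT₀p : IsPGroup p T₀ := T.2.map _
    have hT₀S : T₀ ≤ (S : Subgroup P) := by
      have h1 : T₀ ⊔ (S : Subgroup P) = S := S.3 (hT₀p.to_sup_of_normal_left S.2) le_sup_right
      rw [← h1]; exact le_sup_left
    let π := QuotientGroup.mk' T₀
    have hu' : Cfsg.Agent.H17.PMin.Uq ((S : Subgroup P).map π) (M.map π) := by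
      refine ⟨Subgroup.map_mono hSM, ?_, ?_⟩
      · intro h
        apply hM.1
        have h2 : M ⊔ T₀ = ⊤ := Cfsg.Agent.H17.Base.map_mk_eq_top_iff.mp h
        rwa [sup_eq_left.mpr (hT₀S.trans hSM)] at h2
      · intro H hH hH1
        have h2 : H.comap π ≤ M := by
          apply hu.2.2
          · exact Subgroup.map_le_iff_le_comap.mp hH
          · intro h3
            apply hH1
            rw [← Subgroup.map_comap_eq_self_of_surjective (QuotientGroup.mk'_surjective T₀) H, h3,
              Subgroup.map_top_of_surjective _ (QuotientGroup.mk'_surjective T₀)]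
        rw [← Subgroup.map_comap_eq_self_of_surjective (QuotientGroup.mk'_surjective T₀) H]
        exact Subgroup.map_mono h2
    have hKc : (Nat.card (K.map π)).Coprime p := by
      rw [Nat.coprime_comm, Nat.Prime.coprime_iff_not_dvd hpp]
      intro hd
      have h1 : Cfsg.Agent.H17.Base.IsSylowIn p (T₀.map π) (K.map π) :=
        (Cfsg.Agent.H17.Base.isSylowIn_map T).map_hom π
      have h2 : T₀.map π = ⊥ := by
        rw [Subgroup.map_eq_bot_iff, QuotientGroup.ker_mk']
      rw [h2] at h1
      apply (h1.toSylow).ne_bot_of_dvd_card hd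
      rw [eq_bot_iff]
      intro x hx
      have h3 : (x : P ⧸ T₀) ∈ (⊥ : Subgroup (P ⧸ T₀)) := hx
      rw [Subgroup.mem_bot] at h3
      exact Subtype.ext h3
    have hKS : K.map π ⊔ (S : Subgroup P).map π = ⊤ := by
      rw [← Subgroup.map_sup, sup_comm, Cfsg.Agent.H2.Fusion2.sup_pResidual S,
        Subgroup.map_top_of_surjective _ (QuotientGroup.mk'_surjective T₀)]
    obtain ⟨r, hr, R, hR, hRS, hSR⟩ := Cfsg.Agent.H17.PMin.two_primes (S.2.map π) hu'
      (Subgroup.Normal.map hKn π (QuotientGroup.mk'_surjective T₀)) hKc hKS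
    have hsub : (Nat.card P).primeFactors ⊆ {p, r} := by
      intro q hq
      have hqp : q.Prime := Nat.prime_of_mem_primeFactors hq
      have hqd : q ∣ Nat.card P := Nat.dvd_of_mem_primeFactors hq
      rw [Finset.mem_insert, Finset.mem_singleton]
      by_contra hcon
      push Not at hcon
      obtain ⟨hqp', hqr'⟩ := hcon
      have h1 : Nat.card P = Nat.card (P ⧸ T₀) * Nat.card T₀ := Subgroup.card_eq_card_quotient_mul_card_subgroup T₀
      rw [h1] at hqd
      obtain ⟨a, ha⟩ := IsPGroup.iff_card.mp hT₀p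
      obtain ⟨b, hb⟩ := IsPGroup.iff_card.mp (S.2.map π)
      have : Fact r.Prime := ⟨hr⟩
      obtain ⟨c, hc⟩ := IsPGroup.iff_card.mp hR
      rcases (Nat.Prime.dvd_mul hqp).mp hqd with h | h
      · have h2 := Cfsg.Agent.H1.Basic.card_sup_mul_card_inf (H := (S : Subgroup P).map π) (K := R) hSR
        rw [sup_comm, hRS, Subgroup.card_top] at h2
        have h3 : q ∣ Nat.card ((S : Subgroup P).map π) * Nat.card R := by
          rw [← h2]; exact Dvd.dvd.mul_right h _
        rw [hb, hc] at h3
        rcases (Nat.Prime.dvd_mul hqp).mp h3 with h4 | h4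
        · exact hqp' ((Nat.prime_dvd_prime_iff_eq hqp hpp).mp (hqp.dvd_of_dvd_pow h4))
        · exact hqr' ((Nat.prime_dvd_prime_iff_eq hqp hr).mp (hqp.dvd_of_dvd_pow h4))
      · rw [ha] at h
        exact hqp' ((Nat.prime_dvd_prime_iff_eq hqp hpp).mp (hqp.dvd_of_dvd_pow h))
    calc (Nat.card P).primeFactors.card ≤ ({p, r} : Finset ℕ).card := Finset.card_le_card hsub
      _ ≤ 2 := Finset.card_le_two
  · intro N hN
    rcases hdich N hN with h | h
    · exact Or.inl h
    · exact Or.inr (Subgroup.normal_le_normalCore.mpr h)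
  · intro N hN hFN hNle
    rcases hdich N hN with h | h
    · right
      exact le_antisymm hNle (sup_le h hFN)
    · left
      exact le_antisymm (Subgroup.normal_le_normalCore.mpr h) hFN
  · refine lt_of_le_of_ne le_sup_right ?_
    intro h
    apply Cfsg.Agent.H17.PMin.res_not_le hu
    refine le_trans ?_ M.normalCore_le
    rw [h]; exact le_sup_left

end Cfsg.Agent.S2905
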