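import Cfsg.Statements.S2907

set_option autoImplicit false
open Cfsg

namespace Cfsg.Agent.S2907

/-- Let X be a finite semi-extraspecial p-group and x an element of X outside the centre. Then the index of C_X(x) in X equals the order of Z(X), and the commutators [x, y], y ∈ X, form exactly the centre Z(X). -/
theorem result {X : Type*} [Group X] [Finite X] {p : ℕ} [Fact p.Prime] (hX : Cfsg.IsSemiExtraspecial p X) (x : X) (hx : x ∉ Subgroup.center X) : (Subgroup.centralizer ({x} : Set X)).index = Nat.card ↥(Subgroup.center X) ∧ {z : X | ∃ y : X, z = x * y * x⁻¹ * y⁻¹} = (Subgroup.center X : Set X) := by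
  obtain ⟨⟨hXp, hX1, hX2⟩, hY⟩ := hX
  have hcen : ∀ y : X, x * y * x⁻¹ * y⁻¹ ∈ Subgroup.center X := by
    intro y
    rw [← hX2]
    exact Subgroup.commutator_mem_commutator (Subgroup.mem_top x) (Subgroup.mem_top y)
  let f : X →* X :=
    { toFun := fun y => x * y * x⁻¹ * y⁻¹
      map_one' := by group
      map_mul' := fun y z => by
        have h1 := (Subgroup.mem_center_iff.1 (hcen z) y)
        have h2 : x * (y * z) * x⁻¹ * (y * z)⁻¹ = x * y * x⁻¹ * y⁻¹ * (y * (x * z * x⁻¹ * z⁻¹) * y⁻¹) := by group
        rw [h2, h1]; group }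
  have hfle : f.range ≤ Subgroup.center X := by
    rintro _ ⟨y, rfl⟩; exact hcen y
  have hran : f.range = Subgroup.center X := by
    apply le_antisymm hfle
    by_contra hne
    have h1 : f.range.subgroupOf (Subgroup.center X) ≠ ⊤ := by
      intro h; rw [Subgroup.subgroupOf_eq_top] at h; exact hne h
    obtain ⟨M, hM, hle⟩ := (eq_top_or_exists_le_coatom (f.range.subgroupOf (Subgroup.center X))).resolve_left h1
    obtain ⟨hYn, ⟨-, -, hs⟩, -⟩ := hY (M.map (Subgroup.center X).subtype) (Subgroup.map_subtype_le _) (by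
      have : (M.map (Subgroup.center X).subtype).subgroupOf (Subgroup.center X) = M := by
        unfold Subgroup.subgroupOf
        exact Subgroup.comap_map_eq_self_of_injective (Subgroup.subtype_injective _) M
      rw [this]; exact hM)
    have h2 : QuotientGroup.mk' (M.map (Subgroup.center X).subtype) x ∈ Subgroup.center (X ⧸ (M.map (Subgroup.center X).subtype)) := by
      rw [Subgroup.mem_center_iff]
      intro z
      obtain ⟨z, rfl⟩ := QuotientGroup.mk'_surjective _ z
      rw [← map_mul, ← map_mul]
      symm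
      rw [← mul_inv_eq_one, ← map_inv, ← map_mul, ← MonoidHom.mem_ker, QuotientGroup.ker_mk']
      have h3 : x * z * x⁻¹ * z⁻¹ ∈ f.range := ⟨z, rfl⟩
      have h4 := hle (Subgroup.mem_subgroupOf.2 (show ((⟨_, hfle h3⟩ : Subgroup.center X) : X) ∈ f.range from h3))
      refine ⟨_, h4, ?_⟩
      show x * z * x⁻¹ * z⁻¹ = x * z * (z * x)⁻¹
      group
    rw [← hs] at h2
    have h5 : ∀ (N : Subgroup X) [N.Normal], commutator (X ⧸ N) = (commutator X).map (QuotientGroup.mk' N) := by
      intro N _
      rw [commutator_def, commutator_def, Subgroup.map_commutator,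
        Subgroup.map_top_of_surjective _ (QuotientGroup.mk'_surjective _)]
    rw [h5, hX2] at h2
    obtain ⟨z, hz, hzx⟩ := h2
    have h6 : z⁻¹ * x ∈ M.map (Subgroup.center X).subtype := QuotientGroup.eq.1 hzx
    have h7 := mul_mem hz (Subgroup.map_subtype_le _ h6)
    rw [mul_inv_cancel_left] at h7
    exact hx h7
  constructor
  · have hk : Subgroup.centralizer ({x} : Set X) = f.ker := by
      ext y
      rw [Subgroup.mem_centralizer_singleton_iff, MonoidHom.mem_ker]
      show _ ↔ x * y * x⁻¹ * y⁻¹ = 1
      rw [mul_inv_eq_one, mul_inv_eq_iff_eq_mul]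
      exact eq_comm
    rw [hk, Subgroup.index_ker, hran]
  · rw [← hran]
    ext z
    constructor
    · rintro ⟨y, rfl⟩; exact ⟨y, rfl⟩
    · rintro ⟨y, rfl⟩; exact ⟨y, rfl⟩

end Cfsg.Agent.S2907
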