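import Cfsg.Statements.S2910
import Cfsg.Agent.H22_Coprime3
import Cfsg.Agent.H2_Fusion3

set_option autoImplicit false
open Cfsg

namespace Cfsg.Agent.S2910

/-- Let p be an odd prime dividing the order of the finite group G and P a Sylow p-subgroup of G. If Ω₁(P) (generated by the elements of order dividing p) is contained in the centre of G, then G has a normal p-complement. In particular, if G is quasisimple then Ω₁(P) is not central in G. -/
theorem result {G : Type*} [Group G] [Finite G] {p : ℕ} [Fact p.Prime] (hp : p ≠ 2) (hdiv : p ∣ Nat.card G) (P : Sylow p G) (hZ : Cfsg.omegaOne p (P : Subgroup G) ≤ Subgroup.center G) : Cfsg.HasNormalPComplement p G ∧ ¬ Cfsg.IsQuasisimple G := by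
  have hnpc : Cfsg.HasNormalPComplement p G := by
    apply Cfsg.Agent.H2.Fusion3.npc_of_frobenius_sylow P
    intro Q hQ g hg hgp
    have hQp : IsPGroup p Q := P.2.to_le hQ
    have h1 := Cfsg.Agent.H22.Coprime3.omega_one hp (A := Subgroup.zpowers g) (K := Q)
      (by rwa [Subgroup.zpowers_le]) hQp (by rwa [Nat.card_zpowers]) (by
        intro x hx hxp a _
        have h2 : x ∈ Cfsg.omegaOne p (P : Subgroup G) := Subgroup.subset_closure ⟨hQ hx, hxp⟩
        exact Subgroup.mem_center_iff.mp (hZ h2) a)
    exact h1 (Subgroup.mem_zpowers g)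
  refine ⟨hnpc, ?_⟩
  rintro ⟨hperf, _⟩
  obtain ⟨N, hN, hNp, k, hk⟩ := Cfsg.Agent.H2.Basic.npc_iff.mp hnpc
  have hq : IsPGroup p (G ⧸ N) := IsPGroup.of_card (n := k) (by rw [← Subgroup.index_eq_card]; exact hk)
  have hsol : Group.IsSolvable (G ⧸ N) := by
    have := hq.isNilpotent
    infer_instance
  have hN1 : N = ⊤ := by
    by_contra hne
    have : Nontrivial (G ⧸ N) := by
      rw [QuotientGroup.nontrivial_iff]
      exact hne
    have h2 := Group.IsSolvable.commutator_lt_top_of_nontrivial (G ⧸ N)
    have h3 : commutator (G ⧸ N) = ⊤ := by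
      have h4 : (commutator G).map (QuotientGroup.mk' N) = commutator (G ⧸ N) := by
        rw [commutator_def, Subgroup.map_commutator, Subgroup.map_top_of_surjective _ (QuotientGroup.mk'_surjective N)]
        rfl
      rw [← h4, Group.isPerfect_def.mp hperf, Subgroup.map_top_of_surjective _ (QuotientGroup.mk'_surjective N)]
    exact h2.ne h3
  rw [hN1, Subgroup.card_top] at hNp
  exact hNp hdiv

end Cfsg.Agent.S2910
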