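import Cfsg.Statements.S2911
import Cfsg.Agent.H17_TrS
import Cfsg.Agent.H19_Transfer

set_option autoImplicit false
open Cfsg

namespace Cfsg.Agent.S2911

/-- central factor -/
abbrev cc : Multiplicative (ZMod 2) × DihedralGroup 4 := (Multiplicative.ofAdd 1, 1)
/-- the square -/
abbrev dd : Multiplicative (ZMod 2) × DihedralGroup 4 := (1, DihedralGroup.r 2)

theorem f1 : cc * cc = 1 := by decide
theorem f2 : ∀ x : Multiplicative (ZMod 2) × DihedralGroup 4, x * cc = cc * x := by decide
theorem f3 : ∀ x : Multiplicative (ZMod 2) × DihedralGroup 4, x * x = 1 ∨ x * x = dd := by decide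
theorem f4 : ∃ x : Multiplicative (ZMod 2) × DihedralGroup 4, x * x = dd := by decide
theorem f5 : ∀ x : Multiplicative (ZMod 2) × DihedralGroup 4, (∀ y, x * y = y * x) →
      x = 1 ∨ x = dd ∨ x = cc ∨ x = cc * dd := by decide
theorem f6 : dd ≠ 1 := by decide
theorem f7 : cc ≠ dd := by decide
theorem f8 : cc ≠ 1 := by decide
theorem f9 : dd * dd = 1 := by decide
theorem f10 : Multiplicative.ofAdd (1 : ZMod 2) ≠ 1 := by decide
/-- A finite group whose Sylow 2-subgroups are isomorphic to the direct product of a group of order 2 and a dihedral group of order 8 has a subgroup of index two. -/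
theorem result {G : Type*} [Group G] [Finite G] (S : Sylow 2 G) (hS : Nonempty (↥(S : Subgroup G) ≃* Multiplicative (ZMod 2) × DihedralGroup 4)) : ∃ H : Subgroup G, H.index = 2 := by
  classical
  have : Fact (Nat.Prime 2) := ⟨Nat.prime_two⟩
  obtain ⟨e⟩ := hS
  have hc1 := f1
  have hcc := f2
  have hsq := f3
  have hsd := f4
  have hZ := f5
  have hd1 := f6
  have hcd := f7
  have hcne := f8
  have hddd := f9
  set c : ↥(S : Subgroup G) := e.symm cc with hc
  set d : ↥(S : Subgroup G) := e.symm dd with hd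
  have tr : ∀ x y : ↥(S : Subgroup G), e x = e y → x = y := fun x y h => e.injective h
  have hsqS : ∀ s : ↥(S : Subgroup G), s * s = 1 ∨ s * s = d := by
    intro s
    rcases hsq (e s) with h | h
    · left; apply tr; rw [map_mul, h, map_one]
    · right; apply tr; rw [map_mul, h, hd, e.apply_symm_apply]
  have hsdS : ∃ s : ↥(S : Subgroup G), s * s = d := by
    obtain ⟨x, hx⟩ := hsd
    exact ⟨e.symm x, by rw [← map_mul, hx]⟩
  have hd1S : d ≠ 1 := by
    intro h
    apply hd1
    rw [← e.apply_symm_apply dd, ← hd, h, map_one]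
  have hcS : ∀ s : ↥(S : Subgroup G), s * c = c * s := by
    intro s
    apply tr
    rw [map_mul, map_mul, hc, e.apply_symm_apply, hcc]
  have hc2 : (c : G) * c = 1 := by
    have : c * c = 1 := by rw [hc, ← map_mul, hc1, map_one]
    exact congrArg Subtype.val this
  have hZS : ∀ x : ↥(S : Subgroup G), (∀ y, x * y = y * x) → x = 1 ∨ x = d ∨ x = c ∨ x = c * d := by
    intro x hx
    have h1 : ∀ y, e x * y = y * e x := by
      intro y
      rw [← e.apply_symm_apply y, ← map_mul, hx, map_mul]
    rcases hZ _ h1 with h | h | h | h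
    · left; apply tr; rw [h, map_one]
    · right; left; apply tr; rw [h, hd, e.apply_symm_apply]
    · right; right; left; apply tr; rw [h, hc, e.apply_symm_apply]
    · right; right; right; apply tr; rw [h, map_mul, hc, hd, e.apply_symm_apply, e.apply_symm_apply]
  have hN : ∀ g ∈ Subgroup.normalizer ((S : Subgroup G) : Set G), g * (c : G) * g⁻¹ = c := by
    intro g hg
    have hgS : ∀ s : ↥(S : Subgroup G), g * s * g⁻¹ ∈ (S : Subgroup G) := fun s =>
      (Subgroup.mem_normalizer_iff.mp hg s).mp s.2
    have hgS' : ∀ s : ↥(S : Subgroup G), g⁻¹ * s * g ∈ (S : Subgroup G) := fun s => by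
      have := (Subgroup.mem_normalizer_iff.mp (Subgroup.inv_mem _ hg) s).mp s.2
      rwa [inv_inv] at this
    have hgd : g * (d : G) * g⁻¹ = d := by
      obtain ⟨s, hs⟩ := hsdS
      have h1 : (⟨_, hgS s⟩ : ↥(S : Subgroup G)) * ⟨_, hgS s⟩ = ⟨_, hgS d⟩ := by
        apply Subtype.ext
        show g * (s : G) * g⁻¹ * (g * (s : G) * g⁻¹) = g * (d : G) * g⁻¹
        rw [← hs, Subgroup.coe_mul]; group
      rcases hsqS ⟨_, hgS s⟩ with h2 | h2
      · exfalso
        rw [h1] at h2
        have h3 : g * (d : G) * g⁻¹ = 1 := congrArg Subtype.val h2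
        apply hd1S
        apply Subtype.ext
        show (d : G) = 1
        calc (d : G) = g⁻¹ * (g * (d : G) * g⁻¹) * g := by group
          _ = 1 := by rw [h3]; group
      · rw [h1] at h2
        exact congrArg Subtype.val h2
    have hcent : ∀ y : ↥(S : Subgroup G), (⟨_, hgS c⟩ : ↥(S : Subgroup G)) * y = y * ⟨_, hgS c⟩ := by
      intro y
      apply Subtype.ext
      show g * (c : G) * g⁻¹ * y = y * (g * (c : G) * g⁻¹)
      have h1 : (g⁻¹ * y * g) * (c : G) = c * (g⁻¹ * y * g) := congrArg Subtype.val (hcS ⟨_, hgS' y⟩)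
      calc g * (c : G) * g⁻¹ * y = g * (c * (g⁻¹ * y * g)) * g⁻¹ := by group
        _ = g * ((g⁻¹ * y * g) * (c : G)) * g⁻¹ := by rw [h1]
        _ = _ := by group
    rcases hZS _ hcent with h | h | h | h
    · exfalso
      have h3 : g * (c : G) * g⁻¹ = 1 := congrArg Subtype.val h
      apply hcne
      have h4 : (c : G) = 1 := by
        calc (c : G) = g⁻¹ * (g * (c : G) * g⁻¹) * g := by group
          _ = 1 := by rw [h3]; group
      have h5 : c = 1 := Subtype.ext h4
      rw [← e.apply_symm_apply cc, ← hc, h5, map_one]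
    · exfalso
      have h3 : g * (c : G) * g⁻¹ = d := congrArg Subtype.val h
      rw [← hgd] at h3
      have h4 : (c : G) = d := by
        have := mul_left_cancel (mul_right_cancel h3)
        exact this
      apply hcd
      have h5 : c = d := Subtype.ext h4
      rw [← e.apply_symm_apply cc, ← hc, h5, hd, e.apply_symm_apply]
    · exact congrArg Subtype.val h
    · exfalso
      have h3 : g * (c : G) * g⁻¹ = c * d := congrArg Subtype.val h
      have hdd : (d : G) * d = 1 := by
        have : d * d = 1 := by rw [hd, ← map_mul, hddd, map_one]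
        exact congrArg Subtype.val this
      have h4 : ∀ k : ℕ, g ^ (2 * k) * (c : G) * (g ^ (2 * k))⁻¹ = c := by
        intro k
        induction k with
        | zero => simp
        | succ k ih =>
          have e1 : g ^ (2 * (k + 1)) * (c : G) * (g ^ (2 * (k + 1)))⁻¹ =
              g * (g * (g ^ (2 * k) * (c : G) * (g ^ (2 * k))⁻¹) * g⁻¹) * g⁻¹ := by
            rw [show 2 * (k + 1) = 1 + (1 + 2 * k) by ring, pow_add, pow_add, pow_one]; group
          rw [e1, ih, h3]
          calc g * ((c : G) * d) * g⁻¹ = (g * c * g⁻¹) * (g * d * g⁻¹) := by group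
            _ = c * (d * d) := by rw [h3, hgd, mul_assoc]
            _ = c := by rw [hdd, mul_one]
      obtain ⟨q, hq, hqS⟩ := Cfsg.Agent.H19.Transfer.exists_pow_mem S hg
      obtain ⟨j, rfl⟩ := Nat.coprime_two_right.mp hq
      have h5 : g ^ (2 * j + 1) * (c : G) * (g ^ (2 * j + 1))⁻¹ = c := by
        have : g ^ (2 * j + 1) * (c : G) = c * g ^ (2 * j + 1) := congrArg Subtype.val (hcS ⟨_, hqS⟩)
        rw [this]; group
      have h6 : g ^ (2 * j + 1) * (c : G) * (g ^ (2 * j + 1))⁻¹ = c * d := by
        rw [← h3]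
        have e1 : g ^ (2 * j + 1) * (c : G) * (g ^ (2 * j + 1))⁻¹ =
            g * (g ^ (2 * j) * (c : G) * (g ^ (2 * j))⁻¹) * g⁻¹ := by
          rw [show 2 * j + 1 = 1 + 2 * j by ring, pow_add, pow_one]; group
        rw [e1, h4]
      rw [h5] at h6
      have h7 : (d : G) = 1 := (mul_eq_left.mp h6.symm)
      exact hd1S (Subtype.ext h7)
  let φ : ↥(S : Subgroup G) →* Multiplicative (ZMod 2) := (MonoidHom.fst _ _).comp e.toMonoidHom
  have hφ : Function.Surjective φ := fun x => ⟨e.symm (x, 1), by simp [φ]⟩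
  obtain ⟨f, hf⟩ := Cfsg.Agent.H17.TrS.exists_hom S c.2
    (fun s hs => congrArg Subtype.val (hcS ⟨s, hs⟩)) hc2
    (φ.ker.map (S : Subgroup G).subtype) (Subgroup.map_subtype_le _)
    (by
      rintro s hs _ ⟨m, hm, rfl⟩
      exact ⟨⟨s, hs⟩ * m * ⟨s, hs⟩⁻¹, (inferInstance : φ.ker.Normal).conj_mem m hm _, rfl⟩)
    (by
      have h1 : (φ.ker.map (S : Subgroup G).subtype).subgroupOf (S : Subgroup G) = φ.ker := by
        rw [Subgroup.subgroupOf, Subgroup.comap_map_eq_self_of_injective (S : Subgroup G).subtype_injective]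
      rw [Subgroup.relIndex, h1, Subgroup.index_ker, MonoidHom.range_eq_top.mpr hφ, Subgroup.card_top,
        Nat.card_eq_fintype_card]
      decide)
    (by
      rintro ⟨m, hm, hmz⟩
      have h2 : m = c := Subtype.ext hmz
      rw [h2] at hm
      have h3 : φ c = 1 := hm
      have h4 : φ c = Multiplicative.ofAdd 1 := by
        show (e c).1 = _
        rw [hc, e.apply_symm_apply]
      rw [h4] at h3
      exact f10 h3)
    (fun g hg => hN g hg)
  refine ⟨f.ker, ?_⟩
  rw [Subgroup.index_ker]
  have h1 : f.range = ⊤ := by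
    rw [MonoidHom.range_eq_top]
    intro u
    rcases Int.units_eq_one_or u with h | h
    · exact ⟨1, by rw [map_one, h]⟩
    · exact ⟨c, by rw [hf, h]⟩
  rw [h1, Subgroup.card_top, Nat.card_eq_fintype_card]
  decide

end Cfsg.Agent.S2911
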