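import Cfsg.Statements.S2924
import Cfsg.Agent.H18_Gen
import Cfsg.Agent.H18_CharP2
import Cfsg.Agent.H1_Coprime2
import Cfsg.Agent.H11_FStar

set_option autoImplicit false
open Cfsg

namespace Cfsg.Agent.S2924

open Subgroup Cfsg.Agent.H18.CharP Cfsg.Agent.H18.CharP2
open scoped commutatorElement

section
universe u
variable {X : Type u} [Group X] [Finite X]

/-- the odd core of the centralizer of `y`, as a subgroup of `X`. -/
abbrev th (y : X) : Subgroup X :=
  (Cfsg.oddCore ↥(Subgroup.centralizer ({y} : Set X))).map (Subgroup.centralizer ({y} : Set X)).subtype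

omit [Finite X] in
theorem th_le (y : X) : th y ≤ centralizer {y} := map_subtype_le _

omit [Finite X] in
theorem mem_cs {x y : X} : x ∈ centralizer ({y} : Set X) ↔ x * y = y * x := mem_centralizer_singleton_iff

theorem th_coprime (y : X) : (Nat.card (th y)).Coprime 2 := by
  rw [card_map_of_injective (subtype_injective _)]
  exact Cfsg.Agent.H11.Cores.pPrimeCore_coprime 2

omit [Finite X] in
theorem le_normalizer_th (y : X) : centralizer {y} ≤ normalizer (th y : Set X) := by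
  exact (le_normalizer).trans (Cfsg.Agent.H11.Cores.le_normalizer_map_subtype_of_characteristic _ _)

theorem le_th {y : X} {D : Subgroup X} (hD : D ≤ centralizer {y}) (hn : centralizer {y} ≤ normalizer (D : Set X))
    (hc : (Nat.card D).Coprime 2) : D ≤ th y := by
  have h1 : D.subgroupOf (centralizer {y}) ≤ Cfsg.oddCore ↥(Subgroup.centralizer ({y} : Set X)) := by
    haveI : (D.subgroupOf (centralizer {y})).Normal := (normal_subgroupOf_iff_le_normalizer hD).mpr hn
    apply Cfsg.Agent.H11.Cores.le_pPrimeCore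
    rw [Cfsg.Agent.H2.Card.card_subgroupOf_of_le hD]; exact hc
  intro d hd
  exact ⟨⟨d, hD hd⟩, h1 (mem_subgroupOf.mpr hd), rfl⟩

omit [Finite X] in
theorem odd_of_mem {D : Subgroup X} (hc : (Nat.card D).Coprime 2) {d : X} (hd : d ∈ D) : (orderOf d).Coprime 2 := by
  have : orderOf d ∣ Nat.card D := orderOf_dvd_natCard D hd
  exact Nat.Coprime.coprime_dvd_left this hc

omit [Finite X] in
theorem comm_mem {Q R : Subgroup X} {r q : X} (hr : r ∈ R) (hq : q ∈ Q)
    (hrQ : r ∈ normalizer (Q : Set X)) (hqR : q ∈ normalizer (R : Set X)) : ⁅r, q⁆ ∈ Q ⊓ R := by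
  rw [commutatorElement_def]
  refine ⟨Q.mul_mem ((mem_normalizer_iff.mp hrQ q).mp hq) (Q.inv_mem hq), ?_⟩
  have h := R.mul_mem hr ((mem_normalizer_iff.mp hqR r⁻¹).mp (R.inv_mem hr))
  have e : r * q * r⁻¹ * q⁻¹ = r * (q * r⁻¹ * q⁻¹) := by group
  rw [e]; exact h

theorem pgroup_inf_eq_bot {U D : Subgroup X} (hU : IsPGroup 2 U) (hD : (Nat.card D).Coprime 2) : U ⊓ D = ⊥ := by
  haveI : Fact (Nat.Prime 2) := ⟨Nat.prime_two⟩
  apply inf_eq_bot_of_coprime
  obtain ⟨n, hn⟩ := IsPGroup.iff_card.mp hU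
  rw [hn]; exact Nat.Coprime.pow_left _ hD.symm

omit [Finite X] in
theorem normalizes_inf {u : X} {A B : Subgroup X} (hA : u ∈ normalizer (A : Set X)) (hB : u ∈ normalizer (B : Set X)) :
    u ∈ normalizer ((A ⊓ B : Subgroup X) : Set X) := by
  rw [mem_normalizer_iff]
  intro x
  have h1 := mem_normalizer_iff.mp hA x
  have h2 := mem_normalizer_iff.mp hB x
  simp only [mem_inf]
  rw [← h1, ← h2]

/-- the odd core of `C(y)`, intersected with `C(t)`, centralizes `O_2(C(t))`. -/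
theorem centralizes_o2 {y t : X} (hy : IsPGroup 2 (zpowers y)) (hyt : y * t = t * y) :
    th y ⊓ centralizer {t} ≤ centralizer ((oP 2 (centralizer {t}) : Subgroup X) : Set X) := by
  haveI : Fact (Nat.Prime 2) := ⟨Nat.prime_two⟩
  have hDc : (Nat.card (th y ⊓ centralizer {t} : Subgroup X)).Coprime 2 :=
    Nat.Coprime.coprime_dvd_left (card_dvd_of_le inf_le_left) (th_coprime y)
  have hU : IsPGroup 2 (oP 2 (centralizer ({t} : Set X)) : Subgroup X) := oP_isPGroup _
  have hCN : centralizer ({t} : Set X) ≤ normalizer ((oP 2 (centralizer {t}) : Subgroup X) : Set X) :=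
    le_normalizer.trans (le_normalizer_oP _)
  apply Cfsg.Agent.H1.Coprime.p_times_q 2 (zpowers y) _ _ hy hDc hU
  · rw [zpowers_le, mem_centralizer_iff]
    intro d hd
    exact mem_cs.mp (th_le y hd.1)
  · rw [zpowers_le]
    exact hCN (mem_cs.mpr hyt)
  · exact inf_le_right.trans hCN
  · rintro u ⟨huU, huy⟩
    rw [mem_centralizer_iff]
    intro d hd
    have huy' : u * y = y * u := (mem_centralizer_iff.mp huy y (mem_zpowers y)).symm
    have hut : u ∈ centralizer ({t} : Set X) := oP_le _ huU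
    have h1 := comm_mem hd huU (hCN hd.2) (normalizes_inf (le_normalizer_th y (mem_cs.mpr huy')) (le_normalizer hut))
    rw [pgroup_inf_eq_bot hU hDc, mem_bot, commutatorElement_eq_one_iff_mul_comm] at h1
    exact h1

theorem inverts {T : Subgroup X} {z : X} (hz : z * z = 1) (hzT : z ∈ normalizer (T : Set X))
    (hC : T ⊓ centralizer {z} = ⊥) {t : X} (ht : t ∈ T) : z * t * z⁻¹ = t⁻¹ := by
  have hmem : ∀ s : T, (s : X)⁻¹ * (z * s * z⁻¹) ∈ T := fun s =>
    T.mul_mem (T.inv_mem s.2) ((mem_normalizer_iff.mp hzT s).mp s.2)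
  have hinj : Function.Injective (fun s : T => (⟨(s : X)⁻¹ * (z * s * z⁻¹), hmem s⟩ : T)) := by
    intro s s' h
    have h1 : (s : X)⁻¹ * (z * s * z⁻¹) = (s' : X)⁻¹ * (z * s' * z⁻¹) := congrArg Subtype.val h
    have h2 : (s' : X) * (s : X)⁻¹ ∈ T ⊓ centralizer {z} := by
      refine ⟨T.mul_mem s'.2 (T.inv_mem s.2), mem_cs.mpr ?_⟩
      have h3 : (s' : X) * (s : X)⁻¹ = (z * s' * z⁻¹) * (z * s * z⁻¹)⁻¹ := by
        rw [eq_mul_inv_iff_mul_eq, mul_assoc, h1]; group
      have h4 : (z * s' * z⁻¹) * (z * s * z⁻¹)⁻¹ = z * ((s' : X) * (s : X)⁻¹) * z⁻¹ := by group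
      rw [h4] at h3
      conv_lhs => rw [h3]
      rw [inv_mul_cancel_right]
    rw [hC, mem_bot] at h2
    exact (Subtype.ext (mul_inv_eq_one.mp h2)).symm
  obtain ⟨s, hs⟩ := (Finite.surjective_of_injective hinj) ⟨t, ht⟩
  have hs : (s : X)⁻¹ * (z * s * z⁻¹) = t := congrArg Subtype.val hs
  have hz' : z⁻¹ = z := inv_eq_of_mul_eq_one_left hz
  rw [← hs]
  rw [hz']
  calc z * ((s : X)⁻¹ * (z * s * z)) * z = z * (s : X)⁻¹ * z * s * (z * z) := by group
    _ = (z * (s : X)⁻¹ * z) * s := by rw [hz, mul_one]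
    _ = (z⁻¹ * (s : X)⁻¹ * z⁻¹) * s := by rw [hz']
    _ = _ := by group

end

/-- Let X be a finite group and Y an elementary abelian 2-subgroup of X of order at least 8 such that C_X(x) has no components (E(C_X(x)) = 1) for every nontrivial x ∈ Y, and F*(C_X(z)) = O₂(C_X(z)) for some nontrivial z ∈ Y. Then the subgroup generated by the cores O(C_X(y)), y ∈ Y nontrivial, has odd order and is normalized by N_X(Y). -/
theorem result {X : Type*} [Group X] [Finite X] (Y : Subgroup X) (hY : Cfsg.IsElementaryAbelian 2 Y) (h8 : 8 ≤ Nat.card ↥Y) (hE : ∀ x ∈ Y, x ≠ 1 → Cfsg.layer ↥(Subgroup.centralizer ({x} : Set X)) = ⊥) (hz : ∃ z ∈ Y, z ≠ 1 ∧ Cfsg.generalizedFittingSubgroup ↥(Subgroup.centralizer ({z} : Set X)) = Cfsg.pCore 2 ↥(Subgroup.centralizer ({z} : Set X))) : Odd (Nat.card ↥(⨆ y : {y : X // y ∈ Y ∧ y ≠ 1}, (Cfsg.oddCore ↥(Subgroup.centralizer ({(y : X)} : Set X))).map (Subgroup.centralizer ({(y : X)} : Set X)).subtype)) ∧ Subgroup.normalizer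 (Y : Set X) ≤ Subgroup.normalizer ((⨆ y : {y : X // y ∈ Y ∧ y ≠ 1}, (Cfsg.oddCore ↥(Subgroup.centralizer ({(y : X)} : Set X))).map (Subgroup.centralizer ({(y : X)} : Set X)).subtype : Subgroup X) : Set X) := by
  classical
  haveI : Fact (Nat.Prime 2) := ⟨Nat.prime_two⟩
  obtain ⟨z, hzY, hz1, hzF⟩ := hz
  have hcomm : ∀ a ∈ Y, ∀ b ∈ Y, a * b = b * a := fun x hx y hy => by
    have := hY.1.is_comm.comm ⟨x, hx⟩ ⟨y, hy⟩
    simpa using congrArg Subtype.val this
  have hpg : ∀ y ∈ Y, IsPGroup 2 (zpowers y) := by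
    intro y hy
    rintro ⟨w, n, rfl⟩
    refine ⟨1, Subtype.ext ?_⟩
    have := hY.2 y hy
    show (y ^ n) ^ (2 ^ 1) = 1
    rw [pow_one, ← zpow_natCast, ← zpow_mul, mul_comm, zpow_mul, zpow_natCast, this, one_zpow]
  have hzz : z * z = 1 := by have := hY.2 z hzY; rwa [sq] at this
  -- `z` acts fixed point freely on each `th y`.
  have hCz : ∀ y ∈ Y, th y ⊓ centralizer {z} = ⊥ := by
    intro y hy
    rw [eq_bot_iff]
    intro d hd
    rw [mem_bot]
    have hchar : HasCharP 2 ↥(centralizer ({z} : Set X)) := hasCharP_iff.mpr hzF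
    apply hchar.elim hd.2 (odd_of_mem (th_coprime y) hd.1)
    intro u hu
    exact mem_centralizer_iff.mp (centralizes_o2 (hpg y hy) (hcomm y hy z hzY) hd) u hu
  have hinv : ∀ y ∈ Y, ∀ t ∈ th y, z * t * z⁻¹ = t⁻¹ := by
    intro y hy t ht
    exact inverts hzz (le_normalizer_th y (mem_cs.mpr (hcomm z hzY y hy))) (hCz y hy) ht
  have hab : ∀ y ∈ Y, ∀ s ∈ th y, ∀ t ∈ th y, s * t = t * s := by
    intro y hy s hs t ht
    have h1 := hinv y hy _ ((th y).mul_mem hs ht)
    have h2 : z * (s * t) * z⁻¹ = (z * s * z⁻¹) * (z * t * z⁻¹) := by group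
    rw [h2, hinv y hy s hs, hinv y hy t ht, mul_inv_rev] at h1
    have h3 := congrArg (·⁻¹) h1
    simpa using h3.symm
  -- balance
  have hbal : ∀ y ∈ Y, y ≠ 1 → ∀ t ∈ Y, t ≠ 1 → th y ⊓ centralizer {t} ≤ th t := by
    intro y hy hy1 t ht ht1 d hd
    have hdo := odd_of_mem (th_coprime y) hd.1
    have h1 := centralizes_o2 (hpg y hy) (hcomm y hy t ht) hd
    -- `d` centralizes `th t`
    have h2 : ∀ q ∈ th t, d * q = q * d := by
      intro q hq
      have hdi := hinv y hy d hd.1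
      have hqi := hinv t ht q hq
      have hdq : d * q * d⁻¹ ∈ th t := (mem_normalizer_iff.mp (le_normalizer_th t hd.2) q).mp hq
      have h3 := hinv t ht _ hdq
      have h4 : z * (d * q * d⁻¹) * z⁻¹ = (z * d * z⁻¹) * (z * q * z⁻¹) * (z * d * z⁻¹)⁻¹ := by group
      rw [h4, hdi, hqi] at h3
      -- d⁻¹ q⁻¹ d = d q⁻¹ d⁻¹
      have h5 : d⁻¹ * q * d = d * q * d⁻¹ := by
        have := congrArg (·⁻¹) h3
        simpa [mul_assoc] using this
      have h6 : Commute (d ^ 2) q := by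
        show d ^ 2 * q = q * d ^ 2
        rw [sq]
        calc d * d * q = d * (d * q * d⁻¹) * d := by group
          _ = d * (d⁻¹ * q * d) * d := by rw [h5]
          _ = q * (d * d) := by group
      obtain ⟨k, hk⟩ : ∃ k : ℕ, (d ^ 2) ^ k = d := by
        have hco : Nat.Coprime 2 (orderOf d) := hdo.symm
        obtain ⟨k, hk⟩ := exists_pow_eq_self_of_coprime hco
        exact ⟨k, hk⟩
      have := h6.pow_left k
      rwa [hk] at this
    -- Fitting subgroup
    set C := centralizer ({t} : Set X) with hC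
    have hFc := (Cfsg.Agent.H11.FStar.centralizer_fitting_le_iff (G := ↥C)).mpr (hE t ht ht1)
    have hsup := Cfsg.Agent.H1.Nilp.fitting_le_sup (G := ↥C) 2
    have hdC : d ∈ C := hd.2
    have hdF : (⟨d, hdC⟩ : ↥C) ∈ Cfsg.fittingSubgroup ↥C := by
      apply hFc
      rw [mem_centralizer_iff]
      intro f hf
      have hle : Cfsg.pCore 2 ↥C ⊔ Cfsg.pPrimeCore 2 ↥C ≤ centralizer ({(⟨d, hdC⟩ : ↥C)} : Set ↥C) := by
        rw [sup_le_iff]
        constructor
        · intro f hf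
          rw [mem_centralizer_singleton_iff]
          exact Subtype.ext (mem_centralizer_iff.mp h1 (f : X) ⟨f, hf, rfl⟩)
        · intro f hf
          rw [mem_centralizer_singleton_iff]
          exact Subtype.ext (h2 (f : X) ⟨f, hf, rfl⟩).symm
      exact mem_centralizer_singleton_iff.mp (hle (hsup hf))
    have hdS := hsup hdF
    have hmem : ∃ u ∈ Cfsg.pCore 2 ↥C, ∃ v ∈ Cfsg.pPrimeCore 2 ↥C, u * v = ⟨d, hdC⟩ := by
      haveI := Cfsg.Agent.H1.Nilp.pPrimeCore_normal (G := ↥C) 2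
      have hle : Cfsg.pCore 2 ↥C ≤ normalizer ((Cfsg.pPrimeCore 2 ↥C : Subgroup ↥C) : Set ↥C) := by
        rw [Subgroup.normalizer_eq_top]; exact le_top
      exact (Cfsg.Agent.H2.Card.mem_sup_iff hle).mp hdS
    obtain ⟨u, hu, v, hv, huv⟩ := hmem
    have huv' : (u : X) * v = d := congrArg Subtype.val huv
    have hud : (u : X) * d = d * u := mem_centralizer_iff.mp h1 (u : X) ⟨u, hu, rfl⟩
    have hvd : d * (v : X) = v * d := h2 v ⟨v, hv, rfl⟩
    -- `u = 1`
    have huo : (u : X) = d * (v : X)⁻¹ := by rw [← huv']; group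
    have hu1 : (u : X) = 1 := by
      apply eq_one_of_pgroup (R := oP 2 C) (oP_isPGroup C) _ ⟨u, hu, rfl⟩
      show (orderOf (u : X)).Coprime 2
      rw [huo]
      have hc : Commute d (v : X)⁻¹ := (show Commute d (v : X) from hvd).inv_right
      have h3 := hc.orderOf_mul_dvd_mul_orderOf
      refine Nat.Coprime.coprime_dvd_left h3 (Nat.Coprime.mul_left hdo ?_)
      rw [orderOf_inv]
      exact odd_of_mem (th_coprime t) ⟨v, hv, rfl⟩
    rw [← huv', hu1, one_mul]
    exact ⟨v, hv, rfl⟩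
  -- the pieces
  set W := (⨆ y : {y : X // y ∈ Y ∧ y ≠ 1}, th (y : X)) with hW
  let S : Set X := {x | ∃ y ∈ Y, y ≠ 1 ∧ ∃ B ≤ Y, B.relIndex Y = 2 ∧ x ∈ th y ⊓ centralizer (B : Set X)}
  have hY1 : Y ≠ ⊥ := by rintro rfl; rw [card_bot] at h8; omega
  have hWS : W = closure S := by
    apply le_antisymm
    · apply iSup_le
      rintro ⟨y, hy, hy1⟩
      have hcop : (Nat.card Y).Coprime (Nat.card (th y)) := by
        have hYp : IsPGroup 2 Y := fun x => ⟨1, by
          have := hY.2 x x.2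
          ext; simpa using this⟩
        obtain ⟨n, hn⟩ := IsPGroup.iff_card.mp hYp
        rw [hn]; exact Nat.Coprime.pow_left _ (th_coprime y).symm
      apply Cfsg.Agent.H18.Gen.le_of_hyperplanes (p := 2) hY hY1 _ hcop
      · intro B hB hB2 _ x hx
        exact subset_closure ⟨y, hy, hy1, B, hB, hB2, hx⟩
      · intro a ha
        exact le_normalizer_th y (mem_cs.mpr (hcomm a ha y hy))
    · rw [closure_le]
      rintro x ⟨y, hy, hy1, B, hB, hB2, hx⟩
      exact (le_iSup (fun y : {y : X // y ∈ Y ∧ y ≠ 1} => th (y : X)) ⟨y, hy, hy1⟩) hx.1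
  have hScomm : ∀ x ∈ S, ∀ y ∈ S, x * y = y * x := by
    rintro x ⟨y₁, hy₁, hy₁1, B₁, hB₁, hB₁2, hx₁⟩ x' ⟨y₂, hy₂, hy₂1, B₂, hB₂, hB₂2, hx₂⟩
    -- a common element
    obtain ⟨b, hb₁, hb₂, hb1⟩ : ∃ b, b ∈ B₁ ∧ b ∈ B₂ ∧ b ≠ 1 := by
      have h1 : (B₁ ⊓ B₂).relIndex Y ≤ 2 * 2 := by
        have := relIndex_inf_le (H := B₁) (K := B₂) (L := Y)
        rwa [hB₁2, hB₂2] at this
      have h2 := Cfsg.Agent.H2.Card.card_mul_relIndex (inf_le_left.trans hB₁ : B₁ ⊓ B₂ ≤ Y)
      have h3 : 1 < Nat.card (B₁ ⊓ B₂ : Subgroup X) := by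
        by_contra h
        have : Nat.card (B₁ ⊓ B₂ : Subgroup X) ≤ 1 := not_lt.mp h
        have : Nat.card (B₁ ⊓ B₂ : Subgroup X) * (B₁ ⊓ B₂).relIndex Y ≤ 1 * 4 := Nat.mul_le_mul this h1
        omega
      rw [Subgroup.one_lt_card_iff_ne_bot] at h3
      obtain ⟨b, hb, hb1⟩ := (Subgroup.ne_bot_iff_exists_ne_one).mp h3 |>.elim (fun b hb => (⟨(b : X), b.2, fun h => hb (Subtype.ext h)⟩ : ∃ b : X, b ∈ B₁ ⊓ B₂ ∧ b ≠ 1))
      exact ⟨b, hb.1, hb.2, hb1⟩
    have hbY : b ∈ Y := hB₁ hb₁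
    have e₁ : x ∈ th b := hbal y₁ hy₁ hy₁1 b hbY hb1 ⟨hx₁.1, mem_cs.mpr (mem_centralizer_iff.mp hx₁.2 b hb₁).symm⟩
    have e₂ : x' ∈ th b := hbal y₂ hy₂ hy₂1 b hbY hb1 ⟨hx₂.1, mem_cs.mpr (mem_centralizer_iff.mp hx₂.2 b hb₂).symm⟩
    exact hab b hbY x e₁ x' e₂
  have hodd : ∀ x ∈ closure S, Odd (orderOf x) := by
    haveI := Subgroup.isMulCommutative_closure hScomm
    intro x hx
    induction hx using closure_induction with
    | mem x hx =>
      obtain ⟨y, hy, hy1, B, hB, hB2, hx⟩ := hx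
      exact (Nat.coprime_two_right.mp (odd_of_mem (th_coprime y) hx.1))
    | one => simp
    | mul x y hx hy ihx ihy =>
      have hc : Commute x y := by
        have := (isMulCommutative_closure hScomm).is_comm.comm ⟨x, hx⟩ ⟨y, hy⟩
        exact congrArg Subtype.val this
      exact Odd.of_dvd_nat (ihx.mul ihy) hc.orderOf_mul_dvd_mul_orderOf
    | inv x hx ih => rwa [orderOf_inv]
  refine ⟨?_, ?_⟩
  · show Odd (Nat.card ↥W)
    rw [hWS]
    by_contra h
    rw [Nat.not_odd_iff_even, even_iff_two_dvd] at h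
    obtain ⟨x, hx⟩ := exists_prime_orderOf_dvd_card' (G := ↥(closure S)) 2 h
    have h1 := hodd x x.2
    rw [Subgroup.orderOf_coe, hx] at h1
    exact absurd h1 (by decide)
  · rw [le_normalizer_iff_conj]
    intro n hn w hw
    have hw' : n * w * n⁻¹ ∈ W.map (MulAut.conj n).toMonoidHom := ⟨w, hw, rfl⟩
    rw [hW, Subgroup.map_iSup] at hw'
    refine (iSup_le ?_ : _ ≤ W) hw'
    rintro ⟨y, hy, hy1⟩
    have hy' : n * y * n⁻¹ ∈ Y := (mem_normalizer_iff.mp hn y).mp hy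
    have hy1' : n * y * n⁻¹ ≠ 1 := by
      intro h; apply hy1
      have : y = n⁻¹ * (n * y * n⁻¹) * n := by group
      rw [this, h]; simp
    refine le_trans ?_ (le_iSup (fun y : {y : X // y ∈ Y ∧ y ≠ 1} => th (y : X)) ⟨n * y * n⁻¹, hy', hy1'⟩)
    have hcj : ∀ c ∈ centralizer ({n * y * n⁻¹} : Set X), n⁻¹ * c * n ∈ centralizer ({y} : Set X) := by
      intro c hc
      have hc := mem_cs.mp hc
      apply mem_cs.mpr
      calc n⁻¹ * c * n * y = n⁻¹ * (c * (n * y * n⁻¹)) * n := by group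
        _ = n⁻¹ * ((n * y * n⁻¹) * c) * n := by rw [hc]
        _ = _ := by group
    apply le_th
    · rintro _ ⟨t, ht, rfl⟩
      have ht' := mem_cs.mp (th_le y ht)
      apply mem_cs.mpr
      show n * t * n⁻¹ * (n * y * n⁻¹) = (n * y * n⁻¹) * (n * t * n⁻¹)
      calc n * t * n⁻¹ * (n * y * n⁻¹) = n * (t * y) * n⁻¹ := by group
        _ = n * (y * t) * n⁻¹ := by rw [ht']
        _ = _ := by group
    · rw [le_normalizer_iff_conj]
      rintro c hc _ ⟨t, ht, rfl⟩
      refine ⟨(n⁻¹ * c * n) * t * (n⁻¹ * c * n)⁻¹, (mem_normalizer_iff.mp (le_normalizer_th y (hcj c hc)) t).mp ht, ?_⟩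
      show n * ((n⁻¹ * c * n) * t * (n⁻¹ * c * n)⁻¹) * n⁻¹ = c * (n * t * n⁻¹) * c⁻¹
      group
    · rw [card_map_of_injective (MulAut.conj n).injective]
      exact th_coprime y

end Cfsg.Agent.S2924
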