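import Cfsg.Statements.S2925
import Cfsg.Agent.H11_Components
import Cfsg.Agent.H1_Subn2

set_option autoImplicit false
open Cfsg

namespace Cfsg.Agent.S2925

open Subgroup
open scoped commutatorElement Pointwise

/-- Let K be a component of the finite group X and T a Sylow 2-subgroup of X. If some abelian normal subgroup Y of T does not normalize K, then K ⧸ Z(K) has abelian Sylow 2-subgroups. -/
theorem result {X : Type*} [Group X] [Finite X] (K : Subgroup X) (hK : Cfsg.IsComponent K) (T : Sylow 2 X) (Y : Subgroup X) (hYT : Y ≤ (T : Subgroup X)) (hYn : (Y.subgroupOf (T : Subgroup X)).Normal) (hYab : IsMulCommutative ↥Y) (hnot : ¬ Y ≤ Subgroup.normalizer (K : Set X)) (P : Sylow 2 (↥K ⧸ Subgroup.center ↥K)) : IsMulCommutative ↥(P : Subgroup (↥K ⧸ Subgroup.center ↥K)) := by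
  classical
  haveI : Fact (Nat.Prime 2) := ⟨Nat.prime_two⟩
  obtain ⟨y, hyY, hyK⟩ := Set.not_subset.mp hnot
  set K' := K.map (MulAut.conj y).toMonoidHom with hK'
  have hne : K' ≠ K := by
    intro h
    apply hyK
    have hy : ∀ k, k ∈ K ↔ y * k * y⁻¹ ∈ K := by
      intro k
      constructor
      · intro hk
        have : y * k * y⁻¹ ∈ K' := ⟨k, hk, rfl⟩
        rwa [h] at this
      · intro hk
        rw [← h] at hk
        obtain ⟨k', hk', he⟩ := hk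
        have he : y * k' * y⁻¹ = y * k * y⁻¹ := he
        have : k' = k := by
          have := mul_right_cancel he
          exact mul_left_cancel this
        rwa [← this]
    exact mem_normalizer_iff.mpr hy
  have hK'c : Cfsg.IsComponent K' := (Cfsg.Agent.H11.Components.isComponent_map_conj K y).mpr hK
  have hcomm : ⁅K', K⁆ = ⊥ := Cfsg.Agent.H11.Components.commutator_eq_bot_of_ne hK'c hK hne
  have hcent : ∀ u ∈ K', ∀ v ∈ K, u * v = v * u := by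
    intro u hu v hv
    have : ⁅u, v⁆ ∈ ⁅K', K⁆ := commutator_mem_commutator hu hv
    rw [hcomm, mem_bot, commutatorElement_eq_one_iff_mul_comm] at this
    exact this
  have hYT' : (T : Subgroup X) ≤ normalizer (Y : Set X) := (normal_subgroupOf_iff_le_normalizer hYT).mp hYn
  have hab : ∀ a ∈ Y, ∀ b ∈ Y, a * b = b * a := fun x hx y hy => by
    have := hYab.is_comm.comm ⟨x, hx⟩ ⟨y, hy⟩
    simpa using congrArg Subtype.val this
  have key : ∀ a ∈ (T : Subgroup X) ⊓ K, ∀ b ∈ (T : Subgroup X) ⊓ K, ∀ k ∈ K, (b⁻¹ * a⁻¹ * b * a) * k = k * (b⁻¹ * a⁻¹ * b * a) := by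
    rintro a ⟨haT, haK⟩ b ⟨hbT, hbK⟩
    have hα : ∀ a ∈ (T : Subgroup X), (y * a * y⁻¹) * a⁻¹ ∈ Y := by
      intro a ha
      have h1 := (mem_normalizer_iff.mp (hYT' ha) y⁻¹).mp (Y.inv_mem hyY)
      have h2 := Y.mul_mem hyY h1
      have e : (y * a * y⁻¹) * a⁻¹ = y * (a * y⁻¹ * a⁻¹) := by group
      rw [e]; exact h2
    set a' := y * a * y⁻¹ with ha'
    set b' := y * b * y⁻¹ with hb'
    have ha'K : a' ∈ K' := ⟨a, haK, rfl⟩
    have hb'K : b' ∈ K' := ⟨b, hbK, rfl⟩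
    have h1 := hab _ (hα a haT) _ (hα b hbT)
    rw [← ha', ← hb'] at h1
    have c1 : a⁻¹ * b' = b' * a⁻¹ := (hcent b' hb'K a⁻¹ (K.inv_mem haK)).symm
    have c2 : b⁻¹ * a' = a' * b⁻¹ := (hcent a' ha'K b⁻¹ (K.inv_mem hbK)).symm
    have h2 : a' * b' * (a⁻¹ * b⁻¹) = b' * a' * (b⁻¹ * a⁻¹) := by
      calc a' * b' * (a⁻¹ * b⁻¹) = a' * (b' * a⁻¹) * b⁻¹ := by group
        _ = a' * (a⁻¹ * b') * b⁻¹ := by rw [c1]
        _ = (a' * a⁻¹) * (b' * b⁻¹) := by group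
        _ = (b' * b⁻¹) * (a' * a⁻¹) := h1
        _ = b' * (b⁻¹ * a') * a⁻¹ := by group
        _ = b' * (a' * b⁻¹) * a⁻¹ := by rw [c2]
        _ = b' * a' * (b⁻¹ * a⁻¹) := by group
    have h3 : b⁻¹ * a⁻¹ * b * a = (b' * a')⁻¹ * (a' * b') := by
      rw [eq_inv_mul_iff_mul_eq]
      calc b' * a' * (b⁻¹ * a⁻¹ * b * a) = (b' * a' * (b⁻¹ * a⁻¹)) * (b * a) := by group
        _ = (a' * b' * (a⁻¹ * b⁻¹)) * (b * a) := by rw [h2]
        _ = a' * b' := by group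
    intro k hk
    rw [h3]
    exact hcent _ (K'.mul_mem (K'.inv_mem (K'.mul_mem hb'K ha'K)) (K'.mul_mem ha'K hb'K)) k hk
  -- Sylow subgroups of `K`
  obtain ⟨Q, hQ⟩ := Cfsg.Agent.H1.Subn.sylow_inf_subnormal 2 K hK.1 T
  obtain ⟨P', hP'⟩ := Sylow.mapSurjective_surjective (QuotientGroup.mk'_surjective (Subgroup.center ↥K)) 2 P
  obtain ⟨g, hg⟩ := MulAction.exists_smul_eq ↥K Q P'
  have hmemQ : ∀ x ∈ (P' : Subgroup ↥K), ((g⁻¹ * x * g : ↥K) : X) ∈ (T : Subgroup X) ⊓ K := by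
    intro x hx
    have h1 : x ∈ ((g • Q : Sylow 2 ↥K) : Subgroup ↥K) := by rw [hg]; exact hx
    have h2 : g⁻¹ * x * g ∈ (Q : Subgroup ↥K) := by
      rw [Sylow.coe_subgroup_smul, mem_pointwise_smul_iff_inv_smul_mem] at h1
      simpa [MulAut.smul_def] using h1
    rw [hQ] at h2
    exact ⟨h2, (g⁻¹ * x * g).2⟩
  refine ⟨⟨?_⟩⟩
  rintro ⟨u, hu⟩ ⟨v, hv⟩
  apply Subtype.ext
  show u * v = v * u
  rw [← hP', Sylow.coe_mapSurjective] at hu hv
  obtain ⟨a, ha, rfl⟩ := hu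
  obtain ⟨b, hb, rfl⟩ := hv
  rw [← map_mul, ← map_mul]
  show ((a * b : ↥K) : ↥K ⧸ center ↥K) = ((b * a : ↥K) : ↥K ⧸ center ↥K)
  rw [QuotientGroup.eq, mem_center_iff]
  intro k
  apply Subtype.ext
  have h1 := key _ (hmemQ a ha) _ (hmemQ b hb) _ (g⁻¹ * k * g).2
  have h2 : (g⁻¹ * b * g)⁻¹ * (g⁻¹ * a * g)⁻¹ * (g⁻¹ * b * g) * (g⁻¹ * a * g) * (g⁻¹ * k * g) =
    (g⁻¹ * k * g) * ((g⁻¹ * b * g)⁻¹ * (g⁻¹ * a * g)⁻¹ * (g⁻¹ * b * g) * (g⁻¹ * a * g)) := Subtype.ext h1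
  have h3 : k * ((a * b)⁻¹ * (b * a)) = (a * b)⁻¹ * (b * a) * k := by
    have e1 : k * ((a * b)⁻¹ * (b * a)) = g * ((g⁻¹ * k * g) * ((g⁻¹ * b * g)⁻¹ * (g⁻¹ * a * g)⁻¹ * (g⁻¹ * b * g) * (g⁻¹ * a * g))) * g⁻¹ := by group
    have e2 : (a * b)⁻¹ * (b * a) * k = g * ((g⁻¹ * b * g)⁻¹ * (g⁻¹ * a * g)⁻¹ * (g⁻¹ * b * g) * (g⁻¹ * a * g) * (g⁻¹ * k * g)) * g⁻¹ := by group
    rw [e1, e2, h2]
  exact congrArg Subtype.val h3

end Cfsg.Agent.S2925
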