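import Cfsg.Statements.S2929
import Cfsg.Agent.H18_Alt
import Cfsg.Agent.H11_FStar
import Cfsg.Agent.H3_Burnside

set_option autoImplicit false
open Cfsg

namespace Cfsg.Agent.S2929

open Subgroup Equiv Equiv.Perm Cfsg.Agent.H18.Alt

section
variable {α : Type} [Fintype α] [DecidableEq α] {H : Subgroup (Perm α)}

theorem R_mono {H K : Subgroup (Perm α)} (h : H ≤ K) {a b : α} (hR : R H a b) : R K a b := by
  obtain ⟨h1, x, h2, h3, h4⟩ := hR
  exact ⟨h1, x, h2, h3, h h4⟩

theorem R_conj {e : Perm α} (he : e ∈ H) {a b : α} (h : R H a b) : R H (e a) (e b) := by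
  obtain ⟨h1, x, h2, h3, h4⟩ := h
  refine ⟨e.injective.ne h1, e x, e.injective.ne h2, e.injective.ne h3, ?_⟩
  rw [← cyc_conj]
  exact H.mul_mem (H.mul_mem he h4) (H.inv_mem he)

/-- the subgroup generated by the 3-cycles of `H`. -/
def N3 (H : Subgroup (Perm α)) : Subgroup (Perm α) := closure {σ | σ ∈ H ∧ σ.IsThreeCycle}

theorem N3_le : N3 H ≤ H := by
  unfold N3; rw [closure_le]; rintro σ ⟨h, _⟩; exact h

theorem le_normalizer_N3 : H ≤ normalizer (N3 H : Set (Perm α)) := by
  have key : ∀ h ∈ H, ∀ σ ∈ N3 H, h * σ * h⁻¹ ∈ N3 H := by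
    intro h hh
    have : N3 H ≤ (N3 H).comap (MulAut.conj h).toMonoidHom := by
      conv_lhs => unfold N3
      rw [closure_le]
      rintro σ ⟨h1, h3⟩
      obtain ⟨x, y, z, hxy, hxz, hyz, rfl⟩ := exists_cyc' h3
      show h * cyc x y z * h⁻¹ ∈ N3 H
      apply Subgroup.subset_closure
      refine ⟨H.mul_mem (H.mul_mem hh h1) (H.inv_mem hh), ?_⟩
      rw [cyc_conj]
      exact cyc_isThreeCycle (h.injective.ne hxy) (h.injective.ne hxz) (h.injective.ne hyz)
    exact fun σ hσ => this hσ
  intro h hh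
  rw [mem_normalizer_iff]
  intro σ
  refine ⟨key h hh σ, fun h1 => ?_⟩
  have := key h⁻¹ (H.inv_mem hh) _ h1
  have e : h⁻¹ * (h * σ * h⁻¹) * h⁻¹⁻¹ = σ := by group
  rwa [e] at this

theorem alt_le_N3 (a : α) : alt (cls H a) ≤ N3 H := by
  apply alt_le
  intro x hx y hy z hz hxy hxz hyz
  exact Subgroup.subset_closure ⟨mem_of_cls hx hy hz hxy hxz hyz, cyc_isThreeCycle hxy hxz hyz⟩

theorem N3_le_normalizer (a : α) : N3 H ≤ normalizer (alt (cls H a) : Set (Perm α)) := by
  unfold N3
  rw [closure_le]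
  rintro σ ⟨h1, h3⟩
  obtain ⟨x, y, z, hxy, hxz, hyz, rfl⟩ := exists_cyc' h3
  exact (cyc_normalizes hxy hxz hyz h1 a).1

theorem isSubnormal_alt (a : α) : ((alt (cls H a)).subgroupOf H).IsSubnormal := by
  have h1 : ((N3 H).subgroupOf H).Normal := (normal_subgroupOf_iff_le_normalizer N3_le).mpr le_normalizer_N3
  have hle : (alt (cls H a)).subgroupOf H ≤ (N3 H).subgroupOf H := fun x hx => alt_le_N3 a hx
  refine IsSubnormal.step _ _ hle h1.isSubnormal ?_
  rw [normal_subgroupOf_iff_le_normalizer hle]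
  intro n hn
  rw [mem_normalizer_iff]
  intro x
  exact mem_normalizer_iff.mp (N3_le_normalizer a hn) (x : Perm α)

theorem solvable_perm {β : Type*} [Finite β] (h : Nat.card β ≤ 4) : Group.IsSolvable (Perm β) := by
  have h1 : Nat.card (Perm β) = (Nat.card β).factorial := Nat.card_perm
  have h2 : ∃ a b : ℕ, (Nat.card β).factorial = 2 ^ a * 3 ^ b := by
    interval_cases Nat.card β
    · exact ⟨0, 0, rfl⟩
    · exact ⟨0, 0, rfl⟩
    · exact ⟨1, 0, rfl⟩
    · exact ⟨1, 1, rfl⟩
    · exact ⟨3, 1, rfl⟩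
  obtain ⟨a, b, hab⟩ := h2
  exact Cfsg.Agent.H3.Burnside.burnside _ (Perm β) 2 3 a b Nat.prime_two Nat.prime_three h1 hab

theorem comm_on_pair {e f : Perm α} {U : Finset α} (hU : U.card ≤ 2) (he : ∀ u ∈ U, e u ∈ U) (hf : ∀ u ∈ U, f u ∈ U)
    {x : α} (hx : x ∈ U) : e (f x) = f (e x) := by
  classical
  have key : ∀ u ∈ U, ∀ v ∈ U, ∀ w ∈ U, u ≠ v → w = u ∨ w = v := by
    intro u hu v hv w hw huv
    by_contra hne
    push Not at hne
    have : 2 < U.card := by
      rw [Finset.two_lt_card]
      exact ⟨u, hu, v, hv, w, hw, huv, hne.1.symm, hne.2.symm⟩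
    omega
  by_cases h1 : e x = x
  · rw [h1]
    by_cases h2 : f x = x
    · rw [h2, h1]
    · rcases key x hx (f x) (hf x hx) (e (f x)) (he _ (hf x hx)) (Ne.symm h2) with h3 | h3
      · exfalso; apply h2
        rw [← h1] at h3
        have := e.injective h3
        rw [h1] at this; exact this
      · exact h3
  · by_cases h2 : f x = x
    · rw [h2]
      rcases key x hx (e x) (he x hx) (f (e x)) (hf _ (he x hx)) (Ne.symm h1) with h3 | h3
      · exfalso; apply h1
        rw [← h2] at h3
        have := f.injective h3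
        rw [h2] at this; exact this
      · exact h3.symm
    · have h3 : f x = e x := by
        rcases key x hx (e x) (he x hx) (f x) (hf x hx) (Ne.symm h1) with h | h
        · exact absurd h h2
        · exact h
      have h4 : e (e x) = x := by
        rcases key x hx (e x) (he x hx) (e (e x)) (he _ (he x hx)) (Ne.symm h1) with h | h
        · exact h
        · exact absurd (e.injective h) h1
      have h5 : f (f x) = x := by
        rcases key x hx (f x) (hf x hx) (f (f x)) (hf _ (hf x hx)) (Ne.symm h2) with h | h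
        · exact h
        · exact absurd (f.injective h) h2
      rw [h3, h4, ← h3, h5]

theorem comm_on_cycle {e f : Perm α} {x b c : α} (hxb : x ≠ b) (hxc : x ≠ c) (hbc : b ≠ c)
    (he : e * cyc x b c = cyc x b c * e) (hf : f * cyc x b c = cyc x b c * f) : e (f x) = f (e x) := by
  have key : ∀ g : Perm α, g * cyc x b c = cyc x b c * g → g x = x ∨ g x = cyc x b c x ∨ g x = cyc x b c (cyc x b c x) := by
    intro g hg
    have h1 : g x ∈ (cyc x b c).support := by
      rw [mem_support]
      intro h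
      have h2 : (g * cyc x b c) x = (cyc x b c * g) x := by rw [hg]
      rw [mul_apply, mul_apply, h] at h2
      have := g.injective h2
      rw [cyc_apply1 hxb hxc] at this
      exact hxb this.symm
    rcases cyc_support h1 with h | h | h
    · exact Or.inl h
    · refine Or.inr (Or.inl ?_)
      rw [cyc_apply1 hxb hxc]; exact h
    · refine Or.inr (Or.inr ?_)
      rw [cyc_apply1 hxb hxc, cyc_apply2 hbc hxc]; exact h
  have he' : ∀ y, e (cyc x b c y) = cyc x b c (e y) := fun y => by
    have : (e * cyc x b c) y = (cyc x b c * e) y := by rw [he]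
    exact this
  have hf' : ∀ y, f (cyc x b c y) = cyc x b c (f y) := fun y => by
    have : (f * cyc x b c) y = (cyc x b c * f) y := by rw [hf]
    exact this
  rcases key e he with h1 | h1 | h1 <;> rcases key f hf with h2 | h2 | h2 <;> simp only [h1, h2, he', hf']

end

/-- Let n ≥ 5 and let H be a subgroup of the symmetric group of degree n whose generalized Fitting subgroup F*(H) is quasisimple. If H contains a Sylow 3-subgroup of the symmetric group, then F*(H) is isomorphic to an alternating group of degree m for some m ∈ {n − 2, n − 1, n}. -/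
theorem result (n : ℕ) (hn : 5 ≤ n) (H : Subgroup (Equiv.Perm (Fin n))) (hF : Cfsg.IsQuasisimple ↥(Cfsg.generalizedFittingSubgroup ↥H)) (hS : ∃ P : Sylow 3 (Equiv.Perm (Fin n)), (P : Subgroup (Equiv.Perm (Fin n))) ≤ H) : ∃ m : ℕ, (m = n - 2 ∨ m = n - 1 ∨ m = n) ∧ Nonempty (↥(Cfsg.generalizedFittingSubgroup ↥H) ≃* ↥(alternatingGroup (Fin m))) := by
  classical
  obtain ⟨P, hPH⟩ := hS
  set E := Cfsg.generalizedFittingSubgroup ↥H with hE
  have hEn : E.Normal := inferInstance
  have hEc : Cfsg.IsComponent E := ⟨hEn.isSubnormal, hF⟩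
  by_cases hcase : ∃ a, 5 ≤ (cls H a).card
  · obtain ⟨a, ha⟩ := hcase
    set Δ := cls H a with hΔ
    have e1 : ↥(alternatingGroup ↥Δ) ≃* ↥((alt Δ).subgroupOf H) :=
      (altEquiv Δ).trans (subgroupOfEquivOfLe alt_cls_le).symm
    have hcardΔ : Nat.card ↥Δ = Δ.card := by simp
    haveI hs1 : IsSimpleGroup ↥(alternatingGroup ↥Δ) := alternatingGroup.isSimpleGroup (by rw [hcardΔ]; exact ha)
    have hna : ¬ IsMulCommutative ↥(alternatingGroup ↥Δ) := by
      rw [alternatingGroup.isMulCommutative_iff_card_le_three, hcardΔ]; omega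
    have hq : Cfsg.IsQuasisimple ↥((alt Δ).subgroupOf H) :=
      Cfsg.Agent.H11.Components.IsQuasisimple.of_mulEquiv (Cfsg.Agent.H11.Components.isQuasisimple_of_isSimpleGroup hna) e1
    have hcomp : Cfsg.IsComponent ((alt Δ).subgroupOf H) := ⟨isSubnormal_alt a, hq⟩
    have hle : (alt Δ).subgroupOf H ≤ E := Cfsg.Agent.H11.FStar.le_generalizedFitting_of_isComponent hcomp
    have heq : (alt Δ).subgroupOf H = E := Cfsg.Agent.H11.Components.eq_of_le_of_isComponent hcomp hEc hle
    have hun : ∀ p ∈ Finset.univ \ Δ, ∀ b, ¬ R H p b := by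
      intro p hp b hR
      have hp : p ∉ Δ := (Finset.mem_sdiff.mp hp).2
      obtain ⟨hpb, x, hxp, hxb, hx⟩ := hR
      have h1 := (cyc_normalizes hpb hxp.symm hxb.symm hx a).2 hp
      have h2 : (⟨cyc p b x, hx⟩ : ↥H) ∈ centralizer (E : Set ↥H) := by
        rw [mem_centralizer_iff]
        intro σ hσ
        rw [← heq] at hσ
        exact Subtype.ext (h1 σ hσ).symm
      have h3 := Cfsg.Agent.H11.FStar.centralizer_generalizedFitting_le h2
      rw [← hE, ← heq] at h3
      have h4 : cyc p b x ∈ alt Δ := h3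
      have h5 := (mem_alt.mp h4).2
      exact hp (h5 (mem_support.mpr (by rw [cyc_apply1 hpb hxp.symm]; exact hpb.symm)))
    have hcard := card_unmoved_le P (Finset.univ \ Δ) (fun p hp b h => hun p hp b (R_mono hPH h))
    have hc1 : (Finset.univ \ Δ).card + Δ.card = n := by
      have := Finset.card_sdiff_add_card_eq_card (Finset.subset_univ Δ)
      rw [this, Finset.card_univ, Fintype.card_fin]
    refine ⟨Δ.card, by omega, ⟨?_⟩⟩
    have e2 : ↥(alternatingGroup ↥Δ) ≃* ↥(alternatingGroup (Fin Δ.card)) := Equiv.altCongrHom Δ.equivFin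
    exact ((MulEquiv.subgroupCongr heq.symm).trans e1.symm).trans e2
  · exfalso
    push Not at hcase
    apply Cfsg.Agent.H11.Components.IsQuasisimple.not_isMulCommutative hF
    -- `E` centralizes all 3-cycles of `H`
    have hcent : ∀ e ∈ E, ∀ x b c : Fin n, x ≠ b → x ≠ c → b ≠ c → cyc x b c ∈ H → (e : Perm (Fin n)) * cyc x b c = cyc x b c * e := by
      intro e he x b c hxb hxc hbc hcH
      have hsol : Group.IsSolvable ↥((alt (cls H x)).subgroupOf H) := by
        have e1 : ↥(alternatingGroup ↥(cls H x)) ≃* ↥((alt (cls H x)).subgroupOf H) :=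
          (altEquiv (cls H x)).trans (subgroupOfEquivOfLe alt_cls_le).symm
        haveI : Group.IsSolvable (Perm ↥(cls H x)) := solvable_perm (by simpa using Nat.lt_succ_iff.mp (hcase x))
        haveI : Group.IsSolvable ↥(alternatingGroup ↥(cls H x)) := inferInstance
        exact Group.isSolvable_of_surjective (f := e1.toMonoidHom) e1.surjective
      have h1 := Cfsg.Agent.H11.Components.commutator_eq_bot_of_solvable_of_isSubnormal hEc hsol (isSubnormal_alt x)
      have hR1 : R H x b := ⟨hxb, c, hxc.symm, hbc.symm, hcH⟩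
      have hR2 : R H x c := by
        have h2 := H.inv_mem hcH
        rw [cyc_inv, cyc_rot hbc.symm hxc.symm, cyc_rot hxb.symm hbc] at h2
        exact ⟨hxc, b, hxb.symm, hbc, h2⟩
      have hmem : (⟨cyc x b c, hcH⟩ : ↥H) ∈ (alt (cls H x)).subgroupOf H :=
        cyc_mem_alt self_mem_cls (mem_cls_of_R self_mem_cls hR1) (mem_cls_of_R self_mem_cls hR2) hxb hxc hbc
      have h2 := commutator_mem_commutator he hmem
      rw [h1, mem_bot, commutatorElement_eq_one_iff_mul_comm] at h2
      exact congrArg Subtype.val h2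
    set U : Finset (Fin n) := Finset.univ.filter (fun x => ∀ b, ¬ R H x b) with hU
    have hUcard : U.card ≤ 2 := by
      apply card_unmoved_le P U
      intro p hp b h
      rw [hU, Finset.mem_filter] at hp
      exact hp.2 b (R_mono hPH h)
    have hUinv : ∀ e ∈ H, ∀ u ∈ U, e u ∈ U := by
      intro e he u hu
      rw [hU, Finset.mem_filter] at hu ⊢
      refine ⟨Finset.mem_univ _, fun b h => ?_⟩
      have := R_conj (H.inv_mem he) h
      rw [← Perm.mul_apply, inv_mul_cancel, Perm.one_apply] at this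
      exact hu.2 _ this
    refine ⟨⟨?_⟩⟩
    rintro ⟨e, he⟩ ⟨f, hf⟩
    apply Subtype.ext
    apply Subtype.ext
    show (e : Perm (Fin n)) * (f : Perm (Fin n)) = f * e
    ext x
    congr 1
    show (e : Perm (Fin n)) ((f : Perm (Fin n)) x) = (f : Perm (Fin n)) ((e : Perm (Fin n)) x)
    by_cases hx : x ∈ U
    · exact comm_on_pair hUcard (hUinv _ e.2) (hUinv _ f.2) hx
    · rw [hU, Finset.mem_filter] at hx
      push Not at hx
      obtain ⟨b, hxb, c, hcx, hcb, hc⟩ := hx (Finset.mem_univ _)
      exact comm_on_cycle hxb hcx.symm hcb.symm (hcent e he x b c hxb hcx.symm hcb.symm hc) (hcent f hf x b c hxb hcx.symm hcb.symm hc)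

end Cfsg.Agent.S2929
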