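import Cfsg.Statements.S2939
import Cfsg.Agent.H18_Syl2

set_option autoImplicit false
open Cfsg

namespace Cfsg.Agent.S2939

open Cfsg.Agent.H18.Syl Cfsg.Agent.H18.Syl2
open scoped Pointwise

/-- Let p be a prime dividing the order of the finite group G and 𝓕 a family of subgroups of G closed under conjugation, with conjugates taken as X^g = g⁻¹Xg. Then 𝓕 controls Sylow p-intersections in G (any two distinct Sylow p-subgroups S and T with S ∩ T ≠ 1 are joined by a chain S = S₀, S₁, …, Sₙ = T of Sylow p-subgroups where, for each i, some member Xᵢ of 𝓕 meets both S_{i-1} and Sᵢ in Sylow p-subgroups of Xᵢ, satisfies S ∩ T ≤ Sᵢ ∩ Xᵢ, and contains an element xᵢ with Sᵢ^{xᵢ} = S_{i-1}) if and only if 𝓕 strongly controls p-fusion in G (whenever A is a subset of a Sylow p-subgroup S, A contains an element other than 1, and A^g ⊆ S, the element g factorises as g = y₁⋯yₙy with y ∈ N_G(S) and each yᵢ in a member Yᵢ of 𝓕 that meets S in a Sylow p-subgroup of Yᵢ, with A^{y₁⋯yᵢ} ⊆ S ∩ Yᵢ for each i). -/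
theorem result {G : Type*} [Group G] [Finite G] {p : ℕ} [Fact p.Prime] (hdiv : p ∣ Nat.card G) (𝓕 : Set (Subgroup G)) (h𝓕 : Cfsg.IsNormalSet 𝓕) : Cfsg.ControlsSylowIntersections p 𝓕 ↔ Cfsg.FamilyStronglyControlsFusion p 𝓕 := by
  constructor
  · intro hc S A g hAS hA1 hAg
    set T : Sylow p G := sconj g⁻¹ S with hT
    have hTg : Cfsg.subgroupConjRight g (T : Subgroup G) = S := by
      rw [hT, coe_sconj, ← conjRight_mul, inv_mul_cancel, conjRight_one]
    by_cases hST : S = T
    · refine ⟨0, Fin.elim0, Fin.elim0, g, ?_, fun i => i.elim0, by simp, fun i => i.elim0⟩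
      rw [← conjRight_eq_iff]
      rw [← hST] at hTg; exact hTg
    · have hAT : A ⊆ ((S : Subgroup G) ⊓ (T : Subgroup G) : Subgroup G) := by
        intro a ha
        refine ⟨hAS ha, ?_⟩
        show a ∈ (T : Subgroup G)
        rw [hT, coe_sconj, mem_conjRight_iff, inv_inv]
        exact hAg ⟨a, ha, rfl⟩
      have hne : (S : Subgroup G) ⊓ (T : Subgroup G) ≠ ⊥ := by
        obtain ⟨a, ha, ha1⟩ := hA1
        intro h
        have := hAT ha
        rw [h] at this
        exact ha1 (by simpa using this)
      obtain ⟨n, c, X, x, hc0, hcn, hcx⟩ := hc S T hST hne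
      -- u i
      let u : Fin (n + 1) → G := fun i => (Fin.partialProd (fun j => (x j)⁻¹) i)⁻¹
      have hu0 : u 0 = 1 := by simp [u]
      have husucc : ∀ i : Fin n, u i.succ = x i * u i.castSucc := by
        intro i; simp [u, Fin.partialProd_succ]
      let y : Fin n → G := fun i => (u i.castSucc)⁻¹ * x i * u i.castSucc
      have hy : ∀ i : Fin (n + 1), Fin.partialProd y i = u i := by
        intro i
        induction i using Fin.induction with
        | zero => rw [Fin.partialProd_zero, hu0]
        | succ i ih => rw [Fin.partialProd_succ, ih, husucc]; simp [y, mul_assoc]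
      have hSu : ∀ i : Fin (n + 1), Cfsg.subgroupConjRight (u i) (c i : Subgroup G) = S := by
        intro i
        induction i using Fin.induction with
        | zero => rw [hu0, conjRight_one, hc0]
        | succ i ih => rw [husucc, conjRight_mul, (hcx i).2.2.2.1, ih]
      have hprod : (List.ofFn y).prod = u (Fin.last n) := by
        rw [← hy]
        show _ = (List.take n (List.ofFn y)).prod
        rw [List.take_of_length_le (by simp)]
      refine ⟨n, fun i => Cfsg.subgroupConjRight (u i.castSucc) (X i), y, (u (Fin.last n))⁻¹ * g, ?_, ?_, ?_, ?_⟩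
      · rw [← conjRight_eq_iff, conjRight_mul]
        have h1 : Cfsg.subgroupConjRight (u (Fin.last n))⁻¹ (S : Subgroup G) = T := by
          rw [← hSu (Fin.last n), ← conjRight_mul, mul_inv_cancel, conjRight_one, hcn]
        rw [h1, hTg]
      · intro i
        refine ⟨?_, ?_⟩
        · have := conjRight_mem_sylowMembers h𝓕 (hcx i).1 (u i.castSucc)
          rwa [hSu] at this
        · rw [mem_conjRight_iff]
          have : u i.castSucc * y i * (u i.castSucc)⁻¹ = x i := by simp [y, mul_assoc]
          rw [this]; exact (hcx i).2.2.1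
      · rw [hprod, mul_inv_cancel_left]
      · intro i
        show Cfsg.conjRight (Fin.partialProd y i.succ) A ⊆ _
        rw [hy]
        intro z hz
        rw [mem_setConjRight_iff] at hz
        have h1 := (hcx i).2.2.2.2 (hAT hz)
        have h2 : z ∈ Cfsg.subgroupConjRight (u i.succ) ((c i.succ : Subgroup G) ⊓ X i) := by
          rw [mem_conjRight_iff]; exact h1
        rw [conjRight_inf, hSu] at h2
        refine ⟨h2.1, ?_⟩
        have h3 : z ∈ Cfsg.subgroupConjRight (u i.succ) (X i) := h2.2
        rw [husucc, conjRight_mul, conjRight_mem (hcx i).2.2.1] at h3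
        exact h3
  · intro hf S T hST hne
    obtain ⟨g, hg⟩ := MulAction.exists_smul_eq G T S
    -- T^{g⁻¹} = S with right conjugation by g⁻¹
    have hTg : Cfsg.subgroupConjRight g⁻¹ (T : Subgroup G) = S := by
      rw [← coe_sconj]; unfold sconj; rw [inv_inv, hg]
    have hTS : (T : Subgroup G) = Cfsg.subgroupConjRight g (S : Subgroup G) := by
      rw [← hTg, ← conjRight_mul, inv_mul_cancel, conjRight_one]
    obtain ⟨n, Y, y, y₀, hy₀, hY, hprod, hA⟩ := hf S (((S : Subgroup G) ⊓ (T : Subgroup G) : Subgroup G) : Set G) g⁻¹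
      (fun a ha => ha.1) (by
        obtain ⟨a, ha1⟩ := Subgroup.ne_bot_iff_exists_ne_one.mp hne
        exact ⟨a, a.2, fun h => ha1 (Subtype.ext h)⟩) (by
        rw [← coe_conjRight]
        show Cfsg.subgroupConjRight g⁻¹ ((S : Subgroup G) ⊓ (T : Subgroup G)) ≤ (S : Subgroup G)
        rw [conjRight_inf, hTg]; exact inf_le_right)
    let u : Fin (n + 1) → G := Fin.partialProd y
    have hu0 : u 0 = 1 := Fin.partialProd_zero y
    have husucc : ∀ i : Fin n, u i.succ = u i.castSucc * y i := fun i => Fin.partialProd_succ y i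
    have hulast : u (Fin.last n) * y₀ = g⁻¹ := by
      rw [hprod]; congr 1
      show (List.take n (List.ofFn y)).prod = _
      rw [List.take_of_length_le (by simp)]
    have hfix : ∀ i : Fin n, Cfsg.subgroupConjRight (u i.succ)⁻¹ (Y i) =
        Cfsg.subgroupConjRight (u i.castSucc)⁻¹ (Y i) := by
      intro i
      rw [husucc, mul_inv_rev, conjRight_mul, conjRight_mem ((Y i).inv_mem (hY i).2)]
    refine ⟨n, fun i => sconj (u i)⁻¹ S, fun i => Cfsg.subgroupConjRight (u i.castSucc)⁻¹ (Y i),
      fun i => u i.castSucc * y i * (u i.castSucc)⁻¹, ?_, ?_, ?_⟩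
    · apply Sylow.ext
      show Cfsg.subgroupConjRight (u 0)⁻¹ (S : Subgroup G) = S
      rw [hu0, inv_one, conjRight_one]
    · apply Sylow.ext
      show Cfsg.subgroupConjRight (u (Fin.last n))⁻¹ (S : Subgroup G) = T
      have : (u (Fin.last n))⁻¹ = y₀ * g := by
        rw [inv_eq_iff_mul_eq_one, ← mul_assoc, hulast, inv_mul_cancel]
      rw [this, conjRight_mul, conjRight_eq_iff.mpr hy₀, ← hTS]
    · intro i
      refine ⟨?_, ?_, ?_, ?_, ?_⟩
      · exact conjRight_mem_sylowMembers h𝓕 (hY i).1 _
      · have := conjRight_mem_sylowMembers h𝓕 (hY i).1 (u i.succ)⁻¹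
        rw [hfix] at this
        exact this
      · rw [mem_conjRight_iff]
        have : (u i.castSucc)⁻¹ * (u i.castSucc * y i * (u i.castSucc)⁻¹) * (u i.castSucc)⁻¹⁻¹ = y i := by group
        rw [this]; exact (hY i).2
      · show Cfsg.subgroupConjRight (u i.castSucc * y i * (u i.castSucc)⁻¹) (Cfsg.subgroupConjRight (u i.succ)⁻¹ (S : Subgroup G)) =
          Cfsg.subgroupConjRight (u i.castSucc)⁻¹ (S : Subgroup G)
        rw [← conjRight_mul]
        congr 1
        rw [husucc]; group
      · have h1 := hA i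
        have h1 : Cfsg.conjRight (u i.succ) (((S : Subgroup G) ⊓ (T : Subgroup G) : Subgroup G) : Set G) ⊆
          (S : Set G) ∩ (Y i : Set G) := h1
        intro a ha
        have h2 := h1 ((mem_setConjRight_iff _ _ ((u i.succ)⁻¹ * a * (u i.succ))).mpr (by
          have : u i.succ * ((u i.succ)⁻¹ * a * u i.succ) * (u i.succ)⁻¹ = a := by group
          rw [this]; exact ha))
        refine ⟨?_, ?_⟩
        · show a ∈ Cfsg.subgroupConjRight (u i.succ)⁻¹ (S : Subgroup G)
          rw [mem_conjRight_iff, inv_inv]; exact h2.1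
        · show a ∈ Cfsg.subgroupConjRight (u i.castSucc)⁻¹ (Y i)
          rw [← hfix, mem_conjRight_iff, inv_inv]; exact h2.2

end Cfsg.Agent.S2939
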