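import Cfsg.Statements.S2940
import Cfsg.Agent.H18_Syl

set_option autoImplicit false
open Cfsg

namespace Cfsg.Agent.S2940

open Cfsg.Agent.H18.Syl

/-- Let S be a Sylow p-subgroup of the finite group G and G₁, G₂ subgroups containing S with G = G₁G₂. Then for every g ∈ G there is a Sylow p-subgroup U of G with S ∩ S^g ≤ U ≤ G₁ ∩ G₂^g (conjugates taken as X^g = g⁻¹Xg). -/
theorem result {G : Type*} [Group G] [Finite G] {p : ℕ} [Fact p.Prime] (S : Sylow p G) (G₁ G₂ : Subgroup G) (h1 : (S : Subgroup G) ≤ G₁) (h2 : (S : Subgroup G) ≤ G₂) (hfact : ∀ g : G, ∃ g₁ ∈ G₁, ∃ g₂ ∈ G₂, g = g₁ * g₂) (g : G) : ∃ U : Sylow p G, (S : Subgroup G) ⊓ Cfsg.subgroupConjRight g (S : Subgroup G) ≤ (U : Subgroup G) ∧ (U : Subgroup G) ≤ G₁ ⊓ Cfsg.subgroupConjRight g G₂ := by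
  -- `g = g₂ * g₁`
  obtain ⟨a, ha, b, hb, hab⟩ := hfact g⁻¹
  have hg : g = b⁻¹ * a⁻¹ := by rw [← mul_inv_rev, ← hab, inv_inv]
  -- the Sylow subgroup `S^{a⁻¹}` lies in both
  have hU1 : ((a • S : Sylow p G) : Subgroup G) ≤ G₁ ⊓ Cfsg.subgroupConjRight g G₂ := by
    intro x hx
    rw [coe_smul_sylow, mem_map_conj_iff] at hx
    refine ⟨?_, ?_⟩
    · have h := G₁.mul_mem (G₁.mul_mem ha (h1 hx)) (G₁.inv_mem ha)
      simpa [mul_assoc] using h
    · show x ∈ Cfsg.subgroupConjRight g G₂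
      rw [mem_conjRight_iff, hg]
      have h := G₂.mul_mem (G₂.mul_mem (G₂.inv_mem hb) (h2 hx)) hb
      simpa [mul_assoc] using h
  apply exists_sylow_le (a • S) hU1
  · exact S.2.to_le inf_le_left
  · refine le_inf (inf_le_left.trans h1) (inf_le_right.trans ?_)
    exact Subgroup.map_mono h2

end Cfsg.Agent.S2940
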