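import Cfsg.Statements.S2955
import Cfsg.Agent.H18_Syl2
import Cfsg.Agent.S2939

set_option autoImplicit false
open Cfsg

namespace Cfsg.Agent.S2955

open Cfsg.Agent.H18.Syl Cfsg.Agent.H18.Syl2
open scoped Pointwise

/-- Let p be a prime dividing the order of the finite group G and 𝓕 a conjugation-closed family of subgroups that controls Sylow p-intersections in G. Suppose the Sylow p-subgroups of G are chain-connected: any two of them are joined by a chain of Sylow p-subgroups, consecutive ones distinct with nontrivial intersection, all containing the intersection of the two ends (equivalently, the graph on the Sylow p-subgroups whose edges are the distinct pairs meeting nontrivially is connected). Then for every Sylow p-subgroup S, G is generated by N_G(S) together with the members of 𝓕 that meet S in a Sylow p-subgroup of themselves. -/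
theorem result {G : Type*} [Group G] [Finite G] (p : ℕ) [Fact p.Prime] (hdiv : p ∣ Nat.card G)
    (𝓕 : Set (Subgroup G)) (h𝓕 : Cfsg.IsNormalSet 𝓕) (hc : Cfsg.ControlsSylowIntersections p 𝓕)
    (hconn : Cfsg.IsSylowChainConnected p G) (S : Sylow p G) :
    (⨆ X ∈ Cfsg.sylowMembers p 𝓕 (S : Subgroup G), X) ⊔ Subgroup.normalizer ((S : Subgroup G) : Set G) = ⊤ := by
  have hf := (Cfsg.Agent.S2939.result hdiv 𝓕 h𝓕).mp hc
  set H := (⨆ X ∈ Cfsg.sylowMembers p 𝓕 (S : Subgroup G), X) ⊔ Subgroup.normalizer ((S : Subgroup G) : Set G) with hH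
  have key : ∀ g : G, (S : Subgroup G) ⊓ Cfsg.subgroupConjRight g (S : Subgroup G) ≠ ⊥ → g ∈ H := by
    intro g hne
    rw [← inv_mem_iff]
    obtain ⟨n, Y, y, y₀, hy₀, hY, hprod, -⟩ := hf S
      (((S : Subgroup G) ⊓ Cfsg.subgroupConjRight g (S : Subgroup G) : Subgroup G) : Set G) g⁻¹
      (fun a ha => ha.1) (by
        obtain ⟨a, ha1⟩ := Subgroup.ne_bot_iff_exists_ne_one.mp hne
        exact ⟨a, a.2, fun h => ha1 (Subtype.ext h)⟩) (by
        rw [← coe_conjRight]
        show Cfsg.subgroupConjRight g⁻¹ ((S : Subgroup G) ⊓ _) ≤ (S : Subgroup G)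
        rw [conjRight_inf, ← conjRight_mul, mul_inv_cancel, conjRight_one]; exact inf_le_right)
    rw [hprod]
    refine H.mul_mem (Subgroup.list_prod_mem _ ?_) (le_sup_right (a := (⨆ X ∈ Cfsg.sylowMembers p 𝓕 (S : Subgroup G), X)) hy₀)
    intro z hz
    rw [List.mem_ofFn] at hz
    obtain ⟨i, rfl⟩ := hz
    have h1 : Y i ≤ ⨆ X ∈ Cfsg.sylowMembers p 𝓕 (S : Subgroup G), X := le_iSup₂_of_le (Y i) (hY i).1 le_rfl
    exact le_sup_left (b := Subgroup.normalizer ((S : Subgroup G) : Set G)) (h1 (hY i).2)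
  have hall : ∀ T : Sylow p G, ∃ h ∈ H, (T : Subgroup G) = Cfsg.subgroupConjRight h (S : Subgroup G) := by
    intro T
    obtain ⟨n, c, hc0, hcn, -, hstep⟩ := hconn S T
    have : ∀ i : Fin (n + 1), ∃ h ∈ H, (c i : Subgroup G) = Cfsg.subgroupConjRight h (S : Subgroup G) := by
      intro i
      induction i using Fin.induction with
      | zero => exact ⟨1, H.one_mem, by rw [hc0, conjRight_one]⟩
      | succ i ih =>
        obtain ⟨h, hh, hch⟩ := ih
        obtain ⟨g, hg⟩ := MulAction.exists_smul_eq G S (c i.succ)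
        have hg' : (c i.succ : Subgroup G) = Cfsg.subgroupConjRight g⁻¹ (S : Subgroup G) := by
          rw [← hg, conjRight_eq_smul, inv_inv]; rfl
        have hne := (hstep i).2
        rw [hch, hg'] at hne
        refine ⟨g⁻¹, ?_, hg'⟩
        have h2 : (S : Subgroup G) ⊓ Cfsg.subgroupConjRight (g⁻¹ * h⁻¹) (S : Subgroup G) ≠ ⊥ := by
          intro hbot
          apply hne
          have h3 : Cfsg.subgroupConjRight h ((S : Subgroup G) ⊓ Cfsg.subgroupConjRight (g⁻¹ * h⁻¹) (S : Subgroup G)) = ⊥ := by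
            rw [hbot]; exact Subgroup.map_bot _
          rwa [conjRight_inf, ← conjRight_mul, inv_mul_cancel_right] at h3
        have h4 := H.mul_mem (key _ h2) hh
        rwa [inv_mul_cancel_right] at h4
    obtain ⟨h, hh, hT⟩ := this (Fin.last n)
    exact ⟨h, hh, by rw [← hT, hcn]⟩
  rw [eq_top_iff]
  intro g _
  obtain ⟨h, hh, hT⟩ := hall (sconj g S)
  rw [coe_sconj] at hT
  have h1 : g * h⁻¹ ∈ Subgroup.normalizer ((S : Subgroup G) : Set G) := by
    rw [← conjRight_eq_iff, conjRight_mul, hT, ← conjRight_mul, mul_inv_cancel, conjRight_one]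
  have h2 := H.mul_mem (le_sup_right (a := (⨆ X ∈ Cfsg.sylowMembers p 𝓕 (S : Subgroup G), X)) h1) hh
  rwa [inv_mul_cancel_right] at h2

end Cfsg.Agent.S2955
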