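import Cfsg.Statements.S2956
import Cfsg.Agent.H18_Syl4

set_option autoImplicit false
open Cfsg

namespace Cfsg.Agent.S2956

open Cfsg.Agent.H18.Syl Cfsg.Agent.H18.Syl2 Cfsg.Agent.H18.Syl3 Cfsg.Agent.H18.Syl4
open scoped Pointwise

section
variable {G : Type*} [Group G] [Finite G] {p : ℕ} [Fact p.Prime]

theorem exists_sylIn {M Q : Subgroup G} (hQ : IsPGroup p ↥Q) (hQM : Q ≤ M) :
    ∃ P : Sylow p ↥M, Q ≤ (P : Subgroup ↥M).map M.subtype := by
  have h1 : IsPGroup p ↥(Q.subgroupOf M) := hQ.comap_of_injective _ (Subgroup.subtype_injective _)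
  obtain ⟨P, hP⟩ := h1.exists_le_sylow
  refine ⟨P, fun x hx => ⟨⟨x, hQM hx⟩, hP hx, rfl⟩⟩

theorem inf_eq_of_sylIn {M : Subgroup G} (P : Sylow p ↥M) (A : Sylow p G) (h : (P : Subgroup ↥M).map M.subtype ≤ A) :
    (A : Subgroup G) ⊓ M = (P : Subgroup ↥M).map M.subtype := by
  symm
  apply Subgroup.eq_of_le_of_card_ge
  · exact le_inf h (Subgroup.map_subtype_le _)
  · rw [card_sylow_sub]
    exact card_le_of_pgroup (A.2.to_le inf_le_left) inf_le_right

theorem mem_members_of_sylIn {M : Subgroup G} (P : Sylow p ↥M) (A : Sylow p G) (h : (P : Subgroup ↥M).map M.subtype ≤ A)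
    {𝓕 : Set (Subgroup G)} (hM : M ∈ 𝓕) : M ∈ sylowMembers p 𝓕 (A : Subgroup G) :=
  ⟨hM, P, (inf_eq_of_sylIn P A h).symm⟩

/-- the link through a member of the family containing the relevant subgroups. -/
theorem link_member {M R : Subgroup G} (P₁ P₂ : Sylow p ↥M) {𝓕 : Set (Subgroup G)} (hM : M ∈ 𝓕)
    (hR : R ≤ (P₂ : Subgroup ↥M).map M.subtype) :
    ∃ A₁ A₂ : Sylow p G, (P₁ : Subgroup ↥M).map M.subtype ≤ A₁ ∧ (P₂ : Subgroup ↥M).map M.subtype ≤ A₂ ∧
      Link 𝓕 R A₁ A₂ := by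
  obtain ⟨m, hm⟩ := MulAction.exists_smul_eq ↥M P₁ P₂
  obtain ⟨A₁, hA₁⟩ := (P₁.2.map M.subtype : IsPGroup p ↥((P₁ : Subgroup ↥M).map M.subtype)).exists_le_sylow
  have h2 : (P₂ : Subgroup ↥M).map M.subtype ≤ (((m : G) • A₁ : Sylow p G) : Subgroup G) := by
    rw [← hm]
    rintro _ ⟨x, hx, rfl⟩
    have hx : x ∈ ((m • P₁ : Sylow p ↥M) : Subgroup ↥M) := hx
    rw [coe_smul_sylow, mem_map_conj_iff] at hx
    rw [coe_smul_sylow, mem_map_conj_iff]
    exact hA₁ ⟨_, hx, rfl⟩
  refine ⟨A₁, (m : G) • A₁, hA₁, h2, M, m, mem_members_of_sylIn P₁ A₁ hA₁ hM, mem_members_of_sylIn P₂ _ h2 hM, m.2, ?_, ?_⟩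
  · rw [coe_smul_sylow]
    unfold subgroupConjRight
    rw [← map_conj_mul, inv_mul_cancel, map_conj_one]
  · exact le_inf (hR.trans h2) (hR.trans (Subgroup.map_subtype_le _))

theorem sylow_growth {M : Subgroup G} (P : Sylow p ↥M) (h : vp p M < (Nat.card G).factorization p) :
    vp p M < vp p (Subgroup.normalizer (((P : Subgroup ↥M).map M.subtype : Subgroup G) : Set G)) := by
  have h1 := Sylow.prime_pow_dvd_card_normalizer (p := p) (n := vp p M) (G := G)
    (((Fact.out (p := p.Prime)).pow_dvd_iff_le_factorization Nat.card_pos.ne').mpr h) (card_sylow_sub P)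
  exact ((Fact.out (p := p.Prime)).pow_dvd_iff_le_factorization Nat.card_pos.ne').mp h1

theorem exists_maxLocal {L : Subgroup G} (hL : IsPLocal p L) : ∃ M, IsMaximalPLocal p M ∧ L ≤ M := by
  classical
  obtain ⟨M, hM, hmax⟩ := Set.Finite.exists_maximalFor (fun X : Subgroup G => X) {X : Subgroup G | IsPLocal p X ∧ L ≤ X}
    (Set.toFinite _) ⟨L, hL, le_rfl⟩
  refine ⟨M, ⟨hM.1, fun N hN hMN => ?_⟩, hM.2⟩
  exact le_antisymm (hmax ⟨hN, hM.2.trans hMN⟩ hMN) hMN

theorem claimA (f : Subgroup G → Set (Subgroup G)) (hf : IsNormalizerFunctor p f)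
    (hf1 : ∀ P : Subgroup G, IsPGroup p ↥P → P ≠ ⊥ → ∀ F ∈ f P, F ≠ ⊥) (𝓖 : Set (Subgroup G))
    (h𝓖 : 𝓖 = functorFamily p f ⊤ ∪ {M | IsMaximalPLocal p M ∧ ¬ IsFunctorRegular p f M}) (R : Subgroup G)
    (hR1 : R ≠ ⊥)
    (near : ∀ (Q : Subgroup G) (A B : Sylow p G), IsPGroup p ↥Q → R < Q → Q ≤ A → Q ≤ B →
      Relation.ReflTransGen (Link 𝓖 R) A B) :
    ∀ (n : ℕ) (L : Subgroup G), IsPLocal p L → (Nat.card G).factorization p - vp p L = n →
    ∀ Q Q' : Subgroup G, IsPGroup p ↥Q → IsPGroup p ↥Q' → Q ≤ L → Q' ≤ L → R < Q → R < Q' →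
    ∀ A B : Sylow p G, Q ≤ A → Q' ≤ B → Relation.ReflTransGen (Link 𝓖 R) A B := by
  intro n
  induction n using Nat.strong_induction_on with
  | _ n IH =>
  intro L hL hn Q Q' hQ hQ' hQL hQL' hRQ hRQ' A B hQA hQB
  obtain ⟨M, hM, hLM⟩ := exists_maxLocal hL
  obtain ⟨P₁, hP₁⟩ := exists_sylIn hQ (hQL.trans hLM)
  obtain ⟨P₂, hP₂⟩ := exists_sylIn hQ' (hQL'.trans hLM)
  by_cases hsing : IsFunctorRegular p f M
  · -- regular case
    -- chain in `M`
    have hRmap : ∀ D : Sylow p ↥M, (P₁ : Subgroup ↥M) ⊓ (P₂ : Subgroup ↥M) ≤ D → R ≤ (D : Subgroup ↥M).map M.subtype := by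
      intro D hD r hr
      obtain ⟨y, hy, hyr⟩ := hP₁ (hRQ.le hr)
      obtain ⟨z, hz, hzr⟩ := hP₂ (hRQ'.le hr)
      have hyz : y = z := Subtype.ext (hyr.trans hzr.symm)
      exact ⟨y, hD ⟨hy, hyz ▸ hz⟩, hyr⟩
    have hchain : Relation.ReflTransGen (Link ((fun X : Subgroup G => X.subgroupOf M) '' functorFamily p f M)
        ((P₁ : Subgroup ↥M) ⊓ (P₂ : Subgroup ↥M))) P₁ P₂ := by
      by_cases h12 : P₁ = P₂
      · rw [h12]
      · apply (controls_iff _).mp hsing P₁ P₂ h12
        obtain ⟨⟨r, hr⟩, hr1⟩ := (Subgroup.ne_bot_iff_exists_ne_one.mp hR1)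
        intro hbot
        apply hr1
        obtain ⟨y, hy, hyr⟩ := hP₁ (hRQ.le hr)
        obtain ⟨z, hz, hzr⟩ := hP₂ (hRQ'.le hr)
        have hyz : y = z := Subtype.ext (hyr.trans hzr.symm)
        have h0 : y ∈ (P₁ : Subgroup ↥M) ⊓ (P₂ : Subgroup ↥M) := ⟨hy, hyz ▸ hz⟩
        rw [hbot, Subgroup.mem_bot] at h0
        apply Subtype.ext
        show r = 1
        rw [← hyr, h0]; rfl
    have hlt : ∀ D : Sylow p ↥M, R ≤ (D : Subgroup ↥M).map M.subtype → R < (D : Subgroup ↥M).map M.subtype := by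
      intro D hD
      refine lt_of_le_of_ne hD ?_
      intro h
      have h1 : Nat.card ↥R = p ^ vp p M := by rw [h]; exact card_sylow_sub D
      have h2 : Nat.card ↥Q ≤ p ^ vp p M := card_le_of_pgroup hQ (hQL.trans hLM)
      rw [← h1] at h2
      exact absurd (Subgroup.eq_of_le_of_card_ge hRQ.le h2) hRQ.ne
    have hpg : ∀ D : Sylow p ↥M, IsPGroup p ↥((D : Subgroup ↥M).map M.subtype) := fun D => D.2.map _
    have step : ∀ D E : Sylow p ↥M, R ≤ (D : Subgroup ↥M).map M.subtype →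
        Link ((fun X : Subgroup G => X.subgroupOf M) '' functorFamily p f M) ((P₁ : Subgroup ↥M) ⊓ (P₂ : Subgroup ↥M)) D E →
        ∀ A B : Sylow p G, (D : Subgroup ↥M).map M.subtype ≤ A → (E : Subgroup ↥M).map M.subtype ≤ B →
        Relation.ReflTransGen (Link 𝓖 R) A B := by
      intro D E hD hlink A B hDA hEB
      obtain ⟨_, ⟨x, hxM⟩, ⟨⟨X, ⟨P₀, F, hF, hX⟩, rfl⟩, hX1⟩, ⟨-, hX2⟩, hx, hxc, hR⟩ := hlink
      have hE : R ≤ (E : Subgroup ↥M).map M.subtype := hRmap E (hR.trans inf_le_left)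
      have hXM : X ≤ M := hX ▸ inf_le_left
      have hF0 := (hf _ (hpg P₀)).1 F hF
      have hP₀X : (P₀ : Subgroup ↥M).map M.subtype ≤ X := by
        rw [hX]
        exact le_inf (Subgroup.map_subtype_le _) (Subgroup.le_normalizer.trans hF0.2)
      have hvX : vp p X = vp p M := by
        apply le_antisymm (vp_mono hXM)
        have h1 := card_le_of_pgroup (hpg P₀) hP₀X
        rw [card_sylow_sub] at h1
        exact (Nat.pow_le_pow_iff_right (Fact.out (p := p.Prime)).one_lt).mp h1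
      have hcont : ∀ (Q₀ : Sylow p ↥M),
          (∃ P : Sylow p ↥(X.subgroupOf M), (P : Subgroup ↥(X.subgroupOf M)).map (X.subgroupOf M).subtype = (Q₀ : Subgroup ↥M) ⊓ X.subgroupOf M) →
          (Q₀ : Subgroup ↥M).map M.subtype ≤ X := by
        intro Q₀ hQ₀
        rw [exists_sylow_map_iff] at hQ₀
        have h1 := hQ₀.2
        have h2 : Nat.card ↥(X.subgroupOf M) = Nat.card ↥X := Nat.card_congr (Subgroup.subgroupOfEquivOfLe hXM).toEquiv
        have h4 : Nat.card ↥(Q₀ : Subgroup ↥M) = p ^ vp p M := Q₀.card_eq_multiplicity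
        rw [h2] at h1
        have h6 : Nat.card ↥((Q₀ : Subgroup ↥M) ⊓ X.subgroupOf M) = p ^ vp p X := h1
        rw [hvX, ← h4] at h6
        have h5 : (Q₀ : Subgroup ↥M) ⊓ X.subgroupOf M = (Q₀ : Subgroup ↥M) := Subgroup.eq_of_le_of_card_ge inf_le_left h6.ge
        rw [← h5]
        exact (Subgroup.map_mono inf_le_right).trans (by rw [Subgroup.subgroupOf_map_subtype]; exact inf_le_left)
      have hDX := hcont D hX1
      have hEX := hcont E hX2
      have hXN : X ≤ Subgroup.normalizer (F : Set G) := hX ▸ inf_le_right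
      have hFne : F ≠ ⊥ := by
        apply hf1 _ (hpg P₀) _ F hF
        intro h0
        have h1 := card_sylow_sub P₀
        rw [h0, ← card_sylow_sub P₁] at h1
        have h2 := hlt P₁ (hRQ.le.trans hP₁)
        have h3 : (P₁ : Subgroup ↥M).map M.subtype = ⊥ := by
          rw [← Subgroup.card_eq_one, ← h1, Subgroup.card_bot]
        rw [h3] at h2
        exact not_lt_bot h2
      have hNloc : IsPLocal p (Subgroup.normalizer (F : Set G)) :=
        ⟨F, (hpg P₀).to_le hF0.1, hFne, rfl⟩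
      rcases lt_or_eq_of_le (vp_mono (p := p) (le_top : M ≤ ⊤)) with hvlt | hveq
      · -- grow
        have hvG : vp p (⊤ : Subgroup G) = (Nat.card G).factorization p := by unfold vp; rw [Subgroup.card_top]
        rw [hvG] at hvlt
        have h1 := sylow_growth P₀ hvlt
        have h2 := vp_mono (p := p) hF0.2
        have h3 : vp p L ≤ vp p M := vp_mono hLM
        have h4 : vp p (Subgroup.normalizer (F : Set G)) ≤ (Nat.card G).factorization p := by
          rw [← hvG]; exact vp_mono le_top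
        refine IH ((Nat.card G).factorization p - vp p (Subgroup.normalizer (F : Set G))) (by omega) _ hNloc rfl
          _ _ (hpg D) (hpg E) (hDX.trans hXN) (hEX.trans hXN) (hlt D hD) (hlt E hE) A B hDA hEB
      · -- member of `𝓕`
        have hcardD : ∀ D : Sylow p ↥M, Nat.card ↥((D : Subgroup ↥M).map M.subtype) = p ^ (Nat.card G).factorization p := by
          intro D
          rw [card_sylow_sub, hveq]; unfold vp; rw [Subgroup.card_top]
        have hfull : ∀ (D : Sylow p ↥M) (A : Sylow p G), (D : Subgroup ↥M).map M.subtype ≤ A → (D : Subgroup ↥M).map M.subtype = A := by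
          intro D A h
          apply Subgroup.eq_of_le_of_card_ge h
          rw [hcardD, A.card_eq_multiplicity]
        have hA := hfull D A hDA
        have hB := hfull E B hEB
        have hmemF : Subgroup.normalizer (F : Set G) ∈ 𝓖 := by
          rw [h𝓖]
          exact Or.inl (mem_functorFamily_top f (Sylow.ofCard _ (hcardD P₀)) F hF)
        have hmem : ∀ Y : Sylow p G, (Y : Subgroup G) ≤ X →
            Subgroup.normalizer (F : Set G) ∈ sylowMembers p 𝓖 (Y : Subgroup G) := by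
          intro Y hY
          rw [mem_sylowMembers_iff]
          refine ⟨hmemF, ?_⟩
          rw [inf_eq_left.mpr (hY.trans hXN)]
          have := card_sub _ Y (hY.trans hXN)
          unfold vp at this
          rw [this]
          exact Y.card_eq_multiplicity
        apply Relation.ReflTransGen.single
        refine ⟨Subgroup.normalizer (F : Set G), x, hmem A (hA ▸ hDX), hmem B (hB ▸ hEX), hXN hx, ?_, le_inf (hB ▸ hE) (hE.trans (hEX.trans hXN))⟩
        rw [← hB, ← hA, ← hxc]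
        ext y
        rw [mem_conjRight_iff]
        constructor
        · rintro ⟨z, hz, hz'⟩
          have hyM : y ∈ M := by
            have h1 : x * y * x⁻¹ ∈ M := by rw [← hz']; exact z.2
            have h2 := M.mul_mem (M.mul_mem (M.inv_mem hxM) h1) hxM
            simpa [mul_assoc] using h2
          refine ⟨⟨y, hyM⟩, ?_, rfl⟩
          show (⟨y, hyM⟩ : ↥M) ∈ subgroupConjRight (⟨x, hxM⟩ : ↥M) (E : Subgroup ↥M)
          rw [mem_conjRight_iff]
          have : (⟨x, hxM⟩ : ↥M) * ⟨y, hyM⟩ * (⟨x, hxM⟩ : ↥M)⁻¹ = z := Subtype.ext hz'.symm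
          rw [this]; exact hz
        · rintro ⟨z, hz, rfl⟩
          have hz : z ∈ subgroupConjRight (⟨x, hxM⟩ : ↥M) (E : Subgroup ↥M) := hz
          rw [mem_conjRight_iff] at hz
          exact ⟨_, hz, rfl⟩
    have main : ∀ D : Sylow p ↥M, Relation.ReflTransGen (Link ((fun X : Subgroup G => X.subgroupOf M) '' functorFamily p f M)
        ((P₁ : Subgroup ↥M) ⊓ (P₂ : Subgroup ↥M))) P₁ D →
        R ≤ (D : Subgroup ↥M).map M.subtype ∧
        ∀ A B : Sylow p G, (P₁ : Subgroup ↥M).map M.subtype ≤ A → (D : Subgroup ↥M).map M.subtype ≤ B →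
        Relation.ReflTransGen (Link 𝓖 R) A B := by
      intro D hD
      induction hD with
      | refl => exact ⟨hRQ.le.trans hP₁, fun A B hA hB => near _ A B (hpg P₁) (hlt P₁ (hRQ.le.trans hP₁)) hA hB⟩
      | @tail E E' _ hl ih =>
        refine ⟨?_, fun A B hA hB => ?_⟩
        · obtain ⟨_, _, _, _, _, _, hR⟩ := hl
          exact hRmap E' (hR.trans inf_le_left)
        · obtain ⟨C, hC⟩ := (hpg E).exists_le_sylow
          exact (ih.2 A C hA hC).trans (step E E' ih.1 hl C B hC hB)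
    obtain ⟨-, hmain⟩ := main P₂ hchain
    obtain ⟨A₁, hA₁⟩ := (hpg P₁).exists_le_sylow
    obtain ⟨B₁, hB₁⟩ := (hpg P₂).exists_le_sylow
    exact ((near Q A A₁ hQ hRQ hQA (hP₁.trans hA₁)).trans (hmain A₁ B₁ hA₁ hB₁)).trans (near Q' B₁ B hQ' hRQ' (hP₂.trans hB₁) hQB)
  · -- singular case
    have hM𝓖 : M ∈ 𝓖 := by rw [h𝓖]; exact Or.inr ⟨hM, hsing⟩
    obtain ⟨A₁, A₂, h1, h2, h3⟩ := link_member P₁ P₂ hM𝓖 (hRQ'.le.trans hP₂)
    exact ((near Q A A₁ hQ hRQ hQA (hP₁.trans h1)).tail h3).trans (near Q' A₂ B hQ' hRQ' (hP₂.trans h2) hQB)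

end

/-- Let p be a prime dividing the order of the finite group G, and f an assignment to every p-subgroup P of a set f(P) of subgroups of P, each normalized by N_G(P), compatible with conjugation, such that for P ≠ 1 the members of f(P) are nontrivial. Let 𝓕 be the family of the normalizers N_G(F) of the members F of f(S) over the Sylow p-subgroups S of G, and 𝓕' the family of the maximal p-local subgroups M of G that are singular for f (the corresponding family of normalizers inside M does not control Sylow p-intersections in M). Then 𝓕 ∪ 𝓕' controls Sylow p-intersections in G. -/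
theorem result {G : Type*} [Group G] [Finite G] (p : ℕ) [Fact p.Prime] (hdiv : p ∣ Nat.card G)
    (f : Subgroup G → Set (Subgroup G)) (hf : Cfsg.IsNormalizerFunctor p f)
    (hf1 : ∀ P : Subgroup G, IsPGroup p ↥P → P ≠ ⊥ → ∀ F ∈ f P, F ≠ ⊥)
    (𝓕 𝓕' : Set (Subgroup G)) (h𝓕 : 𝓕 = Cfsg.functorFamily p f ⊤)
    (h𝓕' : 𝓕' = {M | Cfsg.IsMaximalPLocal p M ∧ ¬ Cfsg.IsFunctorRegular p f M}) :
    Cfsg.ControlsSylowIntersections p (𝓕 ∪ 𝓕') := by
  rw [controls_iff]
  have main : ∀ n : ℕ, ∀ S T : Sylow p G, Nat.card G - Nat.card ↥((S : Subgroup G) ⊓ (T : Subgroup G)) = n →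
      (S : Subgroup G) ⊓ (T : Subgroup G) ≠ ⊥ →
      Relation.ReflTransGen (Link (𝓕 ∪ 𝓕') ((S : Subgroup G) ⊓ (T : Subgroup G))) S T := by
    intro n
    induction n using Nat.strong_induction_on with
    | _ n IH =>
    intro S T hn hne
    by_cases hST : S = T
    · rw [hST]
    set R := (S : Subgroup G) ⊓ (T : Subgroup G) with hR
    have hRp : IsPGroup p ↥R := S.2.to_le inf_le_left
    have hnear : ∀ (Q : Subgroup G) (A B : Sylow p G), IsPGroup p ↥Q → R < Q → Q ≤ A → Q ≤ B →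
        Relation.ReflTransGen (Link (𝓕 ∪ 𝓕') R) A B := by
      intro Q A B _ hRQ hA hB
      have h1 : Q ≤ (A : Subgroup G) ⊓ (B : Subgroup G) := le_inf hA hB
      have h2 : Nat.card ↥R < Nat.card ↥((A : Subgroup G) ⊓ (B : Subgroup G)) :=
        Set.ncard_lt_ncard (SetLike.coe_ssubset_coe.mpr (hRQ.trans_le h1)) (Set.toFinite _)
      have h3 : Nat.card ↥((A : Subgroup G) ⊓ (B : Subgroup G)) ≤ Nat.card G := Subgroup.card_le_card_group _
      refine rtg_mono (hRQ.le.trans h1) (IH _ (by omega) A B rfl ?_)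
      intro h
      rw [h] at h1
      exact not_lt_bot (hRQ.trans_le h1)
    have hRS : R < S := by
      refine lt_of_le_of_ne inf_le_left ?_
      intro h
      apply hST
      apply Sylow.ext
      have h1 : (S : Subgroup G) ≤ T := by
        intro x hx
        rw [← h] at hx
        exact hx.2
      exact Subgroup.eq_of_le_of_card_ge h1 (by rw [S.card_eq_multiplicity, T.card_eq_multiplicity])
    have hRT : R < T := by
      refine lt_of_le_of_ne inf_le_right ?_
      intro h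
      apply hST
      apply Sylow.ext
      have h1 : (T : Subgroup G) ≤ S := by
        intro x hx
        rw [← h] at hx
        exact hx.1
      exact (Subgroup.eq_of_le_of_card_ge h1 (by rw [S.card_eq_multiplicity, T.card_eq_multiplicity])).symm
    refine claimA f hf hf1 (𝓕 ∪ 𝓕') (by rw [h𝓕, h𝓕']) R hne hnear _ (Subgroup.normalizer (R : Set G)) ⟨R, hRp, hne, rfl⟩ rfl
      ((S : Subgroup G) ⊓ Subgroup.normalizer (R : Set G)) ((T : Subgroup G) ⊓ Subgroup.normalizer (R : Set G))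
      (S.2.to_le inf_le_left) (T.2.to_le inf_le_left) inf_le_right inf_le_right
      (lt_inf_normalizer S.2 hRS) (lt_inf_normalizer T.2 hRT) S T inf_le_left inf_le_left
  intro S T _ hne
  exact main _ S T rfl hne

end Cfsg.Agent.S2956
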