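import Cfsg.Statements.S2957
import Cfsg.Agent.H18_Syl4
import Cfsg.Agent.S2940

set_option autoImplicit false
open Cfsg

namespace Cfsg.Agent.S2957

open Cfsg.Agent.H18.Syl Cfsg.Agent.H18.Syl2 Cfsg.Agent.H18.Syl3 Cfsg.Agent.H18.Syl4
open scoped Pointwise


/-- Let p be a prime dividing the order of the finite group G, f an equivariant assignment of a set of subgroups f(P) of P to every p-subgroup P, each normalized by N_G(P), and S a Sylow p-subgroup. If G = G₁G₂ for subgroups G₁, G₂ both containing S and both regular for f (in each Gᵢ, the family of normalizers in Gᵢ of the members of f(P), P a Sylow p-subgroup of Gᵢ, controls Sylow p-intersections), then G itself is regular for f. -/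
theorem result {G : Type*} [Group G] [Finite G] (p : ℕ) [Fact p.Prime] (hdiv : p ∣ Nat.card G)
    (f : Subgroup G → Set (Subgroup G)) (hf : Cfsg.IsNormalizerFunctor p f) (S : Sylow p G)
    (G₁ G₂ : Subgroup G) (h₁ : (S : Subgroup G) ≤ G₁) (h₂ : (S : Subgroup G) ≤ G₂)
    (hprod : ∀ g : G, ∃ g₁ ∈ G₁, ∃ g₂ ∈ G₂, g = g₁ * g₂)
    (hr₁ : Cfsg.IsFunctorRegular p f G₁) (hr₂ : Cfsg.IsFunctorRegular p f G₂) :
    Cfsg.IsFunctorRegular p f ⊤ := by
  apply regular_top
  have main : ∀ g : G, (S : Subgroup G) ⊓ ((sconj g S : Sylow p G) : Subgroup G) ≠ ⊥ →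
      Relation.ReflTransGen (Link (functorFamily p f ⊤) ((S : Subgroup G) ⊓ ((sconj g S : Sylow p G) : Subgroup G))) S (sconj g S) := by
    intro g hne
    obtain ⟨U, hU1, hU2⟩ := Cfsg.Agent.S2940.result S G₁ G₂ h₁ h₂ hprod g
    have c1 := link_of_regular f hf S G₁ h₁ hr₁ (A := S) (B := U) h₁ (hU2.trans inf_le_left) (by
      intro h; apply hne; rw [eq_bot_iff, ← h]; exact le_inf inf_le_left hU1)
    have hU3 : ((sconj g⁻¹ U : Sylow p G) : Subgroup G) ≤ G₂ := by
      rw [coe_sconj]
      have := conjRight_mono g⁻¹ (hU2.trans inf_le_right)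
      rwa [← conjRight_mul, mul_inv_cancel, conjRight_one] at this
    have e0 : subgroupConjRight g ((sconj g⁻¹ U : Sylow p G) : Subgroup G) = U := by
      rw [coe_sconj, ← conjRight_mul, inv_mul_cancel, conjRight_one]
    have c2 := link_of_regular f hf S G₂ h₂ hr₂ (A := sconj g⁻¹ U) (B := S) hU3 h₂ (by
      intro h
      apply hne
      have h3 := congrArg (subgroupConjRight g) h
      rw [conjRight_inf, e0] at h3
      have h4 : subgroupConjRight g (⊥ : Subgroup G) = ⊥ := Subgroup.map_bot _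
      rw [h4] at h3
      rw [eq_bot_iff, ← h3]
      exact le_inf hU1 inf_le_right)
    have c3 := rtg_conj (normalSet_top f hf) c2 g
    rw [conjRight_inf, e0] at c3
    have e1 : sconj g (sconj g⁻¹ U) = U := Sylow.ext e0
    rw [e1] at c3
    exact (rtg_mono (le_inf inf_le_left hU1) c1).trans (rtg_mono (le_inf hU1 inf_le_right) c3)
  intro A B hAB
  obtain ⟨a, ha⟩ := MulAction.exists_smul_eq G S A
  obtain ⟨b, hb⟩ := MulAction.exists_smul_eq G S B
  have hA : A = sconj a⁻¹ S := by rw [← ha]; simp [sconj]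
  have hB : B = sconj a⁻¹ (sconj (b⁻¹ * a) S) := by
    rw [← hb]; simp [sconj, mul_smul]
  rw [hA, hB] at hAB ⊢
  have e0 : (((sconj a⁻¹ S : Sylow p G) : Subgroup G) ⊓ ((sconj a⁻¹ (sconj (b⁻¹ * a) S) : Sylow p G) : Subgroup G)) =
      subgroupConjRight a⁻¹ ((S : Subgroup G) ⊓ ((sconj (b⁻¹ * a) S : Sylow p G) : Subgroup G)) := by
    rw [conjRight_inf]; rfl
  rw [e0] at hAB ⊢
  apply rtg_conj (normalSet_top f hf)
  apply main
  intro h
  apply hAB
  rw [h]; exact Subgroup.map_bot _

end Cfsg.Agent.S2957
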