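import Cfsg.Statements.S2958

set_option autoImplicit false
open Cfsg

namespace Cfsg.Agent.S2958


/-- Let X, A, B be subgroups of a group G such that G is generated by the conjugates of X and every conjugate of X is contained in A or in B. Then A = G or B = G. -/
theorem result {G : Type*} [Group G] (X A B : Subgroup G) (hgen : (⨆ g : G, X.map (MulAut.conj g).toMonoidHom) = ⊤) (hcover : ∀ g : G, X.map (MulAut.conj g).toMonoidHom ≤ A ∨ X.map (MulAut.conj g).toMonoidHom ≤ B) : A = ⊤ ∨ B = ⊤ := by
  classical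
  by_cases hA : ∀ g : G, X.map (MulAut.conj g).toMonoidHom ≤ A
  · left; rw [eq_top_iff, ← hgen]; exact iSup_le hA
  · right
    push Not at hA
    obtain ⟨g₀, hg₀⟩ := hA
    have hmap : ∀ a g : G, (X.map (MulAut.conj g).toMonoidHom).map (MulAut.conj a).toMonoidHom =
        X.map (MulAut.conj (a * g)).toMonoidHom := by
      intro a g
      rw [Subgroup.map_map]
      congr 1
      ext x
      simp [MulAut.conj_apply, mul_assoc]
    have hAmap : ∀ a ∈ A, A.map (MulAut.conj a).toMonoidHom ≤ A := by
      rintro a ha _ ⟨x, hx, rfl⟩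
      simpa using A.mul_mem (A.mul_mem ha hx) (A.inv_mem ha)
    set B0 : Subgroup G := ⨆ g : {g : G // ¬ X.map (MulAut.conj g).toMonoidHom ≤ A}, X.map (MulAut.conj (g : G)).toMonoidHom with hB0
    -- A conjugates B0 into itself
    have h1 : ∀ a ∈ A, ∀ x ∈ B0, a * x * a⁻¹ ∈ B0 := by
      intro a ha x hx
      have h2 : B0.map (MulAut.conj a).toMonoidHom ≤ B0 := by
        rw [hB0, Subgroup.map_iSup]
        refine iSup_le ?_
        rintro ⟨g, hg⟩
        rw [hmap]
        refine le_iSup (fun g : {g : G // ¬ X.map (MulAut.conj g).toMonoidHom ≤ A} => X.map (MulAut.conj (g : G)).toMonoidHom) ⟨a * g, ?_⟩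
        intro h
        apply hg
        have h3 := Subgroup.map_mono (f := (MulAut.conj a⁻¹).toMonoidHom) h
        rw [hmap, inv_mul_cancel_left] at h3
        exact h3.trans (hAmap _ (A.inv_mem ha))
      have := h2 (Subgroup.mem_map_of_mem _ hx)
      simpa using this
    have hA' : ∀ a ∈ A, a ∈ Subgroup.normalizer (B0 : Set G) := by
      intro a ha
      rw [Subgroup.mem_normalizer_iff]
      intro x
      refine ⟨h1 a ha x, fun h => ?_⟩
      have := h1 a⁻¹ (A.inv_mem ha) _ h
      simpa [mul_assoc] using this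
    have hN : Subgroup.normalizer (B0 : Set G) = ⊤ := by
      rw [eq_top_iff, ← hgen]
      refine iSup_le fun g => ?_
      by_cases hg : X.map (MulAut.conj g).toMonoidHom ≤ A
      · exact fun x hx => hA' x (hg hx)
      · refine le_trans ?_ Subgroup.le_normalizer
        exact le_iSup (fun g : {g : G // ¬ X.map (MulAut.conj g).toMonoidHom ≤ A} => X.map (MulAut.conj (g : G)).toMonoidHom) ⟨g, hg⟩
    have hBn : B0.Normal := Subgroup.normalizer_eq_top_iff.mp hN
    have hall : ∀ g : G, X.map (MulAut.conj g).toMonoidHom ≤ B0 := by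
      intro g
      have h4 : X.map (MulAut.conj g₀).toMonoidHom ≤ B0 :=
        le_iSup (fun g : {g : G // ¬ X.map (MulAut.conj g).toMonoidHom ≤ A} => X.map (MulAut.conj (g : G)).toMonoidHom) ⟨g₀, hg₀⟩
      have h5 := Subgroup.map_mono (f := (MulAut.conj (g * g₀⁻¹)).toMonoidHom) h4
      rw [hmap, inv_mul_cancel_right] at h5
      refine h5.trans ?_
      rintro _ ⟨x, hx, rfl⟩
      exact hBn.conj_mem x hx (g * g₀⁻¹)
    rw [eq_top_iff, ← hgen]
    refine iSup_le fun g => (hall g).trans ?_
    rw [hB0]
    exact iSup_le fun g => (hcover g).resolve_left g.2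

end Cfsg.Agent.S2958
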