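import Cfsg.Statements.S2963

set_option autoImplicit false
open Cfsg

namespace Cfsg.Agent.S2963

open scoped Pointwise

/-- Let n be odd. If the symmetric group of degree n is a minimal parabolic group for the prime 2, that is, a Sylow 2-subgroup is not normal and lies in exactly one maximal subgroup, then n = 2^m + 1 for some natural number m. -/
theorem result (n : ℕ) (hn : Odd n) (h : Cfsg.IsPMinimal 2 (Equiv.Perm (Fin n))) : ∃ m : ℕ, n = 2 ^ m + 1 := by
  classical
  obtain ⟨T⟩ := (inferInstance : Nonempty (Sylow 2 (Equiv.Perm (Fin n))))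
  obtain ⟨hTn, M, ⟨hM, hTM⟩, huniq⟩ := h T
  -- n ≥ 2
  have hn2 : 2 ≤ n := by
    by_contra hlt
    have hsub : Subsingleton (Fin n) := by
      have : n ≤ 1 := by omega
      exact Fin.subsingleton_iff_le_one.mpr this
    apply hTn
    have : (T : Subgroup (Equiv.Perm (Fin n))) = ⊤ := by
      haveI : Subsingleton (Equiv.Perm (Fin n)) := inferInstance
      exact Subsingleton.elim _ _
    rw [this]; infer_instance
  have hcont : ∀ H : Subgroup (Equiv.Perm (Fin n)), (T : Subgroup _) ≤ H → H ≠ ⊤ → H ≤ M := by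
    intro H hTH hH
    obtain ⟨K, hK, hHK⟩ := (eq_top_or_exists_le_coatom H).resolve_left hH
    rw [← huniq K ⟨hK, hTH.trans hHK⟩]; exact hHK
  -- a fixed point
  have hfix : ∃ i : Fin n, ∀ t ∈ (T : Subgroup (Equiv.Perm (Fin n))), t i = i := by
    have h1 := T.2.nonempty_fixed_point_of_prime_not_dvd_card (Fin n) (by
      rw [Nat.card_fin]
      rintro ⟨k, hk⟩
      obtain ⟨l, hl⟩ := hn
      omega)
    obtain ⟨i, hi⟩ := h1
    exact ⟨i, fun t ht => hi ⟨t, ht⟩⟩
  obtain ⟨i, hi⟩ := hfix
  obtain ⟨j, hj⟩ : ∃ j : Fin n, j ≠ i := by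
    haveI : Nontrivial (Fin n) := Fin.nontrivial_iff_two_le.mpr hn2
    exact exists_ne i
  -- the orbit of `j`
  set O : Set (Fin n) := MulAction.orbit ↥(T : Subgroup (Equiv.Perm (Fin n))) j with hO
  have hiO : i ∉ O := by
    rintro ⟨t, ht⟩
    have ht : (t : Equiv.Perm (Fin n)) j = i := ht
    have h2 := hi t t.2
    exact hj ((t : Equiv.Perm (Fin n)).injective (ht.trans h2.symm))
  have hOcard : ∃ m : ℕ, Nat.card O = 2 ^ m := by
    obtain ⟨m, hm⟩ := T.2.card_orbit j
    exact ⟨m, hm⟩
  by_cases hall : ∃ k, k ∉ O ∧ k ≠ i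
  · exfalso
    obtain ⟨k, hkO, hki⟩ := hall
    -- stabilizer of `i`
    let M1 : Subgroup (Equiv.Perm (Fin n)) := MulAction.stabilizer (Equiv.Perm (Fin n)) i
    let M2 : Subgroup (Equiv.Perm (Fin n)) := MulAction.stabilizer (Equiv.Perm (Fin n)) O
    have hM1 : ∀ g : Equiv.Perm (Fin n), g ∈ M1 ↔ g i = i := fun g => Iff.rfl
    have hM2 : ∀ g : Equiv.Perm (Fin n), (∀ x ∈ O, g x = x) → g ∈ M2 := by
      intro g hg
      show g • O = O
      ext x
      constructor
      · rintro ⟨y, hy, rfl⟩
        have : g • y = y := hg y hy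
        simpa [this] using hy
      · intro hx
        exact ⟨x, hx, hg x hx⟩
    have h1 : M1 ≤ M := by
      apply hcont
      · intro t ht; exact hi t ht
      · intro htop
        have : Equiv.swap i j ∈ M1 := by rw [htop]; trivial
        rw [hM1, Equiv.swap_apply_left] at this
        exact hj this
    have h2 : M2 ≤ M := by
      apply hcont
      · intro t ht
        show t • O = O
        rw [hO]
        exact MulAction.smul_orbit (⟨t, ht⟩ : ↥(T : Subgroup (Equiv.Perm (Fin n)))) j
      · intro htop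
        have h3 : Equiv.swap i j ∈ M2 := by rw [htop]; trivial
        have h4 : Equiv.swap i j • O = O := h3
        have h5 : j ∈ O := MulAction.mem_orbit_self j
        have h6 : (Equiv.swap i j) • j ∈ (Equiv.swap i j) • O := Set.smul_mem_smul_set h5
        rw [h4] at h6
        apply hiO
        simpa using h6
    have h3 : Equiv.swap i k ∈ M := by
      apply h2
      apply hM2
      intro x hx
      apply Equiv.swap_apply_of_ne_of_ne
      · rintro rfl; exact hiO hx
      · rintro rfl; exact hkO hx
    apply hM.1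
    rw [eq_top_iff]
    rintro g -
    -- `swap i (g i) ∈ M`
    have h4 : ∀ l : Fin n, l ≠ i → Equiv.swap i l ∈ M := by
      intro l hl
      by_cases hlk : l = k
      · rw [hlk]; exact h3
      · have h5 : Equiv.swap k l ∈ M1 := by
          rw [hM1]
          exact Equiv.swap_apply_of_ne_of_ne (Ne.symm hki) (Ne.symm hl)
        have h6 := M.mul_mem (M.mul_mem (h1 h5) h3) (M.inv_mem (h1 h5))
        have h7 : Equiv.swap k l * Equiv.swap i k * (Equiv.swap k l)⁻¹ = Equiv.swap i l := by
          rw [← Equiv.swap_apply_apply (Equiv.swap k l) i k] at *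
          rw [Equiv.swap_apply_left, Equiv.swap_apply_of_ne_of_ne (Ne.symm hki) (Ne.symm hl)]
        rwa [h7] at h6
    by_cases hgi : g i = i
    · exact h1 hgi
    · have h5 := h4 (g i) hgi
      have h6 : Equiv.swap i (g i) * g ∈ M1 := by
        rw [hM1, Equiv.Perm.mul_apply, Equiv.swap_apply_right]
      have h7 := M.mul_mem (M.inv_mem h5) (h1 h6)
      rwa [inv_mul_cancel_left] at h7
  · push Not at hall
    obtain ⟨m, hm⟩ := hOcard
    refine ⟨m, ?_⟩
    have h1 : O = {i}ᶜ := by
      ext x
      constructor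
      · intro hx hxi
        rw [Set.mem_singleton_iff] at hxi
        subst hxi; exact hiO hx
      · intro hx
        by_contra hxO
        exact hx (hall x hxO)
    have h2 : Nat.card O = n - 1 := by
      rw [h1, Nat.card_coe_set_eq, Set.ncard_compl, Set.ncard_singleton, Nat.card_fin]
    omega

end Cfsg.Agent.S2963
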