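import Cfsg.Statements.S2998
import Cfsg.Agent.H13_Syl

set_option autoImplicit false
open Cfsg

namespace Cfsg.Agent.S2998

open Subgroup Cfsg.Agent.H13.Syl

/-- Let G be a finite group, p a prime, P a Sylow p-subgroup of G and x ∈ P an element such that N_G(R) ≤ C_G(x) for every nontrivial subgroup R of P. Then P ≤ C_G(x); every G-conjugate of x lying in P equals x (so g ∈ C_G(x) whenever g x g⁻¹ ∈ P); and for every normal subgroup N of G, the image of x in G ⧸ N has the same property with respect to the image of P: the normalizer of every nontrivial subgroup of the image of P centralizes the image of x. -/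
theorem result {G : Type*} [Group G] [Finite G] {p : ℕ} [Fact p.Prime] (P : Sylow p G) (x : G) (hxP : x ∈ (P : Subgroup G)) (hlc : ∀ R : Subgroup G, R ≤ (P : Subgroup G) → R ≠ ⊥ → Subgroup.normalizer (R : Set G) ≤ Subgroup.centralizer ({x} : Set G)) : (P : Subgroup G) ≤ Subgroup.centralizer ({x} : Set G) ∧ (∀ g : G, g * x * g⁻¹ ∈ (P : Subgroup G) → g * x * g⁻¹ = x) ∧ ∀ (N : Subgroup G) [N.Normal], ∀ R : Subgroup (G ⧸ N), R ≤ (P : Subgroup G).map (QuotientGroup.mk' N) → R ≠ ⊥ → Subgroup.normalizer (R : Set (G ⧸ N)) ≤ Subgroup.centralizer ({(QuotientGroup.mk x : G ⧸ N)} : Set (G ⧸ N)) := by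
  have hPC : (P : Subgroup G) ≤ centralizer ({x} : Set G) := by
    by_cases h : (P : Subgroup G) = ⊥
    · rw [h]; exact bot_le
    · exact Subgroup.le_normalizer.trans (hlc _ le_rfl h)
  refine ⟨hPC, ?_, ?_⟩
  · intro g hg
    by_cases hx1 : x = 1
    · rw [hx1]; simp
    set y := g * x * g⁻¹ with hy
    have hy1 : y ≠ 1 := by
      intro h
      apply hx1
      have h2 : x = g⁻¹ * y * g := by rw [hy]; group
      rw [h2, h]; simp
    -- `C_G(y) ≤ C_G(x)`
    have h1 : centralizer ({y} : Set G) ≤ centralizer ({x} : Set G) := by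
      refine le_trans ?_ (hlc (zpowers y) (zpowers_le.mpr hg) (by rwa [Ne, zpowers_eq_bot]))
      refine le_trans ?_ (Subgroup.centralizer_le_normalizer _)
      intro z hz
      rw [mem_centralizer_singleton_iff] at hz
      rw [mem_centralizer_iff]
      rintro _ ⟨i, rfl⟩
      exact (Commute.zpow_left (show Commute y z from hz.symm) i).eq
    -- `P` and `P^g` lie in `C_G(x)`
    have hsyl := isSylIn_sylow_top P
    have hP1 : IsSylIn p (P : Subgroup G) (centralizer ({x} : Set G)) := hsyl.mono hPC le_top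
    have hP2 : IsSylIn p (Cfsg.Agent.H13.Syl.cj g (P : Subgroup G)) (centralizer ({x} : Set G)) := by
      have h2 := hsyl.cj g
      rw [cj_top] at h2
      refine h2.mono (le_trans ?_ h1) le_top
      rw [hy, ← cj_centralizer_singleton]
      exact cj_mono hPC
    obtain ⟨c, hc, hcP⟩ := hP1.exists_conj_eq hP2
    rw [← cj_mul] at hcP
    have h3 : c * g ∈ normalizer ((P : Subgroup G) : Set G) := mem_normalizer_iff_cj.mpr hcP
    have hPne : (P : Subgroup G) ≠ ⊥ := by
      intro h; rw [h, mem_bot] at hxP; exact hx1 hxP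
    have h4 := hlc _ le_rfl hPne h3
    have h5 : g ∈ centralizer ({x} : Set G) := by
      have := (centralizer ({x} : Set G)).mul_mem ((centralizer ({x} : Set G)).inv_mem hc) h4
      rwa [inv_mul_cancel_left] at this
    rw [mem_centralizer_singleton_iff] at h5
    rw [hy, h5, mul_inv_cancel_right]
  · intro N hN R hRP hR1
    -- `H = π⁻¹(R)`, `R₀ = P ∩ H`
    set H := R.comap (QuotientGroup.mk' N) with hH
    set R₀ := (P : Subgroup G) ⊓ H with hR₀
    have hNH : N ≤ H := by
      intro n hn
      show QuotientGroup.mk' N n ∈ R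
      have : QuotientGroup.mk' N n = 1 := (QuotientGroup.eq_one_iff n).mpr hn
      rw [this]; exact R.one_mem
    have hHdec : ∀ h ∈ H, ∃ n ∈ N, ∃ r ∈ R₀, h = n * r := by
      intro h hh
      obtain ⟨r, hr, hrh⟩ := hRP (show QuotientGroup.mk' N h ∈ R from hh)
      have h1 : h * r⁻¹ ∈ N := by
        rw [← QuotientGroup.eq_one_iff, QuotientGroup.mk_mul, QuotientGroup.mk_inv]
        have : (QuotientGroup.mk r : G ⧸ N) = QuotientGroup.mk h := hrh
        rw [this, mul_inv_cancel]
      refine ⟨h * r⁻¹, h1, r, ⟨hr, ?_⟩, by group⟩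
      show QuotientGroup.mk' N r ∈ R
      rw [hrh]; exact hh
    have hR₀ne : R₀ ≠ ⊥ := by
      intro h0
      apply hR1
      rw [eq_bot_iff]
      intro r hr
      obtain ⟨g, rfl⟩ := QuotientGroup.mk'_surjective N r
      obtain ⟨n, hn, r, hr', rfl⟩ := hHdec g hr
      rw [h0, mem_bot] at hr'
      rw [hr', mul_one, mem_bot]
      exact (QuotientGroup.eq_one_iff n).mpr hn
    -- `R₀` is Sylow in `H`
    have hPN : IsSylIn p ((P : Subgroup G) ⊓ N) N := (isSylIn_sylow_top P).inf_of_le_normalizer le_top (by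
      rw [Subgroup.normalizer_eq_top])
    have hRSyl : IsSylIn p R₀ H := by
      apply isSylIn_of_maximal inf_le_right (P.2.to_le inf_le_left)
      intro A hAH hA hRA
      apply le_antisymm _ hRA
      intro a ha
      obtain ⟨n, hn, r, hr, har⟩ := hHdec a (hAH ha)
      have hnA : n ∈ A := by
        have := A.mul_mem ha (A.inv_mem (hRA hr))
        rwa [har, mul_inv_cancel_right] at this
      have h1 : A ⊓ N = (P : Subgroup G) ⊓ N := by
        apply hPN.eq_of_le (hA.to_le inf_le_left) inf_le_right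
        refine le_inf ?_ inf_le_right
        exact le_trans (inf_le_inf_left _ hNH) hRA
      have h2 : n ∈ (P : Subgroup G) ⊓ N := by rw [← h1]; exact ⟨hnA, hn⟩
      rw [har]
      exact R₀.mul_mem ⟨h2.1, hNH hn⟩ hr
    intro g hg
    obtain ⟨g, rfl⟩ := QuotientGroup.mk'_surjective N g
    have hgH : g ∈ normalizer (H : Set G) := by
      rw [mem_normalizer_iff] at hg ⊢
      intro h
      have := hg (QuotientGroup.mk' N h)
      exact this
    obtain ⟨h, hh, m, hm, hgm⟩ := hRSyl.frattini (H := H ⊔ zpowers g) le_sup_left (by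
      rw [sup_le_iff]
      exact ⟨Subgroup.le_normalizer, zpowers_le.mpr hgH⟩) (g := g) (mem_sup_right (mem_zpowers g))
    obtain ⟨n, hn, r, hr, rfl⟩ := hHdec h hh
    have h1 : r ∈ centralizer ({x} : Set G) := hPC hr.1
    have h2 : m ∈ centralizer ({x} : Set G) := hlc R₀ inf_le_left hR₀ne hm.2
    have h3 := (centralizer ({x} : Set G)).mul_mem h1 h2
    have h4 : QuotientGroup.mk' N g = QuotientGroup.mk' N (r * m) := by
      have h5 : QuotientGroup.mk' N n = 1 := (QuotientGroup.eq_one_iff n).mpr hn
      rw [hgm, mul_assoc, map_mul, h5, one_mul]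
    rw [h4, mem_centralizer_singleton_iff]
    rw [mem_centralizer_singleton_iff] at h3
    have h5 := congrArg (QuotientGroup.mk' N) h3
    rw [map_mul, map_mul (QuotientGroup.mk' N) x] at h5
    exact h5

end Cfsg.Agent.S2998
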