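import Cfsg.Statements.S3003
import Cfsg.Agent.H18_Gen

set_option autoImplicit false
open Cfsg

namespace Cfsg.Agent.S3003

open Subgroup
open scoped commutatorElement

theorem comm_mem {G : Type*} [Group G] {Q R : Subgroup G} {r q : G} (hr : r ∈ R) (hq : q ∈ Q)
    (hrQ : r ∈ normalizer (Q : Set G)) (hqR : q ∈ normalizer (R : Set G)) : ⁅r, q⁆ ∈ Q ⊓ R := by
  rw [commutatorElement_def]
  refine ⟨Q.mul_mem ((mem_normalizer_iff.mp hrQ q).mp hq) (Q.inv_mem hq), ?_⟩
  have h := R.mul_mem hr ((mem_normalizer_iff.mp hqR r⁻¹).mp (R.inv_mem hr))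
  have e : r * q * r⁻¹ * q⁻¹ = r * (q * r⁻¹ * q⁻¹) := by group
  rw [e]; exact h

theorem part1 {G : Type*} [Group G] [Finite G] {p : ℕ} [Fact p.Prime] (Q : Subgroup G) (hQp : IsPGroup p ↥Q) (hlarge : Cfsg.IsLarge Q) (G₁ : Subgroup G) (hQG : Q ≤ G₁) (R : Subgroup G) (hR : (Nat.card ↥R).Coprime p) (hGR : G₁ ≤ Subgroup.normalizer (R : Set G)) {x : G} (hx1 : x ≠ 1) {g : G} (hg : g ∈ G₁) (hz : g * x * g⁻¹ ∈ Q ⊓ Subgroup.centralizer (Q : Set G)) :
    R ⊓ centralizer {x} = ⊥ := by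
  have hQR : Q ⊓ R = ⊥ := by
    apply inf_eq_bot_of_coprime
    obtain ⟨n, hn⟩ := IsPGroup.iff_card.mp hQp
    rw [hn]; exact Nat.Coprime.pow_left _ hR.symm
  rw [eq_bot_iff]
  intro r hr
  obtain ⟨hrR, hrx⟩ := hr
  have hrx : r * x = x * r := mem_centralizer_singleton_iff.mp hrx
  set z := g * x * g⁻¹ with hzdef
  set s := g * r * g⁻¹ with hs
  have hsR : s ∈ R := (mem_normalizer_iff.mp (hGR hg) r).mp hrR
  have hsz : s * z = z * s := by
    rw [hs, hzdef]
    calc g * r * g⁻¹ * (g * x * g⁻¹) = g * (r * x) * g⁻¹ := by group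
      _ = g * (x * r) * g⁻¹ := by rw [hrx]
      _ = _ := by group
  have hz1 : z ≠ 1 := by
    intro h; apply hx1
    have : x = g⁻¹ * z * g := by rw [hzdef]; group
    rw [this, h]; simp
  have hsN : s ∈ normalizer (Q : Set G) := by
    apply hlarge.2 (zpowers z) ((zpowers_le).mpr hz.2) (by rwa [Ne, zpowers_eq_bot])
    rw [mem_normalizer_iff]
    have hcom : ∀ n : ℤ, s * z ^ n = z ^ n * s := fun n => ((show Commute s z from hsz).zpow_right n)
    intro y
    constructor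
    · rintro ⟨n, rfl⟩
      refine ⟨n, ?_⟩
      show z ^ n = s * z ^ n * s⁻¹
      rw [hcom, mul_inv_cancel_right]
    · rintro ⟨n, hn⟩
      refine ⟨n, ?_⟩
      have hn : z ^ n = s * y * s⁻¹ := hn
      show z ^ n = y
      have : y = s⁻¹ * (s * y * s⁻¹) * s := by group
      rw [this, ← hn, mul_assoc, ← hcom, inv_mul_cancel_left]
  have hsc : s ∈ centralizer (Q : Set G) := by
    rw [mem_centralizer_iff]
    intro q hq
    have h := comm_mem hsR hq hsN (hGR (hQG hq))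
    rw [hQR, mem_bot, commutatorElement_eq_one_iff_mul_comm] at h
    exact h.symm
  have hs1 : s ∈ Q ⊓ R := ⟨hlarge.1 hsc, hsR⟩
  rw [hQR, mem_bot] at hs1
  rw [mem_bot]
  have : r = g⁻¹ * s * g := by rw [hs]; group
  rw [this, hs1]; simp

/-- Let G be a finite group, p a prime and Q a large p-subgroup of G: C_G(Q) ≤ Q and N_G(U) ≤ N_G(Q) for every nontrivial subgroup U of C_G(Q). Let Q ≤ G₁ ≤ G, let R be a subgroup of order prime to p normalized by G₁, and let U ≤ G₁ be a p-subgroup. If U contains a nontrivial element which is G₁-conjugate to an element of Z(Q), then C_R(U) = 1. In particular, if U is elementary abelian of order at least p² and every maximal subgroup of U contains a nontrivial element G₁-conjugate into Z(Q), then R = 1. -/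
theorem result {G : Type*} [Group G] [Finite G] {p : ℕ} [Fact p.Prime] (Q : Subgroup G) (hQp : IsPGroup p ↥Q) (hlarge : Cfsg.IsLarge Q) (G₁ : Subgroup G) (hQG : Q ≤ G₁) (R : Subgroup G) (hR : (Nat.card ↥R).Coprime p) (hGR : G₁ ≤ Subgroup.normalizer (R : Set G)) (U : Subgroup G) (hUG : U ≤ G₁) (hUp : IsPGroup p ↥U) : ((∃ x ∈ U, x ≠ 1 ∧ ∃ g ∈ G₁, g * x * g⁻¹ ∈ Q ⊓ Subgroup.centralizer (Q : Set G)) → R ⊓ Subgroup.centralizer (U : Set G) = ⊥) ∧ (Cfsg.IsElementaryAbelian p U → p ^ 2 ≤ Nat.card ↥U → (∀ U₀ : Subgroup G, U₀ ≤ U → IsCoatom (U₀.subgroupOf U) → ∃ x ∈ U₀, x ≠ 1 ∧ ∃ g ∈ G₁, g * x * g⁻¹ ∈ Q ⊓ Subgroup.centralizer (Q : Set G)) → R = ⊥) := by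
  have hp : p.Prime := Fact.out
  constructor
  · rintro ⟨x, hxU, hx1, g, hg, hz⟩
    rw [eq_bot_iff, ← part1 Q hQp hlarge G₁ hQG R hR hGR hx1 hg hz]
    exact inf_le_inf_left _ (centralizer_le (by simpa using hxU))
  · intro hU h2 h
    rw [eq_bot_iff]
    have hcop : (Nat.card U).Coprime (Nat.card R) := by
      obtain ⟨n, hn⟩ := IsPGroup.iff_card.mp hUp
      rw [hn]; exact Nat.Coprime.pow_left _ hR.symm
    apply Cfsg.Agent.H18.Gen.le_of_hyperplanes hU ?_ (hUG.trans hGR) hcop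
    · intro B hB _ hBc
      obtain ⟨x, hxB, hx1, g, hg, hz⟩ := h B hB hBc
      rw [← part1 Q hQp hlarge G₁ hQG R hR hGR hx1 hg hz]
      exact inf_le_inf_left _ (centralizer_le (by simpa using hxB))
    · rintro rfl
      rw [card_bot] at h2
      have : 1 < p ^ 2 := Nat.one_lt_pow (by norm_num) hp.one_lt
      omega

end Cfsg.Agent.S3003
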