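import Cfsg.Statements.S3006
import Cfsg.Agent.H18_CL

set_option autoImplicit false
open scoped Pointwise
open Cfsg

namespace Cfsg.Agent.S3006

open Cfsg.Agent.H18.CD Cfsg.Agent.H18.CL
open scoped Pointwise

/-- Let P be a finite p-group, Q a centrally large subgroup of P (|Q|·|Z(Q)| maximal among subgroups of P) and A an abelian subgroup of P of largest order. Then QA = AQ is a centrally large subgroup of P, C_{QA}(Q ∩ A) = Z(Q)·A, and the subgroup generated by all centrally large subgroups of P contains C_P(Z(J(P))), where J(P) is generated by the abelian subgroups of largest order. -/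
theorem result {p : ℕ} [Fact p.Prime] (P : Type*) [Group P] [Finite P] (hP : IsPGroup p P) (Q A : Subgroup P) (hQ : Cfsg.IsCentrallyLarge Q) (hA : A ∈ Cfsg.maxAbelianSubgroups P) : ((Q ⊔ A : Subgroup P) : Set P) = (Q : Set P) * (A : Set P) ∧ Cfsg.IsCentrallyLarge (Q ⊔ A) ∧ (Q ⊔ A) ⊓ Subgroup.centralizer ((Q ⊓ A : Subgroup P) : Set P) = (Q ⊓ Subgroup.centralizer (Q : Set P)) ⊔ A ∧ (((Q ⊓ Subgroup.centralizer (Q : Set P)) ⊔ A : Subgroup P) : Set P) = ((Q ⊓ Subgroup.centralizer (Q : Set P)) : Set P) * (A : Set P) ∧ Subgroup.centralizer ((Cfsg.thompsonSubgroupA P ⊓ Subgroup.centralizer (Cfsg.thompsonSubgroupA P : Set P) : Subgroup P) : Set P) ≤ Cfsg.centrallyLargeJoin P := by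
  obtain ⟨h1, h2, h3⟩ := cl_sup_maxAb hQ hA
  obtain ⟨hQl, hQc⟩ := (isCentrallyLarge_iff Q).mp hQ
  have hAc := maxAb_centralizer hA
  have hZ : Q ⊓ Subgroup.centralizer (Q : Set P) = Subgroup.centralizer (Q : Set P) := inf_eq_right.mpr hQc
  rw [hZ]
  have hmain : ∀ x ∈ (Q ⊔ A) ⊓ Subgroup.centralizer ((Q ⊓ A : Subgroup P) : Set P),
      ∃ c ∈ Subgroup.centralizer (Q : Set P), ∃ a ∈ A, c * a = x := by
    rintro x ⟨hx1, hx2⟩
    have hx1 : x ∈ ((Q ⊔ A : Subgroup P) : Set P) := hx1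
    have hx2 : x ∈ Subgroup.centralizer ((Q ⊓ A : Subgroup P) : Set P) := hx2
    rw [h1] at hx1
    obtain ⟨q, hq, a, ha, rfl⟩ := hx1
    have haC : a ∈ Subgroup.centralizer ((Q ⊓ A : Subgroup P) : Set P) :=
      Subgroup.centralizer_le (fun _ h => h.2) (le_centralizer_of_comm hA.1 ha)
    have hqC : q ∈ Subgroup.centralizer ((Q ⊓ A : Subgroup P) : Set P) := by
      have : q = (q * a) * a⁻¹ := by group
      rw [this]; exact mul_mem hx2 (inv_mem haC)
    have hqB : q ∈ (Q ⊓ A) ⊔ Subgroup.centralizer (Q : Set P) := by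
      rw [← maxAb_centralizer h3, centralizer_sup]
      exact ⟨hqC, Subgroup.le_centralizer_iff.mp le_rfl hq⟩
    -- B = (Q ⊓ A) Z
    have hZn : Subgroup.centralizer (Q : Set P) ≤ Subgroup.centralizer ((Q ⊓ A : Subgroup P) : Set P) :=
      Subgroup.centralizer_le (fun _ h => h.1)
    have hprod : (((Q ⊓ A) ⊔ Subgroup.centralizer (Q : Set P) : Subgroup P) : Set P) =
        ((Q ⊓ A : Subgroup P) : Set P) * (Subgroup.centralizer (Q : Set P) : Set P) := by
      apply Subgroup.coe_mul_of_left_le_normalizer_right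
      exact (Subgroup.le_centralizer_iff.mp hZn).trans (Subgroup.centralizer_le_normalizer _)
    have hqB' : q ∈ (((Q ⊓ A) ⊔ Subgroup.centralizer (Q : Set P) : Subgroup P) : Set P) := hqB
    rw [hprod] at hqB'
    obtain ⟨b, hb, c, hc, rfl⟩ := hqB'
    refine ⟨c, hc, b * a, mul_mem hb.2 ha, ?_⟩
    have hbc : b * c = c * b := Subgroup.mem_centralizer_iff.mp (hZn hc) b hb
    show c * (b * a) = b * c * a
    rw [hbc]; group
  have hle : Subgroup.centralizer (Q : Set P) ⊔ A ≤ (Q ⊔ A) ⊓ Subgroup.centralizer ((Q ⊓ A : Subgroup P) : Set P) := by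
    refine sup_le (le_inf (hQc.trans le_sup_left) (Subgroup.centralizer_le (fun _ h => h.1))) (le_inf le_sup_right ?_)
    exact (le_centralizer_of_comm hA.1).trans (Subgroup.centralizer_le (fun _ h => h.2))
  refine ⟨h1, h2, ?_, ?_, ?_⟩
  · apply le_antisymm _ hle
    intro x hx
    obtain ⟨c, hc, a, ha, rfl⟩ := hmain x hx
    exact Subgroup.mul_mem_sup hc ha
  · apply Set.Subset.antisymm
    · intro x hx
      obtain ⟨c, hc, a, ha, rfl⟩ := hmain x (hle hx)
      exact ⟨c, by rw [← hZ] at hc; exact hc, a, ha, rfl⟩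
    · rintro _ ⟨c, hc, a, ha, rfl⟩
      exact Subgroup.mul_mem_sup hc.2 ha
  · apply jTilde_le ((isCentrallyLarge_iff _).mp cl_join).1
    apply sSup_le
    intro B hB
    have := (cl_sup_maxAb (cl_join (G := P)) hB).2.1
    exact le_sup_right.trans (le_sSup this)

end Cfsg.Agent.S3006
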