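import Cfsg.Statements.S3007
import Cfsg.Agent.H18_CL

set_option autoImplicit false
open Cfsg

namespace Cfsg.Agent.S3007

open Cfsg.Agent.H18.CD Cfsg.Agent.H18.CL
open scoped Pointwise commutatorElement

theorem comm_eq {G : Type*} [Group G] (K Z : Subgroup G) (hZ : Z ≤ Subgroup.centralizer (K : Set G))
    (hZZ : Z ≤ Subgroup.centralizer (Z : Set G)) : ⁅K ⊔ Z, K ⊔ Z⁆ = ⁅K, K⁆ := by
  apply le_antisymm _ (Subgroup.commutator_mono le_sup_left le_sup_left)
  have hprod : ((K ⊔ Z : Subgroup G) : Set G) = (K : Set G) * (Z : Set G) := by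
    apply Subgroup.coe_mul_of_left_le_normalizer_right
    exact (Subgroup.le_centralizer_iff.mp hZ).trans (Subgroup.centralizer_le_normalizer _)
  rw [Subgroup.commutator_le]
  intro x hx y hy
  have hx : x ∈ ((K ⊔ Z : Subgroup G) : Set G) := hx
  have hy : y ∈ ((K ⊔ Z : Subgroup G) : Set G) := hy
  rw [hprod] at hx hy
  obtain ⟨k, hk, z, hz, rfl⟩ := hx
  obtain ⟨l, hl, w, hw, rfl⟩ := hy
  have h1 : k * z = z * k := Subgroup.mem_centralizer_iff.mp (hZ hz) k hk
  have h2 : l * z = z * l := Subgroup.mem_centralizer_iff.mp (hZ hz) l hl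
  have h3 : k * w = w * k := Subgroup.mem_centralizer_iff.mp (hZ hw) k hk
  have h4 : l * w = w * l := Subgroup.mem_centralizer_iff.mp (hZ hw) l hl
  have h5 : w * z = z * w := Subgroup.mem_centralizer_iff.mp (hZZ hz) w hw
  have : ⁅k * z, l * w⁆ = ⁅k, l⁆ := by
    have e1 : (k * z) * (l * w) = (k * l) * (z * w) := by
      calc (k * z) * (l * w) = k * (z * l) * w := by group
        _ = k * (l * z) * w := by rw [h2]
        _ = _ := by group
    have e2 : (l * w) * (k * z) = (l * k) * (z * w) := by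
      calc (l * w) * (k * z) = l * (w * k) * z := by group
        _ = l * (k * w) * z := by rw [h3]
        _ = (l * k) * (w * z) := by group
        _ = _ := by rw [h5]
    rw [commutatorElement_def, commutatorElement_def]
    calc k * z * (l * w) * (k * z)⁻¹ * (l * w)⁻¹ = ((k * z) * (l * w)) * ((l * w) * (k * z))⁻¹ := by group
      _ = ((k * l) * (z * w)) * ((l * k) * (z * w))⁻¹ := by rw [e1, e2]
      _ = _ := by group
  show ⁅k * z, l * w⁆ ∈ ⁅K, K⁆
  rw [this]
  exact Subgroup.commutator_mem_commutator hk hl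

/-- Let P be a finite p-group and Q, R minimal centrally large subgroups of P (centrally large: |Q|·|Z(Q)| maximal among subgroups of P; minimal among such under inclusion). Then Q = (Q ∩ R)·Z(Q), the derived subgroups [Q, Q] and [R, R] coincide, |Q| = |R| and |Z(Q)| = |Z(R)|; and if Q is abelian then the minimal centrally large subgroups of P are exactly the abelian subgroups of P of largest order. -/
theorem result {p : ℕ} [Fact p.Prime] (P : Type*) [Group P] [Finite P] (hP : IsPGroup p P) (Q R : Subgroup P) (hQ : Cfsg.IsMinimalCentrallyLarge Q) (hR : Cfsg.IsMinimalCentrallyLarge R) : (Q ⊓ R) ⊔ (Q ⊓ Subgroup.centralizer (Q : Set P)) = Q ∧ ⁅Q, Q⁆ = ⁅R, R⁆ ∧ Nat.card ↥Q = Nat.card ↥R ∧ Nat.card ↥(Q ⊓ Subgroup.centralizer (Q : Set P)) = Nat.card ↥(R ⊓ Subgroup.centralizer (R : Set P)) ∧ (IsMulCommutative ↥Q → ∀ X : Subgroup P, Cfsg.IsMinimalCentrallyLarge X ↔ X ∈ Cfsg.maxAbelianSubgroups P) := by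
  obtain ⟨a1, a2, a3⟩ := mcl_pair hQ hR
  obtain ⟨b1, b2, b3⟩ := mcl_pair hR hQ
  obtain ⟨c1, c2⟩ := mcl_card hQ hR
  obtain ⟨hQl, hQc⟩ := (isCentrallyLarge_iff Q).mp hQ.1
  obtain ⟨hRl, hRc⟩ := (isCentrallyLarge_iff R).mp hR.1
  rw [inf_eq_right.mpr hQc, inf_eq_right.mpr hRc]
  refine ⟨a1, ?_, c1, c2, ?_⟩
  · have e1 : ⁅Q, Q⁆ = ⁅Q ⊓ R, Q ⊓ R⁆ := by
      conv_lhs => rw [← a1]
      exact comm_eq _ _ (Subgroup.centralizer_le inf_le_left) (Subgroup.centralizer_le hQc)
    have e2 : ⁅R, R⁆ = ⁅R ⊓ Q, R ⊓ Q⁆ := by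
      conv_lhs => rw [← b1]
      exact comm_eq _ _ (Subgroup.centralizer_le inf_le_left) (Subgroup.centralizer_le hRc)
    rw [e1, e2, inf_comm]
  · intro hcomm
    have hself : ∀ X : Subgroup P, IsMulCommutative ↥X → cm X = Nat.card ↥X * Nat.card ↥X := by
      intro X hX
      rw [cm_eq, inf_eq_left.mpr (le_centralizer_of_comm hX)]
    have hQm := (isCentrallyLarge_iff' Q).mp hQ.1
    have hQmax : Q ∈ Cfsg.maxAbelianSubgroups P := by
      refine ⟨hcomm, fun B hB => ?_⟩
      have := hQm B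
      rw [hself B hB, hself Q hcomm] at this
      exact Nat.mul_self_le_mul_self_iff.mp this
    intro X
    constructor
    · intro hX
      obtain ⟨d1, d2⟩ := mcl_card hQ hX
      obtain ⟨hXl, hXc⟩ := (isCentrallyLarge_iff X).mp hX.1
      have hQC : Subgroup.centralizer (Q : Set P) = Q := le_antisymm hQc (le_centralizer_of_comm hcomm)
      rw [hQC, d1] at d2
      have hXC : Subgroup.centralizer (X : Set P) = X := Subgroup.eq_of_le_of_card_ge hXc d2.le
      refine ⟨comm_of_le_centralizer hXC.ge, fun B hB => ?_⟩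
      rw [← d1]
      exact hQmax.2 B hB
    · intro hX
      have hcard : Nat.card ↥X = Nat.card ↥Q := le_antisymm (hQmax.2 X hX.1) (hX.2 Q hcomm)
      have hcl : ∀ Y : Subgroup P, IsMulCommutative ↥Y → (Cfsg.IsCentrallyLarge Y ↔ Nat.card ↥Y = Nat.card ↥Q) := by
        intro Y hY
        rw [isCentrallyLarge_iff', hself Y hY]
        constructor
        · intro h
          have h1 := h Q
          rw [hself Q hcomm] at h1
          exact le_antisymm (hQmax.2 Y hY) (Nat.mul_self_le_mul_self_iff.mp h1)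
        · intro h K
          rw [h, ← hself Q hcomm]
          exact hQm K
      refine ⟨(hcl X hX.1).mpr hcard, fun R' hR' hR'cl => ?_⟩
      have hR'comm : IsMulCommutative ↥R' :=
        comm_of_le_centralizer (hR'.trans ((le_centralizer_of_comm hX.1).trans (Subgroup.centralizer_le hR')))
      exact Subgroup.eq_of_le_of_card_ge hR' (by rw [hcard, (hcl R' hR'comm).mp hR'cl])

end Cfsg.Agent.S3007
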