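import Cfsg.Statements.S3011
import Cfsg.Agent.H4_BaerSuzuki
import Cfsg.Agent.H4_Inv
import Cfsg.Agent.H11_Cores

set_option autoImplicit false
open Cfsg

namespace Cfsg.Agent.S3011

open Subgroup

section
variable {G : Type*} [Group G]

theorem odd_sq {x : G} (hx : Odd (orderOf x)) (h : x * x = 1) : x = 1 := by
  have h1 : orderOf x ∣ 2 := orderOf_dvd_of_pow_eq_one (by rw [sq]; exact h)
  have h2 : orderOf x = 1 := Nat.eq_one_of_dvd_coprimes (Nat.coprime_two_right.mpr hx) dvd_rfl h1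
  exact orderOf_eq_one_iff.mp h2

theorem odd_comm {u h : G} (hu : Odd (orderOf u)) (hc : Commute (u * u) h) : Commute u h := by
  rw [← sq] at hc
  have hco : Nat.Coprime 2 (orderOf u) := (Nat.coprime_two_left.mpr hu)
  obtain ⟨k, hk⟩ := exists_pow_eq_self_of_coprime hco
  have := hc.pow_left k
  rwa [hk] at this

theorem odd_conj (g : G) {x : G} (hx : Odd (orderOf x)) : Odd (orderOf (g * x * g⁻¹)) := by
  rw [Cfsg.Agent.H4.Inv.orderOf_conj]; exact hx

theorem exists_inverted [Finite G] {v : G} (hv : orderOf v = 2) (h : v ∉ Cfsg.pCore 2 G) :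
    ∃ h : G, h ≠ 1 ∧ Odd (orderOf h) ∧ v * h * v⁻¹ = h⁻¹ := by
  haveI : Fact (Nat.Prime 2) := ⟨Nat.prime_two⟩
  by_contra hno
  push Not at hno
  apply h
  have hX : IsPGroup 2 (zpowers v) := by
    rintro ⟨w, n, rfl⟩
    refine ⟨1, Subtype.ext ?_⟩
    show (v ^ n) ^ (2 ^ 1) = 1
    rw [pow_one, ← zpow_natCast, ← zpow_mul, mul_comm, zpow_mul, zpow_natCast, ← hv, pow_orderOf_eq_one, one_zpow]
  obtain ⟨N, hN, hN2, hXN⟩ := Cfsg.Agent.H4.BaerSuzuki.baer_suzuki (zpowers v) hX (by
    intro g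
    set y := g * v * g⁻¹ with hy
    have hyo : orderOf y = 2 := by rw [hy, Cfsg.Agent.H4.Inv.orderOf_conj, hv]
    have hpow : ∃ m, (v * y) ^ (2 ^ m) = 1 := by
      obtain ⟨m, n, hn, hmn⟩ := Nat.exists_eq_two_pow_mul_odd (n := orderOf (v * y)) (orderOf_pos _).ne'
      refine ⟨m, ?_⟩
      by_contra hne
      apply hno _ hne
      · have h1 : orderOf ((v * y) ^ 2 ^ m) = n := by
          rw [orderOf_pow_of_dvd (pow_pos (by norm_num) m).ne' (by rw [hmn]; exact Dvd.intro _ rfl), hmn]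
          exact Nat.mul_div_cancel_left _ (pow_pos (by norm_num) m)
        rw [h1]; exact hn
      · have := Cfsg.Agent.H4.Inv.conj_mul_zpow hv hyo ((2 ^ m : ℕ) : ℤ)
        simpa only [zpow_natCast] using this
    obtain ⟨m, hm⟩ := hpow
    have hsup : zpowers v ⊔ (zpowers v).map (MulAut.conj g).toMonoidHom = closure {v, y} := by
      rw [MonoidHom.map_zpowers, zpowers_eq_closure, zpowers_eq_closure, ← Subgroup.closure_union, Set.singleton_union]
      rfl
    rw [hsup]
    rintro ⟨d, hd⟩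
    obtain ⟨k, hk | hk⟩ := (Cfsg.Agent.H4.Inv.mem_closure_pair_iff hv hyo d).mp hd
    · refine ⟨m, Subtype.ext ?_⟩
      show d ^ 2 ^ m = 1
      rw [hk, ← zpow_natCast, ← zpow_mul, mul_comm, zpow_mul, zpow_natCast, hm, one_zpow]
    · refine ⟨1, Subtype.ext ?_⟩
      show d ^ 2 ^ 1 = 1
      rw [hk, pow_one, sq]
      exact Cfsg.Agent.H4.Inv.refl_mul_self hv hyo k)
  exact (Cfsg.Agent.H11.Cores.le_pCore 2 hN2) (hXN (mem_zpowers v))

theorem key {V : Subgroup G} (hS : Cfsg.IsSidkiPair V) {a b : G} (haV : a ∈ V) (hbV : b ∈ V)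
    (hV : ∀ w ∈ V, w = 1 ∨ w = a ∨ w = b ∨ w = a * b) {h k : G} (hh1 : h ≠ 1) (hk1 : k ≠ 1)
    (hho : Odd (orderOf h)) (hko : Odd (orderOf k)) (hah : a * h * a⁻¹ = h) (hbh : b * h * b⁻¹ = h⁻¹)
    (hbk : b * k * b⁻¹ = k) (hak : a * k * a⁻¹ = k⁻¹) : False := by
  have sqk : ∀ x : G, Odd (orderOf x) → x ≠ 1 → x⁻¹ = x → False := by
    intro x hx hx1 hxx
    apply hx1; apply odd_sq hx
    calc x * x = x⁻¹ * x := by rw [hxx]
      _ = 1 := inv_mul_cancel x
  set h' := k⁻¹ * h * k with hh'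
  have hh'o : Odd (orderOf h') := by
    have := odd_conj k⁻¹ hho
    rwa [inv_inv] at this
  have hh'1 : h' ≠ 1 := by
    intro h0; apply hh1
    have : h = k * h' * k⁻¹ := by rw [hh']; group
    rw [this, h0]; simp
  have hbh' : b * h' * b⁻¹ = h'⁻¹ := by
    have e : b * h' * b⁻¹ = (b * k * b⁻¹)⁻¹ * (b * h * b⁻¹) * (b * k * b⁻¹) := by rw [hh']; group
    rw [e, hbk, hbh, hh']; group
  have hah' : a * h' * a⁻¹ = k * h * k⁻¹ := by
    have e : a * h' * a⁻¹ = (a * k * a⁻¹)⁻¹ * (a * h * a⁻¹) * (a * k * a⁻¹) := by rw [hh']; group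
    rw [e, hak, hah]; group
  have hcomm : Commute k h := by
    obtain ⟨w, hwV, hw1, hw⟩ := hS h' b hbV hh'o hbh'
    have hw' : w * h' * w⁻¹ = h' := by rw [hw, mul_inv_cancel_right]
    rcases hV w hwV with h0 | h0 | h0 | h0
    · exact absurd h0 hw1
    · rw [h0, hah', hh'] at hw'
      apply odd_comm hko
      show k * k * h = h * (k * k)
      have : k * (k * h * k⁻¹) * k = k * (k⁻¹ * h * k) * k := by rw [hw']
      calc k * k * h = k * (k * h * k⁻¹) * k := by group
        _ = k * (k⁻¹ * h * k) * k := this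
        _ = h * (k * k) := by group
    · rw [h0, hbh'] at hw'
      exact absurd hw' (fun h => sqk h' hh'o hh'1 h)
    · exfalso
      have e : w * h' * w⁻¹ = (k * h * k⁻¹)⁻¹ := by
        rw [h0]
        have : a * b * h' * (a * b)⁻¹ = a * (b * h' * b⁻¹) * a⁻¹ := by group
        rw [this, hbh']
        have : a * h'⁻¹ * a⁻¹ = (a * h' * a⁻¹)⁻¹ := by group
        rw [this, hah']
      rw [e, hh'] at hw'
      -- `k² h⁻¹ k⁻² = h`
      obtain ⟨u, hu⟩ : ∃ u, u = k * k := ⟨_, rfl⟩
      have e2 : u * h * u⁻¹ = h⁻¹ := by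
        have : u * h * u⁻¹ = (k * (k * h * k⁻¹)⁻¹ * k⁻¹)⁻¹ := by
          rw [hu]; simp only [mul_inv_rev, inv_inv, mul_assoc]
        rw [this, hw']; group
      have e3 : Commute (u * u) h := by
        have : (u * u) * h * (u * u)⁻¹ = h := by
          calc (u * u) * h * (u * u)⁻¹ = u * (u * h * u⁻¹) * u⁻¹ := by group
            _ = u * h⁻¹ * u⁻¹ := by rw [e2]
            _ = (u * h * u⁻¹)⁻¹ := by group
            _ = h := by rw [e2, inv_inv]
        exact mul_inv_eq_iff_eq_mul.mp this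
      have hk2o : Odd (orderOf u) := by
        rw [hu, ← sq]; exact Odd.of_dvd_nat hko (orderOf_pow_dvd 2)
      have e4 := odd_comm hk2o e3
      have e5 : u * h * u⁻¹ = h := by rw [e4.eq, mul_inv_cancel_right]
      rw [e2] at e5
      exact sqk h hho hh1 e5
  have ho : Odd (orderOf (h * k)) := Odd.of_dvd_nat (hho.mul hko) hcomm.symm.orderOf_mul_dvd_mul_orderOf
  have hinv : (a * b) * (h * k) * (a * b)⁻¹ = (h * k)⁻¹ := by
    have e : (a * b) * (h * k) * (a * b)⁻¹ = (a * (b * h * b⁻¹) * a⁻¹) * (a * (b * k * b⁻¹) * a⁻¹) := by group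
    rw [e, hbh, hbk, hak]
    have : a * h⁻¹ * a⁻¹ = (a * h * a⁻¹)⁻¹ := by group
    rw [this, hah, ← mul_inv_rev, hcomm.eq]
  obtain ⟨w, hwV, hw1, hw⟩ := hS (h * k) (a * b) (V.mul_mem haV hbV) ho hinv
  have hw' : w * (h * k) * w⁻¹ = h * k := by rw [hw, mul_inv_cancel_right]
  rcases hV w hwV with h0 | h0 | h0 | h0
  · exact hw1 h0
  · rw [h0] at hw'
    have e : a * (h * k) * a⁻¹ = (a * h * a⁻¹) * (a * k * a⁻¹) := by group
    rw [e, hah, hak] at hw'
    exact sqk k hko hk1 (mul_left_cancel hw')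
  · rw [h0] at hw'
    have e : b * (h * k) * b⁻¹ = (b * h * b⁻¹) * (b * k * b⁻¹) := by group
    rw [e, hbh, hbk] at hw'
    exact sqk h hho hh1 (mul_right_cancel hw')
  · rw [h0, hinv] at hw'
    by_cases h1 : h * k = 1
    · have : k = h⁻¹ := (inv_eq_of_mul_eq_one_right h1).symm
      rw [this] at hbk
      have e : b * h⁻¹ * b⁻¹ = (b * h * b⁻¹)⁻¹ := by group
      rw [e, hbh, inv_inv] at hbk
      exact sqk h hho hh1 hbk.symm
    · exact sqk _ ho h1 hw'

end

/-- Let G be a finite group and V a nontrivial elementary abelian 2-subgroup of G of order at most 4 such that, whenever an element of V inverts an element h of G of odd order, some nontrivial element of V commutes with h. Then V meets O₂(G) nontrivially. (The case of order at most 4 has a short argument from the Baer–Suzuki theorem.) -/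
theorem result {G : Type*} [Group G] [Finite G] (V : Subgroup G) (hV : Cfsg.IsElementaryAbelian 2 V) (hV1 : V ≠ ⊥) (hS : Cfsg.IsSidkiPair V) (h4 : Nat.card V ≤ 4) : V ⊓ Cfsg.pCore 2 G ≠ ⊥ := by
  haveI : Fact (Nat.Prime 2) := ⟨Nat.prime_two⟩
  intro hVO
  have hcomm : ∀ a ∈ V, ∀ b ∈ V, a * b = b * a := fun x hx y hy => by
    have := hV.1.is_comm.comm ⟨x, hx⟩ ⟨y, hy⟩
    simpa using congrArg Subtype.val this
  have hsq : ∀ v ∈ V, v * v = 1 := fun v hv => by have := hV.2 v hv; rwa [sq] at this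
  have hinv : ∀ v ∈ V, v ≠ 1 → ∃ h : G, h ≠ 1 ∧ Odd (orderOf h) ∧ v * h * v⁻¹ = h⁻¹ := by
    intro v hv hv1
    apply exists_inverted (Cfsg.Agent.H4.Inv.orderOf_eq_two_of hv1 (hsq v hv))
    intro hvO
    have : v ∈ V ⊓ Cfsg.pCore 2 G := ⟨hv, hvO⟩
    rw [hVO, mem_bot] at this
    exact hv1 this
  have selfinv : ∀ x : G, Odd (orderOf x) → x ≠ 1 → x⁻¹ = x → False := by
    intro x hx hx1 hxx
    apply hx1; apply odd_sq hx
    calc x * x = x⁻¹ * x := by rw [hxx]
      _ = 1 := inv_mul_cancel x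
  -- a nontrivial element and an inverted element
  obtain ⟨a, haV, ha1⟩ : ∃ a ∈ V, a ≠ 1 := by
    by_contra h
    push Not at h
    exact hV1 ((eq_bot_iff_forall V).mpr h)
  obtain ⟨h, hh1, hho, hah⟩ := hinv a haV ha1
  obtain ⟨b, hbV, hb1, hbh⟩ := hS h a haV hho hah
  have hbh' : b * h * b⁻¹ = h := by rw [hbh, mul_inv_cancel_right]
  have hab : a ≠ b := by
    rintro rfl
    rw [hah] at hbh'
    exact selfinv h hho hh1 hbh'
  -- structure of `V`
  have hVs : ∀ w ∈ V, w = 1 ∨ w = a ∨ w = b ∨ w = a * b := by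
    classical
    intro w hw
    by_contra hne
    push Not at hne
    obtain ⟨n1, n2, n3, n4⟩ := hne
    have hsub : ({1, a, b, a * b, w} : Finset G) ⊆ (V : Set G).toFinite.toFinset := by
      intro x hx
      simp only [Finset.mem_insert, Finset.mem_singleton] at hx
      rw [Set.Finite.mem_toFinset]
      rcases hx with rfl | rfl | rfl | rfl | rfl
      · exact V.one_mem
      · exact haV
      · exact hbV
      · exact V.mul_mem haV hbV
      · exact hw
    have hc := Finset.card_le_card hsub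
    have h5 : ({1, a, b, a * b, w} : Finset G).card = 5 := by
      have e1 : a * b ≠ 1 := by
        intro h0
        apply hab
        have : a * b = a * a := by rw [h0, hsq a haV]
        exact (mul_left_cancel this).symm
      have e2 : a ≠ a * b := by
        intro h0
        exact hb1 (mul_left_cancel (a := a) (by rw [mul_one]; exact h0.symm))
      have e3 : b ≠ a * b := by
        intro h0
        exact ha1 (mul_right_cancel (b := b) (by rw [one_mul]; exact h0.symm))
      rw [Finset.card_insert_of_notMem, Finset.card_insert_of_notMem, Finset.card_insert_of_notMem,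
        Finset.card_insert_of_notMem, Finset.card_singleton]
      · simp only [Finset.mem_singleton]; exact fun h => n4 h.symm
      · simp only [Finset.mem_insert, Finset.mem_singleton]; push Not; exact ⟨e3, fun h => n3 h.symm⟩
      · simp only [Finset.mem_insert, Finset.mem_singleton]; push Not; exact ⟨hab, e2, fun h => n2 h.symm⟩
      · simp only [Finset.mem_insert, Finset.mem_singleton]; push Not
        exact ⟨fun h => ha1 h.symm, fun h => hb1 h.symm, fun h => e1 h.symm, fun h => n1 h.symm⟩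
    rw [h5, ← Nat.card_eq_card_finite_toFinset] at hc
    exact absurd (hc.trans h4) (by norm_num)
  -- `b` inverts some `k`
  obtain ⟨k, hk1, hko, hbk⟩ := hinv b hbV hb1
  obtain ⟨w, hwV, hw1, hwk⟩ := hS k b hbV hko hbk
  have hwk' : w * k * w⁻¹ = k := by rw [hwk, mul_inv_cancel_right]
  rcases hVs w hwV with h0 | h0 | h0 | h0
  · exact hw1 h0
  · rw [h0] at hwk'
    exact key hS hbV haV (fun w hw => by
      rcases hVs w hw with h | h | h | h
      · exact Or.inl h
      · exact Or.inr (Or.inr (Or.inl h))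
      · exact Or.inr (Or.inl h)
      · exact Or.inr (Or.inr (Or.inr (by rw [h, hcomm a haV b hbV])))) hh1 hk1 hho hko hbh' hah hwk' hbk
  · rw [h0, hbk] at hwk'
    exact selfinv k hko hk1 hwk'
  · -- `c = a * b` centralizes `k`; use the pair `(b, c)`
    have hcV : a * b ∈ V := V.mul_mem haV hbV
    rw [h0] at hwk'
    have hch : (a * b) * h * (a * b)⁻¹ = h⁻¹ := by
      have : (a * b) * h * (a * b)⁻¹ = a * (b * h * b⁻¹) * a⁻¹ := by group
      rw [this, hbh', hah]
    exact key hS hbV hcV (fun w hw => by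
      rcases hVs w hw with h | h | h | h
      · exact Or.inl h
      · refine Or.inr (Or.inr (Or.inr ?_))
        rw [h, ← mul_assoc, hcomm b hbV a haV, mul_assoc, hsq b hbV, mul_one]
      · exact Or.inr (Or.inl h)
      · exact Or.inr (Or.inr (Or.inl h))) hh1 hk1 hho hko hbh' hch hwk' hbk

end Cfsg.Agent.S3011
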