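import Cfsg.Statements.S3012

set_option autoImplicit false
open Cfsg

namespace Cfsg.Agent.S3012

open Subgroup

/-- Let G be a finite group, V a nontrivial elementary abelian 2-subgroup of G satisfying the Sidki pair condition (every odd-order element inverted by an element of V commutes with a nontrivial element of V), and K a normal subgroup of G with V ∩ K = 1. Then the image of V in G/K satisfies the Sidki pair condition in G/K. -/
theorem result {G : Type*} [Group G] [Finite G] (V K : Subgroup G) [K.Normal] (hV : Cfsg.IsElementaryAbelian 2 V) (hV1 : V ≠ ⊥) (hS : Cfsg.IsSidkiPair V) (hVK : V ⊓ K = ⊥) : Cfsg.IsSidkiPair (V.map (QuotientGroup.mk' K)) := by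
  intro h' v' hv' hodd hinv
  obtain ⟨v, hv, rfl⟩ := hv'
  -- write `h' = k ^ 2`
  obtain ⟨m, hm⟩ := hodd
  set k' := h' ^ (m + 1) with hk'
  have hk2 : k' * k' = h' := by
    rw [hk', ← pow_add]
    have : m + 1 + (m + 1) = (2 * m + 1) + 1 := by ring
    rw [this, ← hm, pow_succ, pow_orderOf_eq_one, one_mul]
  obtain ⟨k, hk⟩ := QuotientGroup.mk'_surjective K k'
  -- `h₀ = v⁻¹ k⁻¹ v k`
  set π := QuotientGroup.mk' K with hπ
  have hvk : π v * k' * (π v)⁻¹ = k'⁻¹ := by
    rw [hk', ← conj_pow, hinv, inv_pow]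
  have hv2 : v * v = 1 := by have := hV.2 v hv; rwa [pow_two] at this
  have hvinv : v⁻¹ = v := inv_eq_of_mul_eq_one_left hv2
  set h₀ := v * k⁻¹ * v * k with hh₀
  have hπh₀ : π h₀ = h' := by
    rw [hh₀, map_mul, map_mul, map_mul, map_inv, hk]
    have h1 : π v * k'⁻¹ * (π v)⁻¹ = k' := by
      rw [← conj_inv, hvk, inv_inv]
    have h2 : (π v)⁻¹ = π v := by rw [← map_inv, hvinv]
    rw [h2] at h1
    rw [h1, hk2]
  have hvh₀ : v * h₀ * v⁻¹ = h₀⁻¹ := by
    rw [hh₀, hvinv]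
    have : (v * k⁻¹ * v * k)⁻¹ = k⁻¹ * v⁻¹ * k * v⁻¹ := by group
    rw [this, hvinv]
    calc v * (v * k⁻¹ * v * k) * v = (v * v) * k⁻¹ * v * k * v := by group
      _ = k⁻¹ * v * k * v := by rw [hv2, one_mul]
  -- odd part of `h₀`
  set n := orderOf h₀ with hn
  have hn0 : n ≠ 0 := (orderOf_pos h₀).ne'
  have hcop : Nat.Coprime (2 ^ n.factorization 2) (orderOf h') := by
    apply Nat.Coprime.pow_left
    rw [hm, Nat.coprime_two_left]
    exact ⟨m, rfl⟩
  obtain ⟨s, hs⟩ := exists_pow_eq_self_of_coprime hcop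
  set h := (h₀ ^ 2 ^ n.factorization 2) ^ s with hh
  have hπh : π h = h' := by rw [hh, map_pow, map_pow, hπh₀, hs]
  have hvh : v * h * v⁻¹ = h⁻¹ := by
    rw [hh, ← pow_mul, ← conj_pow, hvh₀, inv_pow]
  have hho : Odd (orderOf h) := by
    have h1 : orderOf h ∣ orderOf (h₀ ^ 2 ^ n.factorization 2) := orderOf_pow_dvd s
    have h2 : orderOf (h₀ ^ 2 ^ n.factorization 2) = n / 2 ^ n.factorization 2 := by
      rw [orderOf_pow' _ (by positivity), ← hn, Nat.gcd_eq_right (Nat.ordProj_dvd n 2)]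
    have h3 : Nat.Coprime 2 (n / 2 ^ n.factorization 2) := Nat.coprime_ordCompl Nat.prime_two hn0
    rw [h2] at h1
    have h4 := Nat.Coprime.coprime_dvd_right h1 h3
    rwa [Nat.coprime_two_left] at h4
  obtain ⟨w, hw, hw1, hwh⟩ := hS h v hv hho hvh
  refine ⟨π w, ⟨w, hw, rfl⟩, ?_, ?_⟩
  · intro h1
    apply hw1
    have h2 : w ∈ V ⊓ K := ⟨hw, (QuotientGroup.eq_one_iff w).mp h1⟩
    rwa [hVK, mem_bot] at h2
  · rw [← hπh, ← map_mul, ← map_mul, hwh]

end Cfsg.Agent.S3012
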