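import Cfsg.Statements.S3013

set_option autoImplicit false
open Cfsg

namespace Cfsg.Agent.S3013

open Subgroup

/-- Let G be a finite group and V a nontrivial elementary abelian 2-subgroup of G satisfying the Sidki pair condition. Let v ∈ V and let x be an element of odd order inverted by v, and put C = C_G(v) ∩ C_G(x), the centralizer of the dihedral subgroup generated by v and x. Then C ∩ V is nontrivial and satisfies the Sidki pair condition inside C: every odd-order element of C inverted by an element of C ∩ V commutes with a nontrivial element of C ∩ V. -/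
theorem result {G : Type*} [Group G] [Finite G] (V : Subgroup G) (hV : Cfsg.IsElementaryAbelian 2 V) (hV1 : V ≠ ⊥) (hS : Cfsg.IsSidkiPair V) (v x : G) (hv : v ∈ V) (hx : Odd (orderOf x)) (hinv : v * x * v⁻¹ = x⁻¹) (C : Subgroup G) (hC : C = Subgroup.centralizer ({v} : Set G) ⊓ Subgroup.centralizer ({x} : Set G)) : C ⊓ V ≠ ⊥ ∧ Cfsg.IsSidkiPair ((C ⊓ V).subgroupOf C) := by
  have hVc : ∀ a ∈ V, ∀ b ∈ V, a * b = b * a := by
    intro a ha b hb
    haveI := hV.1
    exact congrArg Subtype.val (mul_comm' (⟨a, ha⟩ : V) ⟨b, hb⟩)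
  have hmemC : ∀ y : G, y ∈ C ↔ y * v = v * y ∧ y * x = x * y := by
    intro y
    rw [hC, mem_inf, mem_centralizer_singleton_iff, mem_centralizer_singleton_iff]
  refine ⟨?_, ?_⟩
  · obtain ⟨w, hw, hw1, hwx⟩ := hS x v hv hx hinv
    intro h
    have h1 : w ∈ C ⊓ V := ⟨(hmemC w).mpr ⟨hVc w hw v hv, hwx⟩, hw⟩
    rw [h, mem_bot] at h1
    exact hw1 h1
  · rintro ⟨h, hhC⟩ ⟨u, huC⟩ hu hodd hinvu
    have huV : u ∈ V := hu.2
    have hodd' : Odd (orderOf h) := by rwa [Subgroup.orderOf_mk] at hodd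
    have hinv' : u * h * u⁻¹ = h⁻¹ := congrArg Subtype.val hinvu
    obtain ⟨hhv, hhx⟩ := (hmemC h).mp hhC
    obtain ⟨huv, hux⟩ := (hmemC u).mp huC
    have hcomm : Commute x h := hhx.symm
    -- `u v` inverts `x h`
    have h1 : (u * v) * (x * h) * (u * v)⁻¹ = (x * h)⁻¹ := by
      have e1 : v * h * v⁻¹ = h := by rw [← hhv, mul_inv_cancel_right]
      have e2 : u * x * u⁻¹ = x := by rw [hux, mul_inv_cancel_right]
      have e3 : u * x⁻¹ * u⁻¹ = x⁻¹ := by rw [← conj_inv, e2]
      calc (u * v) * (x * h) * (u * v)⁻¹ = u * ((v * x * v⁻¹) * (v * h * v⁻¹)) * u⁻¹ := by group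
        _ = u * (x⁻¹ * h) * u⁻¹ := by rw [hinv, e1]
        _ = (u * x⁻¹ * u⁻¹) * (u * h * u⁻¹) := by group
        _ = x⁻¹ * h⁻¹ := by rw [e3, hinv']
        _ = (x * h)⁻¹ := by rw [mul_inv_rev, (hcomm.inv_inv).eq]
    have h2 : Odd (orderOf (x * h)) := by
      have h3 := hcomm.orderOf_mul_dvd_lcm
      have h4 : orderOf (x * h) ∣ orderOf x * orderOf h := h3.trans (Nat.lcm_dvd_mul _ _)
      exact Odd.of_dvd_nat (hx.mul hodd') h4
    obtain ⟨w, hw, hw1, hwxh⟩ := hS (x * h) (u * v) (V.mul_mem huV hv) h2 h1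
    have hwv := hVc w hw v hv
    -- `w` commutes with `x⁻¹ h`
    have h3 : w * (x⁻¹ * h) = (x⁻¹ * h) * w := by
      have e1 : v * h * v⁻¹ = h := by rw [← hhv, mul_inv_cancel_right]
      have e4 : v * (x * h) * v⁻¹ = x⁻¹ * h := by
        calc v * (x * h) * v⁻¹ = (v * x * v⁻¹) * (v * h * v⁻¹) := by group
          _ = x⁻¹ * h := by rw [hinv, e1]
      have c1 : Commute w v := hwv
      have c2 : Commute w (x * h) := hwxh
      have c3 : Commute w (v * (x * h) * v⁻¹) := (c1.mul_right c2).mul_right c1.inv_right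
      rw [e4] at c3; exact c3.eq
    have h4 : Commute w (x * x) := by
      have c2 : Commute w (x * h) := hwxh
      have c3 : Commute w (x⁻¹ * h)⁻¹ := (show Commute w (x⁻¹ * h) from h3).inv_right
      have c4 := c2.mul_right c3
      have e5 : x * h * (x⁻¹ * h)⁻¹ = x * x := by group
      rwa [e5] at c4
    have h5 : Commute w x := by
      obtain ⟨k, hk⟩ := hx
      have : x = (x * x) ^ (k + 1) := by
        rw [← pow_two, ← pow_mul]
        have : 2 * (k + 1) = (2 * k + 1) + 1 := by ring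
        rw [this, ← hk, pow_succ, pow_orderOf_eq_one, one_mul]
      rw [this]; exact h4.pow_right _
    have h6 : Commute w h := by
      have c2 : Commute w (x * h) := hwxh
      have c3 := h5.inv_right.mul_right c2
      rwa [inv_mul_cancel_left] at c3
    have hwC : w ∈ C := (hmemC w).mpr ⟨hwv, h5.eq⟩
    exact ⟨⟨w, hwC⟩, ⟨hwC, hw⟩, fun h => hw1 (congrArg Subtype.val h), Subtype.ext h6.eq⟩

end Cfsg.Agent.S3013
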