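import Cfsg.Statements.S3014
import Mathlib
import Cfsg.Agent.H13_Syl

set_option autoImplicit false
open Cfsg

namespace Cfsg.Agent.S3014

open Subgroup Cfsg.Agent.H13.Syl

section
universe u
variable {G : Type u} [Group G] [Finite G]

/-- transfer for a subgroup `H ⊴ M` with `M ∩ M^g ≤ H` outside `M`, `M/H` abelian. -/
theorem transfer_eq (H M : Subgroup G) {A : Type*} [CommGroup A] (φ : ↥M →* A) (hφ : ∀ m : ↥M, (m : G) ∈ H → φ m = 1)
    (hTI : ∀ g : G, g ∉ M → ∀ m ∈ M, g⁻¹ * m * g ∈ M → g⁻¹ * m * g ∈ H) (m : ↥M) :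
    MonoidHom.transfer φ (m : G) = φ m := by
  classical
  letI : Fintype (Quotient (MulAction.orbitRel (zpowers (m : G)) (G ⧸ M))) := Fintype.ofFinite _
  rw [MonoidHom.transfer_eq_prod_quotient_orbitRel_zpowers_quot]
  set q₀ : Quotient (MulAction.orbitRel (zpowers (m : G)) (G ⧸ M)) := Quotient.mk'' (QuotientGroup.mk 1) with hq₀
  have hfix : ∀ z : G, z ∈ M → z • (QuotientGroup.mk 1 : G ⧸ M) = QuotientGroup.mk 1 := by
    intro z hz
    show (QuotientGroup.mk (z * 1) : G ⧸ M) = QuotientGroup.mk 1
    rw [mul_one, QuotientGroup.eq]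
    simpa using hz
  have hout : q₀.out = (QuotientGroup.mk 1 : G ⧸ M) := by
    have h1 : (Quotient.mk'' q₀.out : Quotient (MulAction.orbitRel (zpowers (m : G)) (G ⧸ M))) = Quotient.mk'' (QuotientGroup.mk 1) :=
      Quotient.out_eq' q₀
    rw [Quotient.eq''] at h1
    obtain ⟨z, hz⟩ := h1
    have hzM : (z : G) ∈ M := (zpowers_le.mpr m.2) z.2
    rw [← hz]
    exact hfix z hzM
  rw [Finset.prod_eq_single q₀]
  · -- the trivial coset
    have ha : (q₀.out.out : G) ∈ M := by
      have h1 : (QuotientGroup.mk (q₀.out.out : G) : G ⧸ M) = QuotientGroup.mk 1 := by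
        rw [QuotientGroup.out_eq', hout]
      rw [QuotientGroup.eq] at h1
      simpa using h1
    have hper : Function.minimalPeriod ((m : G) • ·) q₀.out = 1 := by
      rw [Function.minimalPeriod_eq_one_iff_isFixedPt, hout]
      exact hfix m m.2
    have h2 : (⟨q₀.out.out⁻¹ * (m : G) ^ Function.minimalPeriod ((m : G) • ·) q₀.out * q₀.out.out,
            QuotientGroup.out_conj_pow_minimalPeriod_mem M (m : G) q₀.out⟩ : ↥M) = (⟨q₀.out.out, ha⟩ : ↥M)⁻¹ * m * ⟨q₀.out.out, ha⟩ := by
      apply Subtype.ext
      show q₀.out.out⁻¹ * (m : G) ^ Function.minimalPeriod ((m : G) • ·) q₀.out * q₀.out.out = q₀.out.out⁻¹ * (m : G) * q₀.out.out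
      rw [hper, pow_one]
    rw [h2, map_mul, map_mul, map_inv, mul_comm (φ _)⁻¹, inv_mul_cancel_right]
  · intro q _ hq
    apply hφ
    show q.out.out⁻¹ * (m : G) ^ Function.minimalPeriod ((m : G) • ·) q.out * q.out.out ∈ H
    apply hTI
    · intro h
      apply hq
      have h1 : q.out = (QuotientGroup.mk 1 : G ⧸ M) := by
        rw [← QuotientGroup.out_eq' q.out, QuotientGroup.eq]
        simpa using M.inv_mem h
      rw [hq₀, ← h1]
      exact (Quotient.out_eq' q).symm
    · exact M.pow_mem m.2 _
    · exact QuotientGroup.out_conj_pow_minimalPeriod_mem M (m : G) q.out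
  · intro h; exact absurd (Finset.mem_univ _) h

end

/-- Let G be a finite group and H ≤ M ≤ G subgroups such that for every g ∈ G the subgroup generated by H and g H g⁻¹ meets M exactly in H. If H is a maximal subgroup of M and M is a maximal subgroup of G, then the normal closure of H in G meets M exactly in H. -/
theorem result {G : Type*} [Group G] [Finite G] (H M : Subgroup G) (hHM : H ≤ M) (hcl : ∀ g : G, (H ⊔ H.map (MulAut.conj g).toMonoidHom) ⊓ M = H) (hmaxH : IsCoatom (H.subgroupOf M)) (hmaxM : IsCoatom M) : Subgroup.normalClosure (H : Set G) ⊓ M = H := by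
  classical
  -- `H ⊴ M`
  have hHn : M ≤ normalizer (H : Set G) := by
    intro g hg
    rw [mem_normalizer_iff_cj]
    have h1 : Cfsg.Agent.H13.Syl.cj g H ≤ H := by
      have h2 := hcl g
      conv_rhs => rw [← h2]
      refine le_inf le_sup_right ?_
      have h3 : Cfsg.Agent.H13.Syl.cj g H ≤ Cfsg.Agent.H13.Syl.cj g M := cj_mono hHM
      rwa [cj_eq_of_mem hg] at h3
    exact Subgroup.eq_of_le_of_card_ge h1 (by rw [card_cj])
  have hHM' : H ≠ M := by
    intro h
    apply hmaxH.1
    rw [subgroupOf_eq_top, h]
  -- subgroups between `H` and `M`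
  have hbet : ∀ K : Subgroup G, H ≤ K → K ≤ M → K = H ∨ K = M := by
    intro K hHK hKM
    rcases eq_or_lt_of_le (show H.subgroupOf M ≤ K.subgroupOf M from fun x hx => hHK hx) with h | h
    · left
      apply le_antisymm _ hHK
      intro x hx
      have h1 : (⟨x, hKM hx⟩ : ↥M) ∈ H.subgroupOf M := by rw [h]; exact hx
      exact h1
    · right
      have h1 := hmaxH.2 _ h
      rw [subgroupOf_eq_top] at h1
      exact le_antisymm hKM h1
  set N := normalClosure (H : Set G) with hN
  have hHN : H ≤ N := le_normalClosure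
  rcases hbet (N ⊓ M) (le_inf hHN hHM) inf_le_right with h | h
  · exact h
  · exfalso
    have hMN : M ≤ N := by rw [← h]; exact inf_le_left
    -- `M` is self-normalizing unless `H ⊴ G`
    have hHnn : ¬ H.Normal := by
      intro hn
      have h1 : N = H := normalClosure_eq_self H
      rw [h1] at hMN
      exact hHM' (le_antisymm hHM hMN)
    have hNH : normalizer (H : Set G) = M := by
      rcases eq_or_lt_of_le hHn with h1 | h1
      · exact h1.symm
      · exfalso
        have h2 := hmaxM.2 _ h1
        exact hHnn (normalizer_eq_top_iff.mp h2)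
    have hMn : ¬ M.Normal := by
      intro hn
      apply hHnn
      rw [← normalizer_eq_top_iff, eq_top_iff]
      rintro g -
      rw [mem_normalizer_iff_cj]
      have h1 : Cfsg.Agent.H13.Syl.cj g H ≤ H := by
        have h2 := hcl g
        conv_rhs => rw [← h2]
        refine le_inf le_sup_right ?_
        have h3 : Cfsg.Agent.H13.Syl.cj g H ≤ Cfsg.Agent.H13.Syl.cj g M := cj_mono hHM
        rwa [cj_eq_of_normal g M] at h3
      exact Subgroup.eq_of_le_of_card_ge h1 (by rw [card_cj])
    have hNtop : N = ⊤ := by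
      rcases eq_or_lt_of_le hMN with h1 | h1
      · exfalso; apply hMn; rw [h1]; exact normalClosure_normal
      · exact hmaxM.2 _ h1
    -- `M ∩ M^g ≤ H`
    have hTI : ∀ g : G, g ∉ M → M ⊓ Cfsg.Agent.H13.Syl.cj g M ≤ H := by
      intro g hg
      set T := H ⊔ H.map (MulAut.conj g).toMonoidHom with hT
      have hTM : T ⊓ M = H := hcl g
      set D := M ⊓ Cfsg.Agent.H13.Syl.cj g M with hD
      have hgg : Cfsg.Agent.H13.Syl.cj g M ≠ M := by
        intro h1
        have h2 : g ∈ normalizer (M : Set G) := mem_normalizer_iff_cj.mpr h1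
        rcases eq_or_lt_of_le (Subgroup.le_normalizer : M ≤ normalizer (M : Set G)) with h3 | h3
        · rw [← h3] at h2; exact hg h2
        · exact hMn (normalizer_eq_top_iff.mp (hmaxM.2 _ h3))
      by_contra hne
      -- `M = H D`
      have h1 : H ⊔ D = M := by
        rcases hbet (H ⊔ D) le_sup_left (sup_le hHM inf_le_left) with h | h
        · exfalso; apply hne; rw [← h]; exact le_sup_right
        · exact h
      have h2 : Cfsg.Agent.H13.Syl.cj g H ⊔ D = Cfsg.Agent.H13.Syl.cj g M := by
        have h3 : ¬ D ≤ Cfsg.Agent.H13.Syl.cj g H := by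
          intro h4
          apply hne
          rw [← hTM]
          exact le_inf (h4.trans le_sup_right) inf_le_left
        have h5 := hbet (H ⊔ Cfsg.Agent.H13.Syl.cj g⁻¹ D) le_sup_left (sup_le hHM (by
          rw [cj_le_iff, inv_inv]; exact inf_le_right))
        rcases h5 with h6 | h6
        · exfalso
          apply h3
          have h7 : Cfsg.Agent.H13.Syl.cj g⁻¹ D ≤ H := by rw [← h6]; exact le_sup_right
          rwa [cj_le_iff, inv_inv] at h7
        · rw [← h6, cj_sup, cj_cj_inv]
      have hMN1 : M ≤ normalizer (H : Set G) := hHn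
      have hDT : D ≤ normalizer (T : Set G) := by
        intro d hd
        rw [mem_normalizer_iff_cj]
        show Cfsg.Agent.H13.Syl.cj d (H ⊔ Cfsg.Agent.H13.Syl.cj g H) = H ⊔ Cfsg.Agent.H13.Syl.cj g H
        rw [cj_sup, cj_eq_of_mem_normalizer (hHn hd.1)]
        have h3 : d ∈ normalizer ((Cfsg.Agent.H13.Syl.cj g H : Subgroup G) : Set G) := by
          rw [← cj_normalizer]
          exact cj_mono hHn hd.2
        rw [cj_eq_of_mem_normalizer h3]
      have hTn : T.Normal := by
        rw [← normalizer_eq_top_iff]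
        have h3a : M ≤ normalizer (T : Set G) := by
          conv_lhs => rw [← h1]
          exact sup_le (le_sup_left.trans Subgroup.le_normalizer) hDT
        have h3b : Cfsg.Agent.H13.Syl.cj g M ≤ normalizer (T : Set G) := by
          conv_lhs => rw [← h2]
          exact sup_le (le_sup_right.trans Subgroup.le_normalizer) hDT
        have h3 : M ⊔ Cfsg.Agent.H13.Syl.cj g M ≤ normalizer (T : Set G) := sup_le h3a h3b
        rw [eq_top_iff]
        refine le_trans ?_ h3
        have h4 : M < M ⊔ Cfsg.Agent.H13.Syl.cj g M := by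
          refine lt_of_le_of_ne le_sup_left ?_
          intro h5
          apply hgg
          have h6 : Cfsg.Agent.H13.Syl.cj g M ≤ M := by
            conv_rhs => rw [h5]
            exact le_sup_right
          exact Subgroup.eq_of_le_of_card_ge h6 (by rw [card_cj])
        rw [hmaxM.2 _ h4]
      have h5 : N ≤ T := normalClosure_le_normal (le_sup_left : H ≤ T)
      rw [hNtop, top_le_iff] at h5
      rw [h5, top_inf_eq] at hTM
      exact hHM' hTM.symm
    -- `M / H` is cyclic of prime order
    set H' := H.subgroupOf M with hH'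
    haveI hH'n : H'.Normal := (normal_subgroupOf_iff_le_normalizer hHM).mpr hHn
    have hsimple : ∀ K : Subgroup (↥M ⧸ H'), K = ⊥ ∨ K = ⊤ := by
      intro K
      rcases eq_or_lt_of_le (show H' ≤ K.comap (QuotientGroup.mk' H') from by
        intro x hx
        show QuotientGroup.mk' H' x ∈ K
        have : QuotientGroup.mk' H' x = 1 := (QuotientGroup.eq_one_iff x).mpr hx
        rw [this]; exact K.one_mem) with h1 | h1
      · left
        rw [← map_comap_eq_self_of_surjective (QuotientGroup.mk'_surjective H') K, ← h1]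
        exact (Subgroup.map_eq_bot_iff _).mpr (by rw [QuotientGroup.ker_mk'])
      · right
        have h2 := hmaxH.2 _ h1
        rw [← map_comap_eq_self_of_surjective (QuotientGroup.mk'_surjective H') K, h2]
        exact map_top_of_surjective _ (QuotientGroup.mk'_surjective H')
    have hcyc : IsCyclic (↥M ⧸ H') := by
      by_cases hs : Subsingleton (↥M ⧸ H')
      · infer_instance
      · rw [not_subsingleton_iff_nontrivial] at hs
        obtain ⟨x, hx⟩ := exists_ne (1 : ↥M ⧸ H')
        refine ⟨x, fun y => ?_⟩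
        rcases hsimple (zpowers x) with h1 | h1
        · exact absurd (zpowers_eq_bot.mp h1) hx
        · have : y ∈ zpowers x := by rw [h1]; trivial
          exact this
    letI : CommGroup (↥M ⧸ H') := hcyc.commGroup
    have htr := transfer_eq H M (QuotientGroup.mk' H') (fun m hm => (QuotientGroup.eq_one_iff m).mpr hm) (by
      intro g hg m hm hgm
      have h1 : g⁻¹ ∉ M := fun h => hg (by have := M.inv_mem h; rwa [inv_inv] at this)
      exact hTI g⁻¹ h1 ⟨hgm, mem_cj.mpr (by simpa [mul_assoc] using hm)⟩)
    -- the kernel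
    have hker : H ≤ (MonoidHom.transfer (QuotientGroup.mk' H')).ker := by
      intro x hx
      rw [MonoidHom.mem_ker]
      have h1 := htr ⟨x, hHM hx⟩
      rw [h1]
      exact (QuotientGroup.eq_one_iff _).mpr hx
    have hker2 : N ≤ (MonoidHom.transfer (QuotientGroup.mk' H')).ker := normalClosure_le_normal hker
    apply hHM'
    apply le_antisymm hHM
    intro m hm
    have h1 := hker2 (hMN hm)
    rw [MonoidHom.mem_ker] at h1
    have h2 := htr ⟨m, hm⟩
    rw [h1] at h2
    exact (QuotientGroup.eq_one_iff (⟨m, hm⟩ : ↥M)).mp h2.symm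

end Cfsg.Agent.S3014
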