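import Cfsg.Statements.S3015
import Cfsg.Agent.H17_FW

set_option autoImplicit false
open Cfsg

namespace Cfsg.Agent.S3015

open Subgroup

variable {G : Type*} [Group G] [Finite G]

theorem prime_index {H L M : Subgroup G} (h1 : H ≤ L) (h2 : L ≤ M) (hp : (H.relIndex M).Prime) : L = H ∨ L = M := by
  have h3 := Subgroup.relIndex_mul_relIndex H L M h1 h2
  rw [← h3] at hp
  rcases (Nat.prime_mul_iff.mp hp) with ⟨_, h4⟩ | ⟨_, h4⟩
  · right
    exact le_antisymm h2 (Subgroup.relIndex_eq_one.mp h4)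
  · left
    exact le_antisymm (Subgroup.relIndex_eq_one.mp h4) h1

theorem pG_conj (p : ℕ) (g : G) (M : Subgroup G) :
    (Cfsg.Agent.H18.BB.pGen p M).map (MulAut.conj g).toMonoidHom = Cfsg.Agent.H18.BB.pGen p (M.map (MulAut.conj g).toMonoidHom) := by
  unfold Cfsg.Agent.H18.BB.pGen
  rw [MonoidHom.map_closure]
  congr 1
  ext x
  constructor
  · rintro ⟨y, ⟨hy, ho⟩, rfl⟩
    refine ⟨⟨y, hy, rfl⟩, ?_⟩
    have : orderOf ((MulAut.conj g) y) = orderOf y := (MulAut.conj g).orderOf_eq y
    show (orderOf ((MulAut.conj g) y)).Coprime p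
    rw [this]; exact ho
  · rintro ⟨⟨y, hy, rfl⟩, ho⟩
    refine ⟨y, ⟨hy, ?_⟩, rfl⟩
    have : orderOf ((MulAut.conj g) y) = orderOf y := (MulAut.conj g).orderOf_eq y
    rw [← this]; exact ho


/-- Let G be a finite non-abelian simple group, M a maximal subgroup of G and H a normal subgroup of M of prime index in M. Then G is generated by H together with one of its conjugates. -/
theorem result {G : Type*} [Group G] [Finite G] [IsSimpleGroup G] (hG : ¬ IsMulCommutative G) (M H : Subgroup G) (hmaxM : IsCoatom M) (hHM : H ≤ M) (hHn : (H.subgroupOf M).Normal) (hidx : (H.relIndex M).Prime) : ∃ g : G, H ⊔ H.map (MulAut.conj g).toMonoidHom = ⊤ := by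
  by_contra hcon
  push Not at hcon
  set p := H.relIndex M with hp
  haveI : Fact p.Prime := ⟨hidx⟩
  have hM1 : M ≠ ⊤ := hmaxM.1
  have hM0 : M ≠ ⊥ := by
    intro h0
    have : H = ⊥ := by rw [eq_bot_iff, ← h0]; exact hHM
    rw [hp, this, h0, Subgroup.relIndex_self] at hidx
    exact Nat.not_prime_one hidx
  have hn : ∀ N : Subgroup G, N ≠ ⊥ → N ≤ M → M ≤ normalizer (N : Set G) → normalizer (N : Set G) ≤ M := by
    intro N hN0 hNM hn
    rcases hmaxM.le_iff.mp hn with h | h
    · exfalso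
      rcases (Subgroup.normalizer_eq_top_iff.mp h).eq_bot_or_eq_top with h1 | h1
      · exact hN0 h1
      · exact hM1 (top_le_iff.mp (h1 ▸ hNM))
    · exact h.le
  have hNM : normalizer (M : Set G) ≤ M := hn M hM0 le_rfl le_normalizer
  -- a bad element
  obtain ⟨g, hgM, y, hyM, hgy, hyH⟩ : ∃ g : G, g ∉ M ∧ ∃ y ∈ M, g * y * g⁻¹ ∈ M ∧ y ∉ H := by
    by_contra hno
    push Not at hno
    exact Cfsg.Agent.H17.FW.fw_simple hG M H hHM hHn hidx hno
  obtain ⟨k, hk⟩ : ∃ k : G, k = g⁻¹ := ⟨_, rfl⟩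
  have hkM : k ∉ M := by rw [hk]; exact fun h => hgM ((inv_mem_iff).mp h)
  set Mk := M.map (MulAut.conj k).toMonoidHom with hMk
  set D := H.map (MulAut.conj k).toMonoidHom with hD
  have hyMk : y ∈ Mk := by
    refine ⟨g * y * g⁻¹, hgy, ?_⟩
    show k * (g * y * g⁻¹) * k⁻¹ = y
    rw [hk]; group
  have hcardMk : Nat.card Mk = Nat.card M := card_map_of_injective (MulAut.conj k).injective
  have hMkM : ¬ Mk ≤ M := by
    intro h
    have h1 : Mk = M := Subgroup.eq_of_le_of_card_ge h (by rw [hcardMk])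
    apply hkM
    apply hNM
    apply Cfsg.Agent.H17.TW.mem_normalizer_of_conj
    intro m hm
    rw [← h1]
    exact ⟨m, hm, rfl⟩
  have hMMk : ¬ M ≤ Mk := by
    intro h
    apply hMkM
    exact (Subgroup.eq_of_le_of_card_ge h (by rw [hcardMk])).ge
  have hHnM : M ≤ normalizer (H : Set G) := (normal_subgroupOf_iff_le_normalizer hHM).mp hHn
  have hHnc := Cfsg.Agent.H18.KS.le_normalizer_iff_conj.mp hHnM
  have hDMk : D ≤ Mk := map_mono hHM
  have hDn : Mk ≤ normalizer (D : Set G) := by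
    rw [Cfsg.Agent.H18.KS.le_normalizer_iff_conj]
    rintro _ ⟨m, hm, rfl⟩ _ ⟨x, hx, rfl⟩
    refine ⟨m * x * m⁻¹, hHnc m hm x hx, ?_⟩
    show k * (m * x * m⁻¹) * k⁻¹ = (k * m * k⁻¹) * (k * x * k⁻¹) * (k * m * k⁻¹)⁻¹
    group
  -- step 1
  have hDM : D ≤ M := by
    by_contra hDM
    set K := H ⊔ D with hK
    have hKt : K ≠ ⊤ := hcon k
    have hKM : K ⊓ M = H := by
      rcases prime_index (L := K ⊓ M) (le_inf le_sup_left hHM) inf_le_right hidx with h1 | h1
      · exact h1
      · exfalso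
        have h2 : M ≤ K := inf_eq_right.mp h1
        rcases hmaxM.le_iff.mp h2 with h3 | h3
        · exact hKt h3
        · apply hDM; rw [← h3]; exact le_sup_right
    have hyK : y ∈ normalizer (K : Set G) := by
      have hcH : Cfsg.Agent.H22.Basic.cj y H = H := Cfsg.Agent.H22.Basic.cj_eq_of_mem_normalizer (hHnM hyM)
      have hcD : Cfsg.Agent.H22.Basic.cj y D = D := Cfsg.Agent.H22.Basic.cj_eq_of_mem_normalizer (hDn hyMk)
      rw [Cfsg.Agent.H22.Basic.mem_normalizer_iff_cj, hK, Cfsg.Agent.H22.Basic.cj_sup, hcH, hcD]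
    have hMK : M ≤ normalizer (K : Set G) := by
      rcases prime_index (L := normalizer (K : Set G) ⊓ M) (le_inf (le_sup_left.trans le_normalizer) hHM) inf_le_right hidx with h1 | h1
      · exfalso
        apply hyH
        rw [← h1]
        exact mem_inf.mpr ⟨hyK, hyM⟩
      · exact inf_eq_right.mp h1
    rcases hmaxM.le_iff.mp hMK with h3 | h3
    · rcases (Subgroup.normalizer_eq_top_iff.mp h3).eq_bot_or_eq_top with h4 | h4
      · apply hDM
        have : D ≤ K := le_sup_right
        rw [h4] at this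
        exact this.trans bot_le
      · exact hKt h4
    · apply hDM
      rw [← h3]
      exact le_sup_right.trans le_normalizer
  -- step 3
  have hcD : Nat.card D = Nat.card H := card_map_of_injective (MulAut.conj k).injective
  have hpGD : Cfsg.Agent.H18.BB.pGen p Mk = Cfsg.Agent.H18.BB.pGen p D := by
    apply le_antisymm
    · unfold Cfsg.Agent.H18.BB.pGen
      apply Subgroup.closure_mono
      rintro x ⟨⟨m, hm, rfl⟩, ho⟩
      refine ⟨?_, ho⟩
      refine ⟨m, ?_, rfl⟩
      have h1 : (⟨m, hm⟩ : M) ^ (H.subgroupOf M).index ∈ H.subgroupOf M := by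
        haveI := hHn
        exact Subgroup.pow_index_mem _ _
      have h2 : m ^ (p ^ 1) ∈ H := by
        rw [pow_one]
        exact h1
      refine Cfsg.Agent.H18.BB.mem_of_pow h2 ?_
      have : orderOf ((MulAut.conj k) m) = orderOf m := (MulAut.conj k).orderOf_eq m
      rw [← this]; exact ho
    · exact Cfsg.Agent.H18.BB.pGen_mono hDMk
  have hpGM : Cfsg.Agent.H18.BB.pGen p D = Cfsg.Agent.H18.BB.pGen p M := by
    apply Subgroup.eq_of_le_of_card_ge (Cfsg.Agent.H18.BB.pGen_mono hDM)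
    rw [← hpGD, hMk, ← pG_conj, card_map_of_injective (MulAut.conj k).injective]
  have hMp : IsPGroup p M := by
    by_cases h0 : Cfsg.Agent.H18.BB.pGen p M = ⊥
    · apply Cfsg.Agent.H2.PCons.isPGroup_of_forall_coprime
      intro x hx ho
      have : x ∈ Cfsg.Agent.H18.BB.pGen p M := Cfsg.Agent.H18.BB.mem_pGen hx ho
      rw [h0] at this
      exact this
    · exfalso
      apply hMkM
      have h1 : M ≤ normalizer ((Cfsg.Agent.H18.BB.pGen p M : Subgroup G) : Set G) :=
        le_normalizer.trans (Cfsg.Agent.H18.BB.normalizer_le_normalizer_pGen p M)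
      refine le_trans ?_ (hn _ h0 (Cfsg.Agent.H18.BB.pGen_le p M) h1)
      rw [← hpGM, ← hpGD]
      exact le_normalizer.trans (Cfsg.Agent.H18.BB.normalizer_le_normalizer_pGen p Mk)
  -- step 4
  have hDltM : D < M := by
    refine lt_of_le_of_ne hDM ?_
    intro h
    apply hMMk
    rw [← h]; exact hDMk
  have hcMp : Nat.card H * p = Nat.card M := Cfsg.Agent.H21.Prim.card_mul_relIndex hHM
  have hDrel : D.relIndex M = p := by
    have h1 : Nat.card D * D.relIndex M = Nat.card M := Cfsg.Agent.H21.Prim.card_mul_relIndex hDM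
    rw [← hcMp, hcD] at h1
    exact Nat.eq_of_mul_eq_mul_left Nat.card_pos h1
  have hDnM : M ≤ normalizer (D : Set G) := by
    have h1 := Cfsg.Agent.H13.Syl.lt_normalizer_of_lt hMp hDltM
    have hpr : (D.relIndex M).Prime := by rw [hDrel]; exact hidx
    rcases prime_index (L := M ⊓ normalizer (D : Set G)) (le_inf hDM le_normalizer) inf_le_left hpr with h2 | h2
    · exact absurd h2 h1.ne'
    · exact inf_eq_left.mp h2
  have hD0 : D = ⊥ := by
    by_contra h0
    exact hMkM (hDn.trans (hn D h0 hDM hDnM))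
  have hH0 : H = ⊥ := by
    rw [← Subgroup.card_eq_one, ← hcD, hD0, Subgroup.card_bot]
  have hpr : ((⊥ : Subgroup G).relIndex M).Prime := by
    rw [← hH0]; exact hidx
  rcases prime_index (L := M ⊓ Mk) bot_le inf_le_left hpr with h2 | h2
  · apply hyH
    rw [hH0, ← h2]
    exact mem_inf.mpr ⟨hyM, hyMk⟩
  · exact hMMk (inf_eq_left.mp h2)

end Cfsg.Agent.S3015
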