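import Cfsg.Statements.S3020
import Cfsg.Agent.H13_Syl
import Cfsg.Agent.H11_Cores

set_option autoImplicit false
open Cfsg

namespace Cfsg.Agent.S3020

open Subgroup Cfsg.Agent.H13.Syl

/-- Let G be a finite group, p a prime and H an abelian p-subgroup of G that is extremely closed (for every g, the subgroup generated by H and g H g⁻¹ meets N_G(H) exactly in H). Then for every g ∈ G, the subgroup T generated by H and g H g⁻¹ is the product of H with O_{p'}(T), and H meets O_{p'}(T) trivially; that is, O_{p'}(T) is a normal p-complement of H in T. -/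
theorem result {G : Type*} [Group G] [Finite G] {p : ℕ} [Fact p.Prime] (H : Subgroup G) (hHp : IsPGroup p H) (hHab : IsMulCommutative H) (hcl : Cfsg.IsExtremelyClosed H) (g : G) (T : Subgroup G) (hT : T = H ⊔ H.map (MulAut.conj g).toMonoidHom) : H ⊔ (Cfsg.pPrimeCore p ↥T).map T.subtype = T ∧ H ⊓ (Cfsg.pPrimeCore p ↥T).map T.subtype = ⊥ := by
  have hHT : H ≤ T := hT ▸ le_sup_left
  have hN : T ⊓ normalizer (H : Set G) = H := by rw [hT]; exact hcl g
  have hsyl0 : IsSylIn p H (T ⊓ normalizer (H : Set G)) := by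
    rw [hN]
    refine ⟨le_rfl, hHp, ?_⟩
    rw [relIndex_self]
    intro h
    exact (Fact.out (p := p.Prime)).one_lt.ne' (Nat.dvd_one.mp h)
  have hsyl : IsSylIn p H T := isSylIn_of_isSylIn_normalizer hsyl0
  obtain ⟨S, hS⟩ := hsyl.exists_sylow
  have hNS : normalizer ((S : Subgroup ↥T) : Set ↥T) ≤ centralizer ((S : Subgroup ↥T) : Set ↥T) := by
    rw [hS]
    intro y hy
    have h1 : (y : G) ∈ T ⊓ normalizer (H : Set G) := by
      refine ⟨y.2, ?_⟩
      show (y : G) ∈ normalizer (H : Set G)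
      rw [mem_normalizer_iff] at hy ⊢
      intro h
      constructor
      · intro hh
        exact (hy ⟨h, hHT hh⟩).mp hh
      · intro hh
        have h2 : h ∈ T := by
          have h3 := T.mul_mem (T.mul_mem (T.inv_mem y.2) (hHT hh)) y.2
          simpa [mul_assoc] using h3
        exact (hy ⟨h, h2⟩).mpr hh
    rw [hN] at h1
    rw [mem_centralizer_iff]
    rintro ⟨z, hz⟩ hz'
    apply Subtype.ext
    haveI := hHab
    have h5 : z * (y : G) = (y : G) * z := congrArg Subtype.val (mul_comm' (⟨z, hz'⟩ : ↥H) ⟨(y : G), h1⟩)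
    exact h5
  have hK := MonoidHom.ker_transferSylow_isComplement' S hNS
  have hKp := MonoidHom.not_dvd_card_ker_transferSylow S hNS
  have hKle := Cfsg.Agent.H11.Cores.le_pPrimeCore (G := ↥T) p (((Fact.out (p := p.Prime)).coprime_iff_not_dvd.mpr hKp).symm)
  constructor
  · apply le_antisymm (sup_le hHT (map_subtype_le _))
    intro t ht
    obtain ⟨⟨⟨k, hk⟩, ⟨s, hs⟩⟩, hks⟩ := hK.2 ⟨t, ht⟩
    have hks : k * s = ⟨t, ht⟩ := hks
    have h1 : t = (k : G) * (s : G) := (congrArg Subtype.val hks).symm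
    rw [h1]
    refine Subgroup.mul_mem _ (mem_sup_right ⟨k, hKle hk, rfl⟩) (mem_sup_left ?_)
    rw [hS] at hs
    exact hs
  · have h1 : (Nat.card ↥((Cfsg.pPrimeCore p ↥T).map T.subtype)).Coprime (Nat.card ↥H) := by
      rw [card_map_of_injective T.subtype_injective]
      obtain ⟨k, hk⟩ := IsPGroup.iff_card.mp hHp
      rw [hk]
      exact Nat.Coprime.pow_right k (Cfsg.Agent.H11.Cores.pPrimeCore_coprime (G := ↥T) p)
    exact (inf_eq_bot_of_coprime h1.symm)

end Cfsg.Agent.S3020
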