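import Cfsg.Statements.S3021
import Cfsg.Agent.H13_Syl

set_option autoImplicit false
open Cfsg

namespace Cfsg.Agent.S3021

open Subgroup Cfsg.Agent.H13.Syl

/-- Let G be a finite group, p a prime and H a p-subgroup of G that is extremely closed (for every g, the subgroup generated by H and g H g⁻¹ meets N_G(H) exactly in H). Then every p-subgroup Q of G containing H has N_G(Q) ≤ N_G(H); in particular every Sylow p-subgroup P of G containing H normalizes H, and H is strongly closed in P with respect to G. -/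
theorem result {G : Type*} [Group G] [Finite G] {p : ℕ} [Fact p.Prime] (H : Subgroup G) (hHp : IsPGroup p H) (hcl : Cfsg.IsExtremelyClosed H) : (∀ Q : Subgroup G, IsPGroup p Q → H ≤ Q → Subgroup.normalizer (Q : Set G) ≤ Subgroup.normalizer (H : Set G)) ∧ ∀ P : Sylow p G, H ≤ (P : Subgroup G) → (P : Subgroup G) ≤ Subgroup.normalizer (H : Set G) ∧ Cfsg.IsStronglyClosed H (P : Subgroup G) := by
  have key : ∀ Q : Subgroup G, IsPGroup p ↥Q → H ≤ Q → Subgroup.normalizer (Q : Set G) ≤ Subgroup.normalizer (H : Set G) := by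
    intro Q hQ hHQ g hg
    have h1 : H ⊔ H.map (MulAut.conj g).toMonoidHom ≤ Q := by
      refine sup_le hHQ ?_
      have : Cfsg.Agent.H13.Syl.cj g H ≤ Cfsg.Agent.H13.Syl.cj g Q := cj_mono hHQ
      rwa [cj_eq_of_mem_normalizer hg] at this
    set T := H ⊔ H.map (MulAut.conj g).toMonoidHom with hT
    have hTH : T = H := by
      by_contra hne
      have hlt : H < T := lt_of_le_of_ne le_sup_left (Ne.symm hne)
      have h2 := lt_normalizer_of_lt (hQ.to_le h1) hlt
      rw [hcl g] at h2
      exact lt_irrefl _ h2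
    have h3 : Cfsg.Agent.H13.Syl.cj g H ≤ H := by
      conv_rhs => rw [← hTH]
      exact le_sup_right
    rw [mem_normalizer_iff_cj]
    exact Subgroup.eq_of_le_of_card_ge h3 (by rw [card_cj])
  refine ⟨key, fun P hHP => ?_⟩
  have hPn : (P : Subgroup G) ≤ Subgroup.normalizer (H : Set G) := Subgroup.le_normalizer.trans (key P P.2 hHP)
  refine ⟨hPn, hHP, fun x hx g hg => ?_⟩
  have h1 : g * x * g⁻¹ ∈ H ⊔ H.map (MulAut.conj g).toMonoidHom := mem_sup_right ⟨x, hx, rfl⟩
  have h2 : g * x * g⁻¹ ∈ (H ⊔ H.map (MulAut.conj g).toMonoidHom) ⊓ Subgroup.normalizer (H : Set G) := ⟨h1, hPn hg⟩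
  rwa [hcl g] at h2

end Cfsg.Agent.S3021
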