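import Cfsg.Statements.S3023
import Cfsg.Agent.H18_CharP2
import Cfsg.Agent.H1_Subn2
import Cfsg.Agent.H2_PGroup
import Cfsg.Agent.H11_Cores

set_option autoImplicit false
open Cfsg

namespace Cfsg.Agent.S3023

open Subgroup Cfsg.Agent.H18.CharP Cfsg.Agent.H18.CharP2
open scoped Pointwise

universe u v
theorem hasCharP_equiv {p : ℕ} {A : Type u} {B : Type u} [Group A] [Group B] (e : A ≃* B) (h : HasCharP p A) : HasCharP p B := by
  intro b hb
  have h1 : e.symm b ∈ Cfsg.pCore p A := by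
    apply h
    rw [mem_centralizer_iff]
    intro a ha
    have h2 : e a ∈ Cfsg.pCore p B := by
      rw [← Cfsg.Agent.H11.Cores.map_equiv_pCore p e]
      exact ⟨a, ha, rfl⟩
    have h3 := mem_centralizer_iff.mp hb (e a) h2
    apply e.injective
    simpa using h3
  rw [← Cfsg.Agent.H11.Cores.map_equiv_pCore p e]
  exact ⟨e.symm b, h1, by simp⟩

/-- Let p be a prime, G a finite group of parabolic characteristic p (every p-local subgroup containing a Sylow p-subgroup of G has characteristic p), S a Sylow p-subgroup of G and G₁ a subnormal subgroup of G. If the centre of S ∩ G₁ is nontrivial and contained in the centre of S, then G₁ has parabolic characteristic p. -/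
theorem result {G : Type*} [Group G] [Finite G] {p : ℕ} [Fact p.Prime] (hG : Cfsg.IsOfParabolicCharacteristic p G) (S : Sylow p G) (G₁ : Subgroup G) (hsn : G₁.IsSubnormal) (hne : ((S : Subgroup G) ⊓ G₁) ⊓ Subgroup.centralizer (((S : Subgroup G) ⊓ G₁ : Subgroup G) : Set G) ≠ ⊥) (hle : ((S : Subgroup G) ⊓ G₁) ⊓ Subgroup.centralizer (((S : Subgroup G) ⊓ G₁ : Subgroup G) : Set G) ≤ (S : Subgroup G) ⊓ Subgroup.centralizer ((S : Subgroup G) : Set G)) : Cfsg.IsOfParabolicCharacteristic p ↥G₁ := by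
  classical
  intro R hRp hR1 hpar
  show HasCharP p ↥(normalizer (R : Set ↥G₁))
  obtain ⟨T, hT⟩ := hpar
  have hRT : R ≤ (T : Subgroup ↥G₁) := le_sylow_of_le_normalizer T hRp hT
  -- a central element of `T` in `R`
  obtain ⟨z, hzR, hz1, hzT⟩ : ∃ z ∈ R, z ≠ 1 ∧ ∀ t ∈ (T : Subgroup ↥G₁), t * z = z * t := by
    haveI : (R.subgroupOf (T : Subgroup ↥G₁)).Normal := (normal_subgroupOf_iff_le_normalizer hRT).mpr hT
    have hne : R.subgroupOf (T : Subgroup ↥G₁) ≠ ⊥ := by
      intro h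
      apply hR1
      rw [subgroupOf_eq_bot, disjoint_iff] at h
      rwa [inf_eq_left.mpr hRT] at h
    have h1 := Cfsg.Agent.H2.PGroup.inf_center_ne_bot T.2 hne
    obtain ⟨w, hw, hw1⟩ : ∃ w ∈ R.subgroupOf (T : Subgroup ↥G₁) ⊓ center ↥(T : Subgroup ↥G₁), w ≠ 1 := by
      by_contra h
      push Not at h
      exact h1 ((eq_bot_iff_forall _).mpr h)
    refine ⟨w, hw.1, fun h => hw1 (Subtype.ext h), fun t ht => ?_⟩
    exact congrArg Subtype.val (mem_center_iff.mp hw.2 ⟨t, ht⟩)
  -- conjugate into `S`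
  obtain ⟨Q, hQ⟩ := Cfsg.Agent.H1.Subn.sylow_inf_subnormal p G₁ hsn S
  obtain ⟨g, hg⟩ := MulAction.exists_smul_eq ↥G₁ Q T
  have hconj : ∀ x ∈ (T : Subgroup ↥G₁), ((g⁻¹ * x * g : ↥G₁) : G) ∈ (S : Subgroup G) ⊓ G₁ := by
    intro x hx
    have h1 : x ∈ ((g • Q : Sylow p ↥G₁) : Subgroup ↥G₁) := by rw [hg]; exact hx
    have h2 : g⁻¹ * x * g ∈ (Q : Subgroup ↥G₁) := by
      rw [Sylow.coe_subgroup_smul, mem_pointwise_smul_iff_inv_smul_mem] at h1
      simpa [MulAut.smul_def] using h1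
    rw [hQ] at h2
    exact ⟨h2, (g⁻¹ * x * g).2⟩
  have hconj' : ∀ x : ↥G₁, (x : G) ∈ (S : Subgroup G) → g * x * g⁻¹ ∈ (T : Subgroup ↥G₁) := by
    intro x hx
    have h1 : x ∈ (Q : Subgroup ↥G₁) := by rw [hQ]; exact hx
    have h2 : g * x * g⁻¹ ∈ ((g • Q : Sylow p ↥G₁) : Subgroup ↥G₁) := by
      rw [Sylow.coe_subgroup_smul, mem_pointwise_smul_iff_inv_smul_mem]
      simpa [MulAut.smul_def, mul_assoc] using h1
    rwa [hg] at h2
  have hzS : ((g⁻¹ * z * g : ↥G₁) : G) ∈ centralizer ((S : Subgroup G) : Set G) := by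
    apply (hle ?_).2
    refine ⟨hconj z (hRT hzR), mem_centralizer_iff.mpr ?_⟩
    rintro s ⟨hsS, hsG⟩
    have h1 := hzT _ (hconj' ⟨s, hsG⟩ hsS)
    have h2 : (⟨s, hsG⟩ : ↥G₁) * (g⁻¹ * z * g) = (g⁻¹ * z * g) * ⟨s, hsG⟩ := by
      calc (⟨s, hsG⟩ : ↥G₁) * (g⁻¹ * z * g) = g⁻¹ * ((g * ⟨s, hsG⟩ * g⁻¹) * z) * g := by group
        _ = g⁻¹ * (z * (g * ⟨s, hsG⟩ * g⁻¹)) * g := by rw [h1]
        _ = _ := by group
    exact congrArg Subtype.val h2
  -- the centralizer of `z` in `G`
  have hzp : IsPGroup p ↥(zpowers (z : G)) := by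
    obtain ⟨n, hn⟩ := hRp ⟨z, hzR⟩
    have hn' : (z : G) ^ p ^ n = 1 := by
      have := congrArg Subtype.val hn
      have := congrArg Subtype.val this
      simpa using this
    rintro ⟨w, m, rfl⟩
    refine ⟨n, Subtype.ext ?_⟩
    show ((z : G) ^ m) ^ p ^ n = 1
    rw [← zpow_natCast, ← zpow_mul, mul_comm, zpow_mul, zpow_natCast, hn', one_zpow]
  have hzne : (z : G) ≠ 1 := fun h => hz1 (Subtype.ext h)
  have hcn : centralizer {(z : G)} ≤ normalizer (zpowers (z : G) : Set G) := by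
    intro c hc
    have hc : c * z = z * c := mem_centralizer_singleton_iff.mp hc
    rw [mem_normalizer_iff]
    have hcom : ∀ n : ℤ, c * (z : G) ^ n = (z : G) ^ n * c := fun n => ((show Commute c (z : G) from hc).zpow_right n)
    intro y
    constructor
    · rintro ⟨n, rfl⟩
      refine ⟨n, ?_⟩
      show (z : G) ^ n = c * (z : G) ^ n * c⁻¹
      rw [hcom, mul_inv_cancel_right]
    · rintro ⟨n, hn⟩
      refine ⟨n, ?_⟩
      have hn : (z : G) ^ n = c * y * c⁻¹ := hn
      show (z : G) ^ n = y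
      have : y = c⁻¹ * (c * y * c⁻¹) * c := by group
      rw [this, ← hn, mul_assoc, ← hcom, inv_mul_cancel_left]
  have hcc : normalizer (zpowers (z : G) : Set G) ≤ normalizer (centralizer {(z : G)} : Set G) := by
    have := normalizer_le_normalizer_centralizer (zpowers (z : G))
    have e : centralizer ((zpowers (z : G) : Subgroup G) : Set G) = centralizer {(z : G)} := by
      rw [zpowers_eq_closure, centralizer_closure]
    rwa [e] at this
  have hN : HasCharP p ↥(normalizer (zpowers (z : G) : Set G)) := by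
    apply hG _ hzp (by rwa [Ne, zpowers_eq_bot])
    refine ⟨(g : G) • S, ?_⟩
    refine le_trans ?_ hcn
    intro x hx
    apply mem_centralizer_singleton_iff.mpr
    have h1 : (g : G)⁻¹ * x * g ∈ (S : Subgroup G) := by
      rw [Sylow.coe_subgroup_smul, mem_pointwise_smul_iff_inv_smul_mem] at hx
      simpa [MulAut.smul_def] using hx
    have h2 := mem_centralizer_iff.mp hzS _ h1
    have h3 : ((g⁻¹ * z * g : ↥G₁) : G) = (g : G)⁻¹ * z * g := rfl
    rw [h3] at h2
    calc x * z = g * (((g : G)⁻¹ * x * g) * ((g : G)⁻¹ * z * g)) * (g : G)⁻¹ := by group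
      _ = g * (((g : G)⁻¹ * z * g) * ((g : G)⁻¹ * x * g)) * (g : G)⁻¹ := by rw [h2]
      _ = z * x := by group
  have hC : HasCharP p ↥(centralizer {(z : G)}) := by
    have h1 : ((centralizer {(z : G)}).subgroupOf (normalizer (zpowers (z : G) : Set G))).Normal :=
      (normal_subgroupOf_iff_le_normalizer hcn).mpr hcc
    exact hasCharP_equiv (subgroupOfEquivOfLe hcn) (hasCharP_of_isSubnormal hN h1.isSubnormal)
  have hC₁ : HasCharP p ↥(centralizer {z}) := by
    have h1 : (G₁.subgroupOf (centralizer {(z : G)})).IsSubnormal := hsn.subgroupOf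
    refine hasCharP_equiv ?_ (hasCharP_of_isSubnormal hC h1)
    refine { toFun := fun x => ⟨⟨x.1.1, x.2⟩, ?_⟩, invFun := fun x => ⟨⟨x.1.1, ?_⟩, x.1.2⟩, left_inv := ?_, right_inv := ?_, map_mul' := ?_ }
    · apply mem_centralizer_singleton_iff.mpr
      exact Subtype.ext (mem_centralizer_singleton_iff.mp x.1.2)
    · apply mem_centralizer_singleton_iff.mpr
      exact congrArg Subtype.val (mem_centralizer_singleton_iff.mp x.2)
    · intro x; rfl
    · intro x; rfl
    · intro x y; rfl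
  apply hasCharP_normalizer hRp
  apply hasCharP_centralizer hC₁ hRp
  · intro r hr
    apply mem_centralizer_singleton_iff.mpr
    exact hzT r (hRT hr)
  · intro r hr
    apply mem_centralizer_singleton_iff.mpr
    exact (mem_centralizer_iff.mp hr z hzR).symm

end Cfsg.Agent.S3023
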