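import Cfsg.Statements.S3025
import Cfsg.Agent.S0016

set_option autoImplicit false
open Cfsg

namespace Cfsg.Agent.S3025

open Subgroup

/-- Let F be a finite group and H a nontrivial subgroup of F that is contained in every nontrivial subgroup of F which H normalizes. Then F has a nontrivial normal subgroup N contained in every nontrivial normal subgroup of F (a unique minimal normal subgroup), N is simple, and one of the following holds: C_F(N) = 1; or H = N has prime order p, C_F(N) is cyclic of order a power of p, and F/C_F(N) is cyclic of order dividing p − 1; or H = N has order 2, N is central in F, and F is a generalized quaternion group. -/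
theorem result {F : Type*} [Group F] [Finite F] (H : Subgroup F) (hH : H ≠ ⊥)
    (hmin : ∀ R : Subgroup F, R ≠ ⊥ → H ≤ Subgroup.normalizer (R : Set F) → H ≤ R) :
    ∃ N : Subgroup F, N.Normal ∧ N ≠ ⊥ ∧ (∀ M : Subgroup F, M.Normal → M ≠ ⊥ → N ≤ M) ∧ IsSimpleGroup ↥N ∧
      (Subgroup.centralizer (N : Set F) = ⊥ ∨
       (H = N ∧ (Nat.card N).Prime ∧ IsCyclic ↥(Subgroup.centralizer (N : Set F)) ∧
          (∃ k : ℕ, 1 ≤ k ∧ Nat.card ↥(Subgroup.centralizer (N : Set F)) = Nat.card N ^ k) ∧
          (∃ g : F, Subgroup.centralizer (N : Set F) ⊔ Subgroup.zpowers g = ⊤) ∧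
          (Subgroup.centralizer (N : Set F)).index ∣ Nat.card N - 1) ∨
       (H = N ∧ Nat.card N = 2 ∧ Subgroup.centralizer (N : Set F) = ⊤ ∧
          ∃ k : ℕ, 1 ≤ k ∧ Nonempty (F ≃* QuaternionGroup (2 ^ k)))) := by
  classical
  set N := normalClosure (H : Set F) with hN
  haveI hNn : N.Normal := normalClosure_normal
  have hHN : H ≤ N := subset_normalClosure
  have hN1 : N ≠ ⊥ := fun h => hH (by rw [h] at hHN; exact le_bot_iff.mp hHN)
  have hNle : ∀ M : Subgroup F, M.Normal → M ≠ ⊥ → N ≤ M := by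
    intro M hM hM1
    exact (normalClosure_le_normal (N := M)) (hmin M hM1 (by rw [Subgroup.normalizer_eq_top]; exact le_top))
  have hsimple : IsSimpleGroup ↥N := by
    haveI : Nontrivial ↥N := (nontrivial_iff_ne_bot N).mpr hN1
    refine ⟨fun K hK => ?_⟩
    by_cases hK1 : K = ⊥
    · exact Or.inl hK1
    right
    -- all conjugates of `H` lie in `K`
    have key : ∀ g : F, ∀ h ∈ H, g * h * g⁻¹ ∈ K.map N.subtype := by
      intro g h hh
      set K' := (K.map N.subtype).map (MulAut.conj g⁻¹).toMonoidHom with hK'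
      have h1 : H ≤ K' := by
        apply hmin
        · intro h0
          apply hK1
          rw [hK', Subgroup.map_eq_bot_iff_of_injective _ (MulAut.conj g⁻¹).injective,
            Subgroup.map_eq_bot_iff_of_injective _ (subtype_injective N)] at h0
          exact h0
        · have hc : ∀ n ∈ N, ∀ x ∈ K', n * x * n⁻¹ ∈ K' := by
            rintro n hn _ ⟨_, ⟨x, hx, rfl⟩, rfl⟩
            have hn' : g * n * g⁻¹ ∈ N := hNn.conj_mem n hn g
            refine ⟨_, ⟨⟨g * n * g⁻¹, hn'⟩ * x * ⟨g * n * g⁻¹, hn'⟩⁻¹, hK.conj_mem x hx _, rfl⟩, ?_⟩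
            show g⁻¹ * ((g * n * g⁻¹) * (x : F) * (g * n * g⁻¹)⁻¹) * g⁻¹⁻¹ = n * (g⁻¹ * (x : F) * g⁻¹⁻¹) * n⁻¹
            group
          intro n hn
          have hn := hHN hn
          rw [mem_normalizer_iff]
          intro x
          refine ⟨fun hx => hc n hn x hx, fun hx => ?_⟩
          have := hc n⁻¹ (N.inv_mem hn) _ hx
          have e : n⁻¹ * (n * x * n⁻¹) * n⁻¹⁻¹ = x := by group
          rwa [e] at this
      obtain ⟨y, hy, hyh⟩ := h1 hh
      have : g * h * g⁻¹ = y := by
        rw [← hyh]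
        show g * (g⁻¹ * y * g⁻¹⁻¹) * g⁻¹ = y
        group
      rw [this]; exact hy
    have hle : N ≤ K.map N.subtype := by
      have hle' : normalClosure (H : Set F) ≤ K.map N.subtype := by
        rw [normalClosure, closure_le]
        intro x hx
        obtain ⟨a, ha, hax⟩ := Group.mem_conjugatesOfSet_iff.mp hx
        obtain ⟨g, hg⟩ := isConj_iff.mp hax
        rw [← hg]; exact key g a ha
      exact hle'
    rw [eq_top_iff]
    intro n _
    obtain ⟨k, hk, hkn⟩ := hle n.2
    have : k = n := Subtype.ext hkn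
    rwa [← this]
  refine ⟨N, hNn, hN1, hNle, hsimple, ?_⟩
  set C := centralizer (N : Set F) with hC
  by_cases hC1 : C = ⊥
  · exact Or.inl hC1
  right
  have hCn : C.Normal := by
    constructor
    intro c hc g
    rw [hC, mem_centralizer_iff] at hc ⊢
    intro n hn
    have h1 := hc _ (show g⁻¹ * n * g ∈ (N : Set F) by simpa using hNn.conj_mem n hn g⁻¹)
    calc n * (g * c * g⁻¹) = g * ((g⁻¹ * n * g) * c) * g⁻¹ := by group
      _ = g * (c * (g⁻¹ * n * g)) * g⁻¹ := by rw [h1]
      _ = _ := by group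
  have hNC : N ≤ C := hNle C hCn hC1
  have hNab : ∀ a ∈ N, ∀ b ∈ N, a * b = b * a := fun a ha b hb =>
    mem_centralizer_iff.mp (hNC hb) a ha
  letI : CommGroup ↥N := { (inferInstance : Group ↥N) with
    mul_comm := fun a b => Subtype.ext (hNab a a.2 b b.2) }
  have hpN : (Nat.card ↥N).Prime := IsSimpleGroup.prime_card
  set p := Nat.card ↥N with hp
  haveI : Fact p.Prime := ⟨hpN⟩
  have hHN' : H = N := by
    have h1 : Nat.card H ∣ p := card_dvd_of_le hHN
    rcases (Nat.dvd_prime hpN).mp h1 with h2 | h2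
    · exact absurd (card_eq_one.mp h2) hH
    · exact Subgroup.eq_of_le_of_card_ge hHN (by rw [h2])
  -- subgroups of `C`
  have hsub : ∀ R : Subgroup F, R ≤ C → R ≠ ⊥ → N ≤ R := by
    intro R hR hR1
    rw [← hHN']
    apply hmin R hR1
    rw [hHN']
    intro n hn
    rw [mem_normalizer_iff]
    intro x
    have hx : ∀ x ∈ R, n * x * n⁻¹ = x := fun x hx => by
      rw [mem_centralizer_iff.mp (hR hx) n hn, mul_inv_cancel_right]
    refine ⟨fun h => by rw [hx x h]; exact h, fun h => ?_⟩
    have h1 := hx _ h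
    have h2 : n * x * n⁻¹ = x := by
      have := congrArg (fun y => n⁻¹ * y * n) h1
      have e : n⁻¹ * (n * (n * x * n⁻¹) * n⁻¹) * n = n * x * n⁻¹ := by group
      have e2 : n⁻¹ * (n * x * n⁻¹) * n = x := by group
      rw [e, e2] at this
      exact this
    rwa [h2] at h
  have hCp : IsPGroup p ↥C := by
    rw [IsPGroup.iff_card]
    refine ⟨_, Nat.eq_prime_pow_of_unique_prime_dvd Nat.card_pos.ne' ?_⟩
    intro q hq hqd
    haveI : Fact q.Prime := ⟨hq⟩
    obtain ⟨x, hx⟩ := exists_prime_orderOf_dvd_card' (G := ↥C) q hqd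
    have h1 : N ≤ zpowers (x : F) := by
      apply hsub _ (zpowers_le.mpr x.2)
      rw [Ne, zpowers_eq_bot]
      intro h
      have : x = 1 := Subtype.ext h
      rw [this, orderOf_one] at hx
      exact hq.one_lt.ne hx
    have h2 : p ∣ q := by
      have := card_dvd_of_le h1
      rw [Nat.card_zpowers, Subgroup.orderOf_coe, hx] at this
      exact this
    exact ((Nat.prime_dvd_prime_iff_eq hpN hq).mp h2).symm
  have huniq : ∀ A B : Subgroup ↥C, Nat.card A = p → Nat.card B = p → A = B := by
    have h1 : ∀ A : Subgroup ↥C, Nat.card A = p → A.map C.subtype = N := by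
      intro A hA
      symm
      apply Subgroup.eq_of_le_of_card_ge
      · apply hsub _ (map_subtype_le _)
        intro h
        rw [Subgroup.map_eq_bot_iff_of_injective _ (subtype_injective C)] at h
        rw [h, card_bot] at hA
        exact hpN.one_lt.ne hA
      · rw [card_map_of_injective (subtype_injective C), hA]
    intro A B hA hB
    have := (h1 A hA).trans (h1 B hB).symm
    exact (map_injective (subtype_injective C)) this
  -- the quotient
  have hcyc : IsCyclic ↥N := isCyclic_of_prime_card (p := p) rfl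
  set φ : F →* MulAut ↥N := MulAut.conjNormal with hφ
  have hker : φ.ker = C := by
    ext g
    rw [MonoidHom.mem_ker, hC, mem_centralizer_iff]
    constructor
    · intro h n hn
      have h1 : φ g ⟨n, hn⟩ = ⟨n, hn⟩ := by rw [h]; rfl
      have h2 : g * n * g⁻¹ = n := by
        have := congrArg Subtype.val h1
        rwa [hφ, MulAut.conjNormal_apply] at this
      exact (mul_inv_eq_iff_eq_mul.mp h2).symm
    · intro h
      ext n
      rw [hφ, MulAut.conjNormal_apply]
      show g * n * g⁻¹ = n
      rw [← h n n.2, mul_inv_cancel_right]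
  have hcard : Nat.card (MulAut ↥N) = p - 1 := by
    rw [IsCyclic.card_mulAut, ← hp, Nat.totient_prime hpN]
  haveI hfin : Finite (MulAut ↥N) := inferInstance
  have hindex : C.index ∣ p - 1 := by
    rw [← hker, index_ker, ← hcard]
    exact card_subgroup_dvd_card _
  have hgen : ∃ g : F, C ⊔ zpowers g = ⊤ := by
    haveI : IsCyclic (MulAut ↥N) := by
      have e := IsCyclic.mulAutMulEquiv ↥N
      haveI : Fact (Nat.card ↥N).Prime := ⟨hpN⟩
      have : IsCyclic (ZMod (Nat.card ↥N))ˣ := inferInstance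
      exact isCyclic_of_surjective e.symm e.symm.surjective
    haveI : IsCyclic φ.range := inferInstance
    obtain ⟨⟨_, ⟨g, rfl⟩⟩, hg⟩ := IsCyclic.exists_generator (α := φ.range)
    refine ⟨g, ?_⟩
    rw [eq_top_iff]
    intro f _
    obtain ⟨k, hk⟩ := hg ⟨φ f, ⟨f, rfl⟩⟩
    have hk' : (φ g) ^ k = φ f := congrArg Subtype.val hk
    have h1 : f * (g ^ k)⁻¹ ∈ C := by
      rw [← hker, MonoidHom.mem_ker, map_mul, map_inv, map_zpow, hk', mul_inv_cancel]
    have h2 : f = (f * (g ^ k)⁻¹) * g ^ k := by group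
    rw [h2]
    exact mul_mem ((le_sup_left : C ≤ C ⊔ zpowers g) h1) ((le_sup_right : zpowers g ≤ C ⊔ zpowers g) ⟨k, rfl⟩)
  have hck : ∃ k : ℕ, 1 ≤ k ∧ Nat.card ↥C = p ^ k := by
    obtain ⟨k, hk⟩ := IsPGroup.iff_card.mp hCp
    refine ⟨k, ?_, hk⟩
    rcases Nat.eq_zero_or_pos k with h0 | h0
    · exfalso
      rw [h0, pow_zero] at hk
      exact hC1 (card_eq_one.mp hk)
    · exact h0
  rcases Cfsg.Agent.S0016.result p hCp huniq with h | ⟨h2, n, ⟨e⟩⟩
  · exact Or.inl ⟨hHN', hpN, h, hck, hgen, hindex⟩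
  · rcases Nat.eq_zero_or_pos n with h0 | h0
    · rw [h0, pow_zero] at e
      haveI := QuaternionGroup.quaternionGroup_one_isCyclic
      exact Or.inl ⟨hHN', hpN, isCyclic_of_surjective e.symm e.symm.surjective, hck, hgen, hindex⟩
    · right
      have hCtop : C = ⊤ := by
        rw [h2] at hindex
        exact index_eq_one.mp (Nat.dvd_one.mp hindex)
      refine ⟨hHN', h2, hCtop, n, h0, ⟨?_⟩⟩
      exact ((topEquiv (G := F)).symm.trans (MulEquiv.subgroupCongr hCtop.symm)).trans e

end Cfsg.Agent.S3025
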