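import Cfsg.Statements.S3027
import Cfsg.Agent.H18_CharP

set_option autoImplicit false
open Cfsg

namespace Cfsg.Agent.S3027

open Subgroup

theorem exists_least {G : Type*} [Group G] [Finite G] (F : Set (Subgroup G)) (hne : F.Nonempty)
    (hinf : ∀ X ∈ F, ∀ Y ∈ F, X ⊓ Y ∈ F) : ∃ X ∈ F, ∀ Y ∈ F, X ≤ Y := by
  obtain ⟨X, hX⟩ := Set.Finite.exists_minimal (s := F) (Set.toFinite _) hne
  refine ⟨X, hX.1, fun Y hY => ?_⟩
  have h := hX.2 (hinf X hX.1 Y hY) inf_le_left
  exact h.trans inf_le_right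

theorem supp {G : Type*} [Group G] (D : Subgroup G) [D.Normal]
    (hperf : ⁅(⊤ : Subgroup G), (⊤ : Subgroup G)⁆ ⊔ D = ⊤) (X Y : Subgroup G) (hX : X ⊔ D = ⊤) (hY : Y ⊔ D = ⊤) :
    ⁅X, Y⁆ ⊔ D = ⊤ := by
  have hs : Function.Surjective (QuotientGroup.mk' D) := QuotientGroup.mk'_surjective D
  have hmap : ∀ Z : Subgroup G, Z ⊔ D = ⊤ ↔ Z.map (QuotientGroup.mk' D) = ⊤ := by
    intro Z
    constructor
    · intro h
      have h1 := congrArg (Subgroup.map (QuotientGroup.mk' D)) h
      rw [Subgroup.map_sup, Subgroup.map_top_of_surjective _ hs] at h1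
      rw [← h1]
      have : D.map (QuotientGroup.mk' D) = ⊥ := by
        rw [Subgroup.map_eq_bot_iff, QuotientGroup.ker_mk']
      rw [this, sup_bot_eq]
    · intro h
      have h1 := Subgroup.comap_map_eq (QuotientGroup.mk' D) Z
      rw [h, QuotientGroup.ker_mk', Subgroup.comap_top] at h1
      exact h1.symm
  rw [hmap] at hX hY ⊢
  rw [Subgroup.map_commutator, hX, hY]
  rw [hmap, Subgroup.map_commutator, Subgroup.map_top_of_surjective _ hs] at hperf
  exact hperf

theorem comm_le {G : Type*} [Group G] {M X Y : Subgroup G} (hX : X ≤ M) (hY : Y ≤ M)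
    (hXM : M ≤ normalizer (X : Set G)) (hYM : M ≤ normalizer (Y : Set G)) : ⁅X, Y⁆ ≤ X ⊓ Y := by
  rw [commutator_le]
  intro x hx y hy
  refine ⟨?_, ?_⟩
  · have h := (mem_normalizer_iff.mp (hXM (hY hy)) x⁻¹).mp (X.inv_mem hx)
    have h2 := X.mul_mem hx h
    rw [commutatorElement_def]
    have e : x * y * x⁻¹ * y⁻¹ = x * (y * x⁻¹ * y⁻¹) := by group
    rw [e]; exact h2
  · have h := (mem_normalizer_iff.mp (hYM (hX hx)) y).mp hy
    have h2 := Y.mul_mem h (Y.inv_mem hy)
    rw [commutatorElement_def]; exact h2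

theorem conj_supp {G : Type*} [Group G] (D : Subgroup G) [hD : D.Normal] (X : Subgroup G) (g : G) (hX : X ⊔ D = ⊤) :
    X.map (MulAut.conj g).toMonoidHom ⊔ D = ⊤ := by
  have h1 := congrArg (Subgroup.map (MulAut.conj g).toMonoidHom) hX
  rw [Subgroup.map_sup, Subgroup.map_top_of_surjective _ (MulAut.conj g).surjective] at h1
  have h2 : D.map (MulAut.conj g).toMonoidHom = D := by
    apply le_antisymm
    · rintro _ ⟨d, hd, rfl⟩
      exact hD.conj_mem d hd g
    · intro d hd
      refine ⟨g⁻¹ * d * g, ?_, ?_⟩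
      · have := hD.conj_mem d hd g⁻¹
        simpa using this
      · simp [mul_assoc]
  rwa [h2] at h1

theorem conj_normalized {G : Type*} [Group G] {M X : Subgroup G} [hM : M.Normal] (g : G) 
    (hXM : M ≤ normalizer (X : Set G)) : M ≤ normalizer ((X.map (MulAut.conj g).toMonoidHom : Subgroup G) : Set G) := by
  have key : ∀ m ∈ M, ∀ x ∈ X.map (MulAut.conj g).toMonoidHom, m * x * m⁻¹ ∈ X.map (MulAut.conj g).toMonoidHom := by
    rintro m hm _ ⟨x, hx, rfl⟩
    have hm' : g⁻¹ * m * g ∈ M := by simpa using hM.conj_mem m hm g⁻¹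
    refine ⟨(g⁻¹ * m * g) * x * (g⁻¹ * m * g)⁻¹, (mem_normalizer_iff.mp (hXM hm') x).mp hx, ?_⟩
    simp [mul_assoc]
  intro m hm
  rw [mem_normalizer_iff]
  intro x
  refine ⟨fun hx => key m hm x hx, fun hx => ?_⟩
  have := key m⁻¹ (M.inv_mem hm) _ hx
  simpa [mul_assoc] using this

/-- Let G be a finite group and D a normal subgroup of G such that G/D is perfect (that is, G = G′D). Then among the subnormal subgroups B of G with BD = G there is a least one, and it is normal in G. -/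
theorem result {G : Type*} [Group G] [Finite G] (D : Subgroup G) [D.Normal] (hperf : ⁅(⊤ : Subgroup G), (⊤ : Subgroup G)⁆ ⊔ D = ⊤) :
    ∃ B : Subgroup G, B.Normal ∧ B ⊔ D = ⊤ ∧ ∀ B' : Subgroup G, B'.IsSubnormal → B' ⊔ D = ⊤ → B ≤ B' := by
  classical
  -- the least normal supplement
  obtain ⟨M, ⟨hMn, hMD⟩, hMleast⟩ := exists_least {X : Subgroup G | X.Normal ∧ X ⊔ D = ⊤}
    ⟨⊤, inferInstance, by simp⟩ (by
      rintro X ⟨hX, hXD⟩ Y ⟨hY, hYD⟩
      refine ⟨inferInstance, ?_⟩
      have h1 := supp D hperf X Y hXD hYD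
      have h2 : ⁅X, Y⁆ ≤ X ⊓ Y := comm_le (M := ⊤) le_top le_top (by rw [Subgroup.normalizer_eq_top]) (by rw [Subgroup.normalizer_eq_top])
      exact top_le_iff.mp (h1 ▸ sup_le_sup_right h2 D))
  refine ⟨M, hMn, hMD, ?_⟩
  -- the key
  have key : ∀ X : Subgroup G, X ≤ M → M ≤ normalizer (X : Set G) → X ⊔ D = ⊤ → M ≤ X := by
    intro X hXM hX hXD
    obtain ⟨Y, ⟨hYM, hYn, hYD⟩, hYl⟩ := exists_least {Y : Subgroup G | Y ≤ M ∧ M ≤ normalizer (Y : Set G) ∧ Y ⊔ D = ⊤}
      ⟨X, hXM, hX, hXD⟩ (by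
        rintro X ⟨hX, hXn, hXD⟩ Y ⟨hY, hYn, hYD⟩
        refine ⟨inf_le_left.trans hX, ?_, ?_⟩
        · intro m hm
          rw [mem_normalizer_iff]
          intro x
          have h1 := mem_normalizer_iff.mp (hXn hm) x
          have h2 := mem_normalizer_iff.mp (hYn hm) x
          simp only [mem_inf]
          rw [← h1, ← h2]
        · have h1 := supp D hperf X Y hXD hYD
          have h2 : ⁅X, Y⁆ ≤ X ⊓ Y := comm_le hX hY hXn hYn
          exact top_le_iff.mp (h1 ▸ sup_le_sup_right h2 D))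
    have hYnorm : Y.Normal := by
      refine ⟨fun y hy g => ?_⟩
      have h := hYl (Y.map (MulAut.conj g⁻¹).toMonoidHom) ⟨?_, conj_normalized g⁻¹ hYn, conj_supp D Y g⁻¹ hYD⟩ hy
      · obtain ⟨z, hz, hzy⟩ := h
        have : g * y * g⁻¹ = z := by
          rw [← hzy]; simp [mul_assoc]
        rw [this]; exact hz
      · rintro _ ⟨y, hy, rfl⟩
        exact hMn.conj_mem y (hYM hy) g⁻¹
    exact (hMleast Y ⟨hYnorm, hYD⟩).trans (hYl X ⟨hXM, hX, hXD⟩)
  -- go down a subnormal series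
  have step : ∀ H K : Subgroup G, H ≤ K → (H.subgroupOf K).Normal → H ⊔ D = ⊤ → M ≤ K → M ≤ H := by
    intro H K hHK hn hHD hMK
    have hKn : K ≤ normalizer (H : Set G) := (Subgroup.normal_subgroupOf_iff_le_normalizer hHK).mp hn
    have h1 : M ≤ H ⊓ M := by
      apply key _ inf_le_right
      · intro m hm
        rw [mem_normalizer_iff]
        intro x
        have h1 := mem_normalizer_iff.mp (hKn (hMK hm)) x
        have h2 : x ∈ M ↔ m * x * m⁻¹ ∈ M := ⟨fun hx => M.mul_mem (M.mul_mem hm hx) (M.inv_mem hm), fun hx => by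
          have := M.mul_mem (M.mul_mem (M.inv_mem hm) hx) hm
          simpa [mul_assoc] using this⟩
        simp only [mem_inf]
        rw [← h1, ← h2]
      · have h1 := supp D hperf H M hHD hMD
        have h2 : ⁅H, M⁆ ≤ H ⊓ M := by
          rw [commutator_le]
          intro x hx y hy
          refine ⟨?_, ?_⟩
          · have h := (mem_normalizer_iff.mp (hKn (hMK hy)) x⁻¹).mp (H.inv_mem hx)
            have h2 := H.mul_mem hx h
            rw [commutatorElement_def]
            have e : x * y * x⁻¹ * y⁻¹ = x * (y * x⁻¹ * y⁻¹) := by group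
            rw [e]; exact h2
          · rw [commutatorElement_def]
            exact M.mul_mem (hMn.conj_mem y hy x) (M.inv_mem hy)
        exact top_le_iff.mp (h1 ▸ sup_le_sup_right h2 D)
    exact h1.trans inf_le_left
  intro B hB
  induction hB with
  | top => intro _; exact le_top
  | step H K hHK hK hn ih =>
    intro hHD
    have hKD : K ⊔ D = ⊤ := top_le_iff.mp (hHD ▸ sup_le_sup_right hHK D)
    exact step H K hHK hn hHD (ih hKD)

end Cfsg.Agent.S3027
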