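import Cfsg.Statements.S3031
import Cfsg.Agent.H18_Hsub3

set_option autoImplicit false
open Cfsg

namespace Cfsg.Agent.S3031

open Cfsg.Agent.H13.Syl in
theorem card_aux {p : ℕ} [hp : Fact p.Prime] {G : Type*} [Group G] [Finite G] {P D : Subgroup G} (hP : IsPGroup p P)
    (hDP : D ≤ P) (h1 : 1 < Nat.card D) (h2 : Nat.card D < Nat.card P) :
    ∃ d : ℕ, 1 ≤ d ∧ Nat.card D = p ^ d ∧ p ^ (d + 1) ∣ Nat.card P := by
  obtain ⟨d, hd⟩ := IsPGroup.iff_card.1 (hP.to_le hDP)
  obtain ⟨m, hm⟩ := IsPGroup.iff_card.1 hP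
  refine ⟨d, ?_, hd, ?_⟩
  · rcases Nat.eq_zero_or_pos d with h | h
    · rw [hd, h, pow_zero] at h1; omega
    · exact h
  · rw [hd, hm] at h2
    have h4 := (Nat.pow_lt_pow_iff_right hp.out.one_lt).1 h2
    rw [hm]; exact pow_dvd_pow p (by omega)

/-- Let G be a finite group, p the smallest prime dividing |G| and P a Sylow p-subgroup. Suppose that P is cyclic, or that P has a subgroup D with 1 < |D| < |P| such that every subgroup E of P of order |D|, and also every subgroup E of P of order 4 when |D| = 2, satisfies g E g⁻¹ ∩ N_G(E) ≤ E for all g ∈ G (E is strongly closed in its normalizer with respect to G). Then G has a normal p-complement. -/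
theorem result {G : Type*} [Group G] [Finite G] {p : ℕ} [Fact p.Prime] (hdiv : p ∣ Nat.card G)
    (hmin : ∀ q : ℕ, q.Prime → q ∣ Nat.card G → p ≤ q) (P : Sylow p G)
    (h : IsCyclic ↥(P : Subgroup G) ∨ ∃ D : Subgroup G, D ≤ (P : Subgroup G) ∧ 1 < Nat.card D ∧ Nat.card D < Nat.card (P : Subgroup G) ∧
      ∀ E : Subgroup G, E ≤ (P : Subgroup G) → (Nat.card E = Nat.card D ∨ (Nat.card D = 2 ∧ Nat.card E = 4)) →
        ∀ g : G, E.map (MulAut.conj g).toMonoidHom ⊓ Subgroup.normalizer (E : Set G) ≤ E) :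
    Cfsg.HasNormalPComplement p G := by
  have hS := Cfsg.Agent.H13.Syl.isSylIn_sylow_top P
  rcases h with h | ⟨D, hDP, hD1, hD2, h⟩
  · exact Cfsg.Agent.H18.Hsub.npc_of_cyclic hmin P h
  · obtain ⟨d, hd, hDd, hdvd⟩ := card_aux P.isPGroup' hDP hD1 hD2
    refine Cfsg.Agent.H18.Hsub.npc_main p _ G rfl d hd hmin ?_ ?_ (hdvd.trans (Subgroup.card_subgroup_dvd_card _))
    · exact Cfsg.Agent.H18.Hsub.sc_of_H hS (fun F hF hFc g => h F hF (Or.inl (by rw [hFc, hDd])) g)
    · intro h2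
      exact Cfsg.Agent.H18.Hsub.sc_of_H hS (fun F hF hFc g => h F hF (Or.inr ⟨by rw [hDd, h2], hFc⟩) g)

end Cfsg.Agent.S3031
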