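import Cfsg.Statements.S3032
import Cfsg.Agent.H18_Hsub3

set_option autoImplicit false
open Cfsg

namespace Cfsg.Agent.S3032

theorem card_aux {p : ℕ} [hp : Fact p.Prime] {G : Type*} [Group G] [Finite G] {P D : Subgroup G} (hP : IsPGroup p P)
    (hDP : D ≤ P) (h1 : 1 < Nat.card D) :
    ∃ d : ℕ, 1 ≤ d ∧ Nat.card D = p ^ d := by
  obtain ⟨d, hd⟩ := IsPGroup.iff_card.1 (hP.to_le hDP)
  refine ⟨d, ?_, hd⟩
  rcases Nat.eq_zero_or_pos d with h | h
  · rw [hd, h, pow_zero] at h1; omega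
  · exact h

/-- Let G be a finite group and E a normal subgroup with G/E supersolvable. Suppose that for every prime p and every non-cyclic Sylow p-subgroup P of E there is a subgroup D of P with 1 < |D| < |P| such that every subgroup F of P of order |D|, and also every subgroup F of P of order 4 when |D| = 2, satisfies g F g⁻¹ ∩ N_G(F) ≤ F for all g ∈ G. Then G is supersolvable. -/
theorem result {G : Type*} [Group G] [Finite G] (E : Subgroup G) [E.Normal] (hGE : Cfsg.IsSupersolvable (G ⧸ E))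
    (h : ∀ (p : ℕ), p.Prime → ∀ P : Subgroup G, P ≤ E → IsPGroup p P → ¬ p ∣ P.relIndex E → ¬ IsCyclic ↥P →
      ∃ D : Subgroup G, D ≤ P ∧ 1 < Nat.card D ∧ Nat.card D < Nat.card P ∧
        ∀ F : Subgroup G, F ≤ P → (Nat.card F = Nat.card D ∨ (Nat.card D = 2 ∧ Nat.card F = 4)) →
          ∀ g : G, F.map (MulAut.conj g).toMonoidHom ⊓ Subgroup.normalizer (F : Set G) ≤ F) :
    Cfsg.IsSupersolvable G := by
  refine Cfsg.Agent.H18.Hsub.ss_main _ G rfl E hGE ?_
  intro p hp P hP hPc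
  haveI : Fact p.Prime := ⟨hp⟩
  obtain ⟨D, hDP, hD1, hD2, h2⟩ := h p hp P hP.1 hP.2.1 hP.2.2 hPc
  obtain ⟨d, hd, hDd⟩ := card_aux hP.2.1 hDP hD1
  refine ⟨d, hd, by rw [← hDd]; exact hD2, ?_, ?_⟩
  · exact Cfsg.Agent.H18.Hsub.sc_of_H hP (fun F hF hFc g => h2 F hF (Or.inl (by rw [hFc, hDd])) g)
  · intro h3
    exact Cfsg.Agent.H18.Hsub.sc_of_H hP (fun F hF hFc g => h2 F hF (Or.inr ⟨by rw [hDd, h3], hFc⟩) g)

end Cfsg.Agent.S3032
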