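import Cfsg.Statements.S3054
import Cfsg.Agent.H22_KC6

set_option autoImplicit false
open Cfsg

namespace Cfsg.Agent.S3054

/-- Let p be an odd prime and G a finite group with a Sylow p-subgroup P that is extraspecial of order p³ and exponent p. Suppose P contains three distinct subgroups A of order p² (each is elementary abelian of rank 2) such that every automorphism of A of order p is induced by conjugation by an element of G; equivalently the automorphism group induced on A by its normalizer contains the special linear group of A. Then p ≤ 13. -/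
theorem result {G : Type*} [Group G] [Finite G]
    {p : ℕ} [Fact p.Prime] (hp : p ≠ 2) (P : Sylow p G) (hE : Cfsg.IsExtraspecial p ↥P)
    (hcard : Nat.card P = p ^ 3) (hexp : Monoid.exponent ↥P = p)
    (A : Fin 3 → Subgroup G) (hA : Function.Injective A) (hAP : ∀ i, A i ≤ (P : Subgroup G))
    (hAcard : ∀ i, Nat.card ↥(A i) = p ^ 2)
    (hSL : ∀ i, ∀ φ : MulAut ↥(A i), orderOf φ = p → ∃ g : G, ∀ a : ↥(A i), (φ a : G) = g * (a : G) * g⁻¹) :
    p ≤ 13 := by
  classical
  by_contra hcon
  push Not at hcon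
  have hpp : p.Prime := Fact.out
  have hp17 : 17 ≤ p := by
    have h14 : p ≠ 14 := by rintro rfl; exact absurd hpp (by norm_num)
    have h15 : p ≠ 15 := by rintro rfl; exact absurd hpp (by norm_num)
    have h16 : p ≠ 16 := by rintro rfl; exact absurd hpp (by norm_num)
    omega
  have h := H22.KC.XS.of hE hcard hexp
  obtain ⟨z₀, hz, hz1⟩ := h.exists_gen
  obtain ⟨s, s', hs', hss, hs1, hs1'⟩ := H22.KC.exists_root p
  have hZA : ∀ i, (Subgroup.center (P : Subgroup G)).map (P : Subgroup G).subtype ≤ A i := fun i => h.Z_le (hAP i) (hAcard i)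
  have hex : ∀ i, ∃ a ∈ A i, a ∉ (Subgroup.center (P : Subgroup G)).map (P : Subgroup G).subtype := by
    intro i
    by_contra hc
    push Not at hc
    have h6 : Nat.card (A i) ≤ Nat.card ((Subgroup.center (P : Subgroup G)).map (P : Subgroup G).subtype) := Subgroup.card_le_of_le hc
    rw [hAcard, h.cardZ] at h6
    have := hpp.one_lt
    nlinarith
  choose a haA haZ using hex
  have haP : ∀ i, a i ∈ (P : Subgroup G) := fun i => hAP i (haA i)
  have hL : ∀ i, ∀ j : ℕ, ∃ g : G, g * a i * g⁻¹ = a i ∧ g * z₀ * g⁻¹ = z₀ * a i ^ j := by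
    intro i j
    by_cases hj : a i ^ j = 1
    · exact ⟨1, by simp, by simp [hj]⟩
    have hzA : z₀ ∈ A i := hZA i hz
    obtain ⟨φ, hφ1, hφ2, hφ3⟩ := H22.KC.exists_aut (p := p) (A := A i)
      (IsPGroup.isMulCommutative_of_card_eq_prime_sq (hAcard i)).is_comm.comm
      (fun x => Subtype.ext (h.exp x (hAP i x.2))) (z := ⟨z₀, hzA⟩) (a := ⟨a i, haA i⟩) (by
        rintro ⟨m, hm⟩
        apply h.not_mem hz hz1 (haP i) (haZ i)
        exact ⟨m, congrArg Subtype.val hm⟩) j (fun hc => hj (congrArg Subtype.val hc))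
    obtain ⟨g, hg⟩ := hSL i φ hφ1
    refine ⟨g, ?_, ?_⟩
    · rw [← hg ⟨a i, haA i⟩, hφ2]
    · rw [← hg ⟨z₀, hzA⟩, hφ3]
      rfl
  obtain ⟨Rel, R1, R2, R3, R4⟩ := h.main hp hz hz1 (w := 6) (by norm_num) hs' hss (by
    intro k hk hd
    have := Nat.le_of_dvd (by omega) hd
    omega)
  choose x hx using fun i => R1 (a i) (haP i) (haZ i)
  have hxinj : Function.Injective x := by
    intro i j hij
    obtain ⟨c, z, hzZ, hc⟩ := R3 (a i) (haP i) (a j) (haP j) (x i) (hx i) (hij ▸ hx j)
    have hmem : a i ∈ A j := by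
      rw [hc]
      exact (A j).mul_mem ((A j).pow_mem (haA j) c) (hZA j hzZ)
    apply hA
    rw [← h.sup_eq (hAcard i) (haA i) (haZ i) (hZA i), ← h.sup_eq (hAcard j) hmem (haZ i) (hZA j)]
  have h9 := (R4 (Finset.univ.image x) (by
    intro y hy
    obtain ⟨i, _, rfl⟩ := Finset.mem_image.mp hy
    exact ⟨a i, haP i, haZ i, hx i, h.good hz hz1 (haP i) (haZ i) hs1 hs1' hss (hL i)⟩)).2 le_rfl
  rw [Finset.card_image_of_injective _ hxinj, Finset.card_univ, Fintype.card_fin] at h9
  omega

end Cfsg.Agent.S3054
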