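import Cfsg.Statements.S3055
import Cfsg.Agent.H22_KC6

set_option autoImplicit false
open Cfsg

namespace Cfsg.Agent.S3055

/-- Let p be an odd prime and G a finite group with a Sylow p-subgroup P that is extraspecial of order p³ and exponent p. If all nonidentity elements of P are conjugate in G, then p ≤ 7. -/
theorem result {G : Type*} [Group G] [Finite G]
    {p : ℕ} [Fact p.Prime] (hp : p ≠ 2) (P : Sylow p G) (hE : Cfsg.IsExtraspecial p ↥P)
    (hcard : Nat.card P = p ^ 3) (hexp : Monoid.exponent ↥P = p)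
    (hconj : ∀ x y : ↥P, x ≠ 1 → y ≠ 1 → ∃ g : G, g * (x : G) * g⁻¹ = (y : G)) :
    p ≤ 7 := by
  classical
  by_contra hcon
  push Not at hcon
  have hpp : p.Prime := Fact.out
  have hp11 : 11 ≤ p := by
    have h8 : p ≠ 8 := by rintro rfl; exact absurd hpp (by norm_num)
    have h9 : p ≠ 9 := by rintro rfl; exact absurd hpp (by norm_num)
    have h10 : p ≠ 10 := by rintro rfl; exact absurd hpp (by norm_num)
    omega
  have h := H22.KC.XS.of hE hcard hexp
  obtain ⟨z₀, hz, hz1⟩ := h.exists_gen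
  obtain ⟨s, s', hs', hss, hs1, hs1'⟩ := H22.KC.exists_root p
  have hgood : ∀ a ∈ (P : Subgroup G), a ∉ (Subgroup.center (P : Subgroup G)).map (P : Subgroup G).subtype →
      ∃ n ∈ Subgroup.normalizer ((P : Subgroup G) : Set G), n * z₀ * n⁻¹ = z₀ ^ s ∧ n * a * n⁻¹ = a ^ s' := by
    intro a ha haZ
    have ha1 : a ≠ 1 := by
      rintro rfl
      exact haZ (Subgroup.one_mem _)
    obtain ⟨g₁, hg₁⟩ := hconj ⟨z₀, h.le hz⟩ ⟨a, ha⟩ (fun hc => hz1 (congrArg Subtype.val hc)) (fun hc => ha1 (congrArg Subtype.val hc))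
    exact h.good hz hz1 ha haZ hs1 hs1' hss (h.trans_of_conj hz hz1 ha haZ hg₁)
  have hcardT : (Finset.univ : Finset (OnePoint (ZMod p))).card = p + 1 := by
    have h1 : Fintype.card (Option (ZMod p)) = p + 1 := by rw [Fintype.card_option, ZMod.card]
    rw [Finset.card_univ]
    exact h1
  by_cases h11 : p = 11
  · obtain ⟨Rel, R1, R2, R3, R4⟩ := h.main hp hz hz1 (w := 6) (by norm_num) hs' hss (by
      intro k hk hd
      rw [h11] at hd
      have h2 : (11 - 1) ∣ k := by
        apply (Nat.Coprime.dvd_mul_left (show Nat.Coprime 10 3 by norm_num)).mp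
        exact hd
      have := Nat.le_of_dvd hk h2
      omega)
    have h9 := (R4 Finset.univ (by
      intro y _
      obtain ⟨a, haP, haZ, hR⟩ := R2 y
      exact ⟨a, haP, haZ, hR, hgood a haP haZ⟩)).2 le_rfl
    rw [hcardT] at h9
    omega
  · have h13 : 13 ≤ p := by
      have h12 : p ≠ 12 := by rintro rfl; exact absurd hpp (by norm_num)
      omega
    obtain ⟨Rel, R1, R2, R3, R4⟩ := h.main hp hz hz1 (w := 4) (by norm_num) hs' hss (by
      intro k hk hd
      have := Nat.le_of_dvd (by omega) hd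
      omega)
    have h9 := (R4 Finset.univ (by
      intro y _
      obtain ⟨a, haP, haZ, hR⟩ := R2 y
      exact ⟨a, haP, haZ, hR, hgood a haP haZ⟩)).1
    rw [hcardT] at h9
    omega

end Cfsg.Agent.S3055
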