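import Cfsg.Statements.S3058
import Cfsg.Agent.H18_SylGraph
import Cfsg.Agent.H1_Partition
import Cfsg.Agent.H18_Cyc

set_option autoImplicit false
open Cfsg

namespace Cfsg.Agent.S3058

open Subgroup Cfsg.Agent.H17.Base Cfsg.Agent.H17.StrEmb

/-- Let p be a prime and G a finite group whose Sylow p-subgroups are not chain-connected through nontrivial intersections (so G has a strongly p-embedded subgroup). If N and M are normal subgroups of G whose orders are both divisible by p, then the order of N ∩ M is divisible by p. Consequently, among the normal subgroups of G whose order is divisible by p there is a smallest one (the intersection of all of them). -/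
theorem result {G : Type*} [Group G] [Finite G]
    (p : ℕ) [Fact p.Prime] (hG : ¬ Cfsg.IsSylowChainConnected p G)
    (N M : Subgroup G) [N.Normal] [M.Normal] (hN : p ∣ Nat.card N) (hM : p ∣ Nat.card M) :
    p ∣ Nat.card ↥(N ⊓ M) := by
  obtain ⟨H, hHtop, hpH, hI⟩ := Cfsg.Agent.H18.SylGraph.iForm_iff_not_connected.mp hG
  have hNF : NForm p H := nForm_of_iForm hI
  by_contra hD
  set D := N ⊓ M with hDdef
  obtain ⟨P, hP⟩ := exists_isSylowIn p H
  have hPtop : IsSylowIn p P ⊤ := hNF.isSylowIn_top hpH hP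
  have hPN : IsSylowIn p (P ⊓ N) N := hPtop.inf_normal le_top (by
    show ⊤ ≤ normalizer (N : Set G)
    rw [Subgroup.normalizer_eq_top])
  have hPM : IsSylowIn p (P ⊓ M) M := hPtop.inf_normal le_top (by
    show ⊤ ≤ normalizer (M : Set G)
    rw [Subgroup.normalizer_eq_top])
  have hneN : P ⊓ N ≠ ⊥ := isSylowIn_ne_bot hPN hN
  have hneM : P ⊓ M ≠ ⊥ := isSylowIn_ne_bot hPM hM
  have hPD : P ⊓ D = ⊥ := by
    rw [inf_comm]; exact inf_eq_bot_of_isPGroup hP.isPGroup hD
  -- elements of order `p`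
  obtain ⟨a, ha, hap⟩ : ∃ a ∈ P ⊓ N, orderOf a = p := by
    obtain ⟨z, hz, hz1, -⟩ := exists_central_orderOf (hP.isPGroup.to_le inf_le_left) hneN
    exact ⟨z, hz, hz1⟩
  obtain ⟨b, hb, hbp⟩ : ∃ b ∈ P ⊓ M, orderOf b = p := by
    obtain ⟨z, hz, hz1, -⟩ := exists_central_orderOf (hP.isPGroup.to_le inf_le_left) hneM
    exact ⟨z, hz, hz1⟩
  have hnN : N.Normal := inferInstance
  have hnM : M.Normal := inferInstance
  have hab : a * b = b * a := by
    have h1 : a * b * a⁻¹ * b⁻¹ ∈ P ⊓ D := by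
      refine ⟨P.mul_mem (P.mul_mem (P.mul_mem ha.1 hb.1) (P.inv_mem ha.1)) (P.inv_mem hb.1), ?_, ?_⟩
      · have := N.mul_mem ha.2 (hnN.conj_mem _ (N.inv_mem ha.2) b)
        simpa [mul_assoc] using this
      · exact M.mul_mem (hnM.conj_mem _ hb.2 a) (M.inv_mem hb.2)
    rw [hPD, mem_bot] at h1
    have h2 := mul_inv_eq_one.mp h1
    exact mul_inv_eq_iff_eq_mul.mp h2
  -- `E = ⟨a, b⟩`
  set E := zpowers a ⊔ zpowers b with hE
  have hEcomm : IsMulCommutative E := by
    rw [hE, zpowers_eq_closure, zpowers_eq_closure, ← Subgroup.closure_union]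
    apply Subgroup.isMulCommutative_closure
    rintro x (rfl | rfl) y (rfl | rfl)
    · rfl
    · exact hab
    · exact hab.symm
    · rfl
  have hEP : E ≤ P := sup_le (zpowers_le.mpr ha.1) (zpowers_le.mpr hb.1)
  have hEcyc : ¬ IsCyclic E := by
    intro hc
    have h1 : (⟨b, mem_sup_right (mem_zpowers b)⟩ : E) ∈ zpowers (⟨a, mem_sup_left (mem_zpowers a)⟩ : E) := by
      apply Cfsg.Agent.H18.Cyc.mem_zpowers_of_orderOf_dvd hc
      rw [Subgroup.orderOf_mk, Subgroup.orderOf_mk, hap, hbp]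
    obtain ⟨i, hi⟩ := h1
    have h2 : a ^ i = b := congrArg Subtype.val hi
    have h3 : b ∈ P ⊓ D := ⟨hb.1, by rw [← h2]; exact N.zpow_mem ha.2 i, hb.2⟩
    rw [hPD, mem_bot] at h3
    rw [h3, orderOf_one] at hbp
    exact (Fact.out (p := p.Prime)).one_lt.ne hbp
  have hNzD : E ≤ normalizer (D : Set G) := by
    haveI : D.Normal := inferInstance
    rw [Subgroup.normalizer_eq_top]; exact le_top
  have hcop : (Nat.card E).Coprime (Nat.card D) := by
    obtain ⟨k, hk⟩ := IsPGroup.iff_card.mp (hP.isPGroup.to_le hEP)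
    rw [hk]
    exact Nat.Coprime.pow_left k ((Fact.out (p := p.Prime)).coprime_iff_not_dvd.mpr hD)
  have hgen := Cfsg.Agent.H1.Partition.generation E D hEcyc hNzD hcop
  have hDH : D ≤ H := by
    rw [← hgen]
    apply iSup₂_le
    rintro e ⟨he, he1⟩
    refine inf_le_right.trans ?_
    have h1 := hNF (zpowers e) (zpowers_le.mpr (hP.le (hEP he))) (hP.isPGroup.to_le (zpowers_le.mpr (hEP he)))
      (by rwa [Ne, zpowers_eq_bot])
    refine le_trans ?_ h1
    rw [← Cz_zpowers]
    exact Cz_le_Nz _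
  -- `N ≤ D H`
  set Q := P ⊓ M with hQ
  have hQp : IsPGroup p Q := hP.isPGroup.to_le inf_le_left
  have hQD : Q ≤ Nz D := by
    haveI : D.Normal := inferInstance
    show Q ≤ normalizer (D : Set G)
    rw [Subgroup.normalizer_eq_top]; exact le_top
  have hQsyl : IsSylowIn p Q (Q ⊔ D) := by
    obtain ⟨T, hQT, hT⟩ := exists_isSylowIn_ge hQp (le_sup_left : Q ≤ Q ⊔ D)
    have h1 : (Q ⊔ D) ⊓ T = Q ⊔ (D ⊓ T) := dedekind hQT hQD
    have h2 : D ⊓ T = ⊥ := inf_eq_bot_of_isPGroup hT.isPGroup hD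
    rw [h2, sup_bot_eq, inf_eq_right.mpr hT.le] at h1
    rwa [h1] at hT
  have hNQ : Nz Q ≤ H := hNF Q (inf_le_left.trans hP.le) hQp hneM
  have hNH : N ≤ H := by
    intro n hn
    have h1 : cj n Q ≤ Q ⊔ D := by
      intro y hy
      rw [mem_cj] at hy
      -- `y = q * (q⁻¹ y)`
      set q := n⁻¹ * y * n with hq
      have hy' : y = (n * q * n⁻¹ * q⁻¹) * q := by rw [hq]; group
      have h2 : n * q * n⁻¹ * q⁻¹ ∈ D := by
        refine ⟨?_, ?_⟩
        · have := N.mul_mem hn (hnN.conj_mem _ (N.inv_mem hn) q)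
          simpa [mul_assoc] using this
        · exact M.mul_mem (hnM.conj_mem _ hy.2 n) (M.inv_mem hy.2)
      rw [hy']
      exact Subgroup.mul_mem _ (mem_sup_right h2) (mem_sup_left hy)
    obtain ⟨d, hd, hdQ⟩ := hQsyl.exists_conj_le (cj_isPGroup hQp (g := n)) h1
    rw [← cj_mul] at hdQ
    have h2 := hNQ (mem_Nz_of_cj_le hdQ)
    have h3 : d ∈ H := (sup_le (inf_le_left.trans hP.le) hDH) hd
    have h4 := H.mul_mem (H.inv_mem h3) h2
    rwa [inv_mul_cancel_left] at h4
  have h1 := frattini_le hPN (le_top) (by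
    show ⊤ ≤ normalizer (N : Set G)
    rw [Subgroup.normalizer_eq_top])
  apply hHtop
  rw [eq_top_iff, ← h1]
  exact sup_le hNH (inf_le_right.trans (hNF (P ⊓ N) (inf_le_left.trans hP.le) (hP.isPGroup.to_le inf_le_left) hneN))

end Cfsg.Agent.S3058
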