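import Cfsg.Statements.S3059
import Cfsg.Agent.H17_StrEmb
import Cfsg.Agent.H17_Base2

set_option autoImplicit false
open Cfsg

namespace Cfsg.Agent.S3059

open Subgroup Cfsg.Agent.H17.Base Cfsg.Agent.H17.StrEmb

/-- Let p be a prime and H a strongly p-embedded subgroup of the finite group G in the classical sense: H is proper, p divides the order of H, and H ∩ gHg⁻¹ has order prime to p for every g outside H. Then for every normal subgroup N of G of order divisible by p, G = H · O^p(N), where O^p(N) is the subgroup generated by the elements of N of order prime to p. -/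
theorem result {G : Type*} [Group G] [Finite G]
    (p : ℕ) [Fact p.Prime] (H : Subgroup G) (hH : H ≠ ⊤) (hpH : p ∣ Nat.card H)
    (hse : ∀ g : G, g ∉ H → ¬ p ∣ Nat.card ↥(H ⊓ H.map (MulAut.conj g).toMonoidHom))
    (N : Subgroup G) [N.Normal] (hN : p ∣ Nat.card N) :
    H ⊔ Subgroup.closure {g : G | g ∈ N ∧ (orderOf g).Coprime p} = ⊤ := by
  have hI : IForm p H := hse
  have hNF : NForm p H := nForm_of_iForm hI
  obtain ⟨P, hP⟩ := exists_isSylowIn p H
  have hPtop : IsSylowIn p P ⊤ := hNF.isSylowIn_top hpH hP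
  have hPN : IsSylowIn p (P ⊓ N) N := hPtop.inf_normal le_top (by
    show ⊤ ≤ normalizer (N : Set G)
    rw [Subgroup.normalizer_eq_top])
  have hne : P ⊓ N ≠ ⊥ := isSylowIn_ne_bot hPN hN
  have hNz : Nz (P ⊓ N) ≤ H := hNF (P ⊓ N) (inf_le_left.trans hP.le) (hP.isPGroup.to_le inf_le_left) hne
  have h1 := frattini_le hPN (le_top) (by
    show ⊤ ≤ normalizer (N : Set G)
    rw [Subgroup.normalizer_eq_top])
  have h2 := resOf_sup_sylow hPN
  rw [resOf_eq_closure] at h2
  rw [eq_top_iff, ← h1]
  refine sup_le ?_ (inf_le_right.trans (hNz.trans le_sup_left))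
  calc N = closure {g : G | g ∈ N ∧ (orderOf g).Coprime p} ⊔ (P ⊓ N) := h2.symm
    _ ≤ H ⊔ closure {g : G | g ∈ N ∧ (orderOf g).Coprime p} := sup_le le_sup_right ((inf_le_left.trans hP.le).trans le_sup_left)

end Cfsg.Agent.S3059
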