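import Cfsg.Statements.S3060
import Cfsg.Agent.H18_DStar
import Cfsg.Agent.H11_Cores

set_option autoImplicit false
open Cfsg

namespace Cfsg.Agent.S3060

open Subgroup Cfsg.Agent.H17.Base Cfsg.Agent.H18.DStar
open scoped commutatorElement

section
universe u
variable {G : Type u} [Group G] [Finite G] {p : ℕ} [Fact p.Prime]

theorem dStarOf_le (S : Subgroup G) : dStarOf S ≤ S := map_subtype_le _

theorem dStarOf_abelian {S : Subgroup G} (hS : IsPGroup p S) {a b : G} (ha : a ∈ dStarOf S) (hb : b ∈ dStarOf S) :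
    a * b = b * a := by
  obtain ⟨a, ha, rfl⟩ := ha
  obtain ⟨b, hb, rfl⟩ := hb
  have := comm_of (dStar_mem hS).1 ha hb
  exact congrArg Subtype.val this

theorem le_Nz_dStarOf {S : Subgroup G} (hS : IsPGroup p S) : S ≤ Nz (dStarOf S) := by
  rw [le_Nz_iff]
  rintro s hs _ ⟨d, hd, rfl⟩
  have h1 : cj (⟨s, hs⟩ : S) (dStar S) ≤ dStar S := le_sSup (conj_mem_family (dStar_mem hS) ⟨s, hs⟩)
  exact ⟨_, h1 (conj_mem_cj hd), rfl⟩

/-- the defining property inside `G`. -/
theorem centralizes_in {S : Subgroup G} (hS : IsPGroup p S) {x : G} (hx : x ∈ S)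
    (h1 : ∀ a ∈ dStarOf S, ∀ b ∈ dStarOf S, Commute ⁅x, a⁆ b) (h2 : ∀ a ∈ dStarOf S, Commute ⁅x, a⁆ x) :
    ∀ a ∈ dStarOf S, a * x = x * a := by
  rintro _ ⟨a, ha, rfl⟩
  have h := centralizes (dStar_mem hS) (x := (⟨x, hx⟩ : S)) ?_ ?_ a ha
  · exact congrArg Subtype.val h
  · intro a ha b hb
    exact Subtype.ext (h1 a ⟨a, ha, rfl⟩ b ⟨b, hb, rfl⟩)
  · intro a ha
    exact Subtype.ext (h2 a ⟨a, ha, rfl⟩)

/-- maximality inside `G`. -/
theorem le_dStarOf {S V : Subgroup G} (hVS : V ≤ S) (hV : IsMulCommutative V)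
    (h : ∀ x ∈ S, (∀ a ∈ V, ∀ b ∈ V, Commute ⁅x, a⁆ b) → (∀ a ∈ V, Commute ⁅x, a⁆ x) → ∀ a ∈ V, a * x = x * a) :
    V ≤ dStarOf S := by
  have h1 : V.subgroupOf S ∈ dStarFamily S := by
    refine ⟨?_, ?_⟩
    · apply isMulCommutative_of
      intro a ha b hb
      exact Subtype.ext (comm_of hV ha hb)
    · intro x hx a ha
      apply Subtype.ext
      have hc : ∀ a ∈ V.subgroupOf S, ∀ w ∈ V.subgroupOf S ⊔ zpowers x, Commute ⁅x, a⁆ w := by
        intro a ha w hw
        rw [commutator_eq_bot_iff_le_centralizer] at hx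
        have h3 := hx (commutator_mem_commutator (mem_sup_right (mem_zpowers x)) (mem_sup_left ha))
        exact ((mem_centralizer_iff.mp h3) w hw).symm
      refine h x x.2 ?_ ?_ a ha
      · intro a ha b hb
        have h3 := hc (⟨a, hVS ha⟩ : S) ha ⟨b, hVS hb⟩ (mem_sup_left hb)
        exact congrArg Subtype.val h3.eq
      · intro a ha
        have h3 := hc (⟨a, hVS ha⟩ : S) ha x (mem_sup_right (mem_zpowers x))
        exact congrArg Subtype.val h3.eq
  intro v hv
  exact ⟨⟨v, hVS hv⟩, le_sSup h1 hv, rfl⟩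

theorem commutator_zpowers_le {V N : Subgroup G} {x : G} (hN : x ∈ normalizer (N : Set G)) (hV : V ≤ normalizer (N : Set G))
    (h : ∀ v ∈ V, ⁅v, x⁆ ∈ N) : ⁅V, zpowers x⁆ ≤ N := by
  rw [commutator_le]
  intro v hv y hy
  obtain ⟨i, rfl⟩ := hy
  simp only
  -- `v` commutes with `x` modulo `N`
  have h1 : ∀ v ∈ V, v * x * v⁻¹ * x⁻¹ ∈ N := h
  have key : ∀ n : ℕ, ⁅v, x ^ n⁆ ∈ N := by
    intro n
    induction n with
    | zero => rw [pow_zero, commutatorElement_one_right]; exact N.one_mem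
    | succ n ih =>
      have e : ⁅v, x ^ (n + 1)⁆ = ⁅v, x⁆ * (x * ⁅v, x ^ n⁆ * x⁻¹) := by
        rw [pow_succ']; simp only [commutatorElement_def]; group
      rw [e]
      exact N.mul_mem (h v hv) ((mem_normalizer_iff.mp hN _).mp ih)
  rcases i with n | n
  · rw [Int.ofNat_eq_natCast, zpow_natCast]; exact key n
  · rw [zpow_negSucc]
    have e : ⁅v, (x ^ (n + 1))⁻¹⁆ = (x ^ (n + 1))⁻¹ * ⁅v, x ^ (n + 1)⁆⁻¹ * (x ^ (n + 1)) := by
      simp only [commutatorElement_def]; group
    rw [e]
    have h2 := (normalizer (N : Set G)).inv_mem ((normalizer (N : Set G)).pow_mem hN (n + 1))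
    have h3 := (mem_normalizer_iff.mp h2 _).mp (N.inv_mem (key (n + 1)))
    rwa [inv_inv] at h3

end

/-- The D*-Theorem. For a finite p-group S let D*(S) be the subgroup generated by the abelian subgroups A of S such that every x ∈ S with ⟨A, x⟩ of nilpotency class at most two centralizes A. Let p be an odd prime and H a finite p-stable group with Sylow p-subgroup S. Here H is p-stable in the following sense: the largest normal p-subgroup O_p(H) contains its centralizer in H, and for every normal p-subgroup P of H, every element acting quadratically on P has image in O_p(H/C_H(P)). Then D*(S) is a normal subgroup of H. -/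
theorem result {G : Type*} [Group G] [Finite G] {p : ℕ} [Fact p.Prime] (hp : p ≠ 2)
    (hc : Subgroup.centralizer (Cfsg.pCore p G : Set G) ≤ Cfsg.pCore p G)
    (hst : ∀ (P : Subgroup G) [P.Normal], IsPGroup p P → Cfsg.IsPStableOn p P) (S : Sylow p G) :
    (Cfsg.dStarOf (S : Subgroup G)).Normal := by
  have hSp : IsPGroup p ↥(S : Subgroup G) := S.2
  set D := Cfsg.dStarOf (S : Subgroup G) with hD
  set Q := Cfsg.pCore p G with hQ
  have hQS : Q ≤ S := pCore_le_sylow S
  have hQp : IsPGroup p Q := pCore_isPGroup p G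
  have hQn : Q.Normal := inferInstance
  have hDS : D ≤ S := dStarOf_le _
  have hSD := le_Nz_dStarOf hSp
  have hDc : ∀ a ∈ D, ∀ b ∈ D, a * b = b * a := fun a ha b hb => dStarOf_abelian hSp ha hb
  -- elements of the preimage of `O_p(G / C_G(P))`
  -- (1) `D ≤ Q`
  have hDQ : D ≤ Q := by
    intro d hd
    have h1 : ⁅⁅Q, zpowers d⁆, zpowers d⁆ = ⊥ := by
      have h2 : ⁅Q, zpowers d⁆ ≤ D := by
        rw [commutator_le]
        intro q hq y hy
        have hyD : y ∈ D := (zpowers_le.mpr hd) hy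
        exact D.mul_mem ((mem_normalizer_iff.mp (hSD (hQS hq)) y).mp hyD) (D.inv_mem hyD)
      rw [commutator_eq_bot_iff_le_centralizer]
      intro y hy
      rw [mem_centralizer_iff]
      intro z hz
      exact hDc z ((zpowers_le.mpr hd) hz) y (h2 hy)
    have h2 := hst Q hQp d h1
    set R := (Cfsg.pCore p (G ⧸ Subgroup.centralizer (Q : Set G))).comap (QuotientGroup.mk' (Subgroup.centralizer (Q : Set G))) with hR
    have hRn : R.Normal := inferInstance
    have hRp : IsPGroup p R := by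
      apply IsPGroup.comap_of_ker_isPGroup (pCore_isPGroup p _)
      rw [QuotientGroup.ker_mk']
      exact hQp.to_le hc
    exact le_pCore hRn hRp h2
  -- (2) conjugates commute
  have hcomm : ∀ g : G, ∀ a ∈ D, ∀ b ∈ cj g D, a * b = b * a := by
    intro g a ha b hb
    have hQg : cj g Q = Q := cj_eq_of_normal g hQn
    have hgDQ : cj g D ≤ Q := by rw [← hQg]; exact cj_mono hDQ
    have hQgD : Q ≤ Nz (cj g D) := by
      rw [← hQg, ← cj_Nz]; exact cj_mono (hQS.trans hSD)
    have hgDc : ∀ a ∈ cj g D, ∀ b ∈ cj g D, a * b = b * a := by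
      intro a ha b hb
      rw [mem_cj] at ha hb
      have h3 := hDc _ ha _ hb
      have h4 : a * b = g * ((g⁻¹ * a * g) * (g⁻¹ * b * g)) * g⁻¹ := by group
      rw [h4, h3]; group
    have hx : ∀ a ∈ D, ⁅b, a⁆ ∈ D ∧ ⁅b, a⁆ ∈ cj g D := by
      intro a ha
      refine ⟨?_, ?_⟩
      · exact D.mul_mem ((mem_normalizer_iff.mp (hSD (hQS (hgDQ hb))) a).mp ha) (D.inv_mem ha)
      · have h4 : ⁅b, a⁆ = b * (a * b⁻¹ * a⁻¹) := by rw [commutatorElement_def]; group
        rw [h4]
        exact (cj g D).mul_mem hb ((mem_normalizer_iff.mp (hQgD (hDQ ha)) _).mp ((cj g D).inv_mem hb))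
    exact centralizes_in hSp (hQS (hgDQ hb)) (fun a ha c hc => hDc _ (hx a ha).1 c hc) (fun a ha => hgDc _ (hx a ha).2 b hb) a ha
  -- (3) the normal closure
  set V := normalClosure (D : Set G) with hV
  have hVn : V.Normal := normalClosure_normal
  have hDV : D ≤ V := le_normalClosure
  have hVQ : V ≤ Q := normalClosure_le_normal hDQ
  have hVcl : V = closure (⋃ g : G, (cj g D : Set G)) := by
    rw [hV, normalClosure]
    congr 1
    ext y
    rw [Group.mem_conjugatesOfSet_iff, Set.mem_iUnion]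
    constructor
    · rintro ⟨d, hd, hdy⟩
      obtain ⟨g, rfl⟩ := isConj_iff.mp hdy
      exact ⟨g, conj_mem_cj hd⟩
    · rintro ⟨g, hg⟩
      have hg : y ∈ cj g D := hg
      rw [mem_cj] at hg
      exact ⟨_, hg, isConj_iff.mpr ⟨g, by group⟩⟩
  have hVc : IsMulCommutative V := by
    rw [hVcl]
    apply Subgroup.isMulCommutative_closure
    intro a ha b hb
    rw [Set.mem_iUnion] at ha hb
    obtain ⟨g, hg⟩ := ha
    obtain ⟨h, hh⟩ := hb
    have hg : a ∈ cj g D := hg
    have hh : b ∈ cj h D := hh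
    have h1 := hcomm (g⁻¹ * h) (g⁻¹ * a * g) (mem_cj.mp hg) (g⁻¹ * b * g) (by
      rw [mem_cj] at hh ⊢
      have : (g⁻¹ * h)⁻¹ * (g⁻¹ * b * g) * (g⁻¹ * h) = h⁻¹ * b * h := by group
      rwa [this])
    have h4 : a * b = g * ((g⁻¹ * a * g) * (g⁻¹ * b * g)) * g⁻¹ := by group
    rw [h4, h1]; group
  -- (4) `V ≤ D`
  have hVD : V ≤ D := by
    apply le_dStarOf (hVQ.trans hQS) hVc
    intro x hxS hx1 hx2
    -- `x` acts quadratically
    have hquad : ⁅⁅V, zpowers x⁆, zpowers x⁆ = ⊥ := by
      -- `W = {v ∈ V : v commutes with x}`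
      set W := V ⊓ centralizer ({x} : Set G) with hW
      have hxW : x ∈ normalizer (W : Set G) := by
        rw [mem_normalizer_iff]
        intro y
        constructor
        · rintro ⟨h1, h2⟩
          have h3 : x * y * x⁻¹ = y := by rw [← mem_centralizer_singleton_iff.mp h2, mul_inv_cancel_right]
          rw [h3]; exact ⟨h1, h2⟩
        · rintro ⟨h1, h2⟩
          have h3 := mem_centralizer_singleton_iff.mp h2
          have h4 : x * y * x⁻¹ = y := by
            have h5 : x * y * x⁻¹ * x = x * (x * y * x⁻¹) := h3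
            rw [inv_mul_cancel_right] at h5
            exact (mul_left_cancel h5).symm
          rw [h4] at h1 h2; exact ⟨h1, h2⟩
      have hVW : V ≤ normalizer (W : Set G) := by
        apply le_Nz_iff.mpr
        intro v hv w hw
        rw [comm_of hVc hv hw.1, mul_inv_cancel_right]; exact hw
      have h1 : ⁅V, zpowers x⁆ ≤ W := by
        apply commutator_zpowers_le hxW hVW
        intro v hv
        have h2 : ⁅v, x⁆ = ⁅x, v⁆⁻¹ := (commutatorElement_inv x v).symm
        rw [h2]
        apply W.inv_mem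
        refine ⟨?_, mem_centralizer_singleton_iff.mpr (hx2 v hv).eq⟩
        exact V.mul_mem (hVn.conj_mem v hv x) (V.inv_mem hv)
      rw [commutator_eq_bot_iff_le_centralizer]
      refine h1.trans ?_
      intro w hw
      rw [mem_centralizer_iff]
      rintro _ ⟨i, rfl⟩
      have h3 : Commute w x := mem_centralizer_singleton_iff.mp hw.2
      exact (h3.zpow_right i).symm.eq
    have hVp : IsPGroup p V := hQp.to_le hVQ
    have hxR := hst V hVp x hquad
    set C := Subgroup.centralizer (V : Set G) with hC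
    set R := (Cfsg.pCore p (G ⧸ C)).comap (QuotientGroup.mk' C) with hR
    have hRn : R.Normal := inferInstance
    have hxR' : x ∈ R := hxR
    have htop : ∀ N : Subgroup G, N.Normal → (⊤ : Subgroup G) ≤ Nz N := by
      intro N hN
      show ⊤ ≤ normalizer (N : Set G)
      rw [Subgroup.normalizer_eq_top]
    have hT : IsSylowIn p ((S : Subgroup G) ⊓ R) R := (isSylowIn_coe S).inf_normal le_top (htop R hRn)
    set T := (S : Subgroup G) ⊓ R with hTdef
    have hCR : C ≤ R := by
      intro c hc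
      show QuotientGroup.mk' C c ∈ Cfsg.pCore p (G ⧸ C)
      have : QuotientGroup.mk' C c = 1 := (QuotientGroup.eq_one_iff c).mpr hc
      rw [this]; exact one_mem _
    have hRCT : C ⊔ T = R := by
      apply le_antisymm (sup_le hCR inf_le_right)
      have h1 := resOf_sup_sylow hT
      have h2 : resOf p R ≤ C := by
        have h3 : IsPGroup p (Cfsg.pCore p (G ⧸ C)) := pCore_isPGroup p _
        obtain ⟨k, hk⟩ := IsPGroup.iff_card.mp h3
        apply resOf_le_of_relIndex hCR ((le_top).trans (htop C inferInstance)) (k := k)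
        have h4 : Nat.card R = Nat.card ↥(QuotientGroup.mk' C).ker * Nat.card ↥(Cfsg.pCore p (G ⧸ C)) :=
          Cfsg.Agent.H11.Cores.card_comap_of_surjective (QuotientGroup.mk' C) (QuotientGroup.mk'_surjective C) _
        rw [QuotientGroup.ker_mk', hk] at h4
        have h5 : Nat.card C * C.relIndex R = Nat.card R := by
          rw [relIndex, ← Nat.card_congr (subgroupOfEquivOfLe hCR).toEquiv, card_mul_index]
        rw [h4] at h5
        exact Nat.eq_of_mul_eq_mul_left Nat.card_pos h5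
      calc R = resOf p R ⊔ T := h1.symm
        _ ≤ C ⊔ T := sup_le_sup_right h2 T
    -- elements centralizing
    have hgen : ∀ g : G, ∀ a ∈ cj g D, a * x = x * a := by
      intro g
      obtain ⟨r, hr, hrn⟩ := frattini_arg hT (htop R hRn) g (mem_top g)
      -- `r⁻¹ = c t`
      have hr' : r⁻¹ ∈ C ⊔ T := by rw [hRCT]; exact R.inv_mem hr
      have hTC : T ≤ Nz C := le_top.trans (htop C inferInstance)
      obtain ⟨c, hc, t, ht, hct⟩ := (mem_sup_of_le_Nz' hTC).mp hr'
      set n := t * (r * g) with hn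
      have hnT : n ∈ Nz T := (Nz T).mul_mem (Subgroup.le_normalizer ht) hrn
      have hg : g = c * n := by rw [hn, ← mul_assoc, ← hct, inv_mul_cancel_left]
      have hcjn : cj g D = cj n D := by
        rw [hg, cj_mul]
        apply cj_eq_of_mem_Nz
        apply Cz_le_Nz
        have h1 : cj n D ≤ V := by
          have : cj n D ≤ cj n V := cj_mono hDV
          rwa [cj_eq_of_normal n hVn] at this
        exact Cz_anti h1 hc
      rw [hcjn]
      intro a ha
      -- `x' = n⁻¹ x n`
      have hxT : x ∈ T := ⟨hxS, hxR'⟩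
      have hx'T : n⁻¹ * x * n ∈ T := by
        have h1 := (mem_normalizer_iff.mp ((Nz T).inv_mem hnT) x).mp hxT
        rwa [inv_inv] at h1
      have hquad1 : ∀ a ∈ V, ⁅n⁻¹ * x * n, a⁆ = n⁻¹ * ⁅x, n * a * n⁻¹⁆ * n := by
        intro a _; simp only [commutatorElement_def]; group
      have hnV : ∀ a ∈ V, n * a * n⁻¹ ∈ V := fun a ha => hVn.conj_mem a ha n
      have h2 := centralizes_in hSp (x := n⁻¹ * x * n) hx'T.1 ?_ ?_ (n⁻¹ * a * n) (mem_cj.mp ha)
      · have h3 : a * x = n * ((n⁻¹ * a * n) * (n⁻¹ * x * n)) * n⁻¹ := by group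
        rw [h3, h2]; group
      · intro a ha b hb
        rw [hquad1 a (hDV ha)]
        have h3 := hx1 _ (hnV a (hDV ha)) _ (hnV b (hDV hb))
        have h4 : n⁻¹ * ⁅x, n * a * n⁻¹⁆ * n * b = n⁻¹ * (⁅x, n * a * n⁻¹⁆ * (n * b * n⁻¹)) * n := by group
        show n⁻¹ * ⁅x, n * a * n⁻¹⁆ * n * b = b * (n⁻¹ * ⁅x, n * a * n⁻¹⁆ * n)
        rw [h4, h3.eq]; group
      · intro a ha
        rw [hquad1 a (hDV ha)]
        have h3 := hx2 _ (hnV a (hDV ha))
        have h4 : n⁻¹ * ⁅x, n * a * n⁻¹⁆ * n * (n⁻¹ * x * n) = n⁻¹ * (⁅x, n * a * n⁻¹⁆ * x) * n := by group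
        show n⁻¹ * ⁅x, n * a * n⁻¹⁆ * n * (n⁻¹ * x * n) = (n⁻¹ * x * n) * (n⁻¹ * ⁅x, n * a * n⁻¹⁆ * n)
        rw [h4, h3.eq]; group
    have h1 : V ≤ centralizer ({x} : Set G) := by
      rw [hVcl, closure_le]
      intro a ha
      rw [Set.mem_iUnion] at ha
      obtain ⟨g, hg⟩ := ha
      exact mem_centralizer_singleton_iff.mpr (hgen g a hg)
    intro a ha
    exact mem_centralizer_singleton_iff.mp (h1 ha)
  have : D = V := le_antisymm hDV hVD
  rw [this]; exact hVn

end Cfsg.Agent.S3060
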