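import Cfsg.Statements.S3061
import Cfsg.Agent.H18_DStar

set_option autoImplicit false
open Cfsg

namespace Cfsg.Agent.S3061


/-- Let S be a finite p-group. Then D*(S) itself belongs to the family that generates it: D*(S) is abelian, and every x ∈ S with ⟨D*(S), x⟩ of class at most two centralizes D*(S). Hence D*(S) is the unique maximal member of that family. -/
theorem result {S : Type*} [Group S] [Finite S] {p : ℕ} [Fact p.Prime] (hS : IsPGroup p S) :
    Cfsg.dStar S ∈ Cfsg.dStarFamily S := by
  exact Cfsg.Agent.H18.DStar.dStar_mem hS

end Cfsg.Agent.S3061
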