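import Cfsg.Statements.S3062
import Cfsg.Agent.H18_DStar
import Cfsg.Agent.H18_Replace

set_option autoImplicit false
open Cfsg

namespace Cfsg.Agent.S3062

open Subgroup Cfsg.Agent.H17.Base Cfsg.Agent.H18.DStar
open scoped commutatorElement

/-- Let S be a finite p-group, J(S) the subgroup generated by the abelian subgroups of S of largest order and Z(J(S)) its centre. Then Z(S) ≤ D*(S) ≤ Z(J(S)), and every maximal normal abelian subgroup of S contains D*(S). -/
theorem result {S : Type*} [Group S] [Finite S] {p : ℕ} [Fact p.Prime]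
    (hS : IsPGroup p S) :
    Subgroup.center S ≤ Cfsg.dStar S ∧
    Cfsg.dStar S ≤ Cfsg.thompsonSubgroupA S ⊓ Subgroup.centralizer (Cfsg.thompsonSubgroupA S : Set S) ∧
    ∀ A : Subgroup S, A.Normal → IsMulCommutative A →
      (∀ B : Subgroup S, B.Normal → IsMulCommutative B → A ≤ B → B = A) → Cfsg.dStar S ≤ A := by
  set D := Cfsg.dStar S with hD
  have hDm : D ∈ Cfsg.dStarFamily S := dStar_mem hS
  have hDn : D.Normal := by
    rw [← normalizer_eq_top_iff, eq_top_iff]
    rintro g -
    apply mem_Nz_of_cj_le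
    exact le_sSup (conj_mem_family hDm g)
  have hnorm : ∀ x : S, x ∈ normalizer (D : Set S) := by
    intro x; rw [Subgroup.normalizer_eq_top]; trivial
  refine ⟨?_, ?_, ?_⟩
  · apply le_sSup
    refine ⟨inferInstance, fun x _ a ha => ?_⟩
    exact ((mem_center_iff.mp ha) x).symm
  · -- every abelian subgroup of maximal order centralizes `D`
    have key : ∀ n : ℕ, ∀ A ∈ Cfsg.maxAbelianSubgroups S, Nat.card D - Nat.card ↥(A ⊓ D) = n → D ≤ A := by
      intro n
      induction n using Nat.strong_induction_on with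
      | _ n IH =>
      intro A hA hn
      -- if `D` normalizes `A` then it centralizes `A`, so lies in `A`
      have hstep : D ≤ normalizer (A : Set S) → D ≤ A := by
        intro hDA
        have hc : ∀ x ∈ A, ∀ d ∈ D, d * x = x * d := by
          intro x hx
          apply centralizes_of_quadratic hDm (hnorm x)
          intro d hd
          have h3 : ⁅x, d⁆ ∈ A := by
            have h4 : ⁅x, d⁆ = x * (d * x⁻¹ * d⁻¹) := by rw [commutatorElement_def]; group
            rw [h4]
            exact A.mul_mem hx ((mem_normalizer_iff.mp (hDA hd) _).mp (A.inv_mem hx))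
          exact comm_of hA.1 h3 hx
        have h1 : IsMulCommutative ↥(A ⊔ D) := Cfsg.Agent.H18.Replace.isMulCommutative_sup hA.1 hDm.1 (fun a ha d hd => (hc a ha d hd).symm)
        have h2 := hA.2 _ h1
        have h3 : A = A ⊔ D := Subgroup.eq_of_le_of_card_ge le_sup_left h2
        rw [h3]; exact le_sup_right
      by_cases hDA : D ≤ normalizer (A : Set S)
      · exact hstep hDA
      · obtain ⟨A', hA', hlt, hn'⟩ := Cfsg.Agent.H18.Replace.replacement hS hA hDm.1 (fun x _ => hnorm x) hDA
        have h1 : Nat.card ↥(A ⊓ D) < Nat.card ↥(A' ⊓ D) :=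
          Set.ncard_lt_ncard (SetLike.coe_ssubset_coe.mpr hlt) (Set.toFinite _)
        have h2 : Nat.card ↥(A' ⊓ D) ≤ Nat.card D := Subgroup.card_le_of_le inf_le_right
        have h3 := IH (Nat.card D - Nat.card ↥(A' ⊓ D)) (by omega) A' hA' rfl
        exact hstep (h3.trans hn')
    have hne : (Cfsg.maxAbelianSubgroups S).Nonempty := by
      obtain ⟨B, hB, hmax⟩ := Set.exists_max_image {B : Subgroup S | IsMulCommutative B} (fun B => Nat.card B) (Set.toFinite _)
        ⟨⊥, (inferInstance : IsMulCommutative (⊥ : Subgroup S))⟩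
      exact ⟨B, hB, hmax⟩
    obtain ⟨A₀, hA₀⟩ := hne
    refine le_inf ((key _ A₀ hA₀ rfl).trans (le_sSup hA₀)) ?_
    rw [le_centralizer_iff]
    apply sSup_le
    intro A hA
    rw [le_centralizer_iff]
    intro d hd
    rw [mem_centralizer_iff]
    intro a ha
    exact comm_of hA.1 ha (key _ A hA rfl hd)
  · intro A hAn hAc hmax
    have hnA : ∀ x : S, x ∈ normalizer (A : Set S) := by
      intro x; rw [Subgroup.normalizer_eq_top]; trivial
    have hc : ∀ x ∈ A, ∀ d ∈ D, d * x = x * d := by
      intro x hx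
      apply centralizes_of_quadratic hDm (hnorm x)
      intro d hd
      have h3 : ⁅x, d⁆ ∈ A := by
        have h4 : ⁅x, d⁆ = x * (d * x⁻¹ * d⁻¹) := by rw [commutatorElement_def]; group
        rw [h4]
        exact A.mul_mem hx ((mem_normalizer_iff.mp (hnA d) _).mp (A.inv_mem hx))
      exact comm_of hAc h3 hx
    have h1 : IsMulCommutative ↥(A ⊔ D) := Cfsg.Agent.H18.Replace.isMulCommutative_sup hAc hDm.1 (fun a ha d hd => (hc a ha d hd).symm)
    have h2 := hmax (A ⊔ D) inferInstance h1 le_sup_left
    rw [← h2]; exact le_sup_right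

end Cfsg.Agent.S3062
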