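import Cfsg.Statements.S3063
import Cfsg.Agent.H18_Replace
import Cfsg.Agent.H13_Syl
import Cfsg.Agent.H2_Card

set_option autoImplicit false
open Cfsg

namespace Cfsg.Agent.S3063

open Subgroup Cfsg.Agent.H13.Syl Cfsg.Agent.H18.Replace

universe u

theorem centralizer_le {S : Type u} [Group S] [Finite S] {A : Subgroup S} (hA : A ∈ Cfsg.maxAbelianSubgroups S) :
    centralizer (A : Set S) ≤ A := by
  intro x hx
  have h1 : IsMulCommutative ↥(A ⊔ zpowers x : Subgroup S) := by
    apply isMulCommutative_sup hA.1 (isMulCommutative_of ?_)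
    · rintro a ha _ ⟨n, rfl⟩
      have : Commute a x := mem_centralizer_iff.mp hx a ha
      exact (this.zpow_right n)
    · rintro _ ⟨m, rfl⟩ _ ⟨n, rfl⟩
      exact ((Commute.refl x).zpow_zpow m n)
  have h2 := hA.2 _ h1
  have h3 : A = A ⊔ zpowers x := Subgroup.eq_of_le_of_card_ge le_sup_left h2
  rw [h3]
  exact (le_sup_right : zpowers x ≤ A ⊔ zpowers x) (mem_zpowers x)

theorem cj_mem {S : Type u} [Group S] [Finite S] {A : Subgroup S} (hA : A ∈ Cfsg.maxAbelianSubgroups S) (g : S) :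
    cj g A ∈ Cfsg.maxAbelianSubgroups S := by
  refine ⟨isMulCommutative_of ?_, ?_⟩
  · rintro _ ⟨a, ha, rfl⟩ _ ⟨b, hb, rfl⟩
    rw [← map_mul, ← map_mul, comm_of hA.1 ha hb]
  · intro B hB
    rw [card_cj]; exact hA.2 B hB

/-- A weak replacement Theorem for metabelian p-groups: let S be a finite p-group whose derived subgroup is abelian and A an abelian subgroup of S of largest possible order. Then the normal closure of A in S contains an abelian subgroup B of the same order as A that is normal in S. -/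
theorem result {S : Type*} [Group S] [Finite S] {p : ℕ} [Fact p.Prime]
    (hS : IsPGroup p S) (hmeta : IsMulCommutative ↥(commutator S))
    (A : Subgroup S) (hA : A ∈ Cfsg.maxAbelianSubgroups S) :
    ∃ B ∈ Cfsg.maxAbelianSubgroups S, B.Normal ∧ B ≤ Subgroup.normalClosure (A : Set S) := by
  classical
  set N := normalClosure (A : Set S) with hN
  haveI hNn : N.Normal := normalClosure_normal
  set D := N ⊓ commutator S with hD
  haveI hDn : D.Normal := inferInstance
  have hDab : ∀ a ∈ D, ∀ b ∈ D, a * b = b * a := fun a ha b hb => comm_of hmeta ha.2 hb.2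
  -- choose `A₁`
  obtain ⟨A₁, ⟨hA₁, hA₁N⟩, hmax⟩ := Set.Finite.exists_maximalFor (fun X : Subgroup S => Nat.card (X ⊓ D : Subgroup S))
    {X : Subgroup S | X ∈ Cfsg.maxAbelianSubgroups S ∧ X ≤ N} (Set.toFinite _) ⟨A, hA, subset_normalClosure⟩
  have hmax' : ∀ X ∈ Cfsg.maxAbelianSubgroups S, X ≤ N → Nat.card (X ⊓ D : Subgroup S) ≤ Nat.card (A₁ ⊓ D : Subgroup S) := by
    intro X hX hXN
    rcases le_total (Nat.card (X ⊓ D : Subgroup S)) (Nat.card (A₁ ⊓ D : Subgroup S)) with h | h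
    · exact h
    · exact hmax ⟨hX, hXN⟩ h
  -- step 1
  have step1 : D ≤ normalizer (A₁ : Set S) := by
    by_contra hnot
    obtain ⟨x, hxD, hxA⟩ := Set.not_subset.mp hnot
    set M := closure ((fun u => x⁻¹ * (u⁻¹ * x * u)) '' (A₁ : Set S)) with hM
    have hMD : M ≤ D := by
      rw [hM, closure_le]
      rintro _ ⟨u, hu, rfl⟩
      have h1 : u⁻¹ * x * u ∈ D := by simpa using hDn.conj_mem x hxD u⁻¹
      exact D.mul_mem (D.inv_mem hxD) h1
    have hMab : IsMulCommutative M := isMulCommutative_of (fun a ha b hb => hDab a (hMD ha) b (hMD hb))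
    have h1 := replace_aux hA₁ hMab x hM
    have hMA : ¬ M ≤ A₁ := by
      intro hle
      apply hxA
      -- `x` normalizes `A₁`
      have h2 : ∀ u ∈ A₁, x⁻¹ * u * x ∈ A₁ := by
        intro u hu
        have h3 : x⁻¹ * (u⁻¹⁻¹ * x * u⁻¹) ∈ A₁ := hle (subset_closure ⟨u⁻¹, A₁.inv_mem hu, rfl⟩)
        have e : x⁻¹ * u * x = (x⁻¹ * (u⁻¹⁻¹ * x * u⁻¹)) * u := by group
        rw [e]; exact A₁.mul_mem h3 hu
      have h3 : cj x⁻¹ A₁ ≤ A₁ := by
        rintro _ ⟨u, hu, rfl⟩
        have := h2 u hu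
        simpa using this
      have h4 : cj x⁻¹ A₁ = A₁ := Subgroup.eq_of_le_of_card_ge h3 (by rw [card_cj])
      have h5 := mem_normalizer_iff_cj.mpr h4
      simpa using inv_mem h5
    have hle : A₁ ⊓ D ≤ (M ⊔ (A₁ ⊓ centralizer (M : Set S))) ⊓ D := by
      refine le_inf ?_ inf_le_right
      refine le_trans ?_ le_sup_right
      refine le_inf inf_le_left ?_
      intro a ha
      rw [mem_centralizer_iff]
      intro m hm
      exact hDab m (hMD hm) a ha.2
    have hlt : Nat.card (A₁ ⊓ D : Subgroup S) < Nat.card ((M ⊔ (A₁ ⊓ centralizer (M : Set S))) ⊓ D : Subgroup S) := by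
      apply Cfsg.Agent.H2.Card.card_lt_of_lt
      refine lt_of_le_of_ne hle ?_
      intro h
      apply hMA
      have : M ≤ A₁ ⊓ D := by rw [h]; exact le_inf le_sup_left hMD
      exact this.trans inf_le_left
    exact absurd (hmax' _ h1 (sup_le (hMD.trans inf_le_left) (inf_le_left.trans hA₁N))) (not_le.mpr hlt)
  -- step 2
  have hconjD : ∀ (g : S) (X : Subgroup S), X ≤ N → cj g X ≤ X ⊔ D := by
    rintro g X hX _ ⟨a, ha, rfl⟩
    have h1 : g * a * g⁻¹ * a⁻¹ ∈ D := by
      refine ⟨N.mul_mem (hNn.conj_mem a (hX ha) g) (N.inv_mem (hX ha)), ?_⟩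
      exact commutator_mem_commutator (mem_top g) (mem_top a)
    have e : (MulAut.conj g).toMonoidHom a = (g * a * g⁻¹ * a⁻¹) * a := by simp
    rw [e]
    exact mul_mem ((le_sup_right : D ≤ X ⊔ D) h1) ((le_sup_left : X ≤ X ⊔ D) ha)
  refine ⟨A₁, hA₁, ?_, hA₁N⟩
  by_contra hnn
  obtain ⟨g, hg⟩ : ∃ g : S, cj g A₁ ≠ A₁ := by
    by_contra h
    push Not at h
    apply hnn
    refine ⟨fun a ha g => ?_⟩
    rw [← h g]; exact conj_mem_cj ha
  set B := cj g A₁ with hB
  have hBmem := cj_mem hA₁ g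
  rw [← hB] at hBmem
  have hBN : B ≤ N := by
    rintro _ ⟨a, ha, rfl⟩; exact hNn.conj_mem a (hA₁N ha) g
  have hBD : B ≤ A₁ ⊔ D := hconjD g A₁ hA₁N
  have hAD : A₁ ≤ B ⊔ D := by
    have := hconjD g⁻¹ B hBN
    rwa [hB, cj_inv_cj, ← hB] at this
  have hDB : D ≤ normalizer (B : Set S) := by
    have h1 := cj_mono (g := g) step1
    rw [cj_normalizer, cj_eq_of_normal g D] at h1
    exact h1
  set E := A₁ ⊓ D with hE
  have hBE : B ⊓ D = E := by
    have h1 : E ≤ B ⊓ D := by
      refine le_inf ?_ inf_le_right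
      refine le_trans ?_ (centralizer_le hBmem)
      intro e he
      rw [mem_centralizer_iff]
      intro b hb
      have hle : A₁ ⊔ D ≤ centralizer {e} := by
        rw [sup_le_iff]
        constructor
        · intro a ha
          exact mem_centralizer_singleton_iff.mpr (comm_of hA₁.1 ha he.1)
        · intro d hd
          exact mem_centralizer_singleton_iff.mpr (hDab d hd e he.2)
      exact mem_centralizer_singleton_iff.mp (hle (hBD hb))
    symm
    apply Subgroup.eq_of_le_of_card_ge h1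
    have h2 : B ⊓ D = cj g E := by
      rw [hE, cj_inf, cj_eq_of_normal g D]
    rw [h2, card_cj]
  have hAn : ∀ X : Subgroup S, X ≤ A₁ ⊔ D → X ≤ normalizer (A₁ : Set S) := fun X hX =>
    hX.trans (sup_le le_normalizer step1)
  have hBA : B ≤ normalizer (A₁ : Set S) := hAn B hBD
  have hAB : A₁ ≤ normalizer (B : Set S) := hAD.trans (sup_le le_normalizer hDB)
  set F := A₁ ⊓ B with hF
  set X₁ := A₁ ⊔ B with hX₁
  set M₁ := X₁ ⊓ D with hM₁
  have hX₁M : A₁ ⊔ M₁ = X₁ := by
    apply le_antisymm (sup_le le_sup_left inf_le_left)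
    intro x hx
    have hx' : x ∈ A₁ ⊔ D := (sup_le le_sup_left hBD : X₁ ≤ A₁ ⊔ D) hx
    obtain ⟨a, ha, d, hd, rfl⟩ := (Cfsg.Agent.H2.Card.mem_sup_iff (show A₁ ≤ normalizer (D : Set S) by
      rw [Subgroup.normalizer_eq_top]; exact le_top)).mp hx'
    have hdX : d ∈ X₁ := by
      have : d = a⁻¹ * (a * d) := by group
      rw [this]; exact mul_mem (inv_mem ((le_sup_left : A₁ ≤ X₁) ha)) hx
    exact mul_mem ((le_sup_left : A₁ ≤ A₁ ⊔ M₁) ha) ((le_sup_right : M₁ ≤ A₁ ⊔ M₁) ⟨hdX, hd⟩)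
  have hAM : A₁ ⊓ M₁ = E := by
    rw [hM₁, hE, ← inf_assoc, inf_eq_left.mpr (le_sup_left : A₁ ≤ X₁)]
  have hFM : F ⊓ M₁ = E := by
    have : F ⊓ M₁ = (A₁ ⊓ D) ⊓ (B ⊓ D) := by
      ext x
      simp only [hF, hM₁, mem_inf]
      constructor
      · rintro ⟨⟨h1, h2⟩, h3, h4⟩; exact ⟨⟨h1, h4⟩, h2, h4⟩
      · rintro ⟨⟨h1, h4⟩, h2, _⟩; exact ⟨⟨h1, h2⟩, (le_sup_left : A₁ ≤ X₁) h1, h4⟩
    rw [this, hBE, ← hE, inf_idem]
  have c1 : Nat.card X₁ * Nat.card F = Nat.card A₁ * Nat.card B := by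
    have := Cfsg.Agent.H2.Card.card_sup_mul_card_inf hAB
    exact this
  have c2 : Nat.card X₁ * Nat.card E = Nat.card A₁ * Nat.card M₁ := by
    have h1 : M₁ ≤ normalizer (A₁ : Set S) := inf_le_right.trans step1
    have := Cfsg.Agent.H2.Card.card_sup_mul_card_inf h1
    rw [sup_comm, hX₁M, inf_comm, hAM, mul_comm (Nat.card M₁)] at this
    exact this
  have c3 : Nat.card B = Nat.card A₁ := card_cj g A₁
  have hcomm : ∀ f ∈ F, ∀ m ∈ X₁, f * m = m * f := by
    intro f hf m hm
    have hle : X₁ ≤ centralizer {f} := by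
      rw [hX₁, sup_le_iff]
      constructor
      · intro a ha
        exact mem_centralizer_singleton_iff.mpr (comm_of hA₁.1 ha hf.1)
      · intro b hb
        exact mem_centralizer_singleton_iff.mpr (comm_of hBmem.1 hb hf.2)
    exact (mem_centralizer_singleton_iff.mp (hle hm)).symm
  set A₂ := F ⊔ M₁ with hA₂
  have hA₂ab : IsMulCommutative A₂ := by
    apply isMulCommutative_sup
    · exact isMulCommutative_of (fun a ha b hb => comm_of hA₁.1 ha.1 hb.1)
    · exact isMulCommutative_of (fun a ha b hb => hDab a ha.2 b hb.2)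
    · intro a ha b hb; exact hcomm a ha b hb.1
  have c4 : Nat.card A₂ * Nat.card E = Nat.card F * Nat.card M₁ := by
    have h1 : F ≤ normalizer (M₁ : Set S) := by
      intro f hf
      rw [mem_normalizer_iff]
      intro m
      constructor
      · intro hm
        rw [hcomm f hf m hm.1, mul_inv_cancel_right]; exact hm
      · intro hm
        have h2 := hcomm f hf _ hm.1
        have h3 : f * m * f⁻¹ = m := by
          have h4 : f * (f * m * f⁻¹) = f * m := by rw [h2]; group
          exact mul_left_cancel h4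
        rwa [h3] at hm
    have := Cfsg.Agent.H2.Card.card_sup_mul_card_inf h1
    rwa [hFM] at this
  have p1 : 0 < Nat.card A₁ := Nat.card_pos
  have p2 : 0 < Nat.card E := Nat.card_pos
  have p3 : 0 < Nat.card F := Nat.card_pos
  have c5 : Nat.card A₁ * Nat.card E = Nat.card F * Nat.card M₁ := by
    apply Nat.eq_of_mul_eq_mul_left p1
    calc Nat.card A₁ * (Nat.card A₁ * Nat.card E) = (Nat.card A₁ * Nat.card B) * Nat.card E := by rw [c3]; ring
      _ = (Nat.card X₁ * Nat.card F) * Nat.card E := by rw [c1]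
      _ = (Nat.card X₁ * Nat.card E) * Nat.card F := by ring
      _ = (Nat.card A₁ * Nat.card M₁) * Nat.card F := by rw [c2]
      _ = Nat.card A₁ * (Nat.card F * Nat.card M₁) := by ring
  have c6 : Nat.card A₂ = Nat.card A₁ := Nat.eq_of_mul_eq_mul_right p2 (c4.trans c5.symm)
  have hA₂mem : A₂ ∈ Cfsg.maxAbelianSubgroups S := ⟨hA₂ab, fun B hB => by rw [c6]; exact hA₁.2 B hB⟩
  have hFlt : Nat.card F < Nat.card A₁ := by
    apply Cfsg.Agent.H2.Card.card_lt_of_lt
    refine lt_of_le_of_ne inf_le_left ?_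
    intro h
    have h1 : A₁ ≤ B := by rw [← h]; exact inf_le_right
    exact hg (Subgroup.eq_of_le_of_card_ge h1 (by rw [c3])).symm
  have hlt : Nat.card E < Nat.card M₁ := by
    by_contra h
    have h1 : Nat.card M₁ ≤ Nat.card E := not_lt.mp h
    have h2 : Nat.card F * Nat.card M₁ ≤ Nat.card F * Nat.card E := Nat.mul_le_mul_left _ h1
    have h3 : Nat.card F * Nat.card E < Nat.card A₁ * Nat.card E := Nat.mul_lt_mul_of_pos_right hFlt p2
    omega
  have h1 := hmax' A₂ hA₂mem (sup_le (inf_le_left.trans hA₁N) (inf_le_right.trans inf_le_left))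
  have h2 : Nat.card M₁ ≤ Nat.card (A₂ ⊓ D : Subgroup S) := by
    apply Nat.le_of_dvd Nat.card_pos
    exact card_dvd_of_le (le_inf le_sup_right inf_le_right)
  omega

end Cfsg.Agent.S3063
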