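import Cfsg.Statements.S3071
import Cfsg.Agent.H18_ZJF4

set_option autoImplicit false
open Cfsg

namespace Cfsg.Agent.S3071


/-- Let p be an odd prime and S a Sylow p-subgroup of the finite group G such that, for every subgroup P with Z(S) ≤ P ≤ S, the normalizer N_G(P) has no section isomorphic to SL₂(p). Let J(S) be the subgroup generated by the abelian subgroups of S of largest order. Then two elements of S are conjugate in G if and only if they are conjugate in N_G(Z(J(S))). -/
theorem result {G : Type*} [Group G] [Finite G] {p : ℕ} [Fact p.Prime]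
    (hp : p ≠ 2) (S : Sylow p G)
    (hfree : ∀ P : Subgroup G, (S : Subgroup G) ⊓ Subgroup.centralizer ((S : Subgroup G) : Set G) ≤ P → P ≤ S →
      ¬ ∃ (H K : Subgroup G) (hK : (K.subgroupOf H).Normal), H ≤ Subgroup.normalizer (P : Set G) ∧
        Nonempty ((H ⧸ K.subgroupOf H) ≃* Matrix.SpecialLinearGroup (Fin 2) (ZMod p))) :
    ∀ x ∈ S, ∀ y ∈ S, (∃ g : G, g * x * g⁻¹ = y) ↔
      ∃ n ∈ Subgroup.normalizer (Cfsg.centerThompsonAOf (S : Subgroup G) : Set G), n * x * n⁻¹ = y := by
  have hS := H13.Syl.isSylIn_sylow_top S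
  have h0 := H18.ZJF.ctl_local hp (n := 0) H12.ZJ.dvd_zero_aux (dvd_zero p) hS (fun z _ => pow_zero z) (by
    intro T hTS hT X _ _ hX _
    apply H18.PStab.stable_of_sl hp
    intro h1
    have hZ : (S : Subgroup G) ⊓ Subgroup.centralizer ((S : Subgroup G) : Set G) ≤ T := fun z hz => hT z hz (pow_zero z)
    apply hfree T hZ hTS
    obtain ⟨K, f, hf⟩ := H13.Sec.involves_iff.1 (H13.Sec.involves_trans h1 hX)
    let e := K.equivMapOfInjective (Subgroup.normalizer (T : Set G)).subtype (Subgroup.subtype_injective _)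
    obtain ⟨L, hL, hiso⟩ := H18.QPair.section_of_hom (K.map (Subgroup.normalizer (T : Set G)).subtype)
      (f.comp e.symm.toMonoidHom) (hf.comp e.symm.surjective)
    exact ⟨_, L, hL, Subgroup.map_subtype_le _, hiso⟩)
  rw [H12.ZJ.ZJJ_zero] at h0
  intro x hx y hy
  constructor
  · rintro ⟨g, hg⟩
    obtain ⟨-, h1⟩ := H18.ZJF.cfof h0 {x} (by rintro _ rfl; exact hx)
    obtain ⟨n, hn, hn2⟩ := h1 g (by
      rintro _ ⟨_, rfl, rfl⟩
      show g * _ * g⁻¹ ∈ (S : Set G)
      rw [hg]; exact hy)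
    exact ⟨n, hn, by rw [← hn2 x rfl, hg]⟩
  · rintro ⟨n, -, hn2⟩
    exact ⟨n, hn2⟩

end Cfsg.Agent.S3071
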