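import Cfsg.Statements.S3074
import Cfsg.Agent.H18_Qd2

set_option autoImplicit false
open Cfsg

namespace Cfsg.Agent.S3074


/-- Let p be an odd prime. A Sylow p-subgroup of Qd(p), the split extension of an elementary abelian group of order p² by SL₂(p) acting naturally, is extraspecial of order p³ and exponent p. -/
theorem result (p : ℕ) [Fact p.Prime] (hp : p ≠ 2) (P : Sylow p ↥(Cfsg.qd p)) :
    Cfsg.IsExtraspecial p ↥P ∧ Nat.card P = p ^ 3 ∧ Monoid.exponent ↥P = p := by
  obtain ⟨m, hm⟩ := H18.Qd.exists_isQd (MulEquiv.refl ↥(Cfsg.qd p))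
  have := hm.finite
  have e : P ≃* hm.T := Sylow.equiv P hm.TS
  have hc : Nat.card P = p ^ 3 := by rw [Nat.card_congr e.toEquiv, hm.card_T]
  have hpow : ∀ x : P, x ^ p = 1 := by
    intro x
    apply e.injective
    rw [map_pow, map_one, hm.pow_p hp]
  refine ⟨H18.Qd.extraspecial_cube hc ?_ hpow, hc, ?_⟩
  · obtain ⟨x, y, hxy⟩ := hm.T_noncomm
    refine ⟨e.symm x, e.symm y, fun h => hxy ?_⟩
    rw [← map_mul, ← map_mul] at h
    exact e.symm.injective h
  · have h1 : Monoid.exponent ↥P ∣ p := Monoid.exponent_dvd_of_forall_pow_eq_one hpow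
    rcases (Nat.dvd_prime Fact.out).1 h1 with h2 | h2
    · exfalso
      have h3 := Monoid.exp_eq_one_iff.1 h2
      have h4 : Nat.card P = 1 := Nat.card_of_subsingleton (1 : P)
      have h5 : 1 < p ^ 3 := Nat.one_lt_pow (by norm_num) (Fact.out : p.Prime).one_lt
      have h6 : Nat.card P = p ^ 3 := hc
      omega
    · exact h2

end Cfsg.Agent.S3074
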