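import Cfsg.Statements.S3075
import Cfsg.Agent.H13_Syl
import Cfsg.Agent.H2_Card
import Cfsg.Agent.H2_PGroup

set_option autoImplicit false
open Cfsg

namespace Cfsg.Agent.S3075

open Subgroup Cfsg.Agent.H13.Syl

section
variable {N : Type*} [Group N] [Finite N] {p : ℕ} [hp : Fact p.Prime]

/-- a group of order `p` is acted on trivially by a `p`-element normalizing it. -/
theorem comm_of_prime {B : Subgroup N} (hB : Nat.card B = p) {u : N} (hu : ∃ k, orderOf u = p ^ k)
    (huB : u ∈ normalizer (B : Set N)) : ∀ b ∈ B, u * b = b * u := by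
  have hBp : IsPGroup p B := IsPGroup.of_card (n := 1) (by rw [pow_one]; exact hB)
  have hup : IsPGroup p (zpowers u) := by
    obtain ⟨k, hk⟩ := hu
    exact IsPGroup.of_card (n := k) (by rw [Nat.card_zpowers]; exact hk)
  have hX : IsPGroup p (B ⊔ zpowers u : Subgroup N) := hBp.to_sup_of_normal_left' hup (zpowers_le.mpr huB)
  set X := (B ⊔ zpowers u : Subgroup N) with hXdef
  have hBX : B ≤ X := le_sup_left
  have hXn : X ≤ normalizer (B : Set N) := sup_le le_normalizer (zpowers_le.mpr huB)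
  haveI : (B.subgroupOf X).Normal := (normal_subgroupOf_iff_le_normalizer hBX).mpr hXn
  haveI := hX.isNilpotent
  have hcard : Nat.card (B.subgroupOf X) = p := by rw [Cfsg.Agent.H2.Card.card_subgroupOf_of_le hBX, hB]
  -- normal subgroup of order `p` of a `p`-group is central
  have hne : B.subgroupOf X ≠ ⊥ := by
    intro h; rw [h, card_bot] at hcard; exact hp.out.one_lt.ne hcard
  have h1 : B.subgroupOf X ⊓ center X ≠ ⊥ := by
    exact Cfsg.Agent.H2.PGroup.inf_center_ne_bot hX hne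
  have h2 : B.subgroupOf X ≤ center X := by
    have h3 : Nat.card (B.subgroupOf X ⊓ center X : Subgroup X) ∣ p := by
      have := card_dvd_of_le (inf_le_left : B.subgroupOf X ⊓ center X ≤ B.subgroupOf X)
      rwa [hcard] at this
    rcases (Nat.dvd_prime hp.out).mp h3 with h4 | h4
    · exact absurd (card_eq_one.mp h4) h1
    · have h5 : B.subgroupOf X ⊓ center X = B.subgroupOf X :=
        Subgroup.eq_of_le_of_card_ge inf_le_left (by rw [hcard, h4])
      exact inf_eq_left.mp h5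
  intro b hb
  have hbX : b ∈ X := hBX hb
  have huX : u ∈ X := (le_sup_right : zpowers u ≤ X) (mem_zpowers u)
  have h6 : (⟨b, hbX⟩ : X) ∈ center X := h2 hb
  exact congrArg Subtype.val (mem_center_iff.mp h6 ⟨u, huX⟩)

theorem inverts {X : Type*} [Group X] [Finite X] {T : Subgroup X} {z : X} (hz : z * z = 1) (hzT : z ∈ normalizer (T : Set X))
    (hC : T ⊓ centralizer {z} = ⊥) {t : X} (ht : t ∈ T) : z * t * z⁻¹ = t⁻¹ := by
  have hmem : ∀ s : T, (s : X)⁻¹ * (z * s * z⁻¹) ∈ T := fun s =>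
    T.mul_mem (T.inv_mem s.2) ((mem_normalizer_iff.mp hzT s).mp s.2)
  have hinj : Function.Injective (fun s : T => (⟨(s : X)⁻¹ * (z * s * z⁻¹), hmem s⟩ : T)) := by
    intro s s' h
    have h1 : (s : X)⁻¹ * (z * s * z⁻¹) = (s' : X)⁻¹ * (z * s' * z⁻¹) := congrArg Subtype.val h
    have h2 : (s' : X) * (s : X)⁻¹ ∈ T ⊓ centralizer {z} := by
      refine ⟨T.mul_mem s'.2 (T.inv_mem s.2), mem_centralizer_singleton_iff.mpr ?_⟩
      have h3 : (s' : X) * (s : X)⁻¹ = (z * s' * z⁻¹) * (z * s * z⁻¹)⁻¹ := by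
        rw [eq_mul_inv_iff_mul_eq, mul_assoc, h1]; group
      have h4 : (z * s' * z⁻¹) * (z * s * z⁻¹)⁻¹ = z * ((s' : X) * (s : X)⁻¹) * z⁻¹ := by group
      rw [h4] at h3
      conv_lhs => rw [h3]
      rw [inv_mul_cancel_right]
    rw [hC, mem_bot] at h2
    exact (Subtype.ext (mul_inv_eq_one.mp h2)).symm
  obtain ⟨s, hs⟩ := (Finite.surjective_of_injective hinj) ⟨t, ht⟩
  have hs : (s : X)⁻¹ * (z * s * z⁻¹) = t := congrArg Subtype.val hs
  have hz' : z⁻¹ = z := inv_eq_of_mul_eq_one_left hz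
  rw [← hs]
  rw [hz']
  calc z * ((s : X)⁻¹ * (z * s * z)) * z = z * (s : X)⁻¹ * z * s * (z * z) := by group
    _ = (z * (s : X)⁻¹ * z) * s := by rw [hz, mul_one]
    _ = (z⁻¹ * (s : X)⁻¹ * z⁻¹) * s := by rw [hz']
    _ = _ := by group

end

/-- Let p be an odd prime and N a finite group with a normal elementary abelian subgroup A of order p² that is its own centralizer in N, such that N/A is isomorphic to SL₂(p) (over any field F with p elements). Then N splits over A: some subgroup U of N satisfies A ∩ U = 1 and AU = N. -/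
theorem result {N : Type*} [Group N] [Finite N] {p : ℕ} [Fact p.Prime] (hp : p ≠ 2)
    (A : Subgroup N) [A.Normal] (hAcomm : IsMulCommutative A) (hAcard : Nat.card A = p ^ 2) (hAexp : Monoid.exponent ↥A = p)
    (hAself : Subgroup.centralizer (A : Set N) = A)
    {F : Type*} [Field F] [Fintype F] (hF : Fintype.card F = p) (e : N ⧸ A ≃* Matrix.SpecialLinearGroup (Fin 2) F) :
    ∃ U : Subgroup N, A ⊓ U = ⊥ ∧ A ⊔ U = ⊤ := by
  have hpp : p.Prime := Fact.out
  have hodd : Odd p := hpp.odd_of_ne_two hp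
  have hA : ∀ a ∈ A, ∀ b ∈ A, a * b = b * a := fun x hx y hy => by
    have := hAcomm.is_comm.comm ⟨x, hx⟩ ⟨y, hy⟩
    simpa using congrArg Subtype.val this
  have hApow : ∀ a ∈ A, a ^ p = 1 := by
    intro a ha
    have h1 := Monoid.pow_exponent_eq_one (⟨a, ha⟩ : ↥A)
    rw [hAexp] at h1
    exact congrArg Subtype.val h1
  haveI : CharP F p := charP_of_card_eq_prime hF
  have h2ne : (-1 : F) ≠ 1 := by
    intro h
    have h2 : ((2 : ℕ) : F) = 0 := by
      push_cast
      have : (1 : F) + 1 = 0 := by nth_rewrite 1 [← h]; simp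
      rw [← this]; norm_num
    rw [CharP.cast_eq_zero_iff F p] at h2
    have := (Nat.prime_dvd_prime_iff_eq hpp Nat.prime_two).mp h2
    exact hp this
  -- the central involution and a transvection
  let c : Matrix.SpecialLinearGroup (Fin 2) F := ⟨!![-1, 0; 0, -1], by simp [Matrix.det_fin_two]⟩
  let v : Matrix.SpecialLinearGroup (Fin 2) F := ⟨!![1, 1; 0, 1], by simp [Matrix.det_fin_two]⟩
  have hc1 : c ≠ 1 := by
    intro h
    have h1 : (c : Matrix (Fin 2) (Fin 2) F) 0 0 = (1 : Matrix (Fin 2) (Fin 2) F) 0 0 := by rw [h]; rfl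
    exact h2ne (by simpa [c] using h1)
  have hcc : c * c = 1 := by
    ext i j
    rw [Matrix.SpecialLinearGroup.coe_mul]
    fin_cases i <;> fin_cases j <;> simp [c, Matrix.mul_apply, Fin.sum_univ_two]
  have hcz : ∀ g : Matrix.SpecialLinearGroup (Fin 2) F, c * g = g * c := by
    intro g
    ext i j
    rw [Matrix.SpecialLinearGroup.coe_mul, Matrix.SpecialLinearGroup.coe_mul]
    fin_cases i <;> fin_cases j <;> simp [c, Matrix.mul_apply, Fin.sum_univ_two]
  have hv1 : v ≠ 1 := by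
    intro h
    have h1 : (v : Matrix (Fin 2) (Fin 2) F) 0 1 = (1 : Matrix (Fin 2) (Fin 2) F) 0 1 := by rw [h]; rfl
    simp [v] at h1
  have hvn : ∀ n : ℕ, ((v ^ n : Matrix.SpecialLinearGroup (Fin 2) F) : Matrix (Fin 2) (Fin 2) F) = !![1, (n : F); 0, 1] := by
    intro n
    induction n with
    | zero => ext i j; fin_cases i <;> fin_cases j <;> simp
    | succ n ih =>
      rw [pow_succ, Matrix.SpecialLinearGroup.coe_mul, ih]
      ext i j
      fin_cases i <;> fin_cases j <;> simp [v, Matrix.mul_apply, Fin.sum_univ_two]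
      ring
  have hvp : v ^ p = 1 := by
    ext i j
    rw [hvn, CharP.cast_eq_zero]
    fin_cases i <;> fin_cases j <;> simp
  -- lifts
  obtain ⟨s, hs⟩ := QuotientGroup.mk_surjective (e.symm c)
  obtain ⟨u, hu⟩ := QuotientGroup.mk_surjective (e.symm v)
  have hmem : ∀ x : N, (x : N ⧸ A) = 1 ↔ x ∈ A := fun x => QuotientGroup.eq_one_iff x
  set t := s ^ (p ^ 2) with ht
  have hs2 : s ^ 2 ∈ A := by
    rw [← hmem, QuotientGroup.mk_pow, hs, ← map_pow, sq, hcc, map_one]
  have htt : t * t = 1 := by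
    have h1 : (s ^ 2) ^ p = 1 := hApow _ hs2
    rw [ht, ← sq, ← pow_mul, mul_comm, pow_mul, sq p, pow_mul, h1, one_pow]
  have htc : ((t : N) : N ⧸ A) = e.symm c := by
    rw [ht, QuotientGroup.mk_pow, hs, ← map_pow]
    congr 1
    obtain ⟨k, hk⟩ := (hodd.pow : Odd (p ^ 2))
    rw [hk, pow_succ, pow_mul, sq c, hcc, one_pow, one_mul]
  have htA : t ∉ A := by
    intro h
    rw [← hmem, htc] at h
    apply hc1
    have := congrArg e h
    simpa using this
  have hconj : ∀ n : N, t⁻¹ * (n * t * n⁻¹) ∈ A := by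
    intro n
    rw [← hmem]
    rw [QuotientGroup.mk_mul, QuotientGroup.mk_mul, QuotientGroup.mk_mul, QuotientGroup.mk_inv, QuotientGroup.mk_inv, htc]
    apply e.injective
    simp only [map_mul, map_inv, MulEquiv.apply_symm_apply, map_one]
    rw [← hcz, mul_assoc, mul_inv_cancel, mul_one, inv_mul_cancel]
  have htN : t ∈ normalizer (A : Set N) := by rw [Subgroup.normalizer_eq_top]; exact mem_top t
  have hup : ∃ k, orderOf u = p ^ k := by
    have h1 : u ^ p ∈ A := by rw [← hmem, QuotientGroup.mk_pow, hu, ← map_pow, hvp, map_one]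
    have h2 : u ^ (p ^ 2) = 1 := by rw [sq, pow_mul, hApow _ h1]
    obtain ⟨k, _, hk⟩ := (Nat.dvd_prime_pow hpp).mp (orderOf_dvd_of_pow_eq_one h2)
    exact ⟨k, hk⟩
  have huA : u ∉ A := by
    intro h
    rw [← hmem, hu] at h
    apply hv1
    have := congrArg e h
    simpa using this
  have sqA : ∀ a ∈ A, a * a = 1 → a = 1 := by
    intro a ha h
    have h1 : orderOf a ∣ 2 := orderOf_dvd_of_pow_eq_one (by rw [sq]; exact h)
    have h2 : orderOf a ∣ p := orderOf_dvd_of_pow_eq_one (hApow a ha)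
    have h3 := Nat.eq_one_of_dvd_coprimes ((Nat.coprime_primes hpp Nat.prime_two).mpr hp) h2 h1
    exact orderOf_eq_one_iff.mp h3
  -- the action of `t` on `A` is fixed point free
  have hA₀ : A ⊓ centralizer {t} = ⊥ := by
    by_contra hne
    set A₀ := A ⊓ centralizer {t} with hA₀def
    let A₁ : Subgroup N :=
      { carrier := {a | a ∈ A ∧ t * a * t⁻¹ = a⁻¹}
        mul_mem' := by
          rintro a b ⟨ha, ha'⟩ ⟨hb, hb'⟩
          refine ⟨A.mul_mem ha hb, ?_⟩
          have : t * (a * b) * t⁻¹ = (t * a * t⁻¹) * (t * b * t⁻¹) := by group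
          rw [this, ha', hb', ← mul_inv_rev, hA b hb a ha]
        one_mem' := ⟨A.one_mem, by simp⟩
        inv_mem' := by
          rintro a ⟨ha, ha'⟩
          refine ⟨A.inv_mem ha, ?_⟩
          have : t * a⁻¹ * t⁻¹ = (t * a * t⁻¹)⁻¹ := by group
          rw [this, ha'] }
    have hA₁mem : ∀ a, a ∈ A₁ ↔ a ∈ A ∧ t * a * t⁻¹ = a⁻¹ := fun a => Iff.rfl
    have hA₀mem : ∀ a, a ∈ A₀ ↔ a ∈ A ∧ t * a * t⁻¹ = a := by
      intro a
      rw [hA₀def, mem_inf, mem_centralizer_singleton_iff]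
      constructor
      · rintro ⟨h1, h2⟩; exact ⟨h1, by rw [← h2, mul_inv_cancel_right]⟩
      · rintro ⟨h1, h2⟩; exact ⟨h1, (mul_inv_eq_iff_eq_mul.mp h2).symm⟩
    have htinv : t⁻¹ = t := inv_eq_of_mul_eq_one_left htt
    -- conjugation formula
    have hform : ∀ (n : N) (a : N), a ∈ A → t * (n * a * n⁻¹) * t⁻¹ = n * (t * a * t⁻¹) * n⁻¹ := by
      intro n a ha
      have h1 := hconj n⁻¹
      rw [inv_inv] at h1
      -- `n⁻¹ t n = t * b`
      obtain ⟨b, hb, hbe⟩ : ∃ b ∈ A, n⁻¹ * t * n = t * b := ⟨_, h1, by group⟩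
      have h2 : t * n = n * (t * b) := by rw [← hbe]; group
      have h3 : t * (n * a * n⁻¹) * t⁻¹ = (t * n) * a * (t * n)⁻¹ := by group
      rw [h3, h2]
      have h4 : n * (t * b) * a * (n * (t * b))⁻¹ = n * (t * (b * a * b⁻¹) * t⁻¹) * n⁻¹ := by group
      rw [h4, hA b hb a ha, mul_inv_cancel_right]
    have hAn : A.Normal := inferInstance
    have hn0 : ∀ n : N, n ∈ normalizer (A₀ : Set N) := by
      have key : ∀ n a : N, a ∈ A₀ → n * a * n⁻¹ ∈ A₀ := by
        intro n a ha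
        rw [hA₀mem] at ha ⊢
        exact ⟨hAn.conj_mem a ha.1 n, by rw [hform n a ha.1, ha.2]⟩
      intro n
      rw [mem_normalizer_iff]
      intro a
      refine ⟨key n a, fun h => ?_⟩
      have := key n⁻¹ _ h
      have e1 : n⁻¹ * (n * a * n⁻¹) * n⁻¹⁻¹ = a := by group
      rwa [e1] at this
    have hn1 : ∀ n : N, n ∈ normalizer (A₁ : Set N) := by
      have key : ∀ n a : N, a ∈ A₁ → n * a * n⁻¹ ∈ A₁ := by
        intro n a ha
        rw [hA₁mem] at ha ⊢
        refine ⟨hAn.conj_mem a ha.1 n, ?_⟩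
        rw [hform n a ha.1, ha.2]; group
      intro n
      rw [mem_normalizer_iff]
      intro a
      refine ⟨key n a, fun h => ?_⟩
      have := key n⁻¹ _ h
      have e1 : n⁻¹ * (n * a * n⁻¹) * n⁻¹⁻¹ = a := by group
      rwa [e1] at this
    have hinf : A₀ ⊓ A₁ = ⊥ := by
      rw [eq_bot_iff]
      rintro a ⟨h0, h1⟩
      rw [mem_bot]
      have h0 := (hA₀mem a).mp h0
      have h1 := (hA₁mem a).mp h1
      apply sqA a h0.1
      rw [h0.2] at h1
      nth_rewrite 1 [h1.2]
      exact inv_mul_cancel a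
    have hA₁ne : A₁ ≠ ⊥ := by
      intro h
      apply htA
      rw [← hAself, mem_centralizer_iff]
      intro a ha
      have h1 : t * a * t⁻¹ * a⁻¹ ∈ A₁ := by
        rw [hA₁mem]
        have h2 : t * a * t⁻¹ ∈ A := hAn.conj_mem a ha t
        refine ⟨A.mul_mem h2 (A.inv_mem ha), ?_⟩
        have e1 : t * (t * a * t⁻¹ * a⁻¹) * t⁻¹ = (t * t) * a * (t * t)⁻¹ * (t * a⁻¹ * t⁻¹) := by group
        rw [e1, htt]
        have e2 : 1 * a * 1⁻¹ * (t * a⁻¹ * t⁻¹) = a * (t * a * t⁻¹)⁻¹ := by group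
        rw [e2]; group
      rw [h, mem_bot] at h1
      have h2 : t * a * t⁻¹ = a := mul_inv_eq_one.mp h1
      have h3 : t * a = a * t := mul_inv_eq_iff_eq_mul.mp h2
      exact h3.symm
    have hcard : Nat.card A₀ * Nat.card A₁ ≤ p ^ 2 := by
      have h1 : A₀ ≤ normalizer (A₁ : Set N) := fun n _ => hn1 n
      have h2 := Cfsg.Agent.H2.Card.card_sup_mul_card_inf h1
      rw [hinf, card_bot, mul_one] at h2
      rw [← h2, ← hAcard]
      exact Nat.le_of_dvd Nat.card_pos (card_dvd_of_le (sup_le inf_le_left (fun a ha => ((hA₁mem a).mp ha).1)))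
    have hdiv : ∀ B : Subgroup N, B ≤ A → B ≠ ⊥ → p ≤ Nat.card B := by
      intro B hB hB1
      have h1 : Nat.card B ∣ p ^ 2 := by rw [← hAcard]; exact card_dvd_of_le hB
      obtain ⟨k, _, hk⟩ := (Nat.dvd_prime_pow hpp).mp h1
      rcases Nat.eq_zero_or_pos k with h0 | h0
      · rw [h0, pow_zero] at hk
        exact absurd (card_eq_one.mp hk) hB1
      · rw [hk]
        exact Nat.le_self_pow h0.ne' p
    have g0 := hdiv A₀ inf_le_left hne
    have g1 := hdiv A₁ (fun a ha => ((hA₁mem a).mp ha).1) hA₁ne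
    have hpos : 0 < p := hpp.pos
    have k0 : Nat.card A₀ = p := by
      apply le_antisymm _ g0
      have : Nat.card A₀ * p ≤ p * p := (Nat.mul_le_mul_left _ g1).trans (by rwa [sq] at hcard)
      exact Nat.le_of_mul_le_mul_right this hpos
    have k1 : Nat.card A₁ = p := by
      apply le_antisymm _ g1
      have : p * Nat.card A₁ ≤ p * p := (Nat.mul_le_mul_right _ g0).trans (by rwa [sq] at hcard)
      exact Nat.le_of_mul_le_mul_left this hpos
    have hsup : A₀ ⊔ A₁ = A := by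
      apply Subgroup.eq_of_le_of_card_ge (sup_le inf_le_left (fun a ha => ((hA₁mem a).mp ha).1))
      have h1 : A₀ ≤ normalizer (A₁ : Set N) := fun n _ => hn1 n
      have h2 := Cfsg.Agent.H2.Card.card_sup_mul_card_inf h1
      rw [hinf, card_bot, mul_one, k0, k1] at h2
      rw [h2, hAcard, sq]
    apply huA
    rw [← hAself]
    have hle : A ≤ centralizer {u} := by
      rw [← hsup, sup_le_iff]
      constructor
      · intro b hb
        exact mem_centralizer_singleton_iff.mpr (comm_of_prime k0 hup (hn0 u) b hb).symm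
      · intro b hb
        exact mem_centralizer_singleton_iff.mpr (comm_of_prime k1 hup (hn1 u) b hb).symm
    rw [mem_centralizer_iff]
    intro a ha
    exact mem_centralizer_singleton_iff.mp (hle ha)
  refine ⟨centralizer {t}, hA₀, ?_⟩
  rw [eq_top_iff]
  intro n _
  have h1 := hconj n
  set a' := t⁻¹ * (n * t * n⁻¹) with ha'
  -- a square root of `a'⁻¹`
  obtain ⟨k, hk⟩ := hodd
  set a := a' ^ k with hadef
  have haA : a ∈ A := A.pow_mem h1 k
  have hinv : t * a * t⁻¹ = a⁻¹ := inverts htt htN hA₀ haA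
  have h2 : a * t * a⁻¹ = n * t * n⁻¹ := by
    have h3 : t⁻¹ * (a * t * a⁻¹) = a' := by
      have htinv : t⁻¹ = t := inv_eq_of_mul_eq_one_left htt
      have h4 : t⁻¹ * a * t = a⁻¹ := by
        have := hinv
        rw [htinv] at this ⊢; exact this
      have h5 : t⁻¹ * (a * t * a⁻¹) = (t⁻¹ * a * t) * a⁻¹ := by group
      rw [h5, h4, ← mul_inv_rev, hadef, ← pow_add]
      have h6 : a' ^ (2 * k + 1) = 1 := by rw [← hk]; exact hApow _ h1
      have h7 : a' ^ (k + k) * a' = 1 := by rw [← pow_succ, ← two_mul]; exact h6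
      exact inv_eq_of_mul_eq_one_right h7
    calc a * t * a⁻¹ = t * (t⁻¹ * (a * t * a⁻¹)) := by group
      _ = t * a' := by rw [h3]
      _ = n * t * n⁻¹ := by rw [ha']; group
  have h3 : a⁻¹ * n ∈ centralizer {t} := by
    apply mem_centralizer_singleton_iff.mpr
    calc a⁻¹ * n * t = a⁻¹ * (n * t * n⁻¹) * n := by group
      _ = a⁻¹ * (a * t * a⁻¹) * n := by rw [h2]
      _ = t * (a⁻¹ * n) := by group
  have h4 : n = a * (a⁻¹ * n) := by group
  rw [h4]
  exact mul_mem ((le_sup_left : A ≤ A ⊔ centralizer {t}) haA) ((le_sup_right : centralizer {t} ≤ A ⊔ centralizer {t}) h3)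

end Cfsg.Agent.S3075
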