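import Cfsg.Statements.S3087

set_option autoImplicit false
open Cfsg

namespace Cfsg.Agent.S3087


/-- Let p be a prime, G a finite group acting linearly on a finite vector space V over the field with p elements, W a G-invariant subspace, and A a subgroup of G with |A|·|C_V(A)| ≥ |B|·|C_V(B)| for every subgroup B of A. Then |A|·|C_W(A)| ≥ |B|·|C_W(B)| for every subgroup B of A that contains C_A(W); that is, the image of A in the group induced on W satisfies the same maximality condition. -/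
theorem result {G V : Type*} [Group G] [Finite G] [AddCommGroup V] [Finite V] (p : ℕ) [Fact p.Prime] [Module (ZMod p) V]
    (ρ : Representation (ZMod p) G V) (W : Submodule (ZMod p) V) (hW : ∀ g : G, ∀ w ∈ W, ρ g w ∈ W)
    (A : Subgroup G)
    (hP : ∀ B : Subgroup G, B ≤ A →
      Nat.card ↥B * Nat.card {v : V // ∀ b ∈ B, ρ b v = v} ≤ Nat.card ↥A * Nat.card {v : V // ∀ a ∈ A, ρ a v = v})
    (B : Subgroup G) (hBA : B ≤ A) (hCB : ∀ a ∈ A, (∀ w ∈ W, ρ a w = w) → a ∈ B) :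
    Nat.card ↥B * Nat.card {w : W // ∀ b ∈ B, ρ b w = w} ≤ Nat.card ↥A * Nat.card {w : W // ∀ a ∈ A, ρ a w = w} := by
  classical
  -- fixed vectors
  have hne : ∀ z : {v : V // ∀ b ∈ B, ρ b v = v}, ∃ w : W, (∃ w' : {w : W // ∀ b ∈ B, ρ b w = w}, (w'.1 = w) ∧ ∃ v : {v : V // ∀ a ∈ A, ρ a v = v}, (w : V) + v.1 = z.1) ∨
      ¬ ∃ (w' : {w : W // ∀ b ∈ B, ρ b w = w}) (v : {v : V // ∀ a ∈ A, ρ a v = v}), (w'.1 : V) + v.1 = z.1 := by
    intro z
    by_cases h : ∃ (w' : {w : W // ∀ b ∈ B, ρ b w = w}) (v : {v : V // ∀ a ∈ A, ρ a v = v}), (w'.1 : V) + v.1 = z.1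
    · obtain ⟨w', v, hwv⟩ := h
      exact ⟨w'.1, Or.inl ⟨w', rfl, v, hwv⟩⟩
    · exact ⟨0, Or.inr h⟩
  choose s hs using hne
  have key : Nat.card {w : W // ∀ b ∈ B, ρ b w = w} * Nat.card {v : V // ∀ a ∈ A, ρ a v = v} ≤
      Nat.card {v : V // ∀ b ∈ B, ρ b v = v} * Nat.card {w : W // ∀ a ∈ A, ρ a w = w} := by
    rw [← Nat.card_prod, ← Nat.card_prod]
    let sum : {w : W // ∀ b ∈ B, ρ b w = w} × {v : V // ∀ a ∈ A, ρ a v = v} → {v : V // ∀ b ∈ B, ρ b v = v} :=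
      fun q => ⟨(q.1.1 : V) + q.2.1, fun b hb => by rw [map_add, q.1.2 b hb, q.2.2 b (hBA hb)]⟩
    have hdiff : ∀ q : {w : W // ∀ b ∈ B, ρ b w = w} × {v : V // ∀ a ∈ A, ρ a v = v}, ∀ a ∈ A,
        ρ a ((q.1.1 - s (sum q) : W) : V) = ((q.1.1 - s (sum q) : W) : V) := by
      intro q a ha
      rcases hs (sum q) with ⟨w', hw', v, hv⟩ | h
      · have h1 : ((q.1.1 - s (sum q) : W) : V) = v.1 - q.2.1 := by
          have h2 : (s (sum q) : V) + v.1 = (q.1.1 : V) + q.2.1 := hv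
          rw [Submodule.coe_sub, sub_eq_sub_iff_add_eq_add, h2.symm, add_comm]
        rw [h1, map_sub, v.2 a ha, q.2.2 a ha]
      · exact absurd ⟨q.1, q.2, rfl⟩ h
    refine Nat.card_le_card_of_injective (fun q => (sum q, ⟨q.1.1 - s (sum q), hdiff q⟩)) ?_
    intro q q' h
    have h1 : sum q = sum q' := (Prod.mk.inj h).1
    have h2 : q.1.1 - s (sum q) = q'.1.1 - s (sum q') := congrArg Subtype.val (Prod.mk.inj h).2
    rw [h1] at h2
    have h3 : q.1.1 = q'.1.1 := sub_left_injective h2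
    have h4 : (q.1.1 : V) + q.2.1 = (q'.1.1 : V) + q'.2.1 := congrArg Subtype.val h1
    rw [h3] at h4
    have h5 : q.2.1 = q'.2.1 := add_left_cancel h4
    exact Prod.ext (Subtype.ext h3) (Subtype.ext h5)
  have h1 := hP B hBA
  have hpos : 0 < Nat.card {v : V // ∀ a ∈ A, ρ a v = v} := by
    haveI : Nonempty {v : V // ∀ a ∈ A, ρ a v = v} := ⟨⟨0, fun a _ => map_zero _⟩⟩
    exact Nat.card_pos
  apply Nat.le_of_mul_le_mul_right _ hpos
  calc Nat.card ↥B * Nat.card {w : W // ∀ b ∈ B, ρ b w = w} * Nat.card {v : V // ∀ a ∈ A, ρ a v = v}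
      = Nat.card ↥B * (Nat.card {w : W // ∀ b ∈ B, ρ b w = w} * Nat.card {v : V // ∀ a ∈ A, ρ a v = v}) := by ring
    _ ≤ Nat.card ↥B * (Nat.card {v : V // ∀ b ∈ B, ρ b v = v} * Nat.card {w : W // ∀ a ∈ A, ρ a w = w}) := Nat.mul_le_mul_left _ key
    _ = (Nat.card ↥B * Nat.card {v : V // ∀ b ∈ B, ρ b v = v}) * Nat.card {w : W // ∀ a ∈ A, ρ a w = w} := by ring
    _ ≤ (Nat.card ↥A * Nat.card {v : V // ∀ a ∈ A, ρ a v = v}) * Nat.card {w : W // ∀ a ∈ A, ρ a w = w} := Nat.mul_le_mul_right _ h1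
    _ = _ := by ring

end Cfsg.Agent.S3087
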