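import Cfsg.Statements.S3155
import Mathlib

set_option autoImplicit false
open Cfsg

namespace Cfsg.Agent.S3155


/-- Let B be the direct product of three cyclic groups of order 4. Then the automorphism of B inverting every element is not the square of any automorphism of B. -/
theorem result {B : Type*} [CommGroup B] [Finite B] (hB : Nonempty (B ≃* Multiplicative (ZMod 4 × ZMod 4 × ZMod 4)))
    (τ : B ≃* B) : τ.trans τ ≠ MulEquiv.inv B := by
  intro hinv
  obtain ⟨e⟩ := hB
  let f0 : ZMod 4 × ZMod 4 × ZMod 4 →+ ZMod 4 × ZMod 4 × ZMod 4 :=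
    { toFun := fun a => Multiplicative.toAdd (e (τ (e.symm (Multiplicative.ofAdd a))))
      map_zero' := by simp
      map_add' := by intro a b; simp [ofAdd_add] }
  let f : (ZMod 4 × ZMod 4 × ZMod 4) →ₗ[ZMod 4] (ZMod 4 × ZMod 4 × ZMod 4) := f0.toZModLinearMap 4
  have hff : f * f = (-1 : ZMod 4) • (1 : (ZMod 4 × ZMod 4 × ZMod 4) →ₗ[ZMod 4] (ZMod 4 × ZMod 4 × ZMod 4)) := by
    apply LinearMap.ext
    intro a
    have h1 : ∀ b : B, τ (τ b) = b⁻¹ := by
      intro b
      have := congrArg (fun g : B ≃* B => g b) hinv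
      simpa using this
    have h2 : (f * f) a = Multiplicative.toAdd (e (τ (e.symm (Multiplicative.ofAdd (Multiplicative.toAdd (e (τ (e.symm (Multiplicative.ofAdd a))))))))) := rfl
    rw [h2]
    simp only [ofAdd_toAdd, MulEquiv.symm_apply_apply, h1, map_inv, MulEquiv.apply_symm_apply, toAdd_inv, toAdd_ofAdd]
    simp
  have hdet : LinearMap.det f * LinearMap.det f = (-1 : ZMod 4) := by
    rw [← map_mul, hff, LinearMap.det_smul, map_one, mul_one]
    haveI : Nontrivial (ZMod 4) := ⟨⟨0, 1, by decide⟩⟩
    have h3 : Module.finrank (ZMod 4) (ZMod 4 × ZMod 4 × ZMod 4) = 3 := by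
      rw [Module.finrank_prod, Module.finrank_prod, Module.finrank_self]
    rw [h3]
    decide
  revert hdet
  generalize LinearMap.det f = d
  revert d
  decide

end Cfsg.Agent.S3155
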