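import Cfsg.Statements.S3156
import Cfsg.Agent.H19_U3d
import Cfsg.Agent.H5_HermBasis

set_option autoImplicit false
open Cfsg

namespace Cfsg.Agent.S3156

open Cfsg.Agent.H19.U3 Cfsg.Agent.H5

theorem key {T F : Type*} [Group T] [Field F] [Fintype F] (c : Coord T F 4) (hF : Fintype.card F = 4 ^ 2) (h2 : (2 : F) = 0)
    (ρ x : MulAut T) (hρ : ρ * ρ * ρ = 1) (hx : x * x = 1) (hc : x * ρ * x = ρ * ρ) : ρ = 1 := by
  have hG := card_ringAut (f := 4) h2 (by rw [hF]; norm_num)
  obtain ⟨f, hf⟩ := c.exists_act hF h2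
  obtain ⟨k, τ, hk, hA, -⟩ := c.aut_structure hF h2 ρ
  obtain ⟨d, σ, hd, hD, -⟩ := c.aut_structure hF h2 x
  have e1 : ∀ v, f ρ v = k * τ v := by
    intro v
    obtain ⟨y, rfl⟩ := c.exists_a hF h2 v
    rw [← hf, hA]
  have e2 : ∀ v, f x v = d * σ v := by
    intro v
    obtain ⟨y, rfl⟩ := c.exists_a hF h2 v
    rw [← hf, hD]
  have hρ' : ∀ v, f ρ (f ρ (f ρ v)) = v := by
    intro v
    have := congrArg (fun g : Equiv.Perm F => g v) (congrArg f hρ)
    simpa [map_mul] using this
  have hx' : ∀ v, f x (f x v) = v := by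
    intro v
    have := congrArg (fun g : Equiv.Perm F => g v) (congrArg f hx)
    simpa [map_mul] using this
  have hc' : ∀ v, f x (f ρ (f x v)) = f ρ (f ρ v) := by
    intro v
    have := congrArg (fun g : Equiv.Perm F => g v) (congrArg f hc)
    simpa [map_mul] using this
  simp only [e1] at hρ'
  simp only [e2] at hx'
  simp only [e1, e2] at hc'
  -- τ = 1
  have h3 : k * τ (k * τ k) = 1 := by
    have := hρ' 1
    simpa using this
  have hτ3 : τ * τ * τ = 1 := by
    ext v
    show τ (τ (τ v)) = v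
    have := hρ' v
    rw [map_mul, map_mul, map_mul] at this
    have h3' : k * (τ k * τ (τ k)) = 1 := by rw [← map_mul, h3]
    linear_combination this - τ (τ (τ v)) * h3'
  have hτ : τ = 1 := by
    have h4 : orderOf τ ∣ 3 := orderOf_dvd_of_pow_eq_one (by rw [pow_succ, pow_succ, pow_one]; exact hτ3)
    have h5 : orderOf τ ∣ 4 := by rw [← hG]; exact orderOf_dvd_natCard τ
    have h6 : orderOf τ ∣ 1 := by have := Nat.dvd_gcd h4 h5; simpa using this
    rw [← orderOf_eq_one_iff]; exact Nat.dvd_one.1 h6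
  have hτv : ∀ v, τ v = v := fun v => by rw [hτ]; rfl
  simp only [hτv] at h3 hc'
  -- relation
  have hd1 : d * σ d = 1 := by
    have := hx' 1; simpa using this
  have h7 : σ k = k * k := by
    have := hc' 1
    rw [map_one, mul_one, mul_one, map_mul] at this
    linear_combination this - σ k * hd1
  have hσ : σ (σ k) = k := by
    have := hx' k
    rw [map_mul] at this
    linear_combination this - σ (σ k) * hd1
  have h8 : k * k * k = k * (k * k) := by ring
  have hid : σ k = k := by
    by_cases hs : (σ : F →+* F) = RingHom.id F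
    · exact congrArg (fun f : F →+* F => f k) hs
    · obtain ⟨q', hq', hτ'⟩ := H5.Herm.sigma_eq (σ : F →+* F) hs (fun a => by
        have := hx' a
        show σ (σ a) = a
        rw [map_mul] at this
        linear_combination this - σ (σ a) * hd1)
      have hqq : q' = 4 := by
        rw [hF] at hq'
        exact (Nat.pow_left_injective (show 2 ≠ 0 by norm_num) hq').symm
      have := hτ' k
      rw [hqq] at this
      have h9 : σ k = k ^ 4 := this
      rw [h9]; linear_combination k * h3
  have hk1 : k = 1 := by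
    rw [h7] at hid
    exact mul_right_cancel₀ hk (by rw [one_mul]; exact hid)
  have h10 := c.sq_of_a hF h2 (φ := ρ) (fun y => by rw [hA, hτv, hk1, one_mul])
  rwa [h10, one_mul] at hρ

/-- If a finite group T is isomorphic to a Sylow 2-subgroup of the projective special unitary group of dimension 3 with parameter 4 (realised over the field with 16 elements), then no subgroup of the automorphism group of T is isomorphic to the symmetric group of degree 3. -/
theorem result {T : Type*} [Group T] [Finite T] (hT : (∃ (F : Type) (_ : Field F) (_ : Fintype F), Fintype.card F = 16 ∧ ∃ S : Sylow 2 (Cfsg.PSU 3 F 4), Nonempty (T ≃* ↥(S : Subgroup (Cfsg.PSU 3 F 4))))) (H : Subgroup (MulAut T)) : ¬ Nonempty (↥H ≃* Equiv.Perm (Fin 3)) := by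
  obtain ⟨F, _, _, hF, P, ⟨e⟩⟩ := hT
  rintro ⟨g⟩
  have hF' : Fintype.card F = (2 ^ 2) ^ 2 := by rw [hF]; norm_num
  have hF4 : Fintype.card F = 4 ^ 2 := by rw [hF]; norm_num
  have h2 := two_eq_zero (show 2 ≠ 0 by omega) hF'
  obtain ⟨Q, ⟨e2⟩⟩ := sylow_equiv_of_surj (QuotientGroup.mk' (Subgroup.center (Cfsg.SU 3 F 4))) (QuotientGroup.mk'_surjective _) (by
    rw [QuotientGroup.ker_mk', Unit.card_center_SU hF4 (show 2 ≤ 3 by norm_num)]
    decide) P
  obtain ⟨c0⟩ := exists_coord (show 2 ≠ 0 by omega) hF' Q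
  have c : Coord T F 4 := c0.congr (e.trans e2)
  obtain ⟨r, hr⟩ : ∃ r, r = Equiv.swap (0 : Fin 3) 1 * Equiv.swap (1 : Fin 3) 2 := ⟨_, rfl⟩
  obtain ⟨s, hs⟩ : ∃ s, s = Equiv.swap (0 : Fin 3) 1 := ⟨_, rfl⟩
  have h3 : r * r * r = 1 := by rw [hr]; decide
  have h4 : s * s = 1 := by rw [hs]; decide
  have h5 : s * r * s = r * r := by rw [hr, hs]; decide
  have h6 : r ≠ 1 := by rw [hr]; decide
  have h7 := key c hF4 h2 (g.symm r : H) (g.symm s : H) (by rw [← Subgroup.coe_mul, ← Subgroup.coe_mul, ← map_mul, ← map_mul, h3, map_one]; rfl)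
    (by rw [← Subgroup.coe_mul, ← map_mul, h4, map_one]; rfl)
    (by rw [← Subgroup.coe_mul, ← Subgroup.coe_mul, ← Subgroup.coe_mul, ← map_mul, ← map_mul, ← map_mul, h5])
  apply h6
  have h8 : g.symm r = 1 := Subtype.ext h7
  rw [← g.apply_symm_apply r, h8, map_one]

end Cfsg.Agent.S3156
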