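import Cfsg.Statements.S3162
import Cfsg.Agent.H19_U3d

set_option autoImplicit false
open Cfsg

namespace Cfsg.Agent.S3162

open Cfsg.Agent.H19.U3 Cfsg.Agent.H5 Cfsg.Agent.H5.Frm

/-- the fixed field, additively -/
def K0 {F : Type*} [Field F] [Fintype F] {q : ℕ} (hF : Fintype.card F = q ^ 2) (h2 : (2 : F) = 0) : AddSubgroup F where
  carrier := {β | β ^ q = β}
  add_mem' := by
    intro x y hx hy
    show (x + y) ^ q = x + y
    rw [add_q hF, show x ^ q = x from hx, show y ^ q = y from hy]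
  zero_mem' := zero_pow (q_pos hF).ne'
  neg_mem' := by
    intro x hx
    show (-x) ^ q = -x
    have h : -x = x := by linear_combination (-x) * h2
    rw [h]; exact hx

section
variable {S F : Type*} [Group S] [Field F] [Fintype F] {q : ℕ} (c : Coord S F q) (hF : Fintype.card F = q ^ 2) (h2 : (2 : F) = 0)
include c

/-- the kernel is the set of additive maps from `F` to the fixed field -/
theorem card_ker (f : MulAut S →* Equiv.Perm F) (hf : ∀ (φ : MulAut S) (x : S), c.a (φ x) = f φ (c.a x)) :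
    Nat.card f.ker = Nat.card (F →+ K0 hF h2) := by
  have hker : ∀ φ : MulAut S, φ ∈ f.ker ↔ ∀ x, c.a (φ x) = c.a x := by
    intro φ
    rw [MonoidHom.mem_ker]
    constructor
    · intro h x; rw [hf, h]; rfl
    · intro h
      ext v
      obtain ⟨x, rfl⟩ := c.exists_a hF h2 v
      rw [← hf, h]; rfl
  have hex := c.exists_a hF h2
  choose s hs using hex
  -- the difference of the second coordinates
  have hD : ∀ φ : f.ker, ∀ x y, c.a x = c.a y → c.b ((φ : MulAut S) x) - c.b x = c.b ((φ : MulAut S) y) - c.b y := by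
    intro φ x y hxy
    have hφ := (hker φ).1 φ.2
    have h1 : c.a (y⁻¹ * x) = 0 := by rw [c.mul_a, c.inv_a, hxy]; ring
    have h3 := c.fix_of_a hF h2 hφ _ h1
    have h4 : x = y * (y⁻¹ * x) := by group
    have h5 : (φ : MulAut S) x = (φ : MulAut S) y * (y⁻¹ * x) := by
      conv_lhs => rw [h4]
      rw [map_mul, h3]
    have h6 : c.b x = c.b y + c.b (y⁻¹ * x) := by
      have h7 := c.mul_b y (y⁻¹ * x)
      rw [← h4, h1, zero_pow (q_pos hF).ne', mul_zero, add_zero] at h7
      exact h7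
    rw [h5, c.mul_b, h1, h6, zero_pow (q_pos hF).ne']; ring
  have hK : ∀ φ : f.ker, ∀ x, c.b ((φ : MulAut S) x) - c.b x ∈ K0 hF h2 := by
    intro φ x
    have hφ := (hker φ).1 φ.2
    show (c.b ((φ : MulAut S) x) - c.b x) ^ q = c.b ((φ : MulAut S) x) - c.b x
    have h1 := c.cond ((φ : MulAut S) x)
    have h3 := c.cond x
    rw [hφ] at h1
    have h4 : c.b ((φ : MulAut S) x) - c.b x = c.b ((φ : MulAut S) x) + c.b x := by linear_combination (-c.b x) * h2
    rw [h4, add_q hF]
    linear_combination h1 - h3 + ((c.b x) ^ q - c.b ((φ : MulAut S) x)) * h2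
  let T : f.ker → (F →+ K0 hF h2) := fun φ => AddMonoidHom.mk' (fun v => ⟨c.b ((φ : MulAut S) (s v)) - c.b (s v), hK φ (s v)⟩) (by
    intro v w
    apply Subtype.ext
    show c.b ((φ : MulAut S) (s (v + w))) - c.b (s (v + w)) = (c.b ((φ : MulAut S) (s v)) - c.b (s v)) + (c.b ((φ : MulAut S) (s w)) - c.b (s w))
    have hφ := (hker φ).1 φ.2
    rw [hD φ (s (v + w)) (s v * s w) (by rw [c.mul_a, hs, hs, hs]), map_mul, c.mul_b, c.mul_b, hφ, hφ]
    ring)
  have hT : ∀ φ : f.ker, ∀ x, ((T φ (c.a x) : K0 hF h2) : F) = c.b ((φ : MulAut S) x) - c.b x := by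
    intro φ x
    show c.b ((φ : MulAut S) (s (c.a x))) - c.b (s (c.a x)) = _
    exact hD φ _ _ (hs _)
  apply Nat.card_congr (Equiv.ofBijective T ⟨?_, ?_⟩)
  · intro φ ψ h
    apply Subtype.ext
    ext x
    have hφ := (hker φ).1 φ.2
    have hψ := (hker ψ).1 ψ.2
    apply c.inj
    · rw [hφ, hψ]
    · have h1 := hT φ x
      rw [h, hT ψ x] at h1
      linear_combination -h1
  · intro g
    have hex' : ∀ x : S, ∃ y : S, c.a y = c.a x ∧ c.b y = c.b x + (g (c.a x) : K0 hF h2) := by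
      intro x
      apply c.surj
      have h1 := c.cond x
      have h3 : ((g (c.a x) : K0 hF h2) : F) ^ q = (g (c.a x) : K0 hF h2) := (g (c.a x)).2
      rw [add_q hF, h3]
      linear_combination h1 + (g (c.a x) : F) * h2
    choose u hua hub using hex'
    have hmul : ∀ x y, u (x * y) = u x * u y := by
      intro x y
      apply c.inj
      · rw [hua, c.mul_a, c.mul_a, hua, hua]
      · rw [hub, c.mul_b, c.mul_b, hub, hub, hua, hua, c.mul_a, map_add, AddSubgroup.coe_add]; ring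
    have hinv : ∀ x, u (u x) = x := by
      intro x
      apply c.inj
      · rw [hua, hua]
      · rw [hub, hub, hua]
        linear_combination (g (c.a x) : F) * h2
    have hbij : Function.Bijective u := Function.Involutive.bijective hinv
    let g' : S →* S := MonoidHom.mk' u hmul
    refine ⟨⟨MulEquiv.ofBijective g' hbij, (hker _).2 (fun x => hua x)⟩, ?_⟩
    ext v
    obtain ⟨x, rfl⟩ := c.exists_a hF h2 v
    rw [hT]
    show c.b (u x) - c.b x = _
    rw [hub]; ring

theorem card_hom {n : ℕ} (hF' : Fintype.card F = (2 ^ n) ^ 2) (h2 : (2 : F) = 0) : Nat.card (F →+ K0 hF' h2) = 2 ^ (2 * n ^ 2) := by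
  haveI : Fact (Nat.Prime 2) := ⟨Nat.prime_two⟩
  haveI : CharP F 2 := CharTwo.of_one_ne_zero_of_two_eq_zero one_ne_zero h2
  letI : Algebra (ZMod 2) F := ZMod.algebra F 2
  letI : Module (ZMod 2) (K0 hF' h2) := AddCommGroup.zmodModule (fun x => by
    apply Subtype.ext
    rw [two_smul]
    exact add_self h2 _)
  have hc0 : Nat.card (K0 hF' h2) = 2 ^ n := card_fixed_frob hF'
  have h1 : Module.finrank (ZMod 2) F = 2 * n := by
    have h3 : Fintype.card F = Fintype.card (ZMod 2) ^ Module.finrank (ZMod 2) F := Module.card_eq_pow_finrank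
    rw [hF', ZMod.card, ← pow_mul] at h3
    rw [← Nat.pow_right_injective (le_refl 2) h3, mul_comm]
  haveI : Finite (K0 hF' h2) := Subtype.finite
  haveI := Fintype.ofFinite (K0 hF' h2)
  have h3 : Module.finrank (ZMod 2) (K0 hF' h2) = n := by
    have h3 : Fintype.card (K0 hF' h2) = Fintype.card (ZMod 2) ^ Module.finrank (ZMod 2) (K0 hF' h2) := Module.card_eq_pow_finrank
    rw [← Nat.card_eq_fintype_card, hc0, ZMod.card] at h3
    exact (Nat.pow_right_injective (le_refl 2) h3).symm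
  rw [Nat.card_congr (AddMonoidHom.toZModLinearMapEquiv 2).toEquiv]
  haveI : Finite (F →ₗ[ZMod 2] K0 hF' h2) := Module.finite_of_finite (ZMod 2)
  haveI := Fintype.ofFinite (F →ₗ[ZMod 2] K0 hF' h2)
  have h4 : Fintype.card (F →ₗ[ZMod 2] K0 hF' h2) = Fintype.card (ZMod 2) ^ Module.finrank (ZMod 2) (F →ₗ[ZMod 2] K0 hF' h2) := Module.card_eq_pow_finrank
  rw [Nat.card_eq_fintype_card, h4, Module.finrank_linearMap, h1, h3, ZMod.card]
  congr 1; ring

theorem card_range {n : ℕ} (hF : Fintype.card F = q ^ 2) (h2 : (2 : F) = 0) (hn : Fintype.card F = 2 ^ n) (f : MulAut S →* Equiv.Perm F)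
    (hf : ∀ (φ : MulAut S) (x : S), c.a (φ x) = f φ (c.a x)) :
    Nat.card f.range = (q ^ 2 - 1) * n := by
  classical
  have hex : ∀ p : Fˣ × (F ≃+* F), ∃ φ : MulAut S, ∀ v, f φ v = p.1 * p.2 v := by
    intro p
    obtain ⟨φ, h1, -⟩ := c.exists_aut hF (p.1 : F) (Units.ne_zero _) p.2
    refine ⟨φ, fun v => ?_⟩
    obtain ⟨x, rfl⟩ := c.exists_a hF h2 v
    rw [← hf, h1]
  choose g hg using hex
  have hu : Nat.card Fˣ = q ^ 2 - 1 := by
    rw [Nat.card_eq_fintype_card, Fintype.card_units, hF]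
  rw [← card_ringAut h2 hn, ← hu, ← Nat.card_prod]
  symm
  let T : Fˣ × (F ≃+* F) → f.range := fun p => ⟨f (g p), ⟨g p, rfl⟩⟩
  apply Nat.card_congr (Equiv.ofBijective T ⟨?_, ?_⟩)
  · rintro ⟨k, τ⟩ ⟨d, σ⟩ h
    have h1 : ∀ v, (k : F) * τ v = d * σ v := by
      intro v
      have := congrArg (fun u : f.range => (u : Equiv.Perm F) v) h
      have h3 : f (g (k, τ)) v = f (g (d, σ)) v := this
      rw [hg, hg] at h3
      exact h3
    have h3 : k = d := by
      have := h1 1
      rw [map_one, map_one, mul_one, mul_one] at this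
      exact Units.ext this
    subst h3
    have h4 : τ = σ := by
      ext v
      exact mul_left_cancel₀ (Units.ne_zero k) (h1 v)
    rw [h4]
  · rintro ⟨_, φ, rfl⟩
    obtain ⟨k, τ, hk, hA, -⟩ := c.aut_structure hF h2 φ
    refine ⟨(Units.mk0 k hk, τ), ?_⟩
    apply Subtype.ext
    ext v
    show f (g (Units.mk0 k hk, τ)) v = f φ v
    rw [hg]
    obtain ⟨x, rfl⟩ := c.exists_a hF h2 v
    rw [← hf, hA]
    rfl

theorem pCore_eq (hF : Fintype.card F = q ^ 2) (h2 : (2 : F) = 0) (f : MulAut S →* Equiv.Perm F)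
    (hf : ∀ (φ : MulAut S) (x : S), c.a (φ x) = f φ (c.a x)) (hE : ∀ φ ∈ f.ker, φ * φ = 1) :
    Cfsg.pCore 2 (MulAut S) = f.ker := by
  apply le_antisymm
  · apply sSup_le
    rintro N ⟨hN, hN2⟩ φ hφ
    obtain ⟨k, τ, hk, hA, -⟩ := c.aut_structure hF h2 φ
    have hfφ : ∀ v, f φ v = k * τ v := by
      intro v
      obtain ⟨x, rfl⟩ := c.exists_a hF h2 v
      rw [← hf, hA]
    -- an element of odd multiplicative order
    have hodd : ∀ d : F, d ≠ 0 → ∀ m : ℕ, d ^ (2 ^ m) = 1 → d = 1 := by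
      intro d hd m hm
      haveI : Fact (Nat.Prime 2) := ⟨Nat.prime_two⟩
      haveI : CharP F 2 := CharTwo.of_one_ne_zero_of_two_eq_zero one_ne_zero h2
      have h3 : (d - 1) ^ (2 ^ m) = 0 := by rw [sub_pow_char_pow, hm, one_pow, sub_self]
      exact sub_eq_zero.1 (pow_eq_zero_iff (pow_ne_zero m two_ne_zero)|>.1 h3)
    -- scalars in N
    have hscal : ∀ ψ ∈ N, ∀ d : F, (∀ v, f ψ v = d * v) → d = 1 := by
      intro ψ hψ d hd
      have hd0 : d ≠ 0 := by
        rintro rfl
        have h3 : f ψ 1 = f ψ 0 := by rw [hd, hd, zero_mul, zero_mul]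
        exact one_ne_zero ((f ψ).injective h3)
      have hpow : ∀ m : ℕ, ∀ v, f (ψ ^ m) v = d ^ m * v := by
        intro m
        induction m with
        | zero => intro v; rw [pow_zero, map_one, pow_zero, one_mul]; rfl
        | succ m ih =>
          intro v
          rw [pow_succ, map_mul, Equiv.Perm.mul_apply, hd, ih, pow_succ]; ring
      obtain ⟨m, hm⟩ := hN2 ⟨ψ, hψ⟩
      have hm' : ψ ^ (2 ^ m) = 1 := by
        have := congrArg Subtype.val hm
        simpa using this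
      apply hodd d hd0 m
      have := hpow (2 ^ m) 1
      rw [hm', mul_one, map_one f] at this
      exact this.symm
    have hτ : ∀ d : F, τ d = d := by
      intro d
      by_cases hd : d = 0
      · rw [hd, map_zero]
      obtain ⟨ψ, hψ, -⟩ := c.exists_aut hF d hd (RingEquiv.refl F)
      have hfψ : ∀ v, f ψ v = d * v := by
        intro v
        obtain ⟨x, rfl⟩ := c.exists_a hF h2 v
        rw [← hf, hψ]; rfl
      have hmem : φ * (ψ * φ⁻¹ * ψ⁻¹) ∈ N := N.mul_mem hφ (hN.conj_mem _ (N.inv_mem hφ) ψ)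
      have hval : ∀ v, f (φ * (ψ * φ⁻¹ * ψ⁻¹)) v = (τ d / d) * v := by
        intro v
        obtain ⟨w, rfl⟩ : ∃ w, f ψ w = v := (f ψ).surjective v
        obtain ⟨u, rfl⟩ : ∃ u, f φ u = w := (f φ).surjective w
        have e1 : f (φ * (ψ * φ⁻¹ * ψ⁻¹)) (f ψ (f φ u)) = f φ (f ψ u) := by
          rw [← Equiv.Perm.mul_apply, ← Equiv.Perm.mul_apply, ← Equiv.Perm.mul_apply, ← map_mul, ← map_mul, ← map_mul]
          congr 2
          group
        rw [e1]
        simp only [hfφ, hfψ]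
        rw [map_mul]
        field_simp
      have h3 := hscal _ hmem _ hval
      rw [div_eq_one_iff_eq hd] at h3
      exact h3
    have hk1 := hscal φ hφ k (fun v => by rw [hfφ, hτ])
    rw [MonoidHom.mem_ker]
    ext v
    rw [hfφ, hτ, hk1, one_mul]; rfl
  · apply le_sSup
    refine ⟨inferInstance, ?_⟩
    intro φ
    refine ⟨1, ?_⟩
    apply Subtype.ext
    rw [pow_one, pow_two]
    exact hE φ φ.2
end

/-- Let S be a Sylow 2-subgroup of the special unitary group of dimension 3 with parameter q = 2^n (n ≥ 2; realised over the field with q² elements). Then the largest normal 2-subgroup of the automorphism group of S is elementary abelian of order 2^(2n²), and the automorphism group has order 2^(2n²) · 2n(q² − 1). -/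
theorem result {S : Type*} [Group S] [Finite S] (n : ℕ) (hn : 2 ≤ n) {F : Type*} [Field F] [Fintype F] (hF : Fintype.card F = 4 ^ n)
    (P : Sylow 2 ↥(Cfsg.SU 3 F (2 ^ n))) (hS : Nonempty (S ≃* ↥(P : Subgroup ↥(Cfsg.SU 3 F (2 ^ n))))) :
    Cfsg.IsElementaryAbelian 2 (Cfsg.pCore 2 (MulAut S)) ∧ Nat.card ↥(Cfsg.pCore 2 (MulAut S)) = 2 ^ (2 * n ^ 2) ∧
      Nat.card (MulAut S) = 2 ^ (2 * n ^ 2) * (2 * n * ((2 ^ n) ^ 2 - 1)) := by
  have hF' : Fintype.card F = (2 ^ n) ^ 2 := by rw [hF, ← pow_mul, mul_comm, pow_mul]; norm_num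
  have hF2 : Fintype.card F = 2 ^ (2 * n) := by rw [hF, pow_mul]; norm_num
  have h2 := two_eq_zero (show n ≠ 0 by omega) hF'
  obtain ⟨c0⟩ := exists_coord (show n ≠ 0 by omega) hF' P
  obtain ⟨e⟩ := hS
  have c : Coord S F (2 ^ n) := c0.congr e
  obtain ⟨f, hf⟩ := c.exists_act hF' h2
  have hker : ∀ φ : MulAut S, φ ∈ f.ker → ∀ x, c.a (φ x) = c.a x := by
    intro φ hφ x
    rw [hf, MonoidHom.mem_ker.1 hφ]; rfl
  have hE : ∀ φ ∈ f.ker, φ * φ = 1 := fun φ hφ => c.sq_of_a hF' h2 (hker φ hφ)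
  have hcore := pCore_eq c hF' h2 f hf hE
  have hck : Nat.card f.ker = 2 ^ (2 * n ^ 2) := by rw [card_ker c hF' h2 f hf, card_hom c hF' h2]
  have hcr := card_range c hF' h2 hF2 f hf
  rw [hcore]
  refine ⟨⟨⟨⟨?_⟩⟩, ?_⟩, hck, ?_⟩
  · rintro ⟨x, hx⟩ ⟨y, hy⟩
    apply Subtype.ext
    show x * y = y * x
    have hx' := hE x hx
    have hy' := hE y hy
    have hxy := hE (x * y) (f.ker.mul_mem hx hy)
    rw [← inv_eq_of_mul_eq_one_right hxy, mul_inv_rev, inv_eq_of_mul_eq_one_right hx', inv_eq_of_mul_eq_one_right hy']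
  · intro a ha
    rw [pow_two]; exact hE a ha
  · have h3 := Subgroup.card_mul_index f.ker
    rw [Subgroup.index_ker, hck, hcr] at h3
    rw [← h3]; ring

end Cfsg.Agent.S3162
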