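import Cfsg.Statements.S3178
import Mathlib
import Cfsg.Agent.H19_Odd
import Cfsg.Agent.H23_ZAction
import Cfsg.Agent.H2_Fusion3
import Cfsg.Agent.H13_Syl

set_option autoImplicit false
open Cfsg

namespace Cfsg.Agent.S3178

open Subgroup

/-- the modular 2-group data, elementwise -/
structure Mod {G : Type*} [Group G] (S : Subgroup G) (m : ℕ) (a b z : G) : Prop where
  haS : a ∈ S
  hbS : b ∈ S
  hm : 1 ≤ m
  hz : z = a ^ ((2 : ℤ) ^ (m + 1))
  hbb : b * b = 1
  hzz : z * z = 1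
  hz1 : z ≠ 1
  hone : ∀ j : ℤ, a ^ j = 1 ↔ (2 : ℤ) ^ (m + 2) ∣ j
  hba : ∀ i : ℤ, b * a ^ i = a ^ i * z ^ i * b
  hcz : ∀ s ∈ S, Commute s z
  hel : ∀ s ∈ S, ∃ i : ℤ, s = a ^ i ∨ s = a ^ i * b

section
variable {G : Type*} [Group G] {S : Subgroup G} {m : ℕ} {a b z : G} (h : Mod S m a b z)
include h

theorem Mod.sq (i : ℤ) : (a ^ i * b) * (a ^ i * b) = a ^ (2 * i * (1 + 2 ^ m)) := by
  calc (a ^ i * b) * (a ^ i * b) = a ^ i * (b * a ^ i) * b := by group
    _ = a ^ i * (a ^ i * z ^ i * b) * b := by rw [h.hba]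
    _ = a ^ i * a ^ i * z ^ i * (b * b) := by group
    _ = a ^ i * a ^ i * z ^ i := by rw [h.hbb, mul_one]
    _ = _ := by
      rw [h.hz, ← zpow_mul, ← zpow_add, ← zpow_add]
      congr 1
      rw [pow_succ]; ring

/-- every square lies in `⟨a ^ 2⟩` -/
theorem Mod.sq_mem {s : G} (hs : s ∈ S) : s * s ∈ zpowers (a ^ (2 : ℤ)) := by
  obtain ⟨i, rfl | rfl⟩ := h.hel s hs
  · refine ⟨i, ?_⟩
    show (a ^ (2 : ℤ)) ^ i = _
    rw [← zpow_mul, ← zpow_add]; congr 1; ring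
  · refine ⟨i * (1 + 2 ^ m), ?_⟩
    show (a ^ (2 : ℤ)) ^ (i * (1 + 2 ^ m)) = _
    rw [h.sq, ← zpow_mul]; congr 1; ring

/-- parity: `s` lies in `⟨a^2, b⟩` iff `s ^ (2^(m+1)) = 1` -/
theorem Mod.even_iff {s : G} (hs : s ∈ S) : (∃ j : ℤ, s = a ^ (2 * j) ∨ s = a ^ (2 * j) * b) ↔ s ^ (2 ^ (m + 1)) = 1 := by
  have e1 : ∀ i : ℤ, (a ^ i) ^ (2 ^ (m + 1)) = 1 ↔ (2 : ℤ) ∣ i := by
    intro i
    rw [← zpow_natCast, ← zpow_mul, h.hone]
    push_cast
    rw [pow_succ (2 : ℤ) (m + 1), mul_comm i]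
    exact mul_dvd_mul_iff_left (by positivity)
  have e2 : ∀ i : ℤ, (a ^ i * b) ^ (2 ^ (m + 1)) = 1 ↔ (2 : ℤ) ∣ i := by
    intro i
    rw [pow_succ', pow_mul, _root_.sq (a ^ i * b), h.sq, ← zpow_natCast, ← zpow_mul, h.hone]
    push_cast
    have e3 : 2 * i * (1 + (2 : ℤ) ^ m) * 2 ^ m = 2 ^ (m + 1) * (i * (1 + 2 ^ m)) := by rw [pow_succ]; ring
    rw [e3, pow_succ (2 : ℤ) (m + 1)]
    rw [mul_dvd_mul_iff_left (by positivity)]
    have hm := h.hm
    obtain ⟨k, rfl⟩ : ∃ k, m = k + 1 := ⟨m - 1, by omega⟩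
    constructor
    · intro h1
      rcases (Int.prime_two.dvd_mul).1 h1 with h2 | h2
      · exact h2
      · exfalso
        rw [pow_succ] at h2; omega
    · intro h1; exact Dvd.dvd.mul_right h1 _
  constructor
  · rintro ⟨j, rfl | rfl⟩
    · rw [e1]; exact ⟨j, rfl⟩
    · rw [e2]; exact ⟨j, rfl⟩
  · intro h1
    obtain ⟨i, rfl | rfl⟩ := h.hel s hs
    · obtain ⟨j, rfl⟩ := (e1 i).1 h1
      exact ⟨j, Or.inl rfl⟩
    · obtain ⟨j, rfl⟩ := (e2 i).1 h1
      exact ⟨j, Or.inr rfl⟩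

theorem Mod.zpow_even (j : ℤ) : z ^ (2 * j) = 1 := by
  rw [zpow_mul, zpow_ofNat, _root_.sq, h.hzz, one_zpow]

theorem Mod.comm_ab (j : ℤ) : Commute (a ^ (2 * j)) b := by
  have := h.hba (2 * j)
  rw [h.zpow_even, mul_one] at this
  exact this.symm

/-- elements of `⟨a^2,b⟩` commute -/
theorem Mod.comm_even {s t : G} (hs : ∃ j : ℤ, s = a ^ (2 * j) ∨ s = a ^ (2 * j) * b)
    (ht : ∃ j : ℤ, t = a ^ (2 * j) ∨ t = a ^ (2 * j) * b) : Commute s t := by
  obtain ⟨i, rfl | rfl⟩ := hs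
  · obtain ⟨j, rfl | rfl⟩ := ht
    · exact (Commute.refl a).zpow_zpow _ _
    · exact ((Commute.refl a).zpow_zpow _ _).mul_right (h.comm_ab i)
  · obtain ⟨j, rfl | rfl⟩ := ht
    · exact ((Commute.refl a).zpow_zpow _ _).mul_left (h.comm_ab j).symm
    · exact (((Commute.refl a).zpow_zpow _ _).mul_right (h.comm_ab i)).mul_left ((h.comm_ab j).symm.mul_right (Commute.refl b))

/-- quotient of two odd elements is even -/
theorem Mod.odd_odd {s t : G} (hs : s ∈ S) (ht : t ∈ S) (hs' : ¬ ∃ j : ℤ, s = a ^ (2 * j) ∨ s = a ^ (2 * j) * b)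
    (ht' : ¬ ∃ j : ℤ, t = a ^ (2 * j) ∨ t = a ^ (2 * j) * b) :
    ∃ j : ℤ, s⁻¹ * t = a ^ (2 * j) ∨ s⁻¹ * t = a ^ (2 * j) * b := by
  have odd : ∀ i : ℤ, (¬ ∃ j : ℤ, i = 2 * j) → ∃ k, i = 2 * k + 1 := by
    intro i hi
    rcases Int.even_or_odd' i with ⟨k, hk | hk⟩
    · exact absurd ⟨k, hk⟩ hi
    · exact ⟨k, hk⟩
  -- conj of a^i by b is a^(i(1+2^(m+1)))
  have hb : ∀ i : ℤ, b * a ^ i * b = a ^ (i * (1 + 2 * 2 ^ m)) := by
    intro i
    rw [h.hba, mul_assoc, h.hbb, mul_one, h.hz, ← zpow_mul, ← zpow_add]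
    congr 1
    rw [pow_succ]; ring
  have binv : b⁻¹ = b := inv_eq_of_mul_eq_one_left h.hbb
  obtain ⟨i, hi⟩ := h.hel s hs
  obtain ⟨l, hl⟩ := h.hel t ht
  obtain ⟨i', rfl⟩ : ∃ k, i = 2 * k + 1 := by
    apply odd
    rintro ⟨j, rfl⟩
    exact hs' ⟨j, hi⟩
  obtain ⟨l', rfl⟩ : ∃ k, l = 2 * k + 1 := by
    apply odd
    rintro ⟨j, rfl⟩
    exact ht' ⟨j, hl⟩
  rcases hi with rfl | rfl
  · rcases hl with rfl | rfl
    · refine ⟨l' - i', Or.inl ?_⟩
      rw [← zpow_neg, ← zpow_add]; congr 1; ring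
    · refine ⟨l' - i', Or.inr ?_⟩
      rw [← mul_assoc, ← zpow_neg, ← zpow_add]; congr 2; ring
  · rcases hl with rfl | rfl
    · -- b⁻¹ a^(l-i) = (b a^k b) b
      refine ⟨(l' - i') * (1 + 2 * 2 ^ m), Or.inr ?_⟩
      calc (a ^ (2 * i' + 1) * b)⁻¹ * a ^ (2 * l' + 1) = (b⁻¹ * (a ^ (2 * i' + 1))⁻¹ * a ^ (2 * l' + 1)) * (b * b) := by rw [h.hbb]; group
        _ = b * a ^ (2 * (l' - i')) * b * b := by
          rw [binv, mul_assoc b, ← zpow_neg, ← zpow_add, ← mul_assoc]; congr 4; ring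
        _ = _ := by rw [hb]; congr 2; ring
    · refine ⟨(l' - i') * (1 + 2 * 2 ^ m), Or.inl ?_⟩
      calc (a ^ (2 * i' + 1) * b)⁻¹ * (a ^ (2 * l' + 1) * b) = b⁻¹ * ((a ^ (2 * i' + 1))⁻¹ * a ^ (2 * l' + 1)) * b := by group
        _ = b * a ^ (2 * (l' - i')) * b := by
          rw [binv, ← zpow_neg, ← zpow_add]; congr 3; ring
        _ = _ := by rw [hb]; congr 1; ring

theorem Mod.invol {s : G} (hs : s ∈ S) (hss : s * s = 1) : s = 1 ∨ s = z ∨ s = b ∨ s = z * b := by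
  have hm := h.hm
  have e1 : ∀ i : ℤ, (2 : ℤ) ^ (m + 1) ∣ i → a ^ i = 1 ∨ a ^ i = z := by
    rintro i ⟨j, rfl⟩
    rw [zpow_mul, ← h.hz]
    rcases Int.even_or_odd' j with ⟨k, hk | hk⟩
    · left; rw [hk, h.zpow_even]
    · right; rw [hk, zpow_add, h.zpow_even, one_mul, zpow_one]
  obtain ⟨i, rfl | rfl⟩ := h.hel s hs
  · rw [← zpow_add, h.hone] at hss
    have : (2 : ℤ) ^ (m + 1) ∣ i := by
      rw [← two_mul, pow_succ' (2 : ℤ) (m + 1)] at hss
      exact (mul_dvd_mul_iff_left (by norm_num)).1 hss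
    rcases e1 i this with h1 | h1
    · exact Or.inl h1
    · exact Or.inr (Or.inl h1)
  · rw [h.sq, h.hone] at hss
    have h1 : (2 : ℤ) ^ (m + 1) ∣ i * (1 + 2 ^ m) := by
      rw [mul_assoc, pow_succ' (2 : ℤ) (m + 1)] at hss
      exact (mul_dvd_mul_iff_left (by norm_num)).1 hss
    have h2 : IsCoprime ((2 : ℤ) ^ (m + 1)) (1 + 2 ^ m) := by
      apply IsCoprime.pow_left
      obtain ⟨k, rfl⟩ : ∃ k, m = k + 1 := ⟨m - 1, by omega⟩
      refine ⟨-2 ^ k, 1, ?_⟩
      rw [pow_succ]; ring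
    have h3 : (2 : ℤ) ^ (m + 1) ∣ i := h2.dvd_of_dvd_mul_right h1
    rcases e1 i h3 with h4 | h4
    · right; right; left; rw [h4, one_mul]
    · right; right; right; rw [h4]

theorem Mod.hbn (i : ℤ) : b ≠ a ^ i := by
  intro h1
  have h2 := h.hba 1
  have h3 : Commute b a := by rw [h1]; exact (Commute.refl a).zpow_left i
  rw [zpow_one, zpow_one, h3.eq] at h2
  apply h.hz1
  have h4 : a * z * b = a * (z * b) := mul_assoc _ _ _
  rw [h4] at h2
  have h5 := mul_left_cancel h2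
  exact (mul_eq_right.1 h5.symm)

theorem Mod.z_mem {x : G} (hx : x ∈ S) (hxx : x * x ≠ 1) : z ∈ zpowers (x * x) := by
  have h1 := h.sq_mem hx
  obtain ⟨k, hk⟩ := mem_zpowers_iff.1 h1
  have ha2 : orderOf (x * x) ∣ 2 ^ (m + 2) := by
    apply orderOf_dvd_of_pow_eq_one
    rw [← hk, ← zpow_natCast, ← zpow_mul, ← zpow_mul, h.hone]
    push_cast
    exact ⟨2 * k, by ring⟩
  obtain ⟨t, _, ht⟩ := (Nat.dvd_prime_pow Nat.prime_two).1 ha2
  obtain ⟨t, rfl⟩ : ∃ s, t = s + 1 := by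
    refine ⟨t - 1, ?_⟩
    have : t ≠ 0 := by
      rintro rfl
      apply hxx
      rw [pow_zero] at ht
      exact orderOf_eq_one_iff.1 ht
    omega
  set u := (x * x) ^ (2 ^ t) with hu
  have huu : u * u = 1 := by
    rw [hu, ← pow_add, ← two_mul, ← pow_succ', ← ht]; exact pow_orderOf_eq_one _
  have hu1 : u ≠ 1 := by
    intro h2
    have h3 := orderOf_dvd_of_pow_eq_one h2
    rw [ht] at h3
    have := (Nat.pow_dvd_pow_iff_le_right (by norm_num : 1 < 2)).1 h3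
    omega
  have huS : u ∈ S := pow_mem (mul_mem hx hx) _
  have hua : u = a ^ (2 * k * 2 ^ t) := by
    rw [hu, ← hk, ← zpow_natCast, ← zpow_mul, ← zpow_mul]
    congr 1; push_cast; ring
  have huz : u = z := by
    rcases h.invol huS huu with h2 | h2 | h2 | h2
    · exact absurd h2 hu1
    · exact h2
    · exact absurd (h2.symm.trans hua) (h.hbn _)
    · exfalso
      apply h.hbn (2 ^ (m + 1) + 2 * k * 2 ^ t)
      rw [zpow_add, ← h.hz, ← hua, h2, ← mul_assoc, h.hzz, one_mul]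
  rw [← huz]
  exact npow_mem_zpowers _ _

section act
variable [Finite G] {Q : Subgroup G} (hQ : Q ≤ S) {g : G} (hg : g ∈ normalizer (Q : Set G)) (hgo : (orderOf g).Coprime 2)
include hQ hg hgo

omit [Finite G] in
theorem Mod.w_comm (hgz : Commute g z) {w : G} (hw : w ∈ Q) (hww : w * w = 1) : Commute g w := by
  have hw' : g * w * g⁻¹ ∈ Q := (mem_normalizer_iff.1 hg w).1 hw
  have hww' : (g * w * g⁻¹) * (g * w * g⁻¹) = 1 := by
    calc (g * w * g⁻¹) * (g * w * g⁻¹) = g * (w * w) * g⁻¹ := by group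
      _ = 1 := by rw [hww]; group
  by_cases h1 : w = 1
  · rw [h1]; exact Commute.one_right g
  by_cases h2 : w = z
  · rw [h2]; exact hgz
  have h1' : g * w * g⁻¹ ≠ 1 := by
    intro h3; apply h1
    calc w = g⁻¹ * (g * w * g⁻¹) * g := by group
      _ = 1 := by rw [h3]; group
  have hgz' : g⁻¹ * z * g = z := by rw [hgz.inv_left.eq]; group
  have h2' : g * w * g⁻¹ ≠ z := by
    intro h3; apply h2
    calc w = g⁻¹ * (g * w * g⁻¹) * g := by group
      _ = z := by rw [h3, hgz']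
  have key : g * w * g⁻¹ = w ∨ g * w * g⁻¹ = z * w := by
    rcases h.invol (hQ hw) hww with h3 | h3 | h3 | h3
    · exact absurd h3 h1
    · exact absurd h3 h2
    · rcases h.invol (hQ hw') hww' with h4 | h4 | h4 | h4
      · exact absurd h4 h1'
      · exact absurd h4 h2'
      · left; rw [h4, h3]
      · right; rw [h4, h3]
    · rcases h.invol (hQ hw') hww' with h4 | h4 | h4 | h4
      · exact absurd h4 h1'
      · exact absurd h4 h2'
      · right; rw [h4, h3, ← mul_assoc, h.hzz, one_mul]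
      · left; rw [h4, h3]
  rcases key with h3 | h3
  · exact mul_inv_eq_iff_eq_mul.1 h3
  · apply H19.Odd.commute_of_sq hgo
    have h4 : g * z * g⁻¹ = z := by rw [hgz.eq]; group
    show g * g * w = w * (g * g)
    calc g * g * w = g * (g * w * g⁻¹) * g⁻¹ * (g * g) := by group
      _ = g * (z * w) * g⁻¹ * (g * g) := by rw [h3]
      _ = (g * z * g⁻¹) * (g * w * g⁻¹) * (g * g) := by group
      _ = z * (z * w) * (g * g) := by rw [h4, h3]
      _ = (z * z) * w * (g * g) := by group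
      _ = w * (g * g) := by rw [h.hzz, one_mul]

theorem Mod.sq_comm {x : G} (hx : x ∈ Q) : Commute g (x * x) := by
  have hx' : g * x * g⁻¹ ∈ Q := (mem_normalizer_iff.1 hg x).1 hx
  have h1 := h.sq_mem (hQ hx)
  have h2 := h.sq_mem (hQ hx')
  have h3 : (g * x * g⁻¹) * (g * x * g⁻¹) = g * (x * x) * g⁻¹ := by group
  rw [h3] at h2
  have ha2 : orderOf (x * x) ∣ 2 ^ (m + 2) := by
    obtain ⟨k, hk⟩ := mem_zpowers_iff.1 h1
    apply orderOf_dvd_of_pow_eq_one
    rw [← hk, ← zpow_natCast, ← zpow_mul, ← zpow_mul, h.hone]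
    push_cast
    exact ⟨2 * k, by ring⟩
  obtain ⟨t, _, ht⟩ := (Nat.dvd_prime_pow Nat.prime_two).1 ha2
  apply H19.Odd.commute_of_mem_zpowers hgo ht
  -- both generate the same subgroup of the cyclic group
  have h4 : zpowers (⟨x * x, h1⟩ : zpowers (a ^ (2 : ℤ))) = zpowers (⟨g * (x * x) * g⁻¹, h2⟩ : zpowers (a ^ (2 : ℤ))) := by
    apply H23.ZAction.eq_of_card_eq
    rw [Nat.card_zpowers, Nat.card_zpowers, Subgroup.orderOf_mk, Subgroup.orderOf_mk]
    have := orderOf_injective (MulAut.conj g).toMonoidHom (MulAut.conj g).injective (x * x)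
    exact this.symm
  have h5 : (⟨g * (x * x) * g⁻¹, h2⟩ : zpowers (a ^ (2 : ℤ))) ∈ zpowers (⟨x * x, h1⟩ : zpowers (a ^ (2 : ℤ))) := by
    rw [h4]; exact mem_zpowers _
  obtain ⟨k, hk⟩ := mem_zpowers_iff.1 h5
  have h6 := congrArg Subtype.val hk
  rw [mem_zpowers_iff]
  exact ⟨k, h6⟩

theorem Mod.case1 (hgz : Commute g z) {x : G} (hx : x ∈ Q) : Commute g x := by
  have heven : ∀ x ∈ Q, (∃ j : ℤ, x = a ^ (2 * j) ∨ x = a ^ (2 * j) * b) → Commute g x := by
    intro x hx hex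
    have hx' : g * x * g⁻¹ ∈ Q := (mem_normalizer_iff.1 hg x).1 hx
    have hex' : (∃ j : ℤ, g * x * g⁻¹ = a ^ (2 * j) ∨ g * x * g⁻¹ = a ^ (2 * j) * b) := by
      rw [h.even_iff (hQ hx')]
      rw [h.even_iff (hQ hx)] at hex
      rw [conj_pow, hex]; group
    have hc := h.comm_even hex hex'
    set w := x⁻¹ * (g * x * g⁻¹) with hw
    have hwQ : w ∈ Q := mul_mem (inv_mem hx) hx'
    have hww : w * w = 1 := by
      have h1 : w * w = (x * x)⁻¹ * (g * (x * x) * g⁻¹) := by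
        calc w * w = x⁻¹ * ((g * x * g⁻¹) * x⁻¹) * (g * x * g⁻¹) := by rw [hw]; group
          _ = x⁻¹ * (x⁻¹ * (g * x * g⁻¹)) * (g * x * g⁻¹) := by rw [hc.inv_left.eq]
          _ = _ := by group
      have h2 : g * (x * x) * g⁻¹ = x * x := by rw [(h.sq_comm hQ hg hgo hx).eq]; group
      rw [h1, h2]; group
    apply H19.Odd.commute_of_conj (w := w) (by rw [hw]; group) (h.w_comm hQ hg hgo hgz hwQ hww)
    apply Nat.Coprime.coprime_dvd_right _ hgo
    apply orderOf_dvd_of_pow_eq_one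
    rw [_root_.sq]; exact hww
  by_cases hex : ∃ j : ℤ, x = a ^ (2 * j) ∨ x = a ^ (2 * j) * b
  · exact heven x hx hex
  have hx' : g * x * g⁻¹ ∈ Q := (mem_normalizer_iff.1 hg x).1 hx
  have hex' : ¬ (∃ j : ℤ, g * x * g⁻¹ = a ^ (2 * j) ∨ g * x * g⁻¹ = a ^ (2 * j) * b) := by
    rw [h.even_iff (hQ hx')]
    rw [h.even_iff (hQ hx)] at hex
    rw [conj_pow]
    intro h1
    apply hex
    calc x ^ 2 ^ (m + 1) = g⁻¹ * (g * x ^ 2 ^ (m + 1) * g⁻¹) * g := by group
      _ = 1 := by rw [h1]; group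
  have h1 := h.odd_odd (hQ hx) (hQ hx') hex hex'
  set w := x⁻¹ * (g * x * g⁻¹) with hw
  have hwQ : w ∈ Q := mul_mem (inv_mem hx) hx'
  apply H19.Odd.commute_of_conj (w := w) (by rw [hw]; group) (heven w hwQ h1)
  rw [h.even_iff (hQ hwQ)] at h1
  exact Nat.Coprime.coprime_dvd_right (orderOf_dvd_of_pow_eq_one h1) (hgo.pow_right _)

/-- `g` centralises `z` in all cases except possibly `Q = Ω₁(S)`. -/
theorem Mod.case_all (hΩ : z ∈ Q → b ∈ Q → (∀ q ∈ Q, q * q = 1) → Commute g z) {x : G} (hx : x ∈ Q) : Commute g x := by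
  by_cases h1 : ∃ q ∈ Q, q * q ≠ 1
  · obtain ⟨q, hq, hqq⟩ := h1
    have hgz : Commute g z := by
      obtain ⟨k, hk⟩ := mem_zpowers_iff.1 (h.z_mem (hQ hq) hqq)
      rw [← hk]
      exact (h.sq_comm hQ hg hgo hq).zpow_right k
    exact h.case1 hQ hg hgo hgz hx
  push Not at h1
  have hx' : g * x * g⁻¹ ∈ Q := (mem_normalizer_iff.1 hg x).1 hx
  by_cases hx1 : x = 1
  · rw [hx1]; exact Commute.one_right g
  have hx1' : g * x * g⁻¹ ≠ 1 := by
    intro h3; apply hx1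
    calc x = g⁻¹ * (g * x * g⁻¹) * g := by group
      _ = 1 := by rw [h3]; group
  by_cases hz : z ∈ Q
  · by_cases hb : b ∈ Q
    · exact h.w_comm hQ hg hgo (hΩ hz hb h1) hx (h1 x hx)
    · have key : ∀ y ∈ Q, y ≠ 1 → y = z := by
        intro y hy hy1
        rcases h.invol (hQ hy) (h1 y hy) with h2 | h2 | h2 | h2
        · exact absurd h2 hy1
        · exact h2
        · exact absurd (h2 ▸ hy) hb
        · exfalso
          apply hb
          have : b = z * y := by rw [h2, ← mul_assoc, h.hzz, one_mul]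
          rw [this]; exact mul_mem hz hy
      exact mul_inv_eq_iff_eq_mul.1 ((key _ hx' hx1').trans (key x hx hx1).symm)
  · -- z ∉ Q: at most one nontrivial element
    have hne : ∀ y ∈ Q, y ≠ 1 → y = b ∨ y = z * b := by
      intro y hy hy1
      rcases h.invol (hQ hy) (h1 y hy) with h2 | h2 | h2 | h2
      · exact absurd h2 hy1
      · exact absurd (h2 ▸ hy) hz
      · exact Or.inl h2
      · exact Or.inr h2
    have hzb : z * b * b = z := by rw [mul_assoc, h.hbb, mul_one]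
    have heq : g * x * g⁻¹ = x := by
      rcases hne x hx hx1 with h2 | h2 <;> rcases hne _ hx' hx1' with h3 | h3
      · rw [h3, h2]
      · exfalso; apply hz
        have : z = (g * x * g⁻¹) * x := by rw [h3, h2, hzb]
        rw [this]; exact mul_mem hx' hx
      · exfalso; apply hz
        have : z = x * (g * x * g⁻¹) := by rw [h3, h2, hzb]
        rw [this]; exact mul_mem hx hx'
      · rw [h3, h2]
    exact mul_inv_eq_iff_eq_mul.1 heq
end act

/-- The Frattini argument for `Q = Ω₁(S)`. -/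
theorem Mod.omega [Finite G] (hS : H13.Syl.IsSylIn 2 S ⊤) {Q : Subgroup G} (hQ : Q ≤ S) (hz : z ∈ Q) (hb : b ∈ Q)
    (h1 : ∀ q ∈ Q, q * q = 1) {g : G} (hg : g ∈ normalizer (Q : Set G)) : Commute g z := by
  haveI : Fact (Nat.Prime 2) := ⟨Nat.prime_two⟩
  have hQmem : ∀ s ∈ S, s * s = 1 → s ∈ Q := by
    intro s hs hss
    rcases h.invol hs hss with h2 | h2 | h2 | h2
    · rw [h2]; exact one_mem Q
    · rw [h2]; exact hz
    · rw [h2]; exact hb
    · rw [h2]; exact mul_mem hz hb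
  have hSN : S ≤ normalizer (Q : Set G) := by
    intro s hs
    rw [mem_normalizer_iff]
    intro x
    constructor
    · intro hx
      apply hQmem _ (mul_mem (mul_mem hs (hQ hx)) (inv_mem hs))
      calc s * x * s⁻¹ * (s * x * s⁻¹) = s * (x * x) * s⁻¹ := by group
        _ = 1 := by rw [h1 x hx]; group
    · intro hx
      have hxS : x ∈ S := by
        have : x = s⁻¹ * (s * x * s⁻¹) * s := by group
        rw [this]; exact mul_mem (mul_mem (inv_mem hs) (hQ hx)) hs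
      apply hQmem _ hxS
      calc x * x = s⁻¹ * ((s * x * s⁻¹) * (s * x * s⁻¹)) * s := by group
        _ = 1 := by rw [h1 _ hx]; group
  have hSylN : H13.Syl.IsSylIn 2 S (normalizer (Q : Set G)) := hS.mono hSN le_top
  have hCN : centralizer (Q : Set G) ≤ normalizer (Q : Set G) := centralizer_le_normalizer _
  have hNN : normalizer (Q : Set G) ≤ normalizer ((centralizer (Q : Set G) : Subgroup G) : Set G) := by
    intro n hn
    rw [H13.Syl.mem_normalizer_iff_cj, H13.Syl.cj_centralizer, H13.Syl.cj_eq_of_mem_normalizer hn]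
  have hSylC := hSylN.inf_of_le_normalizer hCN hNN
  obtain ⟨c, hc, r, hr, hcr⟩ := hSylC.frattini hCN hNN hg
  rw [mem_inf] at hr
  obtain ⟨_, hr⟩ := hr
  have hm := h.hm
  have ha2 : a ^ (2 * 1 : ℤ) ∈ S ⊓ centralizer (Q : Set G) := by
    rw [mem_inf]
    refine ⟨zpow_mem h.haS _, ?_⟩
    rw [mem_centralizer_iff]
    intro q hq
    have hqe : ∃ j : ℤ, q = a ^ (2 * j) ∨ q = a ^ (2 * j) * b := by
      rw [h.even_iff (hQ hq), pow_succ', pow_mul, _root_.sq, h1 q hq, one_pow]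
    exact (h.comm_even hqe ⟨1, Or.inl rfl⟩).eq
  have hra := (mem_normalizer_iff.1 hr _).1 ha2
  rw [mem_inf] at hra
  obtain ⟨hraS, hraC⟩ := hra
  have hbr : Commute b (r * a ^ (2 * 1 : ℤ) * r⁻¹) := (mem_centralizer_iff.1 hraC) b hb
  -- it is even
  have hev : ∃ j : ℤ, r * a ^ (2 * 1 : ℤ) * r⁻¹ = a ^ (2 * j) ∨ r * a ^ (2 * 1 : ℤ) * r⁻¹ = a ^ (2 * j) * b := by
    obtain ⟨i, hi⟩ := h.hel _ hraS
    rcases Int.even_or_odd' i with ⟨k, hk | hk⟩
    · exact ⟨k, by rw [← hk]; exact hi⟩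
    · exfalso
      have hcomm : Commute b (a ^ i) := by
        rcases hi with hi | hi
        · rw [← hi]; exact hbr
        · have : a ^ i = (r * a ^ (2 * 1 : ℤ) * r⁻¹) * b⁻¹ := by rw [hi]; group
          rw [this]
          exact hbr.mul_right (Commute.refl b).inv_right
      have h2 := h.hba i
      rw [hcomm.eq, mul_assoc] at h2
      have h3 : z ^ i = 1 := mul_eq_right.1 (mul_left_cancel h2).symm
      rw [hk, zpow_add, h.zpow_even, one_mul, zpow_one] at h3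
      exact h.hz1 h3
  have hz2 : z = (a ^ (2 * 1 : ℤ)) ^ (2 ^ m) := by
    rw [h.hz, ← zpow_natCast, ← zpow_mul]; congr 1; push_cast; rw [pow_succ]; ring
  have hrz : r * z * r⁻¹ = z := by
    have hne : r * z * r⁻¹ ≠ 1 := by
      intro h3; apply h.hz1
      calc z = r⁻¹ * (r * z * r⁻¹) * r := by group
        _ = 1 := by rw [h3]; group
    have h4 : ∃ j : ℤ, r * z * r⁻¹ = z ^ j := by
      have h5 : r * z * r⁻¹ = (r * a ^ (2 * 1 : ℤ) * r⁻¹) ^ (2 ^ m) := by
        rw [conj_pow, ← hz2]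
      obtain ⟨j, hj | hj⟩ := hev
      · refine ⟨j, ?_⟩
        rw [h5, hj, h.hz, ← zpow_natCast, ← zpow_mul, ← zpow_mul]; congr 1; push_cast; rw [pow_succ]; ring
      · refine ⟨j, ?_⟩
        rw [h5, hj, (h.comm_ab j).mul_pow]
        have hb2 : b ^ (2 ^ m) = 1 := by
          obtain ⟨k, rfl⟩ : ∃ k, m = k + 1 := ⟨m - 1, by omega⟩
          rw [pow_succ', pow_mul, _root_.sq, h.hbb, one_pow]
        rw [hb2, mul_one, h.hz, ← zpow_natCast, ← zpow_mul, ← zpow_mul]; congr 1; push_cast; rw [pow_succ]; ring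
    obtain ⟨j, hj⟩ := h4
    rcases Int.even_or_odd' j with ⟨k, hk | hk⟩
    · exfalso; apply hne
      rw [hj, hk, h.zpow_even]
    · rw [hj, hk, zpow_add, h.zpow_even, one_mul, zpow_one]
  have hcz : Commute c z := ((mem_centralizer_iff.1 hc) z hz).symm
  rw [hcr]
  exact hcz.mul_left (mul_inv_eq_iff_eq_mul.1 hrz)
end

/-- Groups with a modular Sylow 2-subgroup have a normal 2-complement. Let S, of order 2^(n+1) with n ≥ 3, be a Sylow 2-subgroup of a finite group G, and suppose S contains an element a of order 2^n and an involution b with b a b⁻¹ = a^(2^(n-1) + 1); so S is the non-abelian 2-group with a cyclic subgroup of index 2 that is neither dihedral, semidihedral nor generalized quaternion. Then G has a normal 2-complement. -/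
theorem result {G : Type*} [Group G] [Finite G]
    (S : Sylow 2 G) (n : ℕ) (hn : 3 ≤ n) (hS : Nat.card ↥(S : Subgroup G) = 2 ^ (n + 1))
    (a b : G) (ha : a ∈ (S : Subgroup G)) (hb : b ∈ (S : Subgroup G))
    (hao : orderOf a = 2 ^ n) (hbo : orderOf b = 2) (hrel : b * a * b⁻¹ = a ^ (2 ^ (n - 1) + 1)) :
    Cfsg.HasNormalPComplement 2 G := by
  classical
  haveI : Fact (Nat.Prime 2) := ⟨Nat.prime_two⟩
  obtain ⟨m, rfl⟩ : ∃ m, n = m + 2 := ⟨n - 2, by omega⟩
  have hbb : b * b = 1 := by rw [← sq, ← hbo]; exact pow_orderOf_eq_one b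
  have hone : ∀ j : ℤ, a ^ j = 1 ↔ (2 : ℤ) ^ (m + 2) ∣ j := by
    intro j
    rw [← orderOf_dvd_iff_zpow_eq_one, hao]; push_cast; rfl
  set z : G := a ^ ((2 : ℤ) ^ (m + 1)) with hz
  have hzz : z * z = 1 := by
    rw [hz, ← zpow_add, hone]
    exact ⟨1, by rw [pow_succ]; ring⟩
  have hz1 : z ≠ 1 := by
    rw [Ne, hz, hone]
    intro h
    have := Int.le_of_dvd (by positivity) h
    have h7 : (2 : ℤ) ^ (m + 1) < 2 ^ (m + 2) := pow_lt_pow_right₀ (by norm_num) (by omega)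
    omega
  have hrel' : b * a * b⁻¹ = a * z := by
    rw [hrel, pow_succ', hz]
    congr 1
    rw [← zpow_natCast]; push_cast; rfl
  have haz : Commute a z := by rw [hz]; exact (Commute.refl a).zpow_right _
  have hbz : Commute b z := by
    have h1 : b * z * b⁻¹ = z := by
      conv_lhs => rw [hz]
      rw [← conj_zpow, hrel', haz.mul_zpow, ← hz]
      have : z ^ ((2 : ℤ) ^ (m + 1)) = 1 := by
        rw [pow_succ', zpow_mul, zpow_ofNat, sq, hzz, one_zpow]
      rw [this, mul_one]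
    exact mul_inv_eq_iff_eq_mul.1 h1
  have hba : ∀ i : ℤ, b * a ^ i = a ^ i * z ^ i * b := by
    intro i
    have h1 : b * a ^ i * b⁻¹ = a ^ i * z ^ i := by
      rw [← conj_zpow, hrel', haz.mul_zpow]
    exact mul_inv_eq_iff_eq_mul.1 h1
  have hbn : b ∉ Subgroup.zpowers a := by
    rintro ⟨i, hi⟩
    have hcomm : Commute b a := by
      rw [← show a ^ i = b from hi]; exact (Commute.refl a).zpow_left i
    have h2 := hba 1
    rw [zpow_one, zpow_one, hcomm.eq, mul_assoc] at h2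
    exact hz1 (mul_eq_right.1 (mul_left_cancel h2).symm)
  have hel : ∀ s ∈ (S : Subgroup G), ∃ i : ℤ, s = a ^ i ∨ s = a ^ i * b := by
    have hidx : (Subgroup.zpowers (⟨a, ha⟩ : (S : Subgroup G))).index = 2 := by
      have h1 := Subgroup.card_mul_index (Subgroup.zpowers (⟨a, ha⟩ : (S : Subgroup G)))
      rw [Nat.card_zpowers, Subgroup.orderOf_mk, hao, hS, pow_succ 2 (m + 2)] at h1
      exact Nat.eq_of_mul_eq_mul_left (by positivity) h1
    intro s hs
    have hbn' : (⟨b, hb⟩ : (S : Subgroup G)) ∉ Subgroup.zpowers (⟨a, ha⟩ : (S : Subgroup G)) := by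
      rintro ⟨i, hi⟩
      exact hbn ⟨i, congrArg Subtype.val hi⟩
    by_cases hsa : (⟨s, hs⟩ : (S : Subgroup G)) ∈ Subgroup.zpowers (⟨a, ha⟩ : (S : Subgroup G))
    · obtain ⟨i, hi⟩ := hsa
      exact ⟨i, Or.inl (congrArg Subtype.val hi).symm⟩
    · have h2 : (⟨s, hs⟩ : (S : Subgroup G)) * ⟨b, hb⟩ ∈ Subgroup.zpowers (⟨a, ha⟩ : (S : Subgroup G)) := by
        rw [Subgroup.mul_mem_iff_of_index_two hidx]
        exact ⟨fun h => absurd h hsa, fun h => absurd h hbn'⟩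
      obtain ⟨i, hi⟩ := h2
      refine ⟨i, Or.inr ?_⟩
      have h3 : a ^ i = s * b := congrArg Subtype.val hi
      rw [h3, mul_assoc, hbb, mul_one]
  have hcz : ∀ s ∈ (S : Subgroup G), Commute s z := by
    intro s hs
    obtain ⟨i, rfl | rfl⟩ := hel s hs
    · exact haz.zpow_left i
    · exact (haz.zpow_left i).mul_left hbz
  have hM : Mod (S : Subgroup G) m a b z := ⟨ha, hb, by omega, rfl, hbb, hzz, hz1, hone, hba, hcz, hel⟩
  apply H2.Fusion3.npc_of_frobenius_sylow S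
  intro Q hQ g hg hgo
  rw [mem_centralizer_iff]
  intro x hx
  exact (hM.case_all hQ hg hgo (fun hzQ hbQ h1 => hM.omega (H13.Syl.isSylIn_sylow_top S) hQ hzQ hbQ h1 hg) hx).symm.eq

end Cfsg.Agent.S3178
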