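import Cfsg.Statements.S3180
import Mathlib
import Cfsg.Agent.H13_Syl

set_option autoImplicit false
open Cfsg

namespace Cfsg.Agent.S3180


/-- Let P be a Sylow p-subgroup of a finite group J and P₁ a subgroup of P that is weakly closed in P with respect to J. If J acts on a set and two points, each fixed by every element of P₁, lie in one J-orbit, then they lie in one orbit of the normalizer of P₁ in J. -/
theorem result {J : Type*} [Group J] [Finite J]
    {p : ℕ} [Fact p.Prime] (P : Sylow p J) (P₁ : Subgroup J) (hW : Cfsg.IsWeaklyClosed P₁ (P : Subgroup J))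
    {Ω : Type*} [MulAction J Ω] (x y : Ω) (hx : ∀ g ∈ P₁, g • x = x) (hy : ∀ g ∈ P₁, g • y = y)
    (hc : ∃ g : J, g • x = y) :
    ∃ g ∈ Subgroup.normalizer (P₁ : Set J), g • x = y := by
  classical
  obtain ⟨g, hg⟩ := hc
  have hP₁p : IsPGroup p P₁ := P.isPGroup'.to_le hW.1
  have h1 : P₁ ≤ MulAction.stabilizer J y := fun u hu => MulAction.mem_stabilizer_iff.2 (hy u hu)
  have h2 : H13.Syl.cj g P₁ ≤ MulAction.stabilizer J y := by
    intro u hu
    rw [H13.Syl.mem_cj] at hu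
    rw [MulAction.mem_stabilizer_iff]
    have := hx _ hu
    rw [← hg]
    rw [← smul_smul, ← smul_smul] at this
    rw [inv_smul_eq_iff] at this
    exact this
  obtain ⟨Q, hQ1, hQ⟩ := H13.Syl.exists_isSylIn_ge hP₁p h1
  obtain ⟨h, hh, hhQ⟩ := hQ.exists_conj_le (H13.Syl.isPGroup_cj hP₁p) h2
  obtain ⟨k, _, hk⟩ := (H13.Syl.isSylIn_sylow_top P).exists_conj_le hQ.isPGroup le_top
  have h3 : H13.Syl.cj k P₁ = P₁ := hW.2 k ((H13.Syl.cj_mono hQ1).trans hk)
  have h4 : H13.Syl.cj (k * h * g) P₁ = P₁ := by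
    apply hW.2
    show H13.Syl.cj (k * h * g) P₁ ≤ _
    rw [mul_assoc, H13.Syl.cj_mul, H13.Syl.cj_mul]
    exact (H13.Syl.cj_mono hhQ).trans hk
  refine ⟨h * g, ?_, ?_⟩
  · rw [H13.Syl.mem_normalizer_iff_cj]
    have : H13.Syl.cj k (H13.Syl.cj (h * g) P₁) = H13.Syl.cj k P₁ := by
      rw [← H13.Syl.cj_mul, ← mul_assoc, h4, h3]
    exact H13.Syl.cj_inj this
  · rw [← smul_smul, hg]
    exact hh

end Cfsg.Agent.S3180
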