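import Cfsg.Statements.S3183
import Mathlib
import Cfsg.Agent.H13_Syl
import Cfsg.Agent.H2_Card

set_option autoImplicit false
open Cfsg

namespace Cfsg.Agent.S3183


/-- Let G be a finite group in which the intersection of any two distinct Sylow 2-subgroups is contained in the centre of some Sylow 2-subgroup, and let S be a Sylow 2-subgroup. Then for every x in S the centralizer of x in S is a Sylow 2-subgroup of the centralizer of x in G (no 2-subgroup centralizing x is larger), and for every other Sylow 2-subgroup T the intersection S ∩ T lies in both the centre of S and the centre of T. -/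
theorem result {G : Type*} [Group G] [Finite G]
    (hCI : ∀ S T : Sylow 2 G, S ≠ T → ∃ U : Sylow 2 G,
      (S : Subgroup G) ⊓ (T : Subgroup G) ≤ (Subgroup.center ↥(U : Subgroup G)).map (U : Subgroup G).subtype)
    (S : Sylow 2 G) :
    (∀ x ∈ (S : Subgroup G), ∀ P : Subgroup G, IsPGroup 2 ↥P → P ≤ Subgroup.centralizer ({x} : Set G) →
        Nat.card ↥P ≤ Nat.card ↥((S : Subgroup G) ⊓ Subgroup.centralizer ({x} : Set G))) ∧
    (∀ T : Sylow 2 G, T ≠ S →
        (S : Subgroup G) ⊓ (T : Subgroup G) ≤
          (Subgroup.center ↥(S : Subgroup G)).map (S : Subgroup G).subtype ⊓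
            (Subgroup.center ↥(T : Subgroup G)).map (T : Subgroup G).subtype) := by
  classical
  have : Fact (Nat.Prime 2) := ⟨Nat.prime_two⟩
  -- `Z(U)` in `G`
  have hZmem : ∀ (U : Sylow 2 G) (x : G), x ∈ (Subgroup.center ↥(U : Subgroup G)).map (U : Subgroup G).subtype ↔
      x ∈ (U : Subgroup G) ∧ ∀ u ∈ (U : Subgroup G), u * x = x * u := by
    intro U x
    constructor
    · rintro ⟨y, hy, rfl⟩
      refine ⟨y.2, fun u hu => ?_⟩
      have := Subgroup.mem_center_iff.1 hy ⟨u, hu⟩
      exact congrArg Subtype.val this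
    · rintro ⟨hx, h⟩
      refine ⟨⟨x, hx⟩, Subgroup.mem_center_iff.2 ?_, rfl⟩
      intro u
      exact Subtype.ext (h u u.2)
  have hmain : ∀ S T : Sylow 2 G, T ≠ S → (S : Subgroup G) ⊓ (T : Subgroup G) ≤
      (Subgroup.center ↥(S : Subgroup G)).map (S : Subgroup G).subtype := by
    intro S T hTS
    set D := (S : Subgroup G) ⊓ (T : Subgroup G) with hD
    -- choose U with D ≤ Z(U) with |S ∩ U| maximal
    have hfin : Finite (Sylow 2 G) := inferInstance
    let F : Set (Sylow 2 G) := {U | D ≤ (Subgroup.center ↥(U : Subgroup G)).map (U : Subgroup G).subtype}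
    obtain ⟨U₀, hU₀⟩ := hCI S T (Ne.symm hTS)
    obtain ⟨U, hUF, hUmax⟩ := Set.exists_max_image F (fun U => Nat.card ((S : Subgroup G) ⊓ (U : Subgroup G) : Subgroup G))
      (Set.toFinite F) ⟨U₀, hU₀⟩
    by_cases hSU : S = U
    · rw [hSU]; exact hUF
    exfalso
    set E := (S : Subgroup G) ⊓ (U : Subgroup G) with hE
    have hDU : D ≤ (U : Subgroup G) := fun x hx => ((hZmem U x).1 (hUF hx)).1
    have hDE : D ≤ E := le_inf inf_le_left hDU
    obtain ⟨V, hV⟩ := hCI S U hSU
    -- V ≤ N(E)
    have hVE : (V : Subgroup G) ≤ Subgroup.normalizer (E : Set G) := by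
      intro v hv
      rw [Subgroup.mem_normalizer_iff]
      intro h
      constructor
      · intro hh
        have := ((hZmem V h).1 (hV hh)).2 v hv
        rw [this]; simpa using hh
      · intro hh
        have := ((hZmem V _).1 (hV hh)).2 v hv
        have h2 : h = v * h * v⁻¹ := by
          have h3 : v * (v * h * v⁻¹) = v * h := by
            rw [this]; group
          exact (mul_left_cancel h3).symm
        rw [h2]; exact hh
    have hEV : E ≤ (V : Subgroup G) := fun x hx => ((hZmem V x).1 (hV hx)).1
    have hVsyl : H13.Syl.IsSylIn 2 (V : Subgroup G) (Subgroup.normalizer (E : Set G)) :=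
      (H13.Syl.isSylIn_sylow_top V).mono hVE le_top
    have hEltS : E < (S : Subgroup G) := by
      refine lt_of_le_of_ne inf_le_left ?_
      intro heq
      have h1 : (S : Subgroup G) ≤ (U : Subgroup G) := by
        rw [← heq]; exact inf_le_right
      apply hSU
      exact Sylow.ext ((S.is_maximal' U.isPGroup' h1).symm)
    have hgrow := H13.Syl.lt_normalizer_of_lt S.isPGroup' hEltS
    obtain ⟨n, hn, hnV⟩ := hVsyl.exists_conj_le (A := (S : Subgroup G) ⊓ Subgroup.normalizer (E : Set G))
      (S.isPGroup'.to_le inf_le_left) inf_le_right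
    -- n S∩N(E) n⁻¹ ≤ V, so S∩N(E) ≤ n⁻¹ V n =: W
    let W : Sylow 2 G := n⁻¹ • V
    have hWc : (W : Subgroup G) = H13.Syl.cj n⁻¹ (V : Subgroup G) := by
      show ((n⁻¹ • V : Sylow 2 G) : Subgroup G) = _
      rw [Sylow.coe_subgroup_smul]
      rfl
    have hSW : (S : Subgroup G) ⊓ Subgroup.normalizer (E : Set G) ≤ (W : Subgroup G) := by
      rw [hWc, ← H13.Syl.cj_le_iff]; exact hnV
    have hWF : W ∈ F := by
      intro x hx
      have hxE : x ∈ E := hDE hx
      rw [hZmem]
      have hxn : n * x * n⁻¹ ∈ E := by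
        rw [Subgroup.mem_normalizer_iff] at hn
        exact (hn x).1 hxE
      have h2 := (hZmem V _).1 (hV hxn)
      refine ⟨?_, ?_⟩
      · rw [hWc, H13.Syl.mem_cj]
        simpa using h2.1
      · intro u hu
        rw [hWc, H13.Syl.mem_cj, inv_inv] at hu
        have h3 := h2.2 _ hu
        have h4 : n * (u * x) * n⁻¹ = n * (x * u) * n⁻¹ := by
          calc n * (u * x) * n⁻¹ = (n * u * n⁻¹) * (n * x * n⁻¹) := by group
            _ = (n * x * n⁻¹) * (n * u * n⁻¹) := h3
            _ = _ := by group
        exact mul_left_cancel (mul_right_cancel h4)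
    have h5 := hUmax W hWF
    have h6 : E < (S : Subgroup G) ⊓ (W : Subgroup G) :=
      lt_of_lt_of_le hgrow (le_inf inf_le_left hSW)
    have h7 : Nat.card E < Nat.card ((S : Subgroup G) ⊓ (W : Subgroup G) : Subgroup G) :=
      H2.Card.card_lt_of_lt h6
    exact absurd h5 (not_le.2 h7)
  refine ⟨?_, ?_⟩
  · intro x hx P hP hPx
    -- P ⊔ ⟨x⟩ is a 2-group
    have hPz : IsPGroup 2 (P ⊔ Subgroup.zpowers x : Subgroup G) := by
      apply IsPGroup.to_sup_of_normal_right' hP (S.isPGroup'.to_le (by rwa [Subgroup.zpowers_le]))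
      intro y hy
      rw [Subgroup.mem_normalizer_iff]
      have hc := hPx hy
      rw [Subgroup.mem_centralizer_singleton_iff] at hc
      intro h
      have hz : ∀ z ∈ Subgroup.zpowers x, y * z * y⁻¹ = z := by
        intro z hz
        obtain ⟨k, rfl⟩ := Subgroup.mem_zpowers_iff.1 hz
        have : Commute y (x ^ k) := Commute.zpow_right hc k
        rw [this.eq]; group
      constructor
      · intro hh
        rw [hz h hh]; exact hh
      · intro hh
        have h1 := hz _ hh
        have h2 : h = y * h * y⁻¹ := by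
          have h3 : y * (y * h * y⁻¹) * y⁻¹ = y * h * y⁻¹ := h1
          exact (mul_left_cancel (mul_right_cancel h3)).symm
        rw [h2]; exact hh
    obtain ⟨T, hT⟩ := hPz.exists_le_sylow
    by_cases hTS : T = S
    · subst hTS
      exact Subgroup.card_le_of_le (le_inf (le_sup_left.trans hT) hPx)
    · have hxT : x ∈ (T : Subgroup G) := hT (Subgroup.mem_sup_right (Subgroup.mem_zpowers x))
      have h1 := hmain S T hTS (Subgroup.mem_inf.2 ⟨hx, hxT⟩)
      have h2 := (hZmem S x).1 h1
      have h3 : (S : Subgroup G) ⊓ Subgroup.centralizer ({x} : Set G) = (S : Subgroup G) := by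
        apply inf_eq_left.2
        intro s hs
        rw [Subgroup.mem_centralizer_singleton_iff]
        exact h2.2 s hs
      rw [h3]
      have h4 : Nat.card T = Nat.card S := Sylow.card_eq_multiplicity T |>.trans (Sylow.card_eq_multiplicity S).symm
      calc Nat.card P ≤ Nat.card T := Subgroup.card_le_of_le (le_sup_left.trans hT)
        _ = Nat.card S := h4
  · intro T hTS
    refine le_inf (hmain S T hTS) ?_
    rw [inf_comm]
    exact hmain T S (Ne.symm hTS)

end Cfsg.Agent.S3183
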