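import Cfsg.Statements.S3184
import Mathlib
import Cfsg.Agent.H4_ZStar
import Cfsg.Agent.H4_Util

set_option autoImplicit false
open Cfsg

namespace Cfsg.Agent.S3184

theorem aux {G : Type*} [Group G] [Finite G]
    (hCI : ∀ S T : Sylow 2 G, S ≠ T → ∃ U : Sylow 2 G,
      (S : Subgroup G) ⊓ (T : Subgroup G) ≤ (Subgroup.center ↥(U : Subgroup G)).map (U : Subgroup G).subtype)
    (S : Sylow 2 G) {c : G} (hcS : c ∈ (S : Subgroup G)) (hc2 : orderOf c = 2)
    (hn : ∀ n ∈ Subgroup.normalizer ((S : Subgroup G) : Set G), n * c * n⁻¹ = c) :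
    Cfsg.IsIsolatedInvolution c := by
  have hf : Fact (Nat.Prime 2) := ⟨Nat.prime_two⟩
  have hcen : ∀ s ∈ (S : Subgroup G), s * c = c * s := by
    intro s hs
    have := hn s (Subgroup.le_normalizer hs)
    exact mul_inv_eq_iff_eq_mul.mp this
  have L1 : ∀ b : G, (∀ s ∈ (S : Subgroup G), s * (b * c * b⁻¹) = (b * c * b⁻¹) * s) →
      b * c * b⁻¹ = c := by
    intro b hb
    have h1 : c ∈ Subgroup.centralizer ((S : Subgroup G) : Set G) := by
      rw [Subgroup.mem_centralizer_iff]; exact hcen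
    have h2 : (b⁻¹)⁻¹ * c * b⁻¹ ∈ Subgroup.centralizer ((S : Subgroup G) : Set G) := by
      rw [Subgroup.mem_centralizer_iff, inv_inv]; exact hb
    obtain ⟨n, hnn, hne⟩ := Sylow.conj_eq_normalizer_conj_of_mem_centralizer S c b⁻¹ h1 h2
    rw [inv_inv] at hne
    rw [hne]
    have := hn n⁻¹ ((Subgroup.normalizer _).inv_mem hnn)
    rwa [inv_inv] at this
  rw [← Cfsg.Agent.H4.Iso.isolated_iff_sylow S hc2 hcS]
  intro g hg
  -- move so that c lies in the conjugate Sylow subgroup
  obtain ⟨g', hg', hcg'⟩ : ∃ g' : G, g' * c * g'⁻¹ = g * c * g⁻¹ ∧ c ∈ ((g' • S : Sylow 2 G) : Subgroup G) := by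
    have hle : ((g • S : Sylow 2 G) : Subgroup G) ≤ Subgroup.centralizer ({g * c * g⁻¹} : Set G) := by
      intro x hx
      rw [Cfsg.Agent.H4.Util.mem_smul_sylow] at hx
      rw [Subgroup.mem_centralizer_singleton_iff]
      have := hcen _ hx
      calc x * (g * c * g⁻¹) = g * (g⁻¹ * x * g * c) * g⁻¹ := by group
        _ = g * c * g⁻¹ * x := by rw [this]; group
    have hcc : c ∈ Subgroup.centralizer ({g * c * g⁻¹} : Set G) := by
      rw [Subgroup.mem_centralizer_singleton_iff]
      exact (hcen _ hg).symm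
    have ho : orderOf (⟨c, hcc⟩ : Subgroup.centralizer ({g * c * g⁻¹} : Set G)) = 2 ^ 1 := by
      rw [← Subgroup.orderOf_coe, pow_one]; exact hc2
    obtain ⟨a, ha⟩ := Cfsg.Agent.H4.Util.exists_conj_le ((g • S : Sylow 2 G).subtype hle) _
      (Cfsg.Agent.H4.Util.zpowers_isPGroup ho)
    have h1 := ha _ (Subgroup.mem_zpowers _)
    have h2 : (a : G) * c * (a : G)⁻¹ ∈ ((g • S : Sylow 2 G) : Subgroup G) := h1
    rw [Cfsg.Agent.H4.Util.mem_smul_sylow] at h2
    have h3 := Subgroup.mem_centralizer_singleton_iff.mp a.2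
    refine ⟨(a : G)⁻¹ * g, ?_, ?_⟩
    · calc (a : G)⁻¹ * g * c * ((a : G)⁻¹ * g)⁻¹ = (a : G)⁻¹ * (g * c * g⁻¹ * a) := by group
        _ = g * c * g⁻¹ := by rw [← h3]; group
    · rw [Cfsg.Agent.H4.Util.mem_smul_sylow]
      convert h2 using 1
      group
  rw [← hg'] at hg ⊢
  by_cases hS : g' • S = S
  · have := Sylow.smul_eq_iff_mem_normalizer.mp hS
    exact hn _ this
  · obtain ⟨U, hU⟩ := hCI S (g' • S) (fun h => hS h.symm)
    obtain ⟨u, hu⟩ := Cfsg.Agent.H4.Util.exists_sylow_conj S U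
    have key : ∀ x ∈ (S : Subgroup G) ⊓ ((g' • S : Sylow 2 G) : Subgroup G), ∀ s ∈ (S : Subgroup G),
        s * (u⁻¹ * x * u) = (u⁻¹ * x * u) * s := by
      intro x hx s hs
      obtain ⟨y, hy, hyx⟩ := hU hx
      have h1 : u * s * u⁻¹ ∈ (U : Subgroup G) := by
        rw [hu]; convert hs using 1; group
      have h2 := (Subgroup.mem_center_iff.mp hy) ⟨_, h1⟩
      have h3 : (u * s * u⁻¹) * x = x * (u * s * u⁻¹) := by
        rw [← hyx]
        exact congrArg (fun z : (U : Subgroup G) => (z : G)) h2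
      calc s * (u⁻¹ * x * u) = u⁻¹ * ((u * s * u⁻¹) * x) * u := by group
        _ = _ := by rw [h3]; group
    have h1 := L1 u⁻¹ (by
      rw [inv_inv]
      exact key c ⟨hcS, hcg'⟩)
    have h2 := L1 (u⁻¹ * g') (by
      have h0 : g' * c * g'⁻¹ ∈ ((g' • S : Sylow 2 G) : Subgroup G) := by
        rw [Cfsg.Agent.H4.Util.mem_smul_sylow]; convert hcS using 1; group
      have := key (g' * c * g'⁻¹) ⟨hg, h0⟩
      have e : u⁻¹ * g' * c * (u⁻¹ * g')⁻¹ = u⁻¹ * (g' * c * g'⁻¹) * u := by group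
      rw [e]; exact this)
    have e1 : g' * c * g'⁻¹ = u * (u⁻¹ * g' * c * (u⁻¹ * g')⁻¹) * u⁻¹ := by group
    have e2 : c = u * (u⁻¹ * c * (u⁻¹)⁻¹) * u⁻¹ := by group
    rw [e1, h2]
    conv_rhs => rw [e2, h1]

/-- Let G be a finite group in which the intersection of any two distinct Sylow 2-subgroups is contained in the centre of some Sylow 2-subgroup, and let S be a Sylow 2-subgroup. If C is a nontrivial cyclic characteristic subgroup of S, then the involution of C is central modulo the largest normal subgroup of odd order of G: each of its conjugates has the same image in G/O(G). -/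
theorem result {G : Type*} [Group G] [Finite G]
    (hCI : ∀ S T : Sylow 2 G, S ≠ T → ∃ U : Sylow 2 G,
      (S : Subgroup G) ⊓ (T : Subgroup G) ≤ (Subgroup.center ↥(U : Subgroup G)).map (U : Subgroup G).subtype)
    (S : Sylow 2 G) (C : Subgroup ↥(S : Subgroup G)) (hC : C ≠ ⊥) (hCc : IsCyclic ↥C) (hCh : C.Characteristic)
    (c : ↥(S : Subgroup G)) (hc : c ∈ C) (hc2 : orderOf c = 2) :
    ∀ g : G, (QuotientGroup.mk (s := Cfsg.oddCore G) (g * (c : G) * g⁻¹)) =
      QuotientGroup.mk (s := Cfsg.oddCore G) (c : G) := by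
  have hcc : orderOf (c : G) = 2 := by rw [Subgroup.orderOf_coe]; exact hc2
  have hI := aux hCI S c.2 hcc (by
    intro n hn
    -- conjugation by n restricted to S
    have hmap : ∀ x : (S : Subgroup G), n * (x : G) * n⁻¹ ∈ (S : Subgroup G) := fun x =>
      (Subgroup.mem_normalizer_iff.mp hn x).mp x.2
    let φ : ↥(S : Subgroup G) ≃* ↥(S : Subgroup G) :=
      { toFun := fun x => ⟨n * x * n⁻¹, hmap x⟩
        invFun := fun x => ⟨n⁻¹ * x * n, by
          have h1 := (Subgroup.mem_normalizer_iff.mp ((Subgroup.normalizer _).inv_mem hn) (x : G)).mp x.2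
          simpa using h1⟩
        left_inv := fun x => Subtype.ext (by simp [mul_assoc])
        right_inv := fun x => Subtype.ext (by simp [mul_assoc])
        map_mul' := fun x y => Subtype.ext (by simp [mul_assoc]) }
    have h1 : φ c ∈ C := by
      have h2 := hCh.fixed φ
      have : c ∈ C.comap φ.toMonoidHom := by rw [h2]; exact hc
      exact this
    have h3 : orderOf (φ c) = 2 := by rw [MulEquiv.orderOf_eq]; exact hc2
    have h4 : (⟨φ c, h1⟩ : C) = ⟨c, hc⟩ := Cfsg.Agent.H4.Util.cyclic_unique_involution hCc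
      (by rw [← Subgroup.orderOf_coe]; exact h3) (by rw [← Subgroup.orderOf_coe]; exact hc2)
    have h5 : φ c = c := congrArg (fun x : C => (x : (S : Subgroup G))) h4
    exact congrArg (fun x : (S : Subgroup G) => (x : G)) h5)
  intro g
  rw [QuotientGroup.eq]
  have h1 := Cfsg.Agent.H4.ZStar.zstar hI g
  have hN : (Cfsg.oddCore G).Normal := inferInstance
  have h2 := hN.conj_mem _ h1 (c : G)⁻¹
  convert h2 using 1
  group

end Cfsg.Agent.S3184
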