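import Cfsg.Statements.S3190
import Mathlib
import Cfsg.Agent.H13_Syl
import Cfsg.Agent.H1_Coprime2
import Cfsg.Agent.H2_PGroup
import Cfsg.Agent.H11_Cores
import Cfsg.Agent.H22_Basic

set_option autoImplicit false
open Cfsg

namespace Cfsg.Agent.S3190


/-- Let p be an odd prime and, inside a finite group, let P be a p-subgroup normalized by a Klein four-group T. Let R be a subgroup of P, normal in P and normalized by T, such that P is the product of R with the centralizer of T in P. If T centralizes the centre of P, then T centralizes the centre of R. -/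
theorem result {X : Type*} [Group X] [Finite X]
    {p : ℕ} (hp : p.Prime) (hodd : Odd p) (P T R : Subgroup X) (hP : IsPGroup p ↥P) (hT : IsKleinFour ↥T)
    (hTP : T ≤ Subgroup.normalizer (P : Set X)) (hRP : R ≤ P) (hRn : (R.subgroupOf P).Normal)
    (hTR : T ≤ Subgroup.normalizer (R : Set X)) (hfac : R ⊔ (P ⊓ Subgroup.centralizer (T : Set X)) = P)
    (hZ : T ≤ Subgroup.centralizer (((Subgroup.center ↥P).map P.subtype : Subgroup X) : Set X)) :
    T ≤ Subgroup.centralizer (((Subgroup.center ↥R).map R.subtype : Subgroup X) : Set X) := by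
  classical
  have : Fact p.Prime := ⟨hp⟩
  set Z := (Subgroup.center ↥R).map R.subtype with hZdef
  have hZR : Z ≤ R := Subgroup.map_subtype_le _
  have hNR : Subgroup.normalizer (R : Set X) ≤ Subgroup.normalizer (Z : Set X) :=
    H11.Cores.le_normalizer_map_subtype_of_characteristic R (Subgroup.center R)
  have hTZ : T ≤ Subgroup.normalizer (Z : Set X) := hTR.trans hNR
  have hPR : P ≤ Subgroup.normalizer (R : Set X) := Subgroup.normal_subgroupOf_iff_le_normalizer hRP |>.1 hRn
  have hPZ : P ≤ Subgroup.normalizer (Z : Set X) := hPR.trans hNR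
  have hZcomm : IsMulCommutative Z := by
    refine ⟨⟨?_⟩⟩
    rintro ⟨_, ⟨x, hx, rfl⟩⟩ ⟨_, ⟨y, hy, rfl⟩⟩
    have h1 := congrArg Subtype.val (Subgroup.mem_center_iff.1 hy x)
    apply Subtype.ext
    exact h1
  have hRcent : R ≤ Subgroup.centralizer (Z : Set X) := by
    intro r hr
    rw [Subgroup.mem_centralizer_iff]
    rintro _ ⟨y, hy, rfl⟩
    exact (congrArg Subtype.val (Subgroup.mem_center_iff.1 hy ⟨r, hr⟩)).symm
  have hcop : (Nat.card T).Coprime (Nat.card Z) := by
    obtain ⟨n, hn⟩ := IsPGroup.iff_card.1 (hP.to_le (hZR.trans hRP))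
    rw [hn, hT.card_four]
    apply Nat.Coprime.pow_right
    have : (2 ^ 2).Coprime p := Nat.Coprime.pow_left 2 (Nat.coprime_two_left.2 hodd)
    simpa using this
  have hdis := H1.Coprime.inf_commutator_eq_bot_of_abelian T Z hTZ hcop
  have hW : ⁅Z, T⁆ = ⊥ := by
    by_contra hne
    have hWZ : ⁅Z, T⁆ ≤ Z := H22.Basic.commutator_le_left hTZ
    have hPW : P ≤ Subgroup.normalizer ((⁅Z, T⁆ : Subgroup X) : Set X) := by
      rw [← hfac]
      apply sup_le
      · refine le_trans ?_ (Subgroup.centralizer_le_normalizer _)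
        exact hRcent.trans (Subgroup.centralizer_le hWZ)
      · apply H22.Basic.le_normalizer_commutator
        · exact inf_le_left.trans hPZ
        · exact inf_le_right.trans (Subgroup.centralizer_le_normalizer _)
    have hWP : ⁅Z, T⁆ ≤ P := hWZ.trans (hZR.trans hRP)
    have hn : (⁅Z, T⁆.subgroupOf P).Normal := Subgroup.normal_subgroupOf_iff_le_normalizer hWP |>.2 hPW
    have hne' : ⁅Z, T⁆.subgroupOf P ≠ ⊥ := by
      rw [ne_eq, Subgroup.subgroupOf_eq_bot]
      intro h
      rw [disjoint_iff, inf_eq_left.2 hWP] at h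
      exact hne h
    have h1 := H2.PGroup.inf_center_ne_bot hP hne'
    obtain ⟨x, hxm, hx1⟩ := Subgroup.nontrivial_iff_exists_ne_one _ |>.1 ((Subgroup.nontrivial_iff_ne_bot _).2 h1)
    rw [Subgroup.mem_inf] at hxm
    have hxW : (x : X) ∈ ⁅Z, T⁆ := Subgroup.mem_subgroupOf.1 hxm.1
    have hxZP : (x : X) ∈ (Subgroup.center ↥P).map P.subtype := ⟨x, hxm.2, rfl⟩
    have hxC : (x : X) ∈ Subgroup.centralizer (T : Set X) := by
      rw [Subgroup.mem_centralizer_iff]
      intro t ht
      exact (Subgroup.mem_centralizer_iff.1 (hZ ht) _ hxZP).symm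
    have : (x : X) ∈ (Z ⊓ Subgroup.centralizer (T : Set X)) ⊓ ⁅Z, T⁆ := ⟨⟨hWZ hxW, hxC⟩, hxW⟩
    rw [hdis, Subgroup.mem_bot] at this
    apply hx1
    exact Subtype.ext this
  rw [Subgroup.commutator_eq_bot_iff_le_centralizer] at hW
  rw [Subgroup.le_centralizer_iff]
  exact hW

end Cfsg.Agent.S3190
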