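import Cfsg.Statements.S3195
import Mathlib
import Cfsg.Agent.H19_BS

set_option autoImplicit false
open Cfsg

namespace Cfsg.Agent.S3195

open Cfsg.Agent.H19.Inv

theorem odd_sq {G : Type*} [Group G] {x : G} (ho : Odd (orderOf x)) (h : x = x⁻¹) : x = 1 := by
  have h1 : x ^ 2 = 1 := by
    rw [sq]; nth_rewrite 2 [h]; exact mul_inv_cancel x
  have h2 := orderOf_dvd_of_pow_eq_one h1
  rcases (Nat.dvd_prime Nat.prime_two).1 h2 with h3 | h3
  · exact orderOf_eq_one_iff.1 h3
  · rw [h3] at ho; exact absurd ho (by decide)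

theorem odd_mul_self {G : Type*} [Group G] {x : G} (ho : Odd (orderOf x)) : orderOf (x * x) = orderOf x := by
  rw [← sq]; exact Nat.Coprime.orderOf_pow (Nat.coprime_two_right.2 ho)

theorem core {G : Type*} [Group G] [Finite G] {a b w v : G} (ha : a * a = 1) (hb : b * b = 1) (hab : a * b = b * a)
    (hw1 : w ≠ 1) (hwo : Odd (orderOf w)) (haw : a * w * a⁻¹ = w⁻¹) (hbw : b * w = w * b)
    (hv1 : v ≠ 1) (hvo : Odd (orderOf v)) (hbv : b * v * b⁻¹ = v⁻¹) (hav : a * v = v * a)
    (H : ∀ x : G, (x = a ∨ x = b ∨ x = a * b) → ∀ g : G, ∃ y : G, (y = a ∨ y = b ∨ y = a * b) ∧ Commute (g * x * g⁻¹) y) : False := by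
  set X := w * w with hX
  set Y := v * v with hY
  have hai : a⁻¹ = a := inv_eq_of_mul_eq_one_left ha
  have hbi : b⁻¹ = b := inv_eq_of_mul_eq_one_left hb
  have hXo : Odd (orderOf X) := by rw [hX, odd_mul_self hwo]; exact hwo
  have hYo : Odd (orderOf Y) := by rw [hY, odd_mul_self hvo]; exact hvo
  have hX1 : X ≠ 1 := by
    intro h
    rw [← orderOf_eq_one_iff, hX, odd_mul_self hwo, orderOf_eq_one_iff] at h
    exact hw1 h
  have hY1 : Y ≠ 1 := by
    intro h
    rw [← orderOf_eq_one_iff, hY, odd_mul_self hvo, orderOf_eq_one_iff] at h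
    exact hv1 h
  have haX : a * X * a⁻¹ = X⁻¹ := by
    calc a * X * a⁻¹ = (a * w * a⁻¹) * (a * w * a⁻¹) := by rw [hX]; group
      _ = X⁻¹ := by rw [haw, hX]; group
  have hbY : b * Y * b⁻¹ = Y⁻¹ := by
    calc b * Y * b⁻¹ = (b * v * b⁻¹) * (b * v * b⁻¹) := by rw [hY]; group
      _ = Y⁻¹ := by rw [hbv, hY]; group
  have hbX : b * X = X * b := by
    have : Commute b w := hbw
    exact (this.mul_right this).eq
  have haY : a * Y = Y * a := by
    have : Commute a v := hav
    exact (this.mul_right this).eq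
  have hα : w⁻¹ * a * w = a * X := conj_of_inverts haw
  have hβ : v⁻¹ * b * v = b * Y := conj_of_inverts hbv
  have hαa : v⁻¹ * a * v = a := by rw [mul_assoc, hav]; group
  -- first application
  have hXY : X * Y = Y * X := by
    obtain ⟨y, hy, hc⟩ := H a (Or.inl rfl) (v * w⁻¹)
    have hc2 : Commute (a * X) (v⁻¹ * y * v) := by
      have h1 := commute_conj v⁻¹ hc
      have e1 : v⁻¹ * (v * w⁻¹ * a * (v * w⁻¹)⁻¹) * v⁻¹⁻¹ = a * X := by
        rw [← hα]; group
      rw [e1, inv_inv] at h1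
      exact h1
    rcases hy with rfl | rfl | rfl
    · exfalso
      rw [hαa] at hc2
      have h2 : X⁻¹ = X := by
        calc X⁻¹ = y * X * y⁻¹ := haX.symm
          _ = y * X * y := by rw [hai]
          _ = X := by
            have : y * X * y = y * (y * X) := hc2.eq
            rw [this, ← mul_assoc, ha, one_mul]
      exact hX1 (odd_sq hXo h2.symm)
    · rw [hβ] at hc2
      have h1 : a * X * (y * Y) = y * Y * (a * X) := hc2.eq
      have h2 : (a * y) * (X * Y) = (a * y) * (Y * X) := by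
        calc (a * y) * (X * Y) = a * (y * X) * Y := by group
          _ = a * X * (y * Y) := by rw [hbX]; group
          _ = y * Y * (a * X) := h1
          _ = y * (Y * a) * X := by group
          _ = y * (a * Y) * X := by rw [haY]
          _ = (y * a) * (Y * X) := by group
          _ = _ := by rw [hab]
      exact mul_left_cancel h2
    · exfalso
      have e2 : v⁻¹ * (a * b) * v = a * (b * Y) := by
        calc v⁻¹ * (a * b) * v = (v⁻¹ * a * v) * (v⁻¹ * b * v) := by group
          _ = _ := by rw [hαa, hβ]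
      rw [e2] at hc2
      have h1 : a * X * (a * (b * Y)) = a * (b * Y) * (a * X) := hc2.eq
      have h2 : X⁻¹ * Y = Y * X := by
        have h3 : b * (X⁻¹ * Y) = b * (Y * X) := by
          calc b * (X⁻¹ * Y) = (b * X⁻¹) * Y := by group
            _ = (X⁻¹ * b) * Y := by
              have : Commute b X := hbX
              rw [this.inv_right.eq]
            _ = (a * X * a⁻¹) * b * Y := by rw [haX]
            _ = a * X * (a * (b * Y)) := by rw [hai]; group
            _ = a * (b * Y) * (a * X) := h1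
            _ = a * b * (Y * a) * X := by group
            _ = (a * b) * (a * Y) * X := by rw [haY]
            _ = (b * a) * (a * Y) * X := by rw [hab]
            _ = b * (a * a) * (Y * X) := by group
            _ = _ := by rw [ha, mul_one]
        exact mul_left_cancel h3
      -- Y inverts X
      have h4 : Y⁻¹ * X⁻¹ * Y = X := by
        rw [mul_assoc, h2]; group
      have h5 : Y⁻¹ * X * Y = X⁻¹ := by
        have : Y⁻¹ * X * Y = (Y⁻¹ * X⁻¹ * Y)⁻¹ := by group
        rw [this, h4]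
      have h6 : Commute X (Y * Y) := by
        have : (Y * Y)⁻¹ * X * (Y * Y) = X := by
          calc (Y * Y)⁻¹ * X * (Y * Y) = Y⁻¹ * (Y⁻¹ * X * Y) * Y := by group
            _ = X := by rw [h5, h4]
        show X * (Y * Y) = Y * Y * X
        calc X * (Y * Y) = Y * Y * ((Y * Y)⁻¹ * X * (Y * Y)) := by group
          _ = _ := by rw [this]
      obtain ⟨m, hm⟩ := exists_pow_eq_self_of_coprime (n := 2) (x := Y) (Nat.coprime_two_left.2 hYo)
      have h7 : Commute X Y := by
        rw [← hm, sq]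
        exact h6.pow_right m
      have h8 : X = X⁻¹ := by
        rw [← h5, mul_assoc, h7.eq]; group
      exact hX1 (odd_sq hXo h8)
  -- second application
  set P := X * X with hP
  set Q := Y * Y with hQ
  have hPo : Odd (orderOf P) := by rw [hP, odd_mul_self hXo]; exact hXo
  have hQo : Odd (orderOf Q) := by rw [hQ, odd_mul_self hYo]; exact hYo
  have hP1 : P ≠ 1 := by
    intro h
    rw [← orderOf_eq_one_iff, hP, odd_mul_self hXo, orderOf_eq_one_iff] at h
    exact hX1 h
  have hQ1 : Q ≠ 1 := by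
    intro h
    rw [← orderOf_eq_one_iff, hQ, odd_mul_self hYo, orderOf_eq_one_iff] at h
    exact hY1 h
  have haP : a * P * a⁻¹ = P⁻¹ := by
    calc a * P * a⁻¹ = (a * X * a⁻¹) * (a * X * a⁻¹) := by rw [hP]; group
      _ = P⁻¹ := by rw [haX, hP]; group
  have hbQ : b * Q * b⁻¹ = Q⁻¹ := by
    calc b * Q * b⁻¹ = (b * Y * b⁻¹) * (b * Y * b⁻¹) := by rw [hQ]; group
      _ = Q⁻¹ := by rw [hbY, hQ]; group
  have hbP : Commute b P := by
    have : Commute b X := hbX
    exact this.mul_right this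
  have haQ : Commute a Q := by
    have : Commute a Y := haY
    exact this.mul_right this
  have hPQ : Commute P Q := by
    have : Commute X Y := hXY
    exact (this.mul_right this).mul_left (this.mul_right this)
  have hbPc : b * P * b⁻¹ = P := by rw [hbP.eq]; group
  have haQc : a * Q * a⁻¹ = Q := by rw [haQ.eq]; group
  have hγ : (X * Y)⁻¹ * (a * b) * (X * Y)⁻¹⁻¹ = a * b * (P * Q) := by
    rw [inv_inv]
    have e1 : X⁻¹ * a * X = a * P := conj_of_inverts haX
    have e2 : Y⁻¹ * b * Y = b * Q := conj_of_inverts hbY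
    have e3 : X⁻¹ * b * X = b := by rw [mul_assoc, hbX]; group
    have e4 : Y⁻¹ * a * Y = a := by rw [mul_assoc, haY]; group
    have e5 : Y⁻¹ * P * Y = P := by
      have : Commute Y P := by
        have : Commute X Y := hXY
        exact (this.mul_left this).symm
      rw [mul_assoc, ← this.eq]; group
    calc (X * Y)⁻¹ * (a * b) * (X * Y) = Y⁻¹ * ((X⁻¹ * a * X) * (X⁻¹ * b * X)) * Y := by group
      _ = Y⁻¹ * ((a * P) * b) * Y := by rw [e1, e3]
      _ = (Y⁻¹ * a * Y) * (Y⁻¹ * P * Y) * (Y⁻¹ * b * Y) := by group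
      _ = a * P * (b * Q) := by rw [e4, e5, e2]
      _ = a * (P * b) * Q := by group
      _ = a * (b * P) * Q := by rw [hbP.eq]
      _ = _ := by group
  obtain ⟨y, hy, hc⟩ := H (a * b) (Or.inr (Or.inr rfl)) (X * Y)⁻¹
  rw [hγ] at hc
  have hc' : y * (a * b * (P * Q)) * y⁻¹ = a * b * (P * Q) := by rw [← hc.eq]; group
  have haab : a * (a * b) * a⁻¹ = a * b := by rw [hab]; rw [← mul_assoc, hab]; group
  have hbab : b * (a * b) * b⁻¹ = a * b := by
    calc b * (a * b) * b⁻¹ = b * a := by group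
      _ = a * b := hab.symm
  rcases hy with rfl | rfl | rfl
  · have h1 : y * b * (P⁻¹ * Q) = y * b * (P * Q) := by
      calc y * b * (P⁻¹ * Q) = (y * (y * b) * y⁻¹) * ((y * P * y⁻¹) * (y * Q * y⁻¹)) := by rw [haab, haP, haQc]
        _ = y * (y * b * (P * Q)) * y⁻¹ := by group
        _ = _ := hc'
    have h2 := mul_right_cancel (mul_left_cancel h1)
    exact hP1 (odd_sq hPo h2.symm)
  · have h1 : a * y * (P * Q⁻¹) = a * y * (P * Q) := by
      calc a * y * (P * Q⁻¹) = (y * (a * y) * y⁻¹) * ((y * P * y⁻¹) * (y * Q * y⁻¹)) := by rw [hbab, hbPc, hbQ]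
        _ = y * (a * y * (P * Q)) * y⁻¹ := by group
        _ = _ := hc'
    have h2 := mul_left_cancel (mul_left_cancel h1)
    exact hQ1 (odd_sq hQo h2.symm)
  · have h1 : a * b * (P⁻¹ * Q⁻¹) = a * b * (P * Q) := by
      calc a * b * (P⁻¹ * Q⁻¹) = (a * b) * ((a * (b * P * b⁻¹) * a⁻¹) * (a * (b * Q * b⁻¹) * a⁻¹)) := by
            rw [hbPc, haP, hbQ]
            have : a * Q⁻¹ * a⁻¹ = Q⁻¹ := by rw [haQ.inv_right.eq]; group
            rw [this]
        _ = (a * b) * (a * b * (P * Q)) * (a * b)⁻¹ := by group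
        _ = _ := hc'
    have h2 : P⁻¹ * Q⁻¹ = P * Q := mul_left_cancel h1
    have h3 : P⁻¹ * P⁻¹ = Q * Q := by
      calc P⁻¹ * P⁻¹ = P⁻¹ * (P⁻¹ * Q⁻¹) * Q := by group
        _ = P⁻¹ * (P * Q) * Q := by rw [h2]
        _ = Q * Q := by group
    have h4 : P * P = Q * Q := by
      calc P * P = (a * P * a⁻¹)⁻¹ * (a * P * a⁻¹)⁻¹ := by rw [haP]; group
        _ = a * (P⁻¹ * P⁻¹) * a⁻¹ := by group
        _ = a * (Q * Q) * a⁻¹ := by rw [h3]
        _ = (a * Q * a⁻¹) * (a * Q * a⁻¹) := by group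
        _ = Q * Q := by rw [haQc]
    have h5 : (P * P) = (P * P)⁻¹ := by
      rw [mul_inv_rev, h3, h4]
    have h6 : Odd (orderOf (P * P)) := by rw [odd_mul_self hPo]; exact hPo
    have h7 := odd_sq h6 h5
    rw [← orderOf_eq_one_iff, odd_mul_self hPo, orderOf_eq_one_iff] at h7
    exact hP1 h7

/-- Let A be a Klein four-subgroup of a finite group G. If every G-conjugate of every involution of A commutes with some involution of A (its centralizer meets A nontrivially), then A meets the largest normal 2-subgroup O₂(G) nontrivially. -/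
theorem result {G : Type*} [Group G] [Finite G]
    (A : Subgroup G) (hA : IsKleinFour ↥A)
    (h : ∀ a ∈ A, a ≠ 1 → ∀ g : G, A ⊓ Subgroup.centralizer ({g * a * g⁻¹} : Set G) ≠ ⊥) :
    A ⊓ Cfsg.pCore 2 G ≠ ⊥ := by
  classical
  by_contra hbot
  -- elements of A
  have hsq : ∀ a ∈ A, a * a = 1 := by
    intro a ha
    have h1 := Monoid.pow_exponent_eq_one (⟨a, ha⟩ : A)
    rw [hA.exponent_two, sq] at h1
    exact congrArg Subtype.val h1
  have hcomm : ∀ a ∈ A, ∀ b ∈ A, a * b = b * a := by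
    intro a ha b hb
    have e1 : a⁻¹ = a := inv_eq_of_mul_eq_one_left (hsq a ha)
    have e2 : b⁻¹ = b := inv_eq_of_mul_eq_one_left (hsq b hb)
    have e3 : (a * b)⁻¹ = a * b := inv_eq_of_mul_eq_one_left (hsq _ (A.mul_mem ha hb))
    rw [mul_inv_rev, e1, e2] at e3
    exact e3.symm
  have hgen : ∀ a ∈ A, a ≠ 1 → ∀ b ∈ A, b ≠ 1 → a ≠ b → ∀ y ∈ A, y = 1 ∨ y = a ∨ y = b ∨ y = a * b := by
    intro a ha ha1 b hb hb1 hab
    have h1 : ({1, a, b, a * b} : Set G) ⊆ (A : Set G) := by
      intro y hy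
      simp only [Set.mem_insert_iff, Set.mem_singleton_iff] at hy
      rcases hy with rfl | rfl | rfl | rfl
      · exact A.one_mem
      · exact ha
      · exact hb
      · exact A.mul_mem ha hb
    have hne : a * b ≠ 1 := by
      intro h
      apply hab
      have : a * (a * b) = a * 1 := by rw [h]
      rw [← mul_assoc, hsq a ha, one_mul, mul_one] at this
      exact this.symm
    have h2 : Set.ncard ({1, a, b, a * b} : Set G) = 4 := by
      rw [Set.ncard_insert_of_notMem, Set.ncard_insert_of_notMem, Set.ncard_pair]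
      · intro h
        exact ha1 (mul_eq_right.1 h.symm)
      · simp only [Set.mem_insert_iff, Set.mem_singleton_iff, not_or]
        exact ⟨hab, fun h => hb1 (mul_eq_left.1 h.symm)⟩
      · simp only [Set.mem_insert_iff, Set.mem_singleton_iff, not_or]
        exact ⟨Ne.symm ha1, Ne.symm hb1, Ne.symm hne⟩
    have h3 : Set.ncard (A : Set G) = 4 := hA.card_four
    have h5 := Set.eq_of_subset_of_ncard_le h1 (by rw [h2, h3]) (Set.toFinite _)
    intro y hy
    have : y ∈ (A : Set G) := hy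
    rw [← h5] at this
    simpa using this
  have hord : ∀ a ∈ A, a ≠ 1 → orderOf a = 2 := fun a ha ha1 => inv_iff.2 ⟨hsq a ha, ha1⟩
  have hnot : ∀ a ∈ A, a ≠ 1 → a ∉ Cfsg.pCore 2 G := by
    intro a ha ha1 haO
    apply ha1
    have : a ∈ A ⊓ Cfsg.pCore 2 G := ⟨ha, haO⟩
    rw [hbot] at this
    exact this
  have hcommex : ∀ a ∈ A, a ≠ 1 → ∀ g : G, ∃ y ∈ A, y ≠ 1 ∧ Commute (g * a * g⁻¹) y := by
    intro a ha ha1 g
    obtain ⟨y, hy⟩ := (Subgroup.ne_bot_iff_exists_ne_one).1 (h a ha ha1 g)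
    refine ⟨y, y.2.1, fun h => hy (Subtype.ext h), ?_⟩
    have := y.2.2
    have h2 : (y : G) ∈ Subgroup.centralizer ({g * a * g⁻¹} : Set G) := this
    rw [Subgroup.mem_centralizer_singleton_iff] at h2
    exact h2.symm
  -- for each a some b ≠ a with w
  have hw : ∀ a ∈ A, a ≠ 1 → ∃ b ∈ A, b ≠ 1 ∧ b ≠ a ∧ ∃ w : G, w ≠ 1 ∧ Odd (orderOf w) ∧ a * w * a⁻¹ = w⁻¹ ∧ b * w = w * b := by
    intro a ha ha1
    obtain ⟨w, hw1, hwo, hinv, g, hg⟩ := H19.BS.exists_odd_inverted (hord a ha ha1) (hnot a ha ha1)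
    obtain ⟨b, hb, hb1, hc⟩ := hcommex a ha ha1 g
    rw [hg] at hc
    have haa := hsq a ha
    have hba : b ≠ a := by
      rintro rfl
      apply hw1
      apply odd_sq hwo
      have h1 : b * w * b = b * (b * w) := hc.eq
      rw [← mul_assoc, haa, one_mul] at h1
      have hbi : b⁻¹ = b := inv_eq_of_mul_eq_one_left haa
      rw [hbi] at hinv
      rw [← hinv, h1]
    refine ⟨b, hb, hb1, hba, w, hw1, hwo, hinv, ?_⟩
    have h1 : a * w * b = b * (a * w) := hc.eq
    have h2 : a * (b * w) = a * (w * b) := by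
      calc a * (b * w) = (a * b) * w := by group
        _ = (b * a) * w := by rw [hcomm a ha b hb]
        _ = b * (a * w) := by group
        _ = a * w * b := h1.symm
        _ = _ := by group
    exact mul_left_cancel h2
  -- now combine
  have hcomb : ∀ a ∈ A, a ≠ 1 → ∀ b ∈ A, b ≠ 1 → a ≠ b →
      (∃ w : G, w ≠ 1 ∧ Odd (orderOf w) ∧ a * w * a⁻¹ = w⁻¹ ∧ b * w = w * b) →
      (∃ v : G, v ≠ 1 ∧ Odd (orderOf v) ∧ b * v * b⁻¹ = v⁻¹ ∧ a * v = v * a) → False := by
    rintro a ha ha1 b hb hb1 hab ⟨w, hw1, hwo, haw, hbw⟩ ⟨v, hv1, hvo, hbv, hav⟩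
    have hg := hgen a ha ha1 b hb hb1 hab
    have hne : a * b ≠ 1 := by
      intro h
      apply hab
      have : a * (a * b) = a * 1 := by rw [h]
      rw [← mul_assoc, hsq a ha, one_mul, mul_one] at this
      exact this.symm
    apply core (hsq a ha) (hsq b hb) (hcomm a ha b hb) hw1 hwo haw hbw hv1 hvo hbv hav
    intro x hx g
    have hxA : x ∈ A := by
      rcases hx with rfl | rfl | rfl
      · exact ha
      · exact hb
      · exact A.mul_mem ha hb
    have hx1 : x ≠ 1 := by
      rcases hx with rfl | rfl | rfl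
      · exact ha1
      · exact hb1
      · exact hne
    obtain ⟨y, hy, hy1, hc⟩ := hcommex x hxA hx1 g
    exact ⟨y, (hg y hy).resolve_left hy1, hc⟩
  have hinvmul : ∀ a ∈ A, ∀ b ∈ A, ∀ w : G, a * w * a⁻¹ = w⁻¹ → b * w = w * b → (a * b) * w * (a * b)⁻¹ = w⁻¹ := by
    intro a ha b hb w h1 h2
    calc (a * b) * w * (a * b)⁻¹ = a * (b * w * b⁻¹) * a⁻¹ := by group
      _ = a * w * a⁻¹ := by rw [h2]; group
      _ = _ := h1
  have hcommul : ∀ a ∈ A, ∀ b ∈ A, ∀ w : G, a * w = w * a → b * w = w * b → (a * b) * w = w * (a * b) := by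
    intro a ha b hb w h1 h2
    calc (a * b) * w = a * (b * w) := by group
      _ = (a * w) * b := by rw [h2]; group
      _ = _ := by rw [h1]; group
  -- pick a ≠ 1
  obtain ⟨a, ha⟩ : ∃ a : A, a ≠ 1 := by
    have : Nontrivial A := by
      rw [← Finite.one_lt_card_iff_nontrivial, hA.card_four]; norm_num
    exact exists_ne 1
  have ha1 : (a : G) ≠ 1 := fun h => ha (Subtype.ext h)
  obtain ⟨b, hb, hb1, hba, w, hw1, hwo, haw, hbw⟩ := hw a a.2 ha1
  set c := (a : G) * b with hc
  have hcA : c ∈ A := A.mul_mem a.2 hb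
  have hc1 : c ≠ 1 := by
    intro h
    apply hba
    have : (a : G) * (a * b) = a * 1 := by rw [← hc, h]
    rw [← mul_assoc, hsq a a.2, one_mul, mul_one] at this
    exact this
  have hca : c ≠ a := by
    intro h
    apply hb1
    have : (a : G) * b = a * 1 := by rw [mul_one]; exact h
    exact mul_left_cancel this
  have hcb : c ≠ b := by
    intro h
    apply ha1
    have : (a : G) * b = 1 * b := by rw [one_mul]; exact h
    exact mul_right_cancel this
  -- w ∈ W_b ; now apply to b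
  obtain ⟨d, hd, hd1, hdb, v, hv1, hvo, hbv, hdv⟩ := hw b hb hb1
  rcases hgen a a.2 ha1 b hb hb1 (Ne.symm hba) d hd with h | h | h | h
  · exact hd1 h
  · exact hcomb a a.2 ha1 b hb hb1 (Ne.symm hba) ⟨w, hw1, hwo, haw, hbw⟩ ⟨v, hv1, hvo, hbv, by rw [← h]; exact hdv⟩
  · exact hdb h
  · -- d = c : v inverted by b, centralised by c; w inverted by c, centralized by b
    have hwc : c * w * c⁻¹ = w⁻¹ := hinvmul a a.2 b hb w haw hbw
    exact hcomb c hcA hc1 b hb hb1 hcb ⟨w, hw1, hwo, hwc, hbw⟩ ⟨v, hv1, hvo, hbv, by rw [hc, ← h]; exact hdv⟩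

end Cfsg.Agent.S3195
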