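import Cfsg.Statements.S3196
import Mathlib
import Cfsg.Agent.H4_BaerSuzuki
import Cfsg.Agent.H1_Nilp
import Cfsg.Agent.H13_Syl

set_option autoImplicit false
open Cfsg

namespace Cfsg.Agent.S3196

open Subgroup

section elem
variable {G : Type*} [Group G] [Finite G] {p : ℕ} [hp : Fact p.Prime]

omit [Finite G] hp in
theorem zpowers_le_normalizer_of_commute {x y : G} (h : Commute x y) : zpowers x ≤ normalizer (zpowers y : Set G) := by
  rw [zpowers_le, mem_normalizer_iff]
  have key : ∀ z ∈ zpowers y, x * z * x⁻¹ = z := by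
    intro z hz
    obtain ⟨k, rfl⟩ := mem_zpowers_iff.1 hz
    rw [(h.zpow_right k).eq]; group
  intro z
  constructor
  · intro hz; rw [key z hz]; exact hz
  · intro hz
    have h1 := key _ hz
    have h2 : x * z * x⁻¹ = z := mul_left_cancel (mul_right_cancel h1)
    rw [h2] at hz; exact hz

omit [Finite G] hp in
theorem pgroup_zpowers {x : G} (hx : x ^ p = 1) : IsPGroup p (zpowers x) := by
  rintro ⟨z, hz⟩
  obtain ⟨k, rfl⟩ := mem_zpowers_iff.1 hz
  refine ⟨1, ?_⟩
  apply Subtype.ext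
  show (x ^ k) ^ (p ^ 1) = 1
  rw [pow_one, ← zpow_natCast, ← zpow_mul, mul_comm, zpow_mul, zpow_natCast, hx, one_zpow]

/-- class two lemma -/
theorem class_two {a b c : G} (ha : a ^ p = 1) (hb : b ^ p = 1) (hc : b⁻¹ * a⁻¹ * b * a = c)
    (hca : Commute c a) (hcb : Commute c b) : IsPGroup p (zpowers a ⊔ zpowers b : Subgroup G) := by
  have h1 : a⁻¹ * b * a = b * c := by rw [← hc]; group
  have hc1 : c ^ p = 1 := by
    have h2 : (a⁻¹ * b * a) ^ p = b ^ p * c ^ p := by rw [h1, hcb.symm.mul_pow]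
    have h3 : (a⁻¹ * b * a) ^ p = 1 := by
      have := conj_pow (a := a⁻¹) (b := b) (i := p)
      rw [inv_inv] at this
      rw [this, hb]; group
    rw [h3, hb, one_mul] at h2
    exact h2.symm
  have hB : IsPGroup p (zpowers b ⊔ zpowers c : Subgroup G) :=
    IsPGroup.to_sup_of_normal_right' (pgroup_zpowers hb) (pgroup_zpowers hc1) (zpowers_le_normalizer_of_commute hcb.symm)
  have hN : zpowers a ≤ normalizer ((zpowers b ⊔ zpowers c : Subgroup G) : Set G) := by
    rw [zpowers_le]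
    have h5 : (zpowers b ⊔ zpowers c : Subgroup G) ≤ H13.Syl.cj a (zpowers b ⊔ zpowers c) := by
      have hcmem : c ∈ H13.Syl.cj a (zpowers b ⊔ zpowers c) := by
        rw [H13.Syl.mem_cj]
        have : a⁻¹ * c * a = c := by rw [mul_assoc, hca.eq]; group
        rw [this]; exact mem_sup_right (mem_zpowers c)
      apply sup_le
      · rw [zpowers_le, H13.Syl.mem_cj, h1]
        exact mul_mem (mem_sup_left (mem_zpowers b)) (mem_sup_right (mem_zpowers c))
      · rw [zpowers_le]; exact hcmem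
    have h6 := Subgroup.eq_of_le_of_card_ge h5 (by rw [H13.Syl.card_cj])
    rw [H13.Syl.mem_normalizer_iff_cj]
    exact h6.symm
  have hall := IsPGroup.to_sup_of_normal_right' (pgroup_zpowers ha) hB hN
  apply hall.to_le
  apply sup_le le_sup_left
  exact le_sup_of_le_right le_sup_left

theorem pg_of_commute {a b : G} (ha : a ^ p = 1) (hb : b ^ p = 1) (h : Commute a b) :
    IsPGroup p (zpowers a ⊔ zpowers b : Subgroup G) := by
  apply class_two ha hb (c := 1) _ (Commute.one_left a) (Commute.one_left b)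
  rw [mul_assoc, mul_assoc, ← h.eq]; group

/-- relative Baer–Suzuki -/
theorem bs_rel (J : Subgroup G) {x : G} (hxJ : x ∈ J) (hx : x ^ p = 1)
    (h : ∀ g ∈ J, IsPGroup p (zpowers x ⊔ zpowers (g * x * g⁻¹) : Subgroup G)) :
    ∃ N : Subgroup G, N ≤ J ∧ J ≤ normalizer (N : Set G) ∧ IsPGroup p N ∧ x ∈ N := by
  have h1 : IsPGroup p (zpowers (⟨x, hxJ⟩ : J)) := pgroup_zpowers (Subtype.ext hx)
  obtain ⟨N, hN, hNp, hle⟩ := H4.BaerSuzuki.baer_suzuki (zpowers (⟨x, hxJ⟩ : J)) h1 (by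
    intro g
    have h2 := h g g.2
    have h3 : ((zpowers (⟨x, hxJ⟩ : J) ⊔ (zpowers (⟨x, hxJ⟩ : J)).map (MulAut.conj g).toMonoidHom : Subgroup J).map J.subtype) ≤
        (zpowers x ⊔ zpowers (g * x * g⁻¹) : Subgroup G) := by
      rw [Subgroup.map_le_iff_le_comap]
      apply sup_le
      · rw [zpowers_le, Subgroup.mem_comap]
        exact mem_sup_left (mem_zpowers x)
      · rw [Subgroup.map_le_iff_le_comap, zpowers_le, Subgroup.mem_comap, Subgroup.mem_comap]
        exact mem_sup_right (mem_zpowers _)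
    exact (h2.to_le h3).of_injective ((J.subtype).subgroupMap _) (fun a b hab => by
      have h9 : ((a : J) : G) = ((b : J) : G) := by
        have := Subtype.ext_iff.1 hab
        exact this
      exact Subtype.ext (Subtype.ext h9)))
  refine ⟨N.map J.subtype, Subgroup.map_subtype_le N, ?_, hNp.map _, ⟨⟨x, hxJ⟩, hle (mem_zpowers _), rfl⟩⟩
  have := Subgroup.le_normalizer_map (H := N) J.subtype
  rw [Subgroup.normalizer_eq_top N] at this
  rw [← MonoidHom.range_eq_map, Subgroup.range_subtype] at this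
  exact this

theorem bs_top {x : G} (hx : x ^ p = 1) (h : ∀ g : G, IsPGroup p (zpowers x ⊔ zpowers (g * x * g⁻¹) : Subgroup G)) :
    x ∈ Cfsg.pCore p G := by
  obtain ⟨N, _, hN, hNp, hxN⟩ := bs_rel (p := p) ⊤ (mem_top x) hx (fun g _ => h g)
  have hn : N.Normal := Subgroup.normalizer_eq_top_iff.1 (top_le_iff.1 hN)
  exact H1.Nilp.le_pCore hn hNp hxN

end elem

/-- The configuration in terms of elements. -/
structure Cf (G : Type*) [Group G] (p : ℕ) (K : Set G) : Prop where
  ne1 : ∀ x : G, x ∈ K → x ≠ 1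
  pw : ∀ x : G, x ∈ K → x ^ p = 1
  cj : ∀ x : G, x ∈ K → ∀ g : G, g * x * g⁻¹ ∈ K
  pow : ∀ x : G, x ∈ K → ∀ i : ℤ, x ^ i ≠ 1 → x ^ i ∈ K
  mul : ∀ x : G, x ∈ K → ∀ y : G, y ∈ K → Commute x y → x * y ≠ 1 → x * y ∈ K
  line : ∀ x : G, x ∈ K → ∀ y : G, y ∈ K → Commute x y → y ∉ Subgroup.zpowers x → ∀ w : G, w ∈ K → ∃ i j : ℤ, x ^ i * y ^ j ≠ 1 ∧ Commute w (x ^ i * y ^ j)
  ex : ∃ x : G, x ∈ K ∧ ∃ y : G, y ∈ K ∧ Commute x y ∧ y ∉ Subgroup.zpowers x

section cf
variable {G : Type*} [Group G] [Finite G] {p : ℕ} [hp : Fact p.Prime] {K : Set G} (h : Cf G p K)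

omit [Finite G] in
/-- a nontrivial power of an element of prime order generates the same group -/
theorem pow_gen {x : G} (hx : x ^ p = 1) {i : ℤ} (hi : x ^ i ≠ 1) : ∃ k : ℤ, (x ^ i) ^ k = x := by
  have hnd : ¬ (p : ℤ) ∣ i := by
    rintro ⟨m, rfl⟩
    apply hi
    rw [zpow_mul, zpow_natCast, hx, one_zpow]
  have hc : IsCoprime (p : ℤ) i := (Nat.prime_iff_prime_int.1 hp.out).coprime_iff_not_dvd.2 hnd
  obtain ⟨a, b, hab⟩ := hc
  refine ⟨b, ?_⟩
  have h1 : x ^ (a * p + b * i) = x := by rw [hab, zpow_one]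
  rw [zpow_add, mul_comm a, zpow_mul, zpow_natCast, hx, one_zpow, one_mul] at h1
  rw [← zpow_mul, mul_comm]; exact h1

omit [Finite G] in
theorem zpowers_eq_of_ne {x : G} (hx : x ^ p = 1) {i : ℤ} (hi : x ^ i ≠ 1) : zpowers (x ^ i) = zpowers x := by
  apply le_antisymm
  · rw [zpowers_le]; exact zpow_mem (mem_zpowers x) i
  · obtain ⟨k, hk⟩ := pow_gen hx hi
    rw [zpowers_le]
    have h2 := zpow_mem (mem_zpowers (x ^ i)) k
    rw [hk] at h2
    exact h2

omit [Finite G] in
theorem mem_zpowers_symm {x y : G} (hy : x ^ p = 1) (hxy : y ∈ zpowers x) (hy1 : y ≠ 1) : x ∈ zpowers y := by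
  obtain ⟨i, rfl⟩ := mem_zpowers_iff.1 hxy
  rw [zpowers_eq_of_ne hy hy1]; exact mem_zpowers x

include h
omit [Finite G] hp in
theorem line_mem {x y : G} (hx : x ∈ K) (hy : y ∈ K) (hxy : Commute x y) (i j : ℤ) (hne : x ^ i * y ^ j ≠ 1) : x ^ i * y ^ j ∈ K := by
  by_cases h1 : x ^ i = 1
  · rw [h1, one_mul] at hne ⊢
    exact h.pow y hy j hne
  by_cases h2 : y ^ j = 1
  · rw [h2, mul_one] at hne ⊢
    exact h.pow x hx i hne
  exact h.mul _ (h.pow x hx i h1) _ (h.pow y hy j h2) (hxy.zpow_zpow i j) hne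

/-- Part (ii), claim 1. -/
theorem claim1 (hO : ∀ x ∈ K, x ∉ Cfsg.pCore p G) {x y : G} (hx : x ∈ K) (hy : y ∈ K) (hxy : Commute x y) (hyx : y ∉ zpowers x) :
    ∃ z ∈ K, Commute x z ∧ z ∉ zpowers x ∧ (∃ i j : ℤ, z = x ^ i * y ^ j) ∧
      ∃ n : G, Commute n z ∧ ¬ IsPGroup p (zpowers x ⊔ zpowers (n * x * n⁻¹) : Subgroup G) := by
  have hx1 := h.pw x hx
  have h1 : ∃ g : G, ¬ IsPGroup p (zpowers x ⊔ zpowers (g * x * g⁻¹) : Subgroup G) := by
    by_contra hcon
    push Not at hcon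
    exact hO x hx (bs_top hx1 hcon)
  obtain ⟨g, hg⟩ := h1
  set x' := g * x * g⁻¹ with hx'
  have hx'K : x' ∈ K := h.cj x hx g
  have hx'1 := h.pw x' hx'K
  obtain ⟨i, j, hij, hc⟩ := h.line x hx y hy hxy hyx x' hx'K
  set z := x ^ i * y ^ j with hz
  have hzK : z ∈ K := line_mem h hx hy hxy i j hij
  have hxz : Commute x z := ((Commute.refl x).zpow_right i).mul_right (hxy.zpow_right j)
  have hzx : z ∉ zpowers x := by
    intro hzx
    apply hg
    apply pg_of_commute hx1 hx'1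
    obtain ⟨k, hk⟩ := mem_zpowers_iff.1 (mem_zpowers_symm hx1 hzx hij)
    rw [← hk]
    exact hc.symm.zpow_left k
  refine ⟨z, hzK, hxz, hzx, ⟨i, j, rfl⟩, ?_⟩
  set J := (zpowers x ⊔ zpowers x' : Subgroup G) with hJ
  have hJz : ∀ n ∈ J, Commute n z := by
    intro n hn
    have h3 : J ≤ centralizer ({z} : Set G) := by
      apply sup_le
      · rw [zpowers_le, Subgroup.mem_centralizer_singleton_iff]; exact hxz.eq
      · rw [zpowers_le, Subgroup.mem_centralizer_singleton_iff]; exact hc.eq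
    have h4 := h3 hn
    rw [Subgroup.mem_centralizer_singleton_iff] at h4
    exact h4
  by_contra hcon
  push Not at hcon
  obtain ⟨N, hNJ, hJN, hNp, hxN⟩ := bs_rel J (mem_sup_left (mem_zpowers x)) hx1 (fun n hn => hcon n (hJz n hn))
  apply hg
  have h5 : IsPGroup p (zpowers x' ⊔ N : Subgroup G) :=
    IsPGroup.to_sup_of_normal_right' (pgroup_zpowers hx'1) hNp (le_sup_right.trans hJN)
  apply h5.to_le
  apply sup_le
  · rw [zpowers_le]; exact mem_sup_right hxN
  · exact le_sup_left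

omit h [Finite G] in
theorem claim2 {x z n : G} (hx : x ^ p = 1) (hz : z ^ p = 1) (hnz : Commute n z) (hxz : Commute x z)
    (hn : ¬ IsPGroup p (zpowers x ⊔ zpowers (n * x * n⁻¹) : Subgroup G)) (i j : ℤ) (hi : x ^ i ≠ 1) :
    ¬ IsPGroup p (zpowers (x ^ i * z ^ j) ⊔ zpowers (n * (x ^ i * z ^ j) * n⁻¹) : Subgroup G) := by
  intro hP
  apply hn
  set u := x ^ i * z ^ j with hu
  have huz : Commute u z := (hxz.zpow_left i).mul_left ((Commute.refl z).zpow_left j)
  have hnuz : Commute (n * u * n⁻¹) z := (hnz.mul_left huz).mul_left hnz.inv_left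
  have h1 : IsPGroup p ((zpowers u ⊔ zpowers (n * u * n⁻¹)) ⊔ zpowers z : Subgroup G) := by
    apply IsPGroup.to_sup_of_normal_right' hP (pgroup_zpowers hz)
    exact sup_le (zpowers_le_normalizer_of_commute huz) (zpowers_le_normalizer_of_commute hnuz)
  apply h1.to_le
  obtain ⟨k, hk⟩ := pow_gen hx hi
  have hxi : x ^ i = u * (z ^ j)⁻¹ := by rw [hu]; group
  have hu' : u ∈ ((zpowers u ⊔ zpowers (n * u * n⁻¹)) ⊔ zpowers z : Subgroup G) := mem_sup_left (mem_sup_left (mem_zpowers u))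
  have hnu' : n * u * n⁻¹ ∈ ((zpowers u ⊔ zpowers (n * u * n⁻¹)) ⊔ zpowers z : Subgroup G) := mem_sup_left (mem_sup_right (mem_zpowers _))
  have hz' : z ∈ ((zpowers u ⊔ zpowers (n * u * n⁻¹)) ⊔ zpowers z : Subgroup G) := mem_sup_right (mem_zpowers z)
  apply sup_le
  · rw [zpowers_le, ← hk, hxi]
    exact zpow_mem (mul_mem hu' (inv_mem (zpow_mem hz' j))) k
  · rw [zpowers_le]
    have e1 : n * x * n⁻¹ = ((n * u * n⁻¹) * (z ^ j)⁻¹) ^ k := by
      have e2 : n * (z ^ j)⁻¹ * n⁻¹ = (z ^ j)⁻¹ := by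
        have : Commute n (z ^ j)⁻¹ := (hnz.zpow_right j).inv_right
        rw [this.eq]; group
      have e3 : (n * u * n⁻¹) * (z ^ j)⁻¹ = n * (x ^ i) * n⁻¹ := by
        calc (n * u * n⁻¹) * (z ^ j)⁻¹ = (n * u * n⁻¹) * (n * (z ^ j)⁻¹ * n⁻¹) := by rw [e2]
          _ = n * (u * (z ^ j)⁻¹) * n⁻¹ := by group
          _ = _ := by rw [hxi]
      rw [e3, conj_zpow, hk]
    rw [e1]
    exact zpow_mem (mul_mem hnu' (inv_mem (zpow_mem hz' j))) k

/-- Part (ii): some member lies in `O_p(G)`. -/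
theorem part2 : ∃ x ∈ K, x ∈ Cfsg.pCore p G := by
  by_contra hcon
  push Not at hcon
  obtain ⟨x₀, hx₀, y₀, hy₀, hxy₀, hyx₀⟩ := h.ex
  obtain ⟨y, hy, hxy, hyx, _, n, hny, hn⟩ := claim1 h hcon hx₀ hy₀ hxy₀ hyx₀
  have hx₀y : x₀ ∉ zpowers y := fun h1 => hyx (mem_zpowers_symm (h.pw y hy) h1 (h.ne1 x₀ hx₀))
  obtain ⟨x, hx, hyxc, hxy', ⟨i, j, hxe⟩, m, hmx, hm⟩ := claim1 h hcon hy hx₀ hxy.symm hx₀y
  -- x = y^i * x₀^j, x ∉ zpowers y so x₀^j ≠ 1
  have hj : x₀ ^ j ≠ 1 := by
    intro h1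
    apply hxy'
    rw [hxe, h1, mul_one]
    exact zpow_mem (mem_zpowers y) i
  have hn' : ¬ IsPGroup p (zpowers x ⊔ zpowers (n * x * n⁻¹) : Subgroup G) := by
    have := claim2 (h.pw x₀ hx₀) (h.pw y hy) hny hxy hn j i hj
    have e : x = x₀ ^ j * y ^ i := by rw [hxe]; exact ((hxy.zpow_zpow j i).eq).symm
    rw [e]; exact this
  clear hn hx₀y hxe hj hyx hxy hxy₀ hyx₀
  have hxy : Commute x y := hyxc.symm
  have hyx : y ∉ zpowers x := fun h1 => hxy' (mem_zpowers_symm (h.pw x hx) h1 (h.ne1 y hy))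
  set x' := n * x * n⁻¹ with hx'
  set y' := m * y * m⁻¹ with hy'
  have hx'K : x' ∈ K := h.cj x hx n
  have hy'K : y' ∈ K := h.cj y hy m
  have hxp := h.pw x hx
  have hyp := h.pw y hy
  have hx'p := h.pw x' hx'K
  have hy'p := h.pw y' hy'K
  have hx'y : Commute x' y := (hny.mul_left hxy).mul_left hny.inv_left
  have hy'x : Commute y' x := (hmx.mul_left hxy.symm).mul_left hmx.inv_left
  have nxx : ¬ Commute x x' := fun hc => hn' (pg_of_commute hxp hx'p hc)
  have nyy : ¬ Commute y y' := fun hc => hm (pg_of_commute hyp hy'p hc)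
  -- lines (x, y') and (y, x')
  have hy'x' : y' ∉ zpowers x := by
    intro h1
    obtain ⟨k, hk⟩ := mem_zpowers_iff.1 h1
    apply nyy
    rw [← hk]
    exact hxy.symm.zpow_right k
  have hx'y' : x' ∉ zpowers y := by
    intro h1
    obtain ⟨k, hk⟩ := mem_zpowers_iff.1 h1
    apply nxx
    rw [← hk]
    exact hxy.zpow_right k
  obtain ⟨i, hi⟩ : ∃ i : ℤ, Commute x' (x ^ i * y') := by
    obtain ⟨i, j, hij, hc⟩ := h.line x hx y' hy'K hy'x.symm hy'x' x' hx'K
    by_cases hj : y' ^ j = 1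
    · exfalso
      rw [hj, mul_one] at hij hc
      obtain ⟨k, hk⟩ := pow_gen hxp hij
      apply nxx
      rw [← hk]
      exact (hc.zpow_right k).symm
    · obtain ⟨k, hk⟩ := pow_gen hy'p hj
      refine ⟨i * k, ?_⟩
      have : x ^ (i * k) * y' = (x ^ i * y' ^ j) ^ k := by
        rw [(hy'x.symm.zpow_zpow i j).mul_zpow, hk, zpow_mul]
      rw [this]
      exact hc.zpow_right k
  obtain ⟨j, hj⟩ : ∃ j : ℤ, Commute y' (x' * y ^ j) := by
    obtain ⟨j, i, hij, hc⟩ := h.line y hy x' hx'K hx'y.symm hx'y' y' hy'K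
    by_cases hj : x' ^ i = 1
    · exfalso
      rw [hj, mul_one] at hij hc
      obtain ⟨k, hk⟩ := pow_gen hyp hij
      apply nyy
      rw [← hk]
      exact (hc.zpow_right k).symm
    · obtain ⟨k, hk⟩ := pow_gen hx'p hj
      refine ⟨j * k, ?_⟩
      have : x' * y ^ (j * k) = (y ^ j * x' ^ i) ^ k := by
        rw [(hx'y.symm.zpow_zpow j i).mul_zpow, hk, zpow_mul]
        exact (hx'y.zpow_right j |>.zpow_right k).eq
      rw [this]
      exact hc.zpow_right k
  have hx'y'c : Commute x' y' := by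
    set c := x'⁻¹ * (x ^ i)⁻¹ * x' * x ^ i with hc
    have R1 : c = x'⁻¹ * y' * x' * y'⁻¹ := by
      have h1 : x' * (x ^ i * y') = x ^ i * y' * x' := hi.eq
      have h2 : (x ^ i)⁻¹ * x' * x ^ i = y' * x' * y'⁻¹ := by
        calc (x ^ i)⁻¹ * x' * x ^ i = (x ^ i)⁻¹ * (x' * (x ^ i * y')) * y'⁻¹ := by group
          _ = (x ^ i)⁻¹ * (x ^ i * y' * x') * y'⁻¹ := by rw [h1]
          _ = _ := by group
      calc c = x'⁻¹ * ((x ^ i)⁻¹ * x' * x ^ i) := by rw [hc]; group
        _ = x'⁻¹ * (y' * x' * y'⁻¹) := by rw [h2]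
        _ = _ := by group
    have hx'yj : Commute x' (y ^ j) := hx'y.zpow_right j
    have R2 : c = y ^ j * y' * (y ^ j)⁻¹ * y'⁻¹ := by
      have h1 : y' * (x' * y ^ j) = x' * y ^ j * y' := hj.eq
      have h2 : x'⁻¹ * y' * x' = y ^ j * y' * (y ^ j)⁻¹ := by
        calc x'⁻¹ * y' * x' = x'⁻¹ * (y' * (x' * y ^ j)) * (y ^ j)⁻¹ := by group
          _ = x'⁻¹ * (x' * y ^ j * y') * (y ^ j)⁻¹ := by rw [h1]
          _ = _ := by group
      rw [R1, h2]
    have hcy : Commute c y := by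
      rw [hc]
      exact ((hx'y.inv_left.mul_left (hxy.zpow_left i).inv_left).mul_left hx'y).mul_left (hxy.zpow_left i)
    have hcx : Commute c x := by
      rw [R2]
      exact (((hxy.symm.zpow_left j).mul_left hy'x).mul_left (hxy.symm.zpow_left j).inv_left).mul_left hy'x.inv_left
    have hcx' : Commute c x' := by
      have e1 : x'⁻¹ * y' * x' = c * y' := by rw [R1]; group
      have e2 : y ^ j * y' * (y ^ j)⁻¹ = c * y' := by rw [R2]; group
      have e3 : x'⁻¹ * (y ^ j) * x' = y ^ j := by rw [mul_assoc, ← hx'yj.eq]; group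
      have e4 : x'⁻¹ * c * x' = c := by
        have hcyj : Commute c (y ^ j) := hcy.zpow_right j
        calc x'⁻¹ * c * x' = (x'⁻¹ * (y ^ j) * x') * (x'⁻¹ * y' * x') * (x'⁻¹ * (y ^ j) * x')⁻¹ * (x'⁻¹ * y' * x')⁻¹ := by
              nth_rewrite 1 [R2]; group
          _ = y ^ j * (c * y') * (y ^ j)⁻¹ * (c * y')⁻¹ := by rw [e3, e1]
          _ = (y ^ j * c) * y' * (y ^ j)⁻¹ * (c * y')⁻¹ := by group
          _ = (c * y ^ j) * y' * (y ^ j)⁻¹ * (c * y')⁻¹ := by rw [hcyj.eq]
          _ = c * (y ^ j * y' * (y ^ j)⁻¹) * (c * y')⁻¹ := by group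
          _ = c := by rw [e2]; group
      show c * x' = x' * c
      calc c * x' = x' * (x'⁻¹ * c * x') := by group
        _ = _ := by rw [e4]
    by_cases hxi : x ^ i = 1
    · have hc1 : c = 1 := by rw [hc, hxi]; group
      rw [hc1] at R1
      show x' * y' = y' * x'
      calc x' * y' = x' * 1 * y' := by group
        _ = x' * (x'⁻¹ * y' * x' * y'⁻¹) * y' := by rw [← R1]
        _ = _ := by group
    · exfalso
      apply hn'
      have h5 : (x ^ i) ^ p = 1 := by
        rw [← zpow_natCast, ← zpow_mul, mul_comm, zpow_mul, zpow_natCast, hxp, one_zpow]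
      have := class_two h5 hx'p hc.symm (hcx.zpow_right i) hcx'
      rw [zpowers_eq_of_ne hxp hxi] at this
      exact this
  -- the last step
  have hne : x' * y' ≠ 1 := by
    intro h1
    apply nxx
    have : x' = y'⁻¹ := eq_inv_of_mul_eq_one_left h1
    rw [this]
    exact hy'x.inv_left.symm
  have hwK := h.mul x' hx'K y' hy'K hx'y'c hne
  obtain ⟨k, l, hkl, hc⟩ := h.line x hx y hy hxy hyx _ hwK
  set e := x'⁻¹ * (x ^ k)⁻¹ * x' * x ^ k with he
  have he2 : e = y ^ l * y' * (y ^ l)⁻¹ * y'⁻¹ := by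
    have h1 : x' * y' * (x ^ k * y ^ l) = x ^ k * y ^ l * (x' * y') := hc.eq
    have c1 : Commute y' (x ^ k) := hy'x.zpow_right k
    have c2 : Commute (y ^ l) x' := (hx'y.zpow_right l).symm
    have h2 : x' * x ^ k * (y' * y ^ l) = x ^ k * x' * (y ^ l * y') := by
      calc x' * x ^ k * (y' * y ^ l) = x' * (x ^ k * y') * y ^ l := by group
        _ = x' * (y' * x ^ k) * y ^ l := by rw [c1.eq]
        _ = x' * y' * (x ^ k * y ^ l) := by group
        _ = x ^ k * y ^ l * (x' * y') := h1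
        _ = x ^ k * (y ^ l * x') * y' := by group
        _ = x ^ k * (x' * y ^ l) * y' := by rw [c2.eq]
        _ = _ := by group
    calc e = (x ^ k * x')⁻¹ * (x' * x ^ k * (y' * y ^ l)) * (y' * y ^ l)⁻¹ := by rw [he]; group
      _ = (x ^ k * x')⁻¹ * (x ^ k * x' * (y ^ l * y')) * (y' * y ^ l)⁻¹ := by rw [h2]
      _ = _ := by group
  have hex : Commute e x := by
    rw [he2]
    exact (((hxy.symm.zpow_left l).mul_left hy'x).mul_left (hxy.symm.zpow_left l).inv_left).mul_left hy'x.inv_left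
  have hex' : Commute e x' := by
    rw [he2]
    exact (((hx'y.symm.zpow_left l).mul_left hx'y'c.symm).mul_left (hx'y.symm.zpow_left l).inv_left).mul_left hx'y'c.symm.inv_left
  by_cases hxk : x ^ k = 1
  · have he1 : e = 1 := by rw [he, hxk]; group
    rw [he1] at he2
    rw [hxk, one_mul] at hkl
    obtain ⟨q, hq⟩ := pow_gen hyp hkl
    apply nyy
    rw [← hq]
    have : Commute (y ^ l) y' := by
      show y ^ l * y' = y' * y ^ l
      calc y ^ l * y' = (y ^ l * y' * (y ^ l)⁻¹ * y'⁻¹) * (y' * y ^ l) := by group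
        _ = _ := by rw [← he2, one_mul]
    exact this.zpow_left q
  · apply hn'
    have h5 : (x ^ k) ^ p = 1 := by
      rw [← zpow_natCast, ← zpow_mul, mul_comm, zpow_mul, zpow_natCast, hxp, one_zpow]
    have := class_two h5 hx'p he.symm (hex.zpow_right k) hex'
    rw [zpowers_eq_of_ne hxp hxk] at this
    exact this
/-- Part (i), step 1: a member centralised by a Sylow `p`-subgroup, inside `O_p(G)`. -/
theorem step1 {O : Subgroup G} (hOn : O.Normal) (hex : ∃ x ∈ K, x ∈ O) (P : Subgroup G) (hP : IsPGroup p P) :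
    ∃ v ∈ K, v ∈ O ∧ ∀ g ∈ P, Commute g v := by
  classical
  obtain ⟨x, hx, hxO⟩ := hex
  have hxp := h.pw x hx
  have hx1 := h.ne1 x hx
  set T : Set G := {t | t ∈ O ∧ (t = 1 ∨ t ∈ K)} with hT
  have hTcj : ∀ g : G, ∀ t ∈ T, g * t * g⁻¹ ∈ T := by
    rintro g t ⟨h1, h2⟩
    refine ⟨hOn.conj_mem t h1 g, ?_⟩
    rcases h2 with h2 | h2
    · left; rw [h2]; group
    · right; exact h.cj t h2 g
  have hTfin : Finite T := inferInstance
  -- the number of elements of `T` is divisible by `p`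
  have hpT : p ∣ Nat.card T := by
    letI act : MulAction (zpowers x) T :=
      { smul := fun g t => ⟨(g : G) * t * (g : G)⁻¹, hTcj g t t.2⟩
        one_smul := fun t => Subtype.ext (by show ((1 : zpowers x) : G) * (t : G) * ((1 : zpowers x) : G)⁻¹ = t; simp)
        mul_smul := fun a b t => Subtype.ext (by
          show ((a * b : zpowers x) : G) * (t : G) * ((a * b : zpowers x) : G)⁻¹ = (a : G) * ((b : G) * t * (b : G)⁻¹) * (a : G)⁻¹
          rw [Subgroup.coe_mul]; group) }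
    have hmod := (pgroup_zpowers hxp).card_modEq_card_fixedPoints T
    have hfix : p ∣ Nat.card (MulAction.fixedPoints (zpowers x) T) := by
      have hmem : ∀ t : T, t ∈ MulAction.fixedPoints (zpowers x) T ↔ Commute x (t : G) := by
        intro t
        rw [MulAction.mem_fixedPoints]
        constructor
        · intro h1
          have h2 := congrArg Subtype.val (h1 ⟨x, mem_zpowers x⟩)
          change x * (t : G) * x⁻¹ = t at h2
          exact mul_inv_eq_iff_eq_mul.1 h2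
        · rintro h1 ⟨g, hg⟩
          obtain ⟨k, rfl⟩ := mem_zpowers_iff.1 hg
          apply Subtype.ext
          show x ^ k * (t : G) * (x ^ k)⁻¹ = t
          exact mul_inv_eq_iff_eq_mul.2 (h1.zpow_left k).eq
      have hstep : ∀ t : T, t ∈ MulAction.fixedPoints (zpowers x) T → x * (t : G) ∈ T := by
        intro t ht
        rw [hmem] at ht
        refine ⟨mul_mem hxO t.2.1, ?_⟩
        by_cases h1 : x * (t : G) = 1
        · left; exact h1
        right
        rcases t.2.2 with h2 | h2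
        · rw [h2, mul_one]; exact hx
        · exact h.mul x hx t h2 ht h1
      have hpow : ∀ (k : ℕ) (t : T), t ∈ MulAction.fixedPoints (zpowers x) T → x ^ k * (t : G) ∈ T ∧ Commute x (x ^ k * (t : G)) := by
        intro k
        induction k with
        | zero => intro t ht; rw [pow_zero, one_mul]; exact ⟨t.2, (hmem t).1 ht⟩
        | succ k ih =>
          intro t ht
          obtain ⟨h1, h2⟩ := ih t ht
          have h3 := hstep ⟨_, h1⟩ ((hmem _).2 h2)
          have e : x ^ (k + 1) * (t : G) = x * (x ^ k * (t : G)) := by rw [pow_succ']; group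
          rw [e]
          exact ⟨h3, (Commute.refl x).mul_right h2⟩
      letI act2 : MulAction (zpowers x) (MulAction.fixedPoints (zpowers x) T) :=
        { smul := fun g t => ⟨⟨(g : G) * ((t : T) : G), by
              obtain ⟨k, hk⟩ := (mem_powers_iff_mem_zpowers (x := x)).2 g.2
              have := (hpow k t.1 t.2).1
              change x ^ k = _ at hk
              rw [← hk]; exact this⟩, by
              rw [hmem]
              obtain ⟨k, hk⟩ := (mem_powers_iff_mem_zpowers (x := x)).2 g.2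
              have := (hpow k t.1 t.2).2
              change x ^ k = _ at hk
              show Commute x ((g : G) * _)
              rw [← hk]; exact this⟩
          one_smul := fun t => Subtype.ext (Subtype.ext (by show ((1 : zpowers x) : G) * ((t : T) : G) = _; simp))
          mul_smul := fun a b t => Subtype.ext (Subtype.ext (by
            show ((a * b : zpowers x) : G) * ((t : T) : G) = (a : G) * ((b : G) * ((t : T) : G))
            rw [Subgroup.coe_mul, mul_assoc])) }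
      have hmod2 := (pgroup_zpowers hxp).card_modEq_card_fixedPoints (MulAction.fixedPoints (zpowers x) T)
      have hemp : Nat.card (MulAction.fixedPoints (zpowers x) (MulAction.fixedPoints (zpowers x) T)) = 0 := by
        rw [Nat.card_eq_zero]
        left
        constructor
        rintro ⟨t, ht⟩
        rw [MulAction.mem_fixedPoints] at ht
        have h1 := congrArg (fun z : (MulAction.fixedPoints (zpowers x) T) => ((z : T) : G)) (ht ⟨x, mem_zpowers x⟩)
        change x * ((t : T) : G) = ((t : T) : G) at h1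
        exact hx1 (mul_eq_right.1 h1)
      rw [hemp] at hmod2
      exact (Nat.modEq_zero_iff_dvd).1 hmod2
    exact (Nat.modEq_zero_iff_dvd).1 (hmod.trans ((Nat.modEq_zero_iff_dvd).2 hfix))
  letI act3 : MulAction P T :=
    { smul := fun g t => ⟨(g : G) * t * (g : G)⁻¹, hTcj g t t.2⟩
      one_smul := fun t => Subtype.ext (by show ((1 : P) : G) * (t : G) * ((1 : P) : G)⁻¹ = t; simp)
      mul_smul := fun a b t => Subtype.ext (by
        show ((a * b : P) : G) * (t : G) * ((a * b : P) : G)⁻¹ = (a : G) * ((b : G) * t * (b : G)⁻¹) * (a : G)⁻¹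
        rw [Subgroup.coe_mul]; group) }
  have h1T : (1 : G) ∈ T := ⟨one_mem O, Or.inl rfl⟩
  obtain ⟨b, hb, hb1⟩ := hP.exists_fixed_point_of_prime_dvd_card_of_fixed_point (α := T) hpT
    (a := ⟨1, h1T⟩) (by
      rw [MulAction.mem_fixedPoints]
      intro g
      apply Subtype.ext
      show (g : G) * 1 * (g : G)⁻¹ = 1
      group)
  have hbne : (b : G) ≠ 1 := fun h1 => hb1 (Subtype.ext h1.symm)
  refine ⟨b, b.2.2.resolve_left hbne, b.2.1, ?_⟩
  intro g hg
  rw [MulAction.mem_fixedPoints] at hb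
  have h1 := congrArg Subtype.val (hb ⟨g, hg⟩)
  change g * (b : G) * g⁻¹ = b at h1
  exact mul_inv_eq_iff_eq_mul.1 h1

/-- the axis of a member acting on an abelian subgroup of members -/
theorem axis {E : Subgroup G} (hEn : E.Normal) (hEc : ∀ a ∈ E, ∀ b ∈ E, Commute a b) (hEK : ∀ a ∈ E, a ≠ 1 → a ∈ K)
    {w : G} (hw : w ∈ K) {e : G} (he : e ∈ E) : Commute w (e⁻¹ * (w * e * w⁻¹)) := by
  by_cases hwe : Commute w e
  · have : e⁻¹ * (w * e * w⁻¹) = 1 := by rw [hwe.eq]; group
    rw [this]; exact Commute.one_right w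
  have he1 : e ≠ 1 := by rintro rfl; exact hwe (Commute.one_right w)
  have heK := hEK e he he1
  have hep := h.pw e heK
  have hwp := h.pw w hw
  set f := w * e * w⁻¹ with hf
  have hfE : f ∈ E := hEn.conj_mem e he w
  have hfK : f ∈ K := h.cj e heK w
  have hfw : ¬ Commute w f := by
    intro h1
    apply hwe
    have h2 : w * (w * e * w⁻¹) = (w * e * w⁻¹) * w := h1.eq
    show w * e = e * w
    have h3 : w * (w * e * w⁻¹) * w⁻¹ = w * e * w⁻¹ := by rw [h2]; group
    have h4 : w * e * w⁻¹ = e := by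
      have : w * (w * e * w⁻¹) * w⁻¹ = w * (w * e * w⁻¹) * w⁻¹ := rfl
      calc w * e * w⁻¹ = w⁻¹ * (w * (w * e * w⁻¹) * w⁻¹) * w := by group
        _ = w⁻¹ * (w * e * w⁻¹) * w := by rw [h3]
        _ = e := by group
    calc w * e = (w * e * w⁻¹) * w := by group
      _ = e * w := by rw [h4]
  -- `f = e^n * s` with `s` commuting with `w`
  obtain ⟨n, s, hsE, hsw, hfs⟩ : ∃ (n : ℤ) (s : G), s ∈ E ∧ Commute w s ∧ f = e ^ n * s := by
    by_cases hfe : f ∈ zpowers e
    · obtain ⟨n, hn⟩ := mem_zpowers_iff.1 hfe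
      exact ⟨n, 1, one_mem E, Commute.one_right w, by rw [mul_one, hn]⟩
    · obtain ⟨i, j, hij, hc⟩ := h.line e heK f hfK (hEc e he f hfE) hfe w hw
      by_cases hfj : f ^ j = 1
      · exfalso
        rw [hfj, mul_one] at hij hc
        obtain ⟨k, hk⟩ := pow_gen hep hij
        apply hwe
        rw [← hk]
        exact hc.zpow_right k
      · obtain ⟨k, hk⟩ := pow_gen (h.pw f hfK) hfj
        refine ⟨-(i * k), (e ^ i * f ^ j) ^ k, zpow_mem (mul_mem (zpow_mem he i) (zpow_mem hfE j)) k, hc.zpow_right k, ?_⟩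
        rw [((hEc e he f hfE).zpow_zpow i j).mul_zpow, hk, zpow_neg, zpow_mul]
        group
  have key : ∀ k : ℕ, ∃ u : G, u ∈ E ∧ Commute w u ∧ w ^ k * e * (w ^ k)⁻¹ = e ^ (n ^ k) * u := by
    intro k
    induction k with
    | zero => exact ⟨1, one_mem E, Commute.one_right w, by simp⟩
    | succ k ih =>
      obtain ⟨u, huE, huw, hu⟩ := ih
      refine ⟨s ^ (n ^ k) * u, mul_mem (zpow_mem hsE _) huE, (hsw.zpow_right _).mul_right huw, ?_⟩
      calc w ^ (k + 1) * e * (w ^ (k + 1))⁻¹ = w * (w ^ k * e * (w ^ k)⁻¹) * w⁻¹ := by rw [pow_succ']; group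
        _ = w * (e ^ (n ^ k) * u) * w⁻¹ := by rw [hu]
        _ = (w * e ^ (n ^ k) * w⁻¹) * (w * u * w⁻¹) := by group
        _ = f ^ (n ^ k) * u := by
            congr 1
            · rw [hf, conj_zpow]
            · exact mul_inv_eq_iff_eq_mul.2 huw.eq
        _ = (e ^ n * s) ^ (n ^ k) * u := by rw [hfs]
        _ = (e ^ n) ^ (n ^ k) * s ^ (n ^ k) * u := by rw [((hEc e he s hsE).zpow_left n).mul_zpow]
        _ = e ^ (n ^ (k + 1)) * (s ^ (n ^ k) * u) := by rw [← zpow_mul, ← pow_succ', mul_assoc]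
  obtain ⟨u, huE, huw, hu⟩ := key p
  rw [hwp, one_mul, inv_one, mul_one] at hu
  have h1 : e ^ (1 - n ^ p) = u := by
    rw [sub_eq_neg_add, zpow_add, zpow_neg, zpow_one, inv_mul_eq_iff_eq_mul]; exact hu
  have h2 : e ^ (1 - n ^ p) = 1 := by
    by_contra hne
    obtain ⟨k, hk⟩ := pow_gen hep hne
    apply hwe
    rw [← hk, h1]
    exact huw.zpow_right k
  have ho : orderOf e = p := orderOf_eq_prime hep he1
  have h3 : (p : ℤ) ∣ 1 - n ^ p := by
    have := orderOf_dvd_iff_zpow_eq_one.2 h2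
    rwa [ho] at this
  have h4 : (p : ℤ) ∣ 1 - n := by
    have hz : ((n : ZMod p)) ^ p = n := ZMod.pow_card _
    have h5 : ((1 - n ^ p : ℤ) : ZMod p) = 0 := (ZMod.intCast_zmod_eq_zero_iff_dvd _ p).2 h3
    apply (ZMod.intCast_zmod_eq_zero_iff_dvd _ p).1
    push_cast at h5 ⊢
    rw [hz] at h5
    exact h5
  have h5 : e ^ n = e := by
    obtain ⟨m, hm⟩ := h4
    have : n = 1 - p * m := by linarith
    rw [this, zpow_sub, zpow_one, zpow_mul, zpow_natCast, hep, one_zpow]; group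
  rw [h5] at hfs
  rw [hfs]
  have : e⁻¹ * (e * s) = s := by group
  rw [this]
  exact hsw

/-- Part (i): members act on `E` as commuting elements. -/
theorem act_comm {E : Subgroup G} (hEn : E.Normal) (hEc : ∀ a ∈ E, ∀ b ∈ E, Commute a b) (hEK : ∀ a ∈ E, a ≠ 1 → a ∈ K)
    {w1 w2 : G} (hw1 : w1 ∈ K) (hw2 : w2 ∈ K) {e : G} (he : e ∈ E) :
    w1 * (w2 * e * w2⁻¹) * w1⁻¹ = w2 * (w1 * e * w1⁻¹) * w2⁻¹ := by
  -- Case A
  have caseA : ∀ w1 w2 : G, w1 ∈ K → w2 ∈ K → (∃ z ∈ E, Commute w1 z ∧ ¬ Commute w2 z) →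
      ∀ e ∈ E, w1 * (w2 * e * w2⁻¹) * w1⁻¹ = w2 * (w1 * e * w1⁻¹) * w2⁻¹ := by
    rintro w1 w2 hw1 hw2 ⟨z, hzE, hz1, hz2⟩ e he
    have hzne : z ≠ 1 := by rintro rfl; exact hz2 (Commute.one_right _)
    have hzK := hEK z hzE hzne
    by_cases hzw : z ∈ zpowers w1
    · have h1 : w1 ∈ E := by
        have := mem_zpowers_symm (h.pw w1 hw1) hzw hzne
        obtain ⟨k, rfl⟩ := mem_zpowers_iff.1 this
        exact zpow_mem hzE k
      have h2 : ∀ g ∈ E, w1 * g * w1⁻¹ = g := fun g hg => mul_inv_eq_iff_eq_mul.2 (hEc w1 h1 g hg).eq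
      rw [h2 _ (hEn.conj_mem e he w2), h2 e he]
    · obtain ⟨i, j, hij, hc⟩ := h.line w1 hw1 z hzK hz1 hzw w2 hw2
      by_cases hwi : w1 ^ i = 1
      · exfalso
        rw [hwi, one_mul] at hij hc
        obtain ⟨k, hk⟩ := pow_gen (h.pw z hzK) hij
        apply hz2
        rw [← hk]
        exact hc.zpow_right k
      · obtain ⟨k, hk⟩ := pow_gen (h.pw w1 hw1) hwi
        have hc' : Commute w2 (w1 * z ^ (j * k)) := by
          have : w1 * z ^ (j * k) = (w1 ^ i * z ^ j) ^ k := by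
            rw [(hz1.zpow_zpow i j).mul_zpow, hk, zpow_mul]
          rw [this]
          exact hc.zpow_right k
        set y := z ^ (j * k) with hy
        have hyE : y ∈ E := zpow_mem hzE _
        have h3 : ∀ g ∈ E, (w1 * y) * g * (w1 * y)⁻¹ = w1 * g * w1⁻¹ := by
          intro g hg
          have : y * g * y⁻¹ = g := mul_inv_eq_iff_eq_mul.2 (hEc y hyE g hg).eq
          calc (w1 * y) * g * (w1 * y)⁻¹ = w1 * (y * g * y⁻¹) * w1⁻¹ := by group
            _ = _ := by rw [this]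
        rw [← h3 _ (hEn.conj_mem e he w2), ← h3 e he]
        calc w1 * y * (w2 * e * w2⁻¹) * (w1 * y)⁻¹ = (w1 * y * w2) * e * (w1 * y * w2)⁻¹ := by group
          _ = (w2 * (w1 * y)) * e * (w2 * (w1 * y))⁻¹ := by rw [hc'.eq]
          _ = _ := by group
  by_cases hA : ∃ z ∈ E, Commute w1 z ∧ ¬ Commute w2 z
  · exact caseA w1 w2 hw1 hw2 hA e he
  by_cases hB : ∃ z ∈ E, Commute w2 z ∧ ¬ Commute w1 z
  · exact (caseA w2 w1 hw2 hw1 hB e he).symm
  push Not at hA hB
  have a1 := axis h hEn hEc hEK hw1 he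
  have a2 := axis h hEn hEc hEK hw2 he
  set s1 := e⁻¹ * (w1 * e * w1⁻¹) with hs1
  set s2 := e⁻¹ * (w2 * e * w2⁻¹) with hs2
  have hs1E : s1 ∈ E := mul_mem (inv_mem he) (hEn.conj_mem e he w1)
  have hs2E : s2 ∈ E := mul_mem (inv_mem he) (hEn.conj_mem e he w2)
  have b1 : Commute w2 s1 := hA s1 hs1E a1
  have b2 : Commute w1 s2 := hB s2 hs2E a2
  have e1 : w1 * e * w1⁻¹ = e * s1 := by rw [hs1]; group
  have e2 : w2 * e * w2⁻¹ = e * s2 := by rw [hs2]; group
  rw [e1, e2]
  calc w1 * (e * s2) * w1⁻¹ = (w1 * e * w1⁻¹) * (w1 * s2 * w1⁻¹) := by group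
    _ = e * s1 * s2 := by rw [e1, mul_inv_eq_iff_eq_mul.2 b2.eq]
    _ = e * (s1 * s2) := mul_assoc _ _ _
    _ = e * (s2 * s1) := congrArg (e * ·) (hEc s1 hs1E s2 hs2E).eq
    _ = e * s2 * s1 := (mul_assoc _ _ _).symm
    _ = (w2 * e * w2⁻¹) * (w2 * s1 * w2⁻¹) := by rw [e2, mul_inv_eq_iff_eq_mul.2 b1.eq]
    _ = _ := by group

theorem part1 {O : Subgroup G} (hOn : O.Normal) (hOp : IsPGroup p O) (hO : ∃ x ∈ K, x ∈ O) :
    ∃ v ∈ K, v ∈ O ∧ ∀ w ∈ K, Commute w v := by
  classical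
  obtain ⟨v0, hv0, hv0O, hv0c⟩ := step1 h hOn hO O hOp
  let E : Subgroup G :=
    { carrier := {e | e ∈ O ∧ (∀ g ∈ O, Commute g e) ∧ (e = 1 ∨ e ∈ K)}
      one_mem' := ⟨one_mem O, fun g _ => Commute.one_right g, Or.inl rfl⟩
      mul_mem' := by
        rintro a b ⟨ha, ha2, ha3⟩ ⟨hb, hb2, hb3⟩
        refine ⟨mul_mem ha hb, fun g hg => (ha2 g hg).mul_right (hb2 g hg), ?_⟩
        rcases ha3 with rfl | ha3
        · rw [one_mul]; exact hb3
        rcases hb3 with rfl | hb3
        · rw [mul_one]; right; exact ha3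
        by_cases hab : a * b = 1
        · left; exact hab
        · right; exact h.mul a ha3 b hb3 (hb2 a ha) hab
      inv_mem' := by
        rintro a ⟨ha, ha2, ha3⟩
        refine ⟨inv_mem ha, fun g hg => (ha2 g hg).inv_right, ?_⟩
        rcases ha3 with rfl | ha3
        · left; exact inv_one
        · right
          have h1 := h.pow a ha3 (-1) (by rw [zpow_neg, zpow_one]; exact inv_ne_one.2 (h.ne1 a ha3))
          rwa [zpow_neg, zpow_one] at h1 }
  have hEmem : ∀ e : G, e ∈ E ↔ e ∈ O ∧ (∀ g ∈ O, Commute g e) ∧ (e = 1 ∨ e ∈ K) := fun e => Iff.rfl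
  have hEn : E.Normal := by
    constructor
    intro e he g
    rw [hEmem] at he ⊢
    obtain ⟨h1, h2, h3⟩ := he
    refine ⟨hOn.conj_mem e h1 g, ?_, ?_⟩
    · intro x hx
      have h4 := h2 (g⁻¹ * x * g) (by have := hOn.conj_mem x hx g⁻¹; rwa [inv_inv] at this)
      show x * (g * e * g⁻¹) = (g * e * g⁻¹) * x
      calc x * (g * e * g⁻¹) = g * ((g⁻¹ * x * g) * e) * g⁻¹ := by group
        _ = g * (e * (g⁻¹ * x * g)) * g⁻¹ := by rw [h4.eq]
        _ = _ := by group
    · rcases h3 with rfl | h3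
      · left; group
      · right; exact h.cj e h3 g
  have hEc : ∀ a ∈ E, ∀ b ∈ E, Commute a b := by
    intro a ha b hb
    rw [hEmem] at ha hb
    exact hb.2.1 a ha.1
  have hEK : ∀ a ∈ E, a ≠ 1 → a ∈ K := by
    intro a ha hne
    rw [hEmem] at ha
    exact ha.2.2.resolve_left hne
  have hv0E : v0 ∈ E := ⟨hv0O, hv0c, Or.inr hv0⟩
  -- the action on E
  let φ : G →* MulAut E := MulAut.conjNormal
  have hφ : ∀ (g : G) (e : E), ((φ g e : E) : G) = g * e * g⁻¹ := fun g e => MulAut.conjNormal_apply g e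
  let M : Subgroup (MulAut E) := closure (φ '' K)
  have hcomm : ∀ a ∈ φ '' K, ∀ b ∈ φ '' K, a * b = b * a := by
    rintro _ ⟨w1, hw1, rfl⟩ _ ⟨w2, hw2, rfl⟩
    ext e
    rw [MulAut.mul_apply, MulAut.mul_apply, hφ, hφ, hφ, hφ]
    exact act_comm h hEn hEc hEK hw1 hw2 e.2
  have hMc : ∀ a ∈ M, ∀ b ∈ M, a * b = b * a := by
    intro a ha b hb
    have h1 : M ≤ centralizer (centralizer (φ '' K) : Set (MulAut E)) := closure_le_centralizer_centralizer _
    have h2 : M ≤ centralizer (φ '' K) := by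
      rw [closure_le]
      intro x hx
      rw [SetLike.mem_coe, mem_centralizer_iff]
      intro y hy
      exact hcomm y hy x hx
    have h3 := h1 ha
    rw [mem_centralizer_iff] at h3
    exact (h3 b (h2 hb)).symm
  have hMp : IsPGroup p M := by
    rintro ⟨m, hm⟩
    refine ⟨1, Subtype.ext ?_⟩
    show m ^ (p ^ 1) = 1
    rw [pow_one]
    have hm' : m ∈ M := hm
    have : ∀ x, x ∈ M → x ^ p = 1 := by
      intro x hx
      induction hx using Subgroup.closure_induction with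
      | mem x hx =>
        obtain ⟨w, hw, rfl⟩ := hx
        rw [← map_pow, h.pw w hw, map_one]
      | one => exact one_pow p
      | mul x y hx hy ihx ihy =>
        have hc : Commute x y := hMc x hx y hy
        rw [hc.mul_pow, ihx, ihy, one_mul]
      | inv x hx ih => rw [inv_pow, ih, inv_one]
    exact this m hm'
  have hpE : p ∣ Nat.card E := by
    have h1 : orderOf (⟨v0, hv0E⟩ : E) = p := by
      rw [Subgroup.orderOf_mk]
      exact orderOf_eq_prime (h.pw v0 hv0) (h.ne1 v0 hv0)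
    rw [← h1]
    exact orderOf_dvd_natCard _
  obtain ⟨b, hb, hb1⟩ := hMp.exists_fixed_point_of_prime_dvd_card_of_fixed_point (α := E) hpE
    (a := (1 : E)) (by
      rw [MulAction.mem_fixedPoints]
      intro g
      exact map_one (g : MulAut E))
  have hbne : (b : G) ≠ 1 := fun h1 => hb1 (Subtype.ext h1.symm)
  have hbE := (hEmem b).1 b.2
  refine ⟨b, hbE.2.2.resolve_left hbne, hbE.1, ?_⟩
  intro w hw
  rw [MulAction.mem_fixedPoints] at hb
  have h1 := congrArg Subtype.val (hb ⟨φ w, subset_closure ⟨w, hw, rfl⟩⟩)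
  change ((φ w b : E) : G) = b at h1
  rw [hφ] at h1
  exact mul_inv_eq_iff_eq_mul.1 h1
end cf

/-- Let p be a prime and K a set of subgroups of order p of a finite group G, closed under conjugation, such that at least two distinct members of K commute elementwise, and whenever two distinct members X, Y of K commute: every subgroup of order p of the group XY they generate belongs to K, and every member W of K has centralizer meeting XY nontrivially. Then some member V of K commutes elementwise with every member of K and lies in O_p(G); in particular G is not simple. -/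
theorem result {G : Type*} [Group G] [Finite G]
    {p : ℕ} (hp : p.Prime) (K : Set (Subgroup G)) (hK : ∀ X ∈ K, Nat.card ↥X = p)
    (hKc : ∀ X ∈ K, ∀ g : G, X.map (MulAut.conj g).toMonoidHom ∈ K)
    (hex : ∃ X ∈ K, ∃ Y ∈ K, X ≠ Y ∧ ∀ x ∈ X, ∀ y ∈ Y, x * y = y * x)
    (ha : ∀ X ∈ K, ∀ Y ∈ K, X ≠ Y → (∀ x ∈ X, ∀ y ∈ Y, x * y = y * x) →
      ∀ Z : Subgroup G, Z ≤ X ⊔ Y → Nat.card ↥Z = p → Z ∈ K)
    (hb : ∀ X ∈ K, ∀ Y ∈ K, X ≠ Y → (∀ x ∈ X, ∀ y ∈ Y, x * y = y * x) →
      ∀ W ∈ K, (X ⊔ Y) ⊓ Subgroup.centralizer (W : Set G) ≠ ⊥) :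
    (∃ V ∈ K, (∀ W ∈ K, ∀ v ∈ V, ∀ w ∈ W, v * w = w * v) ∧ V ≤ Cfsg.pCore p G) ∧ ¬ IsSimpleGroup G := by
  classical
  haveI : Fact p.Prime := ⟨hp⟩
  set K' : Set G := {x | x ≠ 1 ∧ Subgroup.zpowers x ∈ K} with hK'
  have hpw : ∀ x ∈ K', x ^ p = 1 := by
    rintro x ⟨_, h2⟩
    rw [← hK _ h2, Nat.card_zpowers]
    exact pow_orderOf_eq_one x
  have hzp : ∀ X ∈ K, ∀ x ∈ X, x ≠ 1 → Subgroup.zpowers x = X := by
    intro X hX x hx hx1
    have hle : Subgroup.zpowers x ≤ X := by rw [Subgroup.zpowers_le]; exact hx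
    apply Subgroup.eq_of_le_of_card_ge hle
    rw [hK X hX]
    have h1 : Nat.card (Subgroup.zpowers x) ∣ p := by
      rw [← hK X hX]; exact Subgroup.card_dvd_of_le hle
    rcases (Nat.dvd_prime hp).1 h1 with h2 | h2
    · exfalso
      have := Subgroup.eq_bot_of_card_eq _ h2
      rw [Subgroup.zpowers_eq_bot] at this
      exact hx1 this
    · exact h2.ge
  have hmemK' : ∀ X ∈ K, ∀ x ∈ X, x ≠ 1 → x ∈ K' := by
    intro X hX x hx hx1
    refine ⟨hx1, ?_⟩
    rw [hzp X hX x hx hx1]; exact hX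
  have hcommz : ∀ x y : G, Commute x y → ∀ a ∈ Subgroup.zpowers x, ∀ b ∈ Subgroup.zpowers y, a * b = b * a := by
    intro x y hxy a ha b hb
    obtain ⟨i, rfl⟩ := Subgroup.mem_zpowers_iff.1 ha
    obtain ⟨j, rfl⟩ := Subgroup.mem_zpowers_iff.1 hb
    exact (hxy.zpow_zpow i j).eq
  have hne : ∀ x y : G, y ∉ Subgroup.zpowers x → Subgroup.zpowers x ≠ Subgroup.zpowers y := by
    intro x y h1 h2
    apply h1
    rw [h2]; exact Subgroup.mem_zpowers y
  have hnt : ∀ X ∈ K, ∃ x ∈ X, x ≠ 1 := by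
    intro X hX
    by_contra hcon
    push Not at hcon
    have h1 := (Subgroup.eq_bot_iff_forall X).2 hcon
    have h2 := hK X hX
    rw [h1, Subgroup.card_bot] at h2
    exact hp.one_lt.ne h2
  have mem_line : ∀ {x y u : G}, Commute x y → u ∈ (Subgroup.zpowers x ⊔ Subgroup.zpowers y : Subgroup G) → ∃ i j : ℤ, x ^ i * y ^ j = u := by
    intro x y u hxy hu
    let S : Subgroup G :=
      { carrier := {u | ∃ i j : ℤ, x ^ i * y ^ j = u}
        one_mem' := ⟨0, 0, by simp⟩
        mul_mem' := by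
          rintro _ _ ⟨i, j, rfl⟩ ⟨k, l, rfl⟩
          refine ⟨i + k, j + l, ?_⟩
          rw [zpow_add, zpow_add]
          have := (hxy.zpow_zpow k j).eq
          calc x ^ i * x ^ k * (y ^ j * y ^ l) = x ^ i * (x ^ k * y ^ j) * y ^ l := by group
            _ = x ^ i * (y ^ j * x ^ k) * y ^ l := by rw [this]
            _ = _ := by group
        inv_mem' := by
          rintro _ ⟨i, j, rfl⟩
          refine ⟨-i, -j, ?_⟩
          have := (hxy.zpow_zpow (-i) (-j)).eq
          rw [this]; group }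
    have hle : (Subgroup.zpowers x ⊔ Subgroup.zpowers y : Subgroup G) ≤ S := by
      apply sup_le
      · rw [Subgroup.zpowers_le]; exact ⟨1, 0, by simp⟩
      · rw [Subgroup.zpowers_le]; exact ⟨0, 1, by simp⟩
    exact hle hu
  have hCf : Cf G p K' := by
    constructor
    · intro x hx; exact hx.1
    · exact hpw
    · intro x hx g
      refine ⟨?_, ?_⟩
      · intro h1
        apply hx.1
        have : x = g⁻¹ * (g * x * g⁻¹) * g := by group
        rw [this, h1]; group
      · have h1 := hKc _ hx.2 g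
        rw [MonoidHom.map_zpowers] at h1
        exact h1
    · intro x hx i hi
      refine ⟨hi, ?_⟩
      rw [zpowers_eq_of_ne (hpw x hx) hi]; exact hx.2
    · intro x hx y hy hxy hne1
      refine ⟨hne1, ?_⟩
      by_cases h1 : y ∈ Subgroup.zpowers x
      · have h2 : x * y ∈ Subgroup.zpowers x := mul_mem (Subgroup.mem_zpowers x) h1
        rw [hzp _ hx.2 _ h2 hne1]; exact hx.2
      · apply ha _ hx.2 _ hy.2 (hne x y h1) (hcommz x y hxy)
        · rw [Subgroup.zpowers_le]
          exact mul_mem (Subgroup.mem_sup_left (Subgroup.mem_zpowers x)) (Subgroup.mem_sup_right (Subgroup.mem_zpowers y))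
        · rw [Nat.card_zpowers]
          apply orderOf_eq_prime _ hne1
          rw [hxy.mul_pow, hpw x hx, hpw y hy, one_mul]
    · intro x hx y hy hxy h1 w hw
      have h2 := hb _ hx.2 _ hy.2 (hne x y h1) (hcommz x y hxy) _ hw.2
      obtain ⟨u, hu, hu1⟩ : ∃ u ∈ ((Subgroup.zpowers x ⊔ Subgroup.zpowers y) ⊓ Subgroup.centralizer (Subgroup.zpowers w : Set G) : Subgroup G), u ≠ 1 := by
        by_contra hcon
        push Not at hcon
        exact h2 ((Subgroup.eq_bot_iff_forall _).2 hcon)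
      rw [Subgroup.mem_inf] at hu
      obtain ⟨hu2, hu3⟩ := hu
      obtain ⟨i, j, hij⟩ := mem_line hxy hu2
      rw [Subgroup.mem_centralizer_iff] at hu3
      have hwu := hu3 w (Subgroup.mem_zpowers w)
      refine ⟨i, j, ?_, ?_⟩
      · rw [hij]; exact hu1
      · rw [hij]; exact hwu
    · obtain ⟨X, hX, Y, hY, hXY, hc⟩ := hex
      obtain ⟨x, hx, hx1⟩ := hnt X hX
      obtain ⟨y, hy, hy1⟩ := hnt Y hY
      refine ⟨x, hmemK' X hX x hx hx1, y, hmemK' Y hY y hy hy1, hc x hx y hy, ?_⟩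
      intro h1
      apply hXY
      rw [hzp X hX x hx hx1] at h1
      rw [← hzp X hX y h1 hy1, ← hzp Y hY y hy hy1]
  obtain ⟨v, hv, hvO, hvc⟩ := part1 hCf (H1.Nilp.pCore_normal p) ((H1.Nilp.pCore_isPGroup p)) (part2 hCf)
  have hvV : ∀ W ∈ K, ∀ w ∈ W, Commute w v := by
    intro W hW w hw
    by_cases h1 : w = 1
    · rw [h1]; exact Commute.one_left v
    · exact hvc w (hmemK' W hW w hw h1)
  refine ⟨⟨Subgroup.zpowers v, hv.2, ?_, ?_⟩, ?_⟩
  · intro W hW a ha w hw
    obtain ⟨i, rfl⟩ := Subgroup.mem_zpowers_iff.1 ha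
    exact ((hvV W hW w hw).zpow_right i).eq.symm
  · rw [Subgroup.zpowers_le]; exact hvO
  · intro hs
    have hOtop : Cfsg.pCore p G = ⊤ := by
      rcases (H1.Nilp.pCore_normal (G := G) p).eq_bot_or_eq_top with h1 | h1
      · exfalso
        rw [h1, Subgroup.mem_bot] at hvO
        exact hv.1 hvO
      · exact h1
    have hPG : IsPGroup p G := by
      have h1 : IsPGroup p (⊤ : Subgroup G) := by rw [← hOtop]; exact (H1.Nilp.pCore_isPGroup p)
      exact h1.of_equiv Subgroup.topEquiv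
    haveI : Nontrivial G := hs.toNontrivial
    have hZ := hPG.center_nontrivial
    have hZtop : Subgroup.center G = ⊤ := by
      rcases (inferInstance : (Subgroup.center G).Normal).eq_bot_or_eq_top with h1 | h1
      · exfalso
        rw [h1] at hZ
        exact (not_nontrivial_iff_subsingleton.2 inferInstance) hZ
      · exact h1
    have hall : ∀ X ∈ K, X = ⊤ := by
      intro X hX
      have hn : X.Normal := by
        constructor
        intro x hx g
        have h1 : g ∈ Subgroup.center G := by rw [hZtop]; trivial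
        rw [Subgroup.mem_center_iff] at h1
        have h2 : g * x * g⁻¹ = x := by rw [← h1 x]; group
        rw [h2]; exact hx
      rcases hn.eq_bot_or_eq_top with h1 | h1
      · exfalso
        obtain ⟨x, hx, hx1⟩ := hnt X hX
        rw [h1, Subgroup.mem_bot] at hx
        exact hx1 hx
      · exact h1
    obtain ⟨X, hX, Y, hY, hXY, _⟩ := hex
    apply hXY
    rw [hall X hX, hall Y hY]

end Cfsg.Agent.S3196
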