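import Cfsg.Statements.S3200
import Mathlib
import Cfsg.Agent.H3_Burnside
import Cfsg.Agent.H1_Hall
import Cfsg.Agent.H2_Card

set_option autoImplicit false
open Cfsg

namespace Cfsg.Agent.S3200

universe u

def AC (H : Type u) [Group H] : Prop := ∃ C : Subgroup H, IsMulCommutative C ∧ Odd (Nat.card C) ∧ ∃ k, C.index = 2 ^ k

theorem AC_normal {H : Type u} [Group H] [Finite H] (h : AC H) (N : Subgroup H) [N.Normal] : AC N := by
  obtain ⟨C, hC, hodd, k, hk⟩ := h
  refine ⟨C.subgroupOf N, ?_, ?_, ?_⟩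
  · refine ⟨⟨?_⟩⟩
    rintro ⟨x, hx⟩ ⟨y, hy⟩
    have := congrArg Subtype.val (hC.is_comm.comm ⟨x, hx⟩ ⟨y, hy⟩)
    apply Subtype.ext
    apply Subtype.ext
    exact this
  · have : Nat.card (C.subgroupOf N) ∣ Nat.card C := by
      rw [H2.Card.card_subgroupOf]
      exact Subgroup.card_dvd_of_le inf_le_left
    exact Odd.of_dvd_nat hodd this
  · have h1 : C.relIndex N ∣ 2 ^ k := by
      rw [← hk]; exact H2.Card.relIndex_dvd_index_of_normal_right C N
    obtain ⟨m, _, hm⟩ := (Nat.dvd_prime_pow Nat.prime_two).1 h1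
    exact ⟨m, hm⟩

theorem AC_surj {H : Type u} [Group H] [Finite H] (h : AC H) {K : Type u} [Group K] (f : H →* K)
    (hf : Function.Surjective f) : AC K := by
  obtain ⟨C, hC, hodd, k, hk⟩ := h
  refine ⟨C.map f, ?_, ?_, ?_⟩
  · refine ⟨⟨?_⟩⟩
    rintro ⟨_, ⟨x, hx, rfl⟩⟩ ⟨_, ⟨y, hy, rfl⟩⟩
    have h1 := congrArg Subtype.val (hC.is_comm.comm ⟨x, hx⟩ ⟨y, hy⟩)
    apply Subtype.ext
    show f x * f y = f y * f x
    rw [← map_mul, ← map_mul]
    exact congrArg f h1
  · exact Odd.of_dvd_nat hodd (Subgroup.card_map_dvd C f)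
  · have h1 : (C.map f).index ∣ 2 ^ k := by
      rw [← hk]; exact C.index_map_dvd hf
    obtain ⟨m, _, hm⟩ := (Nat.dvd_prime_pow Nat.prime_two).1 h1
    exact ⟨m, hm⟩

theorem AC_solvable (n : ℕ) : ∀ (H : Type u) [Group H] [Finite H], Nat.card H = n → AC H → Group.IsSolvable H := by
  induction n using Nat.strong_induction_on with
  | _ n ih =>
    intro H _ _ hn hAC
    by_cases htriv : Subsingleton H
    · infer_instance
    rw [not_subsingleton_iff_nontrivial] at htriv
    by_cases hsimp : IsSimpleGroup H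
    · obtain ⟨C, hC, hodd, k, hk⟩ := hAC
      by_cases hCb : C = ⊥
      · subst hCb
        rw [Subgroup.index_bot] at hk
        have hp : IsPGroup 2 H := IsPGroup.of_card hk
        have : Fact (Nat.Prime 2) := ⟨Nat.prime_two⟩
        have := hp.isNilpotent
        infer_instance
      · obtain ⟨c', hc'⟩ := (Subgroup.ne_bot_iff_exists_ne_one).1 hCb
        obtain ⟨c, hc⟩ := c'
        have hc1 : c ≠ 1 := fun h => hc' (Subtype.ext h)
        have hle : C ≤ Subgroup.centralizer ({(c : H)} : Set H) := by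
          intro x hx
          rw [Subgroup.mem_centralizer_singleton_iff]
          exact congrArg Subtype.val (hC.is_comm.comm ⟨x, hx⟩ ⟨c, hc⟩)
        have h1 : (Subgroup.centralizer ({(c : H)} : Set H)).index ∣ 2 ^ k := by
          rw [← hk]; exact Subgroup.index_dvd_of_le hle
        obtain ⟨m, _, hm⟩ := (Nat.dvd_prime_pow Nat.prime_two).1 h1
        have hprime := H3.Burnside.class_prime_pow Nat.prime_two hc1 hm
        have : Fact (Nat.card H).Prime := ⟨hprime⟩
        have hcyc : IsCyclic H := isCyclic_of_prime_card rfl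
        exact Group.isSolvable_of_comm fun a b => (IsCyclic.isMulCommutative (α := H)).is_comm.comm a b
    · have : ∃ N : Subgroup H, N.Normal ∧ N ≠ ⊥ ∧ N ≠ ⊤ := by
        by_contra hcon
        push Not at hcon
        apply hsimp
        refine ⟨?_⟩
        intro N hN
        by_cases hb : N = ⊥
        · exact Or.inl hb
        · exact Or.inr (hcon N hN hb)
      obtain ⟨N, hN, hb, ht⟩ := this
      have h1 : Nat.card N < n := hn ▸ H2.Card.card_lt_of_ne_top ht
      have h2 : Nat.card (H ⧸ N) < n := hn ▸ H2.Card.card_quotient_lt hb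
      rw [Group.isSolvable_iff_subgroup_quotient N]
      exact ⟨ih _ h1 N rfl (AC_normal hAC N), ih _ h2 (H ⧸ N) rfl (AC_surj hAC _ (QuotientGroup.mk'_surjective N))⟩

theorem AC_compl {H : Type u} [Group H] [Finite H] (h : AC H) :
    ∃ (P : Sylow 2 H) (D : Subgroup H), IsMulCommutative ↥D ∧ Subgroup.IsComplement' (P : Subgroup H) D := by
  obtain ⟨C, hC, hodd, k, hk⟩ := h
  have : Fact (Nat.Prime 2) := ⟨Nat.prime_two⟩
  obtain ⟨P⟩ : Nonempty (Sylow 2 H) := inferInstance
  refine ⟨P, C, hC, ?_⟩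
  have h1 := C.card_mul_index
  have h2 : Nat.card P = 2 ^ k := by
    rw [P.card_eq_multiplicity, ← h1, hk, Nat.factorization_mul hodd.pos.ne' (by positivity)]
    rw [Finsupp.add_apply, Nat.factorization_eq_zero_of_not_dvd (by
      rw [← even_iff_two_dvd, Nat.not_even_iff_odd]; exact hodd), Nat.Prime.factorization_pow Nat.prime_two]
    simp
  apply Subgroup.isComplement'_of_coprime
  · rw [h2, ← hk, mul_comm]; exact h1
  · rw [h2]; exact Nat.Coprime.pow_left k (Nat.coprime_two_left.2 hodd)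

/-- Let H be a finite group in which a Sylow 2-subgroup has an abelian complement (an abelian subgroup meeting it trivially whose product with it is all of H). Then H is solvable, and every subgroup and every quotient group of H again has a Sylow 2-subgroup with an abelian complement. -/
theorem result {H : Type*} [Group H] [Finite H]
    (S : Sylow 2 H) (C : Subgroup H) (hC : IsMulCommutative ↥C) (hSC : Subgroup.IsComplement' (S : Subgroup H) C) :
    Group.IsSolvable H ∧
    (∀ L : Subgroup H, ∃ (P : Sylow 2 ↥L) (D : Subgroup ↥L), IsMulCommutative ↥D ∧ Subgroup.IsComplement' (P : Subgroup ↥L) D) ∧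
    (∀ (N : Subgroup H) [N.Normal], ∃ (P : Sylow 2 (H ⧸ N)) (D : Subgroup (H ⧸ N)),
      IsMulCommutative ↥D ∧ Subgroup.IsComplement' (P : Subgroup (H ⧸ N)) D) := by
  have : Fact (Nat.Prime 2) := ⟨Nat.prime_two⟩
  have hodd : Odd (Nat.card C) := by
    rw [← Nat.not_even_iff_odd, even_iff_two_dvd, ← hSC.symm.index_eq_card]
    exact S.not_dvd_index
  have hAC : AC H := by
    refine ⟨C, hC, hodd, ?_⟩
    rw [hSC.index_eq_card]
    exact IsPGroup.iff_card.1 S.isPGroup'
  have hsol := AC_solvable _ H rfl hAC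
  refine ⟨hsol, ?_, ?_⟩
  · intro L
    apply AC_compl
    have : Group.IsSolvable H := hsol
    obtain ⟨C, hC, hodd, k, hk⟩ := hAC
    -- Hall 2'-subgroup of L
    obtain ⟨a, m, hm, hL⟩ := Nat.exists_eq_two_pow_mul_odd (Nat.card_pos (α := L)).ne'
    obtain ⟨D, hD⟩ := H1.Hall.hall_exists (G := L) m (2 ^ a) (by rw [hL]; ring) (Nat.Coprime.pow_right a (Nat.coprime_two_right.2 hm))
    have hDc : Nat.card (D.map L.subtype) = m := by
      rw [← hD]
      exact (Nat.card_congr (D.equivMapOfInjective _ L.subtype_injective).toEquiv).symm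
    obtain ⟨g, hg⟩ := H1.Hall.hall_dominance (H := C) (K := D.map L.subtype) (by
      rw [hk]; exact Nat.Coprime.pow_right k (Nat.coprime_two_right.2 hodd)) (by
      rw [hk, hDc]; exact Nat.Coprime.pow_right k (Nat.coprime_two_right.2 hm))
    refine ⟨D, ?_, by rw [hD]; exact hm, a, ?_⟩
    · refine ⟨⟨?_⟩⟩
      rintro ⟨x, hx⟩ ⟨y, hy⟩
      have hx' : g * x * g⁻¹ ∈ C := hg (H1.Basic.conj_mem_conj.2 ⟨x, hx, rfl⟩)
      have hy' : g * y * g⁻¹ ∈ C := hg (H1.Basic.conj_mem_conj.2 ⟨y, hy, rfl⟩)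
      have h1 : (g * x * g⁻¹) * (g * y * g⁻¹) = (g * y * g⁻¹) * (g * x * g⁻¹) :=
        congrArg Subtype.val (hC.is_comm.comm ⟨_, hx'⟩ ⟨_, hy'⟩)
      apply Subtype.ext
      apply Subtype.ext
      show (x : H) * y = y * x
      have h2 : g * (x * y) * g⁻¹ = g * (y * x) * g⁻¹ := by
        calc g * (x * y) * g⁻¹ = (g * x * g⁻¹) * (g * y * g⁻¹) := by group
          _ = _ := h1
          _ = _ := by group
      exact mul_left_cancel (mul_right_cancel h2)
    · have h1 := D.card_mul_index
      rw [hD, hL, mul_comm (2 ^ a)] at h1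
      exact Nat.eq_of_mul_eq_mul_left hm.pos h1
  · intro N _
    apply AC_compl
    exact AC_surj hAC _ (QuotientGroup.mk'_surjective N)

end Cfsg.Agent.S3200
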