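import Cfsg.Statements.S3201
import Mathlib
import Cfsg.Agent.H19_QuatQ
import Cfsg.Agent.H1_Nilp

set_option autoImplicit false
open Cfsg

namespace Cfsg.Agent.S3201


/-- Let S be a finite 2-group whose centre Z(S) has n ≥ 2 distinct maximal subgroups C₁, …, Cₙ with trivial intersection such that each quotient S/Cᵢ is a non-abelian group with exactly one involution (a generalized quaternion group). Then S is the internal direct product of an elementary abelian subgroup and a non-abelian subgroup with exactly one involution. -/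
theorem result {S : Type*} [Group S] [Finite S]
    (hS : IsPGroup 2 S) (n : ℕ) (hn : 2 ≤ n) (C : Fin n → Subgroup ↥(Subgroup.center S))
    (hCmax : ∀ i, IsCoatom (C i)) (hCinj : Function.Injective C) (hCint : ⨅ i, C i = ⊥)
    (hCq : ∀ i, ∃ (_ : ((C i).map (Subgroup.center S).subtype).Normal),
      ¬ IsMulCommutative (S ⧸ (C i).map (Subgroup.center S).subtype) ∧
      ∃! x : S ⧸ (C i).map (Subgroup.center S).subtype, orderOf x = 2) :
    ∃ E Q : Subgroup S, Cfsg.IsInternalDirectProduct E Q ⊤ ∧ Cfsg.IsElementaryAbelian 2 E ∧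
      ¬ IsMulCommutative ↥Q ∧ ∃! x : ↥Q, orderOf x = 2 := by
  classical
  haveI : Fact (Nat.Prime 2) := ⟨Nat.prime_two⟩
  have hZp : IsPGroup 2 (Subgroup.center S) := hS.to_subgroup _
  have hidx : ∀ i, (C i).index = 2 := fun i => (H1.Nilp.index_eq_of_isCoatom_pgroup hZp (hCmax i)).2
  -- membership
  have hsq : ∀ (i : Fin n) (z : S) (hz : z ∈ Subgroup.center S), z * z ∈ (C i).map (Subgroup.center S).subtype := by
    intro i z hz
    refine ⟨⟨z, hz⟩ * ⟨z, hz⟩, ?_, rfl⟩
    exact Subgroup.mul_self_mem_of_index_two (hidx i) _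
  have hdiv : ∀ (i : Fin n) (z w : S), z ∈ Subgroup.center S → w ∈ Subgroup.center S →
      z ∉ (C i).map (Subgroup.center S).subtype → w ∉ (C i).map (Subgroup.center S).subtype →
      z * w ∈ (C i).map (Subgroup.center S).subtype := by
    intro i z w hz hw h1 h2
    refine ⟨⟨z, hz⟩ * ⟨w, hw⟩, ?_, rfl⟩
    rw [SetLike.mem_coe, Subgroup.mul_mem_iff_of_index_two (hidx i)]
    constructor
    · intro h3
      exact absurd ⟨_, h3, rfl⟩ h1
    · intro h3
      exact absurd ⟨_, h3, rfl⟩ h2
  have hint : ∀ z ∈ Subgroup.center S, (∀ i, z ∈ (C i).map (Subgroup.center S).subtype) → z = 1 := by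
    intro z hz h1
    have h2 : (⟨z, hz⟩ : Subgroup.center S) ∈ ⨅ i, C i := by
      rw [Subgroup.mem_iInf]
      intro i
      obtain ⟨w, hw, hwz⟩ := h1 i
      have : w = ⟨z, hz⟩ := Subtype.ext hwz
      rw [← this]; exact hw
    rw [hCint, Subgroup.mem_bot] at h2
    exact congrArg Subtype.val h2
  -- key fact
  have hkey : ∀ (i : Fin n) (s : S), s * s ∈ Subgroup.center S → s ∉ Subgroup.center S →
      s * s ∉ (C i).map (Subgroup.center S).subtype := by
    intro i s hs2 hs h1
    obtain ⟨hCn, hna, z, hz, huniq⟩ := hCq i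
    set D := (C i).map (Subgroup.center S).subtype with hD
    have h2 : ∃ w ∈ Subgroup.center S, w ∉ D := by
      by_contra hcon
      push Not at hcon
      have : C i = ⊤ := by
        rw [eq_top_iff]
        intro w _
        obtain ⟨w', hw', hww⟩ := hcon w w.2
        have : w' = w := Subtype.ext hww
        rw [← this]; exact hw'
      have h3 := hidx i
      rw [this, Subgroup.index_top] at h3
      omega
    obtain ⟨w, hwZ, hwD⟩ := h2
    have horder : ∀ v : S, v * v ∈ D → v ∉ D → orderOf (QuotientGroup.mk' D v) = 2 := by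
      intro v hv hv1
      apply orderOf_eq_prime
      · rw [← map_pow, ← MonoidHom.mem_ker, QuotientGroup.ker_mk', sq]; exact hv
      · rw [Ne, ← MonoidHom.mem_ker, QuotientGroup.ker_mk']; exact hv1
    have hw2 := horder w (hsq i w hwZ) hwD
    have hDZ : D ≤ Subgroup.center S := by
      rintro _ ⟨d, _, rfl⟩
      exact d.2
    have hsD : s ∉ D := fun h => hs (hDZ h)
    have hs2' := horder s h1 hsD
    have e1 := (huniq _ hw2).trans (huniq _ hs2').symm
    have e2 : w⁻¹ * s ∈ D := by
      have : QuotientGroup.mk' D (w⁻¹ * s) = 1 := by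
        rw [map_mul, map_inv, e1]; group
      rwa [← MonoidHom.mem_ker, QuotientGroup.ker_mk'] at this
    apply hs
    have e3 : s = w * (w⁻¹ * s) := by group
    rw [e3]
    exact mul_mem hwZ (hDZ e2)
  obtain ⟨hDn, hna, hu⟩ := hCq ⟨0, by omega⟩
  set i0 : Fin n := ⟨0, by omega⟩ with hi0
  set D : Subgroup S := (C i0).map (Subgroup.center S).subtype with hD
  obtain ⟨N, f, x, y, ⟨M, hM1, hNM⟩, hker, hf, hx, hy⟩ := H19.QuatQ.exists_data' hS D hna hu
  haveI : NeZero N := ⟨by omega⟩
  have hDZ : D ≤ Subgroup.center S := by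
    rintro _ ⟨d, _, rfl⟩
    exact d.2
  have hDc : ∀ d ∈ D, ∀ g : S, g * d = d * g := by
    intro d hd g
    exact Subgroup.mem_center_iff.1 (hDZ hd) g
  have hcases := H19.QuatQ.elt_cases (D := D) hker hx hy
  have hfd : ∀ d ∈ D, f d = 1 := by
    intro d hd
    rw [← MonoidHom.mem_ker, hker]; exact hd
  have hA : ∀ s : S, (∃ i, f s = QuaternionGroup.a i) → Commute x s := by
    rintro s ⟨i, hi⟩
    obtain ⟨m, d, hd, h | h⟩ := hcases s
    · rw [h]
      exact ((Commute.refl x).zpow_right m).mul_right (hDc d hd x)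
    · exfalso
      rw [h, map_mul, map_mul, H19.QuatQ.map_x_zpow hx, hy, hfd d hd] at hi
      simp at hi
  -- central criterion
  have hcen : ∀ s : S, Commute x s → Commute y s → s ∈ Subgroup.center S := by
    intro s h1 h2
    rw [Subgroup.mem_center_iff]
    intro g
    obtain ⟨m, d, hd, h | h⟩ := hcases g
    · rw [h]
      exact ((h1.zpow_left m).mul_left ((hDc d hd s).symm : Commute d s)).eq
    · rw [h]
      exact (((h1.zpow_left m).mul_left h2).mul_left ((hDc d hd s).symm : Commute d s)).eq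
  have hy2Z : y * y ∈ Subgroup.center S := by
    apply hcen
    · apply hA
      rw [map_mul, hy, QuaternionGroup.xa_mul_xa]
      exact ⟨_, rfl⟩
    · exact (Commute.refl y).mul_right (Commute.refl y)
  -- `a N` is represented by `y * y`
  have hfy2 : f (y * y) = QuaternionGroup.a (N : ZMod (2 * N)) := by
    rw [map_mul, hy, QuaternionGroup.xa_mul_xa]; congr 1; ring
  have hZrep : ∀ s : S, f s = QuaternionGroup.a (N : ZMod (2 * N)) → s ∈ Subgroup.center S := by
    intro s hs
    have h1 : (y * y)⁻¹ * s ∈ D := by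
      rw [← hker, MonoidHom.mem_ker, map_mul, map_inv, hfy2, hs]; group
    have h2 : s = (y * y) * ((y * y)⁻¹ * s) := by group
    rw [h2]
    exact mul_mem hy2Z (hDZ h1)
  have h2N : ∀ j : ℤ, ((j : ℤ) : ZMod (2 * N)) = 0 → ((2 * N : ℕ) : ℤ) ∣ j := fun j hj => (ZMod.intCast_zmod_eq_zero_iff_dvd j (2 * N)).1 hj
  have hcentral : ∀ s ∈ Subgroup.center S, f s * f x = f x * f s ∧ f s * f y = f y * f s := by
    intro s hs
    rw [← map_mul, ← map_mul, ← map_mul, ← map_mul, Subgroup.mem_center_iff.1 hs x, Subgroup.mem_center_iff.1 hs y]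
    exact ⟨rfl, rfl⟩
  have hyZ : y ∉ Subgroup.center S := by
    intro h
    have h1 := (hcentral y h).1
    rw [hx, hy, QuaternionGroup.xa_mul_a, QuaternionGroup.a_mul_xa] at h1
    injection h1 with h2
    have h3 : (((2 : ℤ)) : ZMod (2 * N)) = 0 := by
      push_cast
      linear_combination h2
    have := Int.le_of_dvd (by norm_num) (h2N 2 h3)
    omega
  have hyxZ : y * x ∉ Subgroup.center S := by
    intro h
    have h1 := (hcentral _ h).1
    rw [map_mul, hx, hy, QuaternionGroup.xa_mul_a, QuaternionGroup.xa_mul_a, QuaternionGroup.a_mul_xa] at h1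
    injection h1 with h2
    have h3 : (((2 : ℤ)) : ZMod (2 * N)) = 0 := by
      push_cast
      linear_combination h2
    have := Int.le_of_dvd (by norm_num) (h2N 2 h3)
    omega
  have hfxM : f (x ^ M) = QuaternionGroup.a (M : ZMod (2 * N)) := by
    have := H19.QuatQ.map_x_zpow hx (M : ℤ)
    rw [zpow_natCast] at this
    rw [this]; simp
  have hxMZ : x ^ M ∉ Subgroup.center S := by
    intro h
    have h1 := (hcentral _ h).2
    rw [hfxM, hy, QuaternionGroup.xa_mul_a, QuaternionGroup.a_mul_xa] at h1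
    injection h1 with h2
    have h3 : (((2 * M : ℤ)) : ZMod (2 * N)) = 0 := by
      push_cast
      linear_combination -h2
    have := Int.le_of_dvd (by omega) (h2N _ h3)
    omega
  have hyx2Z : (y * x) * (y * x) ∈ Subgroup.center S := by
    apply hZrep
    rw [map_mul, map_mul, hx, hy, QuaternionGroup.xa_mul_a, QuaternionGroup.xa_mul_xa]
    congr 1; ring
  have hxM2Z : x ^ M * x ^ M ∈ Subgroup.center S := by
    apply hZrep
    rw [map_mul, hfxM, QuaternionGroup.a_mul_a]
    congr 1
    rw [hNM]; push_cast; ring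
  have hzz : (y * y) * (y * y) = 1 := hint _ (mul_mem hy2Z hy2Z) (fun i => hsq i _ hy2Z)
  have e1 : (y * y) * ((y * x) * (y * x)) = 1 := by
    apply hint _ (mul_mem hy2Z hyx2Z)
    intro i
    exact hdiv i _ _ hy2Z hyx2Z (hkey i y hy2Z hyZ) (hkey i _ hyx2Z hyxZ)
  have e2 : (y * y) * (x ^ M * x ^ M) = 1 := by
    apply hint _ (mul_mem hy2Z hxM2Z)
    intro i
    exact hdiv i _ _ hy2Z hxM2Z (hkey i y hy2Z hyZ) (hkey i _ hxM2Z hxMZ)
  have e3 : (y * x) * (y * x) = y * y := by
    have h1 : (y * y) * ((y * x) * (y * x)) = (y * y) * (y * y) := by rw [e1, hzz]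
    exact mul_left_cancel h1
  have e4 : x ^ M * x ^ M = y * y := by
    have h1 : (y * y) * (x ^ M * x ^ M) = (y * y) * (y * y) := by rw [e2, hzz]
    exact mul_left_cancel h1
  have e5 : y * x * y⁻¹ = x⁻¹ := by
    have h1 : x * y * x = y := by
      have : y * (x * y * x) = y * y := by rw [← e3]; group
      exact mul_left_cancel this
    calc y * x * y⁻¹ = x⁻¹ * (x * y * x) * y⁻¹ := by group
      _ = x⁻¹ := by rw [h1]; group
  have e6 : ∀ m : ℤ, y * x ^ m = x ^ (-m) * y := by
    intro m
    have h1 : y * x ^ m * y⁻¹ = x ^ (-m) := by rw [← conj_zpow, e5, inv_zpow, zpow_neg]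
    calc y * x ^ m = (y * x ^ m * y⁻¹) * y := by group
      _ = _ := by rw [h1]
  have e7 : y * y = x ^ (2 * M : ℤ) := by
    rw [← e4, two_mul, zpow_add, zpow_natCast]
  have e8 : x ^ (4 * M : ℤ) = 1 := by
    have : (4 * M : ℤ) = 2 * M + 2 * M := by ring
    rw [this, zpow_add, ← e7, hzz]
  have e9 : y * y ≠ 1 := by
    intro h
    have h1 := hkey i0 y hy2Z hyZ
    rw [h] at h1
    exact h1 (one_mem _)
  let Q : Subgroup S :=
    { carrier := {s | ∃ m : ℤ, s = x ^ m ∨ s = x ^ m * y}
      one_mem' := ⟨0, Or.inl (by simp)⟩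
      mul_mem' := by
        rintro a b ⟨m, rfl | rfl⟩ ⟨l, rfl | rfl⟩
        · exact ⟨m + l, Or.inl (by rw [zpow_add])⟩
        · exact ⟨m + l, Or.inr (by rw [zpow_add, mul_assoc])⟩
        · refine ⟨m - l, Or.inr ?_⟩
          rw [mul_assoc, e6, ← mul_assoc, ← zpow_add]; rfl
        · refine ⟨m - l + 2 * M, Or.inl ?_⟩
          calc x ^ m * y * (x ^ l * y) = x ^ m * (y * x ^ l) * y := by group
            _ = x ^ m * (x ^ (-l) * y) * y := by rw [e6]
            _ = x ^ m * x ^ (-l) * (y * y) := by group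
            _ = _ := by rw [e7, ← zpow_add, ← zpow_add]; rfl
      inv_mem' := by
        rintro a ⟨m, rfl | rfl⟩
        · exact ⟨-m, Or.inl (by rw [zpow_neg])⟩
        · refine ⟨m + 2 * M, Or.inr ?_⟩
          rw [inv_eq_iff_mul_eq_one]
          calc x ^ m * y * (x ^ (m + 2 * M) * y) = x ^ m * (y * x ^ (m + 2 * M)) * y := by group
            _ = x ^ m * (x ^ (-(m + 2 * M)) * y) * y := by rw [e6]
            _ = x ^ m * x ^ (-(m + 2 * M)) * (y * y) := by group
            _ = 1 := by rw [e7, ← zpow_add, ← zpow_add]; ring_nf; simp }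
  have hQmem : ∀ s, s ∈ Q ↔ ∃ m : ℤ, s = x ^ m ∨ s = x ^ m * y := fun s => Iff.rfl
  have hxQ : x ∈ Q := ⟨1, Or.inl (by simp)⟩
  have hyQ : y ∈ Q := ⟨0, Or.inr (by simp)⟩
  refine ⟨D, Q, ⟨le_top, le_top, ?_, ?_, ?_⟩, ⟨⟨⟨?_⟩⟩, ?_⟩, ?_, ?_⟩
  · intro d hd b _
    exact (hDc d hd b).symm
  · rw [Subgroup.eq_bot_iff_forall]
    intro s hs
    rw [Subgroup.mem_inf, hQmem] at hs
    obtain ⟨hsD, m, h | h⟩ := hs
    · have h1 := hfd s hsD
      rw [h, H19.QuatQ.map_x_zpow hx, QuaternionGroup.one_def] at h1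
      injection h1 with h2
      obtain ⟨j, hj⟩ := h2N m h2
      rw [h, hj, zpow_mul]
      have : ((2 * N : ℕ) : ℤ) = 4 * M := by rw [hNM]; push_cast; ring
      rw [this, e8, one_zpow]
    · have h1 := hfd s hsD
      rw [h, map_mul, H19.QuatQ.map_x_zpow hx, hy, QuaternionGroup.a_mul_xa, QuaternionGroup.one_def] at h1
      injection h1
  · rw [eq_top_iff]
    intro s _
    obtain ⟨m, d, hd, h | h⟩ := hcases s
    · rw [h]
      exact mul_mem (Subgroup.mem_sup_right (zpow_mem hxQ m)) (Subgroup.mem_sup_left hd)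
    · rw [h]
      exact mul_mem (Subgroup.mem_sup_right (mul_mem (zpow_mem hxQ m) hyQ)) (Subgroup.mem_sup_left hd)
  · intro a b
    exact Subtype.ext (hDc b b.2 a)
  · intro a ha
    rw [sq]
    exact hint _ (mul_mem (hDZ ha) (hDZ ha)) (fun i => hsq i _ (hDZ ha))
  · rintro ⟨⟨hcomm⟩⟩
    have h1 := congrArg Subtype.val (hcomm ⟨y, hyQ⟩ ⟨x, hxQ⟩)
    change y * x = x * y at h1
    have h2 : f (y * x) = f (x * y) := by rw [h1]
    rw [map_mul, map_mul, hx, hy, QuaternionGroup.xa_mul_a, QuaternionGroup.a_mul_xa] at h2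
    injection h2 with h2
    have h3 : (((2 : ℤ)) : ZMod (2 * N)) = 0 := by
      push_cast
      linear_combination h2
    have := Int.le_of_dvd (by norm_num) (h2N 2 h3)
    omega
  · refine ⟨⟨y * y, mul_mem hyQ hyQ⟩, ?_, ?_⟩
    · apply orderOf_eq_prime
      · apply Subtype.ext
        show (y * y) ^ 2 = 1
        rw [sq]; exact hzz
      · intro h
        exact e9 (congrArg Subtype.val h)
    · rintro ⟨s, hs⟩ ho
      apply Subtype.ext
      show s = y * y
      have hs1 : s ≠ 1 := by
        rintro rfl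
        rw [show (⟨1, hs⟩ : Q) = 1 from rfl, orderOf_one] at ho
        omega
      have hs2 : s * s = 1 := by
        have := congrArg Subtype.val (pow_orderOf_eq_one (⟨s, hs⟩ : Q))
        rw [ho, sq] at this
        exact this
      obtain ⟨m, h | h⟩ := (hQmem s).1 hs
      · have h1 : f (s * s) = 1 := by rw [hs2, map_one]
        rw [map_mul, h, H19.QuatQ.map_x_zpow hx, QuaternionGroup.a_mul_a, QuaternionGroup.one_def] at h1
        injection h1 with h2
        have h3 : ((m + m : ℤ) : ZMod (2 * N)) = 0 := by push_cast; exact h2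
        obtain ⟨j, hj⟩ := h2N _ h3
        have h4 : m = (2 * M : ℤ) * j := by
          rw [hNM] at hj; push_cast at hj; linarith
        rw [h, h4, zpow_mul, ← e7]
        rw [h, h4, zpow_mul, ← e7] at hs1
        rcases Int.even_or_odd j with ⟨l, hl⟩ | ⟨l, hl⟩
        · exfalso
          apply hs1
          rw [hl, zpow_add, ← (Commute.refl (y * y)).mul_zpow, hzz, one_zpow]
        · rw [hl, zpow_add, zpow_mul, zpow_one]
          have : (y * y) ^ (2 : ℤ) = 1 := by
            rw [zpow_ofNat, sq]; exact hzz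
          rw [this, one_zpow, one_mul]
      · exfalso
        apply e9
        rw [← hs2, h]
        calc y * y = x ^ m * x ^ (-m) * (y * y) := by group
          _ = x ^ m * (x ^ (-m) * y) * y := by group
          _ = x ^ m * (y * x ^ m) * y := by rw [e6]
          _ = _ := by group

end Cfsg.Agent.S3201
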