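import Cfsg.Statements.S3202
import Mathlib
import Cfsg.Agent.H19_QuatQ

set_option autoImplicit false
open Cfsg

namespace Cfsg.Agent.S3202

open scoped commutatorElement

/-- Let S be a finite 2-group of 2-rank exactly 2 and D a maximal subgroup of the centre of S such that S/D is a non-abelian group with exactly one involution (a generalized quaternion group). Then S has a nontrivial cyclic characteristic subgroup. -/
theorem result {S : Type*} [Group S]
    [Finite S] (hS : IsPGroup 2 S) (hr2 : Cfsg.PRankLE 2 2 S) (hr1 : ¬ Cfsg.PRankLE 2 1 S)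
    (D : Subgroup ↥(Subgroup.center S)) (hD : IsCoatom D)
    (hq : ∃ (_ : (D.map (Subgroup.center S).subtype).Normal),
      ¬ IsMulCommutative (S ⧸ D.map (Subgroup.center S).subtype) ∧
      ∃! x : S ⧸ D.map (Subgroup.center S).subtype, orderOf x = 2) :
    ∃ C : Subgroup S, C ≠ ⊥ ∧ IsCyclic ↥C ∧ C.Characteristic := by
  classical
  obtain ⟨hDn, hna, hu⟩ := hq
  set D' : Subgroup S := D.map (Subgroup.center S).subtype with hD'
  obtain ⟨k, f, x, y, hk, hker, hf, hx, hy⟩ := H19.QuatQ.exists_data hS D' hna hu
  haveI : NeZero (2 ^ k) := ⟨pow_ne_zero _ two_ne_zero⟩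
  have hDc : ∀ d ∈ D', ∀ g : S, g * d = d * g := by
    intro d hd g
    obtain ⟨d', _, rfl⟩ := hd
    exact Subgroup.mem_center_iff.1 d'.2 g
  have hcases := H19.QuatQ.elt_cases (D := D') hker hx hy
  -- `c = [x, y]`
  set c : S := x * y * x⁻¹ * y⁻¹ with hc
  -- elements mapping to `a i` commute with `x`
  have hA : ∀ s : S, (∃ i, f s = QuaternionGroup.a i) → Commute x s := by
    rintro s ⟨i, hi⟩
    obtain ⟨m, d, hd, h | h⟩ := hcases s
    · rw [h]
      exact ((Commute.refl x).zpow_right m).mul_right (hDc d hd x)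
    · exfalso
      have hd1 : f d = 1 := by rw [← MonoidHom.mem_ker, hker]; exact hd
      rw [h, map_mul, map_mul, H19.QuatQ.map_x_zpow hx, hy, hd1] at hi
      simp at hi
  have hxc : Commute x c := by
    apply hA
    rw [hc, map_mul, map_mul, map_mul, map_inv, map_inv, hx, hy]
    simp only [QuaternionGroup.a_mul_xa, QuaternionGroup.xa_mul_a, H19.QuatQ.inv_a, H19.QuatQ.inv_xa, QuaternionGroup.xa_mul_xa]
    exact ⟨_, rfl⟩
  have hxy2 : Commute x (y * y) := by
    apply hA
    rw [map_mul, hy]
    simp only [QuaternionGroup.xa_mul_xa]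
    exact ⟨_, rfl⟩
  have hyc : y * c * y⁻¹ = c⁻¹ := by
    have h1 : y * c * y⁻¹ = (y * x * y⁻¹) * ((y * y) * x⁻¹ * (y * y)⁻¹) := by rw [hc]; group
    have h2 : (y * y) * x⁻¹ * (y * y)⁻¹ = x⁻¹ := by
      rw [hxy2.inv_left.symm.eq]; group
    rw [h1, h2, hc]
    group
  have hN : (Subgroup.zpowers c).Normal := by
    have hstep : ∀ s : S, s ∈ Subgroup.normalizer (Subgroup.zpowers c : Set S) := by
      have hxn : x ∈ Subgroup.normalizer (Subgroup.zpowers c : Set S) := by
        rw [Subgroup.mem_normalizer_iff]
        have key : ∀ m : ℤ, x * c ^ m * x⁻¹ = c ^ m := by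
          intro m
          rw [(hxc.zpow_right m).eq]; group
        intro g
        constructor
        · rintro ⟨m, rfl⟩
          exact ⟨m, (key m).symm⟩
        · rintro ⟨m, hm⟩
          refine ⟨m, ?_⟩
          have h1 : x * c ^ m * x⁻¹ = x * g * x⁻¹ := by rw [key m]; exact hm
          exact mul_left_cancel (mul_right_cancel h1)
      have hyn : y ∈ Subgroup.normalizer (Subgroup.zpowers c : Set S) := by
        rw [Subgroup.mem_normalizer_iff]
        have key : ∀ m : ℤ, y * c ^ m * y⁻¹ = c ^ (-m) := by
          intro m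
          rw [← conj_zpow, hyc, inv_zpow, zpow_neg]
        intro g
        constructor
        · rintro ⟨m, rfl⟩
          exact ⟨-m, (key m).symm⟩
        · rintro ⟨m, hm⟩
          refine ⟨-m, ?_⟩
          have h1 : y * c ^ (-m) * y⁻¹ = y * g * y⁻¹ := by rw [key (-m), neg_neg]; exact hm
          exact mul_left_cancel (mul_right_cancel h1)
      have hdn : ∀ d ∈ D', d ∈ Subgroup.normalizer (Subgroup.zpowers c : Set S) := by
        intro d hd
        rw [Subgroup.mem_normalizer_iff]
        intro g
        have : d * g * d⁻¹ = g := by rw [← hDc d hd g]; group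
        rw [this]
      intro s
      obtain ⟨m, d, hd, h | h⟩ := hcases s
      · rw [h]; exact mul_mem (zpow_mem hxn m) (hdn d hd)
      · rw [h]; exact mul_mem (mul_mem (zpow_mem hxn m) hyn) (hdn d hd)
    constructor
    intro g hg s
    exact (Subgroup.mem_normalizer_iff.1 (hstep s) g).1 hg
  have hle : commutator S ≤ Subgroup.zpowers c := by
    let q : S →* S ⧸ Subgroup.zpowers c := QuotientGroup.mk' (Subgroup.zpowers c)
    have hqk : ∀ s, q s = 1 ↔ s ∈ Subgroup.zpowers c := by
      intro s
      show s ∈ (QuotientGroup.mk' (Subgroup.zpowers c)).ker ↔ _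
      rw [QuotientGroup.ker_mk']
    have hq1 : Commute (q x) (q y) := by
      have h1 : q (x * y * x⁻¹ * y⁻¹) = 1 := (hqk _).2 (Subgroup.mem_zpowers c)
      rw [map_mul, map_mul, map_mul, map_inv, map_inv] at h1
      show q x * q y = q y * q x
      have h2 := mul_inv_eq_one.1 h1
      exact (mul_inv_eq_iff_eq_mul.1 h2)
    have hqd : ∀ d ∈ D', ∀ s, Commute (q d) (q s) := by
      intro d hd s
      show q d * q s = q s * q d
      rw [← map_mul, ← map_mul, hDc d hd s]
    have hqx : ∀ s, Commute (q x) (q s) := by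
      intro s
      obtain ⟨m, d, hd, h | h⟩ := hcases s
      · rw [h, map_mul, map_zpow]
        exact ((Commute.refl _).zpow_right m).mul_right (hqd d hd x).symm
      · rw [h, map_mul, map_mul, map_zpow]
        exact (((Commute.refl _).zpow_right m).mul_right hq1).mul_right (hqd d hd x).symm
    have hqy : ∀ s, Commute (q y) (q s) := by
      intro s
      obtain ⟨m, d, hd, h | h⟩ := hcases s
      · rw [h, map_mul, map_zpow]
        exact (hq1.symm.zpow_right m).mul_right (hqd d hd y).symm
      · rw [h, map_mul, map_mul, map_zpow]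
        exact ((hq1.symm.zpow_right m).mul_right (Commute.refl _)).mul_right (hqd d hd y).symm
    have hqall : ∀ s t, Commute (q s) (q t) := by
      intro s t
      obtain ⟨m, d, hd, h | h⟩ := hcases s
      · rw [h, map_mul, map_zpow]
        exact ((hqx t).zpow_left m).mul_left (hqd d hd t)
      · rw [h, map_mul, map_mul, map_zpow]
        exact (((hqx t).zpow_left m).mul_left (hqy t)).mul_left (hqd d hd t)
    rw [commutator_def, Subgroup.commutator_le]
    intro s _ t _
    rw [← hqk]
    rw [map_commutatorElement, commutatorElement_eq_one_iff_commute]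
    exact hqall s t
  refine ⟨commutator S, ?_, ?_, inferInstance⟩
  · intro hbot
    apply hna
    refine ⟨⟨fun a b => ?_⟩⟩
    obtain ⟨s, rfl⟩ := QuotientGroup.mk'_surjective _ a
    obtain ⟨t, rfl⟩ := QuotientGroup.mk'_surjective _ b
    rw [← map_mul, ← map_mul]
    congr 1
    have h1 : ⁅s, t⁆ ∈ commutator S := by
      rw [commutator_def]; exact Subgroup.commutator_mem_commutator (Subgroup.mem_top s) (Subgroup.mem_top t)
    rw [hbot, Subgroup.mem_bot, commutatorElement_eq_one_iff_commute] at h1
    exact h1.eq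
  · have h1 : IsCyclic (Subgroup.zpowers c) := inferInstance
    exact isCyclic_of_injective (Subgroup.inclusion hle) (Subgroup.inclusion_injective hle)

end Cfsg.Agent.S3202
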