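import Cfsg.Statements.S3206
import Mathlib
import Cfsg.Agent.H9_JR

set_option autoImplicit false
open Cfsg

namespace Cfsg.Agent.S3206

open Cfsg.Agent.H9

theorem core_bot {G : Type*} [Group G] [Finite G] [IsSimpleGroup G] (h2 : 2 ∣ Nat.card G) : Cfsg.pPrimeCore 2 G = ⊥ := by
  haveI hnorm : (Cfsg.pPrimeCore 2 G).Normal := Cfsg.Agent.H1.Nilp.pPrimeCore_normal 2
  have hcop : (Nat.card (Cfsg.pPrimeCore 2 G)).Coprime 2 := Cfsg.Agent.H11.Cores.pPrimeCore_coprime 2
  rcases hnorm.eq_bot_or_eq_top with h | h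
  · exact h
  · rw [h, Subgroup.card_top] at hcop
    have := Nat.Coprime.eq_one_of_dvd hcop.symm h2
    omega

theorem center_bot {G : Type*} [Group G] [Finite G] [IsSimpleGroup G] (hG : ¬ IsMulCommutative G) : Subgroup.center G = ⊥ := by
  rcases (inferInstance : (Subgroup.center G).Normal).eq_bot_or_eq_top with h2 | h2
  · exact h2
  · exfalso
    apply hG
    rw [isMulCommutative_iff]
    intro a b
    have : b ∈ Subgroup.center G := by rw [h2]; trivial
    exact Subgroup.mem_center_iff.1 this a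

/-- the Sylow 2-subgroup is elementary abelian of order 8 -/
theorem structure_S {G : Type*} [Group G] [Finite G]
    (hab : ∀ S : Sylow 2 G, IsMulCommutative ↥(S : Subgroup G))
    (t : G) (ht : orderOf t = 2)
    (E : Subgroup G) (hE : Cfsg.IsInternalDirectProduct (Subgroup.zpowers t) E (Subgroup.centralizer ({t} : Set G)))
    {F : Type*} [Field F] [Fintype F] (hFo : Odd (Fintype.card F)) (hF3 : 3 < Fintype.card F)
    (N : Subgroup ↥E) [N.Normal] (hN : Nonempty (↥N ≃* Matrix.ProjectiveSpecialLinearGroup (Fin 2) F))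
    (hNc : Subgroup.centralizer (N : Set ↥E) = ⊥) :
    ∃ S : Sylow 2 G, Nat.card (S : Subgroup G) = 8 ∧ ∀ x ∈ (S : Subgroup G), x ^ 2 = 1 := by
  classical
  obtain ⟨e⟩ := hN
  obtain ⟨hE1, hE2, hE3, hE4, hE5⟩ := hE
  have h8 := JR.mod8 hab hFo (E.subtype.comp (N.subtype.comp e.symm.toMonoidHom))
    ((Subtype.val_injective).comp ((Subtype.val_injective).comp e.symm.injective))
  have hsim : IsSimpleGroup (Matrix.ProjectiveSpecialLinearGroup (Fin 2) F) :=
    Matrix.ProjectiveSpecialLinearGroup.rank_two_simple (by rw [Nat.card_eq_fintype_card]; exact hF3)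
  haveI : Nontrivial N := e.toEquiv.nontrivial
  haveI hsimN : IsSimpleGroup N := IsSimpleGroup.isSimpleGroup_of_surjective e.symm.toMonoidHom e.symm.surjective
  -- Sylow 2-subgroup of N
  obtain ⟨P⟩ : Nonempty (Sylow 2 N) := inferInstance
  have hK := Cfsg.Agent.S0276.result rfl h8 (P.mapSurjective (f := e.toMonoidHom) e.surjective)
  have hP4 : Nat.card (P : Subgroup N) = 4 := by
    have h1 : Nat.card ((P : Subgroup N).map e.toMonoidHom) = 4 := hK.card_four
    rw [← h1]
    exact (Subgroup.card_map_of_injective e.injective).symm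
  have hP2 : ∀ x ∈ (P : Subgroup N), x ^ 2 = 1 := by
    intro x hx
    apply e.injective
    rw [map_pow, map_one]
    have h1 := hK.exponent_two
    have h3 : e x ∈ ((P.mapSurjective (f := e.toMonoidHom) e.surjective : Sylow 2 _) : Subgroup (Matrix.ProjectiveSpecialLinearGroup (Fin 2) F)) := by
      exact ⟨x, hx, rfl⟩
    have h2 := Monoid.pow_exponent_eq_one (⟨e x, h3⟩ : ((P.mapSurjective (f := e.toMonoidHom) e.surjective : Sylow 2 _) : Subgroup (Matrix.ProjectiveSpecialLinearGroup (Fin 2) F)))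
    rw [h1] at h2
    exact congrArg Subtype.val h2
  have h2N : 2 ∣ Nat.card N := by
    have h1 : Nat.card (P : Subgroup N) ∣ Nat.card N := Subgroup.card_subgroup_dvd_card _
    rw [hP4] at h1
    exact (show 2 ∣ 4 by norm_num).trans h1
  have hNn : ¬ IsMulCommutative N := by
    intro h
    letI : CommGroup N := { (inferInstance : Group N) with mul_comm := fun a b => mul_comm' a b }
    have h1 : (Nat.card N).Prime := IsSimpleGroup.prime_card
    have h3 : Nat.card (P : Subgroup N) ∣ Nat.card N := Subgroup.card_subgroup_dvd_card _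
    rw [hP4] at h3
    have h4 := (Nat.prime_dvd_prime_iff_eq Nat.prime_two h1).1 h2N
    rw [← h4] at h3
    omega
  -- commutation
  have htE : ∀ x : E, t * x = x * t := fun x => hE3 t (Subgroup.mem_zpowers t) x x.2
  set ι : N →* G := E.subtype.comp N.subtype with hι
  have hιv : ∀ x : N, ι x = ((x : E) : G) := fun x => rfl
  have hιi : Function.Injective ι := (Subtype.val_injective).comp Subtype.val_injective
  set P' : Subgroup G := (P : Subgroup N).map ι with hP'
  have hP'4 : Nat.card P' = 4 := by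
    rw [← hP4]; exact Subgroup.card_map_of_injective hιi
  have hP'2 : IsPGroup 2 P' := P.isPGroup'.map _
  have ht2 : IsPGroup 2 (Subgroup.zpowers t) := IsPGroup.of_card (n := 1) (by rw [Nat.card_zpowers, ht, pow_one])
  have hP't : P' ≤ Subgroup.centralizer (Subgroup.zpowers t : Set G) := by
    rintro _ ⟨x, hx, rfl⟩
    rw [Subgroup.mem_centralizer_iff]
    intro y hy
    exact hE3 y hy _ (x : E).2
  have hsup2 : IsPGroup 2 (Subgroup.zpowers t ⊔ P' : Subgroup G) :=
    IsPGroup.to_sup_of_normal_left' ht2 hP'2 (hP't.trans (Subgroup.centralizer_le_normalizer _))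
  obtain ⟨S, hS⟩ := hsup2.exists_le_sylow
  have htS : t ∈ (S : Subgroup G) := hS (Subgroup.mem_sup_left (Subgroup.mem_zpowers t))
  have hP'S : P' ≤ (S : Subgroup G) := le_sup_right.trans hS
  haveI hSc := hab S
  have hcomm : ∀ a ∈ (S : Subgroup G), ∀ b ∈ (S : Subgroup G), a * b = b * a := fun a ha b hb =>
    congrArg Subtype.val (mul_comm' (⟨a, ha⟩ : (S : Subgroup G)) ⟨b, hb⟩)
  have hSE : ∀ s ∈ (S : Subgroup G), s ∈ E → s ∈ P' := by
    intro s hs hsE
    obtain ⟨j, hj⟩ := (IsPGroup.iff_orderOf.1 S.isPGroup') ⟨s, hs⟩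
    rw [Subgroup.orderOf_mk] at hj
    obtain ⟨g, hg⟩ := AbAut.inner (center_bot hNn) (core_bot h2N) P
      (by
        rw [isMulCommutative_iff]
        rintro ⟨a, ha⟩ ⟨b, hb⟩
        apply Subtype.ext
        apply hιi
        change ι (a * b) = ι (b * a)
        rw [map_mul, map_mul]
        exact hcomm _ (hP'S ⟨a, ha, rfl⟩) _ (hP'S ⟨b, hb, rfl⟩)) (MulAut.conjNormal (H := N) (⟨s, hsE⟩ : E))
      ⟨j, by
        rw [← map_pow]
        have : (⟨s, hsE⟩ : E) ^ 2 ^ j = 1 := by
          apply Subtype.ext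
          rw [Subgroup.coe_pow, ← hj]
          exact pow_orderOf_eq_one s
        rw [this, map_one]⟩
      (by
        intro x hx
        apply hιi
        have h1 : ι (MulAut.conjNormal (H := N) (⟨s, hsE⟩ : E) x) = s * ι x * s⁻¹ := rfl
        rw [h1, hcomm s hs (ι x) (hP'S ⟨x, hx, rfl⟩), mul_inv_cancel_right])
    have hmem : ((g : E)⁻¹ * ⟨s, hsE⟩ : E) ∈ Subgroup.centralizer (N : Set ↥E) := by
      rw [Subgroup.mem_centralizer_iff]
      intro n hn
      have h1 := hg ⟨n, hn⟩
      have h2 := congrArg Subtype.val h1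
      rw [MulAut.conjNormal_apply] at h2
      simp only [Subgroup.coe_mul, Subgroup.coe_inv] at h2
      rw [mul_inv_eq_iff_eq_mul] at h2
      calc n * ((g : E)⁻¹ * ⟨s, hsE⟩) = (g : E)⁻¹ * (g * n * (g : E)⁻¹ * ⟨s, hsE⟩) := by group
        _ = (g : E)⁻¹ * ⟨s, hsE⟩ * n := by rw [← h2, mul_assoc]
    rw [hNc, Subgroup.mem_bot, inv_mul_eq_one] at hmem
    have hsN : (⟨s, hsE⟩ : E) ∈ N := by rw [← hmem]; exact g.2
    have hQ : IsPGroup 2 ((S : Subgroup G).comap ι) := S.isPGroup'.comap_of_injective _ hιi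
    have hPQ : (P : Subgroup N) ≤ (S : Subgroup G).comap ι := fun x hx => hP'S ⟨x, hx, rfl⟩
    have hPQ' := P.is_maximal' hQ hPQ
    refine ⟨⟨⟨s, hsE⟩, hsN⟩, ?_, rfl⟩
    rw [← hPQ']
    exact hs
  have hdec : ∀ s ∈ (S : Subgroup G), ∃ a ∈ Subgroup.zpowers t, ∃ b ∈ P', s = a * b := by
    intro s hs
    have h1 : s ∈ Subgroup.centralizer ({t} : Set G) := by
      rw [Subgroup.mem_centralizer_iff]
      intro y hy
      rw [Set.mem_singleton_iff] at hy
      rw [hy]
      exact hcomm t htS s hs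
    rw [← hE5] at h1
    have hEz : E ≤ Subgroup.normalizer (Subgroup.zpowers t : Set G) := by
      refine le_trans ?_ (Subgroup.centralizer_le_normalizer _)
      intro x hx
      rw [Subgroup.mem_centralizer_iff]
      intro y hy
      exact hE3 y hy x hx
    rw [← SetLike.mem_coe, Subgroup.coe_mul_of_right_le_normalizer_left _ _ hEz] at h1
    obtain ⟨a, ha, b, hb, rfl⟩ := h1
    refine ⟨a, ha, b, ?_, rfl⟩
    apply hSE b _ hb
    have : a ∈ (S : Subgroup G) := (Subgroup.zpowers_le.2 htS) ha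
    have h2 := mul_mem (inv_mem this) hs
    simpa using h2
  refine ⟨S, ?_, ?_⟩
  · have hbij : Function.Bijective (fun x : (Subgroup.zpowers t) × P' => (⟨x.1.1 * x.2.1,
        mul_mem ((Subgroup.zpowers_le.2 htS) x.1.2) (hP'S x.2.2)⟩ : (S : Subgroup G))) := by
      constructor
      · rintro ⟨⟨a, ha⟩, ⟨b, hb⟩⟩ ⟨⟨c, hc⟩, ⟨d, hd⟩⟩ h
        have h1 : a * b = c * d := congrArg Subtype.val h
        have h2 : c⁻¹ * a = d * b⁻¹ := by
          rw [eq_mul_inv_iff_mul_eq, mul_assoc, h1, inv_mul_cancel_left]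
        have h3 : c⁻¹ * a ∈ Subgroup.zpowers t ⊓ E := by
          refine Subgroup.mem_inf.2 ⟨Subgroup.mul_mem _ (Subgroup.inv_mem _ hc) ha, ?_⟩
          rw [h2]
          have hP'E : P' ≤ E := by
            rintro _ ⟨x, hx, rfl⟩
            exact (x : E).2
          exact Subgroup.mul_mem _ (hP'E hd) (Subgroup.inv_mem _ (hP'E hb))
        rw [hE4, Subgroup.mem_bot] at h3
        have h4 : c = a := inv_mul_eq_one.1 h3
        rw [h3] at h2
        have h5 : d = b := by rw [eq_comm, mul_inv_eq_one] at h2; exact h2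
        simp only [h4, h5]
      · rintro ⟨s, hs⟩
        obtain ⟨a, ha, b, hb, rfl⟩ := hdec s hs
        exact ⟨⟨⟨a, ha⟩, ⟨b, hb⟩⟩, rfl⟩
    rw [← Nat.card_eq_of_bijective _ hbij, Nat.card_prod, hP'4, Nat.card_zpowers, ht]
  · intro x hx
    obtain ⟨a, ha, b, hb, rfl⟩ := hdec x hx
    have h1 : a ^ 2 = 1 := by
      obtain ⟨i, rfl⟩ := Subgroup.mem_zpowers_iff.1 ha
      rw [← zpow_natCast, ← zpow_mul, mul_comm, zpow_mul]
      have : t ^ ((2 : ℕ) : ℤ) = 1 := by rw [zpow_natCast, ← ht]; exact pow_orderOf_eq_one t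
      rw [this, one_zpow]
    have h2 : b ^ 2 = 1 := by
      obtain ⟨y, hy, rfl⟩ := hb
      rw [← map_pow, hP2 y hy, map_one]
    have h3 : Commute a b := hcomm a ((Subgroup.zpowers_le.2 htS) ha) b (hP'S hb)
    rw [h3.mul_pow, h1, h2, one_mul]

/-- Let G be a non-abelian finite simple group with abelian Sylow 2-subgroups, and let t be an involution of G whose centralizer is a maximal subgroup of G and is the direct product of the subgroup generated by t with a subgroup E having a normal subgroup isomorphic to PSL(2, q), q odd and greater than 3, with trivial centralizer in E. Then every finite perfect group having a central 2-subgroup with quotient isomorphic to G has that central subgroup trivial (G has no nontrivial perfect central extension by a 2-group), and every automorphism of G of 2-power order that fixes every element of some Sylow 2-subgroup of G is inner. -/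
theorem result {G : Type*} [Group G] [Finite G] [IsSimpleGroup G]
    (hG : ¬ IsMulCommutative G) (hab : ∀ S : Sylow 2 G, IsMulCommutative ↥(S : Subgroup G))
    (t : G) (ht : orderOf t = 2) (hmax : IsCoatom (Subgroup.centralizer ({t} : Set G)))
    (E : Subgroup G) (hE : Cfsg.IsInternalDirectProduct (Subgroup.zpowers t) E (Subgroup.centralizer ({t} : Set G)))
    {F : Type*} [Field F] [Fintype F] (hFo : Odd (Fintype.card F)) (hF3 : 3 < Fintype.card F)
    (N : Subgroup ↥E) [N.Normal] (hN : Nonempty (↥N ≃* Matrix.ProjectiveSpecialLinearGroup (Fin 2) F))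
    (hNc : Subgroup.centralizer (N : Set ↥E) = ⊥) :
    (∀ (L : Type) (_ : Group L) (_ : Finite L) (Z : Subgroup L) (_ : Z.Normal), commutator L = ⊤ → Z ≤ Subgroup.center L →
        IsPGroup 2 ↥Z → Nonempty (L ⧸ Z ≃* G) → Z = ⊥) ∧
    (∀ (φ : G ≃* G) (k : ℕ), φ ^ (2 ^ k) = 1 → (∃ S : Sylow 2 G, ∀ s ∈ (S : Subgroup G), φ s = s) →
        ∃ g : G, ∀ x : G, φ x = g * x * g⁻¹) := by
  obtain ⟨S, h8, h2⟩ := structure_S hab t ht E hE hFo hF3 N hN hNc
  refine ⟨?_, ?_⟩
  · intro L _ _ Z _ hL hZc hZ2 hiso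
    obtain ⟨ψ⟩ := hiso
    have hker : (ψ.toMonoidHom.comp (QuotientGroup.mk' Z)).ker = Z := by
      ext x
      rw [MonoidHom.mem_ker, MonoidHom.comp_apply]
      constructor
      · intro h
        have h1 : QuotientGroup.mk' Z x = 1 := (MulEquiv.map_eq_one_iff ψ).1 h
        exact (QuotientGroup.eq_one_iff x).1 h1
      · intro h
        have h1 : QuotientGroup.mk' Z x = 1 := (QuotientGroup.eq_one_iff x).2 h
        rw [h1, map_one]
    have h1 := JR.ext_trivial hG S (hab S) h8 h2 (ψ.toMonoidHom.comp (QuotientGroup.mk' Z))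
      (ψ.surjective.comp (QuotientGroup.mk'_surjective Z)) (by rw [hker]; exact hZc) (by rw [hker]; exact hZ2) hL
    rw [hker] at h1
    exact h1
  · intro φ k hφ ⟨S', hS'⟩
    have h2G : 2 ∣ Nat.card G := by rw [← ht]; exact orderOf_dvd_natCard t
    exact AbAut.inner (center_bot hG) (core_bot h2G) S' (hab S') φ ⟨k, hφ⟩ hS'

end Cfsg.Agent.S3206
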