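import Cfsg.Statements.S3208
import Mathlib
import Cfsg.Agent.H13_Syl
import Cfsg.Agent.H19_Inv

set_option autoImplicit false
open Cfsg

namespace Cfsg.Agent.S3208


/-- Let j be an involution of a finite group G, H a subgroup of G, and T a Sylow 2-subgroup of H ∩ C_G(j) containing j such that ⟨j⟩ is a characteristic subgroup of T. Then T is a Sylow 2-subgroup of H. -/
theorem result {G : Type*} [Group G] [Finite G]
    (j : G) (hj : orderOf j = 2) (H T : Subgroup G) (hT : T ≤ H ⊓ Subgroup.centralizer ({j} : Set G)) (h2 : IsPGroup 2 ↥T)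
    (hSyl : ¬ 2 ∣ T.relIndex (H ⊓ Subgroup.centralizer ({j} : Set G))) (hjT : j ∈ T)
    (hchar : ((Subgroup.zpowers j).subgroupOf T).Characteristic) :
    ¬ 2 ∣ T.relIndex H := by
  classical
  have : Fact (Nat.Prime 2) := ⟨Nat.prime_two⟩
  have hTH : T ≤ H := hT.trans inf_le_left
  have hsyl : H13.Syl.IsSylIn 2 T (H ⊓ Subgroup.centralizer ({j} : Set G)) := ⟨hT, h2, hSyl⟩
  have key : H13.Syl.IsSylIn 2 T (H ⊓ Subgroup.normalizer (T : Set G)) := by
    apply hsyl.mono
    · exact le_inf hTH Subgroup.le_normalizer
    · refine le_inf inf_le_left ?_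
      intro g hg
      have hgN : g ∈ Subgroup.normalizer (T : Set G) := hg.2
      -- restrict conjugation to T
      rw [Subgroup.mem_centralizer_singleton_iff]
      have hchar' := hchar.fixed (MulAut.conjNormal (H := T.subgroupOf (Subgroup.normalizer (T : Set G))) ⟨g, hgN⟩ |> fun e => (Subgroup.subgroupOfEquivOfLe (Subgroup.le_normalizer)).symm.trans (e.trans (Subgroup.subgroupOfEquivOfLe (Subgroup.le_normalizer))))
      have hj1 : (⟨j, hjT⟩ : T) ∈ (Subgroup.zpowers j).subgroupOf T := by
        rw [Subgroup.mem_subgroupOf]; exact Subgroup.mem_zpowers j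
      rw [← hchar'] at hj1
      rw [Subgroup.mem_comap, Subgroup.mem_subgroupOf] at hj1
      have h5 : g * j * g⁻¹ ∈ Subgroup.zpowers j := hj1
      have h6 : orderOf (g * j * g⁻¹) = 2 := by
        rw [H19.Inv.conj_orderOf, hj]
      have h7 : g * j * g⁻¹ = j := by
        rw [Subgroup.mem_zpowers_iff] at h5
        obtain ⟨k, hk⟩ := h5
        rcases Int.even_or_odd k with ⟨l, hl⟩ | ⟨l, hl⟩
        · exfalso
          rw [hl, ← two_mul, zpow_mul] at hk
          have : j ^ (2 : ℤ) = 1 := by
            have := pow_orderOf_eq_one j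
            rw [hj] at this
            exact_mod_cast this
          rw [this, one_zpow] at hk
          rw [← hk, orderOf_one] at h6
          omega
        · rw [hl, zpow_add, zpow_mul] at hk
          have : j ^ (2 : ℤ) = 1 := by
            have := pow_orderOf_eq_one j
            rw [hj] at this
            exact_mod_cast this
          rw [this, one_zpow, one_mul, zpow_one] at hk
          exact hk.symm
      rw [mul_inv_eq_iff_eq_mul] at h7
      exact h7
  have := H13.Syl.isSylIn_of_isSylIn_normalizer key
  exact this.not_dvd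

end Cfsg.Agent.S3208
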