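import Cfsg.Statements.S3209
import Mathlib
import Cfsg.Agent.H19_SL2b

set_option autoImplicit false
open Cfsg

namespace Cfsg.Agent.S3209


/-- Let L₁ ≅ SL₂(q₁) and L₂ ≅ SL₂(q₂), q₁ and q₂ odd, be elementwise-commuting subgroups of a finite group meeting in ⟨j⟩ for an involution j. Then L₁L₂ has exactly two conjugacy classes of involutions: the central involution j, and one further class (there is an involution x ≠ j in L₁L₂, and every involution of L₁L₂ other than j is conjugate to x by an element of L₁L₂). -/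
theorem result {G : Type*} [Group G] [Finite G]
    {F₁ : Type*} [Field F₁] [Fintype F₁] {F₂ : Type*} [Field F₂] [Fintype F₂]
    (hF₁ : Odd (Fintype.card F₁)) (hF₂ : Odd (Fintype.card F₂)) (L₁ L₂ : Subgroup G)
    (e₁ : ↥L₁ ≃* Matrix.SpecialLinearGroup (Fin 2) F₁) (e₂ : ↥L₂ ≃* Matrix.SpecialLinearGroup (Fin 2) F₂)
    (hc : ∀ x ∈ L₁, ∀ y ∈ L₂, x * y = y * x) (j : G) (hj : orderOf j = 2) (hm : L₁ ⊓ L₂ = Subgroup.zpowers j) :
    ∃ x ∈ L₁ ⊔ L₂, orderOf x = 2 ∧ x ≠ j ∧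
      ∀ y ∈ L₁ ⊔ L₂, orderOf y = 2 → y = j ∨ ∃ g ∈ L₁ ⊔ L₂, g * x * g⁻¹ = y := by
  have hjm : j ∈ L₁ ⊓ L₂ := by rw [hm]; exact Subgroup.mem_zpowers j
  rw [Subgroup.mem_inf] at hjm
  have hjj : j * j = 1 := by rw [← sq, ← hj]; exact pow_orderOf_eq_one j
  have h1 := H19.SL2b.likeIn hF₁ L₁ e₁ hj hjm.1
  have h2 := H19.SL2b.likeIn hF₂ L₂ e₂ hj hjm.2
  have hP : H19.SL2b.Pair L₁ L₂ j := ⟨h1, h2, hc, by
    intro x hx hy
    have h3 : x ∈ L₁ ⊓ L₂ := Subgroup.mem_inf.2 ⟨hx, hy⟩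
    rw [hm, Subgroup.mem_zpowers_iff] at h3
    obtain ⟨k, rfl⟩ := h3
    rcases Int.even_or_odd' k with ⟨m, hm | hm⟩
    · left; rw [hm, zpow_mul, zpow_ofNat, sq, hjj, one_zpow]
    · right; rw [hm, zpow_add, zpow_mul, zpow_ofNat, sq, hjj, one_zpow, one_mul, zpow_one]⟩
  obtain ⟨a, ha, haa⟩ := h1.ex4
  obtain ⟨b, hb, hbb⟩ := h2.ex4
  have hane : ¬ a ∈ L₂ := by
    intro h3
    rcases hP.inf a ha h3 with h4 | h4
    · rw [h4, one_mul] at haa; exact h1.j1 haa.symm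
    · rw [h4, hjj] at haa; exact h1.j1 haa.symm
  have hxx : (a * b) * (a * b) = 1 := by rw [hP.sq_mul ha hb, haa, hbb, hjj]
  have hx1 : a * b ≠ 1 := by
    intro h3
    apply hane
    rw [eq_inv_of_mul_eq_one_left h3]; exact inv_mem hb
  refine ⟨a * b, hP.mem_sup.2 ⟨a, ha, b, hb, rfl⟩, ?_, ?_, ?_⟩
  · apply orderOf_eq_prime _ hx1
    rw [sq]; exact hxx
  · intro h3
    apply hane
    have : a = j * b⁻¹ := by rw [← h3]; group
    rw [this]; exact mul_mem hjm.2 (inv_mem hb)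
  · intro y hy hyo
    have hyy : y * y = 1 := by rw [← sq, ← hyo]; exact pow_orderOf_eq_one y
    rcases hP.invol hy hyy with h3 | h3 | ⟨c, hc', d, hd, hcc, hdd, h3⟩
    · rw [h3, orderOf_one] at hyo; omega
    · exact Or.inl h3
    · right
      obtain ⟨g, hg, hga⟩ := h1.conj4 a ha c hc' haa hcc
      obtain ⟨k, hk, hkb⟩ := h2.conj4 b hb d hd hbb hdd
      refine ⟨g * k, hP.mem_sup.2 ⟨g, hg, k, hk, rfl⟩, ?_⟩
      rw [h3, ← hga, ← hkb]
      have e1 : k * a * k⁻¹ = a := by rw [← hc a ha k hk]; group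
      have e2 : g * (k * b * k⁻¹) * g⁻¹ = k * b * k⁻¹ := by
        rw [hc g hg _ (mul_mem (mul_mem hk hb) (inv_mem hk))]; group
      calc g * k * (a * b) * (g * k)⁻¹ = g * ((k * a * k⁻¹) * (k * b * k⁻¹)) * g⁻¹ := by group
        _ = g * (a * (k * b * k⁻¹)) * g⁻¹ := by rw [e1]
        _ = (g * a * g⁻¹) * (g * (k * b * k⁻¹) * g⁻¹) := by group
        _ = _ := by rw [e2]

end Cfsg.Agent.S3209
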