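import Cfsg.Statements.S3211
import Cfsg.Agent.H19_SL2c
import Cfsg.Agent.H4_ZStar
import Cfsg.Agent.H11_Cores

set_option autoImplicit false
open Cfsg

namespace Cfsg.Agent.S3211

open Cfsg.Agent.H19.SL2b

/-- Let G be a finite group with subgroups L₁ ≅ SL₂(q₁) and L₂ ≅ SL₂(q₂), q₁ and q₂ odd prime powers, which commute elementwise and meet in ⟨j⟩ for an involution j, and suppose L₁L₂ has index 2 in C_G(j). If some n ∈ C_G(j) with n² = j interchanges L₁ and L₂ under conjugation (so that C_G(j) = L₁L₂⟨n⟩), then G = C_G(j)O(G). -/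
theorem result {G : Type*} [Group G] [Finite G]
    {F₁ : Type*} [Field F₁] [Fintype F₁] {F₂ : Type*} [Field F₂] [Fintype F₂]
    (hF₁ : Odd (Fintype.card F₁)) (hF₂ : Odd (Fintype.card F₂)) (L₁ L₂ : Subgroup G)
    (e₁ : ↥L₁ ≃* Matrix.SpecialLinearGroup (Fin 2) F₁) (e₂ : ↥L₂ ≃* Matrix.SpecialLinearGroup (Fin 2) F₂)
    (hc : ∀ x ∈ L₁, ∀ y ∈ L₂, x * y = y * x) (j : G) (hj : orderOf j = 2) (hm : L₁ ⊓ L₂ = Subgroup.zpowers j)
    (hle : L₁ ⊔ L₂ ≤ Subgroup.centralizer ({j} : Set G)) (hi : (L₁ ⊔ L₂).relIndex (Subgroup.centralizer ({j} : Set G)) = 2) (n : G) (hn : n ∈ Subgroup.centralizer ({j} : Set G))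
    (hn2 : n ^ 2 = j) (hswap : L₁.map (MulAut.conj n).toMonoidHom = L₂) :
    Subgroup.centralizer ({j} : Set G) ⊔ Cfsg.oddCore G = ⊤ := by
  classical
  have hjj : j * j = 1 := by rw [← pow_two, ← hj, pow_orderOf_eq_one]
  have hjmem : j ∈ L₁ ⊓ L₂ := by rw [hm]; exact Subgroup.mem_zpowers j
  have hj1 : j ∈ L₁ := (Subgroup.mem_inf.1 hjmem).1
  have hj2 : j ∈ L₂ := (Subgroup.mem_inf.1 hjmem).2
  have P : Pair L₁ L₂ j := ⟨likeIn hF₁ L₁ e₁ hj hj1, likeIn hF₂ L₂ e₂ hj hj2, hc, by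
    intro x hx1 hx2
    have : x ∈ Subgroup.zpowers j := by rw [← hm]; exact Subgroup.mem_inf.2 ⟨hx1, hx2⟩
    obtain ⟨k, rfl⟩ := Subgroup.mem_zpowers_iff.1 this
    rcases Int.even_or_odd' k with ⟨i, rfl | rfl⟩
    · left; rw [zpow_mul, zpow_ofNat, pow_two, hjj, one_zpow]
    · right; rw [zpow_add, zpow_mul, zpow_ofNat, pow_two, hjj, one_zpow, one_mul, zpow_one]⟩
  have hcen : ∀ x : G, x ∈ Subgroup.centralizer ({j} : Set G) ↔ x * j = j * x := fun x => Subgroup.mem_centralizer_singleton_iff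
  have hnj := (hcen n).1 hn
  have hnn : n * n = j := by rw [← pow_two]; exact hn2
  have hsw : ∀ x, x ∈ L₁ ↔ n * x * n⁻¹ ∈ L₂ := by
    intro x
    rw [← hswap]
    constructor
    · intro hx; exact ⟨x, hx, rfl⟩
    · rintro ⟨y, hy, hyx⟩
      have : n * y * n⁻¹ = n * x * n⁻¹ := hyx
      rwa [← mul_left_cancel (mul_right_cancel this)]
  have hno := swap_nonmem P hnj hnn hsw
  have hidx : ∀ g, g * j = j * g → g ∉ L₁ ⊔ L₂ → n⁻¹ * g ∈ L₁ ⊔ L₂ := by
    intro g hg hgo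
    have h2 : ((L₁ ⊔ L₂).subgroupOf (Subgroup.centralizer ({j} : Set G))).index = 2 := hi
    have h3 := Subgroup.mul_mem_iff_of_index_two h2 (a := (⟨n, hn⟩⁻¹ : Subgroup.centralizer ({j} : Set G))) (b := ⟨g, (hcen g).2 hg⟩)
    rw [Subgroup.mem_subgroupOf, Subgroup.mem_subgroupOf, Subgroup.mem_subgroupOf] at h3
    apply h3.2
    constructor
    · intro h4
      exfalso; apply hno
      have := inv_mem h4
      simpa using this
    · intro h4; exact absurd h4 hgo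
  have hiso : Cfsg.IsIsolatedInvolution j := by
    refine ⟨hj, fun g hg => ?_⟩
    exact isolated P (more hF₁ L₁ e₁ hj hj1) (more hF₂ L₂ e₂ hj hj2) hidx hnj hnn hsw g hg.eq
  exact sup_eq_top_of_comm hjj (Nat.coprime_two_right.mp (Cfsg.Agent.H11.Cores.pPrimeCore_coprime 2)) (fun g => Cfsg.Agent.H4.ZStar.zstar hiso g)

end Cfsg.Agent.S3211
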