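import Cfsg.Statements.S3213
import Mathlib
import Cfsg.Agent.H19_SL2
import Cfsg.Agent.S3210

set_option autoImplicit false
open Cfsg

namespace Cfsg.Agent.S3213

open Matrix

section
variable {F : Type*} [Field F] [Fintype F] (hF : Fintype.card F = 3)
  {G : Type*} [Group G] [Finite G] (φ : G →* ↥(Matrix.symplecticGroup (Fin 2) F))

/-- the linear map of `g` -/
def L (g : G) : (Fin 2 ⊕ Fin 2 → F) →ₗ[F] (Fin 2 ⊕ Fin 2 → F) := Matrix.toLin' (φ g : Matrix (Fin 2 ⊕ Fin 2) (Fin 2 ⊕ Fin 2) F)

omit [Fintype F] [Finite G] in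
theorem L_mul (g h : G) (v : Fin 2 ⊕ Fin 2 → F) : L φ (g * h) v = L φ g (L φ h v) := by
  rw [L, L, L, map_mul]
  show Matrix.toLin' ((φ g : Matrix (Fin 2 ⊕ Fin 2) (Fin 2 ⊕ Fin 2) F) * (φ h : Matrix (Fin 2 ⊕ Fin 2) (Fin 2 ⊕ Fin 2) F)) v = _
  rw [Matrix.toLin'_mul]; rfl

omit [Fintype F] [Finite G] in
theorem L_one (v : Fin 2 ⊕ Fin 2 → F) : L φ 1 v = v := by
  rw [L, map_one]
  show Matrix.toLin' (1 : Matrix (Fin 2 ⊕ Fin 2) (Fin 2 ⊕ Fin 2) F) v = v
  rw [Matrix.toLin'_one]; rfl

omit [Fintype F] [Finite G] in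
theorem L_inj (hφ : Function.Injective φ) {g : G} (h : ∀ v, L φ g v = v) : g = 1 := by
  apply hφ
  apply Subtype.ext
  rw [map_one]
  show (φ g : Matrix (Fin 2 ⊕ Fin 2) (Fin 2 ⊕ Fin 2) F) = 1
  apply Matrix.toLin'.injective
  rw [Matrix.toLin'_one]
  apply LinearMap.ext
  exact h

include hF in
/-- an invariant proper submodule is fixed pointwise by elements of order five -/
theorem fixed_of_order_five {u : G} (hu : orderOf u = 5) (W : Submodule F (Fin 2 ⊕ Fin 2 → F)) (hW : W ≠ ⊤)
    (hinv : ∀ g : G, ∀ w ∈ W, L φ g w ∈ W) : ∀ w ∈ W, L φ u w = w := by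
  classical
  haveI : Fact (Nat.Prime 5) := ⟨by norm_num⟩
  letI act : MulAction (Subgroup.zpowers u) W :=
    { smul := fun g w => ⟨L φ g w, hinv g w w.2⟩
      one_smul := fun w => Subtype.ext (L_one φ w)
      mul_smul := fun a b w => Subtype.ext (L_mul φ a b w) }
  have hP : IsPGroup 5 (Subgroup.zpowers u) := IsPGroup.of_card (n := 1) (by rw [Nat.card_zpowers, hu, pow_one])
  have h1 := hP.card_modEq_card_fixedPoints W
  let W' : Submodule F (Fin 2 ⊕ Fin 2 → F) := W ⊓ LinearMap.ker (L φ u - LinearMap.id)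
  have hmem : ∀ w : W, w ∈ MulAction.fixedPoints (Subgroup.zpowers u) W ↔ L φ u w = w := by
    intro w
    constructor
    · intro h
      exact congrArg Subtype.val (h ⟨u, Subgroup.mem_zpowers u⟩)
    · intro h
      rintro ⟨g, hg⟩
      obtain ⟨k, rfl⟩ := (mem_powers_iff_mem_zpowers (x := u)).2 hg
      apply Subtype.ext
      show L φ (u ^ k) w = w
      induction k with
      | zero => rw [pow_zero, L_one]
      | succ k ih => rw [pow_succ, L_mul, h, ih (Subgroup.npow_mem_zpowers u k)]
  have hcard : Nat.card (MulAction.fixedPoints (Subgroup.zpowers u) W) = Nat.card W' := by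
    apply Nat.card_congr
    refine ⟨fun w => ⟨(w : W), ⟨(w : W).2, ?_⟩⟩, fun w => ⟨⟨w, w.2.1⟩, ?_⟩, ?_, ?_⟩
    · have := (hmem w).1 w.2
      show ((w : W) : Fin 2 ⊕ Fin 2 → F) ∈ LinearMap.ker (L φ u - LinearMap.id)
      rw [LinearMap.mem_ker, LinearMap.sub_apply, this]; simp
    · rw [hmem]
      have := w.2.2
      change (w : Fin 2 ⊕ Fin 2 → F) ∈ LinearMap.ker (L φ u - LinearMap.id) at this
      rw [LinearMap.mem_ker, LinearMap.sub_apply, sub_eq_zero] at this
      exact this
    · intro w; rfl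
    · intro w; rfl
  rw [hcard] at h1
  have hc : ∀ U : Submodule F (Fin 2 ⊕ Fin 2 → F), Nat.card U = 3 ^ Module.finrank F U := by
    intro U
    haveI : Fintype U := Fintype.ofFinite _
    rw [Nat.card_eq_fintype_card, Module.card_eq_pow_finrank (K := F), hF]
  rw [hc, hc] at h1
  have hle : W' ≤ W := inf_le_left
  have h2 : Module.finrank F W' ≤ Module.finrank F W := Submodule.finrank_mono hle
  have h3 : Module.finrank F W < 4 := by
    have := Submodule.finrank_lt hW
    simpa using this
  have h4 : Module.finrank F W' = Module.finrank F W := by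
    generalize Module.finrank F W' = b at *
    generalize Module.finrank F W = a at *
    have hb : b < 4 := by omega
    interval_cases a <;> interval_cases b <;> first | rfl | (exfalso; revert h1; decide)
  have h5 : W' = W := Submodule.eq_of_le_of_finrank_eq hle h4
  intro w hw
  rw [← h5] at hw
  have := hw.2
  change w ∈ LinearMap.ker (L φ u - LinearMap.id) at this
  rw [LinearMap.mem_ker, LinearMap.sub_apply, sub_eq_zero] at this
  exact this

include hF in
/-- a central involution has no nonzero fixed vector -/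
theorem no_fixed (hφ : Function.Injective φ) {t : G} (htt : t * t = 1) (ht1 : t ≠ 1) (htc : ∀ g, g * t = t * g)
    {u : G} (hu : orderOf u = 5) {v : Fin 2 ⊕ Fin 2 → F} (hv : L φ t v = v) : v = 0 := by
  have h3 : (3 : F) = 0 := by
    have := Nat.cast_card_eq_zero F
    rw [hF] at this; exact_mod_cast this
  by_contra hv0
  let Wp : Submodule F (Fin 2 ⊕ Fin 2 → F) := LinearMap.ker (L φ t - LinearMap.id)
  let Wm : Submodule F (Fin 2 ⊕ Fin 2 → F) := LinearMap.ker (L φ t + LinearMap.id)
  have hp : ∀ w, w ∈ Wp ↔ L φ t w = w := by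
    intro w
    show w ∈ LinearMap.ker (L φ t - LinearMap.id) ↔ _
    rw [LinearMap.mem_ker, LinearMap.sub_apply, sub_eq_zero]; rfl
  have hm : ∀ w, w ∈ Wm ↔ L φ t w = -w := by
    intro w
    show w ∈ LinearMap.ker (L φ t + LinearMap.id) ↔ _
    rw [LinearMap.mem_ker, LinearMap.add_apply, add_eq_zero_iff_eq_neg]; rfl
  have hinvp : ∀ g : G, ∀ w ∈ Wp, L φ g w ∈ Wp := by
    intro g w hw
    rw [hp] at hw ⊢
    rw [← L_mul, ← htc, L_mul, hw]
  have hinvm : ∀ g : G, ∀ w ∈ Wm, L φ g w ∈ Wm := by
    intro g w hw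
    rw [hm] at hw ⊢
    rw [← L_mul, ← htc, L_mul, hw, map_neg]
  have hWp : Wp ≠ ⊤ := by
    intro h
    apply ht1
    apply L_inj φ hφ
    intro w
    rw [← hp, h]; trivial
  have hWm : Wm ≠ ⊤ := by
    intro h
    have h1 : v ∈ Wm := by rw [h]; trivial
    rw [hm, hv] at h1
    apply hv0
    have h2 : v + v = 0 := by nth_rewrite 1 [h1]; simp
    have h4 : (3 : F) • v = 0 := by rw [h3, zero_smul]
    have h5 : (3 : F) • v = (v + v) + v := by
      have : (3 : F) = 1 + 1 + 1 := by norm_num
      rw [this, add_smul, add_smul, one_smul]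
    rw [h5, h2, zero_add] at h4
    exact h4
  have hu1 : u = 1 := by
    apply L_inj φ hφ
    intro w
    have a1 : w + L φ t w ∈ Wp := by
      rw [hp, map_add, ← L_mul, htt, L_one, add_comm]
    have a2 : w - L φ t w ∈ Wm := by
      rw [hm, map_sub, ← L_mul, htt, L_one]; abel
    have b1 := fixed_of_order_five hF φ hu Wp hWp hinvp _ a1
    have b2 := fixed_of_order_five hF φ hu Wm hWm hinvm _ a2
    have b3 : L φ u (w + w) = w + w := by
      have e : w + w = (w + L φ t w) + (w - L φ t w) := by abel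
      rw [e, map_add, b1, b2]
    have e2 : w = -(w + w) := by
      have h4 : (3 : F) • w = 0 := by rw [h3, zero_smul]
      have h5 : (3 : F) • w = (w + w) + w := by
        have : (3 : F) = 1 + 1 + 1 := by norm_num
        rw [this, add_smul, add_smul, one_smul]
      rw [h5] at h4
      rw [add_comm] at h4
      exact eq_neg_of_add_eq_zero_left h4
    rw [e2, map_neg, b3]
  rw [hu1, orderOf_one] at hu
  omega
end

section form
variable {F : Type*} [Field F]

/-- the alternating form -/
def om (v w : Fin 2 ⊕ Fin 2 → F) : F := dotProduct v ((Matrix.J (Fin 2) F).mulVec w)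

theorem om_skew (v w : Fin 2 ⊕ Fin 2 → F) : om v w = - om w v := by
  rw [om, om, Matrix.dotProduct_mulVec, dotProduct_comm, ← Matrix.mulVec_transpose, Matrix.J_transpose, Matrix.neg_mulVec, dotProduct_neg]

theorem om_add_left (u v w : Fin 2 ⊕ Fin 2 → F) : om (u + v) w = om u w + om v w := by rw [om, om, om, add_dotProduct]
theorem om_add_right (u v w : Fin 2 ⊕ Fin 2 → F) : om u (v + w) = om u v + om u w := by
  rw [om, om, om, Matrix.mulVec_add, dotProduct_add]
theorem om_smul_right (c : F) (v w : Fin 2 ⊕ Fin 2 → F) : om v (c • w) = c * om v w := by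
  rw [om, om, Matrix.mulVec_smul, dotProduct_smul, smul_eq_mul]

theorem om_nondeg {w : Fin 2 ⊕ Fin 2 → F} (h : ∀ v, om v w = 0) : w = 0 := by
  have h1 : (Matrix.J (Fin 2) F).mulVec w = 0 := by
    ext i
    have := h (Pi.single i 1)
    rw [om, single_dotProduct, one_mul] at this
    exact this
  have h2 : (Matrix.J (Fin 2) F).mulVec ((Matrix.J (Fin 2) F).mulVec w) = 0 := by rw [h1, Matrix.mulVec_zero]
  rw [Matrix.mulVec_mulVec, Matrix.J_squared, Matrix.neg_mulVec, Matrix.one_mulVec, neg_eq_zero] at h2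
  exact h2

theorem om_L {G : Type*} [Group G] (φ : G →* ↥(Matrix.symplecticGroup (Fin 2) F)) (g : G) (v w : Fin 2 ⊕ Fin 2 → F) :
    om (L φ g v) (L φ g w) = om v w := by
  have hA := SymplecticGroup.mem_iff'.1 (φ g).2
  show (Matrix.mulVec (φ g : Matrix (Fin 2 ⊕ Fin 2) (Fin 2 ⊕ Fin 2) F) v) ⬝ᵥ
    ((Matrix.J (Fin 2) F).mulVec (Matrix.mulVec (φ g : Matrix (Fin 2 ⊕ Fin 2) (Fin 2 ⊕ Fin 2) F) w)) = _
  rw [← Matrix.vecMul_transpose, ← Matrix.dotProduct_mulVec, Matrix.mulVec_mulVec, Matrix.mulVec_mulVec, hA]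
  rfl

/-- the main linear algebra -/
theorem main {A : (Fin 2 ⊕ Fin 2 → F) →ₗ[F] (Fin 2 ⊕ Fin 2 → F)} (h3 : (3 : F) = 0) (hA3 : ∀ v, A (A (A v)) = v)
    (hom : ∀ v w, om (A v) (A w) = om v w)
    (hk : Module.finrank F (LinearMap.ker (A - LinearMap.id)) ≤ 2) :
    Module.finrank F (LinearMap.ker (A - LinearMap.id)) = 2 ∧ ∀ v w, A v = v → A w = w → om v w = 0 := by
  set N := A - LinearMap.id with hN
  have hNv : ∀ v, N v = A v - v := fun v => rfl
  have h2 : (2 : F) ≠ 0 := by
    intro h2
    have : (1 : F) = 3 - 2 := by norm_num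
    rw [h3, h2, sub_zero] at this
    exact one_ne_zero this
  have hkr : Module.finrank F (LinearMap.range N) + Module.finrank F (LinearMap.ker N) = 4 := by
    rw [LinearMap.finrank_range_add_finrank_ker]; simp
  have hS : ∀ v, N (N v) = A (A v) + A v + v := by
    intro v
    rw [hNv, hNv, map_sub]
    have e : A (A v) - A v - (A v - v) = A (A v) + A v + v - (3 : F) • A v := by
      have : (3 : F) = 1 + 1 + 1 := by norm_num
      rw [this, add_smul, add_smul, one_smul]; abel
    rw [e, h3, zero_smul, sub_zero]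
  have hself : ∀ v w, om (N (N v)) w = om v (N (N w)) := by
    intro v w
    rw [hS, hS, om_add_left, om_add_left, om_add_right, om_add_right]
    have e1 : om (A (A v)) w = om v (A w) := by rw [← hom (A (A v)) w, hA3]
    have e2 : om (A v) w = om v (A (A w)) := by rw [← hom (A v) w, ← hom (A (A v)) (A w), hA3]
    rw [e1, e2]; ring
  have halt : ∀ v, om v (N (N v)) = 0 := by
    intro v
    have h4 : om v (N (N v)) = - om v (N (N v)) := by
      nth_rewrite 1 [om_skew]
      rw [hself]
    have h5 : 2 * om v (N (N v)) = 0 := by linear_combination h4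
    exact (mul_eq_zero.1 h5).resolve_left h2
  have hNN : ∀ w, N (N w) = 0 := by
    intro w
    by_contra hw
    obtain ⟨v, hv⟩ : ∃ v, om v (N (N w)) ≠ 0 := by
      by_contra hcon
      push Not at hcon
      exact hw (om_nondeg hcon)
    have hv' : om w (N (N v)) ≠ 0 := by
      rw [← hself, om_skew, neg_ne_zero]; exact hv
    have hli : LinearIndependent F ![N (N v), N (N w)] := by
      rw [LinearIndependent.pair_iff]
      intro s t hst
      have e1 : om v (s • N (N v) + t • N (N w)) = 0 := by rw [hst, om, Matrix.mulVec_zero, dotProduct_zero]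
      have e2 : om w (s • N (N v) + t • N (N w)) = 0 := by rw [hst, om, Matrix.mulVec_zero, dotProduct_zero]
      rw [om_add_right, om_smul_right, om_smul_right, halt, mul_zero, zero_add] at e1
      rw [om_add_right, om_smul_right, om_smul_right, halt, mul_zero, add_zero] at e2
      exact ⟨(mul_eq_zero.1 e2).resolve_right hv', (mul_eq_zero.1 e1).resolve_right hv⟩
    have hfr : Module.finrank F (Submodule.span F (Set.range ![N (N v), N (N w)])) = 2 := by
      rw [finrank_span_eq_card hli]; simp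
    set U := Submodule.span F (Set.range ![N (N v), N (N w)]) with hU
    have hAN : ∀ x, N (N (N x)) = 0 := by
      intro x
      rw [hNv, hS, map_add, map_add, hA3]; abel
    have hUk : U ≤ LinearMap.ker N := by
      rw [hU, Submodule.span_le]
      rintro _ ⟨i, rfl⟩
      fin_cases i
      · exact hAN v
      · exact hAN w
    have hUr : U ≤ LinearMap.range N := by
      rw [hU, Submodule.span_le]
      rintro _ ⟨i, rfl⟩
      fin_cases i
      · exact ⟨N v, rfl⟩
      · exact ⟨N w, rfl⟩
    have f1 := Submodule.finrank_mono hUk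
    have f2 := Submodule.finrank_mono hUr
    rw [hfr] at f1 f2
    have g1 : U = LinearMap.ker N := Submodule.eq_of_le_of_finrank_eq hUk (by omega)
    have g2 : U = LinearMap.range N := Submodule.eq_of_le_of_finrank_eq hUr (by omega)
    apply hw
    have : N w ∈ LinearMap.ker N := by
      rw [← g1, g2]; exact ⟨w, rfl⟩
    exact this
  have hrk : LinearMap.range N ≤ LinearMap.ker N := by
    rintro _ ⟨x, rfl⟩
    exact hNN x
  have f1 := Submodule.finrank_mono hrk
  have g1 : LinearMap.range N = LinearMap.ker N := Submodule.eq_of_le_of_finrank_eq hrk (by omega)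
  refine ⟨by omega, ?_⟩
  intro v w hv hw
  have hw' : w ∈ LinearMap.range N := by
    rw [g1, LinearMap.mem_ker, hNv, hw, sub_self]
  obtain ⟨u, rfl⟩ := hw'
  have e1 := hom v u
  rw [hv] at e1
  have e2 : om v (A u) = om v (N u) + om v u := by rw [← om_add_right, hNv, sub_add_cancel]
  rw [e2] at e1
  exact add_eq_right.1 e1
end form

section sl
variable {K : Type*} [Field K]
open H19.SL2

theorem sq_of_trace {A : SpecialLinearGroup (Fin 2) K} (h : A 0 0 + A 1 1 = 0) : A * A = -1 := by
  have hd := det_eq A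
  obtain ⟨f0, f1, f2, f3⟩ := neg_one_ap (F := K)
  rw [ext_iff', mul00, mul01, mul10, mul11, f0, f1, f2, f3]
  refine ⟨?_, ?_, ?_, ?_⟩
  · linear_combination A 0 0 * h - hd
  · linear_combination A 0 1 * h
  · linear_combination A 1 0 * h
  · linear_combination A 1 1 * h - hd

theorem exists_conj [Fintype K] (hK : Fintype.card K = 5) (x : SpecialLinearGroup (Fin 2) K) (hx : orderOf x = 3) :
    ∃ p : SpecialLinearGroup (Fin 2) K, (x * (p * x * p⁻¹)) * (x * (p * x * p⁻¹)) = -1 := by
  have h5 : (5 : K) = 0 := by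
    have := Nat.cast_card_eq_zero K
    rw [hK] at this; exact_mod_cast this
  have h3 : (3 : K) ≠ 0 := by
    intro h3
    have : (1 : K) = 2 * 3 - 5 := by norm_num
    rw [h3, h5] at this
    exact one_ne_zero (this.trans (by ring))
  have hx3 : x * x * x = 1 := by
    have := pow_orderOf_eq_one x
    rw [hx, pow_succ, sq] at this; exact this
  have hx1 : x ≠ 1 := by rintro rfl; rw [orderOf_one] at hx; omega
  have hd := det_eq x
  -- x * x * x = 1 entrywise
  have hxx : x * x = x⁻¹ := eq_inv_of_mul_eq_one_left hx3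
  have hinv : x⁻¹ = mk2 (x 1 1) (-(x 0 1)) (-(x 1 0)) (x 0 0) (by linear_combination hd) := by
    symm
    apply eq_inv_of_mul_eq_one_left
    obtain ⟨e1, e2, e3, e4⟩ := mk2_ap (x 1 1) (-(x 0 1)) (-(x 1 0)) (x 0 0) (by linear_combination hd)
    obtain ⟨f0, f1, f2, f3⟩ := one_ap (F := K)
    rw [ext_iff', mul00, mul01, mul10, mul11, f0, f1, f2, f3, e1, e2, e3, e4]
    refine ⟨?_, ?_, ?_, ?_⟩
    · linear_combination hd
    · ring
    · ring
    · linear_combination hd
  rw [hinv] at hxx
  obtain ⟨e1, e2, e3, e4⟩ := mk2_ap (x 1 1) (-(x 0 1)) (-(x 1 0)) (x 0 0) (by linear_combination hd)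
  rw [ext_iff', mul00, mul01, mul10, mul11, e1, e2, e3, e4] at hxx
  obtain ⟨g1, g2, g3, g4⟩ := hxx
  clear hinv e1 e2 e3 e4
  set a := x 0 0 with ha
  set b := x 0 1 with hb
  set c := x 1 0 with hc
  set d := x 1 1 with hdd
  have hc0 : c ≠ 0 := by
    intro h0
    rw [h0] at g1 g4 hd
    have ha3 : a ^ 3 = 1 := by
      have : a ^ 3 = a * (a * a + b * 0) := by ring
      rw [this, g1]; linear_combination hd
    have ha0 : a ≠ 0 := by rintro h; rw [h] at ha3; norm_num at ha3
    have ha4 : a ^ 4 = 1 := by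
      have := FiniteField.pow_card_sub_one_eq_one a ha0
      rw [hK] at this; exact this
    have ha1 : a = 1 := by
      have : a ^ 4 = a ^ 3 * a := by ring
      rw [ha4, ha3, one_mul] at this; exact this.symm
    have hd1 : d = 1 := by rw [ha1] at hd; linear_combination hd
    have hb0 : b = 0 := by
      rw [ha1, hd1] at g2
      have : 3 * b = 0 := by linear_combination g2
      exact (mul_eq_zero.1 this).resolve_left h3
    apply hx1
    obtain ⟨f0, f1, f2, f3⟩ := one_ap (F := K)
    rw [ext_iff', f0, f1, f2, f3]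
    exact ⟨ha1, hb0, h0, hd1⟩
  have htr : a + d = -1 := by
    have : c * (a + d + 1) = 0 := by linear_combination g3
    have := (mul_eq_zero.1 this).resolve_left hc0
    linear_combination this
  obtain ⟨i, hi⟩ : IsSquare (-1 : K) := by
    rw [FiniteField.isSquare_neg_one_iff, hK]; norm_num
  let p : SpecialLinearGroup (Fin 2) K := mk2 1 (i / c) 0 1 (by ring)
  let p' : SpecialLinearGroup (Fin 2) K := mk2 1 (-(i / c)) 0 1 (by ring)
  have hp : p * p' = 1 := by
    obtain ⟨f0, f1, f2, f3⟩ := one_ap (F := K)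
    obtain ⟨e1, e2, e3, e4⟩ := mk2_ap 1 (i / c) 0 1 (by ring)
    obtain ⟨k1, k2, k3, k4⟩ := mk2_ap 1 (-(i / c)) 0 1 (by ring)
    rw [ext_iff', mul00, mul01, mul10, mul11, f0, f1, f2, f3]
    simp only [p, p', e1, e2, e3, e4, k1, k2, k3, k4]
    refine ⟨?_, ?_, ?_, ?_⟩ <;> ring
  refine ⟨p, ?_⟩
  rw [inv_eq_of_mul_eq_one_right hp]
  apply sq_of_trace
  obtain ⟨e1, e2, e3, e4⟩ := mk2_ap 1 (i / c) 0 1 (by ring)
  obtain ⟨k1, k2, k3, k4⟩ := mk2_ap 1 (-(i / c)) 0 1 (by ring)
  simp only [mul00, mul01, mul10, mul11, p, p', e1, e2, e3, e4, k1, k2, k3, k4]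
  rw [← ha, ← hb, ← hc, ← hdd]
  have hs : (i / c) * c = i := div_mul_cancel₀ i hc0
  generalize i / c = s at hs ⊢
  linear_combination (a + d - 1) * htr - 2 * hd - (s * c + i) * hs + hi
end sl

/-- Let F be the field with 3 elements and K the field with 5 elements. For every injective homomorphism φ from SL₂(K) into the symplectic group Sp₄(F) (4 × 4 matrices g with g J gᵀ = J for the standard alternating matrix J) and every element x of order 3 of SL₂(K), the vectors of F⁴ fixed by φ(x) form a 2-dimensional subspace that is totally isotropic for the alternating form defined by J. -/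
theorem result {F : Type*} [Field F] [Fintype F] (hF : Fintype.card F = 3)
    {K : Type*} [Field K] [Fintype K] (hK : Fintype.card K = 5)
    (φ : Matrix.SpecialLinearGroup (Fin 2) K →* ↥(Matrix.symplecticGroup (Fin 2) F)) (hφ : Function.Injective φ)
    (x : Matrix.SpecialLinearGroup (Fin 2) K) (hx : orderOf x = 3) :
    Module.finrank F ↥(LinearMap.ker (Matrix.toLin' ((φ x : Matrix (Fin 2 ⊕ Fin 2) (Fin 2 ⊕ Fin 2) F)) - LinearMap.id)) = 2 ∧
      ∀ v w : Fin 2 ⊕ Fin 2 → F, (φ x : Matrix (Fin 2 ⊕ Fin 2) (Fin 2 ⊕ Fin 2) F).mulVec v = v →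
        (φ x : Matrix (Fin 2 ⊕ Fin 2) (Fin 2 ⊕ Fin 2) F).mulVec w = w →
          dotProduct v ((Matrix.J (Fin 2) F).mulVec w) = 0 := by
  classical
  have h3 : (3 : F) = 0 := by
    have := Nat.cast_card_eq_zero F
    rw [hF] at this; exact_mod_cast this
  have h5 : (5 : K) = 0 := by
    have := Nat.cast_card_eq_zero K
    rw [hK] at this; exact_mod_cast this
  have h2K : (2 : K) ≠ 0 := by
    intro h2
    have : (1 : K) = 5 - 2 * 2 := by norm_num
    rw [h2, h5] at this
    exact one_ne_zero (this.trans (by ring))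
  -- the central involution
  set t : Matrix.SpecialLinearGroup (Fin 2) K := -1 with ht
  have htt : t * t = 1 := by rw [ht]; simp
  have ht1 : t ≠ 1 := by
    intro h
    have h1 := (H19.SL2.ext_iff'.1 h).1
    rw [ht, (H19.SL2.neg_one_ap (F := K)).1, (H19.SL2.one_ap (F := K)).1] at h1
    exact h2K (by linear_combination -h1)
  have htc : ∀ g : Matrix.SpecialLinearGroup (Fin 2) K, g * t = t * g := by
    intro g; rw [ht]; simp
  -- an element of order five
  obtain ⟨u, hu⟩ : ∃ u : Matrix.SpecialLinearGroup (Fin 2) K, orderOf u = 5 := by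
    haveI : Fact (Nat.Prime 5) := ⟨by norm_num⟩
    apply exists_prime_orderOf_dvd_card'
    rw [Cfsg.Agent.S3210.card_SL2, hK]; norm_num
  obtain ⟨p, hp⟩ := exists_conj hK x hx
  have hx3 : x * x * x = 1 := by
    have := pow_orderOf_eq_one x
    rw [hx, pow_succ, sq] at this; exact this
  set x' := p * x * p⁻¹ with hx'
  let W := LinearMap.ker (L φ x - LinearMap.id)
  let W' := LinearMap.ker (L φ x' - LinearMap.id)
  have hW : ∀ v, v ∈ W ↔ L φ x v = v := by
    intro v
    show v ∈ LinearMap.ker (L φ x - LinearMap.id) ↔ _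
    rw [LinearMap.mem_ker, LinearMap.sub_apply, sub_eq_zero]; rfl
  have hW' : ∀ v, v ∈ W' ↔ L φ x' v = v := by
    intro v
    show v ∈ LinearMap.ker (L φ x' - LinearMap.id) ↔ _
    rw [LinearMap.mem_ker, LinearMap.sub_apply, sub_eq_zero]; rfl
  have hdis : Disjoint W W' := by
    rw [Submodule.disjoint_def]
    intro v hv hv'
    rw [hW] at hv
    rw [hW'] at hv'
    apply no_fixed hF φ hφ htt ht1 htc hu
    have e1 : L φ (x * x') v = v := by rw [L_mul φ x x', hv', hv]
    rw [ht, ← hp, L_mul φ (x * x') (x * x'), e1, e1]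
  have hsum := Submodule.finrank_add_finrank_le_of_disjoint hdis
  have hle : Module.finrank F W ≤ Module.finrank F W' := by
    let f : W →ₗ[F] W' := LinearMap.codRestrict W' ((L φ p).domRestrict W) (by
      intro w
      rw [hW']
      show L φ x' (L φ p w) = L φ p w
      have hw := (hW w).1 w.2
      rw [hx', ← L_mul]
      have : p * x * p⁻¹ * p = p * x := by group
      rw [this, L_mul, hw])
    apply LinearMap.finrank_le_finrank_of_injective (f := f)
    intro a b hab
    have h1 : L φ p a = L φ p b := congrArg Subtype.val hab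
    have h2 : L φ p⁻¹ (L φ p a) = L φ p⁻¹ (L φ p b) := by rw [h1]
    rw [← L_mul, ← L_mul, inv_mul_cancel, L_one, L_one] at h2
    exact Subtype.ext h2
  have h4 : Module.finrank F (Fin 2 ⊕ Fin 2 → F) = 4 := by simp
  rw [h4] at hsum
  have hmain := main (A := L φ x) h3 (by
    intro v
    rw [← L_mul, ← L_mul, hx3, L_one]) (om_L φ x) (by
    show Module.finrank F W ≤ 2
    omega)
  exact hmain

end Cfsg.Agent.S3213
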