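import Cfsg.Statements.S3215
import Mathlib
import Cfsg.Agent.H1_Hall
import Cfsg.Agent.H1_Partition
import Cfsg.Agent.H23_ZAction
import Cfsg.Agent.H12_CN3
import Cfsg.Agent.H11_AxB
import Cfsg.Agent.H22_PSolv
import Cfsg.Agent.H2_Card

set_option autoImplicit false
open Cfsg

namespace Cfsg.Agent.S3215

open Subgroup
open scoped commutatorElement

section
variable {H : Type*} [Group H] [Finite H]

/-- odd order elements of a group with a normal `2`-complement -/
theorem mem_of_odd {C : Type*} [Group C] [Finite C] {P : Sylow 2 C} {N : Subgroup C} (hN : N.Normal) (hc : N.IsComplement' (P : Subgroup C))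
    {x : C} (hx : Odd (orderOf x)) : x ∈ N := by
  haveI : Fact (Nat.Prime 2) := ⟨Nat.prime_two⟩
  have h1 : N.index = Nat.card P := hc.card_right.symm
  rw [← QuotientGroup.eq_one_iff]
  have h2 : orderOf (x : C ⧸ N) ∣ Nat.card P := by
    rw [← h1]; exact orderOf_dvd_natCard _
  have h3 : orderOf (x : C ⧸ N) ∣ orderOf x := orderOf_map_dvd (QuotientGroup.mk' N) x
  obtain ⟨k, hk⟩ := (IsPGroup.iff_card).1 P.isPGroup'
  have h4 : Nat.Coprime (orderOf x) (Nat.card P) := by
    have : Nat.card P = 2 ^ k := hk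
    rw [this]
    exact (Nat.coprime_two_right.2 hx).pow_right k
  have h5 : orderOf (x : C ⧸ N) = 1 := Nat.eq_one_of_dvd_coprimes h4 h3 h2
  exact orderOf_eq_one_iff.1 h5

theorem odd_of_mem {C : Type*} [Group C] [Finite C] {P : Sylow 2 C} {N : Subgroup C} (hc : N.IsComplement' (P : Subgroup C)) : Odd (Nat.card N) := by
  haveI : Fact (Nat.Prime 2) := ⟨Nat.prime_two⟩
  have h1 : Nat.card N = (P : Subgroup C).index := by
    have := hc.card_mul_card
    have h2 := (P : Subgroup C).index_mul_card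
    rw [← h2] at this
    exact Nat.eq_of_mul_eq_mul_right Nat.card_pos this
  rw [h1, ← Nat.not_even_iff_odd, even_iff_two_dvd]
  exact P.not_dvd_index

/-- an odd order element and a `2`-element both centralizing an involution `t`, the `2`-element in the normal `2`-subgroup `Y`: they commute -/
theorem comm_of_cent {Y : Subgroup H} (hYn : Y.Normal) (hY2 : IsPGroup 2 Y)
    {t : H} (hI : Cfsg.HasNormalPComplement 2 ↥(centralizer ({t} : Set H))) {x y : H} (hx : Odd (orderOf x))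
    (hxt : x * t = t * x) (hy : y ∈ Y) (hyt : y * t = t * y) : x * y = y * x := by
  haveI : Fact (Nat.Prime 2) := ⟨Nat.prime_two⟩
  obtain ⟨P, N, hN, hc⟩ := hI
  let x' : centralizer ({t} : Set H) := ⟨x, mem_centralizer_singleton_iff.2 hxt⟩
  let y' : centralizer ({t} : Set H) := ⟨y, mem_centralizer_singleton_iff.2 hyt⟩
  have h1 : x' ∈ N := mem_of_odd hN hc (by rw [← Subgroup.orderOf_coe]; exact hx)
  have h2 : x' * y' * x'⁻¹ * y'⁻¹ ∈ N := by
    have e : x' * y' * x'⁻¹ * y'⁻¹ = x' * (y' * x'⁻¹ * y'⁻¹) := by group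
    rw [e]; exact mul_mem h1 (hN.conj_mem _ (inv_mem h1) y')
  have h3 : x * y * x⁻¹ * y⁻¹ ∈ Y := mul_mem (hYn.conj_mem y hy x) (inv_mem hy)
  have h4 : orderOf (x * y * x⁻¹ * y⁻¹) = 1 := by
    have h5 : orderOf (x' * y' * x'⁻¹ * y'⁻¹) ∣ Nat.card N := Subgroup.orderOf_dvd_natCard _ h2
    rw [← Subgroup.orderOf_coe] at h5
    obtain ⟨k, hk⟩ := IsPGroup.iff_orderOf.1 hY2 ⟨_, h3⟩
    rw [Subgroup.orderOf_mk] at hk
    have h6 : Odd (orderOf (x * y * x⁻¹ * y⁻¹)) := (odd_of_mem hc).of_dvd_nat h5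
    have h7 : Nat.Coprime (orderOf (x * y * x⁻¹ * y⁻¹)) (orderOf (x * y * x⁻¹ * y⁻¹)) := by
      conv_rhs => rw [hk]
      exact (Nat.coprime_two_right.2 h6).pow_right k
    exact (Nat.coprime_self _).1 h7
  have h5 := orderOf_eq_one_iff.1 h4
  calc x * y = (x * y * x⁻¹ * y⁻¹) * (y * x) := by group
    _ = y * x := by rw [h5, one_mul]

omit [Finite H] in
/-- the powers of a nontrivial `2`-element contain an involution -/
theorem exists_involution_pow {y : H} (hy1 : y ≠ 1) (hy : ∃ k, orderOf y = 2 ^ k) : ∃ j : ℕ, orderOf (y ^ j) = 2 := by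
  obtain ⟨k, hk⟩ := hy
  have hk0 : k ≠ 0 := by
    rintro rfl
    rw [pow_zero, orderOf_eq_one_iff] at hk
    exact hy1 hk
  obtain ⟨m, rfl⟩ := Nat.exists_eq_succ_of_ne_zero hk0
  refine ⟨2 ^ m, ?_⟩
  rw [orderOf_pow_of_dvd (by positivity) (by rw [hk]; exact pow_dvd_pow 2 (Nat.le_succ m)), hk, pow_succ]
  exact Nat.mul_div_cancel_left _ (by positivity)

theorem part1 (hsol : Group.IsSolvable H)
    (hO : Cfsg.oddCore H = ⊥)
    (hI : ∀ t : H, orderOf t = 2 → Cfsg.HasNormalPComplement 2 ↥(Subgroup.centralizer ({t} : Set H)))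
    {x : H} (hx : Odd (orderOf x)) (hx1 : x ≠ 1) {y : H} (hy : y ∈ Cfsg.pCore 2 H) (hy1 : y ≠ 1) : x * y ≠ y * x := by
  haveI : Fact (Nat.Prime 2) := ⟨Nat.prime_two⟩
  intro hxy
  have hYn := H1.Nilp.pCore_normal (G := H) 2
  have hY2 := H1.Nilp.pCore_isPGroup (G := H) 2
  have hC := H1.Hall.centralizer_pCore_le (G := H) 2 hO
  obtain ⟨j, hj⟩ := exists_involution_pow hy1 (by
    obtain ⟨k, hk⟩ := IsPGroup.iff_orderOf.1 hY2 ⟨y, hy⟩
    rw [Subgroup.orderOf_mk] at hk
    exact ⟨k, hk⟩)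
  obtain ⟨t, ht⟩ : ∃ t, t = y ^ j := ⟨_, rfl⟩
  rw [← ht] at hj
  have hxt : x * t = t * x := by
    rw [ht]; exact ((show Commute x y from hxy).pow_right j).eq
  have h1 := H11.AxB.commute_of_AxB 2 x (Nat.coprime_two_right.2 hx) (zpowers t) (by
      rw [IsPGroup.iff_card]; exact ⟨1, by rw [Nat.card_zpowers, hj, pow_one]⟩) (by
      intro b hb
      obtain ⟨k, rfl⟩ := mem_zpowers_iff.1 hb
      exact (show Commute x t from hxt).zpow_right k) (Cfsg.pCore 2 H) hY2 (by
      rw [normalizer_eq_top]; trivial) (by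
      rw [normalizer_eq_top]; exact le_top) (by
      intro w hw hwt
      exact comm_of_cent hYn hY2 (hI t hj) hx hxt hw (hwt t (mem_zpowers t)))
  have h2 : x ∈ Cfsg.pCore 2 H := by
    apply hC
    rw [mem_centralizer_iff]
    intro w hw
    exact (h1 w hw).eq.symm
  obtain ⟨k, hk⟩ := IsPGroup.iff_orderOf.1 hY2 ⟨x, h2⟩
  rw [Subgroup.orderOf_mk] at hk
  have h7 : Nat.Coprime (orderOf x) (orderOf x) := by
    conv_rhs => rw [hk]
    exact (Nat.coprime_two_right.2 hx).pow_right k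
  exact hx1 (orderOf_eq_one_iff.1 ((Nat.coprime_self _).1 h7))

theorem part2 (hsol : Group.IsSolvable H)
    (hO : Cfsg.oddCore H = ⊥)
    (hI : ∀ t : H, orderOf t = 2 → Cfsg.HasNormalPComplement 2 ↥(Subgroup.centralizer ({t} : Set H)))
    (X : Subgroup H) (hXodd : Odd (Nat.card X)) (hX1 : X ≠ ⊥) (p : ℕ) [hp : Fact p.Prime] (P : Sylow p ↥X) : IsCyclic ↥(P : Subgroup ↥X) := by
  haveI : Fact (Nat.Prime 2) := ⟨Nat.prime_two⟩
  have hYn := H1.Nilp.pCore_normal (G := H) 2
  have hY2 := H1.Nilp.pCore_isPGroup (G := H) 2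
  have hC := H1.Hall.centralizer_pCore_le (G := H) 2 hO
  by_cases hp2 : p = 2
  · subst hp2
    have h1 : Nat.card P = 1 := by
      obtain ⟨k, hk⟩ := (IsPGroup.iff_card).1 P.isPGroup'
      have h2 : Nat.card P ∣ Nat.card X := Subgroup.card_subgroup_dvd_card _
      have h3 : Nat.Coprime (Nat.card P) (Nat.card P) := by
        have h4 : Nat.card P = 2 ^ k := hk
        conv_rhs => rw [h4]
        exact (Nat.coprime_two_right.2 (hXodd.of_dvd_nat h2)).pow_right k
      exact (Nat.coprime_self _).1 h3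
    have : Subsingleton P := (Nat.card_eq_one_iff_unique.1 h1).1
    exact isCyclic_of_subsingleton
  · obtain ⟨Y, hY⟩ : ∃ Y, Y = Cfsg.pCore 2 H := ⟨_, rfl⟩
    rw [← hY] at hYn hY2 hC
    have hYne : Y ≠ ⊥ := by
      intro h
      apply hX1
      rw [eq_bot_iff]
      intro x _
      rw [← h]
      apply hC
      rw [h, mem_centralizer_iff]
      intro w hw
      have : w = 1 := hw
      rw [this, one_mul, mul_one]
    haveI : Nontrivial Y := (Subgroup.nontrivial_iff_ne_bot Y).2 hYne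
    haveI : Nontrivial (center Y) := hY2.center_nontrivial
    let V : Subgroup H := (center Y).map Y.subtype
    haveI hVc : IsMulCommutative V := by
      refine ⟨⟨?_⟩⟩
      rintro ⟨_, a, ha, rfl⟩ ⟨_, b, hb, rfl⟩
      apply Subtype.ext
      show (a : H) * (b : H) = b * a
      exact Subtype.ext_iff.1 ((mem_center_iff.1 hb a))
    have hVne : V ≠ ⊥ := by
      intro h
      rw [Subgroup.map_eq_bot_iff, ker_subtype, le_bot_iff] at h
      exact (Subgroup.nontrivial_iff_ne_bot (center Y)).1 inferInstance h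
    haveI : V.Normal := by
      haveI := hYn
      exact H11.Cores.map_subtype_normal_of_characteristic Y (center Y)
    have hcyc : IsCyclic ((P : Subgroup X).map X.subtype) := by
      apply H12.CN.sylow_cyclic_of_fpf (V := V) hp2 (P.isPGroup'.map _) hVne
      · rw [normalizer_eq_top]; exact le_top
      · intro e he he1
        obtain ⟨w, hw, rfl⟩ := he
        rw [eq_bot_iff]
        rintro y ⟨⟨v, hv, rfl⟩, hy2⟩
        rw [mem_bot]
        by_contra hy1
        have h3 := mem_centralizer_singleton_iff.1 hy2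
        refine part1 hsol hO hI (x := (w : H)) ?_ he1 (y := (v : H)) ?_ hy1 ?_
        · exact hXodd.of_dvd_nat (Subgroup.orderOf_dvd_natCard _ w.2)
        · rw [← hY]; exact v.2
        · exact h3.symm
    let e := ((P : Subgroup X).equivMapOfInjective X.subtype X.subtype_injective)
    exact isCyclic_of_surjective e.symm.toMonoidHom e.symm.surjective

/-- the quotient `H / O₂(H)` -/
theorem part3 (hsol : Group.IsSolvable H) (X : Subgroup H) (hXidx : ∃ k : ℕ, X.index = 2 ^ k) (hXz : IsZGroup X) :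
    commutator H ≤ X ⊔ Cfsg.pCore 2 H := by
  haveI : Fact (Nat.Prime 2) := ⟨Nat.prime_two⟩
  haveI hYn := H1.Nilp.pCore_normal (G := H) 2
  let π := QuotientGroup.mk' (Cfsg.pCore 2 H)
  have hπ : Function.Surjective π := QuotientGroup.mk'_surjective _
  have hO2 : Cfsg.pCore 2 (H ⧸ Cfsg.pCore 2 H) = ⊥ := H22.PSolv.pCore_quotient
  have hF1 := H1.Nilp.fitting_le_sup (G := H ⧸ Cfsg.pCore 2 H) 2
  rw [hO2, bot_sup_eq] at hF1
  obtain ⟨F, hF⟩ : ∃ F, F = Cfsg.fittingSubgroup (H ⧸ Cfsg.pCore 2 H) := ⟨_, rfl⟩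
  rw [← hF] at hF1
  have hFodd : (Nat.card F).Coprime 2 :=
    (H1.Nilp.pPrimeCore_coprime (G := H ⧸ Cfsg.pCore 2 H) 2).coprime_dvd_left (Subgroup.card_dvd_of_le hF1)
  haveI hFn : F.Normal := by rw [hF]; exact H1.Nilp.fitting_normal
  have hFX : F ≤ X.map π := by
    rw [← Subgroup.relIndex_eq_one]
    obtain ⟨k, hk⟩ := hXidx
    have h1 : (X.map π).relIndex F ∣ (X.map π).index := H2.Card.relIndex_dvd_index_of_normal_right _ _
    have h2 : (X.map π).index ∣ X.index := Subgroup.index_map_dvd X hπ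
    have h3 : (X.map π).relIndex F ∣ Nat.card F := Subgroup.relIndex_dvd_card _ _
    rw [hk] at h2
    exact Nat.eq_one_of_dvd_coprimes (hFodd.pow_right k) h3 (h1.trans h2)
  haveI : IsZGroup (X.map π) := IsZGroup.of_surjective (f := (π.subgroupMap X)) (π.subgroupMap_surjective X)
  haveI : IsZGroup F := IsZGroup.of_injective (f := Subgroup.inclusion hFX) (Subgroup.inclusion_injective hFX)
  haveI : Group.IsNilpotent F := by rw [hF]; exact H1.Nilp.fitting_nilpotent
  haveI : IsCyclic F := inferInstance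
  have hCF : centralizer (F : Set (H ⧸ Cfsg.pCore 2 H)) ≤ F := by rw [hF]; exact H1.Hall.centralizer_fitting_le
  have hcomm : commutator (H ⧸ Cfsg.pCore 2 H) ≤ X.map π := by
    refine le_trans ?_ (hCF.trans hFX)
    rw [_root_.commutator_def, Subgroup.commutator_le]
    intro a _ b _
    apply H23.ZAction.commutator_centralizes_cyclic
    · rw [normalizer_eq_top]; trivial
    · rw [normalizer_eq_top]; trivial
  have h1 : X ⊔ Cfsg.pCore 2 H = (X.map π).comap π := by
    rw [Subgroup.comap_map_eq, QuotientGroup.ker_mk']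
  rw [h1, ← Subgroup.map_le_iff_le_comap]
  have h2 : (commutator H).map π ≤ commutator (H ⧸ Cfsg.pCore 2 H) := by
    rw [_root_.commutator_def, _root_.commutator_def, Subgroup.map_commutator]
    exact Subgroup.commutator_mono le_top le_top
  exact h2.trans hcomm

theorem part4 (hsol : Group.IsSolvable H)
    (hO : Cfsg.oddCore H = ⊥)
    (hI : ∀ t : H, orderOf t = 2 → Cfsg.HasNormalPComplement 2 ↥(Subgroup.centralizer ({t} : Set H)))
    (X : Subgroup H) (hXodd : Odd (Nat.card X)) (hXidx : ∃ k : ℕ, X.index = 2 ^ k) (hX1 : X ≠ ⊥)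
    (hcomm : commutator H ≤ X ⊔ Cfsg.pCore 2 H) (hN : (X ⊔ Cfsg.pCore 2 H).Normal) :
    IsCyclic (H ⧸ (X ⊔ Cfsg.pCore 2 H)) := by
  haveI : Fact (Nat.Prime 2) := ⟨Nat.prime_two⟩
  have hYn := H1.Nilp.pCore_normal (G := H) 2
  have hY2 := H1.Nilp.pCore_isPGroup (G := H) 2
  have hp1 : ∀ x ∈ X, x ≠ 1 → ∀ y ∈ Cfsg.pCore 2 H, y ≠ 1 → x * y ≠ y * x := fun x hx hx1 y hy hy1 =>
    part1 hsol hO hI (hXodd.of_dvd_nat (Subgroup.orderOf_dvd_natCard _ hx)) hx1 hy hy1
  obtain ⟨Y, hY⟩ : ∃ Y, Y = Cfsg.pCore 2 H := ⟨_, rfl⟩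
  rw [← hY] at hYn hY2 hp1 hcomm
  have hL : X ⊔ Cfsg.pCore 2 H = X ⊔ Y := by rw [hY]
  obtain ⟨L, hLdef⟩ : ∃ L, L = X ⊔ Cfsg.pCore 2 H := ⟨_, rfl⟩
  have hLeq : L = X ⊔ Y := by rw [hLdef, hY]
  rw [← hY, ← hLeq] at hN
  -- elements of X in two-groups
  have hX2 : ∀ x ∈ X, (∃ k, orderOf x = 2 ^ k) → x = 1 := by
    rintro x hx ⟨k, hk⟩
    have h7 : Nat.Coprime (orderOf x) (orderOf x) := by
      conv_rhs => rw [hk]
      exact (Nat.coprime_two_right.2 (hXodd.of_dvd_nat (Subgroup.orderOf_dvd_natCard _ hx))).pow_right k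
    exact orderOf_eq_one_iff.1 ((Nat.coprime_self _).1 h7)
  have htwo : ∀ (R : Subgroup H), IsPGroup 2 R → ∀ r ∈ R, ∃ k, orderOf r = 2 ^ k := by
    intro R hR r hr
    obtain ⟨k, hk⟩ := IsPGroup.iff_orderOf.1 hR ⟨r, hr⟩
    rw [Subgroup.orderOf_mk] at hk
    exact ⟨k, hk⟩
  have hXY : X ⊓ Y = ⊥ := by
    rw [eq_bot_iff]
    rintro x ⟨hx, hxY⟩
    exact hX2 x hx (htwo Y hY2 x hxY)
  -- Frattini
  have hXL : X ≤ L := by rw [hLeq]; exact le_sup_left
  have hYL : Y ≤ L := by rw [hLeq]; exact le_sup_right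
  have hrelpow : ∃ k, X.relIndex L = 2 ^ k := by
    obtain ⟨k, hk⟩ := hXidx
    have h1 : X.relIndex L ∣ 2 ^ k := by
      rw [← hk, ← Subgroup.relIndex_mul_index hXL]; exact Dvd.intro _ rfl
    obtain ⟨j, _, hj⟩ := (Nat.dvd_prime_pow Nat.prime_two).1 h1
    exact ⟨j, hj⟩
  have hfr : L ⊔ normalizer (X : Set H) = ⊤ := by
    apply H1.Hall.hall_frattini L inferInstance X hXL
    obtain ⟨k, hk⟩ := hrelpow
    rw [hk]
    exact (Nat.coprime_two_right.2 hXodd).pow_right k
  obtain ⟨N, hNdef⟩ : ∃ N, N = normalizer (X : Set H) := ⟨_, rfl⟩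
  have hXN : X ≤ N := by rw [hNdef]; exact le_normalizer
  have hNX : ∀ n ∈ N, ∀ x ∈ X, n * x * n⁻¹ ∈ X := by
    intro n hn x hx
    rw [hNdef] at hn
    exact (mem_normalizer_iff.1 hn x).1 hx
  rw [← hNdef] at hfr
  have hYN : Y ⊔ N = ⊤ := by
    rw [eq_top_iff, ← hfr, hLeq]
    exact sup_le (sup_le (hXN.trans le_sup_right) le_sup_left) le_sup_right
  -- Y ∩ N = 1
  obtain ⟨x0, hx0, hx01⟩ : ∃ x ∈ X, x ≠ 1 := by
    by_contra hcon
    push Not at hcon
    apply hX1
    rw [eq_bot_iff]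
    intro x hx
    exact hcon x hx
  have hYNbot : ∀ y ∈ Y, y ∈ N → y = 1 := by
    intro y hy hyN
    by_contra hy1
    apply hp1 x0 hx0 hx01 y hy hy1
    have h1 : y * x0 * y⁻¹ * x0⁻¹ ∈ X := mul_mem (hNX y hyN x0 hx0) (inv_mem hx0)
    have h2 : y * x0 * y⁻¹ * x0⁻¹ ∈ Y := by
      have e : y * x0 * y⁻¹ * x0⁻¹ = y * (x0 * y⁻¹ * x0⁻¹) := by group
      rw [e]; exact mul_mem hy (hYn.conj_mem _ (inv_mem hy) x0)
    have h3 : y * x0 * y⁻¹ * x0⁻¹ ∈ X ⊓ Y := ⟨h1, h2⟩
    rw [hXY, mem_bot] at h3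
    calc x0 * y = (y * x0 * y⁻¹ * x0⁻¹)⁻¹ * (y * x0) := by group
      _ = y * x0 := by rw [h3]; group
  -- R
  obtain ⟨R0⟩ : Nonempty (Sylow 2 N) := inferInstance
  obtain ⟨R, hR⟩ : ∃ R, R = (R0 : Subgroup N).map N.subtype := ⟨_, rfl⟩
  have hRN : R ≤ N := by rw [hR]; exact map_subtype_le _
  have hR2 : IsPGroup 2 R := by rw [hR]; exact R0.isPGroup'.map _
  -- N ⊓ L = X
  have hNL : N ⊓ L = X := by
    apply le_antisymm
    · rintro n ⟨hn, hnL⟩
      rw [hLeq] at hnL
      obtain ⟨x, hx, y, hy, hxy⟩ := mem_sup_of_normal_right.1 hnL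
      have h1 : y ∈ N := by
        have : y = x⁻¹ * n := by rw [← hxy]; group
        rw [this]; exact mul_mem (inv_mem (hXN hx)) hn
      have h2 := hYNbot y hy h1
      rw [h2, mul_one] at hxy
      rw [← hxy]; exact hx
    · exact le_inf hXN hXL
  have hRL : R ⊓ L = ⊥ := by
    rw [eq_bot_iff]
    rintro r ⟨hr, hrL⟩
    have h1 : r ∈ X := by rw [← hNL]; exact ⟨hRN hr, hrL⟩
    exact hX2 r h1 (htwo R hR2 r hr)
  -- R is abelian
  have hRab : ∀ a ∈ R, ∀ b ∈ R, a * b = b * a := by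
    intro a ha b hb
    have h1 : ⁅a, b⁆ ∈ R ⊓ L := by
      refine mem_inf.2 ⟨?_, ?_⟩
      · rw [commutatorElement_def]
        exact mul_mem (mul_mem (mul_mem ha hb) (inv_mem ha)) (inv_mem hb)
      · rw [hLeq]
        exact hcomm (commutator_mem_commutator (mem_top _) (mem_top _))
    rw [hRL, mem_bot, commutatorElement_eq_one_iff_mul_comm] at h1
    exact h1
  haveI hRc : IsMulCommutative R := ⟨⟨fun a b => Subtype.ext (hRab a a.2 b b.2)⟩⟩
  -- Y is nontrivial
  have hC := H1.Hall.centralizer_pCore_le (G := H) 2 hO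
  rw [← hY] at hC
  have hYne : Y ≠ ⊥ := by
    intro h
    apply hX1
    rw [eq_bot_iff]
    intro x _
    rw [← h]
    apply hC
    rw [h, mem_centralizer_iff]
    intro w hw
    have : w = 1 := hw
    rw [this, one_mul, mul_one]
  -- involutions of R act fixed-point-freely on X
  have hfpf : ∀ r ∈ R, orderOf r = 2 → ∀ x ∈ X, r * x = x * r → x = 1 := by
    intro r hr hr2 x hx hrx
    by_contra hx1
    -- a fixed point of r in Y
    obtain ⟨y, hyY, hy1, hyr⟩ : ∃ y ∈ Y, y ≠ 1 ∧ y * r = r * y := by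
      by_contra hcon
      push Not at hcon
      -- conjugation action of r on Y
      have h2 : IsPGroup 2 (Y ⊔ zpowers r : Subgroup H) := by
        rw [sup_comm]
        apply IsPGroup.to_sup_of_normal_right' _ hY2
        · rw [normalizer_eq_top]; exact le_top
        · rw [IsPGroup.iff_card]; exact ⟨1, by rw [Nat.card_zpowers, hr2, pow_one]⟩
      -- normal subgroup of a 2-group meets the centre
      have hYn' : (Y.subgroupOf (Y ⊔ zpowers r)).Normal := hYn.subgroupOf _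
      have hne : Y.subgroupOf (Y ⊔ zpowers r) ≠ ⊥ := by
        intro h
        apply hYne
        rw [Subgroup.subgroupOf_eq_bot, disjoint_iff] at h
        rwa [inf_eq_left.2 le_sup_left] at h
      obtain ⟨w, hw⟩ := (Subgroup.ne_bot_iff_exists_ne_one).1 (H2.PGroup.inf_center_ne_bot h2 hne)
      obtain ⟨hw1, hw2⟩ := w.2
      have hw3 := mem_center_iff.1 hw2 ⟨r, mem_sup_right (mem_zpowers r)⟩
      apply hcon ((w : (Y ⊔ zpowers r : Subgroup H)) : H) (mem_subgroupOf.1 hw1)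
      · intro h
        apply hw
        apply Subtype.ext
        apply Subtype.ext
        exact h
      · exact (Subtype.ext_iff.1 hw3).symm
    apply hp1 x hx hx1 y hyY hy1
    exact comm_of_cent hYn hY2 (hI r hr2) (hXodd.of_dvd_nat (Subgroup.orderOf_dvd_natCard _ hx)) hrx.symm hyY hyr
  have hinv : ∀ r ∈ R, orderOf r = 2 → ∀ x ∈ X, r * x * r⁻¹ = x⁻¹ := by
    intro r hr hr2 x hx
    have hrr : r * r = 1 := by rw [← pow_two, ← hr2, pow_orderOf_eq_one]
    have hinj : Function.Injective (fun x : X => (⟨(x : H)⁻¹ * (r * x * r⁻¹), mul_mem (inv_mem x.2) (hNX r (hRN hr) x x.2)⟩ : X)) := by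
      rintro ⟨x, hx⟩ ⟨y, hy⟩ hxy
      have h1 : x⁻¹ * (r * x * r⁻¹) = y⁻¹ * (r * y * r⁻¹) := Subtype.ext_iff.1 hxy
      have h2 : y * x⁻¹ = 1 := by
        apply hfpf r hr hr2 _ (mul_mem hy (inv_mem hx))
        calc r * (y * x⁻¹) = (r * y * r⁻¹) * r * x⁻¹ := by group
          _ = y * (y⁻¹ * (r * y * r⁻¹)) * r * x⁻¹ := by group
          _ = y * (x⁻¹ * (r * x * r⁻¹)) * r * x⁻¹ := by rw [← h1]
          _ = y * x⁻¹ * r := by group
      exact Subtype.ext (mul_inv_eq_one.1 h2).symm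
    obtain ⟨⟨g, hg⟩, hgx⟩ := (Finite.injective_iff_surjective.1 hinj) ⟨x, hx⟩
    have h1 : g⁻¹ * (r * g * r⁻¹) = x := Subtype.ext_iff.1 hgx
    have hrinv : r⁻¹ = r := inv_eq_of_mul_eq_one_left hrr
    rw [← h1]
    calc r * (g⁻¹ * (r * g * r⁻¹)) * r⁻¹ = (r * g⁻¹ * r) * g * (r⁻¹ * r⁻¹) := by group
      _ = (r * g⁻¹ * r⁻¹) * g * (r * r) := by rw [hrinv]
      _ = (g⁻¹ * (r * g * r⁻¹))⁻¹ := by rw [hrr]; group
  -- R is cyclic
  have hRcyc : IsCyclic R := by
    by_contra hnc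
    obtain ⟨q, B, hq, hBR, hBc, hBq⟩ := H1.Partition.exists_rank_two R hnc
    haveI : Fact q.Prime := ⟨hq⟩
    have hq2 : q = 2 := by
      obtain ⟨k, hk⟩ := (IsPGroup.iff_card).1 hR2
      have h1 : q ∣ 2 ^ k := by
        rw [← hk]
        exact (Dvd.intro_left _ (by rw [hBc, pow_two])).trans (Subgroup.card_dvd_of_le hBR)
      exact (Nat.prime_dvd_prime_iff_eq hq Nat.prime_two).1 (hq.dvd_of_dvd_pow h1)
    subst hq2
    obtain ⟨r, hr, hr1⟩ : ∃ r ∈ B, r ≠ 1 := by
      by_contra hcon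
      push Not at hcon
      have : B = ⊥ := by rw [eq_bot_iff]; exact hcon
      rw [this, Subgroup.card_bot] at hBc
      omega
    obtain ⟨s, hs, hs1, hsr⟩ : ∃ s ∈ B, s ≠ 1 ∧ s ≠ r := by
      by_contra hcon
      push Not at hcon
      have h1 : B ≤ zpowers r := by
        intro s hs
        by_cases hs1 : s = 1
        · rw [hs1]; exact one_mem _
        · rw [hcon s hs hs1]; exact mem_zpowers r
      have h2 := Nat.card_mono (Set.toFinite _) h1
      rw [SetLike.coe_sort_coe, SetLike.coe_sort_coe, hBc, Nat.card_zpowers] at h2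
      have h3 : orderOf r ∣ 2 := orderOf_dvd_of_pow_eq_one (hBq r hr)
      have := Nat.le_of_dvd (by norm_num) h3
      omega
    have ho : ∀ b ∈ B, b ≠ 1 → orderOf b = 2 := fun b hb hb1 => orderOf_eq_prime (hBq b hb) hb1
    have hrs1 : r * s ≠ 1 := by
      intro h
      apply hsr
      have h1 : r⁻¹ = r := by
        have := hBq r hr
        rw [pow_two] at this
        exact inv_eq_of_mul_eq_one_left this
      rw [← h1]
      exact eq_inv_of_mul_eq_one_right h
    have i1 := hinv r (hBR hr) (ho r hr hr1)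
    have i2 := hinv s (hBR hs) (ho s hs hs1)
    have i3 := hinv (r * s) (hBR (mul_mem hr hs)) (ho _ (mul_mem hr hs) hrs1)
    have h1 := i3 x0 hx0
    have h2 : r * s * x0 * (r * s)⁻¹ = x0 := by
      calc r * s * x0 * (r * s)⁻¹ = r * (s * x0 * s⁻¹) * r⁻¹ := by group
        _ = x0⁻¹⁻¹ := by rw [i2 x0 hx0, i1 _ (inv_mem hx0)]
        _ = x0 := inv_inv _
    rw [h2] at h1
    apply hx01
    apply hX2 x0 hx0
    have h3 : orderOf x0 ∣ 2 ^ 1 := by
      apply orderOf_dvd_of_pow_eq_one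
      rw [pow_one, pow_two]
      nth_rw 2 [h1]
      exact mul_inv_cancel x0
    obtain ⟨j, _, hj⟩ := (Nat.dvd_prime_pow Nat.prime_two).1 h3
    exact ⟨j, hj⟩
  -- the quotient
  have hsurj : Function.Surjective ((QuotientGroup.mk' L).comp R.subtype) := by
    -- N = X R
    have hXNn : (X.subgroupOf N).Normal := by
      rw [hNdef]; exact Subgroup.normal_in_normalizer
    have hNXR : ∀ n ∈ N, ∃ x ∈ X, ∃ r ∈ R, n = x * r := by
      -- index of X R0 in N is odd and a power of 2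
      have htop : X.subgroupOf N ⊔ (R0 : Subgroup N) = ⊤ := by
        rw [← Subgroup.index_eq_one]
        have h1 : (X.subgroupOf N ⊔ (R0 : Subgroup N)).index ∣ (R0 : Subgroup N).index := Subgroup.index_dvd_of_le le_sup_right
        have h2 : (X.subgroupOf N ⊔ (R0 : Subgroup N)).index ∣ (X.subgroupOf N).index := Subgroup.index_dvd_of_le le_sup_left
        obtain ⟨k, hk⟩ := hXidx
        have h3 : (X.subgroupOf N).index ∣ 2 ^ k := by
          have h4 : X.relIndex N ∣ X.index := Subgroup.relIndex_dvd_index_of_le hXN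
          rw [hk] at h4; exact h4
        have h5 : Nat.Coprime (R0 : Subgroup N).index (2 ^ k) := by
          apply Nat.Coprime.pow_right
          rw [Nat.coprime_comm, Nat.Prime.coprime_iff_not_dvd Nat.prime_two]
          exact R0.not_dvd_index
        exact Nat.eq_one_of_dvd_coprimes h5 h1 (h2.trans h3)
      intro n hn
      have h1 : (⟨n, hn⟩ : N) ∈ X.subgroupOf N ⊔ (R0 : Subgroup N) := by rw [htop]; trivial
      obtain ⟨x, hx, r, hr, hxr⟩ := mem_sup_of_normal_left.1 h1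
      exact ⟨x, mem_subgroupOf.1 hx, r, by rw [hR]; exact ⟨r, hr, rfl⟩, (Subtype.ext_iff.1 hxr).symm⟩
    intro q
    obtain ⟨g, rfl⟩ := QuotientGroup.mk'_surjective L q
    have hg : g ∈ Y ⊔ N := by rw [hYN]; trivial
    obtain ⟨y, hy, n, hn, rfl⟩ := mem_sup_of_normal_left.1 hg
    obtain ⟨x, hx, r, hr, rfl⟩ := hNXR n hn
    refine ⟨⟨r, hr⟩, ?_⟩
    show (QuotientGroup.mk' L) r = (QuotientGroup.mk' L) (y * (x * r))
    rw [← mul_assoc, map_mul _ (y * x) r]
    have h1 : (QuotientGroup.mk' L) (y * x) = 1 := (QuotientGroup.eq_one_iff _).2 (mul_mem (hYL hy) (hXL hx))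
    rw [h1, one_mul]
  have hcyc : IsCyclic (H ⧸ L) := isCyclic_of_surjective _ hsurj
  have hfin : ∀ (M : Subgroup H) (hM : M.Normal), M = L → IsCyclic (H ⧸ M) := by
    rintro M hM rfl
    exact hcyc
  exact hfin _ _ hLdef.symm

end

/-- Let H be a finite solvable group with no nontrivial normal subgroup of odd order in which the centralizer of every involution has a normal 2-complement. Let X be a Hall 2'-subgroup of H (odd order, index a power of 2) and Y = O₂(H). Then no non-identity element of X commutes with a non-identity element of Y (so for X ≠ 1 the group XY is a Frobenius group with kernel Y), every Sylow subgroup of X is cyclic, XY is normal in H, and H/XY is a cyclic 2-group. -/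
theorem result {H : Type*} [Group H] [Finite H] (hsol : Group.IsSolvable H)
    (hO : Cfsg.oddCore H = ⊥)
    (hI : ∀ t : H, orderOf t = 2 → Cfsg.HasNormalPComplement 2 ↥(Subgroup.centralizer ({t} : Set H)))
    (X : Subgroup H) (hXodd : Odd (Nat.card X)) (hXidx : ∃ k : ℕ, X.index = 2 ^ k) :
    (∀ x ∈ X, x ≠ 1 → ∀ y ∈ Cfsg.pCore 2 H, y ≠ 1 → x * y ≠ y * x) ∧
      (∀ (p : ℕ) [Fact p.Prime] (P : Sylow p ↥X), IsCyclic ↥(P : Subgroup ↥X)) ∧
      (X ⊔ Cfsg.pCore 2 H).Normal ∧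
      ∀ hN : (X ⊔ Cfsg.pCore 2 H).Normal, IsCyclic (H ⧸ (X ⊔ Cfsg.pCore 2 H)) ∧ IsPGroup 2 (H ⧸ (X ⊔ Cfsg.pCore 2 H)) := by
  classical
  haveI : Fact (Nat.Prime 2) := ⟨Nat.prime_two⟩
  by_cases hX1 : X = ⊥
  · have hH2 : IsPGroup 2 H := by
      obtain ⟨k, hk⟩ := hXidx
      rw [hX1, index_bot] at hk
      exact IsPGroup.of_card hk
    have hYtop : Cfsg.pCore 2 H = ⊤ := by
      rw [eq_top_iff]
      exact H1.Nilp.le_pCore inferInstance (hH2.to_subgroup _)
    refine ⟨?_, ?_, ?_, ?_⟩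
    · intro x hx hx1
      rw [hX1, mem_bot] at hx
      exact absurd hx hx1
    · intro p _ P
      have : Subsingleton X := by rw [hX1]; infer_instance
      exact isCyclic_of_subsingleton
    · rw [hYtop, sup_top_eq]; infer_instance
    · intro hN
      have hsub : Subsingleton (H ⧸ (X ⊔ Cfsg.pCore 2 H)) := by
        rw [QuotientGroup.subsingleton_iff]
        rw [hYtop, sup_top_eq]
      exact ⟨isCyclic_of_subsingleton, hH2.to_quotient _⟩
  · have hz : IsZGroup X := ⟨fun p hp P => by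
      haveI : Fact p.Prime := ⟨hp⟩
      exact part2 hsol hO hI X hXodd hX1 p P⟩
    have hcomm := part3 hsol X hXidx hz
    refine ⟨fun x hx hx1 y hy hy1 => part1 hsol hO hI (hXodd.of_dvd_nat (Subgroup.orderOf_dvd_natCard _ hx)) hx1 hy hy1,
      fun p _ P => part2 hsol hO hI X hXodd hX1 p P, ?_, ?_⟩
    · refine ⟨fun x hx g => ?_⟩
      have h1 : ⁅g, x⁆ ∈ X ⊔ Cfsg.pCore 2 H := hcomm (commutator_mem_commutator (mem_top _) (mem_top _))
      have h2 := mul_mem h1 hx
      rw [commutatorElement_def] at h2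
      have e : g * x * g⁻¹ * x⁻¹ * x = g * x * g⁻¹ := by group
      rwa [e] at h2
    · intro hN
      refine ⟨part4 hsol hO hI X hXodd hXidx hX1 hcomm hN, ?_⟩
      obtain ⟨k, hk⟩ := hXidx
      have h1 : (X ⊔ Cfsg.pCore 2 H).index ∣ 2 ^ k := by
        rw [← hk]; exact index_dvd_of_le le_sup_left
      obtain ⟨j, _, hj⟩ := (Nat.dvd_prime_pow Nat.prime_two).1 h1
      exact IsPGroup.of_card (by rw [← hj]; rfl)

end Cfsg.Agent.S3215
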