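import Cfsg.Statements.S3225
import Mathlib
import Cfsg.Agent.H19_Transfer

set_option autoImplicit false
open Cfsg

namespace Cfsg.Agent.S3225


/-- Let G be a finite group of even order with no subgroup of index 2, S a Sylow 2-subgroup of G and M a subgroup of index 2 in S such that, for some n ≥ 1, every element of S outside M has order greater than 2^(n−1). Then every element of S of order 2ⁿ is conjugate in G to an element of M. -/
theorem result {G : Type*} [Group G] [Finite G] (hev : Even (Nat.card G))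
    (hG : ∀ H : Subgroup G, H.index ≠ 2) (S : Sylow 2 G) (M : Subgroup G) (hMS : M ≤ (S : Subgroup G)) (hM : M.relIndex (S : Subgroup G) = 2)
    (n : ℕ) (hn : 1 ≤ n) (hord : ∀ y ∈ (S : Subgroup G), y ∉ M → 2 ^ (n - 1) < orderOf y)
    (x : G) (hx : x ∈ (S : Subgroup G)) (hxn : orderOf x = 2 ^ n) :
    ∃ g : G, g * x * g⁻¹ ∈ M := by
  have : Fact (Nat.Prime 2) := ⟨Nat.prime_two⟩
  by_contra hcon
  push Not at hcon
  have hodd : Odd (S : Subgroup G).index := by
    rw [← Nat.not_even_iff_odd, even_iff_two_dvd]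
    exact S.not_dvd_index
  obtain ⟨K, hK, hidx, _⟩ := H19.Transfer.thompson hodd hM x ⟨n, hxn⟩
    (fun g hg hgM => hcon g⁻¹ (by simpa using hgM))
    (fun g j hg => by
      by_contra hgM
      have h1 := hord _ hg hgM
      have h2 : (g⁻¹ * x ^ (2 ^ (j + 1)) * g) ^ (2 ^ (n - 1)) = 1 := by
        have h3 : (g⁻¹ * x ^ (2 ^ (j + 1)) * g) ^ (2 ^ (n - 1)) = g⁻¹ * (x ^ (2 ^ (j + 1))) ^ (2 ^ (n - 1)) * g := by
          have := conj_pow (a := g⁻¹) (b := x ^ (2 ^ (j + 1))) (i := 2 ^ (n - 1))
          simpa using this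
        rw [h3, ← pow_mul]
        have h4 : 2 ^ (j + 1) * 2 ^ (n - 1) = 2 ^ n * 2 ^ j := by
          rw [← pow_add, ← pow_add]; congr 1; omega
        rw [h4, pow_mul, ← hxn, pow_orderOf_eq_one, one_pow]; group
      have h5 := orderOf_dvd_of_pow_eq_one h2
      have := Nat.le_of_dvd (by positivity) h5
      omega)
  exact hG K hidx

end Cfsg.Agent.S3225
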