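import Cfsg.Statements.S3246
import Mathlib
import Cfsg.Agent.H19_PC

set_option autoImplicit false
open Cfsg

namespace Cfsg.Agent.S3246

open Subgroup

theorem odd_trivial {G : Type*} [Group G] [Finite G] {X Y : Subgroup G} (hY : IsPGroup 2 Y) {t : G} (ht : Odd (orderOf t))
    (hcY : ∀ y ∈ Y, t * y = y * t) (hX : ∀ x ∈ X, x⁻¹ * (t * x * t⁻¹) ∈ Y) : ∀ x ∈ X, t * x = x * t := by
  intro x hx
  obtain ⟨d, hd⟩ : ∃ d, d = x⁻¹ * (t * x * t⁻¹) := ⟨_, rfl⟩
  have hdY : d ∈ Y := hd ▸ hX x hx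
  have h1 : ∀ n : ℕ, t ^ n * x * (t ^ n)⁻¹ = x * d ^ n := by
    intro n
    induction n with
    | zero => simp
    | succ n ih =>
      have h2 : t * d ^ n * t⁻¹ = d ^ n := by
        rw [hcY _ (pow_mem hdY n)]; group
      calc t ^ (n + 1) * x * (t ^ (n + 1))⁻¹ = t * (t ^ n * x * (t ^ n)⁻¹) * t⁻¹ := by
            rw [pow_succ']; group
        _ = (t * x * t⁻¹) * (t * d ^ n * t⁻¹) := by rw [ih]; group
        _ = (x * d) * d ^ n := by rw [h2, hd]; group
        _ = x * d ^ (n + 1) := by rw [pow_succ']; group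
  have h2 := h1 (orderOf t)
  rw [pow_orderOf_eq_one, one_mul, inv_one, mul_one, left_eq_mul] at h2
  obtain ⟨k, hk⟩ := hY ⟨d, hdY⟩
  have hk' : d ^ (2 ^ k) = 1 := Subtype.ext_iff.1 hk
  have h3 : orderOf d ∣ 1 := by
    have hc : Nat.Coprime (orderOf t) (2 ^ k) := (Nat.coprime_two_right.2 ht).pow_right k
    rw [← hc]
    exact Nat.dvd_gcd (orderOf_dvd_of_pow_eq_one h2) (orderOf_dvd_of_pow_eq_one hk')
  have h4 : d = 1 := orderOf_eq_one_iff.1 (Nat.dvd_one.1 h3)
  rw [h4] at hd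
  have h5 : x = t * x * t⁻¹ := (inv_mul_eq_one.1 hd.symm)
  calc t * x = (t * x * t⁻¹) * t := by group
    _ = x * t := by rw [← h5]

theorem inverts {G : Type*} [Group G] [Finite G] {X : Subgroup G} {t : G} (ht : t * t = 1)
    (hX : ∀ x ∈ X, t * x * t⁻¹ ∈ X) (hf : ∀ x ∈ X, t * x = x * t → x = 1) : ∀ x ∈ X, t * x * t⁻¹ = x⁻¹ := by
  have hinj : Function.Injective (fun x : X => (⟨(x : G)⁻¹ * (t * x * t⁻¹), mul_mem (inv_mem x.2) (hX x x.2)⟩ : X)) := by
    rintro ⟨x, hx⟩ ⟨y, hy⟩ hxy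
    have h1 : x⁻¹ * (t * x * t⁻¹) = y⁻¹ * (t * y * t⁻¹) := Subtype.ext_iff.1 hxy
    have h2 : y * x⁻¹ = 1 := by
      apply hf _ (mul_mem hy (inv_mem hx))
      calc t * (y * x⁻¹) = (t * y * t⁻¹) * t * x⁻¹ := by group
        _ = y * (y⁻¹ * (t * y * t⁻¹)) * t * x⁻¹ := by group
        _ = y * (x⁻¹ * (t * x * t⁻¹)) * t * x⁻¹ := by rw [← h1]
        _ = y * x⁻¹ * t := by group
    exact Subtype.ext (mul_inv_eq_one.1 h2).symm
  intro x hx
  obtain ⟨⟨g, hg⟩, hgx⟩ := (Finite.injective_iff_surjective.1 hinj) ⟨x, hx⟩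
  have h1 : g⁻¹ * (t * g * t⁻¹) = x := Subtype.ext_iff.1 hgx
  have htinv : t⁻¹ = t := inv_eq_of_mul_eq_one_left ht
  rw [← h1]
  calc t * (g⁻¹ * (t * g * t⁻¹)) * t⁻¹ = (t * g⁻¹ * t) * g * (t⁻¹ * t⁻¹) := by group
    _ = (t * g⁻¹ * t⁻¹) * g * (t * t) := by rw [htinv]
    _ = (g⁻¹ * (t * g * t⁻¹))⁻¹ := by rw [ht]; group

theorem trivial_of {G : Type*} [Group G] [Finite G] {M R X : Subgroup G} (hc : centralizer (Cfsg.pCore 2 M : Set M) ≤ Cfsg.pCore 2 M)
    (S : Sylow 2 G) (hR : IsPGroup 2 R) (hRM : R ≤ M) (hcard : Nat.card S ≤ 2 * Nat.card R) (hX : Odd (Nat.card X))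
    (hXM : X ≤ M) (hRX : ∀ r ∈ R, ∀ x ∈ X, r * x * r⁻¹ ∈ X) : X = ⊥ := by
  haveI : Fact (Nat.Prime 2) := ⟨Nat.prime_two⟩
  obtain ⟨Q, hQ⟩ : ∃ Q, Q = (Cfsg.pCore 2 M).map M.subtype := ⟨_, rfl⟩
  have hQM : Q ≤ M := by rw [hQ]; exact map_subtype_le _
  have hQ2 : IsPGroup 2 Q := by rw [hQ]; exact (H1.Nilp.pCore_isPGroup 2).map _
  have hcn := H1.Nilp.pCore_normal (G := M) 2
  have hMQ : ∀ m ∈ M, ∀ q ∈ Q, m * q * m⁻¹ ∈ Q := by
    intro m hm q hq
    rw [hQ] at hq ⊢
    obtain ⟨w, hw, rfl⟩ := hq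
    exact ⟨⟨m, hm⟩ * w * ⟨m, hm⟩⁻¹, hcn.conj_mem w hw _, rfl⟩
  have hRN : R ≤ normalizer (Q : Set G) := by
    intro r hr
    rw [mem_normalizer_iff]
    intro q
    constructor
    · exact hMQ r (hRM hr) q
    · intro h
      have := hMQ r⁻¹ (inv_mem (hRM hr)) _ h
      have e : r⁻¹ * (r * q * r⁻¹) * r⁻¹⁻¹ = q := by group
      rwa [e] at this
  have h2 : IsPGroup 2 (R ⊔ Q : Subgroup G) := IsPGroup.to_sup_of_normal_right' hR hQ2 hRN
  have h3 : Nat.card (R ⊔ Q : Subgroup G) ≤ Nat.card S := by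
    obtain ⟨g, hg⟩ := h2.exists_le_sylow
    have h4 := Nat.card_mono (Set.toFinite _) hg
    have h5 : Nat.card g = Nat.card S := Nat.card_congr (Sylow.equiv g S).toEquiv
    calc Nat.card (R ⊔ Q : Subgroup G) ≤ Nat.card g := h4
      _ = _ := h5
  have h6 := H2.Card.card_sup_mul_card_inf hRN
  have hRpos : 0 < Nat.card R := Nat.card_pos
  have h7 : Nat.card Q ≤ 2 * Nat.card (R ⊓ Q : Subgroup G) := by
    have h8 : Nat.card R * Nat.card Q ≤ Nat.card R * (2 * Nat.card (R ⊓ Q : Subgroup G)) := by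
      rw [← h6]
      calc Nat.card (R ⊔ Q : Subgroup G) * Nat.card (R ⊓ Q : Subgroup G) ≤ (2 * Nat.card R) * Nat.card (R ⊓ Q : Subgroup G) :=
            Nat.mul_le_mul_right _ (h3.trans hcard)
        _ = _ := by ring
    exact Nat.le_of_mul_le_mul_left h8 hRpos
  have hidx := H2.Card.card_mul_relIndex (inf_le_right : R ⊓ Q ≤ Q)
  have hi2 : (R ⊓ Q).relIndex Q = 1 ∨ (R ⊓ Q).relIndex Q = 2 := by
    have hpos : 0 < Nat.card (R ⊓ Q : Subgroup G) := Nat.card_pos
    have h8 : Nat.card (R ⊓ Q : Subgroup G) * (R ⊓ Q).relIndex Q ≤ Nat.card (R ⊓ Q : Subgroup G) * 2 := by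
      rw [hidx]; omega
    have h9 : (R ⊓ Q).relIndex Q ≤ 2 := Nat.le_of_mul_le_mul_left h8 hpos
    have h10 : (R ⊓ Q).relIndex Q ≠ 0 := by
      intro h
      rw [h, mul_zero] at hidx
      have : 0 < Nat.card Q := Nat.card_pos
      omega
    omega
  -- odd versus two
  have hodd : ∀ x ∈ X, x ∈ Q → x = 1 := by
    intro x hx hxQ
    have h8 : orderOf x ∣ Nat.card X := Subgroup.orderOf_dvd_natCard _ hx
    obtain ⟨k, hk⟩ := IsPGroup.iff_orderOf.1 hQ2 ⟨x, hxQ⟩
    rw [Subgroup.orderOf_mk] at hk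
    have h9 : Nat.Coprime (orderOf x) (orderOf x) := by
      conv_rhs => rw [hk]
      exact (Nat.coprime_two_right.2 (hX.of_dvd_nat h8)).pow_right k
    exact orderOf_eq_one_iff.1 (Nat.coprime_self _ |>.1 h9)
  have hcent : ∀ x ∈ X, ∀ r ∈ R ⊓ Q, x * r = r * x := by
    intro x hx r hr
    have h8 : x * r * x⁻¹ * r⁻¹ ∈ X := by
      have e : x * r * x⁻¹ * r⁻¹ = x * (r * x⁻¹ * r⁻¹) := by group
      rw [e]; exact mul_mem hx (hRX r hr.1 _ (inv_mem hx))
    have h9 : x * r * x⁻¹ * r⁻¹ ∈ Q := mul_mem (hMQ x (hXM hx) r hr.2) (inv_mem hr.2)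
    have h10 := hodd _ h8 h9
    calc x * r = (x * r * x⁻¹ * r⁻¹) * (r * x) := by group
      _ = r * x := by rw [h10, one_mul]
  have hcQ : ∀ x ∈ X, ∀ q ∈ Q, x * q = q * x := by
    intro x hx
    apply odd_trivial (Y := R ⊓ Q) (hR.to_le inf_le_left) (hX.of_dvd_nat (Subgroup.orderOf_dvd_natCard _ hx)) (hcent x hx)
    intro q hq
    have hxq := hMQ x (hXM hx) q hq
    rcases hi2 with h8 | h8
    · rw [Subgroup.relIndex_eq_one] at h8
      exact h8 (mul_mem (inv_mem hq) hxq)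
    · by_cases hqR : q ∈ R ⊓ Q
      · have : x * q * x⁻¹ = q := by rw [hcent x hx q hqR]; group
        rw [this, inv_mul_cancel]; exact one_mem _
      · have h9 : x * q * x⁻¹ ∉ R ⊓ Q := by
          intro h10
          apply hqR
          have h11 := hcent x hx _ h10
          have e : q = x * q * x⁻¹ := by
            calc q = x⁻¹ * (x * q * x⁻¹) * x := by group
              _ = x⁻¹ * (x * (x * q * x⁻¹)) := by rw [h11]; group
              _ = x * q * x⁻¹ := by group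
          rw [e]; exact h10
        have h5 := Subgroup.mul_mem_iff_of_index_two (H := (R ⊓ Q).subgroupOf Q) h8
          (a := ⟨q⁻¹, inv_mem hq⟩) (b := ⟨x * q * x⁻¹, hxq⟩)
        simp only [Subgroup.mem_subgroupOf] at h5
        apply h5.2
        constructor
        · intro h6
          exact absurd (by simpa using inv_mem h6) hqR
        · intro h6
          exact absurd h6 h9
  rw [eq_bot_iff]
  intro x hx
  rw [mem_bot]
  apply hodd x hx
  have h8 : (⟨x, hXM hx⟩ : M) ∈ centralizer (Cfsg.pCore 2 M : Set M) := by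
    rw [mem_centralizer_iff]
    intro w hw
    apply Subtype.ext
    exact (hcQ x hx w (by rw [hQ]; exact ⟨w, hw, rfl⟩)).symm
  rw [hQ]
  exact ⟨_, hc h8, rfl⟩

/-- the four-group -/
theorem exists_four {G : Type*} [Group G] [Finite G] (S : Sylow 2 G) (A : Subgroup G) (hA : Cfsg.IsSCN (S : Subgroup G) A)
    (hA3 : ¬ Cfsg.PRankLE 2 2 ↥A) : ∃ z a : G, z ∈ (S : Subgroup G) ∧ a ∈ (S : Subgroup G) ∧ orderOf z = 2 ∧ orderOf a = 2 ∧ a ≠ z ∧
      (∀ s ∈ (S : Subgroup G), s * z = z * s) ∧ (∀ s ∈ (S : Subgroup G), s * a * s⁻¹ = a ∨ s * a * s⁻¹ = z * a) := by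
  classical
  haveI : Fact (Nat.Prime 2) := ⟨Nat.prime_two⟩
  obtain ⟨hAS, hSA, hAc⟩ := hA
  have hcomm : ∀ a ∈ A, ∀ b ∈ A, a * b = b * a := by
    intro a ha b hb
    have h1 : b ∈ (S : Subgroup G) ⊓ centralizer (A : Set G) := by rw [hAc]; exact hb
    exact (mem_centralizer_iff.1 h1.2) a ha
  let Ω : Subgroup (S : Subgroup G) :=
    { carrier := {s | (s : G) ∈ A ∧ (s : G) * s = 1}
      mul_mem' := by
        rintro s t ⟨hs, hs2⟩ ⟨ht, ht2⟩
        refine ⟨mul_mem hs ht, ?_⟩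
        show ((s : G) * t) * ((s : G) * t) = 1
        calc ((s : G) * t) * ((s : G) * t) = s * (t * s) * t := by group
          _ = s * (s * t) * t := by rw [hcomm _ ht _ hs]
          _ = (s * s) * (t * t) := by group
          _ = 1 := by rw [hs2, ht2, one_mul]
      one_mem' := ⟨one_mem _, by simp⟩
      inv_mem' := by
        rintro s ⟨hs, hs2⟩
        refine ⟨inv_mem hs, ?_⟩
        show (s : G)⁻¹ * (s : G)⁻¹ = 1
        rw [← mul_inv_rev, hs2, inv_one] }
  have hΩmem : ∀ s : (S : Subgroup G), s ∈ Ω ↔ (s : G) ∈ A ∧ (s : G) * s = 1 := fun s => Iff.rfl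
  haveI hΩn : Ω.Normal := by
    refine ⟨fun s hs t => ?_⟩
    rw [hΩmem] at hs ⊢
    refine ⟨(mem_normalizer_iff.1 (hSA t.2) s).1 hs.1, ?_⟩
    show ((t : G) * s * (t : G)⁻¹) * ((t : G) * s * (t : G)⁻¹) = 1
    calc ((t : G) * s * (t : G)⁻¹) * ((t : G) * s * (t : G)⁻¹) = t * (s * s) * (t : G)⁻¹ := by group
      _ = 1 := by rw [hs.2]; group
  have hΩ4 : 4 < Nat.card Ω := by
    unfold Cfsg.PRankLE at hA3
    push Not at hA3
    obtain ⟨B, hBc, hB2, hB4⟩ := hA3
    have h1 : Nat.card B ≤ Nat.card Ω := by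
      apply Nat.card_le_card_of_injective (fun b : B => (⟨⟨((b : A) : G), hAS (b : A).2⟩, by
        rw [hΩmem]
        refine ⟨(b : A).2, ?_⟩
        have := hB2 b b.2
        rw [pow_two] at this
        exact Subtype.ext_iff.1 this⟩ : Ω))
      intro b b' h
      have h2 := Subtype.ext_iff.1 (Subtype.ext_iff.1 h)
      exact Subtype.ext (Subtype.ext h2)
    norm_num at hB4
    omega
  have hS2 : IsPGroup 2 (S : Subgroup G) := S.isPGroup'
  have hΩne : Ω ≠ ⊥ := by
    intro h; rw [h, Subgroup.card_bot] at hΩ4; omega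
  obtain ⟨z, hz, hz1⟩ : ∃ z : (S : Subgroup G), z ∈ Ω ⊓ center (S : Subgroup G) ∧ z ≠ 1 := by
    obtain ⟨w, hw⟩ := (Subgroup.ne_bot_iff_exists_ne_one).1 (H2.PGroup.inf_center_ne_bot hS2 hΩne)
    exact ⟨w, w.2, fun h => hw (Subtype.ext h)⟩
  have hzc : ∀ s : (S : Subgroup G), s * z = z * s := fun s => (mem_center_iff.1 hz.2 s)
  have hzz : (z : G) * z = 1 := ((hΩmem z).1 hz.1).2
  haveI hZn : (zpowers z).Normal := by
    refine ⟨fun w hw s => ?_⟩
    obtain ⟨k, rfl⟩ := mem_zpowers_iff.1 hw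
    have h1 : Commute s (z ^ k) := (show Commute s z from hzc s).zpow_right k
    rw [h1.eq, mul_inv_cancel_right]; exact hw
  have hzmem : ∀ w : (S : Subgroup G), w ∈ zpowers z ↔ w = 1 ∨ w = z := by
    intro w
    have hz2 : z * z = 1 := Subtype.ext hzz
    constructor
    · intro h
      obtain ⟨k, rfl⟩ := mem_zpowers_iff.mp h
      rcases Int.even_or_odd k with ⟨m, hm⟩ | ⟨m, hm⟩
      · left
        rw [hm, ← two_mul, zpow_mul, zpow_two, hz2, one_zpow]
      · right
        rw [hm, zpow_add, zpow_mul, zpow_two, hz2, one_zpow, one_mul, zpow_one]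
    · rintro (rfl | rfl)
      · exact one_mem _
      · exact mem_zpowers _
  have hzo : orderOf (z : G) = 2 := by
    rw [orderOf_eq_prime_iff, pow_two]
    exact ⟨hzz, fun h => hz1 (Subtype.ext h)⟩
  have hcz : Nat.card (zpowers z) = 2 := by
    rw [Nat.card_zpowers, ← Subgroup.orderOf_coe, hzo]
  -- the quotient
  let π := QuotientGroup.mk' (zpowers z)
  have hq2 : IsPGroup 2 ((S : Subgroup G) ⧸ zpowers z) := hS2.to_quotient _
  haveI : (Ω.map π).Normal := hΩn.map π (QuotientGroup.mk'_surjective _)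
  have hne : Ω.map π ≠ ⊥ := by
    intro h
    rw [Subgroup.map_eq_bot_iff, QuotientGroup.ker_mk'] at h
    have := Nat.card_mono (Set.toFinite _) h
    rw [SetLike.coe_sort_coe, SetLike.coe_sort_coe, hcz] at this
    omega
  obtain ⟨w, hw⟩ := (Subgroup.ne_bot_iff_exists_ne_one).1 (H2.PGroup.inf_center_ne_bot hq2 hne)
  obtain ⟨⟨a, haΩ, haw⟩, hwc⟩ := w.2
  have haz : a ∉ zpowers z := by
    intro h
    apply hw
    apply Subtype.ext
    show (w : (S : Subgroup G) ⧸ zpowers z) = 1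
    rw [← haw]
    exact (QuotientGroup.eq_one_iff a).2 h
  rw [hzmem, not_or] at haz
  refine ⟨z, a, z.2, a.2, hzo, ?_, fun h => haz.2 (Subtype.ext h), fun s hs => Subtype.ext_iff.1 (hzc ⟨s, hs⟩), ?_⟩
  · rw [orderOf_eq_prime_iff, pow_two]
    exact ⟨((hΩmem a).1 haΩ).2, fun h => haz.1 (Subtype.ext h)⟩
  · intro s hs
    have h1 := mem_center_iff.1 hwc (π ⟨s, hs⟩)
    rw [← haw] at h1
    have h2 : π (⟨s, hs⟩ * a * ⟨s, hs⟩⁻¹ * a⁻¹) = 1 := by
      rw [map_mul, map_mul, map_mul, map_inv, map_inv, h1]; group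
    have h3 := (QuotientGroup.eq_one_iff _).1 h2
    rw [hzmem] at h3
    rcases h3 with h3 | h3
    · left
      have h4 : ⟨s, hs⟩ * a * ⟨s, hs⟩⁻¹ = a := mul_inv_eq_one.1 h3
      exact Subtype.ext_iff.1 h4
    · right
      have h4 : ⟨s, hs⟩ * a * ⟨s, hs⟩⁻¹ = z * a := mul_inv_eq_iff_eq_mul.1 h3
      exact Subtype.ext_iff.1 h4

theorem part_one {G : Type*} [Group G] [Finite G] (S : Sylow 2 G) (A : Subgroup G) (hA : Cfsg.IsSCN (S : Subgroup G) A)
    (hA3 : ¬ Cfsg.PRankLE 2 2 ↥A)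
    (h : ∀ t : G, orderOf t = 2 → ∃ M : Subgroup G, centralizer ({t} : Set G) ≤ M ∧ centralizer (Cfsg.pCore 2 M : Set M) ≤ Cfsg.pCore 2 M)
    (X : Subgroup G) (hX : Odd (Nat.card X)) (hSX : (S : Subgroup G) ≤ normalizer (X : Set G)) : X = ⊥ := by
  classical
  haveI : Fact (Nat.Prime 2) := ⟨Nat.prime_two⟩
  obtain ⟨z, a, hzS, haS, hz, ha, haz, hzc, hac⟩ := exists_four S A hA hA3
  have hnorm : ∀ s ∈ (S : Subgroup G), ∀ x ∈ X, s * x * s⁻¹ ∈ X := fun s hs x hx => (mem_normalizer_iff.1 (hSX hs) x).1 hx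
  -- general: t an involution of S, R ≤ C_S(t) large => C_X(t) = 1
  have key : ∀ t : G, orderOf t = 2 → ∀ R : Subgroup G, R ≤ (S : Subgroup G) → (∀ r ∈ R, r * t = t * r) →
      Nat.card S ≤ 2 * Nat.card R → ∀ x ∈ X, t * x = x * t → x = 1 := by
    intro t ht R hRS hRt hRc x hx hxt
    obtain ⟨M, hM, hMc⟩ := h t ht
    have h1 : X ⊓ centralizer ({t} : Set G) = ⊥ := by
      apply trivial_of hMc S (S.isPGroup'.to_le hRS) (R := R) _ hRc
      · exact hX.of_dvd_nat (Subgroup.card_dvd_of_le inf_le_left)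
      · exact inf_le_right.trans hM
      · intro r hr y hy
        refine ⟨hnorm r (hRS hr) y hy.1, mem_centralizer_singleton_iff.2 ?_⟩
        have h2 := mem_centralizer_singleton_iff.1 hy.2
        have h3 := hRt r hr
        have h4 : r⁻¹ * t = t * r⁻¹ := by rw [inv_mul_eq_iff_eq_mul, ← mul_assoc, h3, mul_inv_cancel_right]
        calc r * y * r⁻¹ * t = r * y * (r⁻¹ * t) := by group
          _ = r * (y * t) * r⁻¹ := by rw [h4]; group
          _ = (r * t) * y * r⁻¹ := by rw [h2]; group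
          _ = t * (r * y * r⁻¹) := by rw [h3]; group
      · intro r hr
        exact hM (mem_centralizer_singleton_iff.2 (hRt r hr))
    have h2 : x ∈ X ⊓ centralizer ({t} : Set G) := ⟨hx, mem_centralizer_singleton_iff.2 hxt.symm⟩
    rw [h1, mem_bot] at h2
    exact h2
  -- C_X(z) = 1
  have k1 := key z hz (S : Subgroup G) le_rfl hzc (by omega)
  -- the centralizer of a in S
  let R : Subgroup G := (S : Subgroup G) ⊓ centralizer ({a} : Set G)
  have hRc : Nat.card S ≤ 2 * Nat.card R := by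
    have h1 := H2.Card.card_mul_relIndex (inf_le_left : R ≤ (S : Subgroup G))
    have h2 : R.relIndex (S : Subgroup G) ≤ 2 := by
      show (R.subgroupOf (S : Subgroup G)).index ≤ 2
      have hinj : Function.Injective (fun q : (S : Subgroup G) ⧸ R.subgroupOf (S : Subgroup G) => decide (((q.out : (S : Subgroup G)) : G) * a * ((q.out : (S : Subgroup G)) : G)⁻¹ = a)) := by
        intro q q' hqq
        have h3 : ((q.out : (S : Subgroup G)) : G) * a * ((q.out : (S : Subgroup G)) : G)⁻¹ = ((q'.out : (S : Subgroup G)) : G) * a * ((q'.out : (S : Subgroup G)) : G)⁻¹ := by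
          by_cases h4 : ((q.out : (S : Subgroup G)) : G) * a * ((q.out : (S : Subgroup G)) : G)⁻¹ = a
          · have h5 : ((q'.out : (S : Subgroup G)) : G) * a * ((q'.out : (S : Subgroup G)) : G)⁻¹ = a := by
              simp only [h4, decide_true] at hqq
              exact of_decide_eq_true hqq.symm
            rw [h4, h5]
          · have h5 : ¬ ((q'.out : (S : Subgroup G)) : G) * a * ((q'.out : (S : Subgroup G)) : G)⁻¹ = a := by
              intro h6
              apply h4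
              simp only [h6, decide_true] at hqq
              exact of_decide_eq_true hqq
            rw [(hac _ q.out.2).resolve_left h4, (hac _ q'.out.2).resolve_left h5]
        have e1 : ((q.out : (S : Subgroup G)) : (S : Subgroup G) ⧸ R.subgroupOf (S : Subgroup G)) = q := QuotientGroup.out_eq' q
        have e2 : ((q'.out : (S : Subgroup G)) : (S : Subgroup G) ⧸ R.subgroupOf (S : Subgroup G)) = q' := QuotientGroup.out_eq' q'
        rw [← e1, ← e2, QuotientGroup.eq, mem_subgroupOf]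
        refine ⟨(q.out⁻¹ * q'.out).2, mem_centralizer_singleton_iff.2 ?_⟩
        show (((q.out : (S : Subgroup G)) : G)⁻¹ * ((q'.out : (S : Subgroup G)) : G)) * a = a * (((q.out : (S : Subgroup G)) : G)⁻¹ * ((q'.out : (S : Subgroup G)) : G))
        generalize ((q.out : (S : Subgroup G)) : G) = u at *
        generalize ((q'.out : (S : Subgroup G)) : G) = v at *
        calc (u⁻¹ * v) * a = u⁻¹ * (v * a * v⁻¹) * v := by group
          _ = u⁻¹ * (u * a * u⁻¹) * v := by rw [h3]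
          _ = a * (u⁻¹ * v) := by group
      have h3 := Nat.card_le_card_of_injective _ hinj
      rw [Nat.card_eq_fintype_card (α := Bool), Fintype.card_bool] at h3
      exact h3
    calc Nat.card S = Nat.card R * R.relIndex (S : Subgroup G) := h1.symm
      _ ≤ Nat.card R * 2 := Nat.mul_le_mul_left _ h2
      _ = _ := by ring
  have hza : z * a = a * z := (hzc a haS).symm
  have hRz : ∀ r ∈ R, r * z = z * r := fun r hr => hzc r hr.1
  have hRa : ∀ r ∈ R, r * a = a * r := fun r hr => mem_centralizer_singleton_iff.1 hr.2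
  have k2 := key a ha R inf_le_left hRa hRc
  have hz2 : z * z = 1 := by rw [← pow_two, ← hz, pow_orderOf_eq_one]
  have ha2 : a * a = 1 := by rw [← pow_two, ← ha, pow_orderOf_eq_one]
  have k3 := key (z * a) (by
    rw [orderOf_eq_prime_iff, pow_two]
    refine ⟨?_, ?_⟩
    · calc z * a * (z * a) = z * (a * z) * a := by group
        _ = (z * z) * (a * a) := by rw [← hza]; group
        _ = 1 := by rw [hz2, ha2, one_mul]
    · intro h1
      apply haz
      have h2 : z⁻¹ = z := inv_eq_of_mul_eq_one_left hz2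
      rw [← h2]
      exact (eq_inv_of_mul_eq_one_right h1)) R inf_le_left (by
    intro r hr
    calc r * (z * a) = (r * z) * a := by group
      _ = z * (r * a) := by rw [hRz r hr]; group
      _ = z * a * r := by rw [hRa r hr]; group) hRc
  have i1 := inverts hz2 (hnorm z hzS) k1
  have i2 := inverts ha2 (hnorm a haS) k2
  rw [eq_bot_iff]
  intro x hx
  rw [mem_bot]
  apply k3 x hx
  have h1 : (z * a) * x * (z * a)⁻¹ = x := by
    calc (z * a) * x * (z * a)⁻¹ = z * (a * x * a⁻¹) * z⁻¹ := by group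
      _ = x⁻¹⁻¹ := by rw [i2 x hx, i1 _ (inv_mem hx)]
      _ = x := inv_inv x
  calc z * a * x = ((z * a) * x * (z * a)⁻¹) * (z * a) := by group
    _ = x * (z * a) := by rw [h1]

/-- Let G be a finite group whose Sylow 2-subgroup S has a self-centralizing normal subgroup of rank at least 3. Suppose that either every maximal 2-local subgroup of G is 2-constrained with no nontrivial normal subgroup of odd order, or the centralizer of every involution of G is 2-constrained with no nontrivial normal subgroup of odd order. Then S normalizes no nontrivial subgroup of G of odd order and every 2-local subgroup of G is 2-constrained. -/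
theorem result {G : Type*} [Group G] [Finite G]
    (S : Sylow 2 G) (A : Subgroup G) (hA : Cfsg.IsSCN (S : Subgroup G) A) (hA3 : ¬ Cfsg.PRankLE 2 2 ↥A)
    (h : (∀ M : Subgroup G, Cfsg.IsMaximalTwoLocal M → Cfsg.IsPConstrained 2 ↥M ∧ Cfsg.oddCore ↥M = ⊥) ∨
      (∀ t : G, orderOf t = 2 → Cfsg.IsPConstrained 2 ↥(Subgroup.centralizer ({t} : Set G)) ∧
        Cfsg.oddCore ↥(Subgroup.centralizer ({t} : Set G)) = ⊥)) :
    (∀ X : Subgroup G, Odd (Nat.card ↥X) → (S : Subgroup G) ≤ Subgroup.normalizer (X : Set G) → X = ⊥) ∧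
      (∀ T : Subgroup G, IsPGroup 2 ↥T → T ≠ ⊥ → Cfsg.IsPConstrained 2 ↥(Subgroup.normalizer (T : Set G))) := by
  classical
  haveI : Fact (Nat.Prime 2) := ⟨Nat.prime_two⟩
  -- maximal two-locals
  have hmax : ∀ T : Subgroup G, IsPGroup 2 T → T ≠ ⊥ → ∃ M : Subgroup G, Cfsg.IsMaximalTwoLocal M ∧ normalizer (T : Set G) ≤ M := by
    intro T hT hT1
    let L : Set (Subgroup G) := {M | Cfsg.IsTwoLocal M}
    obtain ⟨M, hNM, hM⟩ := (Set.toFinite L).exists_le_maximal (show normalizer (T : Set G) ∈ L from ⟨T, hT, hT1, rfl⟩)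
    exact ⟨M, ⟨hM.1, fun N hN hMN => (hM.eq_of_le hN hMN).symm⟩, hNM⟩
  refine ⟨fun X hX hSX => ?_, ?_⟩
  · apply part_one S A hA hA3 _ X hX hSX
    intro t ht
    rcases h with h | h
    · have h1 : IsPGroup 2 (zpowers t) := by
        rw [IsPGroup.iff_card]; exact ⟨1, by rw [Nat.card_zpowers, ht, pow_one]⟩
      obtain ⟨M, hM, hNM⟩ := hmax (zpowers t) h1 (by
        intro h2
        rw [zpowers_eq_bot] at h2
        rw [h2, orderOf_one] at ht
        omega)
      refine ⟨M, ?_, (H2.PCons.pc_iff_of_bot (h M hM).2).1 (h M hM).1⟩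
      refine le_trans ?_ hNM
      intro c hc
      rw [mem_centralizer_singleton_iff] at hc
      apply centralizer_le_normalizer
      rw [mem_centralizer_iff]
      intro w hw
      obtain ⟨k, rfl⟩ := mem_zpowers_iff.1 hw
      exact ((show Commute t c from hc.symm).zpow_left k).eq
    · exact ⟨_, le_rfl, (H2.PCons.pc_iff_of_bot (h t ht).2).1 (h t ht).1⟩
  · intro T hT hT1
    rcases h with h | h
    · obtain ⟨M, hM, hNM⟩ := hmax T hT hT1
      exact H19.PC.pc_normalizer_of_le (h M hM).1 hT hNM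
    · exact H19.PC.pc_of_element (fun x hx => (h x hx).1) hT hT1

end Cfsg.Agent.S3246
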