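import Cfsg.Statements.S3261
import Cfsg.Agent.H21_D8rec

set_option autoImplicit false
open Cfsg

namespace Cfsg.Agent.S3261



/-- Let α̃ be an involution of the alternating group A₆ that is a product of two disjoint transpositions (it lies in the centre of a Sylow 2-subgroup of A₆; its centralizer is dihedral of order 8). Let G be a finite group that has no subgroup of index 2 and contains an involution α, central in some Sylow 2-subgroup of G, with C_G(α) ≅ C_{A₆}(α̃). Then G is isomorphic to A₆ or to PSL₂(7). -/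
theorem result {G : Type*} [Group G] [Finite G]
    (hG : ∀ H : Subgroup G, H.index ≠ 2)
    (αt : ↥(alternatingGroup (Fin 6))) (hαt : orderOf αt = 2) (hsupp : (αt : Equiv.Perm (Fin 6)).support.card = 4)
    (α : G) (hα : orderOf α = 2) (S : Sylow 2 G) (hαS : α ∈ (S : Subgroup G)) (hαc : ∀ s ∈ (S : Subgroup G), s * α = α * s)
    (e : ↥(Subgroup.centralizer ({α} : Set G)) ≃* ↥(Subgroup.centralizer ({αt} : Set ↥(alternatingGroup (Fin 6))))) :
    Nonempty (G ≃* ↥(alternatingGroup (Fin 6))) ∨
      (∃ (F : Type) (_ : Field F) (_ : Fintype F), Fintype.card F = 7 ∧ Nonempty (G ≃* Matrix.ProjectiveSpecialLinearGroup (Fin 2) F)) := by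
  obtain ⟨e2⟩ := H21.D8rec.cent_A6 αt hαt hsupp
  obtain ⟨hs, h | h⟩ := H21.D8rec.main hα (e.trans e2) hG
  · right
    haveI := hs
    have : Fact (Nat.Prime 7) := ⟨by norm_num⟩
    have hF : Fintype.card (ZMod 7) = 7 := ZMod.card 7
    refine ⟨ZMod 7, inferInstance, inferInstance, hF, ?_⟩
    have hc := H5.SmallIso.card_PSL2 (F := ZMod 7)
    rw [hF, show Nat.gcd 2 (7 - 1) = 2 by decide] at hc
    have hcard : Nat.card (Matrix.ProjectiveSpecialLinearGroup (Fin 2) (ZMod 7)) = 168 := by
      omega
    have hsim : IsSimpleGroup (Matrix.ProjectiveSpecialLinearGroup (Fin 2) (ZMod 7)) :=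
      Matrix.ProjectiveSpecialLinearGroup.rank_two_simple (by rw [Nat.card_eq_fintype_card, hF]; norm_num)
    haveI : Finite (Matrix.ProjectiveSpecialLinearGroup (Fin 2) (ZMod 7)) := Nat.finite_of_card_ne_zero (by omega)
    exact H21.O168.unique h hcard
  · left
    haveI := hs
    exact H21.O360.iso_A6 h

end Cfsg.Agent.S3261
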