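import Cfsg.Statements.S3264
import Cfsg.Agent.HL_Bart4

set_option autoImplicit false
open Cfsg

namespace Cfsg.Agent.S3264

/-- Let G be a non-abelian finite simple group and X a conjugacy class of involutions of G. Form the graph on X in which two distinct involutions are joined when their product has odd order. Then this graph is connected. (By the Baer–Suzuki Theorem the graph has at least one edge; connectedness is the stronger statement.) -/
theorem result {G : Type*} [Group G] [Finite G] [IsSimpleGroup G]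
    (hG : ¬ IsMulCommutative G) (t : G) (ht : orderOf t = 2) :
    (SimpleGraph.fromRel fun x y : {x : G // IsConj t x} => Odd (orderOf (x.1 * y.1))).Connected := by
  classical
  set Γ := SimpleGraph.fromRel fun x y : {x : G // IsConj t x} => Odd (orderOf (x.1 * y.1)) with hΓ
  let c : G → {x : G // IsConj t x} → {x : G // IsConj t x} := fun g x =>
    ⟨g * x.1 * g⁻¹, x.2.trans (isConj_iff.2 ⟨g, rfl⟩)⟩
  have c_one : ∀ x, c 1 x = x := fun x => Subtype.ext (by simp [c])
  have c_mul : ∀ g h x, c (g * h) x = c g (c h x) := fun g h x => Subtype.ext (by simp [c, mul_assoc])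
  have hord : ∀ g x y : G, orderOf ((g * x * g⁻¹) * (g * y * g⁻¹)) = orderOf (x * y) := by
    intro g x y
    have e : (g * x * g⁻¹) * (g * y * g⁻¹) = (MulAut.conj g) (x * y) := by simp [mul_assoc]
    rw [e]; exact orderOf_injective (MulAut.conj g).toMonoidHom (MulAut.conj g).injective _
  have hadj : ∀ x y, Γ.Adj x y ↔ x ≠ y ∧ (Odd (orderOf (x.1 * y.1)) ∨ Odd (orderOf (y.1 * x.1))) := fun x y =>
    SimpleGraph.fromRel_adj _ x y
  have hc : ∀ g x y, Γ.Adj x y → Γ.Adj (c g x) (c g y) := by
    intro g x y h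
    rw [hadj] at h ⊢
    refine ⟨fun h1 => h.1 ?_, ?_⟩
    · have h2 := congrArg (c g⁻¹) h1
      rwa [← c_mul, ← c_mul, inv_mul_cancel, c_one, c_one] at h2
    · rcases h.2 with h2 | h2
      · left; show Odd (orderOf ((g * x.1 * g⁻¹) * (g * y.1 * g⁻¹))); rwa [hord]
      · right; show Odd (orderOf ((g * y.1 * g⁻¹) * (g * x.1 * g⁻¹))); rwa [hord]
  have hcr : ∀ g x y, Γ.Reachable x y → Γ.Reachable (c g x) (c g y) := by
    intro g x y h
    let f : Γ →g Γ := ⟨c g, fun {a b} hab => hc g a b hab⟩
    exact h.map f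
  let t0 : {x : G // IsConj t x} := ⟨t, IsConj.refl t⟩
  have hsq : ∀ x : {x : G // IsConj t x}, x.1 * x.1 = 1 := by
    rintro ⟨x, hx⟩
    obtain ⟨g, rfl⟩ := isConj_iff.1 hx
    have h1 : t * t = 1 := by rw [← pow_two, ← ht, pow_orderOf_eq_one]
    show g * t * g⁻¹ * (g * t * g⁻¹) = 1
    rw [show g * t * g⁻¹ * (g * t * g⁻¹) = g * (t * t) * g⁻¹ from by group, h1]
    group
  let S : Subgroup G :=
    { carrier := {g | ∀ x, Γ.Reachable t0 x ↔ Γ.Reachable t0 (c g x)}
      one_mem' := fun x => by rw [c_one]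
      mul_mem' := fun {a b} ha hb x => by
        rw [c_mul]; exact (hb x).trans (ha _)
      inv_mem' := fun {a} ha x => by
        rw [ha (c a⁻¹ x), ← c_mul, mul_inv_cancel, c_one] }
  have hS : ∀ x : {x : G // IsConj t x}, Γ.Reachable t0 x → x.1 ∈ S := by
    intro x hx
    have key : ∀ z, Γ.Reachable t0 z → Γ.Reachable t0 (c x.1 z) := by
      intro z hz
      have h1 := hcr x.1 _ _ hz
      have h2 := hcr x.1 _ _ hx
      have h3 : c x.1 x = x := Subtype.ext (by simp [c])
      rw [h3] at h2
      exact hx.trans (h2.symm.trans h1)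
    intro z
    refine ⟨key z, fun h => ?_⟩
    have h1 := key _ h
    rwa [← c_mul, hsq, c_one] at h1
  have hchain : ∀ B, Relation.ReflTransGen Cfsg.Agent.HL.Bart.R (Subgroup.zpowers t) B →
      ∃ x : {x : G // IsConj t x}, B = Subgroup.zpowers x.1 ∧ Γ.Reachable t0 x := by
    intro B hB
    induction hB with
    | refl => exact ⟨t0, rfl, SimpleGraph.Reachable.refl _⟩
    | @tail B C _ hR ih =>
      obtain ⟨x, rfl, hx⟩ := ih
      obtain ⟨g, hg, rfl⟩ := hR
      have e : Cfsg.Agent.H17.Base.cj g (Subgroup.zpowers x.1) = Subgroup.zpowers (c g x).1 := by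
        show (Subgroup.zpowers x.1).map (MulAut.conj g).toMonoidHom = _
        rw [MonoidHom.map_zpowers]
        rfl
      refine ⟨c g x, e, ?_⟩
      rw [e, Subgroup.zpowers_eq_closure, Subgroup.zpowers_eq_closure, ← Subgroup.closure_union,
        Set.singleton_union] at hg
      have h1 := Cfsg.Agent.HL.Bart.odd_of_conj (hsq x) (hsq (c g x)) hg rfl
      by_cases h2 : x = c g x
      · rw [← h2]; exact hx
      · exact hx.trans (SimpleGraph.Adj.reachable ((hadj _ _).2 ⟨h2, Or.inl h1⟩))
  have hfull : Cfsg.Agent.HL.Bart.Full (Subgroup.zpowers t) := by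
    intro N h1 h2
    have h3 : N.Normal := Subgroup.normalizer_eq_top_iff.1 (top_le_iff.1 h2)
    rcases h3.eq_bot_or_eq_top with h4 | h4
    · exfalso
      have h5 : t ∈ N := h1 (Subgroup.mem_zpowers t)
      rw [h4, Subgroup.mem_bot] at h5
      rw [h5, orderOf_one] at ht
      omega
    · exact h4
  have hST : S = ⊤ := by
    rw [eq_top_iff, ← Cfsg.Agent.HL.Bart.bartels hfull]
    refine sSup_le fun B hB => ?_
    obtain ⟨x, rfl, hx⟩ := hchain B hB
    rw [Subgroup.zpowers_le]
    exact hS x hx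
  rw [SimpleGraph.connected_iff_exists_forall_reachable]
  refine ⟨t0, fun w => ?_⟩
  obtain ⟨g, hg⟩ := isConj_iff.1 w.2
  have h1 : g ∈ S := by rw [hST]; trivial
  have h2 := (h1 t0).1 (SimpleGraph.Reachable.refl _)
  have h3 : c g t0 = w := Subtype.ext hg
  rwa [h3] at h2

end Cfsg.Agent.S3264
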