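import Cfsg.Statements.S3269
import Mathlib
import Cfsg.Agent.H4_ZStar
import Cfsg.Agent.H4_Util
import Cfsg.Agent.H4_QuatG
import Cfsg.Agent.H2_Card

set_option autoImplicit false
open Cfsg

namespace Cfsg.Agent.S3269

theorem quat_sq {N : ℕ} (hN : 0 < N) (g : QuaternionGroup N) (h : g * g = 1) :
    g = 1 ∨ g = QuaternionGroup.a (N : ZMod (2 * N)) := by
  rcases g with i | i
  · rw [QuaternionGroup.a_mul_a, QuaternionGroup.one_def, QuaternionGroup.a.injEq] at h
    rcases Cfsg.Agent.H4.QuatG.zmod_two hN i h with h1 | h1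
    · left; rw [h1, QuaternionGroup.one_def]
    · right; rw [h1]
  · exfalso
    haveI : NeZero N := ⟨hN.ne'⟩
    have h1 := QuaternionGroup.orderOf_xa (n := N) i
    have h2 : orderOf (QuaternionGroup.xa i : QuaternionGroup N) ∣ 2 :=
      orderOf_dvd_of_pow_eq_one (by rw [pow_two]; exact h)
    rw [h1] at h2
    omega

theorem quat_comm {n : ℕ} (hn : 1 ≤ n) : ∃ u v : QuaternionGroup (2 ^ n),
    (QuaternionGroup.a ((2 ^ n : ℕ) : ZMod (2 * 2 ^ n)) : QuaternionGroup (2 ^ n)) = u * v * u⁻¹ * v⁻¹ := by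
  refine ⟨QuaternionGroup.a ((2 ^ (n - 1) : ℕ) : ZMod (2 * 2 ^ n)), QuaternionGroup.xa 0, ?_⟩
  have h1 : (QuaternionGroup.a ((2 ^ (n - 1) : ℕ) : ZMod (2 * 2 ^ n)) : QuaternionGroup (2 ^ n)) *
      QuaternionGroup.xa 0 = QuaternionGroup.xa (0 - ((2 ^ (n - 1) : ℕ) : ZMod (2 * 2 ^ n))) := by
    rw [QuaternionGroup.a_mul_xa]
  rw [eq_mul_inv_iff_mul_eq, eq_mul_inv_iff_mul_eq]
  rw [QuaternionGroup.a_mul_xa, QuaternionGroup.xa_mul_a, QuaternionGroup.a_mul_xa]
  congr 1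
  obtain ⟨m, rfl⟩ : ∃ m, n = m + 1 := ⟨n - 1, by omega⟩
  simp only [Nat.add_sub_cancel, pow_succ]
  push_cast
  ring

universe u

/-- a simple group with an isolated involution is abelian -/
theorem comm_of_simple {G : Type u} [Group G] [Finite G] (hs : IsSimpleGroup G) {z : G}
    (hz : Cfsg.IsIsolatedInvolution z) (a b : G) : a * b = b * a := by
  have hcop := Cfsg.Agent.H11.Cores.pPrimeCore_coprime (G := G) 2
  have hbot : Cfsg.oddCore G = ⊥ := by
    rcases hs.eq_bot_or_eq_top_of_normal (Cfsg.oddCore G) inferInstance with h | h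
    · exact h
    · exfalso
      have h1 : (Nat.card (Cfsg.oddCore G)).Coprime 2 := hcop
      rw [h, Subgroup.card_top, Nat.coprime_two_right] at h1
      have h2 := orderOf_dvd_natCard z
      rw [hz.1] at h2
      exact (Nat.not_even_iff_odd.mpr h1) (even_iff_two_dvd.mpr h2)
  have hzc : z ∈ Subgroup.center G := by
    rw [Subgroup.mem_center_iff]
    intro g
    have h1 := Cfsg.Agent.H4.ZStar.zstar hz g
    rw [hbot, Subgroup.mem_bot] at h1
    have h7 : z * g * z⁻¹ = g := by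
      have := mul_eq_one_iff_eq_inv.mp h1
      rwa [inv_inv] at this
    exact (mul_inv_eq_iff_eq_mul.mp h7).symm
  rcases hs.eq_bot_or_eq_top_of_normal (Subgroup.center G) inferInstance with h | h
  · rw [h, Subgroup.mem_bot] at hzc
    have := hz.1
    rw [hzc, orderOf_one] at this
    norm_num at this
  · have : b ∈ Subgroup.center G := by rw [h]; trivial
    exact Subgroup.mem_center_iff.mp this a

section
variable {G : Type u} [Group G] [Finite G]

/-- quaternion subgroup facts -/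
theorem quat_facts (Q : Subgroup G) {n : ℕ} (hn : 1 ≤ n) (e : ↥Q ≃* QuaternionGroup (2 ^ n)) :
    ∃ z ∈ Q, orderOf z = 2 ∧ (∀ x ∈ Q, x * x = 1 → x = 1 ∨ x = z) ∧
      (∃ u ∈ Q, ∃ v ∈ Q, z = u * v * u⁻¹ * v⁻¹) ∧ ∀ y ∈ Q, y ≠ 1 → z ∈ Subgroup.zpowers y := by
  have hN : 0 < 2 ^ n := Nat.two_pow_pos n
  set w : QuaternionGroup (2 ^ n) := QuaternionGroup.a ((2 ^ n : ℕ) : ZMod (2 * 2 ^ n)) with hw
  have hw1 : w ≠ 1 := by
    rw [hw, QuaternionGroup.one_def, Ne, QuaternionGroup.a.injEq, ZMod.natCast_eq_zero_iff]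
    intro h
    have := Nat.le_of_dvd hN h
    omega
  have hw2 : w * w = 1 := by
    rw [hw, QuaternionGroup.a_mul_a, QuaternionGroup.one_def, QuaternionGroup.a.injEq, ← Nat.cast_add,
      ZMod.natCast_eq_zero_iff, two_mul]
  have hwo : orderOf w = 2 := Cfsg.Agent.H4.Inv.orderOf_eq_two_of hw1 hw2
  have huniq : ∀ x ∈ Q, x * x = 1 → x = 1 ∨ x = (e.symm w : Q) := by
    intro x hx hxx
    have h1 : e ⟨x, hx⟩ * e ⟨x, hx⟩ = 1 := by
      rw [← map_mul]
      have : (⟨x, hx⟩ : Q) * ⟨x, hx⟩ = 1 := Subtype.ext hxx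
      rw [this, map_one]
    rcases quat_sq hN _ h1 with h | h
    · left
      have := (map_eq_one_iff e e.injective).mp h
      exact congrArg (fun x : Q => (x : G)) this
    · right
      rw [← hw] at h
      rw [← h, MulEquiv.symm_apply_apply]
  have hzo : orderOf ((e.symm w : Q) : G) = 2 := by
    rw [Subgroup.orderOf_coe, MulEquiv.orderOf_eq]; exact hwo
  refine ⟨(e.symm w : Q), (e.symm w).2, hzo, huniq, ?_, ?_⟩
  · obtain ⟨u, v, huv⟩ := quat_comm hn
    refine ⟨(e.symm u : Q), (e.symm u).2, (e.symm v : Q), (e.symm v).2, ?_⟩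
    rw [← hw] at huv
    rw [huv]
    simp
  · intro y hy hy1
    have hcard : Nat.card Q = 2 ^ (n + 2) := by
      rw [Nat.card_congr e.toEquiv, Nat.card_eq_fintype_card, QuaternionGroup.card]
      ring
    have hdvd : orderOf (⟨y, hy⟩ : Q) ∣ 2 ^ (n + 2) := by rw [← hcard]; exact orderOf_dvd_natCard _
    obtain ⟨k, -, hk⟩ := (Nat.dvd_prime_pow Nat.prime_two).mp hdvd
    have hyo : orderOf y = 2 ^ k := by
      rw [← hk]; exact Subgroup.orderOf_coe (⟨y, hy⟩ : Q)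
    have hk1 : k ≠ 0 := by
      rintro rfl
      rw [pow_zero, orderOf_eq_one_iff] at hyo
      exact hy1 hyo
    obtain ⟨m, rfl⟩ : ∃ m, k = m + 1 := ⟨k - 1, by omega⟩
    have h1 : y ^ (2 ^ m) * y ^ (2 ^ m) = 1 := by
      rw [← pow_add, ← two_mul, ← pow_succ', ← hyo]; exact pow_orderOf_eq_one y
    rcases huniq _ (Q.pow_mem hy _) h1 with h | h
    · exfalso
      have := orderOf_dvd_of_pow_eq_one h
      rw [hyo] at this
      have := Nat.le_of_dvd (Nat.two_pow_pos m) this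
      rw [pow_succ] at this
      have := Nat.two_pow_pos m
      omega
    · rw [← h]; exact Subgroup.pow_mem _ (Subgroup.mem_zpowers y) _

theorem commute_of_disjoint {S A B : Subgroup G} (hA : A ≤ S) (hB : B ≤ S)
    (hAn : ∀ s ∈ S, ∀ a ∈ A, s * a * s⁻¹ ∈ A) (hBn : ∀ s ∈ S, ∀ a ∈ B, s * a * s⁻¹ ∈ B)
    (hAB : A ⊓ B = ⊥) {a b : G} (ha : a ∈ A) (hb : b ∈ B) : a * b = b * a := by
  have h1 : a * b * a⁻¹ * b⁻¹ ∈ A ⊓ B := by
    refine ⟨?_, ?_⟩
    · have : a * b * a⁻¹ * b⁻¹ = a * (b * a⁻¹ * b⁻¹) := by group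
      rw [this]; exact A.mul_mem ha (hAn b (hB hb) _ (A.inv_mem ha))
    · exact B.mul_mem (hBn a (hA ha) _ hb) (B.inv_mem hb)
  rw [hAB, Subgroup.mem_bot] at h1
  have h2 : a * b * a⁻¹ = b := by
    have := mul_eq_one_iff_eq_inv.mp h1
    rwa [inv_inv] at this
  exact mul_inv_eq_iff_eq_mul.mp h2

theorem normal_of_dp {Q R S : Subgroup G} (h : Cfsg.IsInternalDirectProduct Q R S) :
    (∀ x, x ∈ S ↔ ∃ a ∈ Q, ∃ b ∈ R, a * b = x) ∧
    (∀ s ∈ S, ∀ a ∈ Q, s * a * s⁻¹ ∈ Q) ∧ (∀ s ∈ S, ∀ a ∈ R, s * a * s⁻¹ ∈ R) := by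
  obtain ⟨hQ, hR, hc, hd, hs⟩ := h
  have hn : Q ≤ Subgroup.normalizer (R : Set G) := by
    refine le_trans ?_ (Subgroup.centralizer_le_normalizer _)
    intro a ha
    rw [Subgroup.mem_centralizer_iff]
    intro b hb
    exact (hc a ha b hb).symm
  have hm : ∀ x, x ∈ S ↔ ∃ a ∈ Q, ∃ b ∈ R, a * b = x := by
    intro x
    rw [← hs]
    exact Cfsg.Agent.H2.Card.mem_sup_iff hn
  refine ⟨hm, ?_, ?_⟩
  · intro s hs' a ha
    obtain ⟨q, hq, r, hr, rfl⟩ := (hm s).mp hs'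
    have : q * r * a * (q * r)⁻¹ = q * a * q⁻¹ := by
      calc q * r * a * (q * r)⁻¹ = q * (r * a) * r⁻¹ * q⁻¹ := by group
        _ = q * (a * r) * r⁻¹ * q⁻¹ := by rw [hc a ha r hr]
        _ = _ := by group
    rw [this]
    exact Q.mul_mem (Q.mul_mem hq ha) (Q.inv_mem hq)
  · intro s hs' a ha
    obtain ⟨q, hq, r, hr, rfl⟩ := (hm s).mp hs'
    have : q * r * a * (q * r)⁻¹ = r * a * r⁻¹ := by
      calc q * r * a * (q * r)⁻¹ = q * (r * a * r⁻¹) * q⁻¹ := by group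
        _ = (r * a * r⁻¹) * q * q⁻¹ := by rw [hc q hq _ (R.mul_mem (R.mul_mem hr ha) (R.inv_mem hr))]
        _ = _ := by group
    rw [this]
    exact R.mul_mem (R.mul_mem hr ha) (R.inv_mem hr)

theorem key_pair {Q R Q' R' S : Subgroup G} (h : Cfsg.IsInternalDirectProduct Q R S)
    (h' : Cfsg.IsInternalDirectProduct Q' R' S) {n : ℕ} (hn : 1 ≤ n)
    (e : ↥Q ≃* QuaternionGroup (2 ^ n)) (e' : ↥Q' ≃* QuaternionGroup (2 ^ n)) {z x : G}
    (hz : z ∈ Q) (hz2 : orderOf z = 2) (hx : x ∈ Q') (hx2 : orderOf x = 2) :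
    x = z ∨ x ∈ R := by
  obtain ⟨hm, hQn, hRn⟩ := normal_of_dp h
  obtain ⟨hm', hQn', hRn'⟩ := normal_of_dp h'
  obtain ⟨w, hwQ, hw2, hwu, -, -⟩ := quat_facts Q hn e
  obtain ⟨w', hwQ', hw2', hwu', ⟨u, hu, v, hv, huv⟩, hwz'⟩ := quat_facts Q' hn e'
  have hzw : z = w := by
    rcases hwu z hz (Cfsg.Agent.H4.Inv.mul_self hz2) with h | h
    · exact absurd h (Cfsg.Agent.H4.Inv.ne_one hz2)
    · exact h
  have hxw : x = w' := by
    rcases hwu' x hx (Cfsg.Agent.H4.Inv.mul_self hx2) with h | h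
    · exact absurd h (Cfsg.Agent.H4.Inv.ne_one hx2)
    · exact h
  subst hzw hxw
  by_cases hxR : x ∈ R
  · exact Or.inr hxR
  left
  have hdis : Q' ⊓ R = ⊥ := by
    rw [eq_bot_iff]
    rintro y ⟨hy1, hy2⟩
    rw [Subgroup.mem_bot]
    by_contra hne
    have := hwz' y hy1 hne
    exact hxR ((Subgroup.zpowers_le.mpr hy2) this)
  have hcom : ∀ a ∈ Q', ∀ b ∈ R, a * b = b * a := fun a ha b hb =>
    commute_of_disjoint h'.1 h.2.1 hQn' hRn hdis ha hb
  obtain ⟨q1, hq1, r1, hr1, rfl⟩ := (hm u).mp (h'.1 hu)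
  obtain ⟨q2, hq2, r2, hr2, rfl⟩ := (hm v).mp (h'.1 hv)
  have hc1 : ∀ b ∈ R, r1 * b = b * r1 := by
    intro b hb
    have e1 := hcom _ hu b hb
    have e2 := h.2.2.1 q1 hq1 b hb
    have e3 : q1 * (r1 * b) = q1 * (b * r1) := by
      calc q1 * (r1 * b) = q1 * r1 * b := by group
        _ = b * (q1 * r1) := e1
        _ = (q1 * b) * r1 := by rw [e2]; group
        _ = _ := by group
    exact mul_left_cancel e3
  have hc2 : ∀ b ∈ Q, r1 * b = b * r1 := fun b hb => (h.2.2.1 b hb r1 hr1).symm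
  have hc3 : ∀ b ∈ Q, r2 * b = b * r2 := fun b hb => (h.2.2.1 b hb r2 hr2).symm
  have hxQ : x ∈ Q := by
    have : x = q1 * q2 * q1⁻¹ * q2⁻¹ := by
      rw [huv]
      have c1 : r1 * q2 = q2 * r1 := hc2 q2 hq2
      have c2 : r1 * r2 = r2 * r1 := hc1 r2 hr2
      have c3 : r2 * q1⁻¹ = q1⁻¹ * r2 := hc3 _ (Q.inv_mem hq1)
      have c4 : r2 * q1 = q1 * r2 := hc3 _ hq1
      calc q1 * r1 * (q2 * r2) * (q1 * r1)⁻¹ * (q2 * r2)⁻¹
          = q1 * (r1 * q2) * r2 * r1⁻¹ * q1⁻¹ * r2⁻¹ * q2⁻¹ := by group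
        _ = q1 * q2 * (r1 * r2) * r1⁻¹ * q1⁻¹ * r2⁻¹ * q2⁻¹ := by rw [c1]; group
        _ = q1 * q2 * (r2 * q1⁻¹) * r2⁻¹ * q2⁻¹ := by rw [c2]; group
        _ = _ := by rw [c3]; group
    rw [this]
    exact Q.mul_mem (Q.mul_mem (Q.mul_mem hq1 hq2) (Q.inv_mem hq1)) (Q.inv_mem hq2)
  rcases hwu x hxQ (Cfsg.Agent.H4.Inv.mul_self hx2) with h | h
  · exact absurd h (Cfsg.Agent.H4.Inv.ne_one hx2)
  · exact h


theorem dp_conj {Q R S : Subgroup G} (h : Cfsg.IsInternalDirectProduct Q R S) (n : G)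
    (hn : S.map (MulAut.conj n).toMonoidHom = S) :
    Cfsg.IsInternalDirectProduct (Q.map (MulAut.conj n).toMonoidHom) (R.map (MulAut.conj n).toMonoidHom) S := by
  obtain ⟨hQ, hR, hc, hd, hs⟩ := h
  refine ⟨?_, ?_, ?_, ?_, ?_⟩
  · conv_rhs => rw [← hn]
    exact Subgroup.map_mono hQ
  · conv_rhs => rw [← hn]
    exact Subgroup.map_mono hR
  · rintro _ ⟨a, ha, rfl⟩ _ ⟨b, hb, rfl⟩
    rw [← map_mul, ← map_mul, hc a ha b hb]
  · rw [← Subgroup.map_inf _ _ _ (MulAut.conj n).injective, hd, Subgroup.map_bot]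
  · rw [← Subgroup.map_sup, hs, hn]

end

/-- Let G be a finite group whose Sylow 2-subgroup S is an internal direct product Q × R with Q generalized quaternion (of order at least 8) and R a subgroup all of whose involutions are central in R. Then G is not simple. In particular no finite simple group has a Sylow 2-subgroup that is a direct product of one or more generalized quaternion groups. -/
theorem result {G : Type*} [Group G] [Finite G]
    (S : Sylow 2 G) (Q R : Subgroup G) (hQR : Cfsg.IsInternalDirectProduct Q R (S : Subgroup G))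
    (n : ℕ) (hn : 1 ≤ n) (eQ : ↥Q ≃* QuaternionGroup (2 ^ n))
    (hR : ∀ r ∈ R, orderOf r = 2 → ∀ s ∈ R, r * s = s * r) :
    ¬ IsSimpleGroup G := by
  intro hs
  have hf : Fact (Nat.Prime 2) := ⟨Nat.prime_two⟩
  obtain ⟨hm, hQn, hRn⟩ := normal_of_dp hQR
  obtain ⟨z, hzQ, hz2, hzu, ⟨u, hu, v, hv, huv⟩, -⟩ := quat_facts Q hn eQ
  have hzc : ∀ y ∈ Q, z * y = y * z := by
    intro y hy
    have h1 : y * z * y⁻¹ ∈ Q := Q.mul_mem (Q.mul_mem hy hzQ) (Q.inv_mem hy)
    have h2 : y * z * y⁻¹ * (y * z * y⁻¹) = 1 := by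
      calc y * z * y⁻¹ * (y * z * y⁻¹) = y * (z * z) * y⁻¹ := by group
        _ = 1 := by rw [Cfsg.Agent.H4.Inv.mul_self hz2]; group
    rcases hzu _ h1 h2 with h | h
    · exfalso
      have : z = 1 := by
        calc z = y⁻¹ * (y * z * y⁻¹) * y := by group
          _ = 1 := by rw [h]; group
      exact Cfsg.Agent.H4.Inv.ne_one hz2 this
    · exact (mul_inv_eq_iff_eq_mul.mp h).symm
  have hcen : ∀ x ∈ (S : Subgroup G), x * x = 1 → ∀ s ∈ (S : Subgroup G), x * s = s * x := by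
    intro x hx hxx s hs'
    obtain ⟨q, hq, r, hr, rfl⟩ := (hm x).mp hx
    obtain ⟨q', hq', r', hr', rfl⟩ := (hm s).mp hs'
    have hqr := hQR.2.2.1
    have e1 : (q * q) * (r * r) = 1 := by
      calc (q * q) * (r * r) = q * (q * r) * r := by group
        _ = q * (r * q) * r := by rw [hqr q hq r hr]
        _ = 1 := by rw [← hxx]; group
    have e2 : q * q = (r * r)⁻¹ := mul_eq_one_iff_eq_inv.mp e1
    have e3 : q * q ∈ Q ⊓ R := ⟨Q.mul_mem hq hq, by rw [e2]; exact R.inv_mem (R.mul_mem hr hr)⟩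
    rw [hQR.2.2.2.1, Subgroup.mem_bot] at e3
    have e4 : r * r = 1 := by rw [e3, one_mul] at e1; exact e1
    have c1 : q * q' = q' * q := by
      rcases hzu q hq e3 with h | h
      · rw [h, one_mul, mul_one]
      · rw [h]; exact hzc q' hq'
    have c2 : r * r' = r' * r := by
      by_cases h : r = 1
      · rw [h, one_mul, mul_one]
      · exact hR r hr (Cfsg.Agent.H4.Inv.orderOf_eq_two_of h e4) r' hr'
    calc q * r * (q' * r') = q * (r * q') * r' := by group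
      _ = (q * q') * (r * r') := by rw [← hqr q' hq' r hr]; group
      _ = q' * (q * r') * r := by rw [c1, c2]; group
      _ = q' * r' * (q * r) := by rw [hqr q hq r' hr']; group
  classical
  haveI := Fintype.ofFinite (Subgroup.center ↥(S : Subgroup G))
  letI : CommGroup (Subgroup.center ↥(S : Subgroup G)) :=
    { (inferInstance : Group (Subgroup.center ↥(S : Subgroup G))) with
      mul_comm := fun a b => Subtype.ext ((Subgroup.mem_center_iff.mp b.2) (a : (S : Subgroup G))) }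
  set P : G → Prop := fun x => ∃ Q' R' : Subgroup G, Cfsg.IsInternalDirectProduct Q' R' (S : Subgroup G) ∧
    Nonempty (↥Q' ≃* QuaternionGroup (2 ^ n)) ∧ x ∈ Q' ∧ orderOf x = 2 with hP
  have hPconj : ∀ m ∈ Subgroup.normalizer ((S : Subgroup G) : Set G), ∀ x, P x → P (m * x * m⁻¹) := by
    rintro m hmn x ⟨Q', R', h1, ⟨e⟩, h3, h4⟩
    refine ⟨Q'.map (MulAut.conj m).toMonoidHom, R'.map (MulAut.conj m).toMonoidHom,
      dp_conj h1 m (Cfsg.Agent.H4.Util.mem_normalizer_iff_map.mp hmn), ⟨?_⟩, ⟨x, h3, by simp⟩, ?_⟩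
    · exact (Subgroup.equivMapOfInjective Q' _ (MulAut.conj m).injective).symm.trans e
    · rw [Cfsg.Agent.H4.Inv.orderOf_conj]; exact h4
  let X : Finset (Subgroup.center ↥(S : Subgroup G)) :=
    Finset.univ.filter (fun x => P ((x : (S : Subgroup G)) : G))
  let w : Subgroup.center ↥(S : Subgroup G) := ∏ x ∈ X, x
  have hzS : z ∈ (S : Subgroup G) := hQR.1 hzQ
  have hzZ : (⟨z, hzS⟩ : (S : Subgroup G)) ∈ Subgroup.center ↥(S : Subgroup G) := by
    rw [Subgroup.mem_center_iff]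
    intro s
    exact Subtype.ext (hcen z hzS (Cfsg.Agent.H4.Inv.mul_self hz2) s s.2).symm
  let z' : Subgroup.center ↥(S : Subgroup G) := ⟨⟨z, hzS⟩, hzZ⟩
  have hz'X : z' ∈ X := by
    rw [Finset.mem_filter]
    exact ⟨Finset.mem_univ _, Q, R, hQR, ⟨eQ⟩, hzQ, hz2⟩
  let K : Subgroup (Subgroup.center ↥(S : Subgroup G)) :=
    (R.subgroupOf (S : Subgroup G)).subgroupOf (Subgroup.center ↥(S : Subgroup G))
  have hK : ∀ x, x ∈ K ↔ (((x : (S : Subgroup G)) : G)) ∈ R := fun x => Iff.rfl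
  have hw : w = z' * ∏ x ∈ X.erase z', x := (Finset.mul_prod_erase X (fun x => x) hz'X).symm
  have hprod : ∏ x ∈ X.erase z', x ∈ K := by
    apply Subgroup.prod_mem
    intro x hx
    rw [Finset.mem_erase, Finset.mem_filter] at hx
    obtain ⟨hne, -, Q', R', h1, ⟨e⟩, h3, h4⟩ := hx
    rw [hK]
    rcases key_pair hQR h1 hn eQ e hzQ hz2 h3 h4 with h | h
    · exact absurd (Subtype.ext (Subtype.ext h)) hne
    · exact h
  have hw1 : w ≠ 1 := by
    intro h
    rw [hw, mul_eq_one_iff_eq_inv] at h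
    have h1 : z' ∈ K := by rw [h]; exact K.inv_mem hprod
    have h2 : z ∈ Q ⊓ R := ⟨hzQ, (hK z').mp h1⟩
    rw [hQR.2.2.2.1, Subgroup.mem_bot] at h2
    exact Cfsg.Agent.H4.Inv.ne_one hz2 h2
  have hww : w * w = 1 := by
    have : w * w = ∏ x ∈ X, (x * x) := (Finset.prod_mul_distrib (s := X) (f := fun x => x) (g := fun x => x)).symm
    rw [this]
    apply Finset.prod_eq_one
    intro x hx
    rw [Finset.mem_filter] at hx
    obtain ⟨-, Q', R', h1, ⟨e⟩, h3, h4⟩ := hx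
    exact Subtype.ext (Subtype.ext (Cfsg.Agent.H4.Inv.mul_self h4))
  have hfix : ∀ m ∈ Subgroup.normalizer ((S : Subgroup G) : Set G),
      m * ((w : (S : Subgroup G)) : G) * m⁻¹ = ((w : (S : Subgroup G)) : G) := by
    intro m hmn
    have hmap : ∀ x : (S : Subgroup G), m * (x : G) * m⁻¹ ∈ (S : Subgroup G) := fun x =>
      (Subgroup.mem_normalizer_iff.mp hmn x).mp x.2
    let φ : ↥(S : Subgroup G) ≃* ↥(S : Subgroup G) :=
      { toFun := fun x => ⟨m * x * m⁻¹, hmap x⟩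
        invFun := fun x => ⟨m⁻¹ * x * m, by
          have h1 := (Subgroup.mem_normalizer_iff.mp ((Subgroup.normalizer _).inv_mem hmn) (x : G)).mp x.2
          simpa using h1⟩
        left_inv := fun x => Subtype.ext (by simp [mul_assoc])
        right_inv := fun x => Subtype.ext (by simp [mul_assoc])
        map_mul' := fun x y => Subtype.ext (by simp [mul_assoc]) }
    let ψ := Subgroup.centerCongr φ
    have h1 : ψ w = w := by
      change ψ (∏ x ∈ X, x) = ∏ x ∈ X, x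
      rw [map_prod]
      refine Finset.prod_equiv ψ.toEquiv ?_ ?_
      · intro x
        rw [Finset.mem_filter, Finset.mem_filter]
        constructor
        · rintro ⟨-, h⟩
          exact ⟨Finset.mem_univ _, hPconj m hmn _ h⟩
        · rintro ⟨-, h⟩
          refine ⟨Finset.mem_univ _, ?_⟩
          have h2 : P (m * ((x : (S : Subgroup G)) : G) * m⁻¹) := h
          have h3 := hPconj m⁻¹ ((Subgroup.normalizer _).inv_mem hmn) _ h2
          have e : m⁻¹ * (m * ((x : (S : Subgroup G)) : G) * m⁻¹) * m⁻¹⁻¹ = ((x : (S : Subgroup G)) : G) := by group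
          rwa [e] at h3
      · intro x _; rfl
    exact congrArg (fun x : Subgroup.center ↥(S : Subgroup G) => ((x : (S : Subgroup G)) : G)) h1
  have hwG1 : ((w : (S : Subgroup G)) : G) ≠ 1 := by
    intro h
    exact hw1 (Subtype.ext (Subtype.ext h))
  have hwG2 : orderOf ((w : (S : Subgroup G)) : G) = 2 := by
    apply Cfsg.Agent.H4.Inv.orderOf_eq_two_of hwG1
    exact congrArg (fun x : Subgroup.center ↥(S : Subgroup G) => ((x : (S : Subgroup G)) : G)) hww
  have hwS : ((w : (S : Subgroup G)) : G) ∈ (S : Subgroup G) := (w : (S : Subgroup G)).2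
  have hiso : Cfsg.IsIsolatedInvolution ((w : (S : Subgroup G)) : G) := by
    rw [← Cfsg.Agent.H4.Iso.isolated_iff_sylow S hwG2 hwS]
    intro g hg
    have h1 : ((w : (S : Subgroup G)) : G) ∈ Subgroup.centralizer ((S : Subgroup G) : Set G) := by
      rw [Subgroup.mem_centralizer_iff]
      intro s hs'
      exact (hcen _ hwS (Cfsg.Agent.H4.Inv.mul_self hwG2) s hs').symm
    have h2 : (g⁻¹)⁻¹ * ((w : (S : Subgroup G)) : G) * g⁻¹ ∈ Subgroup.centralizer ((S : Subgroup G) : Set G) := by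
      rw [Subgroup.mem_centralizer_iff, inv_inv]
      intro s hs'
      refine (hcen _ hg ?_ s hs').symm
      exact Cfsg.Agent.H4.Inv.mul_self (by rw [Cfsg.Agent.H4.Inv.orderOf_conj]; exact hwG2)
    obtain ⟨m, hmn, hme⟩ := Sylow.conj_eq_normalizer_conj_of_mem_centralizer S _ g⁻¹ h1 h2
    rw [inv_inv] at hme
    rw [hme]
    have := hfix m⁻¹ ((Subgroup.normalizer _).inv_mem hmn)
    rwa [inv_inv] at this
  have hab := comm_of_simple hs hiso
  apply Cfsg.Agent.H4.Inv.ne_one hz2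
  rw [huv, hab u v]
  group

end Cfsg.Agent.S3269
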