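import Cfsg.Statements.S3278
import Mathlib
import Cfsg.Agent.H4_V4Fin

set_option autoImplicit false
open Cfsg

namespace Cfsg.Agent.S3278

open Cfsg.Agent.H4.Inv

/-- Let G be a finite simple group with an involution x such that a Sylow 2-subgroup of C_G(x) is a Klein four-group which is normal in C_G(x). Then G is isomorphic to the alternating group of degree 5 (that is, to PSL(2, 5)). -/
theorem result {G : Type*} [Group G] [Finite G] [IsSimpleGroup G] (x : G) (hx : orderOf x = 2)
    (S₀ : Subgroup G) (hle : S₀ ≤ Subgroup.centralizer ({x} : Set G)) (hK : IsKleinFour ↥S₀)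
    (hodd : ¬ 2 ∣ S₀.relIndex (Subgroup.centralizer ({x} : Set G))) (hn : (S₀.subgroupOf (Subgroup.centralizer ({x} : Set G))).Normal) :
    Nonempty (G ≃* ↥(alternatingGroup (Fin 5))) := by
  classical
  haveI := Fintype.ofFinite G
  obtain ⟨hxV, S, hS⟩ := Cfsg.Agent.H4.V4Fin.sylow_eq x hx S₀ hle hK hodd hn
  have hf : Fact (Nat.Prime 2) := ⟨Nat.prime_two⟩
  refine Cfsg.Agent.H4.V4Fin.finish S (by rw [hS]; exact hK) (x := x) (by rw [hS]; exact hxV) hx ?_
  intro c hc s hs
  have hK' : IsKleinFour (S : Subgroup G) := by rw [hS]; exact hK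
  refine Cfsg.Agent.H10.Homo.fix_of_fix S (Cfsg.Agent.H10.BlockV4.R2.of_klein hK') (g := c) (z := x) ?_
    (by rw [hS]; exact hxV) (ne_one hx) hc s hs
  rw [hS]
  apply Cfsg.Agent.H4.Util.mem_normalizer_of_forall
  intro y hy
  have hcC : c ∈ Subgroup.centralizer ({x} : Set G) := by
    rw [Subgroup.mem_centralizer_singleton_iff]; exact hc
  exact hn.conj_mem ⟨y, hle hy⟩ hy ⟨c, hcC⟩

end Cfsg.Agent.S3278
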