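import Cfsg.Statements.S3279
import Mathlib
import Cfsg.Agent.H19_Inv

set_option autoImplicit false
open Cfsg

namespace Cfsg.Agent.S3279

open Cfsg.Agent.H19.Inv

def Few {G : Type*} [Group G] (x : G) : Prop :=
  ∀ z : G, orderOf z = 2 → Commute z x → z ≠ x → ∀ d : G, orderOf d = 2 → Commute d x → d = x ∨ d = z ∨ d = x * z

theorem few_conj {G : Type*} [Group G] {x : G} (h : Few x) (g : G) : Few (g * x * g⁻¹) := by
  intro z hz hzx hne d hd hdx
  have e : ∀ w : G, g * (g⁻¹ * w * g) * g⁻¹ = w := by intro w; group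
  have hz' : orderOf (g⁻¹ * z * g) = 2 := by
    have := conj_orderOf g⁻¹ z; simp only [inv_inv] at this; rw [this, hz]
  have hd' : orderOf (g⁻¹ * d * g) = 2 := by
    have := conj_orderOf g⁻¹ d; simp only [inv_inv] at this; rw [this, hd]
  have hzx' : Commute (g⁻¹ * z * g) x := by
    rw [← commute_conj_iff g, e]; exact hzx
  have hdx' : Commute (g⁻¹ * d * g) x := by
    rw [← commute_conj_iff g, e]; exact hdx
  have hne' : g⁻¹ * z * g ≠ x := by
    intro h1; apply hne; rw [← h1, e]
  rcases h _ hz' hzx' hne' _ hd' hdx' with h1 | h1 | h1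
  · left; rw [← h1, e]
  · right; left
    have : d = g * (g⁻¹ * d * g) * g⁻¹ := (e d).symm
    rw [this, h1, e]
  · right; right
    have : d = g * (g⁻¹ * d * g) * g⁻¹ := (e d).symm
    rw [this, h1]; group

theorem few_of_card {G : Type*} [Group G] [Finite G] (x : G) (hx : orderOf x = 2)
    (h3 : Nat.card {u : ↥(Subgroup.centralizer ({x} : Set G)) // orderOf u = 2} ≤ 3) : Few x := by
  intro z hz hzx hne d hd hdx
  by_contra hcon
  push Not at hcon
  obtain ⟨h1, h2, h4⟩ := hcon
  have mem : ∀ w : G, Commute w x → w ∈ Subgroup.centralizer ({x} : Set G) := by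
    intro w hw
    rw [Subgroup.mem_centralizer_singleton_iff]
    exact hw.eq
  have hxz : orderOf (x * z) = 2 := inv_mul hx hz hzx.symm (Ne.symm hne)
  have hxzx : Commute (x * z) x := (Commute.refl x).mul_left hzx
  let mk : (w : G) → Commute w x → orderOf w = 2 → 
      {u : ↥(Subgroup.centralizer ({x} : Set G)) // orderOf u = 2} := fun w hw hw2 =>
    ⟨⟨w, mem w hw⟩, by rw [← Subgroup.orderOf_coe]; exact hw2⟩
  let f : Fin 4 → {u : ↥(Subgroup.centralizer ({x} : Set G)) // orderOf u = 2} :=
    ![mk x (Commute.refl x) hx, mk z hzx hz, mk (x * z) hxzx hxz, mk d hdx hd]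
  have hxne : x ≠ 1 := (inv_iff.1 hx).2
  have hzne : z ≠ 1 := (inv_iff.1 hz).2
  have hf : Function.Injective f := by
    intro i j hij
    have hij' : (((f i).1 : ↥(Subgroup.centralizer ({x} : Set G))) : G) = (f j).1 := by rw [hij]
    fin_cases i <;> fin_cases j <;> simp [f, mk] at hij' ⊢ <;> first
      | exact hne hij' | exact hne hij'.symm | exact h1 hij' | exact h1 hij'.symm 
      | exact h2 hij' | exact h2 hij'.symm | exact h4 hij' | exact h4 hij'.symm 
      | exact hzne hij' | exact hxne hij'
  have := Nat.card_le_card_of_injective f hf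
  simp at this
  omega

/-- Case xy conjugate to x, y not: the class of y is a commuting set. -/
theorem class_commutes {G : Type*} [Group G] [Finite G] {x y : G} (hx : orderOf x = 2) (hy : orderOf y = 2)
    (hxy : Commute y x) (hnc : ¬ IsConj x y) (hc : IsConj x (x * y)) (hfew : Few x) :
    ∀ b b' : G, IsConj y b → IsConj y b' → Commute b b' := by
  intro b b' hb hb'
  obtain ⟨g, rfl⟩ := isConj_iff.1 hb'
  set a := g * x * g⁻¹ with ha
  set z := g * y * g⁻¹ with hz
  have hfa : Few a := few_conj hfew g
  have hfxy : Few (a * z) := by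
    obtain ⟨h, hh⟩ := isConj_iff.1 hc
    have : a * z = (g * h) * x * (g * h)⁻¹ := by
      calc a * z = g * (x * y) * g⁻¹ := by rw [ha, hz]; group
        _ = g * (h * x * h⁻¹) * g⁻¹ := by rw [hh]
        _ = _ := by group
    rw [this]; exact few_conj hfew _
  have hao : orderOf a = 2 := by rw [ha, conj_orderOf, hx]
  have hzo : orderOf z = 2 := by rw [hz, conj_orderOf, hy]
  have hbo : orderOf b = 2 := by rw [← isConj_orderOf hb, hy]
  have hza : Commute z a := commute_conj g hxy
  have hax : IsConj x a := isConj_iff.2 ⟨g, rfl⟩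
  have hyz : IsConj y z := isConj_iff.2 ⟨g, rfl⟩
  have hzne : z ≠ a := by
    intro h; exact hnc (hax.trans (h ▸ hyz.symm))
  have hbna : b ≠ a := by
    intro h; exact hnc (hax.trans (h ▸ hb.symm))
  have hazx : IsConj x (a * z) := by
    refine hc.trans (isConj_iff.2 ⟨g, ?_⟩)
    rw [ha, hz]; group
  have hbnaz : b ≠ a * z := by
    intro h; exact hnc (hazx.trans (h ▸ hb.symm))
  have hab : ¬ IsConj a b := fun h => hnc (hax.trans (h.trans hb.symm))
  obtain ⟨c, hc2, hca, hcb, hcne, -⟩ := exists_common hao hbo hab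
  rcases hfa z hzo hza hzne c hc2 hca with h | h | h
  · exact absurd h hcne
  · rw [h] at hcb; exact hcb.symm
  · -- c = a * z, b commutes with it
    rw [h] at hcb
    have hazo : orderOf (a * z) = 2 := by rw [← h]; exact hc2
    have h1 : Commute z (a * z) := hza.mul_right (Commute.refl z)
    have h2 : z ≠ a * z := by
      intro h3
      have : a = 1 := by simpa using h3
      exact (inv_iff.1 hao).2 this
    rcases hfxy z hzo h1 h2 b hbo hcb.symm with h3 | h3 | h3
    · exact absurd h3 hbnaz
    · rw [h3]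
    · exfalso; apply hbna
      rw [h3, mul_assoc, (inv_iff.1 hzo).1, mul_one]

/-- If the class of y commutes pairwise and G is simple, G is commutative -/
theorem comm_of_class {G : Type*} [Group G] [Finite G] [IsSimpleGroup G] {y : G} (hy : orderOf y = 2)
    (h : ∀ b b' : G, IsConj y b → IsConj y b' → Commute b b') : ∀ a b : G, Commute a b := by
  have h1 : Subgroup.normalClosure ({y} : Set G) = ⊤ := by
    rcases (inferInstance : (Subgroup.normalClosure ({y} : Set G)).Normal).eq_bot_or_eq_top with h2 | h2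
    · exfalso
      have : y ∈ Subgroup.normalClosure ({y} : Set G) := Subgroup.subset_normalClosure (Set.mem_singleton y)
      rw [h2, Subgroup.mem_bot] at this
      exact (inv_iff.1 hy).2 this
    · exact h2
  have key : ∀ a b : G, Commute a b := by
    intro a b
    have ha : a ∈ Subgroup.closure (Group.conjugatesOfSet ({y} : Set G)) := by
      have : a ∈ Subgroup.normalClosure ({y} : Set G) := by rw [h1]; trivial
      exact this
    have hb : b ∈ Subgroup.closure (Group.conjugatesOfSet ({y} : Set G)) := by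
      have : b ∈ Subgroup.normalClosure ({y} : Set G) := by rw [h1]; trivial
      exact this
    have mem : ∀ u ∈ Group.conjugatesOfSet ({y} : Set G), IsConj y u := by
      intro u hu
      rw [Group.mem_conjugatesOfSet_iff] at hu
      obtain ⟨w, hw, hwu⟩ := hu
      rw [Set.mem_singleton_iff] at hw
      rw [← hw]; exact hwu
    have := Subgroup.closure_induction₂ (p := fun u v _ _ => Commute u v) 
      (fun u v hu hv => h u v (mem u hu) (mem v hv))
      (fun u _ => Commute.one_left u) (fun u _ => Commute.one_right u)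
      (fun u v w _ _ _ h1 h2 => h1.mul_left h2) (fun u v w _ _ _ h1 h2 => h1.mul_right h2)
      (fun u v _ _ h1 => h1.inv_left) (fun u v _ _ h1 => h1.inv_right) ha hb
    exact this
  exact key

/-- In a commutative simple group conjugacy is equality and all involutions agree -/
theorem inv_unique_of_comm {G : Type*} [Group G] [Finite G] [IsSimpleGroup G] (h : ∀ a b : G, Commute a b)
    {x y : G} (hx : orderOf x = 2) (hy : orderOf y = 2) : x = y := by
  have hn : (Subgroup.zpowers x).Normal := by
    constructor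
    intro n hn g
    have : g * n * g⁻¹ = n := by rw [(h g n).eq]; group
    rw [this]; exact hn
  rcases hn.eq_bot_or_eq_top with h2 | h2
  · exfalso
    have : x ∈ Subgroup.zpowers x := Subgroup.mem_zpowers x
    rw [h2, Subgroup.mem_bot] at this
    exact (inv_iff.1 hx).2 this
  · have hyx : y ∈ Subgroup.zpowers x := by rw [h2]; trivial
    obtain ⟨k, hk⟩ := hyx
    have hk : x ^ k = y := hk
    rcases Int.even_or_odd k with ⟨l, hl⟩ | ⟨l, hl⟩
    · exfalso
      have : y = 1 := by
        rw [← hk, hl, ← two_mul, zpow_mul]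
        have : x ^ (2 : ℤ) = 1 := by
          have := pow_orderOf_eq_one x
          rw [hx] at this; exact_mod_cast this
        rw [this, one_zpow]
      exact (inv_iff.1 hy).2 this
    · rw [← hk, hl, zpow_add, zpow_mul]
      have : x ^ (2 : ℤ) = 1 := by
        have := pow_orderOf_eq_one x
        rw [hx] at this; exact_mod_cast this
      rw [this, one_zpow]; simp

section caseB

variable {G : Type*} [Group G] [Finite G] {x y : G} 

omit [Finite G] in
theorem onlyX (hx : orderOf x = 2) (hy : orderOf y = 2) (hxy : Commute y x) (hnc : ¬ IsConj x y) (hnc2 : ¬ IsConj x (x * y))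
    (hfew : Few x) {x' w : G} (hx' : IsConj x x') (hw : IsConj x w) (hc : Commute w x') : w = x' := by
  obtain ⟨g, rfl⟩ := isConj_iff.1 hx'
  have hf := few_conj hfew g
  have hwo : orderOf w = 2 := by rw [← isConj_orderOf hw, hx]
  have hyo : orderOf (g * y * g⁻¹) = 2 := by rw [conj_orderOf, hy]
  have hne : g * y * g⁻¹ ≠ g * x * g⁻¹ := by
    intro h
    apply hnc
    have : y = x := by simpa using h
    rw [this]
  rcases hf _ hyo (commute_conj g hxy) hne w hwo hc with h | h | h
  · exact h
  · exfalso; apply hnc; rw [h] at hw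
    exact hw.trans (isConj_iff.2 ⟨g, rfl⟩ : IsConj y (g * y * g⁻¹)).symm
  · exfalso; apply hnc2; rw [h] at hw
    exact hw.trans (isConj_iff.2 ⟨g, by group⟩ : IsConj (x * y) (g * x * g⁻¹ * (g * y * g⁻¹))).symm

theorem keyB (hx : orderOf x = 2) (hy : orderOf y = 2) (hxy : Commute y x) (hnc : ¬ IsConj x y) (hnc2 : ¬ IsConj x (x * y))
    (hfew : Few x) {x' u y' : G} (hx' : IsConj x x') (hu : IsConj y u) (hux : Commute u x') (hy' : IsConj y y') :
    ∃ c : G, (c = u ∨ c = x' * u) ∧ Commute c y' ∧ IsConj y (x' * c) := by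
  have hx'o : orderOf x' = 2 := by rw [← isConj_orderOf hx', hx]
  have hy'o : orderOf y' = 2 := by rw [← isConj_orderOf hy', hy]
  have huo : orderOf u = 2 := by rw [← isConj_orderOf hu, hy]
  have hux' : u ≠ x' := by
    intro h; apply hnc; exact hx'.trans (h ▸ hu.symm)
  have hn : ¬ IsConj x' y' := fun h => hnc (hx'.trans (h.trans hy'.symm))
  obtain ⟨c, hc2, hca, hcb, hcne, hor⟩ := exists_common hx'o hy'o hn
  have hf : Few x' := by
    obtain ⟨g, rfl⟩ := isConj_iff.1 hx'
    exact few_conj hfew g
  have hc3 : IsConj y (x' * c) := by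
    rcases hor with h | h
    · exfalso
      have h1 : IsConj x (x' * c) := hx'.trans h
      have h2 : x' * c = x' := onlyX hx hy hxy hnc hnc2 hfew hx' h1 ((Commute.refl x').mul_left hca)
      have : c = 1 := by simpa using h2
      exact (inv_iff.1 hc2).2 this
    · exact hy'.trans h
  refine ⟨c, ?_, hcb, hc3⟩
  rcases hf u huo hux hux' c hc2 hca with h | h | h
  · exact absurd h hcne
  · exact Or.inl h
  · exact Or.inr h

end caseB

/-- Two commuting distinct elements of Y = y^G multiply into X, when x is 2-central. -/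
theorem prodInX {G : Type*} [Group G] [Finite G] {x y : G} (hy : orderOf y = 2)
    (hnc : ¬ IsConj x y) (hfew : Few x) (S : Sylow 2 G) (hS : (S : Subgroup G) ≤ Subgroup.centralizer ({x} : Set G))
    {a b : G} (ha : IsConj y a) (hb : IsConj y b) (hab : Commute a b) (hne : a ≠ b) :
    ∃ x' : G, IsConj x x' ∧ a * b = x' ∧ Commute a x' ∧ Commute b x' := by
  have hao : orderOf a = 2 := by rw [← isConj_orderOf ha, hy]
  have hbo : orderOf b = 2 := by rw [← isConj_orderOf hb, hy]
  have hp : ∀ w : G, orderOf w = 2 → IsPGroup 2 (Subgroup.zpowers w) := by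
    intro w hw
    rw [IsPGroup.iff_card]
    exact ⟨1, by rw [Nat.card_zpowers, hw, pow_one]⟩
  have hH : IsPGroup 2 (Subgroup.zpowers a ⊔ Subgroup.zpowers b : Subgroup G) := by
    refine IsPGroup.to_sup_of_normal_right' (hp a hao) (hp b hbo) ?_
    rw [Subgroup.zpowers_le, Subgroup.mem_normalizer_iff]
    intro h
    have hc : ∀ w ∈ Subgroup.zpowers b, Commute a w := by
      rintro w ⟨k, rfl⟩
      exact hab.zpow_right k
    constructor
    · intro hh
      have : a * h * a⁻¹ = h := by rw [(hc h hh).eq]; group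
      rw [this]; exact hh
    · intro hh
      have h1 := hc _ hh
      have : a * h * a⁻¹ = h := by
        have h2 : a * (a * h * a⁻¹) = (a * h * a⁻¹) * a := h1.eq
        have h3 : a * (a * h * a⁻¹) = a * h := by rw [h2]; group
        exact mul_left_cancel h3
      rw [this] at hh; exact hh
  obtain ⟨Q, hQ⟩ := hH.exists_le_sylow
  obtain ⟨g, hg⟩ := MulAction.exists_smul_eq G S Q
  have hQc : ∀ w ∈ (Q : Subgroup G), Commute w (g * x * g⁻¹) := by
    intro w hw
    rw [← hg, Sylow.coe_subgroup_smul, Subgroup.mem_pointwise_smul_iff_inv_smul_mem] at hw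
    have h1 := hS hw
    rw [Subgroup.mem_centralizer_singleton_iff] at h1
    have h2 : (MulAut.conj g)⁻¹ • w = g⁻¹ * w * g := by
      simp [MulAut.smul_def]
    rw [h2] at h1
    have h3 : Commute (g⁻¹ * w * g) x := h1
    have := commute_conj g h3
    have e : g * (g⁻¹ * w * g) * g⁻¹ = w := by group
    rwa [e] at this
  have hac : Commute a (g * x * g⁻¹) := hQc a (hQ (Subgroup.mem_sup_left (Subgroup.mem_zpowers a)))
  have hbc : Commute b (g * x * g⁻¹) := hQc b (hQ (Subgroup.mem_sup_right (Subgroup.mem_zpowers b)))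
  have hX : IsConj x (g * x * g⁻¹) := isConj_iff.2 ⟨g, rfl⟩
  have hf := few_conj hfew g
  refine ⟨g * x * g⁻¹, hX, ?_, hac, hbc⟩
  have hane : a ≠ g * x * g⁻¹ := by
    intro h; apply hnc; rw [h] at ha; exact hX.trans ha.symm
  have hbne : b ≠ g * x * g⁻¹ := by
    intro h; apply hnc; rw [h] at hb; exact hX.trans hb.symm
  rcases hf a hao hac hane b hbo hbc with h | h | h
  · exact absurd h hbne
  · exact absurd h.symm hne
  · rw [h, ← mul_assoc, hac.eq, mul_assoc, (inv_iff.1 hao).1, mul_one]

section caseB2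

variable {G : Type*} [Group G] [Finite G] {x y : G} 

theorem noTriangle (hy : orderOf y = 2)
    (hnc : ¬ IsConj x y) (hfew : Few x) (S : Sylow 2 G) (hS : (S : Subgroup G) ≤ Subgroup.centralizer ({x} : Set G))
    {a b c : G} (ha : IsConj y a) (hb : IsConj y b) (hc : IsConj y c) (hab : Commute a b) (hac : Commute a c)
    (hbc : Commute b c) (h1 : a ≠ b) (h2 : a ≠ c) (h3 : b ≠ c) : False := by
  have hao : orderOf a = 2 := by rw [← isConj_orderOf ha, hy]
  have hco : orderOf c = 2 := by rw [← isConj_orderOf hc, hy]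
  obtain ⟨x', hx', hprod, hax, hbx⟩ := prodInX hy hnc hfew S hS ha hb hab h1
  have hf : Few x' := by
    obtain ⟨g, rfl⟩ := isConj_iff.1 hx'
    exact few_conj hfew g
  have hane : a ≠ x' := by
    intro h; apply hnc; rw [h] at ha; exact hx'.trans ha.symm
  have hcne : c ≠ x' := by
    intro h; apply hnc; rw [h] at hc; exact hx'.trans hc.symm
  have hcx : Commute c x' := by rw [← hprod]; exact (hac.symm).mul_right hbc.symm
  rcases hf a hao hax hane c hco hcx with h | h | h
  · exact hcne h
  · exact h2 h.symm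
  · apply h3
    rw [h, ← hprod, hab.eq, mul_assoc, (inv_iff.1 hao).1, mul_one]

end caseB2

theorem prop_aux {p q r s : Prop} (h : r ↔ s) (h1 : (p ↔ r) ↔ (q ↔ s)) : p ↔ q := by
  tauto

theorem caseB2 {G : Type*} [Group G] [Finite G] [IsSimpleGroup G] {x y : G} (hx : orderOf x = 2) (hy : orderOf y = 2) (hxy : Commute y x)
    (hnc : ¬ IsConj x y) (hnc2 : ¬ IsConj x (x * y)) (hc : IsConj y (x * y)) (hfew : Few x) (S : Sylow 2 G)
    (hS : (S : Subgroup G) ≤ Subgroup.centralizer ({x} : Set G)) : False := by
  classical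
  have tri := fun {a b c : G} (ha : IsConj y a) (hb : IsConj y b) (hc : IsConj y c) (hab : Commute a b) (hac : Commute a c)
    (hbc : Commute b c) (h1 : a ≠ b) (h2 : a ≠ c) (h3 : b ≠ c) =>
    noTriangle hy hnc hfew S hS ha hb hc hab hac hbc h1 h2 h3
  have hyy : IsConj y y := IsConj.refl y
  set v := x * y with hv
  have hvy : Commute y v := hxy.mul_right (Commute.refl y)
  have hxne : x ≠ 1 := (inv_iff.1 hx).2
  have hvne : y ≠ v := by
    intro h
    have : x = 1 := by rw [hv] at h; simpa using h
    exact hxne this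
  -- F1
  have F1 : ∀ a w : G, IsConj y a → IsConj y w → ∃ a' : G, IsConj y a' ∧ Commute a a' ∧ a ≠ a' ∧ (Commute w a ∨ Commute w a') := by
    intro a w ha hw
    obtain ⟨g, rfl⟩ := isConj_iff.1 ha
    have hX : IsConj x (g * x * g⁻¹) := isConj_iff.2 ⟨g, rfl⟩
    have hcc : Commute (g * y * g⁻¹) (g * x * g⁻¹) := commute_conj g hxy
    obtain ⟨c, h1, h2, h3⟩ := keyB hx hy hxy hnc hnc2 hfew hX ha hcc hw
    refine ⟨(g * x * g⁻¹) * (g * y * g⁻¹), ?_, ?_, ?_, ?_⟩
    · exact hc.trans (isConj_iff.2 ⟨g, by rw [hv]; group⟩)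
    · exact hcc.mul_right (Commute.refl _)
    · intro h
      have : g * x * g⁻¹ = 1 := by
        have := h.symm
        rwa [mul_eq_right] at this
      have : x = 1 := by simpa using this
      exact hxne this
    · rcases h1 with h | h
      · left; rw [h] at h2; exact h2.symm
      · right; rw [h] at h2; exact h2.symm
  have F1' : ∀ w : G, IsConj y w → Commute w y ∨ Commute w v := by
    intro w hw
    obtain ⟨c, h1, h2, h3⟩ := keyB hx hy hxy hnc hnc2 hfew (IsConj.refl x) hyy hxy hw
    rcases h1 with h | h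
    · left; rw [h] at h2; exact h2.symm
    · right; rw [h] at h2; exact h2.symm
  let A : G → Prop := fun w => Commute w v ∧ w ≠ v
  let B : G → Prop := fun w => Commute w y ∧ w ≠ y
  have D1 : ∀ w, IsConj y w → A w ∨ B w := by
    intro w hw
    by_cases h1 : w = y
    · left; rw [h1]; exact ⟨hvy, hvne⟩
    by_cases h2 : w = v
    · right; rw [h2]; exact ⟨hvy.symm, hvne.symm⟩
    rcases F1' w hw with h | h
    · right; exact ⟨h, h1⟩
    · left; exact ⟨h, h2⟩
  have D2 : ∀ w, IsConj y w → A w → B w → False := by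
    intro w hw hA hB
    exact tri hw hyy hc hB.1 hA.1 hvy hB.2 hA.2 hvne
  have D3A : ∀ w w', IsConj y w → IsConj y w' → A w → A w' → Commute w w' → w = w' := by
    intro w w' hw hw' hA hA' hcm
    by_contra hne
    exact tri hw hw' hc hcm hA.1 hA'.1 hne hA.2 hA'.2
  have D3B : ∀ w w', IsConj y w → IsConj y w' → B w → B w' → Commute w w' → w = w' := by
    intro w w' hw hw' hA hA' hcm
    by_contra hne
    exact tri hw hw' hyy hcm hA.1 hA'.1 hne hA.2 hA'.2
  have D4 : ∀ a b, IsConj y a → IsConj y b → A a → B b → Commute a b := by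
    intro a b ha hb hA hB
    obtain ⟨a', h1, h2, h3, h4⟩ := F1 a b ha hb
    rcases h4 with h | h
    · exact h.symm
    · by_cases hba : b = a'
      · rw [hba]; exact h2
      · exfalso
        rcases D1 a' h1 with h5 | h5
        · exact h3 (D3A a a' ha h1 hA h5 h2)
        · exact hba (D3B b a' hb h1 hB h5 h)
  let R : G → G → Prop := fun w w' => w = w' ∨ ¬ Commute w w'
  have sideR : ∀ w w', IsConj y w → IsConj y w' → (R w w' ↔ (A w ↔ A w')) := by
    intro w w' hw hw'
    by_cases hA : A w
    · by_cases hA' : A w'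
      · simp only [hA, hA', iff_true]
        by_cases hcm : Commute w w'
        · exact Or.inl (D3A w w' hw hw' hA hA' hcm)
        · exact Or.inr hcm
      · simp only [hA, hA', iff_false, not_true_eq_false]
        have hB' : B w' := (D1 w' hw').resolve_left hA'
        rintro (h | h)
        · exact hA' (h ▸ hA)
        · exact h (D4 w w' hw hw' hA hB')
    · have hB : B w := (D1 w hw).resolve_left hA
      by_cases hA' : A w'
      · simp only [hA, hA', iff_true]
        constructor
        · rintro (h | h)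
          · exact hA (h ▸ hA')
          · exact h (D4 w' w hw' hw hA' hB).symm
        · intro h; exact absurd h id
      · simp only [hA, hA', iff_true]
        have hB' : B w' := (D1 w' hw').resolve_left hA'
        by_cases hcm : Commute w w'
        · exact Or.inl (D3B w w' hw hw' hB hB' hcm)
        · exact Or.inr hcm
  have Rconj : ∀ g w w', R (g * w * g⁻¹) (g * w' * g⁻¹) ↔ R w w' := by
    intro g w w'
    simp only [R, commute_conj_iff]
    constructor
    · rintro (h | h)
      · left; simpa using h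
      · exact Or.inr h
    · rintro (h | h)
      · left; rw [h]
      · exact Or.inr h
  have Yc : ∀ g w, IsConj y w → IsConj y (g * w * g⁻¹) := fun g w hw => hw.trans (isConj_iff.2 ⟨g, rfl⟩)
  let K : Subgroup G :=
    { carrier := {g | R (g * y * g⁻¹) y}
      one_mem' := by simp [R]
      mul_mem' := by
        intro g h hg hh
        simp only [Set.mem_ofPred_eq] at *
        have e : g * h * y * (g * h)⁻¹ = g * (h * y * h⁻¹) * g⁻¹ := by group
        rw [e]
        have h1 : R (g * (h * y * h⁻¹) * g⁻¹) (g * y * g⁻¹) := (Rconj _ _ _).2 hh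
        rw [sideR _ _ (Yc _ _ (Yc _ _ hyy)) (Yc _ _ hyy)] at h1
        rw [sideR _ _ (Yc _ _ hyy) hyy] at hg
        rw [sideR _ _ (Yc _ _ (Yc _ _ hyy)) hyy]
        exact h1.trans hg
      inv_mem' := by
        intro g hg
        simp only [Set.mem_ofPred_eq, inv_inv] at *
        have h1 := (Rconj g (g⁻¹ * y * g) y)
        have e : g * (g⁻¹ * y * g) * g⁻¹ = y := by group
        rw [e] at h1
        rw [← h1]
        rw [sideR _ _ hyy (Yc _ _ hyy)]
        rw [sideR _ _ (Yc _ _ hyy) hyy] at hg
        exact hg.symm }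
  have hKn : K.Normal := by
    constructor
    intro k hk g
    have hk' : R (k * y * k⁻¹) y := hk
    show R (g * k * g⁻¹ * y * (g * k * g⁻¹)⁻¹) y
    set w := g⁻¹ * y * g with hw
    have hwY : IsConj y w := by
      have := Yc g⁻¹ y hyy
      simpa [hw] using this
    have e1 : g * k * g⁻¹ * y * (g * k * g⁻¹)⁻¹ = g * (k * w * k⁻¹) * g⁻¹ := by rw [hw]; group
    have e2 : y = g * w * g⁻¹ := by rw [hw]; group
    rw [e1]
    have h0 := Rconj g (k * w * k⁻¹) w
    rw [← e2] at h0
    rw [h0, sideR _ _ (Yc _ _ hwY) hwY]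
    have h1 : R (k * w * k⁻¹) (k * y * k⁻¹) ↔ R w y := Rconj _ _ _
    rw [sideR _ _ (Yc _ _ hwY) (Yc _ _ hyy), sideR _ _ hwY hyy] at h1
    rw [sideR _ _ (Yc _ _ hyy) hyy] at hk'
    exact prop_aux hk' h1
  rcases hKn.eq_bot_or_eq_top with h | h
  · have hyK : y ∈ K := by
      show R (y * y * y⁻¹) y
      left; group
    rw [h, Subgroup.mem_bot] at hyK
    exact (inv_iff.1 hy).2 hyK
  · obtain ⟨g, hg⟩ := isConj_iff.1 hc
    have : g ∈ K := by rw [h]; trivial
    have h1 : R (g * y * g⁻¹) y := this
    rw [hg] at h1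
    rcases h1 with h2 | h2
    · exact hvne h2.symm
    · exact h2 hvy.symm

theorem central {G : Type*} [Group G] [Finite G] [IsSimpleGroup G] {x : G} (hx : orderOf x = 2) (hfew : Few x) :
    ∃ S : Sylow 2 G, (S : Subgroup G) ≤ Subgroup.centralizer ({x} : Set G) := by
  classical
  have : Fact (Nat.Prime 2) := ⟨Nat.prime_two⟩
  by_contra hcon
  push Not at hcon
  have hp : IsPGroup 2 (Subgroup.zpowers x) := by
    rw [IsPGroup.iff_card]
    exact ⟨1, by rw [Nat.card_zpowers, hx, pow_one]⟩
  obtain ⟨S, hS⟩ := hp.exists_le_sylow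
  have hxS : x ∈ (S : Subgroup G) := hS (Subgroup.mem_zpowers x)
  have hxne : x ≠ 1 := (inv_iff.1 hx).2
  have hS2 : IsPGroup 2 ↥(S : Subgroup G) := S.isPGroup'
  have hnt : Nontrivial ↥(S : Subgroup G) := ⟨⟨⟨x, hxS⟩, 1, by
    intro h; apply hxne; exact congrArg Subtype.val h⟩⟩
  have hcn := hS2.center_nontrivial
  have hZ2 : IsPGroup 2 ↥(Subgroup.center ↥(S : Subgroup G)) := hS2.to_subgroup _
  obtain ⟨n, hn, hcard⟩ := hZ2.nontrivial_iff_card.1 hcn
  have hdvd : 2 ∣ Nat.card ↥(Subgroup.center ↥(S : Subgroup G)) := by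
    rw [hcard]; exact dvd_pow_self 2 hn.ne'
  obtain ⟨z0, hz0⟩ := exists_prime_orderOf_dvd_card' 2 hdvd
  set z : G := ((z0 : ↥(S : Subgroup G)) : G) with hz
  have hzo : orderOf z = 2 := by rw [hz, Subgroup.orderOf_coe, Subgroup.orderOf_coe, hz0]
  have hzS : z ∈ (S : Subgroup G) := (z0 : ↥(S : Subgroup G)).2
  have hzc : ∀ s ∈ (S : Subgroup G), Commute s z := by
    intro s hs
    have := (Subgroup.mem_center_iff.1 z0.2) ⟨s, hs⟩
    exact congrArg Subtype.val this
  have hzx : Commute z x := (hzc x hxS).symm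
  -- S is not contained in centralizer of any conjugate of x
  have hno : ∀ x' : G, IsConj x x' → ¬ ((S : Subgroup G) ≤ Subgroup.centralizer ({x'} : Set G)) := by
    intro x' hx' hle
    obtain ⟨g, rfl⟩ := isConj_iff.1 hx'
    apply hcon (g⁻¹ • S)
    intro w hw
    rw [Sylow.coe_subgroup_smul, Subgroup.mem_pointwise_smul_iff_inv_smul_mem] at hw
    have h2 : (MulAut.conj g⁻¹)⁻¹ • w = g * w * g⁻¹ := by
      simp [MulAut.smul_def]
    rw [h2] at hw
    have h3 := hle hw
    rw [Subgroup.mem_centralizer_singleton_iff] at h3 ⊢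
    have h4 : Commute (g * w * g⁻¹) (g * x * g⁻¹) := h3
    rw [commute_conj_iff] at h4
    exact h4.eq
  have hzne : z ≠ x := by
    intro h
    apply hno x (IsConj.refl x)
    intro s hs
    rw [Subgroup.mem_centralizer_singleton_iff]
    have := hzc s hs
    rw [h] at this; exact this.eq
  have hnc : ¬ IsConj x z := by
    intro h
    apply hno z h
    intro s hs
    rw [Subgroup.mem_centralizer_singleton_iff]
    exact (hzc s hs).eq
  -- the normalizer condition in S
  have hnil : Group.IsNilpotent ↥(S : Subgroup G) := hS2.isNilpotent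
  have hnorm := Group.normalizerCondition_of_isNilpotent (G := ↥(S : Subgroup G))
  set T := (Subgroup.centralizer ({x} : Set G)).subgroupOf (S : Subgroup G) with hT
  have hTlt : T < ⊤ := by
    rw [lt_top_iff_ne_top]
    intro h
    apply hno x (IsConj.refl x)
    rw [hT, Subgroup.subgroupOf_eq_top] at h
    exact h
  obtain ⟨s, hs1, hs2⟩ := SetLike.exists_of_lt (hnorm T hTlt)
  have hxT : (⟨x, hxS⟩ : ↥(S : Subgroup G)) ∈ T := by
    rw [hT, Subgroup.mem_subgroupOf, Subgroup.mem_centralizer_singleton_iff]
  have h1 : s * ⟨x, hxS⟩ * s⁻¹ ∈ T := (Subgroup.mem_normalizer_iff.1 hs1 _).1 hxT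
  rw [hT, Subgroup.mem_subgroupOf, Subgroup.mem_centralizer_singleton_iff] at h1
  have h2 : Commute ((s : G) * x * (s : G)⁻¹) x := h1
  have h3 : orderOf ((s : G) * x * (s : G)⁻¹) = 2 := by rw [conj_orderOf, hx]
  have hc : IsConj x (x * z) := by
    rcases hfew z hzo hzx hzne _ h3 h2 with h | h | h
    · exfalso; apply hs2
      rw [hT, Subgroup.mem_subgroupOf, Subgroup.mem_centralizer_singleton_iff]
      have : (s : G) * x = x * s := by
        calc (s : G) * x = (s : G) * x * (s : G)⁻¹ * s := by group
          _ = x * s := by rw [h]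
      exact this
    · exfalso; apply hzne
      have h4 : Commute (s : G) z := hzc s s.2
      have : x = (s : G)⁻¹ * z * s := by rw [← h]; group
      rw [this, mul_assoc, ← h4.eq]; group
    · exact isConj_iff.2 ⟨s, h⟩
  have hcomm := comm_of_class hzo (class_commutes hx hzo hzx hnc hc hfew)
  apply hno x (IsConj.refl x)
  intro s hs
  rw [Subgroup.mem_centralizer_singleton_iff]
  exact (hcomm s x).eq

theorem allConj {G : Type*} [Group G] [Finite G] [IsSimpleGroup G] {x : G} (hx : orderOf x = 2) (hfew : Few x)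
    (S : Sylow 2 G) (hS : (S : Subgroup G) ≤ Subgroup.centralizer ({x} : Set G)) :
    ∀ y : G, orderOf y = 2 → IsConj x y := by
  classical
  have : Fact (Nat.Prime 2) := ⟨Nat.prime_two⟩
  intro y0 hy0
  by_contra hcon
  have hp : IsPGroup 2 (Subgroup.zpowers y0) := by
    rw [IsPGroup.iff_card]
    exact ⟨1, by rw [Nat.card_zpowers, hy0, pow_one]⟩
  obtain ⟨Q, hQ⟩ := hp.exists_le_sylow
  obtain ⟨g, hg⟩ := MulAction.exists_smul_eq G S Q
  have hy0Q : y0 ∈ (Q : Subgroup G) := hQ (Subgroup.mem_zpowers y0)
  rw [← hg, Sylow.coe_subgroup_smul, Subgroup.mem_pointwise_smul_iff_inv_smul_mem] at hy0Q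
  have h2 : (MulAut.conj g)⁻¹ • y0 = g⁻¹ * y0 * g := by
    simp [MulAut.smul_def]
  rw [h2] at hy0Q
  set y := g⁻¹ * y0 * g with hy
  have hyy0 : IsConj y y0 := isConj_iff.2 ⟨g, by rw [hy]; group⟩
  have hyo : orderOf y = 2 := by rw [isConj_orderOf hyy0, hy0]
  have hnc : ¬ IsConj x y := fun h => hcon (h.trans hyy0)
  have hyx : Commute y x := by
    have := hS hy0Q
    rw [Subgroup.mem_centralizer_singleton_iff] at this
    exact this
  by_cases h1 : IsConj x (x * y)
  · have hcomm := comm_of_class hyo (class_commutes hx hyo hyx hnc h1 hfew)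
    exact hnc (by rw [inv_unique_of_comm hcomm hx hyo])
  by_cases h3 : IsConj y (x * y)
  · exact caseB2 hx hyo hyx hnc h1 h3 hfew S hS
  · -- case B1
    have hxyne : x ≠ y := by intro h; apply hnc; rw [h]
    have hxyo : orderOf (x * y) = 2 := inv_mul hx hyo hyx.symm hxyne
    have hB : ∀ y' : G, IsConj y y' → Commute (x * y) y' := by
      intro y' hy'
      obtain ⟨c, h4, h5, h6⟩ := keyB hx hyo hyx hnc h1 hfew (IsConj.refl x) (IsConj.refl y) hyx hy'
      rcases h4 with h | h
      · exfalso; rw [h] at h6; exact h3 h6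
      · rw [h] at h5; exact h5
    have hz : x * y ∈ Subgroup.center G := by
      have h7 : Subgroup.normalClosure ({y} : Set G) ≤ Subgroup.centralizer ({x * y} : Set G) := by
        have : Subgroup.closure (Group.conjugatesOfSet ({y} : Set G)) ≤ Subgroup.centralizer ({x * y} : Set G) := by
          rw [Subgroup.closure_le]
          intro u hu
          rw [Group.mem_conjugatesOfSet_iff] at hu
          obtain ⟨w, hw, hwu⟩ := hu
          rw [Set.mem_singleton_iff] at hw
          rw [hw] at hwu
          rw [SetLike.mem_coe, Subgroup.mem_centralizer_singleton_iff]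
          exact (hB u hwu).symm.eq
        exact this
      have h8 : Subgroup.normalClosure ({y} : Set G) = ⊤ := by
        rcases (inferInstance : (Subgroup.normalClosure ({y} : Set G)).Normal).eq_bot_or_eq_top with h2 | h2
        · exfalso
          have : y ∈ Subgroup.normalClosure ({y} : Set G) := Subgroup.subset_normalClosure (Set.mem_singleton y)
          rw [h2, Subgroup.mem_bot] at this
          exact (inv_iff.1 hyo).2 this
        · exact h2
      rw [Subgroup.mem_center_iff]
      intro g
      have : g ∈ Subgroup.centralizer ({x * y} : Set G) := h7 (by rw [h8]; trivial)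
      rw [Subgroup.mem_centralizer_singleton_iff] at this
      exact this
    have hcomm : ∀ a b : G, Commute a b := by
      rcases (inferInstance : (Subgroup.center G).Normal).eq_bot_or_eq_top with h | h
      · exfalso
        rw [h, Subgroup.mem_bot] at hz
        exact (inv_iff.1 hxyo).2 hz
      · intro a b
        have : b ∈ Subgroup.center G := by rw [h]; trivial
        exact (Subgroup.mem_center_iff.1 this a)
    exact hxyne (inv_unique_of_comm hcomm hx hyo)

/-- Let G be a finite simple group and x an involution of G whose centralizer contains at most three involutions. Then C_G(x) contains a Sylow 2-subgroup of G, and all involutions of G are conjugate. -/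
theorem result {G : Type*} [Group G] [Finite G] [IsSimpleGroup G] (x : G) (hx : orderOf x = 2)
    (h3 : Nat.card {u : ↥(Subgroup.centralizer ({x} : Set G)) // orderOf u = 2} ≤ 3) :
    (∃ S : Sylow 2 G, (S : Subgroup G) ≤ Subgroup.centralizer ({x} : Set G)) ∧
      ∀ u v : G, orderOf u = 2 → orderOf v = 2 → IsConj u v := by

  have hfew := few_of_card x hx h3
  obtain ⟨S, hS⟩ := central hx hfew
  refine ⟨⟨S, hS⟩, ?_⟩
  intro u v hu hv
  exact (allConj hx hfew S hS u hu).symm.trans (allConj hx hfew S hS v hv)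

end Cfsg.Agent.S3279
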