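import Cfsg.Statements.S3299
import Mathlib
import Cfsg.Agent.H19_XspH
import Cfsg.Agent.H19_Mackey

set_option autoImplicit false
open Cfsg

namespace Cfsg.Agent.S3299

open Cfsg.Agent.H19 Cfsg.Agent.H28.Xsp

theorem comm_mem {G : Type*} [Group G] {H N : Subgroup G} (h2 : (N.subgroupOf H).index = 2) {a b : G} (ha : a ∈ H) (hb : b ∈ H) :
    a * b * a⁻¹ * b⁻¹ ∈ N := by
  have h : (⟨a, ha⟩ * ⟨b, hb⟩ * ⟨a, ha⟩⁻¹ * ⟨b, hb⟩⁻¹ : ↥H) ∈ N.subgroupOf H := by
    rw [← Transfer.sgn_eq_one_iff h2, map_mul, map_mul, map_mul, map_inv, map_inv]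
    rcases Int.units_eq_one_or (Transfer.sgn _ h2 ⟨a, ha⟩) with e1 | e1 <;>
      rcases Int.units_eq_one_or (Transfer.sgn _ h2 ⟨b, hb⟩) with e2 | e2 <;> rw [e1, e2] <;> decide
  exact h

theorem main {G : Type*} [Group G] [Finite G] (hG : ∀ K : Subgroup G, K.index ≠ 2) {z : G}
    {E : Subgroup G} (h : XspH.Conf E z) (n : ℕ) (hn : 2 ≤ n) (hcard : Nat.card ↥E = 2 ^ (2 * n + 1))
    (K : Subgroup G) (hKH : K ≤ Subgroup.centralizer ({z} : Set G))
    (hKi : K.relIndex (Subgroup.centralizer ({z} : Set G)) = 2) : E ≤ K := by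
  classical
  by_contra hEK
  obtain ⟨H, hH⟩ : ∃ H, H = Subgroup.centralizer ({z} : Set G) := ⟨_, rfl⟩
  rw [← hH] at hKH hKi
  have hi2 : (K.subgroupOf H).index = 2 := hKi
  have hmemH : ∀ c, c ∈ H ↔ c * z = z * c := by
    intro c; rw [hH, Subgroup.mem_centralizer_singleton_iff]
  have hEH : E ≤ H := by
    intro y hy
    rw [hmemH]
    exact (h.xsp.zc y hy).symm
  have hmul : ∀ a ∈ H, ∀ b ∈ H, (a * b ∈ K ↔ (a ∈ K ↔ b ∈ K)) := by
    intro a ha b hb
    exact Subgroup.mul_mem_iff_of_index_two hi2 (a := ⟨a, ha⟩) (b := ⟨b, hb⟩)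
  have hzK : z ∈ K := by
    obtain ⟨a, ha, b, hb, hab⟩ := h.nc
    have h1 := (h.xsp.comm a ha b hb).resolve_left hab
    have h2 := comm_mem hi2 (hEH ha) (hEH hb)
    have : a * b * a⁻¹ * b⁻¹ = z := by rw [h1]; group
    rwa [this] at h2
  have hbig : 32 ≤ Nat.card E := by
    rw [hcard]
    calc 32 = 2 ^ 5 := by norm_num
      _ ≤ _ := Nat.pow_le_pow_right (by norm_num) (by omega)
  -- no abelian subgroup of index two
  have hnoab : ∀ B : Subgroup G, z ∈ B → B ≤ E → Nat.card E ≤ 2 * Nat.card B →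
      ∃ a ∈ B, ∃ b ∈ B, a * b ≠ b * a := by
    intro B hzB hBE hBc
    by_contra hcon
    push Not at hcon
    have h1 := h.xsp.duality hzB hBE
    have h2 : B ≤ E ⊓ Subgroup.centralizer (B : Set G) := by
      intro b hb
      refine ⟨hBE hb, Subgroup.mem_centralizer_iff.2 ?_⟩
      intro c hc
      exact hcon c hc b hb
    have h3 := Nat.card_mono (Set.toFinite _) h2
    have h4 : Nat.card B * Nat.card B ≤ 2 * Nat.card E := by
      calc Nat.card B * Nat.card B ≤ Nat.card B * _ := Nat.mul_le_mul_left _ h3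
        _ = _ := h1
    nlinarith
  -- the involution
  obtain ⟨x, hxE, hxK, hxx⟩ : ∃ x ∈ E, x ∉ K ∧ x * x = 1 := by
    by_contra hcon
    push Not at hcon
    have hall : ∀ w ∈ E, w ∉ K → w * w = z := fun w hw hwK => (h.xsp.sqr w hw).resolve_left (hcon w hw hwK)
    obtain ⟨x, hxE, hxK⟩ := SetLike.not_le_iff_exists.1 hEK
    have hxz := hall x hxE hxK
    have hinv : ∀ y ∈ E ⊓ K, x⁻¹ * y * x = y⁻¹ := by
      intro y hy
      have h1 : x * y ∉ K := by
        intro h2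
        have := (hmul x (hEH hxE) y (hEH hy.1)).1 h2
        exact hxK (this.2 hy.2)
      have h2 := hall (x * y) (mul_mem hxE hy.1) h1
      have h3 : y * x * y = x := by
        have : x * (y * x * y) = x * x := by rw [hxz, ← h2]; group
        exact mul_left_cancel this
      calc x⁻¹ * y * x = x⁻¹ * (y * x * y) * y⁻¹ := by group
        _ = y⁻¹ := by rw [h3]; group
    obtain ⟨a, ha, b, hb, hab⟩ := hnoab (E ⊓ K) ⟨h.xsp.mem, hzK⟩ inf_le_left (by
      have h1 : (E ⊓ K).relIndex E ≤ 2 := by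
        rw [Subgroup.inf_relIndex_left]
        calc K.relIndex E ≤ K.relIndex H := Subgroup.relIndex_le_of_le_right hEH (by rw [hKi]; norm_num)
          _ = 2 := hKi
      rw [← H2.Card.card_mul_relIndex (H := E ⊓ K) (K := E) inf_le_left, mul_comm]
      exact Nat.mul_le_mul_right _ h1)
    apply hab
    have h1 := hinv (a * b) (mul_mem ha hb)
    have h2 : x⁻¹ * (a * b) * x = (x⁻¹ * a * x) * (x⁻¹ * b * x) := by group
    rw [h2, hinv a ha, hinv b hb] at h1
    have h3 := congrArg (·⁻¹) h1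
    simp only [mul_inv_rev, inv_inv] at h3
    exact h3.symm
  have hx1 : x ≠ 1 := by rintro rfl; exact hxK (one_mem _)
  have hxz : x ≠ z := by rintro rfl; exact hxK hzK
  -- the centralizer of x in E
  obtain ⟨A, hA⟩ : ∃ A, A = E ⊓ Subgroup.centralizer ({x} : Set G) := ⟨_, rfl⟩
  have hAmem : ∀ a, a ∈ A ↔ a ∈ E ∧ a * x = x * a := by
    intro a; rw [hA, Subgroup.mem_inf, Subgroup.mem_centralizer_singleton_iff]
  obtain ⟨a, ha, b, hb, hab⟩ := hnoab A ((hAmem z).2 ⟨h.xsp.mem, h.xsp.zc x hxE⟩) (fun a ha => ((hAmem a).1 ha).1) (by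
    rw [hA]; exact h.xsp.card_le_two_mul le_rfl hxE)
  obtain ⟨g, hgH, hg1, hg2, hg3⟩ := Mackey.exists_other_fixed (A := A) hG hKH hKi hxx (fun a ha => ((hAmem a).1 ha).2)
    (h.xsp.isPGroup.to_le (fun a ha => ((hAmem a).1 ha).1)) (fun a ha => hEH ((hAmem a).1 ha).1) (hEH hxE) hxK
  have hzz := h.xsp.sq
  have hc : ∀ b ∈ E, b * x = x * b → (g * z * g⁻¹) * b = b * (g * z * g⁻¹) := by
    intro b hb hbx
    have h1 := (hmemH _).1 (hg3 b ((hAmem b).2 ⟨hb, hbx⟩))
    calc (g * z * g⁻¹) * b = g * (z * (g⁻¹ * b * g)) * g⁻¹ := by group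
      _ = g * ((g⁻¹ * b * g) * z) * g⁻¹ := by rw [h1]
      _ = b * (g * z * g⁻¹) := by group
  rcases h.cent_cent hxE hx1 hxz hxx hc with h1 | h1 | h1 | h1
  · have : z = 1 := by
      calc z = g⁻¹ * (g * z * g⁻¹) * g := by group
        _ = 1 := by rw [h1]; group
    exact h.xsp.ne this
  · apply hgH
    rw [hmemH]
    calc g * z = (g * z * g⁻¹) * g := by group
      _ = z * g := by rw [h1]
  · apply hg2
    have : g⁻¹ * x * g = z := by rw [← h1]; group
    rw [this]; exact hzK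
  · apply hg2
    have h2 := (h.xsp.comm a ((hAmem a).1 ha).1 b ((hAmem b).1 hb).1).resolve_left hab
    have h3 : z = a * b * a⁻¹ * b⁻¹ := by rw [h2]; group
    have h4 : g⁻¹ * z * g ∈ K := by
      have h5 := comm_mem hi2 (hg3 a ha) (hg3 b hb)
      have h6 : (g⁻¹ * a * g) * (g⁻¹ * b * g) * (g⁻¹ * a * g)⁻¹ * (g⁻¹ * b * g)⁻¹ = g⁻¹ * z * g := by
        rw [h3]; group
      rwa [h6] at h5
    have h7 : g⁻¹ * x * g = (g⁻¹ * z * g) * z := by
      have h8 : x = z * (g * z * g⁻¹) := by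
        rw [h1, ← mul_assoc, hzz, one_mul]
      calc g⁻¹ * x * g = g⁻¹ * (z * (g * z * g⁻¹)) * g := by rw [← h8]
        _ = _ := by group
    rw [h7]
    exact mul_mem h4 hzK

/-- Let G be a finite group with no nontrivial 2-group quotient (O^2(G) = G), z an involution of G with H = C_G(z), and suppose E = O_2(H) is extraspecial with C_G(E) ≤ E and of order 2^(2n+1) with n ≥ 2. Then E is contained in every normal subgroup of H of index 2. -/
theorem result {G : Type*} [Group G] [Finite G] (hres : Cfsg.pResidual 2 G = ⊤) (z : G) (hz : orderOf z = 2)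
    (E : Subgroup G) (hE : E = (Cfsg.pCore 2 ↥(Subgroup.centralizer ({z} : Set G))).map (Subgroup.centralizer ({z} : Set G)).subtype)
    (hext : Cfsg.IsExtraspecial 2 ↥E) (hcent : Subgroup.centralizer (E : Set G) ≤ E) (n : ℕ) (hn : 2 ≤ n) (hcard : Nat.card ↥E = 2 ^ (2 * n + 1))
    (K : Subgroup G) (hKH : K ≤ Subgroup.centralizer ({z} : Set G))
    (hKn : ∀ h ∈ Subgroup.centralizer ({z} : Set G), K.map (MulAut.conj h).toMonoidHom = K)
    (hKi : K.relIndex (Subgroup.centralizer ({z} : Set G)) = 2) : E ≤ K := by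
  exact main (XspH.index_ne_two hres) (XspH.conf_of hE hz hext hcent) n hn hcard K hKH hKi

end Cfsg.Agent.S3299
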