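import Cfsg.Statements.S3300
import Mathlib
import Cfsg.Agent.H19_XspT

set_option autoImplicit false
open Cfsg

namespace Cfsg.Agent.S3300

open Cfsg.Agent.H19 Cfsg.Agent.H28.Xsp

theorem comm_mem {G : Type*} [Group G] {H N : Subgroup G} (h2 : (N.subgroupOf H).index = 2) {a b : G} (ha : a ∈ H) (hb : b ∈ H) :
    a * b * a⁻¹ * b⁻¹ ∈ N := by
  have h : (⟨a, ha⟩ * ⟨b, hb⟩ * ⟨a, ha⟩⁻¹ * ⟨b, hb⟩⁻¹ : ↥H) ∈ N.subgroupOf H := by
    rw [← Transfer.sgn_eq_one_iff h2, map_mul, map_mul, map_mul, map_inv, map_inv]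
    rcases Int.units_eq_one_or (Transfer.sgn _ h2 ⟨a, ha⟩) with e1 | e1 <;>
      rcases Int.units_eq_one_or (Transfer.sgn _ h2 ⟨b, hb⟩) with e2 | e2 <;> rw [e1, e2] <;> decide
  exact h

/-- counting with a map whose fibres are cosets -/
theorem card_le_of_map {G β : Type*} [Group G] [Finite G] [Finite β] {X R : Subgroup G} (hR : R ≤ X) (f : X → β)
    (hf : ∀ x y : X, f x = f y → (x : G)⁻¹ * y ∈ R) : Nat.card X ≤ Nat.card β * Nat.card R := by
  rw [← H2.Card.card_mul_relIndex hR, mul_comm]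
  apply Nat.mul_le_mul_right
  show (R.subgroupOf X).index ≤ Nat.card β
  rw [Subgroup.index]
  apply Nat.card_le_card_of_injective (fun q : X ⧸ R.subgroupOf X => f q.out)
  intro q q' h
  have h1 := hf _ _ h
  have h2 : ((q.out : X) : X ⧸ R.subgroupOf X) = ((q'.out : X) : X ⧸ R.subgroupOf X) := by
    rw [QuotientGroup.eq, Subgroup.mem_subgroupOf]; exact h1
  have e1 : ((q.out : X) : X ⧸ R.subgroupOf X) = q := QuotientGroup.out_eq' q
  have e2 : ((q'.out : X) : X ⧸ R.subgroupOf X) = q' := QuotientGroup.out_eq' q'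
  rw [e1, e2] at h2
  exact h2

/-- `|E| ≤ 2 |C_E(s)|²` for an involution `s` acting on the extraspecial group `E`. -/
theorem card_cent {G : Type*} [Group G] [Finite G] {E : Subgroup G} {w s : G} (h : Xsp E w) (hs : s * s = 1)
    (hsw : s * w = w * s) (hn : ∀ x ∈ E, s * x * s ∈ E) :
    Nat.card E ≤ 2 * (Nat.card (E ⊓ Subgroup.centralizer ({s} : Set G) : Subgroup G) * Nat.card (E ⊓ Subgroup.centralizer ({s} : Set G) : Subgroup G)) := by
  classical
  obtain ⟨R, hR⟩ : ∃ R, R = E ⊓ Subgroup.centralizer ({s} : Set G) := ⟨_, rfl⟩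
  have hRmem : ∀ a, a ∈ R ↔ a ∈ E ∧ a * s = s * a := by
    intro a; rw [hR, Subgroup.mem_inf, Subgroup.mem_centralizer_singleton_iff]
  rw [← hR]
  have hsinv : s⁻¹ = s := inv_eq_of_mul_eq_one_left hs
  have hww := h.sq
  have hwinv := h.zinv
  -- kappa
  have hk : ∀ x ∈ E, x * s * x⁻¹ * s ∈ E := by
    intro x hx
    have : x * s * x⁻¹ * s = x * (s * x⁻¹ * s) := by group
    rw [this]
    exact mul_mem hx (hn _ (inv_mem hx))
  have hfib : ∀ x y : G, x ∈ E → y ∈ E → x * s * x⁻¹ * s = y * s * y⁻¹ * s → x⁻¹ * y ∈ R := by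
    intro x y hx hy hxy
    rw [hRmem]
    refine ⟨mul_mem (inv_mem hx) hy, ?_⟩
    have h1 := mul_right_cancel hxy
    calc x⁻¹ * y * s = x⁻¹ * (y * s * y⁻¹) * y := by group
      _ = x⁻¹ * (x * s * x⁻¹) * y := by rw [h1]
      _ = s * (x⁻¹ * y) := by group
  -- M
  have hkmul : ∀ x ∈ E, ∀ y ∈ E, (x * s * x⁻¹ * s = 1 ∨ x * s * x⁻¹ * s = w) → (y * s * y⁻¹ * s = 1 ∨ y * s * y⁻¹ * s = w) →
      ((x * y) * s * (x * y)⁻¹ * s = 1 ∨ (x * y) * s * (x * y)⁻¹ * s = w) := by
    intro x hx y hy h1 h2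
    have e : (x * y) * s * (x * y)⁻¹ * s = x * (y * s * y⁻¹ * s) * x⁻¹ * (x * s * x⁻¹ * s) := by
      have : x * (y * s * y⁻¹ * s) * x⁻¹ * (x * s * x⁻¹ * s) = x * y * s * y⁻¹ * (s * s) * x⁻¹ * s := by group
      rw [this, hs]; group
    rw [e]
    rcases h2 with h2 | h2 <;> rw [h2]
    · rcases h1 with h1 | h1 <;> rw [h1]
      · left; group
      · right; group
    · have e2 : x * w * x⁻¹ = w := by rw [← h.zc x hx]; group
      rw [e2]
      rcases h1 with h1 | h1 <;> rw [h1]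
      · right; group
      · left; exact hww
  let M : Subgroup G :=
    { carrier := {x | x ∈ E ∧ (x * s * x⁻¹ * s = 1 ∨ x * s * x⁻¹ * s = w)}
      mul_mem' := by
        rintro x y ⟨hx, h1⟩ ⟨hy, h2⟩
        exact ⟨mul_mem hx hy, hkmul x hx y hy h1 h2⟩
      one_mem' := ⟨one_mem _, Or.inl (by rw [one_mul, inv_one, mul_one, hs])⟩
      inv_mem' := by
        rintro x ⟨hx, h1⟩
        refine ⟨inv_mem hx, ?_⟩
        have e : x⁻¹ * s * x⁻¹⁻¹ * s = x⁻¹ * (x * s * x⁻¹ * s)⁻¹ * x := by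
          have : x⁻¹ * (x * s * x⁻¹ * s)⁻¹ * x = x⁻¹ * s⁻¹ * x * s⁻¹ := by group
          rw [this, hsinv, inv_inv]
        rw [e]
        rcases h1 with h1 | h1 <;> rw [h1]
        · left; group
        · right
          rw [hwinv, mul_assoc, h.zc x hx]; group }
  have hM : ∀ x, x ∈ M ↔ x ∈ E ∧ (x * s * x⁻¹ * s = 1 ∨ x * s * x⁻¹ * s = w) := fun x => Iff.rfl
  have hkM : ∀ x ∈ E, x * s * x⁻¹ * s ∈ M := by
    intro x hx
    rw [hM]
    refine ⟨hk x hx, ?_⟩
    have e : (x * s * x⁻¹ * s) * s * (x * s * x⁻¹ * s)⁻¹ * s = (x * s * x⁻¹ * s) * (x * s * x⁻¹ * s) := by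
      have e1 : (x * s * x⁻¹ * s)⁻¹ = s * x * s * x⁻¹ := by
        rw [mul_inv_rev, mul_inv_rev, mul_inv_rev, hsinv, inv_inv]; group
      rw [e1]
      calc x * s * x⁻¹ * s * s * (s * x * s * x⁻¹) * s = x * s * x⁻¹ * (s * s) * s * x * s * x⁻¹ * s := by group
        _ = x * s * x⁻¹ * s * x * s * x⁻¹ * s := by rw [hs]; group
        _ = _ := by group
    rw [e]
    exact h.sqr _ (hk x hx)
  have hRM : R ≤ M := by
    intro x hx
    rw [hRmem] at hx
    rw [hM]
    refine ⟨hx.1, Or.inl ?_⟩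
    rw [hx.2]
    calc s * x * x⁻¹ * s = s * s := by group
      _ = 1 := hs
  have hRE : R ≤ E := fun x hx => ((hRmem x).1 hx).1
  have h1 : Nat.card E ≤ Nat.card M * Nat.card R := by
    apply card_le_of_map hRE (fun x : E => (⟨x * s * (x : G)⁻¹ * s, hkM x x.2⟩ : M))
    intro x y hxy
    exact hfib x y x.2 y.2 (Subtype.ext_iff.1 hxy)
  have h2 : Nat.card M ≤ Nat.card ℤˣ * Nat.card R := by
    apply card_le_of_map hRM (fun x : M => if (x : G) * s * (x : G)⁻¹ * s = 1 then (1 : ℤˣ) else -1)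
    intro x y hxy
    apply hfib x y ((hM _).1 x.2).1 ((hM _).1 y.2).1
    by_cases hx1 : (x : G) * s * (x : G)⁻¹ * s = 1
    · rw [if_pos hx1] at hxy
      by_cases hy1 : (y : G) * s * (y : G)⁻¹ * s = 1
      · rw [hx1, hy1]
      · rw [if_neg hy1] at hxy
        exact absurd hxy (by decide)
    · rw [if_neg hx1] at hxy
      by_cases hy1 : (y : G) * s * (y : G)⁻¹ * s = 1
      · rw [if_pos hy1] at hxy
        exact absurd hxy (by decide)
      · rw [((hM _).1 x.2).2.resolve_left hx1, ((hM _).1 y.2).2.resolve_left hy1]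
  have h3 : Nat.card ℤˣ = 2 := by rw [Nat.card_eq_fintype_card]; decide
  rw [h3] at h2
  calc Nat.card E ≤ Nat.card M * Nat.card R := h1
    _ ≤ (2 * Nat.card R) * Nat.card R := Nat.mul_le_mul_right _ h2
    _ = _ := by ring

theorem main {G : Type*} [Group G] [Finite G] (hG : ∀ K : Subgroup G, K.index ≠ 2) {z : G}
    {E : Subgroup G} (h : XspH.Conf E z) (n : ℕ) (hn : 3 ≤ n) (hcard : Nat.card ↥E = 2 ^ (2 * n + 1))
    (K : Subgroup G)
    (hKi : K.relIndex (Subgroup.centralizer ({z} : Set G)) = 2) (hcon : ∀ g : G, g * z * g⁻¹ ∈ E → g * z * g⁻¹ = z) : False := by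
  classical
  haveI : Fact (Nat.Prime 2) := ⟨Nat.prime_two⟩
  have hbig : 128 ≤ Nat.card E := by
    rw [hcard]
    calc 128 = 2 ^ 7 := by norm_num
      _ ≤ _ := Nat.pow_le_pow_right (by norm_num) (by omega)
  apply XspH.criterion hG h (N := K) hKi
  intro g hgz hcomm
  obtain ⟨w, hw⟩ : ∃ w, w = g * z * g⁻¹ := ⟨_, rfl⟩
  obtain ⟨Y, hY⟩ : ∃ Y, Y = E ⊓ Subgroup.centralizer ({w} : Set G) := ⟨_, rfl⟩
  have hYmem : ∀ a, a ∈ Y ↔ a ∈ E ∧ a * w = w * a := by
    intro a; rw [hY, Subgroup.mem_inf, Subgroup.mem_centralizer_singleton_iff]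
  rw [← hw] at hgz hcomm ⊢
  rw [← hY]
  have hYE : Y ≤ E := fun y hy => ((hYmem y).1 hy).1
  have hzY : z ∈ Y := (hYmem z).2 ⟨h.xsp.mem, hcomm.symm⟩
  by_cases h8 : 8 * Nat.card Y ≤ Nat.card E
  · exact Or.inl h8
  right; left
  have hwE : w ∉ E := fun hwE => hgz (by rw [hw] at hwE ⊢; exact hcon g hwE)
  have hw2 : w * w = 1 := by
    rw [hw]
    calc g * z * g⁻¹ * (g * z * g⁻¹) = g * (z * z) * g⁻¹ := by group
      _ = 1 := by rw [h.xsp.sq]; group
  by_cases h4 : 4 * Nat.card Y ≤ Nat.card E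
  · refine ⟨h4, ?_⟩
    obtain ⟨a, ha, b, hb, hab⟩ := XspH.exists_noncomm h hYE hzY (by nlinarith)
    have hmem : ∀ y ∈ Y, g⁻¹ * y * g ∈ Subgroup.centralizer ({z} : Set G) := by
      intro y hy
      rw [Subgroup.mem_centralizer_singleton_iff]
      have h1 := ((hYmem y).1 hy).2
      rw [hw] at h1
      calc (g⁻¹ * y * g) * z = g⁻¹ * (y * (g * z * g⁻¹)) * g := by group
        _ = g⁻¹ * ((g * z * g⁻¹) * y) * g := by rw [h1]
        _ = _ := by group
    have h5 := comm_mem hKi (hmem a ha) (hmem b hb)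
    have h6 : (g⁻¹ * a * g) * (g⁻¹ * b * g) * (g⁻¹ * a * g)⁻¹ * (g⁻¹ * b * g)⁻¹ = g⁻¹ * z * g := by
      rw [hab]; group
    rwa [h6] at h5
  -- index two
  exfalso
  have hidx : Nat.card Y * Y.relIndex E = Nat.card E := H2.Card.card_mul_relIndex hYE
  have hYpos : 0 < Nat.card Y := Nat.card_pos
  have hr : Y.relIndex E = 2 := by
    have h1 : Y.relIndex E < 4 := by
      by_contra hge
      push Not at hge
      apply h4
      rw [← hidx, mul_comm]
      exact Nat.mul_le_mul_left _ hge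
    have h2 : Y.relIndex E ∣ 2 ^ (2 * n + 1) := by
      rw [← hcard, ← hidx]; exact Dvd.intro_left _ rfl
    obtain ⟨j, _, hj⟩ := (Nat.dvd_prime_pow Nat.prime_two).1 h2
    have hj2 : j < 2 := by
      by_contra hge
      push Not at hge
      rw [hj] at h1
      have : 2 ^ 2 ≤ 2 ^ j := Nat.pow_le_pow_right (by norm_num) hge
      omega
    interval_cases j
    · exfalso
      have h3 : E ≤ Y := by
        rw [← Subgroup.relIndex_eq_one]; rw [hj]; norm_num
      apply hwE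
      apply h.cent
      rw [Subgroup.mem_centralizer_iff]
      intro y hy
      exact ((hYmem y).1 (h3 hy)).2
    · rw [hj]; norm_num
  -- the dual of Y
  obtain ⟨D, hD⟩ : ∃ D, D = E ⊓ Subgroup.centralizer (Y : Set G) := ⟨_, rfl⟩
  have hDmem : ∀ d, d ∈ D ↔ d ∈ E ∧ ∀ y ∈ Y, y * d = d * y := by
    intro d; rw [hD, Subgroup.mem_inf, Subgroup.mem_centralizer_iff]; rfl
  have hDcard : Nat.card D = 4 := by
    have h1 := h.xsp.duality hzY hYE
    rw [← hD] at h1
    rw [← hidx, hr] at h1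
    have h2 : Nat.card Y * Nat.card D = Nat.card Y * 4 := by rw [h1]; ring
    exact Nat.eq_of_mul_eq_mul_left hYpos h2
  have hzD : z ∈ D := (hDmem z).2 ⟨h.xsp.mem, fun y hy => (h.xsp.zc y (hYE hy)).symm⟩
  obtain ⟨a, haD, ha1, haz⟩ : ∃ a ∈ D, a ≠ 1 ∧ a ≠ z := by
    by_contra hno
    push Not at hno
    have h1 : D ≤ Subgroup.zpowers z := by
      intro d hd
      rw [mem_zpowers_of_sq h.xsp.sq]
      by_cases hd1 : d = 1
      · exact Or.inl hd1
      · exact Or.inr (hno d hd hd1)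
    have h2 := Nat.card_mono (Set.toFinite _) h1
    rw [SetLike.coe_sort_coe, SetLike.coe_sort_coe, hDcard, h.xsp.card_zpowers] at h2
    omega
  obtain ⟨haE, haY⟩ := (hDmem a).1 haD
  -- Y = C_E(a)
  have hYa : ∀ b ∈ E, b * a = a * b → b ∈ Y := by
    intro b hb hba
    have h1 : Y ≤ E ⊓ Subgroup.centralizer ({a} : Set G) := by
      intro y hy
      exact ⟨hYE hy, Subgroup.mem_centralizer_singleton_iff.2 (haY y hy)⟩
    by_contra hbY
    have h3 : E ≤ E ⊓ Subgroup.centralizer ({a} : Set G) := by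
      have h4 : Y.relIndex (E ⊓ Subgroup.centralizer ({a} : Set G)) * (E ⊓ Subgroup.centralizer ({a} : Set G)).relIndex E = 2 := by
        rw [Subgroup.relIndex_mul_relIndex _ _ _ h1 inf_le_left, hr]
      have h5 : Y.relIndex (E ⊓ Subgroup.centralizer ({a} : Set G)) ≠ 1 := by
        intro h6
        apply hbY
        rw [Subgroup.relIndex_eq_one] at h6
        exact h6 ⟨hb, Subgroup.mem_centralizer_singleton_iff.2 hba⟩
      rw [← Subgroup.relIndex_eq_one]
      have h7 : (E ⊓ Subgroup.centralizer ({a} : Set G)).relIndex E ∣ 2 := Dvd.intro_left _ h4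
      rcases (Nat.dvd_prime Nat.prime_two).1 h7 with h8 | h8
      · exact h8
      · rw [h8] at h4; omega
    obtain ⟨y, hy, hay⟩ := h.xsp.exists_not_comm haE ha1 haz
    exact hay (Subgroup.mem_centralizer_singleton_iff.1 (h3 hy).2).symm
  have hwc : ∀ b ∈ E, b * a = a * b → w * b = b * w := by
    intro b hb hba
    exact ((hYmem b).1 (hYa b hb hba)).2.symm
  have haa : a * a = z := by
    rcases h.xsp.sqr a haE with h1 | h1
    · exfalso
      rcases h.cent_cent haE ha1 haz h1 hwc with h2 | h2 | h2 | h2 <;> rw [h2] at hwE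
      · exact hwE (one_mem _)
      · exact hwE h.xsp.mem
      · exact hwE haE
      · exact hwE (mul_mem h.xsp.mem haE)
    · exact h1
  -- the conjugate group
  obtain ⟨E', hE'⟩ : ∃ E', E' = E.map (MulAut.conj g).toMonoidHom := ⟨_, rfl⟩
  have hE'm : ∀ x, x ∈ E' ↔ g⁻¹ * x * g ∈ E := by
    intro x
    rw [hE', Subgroup.mem_map_equiv, MulAut.conj_symm_apply]
  have hx' : Xsp E' w := by rw [hE', hw]; exact h.xsp.conj g
  have hzE' : z ∉ E' := by
    intro h1
    rw [hE'm] at h1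
    have h2 := hcon g⁻¹ (by rwa [inv_inv])
    rw [inv_inv] at h2
    apply hgz
    rw [hw]
    calc g * z * g⁻¹ = g * (g⁻¹ * z * g) * g⁻¹ := by rw [h2]
      _ = z := by group
  have hnormE' : ∀ v, v * w = w * v → ∀ x ∈ E', v * x * v⁻¹ ∈ E' := by
    intro v hv x hx
    rw [hE'm] at hx ⊢
    have h1 := h.norm (g⁻¹ * v * g) (by
      rw [hw] at hv
      calc (g⁻¹ * v * g) * z = g⁻¹ * (v * (g * z * g⁻¹)) * g := by group
        _ = g⁻¹ * ((g * z * g⁻¹) * v) * g := by rw [hv]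
        _ = _ := by group) _ hx
    have e : g⁻¹ * v * g * (g⁻¹ * x * g) * (g⁻¹ * v * g)⁻¹ = g⁻¹ * (v * x * v⁻¹) * g := by group
    rwa [e] at h1
  have hzz := h.xsp.sq
  have hzc : ∀ x ∈ E, z * x = x * z := h.xsp.zc
  -- D = {1, z, a, z a}
  have hDeq : ∀ d ∈ D, d = 1 ∨ d = z ∨ d = a ∨ d = z * a := by
    intro d hd
    obtain ⟨hdE, hdY⟩ := (hDmem d).1 hd
    obtain ⟨e, he, hea⟩ := h.xsp.exists_not_comm haE ha1 haz
    have hea' : e * a ≠ a * e := fun h => hea h.symm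
    by_cases hde : d * e = e * d
    · rcases h.eq_of_comm haE he hea' (fun b hb hba => (hdY b (hYa b hb hba)).symm) hde with h1 | h1
      · exact Or.inl h1
      · exact Or.inr (Or.inl h1)
    · have h1 := h.xsp.not_comm_mul he hdE (inv_mem haE) (fun h => hde h.symm) (by
        intro h2
        apply hea'
        calc e * a = a * (a⁻¹ * e) * a := by group
          _ = a * (e * a⁻¹) * a := by rw [h2]
          _ = a * e := by group)
      rcases h.eq_of_comm haE he hea' (w := d * a⁻¹) (by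
          intro b hb hba
          have h3 := hdY b (hYa b hb hba)
          have h4 : a⁻¹ * b = b * a⁻¹ := by
            rw [inv_mul_eq_iff_eq_mul, ← mul_assoc, ← hba]; group
          calc d * a⁻¹ * b = d * (a⁻¹ * b) := by group
            _ = (d * b) * a⁻¹ := by rw [h4]; group
            _ = b * (d * a⁻¹) := by rw [← h3]; group) h1.symm with h2 | h2
      · right; right; left
        exact mul_inv_eq_one.1 h2
      · right; right; right
        rw [← h2]; group
  -- trivial intersection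
  have hU : ∀ u ∈ E, u ∈ E' → u = 1 := by
    intro u huE huE'
    have huw : u * w = w * u := (hx'.zc u huE').symm
    have huY : u ∈ Y := (hYmem u).2 ⟨huE, huw⟩
    have hu2 : u * u = 1 := by
      rcases h.xsp.sqr u huE with h1 | h1
      · exact h1
      · exact absurd (h1 ▸ mul_mem huE' huE') hzE'
    have huD : u ∈ D := by
      refine (hDmem u).2 ⟨huE, fun v hv => ?_⟩
      by_contra hne
      have h1 := (h.xsp.comm v (hYE hv) u huE).resolve_left hne
      apply hzE'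
      have h2 := hnormE' v ((hYmem v).1 hv).2 u huE'
      have h3 : z = (v * u * v⁻¹) * u⁻¹ := by rw [h1]; group
      rw [h3]
      exact mul_mem h2 (inv_mem huE')
    rcases hDeq u huD with h1 | h1 | h1 | h1
    · exact h1
    · exact absurd (h1 ▸ huE') hzE'
    · exfalso
      rw [h1, haa] at hu2
      exact h.xsp.ne hu2
    · exfalso
      rw [h1] at hu2
      apply h.xsp.ne
      calc z = a * a := haa.symm
        _ = (z * z) * (a * a) := by rw [hzz, one_mul]
        _ = z * (z * a) * a := by group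
        _ = z * (a * z) * a := by rw [hzc a haE]
        _ = z * a * (z * a) := by group
        _ = 1 := hu2
  -- R
  obtain ⟨R, hR⟩ : ∃ R, R = E' ⊓ Subgroup.centralizer ({z} : Set G) := ⟨_, rfl⟩
  have hRmem : ∀ a, a ∈ R ↔ a ∈ E' ∧ a * z = z * a := by
    intro a; rw [hR, Subgroup.mem_inf, Subgroup.mem_centralizer_singleton_iff]
  have hRlow : Nat.card E ≤ 2 * (Nat.card R * Nat.card R) := by
    have h1 := card_cent hx' (s := z) hzz hcomm.symm (by
      intro x hx
      have := hnormE' z hcomm.symm x hx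
      rwa [h.xsp.zinv] at this)
    rw [← hR] at h1
    have h2 : Nat.card E' = Nat.card E := by
      rw [hE']
      exact Nat.card_congr (E.equivMapOfInjective _ (MulAut.conj g).injective).symm.toEquiv
    rwa [h2] at h1
  have hRY : ∀ r ∈ R, ∀ y ∈ Y, r * y = y * r := by
    intro r hr y hy
    obtain ⟨hrE', hrz⟩ := (hRmem r).1 hr
    obtain ⟨hyE, hyw⟩ := (hYmem y).1 hy
    have h1 : r * y * r⁻¹ * y⁻¹ ∈ E := mul_mem (h.norm r hrz y hyE) (inv_mem hyE)
    have h2 : r * y * r⁻¹ * y⁻¹ ∈ E' := by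
      have : r * y * r⁻¹ * y⁻¹ = r * (y * r⁻¹ * y⁻¹) := by group
      rw [this]
      exact mul_mem hrE' (hnormE' y hyw _ (inv_mem hrE'))
    have h3 := hU _ h1 h2
    calc r * y = (r * y * r⁻¹ * y⁻¹) * (y * r) := by group
      _ = y * r := by rw [h3, one_mul]
  obtain ⟨e, he, hea⟩ := h.xsp.exists_not_comm haE ha1 haz
  have hea' : e * a ≠ a * e := fun h => hea h.symm
  have hdD : ∀ r ∈ R, e⁻¹ * (r * e * r⁻¹) ∈ D := by
    intro r hr
    obtain ⟨hrE', hrz⟩ := (hRmem r).1 hr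
    refine (hDmem _).2 ⟨mul_mem (inv_mem he) (h.norm r hrz e he), fun y hy => ?_⟩
    have hry := hRY r hr y hy
    have hyE := hYE hy
    have hry' : r⁻¹ * y * r = y := by rw [mul_assoc, ← hry]; group
    -- e⁻¹ y e and r conj
    have h5 : ∃ c, c ∈ Y ∧ (c * c = 1 ∨ True) ∧ e * y * e⁻¹ = c := by
      refine ⟨e * y * e⁻¹, ?_, Or.inr trivial, rfl⟩
      rcases h.xsp.conj_eq he hyE with h6 | h6 <;> rw [h6]
      · exact hy
      · exact mul_mem hzY hy
    obtain ⟨c, hcY, -, hc⟩ := h5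
    have hrc : r * c * r⁻¹ = c := by rw [hRY r hr c hcY]; group
    -- (r e r⁻¹) y (r e r⁻¹)⁻¹ = c
    have h6 : (r * e * r⁻¹) * y * (r * e * r⁻¹)⁻¹ = c := by
      calc (r * e * r⁻¹) * y * (r * e * r⁻¹)⁻¹ = r * (e * (r⁻¹ * y * r) * e⁻¹) * r⁻¹ := by group
        _ = c := by rw [hry', hc, hrc]
    have h7 : (r * e * r⁻¹) * y = c * (r * e * r⁻¹) := by
      calc (r * e * r⁻¹) * y = ((r * e * r⁻¹) * y * (r * e * r⁻¹)⁻¹) * (r * e * r⁻¹) := by group
        _ = _ := by rw [h6]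
    have h8 : e⁻¹ * c = y * e⁻¹ := by rw [← hc]; group
    calc y * (e⁻¹ * (r * e * r⁻¹)) = (y * e⁻¹) * (r * e * r⁻¹) := by group
      _ = e⁻¹ * (c * (r * e * r⁻¹)) := by rw [← h8]; group
      _ = e⁻¹ * (r * e * r⁻¹) * y := by rw [← h7]; group
  have hRup : Nat.card R ≤ 4 := by
    rw [← hDcard]
    apply Nat.card_le_card_of_injective (fun r : R => (⟨e⁻¹ * ((r : G) * e * (r : G)⁻¹), hdD r r.2⟩ : D))
    rintro ⟨r, hr⟩ ⟨r', hr'⟩ heq
    have h1 : e⁻¹ * (r * e * r⁻¹) = e⁻¹ * (r' * e * r'⁻¹) := Subtype.ext_iff.1 heq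
    have h2 : r * e * r⁻¹ = r' * e * r'⁻¹ := mul_left_cancel h1
    obtain ⟨hrE', hrz⟩ := (hRmem r).1 hr
    obtain ⟨hrE'2, hrz2⟩ := (hRmem r').1 hr'
    have h3 : (r'⁻¹ * r) * e = e * (r'⁻¹ * r) := by
      calc (r'⁻¹ * r) * e = r'⁻¹ * (r * e * r⁻¹) * r := by group
        _ = r'⁻¹ * (r' * e * r'⁻¹) * r := by rw [h2]
        _ = _ := by group
    have h4 : ∀ b ∈ E, b * a = a * b → (r'⁻¹ * r) * b = b * (r'⁻¹ * r) := by
      intro b hb hba
      have h5 := hRY r hr b (hYa b hb hba)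
      have h6 := hRY r' hr' b (hYa b hb hba)
      calc (r'⁻¹ * r) * b = r'⁻¹ * (r * b) := by group
        _ = r'⁻¹ * (b * r') * r'⁻¹ * r := by rw [h5]; group
        _ = r'⁻¹ * (r' * b) * r'⁻¹ * r := by rw [h6]
        _ = _ := by group
    have h5 : r'⁻¹ * r ∈ E := by
      rcases h.eq_of_comm haE he hea' h4 h3 with h6 | h6 <;> rw [h6]
      · exact one_mem _
      · exact h.xsp.mem
    have h6 := hU _ h5 (mul_mem (inv_mem hrE'2) hrE')
    apply Subtype.ext
    show r = r'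
    exact (inv_mul_eq_one.1 h6).symm
  nlinarith

/-- Let G be a finite group with no nontrivial 2-group quotient (O^2(G) = G), z an involution of G with H = C_G(z), and suppose E = O_2(H) is extraspecial with C_G(E) ≤ E and of order 2^(2n+1) with n ≥ 3. If H has a normal subgroup of index 2, then z is conjugate in G to an element of E other than z. -/
theorem result {G : Type*} [Group G] [Finite G] (hres : Cfsg.pResidual 2 G = ⊤) (z : G) (hz : orderOf z = 2)
    (E : Subgroup G) (hE : E = (Cfsg.pCore 2 ↥(Subgroup.centralizer ({z} : Set G))).map (Subgroup.centralizer ({z} : Set G)).subtype)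
    (hext : Cfsg.IsExtraspecial 2 ↥E) (hcent : Subgroup.centralizer (E : Set G) ≤ E) (n : ℕ) (hn : 3 ≤ n) (hcard : Nat.card ↥E = 2 ^ (2 * n + 1))
    (K : Subgroup G) (hKH : K ≤ Subgroup.centralizer ({z} : Set G))
    (hKn : ∀ h ∈ Subgroup.centralizer ({z} : Set G), K.map (MulAut.conj h).toMonoidHom = K)
    (hKi : K.relIndex (Subgroup.centralizer ({z} : Set G)) = 2) :
    ∃ g : G, g * z * g⁻¹ ∈ E ∧ g * z * g⁻¹ ≠ z := by
  by_contra hcon
  push Not at hcon
  exact main (XspH.index_ne_two hres) (XspH.conf_of hE hz hext hcent) n hn hcard K hKi hcon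

end Cfsg.Agent.S3300
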