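import Cfsg.Statements.S3301
import Mathlib
import Cfsg.Agent.H19_XspT

set_option autoImplicit false
open Cfsg

namespace Cfsg.Agent.S3301

open Cfsg.Agent.H19 Cfsg.Agent.H28.Xsp
open scoped commutatorElement

/-- the case `|E| ≥ 32`: every `N` of index two contains an element outside whose square is a commutator... -/
theorem main_big {G : Type*} [Group G] [Finite G] (hG : ∀ K : Subgroup G, K.index ≠ 2) {z : G}
    {E : Subgroup G} (h : XspH.Conf E z) (hbig : 32 ≤ Nat.card E)
    (N : Subgroup G) (h2 : (N.subgroupOf (Subgroup.centralizer ({z} : Set G))).index = 2)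
    (hsq : ∀ y : Subgroup.centralizer ({z} : Set G), y * y ∈ commutator (Subgroup.centralizer ({z} : Set G)) → (y : G) ∈ N) : False := by
  obtain ⟨H, hH⟩ : ∃ H, H = Subgroup.centralizer ({z} : Set G) := ⟨_, rfl⟩
  rw [← hH] at h2 hsq
  have hsq' : ∀ y ∈ H, (∃ c : H, c ∈ commutator H ∧ y * y = c) → y ∈ N := by
    rintro y hy ⟨c, hc, hyc⟩
    apply hsq ⟨y, hy⟩
    have : (⟨y, hy⟩ * ⟨y, hy⟩ : H) = c := Subtype.ext hyc
    rw [this]; exact hc
  apply XspH.criterion hG h (N := N) (by rw [← hH]; exact h2)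
  intro g hgz hcomm
  obtain ⟨w, hw⟩ : ∃ w, w = g * z * g⁻¹ := ⟨_, rfl⟩
  obtain ⟨Y, hY⟩ : ∃ Y, Y = E ⊓ Subgroup.centralizer ({w} : Set G) := ⟨_, rfl⟩
  have hYmem : ∀ a, a ∈ Y ↔ a ∈ E ∧ a * w = w * a := by
    intro a; rw [hY, Subgroup.mem_inf, Subgroup.mem_centralizer_singleton_iff]
  have hmem : ∀ y, y * w = w * y → g⁻¹ * y * g ∈ H := by
    intro y h1
    rw [hH, Subgroup.mem_centralizer_singleton_iff]
    rw [hw] at h1
    calc (g⁻¹ * y * g) * z = g⁻¹ * (y * (g * z * g⁻¹)) * g := by group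
      _ = g⁻¹ * ((g * z * g⁻¹) * y) * g := by rw [h1]
      _ = _ := by group
  rw [← hw] at hgz hcomm ⊢
  rw [← hY]
  have hYE : Y ≤ E := fun y hy => ((hYmem y).1 hy).1
  have hzY : z ∈ Y := (hYmem z).2 ⟨h.xsp.mem, hcomm.symm⟩
  right
  by_cases h4 : 4 * Nat.card Y ≤ Nat.card E
  · left
    refine ⟨h4, hsq' _ (hmem z hcomm.symm) ⟨1, one_mem _, ?_⟩⟩
    calc g⁻¹ * z * g * (g⁻¹ * z * g) = g⁻¹ * (z * z) * g := by group
      _ = 1 := by rw [h.xsp.sq]; group
  · right
    intro y hyE hyw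
    have hyY : y ∈ Y := (hYmem y).2 ⟨hyE, hyw.symm⟩
    apply hsq' _ (hmem y hyw.symm)
    rcases h.xsp.sqr y hyE with h1 | h1
    · refine ⟨1, one_mem _, ?_⟩
      calc g⁻¹ * y * g * (g⁻¹ * y * g) = g⁻¹ * (y * y) * g := by group
        _ = 1 := by rw [h1]; group
    · obtain ⟨a, ha, b, hb, hab⟩ := XspH.exists_noncomm h hYE hzY (by nlinarith)
      refine ⟨⁅(⟨_, hmem a ((hYmem a).1 ha).2⟩ : H), (⟨_, hmem b ((hYmem b).1 hb).2⟩ : H)⁆, Subgroup.commutator_mem_commutator (Subgroup.mem_top _) (Subgroup.mem_top _), ?_⟩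
      rw [commutatorElement_def]
      show g⁻¹ * y * g * (g⁻¹ * y * g) = (g⁻¹ * a * g) * (g⁻¹ * b * g) * (g⁻¹ * a * g)⁻¹ * (g⁻¹ * b * g)⁻¹
      calc g⁻¹ * y * g * (g⁻¹ * y * g) = g⁻¹ * (y * y) * g := by group
        _ = g⁻¹ * (a * b * a⁻¹ * b⁻¹) * g := by rw [h1, ← hab]
        _ = _ := by group

/-- A finite abelian group with a `2`-element of order bigger than two has a subgroup of index two containing all
elements of square one. -/
theorem exists_index_two {A : Type*} [CommGroup A] [Finite A] (q : A) (hq : ∃ k : ℕ, orderOf q = 2 ^ k) (hq2 : q ^ 2 ≠ 1) :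
    ∃ B : Subgroup A, B.index = 2 ∧ ∀ a : A, a * a = 1 → a ∈ B := by
  haveI : Fact (Nat.Prime 2) := ⟨Nat.prime_two⟩
  -- the squares
  let f : A →* A := powMonoidHom 2
  -- q^2 is a 2-element of the range, so 2 divides the order of the range
  obtain ⟨k, hk⟩ := hq
  have h2 : 2 ∣ Nat.card f.range := by
    have h1 : orderOf (q ^ 2) ∣ Nat.card f.range := by
      have := orderOf_dvd_natCard (⟨q ^ 2, ⟨q, rfl⟩⟩ : f.range)
      rwa [← Subgroup.orderOf_coe] at this
    have h3 : orderOf (q ^ 2) ∣ 2 ^ k := by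
      rw [← hk]; exact orderOf_pow_dvd 2
    obtain ⟨j, _, hj⟩ := (Nat.dvd_prime_pow Nat.prime_two).1 h3
    have hj0 : j ≠ 0 := by
      rintro rfl
      apply hq2
      rw [pow_zero, orderOf_eq_one_iff] at hj
      exact hj
    rw [hj] at h1
    exact (dvd_pow_self 2 hj0).trans h1
  -- a subgroup of index two in the range
  obtain ⟨C, hC⟩ : ∃ C : Subgroup f.range, C.index = 2 := by
    obtain ⟨m, hm⟩ := h2
    obtain ⟨x, hx⟩ := exists_prime_orderOf_dvd_card' (G := f.range) 2 (by rw [hm]; exact Dvd.intro _ rfl)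
    -- use Cauchy in the dual: take a maximal subgroup; squares
    have hns : ¬ Function.Surjective (powMonoidHom 2 : f.range →* f.range) := by
      intro hs
      have hi : Function.Injective (powMonoidHom 2 : f.range →* f.range) := Finite.injective_iff_surjective.2 hs
      have h5 : x = 1 := by
        apply hi
        show x ^ 2 = 1 ^ 2
        rw [one_pow, ← hx, pow_orderOf_eq_one]
      rw [h5, orderOf_one] at hx
      omega
    have h6 : (powMonoidHom 2 : f.range →* f.range).range ≠ ⊤ := by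
      intro h; exact hns (MonoidHom.range_eq_top.1 h)
    -- quotient by squares is elementary abelian
    let Q := f.range ⧸ (powMonoidHom 2 : f.range →* f.range).range
    have hQ2 : ∀ y : Q, y ^ 2 = 1 := by
      intro y
      obtain ⟨y, rfl⟩ := QuotientGroup.mk_surjective y
      rw [← QuotientGroup.mk_pow, QuotientGroup.eq_one_iff]
      exact ⟨y, rfl⟩
    have hQp : IsPGroup 2 Q := fun y => ⟨1, by rw [pow_one]; exact hQ2 y⟩
    obtain ⟨j, hj⟩ := (IsPGroup.iff_card).1 hQp
    have hj0 : j ≠ 0 := by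
      rintro rfl
      apply h6
      have : (powMonoidHom 2 : f.range →* f.range).range.index = 1 := by
        rw [Subgroup.index]; exact hj
      exact Subgroup.index_eq_one.1 this
    obtain ⟨l, rfl⟩ := Nat.exists_eq_succ_of_ne_zero hj0
    obtain ⟨K, hK⟩ := Sylow.exists_subgroup_card_pow_prime (G := Q) 2 (n := l) (by rw [hj]; exact pow_dvd_pow 2 (Nat.le_succ l))
    refine ⟨K.comap (QuotientGroup.mk' _), ?_⟩
    rw [Subgroup.index_comap_of_surjective _ (QuotientGroup.mk'_surjective _)]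
    have h7 := K.card_mul_index
    rw [hK, hj, pow_succ] at h7
    exact Nat.eq_of_mul_eq_mul_left (by positivity) h7
  refine ⟨C.comap f.rangeRestrict, ?_, ?_⟩
  · rw [Subgroup.index_comap_of_surjective _ f.rangeRestrict_surjective]; exact hC
  · intro a ha
    rw [Subgroup.mem_comap]
    have : f.rangeRestrict a = 1 := by
      apply Subtype.ext
      show a ^ 2 = 1
      rw [pow_two]; exact ha
    rw [this]; exact one_mem _

/-- if `C_H(E)` is small and `H` acts trivially on `E / E₁`, `E₁ / Z`, then `H` is a `2`-group -/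
theorem odd_trivial {G : Type*} [Group G] [Finite G] {X Y : Subgroup G} (hY : IsPGroup 2 Y) {t : G} (ht : Odd (orderOf t))
    (hcY : ∀ y ∈ Y, t * y = y * t) (hX : ∀ x ∈ X, x⁻¹ * (t * x * t⁻¹) ∈ Y) : ∀ x ∈ X, t * x = x * t := by
  intro x hx
  obtain ⟨d, hd⟩ : ∃ d, d = x⁻¹ * (t * x * t⁻¹) := ⟨_, rfl⟩
  have hdY : d ∈ Y := hd ▸ hX x hx
  have h1 : ∀ n : ℕ, t ^ n * x * (t ^ n)⁻¹ = x * d ^ n := by
    intro n
    induction n with
    | zero => simp
    | succ n ih =>
      have h2 : t * d ^ n * t⁻¹ = d ^ n := by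
        rw [hcY _ (pow_mem hdY n)]; group
      calc t ^ (n + 1) * x * (t ^ (n + 1))⁻¹ = t * (t ^ n * x * (t ^ n)⁻¹) * t⁻¹ := by
            rw [pow_succ']; group
        _ = (t * x * t⁻¹) * (t * d ^ n * t⁻¹) := by rw [ih]; group
        _ = (x * d) * d ^ n := by rw [h2, hd]; group
        _ = x * d ^ (n + 1) := by rw [pow_succ']; group
  have h2 := h1 (orderOf t)
  rw [pow_orderOf_eq_one, one_mul, inv_one, mul_one, left_eq_mul] at h2
  obtain ⟨k, hk⟩ := hY ⟨d, hdY⟩
  have hk' : d ^ (2 ^ k) = 1 := Subtype.ext_iff.1 hk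
  have h3 : orderOf d ∣ 1 := by
    have hc : Nat.Coprime (orderOf t) (2 ^ k) := (Nat.coprime_two_right.2 ht).pow_right k
    rw [← hc]
    exact Nat.dvd_gcd (orderOf_dvd_of_pow_eq_one h2) (orderOf_dvd_of_pow_eq_one hk')
  have h4 : d = 1 := orderOf_eq_one_iff.1 (Nat.dvd_one.1 h3)
  rw [h4] at hd
  have h5 : x = t * x * t⁻¹ := (inv_mul_eq_one.1 hd.symm)
  calc t * x = (t * x * t⁻¹) * t := by group
    _ = x * t := by rw [← h5]

theorem hyper {G : Type*} [Group G] [Finite G] {z : G} {E : Subgroup G} (h : XspH.Conf E z) {Y : Subgroup G}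
    (hYE : Y ≤ E) (hr : Y.relIndex E = 2) {a : G} (haE : a ∈ E) (ha1 : a ≠ 1) (haz : a ≠ z) (haY : ∀ y ∈ Y, y * a = a * y) :
    ∀ b ∈ E, b * a = a * b → b ∈ Y := by
  intro b hb hba
  have h1 : Y ≤ E ⊓ Subgroup.centralizer ({a} : Set G) := by
    intro y hy
    exact ⟨hYE hy, Subgroup.mem_centralizer_singleton_iff.2 (haY y hy)⟩
  by_contra hbY
  have h3 : E ≤ E ⊓ Subgroup.centralizer ({a} : Set G) := by
    have h4 : Y.relIndex (E ⊓ Subgroup.centralizer ({a} : Set G)) * (E ⊓ Subgroup.centralizer ({a} : Set G)).relIndex E = 2 := by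
      rw [Subgroup.relIndex_mul_relIndex _ _ _ h1 inf_le_left, hr]
    have h5 : Y.relIndex (E ⊓ Subgroup.centralizer ({a} : Set G)) ≠ 1 := by
      intro h6
      apply hbY
      rw [Subgroup.relIndex_eq_one] at h6
      exact h6 ⟨hb, Subgroup.mem_centralizer_singleton_iff.2 hba⟩
    rw [← Subgroup.relIndex_eq_one]
    have h7 : (E ⊓ Subgroup.centralizer ({a} : Set G)).relIndex E ∣ 2 := Dvd.intro_left _ h4
    rcases (Nat.dvd_prime Nat.prime_two).1 h7 with h8 | h8
    · exact h8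
    · rw [h8] at h4; omega
  obtain ⟨y, hy, hay⟩ := h.xsp.exists_not_comm haE ha1 haz
  exact hay (Subgroup.mem_centralizer_singleton_iff.1 (h3 hy).2).symm

/-- elements of `H` acting trivially on `E / ⟨z⟩` lie in `E` -/
theorem mem_of_trivial {G : Type*} [Group G] [Finite G] {z : G} {E : Subgroup G} (h : XspH.Conf E z) {c : G}
    (hc : ∀ y ∈ E, c * y * c⁻¹ = y ∨ c * y * c⁻¹ = z * y) : c ∈ E := by
  classical
  obtain ⟨Y, hY⟩ : ∃ Y, Y = E ⊓ Subgroup.centralizer ({c} : Set G) := ⟨_, rfl⟩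
  have hYmem : ∀ a, a ∈ Y ↔ a ∈ E ∧ a * c = c * a := by
    intro a; rw [hY, Subgroup.mem_inf, Subgroup.mem_centralizer_singleton_iff]
  have hYE : Y ≤ E := fun y hy => ((hYmem y).1 hy).1
  have hzz := h.xsp.sq
  have hcz : z * c = c * z := by
    rcases hc z h.xsp.mem with h1 | h1
    · calc z * c = (c * z * c⁻¹) * c := by rw [h1]
        _ = c * z := by group
    · exfalso
      rw [hzz] at h1
      apply h.xsp.ne
      calc z = c⁻¹ * (c * z * c⁻¹) * c := by group
        _ = 1 := by rw [h1]; group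
  have hzY : z ∈ Y := (hYmem z).2 ⟨h.xsp.mem, hcz⟩
  by_cases hEY : E ≤ Y
  · apply h.cent
    rw [Subgroup.mem_centralizer_iff]
    intro y hy
    exact ((hYmem y).1 (hEY hy)).2
  -- index two
  have hmulY : ∀ x ∈ E, ∀ y ∈ E, x ∉ Y → y ∉ Y → x⁻¹ * y ∈ Y := by
    intro x hx y hy hxY hyY
    have hx1 : c * x * c⁻¹ = z * x := (hc x hx).resolve_left (by
      intro h1; apply hxY; refine (hYmem x).2 ⟨hx, ?_⟩
      calc x * c = (c * x * c⁻¹) * c := by rw [h1]
        _ = c * x := by group)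
    have hy1 : c * y * c⁻¹ = z * y := (hc y hy).resolve_left (by
      intro h1; apply hyY; refine (hYmem y).2 ⟨hy, ?_⟩
      calc y * c = (c * y * c⁻¹) * c := by rw [h1]
        _ = c * y := by group)
    refine (hYmem _).2 ⟨mul_mem (inv_mem hx) hy, ?_⟩
    have h1 : c * (x⁻¹ * y) * c⁻¹ = x⁻¹ * y := by
      calc c * (x⁻¹ * y) * c⁻¹ = (c * x * c⁻¹)⁻¹ * (c * y * c⁻¹) := by group
        _ = x⁻¹ * z⁻¹ * (z * y) := by rw [hx1, hy1, mul_inv_rev]
        _ = x⁻¹ * y := by group
    calc x⁻¹ * y * c = (c * (x⁻¹ * y) * c⁻¹) * c := by rw [h1]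
      _ = c * (x⁻¹ * y) := by group
  have hr : Y.relIndex E = 2 := by
    show (Y.subgroupOf E).index = 2
    rw [Subgroup.index_eq_two_iff_exists_notMem_and]
    obtain ⟨e, he, heY⟩ := SetLike.not_le_iff_exists.1 hEY
    refine ⟨⟨e, he⟩, by rwa [Subgroup.mem_subgroupOf], ?_⟩
    intro b
    rw [Subgroup.mem_subgroupOf, Subgroup.mem_subgroupOf]
    by_cases hb : (b : G) ∈ Y
    · exact Or.inr hb
    · left
      have h1 : (b : G)⁻¹ ∉ Y := fun h2 => hb (by simpa using inv_mem h2)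
      have := hmulY (b : G)⁻¹ (inv_mem b.2) e he h1 heY
      rwa [inv_inv] at this
  have hidx : Nat.card Y * Y.relIndex E = Nat.card E := H2.Card.card_mul_relIndex hYE
  have hYpos : 0 < Nat.card Y := Nat.card_pos
  obtain ⟨D, hD⟩ : ∃ D, D = E ⊓ Subgroup.centralizer (Y : Set G) := ⟨_, rfl⟩
  have hDmem : ∀ d, d ∈ D ↔ d ∈ E ∧ ∀ y ∈ Y, y * d = d * y := by
    intro d; rw [hD, Subgroup.mem_inf, Subgroup.mem_centralizer_iff]; rfl
  have hDcard : Nat.card D = 4 := by
    have h1 := h.xsp.duality hzY hYE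
    rw [← hD] at h1
    rw [← hidx, hr] at h1
    have h2 : Nat.card Y * Nat.card D = Nat.card Y * 4 := by rw [h1]; ring
    exact Nat.eq_of_mul_eq_mul_left hYpos h2
  obtain ⟨a, haD, ha1, haz⟩ : ∃ a ∈ D, a ≠ 1 ∧ a ≠ z := by
    by_contra hno
    push Not at hno
    have h1 : D ≤ Subgroup.zpowers z := by
      intro d hd
      rw [mem_zpowers_of_sq h.xsp.sq]
      by_cases hd1 : d = 1
      · exact Or.inl hd1
      · exact Or.inr (hno d hd hd1)
    have h2 := Nat.card_mono (Set.toFinite _) h1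
    rw [SetLike.coe_sort_coe, SetLike.coe_sort_coe, hDcard, h.xsp.card_zpowers] at h2
    omega
  obtain ⟨haE, haY⟩ := (hDmem a).1 haD
  have hYa := hyper h hYE hr haE ha1 haz haY
  obtain ⟨e, he, hea⟩ := h.xsp.exists_not_comm haE ha1 haz
  have hea' : e * a ≠ a * e := fun h => hea h.symm
  have heY : e ∉ Y := fun h1 => hea' (haY e h1)
  have h1 : c * e * c⁻¹ = z * e := (hc e he).resolve_left (by
      intro h1; apply heY; refine (hYmem e).2 ⟨he, ?_⟩
      calc e * c = (c * e * c⁻¹) * c := by rw [h1]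
        _ = c * e := by group)
  have h2 : a * e * a⁻¹ = z * e := h.xsp.conj_eq_of_not_comm haE he hea
  have h3 : (a⁻¹ * c) * e = e * (a⁻¹ * c) := by
    calc (a⁻¹ * c) * e = a⁻¹ * (c * e * c⁻¹) * c := by group
      _ = a⁻¹ * (a * e * a⁻¹) * c := by rw [h1, h2]
      _ = e * (a⁻¹ * c) := by group
  have h4 : ∀ b ∈ E, b * a = a * b → (a⁻¹ * c) * b = b * (a⁻¹ * c) := by
    intro b hb hba
    have h5 := ((hYmem b).1 (hYa b hb hba)).2
    calc (a⁻¹ * c) * b = a⁻¹ * (c * b) := by group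
      _ = a⁻¹ * (b * a) * a⁻¹ * c := by rw [← h5]; group
      _ = b * (a⁻¹ * c) := by rw [hba]; group
  have h5 : a⁻¹ * c ∈ E := by
    rcases h.eq_of_comm haE he hea' h4 h3 with h6 | h6 <;> rw [h6]
    · exact one_mem _
    · exact h.xsp.mem
  have := mul_mem haE h5
  rwa [mul_inv_cancel_left] at this

/-- for `|E| = 8` the square of a `2`-element of `H` is in `E`. -/
theorem sq_mem {G : Type*} [Group G] [Finite G] {z : G} {E : Subgroup G} (h : XspH.Conf E z) (hc8 : Nat.card E = 8)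
    {t : G} (htz : t * z = z * t) (ht : ∃ k, orderOf t = 2 ^ k) : t * t ∈ E := by
  haveI : Fact (Nat.Prime 2) := ⟨Nat.prime_two⟩
  have hinvz : t⁻¹ * z = z * t⁻¹ := by
    rw [inv_mul_eq_iff_eq_mul, ← mul_assoc, htz, mul_inv_cancel_right]
  obtain ⟨k, hk⟩ := ht
  have hT2 : IsPGroup 2 (Subgroup.zpowers t ⊔ E : Subgroup G) := by
    have h3 : IsPGroup 2 (Subgroup.zpowers t) := by
      rw [IsPGroup.iff_card]; exact ⟨k, by rw [Nat.card_zpowers, hk]⟩
    apply IsPGroup.to_sup_of_normal_right' h3 h.xsp.isPGroup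
    rw [Subgroup.zpowers_le, Subgroup.mem_normalizer_iff]
    intro y
    constructor
    · exact h.norm t htz y
    · intro hy
      have h5 := h.norm t⁻¹ hinvz _ hy
      have e : t⁻¹ * (t * y * t⁻¹) * t⁻¹⁻¹ = y := by group
      rwa [e] at h5
  obtain ⟨T, hT⟩ : ∃ T, T = (Subgroup.zpowers t ⊔ E : Subgroup G) := ⟨_, rfl⟩
  rw [← hT] at hT2
  have htT : t ∈ T := by rw [hT]; exact Subgroup.mem_sup_left (Subgroup.mem_zpowers t)
  have hET : E ≤ T := by rw [hT]; exact le_sup_right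
  have hTH : T ≤ Subgroup.centralizer ({z} : Set G) := by
    rw [hT, sup_le_iff, Subgroup.zpowers_le]
    refine ⟨Subgroup.mem_centralizer_singleton_iff.2 htz, fun y hy => ?_⟩
    rw [Subgroup.mem_centralizer_singleton_iff]
    exact (h.xsp.zc y hy).symm
  have hs := XspH.setting h hTH hET hT2
  haveI := hs.nor
  have hzT : z ∈ T := hET h.xsp.mem
  let z' : T := ⟨z, hzT⟩
  haveI hZn : (Subgroup.zpowers z').Normal := by
    refine ⟨fun y hy g => ?_⟩
    have hgz : ∀ w ∈ Subgroup.zpowers z', g * w * g⁻¹ = w := by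
      intro w hw
      obtain ⟨m, rfl⟩ := Subgroup.mem_zpowers_iff.1 hw
      have h1 : Commute z' g := hs.zc g
      have h2 := (h1.zpow_left m).eq
      rw [← h2]; group
    rw [hgz y hy]; exact hy
  have hmemZ : ∀ w : T, w ∈ Subgroup.zpowers z' ↔ w = 1 ∨ w = z' := fun w => mem_zpowers_of_sq hs.sq
  have hlt : Subgroup.zpowers z' < E.subgroupOf T := by
    refine lt_of_le_of_ne ?_ ?_
    · rw [Subgroup.zpowers_le]; exact hs.mem
    · intro heq
      have h1 : Nat.card (E.subgroupOf T) = 8 := by rw [H2.Card.card_subgroupOf_of_le hET, hc8]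
      have h2 : Nat.card (Subgroup.zpowers z') = 2 := by
        rw [Nat.card_zpowers]
        have : orderOf z' = orderOf z := Subgroup.orderOf_mk z hzT
        rw [this, h.xsp.orderOf_z]
      rw [← heq, h2] at h1
      omega
  obtain ⟨L, hLn, hZL, hLE, hLi, hLc⟩ := H2.PGroup.exists_normal_relIndex hT2 hlt
  have hcZ : Nat.card (Subgroup.zpowers z') = 2 := by
    rw [Nat.card_zpowers]
    have : orderOf z' = orderOf z := Subgroup.orderOf_mk z hzT
    rw [this, h.xsp.orderOf_z]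
  have hcE : Nat.card (E.subgroupOf T) = 8 := by rw [H2.Card.card_subgroupOf_of_le hET, hc8]
  have hcL : Nat.card L = 4 := by
    have := H2.Card.card_mul_relIndex hLE
    rw [hLi, hcE] at this
    omega
  have hlt2 : Subgroup.zpowers z' < L := by
    refine lt_of_le_of_ne hZL ?_
    intro heq
    rw [← heq, hcZ] at hcL
    omega
  obtain ⟨L', hLn', hZL', hLE', hLi', hLc'⟩ := H2.PGroup.exists_normal_relIndex hT2 hlt2
  have hcL' : Nat.card L' = 2 := by
    have := H2.Card.card_mul_relIndex hLE'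
    rw [hLi', hcL] at this
    omega
  have hL'eq : L' = Subgroup.zpowers z' :=
    (Subgroup.eq_of_le_of_card_ge hZL' (by rw [hcL', hcZ])).symm
  apply mem_of_trivial h
  intro y hy
  let t' : T := ⟨t, htT⟩
  let y' : T := ⟨y, hET hy⟩
  have h1 : ⁅y', t'⁆ ∈ L := hLc (Subgroup.commutator_mem_commutator (Subgroup.mem_subgroupOf.2 hy) (Subgroup.mem_top _))
  -- t y t⁻¹ = d⁻¹ y with d = [y,t]... 
  obtain ⟨d, hd⟩ : ∃ d, d = t' * y' * t'⁻¹ * y'⁻¹ := ⟨_, rfl⟩
  have hdL : d ∈ L := by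
    have : d = ⁅y', t'⁆⁻¹ := by rw [hd, commutatorElement_def]; group
    rw [this]; exact inv_mem h1
  have h2 : ⁅d, t'⁆ ∈ L' := hLc' (Subgroup.commutator_mem_commutator hdL (Subgroup.mem_top _))
  have h3 : t' * d * t'⁻¹ = ⁅d, t'⁆⁻¹ * d := by rw [commutatorElement_def]; group
  have h4 : ⁅d, t'⁆⁻¹ ∈ Subgroup.zpowers z' := by rw [← hL'eq]; exact inv_mem h2
  have h5 : t' * t' * y' * (t' * t')⁻¹ = ⁅d, t'⁆⁻¹ * (d * d) * y' := by
    have e1 : t' * y' * t'⁻¹ = d * y' := by rw [hd]; group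
    calc t' * t' * y' * (t' * t')⁻¹ = t' * (t' * y' * t'⁻¹) * t'⁻¹ := by group
      _ = t' * (d * y') * t'⁻¹ := by rw [e1]
      _ = (t' * d * t'⁻¹) * (t' * y' * t'⁻¹) := by group
      _ = _ := by rw [h3, e1]; group
  have h6 : d * d ∈ Subgroup.zpowers z' := by
    rw [hmemZ]
    exact hs.sqr d (hLE hdL)
  have h7 : ⁅d, t'⁆⁻¹ * (d * d) ∈ Subgroup.zpowers z' := mul_mem h4 h6
  rw [hmemZ] at h7
  rcases h7 with h7 | h7
  · left
    rw [h7, one_mul] at h5
    exact Subtype.ext_iff.1 h5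
  · right
    rw [h7] at h5
    exact Subtype.ext_iff.1 h5

theorem comm_aux {G : Type*} [Group G] {H : Subgroup G} {a b : G} (ha : a ∈ H) (hb : b ∈ H) :
    a⁻¹ * (b * a * b⁻¹) ∈ (commutator H).map H.subtype := by
  refine ⟨⁅(⟨a, ha⟩ : H)⁻¹, (⟨b, hb⟩ : H)⁆, Subgroup.commutator_mem_commutator (Subgroup.mem_top _) (Subgroup.mem_top _), ?_⟩
  rw [commutatorElement_def]
  show a⁻¹ * b * a⁻¹⁻¹ * b⁻¹ = _
  group

theorem main_small {G : Type*} [Group G] [Finite G] {z : G} {E : Subgroup G} (h : XspH.Conf E z)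
    (hE : E = (Cfsg.pCore 2 ↥(Subgroup.centralizer ({z} : Set G))).map (Subgroup.centralizer ({z} : Set G)).subtype)
    (hc8 : Nat.card E = 8) {t : G} (htH : t ∈ Subgroup.centralizer ({z} : Set G)) (ht : ∃ k, orderOf t = 2 ^ k) :
    t * t ∈ (commutator (Subgroup.centralizer ({z} : Set G))).map (Subgroup.centralizer ({z} : Set G)).subtype := by
  classical
  haveI : Fact (Nat.Prime 2) := ⟨Nat.prime_two⟩
  obtain ⟨H, hH⟩ : ∃ H, H = Subgroup.centralizer ({z} : Set G) := ⟨_, rfl⟩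
  rw [← hH] at htH hE ⊢
  have hmemH : ∀ c, c ∈ H ↔ c * z = z * c := by
    intro c; rw [hH, Subgroup.mem_centralizer_singleton_iff]
  obtain ⟨D, hD⟩ : ∃ D, D = (commutator H).map H.subtype := ⟨_, rfl⟩
  rw [← hD]
  have hEH : E ≤ H := by rw [hE]; exact Subgroup.map_subtype_le _
  have hcomm : ∀ a b, a ∈ H → b ∈ H → a⁻¹ * (b * a * b⁻¹) ∈ D := by
    intro a b ha hb; rw [hD]; exact comm_aux ha hb
  have hzD : z ∈ D := by
    obtain ⟨a, ha, b, hb, hab⟩ := h.nc
    have h1 := h.xsp.conj_eq_of_not_comm ha hb hab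
    have h2 := hcomm b a (hEH hb) (hEH ha)
    rw [h1] at h2
    have : b⁻¹ * (z * b) = z := by
      rw [h.xsp.zc b hb]; group
    rwa [this] at h2
  by_cases hED : E ≤ D
  · exact hED (sq_mem h hc8 ((hmemH t).1 htH) ht)
  -- H is a 2-group
  have hDn : ∀ c ∈ H, ∀ y ∈ D, c * y * c⁻¹ ∈ D := by
    intro c hc y hy
    rw [hD] at hy ⊢
    obtain ⟨w, hw, rfl⟩ := hy
    haveI : (commutator H).Normal := inferInstance
    exact ⟨⟨c, hc⟩ * w * ⟨c, hc⟩⁻¹, this.conj_mem w hw _, rfl⟩
  have hE1 : ∀ s ∈ H, Odd (orderOf s) → s = 1 := by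
    intro s hs hodd
    have hE1lt : E ⊓ D < E := lt_of_le_of_ne inf_le_left (fun h1 => hED (h1 ▸ inf_le_right))
    have hrel : (E ⊓ D).relIndex E ≠ 1 := by
      intro h1
      rw [Subgroup.relIndex_eq_one] at h1
      exact hE1lt.not_ge h1
    have hmul := H2.Card.card_mul_relIndex hE1lt.le
    rw [hc8] at hmul
    -- t centralizes E1
    have hZ1 : Subgroup.zpowers z ≤ E ⊓ D := by
      rw [Subgroup.zpowers_le]; exact ⟨h.xsp.mem, hzD⟩
    have hmul2 := H2.Card.card_mul_relIndex hZ1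
    rw [h.xsp.card_zpowers] at hmul2
    have hs2 : (Subgroup.zpowers z).relIndex (E ⊓ D) = 1 ∨ (Subgroup.zpowers z).relIndex (E ⊓ D) = 2 := by
      have h3 : (Subgroup.zpowers z).relIndex (E ⊓ D) * (E ⊓ D).relIndex E = 4 := by
        have : 2 * ((Subgroup.zpowers z).relIndex (E ⊓ D) * (E ⊓ D).relIndex E) = 8 := by
          rw [← hmul, ← hmul2]; ring
        omega
      have h4 : (Subgroup.zpowers z).relIndex (E ⊓ D) ∣ 4 := Dvd.intro _ h3
      have h5 : (Subgroup.zpowers z).relIndex (E ⊓ D) ≤ 4 := Nat.le_of_dvd (by norm_num) h4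
      generalize (Subgroup.zpowers z).relIndex (E ⊓ D) = m at *
      generalize (E ⊓ D).relIndex E = k at *
      interval_cases m
      · omega
      · exact Or.inl rfl
      · exact Or.inr rfl
      · omega
      · exfalso; apply hrel; omega
    have hsz := (hmemH s).1 hs
    have hsE : ∀ y ∈ E, s * y * s⁻¹ ∈ E := h.norm s hsz
    have c1 : ∀ x ∈ E ⊓ D, s * x = x * s := by
      apply odd_trivial (Y := Subgroup.zpowers z) (by
        rw [IsPGroup.iff_card]; exact ⟨1, by rw [h.xsp.card_zpowers]; norm_num⟩) hodd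
      · intro y hy
        rcases (mem_zpowers_of_sq h.xsp.sq).1 hy with rfl | rfl
        · simp
        · exact hsz
      · intro x hx
        have hx2 : s * x * s⁻¹ ∈ E ⊓ D := ⟨hsE x hx.1, hDn s hs x hx.2⟩
        rcases hs2 with h3 | h3
        · rw [Subgroup.relIndex_eq_one] at h3
          exact h3 (mul_mem (inv_mem hx) hx2)
        · by_cases hxz : x ∈ Subgroup.zpowers z
          · have : s * x * s⁻¹ = x := by
              rcases (mem_zpowers_of_sq h.xsp.sq).1 hxz with rfl | rfl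
              · simp
              · rw [hsz]; group
            rw [this, inv_mul_cancel]; exact one_mem _
          · have hx3 : s * x * s⁻¹ ∉ Subgroup.zpowers z := by
              intro h4
              apply hxz
              have e : x = s⁻¹ * (s * x * s⁻¹) * s := by group
              rcases (mem_zpowers_of_sq h.xsp.sq).1 h4 with h5 | h5
              · rw [e, h5]; simp
              · rw [e, h5]
                have : s⁻¹ * z * s = z := by rw [mul_assoc, ← hsz]; group
                rw [this]; exact Subgroup.mem_zpowers z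
            have h5 := Subgroup.mul_mem_iff_of_index_two (H := (Subgroup.zpowers z).subgroupOf (E ⊓ D)) h3
              (a := ⟨x⁻¹, Subgroup.inv_mem (E ⊓ D) hx⟩) (b := ⟨s * x * s⁻¹, hx2⟩)
            simp only [Subgroup.mem_subgroupOf] at h5
            apply h5.2
            constructor
            · intro h6
              exact absurd (by simpa using inv_mem h6) hxz
            · intro h6
              exact absurd h6 hx3
    have c2 : ∀ x ∈ E, s * x = x * s := by
      apply odd_trivial (Y := E ⊓ D) (h.xsp.isPGroup.to_le inf_le_left) hodd c1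
      intro x hx
      exact Subgroup.mem_inf.2 ⟨mul_mem (inv_mem hx) (hsE x hx), hcomm x s (hEH hx) hs⟩
    have c3 : s ∈ E := by
      apply h.cent
      rw [Subgroup.mem_centralizer_iff]
      intro y hy; exact (c2 y hy).symm
    obtain ⟨k, hk⟩ := h.xsp.isPGroup ⟨s, c3⟩
    have hk' : s ^ (2 ^ k) = 1 := Subtype.ext_iff.1 hk
    have h3 : orderOf s ∣ 1 := by
      have hc : Nat.Coprime (orderOf s) (2 ^ k) := (Nat.coprime_two_right.2 hodd).pow_right k
      rw [← hc]
      exact Nat.dvd_gcd dvd_rfl (orderOf_dvd_of_pow_eq_one hk')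
    exact orderOf_eq_one_iff.1 (Nat.dvd_one.1 h3)
  have hH2 : IsPGroup 2 H := by
    intro s
    obtain ⟨a, q, hq, hodd⟩ := Nat.exists_eq_pow_mul_and_not_dvd (orderOf_pos s).ne' 2 (by norm_num)
    refine ⟨a, ?_⟩
    apply Subtype.ext
    apply hE1 _ (s ^ (2 ^ a)).2
    rw [Subgroup.orderOf_coe, orderOf_pow_of_dvd (by positivity) ⟨q, hodd⟩, hodd, Nat.mul_div_cancel_left _ (by positivity)]
    rw [← Nat.not_even_iff_odd, even_iff_two_dvd]; exact hq
  have htop : Cfsg.pCore 2 H = ⊤ := by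
    rw [eq_top_iff]
    apply le_sSup
    exact ⟨inferInstance, hH2.to_subgroup _⟩
  have htE : t ∈ E := by
    rw [hE, htop]
    exact ⟨⟨t, htH⟩, trivial, rfl⟩
  rcases h.xsp.sqr t htE with h1 | h1 <;> rw [h1]
  · exact one_mem _
  · exact hzD

/-- Let G be a finite group with no nontrivial 2-group quotient (O^2(G) = G), z an involution of G with H = C_G(z), and suppose E = O_2(H) is extraspecial with C_G(E) ≤ E. Then the Sylow 2-subgroups of H/[H, H] are elementary abelian: every element of 2-power order of the abelianization of H has order at most 2. -/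
theorem result {G : Type*} [Group G] [Finite G] (hres : Cfsg.pResidual 2 G = ⊤) (z : G) (hz : orderOf z = 2)
    (E : Subgroup G) (hE : E = (Cfsg.pCore 2 ↥(Subgroup.centralizer ({z} : Set G))).map (Subgroup.centralizer ({z} : Set G)).subtype)
    (hext : Cfsg.IsExtraspecial 2 ↥E) (hcent : Subgroup.centralizer (E : Set G) ≤ E) :
    ∀ q : Abelianization ↥(Subgroup.centralizer ({z} : Set G)), (∃ k : ℕ, orderOf q = 2 ^ k) → q ^ 2 = 1 := by
  classical
  haveI : Fact (Nat.Prime 2) := ⟨Nat.prime_two⟩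
  have hconf := XspH.conf_of hE hz hext hcent
  intro q hq
  by_contra hq2
  obtain ⟨n, hn1, hcardE, -⟩ := H2.Extra.card_eq hext
  by_cases hn : n = 1
  · -- small case
    rw [hn] at hcardE
    have hc8 : Nat.card E = 8 := by rw [hcardE]; norm_num
    obtain ⟨t, rfl⟩ := QuotientGroup.mk_surjective q
    obtain ⟨a, m, hm, hodd⟩ := Nat.exists_eq_pow_mul_and_not_dvd (orderOf_pos t).ne' 2 (by norm_num)
    have hmo : Odd m := by
      rw [← Nat.not_even_iff_odd, even_iff_two_dvd]; exact hm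
    have h1 : orderOf (((t ^ m : ↥(Subgroup.centralizer ({z} : Set G)))) : G) = 2 ^ a := by
      rw [Subgroup.orderOf_coe, orderOf_pow_of_dvd hmo.pos.ne' ⟨2 ^ a, by rw [hodd]; ring⟩, hodd]
      exact Nat.mul_div_cancel _ hmo.pos
    have h2 := main_small hconf hE hc8 (t ^ m).2 ⟨a, h1⟩
    obtain ⟨w, hw, hwt⟩ := h2
    have h3 : w = t ^ m * t ^ m := Subtype.ext hwt
    rw [h3] at hw
    have h4 : Abelianization.of (t ^ m * t ^ m) = 1 := (QuotientGroup.eq_one_iff _).2 hw
    have h5 : (Abelianization.of t ^ 2) ^ m = 1 := by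
      rw [map_mul, map_pow, ← pow_add, ← two_mul, pow_mul] at h4
      exact h4
    obtain ⟨k, hk⟩ := hq
    have h6 : (Abelianization.of t ^ 2) ^ (2 ^ k) = 1 := by
      have h7 : Abelianization.of t ^ (2 ^ k) = 1 := by
        have := pow_orderOf_eq_one (Abelianization.of t)
        rw [← hk]; exact this
      rw [← pow_mul, mul_comm, pow_mul, h7, one_pow]
    apply hq2
    have h8 : orderOf (Abelianization.of t ^ 2) ∣ 1 := by
      have hc : Nat.Coprime m (2 ^ k) := (Nat.coprime_two_right.2 hmo).pow_right k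
      rw [← hc]
      exact Nat.dvd_gcd (orderOf_dvd_of_pow_eq_one h5) (orderOf_dvd_of_pow_eq_one h6)
    exact orderOf_eq_one_iff.1 (Nat.dvd_one.1 h8)
  · have hbig : 32 ≤ Nat.card E := by
      rw [hcardE]
      calc 32 = 2 ^ 5 := by norm_num
        _ ≤ _ := Nat.pow_le_pow_right (by norm_num) (by omega)
    obtain ⟨B, hB1, hB2⟩ := exists_index_two q hq hq2
    have hsub : ((B.comap Abelianization.of).map (Subgroup.centralizer ({z} : Set G)).subtype).subgroupOf (Subgroup.centralizer ({z} : Set G)) = B.comap Abelianization.of := by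
      ext y
      rw [Subgroup.mem_subgroupOf]
      constructor
      · rintro ⟨w, hw, hwy⟩
        have : w = y := Subtype.ext hwy
        rw [← this]; exact hw
      · intro hy; exact ⟨y, hy, rfl⟩
    refine main_big (XspH.index_ne_two hres) hconf hbig ((B.comap Abelianization.of).map (Subgroup.centralizer ({z} : Set G)).subtype) ?_ ?_
    · rw [hsub, Subgroup.index_comap_of_surjective _ QuotientGroup.mk_surjective]; exact hB1
    · intro y hy
      refine ⟨y, ?_, rfl⟩
      show Abelianization.of y ∈ B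
      apply hB2
      rw [← map_mul]
      exact (QuotientGroup.eq_one_iff _).2 hy

end Cfsg.Agent.S3301
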