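import Cfsg.Statements.S3305
import Mathlib
import Cfsg.Agent.H13_Syl
import Cfsg.Agent.H1_Hall

set_option autoImplicit false
open Cfsg

namespace Cfsg.Agent.S3305


/-- If any two distinct Sylow 2-subgroups of the finite group G intersect in a cyclic group, then the same holds in every quotient group G/H, H a normal subgroup of G. -/
theorem result {G : Type*} [Group G] [Finite G]
    (hC : ∀ S T : Sylow 2 G, S ≠ T → IsCyclic ↥((S : Subgroup G) ⊓ (T : Subgroup G))) (H : Subgroup G) [H.Normal] :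
    ∀ S T : Sylow 2 (G ⧸ H), S ≠ T → IsCyclic ↥((S : Subgroup (G ⧸ H)) ⊓ (T : Subgroup (G ⧸ H))) := by
  classical
  have : Fact (Nat.Prime 2) := ⟨Nat.prime_two⟩
  intro S T hST
  set π := QuotientGroup.mk' H with hπ
  have hπs : Function.Surjective π := QuotientGroup.mk'_surjective H
  set K := ((S : Subgroup (G ⧸ H)) ⊓ (T : Subgroup (G ⧸ H))).comap π with hK
  obtain ⟨P₀, hP₀⟩ := H13.Syl.exists_isSylIn (p := 2) K
  have hlift : ∀ (U : Sylow 2 (G ⧸ H)), P₀ ≤ (U : Subgroup (G ⧸ H)).comap π → ∃ V : Sylow 2 G, P₀ ≤ (V : Subgroup G) ∧ (V : Subgroup G).map π = (U : Subgroup (G ⧸ H)) := by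
    intro U hU
    obtain ⟨V, hPV, hV⟩ := H13.Syl.exists_isSylIn_ge hP₀.isPGroup hU
    -- V is Sylow in G
    have hidx : ¬ 2 ∣ ((U : Subgroup (G ⧸ H)).comap π).index := by
      rw [Subgroup.index_comap_of_surjective _ hπs]
      exact U.not_dvd_index
    have hVi : ¬ 2 ∣ V.index := by
      rw [← Subgroup.relIndex_mul_index hV.le]
      intro h
      rcases (Nat.prime_two.dvd_mul).1 h with h | h
      · exact hV.not_dvd h
      · exact hidx h
    let V' : Sylow 2 G := hV.isPGroup.toSylow hVi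
    refine ⟨V', hPV, ?_⟩
    show V.map π = _
    have h1 : V.map π ≤ (U : Subgroup (G ⧸ H)) := by
      rw [Subgroup.map_le_iff_le_comap]; exact hV.le
    have h2 : ¬ 2 ∣ (V.map π).index := fun h => hVi (h.trans (V.index_map_dvd hπs))
    let W : Sylow 2 (G ⧸ H) := (hV.isPGroup.map π).toSylow h2
    exact (W.is_maximal' U.isPGroup' h1).symm ▸ rfl
  have hPS : P₀ ≤ (S : Subgroup (G ⧸ H)).comap π := hP₀.le.trans (Subgroup.comap_mono inf_le_left)
  have hPT : P₀ ≤ (T : Subgroup (G ⧸ H)).comap π := hP₀.le.trans (Subgroup.comap_mono inf_le_right)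
  obtain ⟨V, hV, hVS⟩ := hlift S hPS
  obtain ⟨W, hW, hWT⟩ := hlift T hPT
  have hVW : V ≠ W := by
    intro h
    apply hST
    apply Sylow.ext
    rw [← hVS, ← hWT, h]
  have hcyc := hC V W hVW
  have hP₀cyc : IsCyclic P₀ := by
    have : IsCyclic ((P₀.subgroupOf ((V : Subgroup G) ⊓ (W : Subgroup G)) : Subgroup _)) := inferInstance
    exact isCyclic_of_surjective (Subgroup.subgroupOfEquivOfLe (le_inf hV hW)) (Subgroup.subgroupOfEquivOfLe (le_inf hV hW)).surjective
  -- image of P₀ is S ⊓ T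
  have hmap : P₀.map π = (S : Subgroup (G ⧸ H)) ⊓ (T : Subgroup (G ⧸ H)) := by
    have h1 : P₀.map π ≤ (S : Subgroup (G ⧸ H)) ⊓ (T : Subgroup (G ⧸ H)) := by
      rw [Subgroup.map_le_iff_le_comap]; exact hP₀.le
    have h2 : IsPGroup 2 ((S : Subgroup (G ⧸ H)) ⊓ (T : Subgroup (G ⧸ H)) : Subgroup (G ⧸ H)) := S.isPGroup'.to_le inf_le_left
    have h3 : H13.Syl.IsSylIn 2 (P₀.map π) ((S : Subgroup (G ⧸ H)) ⊓ (T : Subgroup (G ⧸ H))) := by
      refine ⟨h1, hP₀.isPGroup.map π, ?_⟩
      intro hd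
      apply hP₀.not_dvd
      have h4 : (P₀.map π).relIndex (K.map π) ∣ P₀.relIndex K := by
        rw [Subgroup.relIndex_map_map]
        have hker : π.ker ≤ K := fun x hx => by
          rw [MonoidHom.mem_ker] at hx
          rw [hK, Subgroup.mem_comap, hx]; exact Subgroup.one_mem _
        rw [sup_eq_left.2 hker]
        exact Subgroup.relIndex_dvd_of_le_left K le_sup_left
      have h5 : K.map π = (S : Subgroup (G ⧸ H)) ⊓ (T : Subgroup (G ⧸ H)) := Subgroup.map_comap_eq_self_of_surjective hπs _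
      rw [h5] at h4
      exact hd.trans h4
    exact (h3.eq_of_le h2 le_rfl h1).symm
  rw [← hmap]
  exact isCyclic_of_surjective (π.subgroupMap P₀) (π.subgroupMap_surjective P₀)

end Cfsg.Agent.S3305
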