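import Cfsg.Statements.S3303
import Mathlib
import Cfsg.Agent.S3305
import Cfsg.Agent.H19_AutTwo

set_option autoImplicit false
open Cfsg

namespace Cfsg.Agent.S3303

theorem aux {Q : Type*} [Group Q] [Finite Q] (hs : Group.IsSolvable Q) (hcore : Cfsg.pPrimeCore 2 Q = ⊥)
    (hC : ∀ S T : Sylow 2 Q, S ≠ T → IsCyclic ↥((S : Subgroup Q) ⊓ (T : Subgroup Q))) :
    ∃ P : Sylow 2 Q, (P : Subgroup Q).Normal := by
  classical
  have : Fact (Nat.Prime 2) := ⟨Nat.prime_two⟩
  by_cases hsub : Subsingleton (Sylow 2 Q)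
  · obtain ⟨P⟩ : Nonempty (Sylow 2 Q) := inferInstance
    exact ⟨P, Sylow.normal_of_subsingleton P⟩
  rw [not_subsingleton_iff_nontrivial] at hsub
  obtain ⟨S, T, hST⟩ := exists_pair_ne (Sylow 2 Q)
  have hcyc := hC S T hST
  have hO : Cfsg.pCore 2 Q ≤ (S : Subgroup Q) ⊓ (T : Subgroup Q) := by
    rw [H1.Nilp.pCore_eq_iInf]
    exact le_inf (iInf_le _ S) (iInf_le _ T)
  have hOc : IsCyclic (Cfsg.pCore 2 Q) := by
    have : IsCyclic (((Cfsg.pCore 2 Q).subgroupOf ((S : Subgroup Q) ⊓ (T : Subgroup Q)) : Subgroup _)) := inferInstance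
    exact isCyclic_of_surjective (Subgroup.subgroupOfEquivOfLe hO) (Subgroup.subgroupOfEquivOfLe hO).surjective
  have hnorm : (Cfsg.pCore 2 Q).Normal := H1.Nilp.pCore_normal 2
  have hp : IsPGroup 2 (Cfsg.pCore 2 Q) := H1.Nilp.pCore_isPGroup 2
  have hQ : IsPGroup 2 Q := H19.AutTwo.isPGroup_of_mulAut _ hp (H1.Hall.centralizer_pCore_le 2 hcore)
    (H19.AutTwo.isPGroup_mulAut_cyclic hp hOc)
  exfalso
  apply hST
  have h1 : ∀ U : Sylow 2 Q, (U : Subgroup Q) = ⊤ := by
    intro U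
    have h2 : IsPGroup 2 (⊤ : Subgroup Q) := hQ.to_subgroup ⊤
    exact (U.is_maximal' h2 le_top).symm
  apply Sylow.ext
  rw [h1 S, h1 T]

/-- Let G be a finite solvable group in which the intersection of any two distinct Sylow 2-subgroups is cyclic. Then G/O(G) has a normal Sylow 2-subgroup, where O(G) is the largest normal subgroup of odd order. -/
theorem result {G : Type*} [Group G] [Finite G] (hs : Group.IsSolvable G)
    (hC : ∀ S T : Sylow 2 G, S ≠ T → IsCyclic ↥((S : Subgroup G) ⊓ (T : Subgroup G))) :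
    ∃ P : Sylow 2 (G ⧸ Cfsg.oddCore G), (P : Subgroup (G ⧸ Cfsg.oddCore G)).Normal := by
  classical
  have : Fact (Nat.Prime 2) := ⟨Nat.prime_two⟩
  have hQ := S3305.result hC (Cfsg.oddCore G)
  have hsQ : Group.IsSolvable (G ⧸ Cfsg.oddCore G) := by
    have := hs
    infer_instance
  exact aux hsQ (H11.Cores.pPrimeCore_quotient (p := 2)) hQ

end Cfsg.Agent.S3303
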