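import Cfsg.Statements.S3304
import Cfsg.Agent.H6_GL23c

set_option autoImplicit false
open Cfsg

namespace Cfsg.Agent.S3304

open Pointwise

theorem normal_le_sylow {X : Type*} [Group X] [Finite X] {N : Subgroup X} (hN : N.Normal)
    (h2 : IsPGroup 2 N) (P : Sylow 2 X) : N ≤ P := by
  have : Fact (Nat.Prime 2) := ⟨Nat.prime_two⟩
  obtain ⟨Q, hQ⟩ := h2.exists_le_sylow
  obtain ⟨g, rfl⟩ := MulAction.exists_smul_eq X Q P
  intro x hx
  show x ∈ ((g • Q : Sylow 2 X) : Subgroup X)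
  rw [Sylow.coe_subgroup_smul, Subgroup.mem_pointwise_smul_iff_inv_smul_mem]
  apply hQ
  have := hN.conj_mem x hx g⁻¹
  simpa using this

theorem result {G : Type*} [Group G] [Finite G] (hs : Group.IsSolvable G)
    (hI : ∀ S T : Sylow 2 G, S ≠ T → Cfsg.PRankLE 2 1 ↥((S : Subgroup G) ⊓ (T : Subgroup G))) :
    (∃ P : Sylow 2 (G ⧸ Cfsg.oddCore G), (P : Subgroup (G ⧸ Cfsg.oddCore G)).Normal) ∨
    Nonempty ((G ⧸ Cfsg.oddCore G) ≃* GL (Fin 2) (ZMod 3)) ∨
    (Nat.card (G ⧸ Cfsg.oddCore G) = 48 ∧ Nat.card ↥(Subgroup.center (G ⧸ Cfsg.oddCore G)) = 2 ∧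
      Nonempty ((G ⧸ Cfsg.oddCore G) ⧸ Subgroup.center (G ⧸ Cfsg.oddCore G) ≃* Equiv.Perm (Fin 4)) ∧
      ∀ P : Sylow 2 (G ⧸ Cfsg.oddCore G), Nonempty (↥(P : Subgroup (G ⧸ Cfsg.oddCore G)) ≃* QuaternionGroup 4)) := by
  have : Fact (Nat.Prime 2) := ⟨Nat.prime_two⟩
  by_cases hcl : ∃ P : Sylow 2 (G ⧸ Cfsg.oddCore G), (P : Subgroup (G ⧸ Cfsg.oddCore G)).Normal
  · exact Or.inl hcl
  right
  have hsol : Group.IsSolvable (G ⧸ Cfsg.oddCore G) := inferInstance
  have hO' : pPrimeCore 2 (G ⧸ Cfsg.oddCore G) = ⊥ := H11.Cores.pPrimeCore_quotient 2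
  have hC := H1.Hall.centralizer_pCore_le (G := G ⧸ Cfsg.oddCore G) 2 hO'
  have hNn : (pCore 2 (G ⧸ Cfsg.oddCore G)).Normal := H1.Nilp.pCore_normal 2
  have hNp : IsPGroup 2 (pCore 2 (G ⧸ Cfsg.oddCore G)) := H1.Nilp.pCore_isPGroup 2
  generalize pCore 2 (G ⧸ Cfsg.oddCore G) = N at hC hNn hNp
  have hodd : (Nat.card (Cfsg.oddCore G)).Coprime 2 := H11.Cores.pPrimeCore_coprime 2
  let π := QuotientGroup.mk' (Cfsg.oddCore G)
  have hπ : Function.Surjective π := QuotientGroup.mk'_surjective _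
  let Q : Subgroup G := N.comap π
  have hQn : Q.Normal := hNn.comap π
  have P : Sylow 2 Q := default
  let Q₀ : Subgroup G := (P : Subgroup Q).map Q.subtype
  have hF : Subgroup.normalizer (Q₀ : Set G) ⊔ Q = ⊤ := Sylow.normalizer_sup_eq_top P
  have hQ₀p : IsPGroup 2 Q₀ := P.2.map _
  -- the map `Q → N`
  let f : Q →* N := π.subgroupComap N
  have hf : Function.Surjective f := π.subgroupComap_surjective_of_surjective N hπ
  have hfP : (P : Subgroup Q).map f = ⊤ := by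
    have h1 : ((P.mapSurjective hf : Sylow 2 N) : Subgroup N) = ⊤ := by
      have := (P.mapSurjective hf).3 (Q := ⊤) (hNp.to_subgroup ⊤) le_top
      exact this.symm
    exact h1
  have hinj : ∀ x ∈ Q₀, π x = 1 → x = 1 := by
    intro x hx h1
    have h2 : x ∈ Cfsg.oddCore G := (QuotientGroup.eq_one_iff x).1 h1
    obtain ⟨k, hk⟩ := hQ₀p ⟨x, hx⟩
    have hk' : x ^ 2 ^ k = 1 := congrArg Subtype.val hk
    have h3 : orderOf x ∣ 2 ^ k := orderOf_dvd_of_pow_eq_one hk'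
    have h4 : orderOf x ∣ Nat.card (Cfsg.oddCore G) := Subgroup.orderOf_dvd_natCard _ h2
    have h5 : (Nat.card (Cfsg.oddCore G)).Coprime (2 ^ k) := hodd.pow_right k
    exact orderOf_eq_one_iff.1 (Nat.eq_one_of_dvd_coprimes h5 h4 h3)
  let gP : (P : Subgroup Q) →* N := f.comp (P : Subgroup Q).subtype
  have hgi : Function.Injective gP := by
    rw [injective_iff_map_eq_one]
    intro x hx
    have h1 : π ((x : Q) : G) = 1 := congrArg Subtype.val hx
    have h2 := hinj _ ⟨(x : Q), x.2, rfl⟩ h1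
    exact Subtype.ext (Subtype.ext h2)
  have hgs : Function.Surjective gP := by
    intro n
    have : n ∈ (P : Subgroup Q).map f := by rw [hfP]; trivial
    obtain ⟨x, hx, rfl⟩ := this
    exact ⟨⟨x, hx⟩, rfl⟩
  let gE : (P : Subgroup Q) ≃* N := MulEquiv.ofBijective gP ⟨hgi, hgs⟩
  -- the normaliser
  set M := Subgroup.normalizer (Q₀ : Set G) with hM
  let fM : M →* G ⧸ Cfsg.oddCore G := π.comp M.subtype
  have hfM : Function.Surjective fM := by
    intro y
    obtain ⟨g, rfl⟩ := hπ y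
    have hg : g ∈ M ⊔ Q := by rw [hF]; trivial
    rw [Subgroup.mem_sup_of_normal_right] at hg
    obtain ⟨m, hm, q, hq, rfl⟩ := hg
    obtain ⟨p, hp⟩ := hgs ⟨π q, hq⟩
    have hp' : π ((p : Q) : G) = π q := congrArg Subtype.val hp
    have hpQ : ((p : Q) : G) ∈ M := Subgroup.le_normalizer ⟨(p : Q), p.2, rfl⟩
    refine ⟨⟨m * ((p : Q) : G), M.mul_mem hm hpQ⟩, ?_⟩
    show π (m * ((p : Q) : G)) = π (m * q)
    rw [map_mul, map_mul, hp']
  have T : Sylow 2 M := default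
  have hTn : ¬ (T : Subgroup M).Normal := by
    intro h
    apply hcl
    exact ⟨T.mapSurjective hfM, h.map fM hfM⟩
  obtain ⟨m, hm⟩ : ∃ m : M, m • T ≠ T := by
    by_contra hcon
    push Not at hcon
    apply hTn
    refine ⟨fun n hn g => ?_⟩
    have h1 : g * n * g⁻¹ ∈ ((g • T : Sylow 2 M) : Subgroup M) := by
      rw [Sylow.coe_subgroup_smul, Subgroup.mem_pointwise_smul_iff_inv_smul_mem]
      have : (MulAut.conj g)⁻¹ • (g * n * g⁻¹) = n := by
        simp [MulAut.smul_def, ← map_inv, mul_assoc]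
      rw [this]; exact hn
    rw [hcon g] at h1
    exact h1
  have hQM : (Q₀.subgroupOf M).Normal := Subgroup.normal_in_normalizer
  have hQMp : IsPGroup 2 (Q₀.subgroupOf M) := by
    have : Function.Injective (Subgroup.subgroupOfEquivOfLe (Subgroup.le_normalizer : Q₀ ≤ M)).toMonoidHom :=
      (Subgroup.subgroupOfEquivOfLe (Subgroup.le_normalizer : Q₀ ≤ M)).injective
    exact hQ₀p.of_injective _ this
  have step : ∀ T : Sylow 2 M, ∃ S : Sylow 2 G, (T : Subgroup M).map M.subtype ≤ S ∧ Q₀ ≤ S := by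
    intro T
    obtain ⟨S, hS⟩ := (T.2.map M.subtype).exists_le_sylow
    refine ⟨S, hS, fun x hx => hS ?_⟩
    have hxM : x ∈ M := Subgroup.le_normalizer hx
    exact ⟨⟨x, hxM⟩, normal_le_sylow hQM hQMp T hx, rfl⟩
  obtain ⟨S₁, hS₁, hQ₁⟩ := step T
  obtain ⟨S₂, hS₂, hQ₂⟩ := step (m • T)
  have hne : S₁ ≠ S₂ := by
    rintro rfl
    apply hm
    have h1 : IsPGroup 2 ((S₁ : Subgroup G).subgroupOf M) := by
      have hi : Function.Injective (M.subtype.subgroupComap (S₁ : Subgroup G)) := by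
        intro x y h
        have h0 := congrArg Subtype.val h
        exact Subtype.ext (Subtype.ext h0)
      exact S₁.2.of_injective _ hi
    have h2 : ∀ T : Sylow 2 M, (T : Subgroup M).map M.subtype ≤ S₁ → (S₁ : Subgroup G).subgroupOf M = T := by
      intro T hT
      exact T.3 h1 (fun x hx => hT ⟨x, hx, rfl⟩)
    apply Sylow.ext
    rw [← h2 _ hS₁, ← h2 _ hS₂]
  have hrank : PRankLE 2 1 N := by
    let h : N →* G := Q.subtype.comp ((P : Subgroup Q).subtype.comp gE.symm.toMonoidHom)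
    have hmem : ∀ n, h n ∈ ((S₁ : Subgroup G) ⊓ (S₂ : Subgroup G)) := by
      intro n
      have : h n ∈ Q₀ := ⟨((gE.symm n : (P : Subgroup Q)) : Q), (gE.symm n).2, rfl⟩
      exact ⟨hQ₁ this, hQ₂ this⟩
    refine H6.GL23.rank_inj (h.codRestrict _ hmem) ?_ (hI S₁ S₂ hne)
    intro x y hxy
    have h1 : h x = h y := by
      have h0 := congrArg Subtype.val hxy
      exact h0
    exact gE.symm.injective (Subtype.ext (Subtype.ext h1))
  rcases H9.TwoComp.dich hNp (H6.GL23.uniq_of_rank hNp hrank) with hA | hE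
  · exfalso
    apply hcl
    have hX : IsPGroup 2 (G ⧸ Cfsg.oddCore G) := by
      intro x
      obtain ⟨k, hk⟩ := hA (MulAut.conjNormal x)
      have h1 : x ^ 2 ^ k ∈ N := by
        apply hC
        rw [Subgroup.mem_centralizer_iff]
        intro y hy
        rw [← map_pow] at hk
        have h2 : ((MulAut.conjNormal (x ^ 2 ^ k) ⟨y, hy⟩ : N) : G ⧸ Cfsg.oddCore G) = y := by
          rw [hk]; rfl
        rw [MulAut.conjNormal_apply] at h2
        exact (mul_inv_eq_iff_eq_mul.1 h2).symm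
      obtain ⟨l, hl⟩ := hNp ⟨_, h1⟩
      refine ⟨k + l, ?_⟩
      rw [pow_add, pow_mul]
      exact congrArg Subtype.val hl
    have P' : Sylow 2 (G ⧸ Cfsg.oddCore G) := default
    refine ⟨P', ?_⟩
    have h1 : (⊤ : Subgroup (G ⧸ Cfsg.oddCore G)) = P' :=
      P'.3 (hX.to_subgroup ⊤) le_top
    rw [← h1]
    infer_instance
  · obtain ⟨e⟩ := hE
    exact H6.GL23.main2 hC e hcl

end Cfsg.Agent.S3304
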