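import Cfsg.Statements.S3309
import Mathlib
import Cfsg.Agent.H13_Syl
import Cfsg.Agent.H19_Inv
import Cfsg.Agent.H19_Transfer

set_option autoImplicit false
open Cfsg

namespace Cfsg.Agent.S3309

def M₀ := Multiplicative (ZMod 2) × DihedralGroup 4
instance instG : Group M₀ := inferInstanceAs (Group (Multiplicative (ZMod 2) × DihedralGroup 4))
instance instF : Fintype M₀ := inferInstanceAs (Fintype (Multiplicative (ZMod 2) × DihedralGroup 4))
instance instD : DecidableEq M₀ := inferInstanceAs (DecidableEq (Multiplicative (ZMod 2) × DihedralGroup 4))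
def t₀ : M₀ := (Multiplicative.ofAdd 1, 1)
def z₀ : M₀ := (1, DihedralGroup.r 2)
def s₀ : M₀ := (1, DihedralGroup.sr 0)
def w₀ : M₀ := (1, DihedralGroup.sr 1)
def r₀ : M₀ := (1, DihedralGroup.r 1)

def gm (ε δ : ℤˣ) : M₀ → ℤˣ := fun x =>
  (if x.1 = 1 then 1 else -1) * (match x.2 with | .r i => (ε * δ) ^ i.val | .sr i => ε * (ε * δ) ^ i.val)

set_option maxRecDepth 100000 in
theorem gm_mul : ∀ ε δ : ℤˣ, ∀ x y : M₀, gm ε δ (x * y) = gm ε δ x * gm ε δ y := by decide

def gh (ε δ : ℤˣ) : M₀ →* ℤˣ where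
  toFun := gm ε δ
  map_one' := by revert ε δ; decide
  map_mul' := gm_mul ε δ

theorem gh_t (ε δ : ℤˣ) : gh ε δ t₀ = -1 := by
  show gm ε δ t₀ = -1
  revert ε δ; decide

theorem gh_tz (ε δ : ℤˣ) : gh ε δ (t₀ * z₀) = -1 := by
  show gm ε δ (t₀ * z₀) = -1
  revert ε δ; decide

set_option maxRecDepth 100000 in
theorem f1 : ∀ x : M₀, x * x = 1 → gm 1 1 x = 1 → x = 1 ∨ x = z₀ ∨ (∃ y : M₀, x = y * s₀ * y⁻¹ ∨ x = y * w₀ * y⁻¹) := by decide
set_option maxRecDepth 100000 in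
theorem f2 : ∀ x : M₀, x * x = 1 → gm 1 (-1) x = 1 → x = 1 ∨ x = z₀ ∨ (∃ y : M₀, x = y * s₀ * y⁻¹ ∨ x = y * (t₀ * w₀) * y⁻¹) := by decide
set_option maxRecDepth 100000 in
theorem f3 : ∀ x : M₀, x * x = 1 → gm (-1) 1 x = 1 → x = 1 ∨ x = z₀ ∨ (∃ y : M₀, x = y * (t₀ * s₀) * y⁻¹ ∨ x = y * w₀ * y⁻¹) := by decide
set_option maxRecDepth 100000 in
theorem f4 : ∀ x : M₀, x * x = 1 → gm (-1) (-1) x = 1 → x = 1 ∨ x = z₀ ∨ (∃ y : M₀, x = y * (t₀ * s₀) * y⁻¹ ∨ x = y * (t₀ * w₀) * y⁻¹) := by decide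

set_option maxRecDepth 100000 in
theorem fcomm : ∀ x y : M₀, x * y * x⁻¹ * y⁻¹ = 1 ∨ x * y * x⁻¹ * y⁻¹ = z₀ := by decide

set_option maxRecDepth 100000 in
theorem fcent : ∀ x : M₀, (∀ y : M₀, x * y = y * x) → x * x = 1 → x = 1 ∨ x = t₀ ∨ x = z₀ ∨ x = t₀ * z₀ := by decide

set_option maxRecDepth 100000 in
theorem finv : ∀ x : M₀, x * x = 1 → x = 1 ∨ x = t₀ ∨ x = z₀ ∨ x = t₀ * z₀ ∨ (∃ y : M₀, x = y * s₀ * y⁻¹) ∨ (∃ y : M₀, x = y * w₀ * y⁻¹)
    ∨ (∃ y : M₀, x = y * (t₀ * s₀) * y⁻¹) ∨ (∃ y : M₀, x = y * (t₀ * w₀) * y⁻¹) := by decide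

set_option maxRecDepth 100000 in
theorem ffin : ∀ u : M₀, u = s₀ ∨ u = w₀ → ∀ X : M₀, (X = u ∨ X = u * z₀ ∨ X = t₀ * u ∨ X = t₀ * u * z₀) → ∀ Y : M₀, Y * Y = 1 → Y ≠ 1 →
    (Y ≠ t₀ ∧ Y ≠ u ∧ Y ≠ u * z₀ ∧ Y ≠ t₀ * u ∧ Y ≠ t₀ * u * z₀) → X * Y = Y * X → Y = z₀ ∨ Y = t₀ * z₀ := by decide

set_option maxRecDepth 100000 in
theorem ffin2 : ∀ u : M₀, u = s₀ ∨ u = w₀ → ∀ x y : M₀, (x = y * u * y⁻¹ → x = u ∨ x = u * z₀) ∧ (x = y * (t₀ * u) * y⁻¹ → x = t₀ * u ∨ x = t₀ * u * z₀) := by decide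

theorem tcomm : ∀ y : M₀, t₀ * y = y * t₀ := by decide
theorem ccomm : ∀ c : M₀, (c = t₀ ∨ c = z₀ ∨ c = t₀ * z₀) → ∀ x : M₀, x * c = c * x := by decide
theorem tne : ∀ y : M₀, y⁻¹ * t₀ * y ≠ t₀ * z₀ := by decide

section
variable {G : Type*} [Group G] [Finite G] [IsSimpleGroup G] (hG : ¬ IsMulCommutative G) (S : Sylow 2 G)
  (e : ↥(S : Subgroup G) ≃* M₀)

/-- embedding of the model -/
def el : M₀ →* G := (S : Subgroup G).subtype.comp e.symm.toMonoidHom

omit [Finite G] [IsSimpleGroup G] in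
theorem el_inj : Function.Injective (el S e) := by
  intro x y h
  exact e.symm.injective (Subtype.ext h)

omit [Finite G] [IsSimpleGroup G] in
theorem el_mem (x : M₀) : el S e x ∈ (S : Subgroup G) := (e.symm x).2

omit [Finite G] [IsSimpleGroup G] in
theorem exists_el {g : G} (hg : g ∈ (S : Subgroup G)) : ∃ x, el S e x = g := ⟨e ⟨g, hg⟩, by simp [el]⟩

omit [Finite G] [IsSimpleGroup G] in
theorem el_conj (x y : M₀) : IsConj (el S e x) (el S e (y * x * y⁻¹)) := by
  rw [isConj_iff]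
  exact ⟨el S e y, by rw [map_mul, map_mul, map_inv]⟩

include hG in
theorem exists_conj (f : M₀ →* ℤˣ) (c : M₀) (hc : c * c = 1) (hc1 : c ≠ 1) (hf : f c = -1) :
    ∃ x : M₀, f x = 1 ∧ x * x = 1 ∧ x ≠ 1 ∧ IsConj (el S e c) (el S e x) := by
  have : Fact (Nat.Prime 2) := ⟨Nat.prime_two⟩
  by_contra hcon
  push Not at hcon
  have hodd : Odd (S : Subgroup G).index := by
    rw [← Nat.not_even_iff_odd, even_iff_two_dvd]
    exact S.not_dvd_index
  let f' : (S : Subgroup G) →* ℤˣ := f.comp e.toMonoidHom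
  have hidx : (f'.ker).index = 2 := by
    apply H19.Transfer.index_ker f' (x := e.symm c)
    show f (e (e.symm c)) = -1
    rw [MulEquiv.apply_symm_apply]; exact hf
  have hM : (f'.ker.map (S : Subgroup G).subtype).relIndex (S : Subgroup G) = 2 := by
    rw [Subgroup.relIndex, Subgroup.subgroupOf, Subgroup.comap_map_eq_self_of_injective (Subgroup.subtype_injective _)]
    exact hidx
  have hord : orderOf (el S e c) = 2 := by
    rw [H19.Inv.inv_iff]
    refine ⟨by rw [← map_mul, hc, map_one], ?_⟩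
    rw [← map_one (el S e)]
    exact fun h => hc1 (el_inj S e h)
  obtain ⟨K, hK, hKi, _⟩ := H19.Transfer.thompson hodd hM (el S e c) ⟨1, by rw [hord]; norm_num⟩
    (fun g hg hgM => by
      obtain ⟨y, hy, hy2⟩ := hgM
      obtain ⟨x, hx⟩ := exists_el S e y.2
      have hx' : e.symm x = y := Subtype.ext hx
      have h1 : el S e x = g⁻¹ * el S e c * g := by rw [hx]; exact hy2
      have h2 : IsConj (el S e c) (el S e x) := by
        rw [h1, isConj_iff]; exact ⟨g⁻¹, by group⟩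
      have h3 : orderOf (el S e x) = 2 := by rw [← hord]; exact (H19.Inv.isConj_orderOf h2).symm
      rw [H19.Inv.inv_iff] at h3
      refine hcon x ?_ ?_ ?_ h2
      · have : f' y = 1 := hy
        rw [← hx'] at this
        show f x = 1
        have h4 : f (e (e.symm x)) = 1 := this
        rwa [MulEquiv.apply_symm_apply] at h4
      · apply el_inj S e
        rw [map_mul, map_one]; exact h3.1
      · rintro rfl
        exact h3.2 (map_one _))
    (fun g j _ => by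
      have h1 : (el S e c) ^ 2 ^ (j + 1) = 1 := by
        rw [pow_succ', pow_mul]
        have : (el S e c) ^ 2 = 1 := by rw [← hord, pow_orderOf_eq_one]
        rw [this, one_pow]
      rw [h1, mul_one, inv_mul_cancel]
      exact Subgroup.one_mem _)
  exact H19.Transfer.no_index_two hG K hKi

omit [IsSimpleGroup G] in
theorem normalizer_fix {n : G} (hn : n ∈ Subgroup.normalizer ((S : Subgroup G) : Set G)) :
    n⁻¹ * el S e z₀ * n = el S e z₀ ∧ n⁻¹ * el S e t₀ * n = el S e t₀ := by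
  have : Fact (Nat.Prime 2) := ⟨Nat.prime_two⟩
  have hconj : ∀ m ∈ Subgroup.normalizer ((S : Subgroup G) : Set G), ∀ x : M₀, ∃ y : M₀, el S e y = m⁻¹ * el S e x * m := by
    intro m hm x
    apply exists_el
    have h1 := (Subgroup.mem_normalizer_iff.1 (Subgroup.inv_mem _ hm)) (el S e x)
    have h2 := h1.1 (el_mem S e x)
    simpa using h2
  have hz : ∀ m ∈ Subgroup.normalizer ((S : Subgroup G) : Set G), m⁻¹ * el S e z₀ * m = el S e z₀ := by
    intro m hm
    obtain ⟨x, hx⟩ := hconj m hm r₀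
    obtain ⟨y, hy⟩ := hconj m hm s₀
    have h1 : z₀ = r₀ * s₀ * r₀⁻¹ * s₀⁻¹ := by decide
    have h2 : m⁻¹ * el S e z₀ * m = el S e (x * y * x⁻¹ * y⁻¹) := by
      rw [map_mul, map_mul, map_mul, map_inv, map_inv, hx, hy, h1, map_mul, map_mul, map_mul, map_inv, map_inv]
      group
    rw [h2]
    rcases fcomm x y with h3 | h3
    · exfalso
      rw [h3, map_one] at h2
      have h4 : el S e z₀ = 1 := by
        have : el S e z₀ = m * (m⁻¹ * el S e z₀ * m) * m⁻¹ := by group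
        rw [this, h2]; group
      have h5 : el S e z₀ = el S e 1 := by rw [h4, map_one]
      exact absurd (el_inj S e h5) (by decide)
    · rw [h3]
  refine ⟨hz n hn, ?_⟩
  -- t₀ ↦ t₀ or t₀ z₀
  have ht : ∀ m ∈ Subgroup.normalizer ((S : Subgroup G) : Set G), m⁻¹ * el S e t₀ * m = el S e t₀ ∨ m⁻¹ * el S e t₀ * m = el S e (t₀ * z₀) := by
    intro m hm
    obtain ⟨x, hx⟩ := hconj m hm t₀
    have hx1 : x ≠ 1 := by
      rintro rfl
      rw [map_one] at hx
      have h4 : el S e t₀ = 1 := by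
        have : el S e t₀ = m * (m⁻¹ * el S e t₀ * m) * m⁻¹ := by group
        rw [this, ← hx]; group
      have h5 : el S e t₀ = el S e 1 := by rw [h4, map_one]
      exact absurd (el_inj S e h5) (by decide)
    have hx2 : x * x = 1 := by
      apply el_inj S e
      rw [map_mul, hx, map_one]
      have h6 : el S e t₀ * el S e t₀ = 1 := by rw [← map_mul, ← map_one (el S e)]; congr 1
      calc m⁻¹ * el S e t₀ * m * (m⁻¹ * el S e t₀ * m) = m⁻¹ * (el S e t₀ * el S e t₀) * m := by group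
        _ = 1 := by rw [h6]; group
    have hxc : ∀ y : M₀, x * y = y * x := by
      intro y
      apply el_inj S e
      obtain ⟨y', hy'⟩ := hconj m⁻¹ (Subgroup.inv_mem _ hm) y
      rw [inv_inv] at hy'
      have h6 : t₀ * y' = y' * t₀ := tcomm y'
      have h7 := congrArg (el S e) h6
      rw [map_mul, map_mul, hy'] at h7
      rw [map_mul, map_mul, hx]
      have h8 : m⁻¹ * (el S e t₀ * (m * el S e y * m⁻¹)) * m = m⁻¹ * (m * el S e y * m⁻¹ * el S e t₀) * m := by rw [h7]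
      calc m⁻¹ * el S e t₀ * m * el S e y = m⁻¹ * (el S e t₀ * (m * el S e y * m⁻¹)) * m := by group
        _ = _ := h8
        _ = _ := by group
    rcases fcent x hxc hx2 with h | h | h | h
    · exact absurd h hx1
    · left; rw [← hx, h]
    · exfalso
      rw [h] at hx
      have h9 := hz m hm
      have h10 : m⁻¹ * el S e t₀ * m = m⁻¹ * el S e z₀ * m := by rw [h9, ← hx]
      have h11 := mul_left_cancel (mul_right_cancel h10)
      exact absurd (el_inj S e h11) (by decide)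
    · right; rw [← hx, h]
  rcases ht n hn with h | h
  · exact h
  exfalso
  obtain ⟨q, hq, hqS⟩ := H19.Transfer.exists_pow_mem S hn
  have hqodd : Odd q := by
    rw [Nat.coprime_comm] at hq
    exact Nat.coprime_two_left.1 hq
  obtain ⟨k, hk⟩ := hqodd
  have h12 : n⁻¹ * el S e (t₀ * z₀) * n = el S e t₀ := by
    rw [map_mul]
    calc n⁻¹ * (el S e t₀ * el S e z₀) * n = (n⁻¹ * el S e t₀ * n) * (n⁻¹ * el S e z₀ * n) := by group
      _ = el S e (t₀ * z₀) * el S e z₀ := by rw [h, hz n hn]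
      _ = el S e t₀ := by rw [← map_mul]; congr 1
  have h13 : ∀ j : ℕ, (n ^ (2 * j))⁻¹ * el S e t₀ * n ^ (2 * j) = el S e t₀ := by
    intro j
    induction j with
    | zero => simp
    | succ j ih =>
      have : n ^ (2 * (j + 1)) = n ^ (2 * j) * n * n := by rw [mul_add, mul_one, pow_add, sq, mul_assoc]
      rw [this]
      calc (n ^ (2 * j) * n * n)⁻¹ * el S e t₀ * (n ^ (2 * j) * n * n) = n⁻¹ * (n⁻¹ * ((n ^ (2 * j))⁻¹ * el S e t₀ * n ^ (2 * j)) * n) * n := by group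
        _ = el S e t₀ := by rw [ih, h, h12]
  have h14 : (n ^ q)⁻¹ * el S e t₀ * n ^ q = el S e (t₀ * z₀) := by
    have : n ^ q = n ^ (2 * k) * n := by rw [hk, pow_succ]
    rw [this]
    calc (n ^ (2 * k) * n)⁻¹ * el S e t₀ * (n ^ (2 * k) * n) = n⁻¹ * ((n ^ (2 * k))⁻¹ * el S e t₀ * n ^ (2 * k)) * n := by group
      _ = _ := by rw [h13, h]
  obtain ⟨y, hy⟩ := exists_el S e hqS
  rw [← hy, ← map_inv, ← map_mul, ← map_mul] at h14
  exact tne y (el_inj S e h14)

omit [IsSimpleGroup G] in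
theorem not_conj {a b : M₀} (ha : a = t₀ ∨ a = z₀ ∨ a = t₀ * z₀) (hb : b = t₀ ∨ b = z₀ ∨ b = t₀ * z₀)
    (h : IsConj (el S e a) (el S e b)) : a = b := by
  have : Fact (Nat.Prime 2) := ⟨Nat.prime_two⟩
  have hcent : ∀ c : M₀, (c = t₀ ∨ c = z₀ ∨ c = t₀ * z₀) → el S e c ∈ Subgroup.centralizer ((S : Subgroup G) : Set G) := by
    intro c hc
    rw [Subgroup.mem_centralizer_iff]
    intro g hg
    obtain ⟨x, rfl⟩ := exists_el S e hg
    rw [← map_mul, ← map_mul]
    congr 1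
    exact ccomm c hc x
  obtain ⟨g, hg⟩ := isConj_iff.1 h
  have h1 : (g⁻¹)⁻¹ * el S e a * g⁻¹ ∈ Subgroup.centralizer ((S : Subgroup G) : Set G) := by
    rw [inv_inv, hg]; exact hcent b hb
  obtain ⟨n, hn, hn2⟩ := Sylow.conj_eq_normalizer_conj_of_mem_centralizer S (el S e a) g⁻¹ (hcent a ha) h1
  rw [inv_inv, hg] at hn2
  obtain ⟨h2, h3⟩ := normalizer_fix S e hn
  apply el_inj S e
  rw [hn2]
  rcases ha with rfl | rfl | rfl
  · exact h3.symm
  · exact h2.symm
  · rw [map_mul]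
    calc el S e t₀ * el S e z₀ = (n⁻¹ * el S e t₀ * n) * (n⁻¹ * el S e z₀ * n) := by rw [h2, h3]
      _ = _ := by group

omit [IsSimpleGroup G] in
theorem final (u : M₀) (hu : u = s₀ ∨ u = w₀)
    (hP : ∀ x : M₀, x * x = 1 → x ≠ 1 → IsConj (el S e t₀) (el S e x) → x = t₀ ∨ x = u ∨ x = u * z₀ ∨ x = t₀ * u ∨ x = t₀ * u * z₀)
    (hP' : ∀ x : M₀, (x = t₀ ∨ x = u ∨ x = u * z₀ ∨ x = t₀ * u ∨ x = t₀ * u * z₀) → IsConj (el S e t₀) (el S e x)) : False := by
  have : Fact (Nat.Prime 2) := ⟨Nat.prime_two⟩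
  obtain ⟨g, hg⟩ := isConj_iff.1 (hP' u (by tauto))
  -- Sylow in C(u)
  have hS : H13.Syl.IsSylIn 2 (S : Subgroup G) (Subgroup.centralizer ({el S e t₀} : Set G)) := by
    apply (H13.Syl.isSylIn_sylow_top S).mono _ le_top
    intro y hy
    obtain ⟨x, rfl⟩ := exists_el S e hy
    rw [Subgroup.mem_centralizer_singleton_iff, ← map_mul, ← map_mul]
    congr 1
    exact (tcomm x).symm
  have hS' := hS.cj g
  rw [H13.Syl.cj_centralizer_singleton] at hS'
  rw [hg] at hS'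
  have hA : IsPGroup 2 ((S : Subgroup G) ⊓ Subgroup.centralizer ({el S e u} : Set G) : Subgroup G) := S.isPGroup'.to_le inf_le_left
  obtain ⟨k, hk, hkA⟩ := hS'.exists_conj_le hA inf_le_right
  rw [Subgroup.mem_centralizer_singleton_iff] at hk
  set h := g⁻¹ * k with hh
  have hmem : ∀ x : M₀, x * u = u * x → ∃ y : M₀, el S e y = h * el S e x * h⁻¹ := by
    intro x hx
    apply exists_el
    have h1 : el S e x ∈ (S : Subgroup G) ⊓ Subgroup.centralizer ({el S e u} : Set G) := by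
      rw [Subgroup.mem_inf]
      refine ⟨el_mem S e x, ?_⟩
      rw [Subgroup.mem_centralizer_singleton_iff, ← map_mul, ← map_mul, hx]
    have h2 := hkA (H13.Syl.conj_mem_cj h1)
    rw [H13.Syl.mem_cj] at h2
    rw [hh]
    have e1 : g⁻¹ * (k * el S e x * k⁻¹) * g = g⁻¹ * k * el S e x * (g⁻¹ * k)⁻¹ := by group
    rw [← e1]; exact h2
  have hu' : h * el S e u * h⁻¹ = el S e t₀ := by
    have e2 : k * el S e u * k⁻¹ = el S e u := by rw [hk]; group
    calc h * el S e u * h⁻¹ = g⁻¹ * (k * el S e u * k⁻¹) * g := by rw [hh]; group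
      _ = g⁻¹ * el S e u * g := by rw [e2]
      _ = el S e t₀ := by rw [← hg]; group
  have hcm : ∀ x : M₀, (x = t₀ ∨ x = z₀ ∨ x = t₀ * z₀) → x * u = u * x := by
    intro x hx
    exact (ccomm x hx u).symm
  obtain ⟨X, hX⟩ := hmem t₀ (hcm _ (by tauto))
  obtain ⟨Y, hY⟩ := hmem z₀ (hcm _ (by tauto))
  obtain ⟨W, hW⟩ := hmem (t₀ * z₀) (hcm _ (by tauto))
  have hconj : ∀ a b : M₀, el S e b = h * el S e a * h⁻¹ → IsConj (el S e a) (el S e b) := by
    intro a b hab
    rw [hab, isConj_iff]; exact ⟨h, rfl⟩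
  have hinv : ∀ a b : M₀, a * a = 1 → a ≠ 1 → el S e b = h * el S e a * h⁻¹ → b * b = 1 ∧ b ≠ 1 := by
    intro a b ha ha1 hab
    constructor
    · apply el_inj S e
      rw [map_mul, hab, map_one]
      calc h * el S e a * h⁻¹ * (h * el S e a * h⁻¹) = h * (el S e a * el S e a) * h⁻¹ := by group
        _ = 1 := by rw [← map_mul, ha, map_one]; group
    · rintro rfl
      apply ha1
      apply el_inj S e
      rw [map_one] at hab ⊢
      have : el S e a = h⁻¹ * (h * el S e a * h⁻¹) * h := by group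
      rw [this, ← hab]; group
  have hXi := hinv _ _ (by decide) (by decide) hX
  have hYi := hinv _ _ (by decide) (by decide) hY
  have hWi := hinv _ _ (by decide) (by decide) hW
  have hXP := hP X hXi.1 hXi.2 (hconj _ _ hX)
  have hXt : X ≠ t₀ := by
    intro h0
    rw [h0] at hX
    have h00 := hX.symm.trans hu'.symm
    have := mul_left_cancel (mul_right_cancel h00)
    have := (el_inj S e this).symm
    rcases hu with rfl | rfl
    · exact absurd this (by decide)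
    · exact absurd this (by decide)
  have hXP' := hXP.resolve_left hXt
  have hcommXY : X * Y = Y * X := by
    apply el_inj S e
    rw [map_mul, map_mul, hX, hY]
    have e3 : el S e t₀ * el S e z₀ = el S e z₀ * el S e t₀ := by rw [← map_mul, ← map_mul]; congr 1
    calc h * el S e t₀ * h⁻¹ * (h * el S e z₀ * h⁻¹) = h * (el S e t₀ * el S e z₀) * h⁻¹ := by group
      _ = h * (el S e z₀ * el S e t₀) * h⁻¹ := by rw [e3]
      _ = _ := by group
  have hcommXW : X * W = W * X := by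
    apply el_inj S e
    rw [map_mul, map_mul, hX, hW]
    have e3 : el S e t₀ * el S e (t₀ * z₀) = el S e (t₀ * z₀) * el S e t₀ := by rw [← map_mul, ← map_mul]; congr 1
    calc h * el S e t₀ * h⁻¹ * (h * el S e (t₀ * z₀) * h⁻¹) = h * (el S e t₀ * el S e (t₀ * z₀)) * h⁻¹ := by group
      _ = h * (el S e (t₀ * z₀) * el S e t₀) * h⁻¹ := by rw [e3]
      _ = _ := by group
  have hXYW : X = Y * W := by
    apply el_inj S e
    rw [map_mul, hX, hY, hW]
    have e3 : el S e t₀ = el S e z₀ * el S e (t₀ * z₀) := by rw [← map_mul]; congr 1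
    calc h * el S e t₀ * h⁻¹ = h * (el S e z₀ * el S e (t₀ * z₀)) * h⁻¹ := by rw [← e3]
      _ = _ := by group
  have hYn : ¬ (Y = t₀ ∨ Y = u ∨ Y = u * z₀ ∨ Y = t₀ * u ∨ Y = t₀ * u * z₀) := by
    intro h1
    have h2 := (hP' Y h1).trans (hconj _ _ hY).symm
    exact absurd (not_conj S e (Or.inl rfl) (Or.inr (Or.inl rfl)) h2) (by decide)
  have hWn : ¬ (W = t₀ ∨ W = u ∨ W = u * z₀ ∨ W = t₀ * u ∨ W = t₀ * u * z₀) := by
    intro h1
    have h2 := (hP' W h1).trans (hconj _ _ hW).symm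
    exact absurd (not_conj S e (Or.inl rfl) (Or.inr (Or.inr rfl)) h2) (by decide)
  push Not at hYn hWn
  have hYz := ffin u hu X hXP' Y hYi.1 hYi.2 hYn hcommXY
  have hWz := ffin u hu X hXP' W hWi.1 hWi.2 hWn hcommXW
  have : ∀ u : M₀, u = s₀ ∨ u = w₀ → ∀ X : M₀, (X = u ∨ X = u * z₀ ∨ X = t₀ * u ∨ X = t₀ * u * z₀) → ∀ Y W : M₀, (Y = z₀ ∨ Y = t₀ * z₀) → (W = z₀ ∨ W = t₀ * z₀) → X ≠ Y * W := by
    rintro u hu X hX Y W (rfl | rfl) (rfl | rfl) <;> revert u X <;> decide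
  exact this u hu X hXP' Y W hYz hWz hXYW
end

/-- A finite group whose Sylow 2-subgroups are isomorphic to the direct product of a group of order 2 and the dihedral group of order 8 is not a non-abelian simple group. -/
theorem result {G : Type*} [Group G] [Finite G] (S : Sylow 2 G) (hS : Nonempty (↥(S : Subgroup G) ≃* Multiplicative (ZMod 2) × DihedralGroup 4))
    [IsSimpleGroup G] (hG : ¬ IsMulCommutative G) : False := by
  obtain ⟨e'⟩ := hS
  let e : ↥(S : Subgroup G) ≃* M₀ := e'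
  have hPconj : ∀ c x y : M₀, IsConj (el S e c) (el S e (y * x * y⁻¹)) ↔ IsConj (el S e c) (el S e x) := by
    intro c x y
    have h1 := el_conj S e x y
    exact ⟨fun h => h.trans h1.symm, fun h => h.trans h1⟩
  have key : ∀ c : M₀, (c = t₀ ∨ c = t₀ * z₀) →
      (IsConj (el S e c) (el S e s₀) ∧ IsConj (el S e c) (el S e (t₀ * s₀))) ∨
      (IsConj (el S e c) (el S e w₀) ∧ IsConj (el S e c) (el S e (t₀ * w₀))) := by
    intro c hc
    have hcc : c * c = 1 := by revert c; decide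
    have hc1 : c ≠ 1 := by revert c; decide
    have hcz : c ≠ z₀ := by revert c; decide
    have hf : ∀ ε δ : ℤˣ, gh ε δ c = -1 := by
      intro ε δ
      rcases hc with rfl | rfl
      · exact gh_t ε δ
      · exact gh_tz ε δ
    have hz : ¬ IsConj (el S e c) (el S e z₀) := by
      intro h
      exact hcz (not_conj S e (by tauto) (by tauto) h)
    obtain ⟨x1, hx1, hx12, hx1n, hx1c⟩ := exists_conj hG S e (gh 1 1) c hcc hc1 (hf 1 1)
    obtain ⟨x2, hx2, hx22, hx2n, hx2c⟩ := exists_conj hG S e (gh 1 (-1)) c hcc hc1 (hf 1 (-1))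
    obtain ⟨x3, hx3, hx32, hx3n, hx3c⟩ := exists_conj hG S e (gh (-1) 1) c hcc hc1 (hf (-1) 1)
    obtain ⟨x4, hx4, hx42, hx4n, hx4c⟩ := exists_conj hG S e (gh (-1) (-1)) c hcc hc1 (hf (-1) (-1))
    have a1 : IsConj (el S e c) (el S e s₀) ∨ IsConj (el S e c) (el S e w₀) := by
      rcases f1 x1 hx12 hx1 with h | h | ⟨y, h | h⟩
      · exact absurd h hx1n
      · rw [h] at hx1c; exact absurd hx1c hz
      · rw [h, hPconj] at hx1c; exact Or.inl hx1c
      · rw [h, hPconj] at hx1c; exact Or.inr hx1c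
    have a2 : IsConj (el S e c) (el S e s₀) ∨ IsConj (el S e c) (el S e (t₀ * w₀)) := by
      rcases f2 x2 hx22 hx2 with h | h | ⟨y, h | h⟩
      · exact absurd h hx2n
      · rw [h] at hx2c; exact absurd hx2c hz
      · rw [h, hPconj] at hx2c; exact Or.inl hx2c
      · rw [h, hPconj] at hx2c; exact Or.inr hx2c
    have a3 : IsConj (el S e c) (el S e (t₀ * s₀)) ∨ IsConj (el S e c) (el S e w₀) := by
      rcases f3 x3 hx32 hx3 with h | h | ⟨y, h | h⟩
      · exact absurd h hx3n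
      · rw [h] at hx3c; exact absurd hx3c hz
      · rw [h, hPconj] at hx3c; exact Or.inl hx3c
      · rw [h, hPconj] at hx3c; exact Or.inr hx3c
    have a4 : IsConj (el S e c) (el S e (t₀ * s₀)) ∨ IsConj (el S e c) (el S e (t₀ * w₀)) := by
      rcases f4 x4 hx42 hx4 with h | h | ⟨y, h | h⟩
      · exact absurd h hx4n
      · rw [h] at hx4c; exact absurd hx4c hz
      · rw [h, hPconj] at hx4c; exact Or.inl hx4c
      · rw [h, hPconj] at hx4c; exact Or.inr hx4c
    generalize IsConj (el S e c) (el S e s₀) = A1 at *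
    generalize IsConj (el S e c) (el S e w₀) = A2 at *
    generalize IsConj (el S e c) (el S e (t₀ * s₀)) = A3 at *
    generalize IsConj (el S e c) (el S e (t₀ * w₀)) = A4 at *
    tauto
  have htz : ∀ x : M₀, ¬ (IsConj (el S e t₀) (el S e x) ∧ IsConj (el S e (t₀ * z₀)) (el S e x)) := by
    rintro x ⟨h1, h2⟩
    exact absurd (not_conj S e (Or.inl rfl) (Or.inr (Or.inr rfl)) (h1.trans h2.symm)) (by decide)
  have htz2 : ¬ IsConj (el S e t₀) (el S e (t₀ * z₀)) := fun h1 =>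
    absurd (not_conj S e (Or.inl rfl) (Or.inr (Or.inr rfl)) h1) (by decide)
  have htz3 : ¬ IsConj (el S e t₀) (el S e z₀) := fun h1 =>
    absurd (not_conj S e (Or.inl rfl) (Or.inr (Or.inl rfl)) h1) (by decide)
  have hsz : ∀ u : M₀, (u = s₀ ∨ u = w₀) → (∃ y : M₀, u * z₀ = y * u * y⁻¹) ∧ (∃ y : M₀, t₀ * u * z₀ = y * (t₀ * u) * y⁻¹) := by decide
  -- general conclusion
  have concl : ∀ u v : M₀, ((u = s₀ ∧ v = w₀) ∨ (u = w₀ ∧ v = s₀)) →
      IsConj (el S e t₀) (el S e u) → IsConj (el S e t₀) (el S e (t₀ * u)) →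
      IsConj (el S e (t₀ * z₀)) (el S e v) → IsConj (el S e (t₀ * z₀)) (el S e (t₀ * v)) → False := by
    intro u v huv h1 h2 h3 h4
    have hu : u = s₀ ∨ u = w₀ := by tauto
    have hfin2 := ffin2 u hu
    refine final S e u hu ?_ ?_
    · intro x hx hx1 hxc
      have hnv : ∀ y, x ≠ y * v * y⁻¹ := by
        rintro y rfl
        rw [hPconj] at hxc
        exact htz _ ⟨hxc, h3⟩
      have hnv2 : ∀ y, x ≠ y * (t₀ * v) * y⁻¹ := by
        rintro y rfl
        rw [hPconj] at hxc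
        exact htz _ ⟨hxc, h4⟩
      rcases finv x hx with h | h | h | h | ⟨y, h⟩ | ⟨y, h⟩ | ⟨y, h⟩ | ⟨y, h⟩
      · exact absurd h hx1
      · exact Or.inl h
      · rw [h] at hxc; exact absurd hxc htz3
      · rw [h] at hxc; exact absurd hxc htz2
      · rcases huv with ⟨rfl, rfl⟩ | ⟨rfl, rfl⟩
        · rcases (hfin2 x y).1 h with h' | h'
          · exact Or.inr (Or.inl h')
          · exact Or.inr (Or.inr (Or.inl h'))
        · exact absurd h (hnv y)
      · rcases huv with ⟨rfl, rfl⟩ | ⟨rfl, rfl⟩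
        · exact absurd h (hnv y)
        · rcases (hfin2 x y).1 h with h' | h'
          · exact Or.inr (Or.inl h')
          · exact Or.inr (Or.inr (Or.inl h'))
      · rcases huv with ⟨rfl, rfl⟩ | ⟨rfl, rfl⟩
        · rcases (hfin2 x y).2 h with h' | h'
          · exact Or.inr (Or.inr (Or.inr (Or.inl h')))
          · exact Or.inr (Or.inr (Or.inr (Or.inr h')))
        · exact absurd h (hnv2 y)
      · rcases huv with ⟨rfl, rfl⟩ | ⟨rfl, rfl⟩
        · exact absurd h (hnv2 y)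
        · rcases (hfin2 x y).2 h with h' | h'
          · exact Or.inr (Or.inr (Or.inr (Or.inl h')))
          · exact Or.inr (Or.inr (Or.inr (Or.inr h')))
    · obtain ⟨⟨y1, hy1⟩, ⟨y2, hy2⟩⟩ := hsz u hu
      rintro x (rfl | rfl | rfl | rfl | rfl)
      · exact IsConj.refl _
      · exact h1
      · rw [hy1, hPconj]; exact h1
      · exact h2
      · rw [hy2, hPconj]; exact h2
  rcases key t₀ (Or.inl rfl) with ⟨h1, h2⟩ | ⟨h1, h2⟩ <;> rcases key (t₀ * z₀) (Or.inr rfl) with ⟨h3, h4⟩ | ⟨h3, h4⟩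
  · exact htz _ ⟨h1, h3⟩
  · exact concl s₀ w₀ (Or.inl ⟨rfl, rfl⟩) h1 h2 h3 h4
  · exact concl w₀ s₀ (Or.inr ⟨rfl, rfl⟩) h1 h2 h3 h4
  · exact htz _ ⟨h1, h3⟩

end Cfsg.Agent.S3309
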