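import Cfsg.Statements.S3313
import Cfsg.Agent.H19_J2a
import Cfsg.Agent.S0213
import Cfsg.Agent.H11_FStar
import Cfsg.Agent.H28_Xsp

set_option autoImplicit false
open Cfsg

namespace Cfsg.Agent.S3313

open Cfsg.Agent.H19.J2 Cfsg.Agent.H19.Ex32 Cfsg.Agent.H28.Xsp

set_option maxRecDepth 100000 in
theorem a5_30 : ∀ a : alternatingGroup (Fin 5), a ^ 30 = 1 := by decide +kernel

/-- the two involutions commute with an involution that is a power of their product -/
theorem comm_of_zpowers {G : Type*} [Group G] {u v w : G} (hu : u * u = 1) (hv : v * v = 1) (hw : w * w = 1)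
    (h : w ∈ Subgroup.zpowers (u * v)) : u * w = w * u ∧ v * w = w * v := by
  obtain ⟨n, hn⟩ := Subgroup.mem_zpowers_iff.1 h
  have hui : u⁻¹ = u := inv_eq_of_mul_eq_one_right hu
  have hvi : v⁻¹ = v := inv_eq_of_mul_eq_one_right hv
  have hwi : w⁻¹ = w := inv_eq_of_mul_eq_one_right hw
  have e1 : u * (u * v) * u⁻¹ = (u * v)⁻¹ := by
    rw [mul_inv_rev, hui, hvi, ← mul_assoc, hu, one_mul]
  have e2 : v * (u * v) * v⁻¹ = (u * v)⁻¹ := by
    calc v * (u * v) * v⁻¹ = v * u := by group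
      _ = v⁻¹ * u⁻¹ := by rw [hui, hvi]
      _ = (u * v)⁻¹ := by rw [mul_inv_rev]
  have key : ∀ g, g * (u * v) * g⁻¹ = (u * v)⁻¹ → g * w = w * g := by
    intro g hg
    have h1 : g * w * g⁻¹ = w := by
      rw [← hn, ← conj_zpow, hg, inv_zpow, hn, hwi]
    calc g * w = g * w * g⁻¹ * g := by group
      _ = w * g := by rw [h1]
  exact ⟨key u e1, key v e2⟩

theorem sq_of {G : Type*} [Group G] (x y : G) (hx : orderOf x = 2) (hxy : IsConj x y) : y * y = 1 := by
  obtain ⟨c, rfl⟩ := isConj_iff.1 hxy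
  have : x * x = 1 := by rw [← pow_two, ← hx, pow_orderOf_eq_one]
  calc c * x * c⁻¹ * (c * x * c⁻¹) = c * (x * x) * c⁻¹ := by group
    _ = 1 := by rw [this]; group

theorem ne_of {G : Type*} [Group G] (x y : G) (hx : orderOf x = 2) (hxy : IsConj x y) : y ≠ 1 := by
  rintro rfl
  obtain ⟨c, hc⟩ := isConj_iff.1 hxy
  have : x = 1 := by
    calc x = c⁻¹ * (c * x * c⁻¹) * c := by group
      _ = 1 := by rw [hc]; group
  rw [this, orderOf_one] at hx; omega

theorem mem_sup_comm {G : Type*} [Group G] {V B : Subgroup G} (h : ∀ a ∈ V, ∀ b ∈ B, a * b = b * a) {x : G} (hx : x ∈ V ⊔ B) :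
    ∃ w ∈ V, ∃ b ∈ B, w * b = x := by
  let S : Subgroup G :=
    { carrier := {x | ∃ w ∈ V, ∃ b ∈ B, w * b = x}
      mul_mem' := by
        rintro _ _ ⟨w, hw, b, hb, rfl⟩ ⟨w', hw', b', hb', rfl⟩
        refine ⟨w * w', V.mul_mem hw hw', b * b', B.mul_mem hb hb', ?_⟩
        calc w * w' * (b * b') = w * (w' * b) * b' := by group
          _ = w * (b * w') * b' := by rw [h w' hw' b hb]
          _ = _ := by group
      one_mem' := ⟨1, V.one_mem, 1, B.one_mem, mul_one 1⟩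
      inv_mem' := by
        rintro _ ⟨w, hw, b, hb, rfl⟩
        exact ⟨w⁻¹, V.inv_mem hw, b⁻¹, B.inv_mem hb, by rw [h _ (V.inv_mem hw) _ (B.inv_mem hb), mul_inv_rev]⟩ }
  have h1 : V ⊔ B ≤ S := sup_le (fun w hw => ⟨w, hw, 1, B.one_mem, mul_one w⟩) (fun b hb => ⟨1, V.one_mem, b, hb, one_mul b⟩)
  exact h1 hx

/-- pairs for `V × A5` -/
theorem card_t {G : Type*} [Group G] [Finite G] {z t : G} (hz : orderOf z = 2) (ht : orderOf t = 2) (hzt : ¬ IsConj z t) (V B : Subgroup G)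
    (hVB : Cfsg.IsInternalDirectProduct V B (Subgroup.centralizer ({t} : Set G)))
    (hV2 : ∀ v ∈ V, v ^ 2 = 1) (htV : t ∈ V) (e : ↥B ≃* alternatingGroup (Fin 5))
    (hBz : ∀ x ∈ B, orderOf x = 2 → IsConj x z)
    (hCt : ∀ x ∈ Subgroup.centralizer ({t} : Set G), orderOf x = 2 → x ∉ B → IsConj x t) :
    Nat.card {p : G × G // IsConj z p.1 ∧ IsConj t p.2 ∧ t ∈ Subgroup.zpowers (p.1 * p.2)} = 195 := by
  classical
  obtain ⟨hVC, hBC, hcomm, hVB0, hsup⟩ := hVB
  have htt : t * t = 1 := by rw [← pow_two, ← ht, pow_orderOf_eq_one]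
  have ht1 : t ≠ 1 := by rintro rfl; rw [orderOf_one] at ht; omega
  have htB : t ∉ B := by
    intro h
    have : t ∈ V ⊓ B := Subgroup.mem_inf.2 ⟨htV, h⟩
    rw [hVB0, Subgroup.mem_bot] at this; exact ht1 this
  have ord2 : ∀ x : G, x * x = 1 → x ≠ 1 → orderOf x = 2 := fun x h h1 => orderOf_eq_prime (by rw [pow_two]; exact h) h1
  -- target type
  have hcount : Nat.card {p : B × B // (p.1 * p.1 = 1 ∧ p.1 ≠ 1) ∧ p.2 * p.2 = 1 ∧ (p.1 * p.2) ^ 15 = 1} = 195 := by
    have h1 : Nat.card {p : B × B // (p.1 * p.1 = 1 ∧ p.1 ≠ 1) ∧ p.2 * p.2 = 1 ∧ (p.1 * p.2) ^ 15 = 1} =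
        Nat.card (Σ a : {a : alternatingGroup (Fin 5) // a * a = 1 ∧ a ≠ 1}, {b : alternatingGroup (Fin 5) // b * b = 1 ∧ (a.1 * b) ^ 15 = 1}) := by
      have h2 : Nat.card {p : B × B // (p.1 * p.1 = 1 ∧ p.1 ≠ 1) ∧ p.2 * p.2 = 1 ∧ (p.1 * p.2) ^ 15 = 1} =
          Nat.card {p : alternatingGroup (Fin 5) × alternatingGroup (Fin 5) // (p.1 * p.1 = 1 ∧ p.1 ≠ 1) ∧ p.2 * p.2 = 1 ∧ (p.1 * p.2) ^ 15 = 1} := by
        apply Nat.card_congr
        refine Equiv.subtypeEquiv (e.toEquiv.prodCongr e.toEquiv) ?_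
        rintro ⟨a, b⟩
        show ((a * a = 1 ∧ a ≠ 1) ∧ b * b = 1 ∧ (a * b) ^ 15 = 1) ↔ ((e a * e a = 1 ∧ e a ≠ 1) ∧ e b * e b = 1 ∧ (e a * e b) ^ 15 = 1)
        rw [← map_mul, ← map_mul, ← map_mul, ← map_pow, ne_eq, ne_eq, EmbeddingLike.map_eq_one_iff, EmbeddingLike.map_eq_one_iff,
          EmbeddingLike.map_eq_one_iff, EmbeddingLike.map_eq_one_iff]
      rw [h2]
      apply Nat.card_congr
      exact ⟨fun p => ⟨⟨p.1.1, p.2.1⟩, ⟨p.1.2, p.2.2⟩⟩, fun s => ⟨(s.1.1, s.2.1), s.1.2, s.2.2⟩, fun p => rfl, fun s => rfl⟩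
    rw [h1, Nat.card_sigma]
    have h2 : ∀ a : {a : alternatingGroup (Fin 5) // a * a = 1 ∧ a ≠ 1},
        Nat.card {b : alternatingGroup (Fin 5) // b * b = 1 ∧ (a.1 * b) ^ 15 = 1} = 13 := by
      intro a
      rw [Nat.card_eq_fintype_card]
      convert a5_odd a.1 a.2.1 a.2.2
    rw [Finset.sum_congr rfl (fun a _ => h2 a), Finset.sum_const, Finset.card_univ, a5_inv]
    norm_num
  rw [← hcount]
  symm
  have hcen : ∀ x : G, x ∈ Subgroup.centralizer ({t} : Set G) ↔ x * t = t * x := fun x => Subgroup.mem_centralizer_singleton_iff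
  have htB' : ∀ b ∈ B, t * b = b * t := fun b hb => hcomm t htV b hb
  let T : {p : B × B // (p.1 * p.1 = 1 ∧ p.1 ≠ 1) ∧ p.2 * p.2 = 1 ∧ (p.1 * p.2) ^ 15 = 1} →
      {p : G × G // IsConj z p.1 ∧ IsConj t p.2 ∧ t ∈ Subgroup.zpowers (p.1 * p.2)} := fun p => ⟨((p.1.1 : G), t * (p.1.2 : G)), by
    obtain ⟨⟨u, b⟩, ⟨hu, hu1⟩, hb, hub⟩ := p
    have hu' : (u : G) * u = 1 := Subtype.ext_iff.1 hu
    have hb' : (b : G) * b = 1 := Subtype.ext_iff.1 hb
    have hub' : ((u : G) * b) ^ 15 = 1 := Subtype.ext_iff.1 hub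
    refine ⟨(hBz u u.2 (ord2 _ hu' (fun h => hu1 (Subtype.ext h)))).symm, ?_, ?_⟩
    · have hsq : (t * (b : G)) * (t * b) = 1 := by
        calc (t * (b : G)) * (t * b) = t * (b * t) * b := by group
          _ = t * (t * b) * b := by rw [htB' b b.2]
          _ = (t * t) * (b * b) := by group
          _ = 1 := by rw [htt, hb', one_mul]
      have hnB : t * (b : G) ∉ B := by
        intro h
        apply htB
        have := B.mul_mem h (B.inv_mem b.2)
        rwa [mul_inv_cancel_right] at this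
      have hne : t * (b : G) ≠ 1 := fun h => hnB (h ▸ B.one_mem)
      refine (hCt _ ?_ (ord2 _ hsq hne) hnB).symm
      rw [hcen, mul_assoc, ← htB' b b.2]
    · refine Subgroup.mem_zpowers_iff.2 ⟨15, ?_⟩
      show ((u : G) * (t * b)) ^ (15 : ℤ) = t
      have h1 : (u : G) * (t * b) = t * (u * b) := by rw [← mul_assoc, ← htB' u u.2, mul_assoc]
      have h2 : Commute t ((u : G) * b) := htB' _ (B.mul_mem u.2 b.2)
      rw [h1, show (15 : ℤ) = ((15 : ℕ) : ℤ) from rfl, zpow_natCast, h2.mul_pow, hub', mul_one, show 15 = 2 * 7 + 1 from rfl, pow_succ, pow_mul,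
        pow_two, htt, one_pow, one_mul]⟩
  apply Nat.card_congr (Equiv.ofBijective T ⟨?_, ?_⟩)
  · rintro ⟨⟨u, b⟩, h1⟩ ⟨⟨u', b'⟩, h2⟩ h
    have h3 : ((u : G), t * (b : G)) = ((u' : G), t * (b' : G)) := Subtype.ext_iff.1 h
    rw [Prod.mk.injEq] at h3
    have h4 : u = u' := Subtype.ext h3.1
    have h5 : b = b' := Subtype.ext (mul_left_cancel h3.2)
    subst h4; subst h5; rfl
  · rintro ⟨⟨u, v⟩, hu, hv, htz⟩
    dsimp only at hu hv htz
    have huu := sq_of z u hz hu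
    have hvv := sq_of t v ht hv
    have hu1 := ne_of z u hz hu
    have hv1 := ne_of t v ht hv
    obtain ⟨huc, hvc⟩ := comm_of_zpowers huu hvv htt htz
    have huB : u ∈ B := by
      by_contra h
      exact hzt (hu.trans (hCt u ((hcen u).2 huc) (ord2 u huu hu1) h))
    have hvB : v ∉ B := by
      intro h
      exact hzt ((hBz v h (ord2 v hvv hv1)).symm.trans hv.symm)
    have hvC : v ∈ V ⊔ B := by rw [hsup]; exact (hcen v).2 hvc
    obtain ⟨w, hw, b, hb, rfl⟩ := mem_sup_comm hcomm hvC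
    have hww : w * w = 1 := by rw [← pow_two]; exact hV2 w hw
    have hbb : b * b = 1 := by
      have h1 : (w * b) * (w * b) = (w * w) * (b * b) := by
        calc (w * b) * (w * b) = w * (b * w) * b := by group
          _ = w * (w * b) * b := by rw [hcomm w hw b hb]
          _ = _ := by group
      rw [h1, hww, one_mul] at hvv; exact hvv
    obtain ⟨n, hn⟩ := Subgroup.mem_zpowers_iff.1 htz
    have h1 : u * (w * b) = w * (u * b) := by rw [← mul_assoc, ← hcomm w hw u huB, mul_assoc]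
    have h2 : Commute w (u * b) := hcomm w hw _ (B.mul_mem huB hb)
    rw [h1, h2.mul_zpow] at hn
    -- project
    have h3 : t⁻¹ * w ^ n = ((u * b) ^ n)⁻¹ := by
      rw [inv_mul_eq_iff_eq_mul, ← hn, mul_inv_cancel_right]
    have h4 : t⁻¹ * w ^ n ∈ V ⊓ B := Subgroup.mem_inf.2 ⟨V.mul_mem (V.inv_mem htV) (V.zpow_mem hw n), by
      rw [h3]; exact B.inv_mem (B.zpow_mem (B.mul_mem huB hb) n)⟩
    rw [hVB0, Subgroup.mem_bot] at h4
    have h5 : (u * b) ^ n = 1 := by rw [h4] at h3; exact inv_eq_one.1 h3.symm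
    have h6 : w ^ n = t := (inv_mul_eq_one.1 h4).symm
    obtain ⟨hodd, hwt⟩ : Odd n ∧ w = t := by
      rcases Int.even_or_odd' n with ⟨j, rfl | rfl⟩
      · exfalso
        rw [zpow_mul, zpow_ofNat, pow_two, hww, one_zpow] at h6
        exact ht1 h6.symm
      · refine ⟨⟨j, rfl⟩, ?_⟩
        rw [zpow_add, zpow_mul, zpow_ofNat, pow_two, hww, one_zpow, one_mul, zpow_one] at h6
        exact h6
    subst hwt
    have h7 : (u * b) ^ (30 : ℕ) = 1 := by
      have h8 : (⟨u * b, B.mul_mem huB hb⟩ : B) ^ 30 = 1 := by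
        apply e.injective
        rw [map_pow, a5_30, map_one]
      exact Subtype.ext_iff.1 h8
    have h8 : (u * b) ^ 15 = 1 := by
      have h9 : orderOf (u * b) ∣ 30 := orderOf_dvd_of_pow_eq_one h7
      have h10 : (orderOf (u * b) : ℤ) ∣ n := orderOf_dvd_iff_zpow_eq_one.2 h5
      have h11 : ¬ 2 ∣ orderOf (u * b) := by
        intro h12
        have : (2 : ℤ) ∣ n := (Int.natCast_dvd_natCast.2 h12).trans h10
        rw [← Int.not_even_iff_odd, even_iff_two_dvd] at hodd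
        exact hodd this
      have h12 : Nat.Coprime (orderOf (u * b)) 2 := by
        rw [Nat.coprime_comm]; exact (Nat.Prime.coprime_iff_not_dvd Nat.prime_two).2 h11
      rw [show 30 = 15 * 2 by norm_num] at h9
      exact orderOf_dvd_iff_pow_eq_one.1 (h12.dvd_of_dvd_mul_right h9)
    refine ⟨⟨(⟨u, huB⟩, ⟨b, hb⟩), ⟨Subtype.ext huu, fun h => hu1 (Subtype.ext_iff.1 h)⟩, Subtype.ext hbb, Subtype.ext h8⟩, rfl⟩
theorem card_prod {G : Type*} [Group G] [Finite G] {A B C : Subgroup G} (hAB : A ⊓ B = ⊥) (hA : A ≤ C) (hB : B ≤ C)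
    (h : ∀ x ∈ C, ∃ a ∈ A, ∃ b ∈ B, a * b = x) : Nat.card C = Nat.card A * Nat.card B := by
  rw [← Nat.card_prod]
  symm
  let T : A × B → C := fun p => ⟨(p.1 : G) * p.2, C.mul_mem (hA p.1.2) (hB p.2.2)⟩
  apply Nat.card_congr (Equiv.ofBijective T ⟨?_, ?_⟩)
  · rintro ⟨a, b⟩ ⟨a', b'⟩ h
    have h1 : (a : G) * b = a' * b' := Subtype.ext_iff.1 h
    have h2 : (a' : G)⁻¹ * a = b' * (b : G)⁻¹ := by
      rw [inv_mul_eq_iff_eq_mul, ← mul_assoc, ← h1, mul_inv_cancel_right]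
    have h3 : (a' : G)⁻¹ * a ∈ A ⊓ B := Subgroup.mem_inf.2 ⟨A.mul_mem (A.inv_mem a'.2) a.2, by rw [h2]; exact B.mul_mem b'.2 (B.inv_mem b.2)⟩
    rw [hAB, Subgroup.mem_bot, inv_mul_eq_one] at h3
    have h4 : a = a' := Subtype.ext h3.symm
    subst h4
    have h5 : b = b' := Subtype.ext (mul_left_cancel h1)
    rw [h5]
  · rintro ⟨x, hx⟩
    obtain ⟨a, ha, b, hb, rfl⟩ := h x hx
    exact ⟨(⟨a, ha⟩, ⟨b, hb⟩), rfl⟩

theorem card_A5 {K : Type*} [Group K] (e : K ≃* alternatingGroup (Fin 5)) : Nat.card K = 60 := by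
  rw [Nat.card_congr e.toEquiv, nat_card_alternatingGroup]
  simp [Nat.factorial]

/-- The order of a simple group with the involution pattern of the Hall–Janko group. Let G be a non-abelian finite simple group with exactly two conjugacy classes of involutions, represented by z and t, such that: F*(C_G(z)) is an extraspecial 2-group; Q = O₂(C_G(z)) has order 32 and C_G(z) is the semidirect product of Q by a subgroup isomorphic to A₅; every involution of Q is conjugate to z and every other involution of C_G(z) is conjugate to t; C_G(t) is an internal direct product V × B with V a four-group containing t and B ≅ A₅; every involution of B is conjugate to z and every other involution of C_G(t) is conjugate to t. Then |G| = 604800. -/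
theorem result {G : Type*} [Group G] [Finite G]
    [IsSimpleGroup G] (hna : ¬ IsMulCommutative G) (z t : G) (hz : orderOf z = 2) (ht : orderOf t = 2)
    (hzt : ¬ IsConj z t) (hcl : ∀ x : G, orderOf x = 2 → IsConj x z ∨ IsConj x t)
    (hex : Cfsg.IsExtraspecial 2 ↥(Cfsg.generalizedFittingSubgroup ↥(Subgroup.centralizer ({z} : Set G))))
    (hQ : Nat.card ↥(Cfsg.pCore 2 ↥(Subgroup.centralizer ({z} : Set G))) = 32)
    (K : Subgroup G) (hK : Nonempty (↥K ≃* alternatingGroup (Fin 5)))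
    (hKC : K ⊔ (Cfsg.pCore 2 ↥(Subgroup.centralizer ({z} : Set G))).map (Subgroup.centralizer ({z} : Set G)).subtype = Subgroup.centralizer ({z} : Set G))
    (hKQ : K ⊓ (Cfsg.pCore 2 ↥(Subgroup.centralizer ({z} : Set G))).map (Subgroup.centralizer ({z} : Set G)).subtype = ⊥)
    (hQz : ∀ x ∈ (Cfsg.pCore 2 ↥(Subgroup.centralizer ({z} : Set G))).map (Subgroup.centralizer ({z} : Set G)).subtype, orderOf x = 2 → IsConj x z)
    (hCz : ∀ x ∈ Subgroup.centralizer ({z} : Set G), orderOf x = 2 →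
      x ∉ (Cfsg.pCore 2 ↥(Subgroup.centralizer ({z} : Set G))).map (Subgroup.centralizer ({z} : Set G)).subtype → IsConj x t)
    (V B : Subgroup G) (hVB : Cfsg.IsInternalDirectProduct V B (Subgroup.centralizer ({t} : Set G)))
    (hV : Nat.card ↥V = 4) (hV2 : ∀ v ∈ V, v ^ 2 = 1) (htV : t ∈ V) (hB : Nonempty (↥B ≃* alternatingGroup (Fin 5)))
    (hBz : ∀ x ∈ B, orderOf x = 2 → IsConj x z)
    (hCt : ∀ x ∈ Subgroup.centralizer ({t} : Set G), orderOf x = 2 → x ∉ B → IsConj x t) :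
    Nat.card G = 604800 := by
  classical
  haveI : Fact (Nat.Prime 2) := ⟨Nat.prime_two⟩
  obtain ⟨e⟩ := hK
  obtain ⟨eB⟩ := hB
  have hzz : z * z = 1 := by rw [← pow_two, ← hz, pow_orderOf_eq_one]
  have hz1 : z ≠ 1 := by rintro rfl; rw [orderOf_one] at hz; omega
  have hnt := card_t hz ht hzt V B hVB hV2 htV eB hBz hCt
  have hct : Nat.card (Subgroup.centralizer ({t} : Set G)) = 240 := by
    obtain ⟨hVC, hBC, hcomm, hVB0, hsup⟩ := hVB
    rw [card_prod hVB0 hVC hBC (fun x hx => mem_sup_comm hcomm (by rw [hsup]; exact hx)), hV, card_A5 eB]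
  obtain ⟨H, hH⟩ : ∃ H, H = Subgroup.centralizer ({z} : Set G) := ⟨_, rfl⟩
  rw [← hH] at hex hQ hKC hKQ hQz hCz
  have hcen : ∀ x : G, x ∈ H ↔ x * z = z * x := fun x => by rw [hH]; exact Subgroup.mem_centralizer_singleton_iff
  obtain ⟨Q, hQdef⟩ : ∃ Q, Q = Cfsg.pCore 2 ↥H := ⟨_, rfl⟩
  rw [← hQdef] at hQ hKC hKQ hQz hCz
  haveI hQn : Q.Normal := by rw [hQdef]; exact Cfsg.Agent.H1.Nilp.pCore_normal 2
  have hF : Cfsg.generalizedFittingSubgroup H = Q := by
    rw [hQdef]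
    exact le_antisymm (Cfsg.Agent.H1.Nilp.le_pCore inferInstance hex.1.1) ((Cfsg.Agent.H1.Nilp.pCore_le_fitting 2).trans Cfsg.Agent.H11.FStar.fitting_le_generalizedFitting)
  rw [hF] at hex
  obtain ⟨z', hz'⟩ := Xsp.exists_of_isExtraspecial hex
  have hzH : z ∈ H := (hcen z).2 rfl
  have hzc : ∀ h : H, h * ⟨z, hzH⟩ = ⟨z, hzH⟩ * h := fun h => Subtype.ext ((hcen h).1 h.2)
  have hzQ : (⟨z, hzH⟩ : H) ∈ Q := by
    rw [hQdef]
    have h1 : (Subgroup.zpowers (⟨z, hzH⟩ : H)).Normal := by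
      constructor
      intro n hn g
      obtain ⟨k, rfl⟩ := Subgroup.mem_zpowers_iff.1 hn
      have : Commute g ((⟨z, hzH⟩ : H) ^ k) := Commute.zpow_right (hzc g) k
      rw [this.eq, mul_inv_cancel_right]; exact hn
    apply Cfsg.Agent.H1.Nilp.le_pCore h1 _ (Subgroup.mem_zpowers _)
    apply IsPGroup.of_card (n := 1)
    rw [Nat.card_zpowers, pow_one]
    rw [← Subgroup.orderOf_coe]; exact hz
  have hzz' : (⟨z, hzH⟩ : H) = z' := by
    rcases hz'.cen _ hzQ (fun y hy => (hzc y).symm) with h | h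
    · exact absurd (Subtype.ext_iff.1 h) hz1
    · exact h
  subst hzz'
  have D : Data Q (⟨⟨z, hzH⟩, hzQ⟩ : Q) :=
    { ne := fun h => hz1 (Subtype.ext_iff.1 (Subtype.ext_iff.1 h))
      zz := Subtype.ext (Subtype.ext hzz)
      card := hQ
      sq := fun x => by
        rcases hz'.sqr x x.2 with h | h
        · exact Or.inl (Subtype.ext h)
        · exact Or.inr (Subtype.ext h)
      comm := fun x y => by
        rcases hz'.comm x x.2 y y.2 with h | h
        · exact Or.inl (Subtype.ext h)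
        · right
          apply Subtype.ext
          show (x : H) * y = y * x * ⟨z, hzH⟩
          rw [h, hzc]
      cent := fun x => by
        constructor
        · intro h
          rcases hz'.cen x x.2 (fun y hy => Subtype.ext_iff.1 (h ⟨y, hy⟩)) with h1 | h1
          · exact Or.inl (Subtype.ext h1)
          · exact Or.inr (Subtype.ext h1)
        · rintro (rfl | rfl) y
          · rw [one_mul, mul_one]
          · exact Subtype.ext (hzc y).symm }
  have hKH : K ≤ H := by rw [← hKC]; exact le_sup_left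
  have hQH : Q.map H.subtype ≤ H := Subgroup.map_subtype_le _
  have hmemQ : ∀ x : H, (x : G) ∈ Q.map H.subtype ↔ x ∈ Q := by
    intro x
    constructor
    · rintro ⟨y, hy, hyx⟩
      rwa [← Subtype.ext hyx]
    · intro hx; exact ⟨x, hx, rfl⟩
  obtain ⟨K', hK'⟩ : ∃ K', K' = K.subgroupOf H := ⟨_, rfl⟩
  have e' : K' ≃* alternatingGroup (Fin 5) := by rw [hK']; exact (Subgroup.subgroupOfEquivOfLe hKH).trans e
  have hKQ' : K' ⊓ Q = ⊥ := by
    rw [eq_bot_iff]
    intro x hx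
    obtain ⟨hx1, hx2⟩ := Subgroup.mem_inf.1 hx
    rw [hK', Subgroup.mem_subgroupOf] at hx1
    have : (x : G) ∈ K ⊓ Q.map H.subtype := Subgroup.mem_inf.2 ⟨hx1, (hmemQ x).2 hx2⟩
    rw [hKQ, Subgroup.mem_bot] at this
    exact Subgroup.mem_bot.2 (Subtype.ext this)
  have hsup' : K' ⊔ Q = ⊤ := by
    rw [← Subgroup.map_subtype_inj, Subgroup.map_sup, hK', Subgroup.subgroupOf_map_subtype, inf_of_le_left hKH, hKC, ← MonoidHom.range_eq_map, Subgroup.range_subtype]
  have hcz : Nat.card H = 1920 := by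
    rw [card_prod hKQ hKH hQH (fun x hx => by
      have : (⟨x, hx⟩ : H) ∈ K' ⊔ Q := by rw [hsup']; exact Subgroup.mem_top _
      rw [← SetLike.mem_coe, Subgroup.mul_normal, Set.mem_mul] at this
      obtain ⟨a, ha, b, hb, hab⟩ := this
      rw [SetLike.mem_coe, hK', Subgroup.mem_subgroupOf] at ha
      exact ⟨a, ha, b, ⟨b, hb, rfl⟩, Subtype.ext_iff.1 hab⟩), card_A5 e]
    have : Nat.card (Q.map H.subtype) = 32 := by
      rw [← hQ]
      exact (Nat.card_congr (Q.equivMapOfInjective H.subtype (Subgroup.subtype_injective H)).toEquiv).symm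
    rw [this]
  have ord2 : ∀ x : G, x * x = 1 → x ≠ 1 → orderOf x = 2 := fun x h h1 => orderOf_eq_prime (by rw [pow_two]; exact h) h1
  have hnc : ¬ ∀ k ∈ K', ∀ x ∈ Q, k * x = x * k := by
    intro hall
    obtain ⟨a⟩ : Nonempty {a : alternatingGroup (Fin 5) // a * a = 1 ∧ a ≠ 1} := Fintype.card_pos_iff.1 (by rw [a5_inv]; norm_num)
    let k : K := e.symm a.1
    have hkk : (k : G) * k = 1 := by
      have : k * k = 1 := by rw [← map_mul, a.2.1, map_one]
      exact Subtype.ext_iff.1 this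
    have hk1 : (k : G) ≠ 1 := by
      intro h
      apply a.2.2
      have : k = 1 := Subtype.ext h
      exact e.symm.injective (this.trans (map_one e.symm).symm)
    have hkQ : (k : G) ∉ Q.map H.subtype := by
      intro h
      have : (k : G) ∈ K ⊓ Q.map H.subtype := Subgroup.mem_inf.2 ⟨k.2, h⟩
      rw [hKQ, Subgroup.mem_bot] at this
      exact hk1 this
    have hconj := hCz k (hKH k.2) (ord2 _ hkk hk1) hkQ
    obtain ⟨c, hc⟩ := isConj_iff.1 hconj
    -- the conjugate of Q lies in C(t)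
    have h1 : Nat.card (Q.map H.subtype) ∣ Nat.card (Subgroup.centralizer ({t} : Set G)) := by
      have h2 : ((Q.map H.subtype).map (MulAut.conj c).toMonoidHom) ≤ Subgroup.centralizer ({t} : Set G) := by
        rintro _ ⟨_, ⟨x, hx, rfl⟩, rfl⟩
        rw [Subgroup.mem_centralizer_singleton_iff]
        show c * (x : G) * c⁻¹ * t = t * (c * x * c⁻¹)
        have h3 := hall ⟨k, hKH k.2⟩ (by rw [hK', Subgroup.mem_subgroupOf]; exact k.2) x hx
        have h4 : (k : G) * x = x * k := Subtype.ext_iff.1 h3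
        rw [← hc]
        calc c * (x : G) * c⁻¹ * (c * k * c⁻¹) = c * (x * k) * c⁻¹ := by group
          _ = c * (k * x) * c⁻¹ := by rw [h4]
          _ = _ := by group
      have h3 := Subgroup.card_dvd_of_le h2
      rwa [← Nat.card_congr ((Q.map H.subtype).equivMapOfInjective (MulAut.conj c).toMonoidHom (MulAut.conj c).injective).toEquiv] at h3
    have h2 : Nat.card (Q.map H.subtype) = 32 := by
      rw [← hQ]
      exact (Nat.card_congr (Q.equivMapOfInjective H.subtype (Subgroup.subtype_injective H)).toEquiv).symm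
    rw [h2, hct] at h1
    omega
  have hnz := card_pairs Q K' ⟨z, hzH⟩ hzQ D hzc hnc e' hKQ' hsup'
  have hzpow : ∀ x : H, ⟨z, hzH⟩ ∈ Subgroup.zpowers x ↔ z ∈ Subgroup.zpowers (x : G) := by
    intro x
    rw [Subgroup.mem_zpowers_iff, Subgroup.mem_zpowers_iff]
    constructor
    · rintro ⟨k, hk⟩; exact ⟨k, by rw [← Subgroup.coe_zpow, hk]⟩
    · rintro ⟨k, hk⟩; exact ⟨k, Subtype.ext (by rw [Subgroup.coe_zpow, hk])⟩
  have hnz' : Nat.card {p : G × G // IsConj z p.1 ∧ IsConj t p.2 ∧ z ∈ Subgroup.zpowers (p.1 * p.2)} = 960 := by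
    rw [← hnz]
    apply Nat.card_congr
    have hprop : ∀ p : G × G, (IsConj z p.1 ∧ IsConj t p.2 ∧ z ∈ Subgroup.zpowers (p.1 * p.2)) → p.1 ∈ H ∧ p.2 ∈ H := by
      rintro ⟨u, v⟩ ⟨hu, hv, h⟩
      have := comm_of_zpowers (sq_of z u hz hu) (sq_of t v ht hv) hzz h
      exact ⟨(hcen u).2 this.1, (hcen v).2 this.2⟩
    refine ⟨fun p => ⟨(⟨p.1.1, (hprop p.1 p.2).1⟩, ⟨p.1.2, (hprop p.1 p.2).2⟩), ⟨?_, Subtype.ext (sq_of z _ hz p.2.1), fun h => ne_of z _ hz p.2.1 (Subtype.ext_iff.1 h)⟩,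
        ⟨?_, Subtype.ext (sq_of t _ ht p.2.2.1)⟩, (hzpow _).2 p.2.2.2⟩,
      fun p => ⟨((p.1.1 : G), (p.1.2 : G)), ?_, ?_, (hzpow _).1 p.2.2.2⟩, fun p => rfl, fun p => rfl⟩
    · by_contra h
      have h1 := hCz p.1.1 (hprop p.1 p.2).1 (ord2 _ (sq_of z _ hz p.2.1) (ne_of z _ hz p.2.1)) (fun h2 => h ((hmemQ ⟨p.1.1, _⟩).1 h2))
      exact hzt (p.2.1.trans h1)
    · intro h
      have h1 := hQz p.1.2 ((hmemQ ⟨p.1.2, _⟩).2 h) (ord2 _ (sq_of t _ ht p.2.2.1) (ne_of t _ ht p.2.2.1))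
      exact hzt (h1.symm.trans p.2.2.1.symm)
    · exact (hQz _ ((hmemQ _).2 p.2.1.1) (ord2 _ (Subtype.ext_iff.1 p.2.1.2.1) (fun h => p.2.1.2.2 (Subtype.ext h)))).symm
    · refine (hCz _ p.1.2.2 (ord2 _ (Subtype.ext_iff.1 p.2.2.1.2) (fun h => ?_)) (fun h => p.2.2.1.1 ((hmemQ _).1 h))).symm
      have : p.1.2 = 1 := Subtype.ext h
      apply p.2.2.1.1
      rw [this]; exact Q.one_mem
  have hfin := Cfsg.Agent.S0213.result z t hz ht hzt (fun x hx => (hcl x hx).imp IsConj.symm IsConj.symm)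
  rw [hct, ← hH, hcz, hnz', hnt] at hfin
  rw [hfin]

end Cfsg.Agent.S3313
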