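import Cfsg.Statements.S3315
import Mathlib
import Cfsg.Agent.H19_U3c
import Cfsg.Agent.H5_HermBasis

set_option autoImplicit false
open Cfsg

namespace Cfsg.Agent.S3315

open Cfsg.Agent.H19.U3

/-- an automorphism whose square is trivial on the first coordinate and on the centre is trivial on the centre -/
theorem central {S F : Type*} [Group S] [Field F] [Fintype F] {q : ℕ} (c : Coord S F q) (hF : Fintype.card F = q ^ 2) (h2 : (2 : F) = 0)
    (φ : MulAut S) (ha : ∀ x, c.a (φ (φ x)) = c.a x) (hb : ∀ x, c.a x = 0 → φ (φ x) = x) : ∀ x, c.a x = 0 → φ x = x := by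
  obtain ⟨k, τ, hk, hA, hB⟩ := c.aut_structure hF h2 φ
  have h1 : ∀ v : F, k * τ (k * τ v) = v := by
    intro v
    obtain ⟨x, rfl⟩ := c.exists_a hF h2 v
    rw [← hA, ← hA, ha]
  have hkk : k * τ k = 1 := by
    have := h1 1
    rwa [map_one, mul_one] at this
  have hττ : ∀ v, τ (τ v) = v := by
    intro v
    have := h1 v
    rw [map_mul, ← mul_assoc, hkk, one_mul] at this
    exact this
  have hfix : ∀ β : F, β ^ q = β → τ β = β := by
    intro β hβ
    by_cases hid : (τ : F →+* F) = RingHom.id F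
    · exact congrArg (fun f : F →+* F => f β) hid
    · obtain ⟨q', hq', hτ⟩ := H5.Herm.sigma_eq (τ : F →+* F) hid (fun a => hττ a)
      have hqq : q' = q := by
        rw [hF] at hq'
        exact (Nat.pow_left_injective (show 2 ≠ 0 by norm_num) hq').symm
      have := hτ β
      rw [hqq, hβ] at this
      exact this
  have hz : ∀ x, c.a x = 0 → c.a (φ x) = 0 := by
    intro x hx; rw [hA, hx, map_zero, mul_zero]
  have hB' : ∀ x, c.a x = 0 → c.b (φ x) = k * k ^ q * c.b x := by
    intro x hx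
    rw [hB x hx, hfix _ (c.fixed_of_a h2 hx)]
  have hn : k * k ^ q = 1 := by
    obtain ⟨x, hx1, hx2⟩ := c.exists_z h2 (β := 1) (one_pow q) (q_pos hF)
    have h3 := hB' (φ x) (hz x hx1)
    rw [hb x hx1, hB' x hx1, hx2, mul_one] at h3
    have h4 : (k * k ^ q - 1) ^ 2 = 0 := by linear_combination -h3 + (1 - k * k ^ q) * h2
    exact sub_eq_zero.1 (pow_eq_zero_iff (two_ne_zero)|>.1 h4)
  intro x hx
  apply c.inj
  · rw [hz x hx, hx]
  · rw [hB' x hx, hn, one_mul]

/-- Let S be a Sylow 2-subgroup of SU₃(2ⁿ), n ≥ 2 (realised over the field with 4ⁿ elements). If a finite 2-group R contains a subgroup S' of index 2 isomorphic to S, then the centre of S' is contained in the centre of R. -/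
theorem result {R : Type*} [Group R] [Finite R]
    (hR : IsPGroup 2 R) (n : ℕ) (hn : 2 ≤ n) {F : Type*} [Field F] [Fintype F] (hF : Fintype.card F = 4 ^ n)
    (P : Sylow 2 ↥(Cfsg.SU 3 F (2 ^ n))) (S' : Subgroup R) (hS : Nonempty (↥S' ≃* ↥(P : Subgroup ↥(Cfsg.SU 3 F (2 ^ n)))))
    (hidx : S'.index = 2) :
    (Subgroup.center ↥S').map S'.subtype ≤ Subgroup.center R := by
  classical
  have hF' : Fintype.card F = (2 ^ n) ^ 2 := by rw [hF, ← pow_mul, mul_comm, pow_mul]; norm_num
  have h2 := two_eq_zero (show n ≠ 0 by omega) hF'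
  obtain ⟨c0⟩ := exists_coord (show n ≠ 0 by omega) hF' P
  obtain ⟨e⟩ := hS
  let c := c0.congr e
  haveI hn : S'.Normal := Subgroup.normal_of_index_eq_two hidx
  rintro _ ⟨z, hz, rfl⟩
  rw [Subgroup.mem_center_iff]
  intro r
  have hrr : r * r ∈ S' := by
    have := Subgroup.mul_self_mem_of_index_two hidx r
    exact this
  have hz0 : c.a z = 0 := (c.mem_center_iff hF' h2 z).1 hz
  have hφφ : ∀ x : S', (MulAut.conjNormal r : MulAut S') ((MulAut.conjNormal r : MulAut S') x) = ⟨r * r, hrr⟩ * x * ⟨r * r, hrr⟩⁻¹ := by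
    intro x
    apply Subtype.ext
    rw [MulAut.conjNormal_apply, MulAut.conjNormal_apply]
    show r * (r * x * r⁻¹) * r⁻¹ = (r * r) * x * (r * r)⁻¹
    group
  have key := central c hF' h2 (MulAut.conjNormal r : MulAut S') (by
      intro x; rw [hφφ, c.conj_a]) (by
      intro x hx
      rw [hφφ]
      have h3 := (c.mem_center_iff hF' h2 x).2 hx
      rw [Subgroup.mem_center_iff] at h3
      rw [h3, mul_inv_cancel_right]) z hz0
  have h4 := Subtype.ext_iff.1 key
  rw [MulAut.conjNormal_apply] at h4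
  show r * (z : R) = z * r
  calc r * (z : R) = (r * z * r⁻¹) * r := by group
    _ = z * r := by rw [h4]

end Cfsg.Agent.S3315
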