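import Cfsg.Statements.S3335
import Cfsg.Agent.H20_Carm2

set_option autoImplicit false
open Cfsg

namespace Cfsg.Agent.S3335
open Cfsg.Agent.H20 Cfsg.Agent.H20.TC

abbrev R (n : ℕ) : Set (FreeGroup (Fin (n - 2))) :=
  ({g : FreeGroup (Fin (n - 2)) | ∃ i : Fin (n - 2), i.val = 0 ∧ g = FreeGroup.of i ^ 3} ∪
       {g | ∃ i : Fin (n - 2), 1 ≤ i.val ∧ g = FreeGroup.of i ^ 2} ∪
       {g | ∃ i j : Fin (n - 2), j.val = i.val + 1 ∧ g = (FreeGroup.of i * FreeGroup.of j) ^ 3} ∪
       {g | ∃ i j : Fin (n - 2), i.val + 1 < j.val ∧ g = (FreeGroup.of i * FreeGroup.of j) ^ 2})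

/-- A presentation of the alternating group of degree n ≥ 3 on generators x_1, …, x_{n−2} (indexed here by 0, …, n−3): the first generator cubes to 1, every other generator squares to 1, the product of two consecutive generators has order dividing 3, and the product of two generators at distance at least 2 has order dividing 2. The group so presented is isomorphic to the alternating group of degree n. -/
theorem result (n : ℕ) (hn : 3 ≤ n) :
    Nonempty (PresentedGroup
      ({g : FreeGroup (Fin (n - 2)) | ∃ i : Fin (n - 2), i.val = 0 ∧ g = FreeGroup.of i ^ 3} ∪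
       {g | ∃ i : Fin (n - 2), 1 ≤ i.val ∧ g = FreeGroup.of i ^ 2} ∪
       {g | ∃ i j : Fin (n - 2), j.val = i.val + 1 ∧ g = (FreeGroup.of i * FreeGroup.of j) ^ 3} ∪
       {g | ∃ i j : Fin (n - 2), i.val + 1 < j.val ∧ g = (FreeGroup.of i * FreeGroup.of j) ^ 2})
      ≃* alternatingGroup (Fin n)) := by
  have hnt : Nontrivial (Fin n) := Fin.nontrivial_iff_two_le.mpr (by omega)
  change Nonempty (PresentedGroup (R n) ≃* alternatingGroup (Fin n))
  set x : ℕ → PresentedGroup (R n) := gP (R n) with hx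
  have hx' : ∀ (i : ℕ) (h : i < n - 2), x i = PresentedGroup.mk (R n) (FreeGroup.of ⟨i, h⟩) := by
    intro i h
    exact gP_eq (R n) ⟨i, h⟩
  have h0 : x 0 ^ 3 = 1 := by
    rw [hx' 0 (by omega), ← map_pow]
    exact PresentedGroup.one_of_mem (Or.inl (Or.inl (Or.inl ⟨_, rfl, rfl⟩)))
  have h2 : ∀ i, 1 ≤ i → i < n - 2 → x i ^ 2 = 1 := by
    intro i h1 hi
    rw [hx' i hi, ← map_pow]
    exact PresentedGroup.one_of_mem (Or.inl (Or.inl (Or.inr ⟨_, h1, rfl⟩)))
  have h3 : ∀ i, i + 1 < n - 2 → (x i * x (i + 1)) ^ 3 = 1 := by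
    intro i hi
    rw [hx' i (by omega), hx' (i + 1) hi, ← map_mul, ← map_pow]
    exact PresentedGroup.one_of_mem (Or.inl (Or.inr ⟨_, _, rfl, rfl⟩))
  have h4 : ∀ i j, i + 1 < j → j < n - 2 → (x i * x j) ^ 2 = 1 := by
    intro i j hij hj
    rw [hx' i (by omega), hx' j hj, ← map_mul, ← map_pow]
    exact PresentedGroup.one_of_mem (Or.inr ⟨_, _, hij, rfl⟩)
  obtain ⟨hf, hc⟩ := Carm.bound x (n - 2) h0 h2 h3 h4 (n - 2) le_rfl
  have hK : Carm.K x (n - 2) = ⊤ := closure_gP (R n)
  rw [hK] at hf hc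
  have hfin : Finite (PresentedGroup (R n)) := Finite.of_equiv _ Subgroup.topEquiv.toEquiv
  rw [Subgroup.card_top] at hc
  -- the map
  let im : Fin (n - 2) → alternatingGroup (Fin n) := fun i => ⟨Carm.y n i, Carm.y_mem n (by omega)⟩
  have hrel : ∀ r ∈ R n, FreeGroup.lift im r = 1 := by
    rintro r (((⟨i, hi, rfl⟩ | ⟨i, hi, rfl⟩) | ⟨i, j, hij, rfl⟩) | ⟨i, j, hij, rfl⟩)
    · simp only [map_pow, FreeGroup.lift_apply_of]
      apply Subtype.ext
      change (Carm.y n i) ^ 3 = 1
      rw [hi]; exact Carm.y_zero n hn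
    · simp only [map_pow, FreeGroup.lift_apply_of]
      exact Subtype.ext (Carm.y_sq n hi)
    · simp only [map_pow, map_mul, FreeGroup.lift_apply_of]
      apply Subtype.ext
      change (Carm.y n i * Carm.y n j) ^ 3 = 1
      rw [hij]; exact Carm.y_braid n (by omega)
    · simp only [map_pow, map_mul, FreeGroup.lift_apply_of]
      exact Subtype.ext (Carm.y_far n hij)
  refine equiv_of_surj hfin (PresentedGroup.toGroup hrel) ?_ ?_
  · intro g
    let K : Subgroup (Equiv.Perm (Fin n)) := (PresentedGroup.toGroup hrel).range.map (alternatingGroup (Fin n)).subtype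
    have hKy : ∀ i, i + 2 < n → Carm.y n i ∈ K := by
      intro i hi
      refine ⟨im ⟨i, by omega⟩, ⟨PresentedGroup.of ⟨i, by omega⟩, ?_⟩, rfl⟩
      rw [PresentedGroup.toGroup.of]
    have hKA : K ≤ alternatingGroup (Fin n) := by
      rintro _ ⟨z, -, rfl⟩
      exact z.2
    rcases Carm.cover n hn K hKy (g : Equiv.Perm (Fin n)) with h | h
    · obtain ⟨z, ⟨w, hw⟩, hz⟩ := h
      exact ⟨w, by rw [hw]; exact Subtype.ext hz⟩
    · exfalso
      have h5 := hKA h
      rw [Equiv.Perm.mem_alternatingGroup, map_mul, Carm.sign_a n (by omega),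
        Equiv.Perm.mem_alternatingGroup.mp g.2] at h5
      exact absurd h5 (by decide)
  · have h5 := two_mul_nat_card_alternatingGroup (α := Fin n)
    rw [Nat.card_perm, Nat.card_fin] at h5
    have e : n - 2 + 2 = n := by omega
    rw [e] at hc
    omega

end Cfsg.Agent.S3335
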