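import Cfsg.Statements.S3341
import Cfsg.Agent.H19_A6f
import Cfsg.Agent.S0497

set_option autoImplicit false
open Cfsg

namespace Cfsg.Agent.S3341


/-- Let G be a finite simple group whose Sylow 3-subgroup S is elementary abelian of order 9, such that G has more than one conjugacy class of elements of order 3 and C_G(s) = S for every non-identity s in S. Then G is isomorphic to the alternating group of degree 6. -/
theorem result {G : Type*} [Group G] [Finite G] [IsSimpleGroup G]
    (P : Sylow 3 G) (S : Subgroup G) (hSP : S = P) (hcomm : IsMulCommutative S) (hexp : ∀ a ∈ S, a ^ 3 = 1)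
    (hcard : Nat.card S = 9)
    (hclasses : ∃ a b : G, orderOf a = 3 ∧ orderOf b = 3 ∧ ∀ g : G, g * a * g⁻¹ ≠ b)
    (hcent : ∀ s ∈ S, s ≠ 1 → Subgroup.centralizer ({s} : Set G) = S) :
    Nonempty (G ≃* alternatingGroup (Fin 6)) := by
  have hc9 : Nat.card P = 9 := by rw [← hcard, hSP]
  have hcx : Cfsg.Agent.H19.A6c.Cx (P : Subgroup G) := by
    refine Cfsg.Agent.H19.A6c.Cx.of P ?_ ?_ hc9 ?_
    · intro a ha b hb
      rw [← hSP] at ha hb
      have := hcomm.is_comm.comm (⟨a, ha⟩ : S) ⟨b, hb⟩
      exact congrArg Subtype.val this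
    · intro a ha
      exact hexp a (hSP ▸ ha)
    · intro s hs h1
      rw [hcent s (hSP ▸ hs) h1, hSP]
  obtain ⟨a, b, ha, hb, hab⟩ := hclasses
  have h360 := Cfsg.Agent.H19.A6c.Cx.main P hcx ha hb (fun hc => by
    obtain ⟨g, hg⟩ := isConj_iff.1 hc
    exact hab g hg)
  exact Cfsg.Agent.S0497.result h360

end Cfsg.Agent.S3341
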