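import Cfsg.Statements.S3349


set_option autoImplicit false
open Cfsg

namespace Cfsg.Agent.S3349

/-- Let Q be a finite extraspecial p-group and α an automorphism of Q fixing every element of some maximal abelian subgroup of Q. Then the order of α is a power of p. -/
theorem result {Q : Type*} [Group Q] [Finite Q]
    (p : ℕ) [Fact p.Prime] (hQ : Cfsg.IsExtraspecial p Q) (α : MulAut Q)
    (A : Subgroup Q) (hA : IsMulCommutative A) (hmax : ∀ B : Subgroup Q, A ≤ B → IsMulCommutative B → B = A)
    (hfix : ∀ a ∈ A, α a = a) :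
    ∃ k : ℕ, orderOf α = p ^ k := by
  classical
  have hcomm : ∀ a ∈ A, ∀ b ∈ A, a * b = b * a := fun a ha b hb =>
    congrArg Subtype.val (hA.is_comm.comm (⟨a, ha⟩ : A) ⟨b, hb⟩)
  have hcent : ∀ c : Q, (∀ a ∈ A, a * c = c * a) → c ∈ A := by
    intro c hc
    have h1 : IsMulCommutative (Subgroup.closure ((A : Set Q) ∪ {c})) := by
      apply Subgroup.isMulCommutative_closure
      rintro x (hx | hx) y (hy | hy)
      · exact hcomm x hx y hy
      · rw [Set.mem_singleton_iff] at hy; rw [hy]; exact hc x hx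
      · rw [Set.mem_singleton_iff] at hx; rw [hx]; exact (hc y hy).symm
      · rw [Set.mem_singleton_iff] at hx hy; rw [hx, hy]
    have h2 := hmax _ (by
      intro x hx
      exact Subgroup.subset_closure (Or.inl hx)) h1
    rw [← h2]
    exact Subgroup.subset_closure (Or.inr rfl)
  have hZA : Subgroup.center Q ≤ A := by
    intro z hz
    apply hcent
    intro a _
    exact Subgroup.mem_center_iff.mp hz a
  have hder : commutator Q = Subgroup.center Q := hQ.1.2.2
  have hnorm : ∀ a ∈ A, ∀ x : Q, x⁻¹ * a * x ∈ A := by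
    intro a ha x
    have h1 : x⁻¹ * a * x * a⁻¹ ∈ A := by
      apply hZA
      rw [← hder]
      have h2 := Subgroup.commutator_mem_commutator (Subgroup.mem_top x⁻¹) (Subgroup.mem_top a)
      rw [commutatorElement_def, inv_inv] at h2
      exact h2
    have h2 := A.mul_mem h1 ha
    rwa [inv_mul_cancel_right] at h2
  have hc : ∀ x : Q, α x * x⁻¹ ∈ A := by
    intro x
    apply hcent
    intro a ha
    have h1 := hfix _ (hnorm a ha x)
    rw [map_mul, map_mul, map_inv, hfix a ha] at h1
    -- (αx)⁻¹ a (αx) = x⁻¹ a x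
    calc a * (α x * x⁻¹) = α x * ((α x)⁻¹ * a * α x) * x⁻¹ := by group
      _ = α x * (x⁻¹ * a * x) * x⁻¹ := by rw [h1]
      _ = α x * x⁻¹ * a := by group
  have hpow : ∀ (k : ℕ) (x : Q), (α ^ k) x = (α x * x⁻¹) ^ k * x := by
    intro k x
    induction k with
    | zero => simp
    | succ k ih =>
      rw [pow_succ', MulAut.mul_apply, ih, map_mul, map_pow, hfix _ (hc x), pow_succ, mul_assoc]
      congr 1
      group
  have hord : α ^ Nat.card A = 1 := by
    ext x
    rw [hpow]
    have h1 : (α x * x⁻¹) ^ Nat.card A = 1 := by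
      have h2 := pow_card_eq_one' (x := (⟨α x * x⁻¹, hc x⟩ : A))
      exact congrArg Subtype.val h2
    rw [h1, one_mul]; rfl
  have hpA : IsPGroup p A := hQ.1.1.to_subgroup A
  obtain ⟨k, hk⟩ := (IsPGroup.iff_card).mp hpA
  rw [hk] at hord
  obtain ⟨j, hj, h⟩ := (Nat.dvd_prime_pow Fact.out).mp (orderOf_dvd_of_pow_eq_one hord)
  exact ⟨j, h⟩

end Cfsg.Agent.S3349
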