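import Cfsg.Statements.S3376
import Cfsg.Agent.H7_G162
import Cfsg.Agent.H2_Card

set_option autoImplicit false
open Cfsg

namespace Cfsg.Agent.S3376

/-- Let G be a group of order 162 = 3⁴·2 with Sylow 3-subgroup S and Sylow 2-subgroup T, having an elementary abelian normal subgroup J of order 27, such that Z = Z(S) has order 3, Z centralizes T, and C_S(T) ≠ S. Then G is isomorphic to the centralizer in Sym(9) of a product of three disjoint 3-cycles. -/
theorem result {G : Type*} [Group G] [Finite G] (hG : Nat.card G = 162)
    (S : Sylow 3 G) (T : Sylow 2 G) (J : Subgroup G) [hJn : J.Normal] (hJcomm : IsMulCommutative J)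
    (hJexp : ∀ a ∈ J, a ^ 3 = 1) (hJcard : Nat.card J = 27)
    (Z : Subgroup G) (hZ : Z = (S : Subgroup G) ⊓ Subgroup.centralizer ((S : Subgroup G) : Set G)) (hZcard : Nat.card Z = 3)
    (hZT : Z ≤ Subgroup.centralizer ((T : Subgroup G) : Set G))
    (hST : (S : Subgroup G) ⊓ Subgroup.centralizer ((T : Subgroup G) : Set G) ≠ S) :
    Nonempty (G ≃* Subgroup.centralizer ({Equiv.swap (0 : Fin 9) 1 * Equiv.swap 1 2 * Equiv.swap 3 4 * Equiv.swap 4 5 * Equiv.swap 6 7 * Equiv.swap 7 8} : Set (Equiv.Perm (Fin 9)))) := by
    classical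
    haveI : Fact (Nat.Prime 3) := ⟨Nat.prime_three⟩
    have hfac : ∀ {p k : ℕ}, p.Prime → p ^ k ∣ 162 → ¬ p ^ (k + 1) ∣ 162 → (162 : ℕ).factorization p = k := by
      intro p k hp h1 h2
      refine le_antisymm (not_lt.1 fun h => h2 ?_) ?_
      · exact (hp.pow_dvd_iff_le_factorization (by norm_num)).2 h
      · exact (hp.pow_dvd_iff_le_factorization (by norm_num)).1 h1
    have hS : Nat.card S = 81 := by
      have h := S.card_eq_multiplicity
      rw [hG, hfac Nat.prime_three (k := 4) (by norm_num) (by norm_num)] at h
      exact h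
    have hT : Nat.card T = 2 := by
      have h := T.card_eq_multiplicity
      rw [hG, hfac Nat.prime_two (k := 1) (by norm_num) (by norm_num)] at h
      exact h
    have hSi : (S : Subgroup G).index = 2 := by
      have h := (S : Subgroup G).card_mul_index
      have h' : Nat.card (S : Subgroup G) = 81 := hS
      rw [h', hG] at h
      omega
    haveI hSn : (S : Subgroup G).Normal := Subgroup.normal_of_index_eq_two hSi
    have hSp : IsPGroup 3 (S : Subgroup G) := S.isPGroup'
    have hJp : IsPGroup 3 J := IsPGroup.of_card (n := 3) (by rw [hJcard]; norm_num)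
    have hJS : J ≤ S := by
      obtain ⟨Q, hQ⟩ := hJp.exists_le_sylow
      have hu := Sylow.unique_of_normal S hSn
      have : Q = S := Subsingleton.elim _ _
      rw [← this]; exact hQ
    have hZS : Z ≤ S := by rw [hZ]; exact inf_le_left
    have hZC : Z ≤ Subgroup.centralizer ((S : Subgroup G) : Set G) := by rw [hZ]; exact inf_le_right
    have hST' : (S : Subgroup G) ⊔ (T : Subgroup G) = ⊤ := by
      apply Subgroup.eq_top_of_card_eq
      apply Nat.dvd_antisymm (Subgroup.card_subgroup_dvd_card _)
      rw [hG]
      have h1 : 81 ∣ Nat.card ((S : Subgroup G) ⊔ (T : Subgroup G) : Subgroup G) := by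
        rw [← hS]; exact Subgroup.card_dvd_of_le le_sup_left
      have h2 : 2 ∣ Nat.card ((S : Subgroup G) ⊔ (T : Subgroup G) : Subgroup G) := by
        have := Subgroup.card_dvd_of_le (le_sup_right : (T : Subgroup G) ≤ (S : Subgroup G) ⊔ (T : Subgroup G))
        rwa [show Nat.card (T : Subgroup G) = 2 from hT] at this
      omega
    have hZcen : ∀ z ∈ Z, z ∈ Subgroup.center G := by
      intro z hz
      have h1 : (S : Subgroup G) ⊔ (T : Subgroup G) ≤ Subgroup.centralizer ({z} : Set G) := by
        apply sup_le
        · intro s hs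
          rw [Subgroup.mem_centralizer_singleton_iff]
          exact Subgroup.mem_centralizer_iff.1 (hZC hz) s hs
        · intro s hs
          rw [Subgroup.mem_centralizer_singleton_iff]
          exact Subgroup.mem_centralizer_iff.1 (hZT hz) s hs
      rw [hST'] at h1
      rw [Subgroup.mem_center_iff]
      intro g
      exact Subgroup.mem_centralizer_singleton_iff.1 (h1 (Subgroup.mem_top g))
    haveI hZn : Z.Normal := ⟨fun z hz g => by
      rwa [Subgroup.mem_center_iff.1 (hZcen z hz) g, mul_assoc, mul_inv_cancel, mul_one]⟩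
    have hZprime : ∀ N : Subgroup G, N ⊓ Z ≠ ⊥ → Z ≤ N := by
      intro N hN
      haveI : Fact (Nat.card Z).Prime := ⟨by rw [hZcard]; exact Nat.prime_three⟩
      rcases (N.subgroupOf Z).eq_bot_or_eq_top_of_prime_card with h | h
      · exfalso
        apply hN
        rw [Subgroup.subgroupOf_eq_bot] at h
        exact h.eq_bot
      · rwa [Subgroup.subgroupOf_eq_top] at h
    have hZJ : Z ≤ J := by
      apply hZprime
      have h1 := _root_.H7.G162.meets (N := J) hSp (by
        rw [inf_eq_left.2 hJS]
        rintro rfl
        rw [Subgroup.card_bot] at hJcard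
        omega)
      rwa [← hZ] at h1
    have hTZ : (T : Subgroup G) ≤ Subgroup.normalizer (Z : Set G) := by
      rw [Subgroup.normalizer_eq_top]; exact le_top
    obtain ⟨W, hWJ, hTW, hWZ, hWZ'⟩ := _root_.H7.G162.invariant_compl (J := J) (T := T) (Z := Z) hJcomm hJexp
      (by rw [show Nat.card (T : Subgroup G) = 2 from hT]; norm_num) hZJ hTZ
    have hWc : Nat.card W = 9 := by
      have h := Cfsg.Agent.H2.Card.card_sup_mul_card_inf (H := W) (N := Z) (by rw [Subgroup.normalizer_eq_top]; exact le_top)
      rw [hWZ, hWZ', hJcard, hZcard, Subgroup.card_bot] at h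
      omega
    have hTJ : ∀ x, x ∈ (T : Subgroup G) → x ∈ J → x = 1 := by
      intro x hx hx'
      have h1 : orderOf x ∣ 2 := by
        have := Subgroup.orderOf_dvd_natCard (T : Subgroup G) hx
        rwa [show Nat.card (T : Subgroup G) = 2 from hT] at this
      have h2 : orderOf x ∣ 27 := by
        have := Subgroup.orderOf_dvd_natCard J hx'
        rwa [hJcard] at this
      have h3 : orderOf x ∣ 1 := by
        have := Nat.dvd_gcd h1 h2
        rwa [show Nat.gcd 2 27 = 1 by norm_num] at this
      exact orderOf_eq_one_iff.1 (Nat.dvd_one.1 h3)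
    have hUc : Nat.card ((T : Subgroup G) ⊔ W : Subgroup G) = 18 := by
      have h := Cfsg.Agent.H2.Card.card_sup_mul_card_inf (H := (T : Subgroup G)) (N := W) hTW
      have h1 : (T : Subgroup G) ⊓ W = ⊥ := by
        rw [eq_bot_iff]
        rintro x ⟨hx1, hx2⟩
        exact hTJ x hx1 (hWJ hx2)
      rw [h1, Subgroup.card_bot, hWc, show Nat.card (T : Subgroup G) = 2 from hT] at h
      omega
    have hUi : ((T : Subgroup G) ⊔ W : Subgroup G).index = 9 := by
      have h := ((T : Subgroup G) ⊔ W : Subgroup G).card_mul_index
      rw [hUc, hG] at h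
      omega
    have hZU : ∀ z ∈ Z, z ∈ ((T : Subgroup G) ⊔ W : Subgroup G) → z = 1 := by
      intro z hz hzU
      rw [← SetLike.mem_coe, Subgroup.coe_mul_of_left_le_normalizer_right _ _ hTW] at hzU
      obtain ⟨t, ht, w, hw, rfl⟩ := hzU
      have h1 : t = 1 := by
        apply hTJ t ht
        have h2 := J.mul_mem (hZJ hz) (J.inv_mem (hWJ hw))
        simpa using h2
      subst h1
      simp only [one_mul] at hz ⊢
      have h2 : w ∈ W ⊓ Z := ⟨hw, hz⟩
      rwa [hWZ, Subgroup.mem_bot] at h2
    have hcore : ((T : Subgroup G) ⊔ W : Subgroup G).normalCore = ⊥ := by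
      by_contra hne
      by_cases h0 : ((T : Subgroup G) ⊔ W : Subgroup G).normalCore ⊓ (S : Subgroup G) = ⊥
      · -- the core centralizes S and contains T
        set N := ((T : Subgroup G) ⊔ W : Subgroup G).normalCore with hN
        have hcomm : ∀ n ∈ N, ∀ s ∈ (S : Subgroup G), n * s = s * n := by
          intro n hn s hs
          have h1 : n * s * n⁻¹ * s⁻¹ ∈ N ⊓ (S : Subgroup G) := by
            refine ⟨?_, ?_⟩
            · have := N.mul_mem hn ((inferInstance : N.Normal).conj_mem n⁻¹ (N.inv_mem hn) s)
              have e : n * (s * n⁻¹ * s⁻¹) = n * s * n⁻¹ * s⁻¹ := by group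
              rwa [e] at this
            · exact (S : Subgroup G).mul_mem (hSn.conj_mem s hs n) ((S : Subgroup G).inv_mem hs)
          rw [h0, Subgroup.mem_bot] at h1
          have h2 : n * s = s * n := by
            have := congrArg (fun x => x * s * n) h1
            simpa [mul_assoc] using this
          exact h2
        apply hST
        -- T ≤ N
        have hNc : Nat.card N ∣ 18 := by
          rw [← hUc]; exact Subgroup.card_dvd_of_le (Subgroup.normalCore_le _)
        have h3N : ¬ 3 ∣ Nat.card N := by
          intro h3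
          obtain ⟨x, hx⟩ := exists_prime_orderOf_dvd_card' 3 h3
          have hx3 : orderOf (x : G) = 3 := by rw [Subgroup.orderOf_coe]; exact hx
          have hxp : IsPGroup 3 (Subgroup.zpowers (x : G)) := IsPGroup.of_card (n := 1) (by rw [Nat.card_zpowers, hx3]; norm_num)
          obtain ⟨Q, hQ⟩ := hxp.exists_le_sylow
          have hu := Sylow.unique_of_normal S hSn
          have hQS : Q = S := Subsingleton.elim _ _
          rw [hQS] at hQ
          have h4 : (x : G) ∈ N ⊓ (S : Subgroup G) := ⟨x.2, hQ (Subgroup.mem_zpowers _)⟩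
          rw [h0, Subgroup.mem_bot] at h4
          rw [h4, orderOf_one] at hx3
          omega
        have hN2 : Nat.card N = 2 := by
          have h5 : Nat.card N ≠ 1 := by
            intro h6
            exact hne (Subgroup.card_eq_one.1 h6)
          have h7 : Nat.card N ∣ 2 := by
            have h8 : Nat.Coprime (Nat.card N) 9 := by
              rw [show (9 : ℕ) = 3 ^ 2 by norm_num]
              exact Nat.Coprime.pow_right 2 ((Nat.prime_three.coprime_iff_not_dvd.2 h3N).symm)
            exact h8.dvd_of_dvd_mul_right (show Nat.card N ∣ 2 * 9 by simpa using hNc)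
          rcases (Nat.dvd_prime Nat.prime_two).1 h7 with h | h
          · exact absurd h h5
          · exact h
        have hTN : (T : Subgroup G) ≤ N := by
          have hNp : IsPGroup 2 N := IsPGroup.of_card (n := 1) (by rw [hN2]; norm_num)
          obtain ⟨Q, hQ⟩ := hNp.exists_le_sylow
          have hQN : (Q : Subgroup G) = N := by
            apply (Subgroup.eq_of_le_of_card_ge hQ ?_).symm
            rw [hN2]
            have := Q.card_eq_multiplicity
            rw [hG, hfac Nat.prime_two (k := 1) (by norm_num) (by norm_num)] at this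
            exact this.le
          have hu := Sylow.unique_of_normal Q (by rw [hQN]; infer_instance)
          have : T = Q := Subsingleton.elim _ _
          rw [this, hQN]
        apply inf_eq_left.2
        intro s hs
        rw [Subgroup.mem_centralizer_iff]
        intro t ht
        exact hcomm t (hTN ht) s hs
      · have h1 := _root_.H7.G162.meets (N := ((T : Subgroup G) ⊔ W : Subgroup G).normalCore) hSp h0
        rw [← hZ] at h1
        have h2 := hZprime _ h1
        have h3 : Z = ⊥ := by
          rw [eq_bot_iff]
          intro z hz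
          exact hZU z hz (Subgroup.normalCore_le _ (h2 hz))
        rw [h3, Subgroup.card_bot] at hZcard
        omega
    obtain ⟨z, hz⟩ := exists_prime_orderOf_dvd_card' (G := Z) 3 (by rw [hZcard])
    have hz3 : orderOf (z : G) = 3 := by rw [Subgroup.orderOf_coe]; exact hz
    refine _root_.H7.G162.embed _ hUi hcore (z : G) (hZcen z z.2) (by rw [← hz3]; exact pow_orderOf_eq_one _) ?_ hG _ ?_
    · intro h
      have := hZU z z.2 h
      rw [this, orderOf_one] at hz3
      omega
    · rw [_root_.H7.Part.cycleType_eq (r := 3) (by decide)]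
      have h9 : (Equiv.swap (0 : Fin 9) 1 * Equiv.swap 1 2 * Equiv.swap 3 4 * Equiv.swap 4 5 * Equiv.swap 6 7 * Equiv.swap 7 8).support.card = 9 := by
        decide
      rw [h9]
      rfl

end Cfsg.Agent.S3376
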