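import Cfsg.Statements.S3380
import Mathlib
import Cfsg.Agent.H19_Impr

set_option autoImplicit false
open Cfsg

namespace Cfsg.Agent.S3380

open Cfsg.Agent.H19

section
variable {q : ℕ} {V : Type*} [AddCommGroup V] [Module (ZMod q) V] {G : Type*} [Group G]
  (ρ : G →* (V ≃ₗ[ZMod q] V))

/-- fixed vectors of an element -/
def fixd (g : G) : Submodule (ZMod q) V where
  carrier := {v | ρ g v = v}
  zero_mem' := map_zero _
  add_mem' := by
    intro a b ha hb
    change ρ g (a + b) = a + b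
    rw [map_add]
    exact congrArg₂ (· + ·) ha hb
  smul_mem' := by
    intro c a ha
    change ρ g (c • a) = c • a
    rw [map_smul]
    exact congrArg (c • ·) ha

theorem mem_fixd {g : G} {v : V} : v ∈ fixd ρ g ↔ ρ g v = v := Iff.rfl

/-- unnormalised averaging operator -/
noncomputable def av (p : ℕ) (g : G) : V →ₗ[ZMod q] V := ∑ j ∈ Finset.range p, ((ρ (g ^ j) : V ≃ₗ[ZMod q] V) : V →ₗ[ZMod q] V)

theorem av_apply (p : ℕ) (g : G) (v : V) : av ρ p g v = ∑ j ∈ Finset.range p, ρ (g ^ j) v := by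
  unfold av
  rw [LinearMap.sum_apply]
  rfl

theorem rmul (g h : G) (v : V) : ρ (g * h) v = ρ g (ρ h v) := by rw [map_mul]; rfl

theorem rone (v : V) : ρ 1 v = v := by rw [map_one]; rfl

theorem av_fixed {p : ℕ} {g : G} (hg : g ^ p = 1) (v : V) : ρ g (av ρ p g v) = av ρ p g v := by
  rw [av_apply, map_sum]
  have h1 : ∀ j, ρ g (ρ (g ^ j) v) = ρ (g ^ (j + 1)) v := by
    intro j
    rw [← rmul, ← pow_succ']
  simp only [h1]
  have h2 := Finset.sum_range_succ (fun j => ρ (g ^ j) v) p
  have h3 := Finset.sum_range_succ' (fun j => ρ (g ^ j) v) p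
  rw [h2, hg, pow_zero] at h3
  exact (add_right_cancel h3).symm

theorem av_comm {p : ℕ} {g h : G} (hc : Commute h g) (v : V) : ρ h (av ρ p g v) = av ρ p g (ρ h v) := by
  rw [av_apply, av_apply, map_sum]
  apply Finset.sum_congr rfl
  intro j _
  rw [← rmul, ← rmul, (hc.pow_right j).eq]

theorem pow_fixed {g : G} {v : V} (h : ρ g v = v) (n : ℕ) : ρ (g ^ n) v = v := by
  induction n with
  | zero => rw [pow_zero, rone]
  | succ n ih => rw [pow_succ, rmul, h, ih]

theorem av_of_fixed {p : ℕ} {g : G} {v : V} (h : ρ g v = v) : av ρ p g v = (p : ZMod q) • v := by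
  rw [av_apply, Finset.sum_congr rfl (fun j _ => pow_fixed ρ h j), Finset.sum_const, Finset.card_range,
    Nat.cast_smul_eq_nsmul]

theorem fix_pow {p : ℕ} (hp : p.Prime) {z : G} (hz : z ^ p = 1) {j : ℕ} (h0 : 0 < j) (hj : j < p) {v : V}
    (h : ρ (z ^ j) v = v) : ρ z v = v := by
  have hco : Nat.Coprime j p := ((Nat.Prime.coprime_iff_not_dvd hp).2 (Nat.not_dvd_of_pos_of_lt h0 hj)).symm
  obtain ⟨m, hm⟩ := Nat.exists_mul_mod_eq_one_of_coprime hco hp.one_lt
  have h1 : (z ^ j) ^ m = z := by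
    rw [← pow_mul]
    conv_lhs => rw [← Nat.div_add_mod (j * m) p, hm.2, pow_add, pow_mul, hz, one_pow, one_mul, pow_one]
  have h2 := pow_fixed ρ h m
  rwa [h1] at h2

/-- the key identity -/
theorem key_id {p : ℕ} (hp : p.Prime) {z a : G} (hz : z ^ p = 1) (haz : Commute a z)
    (h0 : ∀ v : V, ρ z v = v → v = 0) (v : V) :
    ∑ i ∈ Finset.range p, av ρ p (a * z ^ i) v = (p : ZMod q) • v := by
  have h1 : ∀ i, av ρ p (a * z ^ i) v = ∑ j ∈ Finset.range p, ρ (a ^ j) (ρ ((z ^ j) ^ i) v) := by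
    intro i
    rw [av_apply]
    apply Finset.sum_congr rfl
    intro j _
    rw [← rmul, (haz.pow_right i).mul_pow, ← pow_mul, ← pow_mul, mul_comm i j]
  rw [Finset.sum_congr rfl (fun i _ => h1 i), Finset.sum_comm]
  have h2 : ∀ j ∈ Finset.range p, ∑ i ∈ Finset.range p, ρ (a ^ j) (ρ ((z ^ j) ^ i) v) = if j = 0 then (p : ZMod q) • v else 0 := by
    intro j hj
    rw [← map_sum, ← av_apply]
    by_cases hj0 : j = 0
    · rw [if_pos hj0, hj0, pow_zero, pow_zero, rone, av_of_fixed ρ (rone ρ v)]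
    · rw [if_neg hj0]
      have h3 : av ρ p (z ^ j) v = 0 := by
        apply h0
        apply fix_pow ρ hp hz (Nat.pos_of_ne_zero hj0) (Finset.mem_range.1 hj)
        apply av_fixed
        rw [← pow_mul, mul_comm, pow_mul, hz, one_pow]
      rw [h3, map_zero]
  rw [Finset.sum_congr rfl h2, Finset.sum_ite_eq' (Finset.range p) 0, if_pos (Finset.mem_range.2 hp.pos)]
end

/-- Let a finite p-group G act faithfully and irreducibly on a non-trivial finite vector space V over the field with q elements (q prime), and suppose G is not cyclic, generalized quaternion, dihedral or semidihedral. Then G has a subgroup H of index p and V is the direct sum of p subspaces, each invariant under H, on none of which H acts faithfully, and which every element of G outside H permutes in a single p-cycle. -/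
theorem result
    (q : ℕ) [Fact q.Prime] {V : Type*} [AddCommGroup V] [Module (ZMod q) V] [Finite V] [Nontrivial V]
    {G : Type*} [Group G] [Finite G] (p : ℕ) [Fact p.Prime] (hG : IsPGroup p G)
    (ρ : G →* (V ≃ₗ[ZMod q] V)) (hρ : Function.Injective ρ)
    (hirr : ∀ W : Submodule (ZMod q) V, (∀ g : G, ∀ w ∈ W, ρ g w ∈ W) → W = ⊥ ∨ W = ⊤)
    (hnc : ¬ IsCyclic G) (hnq : ∀ n : ℕ, ¬ Nonempty (G ≃* QuaternionGroup n))
    (hnd : ∀ n : ℕ, ¬ Nonempty (G ≃* DihedralGroup n)) (hnsd : ¬ Cfsg.IsQuasiDihedral G) :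
    ∃ (H : Subgroup G) (W : Fin p → Submodule (ZMod q) V), H.index = p ∧
      iSup W = ⊤ ∧ iSupIndep W ∧
      (∀ h ∈ H, ∀ i, ∀ w ∈ W i, ρ h w ∈ W i) ∧
      (∀ i, ∃ h ∈ H, h ≠ 1 ∧ ∀ w ∈ W i, ρ h w = w) ∧
      ∀ g : G, g ∉ H → ∃ σ : Equiv.Perm (Fin p), orderOf σ = p ∧ ∀ i, (W i).map (ρ g : V →ₗ[ZMod q] V) = W (σ i) := by
  classical
  have hnA : ∃ A : Subgroup G, A.Normal ∧ IsMulCommutative A ∧ ¬ IsCyclic A := by
    by_contra hcon
    push Not at hcon
    rcases Rank1.classify hG hcon with h | ⟨-, -, h⟩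
    · exact hnc h
    · rcases h with ⟨k, h⟩ | ⟨k, hc, a, b, ha, hb, hab⟩ | ⟨k, h⟩
      · exact hnd _ h
      · exact hnsd ⟨k + 3, by omega, hc, a, b, ha, hb, hab⟩
      · exact hnq _ h
  obtain ⟨A, hAn, hAc, hA⟩ := hnA
  obtain ⟨U, -, hUn, hUe, hUc⟩ := Impr.exists_sq hG hAn hAc hA
  obtain ⟨z, a, hzU, haU, hzo, hao, hanz, hzc, haz, hcomm⟩ := Impr.exists_za hG hUn hUe hUc
  have hp : p.Prime := Fact.out
  have hzp : z ^ p = 1 := by rw [← hzo, pow_orderOf_eq_one]
  have hap : a ^ p = 1 := by rw [← hao, pow_orderOf_eq_one]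
  have hzc' : ∀ g, Commute g z := fun g => hzc g
  have hcen0 : ∀ x : G, (∀ g, g * x = x * g) → x ≠ 1 → ∀ v : V, ρ x v = v → v = 0 := by
    intro x hxc hx1 v hv
    rcases hirr (fixd ρ x) (by
      intro g w hw
      rw [mem_fixd] at hw ⊢
      rw [← rmul, ← hxc g, rmul, hw]) with h | h
    · have : v ∈ fixd ρ x := hv
      rw [h] at this
      exact (Submodule.mem_bot _).1 this
    · exfalso
      apply hx1
      apply hρ
      ext w
      have : w ∈ fixd ρ x := by rw [h]; trivial
      rw [rone]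
      exact this
  have hz1 : z ≠ 1 := by
    rintro rfl; rw [orderOf_one] at hzo; exact hp.one_lt.ne hzo
  have h0 : ∀ v : V, ρ z v = v → v = 0 := hcen0 z hzc hz1
  have hpq : (p : ZMod q) ≠ 0 := by
    intro h
    rw [ZMod.natCast_eq_zero_iff] at h
    have hqp : q = p := (Nat.prime_dvd_prime_iff_eq Fact.out hp).1 h
    subst hqp
    letI : MulAction G V :=
      { smul := fun g v => ρ g v
        one_smul := fun v => rone ρ v
        mul_smul := fun g h v => rmul ρ g h v }
    have hd : q ∣ Nat.card V := by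
      haveI : Module.Finite (ZMod q) V := Module.Finite.of_finite
      rw [Module.natCard_eq_pow_finrank (K := ZMod q) (V := V), Nat.card_zmod]
      exact dvd_pow_self _ (Module.finrank_pos.ne')
    obtain ⟨v, hv, hv0⟩ := hG.exists_fixed_point_of_prime_dvd_card_of_fixed_point V hd (a := (0 : V))
      (fun g => map_zero (ρ g))
    exact hv0 (h0 v (hv z)).symm
  have hkey := fun v => key_id ρ hp hzp haz h0 v
  -- `a` is not central
  obtain ⟨v1, hv1⟩ := exists_ne (0 : V)
  have hanc : ∃ g : G, g * a * g⁻¹ * a⁻¹ ≠ 1 := by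
    by_contra hcon
    push Not at hcon
    have hac : ∀ g, g * a = a * g := by
      intro g
      have := hcon g
      rw [mul_inv_eq_one, mul_inv_eq_iff_eq_mul] at this
      exact this
    have h1 := hkey v1
    rw [Finset.sum_eq_zero (fun i _ => ?_)] at h1
    · exact (smul_ne_zero hpq hv1) h1.symm
    · apply hcen0 (a * z ^ i)
      · intro g
        have e1 : Commute g a := hac g
        exact (e1.mul_right ((hzc' g).pow_right i)).eq
      · intro h
        apply hanz
        rw [mul_eq_one_iff_eq_inv] at h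
        rw [h]
        exact inv_mem (pow_mem (Subgroup.mem_zpowers z) i)
      · apply av_fixed
        rw [(show Commute a z from haz).pow_right i |>.mul_pow, hap, ← pow_mul, mul_comm, pow_mul, hzp, one_pow, one_mul]
  -- the homomorphism `f`
  have hzcen : ∀ x ∈ Subgroup.zpowers z, ∀ g, g * x = x * g := by
    rintro x ⟨i, rfl⟩ g
    exact ((hzc' g).zpow_right i).eq
  let f : G →* G :=
    { toFun := fun g => g * a * g⁻¹ * a⁻¹
      map_one' := by simp
      map_mul' := by
        intro g h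
        have h1 := hzcen _ (hcomm h)
        have h2 : g * h * a * (g * h)⁻¹ * a⁻¹ = g * (h * a * h⁻¹ * a⁻¹) * a * g⁻¹ * a⁻¹ := by group
        rw [h2, h1 g]
        have h3 := h1 (g * a * g⁻¹ * a⁻¹)
        rw [h3]; group }
  have hf : ∀ g, f g = g * a * g⁻¹ * a⁻¹ := fun g => rfl
  have hfr : f.range ≤ Subgroup.zpowers z := by
    rintro x ⟨g, rfl⟩
    exact hcomm g
  have hcZ : Nat.card (Subgroup.zpowers z) = p := by rw [Nat.card_zpowers, hzo]
  have hrc : Nat.card f.range = p := by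
    have h1 := Subgroup.card_dvd_of_le hfr
    rw [hcZ] at h1
    rcases (Nat.dvd_prime hp).1 h1 with h | h
    · exfalso
      obtain ⟨g, hg⟩ := hanc
      have h2 := Subgroup.card_eq_one.1 h
      have h3 : f g ∈ f.range := ⟨g, rfl⟩
      rw [h2, Subgroup.mem_bot] at h3
      exact hg h3
    · exact h
  have hex : ∀ g : G, ∃ n < p, g * a = a * z ^ n * g := by
    intro g
    obtain ⟨k, hk⟩ := hcomm g
    change z ^ k = g * a * g⁻¹ * a⁻¹ at hk
    refine ⟨(k % p).toNat, ?_, ?_⟩
    · have h1 := Int.emod_lt_of_pos k (by exact_mod_cast hp.pos : (0 : ℤ) < p)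
      have h2 := Int.emod_nonneg k (by exact_mod_cast hp.ne_zero : (p : ℤ) ≠ 0)
      omega
    · have h2 := Int.emod_nonneg k (by exact_mod_cast hp.ne_zero : (p : ℤ) ≠ 0)
      have h3 : z ^ (k % p).toNat = g * a * g⁻¹ * a⁻¹ := by
        rw [← zpow_natCast, Int.toNat_of_nonneg h2, ← hk]
        conv_lhs => rw [← hzo]
        rw [zpow_mod_orderOf]
      have h4 : a * (g * a * g⁻¹ * a⁻¹) = (g * a * g⁻¹ * a⁻¹) * a := by
        rw [← h3]; exact ((hzc' a).pow_right _).eq
      rw [h3, h4]; group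
  haveI : NeZero p := ⟨hp.ne_zero⟩
  have hW0 : ∀ i j : ℕ, i < j → j < p → ∀ w, ρ (a * z ^ i) w = w → ρ (a * z ^ j) w = w → w = 0 := by
    intro i j hij hj w h1 h2
    apply h0
    apply fix_pow ρ hp hzp (j := j - i) (by omega) (by omega)
    have h3 : ρ (a * z ^ i) (ρ (z ^ (j - i)) w) = w := by
      rw [← rmul, mul_assoc, ← pow_add, (by omega : i + (j - i) = j), h2]
    exact (ρ (a * z ^ i)).injective (h3.trans h1.symm)
  have hW0' : ∀ i j : Fin p, i ≠ j → ∀ w, ρ (a * z ^ (i : ℕ)) w = w → ρ (a * z ^ (j : ℕ)) w = w → w = 0 := by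
    intro i j hij w h1 h2
    rcases lt_or_gt_of_ne hij with h | h
    · exact hW0 i j h j.2 w h1 h2
    · exact hW0 j i h i.2 w h2 h1
  have hpi : ∀ i : ℕ, (a * z ^ i) ^ p = 1 := by
    intro i
    rw [((show Commute a z from haz).pow_right i).mul_pow, hap, ← pow_mul, mul_comm, pow_mul, hzp, one_pow, one_mul]
  have hci : ∀ i j : ℕ, Commute (a * z ^ i) (a * z ^ j) := by
    intro i j
    have e1 : Commute a z := haz
    exact ((Commute.refl a).mul_right (e1.pow_right j)).mul_left
      ((e1.symm.pow_left i).mul_right ((Commute.refl z).pow_pow i j))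
  have hai1 : ∀ i : ℕ, a * z ^ i ≠ 1 := by
    intro i h
    apply hanz
    rw [mul_eq_one_iff_eq_inv] at h
    rw [h]
    exact inv_mem (pow_mem (Subgroup.mem_zpowers z) i)
  refine ⟨f.ker, fun i => fixd ρ (a * z ^ (i : ℕ)), ?_, ?_, ?_, ?_, ?_, ?_⟩
  · rw [Subgroup.index_ker, hrc]
  · rw [eq_top_iff]
    intro v _
    have h1 : v = (p : ZMod q)⁻¹ • ∑ i : Fin p, av ρ p (a * z ^ (i : ℕ)) v := by
      rw [Fin.sum_univ_eq_sum_range (fun i => av ρ p (a * z ^ i) v) p, hkey v, smul_smul, inv_mul_cancel₀ hpq, one_smul]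
    rw [h1]
    apply Submodule.smul_mem
    apply Submodule.sum_mem
    intro i _
    exact Submodule.mem_iSup_of_mem i (av_fixed ρ (hpi i) v)
  · intro i
    rw [Submodule.disjoint_def]
    intro x hx hx2
    have h1 : (⨆ j, ⨆ (_ : j ≠ i), fixd ρ (a * z ^ (j : ℕ))) ≤ LinearMap.ker (av ρ p (a * z ^ (i : ℕ))) := by
      apply iSup₂_le
      intro j hj w hw
      rw [LinearMap.mem_ker]
      apply hW0' i j hj.symm
      · exact av_fixed ρ (hpi i) w
      · rw [av_comm ρ (hci j i)]
        rw [mem_fixd] at hw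
        rw [hw]
    have h2 := LinearMap.mem_ker.1 (h1 hx2)
    rw [av_of_fixed ρ hx] at h2
    exact (smul_eq_zero.1 h2).resolve_left hpq
  · intro h hh i w hw
    rw [mem_fixd] at hw ⊢
    have h1 : h * a = a * h := by
      have h2 : f h = 1 := hh
      rw [hf, mul_inv_eq_one, mul_inv_eq_iff_eq_mul] at h2
      exact h2
    have h2 : Commute h (a * z ^ (i : ℕ)) := (show Commute h a from h1).mul_right ((hzc' h).pow_right _)
    rw [← rmul, ← h2.eq, rmul, hw]
  · intro i
    refine ⟨a * z ^ (i : ℕ), ?_, hai1 i, fun w hw => hw⟩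
    rw [MonoidHom.mem_ker, hf, mul_inv_eq_one, mul_inv_eq_iff_eq_mul]
    have h2 : Commute (a * z ^ (i : ℕ)) a := by
      have := hci i 0
      rwa [pow_zero, mul_one] at this
    exact h2.eq
  · intro g hg
    obtain ⟨n, hn, hgn⟩ := hex g
    have hn0 : n ≠ 0 := by
      rintro rfl
      apply hg
      rw [MonoidHom.mem_ker, hf, hgn]
      group
    refine ⟨Equiv.addRight (⟨n, hn⟩ : Fin p), ?_, ?_⟩
    · apply orderOf_eq_prime
      · have hpw : ∀ (m : ℕ) (x : Fin p), ((Equiv.addRight (⟨n, hn⟩ : Fin p)) ^ m) x = x + m • (⟨n, hn⟩ : Fin p) := by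
          intro m
          induction m with
          | zero => intro x; rw [pow_zero, zero_smul, add_zero]; rfl
          | succ m ih =>
            intro x
            rw [pow_succ', Equiv.Perm.mul_apply, ih, succ_nsmul, ← add_assoc]
            rfl
        have h1 : p • (⟨n, hn⟩ : Fin p) = 0 := by
          have h2 := card_nsmul_eq_zero' (G := Fin p) (x := ⟨n, hn⟩)
          rwa [Nat.card_eq_fintype_card, Fintype.card_fin] at h2
        apply Equiv.ext
        intro x
        rw [hpw, h1, add_zero]; rfl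
      · intro h
        have h1 : (0 : Fin p) + ⟨n, hn⟩ = 0 := Equiv.ext_iff.1 h 0
        rw [zero_add] at h1
        exact hn0 (congrArg Fin.val h1)
    · intro i
      have hval : z ^ (((Equiv.addRight (⟨n, hn⟩ : Fin p)) i : Fin p) : ℕ) = z ^ ((i : ℕ) + n) := by
        rw [Equiv.coe_addRight, Fin.val_add]
        change z ^ (((i : ℕ) + n) % p) = _
        conv_rhs => rw [← Nat.div_add_mod ((i : ℕ) + n) p, pow_add, pow_mul, hzp, one_pow, one_mul]
      have hcon : g * (a * z ^ (i : ℕ)) = (a * z ^ (((Equiv.addRight (⟨n, hn⟩ : Fin p)) i : Fin p) : ℕ)) * g := by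
        rw [hval, ← mul_assoc, hgn, mul_assoc, ((hzc' g).pow_right (i : ℕ)).eq, add_comm (i : ℕ) n, pow_add]
        group
      ext w
      rw [Submodule.mem_map]
      constructor
      · rintro ⟨y, hy, rfl⟩
        rw [mem_fixd] at hy ⊢
        change ρ _ (ρ g y) = ρ g y
        rw [← rmul, ← hcon, rmul, hy]
      · intro hw
        rw [mem_fixd] at hw
        refine ⟨ρ g⁻¹ w, ?_, ?_⟩
        · rw [mem_fixd]
          apply (ρ g).injective
          rw [← rmul, hcon, rmul, ← rmul ρ g g⁻¹, mul_inv_cancel, rone, hw]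
        · change ρ g (ρ g⁻¹ w) = w
          rw [← rmul, mul_inv_cancel, rone]

end Cfsg.Agent.S3380
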