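import Cfsg.Statements.S3389
import Mathlib
import Cfsg.Agent.H2_Basic
import Cfsg.Agent.H4_Util
import Cfsg.Agent.H13_Syl

set_option autoImplicit false
open Cfsg

namespace Cfsg.Agent.S3389

theorem part1 {G : Type*} [Group G] [Finite G] {Ω : Type*} [Fintype Ω] [MulAction G Ω] [FaithfulSMul G Ω]
    (htr : MulAction.IsPretransitive G Ω) (g : G) :
    Nat.card (Subgroup.center G) ∣ Nat.card (MulAction.fixedBy Ω g) := by
  letI : MulAction (Subgroup.center G) (MulAction.fixedBy Ω g) :=
    { smul := fun z x => ⟨(z : G) • (x : Ω), by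
        rw [MulAction.mem_fixedBy]
        have hx : g • (x : Ω) = x := x.2
        have hz := Subgroup.mem_center_iff.mp z.2 g
        rw [smul_smul, hz, mul_smul, hx]⟩
      one_smul := fun x => Subtype.ext (one_smul G (x : Ω))
      mul_smul := fun a b x => Subtype.ext (mul_smul (a : G) (b : G) (x : Ω)) }
  have hfree : ∀ x : MulAction.fixedBy Ω g, MulAction.stabilizer (Subgroup.center G) x = ⊥ := by
    intro x
    rw [eq_bot_iff]
    intro z hz
    rw [Subgroup.mem_bot]
    have h1 : (z : G) • (x : Ω) = x := congrArg Subtype.val (MulAction.mem_stabilizer_iff.mp hz)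
    apply Subtype.ext
    apply FaithfulSMul.eq_of_smul_eq_smul (M := G) (α := Ω)
    intro y
    obtain ⟨h, hh⟩ := MulAction.exists_smul_eq G (x : Ω) y
    have hzc := Subgroup.mem_center_iff.mp z.2 h
    show (z : G) • y = (1 : G) • y
    rw [one_smul, ← hh, smul_smul, ← hzc, mul_smul, h1]
  have e := MulAction.selfEquivOrbitsQuotientProd hfree
  rw [Nat.card_congr e, Nat.card_prod]
  exact dvd_mul_left _ _

theorem part2 {G : Type*} [Group G] [Finite G] {Ω : Type*} [Fintype Ω] [MulAction G Ω]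
    (htr : MulAction.IsPretransitive G Ω)
    (hfix : ∀ g : G, g ≠ 1 → Nat.card (MulAction.fixedBy Ω g) ≤ 2) (hex : ∃ g : G, g ≠ 1 ∧ Nat.card (MulAction.fixedBy Ω g) = 2) :
    2 ∣ Nat.card G := by
  classical
  by_contra hodd
  obtain ⟨g, hg1, hg2⟩ := hex
  obtain ⟨p, hp, hpg⟩ := Nat.exists_prime_and_dvd (n := orderOf g) (by rw [Ne, orderOf_eq_one_iff]; exact hg1)
  haveI : Fact p.Prime := ⟨hp⟩
  have hp2 : p ≠ 2 := by
    rintro rfl
    exact hodd (hpg.trans (orderOf_dvd_natCard g))
  have hp3 : 3 ≤ p := by have := hp.two_le; omega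
  set x := g ^ (orderOf g / p) with hx
  have hxo : orderOf x = p := orderOf_pow_orderOf_div (orderOf_pos g).ne' hpg
  have hx1 : x ≠ 1 := by
    intro h
    rw [h, orderOf_one] at hxo
    exact hp.one_lt.ne hxo
  have hsub : MulAction.fixedBy Ω g ⊆ MulAction.fixedBy Ω x := by
    intro a ha
    rw [MulAction.mem_fixedBy] at ha ⊢
    have : g ∈ MulAction.stabilizer G a := ha
    exact Subgroup.pow_mem _ this _
  have hx2 : Nat.card (MulAction.fixedBy Ω x) = 2 := by
    apply le_antisymm (hfix x hx1)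
    rw [← hg2]
    exact Nat.card_mono (Set.toFinite _) hsub
  have hzp : IsPGroup p (Subgroup.zpowers x) := Cfsg.Agent.H4.Util.zpowers_isPGroup (k := 1) (by rw [pow_one]; exact hxo)
  obtain ⟨P, hP⟩ := hzp.exists_le_sylow
  have hxP : x ∈ (P : Subgroup G) := hP (Subgroup.mem_zpowers x)
  have h1 : Nat.card Ω ≡ Nat.card (MulAction.fixedPoints (Subgroup.zpowers x) Ω) [MOD p] :=
    hzp.card_modEq_card_fixedPoints Ω
  have h2 : Nat.card Ω ≡ Nat.card (MulAction.fixedPoints P Ω) [MOD p] :=
    P.isPGroup'.card_modEq_card_fixedPoints Ω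
  have h3 : MulAction.fixedPoints (Subgroup.zpowers x) Ω = MulAction.fixedBy Ω x := by
    ext a
    constructor
    · intro ha
      exact ha ⟨x, Subgroup.mem_zpowers x⟩
    · rintro ha ⟨y, k, rfl⟩
      have : x ∈ MulAction.stabilizer G a := ha
      exact Subgroup.zpow_mem _ this k
  rw [h3, hx2] at h1
  have hsub2 : MulAction.fixedPoints P Ω ⊆ MulAction.fixedBy Ω x := fun a ha => ha ⟨x, hxP⟩
  have h4 : Nat.card (MulAction.fixedPoints P Ω) ≤ 2 := by
    rw [← hx2]; exact Nat.card_mono (Set.toFinite _) hsub2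
  have h5 : Nat.card (MulAction.fixedPoints P Ω) = 2 := by
    have h6 : Nat.card (MulAction.fixedPoints P Ω) ≡ 2 [MOD p] := h2.symm.trans h1
    unfold Nat.ModEq at h6
    rw [Nat.mod_eq_of_lt (by omega), Nat.mod_eq_of_lt (by omega)] at h6
    exact h6
  have h5' : (MulAction.fixedPoints P Ω).ncard = 2 := h5
  obtain ⟨a, b, hab, hF⟩ := Set.ncard_eq_two.mp h5'
  have ha : a ∈ MulAction.fixedPoints P Ω := by rw [hF]; simp
  have hb : b ∈ MulAction.fixedPoints P Ω := by rw [hF]; simp
  obtain ⟨g, hgab⟩ := MulAction.exists_smul_eq G a b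
  have hPb : (P : Subgroup G) ≤ MulAction.stabilizer G b := fun y hy => hb ⟨y, hy⟩
  have hQb : ((g • P : Sylow p G) : Subgroup G) ≤ MulAction.stabilizer G b := by
    intro y hy
    rw [Cfsg.Agent.H4.Util.mem_smul_sylow] at hy
    have h6 : (g⁻¹ * y * g) • a = a := ha ⟨_, hy⟩
    rw [MulAction.mem_stabilizer_iff]
    calc y • b = g • ((g⁻¹ * y * g) • a) := by rw [← hgab, smul_smul, smul_smul]; congr 1; group
      _ = b := by rw [h6, hgab]
  obtain ⟨h, hh, hhP⟩ := Cfsg.Agent.H2.Basic.sylow_conj_in (MulAction.stabilizer G b) (g • P) P hQb hPb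
  rw [smul_smul] at hhP
  set n := h * g with hn
  have hna : n • a = b := by rw [hn, mul_smul, hgab]; exact hh
  have hnb : n • b ∈ MulAction.fixedPoints P Ω := by
    rintro ⟨y, hy⟩
    show y • n • b = n • b
    have hy' : y ∈ ((n • P : Sylow p G) : Subgroup G) := by rw [hhP]; exact hy
    rw [Cfsg.Agent.H4.Util.mem_smul_sylow] at hy'
    have h6 : (n⁻¹ * y * n) • b = b := hb ⟨_, hy'⟩
    calc y • n • b = n • ((n⁻¹ * y * n) • b) := by rw [smul_smul, smul_smul]; congr 1; group
      _ = n • b := by rw [h6]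
  have hnb2 : n • b = a := by
    rw [hF] at hnb
    rcases hnb with h6 | h6
    · exact h6
    · exfalso
      have h6 : n • b = b := h6
      rw [← hna] at h6
      have := MulAction.injective n h6
      rw [hna] at this
      exact hab this.symm
  have hn2 : n ^ 2 ∈ MulAction.stabilizer G a := by
    rw [MulAction.mem_stabilizer_iff, pow_two, mul_smul, hna, hnb2]
  have ho : ¬ 2 ∣ orderOf n := fun h6 => hodd (h6.trans (orderOf_dvd_natCard n))
  obtain ⟨m, hm⟩ : ∃ m, orderOf n = 2 * m + 1 := ⟨orderOf n / 2, by omega⟩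
  have hn3 : n = (n ^ 2) ^ (m + 1) := by
    rw [← pow_mul, show 2 * (m + 1) = orderOf n + 1 by omega, pow_succ, pow_orderOf_eq_one, one_mul]
  have hn4 : n ∈ MulAction.stabilizer G a := by
    rw [hn3]; exact Subgroup.pow_mem _ hn2 _
  rw [MulAction.mem_stabilizer_iff, hna] at hn4
  exact hab hn4.symm

theorem part3 {G : Type*} [Group G] [Finite G] {Ω : Type*} [Fintype Ω] [MulAction G Ω] (k : ℕ)
    (hfix : ∀ g : G, g ≠ 1 → Nat.card (MulAction.fixedBy Ω g) ≤ k) (p : ℕ) (hp : p.Prime) (hkp : k < p) (α : Ω) :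
    ¬ p ∣ Nat.card (MulAction.stabilizer G α) ∨ ¬ p ∣ (MulAction.stabilizer G α).index := by
  classical
  by_contra hcon
  push Not at hcon
  obtain ⟨h1, h2⟩ := hcon
  haveI : Fact p.Prime := ⟨hp⟩
  obtain ⟨P⟩ : Nonempty (Sylow p (MulAction.stabilizer G α)) := inferInstance
  set S := MulAction.stabilizer G α with hS
  set P' := (P : Subgroup S).map S.subtype with hP'
  have hP'p : IsPGroup p P' := P.isPGroup'.map _
  have hP'S : P' ≤ S := Subgroup.map_subtype_le _
  have hP1 : P' ≠ ⊥ := by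
    intro h
    have h3 : (P : Subgroup S) = ⊥ := by
      rw [eq_bot_iff]
      intro x hx
      have : (x : G) ∈ P' := ⟨x, hx, rfl⟩
      rw [h] at this
      exact Subtype.ext (Subgroup.mem_bot.mp this)
    have h4 := P.not_dvd_index
    rw [h3, Subgroup.index_bot] at h4
    exact h4 h1
  obtain ⟨Q, hQ⟩ := hP'p.exists_le_sylow
  have hne : P' ≠ (Q : Subgroup G) := by
    intro h
    have h3 := Q.not_dvd_index
    rw [← h] at h3
    have h4 : S.index ∣ P'.index := Subgroup.index_dvd_of_le hP'S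
    exact h3 (h2.trans h4)
  -- the normaliser in Q
  set R := (Q : Subgroup G) ⊓ Subgroup.normalizer (P' : Set G) with hR
  have hPR : P' < R := by
    exact Cfsg.Agent.H13.Syl.lt_normalizer_of_lt (p := p) Q.isPGroup' (lt_of_le_of_ne hQ hne)
  have hRp : IsPGroup p R := Q.isPGroup'.to_le inf_le_left
  obtain ⟨y, hy, hy1⟩ : ∃ y ∈ P', y ≠ 1 := by
    by_contra hcon
    push Not at hcon
    exact hP1 (eq_bot_iff.mpr fun x hx => Subgroup.mem_bot.mpr (hcon x hx))
  letI : MulAction R (MulAction.fixedPoints P' Ω) :=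
    { smul := fun r x => ⟨(r : G) • (x : Ω), by
        rintro ⟨q, hq⟩
        show q • (r : G) • (x : Ω) = (r : G) • (x : Ω)
        have hr := (Subgroup.mem_inf.mp r.2).2
        have h3 : (r : G)⁻¹ * q * r ∈ P' := (Subgroup.mem_normalizer_iff''.mp hr q).mp hq
        have h4 : ((r : G)⁻¹ * q * r) • (x : Ω) = x := x.2 ⟨_, h3⟩
        calc q • (r : G) • (x : Ω) = (r : G) • (((r : G)⁻¹ * q * r) • (x : Ω)) := by
              rw [smul_smul, smul_smul]; congr 1; group
          _ = (r : G) • (x : Ω) := by rw [h4]⟩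
      one_smul := fun x => Subtype.ext (one_smul G (x : Ω))
      mul_smul := fun a b x => Subtype.ext (mul_smul (a : G) (b : G) (x : Ω)) }
  have h3 := hRp.card_modEq_card_fixedPoints (MulAction.fixedPoints P' Ω)
  have h4 : Nat.card (MulAction.fixedPoints P' Ω) ≤ k := by
    refine le_trans ?_ (hfix y hy1)
    exact Nat.card_mono (Set.toFinite _) (fun a ha => ha ⟨y, hy⟩)
  have h5 : Nat.card (MulAction.fixedPoints R (MulAction.fixedPoints P' Ω)) ≤ Nat.card (MulAction.fixedPoints P' Ω) :=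
    Nat.card_le_card_of_injective _ Subtype.val_injective
  have h6 : Nat.card (MulAction.fixedPoints P' Ω) = Nat.card (MulAction.fixedPoints R (MulAction.fixedPoints P' Ω)) := by
    unfold Nat.ModEq at h3
    rwa [Nat.mod_eq_of_lt (by omega), Nat.mod_eq_of_lt (by omega)] at h3
  have h7 : MulAction.fixedPoints R (MulAction.fixedPoints P' Ω) = Set.univ := by
    apply Set.eq_of_subset_of_ncard_le (Set.subset_univ _)
    · rw [Set.ncard_univ, h6]; exact le_refl _
  have hα : α ∈ MulAction.fixedPoints P' Ω := fun q => hP'S q.2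
  have hRS : R ≤ S := by
    intro r hr
    have h8 : (⟨α, hα⟩ : MulAction.fixedPoints P' Ω) ∈ MulAction.fixedPoints R (MulAction.fixedPoints P' Ω) := by
      rw [h7]; trivial
    exact congrArg Subtype.val (h8 ⟨r, hr⟩)
  have h8 : (P : Subgroup S) ≤ R.subgroupOf S := by
    intro x hx
    exact hPR.le ⟨x, hx, rfl⟩
  have h9 : IsPGroup p (R.subgroupOf S) := hRp.of_equiv (Subgroup.subgroupOfEquivOfLe hRS).symm
  have h10 := P.is_maximal' h9 h8
  apply hPR.not_ge
  intro r hr
  have h11 : (⟨r, hRS hr⟩ : S) ∈ R.subgroupOf S := hr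
  rw [h10] at h11
  exact ⟨_, h11, rfl⟩

/-- Let G be a finite group acting faithfully and transitively on a finite set Ω with fixity k ≥ 1: every non-identity element fixes at most k points and some non-identity element fixes exactly k points. Then |Z(G)| divides k; if k = 2 then |G| is even; and for every prime p > k dividing |G| and every point α, either p does not divide |G_α| or G_α contains a Sylow p-subgroup of G. -/
theorem result {G : Type*} [Group G] [Finite G] {Ω : Type*} [Fintype Ω] [MulAction G Ω] [FaithfulSMul G Ω]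
    (htr : MulAction.IsPretransitive G Ω) (k : ℕ) (hk : 1 ≤ k)
    (hfix : ∀ g : G, g ≠ 1 → Nat.card (MulAction.fixedBy Ω g) ≤ k) (hex : ∃ g : G, g ≠ 1 ∧ Nat.card (MulAction.fixedBy Ω g) = k) :
    Nat.card (Subgroup.center G) ∣ k ∧ (k = 2 → 2 ∣ Nat.card G) ∧
      ∀ (p : ℕ), p.Prime → k < p → p ∣ Nat.card G → ∀ α : Ω,
        ¬ p ∣ Nat.card (MulAction.stabilizer G α) ∨ ¬ p ∣ (MulAction.stabilizer G α).index := by
  refine ⟨?_, ?_, ?_⟩
  · obtain ⟨g, -, hg⟩ := hex
    rw [← hg]
    exact part1 htr g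
  · rintro rfl
    exact part2 htr hfix hex
  · intro p hp hkp _ α
    exact part3 k hfix p hp hkp α

end Cfsg.Agent.S3389
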