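import Cfsg.Statements.S3391
import Cfsg.Agent.HL_SzFix2

set_option autoImplicit false
open Cfsg

namespace Cfsg.Agent.S3391

/-- Let q = 2^{2m+1} ≥ 8 and let G be isomorphic to the Suzuki group Sz(q). If G acts faithfully and transitively on a finite set Ω with fixity 2 (every non-identity element fixes at most two points, and some fixes exactly two), then either |Ω| = q² + 1 and the action is 2-transitive, or |Ω| = q²(q² + 1) and the point stabilizers have order q − 1. -/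
theorem result {G : Type*} [Group G] [Finite G] (F : Type) [Field F] [Fintype F] (m : ℕ) (hm : 1 ≤ m) (hF : Fintype.card F = 2 ^ (2 * m + 1))
    (e : G ≃* ↥(Cfsg.Lie.Sz F (2 ^ (m + 1)))) {Ω : Type*} [Fintype Ω] [MulAction G Ω] [FaithfulSMul G Ω] (htr : MulAction.IsPretransitive G Ω)
    (hfix : ∀ g : G, g ≠ 1 → Nat.card (MulAction.fixedBy Ω g) ≤ 2) (hex : ∃ g : G, g ≠ 1 ∧ Nat.card (MulAction.fixedBy Ω g) = 2) :
    (Fintype.card Ω = Fintype.card F ^ 2 + 1 ∧ MulAction.IsMultiplyPretransitive G Ω 2) ∨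
    (Fintype.card Ω = Fintype.card F ^ 2 * (Fintype.card F ^ 2 + 1) ∧ ∀ α : Ω, Nat.card (MulAction.stabilizer G α) = Fintype.card F - 1) := by
  classical
  let ψ : Cfsg.Sz F m ≃* G := (Cfsg.Agent.HL.Sz.modelEquiv hm hF).trans e.symm
  letI act0 : MulAction (Cfsg.Sz F m) Ω := MulAction.compHom Ω ψ.toMonoidHom
  have hsm : ∀ (g : Cfsg.Sz F m) (ω : Ω), g • ω = ψ g • ω := fun g ω => rfl
  have htr0 : MulAction.IsPretransitive (Cfsg.Sz F m) Ω := by
    refine ⟨fun a b => ?_⟩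
    obtain ⟨g, hg⟩ := MulAction.exists_smul_eq G a b
    exact ⟨ψ.symm g, by rw [hsm, ψ.apply_symm_apply]; exact hg⟩
  have hfb : ∀ g : Cfsg.Sz F m, MulAction.fixedBy Ω g = MulAction.fixedBy Ω (ψ g) := by
    intro g; rfl
  have hfix0 : ∀ g : Cfsg.Sz F m, g ≠ 1 → Nat.card (MulAction.fixedBy Ω g) ≤ 2 := by
    intro g hg
    rw [hfb]
    apply hfix
    intro hh
    exact hg (ψ.injective (by rw [hh, map_one]))
  have hex0 : ∃ g : Cfsg.Sz F m, g ≠ 1 ∧ Nat.card (MulAction.fixedBy Ω g) = 2 := by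
    obtain ⟨g, hg1, hg⟩ := hex
    refine ⟨ψ.symm g, ?_, ?_⟩
    · intro hh
      exact hg1 (by rw [← ψ.apply_symm_apply g, hh, map_one])
    · rw [hfb, ψ.apply_symm_apply]; exact hg
  rw [← Nat.card_eq_fintype_card (α := F), ← Nat.card_eq_fintype_card (α := Ω)]
  have hq : Nat.card F = 2 ^ (2 * m + 1) := by rw [Nat.card_eq_fintype_card, hF]
  rw [hq]
  rcases Cfsg.Agent.HL.Sz.fixity hm hF htr0 hfix0 hex0 with ⟨h1, h2⟩ | ⟨h1, h2⟩
  · left
    refine ⟨h1, ?_⟩
    rw [MulAction.is_two_pretransitive_iff] at h2 ⊢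
    intro a b c d hab hcd
    obtain ⟨g, hg1, hg2⟩ := h2 hab hcd
    exact ⟨ψ g, hg1, hg2⟩
  · right
    refine ⟨h1, ?_⟩
    intro α
    rw [← h2 α]
    refine Nat.card_congr ⟨fun g => ⟨ψ.symm g.1, ?_⟩, fun g => ⟨ψ g.1, g.2⟩, ?_, ?_⟩
    · rw [MulAction.mem_stabilizer_iff, hsm, ψ.apply_symm_apply]
      exact g.2
    · intro g; apply Subtype.ext; exact ψ.apply_symm_apply g.1
    · intro g; apply Subtype.ext; exact ψ.symm_apply_apply g.1

end Cfsg.Agent.S3391
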