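import Cfsg.Statements.S3412
import Cfsg.Agent.H20_L33M

set_option autoImplicit false
open Cfsg

namespace Cfsg.Agent.S3412

/-- Let H be a finite group whose commuting graph (vertices the non-identity elements, two joined when they commute) is isomorphic to that of PSL_3(3): there is a bijection between the non-identity elements of H and of PSL_3(3) under which two elements commute exactly when their images do. Then H ≅ PSL_3(3). -/
theorem result {H : Type*} [Group H] [Finite H]
    (f : {h : H // h ≠ 1} ≃ {g : Matrix.ProjectiveSpecialLinearGroup (Fin 3) (ZMod 3) // g ≠ 1})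
    (hf : ∀ x y : {h : H // h ≠ 1}, (x : H) * y = y * x ↔ ((f x) : Matrix.ProjectiveSpecialLinearGroup (Fin 3) (ZMod 3)) * (f y) = (f y) * (f x)) :
    Nonempty (H ≃* Matrix.ProjectiveSpecialLinearGroup (Fin 3) (ZMod 3)) := by
  let e := Cfsg.Agent.H20.L33.pslEquiv
  have he : ∀ g, g ≠ 1 ↔ e g ≠ 1 := fun g => by
    rw [Ne, Ne, not_iff_not]
    exact e.map_eq_one_iff.symm
  obtain ⟨k⟩ := Cfsg.Agent.H20.L33.main (f.trans (e.toEquiv.subtypeEquiv he)) (by
    intro x y
    rw [hf]
    change _ ↔ e (f x) * e (f y) = e (f y) * e (f x)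
    rw [← map_mul, ← map_mul, e.injective.eq_iff])
  exact ⟨k.trans e.symm⟩

end Cfsg.Agent.S3412
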