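import Cfsg.Statements.S3493
import Cfsg.Agent.H20_EPY

set_option autoImplicit false
open Cfsg

namespace Cfsg.Agent.S3493

open MulAction Cfsg.Agent.H20.Prim Cfsg.Agent.H20.MinNormal Cfsg.Agent.H20.EPX

/-- An extremely primitive permutation group is of affine type or almost simple. Let a finite group G act faithfully and primitively on a finite set Ω with at least two points, in such a way that every point stabilizer acts primitively on each of its own orbits in Ω (an orbit of size one counts as primitive). Then either G has a non-trivial abelian normal subgroup whose elements other than the identity fix no point (affine type), or G has a non-abelian simple normal subgroup with trivial centralizer (almost simple). -/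
theorem result {G : Type*} [Group G] [Finite G] {Ω : Type*} [Fintype Ω] [MulAction G Ω] [FaithfulSMul G Ω] (hΩ : 2 ≤ Fintype.card Ω) (hprim : MulAction.IsPreprimitive G Ω) (hep : ∀ (α : Ω) (ω : Ω), MulAction.IsPreprimitive (MulAction.stabilizer G α) (MulAction.orbit (MulAction.stabilizer G α) ω)) :
    (∃ N : Subgroup G, N.Normal ∧ N ≠ ⊥ ∧ IsMulCommutative N ∧ ∀ ω : Ω, MulAction.stabilizer N ω = ⊥) ∨ (∃ T : Subgroup G, T.Normal ∧ IsSimpleGroup T ∧ ¬ IsMulCommutative T ∧ Subgroup.centralizer (T : Set G) = ⊥) := by
  classical
  have hΩ' : 2 ≤ Nat.card Ω := by rw [Nat.card_eq_fintype_card]; exact hΩ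
  have hne : Nonempty Ω := Finite.card_pos_iff.1 (by omega)
  obtain ⟨α⟩ := hne
  have hnt : Nontrivial G := nontrivial_of_transitive (Ω := Ω) (fun x y => hprim.exists_smul_eq x y) hΩ'
  rcases cases (G := G) (Ω := Ω) (normal_transitive hprim) with ⟨M, hM, hMne, hab, hreg⟩ | h | ⟨M, T, hM, hMne, hF, h⟩
  · left
    refine ⟨M, hM, hMne, ⟨⟨fun a b => Subtype.ext (hab a a.2 b b.2)⟩⟩, fun ω => ?_⟩
    rw [Subgroup.eq_bot_iff_forall]
    intro x hx
    exact Subtype.ext (hreg x x.2 ω hx)
  · right; exact h
  · exfalso
    by_cases hTM : T = M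
    · subst hTM
      have hC := h.resolve_left (fun h => h rfl)
      exact case2 hprim α (hep α) T hF hC
    · by_cases hR : ∀ t ∈ T, ∃ c ∈ M ⊓ Subgroup.centralizer (T : Set G), t * c ∈ stabilizer G α
      · exact case1b hprim α (hep α) M T hMne hF hTM hR
      · push Not at hR
        exact case1a hprim α (hep α) M T hMne hF hTM hR

end Cfsg.Agent.S3493
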