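import Cfsg.Statements.S3495
import Cfsg.Agent.H20_EP

set_option autoImplicit false
open Cfsg

namespace Cfsg.Agent.S3495

open MulAction Cfsg.Agent.H20.EP Cfsg.Agent.H20.Prim

/-- Let a finite group G act faithfully and primitively on a finite set Ω with non-trivial point stabilizers, each acting primitively on every one of its orbits (an extremely primitive group), and suppose G has an elementary abelian normal p-subgroup N acting regularly on Ω (affine type). Then every non-trivial subgroup M of a point stabilizer G_α that is normal in G_α has the same orbits on Ω as G_α, and normalizes no subgroup of N other than 1 and N. -/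
theorem result {G : Type*} [Group G] [Finite G] {Ω : Type*} [Fintype Ω] [MulAction G Ω] [FaithfulSMul G Ω] (hprim : MulAction.IsPreprimitive G Ω) (hH : ∀ α : Ω, MulAction.stabilizer G α ≠ ⊥) (hep : ∀ (α : Ω) (ω : Ω), MulAction.IsPreprimitive (MulAction.stabilizer G α) (MulAction.orbit (MulAction.stabilizer G α) ω))
    (N : Subgroup G) [N.Normal] (hNc : IsMulCommutative N) (p : ℕ) (hp : p.Prime) (hNp : ∀ n ∈ N, n ^ p = 1)
    (hNtr : MulAction.IsPretransitive N Ω) (hNreg : ∀ ω : Ω, MulAction.stabilizer N ω = ⊥) (α : Ω) (M : Subgroup G) (hM : M ≠ ⊥) (hMle : M ≤ MulAction.stabilizer G α)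
    (hMn : MulAction.stabilizer G α ≤ Subgroup.normalizer (M : Set G)) :
    (∀ ω : Ω, MulAction.orbit M ω = MulAction.orbit (MulAction.stabilizer G α) ω) ∧
    (∀ L : Subgroup G, L ≤ N → M ≤ Subgroup.normalizer (L : Set G) → L = ⊥ ∨ L = N) := by
  obtain ⟨m0, hm0, hm01⟩ : ∃ x ∈ M, x ≠ 1 := by
    by_contra h
    push Not at h
    exact hM ((Subgroup.eq_bot_iff_forall _).2 h)
  have hMn' : ∀ h ∈ stabilizer G α, ∀ n ∈ M, h * n * h⁻¹ ∈ M := fun h hh n hn =>
    (Subgroup.mem_normalizer_iff.1 (hMn hh) n).1 hn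
  have horb : ∀ ω : Ω, MulAction.orbit M ω = MulAction.orbit (MulAction.stabilizer G α) ω := by
    intro ω
    apply Set.Subset.antisymm
    · rintro _ ⟨m, rfl⟩
      exact ⟨⟨m, hMle m.2⟩, rfl⟩
    · intro δ hδ
      by_cases hω : ω = α
      · subst hω
        obtain ⟨h, rfl⟩ := hδ
        have : h • ω = ω := h.2
        show h • ω ∈ orbit M ω
        rw [this]
        exact mem_orbit_self ω
      · rcases fix_or_trans (stabilizer G α) M hMle hMn' ω (hep α ω) with h | h
        · exact absurd (manning hprim hH hep α ω hω m0 (hMle hm0) (fun x hx => h m0 hm0 x hx)) hm01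
        · obtain ⟨n, hn, e⟩ := h ω (mem_orbit_self ω) δ hδ
          exact ⟨⟨n, hn⟩, e⟩
  refine ⟨horb, ?_⟩
  intro L hL hML
  by_cases hL1 : L = ⊥
  · exact Or.inl hL1
  right
  have hreg : ∀ n ∈ N, ∀ ω : Ω, n • ω = ω → n = 1 := by
    intro n hn ω hω
    have : (⟨n, hn⟩ : N) ∈ stabilizer N ω := hω
    rw [hNreg ω] at this
    exact congrArg Subtype.val (Subgroup.mem_bot.1 this)
  have hNn : N.Normal := inferInstance
  have hab : ∀ a ∈ N, ∀ b ∈ N, a * b = b * a := fun a ha b hb =>
    congrArg Subtype.val (hNc.is_comm.comm ⟨a, ha⟩ ⟨b, hb⟩)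
  have hLH : ∀ h ∈ stabilizer G α, ∀ l ∈ L, h * l * h⁻¹ ∈ L := by
    intro h hh l hl
    have h1 : h • (l • α) ∈ orbit M (l • α) := by
      rw [horb]
      exact ⟨⟨h, hh⟩, rfl⟩
    obtain ⟨m, hm⟩ := h1
    have hm' : (m : G) • l • α = h • l • α := hm
    have hmα : (m : G)⁻¹ • α = α := by rw [inv_smul_eq_iff]; exact (hMle m.2).symm
    have hhα : h⁻¹ • α = α := by rw [inv_smul_eq_iff]; exact hh.symm
    have h2 : (h * l * h⁻¹)⁻¹ * (m * l * (m : G)⁻¹) = 1 := by
      apply hreg _ (N.mul_mem (N.inv_mem (hNn.conj_mem l (hL hl) h)) (hNn.conj_mem l (hL hl) m)) α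
      rw [mul_smul, inv_smul_eq_iff, mul_smul, mul_smul, mul_smul, mul_smul, hmα, hhα, hm']
    rw [inv_mul_eq_one] at h2
    rw [h2]
    exact (Subgroup.mem_normalizer_iff.1 (hML m.2) l).1 hl
  have hLn : L.Normal := by
    constructor
    intro l hl g
    obtain ⟨n, hn⟩ := hNtr.exists_smul_eq α (g • α)
    have hn' : (n : G) • α = g • α := hn
    have h1 : (n : G)⁻¹ * g ∈ stabilizer G α := by
      rw [mem_stabilizer_iff, mul_smul, inv_smul_eq_iff, hn']
    have h2 := hLH _ h1 l hl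
    have h3 : g * l * g⁻¹ = n * (((n : G)⁻¹ * g) * l * ((n : G)⁻¹ * g)⁻¹) * (n : G)⁻¹ := by group
    rw [h3, hab n n.2 _ (hL h2)]
    simpa using h2
  have hLtr := normal_transitive hprim L hLn hL1
  apply le_antisymm hL
  intro n hn
  obtain ⟨l, hl, e⟩ := hLtr α (n • α)
  have h2 : l⁻¹ * n = 1 := by
    apply hreg _ (N.mul_mem (N.inv_mem (hL hl)) hn) α
    rw [mul_smul, inv_smul_eq_iff, e]
  rw [inv_mul_eq_one] at h2
  exact h2 ▸ hl

end Cfsg.Agent.S3495
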