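import Cfsg.Statements.S3496
import Cfsg.Agent.H20_EP2
import Cfsg.Agent.H20_Field
import Cfsg.Agent.S3495
import Cfsg.Agent.H1_Hall

set_option autoImplicit false
open Cfsg

namespace Cfsg.Agent.S3496

open MulAction Cfsg.Agent.H20.EP Cfsg.Agent.H20.PrimFit Cfsg.Agent.H20.Prim

theorem fitting_ne_bot (K : Type*) [Group K] [Finite K] [Group.IsSolvable K] [Nontrivial K] : Cfsg.fittingSubgroup K ≠ ⊥ := by
  intro h
  have h1 := H1.Hall.centralizer_fitting_le (G := K)
  rw [h] at h1
  have h2 : Subgroup.centralizer ((⊥ : Subgroup K) : Set K) = ⊤ := by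
    rw [eq_top_iff]
    intro x _
    rw [Subgroup.mem_centralizer_iff]
    intro y hy
    rw [Subgroup.mem_bot.1 hy]; simp
  rw [h2] at h1
  obtain ⟨x, hx⟩ := exists_ne (1 : K)
  exact hx (Subgroup.mem_bot.1 (h1 (Subgroup.mem_top x)))

/-- The soluble extremely primitive groups. Let a finite solvable group G act faithfully and primitively on a finite set Ω with p ^ d points (p prime), with non-trivial point stabilizers each acting primitively on every one of its orbits. Then there is a prime q such that every orbit of a point stabilizer G_α other than {α} has exactly q points, q divides p ^ d − 1 but no p ^ i − 1 with 0 < i < d, and G_α has a normal subgroup T of order q with G_α generated by T and one further element and the order of G_α dividing q·d (so G_α is cyclic of order q, or an extension of T by a cyclic group of order dividing d). -/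
theorem result {G : Type*} [Group G] [Finite G] {Ω : Type*} [Fintype Ω] [MulAction G Ω] [FaithfulSMul G Ω] [Group.IsSolvable G] (p d : ℕ) (hp : p.Prime) (hcard : Fintype.card Ω = p ^ d)
    (hprim : MulAction.IsPreprimitive G Ω) (hH : ∀ α : Ω, MulAction.stabilizer G α ≠ ⊥) (hep : ∀ (α : Ω) (ω : Ω), MulAction.IsPreprimitive (MulAction.stabilizer G α) (MulAction.orbit (MulAction.stabilizer G α) ω)) (α : Ω) :
    ∃ q : ℕ, q.Prime ∧ (∀ ω : Ω, ω ≠ α → Nat.card (MulAction.orbit (MulAction.stabilizer G α) ω) = q) ∧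
      q ∣ p ^ d - 1 ∧ (∀ i : ℕ, 0 < i → i < d → ¬ q ∣ p ^ i - 1) ∧
      ∃ T : Subgroup G, T ≤ MulAction.stabilizer G α ∧ MulAction.stabilizer G α ≤ Subgroup.normalizer (T : Set G) ∧ Nat.card T = q ∧
        (∃ h : G, MulAction.stabilizer G α = T ⊔ Subgroup.zpowers h) ∧ Nat.card (MulAction.stabilizer G α) ∣ q * d := by
  classical
  rw [← Nat.card_eq_fintype_card] at hcard
  obtain ⟨h0, hh0, h01⟩ : ∃ x ∈ stabilizer G α, x ≠ 1 := by
    by_contra hc
    push Not at hc
    exact hH α ((Subgroup.eq_bot_iff_forall _).2 hc)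
  obtain ⟨ω, hω⟩ : ∃ ω : Ω, h0 • ω ≠ ω := by
    by_contra hc
    push Not at hc
    apply h01
    apply FaithfulSMul.eq_of_smul_eq_smul (α := Ω)
    intro x
    rw [one_smul]; exact hc x
  have hωα : ω ≠ α := by
    rintro rfl
    exact hω hh0
  have hntΩ : Nontrivial Ω := ⟨ω, α, hωα⟩
  have hntG : Nontrivial G := ⟨h0, 1, h01⟩
  have hfp : Fact p.Prime := ⟨hp⟩
  -- the normal subgroup N
  obtain ⟨hNab, ⟨r, e, hr, hNpow, hNcard⟩, hNtr, hNcard', hNcent⟩ := prim_fitting hprim (fitting_ne_bot G)
  set N := Cfsg.fittingSubgroup G with hN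
  have hNn : N.Normal := H1.Nilp.fitting_normal
  have hΩ2 : 1 < Nat.card Ω := Finite.one_lt_card
  have hd : d ≠ 0 := by
    rintro rfl
    rw [pow_zero] at hcard
    omega
  have hrp : r = p := by
    have h1 : r ^ e = p ^ d := by rw [← hNcard, hNcard', hcard]
    have h2 : p ∣ r ^ e := h1 ▸ dvd_pow_self p hd
    exact ((Nat.prime_dvd_prime_iff_eq hp hr).1 (hp.dvd_of_dvd_pow h2)).symm
  subst hrp
  have hNreg : ∀ n ∈ N, ∀ ω : Ω, n • ω = ω → n = 1 := regular_of_comm N N hNtr hNab
  -- H and F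
  set H := stabilizer G α with hHdef
  have hntH : Nontrivial H := (Subgroup.nontrivial_iff_ne_bot H).2 (hH α)
  have hsolvH : Group.IsSolvable H := inferInstance
  have hFne := fitting_ne_bot H
  obtain ⟨hFab, ⟨q, e', hq, hFpow, hFcard⟩, -, -, hFcent⟩ := fitting_facts hprim hH hep α ω hωα hFne
  have hFn : (Cfsg.fittingSubgroup H).Normal := H1.Nilp.fitting_normal
  set F := Cfsg.fittingSubgroup H with hF
  have hNne : N ≠ ⊥ := fitting_ne_bot G
  have hfaith : ∀ h : H, (∀ n ∈ N, (h : G) * n = n * h) → h = 1 := by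
    intro h hh
    apply Subtype.ext
    exact eq_one_of_centralizes N hNtr (h : G) hh α h.2
  -- irreducibility
  have hirr : ∀ L : Subgroup G, L ≤ N → (∀ a ∈ F, ∀ x ∈ L, (a : G) * x * (a : G)⁻¹ ∈ L) → L = ⊥ ∨ L = N := by
    intro L hLN hconj
    have h1 := S3495.result hprim hH hep N ⟨⟨fun a b => Subtype.ext (hNab a a.2 b b.2)⟩⟩ r hr hNpow
      ⟨fun x y => by
        obtain ⟨n, hn, e⟩ := hNtr x y
        exact ⟨⟨n, hn⟩, e⟩⟩ (fun ω => by
        rw [Subgroup.eq_bot_iff_forall]
        intro x hx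
        exact Subtype.ext (hNreg x x.2 ω hx)) α (F.map H.subtype)
      (fun h => hFne ((Subgroup.map_eq_bot_iff_of_injective _ H.subtype_injective).1 h))
      (Subgroup.map_subtype_le _)
      (by
        intro g hg
        rw [Subgroup.mem_normalizer_iff]
        intro x
        constructor
        · rintro ⟨a, ha, rfl⟩
          exact ⟨⟨g, hg⟩ * a * ⟨g, hg⟩⁻¹, hFn.conj_mem a ha _, rfl⟩
        · rintro ⟨a, ha, hax⟩
          refine ⟨⟨g, hg⟩⁻¹ * a * ⟨g, hg⟩, by simpa using hFn.conj_mem a ha ⟨g, hg⟩⁻¹, ?_⟩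
          have h2 : (a : G) = g * x * g⁻¹ := hax
          show g⁻¹ * (a : G) * g = x
          rw [h2]; group)
    exact h1.2 L hLN (by
      rintro _ ⟨a, ha, rfl⟩
      rw [Subgroup.mem_normalizer_iff]
      intro x
      constructor
      · exact hconj a ha x
      · intro hx
        have h2 := hconj a⁻¹ (F.inv_mem ha) _ hx
        have h3 : ((a⁻¹ : H) : G) * (H.subtype a * x * (H.subtype a)⁻¹) * ((a⁻¹ : H) : G)⁻¹ = x := by
          show (a : G)⁻¹ * ((a : G) * x * (a : G)⁻¹) * ((a : G)⁻¹)⁻¹ = x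
          group
        rwa [h3] at h2)
  obtain ⟨K, instK, instA, f, φ, hfinK, hcardK, hf1, hf2, hφ, hadj⟩ := H20.FieldRep.exists_field_conj N hNne hNab hNpow H F
    hFab hirr
  have hVcard : Nat.card K = r ^ d := by
    rw [hcardK, hNcard', hcard]
  have hfinj : Function.Injective f := by
    intro a b hab
    have h1 : f (a⁻¹ * b) = 1 := by
      rw [map_mul, ← hab, ← map_mul, inv_mul_cancel, map_one]
    rw [hf1] at h1
    have h2 := hfaith _ h1
    have h3 : a⁻¹ * b = 1 := Subtype.ext h2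
    exact eq_of_inv_mul_eq_one h3
  -- |F| = q
  have hFcyc : IsCyclic F := by
    letI : CommGroup F := { (inferInstance : Group F) with mul_comm := fun a b => Subtype.ext (hFab a a.2 b b.2) }
    exact isCyclic_of_injective_ringHom f hfinj
  have hFq : Nat.card F = q := by
    obtain ⟨g, hg⟩ := hFcyc.exists_generator
    have h1 : orderOf g = Nat.card F := orderOf_eq_card_of_forall_mem_zpowers hg
    have h2 : orderOf g ∣ q := orderOf_dvd_of_pow_eq_one (Subtype.ext (hFpow g g.2))
    rw [h1] at h2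
    rcases (Nat.dvd_prime hq).1 h2 with h3 | h3
    · exact absurd (Subgroup.card_eq_one.1 h3) hFne
    · exact h3
  -- kernel of φ
  have hφker : φ.ker = F := by
    rw [← hFcent]
    ext h
    rw [MonoidHom.mem_ker, hφ, Subgroup.mem_centralizer_iff]
    constructor
    · intro hh a ha
      have h2 := hfaith _ (hh a ha)
      calc a * h = (h * a * h⁻¹ * a⁻¹) * (a * h) := by rw [h2, one_mul]
        _ = h * a := by group
    · intro hh a ha n hn
      have h2 : h * a * h⁻¹ * a⁻¹ = 1 := by
        rw [← hh a ha]; group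
      rw [h2]; simp
  have hfr : Module.finrank (ZMod r) K = d := by
    have h1 := Module.natCard_eq_pow_finrank (K := ZMod r) (V := K)
    rw [hVcard, Nat.card_zmod] at h1
    exact (Nat.pow_right_injective hr.two_le h1).symm
  have hgal : Nat.card (K ≃ₐ[ZMod r] K) = d := by
    have h1 := IsGalois.card_aut_eq_finrank (ZMod r) K
    rw [← hfr, ← h1]
  refine ⟨q, hq, ?_, ?_, ?_, F.map H.subtype, Subgroup.map_subtype_le _, ?_, ?_, ?_, ?_⟩
  · intro ω' hω'
    have h1 := (fitting_facts hprim hH hep α ω' hω' hFne).2.2.2.1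
    exact h1.symm.trans hFq
  · have h1 := fitting_dvd hprim hH hep α hFne
    rw [hcard] at h1
    rw [← hFq]
    exact h1
  · intro i hi hid hqi
    -- Frobenius power fixes f(F)
    have hfix : ∀ a : F, (f a) ^ (r ^ i) = f a := by
      intro a
      rw [← map_pow]
      congr 1
      have h1 : a ^ q = 1 := Subtype.ext (hFpow a a.2)
      obtain ⟨k, hk⟩ := hqi
      have h2 : r ^ i = q * k + 1 := by
        have : 1 ≤ r ^ i := Nat.one_le_pow _ _ hr.pos
        omega
      rw [h2, pow_add, pow_mul, h1, one_pow, one_mul, pow_one]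
    have hCK : CharP K r := charP_of_injective_algebraMap (algebraMap (ZMod r) K).injective r
    let Fr : K →ₐ[ZMod r] K :=
      { (iterateFrobenius K r i) with
        commutes' := fun x => by
          show (iterateFrobenius K r i) (algebraMap (ZMod r) K x) = algebraMap (ZMod r) K x
          rw [iterateFrobenius_def, ← map_pow, ZMod.pow_card_pow] }
    have hFr : ∀ x : K, Fr x = x ^ (r ^ i) := fun x => iterateFrobenius_def r i x
    have heq : AlgHom.equalizer Fr (AlgHom.id (ZMod r) K) = ⊤ := by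
      rw [eq_top_iff, ← hadj]
      apply Algebra.adjoin_le
      rintro _ ⟨a, rfl⟩
      show Fr (f a) = f a
      rw [hFr, hfix]
    have hall : ∀ x : K, x ^ (r ^ i) = x := by
      intro x
      have h1 : x ∈ AlgHom.equalizer Fr (AlgHom.id (ZMod r) K) := heq ▸ Algebra.mem_top
      rw [← hFr]
      exact h1
    obtain ⟨g, hg⟩ := IsCyclic.exists_generator (α := Kˣ)
    have h1 : orderOf g = Nat.card Kˣ := orderOf_eq_card_of_forall_mem_zpowers hg
    have h2 : Nat.card Kˣ = r ^ d - 1 := by rw [Nat.card_units, hVcard]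
    have h3 : g ^ (r ^ i - 1) = 1 := by
      have h4 : g ^ (r ^ i) = g := Units.ext (by rw [Units.val_pow_eq_pow_val]; exact hall g)
      have h5 : r ^ i = (r ^ i - 1) + 1 := by
        have : 1 ≤ r ^ i := Nat.one_le_pow _ _ hr.pos
        omega
      rw [h5, pow_succ] at h4
      exact mul_eq_right.1 h4
    have h4 := orderOf_dvd_of_pow_eq_one h3
    rw [h1, h2] at h4
    have h5 : 0 < r ^ i - 1 := by
      have : 2 ≤ r ^ i := by
        calc 2 ≤ r := hr.two_le
          _ = r ^ 1 := (pow_one r).symm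
          _ ≤ r ^ i := Nat.pow_le_pow_right hr.pos hi
      omega
    have h6 := Nat.le_of_dvd h5 h4
    have h7 : r ^ i < r ^ d := Nat.pow_lt_pow_right hr.one_lt hid
    omega
  · intro g hg
    rw [Subgroup.mem_normalizer_iff]
    intro x
    constructor
    · rintro ⟨a, ha, rfl⟩
      exact ⟨⟨g, hg⟩ * a * ⟨g, hg⟩⁻¹, hFn.conj_mem a ha _, rfl⟩
    · rintro ⟨a, ha, hax⟩
      refine ⟨⟨g, hg⟩⁻¹ * a * ⟨g, hg⟩, by simpa using hFn.conj_mem a ha ⟨g, hg⟩⁻¹, ?_⟩
      have h2 : (a : G) = g * x * g⁻¹ := hax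
      show g⁻¹ * (a : G) * g = x
      rw [h2]; group
  · rw [Subgroup.card_map_of_injective H.subtype_injective, hFq]
  · obtain ⟨⟨g, h, rfl⟩, hg⟩ := (inferInstance : IsCyclic φ.range).exists_generator
    refine ⟨h, ?_⟩
    apply le_antisymm
    · intro x hx
      obtain ⟨n, hn⟩ := hg ⟨φ ⟨x, hx⟩, ⟨x, hx⟩, rfl⟩
      have h1 : φ h ^ n = φ ⟨x, hx⟩ := by
        have := congrArg Subtype.val hn
        simpa using this
      have h2 : (⟨x, hx⟩ : H) * (h ^ n)⁻¹ ∈ F := by
        rw [← hφker, MonoidHom.mem_ker, map_mul, map_inv, map_zpow, h1, mul_inv_cancel]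
      have h3 : x = (x * ((h : G) ^ n)⁻¹) * (h : G) ^ n := by group
      rw [h3]
      apply Subgroup.mul_mem
      · exact Subgroup.mem_sup_left ⟨_, h2, rfl⟩
      · exact Subgroup.mem_sup_right ⟨n, rfl⟩
    · rw [sup_le_iff]
      refine ⟨Subgroup.map_subtype_le _, ?_⟩
      rw [Subgroup.zpowers_le]
      exact h.2
  · have h1 : Nat.card φ.ker * Nat.card φ.range = Nat.card H := by
      rw [← Subgroup.index_ker φ]
      exact Subgroup.card_mul_index φ.ker
    rw [hφker, hFq] at h1
    rw [← h1]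
    apply Nat.mul_dvd_mul_left
    rw [← hgal]
    exact Subgroup.card_subgroup_dvd_card _

end Cfsg.Agent.S3496
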