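import Cfsg.Statements.S3504


set_option autoImplicit false
open Cfsg

namespace Cfsg.Agent.S3504

/-- For n ≥ 5, the fixed-point-free permutations of prime order in the symmetric group of degree n form a single conjugacy class if and only if n is a prime power. -/
theorem result (n : ℕ) (hn : 5 ≤ n) :
    Nat.card {c : ConjClasses (Equiv.Perm (Fin n)) // ∃ g : Equiv.Perm (Fin n), ConjClasses.mk g = c ∧ (orderOf g).Prime ∧ ∀ i : Fin n, g i ≠ i} = 1 ↔ IsPrimePow n := by
  classical
  have hct : ∀ g : Equiv.Perm (Fin n), (orderOf g).Prime → (∀ i, g i ≠ i) →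
      g.cycleType = Multiset.replicate (n / orderOf g) (orderOf g) ∧ orderOf g ∣ n := by
    intro g hg hd
    obtain ⟨k, hk⟩ := Equiv.Perm.cycleType_prime_order hg
    have h1 := Equiv.Perm.sum_cycleType g
    rw [hk, Multiset.sum_replicate, smul_eq_mul] at h1
    have h2 : g.support = Finset.univ := by
      ext i; simp [hd i]
    rw [h2, Finset.card_univ, Fintype.card_fin] at h1
    have h3 : n / orderOf g = k + 1 :=
      Nat.div_eq_of_eq_mul_left hg.pos h1.symm
    refine ⟨by rw [h3]; exact hk, Dvd.intro_left _ h1⟩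
  have hcard : Nat.card {c : ConjClasses (Equiv.Perm (Fin n)) // ∃ g : Equiv.Perm (Fin n), ConjClasses.mk g = c ∧ (orderOf g).Prime ∧ ∀ i : Fin n, g i ≠ i}
      = Nat.card n.primeFactors := by
    apply Nat.card_congr
    refine Equiv.ofBijective (fun c => ⟨orderOf (Classical.choose c.2), ?_⟩) ⟨?_, ?_⟩
    · have h := Classical.choose_spec c.2
      rw [Nat.mem_primeFactors]
      exact ⟨h.2.1, (hct _ h.2.1 h.2.2).2, by omega⟩
    · intro c1 c2 h
      have h1 := Classical.choose_spec c1.2
      have h2 := Classical.choose_spec c2.2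
      have h3 : orderOf (Classical.choose c1.2) = orderOf (Classical.choose c2.2) := Subtype.ext_iff.mp h
      apply Subtype.ext
      rw [← h1.1, ← h2.1, ConjClasses.mk_eq_mk_iff_isConj, Equiv.Perm.isConj_iff_cycleType_eq,
        (hct _ h1.2.1 h1.2.2).1, (hct _ h2.2.1 h2.2.2).1, h3]
    · rintro ⟨p, hp⟩
      rw [Nat.mem_primeFactors] at hp
      obtain ⟨hp, hpn, hn0⟩ := hp
      have hk : 0 < n / p := Nat.div_pos (Nat.le_of_dvd (by omega) hpn) hp.pos
      obtain ⟨g, hg⟩ := (Equiv.Perm.exists_with_cycleType_iff (α := Fin n) (m := Multiset.replicate (n / p) p)).mpr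
        ⟨by rw [Multiset.sum_replicate, smul_eq_mul, Nat.div_mul_cancel hpn, Fintype.card_fin],
         fun a ha => by rw [Multiset.eq_of_mem_replicate ha]; exact hp.two_le⟩
      have hord : orderOf g = p := by
        rw [← Equiv.Perm.lcm_cycleType, hg]
        apply Nat.dvd_antisymm
        · rw [Multiset.lcm_dvd]
          intro b hb
          rw [Multiset.eq_of_mem_replicate hb]
        · exact Multiset.dvd_lcm (Multiset.mem_replicate.mpr ⟨hk.ne', rfl⟩)
      have hder : ∀ i, g i ≠ i := by
        have h1 := Equiv.Perm.sum_cycleType g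
        rw [hg, Multiset.sum_replicate, smul_eq_mul, Nat.div_mul_cancel hpn] at h1
        have h2 : g.support = Finset.univ := by
          apply Finset.eq_univ_of_card
          rw [← h1, Fintype.card_fin]
        intro i
        rw [← Equiv.Perm.mem_support, h2]
        exact Finset.mem_univ i
      refine ⟨⟨ConjClasses.mk g, g, rfl, by rw [hord]; exact hp, hder⟩, ?_⟩
      apply Subtype.ext
      have hex : ∃ g' : Equiv.Perm (Fin n), ConjClasses.mk g' = ConjClasses.mk g ∧ (orderOf g').Prime ∧ ∀ i : Fin n, g' i ≠ i :=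
        ⟨g, rfl, by rw [hord]; exact hp, hder⟩
      have h1 := Classical.choose_spec hex
      change orderOf (Classical.choose hex) = p
      have h2 := h1.1
      rw [ConjClasses.mk_eq_mk_iff_isConj, Equiv.Perm.isConj_iff_cycleType_eq] at h2
      rw [← Equiv.Perm.lcm_cycleType, h2, Equiv.Perm.lcm_cycleType, hord]
  rw [hcard, Nat.card_eq_fintype_card, Fintype.card_coe, isPrimePow_iff_card_primeFactors_eq_one]

end Cfsg.Agent.S3504
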