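import Cfsg.Statements.S3511


set_option autoImplicit false
open Cfsg

namespace Cfsg.Agent.S3511

/-- Let a finite group G act faithfully on a set Ω. If every element of G of square-free order has a regular cycle (an orbit of the cyclic group it generates with trivial stabilizer), then every element of G has a regular cycle. -/
theorem result {G : Type*} [Group G] [Finite G] {Ω : Type*} [MulAction G Ω] [FaithfulSMul G Ω]
    (h : ∀ g : G, Squarefree (orderOf g) → ∃ ω : Ω, MulAction.stabilizer (Subgroup.zpowers g) ω = ⊥) (g : G) :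
    ∃ ω : Ω, MulAction.stabilizer (Subgroup.zpowers g) ω = ⊥ := by
  classical
  set n := orderOf g with hn
  have hnpos : 0 < n := orderOf_pos g
  set r := ∏ p ∈ n.primeFactors, p with hr
  have hrn : r ∣ n := Nat.prod_primeFactors_dvd n
  have hrpos : 0 < r := Nat.pos_of_dvd_of_pos hrn hnpos
  obtain ⟨k, hk⟩ := hrn
  have hkpos : 0 < k := by
    rcases Nat.eq_zero_or_pos k with h0 | h0
    · rw [h0, mul_zero] at hk; omega
    · exact h0
  have hord : orderOf (g ^ k) = r := by
    rw [orderOf_pow, ← hn, hk, Nat.gcd_mul_left_left, Nat.mul_div_cancel _ hkpos]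
  have hsq : Squarefree (orderOf (g ^ k)) := by
    rw [hord, hr]
    apply Finset.squarefree_prod_of_pairwise_isCoprime
    · intro a ha b hb hab
      have ha' := Nat.prime_of_mem_primeFactors ha
      have hb' := Nat.prime_of_mem_primeFactors hb
      exact Nat.coprime_iff_isRelPrime.mp ((Nat.coprime_primes ha' hb').mpr hab)
    · intro a ha
      exact (Nat.prime_of_mem_primeFactors ha).squarefree
  obtain ⟨ω, hω⟩ := h _ hsq
  refine ⟨ω, ?_⟩
  by_contra hcon
  obtain ⟨x, hx, hx1⟩ : ∃ x ∈ MulAction.stabilizer (Subgroup.zpowers g) ω, x ≠ 1 := by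
    by_contra h'
    push Not at h'
    exact hcon ((Subgroup.eq_bot_iff_forall _).mpr h')
  have hox : orderOf x ≠ 1 := fun h' => hx1 (orderOf_eq_one_iff.mp h')
  obtain ⟨p, hp, hpx⟩ := Nat.exists_prime_and_dvd hox
  set y := x ^ (orderOf x / p) with hy
  have hyord : orderOf y = p := by
    rw [hy]
    exact orderOf_pow_orderOf_div (orderOf_pos x).ne' hpx
  have hyst : y ∈ MulAction.stabilizer (Subgroup.zpowers g) ω := Subgroup.pow_mem _ hx _
  obtain ⟨z, hz⟩ := y
  obtain ⟨j, hj⟩ := (mem_powers_iff_mem_zpowers.mpr hz : z ∈ Submonoid.powers g)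
  have hzord : orderOf z = p := by
    rw [← hyord]
    exact (Subgroup.orderOf_coe (⟨z, hz⟩ : Subgroup.zpowers g)).symm.symm
  have hpr : p ∣ r := by
    apply Finset.dvd_prod_of_mem
    rw [Nat.mem_primeFactors]
    refine ⟨hp, ?_, hnpos.ne'⟩
    rw [← hzord]
    have : z ∈ Subgroup.zpowers g := hz
    exact orderOf_dvd_of_mem_zpowers this
  have hzr : z ^ r = 1 := by
    rw [← orderOf_dvd_iff_pow_eq_one, hzord]; exact hpr
  have hnj : n ∣ j * r := by
    rw [hn, orderOf_dvd_iff_pow_eq_one, pow_mul]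
    simp only at hj
    rw [hj, hzr]
  have hkj : k ∣ j := by
    rw [hk, mul_comm r k] at hnj
    exact Nat.dvd_of_mul_dvd_mul_right hrpos hnj
  obtain ⟨i, hi⟩ := hkj
  have hzk : z ∈ Subgroup.zpowers (g ^ k) := by
    simp only at hj
    rw [← hj, hi, pow_mul]
    exact Subgroup.pow_mem _ (Subgroup.mem_zpowers _) _
  have hz1 : (⟨z, hzk⟩ : Subgroup.zpowers (g ^ k)) ∈ MulAction.stabilizer (Subgroup.zpowers (g ^ k)) ω := by
    rw [MulAction.mem_stabilizer_iff] at hyst ⊢
    exact hyst
  rw [hω, Subgroup.mem_bot] at hz1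
  have hz2 : z = 1 := congrArg Subtype.val hz1
  rw [hz2, orderOf_one] at hzord
  exact hp.one_lt.ne hzord

end Cfsg.Agent.S3511
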