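import Cfsg.Statements.S3514
import Cfsg.Agent.H2_Card

set_option autoImplicit false
open Cfsg

namespace Cfsg.Agent.S3514

/-- Let p be a prime, V a finite vector space over the field with p elements, and H a group of linear transformations of V all of whose orbits on V have size coprime to p. (i) Every normal subgroup K of H has all its orbits on V of size coprime to p. (ii) If N is a group of linear transformations of V of order coprime to p that is normalized by H, then the group generated by N and H has all its orbits on V of size coprime to p. -/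
theorem result (p : ℕ) [Fact p.Prime] {V : Type*} [AddCommGroup V] [Module (ZMod p) V] [Finite V]
    (H : Subgroup (V ≃ₗ[ZMod p] V)) (hH : ∀ v : V, ¬ p ∣ Nat.card {u : V | ∃ h ∈ H, h v = u}) :
    (∀ K : Subgroup (V ≃ₗ[ZMod p] V), K ≤ H → H ≤ Subgroup.normalizer (K : Set (V ≃ₗ[ZMod p] V)) →
        ∀ v : V, ¬ p ∣ Nat.card {u : V | ∃ k ∈ K, k v = u}) ∧
    (∀ N : Subgroup (V ≃ₗ[ZMod p] V), ¬ p ∣ Nat.card N → H ≤ Subgroup.normalizer (N : Set (V ≃ₗ[ZMod p] V)) →
        ∀ v : V, ¬ p ∣ Nat.card {u : V | ∃ x ∈ N ⊔ H, x v = u}) := by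
  classical
  -- orbit cardinality as an index
  have horb : ∀ (K : Subgroup (V ≃ₗ[ZMod p] V)) (v : V),
      Nat.card {u : V | ∃ k ∈ K, k v = u} = ((MulAction.stabilizer (V ≃ₗ[ZMod p] V) v).relIndex K) := by
    intro K v
    have h1 : Nat.card {u : V | ∃ k ∈ K, k v = u} = Nat.card (MulAction.orbit K v) := by
      have : ({u : V | ∃ k ∈ K, k v = u} : Set V) = MulAction.orbit K v := by
        ext u
        constructor
        · rintro ⟨k, hk, h⟩
          exact ⟨⟨k, hk⟩, h⟩
        · rintro ⟨⟨k, hk⟩, h⟩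
          exact ⟨k, hk, h⟩
      rw [this]
    rw [h1]
    exact (MulAction.index_stabilizer K v).symm
  have hfin : Finite (V ≃ₗ[ZMod p] V) := Finite.of_injective (fun f : V ≃ₗ[ZMod p] V => (f : V → V)) DFunLike.coe_injective
  simp only [horb] at hH ⊢
  refine ⟨?_, ?_⟩
  · intro K hK hHK v hp
    apply hH v
    refine hp.trans ?_
    set S := MulAction.stabilizer (V ≃ₗ[ZMod p] V) v with hS
    have hle : S ⊓ H ≤ Subgroup.normalizer (K : Set (V ≃ₗ[ZMod p] V)) := inf_le_right.trans hHK
    have h2 := Cfsg.Agent.H2.Card.relIndex_sup_left_of_le_normalizer hle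
    have h1 : S.relIndex K = (S ⊓ H).relIndex K := by
      rw [← Subgroup.inf_relIndex_right S K, ← Subgroup.inf_relIndex_right (S ⊓ H) K, inf_assoc, inf_eq_right.mpr hK]
    rw [h1, ← h2]
    have h3 : (S ⊓ H).relIndex H = S.relIndex H := by
      rw [Subgroup.inf_relIndex_right]
    rw [← h3]
    have h4 : (S ⊓ H) ⊔ K ≤ H := sup_le inf_le_right hK
    exact Dvd.intro _ (Subgroup.relIndex_mul_relIndex (S ⊓ H) ((S ⊓ H) ⊔ K) H le_sup_left h4)
  · intro N hN hHN v hp
    set S := MulAction.stabilizer (V ≃ₗ[ZMod p] V) v with hS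
    have h1 : S.relIndex (N ⊔ H) ∣ (S ⊓ H).relIndex (N ⊔ H) := Subgroup.relIndex_dvd_of_le_left _ inf_le_left
    have h2 := Subgroup.relIndex_mul_relIndex (S ⊓ H) H (N ⊔ H) inf_le_right le_sup_right
    have h3 := Cfsg.Agent.H2.Card.relIndex_sup_left_of_le_normalizer hHN
    rw [sup_comm H N] at h3
    rw [← h2, h3, Subgroup.inf_relIndex_right] at h1
    rcases (Nat.Prime.dvd_mul Fact.out).mp (hp.trans h1) with h4 | h4
    · exact hH v h4
    · exact hN (h4.trans (Subgroup.relIndex_dvd_card H N))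

end Cfsg.Agent.S3514
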