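import Cfsg.Statements.S3515
import Cfsg.Agent.H20_Lin

set_option autoImplicit false
open Cfsg

namespace Cfsg.Agent.S3515

/-- Every primitive affine permutation group of degree p² is 3-closed. Let p be a prime and G a group of permutations of the plane V = F_p² consisting of affine maps x ↦ Ax + b, containing all translations, and acting primitively on V. Then any permutation σ of V that agrees on every triple of points with some element of G (σ preserves every G-orbit on ordered triples) already lies in G. -/
theorem result (p : ℕ) [Fact p.Prime] (G : Subgroup (Equiv.Perm (Fin 2 → ZMod p)))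
    (haff : (G : Set (Equiv.Perm (Fin 2 → ZMod p))) ⊆ {τ : Equiv.Perm (Fin 2 → ZMod p) | ∃ (A : (Fin 2 → ZMod p) ≃ₗ[ZMod p] (Fin 2 → ZMod p)) (b : Fin 2 → ZMod p), ∀ x, τ x = A x + b})
    (htrans : ∀ b : Fin 2 → ZMod p, ∃ g ∈ G, ∀ x, g x = x + b) (hprim : MulAction.IsPreprimitive G (Fin 2 → ZMod p))
    (σ : Equiv.Perm (Fin 2 → ZMod p)) (hσ : (∀ t : Fin 3 → (Fin 2 → ZMod p), ∃ g ∈ G, ∀ i, σ (t i) = g (t i))) : σ ∈ G := by
  classical
  obtain ⟨g, hg, hg'⟩ := hσ ![0, Pi.single 0 1, Pi.single 1 1]
  have e0 : σ 0 = g 0 := hg' 0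
  have e1 : σ (Pi.single 0 1) = g (Pi.single 0 1) := hg' 1
  have e2 : σ (Pi.single 1 1) = g (Pi.single 1 1) := hg' 2
  have hσg : σ = g := by
    by_cases hp : p = 2
    · subst hp
      have key : ∀ a b c u v : Fin 2 → ZMod 2, a ≠ b → a ≠ c → b ≠ c → u ≠ a → u ≠ b → u ≠ c → v ≠ a → v ≠ b → v ≠ c → u = v := by
        have hc : Fintype.card (Fin 2 → ZMod 2) = 4 := by simp
        intro a b c u v h1 h2 h3 h4 h5 h6 h7 h8 h9
        by_contra huv
        have : ({a, b, c, u, v} : Finset (Fin 2 → ZMod 2)).card = 5 := by
          rw [Finset.card_insert_of_notMem, Finset.card_insert_of_notMem, Finset.card_insert_of_notMem, Finset.card_insert_of_notMem, Finset.card_singleton]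
          · simpa using huv
          · simp only [Finset.mem_insert, Finset.mem_singleton, not_or]; exact ⟨h6.symm, h9.symm⟩
          · simp only [Finset.mem_insert, Finset.mem_singleton, not_or]; exact ⟨h3, h5.symm, h8.symm⟩
          · simp only [Finset.mem_insert, Finset.mem_singleton, not_or]; exact ⟨h1, h2, h4.symm, h7.symm⟩
        have h10 := Finset.card_le_univ ({a, b, c, u, v} : Finset (Fin 2 → ZMod 2))
        omega
      have n1 : (0 : Fin 2 → ZMod 2) ≠ Pi.single 0 1 := fun h => by simpa using congrFun h 0
      have n2 : (0 : Fin 2 → ZMod 2) ≠ Pi.single 1 1 := fun h => by simpa using congrFun h 1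
      have n3 : (Pi.single 0 1 : Fin 2 → ZMod 2) ≠ Pi.single 1 1 := fun h => by simpa using congrFun h 0
      ext1 x
      by_cases h0 : x = 0
      · rw [h0, e0]
      by_cases h1 : x = Pi.single 0 1
      · rw [h1, e1]
      by_cases h2 : x = Pi.single 1 1
      · rw [h2, e2]
      apply key (g 0) (g (Pi.single 0 1)) (g (Pi.single 1 1))
      · exact fun h => n1 (g.injective h)
      · exact fun h => n2 (g.injective h)
      · exact fun h => n3 (g.injective h)
      · rw [← e0]; exact fun h => h0 (σ.injective h)
      · rw [← e1]; exact fun h => h1 (σ.injective h)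
      · rw [← e2]; exact fun h => h2 (σ.injective h)
      · exact fun h => h0 (g.injective h)
      · exact fun h => h1 (g.injective h)
      · exact fun h => h2 (g.injective h)
    · obtain ⟨A, b, hA⟩ := Cfsg.Agent.H20.Lin.affine_of_triples hp σ (by
        intro x y z
        obtain ⟨g, hg, hg'⟩ := hσ ![x, y, z]
        obtain ⟨A, b, hA⟩ := haff hg
        refine ⟨A, b, ?_, ?_, ?_⟩
        · rw [← hA]; exact hg' 0
        · rw [← hA]; exact hg' 1
        · rw [← hA]; exact hg' 2)
      obtain ⟨A', b', hA'⟩ := haff hg
      have hb : b = b' := by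
        rw [hA, hA', map_zero, map_zero, zero_add, zero_add] at e0
        exact e0
      rw [hA, hA', hb] at e1 e2
      have e1' := add_right_cancel e1
      have e2' := add_right_cancel e2
      have hAA : (A : (Fin 2 → ZMod p) →ₗ[ZMod p] (Fin 2 → ZMod p)) = A' := by
        apply (Pi.basisFun (ZMod p) (Fin 2)).ext
        intro i
        rw [Pi.basisFun_apply]
        fin_cases i
        · exact e1'
        · exact e2'
      ext1 x
      rw [hA, hA', hb]
      congr 1
      exact LinearMap.congr_fun hAA x
  rw [hσg]; exact hg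

end Cfsg.Agent.S3515
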