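import Cfsg.Statements.S3516
import Cfsg.Agent.H20_Lin

set_option autoImplicit false
open Cfsg

namespace Cfsg.Agent.S3516

/-- Let p be an odd prime, d ≥ 3, and G a group of affine permutations x ↦ Ax + b of V = F_p^d containing all translations and all maps x ↦ Ax with A of determinant 1. Then the 3-closure of G is the full affine group: a permutation σ of V agrees on every triple of points with some element of G if and only if σ is an affine map. -/
theorem result (p : ℕ) [Fact p.Prime] (hp : p ≠ 2) (d : ℕ) (hd : 3 ≤ d) (G : Subgroup (Equiv.Perm (Fin d → ZMod p)))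
    (haff : (G : Set (Equiv.Perm (Fin d → ZMod p))) ⊆ {τ : Equiv.Perm (Fin d → ZMod p) | ∃ (A : (Fin d → ZMod p) ≃ₗ[ZMod p] (Fin d → ZMod p)) (b : Fin d → ZMod p), ∀ x, τ x = A x + b})
    (htrans : ∀ b : Fin d → ZMod p, ∃ g ∈ G, ∀ x, g x = x + b)
    (hsl : ∀ A : (Fin d → ZMod p) ≃ₗ[ZMod p] (Fin d → ZMod p), LinearMap.det (A : (Fin d → ZMod p) →ₗ[ZMod p] (Fin d → ZMod p)) = 1 → ∃ g ∈ G, ∀ x, g x = A x)
    (σ : Equiv.Perm (Fin d → ZMod p)) :
    (∀ t : Fin 3 → (Fin d → ZMod p), ∃ g ∈ G, ∀ i, σ (t i) = g (t i)) ↔ σ ∈ {τ : Equiv.Perm (Fin d → ZMod p) | ∃ (A : (Fin d → ZMod p) ≃ₗ[ZMod p] (Fin d → ZMod p)) (b : Fin d → ZMod p), ∀ x, τ x = A x + b} := by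
  classical
  constructor
  · intro hσ
    exact Cfsg.Agent.H20.Lin.affine_of_triples hp σ (by
        intro x y z
        obtain ⟨g, hg, hg'⟩ := hσ ![x, y, z]
        obtain ⟨A, b, hA⟩ := haff hg
        refine ⟨A, b, ?_, ?_, ?_⟩
        · rw [← hA]; exact hg' 0
        · rw [← hA]; exact hg' 1
        · rw [← hA]; exact hg' 2)
  · rintro ⟨A, b, hA⟩ t
    set W : Submodule (ZMod p) (Fin d → ZMod p) := Submodule.span (ZMod p) {t 1 - t 0, t 2 - t 0} with hW
    have hWtop : W ≠ ⊤ := by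
      intro h
      have h1 : Module.finrank (ZMod p) W ≤ 2 := by
        have h2 := finrank_span_le_card (R := ZMod p) ({t 1 - t 0, t 2 - t 0} : Set (Fin d → ZMod p))
        refine h2.trans ?_
        rw [Set.toFinset_card]
        have h3 : Fintype.card ({t 1 - t 0, t 2 - t 0} : Set (Fin d → ZMod p)) = Set.ncard ({t 1 - t 0, t 2 - t 0} : Set (Fin d → ZMod p)) := by
          rw [← Nat.card_eq_fintype_card]; rfl
        rw [h3]
        exact Set.ncard_insert_le _ _ |>.trans (by rw [Set.ncard_singleton])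
      rw [h, finrank_top, Module.finrank_fin_fun] at h1
      omega
    have hdet : LinearMap.det (A : (Fin d → ZMod p) →ₗ[ZMod p] (Fin d → ZMod p)) ≠ 0 := by
      have := LinearEquiv.isUnit_det' A
      exact this.ne_zero
    obtain ⟨D, hDW, hD⟩ := Cfsg.Agent.H20.Lin.exists_det W hWtop (LinearMap.det (A : (Fin d → ZMod p) →ₗ[ZMod p] (Fin d → ZMod p)))⁻¹ (inv_ne_zero hdet)
    obtain ⟨g1, hg1, hg1'⟩ := hsl (D.trans A) (by
      have h1 : ((D.trans A : (Fin d → ZMod p) ≃ₗ[ZMod p] (Fin d → ZMod p)) : (Fin d → ZMod p) →ₗ[ZMod p] (Fin d → ZMod p)) = (A : (Fin d → ZMod p) →ₗ[ZMod p] (Fin d → ZMod p)) ∘ₗ (D : (Fin d → ZMod p) →ₗ[ZMod p] (Fin d → ZMod p)) := rfl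
      rw [h1, LinearMap.det_comp, hD, mul_inv_cancel₀ hdet])
    obtain ⟨g2, hg2, hg2'⟩ := htrans (-t 0)
    obtain ⟨g3, hg3, hg3'⟩ := htrans (σ (t 0))
    refine ⟨g3 * g1 * g2, G.mul_mem (G.mul_mem hg3 hg1) hg2, ?_⟩
    have hgen : ∀ x, (g3 * g1 * g2) x = A (D (x - t 0)) + σ (t 0) := by
      intro x
      rw [Equiv.Perm.mul_apply, Equiv.Perm.mul_apply, hg2', hg1', hg3', ← sub_eq_add_neg]
      rfl
    have hfix : ∀ x, x - t 0 ∈ W → σ x = (g3 * g1 * g2) x := by
      intro x hx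
      rw [hgen, hDW _ hx, map_sub, hA, hA]
      abel
    intro i
    apply hfix
    fin_cases i
    · simp
    · exact Submodule.subset_span (by simp)
    · exact Submodule.subset_span (by simp)

end Cfsg.Agent.S3516
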