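import Cfsg.Statements.S3517
import Cfsg.Agent.H20_Lin

set_option autoImplicit false
open Cfsg

namespace Cfsg.Agent.S3517

/-- For d ≥ 3, the 3-closure of the affine group AGL_d(2) acting on F_2^d is the full symmetric group: every permutation of F_2^d agrees on every ordered triple of points with some affine map (AGL_d(2) is 3-transitive). -/
theorem result (d : ℕ) (hd : 3 ≤ d) (σ : Equiv.Perm (Fin d → ZMod 2)) (t : Fin 3 → (Fin d → ZMod 2)) :
    ∃ (A : (Fin d → ZMod 2) ≃ₗ[ZMod 2] (Fin d → ZMod 2)) (b : Fin d → ZMod 2), ∀ i, σ (t i) = A (t i) + b := by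
  classical
  -- linear part
  have key : ∀ x y x' y' : Fin d → ZMod 2, (x = 0 ↔ x' = 0) → (y = 0 ↔ y' = 0) → (x = y ↔ x' = y') →
      ∃ A : (Fin d → ZMod 2) ≃ₗ[ZMod 2] (Fin d → ZMod 2), A x = x' ∧ A y = y' := by
    have hz2 : ∀ a : ZMod 2, a = 0 ∨ a = 1 := by decide
    have hli1 : ∀ x : Fin d → ZMod 2, x ≠ 0 → LinearIndependent (ZMod 2) (fun _ : Unit => x) := by
      intro x hx
      exact LinearIndependent.of_subsingleton () hx
    have hli2 : ∀ x y : Fin d → ZMod 2, x ≠ 0 → y ≠ 0 → x ≠ y → LinearIndependent (ZMod 2) ![x, y] := by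
      intro x y hx hy hxy
      rw [LinearIndependent.pair_iff]
      intro s t h
      rcases hz2 s with rfl | rfl <;> rcases hz2 t with rfl | rfl
      · exact ⟨rfl, rfl⟩
      · exfalso; apply hy; simpa using h
      · exfalso; apply hx; simpa using h
      · exfalso; apply hxy
        rw [one_smul, one_smul] at h
        have h2 : y + y = 0 := by ext i; exact CharTwo.add_self_eq_zero _
        exact add_right_cancel (h.trans h2.symm)
    intro x y x' y' h1 h2 h3
    by_cases hx : x = 0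
    · have hx' := h1.mp hx
      by_cases hy : y = 0
      · exact ⟨LinearEquiv.refl _ _, by rw [hx, hx']; rfl, by rw [hy, h2.mp hy]; rfl⟩
      · have hy' : y' ≠ 0 := fun h => hy (h2.mpr h)
        obtain ⟨g, hg⟩ := Cfsg.Agent.H20.Lin.exists_equiv (hli1 y hy) (hli1 y' hy')
        exact ⟨g, by rw [hx, hx', map_zero], hg ()⟩
    · have hx' : x' ≠ 0 := fun h => hx (h1.mpr h)
      by_cases hy : y = 0
      · obtain ⟨g, hg⟩ := Cfsg.Agent.H20.Lin.exists_equiv (hli1 x hx) (hli1 x' hx')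
        exact ⟨g, hg (), by rw [hy, h2.mp hy, map_zero]⟩
      · have hy' : y' ≠ 0 := fun h => hy (h2.mpr h)
        by_cases hxy : x = y
        · obtain ⟨g, hg⟩ := Cfsg.Agent.H20.Lin.exists_equiv (hli1 x hx) (hli1 x' hx')
          exact ⟨g, hg (), by rw [← hxy, ← h3.mp hxy]; exact hg ()⟩
        · have hxy' : x' ≠ y' := fun h => hxy (h3.mpr h)
          obtain ⟨g, hg⟩ := Cfsg.Agent.H20.Lin.exists_equiv (hli2 x y hx hy hxy) (hli2 x' y' hx' hy' hxy')
          exact ⟨g, hg 0, hg 1⟩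
  obtain ⟨A, hA1, hA2⟩ := key (t 1 - t 0) (t 2 - t 0) (σ (t 1) - σ (t 0)) (σ (t 2) - σ (t 0))
    (by rw [sub_eq_zero, sub_eq_zero, σ.injective.eq_iff])
    (by rw [sub_eq_zero, sub_eq_zero, σ.injective.eq_iff])
    (by rw [sub_left_inj, sub_left_inj, σ.injective.eq_iff])
  refine ⟨A, σ (t 0) - A (t 0), ?_⟩
  intro i
  fin_cases i
  · simp
  · rw [map_sub] at hA1
    change σ (t 1) = A (t 1) + (σ (t 0) - A (t 0))
    have : A (t 1) = σ (t 1) - σ (t 0) + A (t 0) := by rw [← hA1]; abel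
    rw [this]; abel
  · rw [map_sub] at hA2
    change σ (t 2) = A (t 2) + (σ (t 0) - A (t 0))
    have : A (t 2) = σ (t 2) - σ (t 0) + A (t 0) := by rw [← hA2]; abel
    rw [this]; abel

end Cfsg.Agent.S3517
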