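import Cfsg.Statements.S3518
import Cfsg.Agent.H20_McC

set_option autoImplicit false
open Cfsg

namespace Cfsg.Agent.S3518

/-- Closures of subgroups of the one-dimensional affine group. Let p be a prime and G a group of permutations of F_p lying in the affine group AGL₁(p) = {x ↦ ax + b, a ≠ 0} and containing all translations. (1) If G is a proper subgroup of AGL₁(p), then G is 2-closed: a permutation of F_p agreeing on every ordered pair of points with some element of G lies in G. (2) Every permutation of F_p agrees on every ordered pair with some element of AGL₁(p) (the 2-closure of AGL₁(p) is the symmetric group). (3) AGL₁(p) is 3-closed: a permutation agreeing on every ordered triple with some affine map is affine. -/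
theorem result (p : ℕ) [Fact p.Prime] (G : Subgroup (Equiv.Perm (ZMod p))) (hG : G ≤ Cfsg.affineGroup (ZMod p))
    (htrans : ∀ b : ZMod p, ∃ g ∈ G, ∀ x, g x = x + b) :
    (G ≠ Cfsg.affineGroup (ZMod p) → ∀ σ : Equiv.Perm (ZMod p), (∀ t : Fin 2 → ZMod p, ∃ g ∈ G, ∀ i, σ (t i) = g (t i)) → σ ∈ G) ∧
    (∀ σ : Equiv.Perm (ZMod p), (∀ t : Fin 2 → ZMod p, ∃ g ∈ Cfsg.affineGroup (ZMod p), ∀ i, σ (t i) = g (t i))) ∧
    (∀ σ : Equiv.Perm (ZMod p), (∀ t : Fin 3 → ZMod p, ∃ g ∈ Cfsg.affineGroup (ZMod p), ∀ i, σ (t i) = g (t i)) → σ ∈ Cfsg.affineGroup (ZMod p)) := by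
  classical
  have hp := (Fact.out : p.Prime)
  have hmem : ∀ σ : Equiv.Perm (ZMod p), σ ∈ Cfsg.affineGroup (ZMod p) ↔ ∃ a : (ZMod p)ˣ, ∃ b : ZMod p, ∀ x, σ x = (a : ZMod p) * x + b :=
    fun σ => Iff.rfl
  have mkperm : ∀ (a : (ZMod p)ˣ) (b : ZMod p), ∃ g ∈ Cfsg.affineGroup (ZMod p), ∀ x, g x = (a : ZMod p) * x + b := by
    intro a b
    refine ⟨(Units.mulLeft a).trans (Equiv.addRight b), (hmem _).mpr ⟨a, b, fun x => rfl⟩, fun x => rfl⟩
  refine ⟨?_, ?_, ?_⟩
  · intro hGne σ hσ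
    -- the subgroup S of multipliers
    let S : Subgroup (ZMod p)ˣ :=
      { carrier := {a | ∃ g ∈ G, ∀ x, g x = (a : ZMod p) * x}
        mul_mem' := by
          rintro a b ⟨g, hg, hga⟩ ⟨h, hh, hhb⟩
          exact ⟨g * h, G.mul_mem hg hh, fun x => by rw [Equiv.Perm.mul_apply, hhb, hga, Units.val_mul, mul_assoc]⟩
        one_mem' := ⟨1, G.one_mem, fun x => by simp⟩
        inv_mem' := by
          rintro a ⟨g, hg, hga⟩
          refine ⟨g⁻¹, G.inv_mem hg, fun x => ?_⟩
          rw [Equiv.Perm.inv_eq_iff_eq, hga, ← mul_assoc, Units.mul_inv, one_mul] }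
    have hSmem : ∀ a : (ZMod p)ˣ, a ∈ S ↔ ∃ g ∈ G, ∀ x, g x = (a : ZMod p) * x := fun a => Iff.rfl
    have hGS : ∀ g ∈ G, ∃ a ∈ S, ∃ b : ZMod p, ∀ x, g x = (a : ZMod p) * x + b := by
      intro g hg
      obtain ⟨a, b, hab⟩ := (hmem g).mp (hG hg)
      refine ⟨a, ?_, b, hab⟩
      obtain ⟨t, ht, ht'⟩ := htrans (-b)
      exact (hSmem a).mpr ⟨t * g, G.mul_mem ht hg, fun x => by rw [Equiv.Perm.mul_apply, hab, ht']; ring⟩
    have hSG : ∀ a ∈ S, ∀ b : ZMod p, ∀ τ : Equiv.Perm (ZMod p), (∀ x, τ x = (a : ZMod p) * x + b) → τ ∈ G := by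
      intro a ha b τ hτ
      obtain ⟨g, hg, hga⟩ := (hSmem a).mp ha
      obtain ⟨t, ht, ht'⟩ := htrans b
      have : τ = t * g := by
        ext1 x
        rw [Equiv.Perm.mul_apply, hga, ht', hτ]
      rw [this]; exact G.mul_mem ht hg
    have hStop : S ≠ ⊤ := by
      intro h
      apply hGne
      apply le_antisymm hG
      intro g hg
      obtain ⟨a, b, hab⟩ := (hmem g).mp hg
      exact hSG a (by rw [h]; trivial) b g hab
    set m := Nat.card S with hm
    have hm1 : 1 ≤ m := Nat.card_pos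
    have hunits : Nat.card (ZMod p)ˣ = p - 1 := by
      rw [Nat.card_eq_fintype_card, ZMod.card_units]
    have hidx := S.card_mul_index
    rw [hunits, ← hm] at hidx
    have hidx1 : S.index ≠ 1 := fun h => hStop (Subgroup.index_eq_one.mp h)
    have hidx0 : S.index ≠ 0 := Subgroup.FiniteIndex.index_ne_zero
    have hp1 : 1 < p := hp.one_lt
    have h2m : 2 * m ≤ p - 1 := by
      rw [← hidx]
      have : 2 ≤ S.index := by omega
      nlinarith
    have hpair : ∀ x y : ZMod p, ∃ a ∈ S, σ x - σ y = (a : ZMod p) * (x - y) := by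
      intro x y
      obtain ⟨g, hg, hg'⟩ := hσ ![x, y]
      obtain ⟨a, ha, b, hab⟩ := hGS g hg
      have e0 : σ x = g x := hg' 0
      have e1 : σ y = g y := hg' 1
      exact ⟨a, ha, by rw [e0, e1, hab, hab]; ring⟩
    obtain ⟨a, b, hab⟩ := Cfsg.Agent.H20.McC.main m hm1 (by omega) (by omega) σ (by
      intro x y
      obtain ⟨a, ha, h⟩ := hpair x y
      rw [h, mul_pow]
      have h1 : a ^ m = 1 := by
        have h2 := pow_card_eq_one' (x := (⟨a, ha⟩ : S))
        exact congrArg Subtype.val h2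
      have h3 : (a : ZMod p) ^ m = 1 := by
        rw [← Units.val_pow_eq_pow_val, h1, Units.val_one]
      rw [h3, one_mul])
    obtain ⟨a', ha', h'⟩ := hpair 1 0
    have haa : a = a' := by
      rw [hab, hab] at h'
      simpa using h'
    apply hSG a' ha' b σ
    intro x
    rw [hab, haa]
  · intro σ t
    by_cases h : t 0 = t 1
    · obtain ⟨g, hg, hg'⟩ := mkperm 1 (σ (t 0) - t 0)
      refine ⟨g, hg, fun i => ?_⟩
      fin_cases i
      · change σ (t 0) = g (t 0)
        rw [hg']; simp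
      · change σ (t 1) = g (t 1)
        rw [← h, hg']; simp
    · have h1 : t 0 - t 1 ≠ 0 := sub_ne_zero.mpr h
      have h2 : σ (t 0) - σ (t 1) ≠ 0 := sub_ne_zero.mpr (fun h' => h (σ.injective h'))
      obtain ⟨g, hg, hg'⟩ := mkperm (Units.mk0 ((σ (t 0) - σ (t 1)) / (t 0 - t 1)) (div_ne_zero h2 h1))
        (σ (t 0) - (σ (t 0) - σ (t 1)) / (t 0 - t 1) * t 0)
      refine ⟨g, hg, fun i => ?_⟩
      fin_cases i
      · change σ (t 0) = g (t 0)
        rw [hg', Units.val_mk0]; ring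
      · change σ (t 1) = g (t 1)
        rw [hg', Units.val_mk0]
        field_simp
        ring
  · intro σ hσ
    obtain ⟨g, hg, hg'⟩ := hσ ![0, 1, 0]
    have e0 : σ 0 = g 0 := hg' 0
    have e1 : σ 1 = g 1 := hg' 1
    have : σ = g := by
      ext1 x
      obtain ⟨h, hh, hh'⟩ := hσ ![0, 1, x]
      have f0 : σ 0 = h 0 := hh' 0
      have f1 : σ 1 = h 1 := hh' 1
      have f2 : σ x = h x := hh' 2
      obtain ⟨a, b, hab⟩ := (hmem g).mp hg
      obtain ⟨c, d, hcd⟩ := (hmem h).mp hh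
      rw [f0, hab, hcd] at e0
      rw [f1, hab, hcd] at e1
      have hbd : d = b := by simpa using e0
      have hac : (c : ZMod p) = a := by rw [hbd] at e1; simpa using e1
      rw [f2, hab, hcd, hbd, hac]
    rw [this]; exact hg

end Cfsg.Agent.S3518
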