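import Cfsg.Statements.S3532
import Cfsg.Agent.H21_SpecPSL2
import Cfsg.Agent.H21_FrobGrp

set_option autoImplicit false
open Cfsg

namespace Cfsg.Agent.S3532



/-- Let q ≥ 4 be a prime power and L = PSL(2,q). There is a finite solvable group with the same set of element orders as L × L (so L × L is not determined by its spectrum). -/
theorem result {F : Type*} [Field F] [Fintype F] (hF : 4 ≤ Fintype.card F) :
    ∃ (H : Type) (_ : Group H) (_ : Finite H), Group.IsSolvable H ∧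
      Set.range (orderOf : H → ℕ) = Set.range (orderOf : Matrix.ProjectiveSpecialLinearGroup (Fin 2) F × Matrix.ProjectiveSpecialLinearGroup (Fin 2) F → ℕ) := by
  obtain ⟨p, hpF⟩ := CharP.exists F
  obtain ⟨f, hp, hq⟩ := FiniteField.card F p
  haveI : Fact p.Prime := ⟨hp⟩
  set q := Fintype.card F with hqdef
  have hE : Nat.card (GaloisField p (2 * f)) = q ^ 2 := by
    rw [GaloisField.card p (2 * f) (by have := f.pos; omega), hq, mul_comm, pow_mul]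
  have hq1 : 1 ≤ q := by omega
  have hsq : q ^ 2 - 1 = (q + 1) * (q - 1) := by
    have := Nat.sq_sub_sq q 1
    rwa [one_pow] at this
  have hd1 : (q - 1) / Nat.gcd 2 (q - 1) ∣ Nat.card (GaloisField p (2 * f)) - 1 := by
    rw [hE, hsq]
    exact Dvd.dvd.mul_left (Nat.div_dvd_of_dvd (Nat.gcd_dvd_right _ _)) _
  have hg : Nat.gcd 2 (q + 1) = Nat.gcd 2 (q - 1) := by
    have e1 : q + 1 = (q - 1) + 2 := by omega
    rw [e1, Nat.gcd_add_self_right]
  have hd2 : (q + 1) / Nat.gcd 2 (q - 1) ∣ Nat.card (GaloisField p (2 * f)) - 1 := by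
    rw [hE, hsq, ← hg]
    exact Dvd.dvd.mul_right (Nat.div_dvd_of_dvd (Nat.gcd_dvd_right _ _)) _
  haveI : Finite (GaloisField p (2 * f)) := inferInstance
  obtain ⟨c1, hc1⟩ := Cfsg.Agent.H21.FrobGrp.exists_unit hd1
  obtain ⟨c2, hc2⟩ := Cfsg.Agent.H21.FrobGrp.exists_unit hd2
  haveI := Cfsg.Agent.H21.FrobGrp.solvable c1
  haveI := Cfsg.Agent.H21.FrobGrp.solvable c2
  refine ⟨Cfsg.Agent.H21.FrobGrp.Grp c1 × Cfsg.Agent.H21.FrobGrp.Grp c2, inferInstance, inferInstance, inferInstance, ?_⟩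
  rw [Cfsg.Agent.H21.FrobGrp.range_prod, Cfsg.Agent.H21.FrobGrp.range_prod, Cfsg.Agent.H21.FrobGrp.spectrum c1 p,
    Cfsg.Agent.H21.FrobGrp.spectrum c2 p, Cfsg.Agent.H21.SpecPSL2.spectrum p hF, hc1, hc2]
  set u := (q - 1) / Nat.gcd 2 (q - 1)
  set v := (q + 1) / Nat.gcd 2 (q - 1)
  ext m
  simp only [Set.mem_setOf_eq]
  constructor
  · rintro ⟨a, ha, b, hb, rfl⟩
    exact ⟨a, by tauto, b, by tauto, rfl⟩
  · rintro ⟨a, ha | ha | ha, b, hb | hb | hb, rfl⟩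
    · exact ⟨Nat.lcm a b, Or.inl (Nat.lcm_dvd ha hb), 1, Or.inl (one_dvd _), by simp⟩
    · exact ⟨b, Or.inr hb, a, Or.inl ha, Nat.lcm_comm _ _⟩
    · exact ⟨a, Or.inl ha, b, Or.inr hb, rfl⟩
    · exact ⟨a, Or.inr ha, b, Or.inl hb, rfl⟩
    · exact ⟨Nat.lcm a b, Or.inr (Nat.lcm_dvd ha hb), 1, Or.inl (one_dvd _), by simp⟩
    · exact ⟨a, Or.inr ha, b, Or.inr hb, rfl⟩
    · exact ⟨b, Or.inl hb, a, Or.inr ha, Nat.lcm_comm _ _⟩
    · exact ⟨b, Or.inr hb, a, Or.inr ha, Nat.lcm_comm _ _⟩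
    · exact ⟨1, Or.inl (one_dvd _), Nat.lcm a b, Or.inr (Nat.lcm_dvd ha hb), by simp⟩

end Cfsg.Agent.S3532
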