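import Cfsg.Statements.S3547
import Cfsg.Agent.H21_Derange

set_option autoImplicit false
open Cfsg

namespace Cfsg.Agent.S3547



/-- Let G act faithfully and transitively on a finite set Ω, let D be the subgroup generated by the derangements, and let r_G and r_D be the numbers of orbits of G and of D on ordered pairs of points (the permutation ranks). Then r_D − 1 = (r_G − 1)·[G : D]. -/
theorem result {G Ω : Type*} [Group G] [Finite G] [MulAction G Ω] [FaithfulSMul G Ω] [Finite Ω]
    (htrans : MulAction.IsPretransitive G Ω) :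
    Nat.card (MulAction.orbitRel.Quotient ↥(Subgroup.closure {g : G | ∀ ω : Ω, g • ω ≠ ω}) (Ω × Ω)) - 1 =
      (Nat.card (MulAction.orbitRel.Quotient G (Ω × Ω)) - 1) * (Subgroup.closure {g : G | ∀ ω : Ω, g • ω ≠ ω}).index := by
  classical
  change Nat.card (MulAction.orbitRel.Quotient ↥(H21.Derange.D G Ω) (Ω × Ω)) - 1 =
      (Nat.card (MulAction.orbitRel.Quotient G (Ω × Ω)) - 1) * (H21.Derange.D G Ω).index
  rcases isEmpty_or_nonempty Ω with h | h
  · haveI : IsEmpty (MulAction.orbitRel.Quotient G (Ω × Ω)) := ⟨fun q => by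
      induction q using Quotient.inductionOn' with
      | h x => exact isEmptyElim x.1⟩
    haveI : IsEmpty (MulAction.orbitRel.Quotient ↥(H21.Derange.D G Ω) (Ω × Ω)) := ⟨fun q => by
      induction q using Quotient.inductionOn' with
      | h x => exact isEmptyElim x.1⟩
    simp [Nat.card_of_isEmpty]
  · haveI : Fintype G := Fintype.ofFinite G
    haveI : Fintype (H21.Derange.D G Ω) := Fintype.ofFinite _
    have hfix : ∀ g : G, Nat.card (MulAction.fixedBy (Ω × Ω) g) = Nat.card (MulAction.fixedBy Ω g) ^ 2 := by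
      intro g
      rw [pow_two, ← Nat.card_prod]
      apply Nat.card_congr
      refine ⟨fun x => (⟨x.1.1, congrArg Prod.fst x.2⟩, ⟨x.1.2, congrArg Prod.snd x.2⟩), fun y => ⟨(y.1.1, y.2.1), ?_⟩, ?_, ?_⟩
      · exact Prod.ext y.1.2 y.2.2
      · intro x; rfl
      · intro y; rfl
    have hG := H21.Derange.burnside_nat (G := G) (Ω := Ω × Ω)
    have hD := H21.Derange.burnside_nat (G := H21.Derange.D G Ω) (Ω := Ω × Ω)
    have hD' : ∑ g ∈ Finset.univ.filter (fun g : G => g ∈ H21.Derange.D G Ω), Nat.card (MulAction.fixedBy (Ω × Ω) g) =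
        Nat.card (MulAction.orbitRel.Quotient (H21.Derange.D G Ω) (Ω × Ω)) * Nat.card (H21.Derange.D G Ω) := by
      rw [← hD]
      symm
      apply Finset.sum_bij (fun (g : H21.Derange.D G Ω) _ => (g : G))
      · intro a _; simp
      · intro a _ b _ h; exact Subtype.ext h
      · intro b hb; simp only [Finset.mem_filter, Finset.mem_univ, true_and] at hb
        exact ⟨⟨b, hb⟩, Finset.mem_univ _, rfl⟩
      · intro a _; rfl
    have hcD : (Finset.univ.filter (fun g : G => g ∈ H21.Derange.D G Ω)).card = Nat.card (H21.Derange.D G Ω) := by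
      rw [Nat.card_eq_fintype_card, Fintype.card_subtype]
    have h3 : Nat.card G = (Finset.univ.filter (fun g : G => g ∈ H21.Derange.D G Ω)).card + (Finset.univ.filter (fun g : G => g ∉ H21.Derange.D G Ω)).card := by
      rw [Finset.card_filter_add_card_filter_not, Nat.card_eq_fintype_card, Finset.card_univ]
    have h4 := Finset.sum_filter_add_sum_filter_not Finset.univ (fun g : G => g ∈ H21.Derange.D G Ω) (fun g => Nat.card (MulAction.fixedBy (Ω × Ω) g))
    have h5 : ∑ g ∈ Finset.univ.filter (fun g : G => g ∉ H21.Derange.D G Ω), Nat.card (MulAction.fixedBy (Ω × Ω) g) = (Finset.univ.filter (fun g : G => g ∉ H21.Derange.D G Ω)).card := by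
      rw [Finset.card_eq_sum_ones]
      apply Finset.sum_congr rfl
      intro g hg
      simp only [Finset.mem_filter, Finset.mem_univ, true_and] at hg
      rw [hfix, (H21.Derange.main (G := G) (Ω := Ω)).2 g hg, one_pow]
    rw [hD', h5, hG] at h4
    have hidx := Subgroup.index_mul_card (H21.Derange.D G Ω)
    have hDpos : 0 < Nat.card (H21.Derange.D G Ω) := Nat.card_pos
    set rG := Nat.card (MulAction.orbitRel.Quotient G (Ω × Ω))
    set rD := Nat.card (MulAction.orbitRel.Quotient (H21.Derange.D G Ω) (Ω × Ω))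
    set d := Nat.card (H21.Derange.D G Ω)
    set i := (H21.Derange.D G Ω).index
    have hrG : 1 ≤ rG := by
      haveI : Nonempty (MulAction.orbitRel.Quotient G (Ω × Ω)) := ⟨Quotient.mk'' (Classical.arbitrary _)⟩
      exact Nat.card_pos
    have hi : 1 ≤ i := Nat.one_le_iff_ne_zero.mpr Subgroup.index_ne_zero_of_finite
    have hkey : rD + i = rG * i + 1 := by
      have e1 : (rD + i) * d = (rG * i + 1) * d := by
        have e2 : i * d = d + (Finset.univ.filter (fun g : G => g ∉ H21.Derange.D G Ω)).card := by
          rw [hidx, h3, hcD]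
        have e3 : rD * d + (Finset.univ.filter (fun g : G => g ∉ H21.Derange.D G Ω)).card = rG * (i * d) := by
          rw [h4, hidx]
        nlinarith
      exact Nat.eq_of_mul_eq_mul_right hDpos e1
    obtain ⟨k, hk⟩ := Nat.exists_eq_add_of_le hrG
    rw [hk] at hkey ⊢
    have : rD = 1 + k * i := by nlinarith
    rw [this]; simp

end Cfsg.Agent.S3547
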