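import Cfsg.Statements.S3548
import Cfsg.Agent.H21_Derange

set_option autoImplicit false
open Cfsg

namespace Cfsg.Agent.S3548

open MulAction in
theorem aux {G Ω : Type*} [Group G] [Finite G] [MulAction G Ω] [FaithfulSMul G Ω] [Finite Ω]
    [IsPretransitive G Ω] (hΩ : 2 ≤ Nat.card Ω)
    (h : (H21.Derange.D G Ω).index = Nat.card Ω - 1) : IsPrimePow (Nat.card Ω) := by
  classical
  set D := H21.Derange.D G Ω with hDdef
  haveI hDt : IsPretransitive D Ω := H21.Derange.D_pretransitive
  haveI : Nontrivial Ω := by
    rw [← Finite.one_lt_card_iff_nontrivial]; omega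
  obtain ⟨a⟩ := (inferInstance : Nonempty Ω)
  have hmain := H21.Derange.main (G := G) (Ω := Ω)
  have hlt : ∀ b : Ω, b ≠ a → ∀ g : G, g • a = a → g • b = b → g ∈ D := by
    intro b hba g hga hgb
    by_contra hgD
    have h1 := hmain.2 g hgD
    obtain ⟨hs, _⟩ := Nat.card_eq_one_iff_unique.mp h1
    have := hs.elim (⟨b, hgb⟩ : fixedBy Ω g) ⟨a, hga⟩
    exact hba (congrArg Subtype.val this)
  -- index of D ∩ H in H
  have hidx : (D.subgroupOf (stabilizer G a)).index = D.index := by
    have hsup : stabilizer G a ⊔ D = ⊤ := by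
      rw [eq_top_iff]
      intro g _
      obtain ⟨d, hd⟩ := exists_smul_eq D a (g • a)
      have hd' : (d : G) • a = g • a := hd
      have h1 : (d : G)⁻¹ * g ∈ stabilizer G a := by
        rw [mem_stabilizer_iff, mul_smul, ← hd', inv_smul_smul]
      have : g = (d : G) * ((d : G)⁻¹ * g) := by group
      rw [this]
      exact Subgroup.mul_mem _ (Subgroup.mem_sup_right d.2) (Subgroup.mem_sup_left h1)
    have := Subgroup.relIndex_sup_right (stabilizer G a) D
    rw [hsup, Subgroup.relIndex_top_right] at this
    exact this.symm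
  -- for b ≠ a the orbit of b under H has full size
  have horb : ∀ b : Ω, b ≠ a → Nat.card (orbit (stabilizer G a) b) = Nat.card Ω - 1 ∧
      stabilizer (stabilizer G a) b = D.subgroupOf (stabilizer G a) := by
    intro b hba
    have hle : stabilizer (stabilizer G a) b ≤ D.subgroupOf (stabilizer G a) := by
      intro g hg
      rw [Subgroup.mem_subgroupOf]
      exact hlt b hba g g.2 hg
    have h1 : Nat.card (orbit (stabilizer G a) b) = (stabilizer (stabilizer G a) b).index := by
      rw [index_stabilizer]; rfl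
    have h2 : (D.subgroupOf (stabilizer G a)).index ∣ (stabilizer (stabilizer G a) b).index :=
      Subgroup.index_dvd_of_le hle
    have h3 : Nat.card (orbit (stabilizer G a) b) ≤ Nat.card Ω - 1 := by
      have hsub : orbit (stabilizer G a) b ⊆ {a}ᶜ := by
        rintro x ⟨g, rfl⟩ hx
        have hx' : (g : G) • b = a := hx
        have hga : (g : G) • a = a := g.2
        exact hba ((smul_left_cancel (g : G)) (hx'.trans hga.symm))
      have := Set.ncard_le_ncard hsub (Set.toFinite _)
      rw [Set.ncard_compl, Set.ncard_singleton] at this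
      exact this
    have hne : (stabilizer (stabilizer G a) b).index ≠ 0 := Subgroup.index_ne_zero_of_finite
    have h4 := Nat.le_of_dvd (Nat.pos_of_ne_zero hne) h2
    rw [hidx, h] at h4
    have h5 : (stabilizer (stabilizer G a) b).index = (D.subgroupOf (stabilizer G a)).index := by
      rw [hidx, h]; omega
    refine ⟨by omega, ?_⟩
    apply Subgroup.eq_of_le_of_card_ge hle
    have e1 := Subgroup.index_mul_card (stabilizer (stabilizer G a) b)
    have e2 := Subgroup.index_mul_card (D.subgroupOf (stabilizer G a))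
    rw [← e2, h5] at e1
    have : 0 < (D.subgroupOf (stabilizer G a)).index := Nat.pos_of_ne_zero Subgroup.index_ne_zero_of_finite
    exact le_of_eq (Nat.eq_of_mul_eq_mul_left this e1).symm
  -- D_a is trivial
  have hDa : ∀ g : G, g ∈ D → g • a = a → g = 1 := by
    intro g hgD hga
    apply FaithfulSMul.eq_of_smul_eq_smul (α := Ω)
    intro b
    rw [one_smul]
    by_cases hba : b = a
    · rw [hba, hga]
    · have := (horb b hba).2
      have hm : (⟨g, hga⟩ : stabilizer G a) ∈ D.subgroupOf (stabilizer G a) := by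
        rw [Subgroup.mem_subgroupOf]; exact hgD
      rw [← this] at hm
      exact hm
  -- D has order n
  have hcardD : Nat.card D = Nat.card Ω := by
    apply Nat.card_eq_of_bijective (fun d : D => d • a)
    constructor
    · intro x y hxy
      have hxy' : (x : G) • a = (y : G) • a := hxy
      have h1 := hDa ((y : G)⁻¹ * x) (D.mul_mem (D.inv_mem y.2) x.2) (by rw [mul_smul, hxy', inv_smul_smul])
      rw [inv_mul_eq_one] at h1
      exact Subtype.ext h1.symm
    · intro b
      exact exists_smul_eq D a b
  have hcard1 : Nat.card D ≠ 1 := by omega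
  obtain ⟨p, hp, hpd⟩ := Nat.exists_prime_and_dvd hcard1
  haveI : Fact p.Prime := ⟨hp⟩
  obtain ⟨x, hx⟩ := exists_prime_orderOf_dvd_card' (G := D) p hpd
  have hx1 : (x : G) ≠ 1 := by
    intro h1
    rw [← Subgroup.orderOf_coe, h1, orderOf_one] at hx
    exact hp.one_lt.ne hx
  have hxa : (x : G) • a ≠ a := fun h1 => hx1 (hDa x x.2 h1)
  have hall : ∀ y : D, y ≠ 1 → orderOf y = p := by
    intro y hy
    have hya : (y : G) • a ≠ a := fun h1 => hy (Subtype.ext (hDa y y.2 h1))
    -- orbit of x•a is everything but a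
    have h1 := (horb _ hxa).1
    have hsub : orbit (stabilizer G a) ((x : G) • a) ⊆ {a}ᶜ := by
      rintro z ⟨g, rfl⟩ hz
      have hz' : (g : G) • (x : G) • a = a := hz
      have hga : (g : G) • a = a := g.2
      exact hxa ((smul_left_cancel (g : G)) (hz'.trans hga.symm))
    have heq : orbit (stabilizer G a) ((x : G) • a) = {a}ᶜ := by
      apply Set.eq_of_subset_of_ncard_le hsub
      rw [Set.ncard_compl, Set.ncard_singleton]
      exact le_of_eq h1.symm
    have hmem : (y : G) • a ∈ orbit (stabilizer G a) ((x : G) • a) := by rw [heq]; exact hya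
    obtain ⟨g, hg⟩ := hmem
    have hg' : (g : G) • (x : G) • a = (y : G) • a := hg
    have hga : (g : G)⁻¹ • a = a := by
      rw [inv_smul_eq_iff]; exact g.2.symm
    have hconj : (g : G) * x * (g : G)⁻¹ ∈ D := (H21.Derange.D_normal (G := G) (Ω := Ω)).conj_mem _ x.2 _
    have h2 : (y : G) = (g : G) * x * (g : G)⁻¹ := by
      have h3 := hDa ((y : G)⁻¹ * ((g : G) * x * (g : G)⁻¹)) (D.mul_mem (D.inv_mem y.2) hconj) (by
        rw [mul_smul, mul_smul, mul_smul, hga, hg', inv_smul_smul])
      rw [inv_mul_eq_one] at h3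
      exact h3
    rw [← Subgroup.orderOf_coe, h2]
    have : orderOf ((g : G) * x * (g : G)⁻¹) = orderOf (x : G) := by
      have := orderOf_injective (MulAut.conj (g : G)).toMonoidHom (MulEquiv.injective _) (x : G)
      simpa using this
    rw [this, Subgroup.orderOf_coe, hx]
  have hpg : IsPGroup p D := by
    rw [IsPGroup.iff_orderOf]
    intro y
    by_cases hy : y = 1
    · exact ⟨0, by rw [hy]; simp⟩
    · exact ⟨1, by rw [hall y hy]; simp⟩
  obtain ⟨k, hk⟩ := (IsPGroup.iff_card).mp hpg
  rw [← hcardD, hk]
  have hk0 : k ≠ 0 := by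
    rintro rfl
    rw [pow_zero] at hk; exact hcard1 hk
  exact hp.isPrimePow.pow hk0

/-- Let G act faithfully and transitively on a finite set with n ≥ 2 points and let D be the subgroup generated by the derangements. Then the index of D in G divides n − 1, and if it equals n − 1 then n is a prime power. -/
theorem result {G Ω : Type*} [Group G] [Finite G] [MulAction G Ω] [FaithfulSMul G Ω] [Finite Ω]
    (htrans : MulAction.IsPretransitive G Ω) (hΩ : 2 ≤ Nat.card Ω) :
    (Subgroup.closure {g : G | ∀ ω : Ω, g • ω ≠ ω}).index ∣ Nat.card Ω - 1 ∧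
    ((Subgroup.closure {g : G | ∀ ω : Ω, g • ω ≠ ω}).index = Nat.card Ω - 1 → IsPrimePow (Nat.card Ω)) := by
  haveI : Nonempty Ω := by
    rw [← Finite.card_pos_iff]; omega
  exact ⟨H21.Derange.index_dvd_card_sub_one (G := G) (Ω := Ω), fun h => aux hΩ h⟩

end Cfsg.Agent.S3548
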