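import Cfsg.Statements.S3549
import Cfsg.Agent.H21_Derange

set_option autoImplicit false
open Cfsg

namespace Cfsg.Agent.S3549

open scoped Pointwise in
theorem aux {G Ω : Type*} [Group G] [Finite G] [MulAction G Ω] [FaithfulSMul G Ω] [Finite Ω]
    (htrans : MulAction.IsPretransitive G Ω) (himp : ¬ MulAction.IsPreprimitive G Ω) :
    ((H21.Derange.D G Ω).index : ℝ) ≤ Real.sqrt (Nat.card Ω) - 1 := by

  classical
  -- nontrivial block
  have hB : ∃ B : Set Ω, MulAction.IsBlock G B ∧ ¬ MulAction.IsTrivialBlock B := by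
    by_contra hcon
    push Not at hcon
    exact himp ⟨fun {B} hB => hcon B hB⟩
  obtain ⟨B, hB, hBt⟩ := hB
  have hB1 : ¬ B.Subsingleton := fun h => hBt (Or.inl h)
  have hB2 : B ≠ Set.univ := fun h => hBt (Or.inr h)
  have hBne : B.Nonempty := by
    rw [Set.nonempty_iff_ne_empty]; rintro rfl; exact hB1 Set.subsingleton_empty
  haveI : Nonempty Ω := ⟨hBne.some⟩
  have hcard := hB.ncard_block_mul_ncard_orbit_eq hBne
  set n := Nat.card Ω with hn
  set k := B.ncard with hk
  set m := (MulAction.orbit G B).ncard with hm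
  set d := (H21.Derange.D G Ω).index with hd
  have hk1 : 1 < k := by
    rw [hk, Set.one_lt_ncard_iff_nontrivial]
    exact Set.not_subsingleton_iff.mp hB1
  have hm0 : m ≠ 0 := by
    intro h0
    rw [h0, mul_zero] at hcard
    have : 0 < n := Finite.card_pos
    omega
  have hm1 : 1 < m := by
    rcases Nat.lt_or_ge 1 m with h | h
    · exact h
    · exfalso
      have hm' : m = 1 := by omega
      rw [hm', mul_one] at hcard
      apply hB2
      apply Set.eq_of_subset_of_ncard_le (Set.subset_univ _)
      rw [Set.ncard_univ, ← hn, ← hcard]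
  -- d ∣ n - 1
  have h1 : d ∣ n - 1 := H21.Derange.index_dvd_card_sub_one (G := G) (Ω := Ω)
  -- d ∣ m - 1
  have h2 : d ∣ m - 1 := by
    haveI : Nonempty (MulAction.orbit G B) := ⟨⟨B, MulAction.mem_orbit_self B⟩⟩
    have h3 := H21.Derange.index_dvd_card_sub_one (G := G) (Ω := MulAction.orbit G B)
    have h4 : H21.Derange.D G (MulAction.orbit G B) ≤ H21.Derange.D G Ω := by
      rw [H21.Derange.D, Subgroup.closure_le]
      intro g hg
      apply Subgroup.subset_closure
      intro ω hω
      -- the block containing ω is fixed by g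
      obtain ⟨b, hb⟩ := hBne
      obtain ⟨x, hx⟩ := htrans.exists_smul_eq b ω
      apply hg ⟨x • B, MulAction.mem_orbit B x⟩
      apply Subtype.ext
      change g • (x • B) = x • B
      have hxB : MulAction.IsBlock G (x • B) := hB.translate x
      have hmem : ω ∈ x • B := ⟨b, hb, hx⟩
      by_contra hne
      have hdisj := (MulAction.isBlock_iff_smul_eq_or_disjoint.mp hxB) g
      rcases hdisj with h | h
      · exact hne h
      · exact (Set.disjoint_left.mp h) (⟨ω, hmem, hω⟩ : ω ∈ g • (x • B)) hmem
    exact (Subgroup.index_dvd_of_le h4).trans h3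
  -- d ∣ k - 1
  have h3 : d ∣ k - 1 := by
    have e : n - 1 = k * (m - 1) + (k - 1) := by
      rw [← hcard, Nat.mul_sub]; 
      have : k * 1 ≤ k * m := Nat.mul_le_mul_left _ (by omega)
      omega
    rw [e] at h1
    exact (Nat.dvd_add_right (Dvd.dvd.mul_left h2 k)).mp h1
  have hdk : d + 1 ≤ k := by have := Nat.le_of_dvd (by omega) h3; omega
  have hdm : d + 1 ≤ m := by have := Nat.le_of_dvd (by omega) h2; omega
  have hfin : (d + 1) ^ 2 ≤ n := by
    rw [← hcard, pow_two]; exact Nat.mul_le_mul hdk hdm
  have : ((d : ℝ) + 1) ≤ Real.sqrt n := by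
    apply Real.le_sqrt_of_sq_le
    exact_mod_cast hfin
  linarith

/-- Let G act faithfully, transitively but imprimitively on a finite set with n points, and let D be the subgroup generated by the derangements. Then the index of D in G is at most √n − 1. -/
theorem result {G Ω : Type*} [Group G] [Finite G] [MulAction G Ω] [FaithfulSMul G Ω] [Finite Ω]
    (htrans : MulAction.IsPretransitive G Ω) (himp : ¬ MulAction.IsPreprimitive G Ω) :
    ((Subgroup.closure {g : G | ∀ ω : Ω, g • ω ≠ ω}).index : ℝ) ≤ Real.sqrt (Nat.card Ω) - 1 := by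
  exact aux htrans himp

end Cfsg.Agent.S3549
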