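import Cfsg.Statements.S3559
import Cfsg.Agent.H23_SRing2

set_option autoImplicit false
open Cfsg

namespace Cfsg.Agent.S3559
open Subgroup MulAction
open scoped Pointwise

/-- Let G act faithfully and transitively on a finite set whose number of points n ≥ 2 is not a prime power, and suppose G has a cyclic subgroup acting regularly (transitively with trivial point stabilizers). Then G is imprimitive or doubly transitive. -/
theorem result {G Ω : Type*} [Group G] [Finite G] [MulAction G Ω] [FaithfulSMul G Ω] [Finite Ω]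
    (htrans : MulAction.IsPretransitive G Ω) (hn : 2 ≤ Nat.card Ω) (hnp : ¬ IsPrimePow (Nat.card Ω))
    (C : Subgroup G) (hcyc : IsCyclic ↥C) (hC : MulAction.IsPretransitive ↥C Ω ∧ ∀ a : Ω, MulAction.stabilizer ↥C a = ⊥) :
    ¬ MulAction.IsPreprimitive G Ω ∨ MulAction.IsMultiplyPretransitive G Ω 2 := by

  classical
  by_contra hcon
  push Not at hcon
  obtain ⟨hprim, h2⟩ := hcon
  apply h2
  obtain ⟨hCt, hCs⟩ := hC
  haveI := hprim
  haveI := hcyc
  haveI : Nontrivial Ω := Finite.one_lt_card_iff_nontrivial.1 (by omega)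
  obtain ⟨ω⟩ : Nonempty Ω := inferInstance
  have hfree : ∀ c d : C, (c : G) • ω = (d : G) • ω → c = d := by
    intro c d hcd
    have h1 : d⁻¹ * c ∈ stabilizer C ω := by
      rw [mem_stabilizer_iff, mul_smul]
      change (d⁻¹ : C) • ((c : G) • ω) = ω
      rw [hcd]
      change (d⁻¹ : C) • (d • ω) = ω
      rw [inv_smul_smul]
    rw [hCs, mem_bot] at h1
    exact (inv_mul_eq_one.1 h1).symm
  have htrC : ∀ α : Ω, ∃ c : C, (c : G) • ω = α := by
    intro α
    obtain ⟨c, hc⟩ := exists_smul_eq C ω α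
    exact ⟨c, hc⟩
  have hcard : Nat.card C = Nat.card Ω := Nat.card_congr (Equiv.ofBijective (fun c : C => (c : G) • ω) ⟨fun a b h => hfree a b h, htrC⟩)
  have hn1 : Nat.card C ≠ 1 := by omega
  set p := (Nat.card C).minFac with hp
  haveI hpp : Fact p.Prime := ⟨Nat.minFac_prime hn1⟩
  have hpd : p ∣ Nat.card C := Nat.minFac_dvd _
  obtain ⟨r, hr, hrd, hpr⟩ : ∃ r : ℕ, r.Prime ∧ r ∣ Nat.card C ∧ p ≠ r := by
    by_contra hcon
    push Not at hcon
    apply hnp
    rw [← hcard]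
    have h3 := Nat.eq_prime_pow_of_unique_prime_dvd (n := Nat.card C) (p := p) Nat.card_pos.ne' (fun {d} hd hdd => (hcon d hd hdd).symm)
    rw [isPrimePow_nat_iff]
    refine ⟨p, (Nat.card C).primeFactorsList.length, hpp.out, ?_, h3.symm⟩
    rw [Nat.pos_iff_ne_zero]
    intro h0
    rw [h0, pow_zero] at h3
    exact hn1 h3
  haveI : Fact r.Prime := ⟨hr⟩
  have hs := H23.SRing.schur2 (G := G) (C := C) (ω := ω) htrC hfree hpd hrd hpr
  rw [is_two_pretransitive_iff]
  intro a b a' b' hab hab'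
  obtain ⟨g1, hg1⟩ := exists_smul_eq G a ω
  obtain ⟨g2, hg2⟩ := exists_smul_eq G a' ω
  obtain ⟨x, hx⟩ := htrC (g1 • b)
  obtain ⟨y, hy⟩ := htrC (g2 • b')
  have hx1 : x ≠ 1 := by
    rintro rfl
    rw [Subgroup.coe_one, one_smul, ← hg1] at hx
    exact hab (smul_left_cancel _ hx)
  have hy1 : y ≠ 1 := by
    rintro rfl
    rw [Subgroup.coe_one, one_smul, ← hg2] at hy
    exact hab' (smul_left_cancel _ hy)
  obtain ⟨s, hs1, hs2⟩ := hs x y hx1 hy1
  refine ⟨g2⁻¹ * s * g1, ?_, ?_⟩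
  · rw [mul_smul, mul_smul, hg1, mem_stabilizer_iff.1 hs1, inv_smul_eq_iff, hg2]
  · rw [mul_smul, mul_smul, ← hx, hs2, hy, inv_smul_smul]


end Cfsg.Agent.S3559
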