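import Cfsg.Statements.S3560
-- import your own Cfsg.Agent.* helpers here

set_option autoImplicit false
open Cfsg

namespace Cfsg.Agent.S3560

open MulAction
open scoped Pointwise

section
variable {ι : Type*} [Fintype ι] {m : ℕ}

/-- product action wreath group -/
def W (ι : Type*) [Fintype ι] (m : ℕ) : Subgroup (Equiv.Perm (ι → Fin m)) where
  carrier := {σ | ∃ (π : Equiv.Perm ι) (f : ι → Equiv.Perm (Fin m)), ∀ x i, σ x i = f i (x (π i))}
  mul_mem' := by
    rintro σ σ' ⟨π, f, h⟩ ⟨π', f', h'⟩
    refine ⟨π' * π, fun i => f i * f' (π i), fun x i => ?_⟩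
    rw [Equiv.Perm.mul_apply, h, h']
    rfl
  one_mem' := ⟨1, fun _ => 1, fun x i => rfl⟩
  inv_mem' := by
    rintro σ ⟨π, f, h⟩
    refine ⟨π⁻¹, fun i => (f (π⁻¹ i))⁻¹, fun x i => ?_⟩
    have h1 : σ (σ⁻¹ x) = x := by rw [← Equiv.Perm.mul_apply, mul_inv_cancel, Equiv.Perm.one_apply]
    have h2 := h (σ⁻¹ x) (π⁻¹ i)
    rw [h1] at h2
    have h3 : π (π⁻¹ i) = i := by rw [← Equiv.Perm.mul_apply, mul_inv_cancel, Equiv.Perm.one_apply]
    rw [h3] at h2
    rw [h2, ← Equiv.Perm.mul_apply, inv_mul_cancel, Equiv.Perm.one_apply]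

/-- constructing elements -/
def mk (π : Equiv.Perm ι) (f : ι → Equiv.Perm (Fin m)) : Equiv.Perm (ι → Fin m) where
  toFun x i := f i (x (π i))
  invFun y i := (f (π⁻¹ i))⁻¹ (y (π⁻¹ i))
  left_inv x := by
    funext i
    have h3 : π (π⁻¹ i) = i := by rw [← Equiv.Perm.mul_apply, mul_inv_cancel, Equiv.Perm.one_apply]
    simp only
    rw [h3, ← Equiv.Perm.mul_apply, inv_mul_cancel, Equiv.Perm.one_apply]
  right_inv y := by
    funext i
    have h3 : π⁻¹ (π i) = i := by rw [← Equiv.Perm.mul_apply, inv_mul_cancel, Equiv.Perm.one_apply]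
    simp only
    rw [h3, ← Equiv.Perm.mul_apply, mul_inv_cancel, Equiv.Perm.one_apply]

theorem mk_apply (π : Equiv.Perm ι) (f : ι → Equiv.Perm (Fin m)) (x : ι → Fin m) (i : ι) :
    mk π f x i = f i (x (π i)) := rfl

theorem mk_mem (π : Equiv.Perm ι) (f : ι → Equiv.Perm (Fin m)) : mk π f ∈ W ι m := ⟨π, f, fun _ _ => rfl⟩

theorem W_trans : IsPretransitive (W ι m) (ι → Fin m) := by
  classical
  refine ⟨fun x y => ⟨⟨mk 1 (fun i => Equiv.swap (x i) (y i)), mk_mem _ _⟩, ?_⟩⟩
  funext i
  change mk 1 (fun i => Equiv.swap (x i) (y i)) x i = y i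
  rw [mk_apply]
  simp

theorem two_trans {α : Type*} [DecidableEq α] {a b c d : α} (hab : a ≠ b) (hcd : c ≠ d) :
    ∃ τ : Equiv.Perm α, τ a = c ∧ τ b = d := by
  refine ⟨Equiv.swap (Equiv.swap a c b) d * Equiv.swap a c, ?_, ?_⟩
  · rw [Equiv.Perm.mul_apply, Equiv.swap_apply_left]
    apply Equiv.swap_apply_of_ne_of_ne
    · intro h
      have h1 : Equiv.swap a c a = Equiv.swap a c b := by rw [Equiv.swap_apply_left]; exact h
      exact hab ((Equiv.swap a c).injective h1)
    · exact hcd
  · rw [Equiv.Perm.mul_apply, Equiv.swap_apply_left]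

theorem W_prim [Nonempty ι] (hm : 3 ≤ m) : IsPreprimitive (W ι m) (ι → Fin m) := by
  classical
  haveI := W_trans (ι := ι) (m := m)
  refine { isTrivialBlock_of_isBlock := ?_ }
  intro B hB
  by_cases hs : B.Subsingleton
  · exact Or.inl hs
  right
  rw [Set.not_subsingleton_iff] at hs
  have hBs : ∀ σ ∈ W ι m, ∀ x ∈ B, σ x ∈ B → ∀ y ∈ B, σ y ∈ B := by
    intro σ hσ x hx hσx y hy
    have h1 : (⟨σ, hσ⟩ : W ι m) • B = B := (isBlock_iff_smul_eq_of_mem.mp hB) hx hσx
    rw [← h1]
    exact ⟨y, hy, rfl⟩
  -- all neighbours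
  have key : ∀ b ∈ B, ∀ (j : ι) (c : Fin m), Function.update b j c ∈ B := by
    intro b hb j c
    by_cases hc : c = b j
    · rw [hc, Function.update_eq_self]; exact hb
    obtain ⟨b', hb', hne⟩ := hs.exists_ne b
    obtain ⟨i, hi⟩ := Function.ne_iff.mp hne
    -- z
    obtain ⟨v, hv1, hv2⟩ : ∃ v : Fin m, v ≠ b i ∧ v ≠ b' i := by
      have h1 : ({b i, b' i} : Finset (Fin m)).card < Fintype.card (Fin m) := by
        rw [Fintype.card_fin]
        have := Finset.card_le_two (a := b i) (b := b' i)
        omega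
      obtain ⟨v, hv⟩ : ∃ v, v ∉ ({b i, b' i} : Finset (Fin m)) := by
        by_contra h
        push Not at h
        have : ({b i, b' i} : Finset (Fin m)) = Finset.univ := Finset.eq_univ_iff_forall.mpr h
        rw [this, Finset.card_univ] at h1
        exact lt_irrefl _ h1
      simp only [Finset.mem_insert, Finset.mem_singleton, not_or] at hv
      exact ⟨v, hv.1, hv.2⟩
    have hz : Function.update b i v ∈ B := by
      have h1 := hBs (mk 1 (fun k => if k = i then Equiv.swap (b i) v else 1)) (mk_mem _ _) b' hb' (by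
        have : mk 1 (fun k => if k = i then Equiv.swap (b i) v else 1) b' = b' := by
          funext k
          rw [mk_apply]
          by_cases hk : k = i
          · subst hk
            simp only [if_true, Equiv.Perm.one_apply]
            exact Equiv.swap_apply_of_ne_of_ne hi (Ne.symm hv2)
          · simp [hk]
        rw [this]; exact hb') b hb
      have h2 : mk 1 (fun k => if k = i then Equiv.swap (b i) v else 1) b = Function.update b i v := by
        funext k
        rw [mk_apply]
        by_cases hk : k = i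
        · subst hk; simp
        · simp [hk]
      rwa [h2] at h1
    obtain ⟨τ, hτ1, hτ2⟩ := two_trans (a := b i) (b := v) (c := b j) (d := c) (Ne.symm hv1) (Ne.symm hc)
    let f : ι → Equiv.Perm (Fin m) := fun k => if k = j then τ else if k = i then Equiv.swap (b j) (b i) else 1
    have h1 : mk (Equiv.swap i j) f b = b := by
      funext k
      rw [mk_apply]
      by_cases hk : k = j
      · subst hk
        simp only [f, if_true, Equiv.swap_apply_right]
        exact hτ1
      · by_cases hki : k = i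
        · subst hki
          simp only [f, if_neg hk, if_true, Equiv.swap_apply_left]
        · simp only [f, if_neg hk, if_neg hki, Equiv.swap_apply_of_ne_of_ne hki hk, Equiv.Perm.one_apply]
    have h2 : mk (Equiv.swap i j) f (Function.update b i v) = Function.update b j c := by
      funext k
      rw [mk_apply]
      by_cases hk : k = j
      · subst hk
        simp only [f, if_true, Equiv.swap_apply_right, Function.update_self]
        exact hτ2
      · by_cases hki : k = i
        · subst hki
          simp only [f, if_neg hk, if_true, Equiv.swap_apply_left]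
          rw [Function.update_of_ne (Ne.symm hk), Function.update_of_ne hk, Equiv.swap_apply_left]
        · simp only [f, if_neg hk, if_neg hki, Equiv.swap_apply_of_ne_of_ne hki hk, Equiv.Perm.one_apply]
          rw [Function.update_of_ne hki, Function.update_of_ne hk]
    have h3 := hBs (mk (Equiv.swap i j) f) (mk_mem _ _) b hb (by rw [h1]; exact hb) _ hz
    rwa [h2] at h3
  rw [Set.eq_univ_iff_forall]
  intro w
  obtain ⟨b, hb⟩ := hs.nonempty
  have h4 : ∀ s : Finset ι, s.piecewise w b ∈ B := by
    intro s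
    induction s using Finset.induction_on with
    | empty => rw [Finset.piecewise_empty]; exact hb
    | insert j s hj ih =>
      rw [Finset.piecewise_insert]
      exact key _ ih j _
  have := h4 Finset.univ
  rwa [Finset.piecewise_univ] at this

theorem W_not2 (hr : 2 ≤ Fintype.card ι) (hm : 3 ≤ m) : ¬ IsMultiplyPretransitive (W ι m) (ι → Fin m) 2 := by
  classical
  rw [is_two_pretransitive_iff]
  intro h
  obtain ⟨i, j, hij⟩ := Fintype.exists_pair_of_one_lt_card (by omega : 1 < Fintype.card ι)
  let a0 : Fin m := ⟨0, by omega⟩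
  let a1 : Fin m := ⟨1, by omega⟩
  have ha : a0 ≠ a1 := by simp [a0, a1]
  let x : ι → Fin m := fun _ => a0
  let y : ι → Fin m := Function.update x i a1
  let z : ι → Fin m := Function.update y j a1
  have hy : ∀ k, k ≠ i → y k = a0 := fun k hk => by simp only [y, x]; rw [Function.update_of_ne hk]
  have hyi : y i = a1 := by simp only [y]; rw [Function.update_self]
  have hzi : z i = a1 := by simp only [z]; rw [Function.update_of_ne hij, hyi]
  have hzj : z j = a1 := by simp only [z]; rw [Function.update_self]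
  have hxy : x ≠ y := by
    intro h1; have := congrFun h1 i; rw [hyi] at this; exact ha this
  have hxz : x ≠ z := by
    intro h1; have := congrFun h1 i; rw [hzi] at this; exact ha this
  obtain ⟨⟨σ, π, f, hσ⟩, h1, h2⟩ := h hxy hxz
  have h1' : σ x = x := h1
  have h2' : σ y = z := h2
  -- coordinates where z differs from x : i and j; but σ y, σ x differ in one place
  have h3 : ∀ k, π k ≠ i → z k = x k := by
    intro k hk
    rw [← h2', ← h1', hσ, hσ, hy _ hk]
  have h4 : π i = i := by
    by_contra h5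
    have := h3 i h5
    rw [hzi] at this
    exact ha this.symm
  have h5 : π j = i := by
    by_contra h5
    have := h3 j h5
    rw [hzj] at this
    exact ha this.symm
  exact hij (π.injective (h4.trans h5.symm))

end

theorem transport {Ω : Type*} [Finite Ω] (G R : Subgroup (Equiv.Perm Ω)) (hRG : R ≤ G)
    (hRt : IsPretransitive R Ω) (hRs : ∀ a : Ω, stabilizer R a = ⊥) (hG : IsPreprimitive G Ω)
    (hG2 : ¬ IsMultiplyPretransitive G Ω 2) :
    ∃ (n : ℕ) (G' R' : Subgroup (Equiv.Perm (Fin n))), R' ≤ G' ∧ Nonempty (R ≃* R') ∧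
      MulAction.IsPretransitive ↥R' (Fin n) ∧ (∀ a : Fin n, MulAction.stabilizer ↥R' a = ⊥) ∧
      MulAction.IsPreprimitive ↥G' (Fin n) ∧ ¬ MulAction.IsMultiplyPretransitive ↥G' (Fin n) 2 := by
  let e := Finite.equivFin Ω
  let φ : Equiv.Perm Ω ≃* Equiv.Perm (Fin (Nat.card Ω)) := e.permCongrHom
  have hφ : ∀ (σ : Equiv.Perm Ω) (x : Ω), (φ σ) (e x) = e (σ x) := by
    intro σ x
    change e.permCongr σ (e x) = _
    simp
  refine ⟨Nat.card Ω, G.map φ.toMonoidHom, R.map φ.toMonoidHom, Subgroup.map_mono hRG,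
    ⟨R.equivMapOfInjective _ φ.injective⟩, ?_, ?_, ?_, ?_⟩
  · refine ⟨fun x y => ?_⟩
    obtain ⟨⟨r, hr⟩, hrx⟩ := hRt.exists_smul_eq (e.symm x) (e.symm y)
    refine ⟨⟨φ r, ⟨r, hr, rfl⟩⟩, ?_⟩
    have h1 : r (e.symm x) = e.symm y := hrx
    change φ r x = y
    have := hφ r (e.symm x)
    rw [h1] at this
    simpa using this
  · intro a
    rw [eq_bot_iff]
    rintro ⟨_, ⟨r, hr, rfl⟩⟩ h
    rw [Subgroup.mem_bot]
    have h1 : φ r a = a := h
    have h2 : r (e.symm a) = e.symm a := by
      have := hφ r (e.symm a)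
      rw [Equiv.apply_symm_apply, h1] at this
      rw [← Equiv.symm_apply_eq] at this
      exact this.symm
    have h3 : (⟨r, hr⟩ : R) ∈ stabilizer R (e.symm a) := h2
    rw [hRs, Subgroup.mem_bot] at h3
    apply Subtype.ext
    have h4 : r = 1 := congrArg Subtype.val h3
    change φ r = 1
    rw [h4, map_one]
  · haveI := hG
    let ψ : G →* (G.map φ.toMonoidHom) := (G.equivMapOfInjective _ φ.injective).toMonoidHom
    let f : Ω →ₑ[ψ] (Fin (Nat.card Ω)) :=
      { toFun := e
        map_smul' := by
          rintro ⟨g, hg⟩ x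
          exact (hφ g x).symm }
    exact IsPreprimitive.of_surjective (f := f) e.surjective
  · intro h
    apply hG2
    rw [is_two_pretransitive_iff] at h ⊢
    intro a b c d hab hcd
    obtain ⟨⟨_, ⟨g, hg, rfl⟩⟩, h1, h2⟩ := h (e.injective.ne hab) (e.injective.ne hcd)
    refine ⟨⟨g, hg⟩, ?_, ?_⟩
    · have h3 : φ g (e a) = e c := h1
      rw [hφ] at h3
      exact e.injective h3
    · have h3 : φ g (e b) = e d := h2
      rw [hφ] at h3
      exact e.injective h3

theorem main {K : Type*} [Group K] [Finite K] {ι : Type*} [Fintype ι] (F : ι → Type*) [∀ i, Group (F i)]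
    (hr : 2 ≤ Fintype.card ι) (m : ℕ) (hm : 3 ≤ m) (hcard : ∀ i, Nat.card (F i) = m) (e : K ≃* (∀ i, F i)) :
    ∃ (n : ℕ) (G R : Subgroup (Equiv.Perm (Fin n))), R ≤ G ∧ Nonempty (↥R ≃* K) ∧
      MulAction.IsPretransitive ↥R (Fin n) ∧ (∀ a : Fin n, MulAction.stabilizer ↥R a = ⊥) ∧
      MulAction.IsPreprimitive ↥G (Fin n) ∧ ¬ MulAction.IsMultiplyPretransitive ↥G (Fin n) 2 := by
  classical
  haveI : Nonempty ι := by rw [← Fintype.card_pos_iff]; omega
  have hfin : ∀ i, Finite (F i) := fun i => (Nat.card_pos_iff.mp (by rw [hcard]; omega)).2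
  let b : ∀ i, F i ≃ Fin m := fun i => (Finite.equivFin (F i)).trans (finCongr (hcard i))
  let reg : (∀ i, F i) →* Equiv.Perm (ι → Fin m) :=
    { toFun := fun k => mk 1 (fun i => (b i).permCongr (Equiv.mulLeft (k i)))
      map_one' := by
        ext x i
        rw [mk_apply]
        simp
      map_mul' := by
        intro k l
        apply Equiv.ext
        intro x
        funext i
        rw [Equiv.Perm.mul_apply, mk_apply, mk_apply, Equiv.Perm.one_apply, mk_apply]
        simp [Equiv.permCongr_apply, mul_assoc] }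
  have hreg : ∀ k x i, reg k x i = b i (k i * (b i).symm (x i)) := by
    intro k x i
    change mk 1 (fun i => (b i).permCongr (Equiv.mulLeft (k i))) x i = _
    rw [mk_apply]
    simp
  have hinj : Function.Injective reg := by
    intro k l hkl
    funext i
    have h1 : reg k (fun i => b i 1) i = reg l (fun i => b i 1) i := by rw [hkl]
    rw [hreg, hreg] at h1
    simpa using h1
  obtain ⟨n, G', R', hRG, ⟨eR⟩, h1, h2, h3, h4⟩ := transport (W ι m) reg.range (by
      rintro _ ⟨k, rfl⟩
      exact mk_mem _ _) (by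
      refine ⟨fun x y => ⟨⟨reg (fun i => (b i).symm (y i) * ((b i).symm (x i))⁻¹), ⟨_, rfl⟩⟩, ?_⟩⟩
      change reg _ x = y
      funext i
      rw [hreg]
      simp) (by
      intro a
      rw [eq_bot_iff]
      rintro ⟨_, ⟨k, rfl⟩⟩ h
      rw [Subgroup.mem_bot]
      have h1 : reg k a = a := h
      have h2 : k = 1 := by
        funext i
        have h3 := congrFun h1 i
        rw [hreg] at h3
        have h4 : k i * (b i).symm (a i) = (b i).symm (a i) := by
          rw [Equiv.eq_symm_apply]
          exact h3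
        exact mul_eq_right.mp h4
      apply Subtype.ext
      change reg k = 1
      rw [h2, map_one]) (W_prim hm) (W_not2 hr hm)
  exact ⟨n, G', R', hRG, ⟨eR.symm.trans ((MonoidHom.ofInjective hinj).symm.trans e.symm)⟩, h1, h2, h3, h4⟩

/-- Let K be a finite group isomorphic to a direct product of r ≥ 2 groups all of the same order m ≥ 3. Then K is not a B-group: there is a primitive but not doubly transitive permutation group (on some finite set) containing a regular subgroup isomorphic to K. -/
theorem result {K : Type*} [Group K] [Finite K] {ι : Type*} [Fintype ι] (F : ι → Type*) [∀ i, Group (F i)]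
    (hr : 2 ≤ Fintype.card ι) (m : ℕ) (hm : 3 ≤ m) (hcard : ∀ i, Nat.card (F i) = m) (e : K ≃* (∀ i, F i)) :
    ∃ (n : ℕ) (G R : Subgroup (Equiv.Perm (Fin n))), R ≤ G ∧ Nonempty (↥R ≃* K) ∧
      MulAction.IsPretransitive ↥R (Fin n) ∧ (∀ a : Fin n, MulAction.stabilizer ↥R a = ⊥) ∧
      MulAction.IsPreprimitive ↥G (Fin n) ∧ ¬ MulAction.IsMultiplyPretransitive ↥G (Fin n) 2 := by
  exact main F hr m hm hcard e

end Cfsg.Agent.S3560
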