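import Cfsg.Statements.S3573
import Mathlib

set_option autoImplicit false
open Cfsg

namespace Cfsg.Agent.S3573

open Equiv Finset

theorem exists_fixed {n k r : ℕ} (hr : r.Prime) (hkn : k ≤ n) (hm : k % r ≤ n % r) (σ : Equiv.Perm (Fin n)) (hσ : orderOf σ = r) :
    ∃ s : Finset (Fin n), s.card = k ∧ s.image σ = s := by
  classical
  -- cycles have length `r`
  obtain ⟨c, hc⟩ := Equiv.Perm.cycleType_prime_order (by rw [hσ]; exact hr)
  rw [hσ] at hc
  have hcard : ∀ f ∈ σ.cycleFactorsFinset, f.support.card = r := by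
    intro f hf
    have h1 : f.support.card ∈ σ.cycleType := by
      rw [Perm.cycleType_def, Multiset.mem_map]
      exact ⟨f, hf, rfl⟩
    rw [hc] at h1
    exact Multiset.eq_of_mem_replicate h1
  have hnum : σ.cycleFactorsFinset.card = c + 1 := by
    have h1 := congrArg Multiset.card hc
    rw [Multiset.card_replicate, Perm.cycleType_def, Multiset.card_map] at h1
    exact h1
  have hsup : σ.support.card = (c + 1) * r := by
    rw [← Perm.sum_cycleType, hc, Multiset.sum_replicate, smul_eq_mul]
  -- choose the number of cycles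
  have hr0 := hr.pos
  obtain ⟨a, ha, b, hb, hab⟩ : ∃ a ≤ c + 1, ∃ b ≤ n - (c + 1) * r, k = a * r + b := by
    have hle : (c + 1) * r ≤ n := by
      rw [← hsup]
      have := Finset.card_le_univ σ.support
      simpa using this
    by_cases h1 : k / r ≤ c + 1
    · refine ⟨k / r, h1, k % r, ?_, ?_⟩
      · -- n % r ≤ n - (c+1) r
        have h2 : n % r = (n - (c + 1) * r) % r := by
          conv_lhs => rw [← Nat.sub_add_cancel hle]
          rw [Nat.add_mul_mod_self_right]
        rw [h2] at hm
        exact hm.trans (Nat.mod_le _ _)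
      · rw [mul_comm]; exact (Nat.div_add_mod k r).symm
    · push Not at h1
      have h2 : (c + 1) * r ≤ k := by
        calc (c + 1) * r ≤ (k / r) * r := Nat.mul_le_mul_right _ h1.le
          _ ≤ k := Nat.div_mul_le_self k r
      exact ⟨c + 1, le_refl _, k - (c + 1) * r, by omega, by omega⟩
  obtain ⟨T, hT, hTc⟩ := Finset.exists_subset_card_eq (s := σ.cycleFactorsFinset) (n := a) (by rw [hnum]; exact ha)
  have hfix : (σ.supportᶜ).card = n - (c + 1) * r := by
    rw [Finset.card_compl, Fintype.card_fin, hsup]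
  obtain ⟨B, hB, hBc⟩ := Finset.exists_subset_card_eq (s := σ.supportᶜ) (n := b) (by rw [hfix]; exact hb)
  have hdis : ∀ f ∈ T, ∀ g ∈ T, f ≠ g → _root_.Disjoint f.support g.support := by
    intro f hf g hg hne
    have := σ.cycleFactorsFinset_pairwise_disjoint (hT hf) (hT hg) hne
    exact Perm.disjoint_iff_disjoint_support.mp this
  have hsub : T.biUnion Perm.support ⊆ σ.support := by
    intro x hx
    rw [Finset.mem_biUnion] at hx
    obtain ⟨f, hf, hx⟩ := hx
    exact Perm.mem_cycleFactorsFinset_support_le (hT hf) hx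
  refine ⟨T.biUnion Perm.support ∪ B, ?_, ?_⟩
  · rw [Finset.card_union_of_disjoint, hBc, Finset.card_biUnion hdis, Finset.sum_congr rfl (fun f hf => hcard f (hT hf)),
      Finset.sum_const, hTc, smul_eq_mul]
    · exact hab.symm
    · rw [Finset.disjoint_left]
      intro x hx hxB
      have h1 := hB hxB
      rw [Finset.mem_compl] at h1
      exact h1 (hsub hx)
  · apply Finset.eq_of_subset_of_card_le
    · intro y hy
      rw [Finset.mem_image] at hy
      obtain ⟨x, hx, rfl⟩ := hy
      rw [Finset.mem_union] at hx ⊢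
      rcases hx with hx | hx
      · left
        rw [Finset.mem_biUnion] at hx ⊢
        obtain ⟨f, hf, hx⟩ := hx
        refine ⟨f, hf, ?_⟩
        have h1 := (Perm.mem_cycleFactorsFinset_iff.mp (hT hf)).2 x hx
        rw [← h1, Perm.apply_mem_support]
        exact hx
      · right
        have h1 := hB hx
        rw [Finset.mem_compl, Perm.notMem_support] at h1
        rw [h1]; exact hx
    · rw [Finset.card_image_of_injective _ σ.injective]

theorem of_fixed {n k r : ℕ} (hr : r.Prime) (hrn : r ≤ n)
    (H : ∀ σ : Equiv.Perm (Fin n), orderOf σ = r → ∃ s : Finset (Fin n), s.card = k ∧ s.image σ = s) : k % r ≤ n % r := by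
  classical
  haveI : Fact r.Prime := ⟨hr⟩
  have hc0 : 0 < n / r := Nat.div_pos hrn hr.pos
  obtain ⟨σ, hσ⟩ := (Perm.exists_with_cycleType_iff (Fin n) (m := Multiset.replicate (n / r) r)).mpr
    ⟨by rw [Multiset.sum_replicate, smul_eq_mul, Fintype.card_fin]; exact Nat.div_mul_le_self n r,
      fun a ha => by rw [Multiset.eq_of_mem_replicate ha]; exact hr.two_le⟩
  have ho : orderOf σ = r := by
    rw [← Perm.lcm_cycleType, hσ]
    apply Nat.dvd_antisymm
    · rw [Multiset.lcm_dvd]
      intro b hb
      rw [Multiset.eq_of_mem_replicate hb]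
    · apply Multiset.dvd_lcm
      exact Multiset.mem_replicate.mpr ⟨hc0.ne', rfl⟩
  obtain ⟨s, hs, hsi⟩ := H σ ho
  have hmem : ∀ x ∈ s, σ x ∈ s := by
    intro x hx
    rw [← hsi]; exact Finset.mem_image_of_mem _ hx
  let f : Function.End s := fun x => ⟨σ x, hmem x x.2⟩
  have hfp : ∀ m : ℕ, ∀ x : s, (((f ^ m) x : s) : Fin n) = (σ ^ m) x := by
    intro m
    induction m with
    | zero => intro x; rfl
    | succ m ih =>
      intro x
      rw [pow_succ, pow_succ]
      show (((f ^ m) (f x) : s) : Fin n) = (σ ^ m) (σ x)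
      rw [ih]
  have hf : f ^ r ^ 1 = 1 := by
    funext x
    apply Subtype.ext
    rw [hfp, pow_one, ← ho, pow_orderOf_eq_one]
    rfl
  have h1 := Perm.card_fixedPoints_modEq hf
  have h2 : Fintype.card (Function.fixedPoints f) ≤ n % r := by
    have h3 : Fintype.card (Function.fixedPoints f) ≤ (σ.supportᶜ).card := by
      rw [← Fintype.card_coe]
      refine Fintype.card_le_of_injective (fun x => ⟨((x : s) : Fin n), ?_⟩) ?_
      · rw [Finset.mem_compl, Perm.notMem_support]
        exact congrArg Subtype.val x.2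
      · intro x y hxy
        have h4 := congrArg Subtype.val hxy
        exact Subtype.ext (Subtype.ext h4)
    refine h3.trans ?_
    rw [Finset.card_compl, Fintype.card_fin, ← Perm.sum_cycleType, hσ, Multiset.sum_replicate, smul_eq_mul]
    have := Nat.div_add_mod n r
    rw [mul_comm] at this
    omega
  rw [Fintype.card_coe, hs] at h1
  unfold Nat.ModEq at h1
  rw [h1]
  exact (Nat.mod_le _ _).trans h2

theorem le_of_dvd {n k r : ℕ} (hr : r.Prime) (hrd : r ∣ Nat.choose n k) (hm : k % r ≤ n % r) : r ≤ k := by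
  haveI : Fact r.Prime := ⟨hr⟩
  by_contra hlt
  push Not at hlt
  have h1 := Choose.choose_modEq_choose_mod_mul_choose_div_nat (n := n) (k := k) (p := r)
  rw [Nat.div_eq_of_lt hlt, Nat.choose_zero_right, mul_one, Nat.mod_eq_of_lt hlt] at h1
  have h2 : r ∣ Nat.choose (n % r) k := (Nat.modEq_zero_iff_dvd.mp (h1.symm.trans (Nat.modEq_zero_iff_dvd.mpr hrd)))
  rw [Nat.mod_eq_of_lt hlt] at hm
  have h3 : Nat.choose (n % r) k ∣ (n % r).factorial := by
    rw [← Nat.choose_mul_factorial_mul_factorial hm, mul_assoc]
    exact dvd_mul_right _ _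
  have h4 := (hr.dvd_factorial).mp (h2.trans h3)
  have h5 := Nat.mod_lt n hr.pos
  omega

theorem le_n {n k r : ℕ} (hr : r.Prime) (hkn : k ≤ n) (hrd : r ∣ Nat.choose n k) : r ≤ n := by
  have h3 : Nat.choose n k ∣ n.factorial := by
    rw [← Nat.choose_mul_factorial_mul_factorial hkn, mul_assoc]
    exact dvd_mul_right _ _
  exact (hr.dvd_factorial).mp (hrd.trans h3)

/-- Let 1 ≤ k with 2k < n and consider the symmetric group of degree n acting on the k-subsets of an n-set. Let r be a prime dividing the number C(n,k) of k-subsets. If r is odd, then every permutation of order r fixes some k-subset if and only if r ≤ k and the remainder of k modulo r is at most the remainder of n modulo r. If r = 2, then every involution fixes some k-subset if and only if k is even or n is odd. -/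
theorem result (n k : ℕ) (hk : 1 ≤ k) (hkn : 2 * k < n) (r : ℕ) (hr : r.Prime) (hrd : r ∣ Nat.choose n k) :
    (r ≠ 2 → ((∀ σ : Equiv.Perm (Fin n), orderOf σ = r → ∃ s : Finset (Fin n), s.card = k ∧ s.image σ = s) ↔
      (r ≤ k ∧ k % r ≤ n % r))) ∧
    (r = 2 → ((∀ σ : Equiv.Perm (Fin n), orderOf σ = 2 → ∃ s : Finset (Fin n), s.card = k ∧ s.image σ = s) ↔
      (Even k ∨ Odd n))) := by
  have hkn' : k ≤ n := by omega
  have hrn := le_n hr hkn' hrd
  constructor
  · intro _
    constructor
    · intro H
      have h1 := of_fixed hr hrn H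
      exact ⟨le_of_dvd hr hrd h1, h1⟩
    · rintro ⟨-, h1⟩ σ hσ
      exact exists_fixed hr hkn' h1 σ hσ
  · rintro rfl
    constructor
    · intro H
      have h1 := of_fixed hr hrn H
      rcases Nat.even_or_odd k with h2 | h2
      · exact Or.inl h2
      · right
        rw [Nat.odd_iff] at h2 ⊢
        omega
    · intro h1 σ hσ
      apply exists_fixed hr hkn' _ σ hσ
      rcases h1 with h1 | h1
      · rw [Nat.even_iff] at h1; omega
      · rw [Nat.odd_iff] at h1; omega

end Cfsg.Agent.S3573
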