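import Cfsg.Statements.S3575
import Cfsg.Agent.H7_Part2

set_option autoImplicit false
open Cfsg

namespace Cfsg.Agent.S3575

/-- Let a, b ≥ 2 and consider the symmetric group of degree a·b acting on the partitions of an (a·b)-set into b parts of size a (encoded as maps onto a b-element set all of whose fibres have a elements; a permutation fixes such a partition when it permutes the fibres). Let r be a prime dividing the number (ab)!/((a!)^b·b!) of such partitions, and let ℓ and k be the remainders of a and b modulo r. Then every permutation of order r fixes some such partition if and only if r ≤ a and one of the following holds: ℓ = 0; or k = 0 and ℓ = 1; or ℓ and k are non-zero, k·ℓ < r, and either b < r or (k + r)·ℓ ≤ k·a + r. -/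
theorem result (a b : ℕ) (ha : 2 ≤ a) (hb : 2 ≤ b) (r : ℕ) (hr : r.Prime)
    (hrd : r ∣ (a * b).factorial / (a.factorial ^ b * b.factorial)) :
    (∀ σ : Equiv.Perm (Fin (a * b)), orderOf σ = r →
        ∃ f : Fin (a * b) → Fin b, (∀ j : Fin b, Nat.card {x : Fin (a * b) // f x = j} = a) ∧
          ∃ π : Equiv.Perm (Fin b), ∀ x : Fin (a * b), f (σ x) = π (f x)) ↔
      (r ≤ a ∧ (a % r = 0 ∨ (b % r = 0 ∧ a % r = 1) ∨
        (a % r ≠ 0 ∧ b % r ≠ 0 ∧ (b % r) * (a % r) < r ∧ (b < r ∨ (b % r + r) * (a % r) ≤ (b % r) * a + r)))) := by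
    classical
    haveI : Fact r.Prime := ⟨hr⟩
    have hrab : r ≤ a * b := by
      have h1 := Nat.uniformBell_mul_eq b (show a ≠ 0 by omega)
      have h2 : (a * b).factorial / (a.factorial ^ b * b.factorial) = b.uniformBell a := by
        rw [mul_comm a b, ← h1, mul_assoc]
        exact Nat.mul_div_cancel _ (Nat.mul_pos (pow_pos (Nat.factorial_pos _) _) (Nat.factorial_pos _))
      rw [h2] at hrd
      have h3 : r ∣ (b * a).factorial := by
        rw [← h1, mul_assoc]
        exact Dvd.dvd.mul_right hrd _
      rw [mul_comm a b]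
      exact (Nat.Prime.dvd_factorial hr).1 h3
    rw [← _root_.H7.Part.arith a b r ha hb hr.two_le hrab]
    constructor
    · intro h m hm hrm
      obtain ⟨σ, hσ1, hσ2⟩ := _root_.H7.Part.exists_perm (α := Fin (a * b)) (r := r) m (by rw [Fintype.card_fin]; exact hrm)
      have hne : σ ≠ 1 := by
        rintro rfl
        rw [Equiv.Perm.support_one, Finset.card_empty] at hσ2
        have := Nat.mul_pos hr.pos hm
        omega
      obtain ⟨f, hf, π, hπ⟩ := h σ (orderOf_eq_prime hσ1 hne)
      exact _root_.H7.Part.nec a b r m σ hσ1 hσ2 f hf (by omega) π hπ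
    · intro h σ hσ
      have hσ1 : σ ^ r = 1 := by
        have := pow_orderOf_eq_one σ
        rwa [hσ] at this
      obtain ⟨m, hm⟩ := _root_.H7.Part.dvd_support hσ1
      have hm1 : 1 ≤ m := by
        by_contra hcon
        have h0 : m = 0 := by omega
        rw [h0, mul_zero, Finset.card_eq_zero, Equiv.Perm.support_eq_empty_iff] at hm
        rw [hm, orderOf_one] at hσ
        have := hr.one_lt
        omega
      refine _root_.H7.Part.suf a b r m (Fintype.card_fin _) (h m hm1 ?_) σ hσ1 hm
      rw [← hm]
      exact (Finset.card_le_univ _).trans (by rw [Fintype.card_fin])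

end Cfsg.Agent.S3575
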