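import Cfsg.Statements.S3599
import Cfsg.Agent.H21_FrobGrp
import Cfsg.Agent.H21_Frob

set_option autoImplicit false
open Cfsg

namespace Cfsg.Agent.S3599

open Cfsg.Agent.H21 in
/-- minimal Frobenius groups -/
theorem exists_frob (r q : ℕ) (hr : r.Prime) (hq : q.Prime) (h : r ≠ q) : ∃ (X : Type) (_ : Group X) (_ : Finite X),
    Set.range (orderOf : X → ℕ) = {m | m = 1 ∨ m = r ∨ m = q} ∧ Nat.card X = r ^ orderOf (r : ZMod q) * q ∧
    ∃ V : Subgroup X, V.Normal ∧ Nat.card V = r ^ orderOf (r : ZMod q) := by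
  haveI : Fact r.Prime := ⟨hr⟩
  haveI : Fact q.Prime := ⟨hq⟩
  haveI : NeZero q := ⟨hq.ne_zero⟩
  have hr0 : (r : ZMod q) ≠ 0 := by
    rw [Ne, ZMod.natCast_eq_zero_iff]
    intro hd
    exact h ((Nat.prime_dvd_prime_iff_eq hq hr).mp hd).symm
  have ha0 : orderOf (r : ZMod q) ≠ 0 := by
    have hfin : IsOfFinOrder (r : ZMod q) := by
      rw [isOfFinOrder_iff_pow_eq_one]
      exact ⟨q - 1, by have := hq.two_le; omega, ZMod.pow_card_sub_one_eq_one hr0⟩
    exact hfin.orderOf_pos.ne'
  have hE : Nat.card (GaloisField r (orderOf (r : ZMod q))) = r ^ orderOf (r : ZMod q) := GaloisField.card r _ ha0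
  have hdvd : q ∣ Nat.card (GaloisField r (orderOf (r : ZMod q))) - 1 := by
    rw [hE, ← ZMod.natCast_eq_zero_iff, Nat.cast_sub (Nat.one_le_pow _ _ hr.pos), Nat.cast_pow, pow_orderOf_eq_one]
    simp
  haveI : Finite (GaloisField r (orderOf (r : ZMod q))) := inferInstance
  obtain ⟨c, hc⟩ := FrobGrp.exists_unit hdvd
  refine ⟨FrobGrp.Grp c, inferInstance, inferInstance, ?_, ?_, ?_⟩
  · rw [FrobGrp.spectrum c r, hc]
    ext m
    simp only [Set.mem_setOf_eq]
    rw [Nat.dvd_prime hr, Nat.dvd_prime hq]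
    tauto
  · rw [FrobGrp.card_Grp, hE, hc]
  · refine ⟨(SemidirectProduct.inl : Multiplicative (GaloisField r (orderOf (r : ZMod q))) →* FrobGrp.Grp c).range, ?_, ?_⟩
    · rw [SemidirectProduct.range_inl_eq_ker_rightHom]; infer_instance
    · rw [← hE]
      exact (Nat.card_congr (MonoidHom.ofInjective (SemidirectProduct.inl_injective)).toEquiv).symm

section general

variable {s : ℕ} (p : Fin s → Fin 2 → ℕ)

/-- the target spectrum -/
def Om : Set ℕ := {m : ℕ | ∃ c : Fin s → ℕ, (∀ j, c j = 1 ∨ c j = p j 0 ∨ c j = p j 1) ∧ m = ∏ j, c j}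

variable {p}

theorem prime_dvd_prod {c : Fin s → ℕ} {l : ℕ} (hl : l.Prime) (h : l ∣ ∏ j, c j) : ∃ j, l ∣ c j := by
  obtain ⟨j, _, hj⟩ := (Prime.dvd_finset_prod_iff hl.prime _).mp h
  exact ⟨j, hj⟩

theorem mem_Om (hp : ∀ j i, (p j i).Prime) (j : Fin s) (i : Fin 2) : p j i ∈ Om p := by
  classical
  refine ⟨Function.update (fun _ => 1) j (p j i), ?_, ?_⟩
  · intro k
    by_cases hk : k = j
    · subst hk
      rw [Function.update_self]
      fin_cases i
      · right; left; rfl
      · right; right; rfl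
    · rw [Function.update_of_ne hk]; left; rfl
  · rw [Finset.prod_update_of_mem (Finset.mem_univ _)]
    simp

theorem not_mem_Om (hp : ∀ j i, (p j i).Prime) (hinj : ∀ j i j' i', p j i = p j' i' → j = j' ∧ i = i') (j : Fin s) :
    p j 0 * p j 1 ∉ Om p := by
  rintro ⟨c, hc, h⟩
  have key : ∀ i : Fin 2, c j = p j i := by
    intro i
    have h1 : p j i ∣ ∏ j, c j := by
      rw [← h]
      fin_cases i
      · exact Dvd.intro _ rfl
      · exact Dvd.intro_left _ rfl
    obtain ⟨k, hk⟩ := prime_dvd_prod (hp j i) h1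
    have aux : ∀ i', c k = p k i' → c j = p j i := by
      intro i' h2
      rw [h2] at hk
      have h3 := (Nat.prime_dvd_prime_iff_eq (hp j i) (hp k i')).mp hk
      obtain ⟨rfl, rfl⟩ := hinj _ _ _ _ h3
      exact h2
    rcases hc k with h2 | h2 | h2
    · rw [h2] at hk
      exact absurd (Nat.dvd_one.mp hk) (hp j i).one_lt.ne'
    · exact aux 0 h2
    · exact aux 1 h2
  have := hinj _ _ _ _ ((key 0).symm.trans (key 1))
  exact absurd this.2 (by decide)

/-- the properties used of the groups -/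
structure Good (G : Type*) [Group G] (p : Fin s → Fin 2 → ℕ) (b : Fin s → Fin 2) : Prop where
  sp : Set.range (orderOf : G → ℕ) = Om p
  card : Nat.card G = ∏ j, (p j (b j) ^ orderOf (p j (b j) : ZMod (p j (1 - b j))) * p j (1 - b j))
  nor : ∀ j, ∃ V : Subgroup G, V.Normal ∧ Nat.card V = p j (b j) ^ orderOf (p j (b j) : ZMod (p j (1 - b j)))

theorem mul_swap (j : Fin s) (i : Fin 2) : p j i * p j (1 - i) = p j 0 * p j 1 := by
  fin_cases i
  · rfl
  · exact mul_comm _ _

theorem sub_ne (i : Fin 2) : (1 - i) ≠ i := by fin_cases i <;> decide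

/-- prime to the index -/
theorem Good.index (hp : ∀ j i, (p j i).Prime) (hinj : ∀ j i j' i', p j i = p j' i' → j = j' ∧ i = i')
    {G : Type*} [Group G] [Finite G] {b : Fin s → Fin 2} (h : Good G p b) (j : Fin s) (V : Subgroup G)
    (hV : Nat.card V = p j (b j) ^ orderOf (p j (b j) : ZMod (p j (1 - b j)))) : ¬ p j (b j) ∣ V.index := by
  classical
  intro hd
  have h1 : Nat.card V * V.index = Nat.card G := V.card_mul_index
  rw [h.card, hV, ← Finset.mul_prod_erase _ _ (Finset.mem_univ j), mul_assoc] at h1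
  have h2 : V.index = p j (1 - b j) * ∏ k ∈ Finset.univ.erase j, (p k (b k) ^ orderOf (p k (b k) : ZMod (p k (1 - b k))) * p k (1 - b k)) :=
    Nat.eq_of_mul_eq_mul_left (pow_pos (hp j (b j)).pos _) h1
  rw [h2] at hd
  rcases (hp j (b j)).dvd_mul.mp hd with h3 | h3
  · have := hinj _ _ _ _ ((Nat.prime_dvd_prime_iff_eq (hp _ _) (hp _ _)).mp h3)
    exact sub_ne _ this.2.symm
  · obtain ⟨k, hk, h4⟩ := (Prime.dvd_finset_prod_iff (hp j (b j)).prime _).mp h3
    rw [Finset.mem_erase] at hk
    rcases (hp j (b j)).dvd_mul.mp h4 with h5 | h5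
    · have := hinj _ _ _ _ ((Nat.prime_dvd_prime_iff_eq (hp _ _) (hp _ _)).mp ((hp j (b j)).dvd_of_dvd_pow h5))
      exact hk.1 this.1.symm
    · have := hinj _ _ _ _ ((Nat.prime_dvd_prime_iff_eq (hp _ _) (hp _ _)).mp h5)
      exact hk.1 this.1.symm

theorem Good.critical (hp : ∀ j i, (p j i).Prime) (hinj : ∀ j i j' i', p j i = p j' i' → j = j' ∧ i = i')
    {G : Type*} [Group G] [Finite G] {b : Fin s → Fin 2} (h : Good G p b) (H : Subgroup G) (N : Subgroup H) [N.Normal]
    (hs : Set.range (orderOf : (H ⧸ N) → ℕ) = Om p) : H = ⊤ ∧ N = ⊥ := by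
  classical
  -- each local factor divides the order of the section
  have hloc : ∀ j, (p j (b j) ^ orderOf (p j (b j) : ZMod (p j (1 - b j))) * p j (1 - b j)) ∣ Nat.card (H ⧸ N) := by
    intro j
    set r := p j (b j) with hrdef
    set q := p j (1 - b j) with hqdef
    have hr : r.Prime := hp _ _
    have hq : q.Prime := hp _ _
    haveI : Fact r.Prime := ⟨hr⟩
    haveI : Fact q.Prime := ⟨hq⟩
    have hrq : r ≠ q := fun e => sub_ne _ (hinj _ _ _ _ e).2.symm
    have hno : ¬ ∃ x : H ⧸ N, orderOf x = r * q := by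
      rintro ⟨x, hx⟩
      have h1 : r * q ∈ Om p := by rw [← hs]; exact ⟨x, hx⟩
      rw [hrdef, hqdef, mul_swap] at h1
      exact not_mem_Om hp hinj j h1
    obtain ⟨x, hx⟩ : r ∈ Set.range (orderOf : (H ⧸ N) → ℕ) := by rw [hs]; exact mem_Om hp _ _
    obtain ⟨y, hy⟩ : q ∈ Set.range (orderOf : (H ⧸ N) → ℕ) := by rw [hs]; exact mem_Om hp _ _
    have hrd : r ∣ Nat.card (H ⧸ N) := by rw [← hx]; exact orderOf_dvd_natCard x
    have hqd : q ∣ Nat.card (H ⧸ N) := by rw [← hy]; exact orderOf_dvd_natCard y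
    obtain ⟨V, hVn, hV⟩ := h.nor j
    have hVi := h.index hp hinj j V hV
    let R : Subgroup (H ⧸ N) := (V.subgroupOf H).map (QuotientGroup.mk' N)
    haveI hRn : R.Normal := Subgroup.Normal.map inferInstance _ (QuotientGroup.mk'_surjective N)
    have hVp : IsPGroup r V := IsPGroup.of_card hV
    have hRp : IsPGroup r R := by
      apply IsPGroup.map
      exact hVp.comap_of_injective _ Subtype.val_injective
    have hRi : ¬ r ∣ R.index := by
      intro hd
      have h1 : R.index ∣ (V.subgroupOf H).index := Subgroup.index_map_dvd _ (QuotientGroup.mk'_surjective N)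
      have h2 : (V.subgroupOf H).index ∣ V.index := Subgroup.relIndex_dvd_index_of_normal _ _
      exact hVi (hd.trans (h1.trans h2))
    obtain ⟨k, hk⟩ := IsPGroup.iff_card.mp hRp
    -- y acts on R with one fixed point
    have hmod : Nat.card R ≡ 1 [MOD q] := by
      have hYp : IsPGroup q (Subgroup.zpowers y) := IsPGroup.of_card (n := 1) (by rw [Nat.card_zpowers, hy, pow_one])
      let act : MulAction (Subgroup.zpowers y) R :=
        { smul := fun g v => ⟨(g : H ⧸ N) * v * (g : H ⧸ N)⁻¹, hRn.conj_mem _ v.2 _⟩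
          one_smul := fun v => Subtype.ext (by change (1 : H ⧸ N) * v * (1 : H ⧸ N)⁻¹ = v; simp)
          mul_smul := fun g g' v => Subtype.ext (by
            change ((g * g' : Subgroup.zpowers y) : H ⧸ N) * v * ((g * g' : Subgroup.zpowers y) : H ⧸ N)⁻¹ = g * (g' * v * (g' : H ⧸ N)⁻¹) * (g : H ⧸ N)⁻¹
            rw [Subgroup.coe_mul]; group) }
      have h1 := hYp.card_modEq_card_fixedPoints R
      have h2 : Nat.card (MulAction.fixedPoints (Subgroup.zpowers y) R) = 1 := by
        rw [Nat.card_eq_one_iff_unique]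
        refine ⟨⟨?_⟩, ⟨⟨1, ?_⟩⟩⟩
        · have key : ∀ v : R, v ∈ MulAction.fixedPoints (Subgroup.zpowers y) R → v = 1 := by
            intro v hv
            by_contra hv1
            have h3 : (y : H ⧸ N) * v * (y : H ⧸ N)⁻¹ = v := congrArg Subtype.val (hv ⟨y, Subgroup.mem_zpowers y⟩)
            have h4 : (v : H ⧸ N) * y = y * v := by
              have := congrArg (fun t => t * y) h3
              simpa [mul_assoc] using this.symm
            apply hno
            apply Cfsg.Agent.H21.Frob.exists_orderOf_mul h4 hr hq hrq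
            · obtain ⟨n, hn⟩ := IsPGroup.iff_orderOf.mp hRp v
              rw [Subgroup.orderOf_coe, hn]
              apply dvd_pow_self
              rintro rfl
              rw [pow_zero, orderOf_eq_one_iff] at hn
              exact hv1 hn
            · rw [hy]
          rintro ⟨v, hv⟩ ⟨w, hw⟩
          exact Subtype.ext ((key v hv).trans (key w hw).symm)
        · intro g
          apply Subtype.ext
          change (g : H ⧸ N) * ((1 : R) : H ⧸ N) * (g : H ⧸ N)⁻¹ = ((1 : R) : H ⧸ N)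
          simp
      rw [h2] at h1
      exact h1
    have hk0 : k ≠ 0 := by
      rintro rfl
      rw [pow_zero] at hk
      have h3 := R.card_mul_index
      rw [hk, one_mul] at h3
      rw [h3] at hRi
      exact hRi hrd
    have hdk : orderOf (r : ZMod q) ∣ k := by
      apply orderOf_dvd_of_pow_eq_one
      rw [hk] at hmod
      have := (ZMod.natCast_eq_natCast_iff _ _ _).mpr hmod
      push_cast at this
      exact this
    have h5 : r ^ orderOf (r : ZMod q) ∣ Nat.card (H ⧸ N) := by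
      refine (pow_dvd_pow r (Nat.le_of_dvd (Nat.pos_of_ne_zero hk0) hdk)).trans ?_
      rw [← hk]; exact R.card_subgroup_dvd_card
    exact Nat.Coprime.mul_dvd_of_dvd_of_dvd (Nat.Coprime.pow_left _ ((Nat.coprime_primes hr hq).mpr hrq)) h5 hqd
  have hdvd : Nat.card G ∣ Nat.card (H ⧸ N) := by
    rw [h.card]
    apply Finset.prod_dvd_of_isRelPrime _ (fun j _ => hloc j)
    intro j _ k _ hjk
    have hc : ∀ i i', Nat.Coprime (p j i) (p k i') := fun i i' => (Nat.coprime_primes (hp _ _) (hp _ _)).mpr (fun e => hjk (hinj _ _ _ _ e).1)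
    change IsRelPrime _ _
    rw [← Nat.coprime_iff_isRelPrime]
    apply Nat.Coprime.mul_left
    · apply Nat.Coprime.mul_right
      · exact Nat.Coprime.pow _ _ (hc _ _)
      · exact Nat.Coprime.pow_left _ (hc _ _)
    · apply Nat.Coprime.mul_right
      · exact Nat.Coprime.pow_right _ (hc _ _)
      · exact hc _ _
  have hle : Nat.card (H ⧸ N) * Nat.card N = Nat.card H := (Subgroup.card_eq_card_quotient_mul_card_subgroup N).symm
  have hG : 0 < Nat.card G := Nat.card_pos
  have hNp : 0 < Nat.card N := Nat.card_pos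
  have h1 : Nat.card G ≤ Nat.card (H ⧸ N) := Nat.le_of_dvd Nat.card_pos hdvd
  have h2 : Nat.card H ≤ Nat.card G := Nat.card_le_card_of_injective _ Subtype.val_injective
  have h3 : Nat.card (H ⧸ N) ≤ Nat.card H := by rw [← hle]; exact Nat.le_mul_of_pos_right _ hNp
  have hH : H = ⊤ := Subgroup.eq_top_of_card_eq _ (le_antisymm h2 (h1.trans h3))
  refine ⟨hH, ?_⟩
  rw [← Subgroup.card_eq_one]
  have h4 : Nat.card (H ⧸ N) = Nat.card H := le_antisymm h3 (h2.trans h1)
  rw [h4] at hle
  have h5 : 0 < Nat.card H := Nat.card_pos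
  exact Nat.eq_of_mul_eq_mul_left h5 (by rw [hle, mul_one])

theorem Good.distinct (hp : ∀ j i, (p j i).Prime) (hinj : ∀ j i j' i', p j i = p j' i' → j = j' ∧ i = i')
    {G G' : Type*} [Group G] [Finite G] [Group G'] [Finite G'] {b b' : Fin s → Fin 2} (h : Good G p b) (h' : Good G' p b')
    (e : G ≃* G') : b = b' := by
  classical
  funext j
  by_contra hne
  -- r = p j (b j), in G' it is the complement prime
  set r := p j (b j) with hrdef
  set q := p j (b' j) with hqdef
  have hr : r.Prime := hp _ _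
  have hq : q.Prime := hp _ _
  haveI : Fact r.Prime := ⟨hr⟩
  haveI : Fact q.Prime := ⟨hq⟩
  have hrq : r ≠ q := fun e => hne (hinj _ _ _ _ e).2
  obtain ⟨V, hVn, hV⟩ := h.nor j
  obtain ⟨W, hWn, hW⟩ := h'.nor j
  let V' : Subgroup G' := V.map e.toMonoidHom
  haveI hV'n : V'.Normal := Subgroup.Normal.map hVn _ e.surjective
  have hV'c : Nat.card V' = Nat.card V := (Nat.card_congr (V.equivMapOfInjective _ e.injective).toEquiv).symm
  have hcop : Nat.Coprime (Nat.card V') (Nat.card W) := by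
    rw [hV'c, hV, hW]
    exact Nat.Coprime.pow _ _ ((Nat.coprime_primes hr hq).mpr hrq)
  have hdis : Disjoint V' W := by
    rw [disjoint_iff]
    exact Subgroup.inf_eq_bot_of_coprime hcop
  have hpos : ∀ (l m : ℕ), l.Prime → m.Prime → l ≠ m → orderOf (l : ZMod m) ≠ 0 := by
    intro l m hl hm hlm
    haveI : Fact m.Prime := ⟨hm⟩
    haveI : NeZero m := ⟨hm.ne_zero⟩
    have h0 : (l : ZMod m) ≠ 0 := by
      rw [Ne, ZMod.natCast_eq_zero_iff]
      intro hd
      exact hlm ((Nat.prime_dvd_prime_iff_eq hm hl).mp hd).symm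
    have hfin : IsOfFinOrder (l : ZMod m) := by
      rw [isOfFinOrder_iff_pow_eq_one]
      exact ⟨m - 1, by have := hm.two_le; omega, ZMod.pow_card_sub_one_eq_one h0⟩
    exact hfin.orderOf_pos.ne'
  have hrV : r ∣ Nat.card V' := by
    rw [hV'c, hV]
    exact dvd_pow_self _ (hpos _ _ (hp _ _) (hp _ _) (fun e => sub_ne _ (hinj _ _ _ _ e).2.symm))
  have hqW : q ∣ Nat.card W := by
    rw [hW]
    exact dvd_pow_self _ (hpos _ _ (hp _ _) (hp _ _) (fun e => sub_ne _ (hinj _ _ _ _ e).2.symm))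
  obtain ⟨x, hx⟩ := exists_prime_orderOf_dvd_card' r hrV
  obtain ⟨y, hy⟩ := exists_prime_orderOf_dvd_card' q hqW
  have hcomm : (x : G') * y = y * x := Subgroup.commute_of_normal_of_disjoint _ _ hV'n hWn hdis _ _ x.2 y.2
  obtain ⟨z, hz⟩ := Cfsg.Agent.H21.Frob.exists_orderOf_mul hcomm hr hq hrq (by rw [Subgroup.orderOf_coe, hx]) (by rw [Subgroup.orderOf_coe, hy])
  have h1 : r * q ∈ Om p := by rw [← h'.sp]; exact ⟨z, hz⟩
  have h2 : r * q = p j 0 * p j 1 := by
    have h3 : b' j = 1 - b j := by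
      revert hne
      generalize b j = a
      generalize b' j = a'
      revert a a'
      decide
    rw [hrdef, hqdef, h3, mul_swap]
  rw [h2] at h1
  exact not_mem_Om hp hinj j h1

/-- the order of a product element -/
theorem pi_spectrum (hp : ∀ j i, (p j i).Prime) (hinj : ∀ j i j' i', p j i = p j' i' → j = j' ∧ i = i') (X : Fin s → Type)
    [∀ j, Group (X j)] [∀ j, Finite (X j)] (b : Fin s → Fin 2)
    (hX : ∀ j, Set.range (orderOf : X j → ℕ) = {m | m = 1 ∨ m = p j (b j) ∨ m = p j (1 - b j)}) :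
    Set.range (orderOf : (∀ j, X j) → ℕ) = Om p := by
  classical
  have hsw : ∀ (j : Fin s) (m : ℕ), (m = 1 ∨ m = p j (b j) ∨ m = p j (1 - b j)) ↔ (m = 1 ∨ m = p j 0 ∨ m = p j 1) := by
    intro j m
    generalize b j = a
    fin_cases a
    · simp
    · simp; tauto
  have hord : ∀ x : (∀ j, X j), orderOf x = ∏ j, orderOf (x j) := by
    intro x
    have h1 : ∀ j, orderOf (x j) = 1 ∨ orderOf (x j) = p j 0 ∨ orderOf (x j) = p j 1 := by
      intro j
      rw [← hsw]
      have : orderOf (x j) ∈ Set.range (orderOf : X j → ℕ) := ⟨x j, rfl⟩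
      rw [hX j] at this
      exact this
    apply Nat.dvd_antisymm
    · apply orderOf_dvd_of_pow_eq_one
      funext j
      rw [Pi.pow_apply, Pi.one_apply, ← orderOf_dvd_iff_pow_eq_one]
      exact Finset.dvd_prod_of_mem _ (Finset.mem_univ j)
    · apply Finset.prod_dvd_of_isRelPrime
      · intro j _ k _ hjk
        have hc : ∀ i i', Nat.Coprime (p j i) (p k i') := fun i i' => (Nat.coprime_primes (hp _ _) (hp _ _)).mpr (fun e => hjk (hinj _ _ _ _ e).1)
        change IsRelPrime _ _
        rw [← Nat.coprime_iff_isRelPrime]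
        change Nat.Coprime (orderOf (x j)) (orderOf (x k))
        rcases h1 j with h2 | h2 | h2 <;> rcases h1 k with h3 | h3 | h3 <;> rw [h2, h3] <;> first | exact hc _ _ | simp
      · intro j _
        have h4 : x j = Pi.evalMonoidHom X j x := rfl
        rw [h4]
        exact orderOf_map_dvd _ x
  ext m
  constructor
  · rintro ⟨x, rfl⟩
    refine ⟨fun j => orderOf (x j), ?_, hord x⟩
    intro j
    rw [← hsw]
    have : orderOf (x j) ∈ Set.range (orderOf : X j → ℕ) := ⟨x j, rfl⟩
    rw [hX j] at this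
    exact this
  · rintro ⟨c, hc, rfl⟩
    have h1 : ∀ j, ∃ y : X j, orderOf y = c j := by
      intro j
      have : c j ∈ Set.range (orderOf : X j → ℕ) := by
        rw [hX j]
        exact (hsw j _).mpr (hc j)
      exact this
    choose y hy using h1
    refine ⟨y, ?_⟩
    rw [hord]
    exact Finset.prod_congr rfl (fun j _ => hy j)

theorem exists_good (hp : ∀ j i, (p j i).Prime) (hinj : ∀ j i j' i', p j i = p j' i' → j = j' ∧ i = i') (b : Fin s → Fin 2) :
    ∃ (G : Type) (_ : Group G) (_ : Finite G), Good G p b := by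
  classical
  have h := fun j => exists_frob (p j (b j)) (p j (1 - b j)) (hp _ _) (hp _ _) (fun e => sub_ne _ (hinj _ _ _ _ e).2.symm)
  choose X hXg hXf hXs hXc V hVn hVc using h
  refine ⟨∀ j, X j, inferInstance, inferInstance, pi_spectrum hp hinj X b hXs, ?_, ?_⟩
  · rw [Nat.card_pi]
    exact Finset.prod_congr rfl (fun j _ => hXc j)
  · intro j
    refine ⟨(V j).map (MonoidHom.mulSingle X j), ⟨?_⟩, ?_⟩
    · rintro _ ⟨v, hv, rfl⟩ g
      refine ⟨g j * v * (g j)⁻¹, (hVn j).conj_mem _ hv _, ?_⟩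
      funext i
      simp only [MonoidHom.mulSingle_apply, Pi.mul_apply, Pi.inv_apply]
      by_cases hi : i = j
      · subst hi; simp
      · rw [Pi.mulSingle_eq_of_ne hi, Pi.mulSingle_eq_of_ne hi]; simp
    · rw [← hVc j]
      exact (Nat.card_congr ((V j).equivMapOfInjective _ (Pi.mulSingle_injective j)).toEquiv).symm

end general

/-- A finite group is critical with respect to a set Ω of natural numbers when its set of element orders is Ω while no proper section H/N (H a subgroup, N normal in H, (H, N) ≠ (whole group, 1)) has Ω as its set of element orders. Let s ≥ 1 and let p(j,0), p(j,1) (j < s) be 2s pairwise distinct primes, and let Ω be the set of all products c(0)·…·c(s−1) with each c(j) ∈ {1, p(j,0), p(j,1)}. Then there are 2^s pairwise non-isomorphic finite groups critical with respect to Ω. -/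
theorem result (s : ℕ) (hs : 1 ≤ s) (p : Fin s → Fin 2 → ℕ)
    (hp : ∀ j i, (p j i).Prime) (hinj : ∀ j i j' i', p j i = p j' i' → j = j' ∧ i = i') :
    ∃ (G : Fin (2 ^ s) → Type) (_ : ∀ a, Group (G a)) (_ : ∀ a, Fintype (G a)),
      (∀ a b, a ≠ b → ¬ Nonempty (G a ≃* G b)) ∧
      ∀ a, Set.range (orderOf : (G a) → ℕ) = {m : ℕ | ∃ c : Fin s → ℕ, (∀ j, c j = 1 ∨ c j = p j 0 ∨ c j = p j 1) ∧ m = ∏ j, c j} ∧
      ∀ (H : Subgroup (G a)) (N : Subgroup ↥H) [N.Normal], (H ≠ ⊤ ∨ N ≠ ⊥) → Set.range (orderOf : (↥H ⧸ N) → ℕ) ≠ {m : ℕ | ∃ c : Fin s → ℕ, (∀ j, c j = 1 ∨ c j = p j 0 ∨ c j = p j 1) ∧ m = ∏ j, c j} := by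
  classical
  have h := exists_good hp hinj
  choose G hG hGf hgood using h
  let e : Fin (2 ^ s) ≃ (Fin s → Fin 2) := finFunctionFinEquiv.symm
  refine ⟨fun a => G (e a), fun a => hG (e a), fun a => @Fintype.ofFinite _ (hGf (e a)), ?_, ?_⟩
  · rintro a b hab ⟨f⟩
    exact hab (e.injective (@Good.distinct s p hp hinj _ _ (hG (e a)) (hGf (e a)) (hG (e b)) (hGf (e b)) _ _ (hgood (e a)) (hgood (e b)) f))
  · intro a
    refine ⟨(hgood (e a)).sp, ?_⟩
    intro H N hN hne hs'
    have := @Good.critical s p hp hinj _ (hG (e a)) (hGf (e a)) _ (hgood (e a)) H N hN hs'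
    rcases hne with h1 | h1
    · exact h1 this.1
    · exact h1 this.2

end Cfsg.Agent.S3599
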