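import Cfsg.Statements.S3619
import Cfsg.Agent.H21_Prim

set_option autoImplicit false
open Cfsg

namespace Cfsg.Agent.S3619

open MulAction H21.Prim
open scoped Pointwise

theorem main {G Ω : Type*} [Group G] [Finite G] [MulAction G Ω] [FaithfulSMul G Ω] [Finite Ω]
    (hqp : ∀ N : Subgroup G, N.Normal → N ≠ ⊥ → MulAction.IsPretransitive ↥N Ω)
    (Γ : Set Ω) (hΓ1 : 1 < Γ.ncard) (hΓ2 : Γ.ncard < Nat.card Ω)
    (hJ : MulAction.IsPretransitive ↥(fixingSubgroup G Γᶜ) ↥(SubMulAction.ofFixingSubgroup G Γᶜ))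
    (hJp : MulAction.IsPreprimitive ↥(fixingSubgroup G Γᶜ) ↥(SubMulAction.ofFixingSubgroup G Γᶜ)) :
    IsPreprimitive G Ω := by
  classical
  set H := fixingSubgroup G Γᶜ with hHdef
  obtain ⟨γ1, γ2, hγ1, hγ2, hγ⟩ := (Set.one_lt_ncard_iff (Set.toFinite Γ)).mp hΓ1
  have hJt : ∀ x ∈ Γ, ∀ y ∈ Γ, ∃ h ∈ H, h • x = y := by
    intro x hx y hy
    obtain ⟨⟨h, hh⟩, he⟩ := hJ.exists_smul_eq (⟨x, by
      rw [SubMulAction.mem_ofFixingSubgroup_iff]; simpa using hx⟩ : SubMulAction.ofFixingSubgroup G Γᶜ)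
      (⟨y, by rw [SubMulAction.mem_ofFixingSubgroup_iff]; simpa using hy⟩ : SubMulAction.ofFixingSubgroup G Γᶜ)
    exact ⟨h, hh, congrArg Subtype.val he⟩
  have hHfix : ∀ h ∈ H, ∀ x, x ∉ Γ → h • x = x := by
    intro h hh x hx
    rw [hHdef, mem_fixingSubgroup_iff] at hh
    exact hh x hx
  have hHΓ : ∀ h ∈ H, ∀ x, x ∈ Γ → h • x ∈ Γ := by
    intro h hh x hx
    by_contra hcon
    have h1 := hHfix h⁻¹ (H.inv_mem hh) _ hcon
    rw [inv_smul_smul] at h1
    rw [← h1] at hcon
    exact hcon hx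
  obtain ⟨h0, hh0, hh0e⟩ := hJt γ1 hγ1 γ2 hγ2
  have hh01 : h0 ≠ 1 := by
    rintro rfl
    rw [one_smul] at hh0e
    exact hγ hh0e
  have htop : (⊤ : Subgroup G) ≠ ⊥ := by
    intro h
    have : h0 ∈ (⊥ : Subgroup G) := by rw [← h]; trivial
    exact hh01 (by simpa using this)
  have htr : IsPretransitive G Ω := by
    have := hqp ⊤ inferInstance htop
    refine ⟨fun x y => ?_⟩
    obtain ⟨g, hg⟩ := this.exists_smul_eq x y
    exact ⟨g, hg⟩
  refine { isTrivialBlock_of_isBlock := ?_ }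
  intro B0 hB0
  by_contra hnt
  -- move B to meet Γ
  have hB0ne : B0.Nonempty := by
    by_contra h
    rw [Set.not_nonempty_iff_eq_empty] at h
    apply hnt
    left
    rw [h]; exact Set.subsingleton_empty
  obtain ⟨b0, hb0⟩ := hB0ne
  obtain ⟨g0, hg0⟩ := htr.exists_smul_eq b0 γ1
  have hB : IsBlock G (g0 • B0) := hB0.translate g0
  have hBnt : ¬ IsTrivialBlock (g0 • B0) := by
    rw [IsTrivialBlock.smul_iff]; exact hnt
  set B := g0 • B0 with hBdef
  have hγB : γ1 ∈ B := ⟨b0, hb0, hg0⟩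
  have hBs : ∀ g : G, ∀ x ∈ B, g • x ∈ B → g • B = B := by
    intro g x hx hgx
    exact (isBlock_iff_smul_eq_of_mem.mp hB) hx hgx
  -- core trivial
  have hcore : (stabilizer G B).normalCore = ⊥ := by
    by_contra hne
    have h1 := hqp _ (Subgroup.normalCore_normal _) hne
    apply hBnt
    right
    rw [Set.eq_univ_iff_forall]
    intro x
    obtain ⟨⟨g, hg⟩, hgx⟩ := h1.exists_smul_eq γ1 x
    have h2 : g ∈ stabilizer G B := Subgroup.normalCore_le _ hg
    rw [mem_stabilizer_iff] at h2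
    rw [← h2]
    exact ⟨γ1, hγB, hgx⟩
  -- trace on Γ
  have hb := IsBlock.subtype_val_preimage (C := SubMulAction.ofFixingSubgroup G Γᶜ) (hB.subgroup (H := H))
  rcases hJp.isTrivialBlock_of_isBlock hb with hsub | huniv
  · -- subsingleton case
    have hex : ∃ δ ∈ B, δ ∉ Γ := by
      by_contra hcon
      push Not at hcon
      apply hBnt
      left
      intro x hx y hy
      have hx' := hcon x hx
      have hy' := hcon y hy
      have := hsub (x := ⟨x, by rw [SubMulAction.mem_ofFixingSubgroup_iff]; simpa using hx'⟩) hx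
        (y := ⟨y, by rw [SubMulAction.mem_ofFixingSubgroup_iff]; simpa using hy'⟩) hy
      exact congrArg Subtype.val this
    obtain ⟨δ, hδB, hδ⟩ := hex
    have h1 : h0 • B = B := hBs h0 δ hδB (by rw [hHfix h0 hh0 δ hδ]; exact hδB)
    have h2 : γ2 ∈ B := by
      rw [← h1]; exact ⟨γ1, hγB, hh0e⟩
    have := hsub (x := ⟨γ1, by rw [SubMulAction.mem_ofFixingSubgroup_iff]; simpa using hγ1⟩) hγB
        (y := ⟨γ2, by rw [SubMulAction.mem_ofFixingSubgroup_iff]; simpa using hγ2⟩) h2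
    exact hγ (congrArg Subtype.val this)
  · -- Γ ⊆ B
    have hΓB : Γ ⊆ B := by
      intro x hx
      have : (⟨x, by rw [SubMulAction.mem_ofFixingSubgroup_iff]; simpa using hx⟩ :
          SubMulAction.ofFixingSubgroup G Γᶜ) ∈ (Subtype.val ⁻¹' B : Set (SubMulAction.ofFixingSubgroup G Γᶜ)) := by
        rw [huniv]; trivial
      exact this
    apply hh01
    have : h0 ∈ (stabilizer G B).normalCore := by
      intro b
      change b * h0 * b⁻¹ ∈ stabilizer G B
      rw [mem_stabilizer_iff, mul_smul, mul_smul]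
      have key : h0 • (b⁻¹ • B) = b⁻¹ • B := by
        by_cases hc : b⁻¹ • B = B
        · rw [hc]
          exact hBs h0 γ1 hγB (hΓB (hHΓ h0 hh0 γ1 hγ1))
        · have hd : Disjoint (b⁻¹ • B) B := by
            have := hB (g₁ := b⁻¹) (g₂ := 1) (by rwa [one_smul])
            rwa [one_smul] at this
          ext x
          constructor
          · rintro ⟨y, hy, rfl⟩
            have hyΓ : y ∉ Γ := fun hyΓ => Set.disjoint_left.mp hd hy (hΓB hyΓ)
            simp only
            rw [hHfix h0 hh0 y hyΓ]; exact hy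
          · intro hx
            have hyΓ : x ∉ Γ := fun hyΓ => Set.disjoint_left.mp hd hx (hΓB hyΓ)
            exact ⟨x, hx, hHfix h0 hh0 x hyΓ⟩
      rw [key, smul_inv_smul]
    rw [hcore, Subgroup.mem_bot] at this
    exact this

theorem main2 {G Ω : Type*} [Group G] [Finite G] [MulAction G Ω] [FaithfulSMul G Ω] [Finite Ω]
    (hqp : ∀ N : Subgroup G, N.Normal → N ≠ ⊥ → MulAction.IsPretransitive ↥N Ω)
    (Γ : Set Ω) (hΓ1 : 1 < Γ.ncard) (hΓ2 : Γ.ncard < Nat.card Ω)
    (hJ : MulAction.IsPretransitive ↥(fixingSubgroup G Γᶜ) ↥(SubMulAction.ofFixingSubgroup G Γᶜ))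
    (hJp : MulAction.IsPreprimitive ↥(fixingSubgroup G Γᶜ) ↥(SubMulAction.ofFixingSubgroup G Γᶜ)) :
    MulAction.IsMultiplyPretransitive G Ω (Nat.card Ω - Γ.ncard + 1) := by
  have hprim := main hqp Γ hΓ1 hΓ2 hJ hJp
  have h1 : Γᶜ.ncard + Γ.ncard = Nat.card Ω := by
    rw [add_comm]; exact Set.ncard_add_ncard_compl Γ
  obtain ⟨n, hn⟩ : ∃ n, Γᶜ.ncard = n + 1 := ⟨Γᶜ.ncard - 1, by omega⟩
  have h2 := hprim.isMultiplyPreprimitive (s := Γᶜ) (n := n) hn (by omega) hJp
  have h3 : Nat.card Ω - Γ.ncard + 1 = n + 2 := by omega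
  rw [h3]
  exact h2.isMultiplyPretransitive

/-- Let G act faithfully on a finite set in such a way that every non-trivial normal subgroup of G is transitive (G is quasiprimitive). Let Γ be a subset with more than one point and not the whole set, such that the pointwise stabilizer of the complement of Γ acts transitively on Γ (a Jordan set). If that pointwise stabilizer acts primitively on Γ, then G is k-fold transitive where k is one more than the number of points outside Γ (the Jordan set is a trivial one). -/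
theorem result {G Ω : Type*} [Group G] [Finite G] [MulAction G Ω] [FaithfulSMul G Ω] [Finite Ω]
    (hqp : ∀ N : Subgroup G, N.Normal → N ≠ ⊥ → MulAction.IsPretransitive ↥N Ω)
    (Γ : Set Ω) (hΓ1 : 1 < Γ.ncard) (hΓ2 : Γ.ncard < Nat.card Ω)
    (hJ : MulAction.IsPretransitive ↥(fixingSubgroup G Γᶜ) ↥(SubMulAction.ofFixingSubgroup G Γᶜ))
    (hJp : MulAction.IsPreprimitive ↥(fixingSubgroup G Γᶜ) ↥(SubMulAction.ofFixingSubgroup G Γᶜ)) :
    MulAction.IsMultiplyPretransitive G Ω (Nat.card Ω - Γ.ncard + 1) := by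
  exact main2 hqp Γ hΓ1 hΓ2 hJ hJp

end Cfsg.Agent.S3619
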