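import Cfsg.Statements.S3639
import Cfsg.Agent.HL_SzTorus
import Cfsg.Agent.HL_SzModelB
import Cfsg.Agent.H21_PG

set_option autoImplicit false
open Cfsg

namespace Cfsg.Agent.S3639

open scoped MatrixGroups Matrix

open Cfsg.Agent.HL.Sz Cfsg.Agent.HL.SzAbs Cfsg.Agent.HL.CentField in
theorem fpf {F : Type*} [Field F] [Fintype F] {m : ℕ} (hm : 1 ≤ m) (hF : Fintype.card F = 2 ^ (2 * m + 1))
    (g : Cfsg.Sz F m) {r : ℕ} (hr : r.Prime) (hr2 : r ≠ 2) (hg : orderOf g = r) (v : Fin 4 → F) (hv0 : v ≠ 0)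
    (hv : rep F m g v = v) : False := by
  classical
  obtain ⟨θ, h, hθ⟩ := exists_theta hF
  haveI : Fact r.Prime := ⟨hr⟩
  have hq2 := two_dvd_q m
  have hq8 := q_ge hm
  have hcF : Nat.card F = 2 ^ (2 * m + 1) := by rw [Nat.card_eq_fintype_card, hF]
  have hne : g ≠ 1 := by
    rintro rfl
    rw [orderOf_one] at hg
    exact hr.one_lt.ne hg
  have hpow : g ^ r = 1 := by rw [← hg]; exact pow_orderOf_eq_one g
  have hdvd : r ∣ (2 ^ (2 * m + 1)) ^ 2 * ((2 ^ (2 * m + 1)) ^ 2 + 1) * (2 ^ (2 * m + 1) - 1) := by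
    rw [← card_Sz hm hF, ← hg]; exact orderOf_dvd_natCard g
  rcases hr.dvd_mul.mp hdvd with h1 | h1
  · rcases hr.dvd_mul.mp h1 with h2 | h2
    · exfalso
      have h3 := hr.dvd_of_dvd_pow (hr.dvd_of_dvd_pow h2)
      exact hr2 ((Nat.prime_dvd_prime_iff_eq hr Nat.prime_two).mp h3)
    · -- r ∣ q^2+1
      have e1 : r.Coprime (Nat.card F) := by
        rw [hcF]; exact Nat.Coprime.coprime_dvd_left h2 (c1 _)
      have e2 : ((r : ℕ) : F) ≠ 0 := cast_ne_zero h (Nat.coprime_two_right.mp (Nat.Coprime.coprime_dvd_left h2 (c2 hq2)))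
      have e3 : rep F m g ^ r = 1 := by rw [← map_pow, hpow, map_one]
      have e4 : rep F m g ≠ 1 := fun h => hne (rep_inj F m (by rw [h, map_one]))
      have e5 : ∀ e, 0 < e → e < Module.finrank F (Fin 4 → F) → ¬ r ∣ Nat.card F ^ e - 1 := by
        intro e he he4
        rw [four] at he4
        rw [hcF]
        exact not_dvd_pow hq2 (by omega) hr h2 e he he4
      have key := ker_eq_bot e1 e2 (rep F m g) e3 e4 e5 (rep F m g - 1) (by rw [sub_mul, mul_sub, one_mul, mul_one])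
        (sub_ne_zero.mpr e4)
      have hmem : v ∈ LinearMap.ker (rep F m g - 1) := by
        rw [LinearMap.mem_ker, LinearMap.sub_apply, hv]; simp
      rw [key] at hmem
      exact hv0 hmem
  · -- r ∣ q - 1
    letI := act (m := m) hθ
    have hcard : Nat.card (Option (F × F)) = (2 ^ (2 * m + 1)) ^ 2 + 1 := by
      rw [Finite.card_option, Nat.card_prod, hcF, sq]
    have hmod := card_fixedBy_modEq (Ω := Option (F × F)) g r hpow
    have h3r : 3 ≤ r := by
      have := hr.two_le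
      omega
    have hmod2 : (2 ^ (2 * m + 1)) ^ 2 + 1 ≡ 2 [MOD r] := by
      have h4 : 2 ^ (2 * m + 1) ≡ 1 [MOD r] := ((Nat.modEq_iff_dvd' (by omega)).mpr h1).symm
      have h5 := (h4.pow 2).add_right 1
      rwa [one_pow] at h5
    rw [hcard] at hmod
    have h6 : Nat.card (MulAction.fixedBy (Option (F × F)) g) ≡ 2 [MOD r] := hmod.symm.trans hmod2
    have h7 : 2 ≤ Nat.card (MulAction.fixedBy (Option (F × F)) g) := by
      by_contra hlt
      push Not at hlt
      have h8 := Nat.ModEq.eq_of_lt_of_lt h6 (by omega) (by omega)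
      omega
    rw [Nat.card_coe_set_eq] at h7
    obtain ⟨a, b, ha, hb, hab⟩ := (Set.one_lt_ncard_iff (Set.toFinite _)).mp h7
    rw [MulAction.mem_fixedBy, act_eq_iff hθ] at ha hb
    obtain ⟨t, ht, hta, htb⟩ := two_trans h hθ a b hab
    obtain ⟨k, hk⟩ := stab_two hm hF h hθ (t⁻¹ * g.1 * t) (mul_mem (mul_mem (inv_mem ht) g.2) ht)
      (by rw [mul_smul, mul_smul, hta, ha, inv_smul_eq_iff, hta])
      (by rw [mul_smul, mul_smul, htb, hb, inv_smul_eq_iff, htb])
    have hgt : g.1 = t * D θ k * t⁻¹ := by rw [← hk]; group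
    -- w = t⁻¹ v
    have hv' : g.1.1 *ᵥ v = v := hv
    set w : Fin 4 → F := (t⁻¹).1 *ᵥ v with hw
    have htw : t.1 *ᵥ w = v := by
      rw [hw, Matrix.mulVec_mulVec, ← Matrix.SpecialLinearGroup.coe_mul, mul_inv_cancel, Matrix.SpecialLinearGroup.coe_one,
        Matrix.one_mulVec]
    have hw0 : w ≠ 0 := by
      intro h0
      rw [h0, Matrix.mulVec_zero] at htw
      exact hv0 htw.symm
    have hDw : (D θ k).1 *ᵥ w = w := by
      rw [← hk, Matrix.SpecialLinearGroup.coe_mul, Matrix.SpecialLinearGroup.coe_mul, ← Matrix.mulVec_mulVec, ← Matrix.mulVec_mulVec,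
        htw, hv', hw]
    have hk1 : k ≠ 1 := by
      rintro rfl
      rw [D_one, mul_one, mul_inv_cancel] at hgt
      exact hne (Subtype.ext hgt)
    apply hw0
    have hdiag : ∀ i, (D θ k).1 i i ≠ 1 ∧ ∀ j, j ≠ i → (D θ k).1 i j = 0 := by
      have hk1' : (k : F) ≠ 1 := fun hh => hk1 (Units.ext hh)
      intro i
      fin_cases i
      · refine ⟨fun h0 => hk1' (h.eq_one_of_mul_theta h0), fun j hj => ?_⟩
        fin_cases j <;> first | rfl | exact absurd rfl hj
      · refine ⟨fun h0 => hk1' h0, fun j hj => ?_⟩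
        fin_cases j <;> first | rfl | exact absurd rfl hj
      · refine ⟨fun h0 => hk1' (inv_eq_one.mp h0), fun j hj => ?_⟩
        fin_cases j <;> first | rfl | exact absurd rfl hj
      · refine ⟨fun h0 => hk1' (h.eq_one_of_mul_theta (inv_eq_one.mp h0)), fun j hj => ?_⟩
        fin_cases j <;> first | rfl | exact absurd rfl hj
    funext i
    have h9 := congrFun hDw i
    rw [Matrix.mulVec, dotProduct, Finset.sum_eq_single i (fun j _ hj => by rw [(hdiag i).2 j hj, zero_mul])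
      (fun h => absurd (Finset.mem_univ _) h)] at h9
    have h10 : ((D θ k).1 i i - 1) * w i = 0 := by linear_combination h9
    rcases mul_eq_zero.mp h10 with h11 | h11
    · exact absurd (sub_eq_zero.mp h11) (hdiag i).1
    · exact h11

/-- Let S be the Suzuki group over the field with q = 2^(2m+1) ≥ 8 elements. Then there are finite groups of arbitrarily large order with the same prime graph as S. -/
theorem result {F : Type*} [Field F] [Fintype F] {m : ℕ} (hm : 1 ≤ m) (hF : Fintype.card F = 2 ^ (2 * m + 1)) (N : ℕ) :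
    ∃ (H : Type) (_ : Group H) (_ : Fintype H), N < Fintype.card H ∧ ((∀ r : ℕ, r.Prime → (r ∣ Nat.card ↥(Cfsg.Lie.Sz F (2 ^ (m + 1))) ↔ r ∣ Nat.card H)) ∧
      (∀ r s : ℕ, r.Prime → s.Prime → r ≠ s → ((∃ x : ↥(Cfsg.Lie.Sz F (2 ^ (m + 1))), orderOf x = r * s) ↔ (∃ y : H, orderOf y = r * s)))) := by
  obtain ⟨H, hH, hfin, hN, h1, h2⟩ := Cfsg.Agent.H21.PG.graph_addmodule (G := Cfsg.Sz F m) (V := Fin 4 → F) 2 Nat.prime_two
    (fun v => by
      obtain ⟨θ, h, hθ⟩ := Cfsg.Agent.HL.Sz.exists_theta hF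
      funext i
      rw [Pi.smul_apply, two_nsmul, ← two_mul, h.two, zero_mul]; rfl)
    { toFun := fun g => (Cfsg.Agent.HL.Sz.rep F m g).toAddMonoidHom
      map_one' := by rw [map_one]; rfl
      map_mul' := fun a b => by rw [map_mul]; rfl }
    (by rw [Cfsg.Agent.HL.Sz.card_Sz hm hF]
        exact Dvd.dvd.mul_right (Dvd.dvd.mul_right (dvd_pow (dvd_pow_self _ (by omega)) (by norm_num)) _) _)
    (fun g r hr hr2 hg hv => by
      obtain ⟨v, hv0, hv⟩ := hv
      exact (fpf hm hF g hr hr2 hg v hv0 hv).elim) N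
  have e := Cfsg.Agent.HL.Sz.modelEquiv hm hF
  have hs : Cfsg.Agent.H21.PG.SameGraph (↥(Cfsg.Lie.Sz F (2 ^ (m + 1)))) H :=
    (Cfsg.Agent.H21.PG.SameGraph.of_equiv e).symm.trans ⟨h1, h2⟩
  letI : Fintype H := Fintype.ofFinite H
  refine ⟨H, hH, inferInstance, ?_, hs.1, hs.2⟩
  rw [← Nat.card_eq_fintype_card]; exact hN

end Cfsg.Agent.S3639
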