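import Cfsg.Statements.S3641
import Cfsg.Agent.H21_P17f

set_option autoImplicit false
open Cfsg

namespace Cfsg.Agent.S3641

open Cfsg.Agent.H21 Cfsg.Agent.H21.P17 in
theorem map_center_eq {A B : Type*} [Group A] [Group B] (e : A ≃* B) : (Subgroup.center A).map e.toMonoidHom = Subgroup.center B := by
  ext x
  rw [Subgroup.mem_map]
  constructor
  · rintro ⟨y, hy, rfl⟩
    rw [Subgroup.mem_center_iff] at hy ⊢
    intro g
    have := hy (e.symm g)
    have h2 := congrArg e this
    rw [map_mul, map_mul, MulEquiv.apply_symm_apply] at h2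
    exact h2
  · intro hx
    refine ⟨e.symm x, ?_, MulEquiv.apply_symm_apply e x⟩
    rw [Subgroup.mem_center_iff] at hx ⊢
    intro g
    apply e.injective
    rw [map_mul, map_mul, MulEquiv.apply_symm_apply]
    exact hx (e g)

theorem quotientCenter {A B : Type*} [Group A] [Group B] (e : A ≃* B) :
    Nonempty ((A ⧸ Subgroup.center A) ≃* (B ⧸ Subgroup.center B)) :=
  ⟨QuotientGroup.congr _ _ e (map_center_eq e)⟩

noncomputable def slEquiv {A B : Type*} [Field A] [Field B] (e : A ≃+* B) :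
    Matrix.SpecialLinearGroup (Fin 2) A ≃* Matrix.SpecialLinearGroup (Fin 2) B where
  toFun := Matrix.SpecialLinearGroup.map (e : A →+* B)
  invFun := Matrix.SpecialLinearGroup.map (e.symm : B →+* A)
  left_inv x := by ext i j; simp
  right_inv x := by ext i j; simp
  map_mul' x y := map_mul _ x y

theorem mod_aux {r c : ℕ} (h : c ≡ 1 [MOD r]) (hc : 1 ≤ c) : r ∣ c - 1 :=
  (Nat.modEq_iff_dvd' hc).mp h.symm

theorem prime_dvd_135 {r : ℕ} (hr : r.Prime) (h : r ∣ 135) : r = 3 ∨ r = 5 := by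
  have h1 : (135 : ℕ) = 3 ^ 3 * 5 := by norm_num
  rw [h1] at h
  rcases hr.dvd_mul.mp h with h | h
  · left; exact (Nat.prime_dvd_prime_iff_eq hr (by norm_num)).mp (hr.dvd_of_dvd_pow h)
  · right; exact (Nat.prime_dvd_prime_iff_eq hr (by norm_num)).mp h

theorem prime_dvd_152 {r : ℕ} (hr : r.Prime) (h : r ∣ 152) : r = 2 ∨ r = 19 := by
  have h1 : (152 : ℕ) = 2 ^ 3 * 19 := by norm_num
  rw [h1] at h
  rcases hr.dvd_mul.mp h with h | h
  · left; exact (Nat.prime_dvd_prime_iff_eq hr (by norm_num)).mp (hr.dvd_of_dvd_pow h)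
  · right; exact (Nat.prime_dvd_prime_iff_eq hr (by norm_num)).mp h

open Cfsg.Agent.H21 Cfsg.Agent.H21.P17 in
theorem main_aux {G : Type*} [Group G] [Finite G] (hZ : Subgroup.center G = ⊥)
    (hNS : {c : ℕ | ∃ r : ℕ, r.Prime ∧ r ∣ Nat.card G ∧ c = Nat.card (Sylow r G)} = ({18, 136, 153} : Set ℕ)) :
    Nonempty (G ≃* Matrix.ProjectiveSpecialLinearGroup (Fin 2) K) ∨ Nonempty (G ≃* (GL (Fin 2) K ⧸ Subgroup.center (GL (Fin 2) K))) := by
  classical
  have h18 : Nat.card (Sylow 17 G) = 18 := by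
    have h1 : (18 : ℕ) ∈ ({18, 136, 153} : Set ℕ) := by simp
    rw [← hNS] at h1
    obtain ⟨r, hr, hrd, hc⟩ := h1
    haveI : Fact r.Prime := ⟨hr⟩
    have h2 := card_sylow_modEq_one r G
    rw [← hc] at h2
    have h3 := mod_aux h2 (by norm_num)
    have h4 : r = 17 := (Nat.prime_dvd_prime_iff_eq hr (by norm_num)).mp h3
    subst h4
    exact hc.symm
  obtain ⟨ψ, hH, hker⟩ := exists_hom h18
  have hcardΓ : Nat.card ψ.range = 2448 ∨ Nat.card ψ.range = 4896 := by
    rcases hH.card_T with h | h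
    · left; rw [hH.card, h]
    · right; rw [hH.card, h]
  have hbot : ψ.ker = ⊥ := by
    apply eq_bot_of_normalizes hZ
    intro r hr hrd R x hx
    haveI : Fact r.Prime := ⟨hr⟩
    have h1 : Nat.card (Sylow r G) ∈ ({18, 136, 153} : Set ℕ) := by
      rw [← hNS]; exact ⟨r, hr, hrd, rfl⟩
    have h2 := card_sylow_modEq_one r G
    have hx' : x ∈ ψ.rangeRestrict.ker := by
      rwa [MonoidHom.ker_rangeRestrict]
    have hN17 : ∀ x ∈ ψ.ker, ∀ P : Sylow 17 G, x • P = P := fun x hx P => (hker x).mp hx P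
    simp only [Set.mem_insert_iff, Set.mem_singleton_iff] at h1
    rcases h1 with h1 | h1 | h1
    · rw [h1] at h2
      have h3 := mod_aux h2 (by norm_num)
      have h4 : r = 17 := (Nat.prime_dvd_prime_iff_eq hr (by norm_num)).mp h3
      subst h4
      exact (hker x).mp hx R
    · rw [h1] at h2
      have h3 := mod_aux h2 (by norm_num)
      rcases prime_dvd_135 hr h3 with rfl | rfl
      · exact ker_fix ψ.rangeRestrict ψ.rangeRestrict_surjective (by rw [h1]; exact hH.sylow3) R x hx'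
      · exfalso
        refine no_prime (r := 5) ψ.ker hN17 ?_ (by norm_num) (by rw [h1]; norm_num) (by rw [h1]; norm_num)
        rw [Subgroup.index_ker]
        rcases hcardΓ with h | h <;> rw [h] <;> norm_num
    · rw [h1] at h2
      have h3 := mod_aux h2 (by norm_num)
      rcases prime_dvd_152 hr h3 with rfl | rfl
      · exact ker_fix ψ.rangeRestrict ψ.rangeRestrict_surjective (by rw [h1]; exact hH.sylow2) R x hx'
      · exfalso
        haveI : Fact (Nat.Prime 19) := ⟨by norm_num⟩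
        refine no_prime (r := 19) ψ.ker hN17 ?_ (by norm_num) (by rw [h1]; norm_num) (by rw [h1]; norm_num)
        rw [Subgroup.index_ker]
        rcases hcardΓ with h | h <;> rw [h] <;> norm_num
  have e : G ≃* ψ.range := MonoidHom.ofInjective ((MonoidHom.ker_eq_bot_iff ψ).mp hbot)
  rcases hH.main with ⟨_, ⟨f⟩⟩ | ⟨_, ⟨f⟩⟩
  · right; exact ⟨e.trans f⟩
  · left; exact ⟨e.trans f⟩

/-- Let G be a finite group with trivial centre whose set of Sylow numbers (numbers of Sylow r-subgroups, r over the prime divisors of its order) is exactly {18, 136, 153}. Then G is isomorphic to PSL(2, 17) or to PGL(2, 17). -/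
theorem result {G : Type*} [Group G] [Finite G] (hZ : Subgroup.center G = ⊥) (hNS : {c : ℕ | ∃ r : ℕ, r.Prime ∧ r ∣ Nat.card G ∧ c = Nat.card (Sylow r G)} = ({18, 136, 153} : Set ℕ))
    {F : Type*} [Field F] [Fintype F] (hF : Fintype.card F = 17) :
    Nonempty (G ≃* Matrix.ProjectiveSpecialLinearGroup (Fin 2) F) ∨ Nonempty (G ≃* (GL (Fin 2) F ⧸ Subgroup.center (GL (Fin 2) F))) := by
  have e : ZMod 17 ≃+* F := ZMod.ringEquivOfPrime F (by norm_num) hF
  rcases main_aux hZ hNS with ⟨⟨f⟩⟩ | ⟨⟨f⟩⟩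
  · left
    obtain ⟨g⟩ := quotientCenter (slEquiv e)
    exact ⟨f.trans g⟩
  · right
    obtain ⟨g⟩ := quotientCenter (A := GL (Fin 2) (ZMod 17)) (B := GL (Fin 2) F) (Units.mapEquiv (e.mapMatrix (m := Fin 2)).toMulEquiv)
    exact ⟨f.trans g⟩

end Cfsg.Agent.S3641
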