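import Cfsg.Statements.S3662
import Cfsg.Agent.H15_G2e
import Cfsg.Agent.H21_PG

set_option autoImplicit false
open Cfsg

namespace Cfsg.Agent.S3662

/-- The prime graph of a finite group has the prime divisors of its order as vertices, two distinct primes p, q being joined when the group has an element of order pq; two groups have the same prime graph when they have the same prime divisors and the same joined pairs. Let F be the field with 4 elements and L the Chevalley group of type G₂ over F. There are finite groups of arbitrarily large order with the same prime graph as L. -/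
theorem result {F : Type*} [Field F] [Fintype F] (hF : Fintype.card F = 4) (N : ℕ) :
    ∃ (H : Type) (_ : Group H) (_ : Finite H), N < Nat.card H ∧
      ((∀ p : ℕ, p.Prime → (p ∣ Nat.card ↥(Cfsg.Lie.chevG2.group F) ↔ p ∣ Nat.card H)) ∧
      (∀ p q : ℕ, p.Prime → q.Prime → p ≠ q → ((∃ g : ↥(Cfsg.Lie.chevG2.group F), orderOf g = p * q) ↔ (∃ g : H, orderOf g = p * q)))) := by
  obtain ⟨ρ, hinj, hρ⟩ := Cfsg.Agent.H15.G2R.main (F := F) hF
  have hcard := Cfsg.Agent.S1059.result (F := F) hF
  haveI : Finite ↥(Cfsg.Lie.chevG2.group F) := by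
    apply Nat.finite_of_card_ne_zero
    rw [hcard]; norm_num
  haveI : Fact (Nat.Prime 2) := ⟨Nat.prime_two⟩
  haveI : CharP F 2 := charP_of_card_eq_prime_pow (p := 2) (f := 2) (by rw [hF]; rfl)
  have two : (2 : F) = 0 := by exact_mod_cast CharP.cast_eq_zero F 2
  exact Cfsg.Agent.H21.PG.graph_addmodule (G := ↥(Cfsg.Lie.chevG2.group F)) (V := Fin 6 → F) 2 Nat.prime_two
    (fun v => by
      funext i
      rw [Pi.smul_apply, two_nsmul, ← two_mul, two, zero_mul]; rfl)
    { toFun := fun g => (ρ g).toAddMonoidHom
      map_one' := by rw [map_one]; rfl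
      map_mul' := fun a b => by rw [map_mul]; rfl }
    (by rw [hcard]; norm_num)
    (fun g r hr hr2 hg hv => hρ g r hr hr2 hg hv) N

end Cfsg.Agent.S3662
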