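import Cfsg.Statements.S3669
import Mathlib
import Cfsg.Agent.S0169
import Cfsg.Agent.S0494
import Cfsg.Agent.H1_Deg
import Cfsg.Agent.H3_CharPerm2
import Cfsg.Agent.H3_Burnside
import Cfsg.Agent.H11_Cores
import Cfsg.Agent.H1_Hall

set_option autoImplicit false
open Cfsg

namespace Cfsg.Agent.S3669

/-- a group of order 5 acting on a set with fewer than 5 elements -/
theorem triv_of_lt {P X : Type*} [Group P] [Finite P] [Finite X] (hP : Nat.card P = 5) (hX : Nat.card X < 5)
    (f : P →* Equiv.Perm X) : f = 1 := by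
  classical
  have h1 : Nat.card f.range ∣ 5 := by rw [← hP]; exact Subgroup.card_range_dvd f
  have h2 : Nat.card f.range ∣ (Nat.card X).factorial := by
    rw [← Nat.card_perm]; exact Subgroup.card_subgroup_dvd_card _
  have h3 : Nat.Coprime 5 (Nat.card X).factorial := by
    rw [Nat.Prime.coprime_iff_not_dvd Nat.prime_five, Nat.Prime.dvd_factorial Nat.prime_five]; omega
  have h4 : Nat.card f.range = 1 := Nat.eq_one_of_dvd_one (h3.gcd_eq_one ▸ Nat.dvd_gcd h1 h2)
  have h5 : f.range = ⊥ := Subgroup.card_eq_one.1 h4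
  ext1 x
  have h6 : f x ∈ f.range := ⟨x, rfl⟩
  rw [h5, Subgroup.mem_bot] at h6
  exact h6

theorem cent_of_lt {G : Type*} [Group G] [Finite G] (P M : Subgroup G) [M.Normal] (hP : Nat.card P = 5)
    (hM : Nat.card M < 5) : P ≤ Subgroup.centralizer (M : Set G) := by
  have h1 := triv_of_lt (X := M) hP hM (((MulAut.toPerm M).comp (MulAut.conjNormal (H := M))).comp P.subtype)
  intro x hx
  rw [Subgroup.mem_centralizer_iff]
  intro m hm
  have h2 := DFunLike.congr_fun h1 ⟨x, hx⟩
  have h3 := Equiv.ext_iff.1 h2 ⟨m, hm⟩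
  have h4 := congrArg Subtype.val h3
  change x * m * x⁻¹ = m at h4
  rw [mul_inv_eq_iff_eq_mul] at h4
  exact h4.symm

theorem sylow5 {G : Type*} [Group G] [Finite G] (hG : Nat.card G = 60) [Fact (Nat.Prime 5)] (P : Sylow 5 G) :
    Nat.card (P : Subgroup G) = 5 := by
  rw [Cfsg.Agent.H9.Small.sylow_card P 1 12 (by rw [hG]; norm_num) (by norm_num)]; norm_num

theorem solv_of_lt {G : Type*} [Group G] [Finite G] (hd : Nat.card G ∣ 60) (hlt : Nat.card G ≠ 60) : Group.IsSolvable G := by
  have h1 : Nat.card G ≤ 60 := Nat.le_of_dvd (by norm_num) hd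
  have h0 : 0 < Nat.card G := Nat.card_pos
  have hcases : (∃ p q a b : ℕ, p.Prime ∧ q.Prime ∧ Nat.card G = p ^ a * q ^ b) ∨ Nat.card G = 30 := by
    have h5 := Nat.prime_five
    generalize Nat.card G = n at *
    have h7 : n = 1 ∨ n = 2 ∨ n = 3 ∨ n = 4 ∨ n = 5 ∨ n = 6 ∨ n = 10 ∨ n = 12 ∨ n = 15 ∨ n = 20 ∨ n = 30 := by
      have h8 : n ∈ Nat.divisors 60 := Nat.mem_divisors.2 ⟨hd, by norm_num⟩
      have h9 : Nat.divisors 60 = {1, 2, 3, 4, 5, 6, 10, 12, 15, 20, 30, 60} := by decide +kernel
      rw [h9] at h8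
      simp only [Finset.mem_insert, Finset.mem_singleton] at h8
      omega
    rcases h7 with h | h | h | h | h | h | h | h | h | h | h
    · exact Or.inl ⟨2, 3, 0, 0, Nat.prime_two, Nat.prime_three, by rw [h]; norm_num⟩
    · exact Or.inl ⟨2, 3, 1, 0, Nat.prime_two, Nat.prime_three, by rw [h]; norm_num⟩
    · exact Or.inl ⟨2, 3, 0, 1, Nat.prime_two, Nat.prime_three, by rw [h]; norm_num⟩
    · exact Or.inl ⟨2, 3, 2, 0, Nat.prime_two, Nat.prime_three, by rw [h]; norm_num⟩
    · exact Or.inl ⟨2, 5, 0, 1, Nat.prime_two, h5, by rw [h]; norm_num⟩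
    · exact Or.inl ⟨2, 3, 1, 1, Nat.prime_two, Nat.prime_three, by rw [h]; norm_num⟩
    · exact Or.inl ⟨2, 5, 1, 1, Nat.prime_two, h5, by rw [h]; norm_num⟩
    · exact Or.inl ⟨2, 3, 2, 1, Nat.prime_two, Nat.prime_three, by rw [h]; norm_num⟩
    · exact Or.inl ⟨3, 5, 1, 1, Nat.prime_three, h5, by rw [h]; norm_num⟩
    · exact Or.inl ⟨2, 5, 2, 1, Nat.prime_two, h5, by rw [h]; norm_num⟩
    · exact Or.inr h
  rcases hcases with ⟨p, q, a, b, hp, hq, h⟩ | h
  · exact Cfsg.Agent.H3.Burnside.burnside _ G p q a b hp hq rfl h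
  · haveI : IsZGroup G := IsZGroup.of_squarefree (by
      rw [h]
      have : (30 : ℕ) = 2 * (3 * 5) := by norm_num
      rw [this, Nat.squarefree_mul (by norm_num)]
      refine ⟨Nat.prime_two.prime.squarefree, ?_⟩
      rw [Nat.squarefree_mul (by norm_num)]
      exact ⟨Nat.prime_three.prime.squarefree, Nat.prime_five.prime.squarefree⟩)
    infer_instance

theorem not_solv {G : Type*} [Group G] [Finite G] (hG : Nat.card G = 60) [Fact (Nat.Prime 5)] (P : Sylow 5 G)
    (hP : ¬ (P : Subgroup G).Normal) : ¬ Group.IsSolvable G := by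
  intro hs
  have hPc := sylow5 hG P
  haveI : IsCyclic (P : Subgroup G) := isCyclic_of_prime_card hPc
  have hcomm : ∀ x ∈ (P : Subgroup G), ∀ y ∈ (P : Subgroup G), x * y = y * x := by
    intro x hx y hy
    letI := IsCyclic.commGroup (α := (P : Subgroup G))
    exact congrArg Subtype.val (mul_comm (⟨x, hx⟩ : (P : Subgroup G)) ⟨y, hy⟩)
  have h1 : (P : Subgroup G) ≤ Subgroup.centralizer (Cfsg.fittingSubgroup G : Set G) := by
    rw [Subgroup.le_centralizer_iff, Cfsg.Agent.H11.Cores.fittingSubgroup_eq_iSup_pCore, iSup_le_iff]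
    intro q
    haveI : Fact (q : ℕ).Prime := ⟨q.2⟩
    rw [Subgroup.le_centralizer_iff]
    have hpg : IsPGroup (q : ℕ) (pCore (q : ℕ) G) := Cfsg.Agent.H11.Cores.pCore_isPGroup _
    obtain ⟨k, hk⟩ := hpg.exists_card_eq
    have hd : (q : ℕ) ^ k ∣ 60 := by rw [← hk, ← hG]; exact Subgroup.card_subgroup_dvd_card _
    haveI hN : (pCore (q : ℕ) G).Normal := inferInstance
    by_cases h5 : (q : ℕ) = 5
    · have hle : pCore (q : ℕ) G ≤ P := by
        rw [h5] at hpg hN ⊢
        have := hpg.inf_normalizer_sylow P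
        have h2 : ((pCore 5 G) ⊔ (P : Subgroup G) : Subgroup G) = P := by
          refine (P.is_maximal' ?_ le_sup_right)
          exact IsPGroup.to_sup_of_normal_left hpg P.isPGroup'
        rw [← h2]; exact le_sup_left
      intro x hx
      rw [Subgroup.mem_centralizer_iff]
      intro y hy
      exact hcomm y (hle hy) x hx
    · apply cent_of_lt _ _ hPc
      rw [hk]
      by_contra hcon
      push Not at hcon
      have hco : Nat.Coprime ((q : ℕ) ^ k) 5 := Nat.Coprime.pow_left _ ((Nat.coprime_primes q.2 Nat.prime_five).2 h5)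
      have hd12 : (q : ℕ) ^ k ∣ 12 := hco.dvd_of_dvd_mul_right (by norm_num; exact hd)
      have h8 : (q : ℕ) ^ k = 6 ∨ (q : ℕ) ^ k = 12 := by
        generalize (q : ℕ) ^ k = m at *
        have h8 : m ∈ Nat.divisors 12 := Nat.mem_divisors.2 ⟨hd12, by norm_num⟩
        have h9 : Nat.divisors 12 = {1, 2, 3, 4, 6, 12} := by decide +kernel
        rw [h9] at h8
        simp only [Finset.mem_insert, Finset.mem_singleton] at h8
        omega
      have h2 : 2 ∣ (q : ℕ) ^ k := by omega
      have h3 : 3 ∣ (q : ℕ) ^ k := by omega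
      have h2' := (Nat.prime_dvd_prime_iff_eq Nat.prime_two q.2).1 (Nat.prime_two.dvd_of_dvd_pow h2)
      have h3' := (Nat.prime_dvd_prime_iff_eq Nat.prime_three q.2).1 (Nat.prime_three.dvd_of_dvd_pow h3)
      omega
  have h2 : (P : Subgroup G) ≤ Cfsg.fittingSubgroup G := h1.trans Cfsg.Agent.H1.Hall.centralizer_fitting_le
  haveI hFn : (Cfsg.fittingSubgroup G).Normal := Cfsg.Agent.H11.Cores.fittingSubgroup_normal
  apply hP
  rw [← Subgroup.normalizer_eq_top_iff, Subgroup.eq_top_iff']
  intro g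
  have h3 : ((g • P : Sylow 5 G) : Subgroup G) ≤ Subgroup.normalizer ((P : Subgroup G) : Set G) := by
    have h4 : ((g • P : Sylow 5 G) : Subgroup G) ≤ Cfsg.fittingSubgroup G := by
      intro x hx
      rw [Sylow.coe_subgroup_smul, Subgroup.mem_pointwise_smul_iff_inv_smul_mem] at hx
      have h5 := hFn.conj_mem _ (h2 hx) g
      rw [MulAut.smul_def, MulAut.inv_def] at h5
      convert h5 using 1
      simp [mul_assoc]
    refine h4.trans ?_
    refine le_trans ?_ (Subgroup.centralizer_le_normalizer _)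
    rwa [Subgroup.le_centralizer_iff]
  have h4 := (g • P).isPGroup'.inf_normalizer_sylow P
  have h5 : ((g • P : Sylow 5 G) : Subgroup G) ≤ P := by
    intro x hx
    exact (h4.le ⟨hx, h3 hx⟩).2
  have h6 : g • P = P := by
    apply Sylow.ext
    apply Subgroup.eq_of_le_of_card_ge h5
    rw [sylow5 hG, sylow5 hG]
  exact Sylow.smul_eq_iff_mem_normalizer.1 h6
theorem five_mem {A : Type*} [Group A] [Finite A] [IsSimpleGroup A] (hA : Nat.card A = 60) :
    5 ∈ Cfsg.degreePrimes A := by
  classical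
  haveI : Fact (Nat.Prime 5) := ⟨Nat.prime_five⟩
  haveI := Fintype.ofFinite A
  have hnc : ¬ IsMulCommutative A := Cfsg.Agent.H9.Small.not_comm (by rw [hA]; norm_num)
  obtain ⟨P⟩ : Nonempty (Sylow 5 A) := inferInstance
  obtain ⟨n, hn, hn1, -, -, hn2, -, hn3⟩ := Cfsg.Agent.H9.Small.sylow_params hnc (by rw [hA]; norm_num) P
  have hidx : (P : Subgroup A).index = 12 := by
    have h1 := Subgroup.card_mul_index (P : Subgroup A)
    rw [sylow5 hA, hA] at h1; omega
  have hn6 : Nat.card (Sylow 5 A) = 6 := by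
    rw [hidx] at hn3
    have h1 := Nat.le_of_dvd (by norm_num) hn3
    rw [← hn]
    interval_cases n <;> omega
  have htr : ∀ Q R S : Sylow 5 A, R ≠ Q → S ≠ Q → ∃ g : A, g ∈ Q ∧ g • R = S := by
    intro Q R S hR hS
    set O : Set (Sylow 5 A) := MulAction.orbit (Q : Subgroup A) R with hO
    have hmem : ∀ T, T ∈ O ↔ ∃ g : A, g ∈ Q ∧ g • R = T := by
      intro T
      constructor
      · rintro ⟨g, rfl⟩
        exact ⟨g, g.2, rfl⟩
      · rintro ⟨g, hg, rfl⟩
        exact ⟨⟨g, hg⟩, rfl⟩
    have hfixQ : ∀ g : A, g ∈ Q → g • Q = Q := fun g hg =>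
      Sylow.smul_eq_iff_mem_normalizer.2 (Subgroup.le_normalizer hg)
    have h1 : O ⊆ ({Q}ᶜ : Set (Sylow 5 A)) := by
      intro T hT hT2
      obtain ⟨g, hg, hgT⟩ := (hmem T).1 hT
      rw [Set.mem_singleton_iff] at hT2
      rw [hT2] at hgT
      apply hR
      calc R = g⁻¹ • (g • R) := by rw [inv_smul_smul]
        _ = Q := by rw [hgT]; exact hfixQ _ (inv_mem hg)
    have h2 : Nat.card O * Nat.card (MulAction.stabilizer (Q : Subgroup A) R) = 5 := by
      have h3 := Nat.card_congr (MulAction.orbitProdStabilizerEquivGroup (Q : Subgroup A) R)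
      rw [Nat.card_prod] at h3
      exact h3.trans (sylow5 hA Q)
    have h3 : Nat.card O = 5 := by
      rcases (Nat.dvd_prime Nat.prime_five).1 (Dvd.intro _ h2) with h | h
      · exfalso
        apply hR
        have h4 : (Q : Subgroup A) ≤ Subgroup.normalizer ((R : Subgroup A) : Set A) := by
          intro g hg
          apply Sylow.smul_eq_iff_mem_normalizer.1
          have h5 : g • R ∈ O := (hmem _).2 ⟨g, hg, rfl⟩
          have h6 : R ∈ O := (hmem _).2 ⟨1, one_mem _, one_smul _ _⟩
          have h7 := (Nat.card_eq_one_iff_unique.1 h).1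
          exact congrArg Subtype.val (h7.elim ⟨g • R, h5⟩ ⟨R, h6⟩)
        have h5 := Q.isPGroup'.inf_normalizer_sylow R
        have h6 : (Q : Subgroup A) ≤ R := by
          intro x hx
          exact (h5.le ⟨hx, h4 hx⟩).2
        apply Sylow.ext
        symm
        apply Subgroup.eq_of_le_of_card_ge h6
        rw [sylow5 hA, sylow5 hA]
      · exact h
    have h4 : O = ({Q}ᶜ : Set (Sylow 5 A)) := by
      apply Set.eq_of_subset_of_ncard_le h1
      rw [Set.ncard_compl, Set.ncard_singleton, hn6, ← Nat.card_coe_set_eq, h3]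
    have h5 : S ∈ O := by rw [h4]; exact hS
    exact (hmem S).1 h5
  have h2t : MulAction.IsMultiplyPretransitive A (Sylow 5 A) 2 := by
    rw [MulAction.is_two_pretransitive_iff]
    intro a b c d hab hcd
    obtain ⟨g, hg⟩ := MulAction.exists_smul_eq A a c
    have h1 : g • b ≠ c := by rw [← hg]; exact fun h => hab (smul_left_cancel g h).symm
    obtain ⟨h, hh, hhd⟩ := htr c (g • b) d h1 hcd.symm
    refine ⟨h * g, ?_, ?_⟩
    · rw [mul_smul, hg]
      exact Sylow.smul_eq_iff_mem_normalizer.2 (Subgroup.le_normalizer hh)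
    · rw [mul_smul, hhd]
  have h3 := (Cfsg.Agent.H3.CharPerm2.irr_iff_two_pretransitive (G := A) (Sylow 5 A) (by rw [hn6]; norm_num)).2 h2t
  refine ⟨Nat.prime_five, 5, ⟨⟨_, h3⟩, ?_⟩, dvd_rfl⟩
  apply Cfsg.Agent.H1.Deg.deg_eq
  have h4 : MulAction.fixedBy (Sylow 5 A) (1 : A) = Set.univ := by
    ext x; simp
  change Cfsg.Agent.H3.CharPerm2.perm A (Sylow 5 A) 1 - 1 = _
  have h5 : Cfsg.Agent.H3.CharPerm2.perm A (Sylow 5 A) 1 = 6 := by
    unfold Cfsg.Agent.H3.CharPerm2.perm
    rw [h4, Nat.card_univ, hn6]; norm_num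
  rw [h5]
  norm_num

/-- The character degree graph of a finite group has as vertices the primes dividing some irreducible complex character degree, two distinct primes being joined when their product divides some irreducible character degree; two groups have the same character degree graph when they have the same vertices and the same joined pairs. A finite group of order 60 with the same character degree graph as the alternating group A₅ (whose character degrees are 1, 3, 4, 5, so the graph has vertices 2, 3, 5 and no edges) is isomorphic to A₅. -/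
theorem result {G : Type*} [Group G] [Finite G] (hcard : Nat.card G = 60)
    (hΓ : Cfsg.degreePrimes G = Cfsg.degreePrimes (alternatingGroup (Fin 5)) ∧ Cfsg.degreeGraph G = Cfsg.degreeGraph (alternatingGroup (Fin 5))) : Nonempty (G ≃* alternatingGroup (Fin 5)) := by
  have hcA : Nat.card (alternatingGroup (Fin 5)) = 60 := by
    rw [nat_card_alternatingGroup, Nat.card_eq_fintype_card, Fintype.card_fin]; decide
  haveI : IsSimpleGroup (alternatingGroup (Fin 5)) := alternatingGroup.isSimpleGroup (by simp)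
  have h5 := five_mem hcA
  rw [← hΓ.1] at h5
  obtain ⟨-, d, ⟨χ, hχ⟩, hd⟩ := h5
  haveI : Fact (Nat.Prime 5) := ⟨Nat.prime_five⟩
  obtain ⟨P⟩ : Nonempty (Sylow 5 G) := inferInstance
  have hPc := sylow5 hcard P
  haveI : IsCyclic (P : Subgroup G) := isCyclic_of_prime_card hPc
  have hcomm : ∀ x ∈ (P : Subgroup G), ∀ y ∈ (P : Subgroup G), x * y = y * x := by
    intro x hx y hy
    letI := IsCyclic.commGroup (α := (P : Subgroup G))
    exact congrArg Subtype.val (mul_comm (⟨x, hx⟩ : (P : Subgroup G)) ⟨y, hy⟩)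
  have hPn : ¬ (P : Subgroup G).Normal := by
    intro hN
    obtain ⟨m, σ, hσ, hσχ⟩ := χ.2
    haveI := hσ
    have h1 := Cfsg.Agent.S0169.result σ (P : Subgroup G) hcomm
    have h2 : charDegree (χ : G → ℂ) = m := by
      apply Cfsg.Agent.H1.Deg.deg_eq
      rw [← hσχ, Representation.char_one]
      simp
    have hidx : (P : Subgroup G).index = 12 := by
      have h1 := Subgroup.card_mul_index (P : Subgroup G)
      rw [hPc, hcard] at h1; omega
    rw [hidx, Module.finrank_fin_fun, ← h2, hχ] at h1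
    have h3 := hd.trans h1
    omega
  have hns := not_solv hcard P hPn
  haveI : IsSimpleGroup G := by
    haveI : Nontrivial G := Finite.one_lt_card_iff_nontrivial.1 (by rw [hcard]; norm_num)
    refine ⟨fun N hN => ?_⟩
    by_contra hcon
    push Not at hcon
    apply hns
    have h1 := Subgroup.card_mul_index N
    rw [hcard] at h1
    haveI h2 : Group.IsSolvable N := solv_of_lt (Dvd.intro _ h1) (by
      intro h; apply hcon.2; apply Subgroup.eq_top_of_card_eq; rw [h, hcard])
    haveI h3 : Group.IsSolvable (G ⧸ N) := solv_of_lt (Dvd.intro_left _ h1) (by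
      intro h
      have h4 : N.index = 60 := h
      rw [h4] at h1
      apply hcon.1
      apply Subgroup.card_eq_one.1
      omega)
    exact Group.isSolvable_of_ker_le_range N.subtype (QuotientGroup.mk' N) (by simp)
  exact Cfsg.Agent.S0494.result hcard

end Cfsg.Agent.S3669
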