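import Cfsg.Statements.S3678
import Cfsg.Agent.H21_SL2e

set_option autoImplicit false
open Cfsg

namespace Cfsg.Agent.S3678

open H21.PG Matrix

section
variable {F : Type*} [Field F]

/-- Chebyshev type sequence -/
def U (t : F) : ℕ → F × F
  | 0 => (1, 0)
  | (n + 1) => (t * (U t n).1 - (U t n).2, (U t n).1)

theorem pow_formula (M : Matrix (Fin 2) (Fin 2) F) (t : F) (hM : M * M = t • M - 1) (n : ℕ) :
    M ^ (n + 1) = (U t n).1 • M - (U t n).2 • (1 : Matrix (Fin 2) (Fin 2) F) := by
  induction n with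
  | zero => simp [U]
  | succ n ih =>
    rw [pow_succ, ih, sub_mul, smul_mul_assoc, hM, smul_mul_assoc, one_mul]
    simp only [U, smul_sub, smul_smul, sub_smul]
    rw [mul_comm (U t n).1 t]
    abel

theorem cayley (g : SpecialLinearGroup (Fin 2) F) : ∃ t : F, (g : Matrix (Fin 2) (Fin 2) F) * g = t • (g : Matrix (Fin 2) (Fin 2) F) - 1 := by
  refine ⟨(g : Matrix (Fin 2) (Fin 2) F) 0 0 + (g : Matrix (Fin 2) (Fin 2) F) 1 1, ?_⟩
  have h2 := g.det_coe
  rw [Matrix.det_fin_two] at h2
  have h01 : (1 : Matrix (Fin 2) (Fin 2) F) 0 1 = 0 := by simp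
  have h10 : (1 : Matrix (Fin 2) (Fin 2) F) 1 0 = 0 := by simp
  ext i j
  rw [Matrix.mul_apply, Fin.sum_univ_two, Matrix.sub_apply, Matrix.smul_apply, smul_eq_mul]
  fin_cases i <;> fin_cases j
  · simp only [Fin.zero_eta, Matrix.one_apply_eq]
    linear_combination - h2
  · change _ = _ - (1 : Matrix (Fin 2) (Fin 2) F) 0 1
    rw [h01]
    simp only [Fin.zero_eta, Fin.mk_one]
    ring
  · change _ = _ - (1 : Matrix (Fin 2) (Fin 2) F) 1 0
    rw [h10]
    simp only [Fin.zero_eta, Fin.mk_one]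
    ring
  · simp only [Fin.mk_one, Matrix.one_apply_eq]
    linear_combination - h2

theorem pow_eq_of (M : Matrix (Fin 2) (Fin 2) F) (t : F) (hM : M * M = t • M - 1) (n : ℕ) (c : F)
    (h1 : (U t n).1 = 0) (h2 : (U t n).2 = -c) : M ^ (n + 1) = c • 1 := by
  rw [pow_formula M t hM, h1, h2]; simp

end

theorem sl27 {F : Type*} [Field F] [Fintype F] (hF : Fintype.card F = 7) (g : SpecialLinearGroup (Fin 2) F) :
    ∃ k, (k = 2 ∨ k = 3 ∨ k = 4 ∨ k = 7) ∧ ((g : Matrix (Fin 2) (Fin 2) F) ^ k = 1 ∨ (g : Matrix (Fin 2) (Fin 2) F) ^ k = -1) := by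
  haveI : Fact (Nat.Prime 7) := ⟨by norm_num⟩
  haveI : CharP F 7 := charP_of_card_eq_prime (p := 7) (by simpa using hF)
  have h7 : (7 : F) = 0 := by exact_mod_cast CharP.cast_eq_zero F 7
  obtain ⟨t, ht⟩ := cayley g
  have hp : t ^ 7 = t := by rw [← hF]; exact FiniteField.pow_card t
  have hprod : t * (t - 1) * (t + 1) * (t - 2) * (t + 2) * (t - 3) * (t + 3) = 0 := by
    linear_combination hp + (-2 * t ^ 5 + 7 * t ^ 3 - 5 * t) * h7
  set M := (g : Matrix (Fin 2) (Fin 2) F)
  have hneg : (-1 : F) • (1 : Matrix (Fin 2) (Fin 2) F) = -1 := by simp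
  have hone : (1 : F) • (1 : Matrix (Fin 2) (Fin 2) F) = 1 := one_smul _ _
  simp only [mul_eq_zero] at hprod
  rcases hprod with (((((h | h) | h) | h) | h) | h) | h
  · refine ⟨2, Or.inl rfl, Or.inr ?_⟩
    rw [← hneg]; apply pow_eq_of M t ht 1 <;> simp [U, h]
  · have h : t = 1 := by linear_combination h
    refine ⟨3, Or.inr (Or.inl rfl), Or.inr ?_⟩
    rw [← hneg]; apply pow_eq_of M t ht 2 <;> simp [U, h]
  · have h : t = -1 := by linear_combination h
    refine ⟨3, Or.inr (Or.inl rfl), Or.inl ?_⟩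
    rw [← hone]; apply pow_eq_of M t ht 2 <;> simp [U, h]
  · have h : t = 2 := by linear_combination h
    refine ⟨7, Or.inr (Or.inr (Or.inr rfl)), Or.inl ?_⟩
    rw [← hone]; apply pow_eq_of M t ht 6
    · simp only [U, h]; linear_combination h7
    · simp only [U, h]; linear_combination h7
  · have h : t = -2 := by linear_combination h
    refine ⟨7, Or.inr (Or.inr (Or.inr rfl)), Or.inr ?_⟩
    rw [← hneg]; apply pow_eq_of M t ht 6
    · simp only [U, h]; linear_combination h7
    · simp only [U, h]; linear_combination -h7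
  · have h : t = 3 := by linear_combination h
    refine ⟨4, Or.inr (Or.inr (Or.inl rfl)), Or.inr ?_⟩
    rw [← hneg]; apply pow_eq_of M t ht 3
    · simp only [U, h]; linear_combination 3 * h7
    · simp only [U, h]; linear_combination h7
  · have h : t = -3 := by linear_combination h
    refine ⟨4, Or.inr (Or.inr (Or.inl rfl)), Or.inr ?_⟩
    rw [← hneg]; apply pow_eq_of M t ht 3
    · simp only [U, h]; linear_combination -3 * h7
    · simp only [U, h]; linear_combination h7

theorem psl27 {F : Type*} [Field F] [Fintype F] (hF : Fintype.card F = 7) (g : ProjectiveSpecialLinearGroup (Fin 2) F) :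
    ∃ k, (k = 2 ∨ k = 3 ∨ k = 4 ∨ k = 7) ∧ g ^ k = 1 := by
  obtain ⟨g, rfl⟩ := QuotientGroup.mk_surjective g
  obtain ⟨k, hk, h⟩ := sl27 hF g
  refine ⟨k, hk, ?_⟩
  have h0 : ((g ^ k : SpecialLinearGroup (Fin 2) F) : Matrix (Fin 2) (Fin 2) F) = (g : Matrix (Fin 2) (Fin 2) F) ^ k := by
    simp
  have h1 : g ^ k ∈ Subgroup.center (SpecialLinearGroup (Fin 2) F) := by
    rw [Subgroup.mem_center_iff]
    intro x
    apply Subtype.ext
    change (x : Matrix (Fin 2) (Fin 2) F) * ((g ^ k : SpecialLinearGroup (Fin 2) F) : Matrix (Fin 2) (Fin 2) F) = ((g ^ k : SpecialLinearGroup (Fin 2) F) : Matrix (Fin 2) (Fin 2) F) * x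
    rw [h0]
    rcases h with h | h
    · rw [h]; simp
    · rw [h]; simp
  exact (QuotientGroup.eq_one_iff _).mpr h1

theorem sl28 {F : Type*} [Field F] [Fintype F] (hF : Fintype.card F = 8) (g : SpecialLinearGroup (Fin 2) F) :
    ∃ k, (k = 2 ∨ k = 7 ∨ k = 9) ∧ g ^ k = 1 := by
  haveI : CharP F 2 := by
    obtain ⟨p, hp⟩ := CharP.exists F
    haveI := hp
    obtain ⟨n, hpr, hn⟩ := FiniteField.card F p
    have h1 : p ∣ 2 ^ 3 := by
      rw [show (2 : ℕ) ^ 3 = Fintype.card F by rw [hF]; norm_num, hn]; exact dvd_pow_self p n.ne_zero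
    have h2 := hpr.dvd_of_dvd_pow h1
    have h3 := (Nat.prime_dvd_prime_iff_eq hpr Nat.prime_two).mp h2
    rw [← h3]; exact hp
  have hc : (2 : F) = 0 := by exact_mod_cast CharP.cast_eq_zero F 2
  obtain ⟨t, ht⟩ := cayley g
  have hp : t ^ 8 = t := by rw [← hF]; exact FiniteField.pow_card t
  have hprod : t * (t + 1) * (t ^ 3 + t + 1) * (t ^ 3 + t ^ 2 + 1) = 0 := by
    linear_combination hp + (t ^ 7 + t ^ 6 + 2 * t ^ 5 + 2 * t ^ 4 + t ^ 3 + t ^ 2 + t) * hc
  set M := (g : Matrix (Fin 2) (Fin 2) F) with hM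
  have hneg : (-1 : F) = 1 := by linear_combination -hc
  have hfin : ∀ k : ℕ, M ^ k = 1 → g ^ k = 1 := by
    intro k h
    apply Subtype.ext
    have h0 : ((g ^ k : SpecialLinearGroup (Fin 2) F) : Matrix (Fin 2) (Fin 2) F) = (g : Matrix (Fin 2) (Fin 2) F) ^ k := by
      simp
    exact h0.trans h
  have hone : (1 : F) • (1 : Matrix (Fin 2) (Fin 2) F) = 1 := one_smul _ _
  simp only [mul_eq_zero] at hprod
  rcases hprod with ((h | h) | h) | h
  · refine ⟨2, Or.inl rfl, hfin _ ?_⟩
    rw [← hone]; apply pow_eq_of M t ht 1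
    · simp [U, h]
    · simp only [U]; linear_combination hc
  · refine ⟨9, Or.inr (Or.inr rfl), hfin _ ?_⟩
    have h : t = 1 := by linear_combination h - hc
    rw [← hone]; apply pow_eq_of M t ht 8
    · simp only [U, h]; ring
    · simp only [U, h]; linear_combination hc
  · refine ⟨9, Or.inr (Or.inr rfl), hfin _ ?_⟩
    rw [← hone]; apply pow_eq_of M t ht 8
    · simp only [U]; linear_combination (9 + 23 * t - t ^ 2 - 8 * t ^ 3 + t ^ 5) * h + (-4 - 16 * t - 16 * t ^ 2) * hc
    · simp only [U]; linear_combination (17 - t - 7 * t ^ 2 + t ^ 4) * h + (-8 - 10 * t + 4 * t ^ 2) * hc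
  · refine ⟨7, Or.inr (Or.inl rfl), hfin _ ?_⟩
    rw [← hone]; apply pow_eq_of M t ht 6
    · simp only [U]; linear_combination (3 - 4 * t - t ^ 2 + t ^ 3) * h + (-2 + 2 * t + 2 * t ^ 2) * hc
    · simp only [U]; linear_combination (-3 - t + t ^ 2) * h + (2 + 2 * t + t ^ 2) * hc

theorem no_pq {G : Type*} [Group G] (S : Finset ℕ) (hS : ∀ k ∈ S, ∀ p q : ℕ, p.Prime → q.Prime → p ≠ q → ¬ p * q ∣ k)
    (h : ∀ g : G, ∃ k ∈ S, g ^ k = 1) (p q : ℕ) (hp : p.Prime) (hq : q.Prime) (hpq : p ≠ q) : ¬ ∃ g : G, orderOf g = p * q := by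
  rintro ⟨g, hg⟩
  obtain ⟨k, hk, hgk⟩ := h g
  have := orderOf_dvd_of_pow_eq_one hgk
  rw [hg] at this
  exact hS k hk p q hp hq hpq this

theorem aux_dvd (k : ℕ) (hk : k = 2 ∨ k = 3 ∨ k = 4 ∨ k = 7 ∨ k = 9) (p q : ℕ) (hp : p.Prime) (hq : q.Prime) (hpq : p ≠ q) :
    ¬ p * q ∣ k := by
  intro h
  have hkpos : 0 < k := by omega
  have key : ∀ l i : ℕ, l.Prime → k = l ^ i → False := by
    intro l i hl hki
    rw [hki] at h
    have h1 : p ∣ l ^ i := (Dvd.intro _ rfl).trans h
    have h2 : q ∣ l ^ i := (Dvd.intro_left _ rfl).trans h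
    have h3 := (Nat.prime_dvd_prime_iff_eq hp hl).mp (hp.dvd_of_dvd_pow h1)
    have h4 := (Nat.prime_dvd_prime_iff_eq hq hl).mp (hq.dvd_of_dvd_pow h2)
    exact hpq (h3.trans h4.symm)
  rcases hk with rfl | rfl | rfl | rfl | rfl
  · exact key 2 1 Nat.prime_two (by norm_num)
  · exact key 3 1 Nat.prime_three (by norm_num)
  · exact key 2 2 Nat.prime_two (by norm_num)
  · exact key 7 1 (by norm_num) (by norm_num)
  · exact key 3 2 Nat.prime_three (by norm_num)

theorem graph78 {F E : Type*} [Field F] [Fintype F] (hF : Fintype.card F = 7) [Field E] [Fintype E] (hE : Fintype.card E = 8) :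
    SameGraph (ProjectiveSpecialLinearGroup (Fin 2) F) (SpecialLinearGroup (Fin 2) E) := by
  have hc1 : Nat.card (ProjectiveSpecialLinearGroup (Fin 2) F) = 168 := by
    have h := H5.GL.card_PSL hF 2 (by norm_num)
    rw [Fin.prod_univ_two] at h
    norm_num at h
    omega
  have hc2 : Nat.card (SpecialLinearGroup (Fin 2) E) = 504 := by
    have h := H5.GL.card_SL hE 2 (by norm_num)
    rw [Fin.prod_univ_two] at h
    norm_num at h
    omega
  refine ⟨?_, ?_⟩
  · intro p hp
    rw [hc1, hc2]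
    constructor
    · intro h; exact h.trans (by norm_num)
    · intro h
      have h1 : (504 : ℕ) = 168 * 3 := by norm_num
      rw [h1] at h
      rcases hp.dvd_mul.mp h with h | h
      · exact h
      · exact h.trans (by norm_num)
  · intro p q hp hq hpq
    constructor
    · intro h
      exact absurd h (no_pq {2, 3, 4, 7} (fun k hk => aux_dvd k (by
        simp only [Finset.mem_insert, Finset.mem_singleton] at hk; omega)) (fun g => by
        obtain ⟨k, hk, h⟩ := psl27 hF g
        exact ⟨k, by simp only [Finset.mem_insert, Finset.mem_singleton]; omega, h⟩) p q hp hq hpq)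
    · intro h
      exact absurd h (no_pq {2, 7, 9} (fun k hk => aux_dvd k (by
        simp only [Finset.mem_insert, Finset.mem_singleton] at hk; omega)) (fun g => by
        obtain ⟨k, hk, h⟩ := sl28 hE g
        exact ⟨k, by simp only [Finset.mem_insert, Finset.mem_singleton]; omega, h⟩) p q hp hq hpq)

theorem main {F : Type*} [Field F] [Fintype F] (hF : Fintype.card F = 7) (N : ℕ) :
    ∃ (H : Type) (_ : Group H) (_ : Finite H), N < Nat.card H ∧
      SameGraph (ProjectiveSpecialLinearGroup (Fin 2) F) H := by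
  classical
  haveI : Fact (Nat.Prime 2) := ⟨Nat.prime_two⟩
  haveI : Fintype (GaloisField 2 3) := Fintype.ofFinite _
  have hE : Fintype.card (GaloisField 2 3) = 8 := by
    rw [← Nat.card_eq_fintype_card, GaloisField.card 2 3 (by norm_num)]; norm_num
  obtain ⟨H, hH, hHf, hN, hg⟩ := H21.SL2e.exists_large (F := GaloisField 2 3) N
  exact ⟨H, hH, hHf, hN, (graph78 hF hE).trans hg⟩

/-- The prime graph of a finite group has the prime divisors of its order as vertices, two distinct primes p, q being joined when the group has an element of order pq; two groups have the same prime graph when they have the same prime divisors and the same joined pairs. Let F be the field with 7 elements. There are finite groups of arbitrarily large order with the same prime graph as PSL(2,F) (the graph on {2, 3, 7} with no edges, which is also the prime graph of PSL(2,8)). -/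
theorem result {F : Type*} [Field F] [Fintype F] (hF : Fintype.card F = 7) (N : ℕ) :
    ∃ (H : Type) (_ : Group H) (_ : Finite H), N < Nat.card H ∧
      ((∀ p : ℕ, p.Prime → (p ∣ Nat.card (Matrix.ProjectiveSpecialLinearGroup (Fin 2) F) ↔ p ∣ Nat.card H)) ∧
      (∀ p q : ℕ, p.Prime → q.Prime → p ≠ q → ((∃ g : (Matrix.ProjectiveSpecialLinearGroup (Fin 2) F), orderOf g = p * q) ↔ (∃ g : H, orderOf g = p * q)))) := by
  exact main hF N

end Cfsg.Agent.S3678
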