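import Cfsg.Statements.S3680
import Cfsg.Agent.H21_MinNorm
import Cfsg.Agent.H21_Socle

set_option autoImplicit false
open Cfsg

namespace Cfsg.Agent.S3680

open MulAction

theorem trans_of_normal {G Ω : Type*} [Group G] [MulAction G Ω] [FaithfulSMul G Ω]
    (hprim : IsPreprimitive G Ω) (N : Subgroup G) (hN : N.Normal) (hN1 : N ≠ ⊥) : IsPretransitive N Ω := by
  haveI := hprim
  haveI := hN
  refine IsQuasiPreprimitive.isPretransitive_of_normal (G := G) ?_
  intro h
  apply hN1
  rw [eq_bot_iff]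
  intro n hn
  rw [Subgroup.mem_bot]
  apply FaithfulSMul.eq_of_smul_eq_smul (α := Ω)
  intro a
  have : a ∈ fixedPoints N Ω := by rw [h]; trivial
  rw [one_smul]
  exact this ⟨n, hn⟩

/-- an element commuting with a transitive subgroup and fixing a point is trivial -/
theorem semireg {G Ω : Type*} [Group G] [MulAction G Ω] [FaithfulSMul G Ω] {N : Subgroup G}
    (hN : IsPretransitive N Ω) {x : G} (hx : ∀ n ∈ N, n * x = x * n) {a : Ω} (ha : x • a = a) : x = 1 := by
  apply FaithfulSMul.eq_of_smul_eq_smul (α := Ω)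
  intro b
  obtain ⟨⟨m, hm⟩, hmb⟩ := hN.exists_smul_eq a b
  have hmb' : m • a = b := hmb
  rw [one_smul, ← hmb', ← mul_smul, ← hx m hm, mul_smul, ha]

theorem comm_of_inf {G : Type*} [Group G] {A B : Subgroup G} (hA : A.Normal) (hB : B.Normal) (h : A ⊓ B = ⊥) :
    ∀ a ∈ A, ∀ b ∈ B, a * b = b * a := by
  intro a ha b hb
  have h1 : a * b * a⁻¹ * b⁻¹ ∈ A ⊓ B := by
    constructor
    · have : a * b * a⁻¹ * b⁻¹ = a * (b * a⁻¹ * b⁻¹) := by group
      rw [this]
      exact A.mul_mem ha (hA.conj_mem _ (A.inv_mem ha) b)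
    · exact B.mul_mem (hB.conj_mem _ hb a) (B.inv_mem hb)
  rw [h, Subgroup.mem_bot] at h1
  have := mul_inv_eq_one.mp h1
  calc a * b = (a * b * a⁻¹) * a := by group
    _ = b * a := by rw [this]

def MN {G : Type*} [Group G] (V : Subgroup G) : Prop :=
  V.Normal ∧ V ≠ ⊥ ∧ ∀ M : Subgroup G, M.Normal → M ≤ V → M = ⊥ ∨ M = V

theorem MN.comm {G : Type*} [Group G] {A B : Subgroup G} (hA : MN A) (hB : MN B) (h : A ≠ B) :
    ∀ a ∈ A, ∀ b ∈ B, a * b = b * a := by
  apply comm_of_inf hA.1 hB.1
  have hn : (A ⊓ B).Normal := by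
    haveI := hA.1; haveI := hB.1
    infer_instance
  rcases hA.2.2 _ hn inf_le_left with h1 | h1
  · exact h1
  · rcases hB.2.2 _ hn inf_le_right with h2 | h2
    · exact h2
    · exact absurd (h1.symm.trans h2) h

theorem equiv_regular {G Ω : Type*} [Group G] [MulAction G Ω] [FaithfulSMul G Ω] {A B : Subgroup G}
    (hA : IsPretransitive A Ω) (hB : IsPretransitive B Ω) (hc : ∀ a ∈ A, ∀ b ∈ B, a * b = b * a) (a : Ω) :
    Nonempty (A ≃* B) := by
  have hex : ∀ x : A, ∃ y : B, (y : G) • a = (x : G)⁻¹ • a := by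
    intro x
    obtain ⟨y, hy⟩ := hB.exists_smul_eq a ((x : G)⁻¹ • a)
    exact ⟨y, hy⟩
  choose f hf using hex
  have huB : ∀ y y' : B, (y : G) • a = (y' : G) • a → y = y' := by
    intro y y' h
    have h1 : ((y' : G)⁻¹ * y) • a = a := by
      rw [mul_smul, h, ← mul_smul, inv_mul_cancel, one_smul]
    have := semireg (N := A) hA (x := (y' : G)⁻¹ * y) (fun n hn => hc n hn _ (B.mul_mem (B.inv_mem y'.2) y.2)) h1
    exact Subtype.ext (inv_mul_eq_one.mp this).symm
  have huA : ∀ y y' : A, (y : G)⁻¹ • a = (y' : G)⁻¹ • a → y = y' := by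
    intro y y' h
    have h1 : ((y' : G) * (y : G)⁻¹) • a = a := by
      rw [mul_smul, h, ← mul_smul, mul_inv_cancel, one_smul]
    have := semireg (N := B) hB (x := (y' : G) * (y : G)⁻¹)
      (fun n hn => (hc _ (A.mul_mem y'.2 (A.inv_mem y.2)) n hn).symm) h1
    exact Subtype.ext (mul_inv_eq_one.mp this).symm
  have hmul : ∀ x y, f (x * y) = f x * f y := by
    intro x y
    apply huB
    rw [hf, Subgroup.coe_mul, Subgroup.coe_mul, mul_smul, hf, ← mul_smul,
      ← hc _ (A.inv_mem y.2) _ (f x).2, mul_smul, hf, ← mul_smul, mul_inv_rev]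
  refine ⟨MulEquiv.ofBijective (MonoidHom.mk' f hmul) ⟨?_, ?_⟩⟩
  · intro x y hxy
    have hxy' : f x = f y := hxy
    apply huA
    rw [← hf, ← hf, hxy']
  · intro y
    obtain ⟨x, hx⟩ := hA.exists_smul_eq a ((y : G) • a)
    refine ⟨x⁻¹, ?_⟩
    apply huB
    change ((f x⁻¹ : B) : G) • a = (y : G) • a
    rw [hf, ← hx]
    simp
    rfl

theorem sup_equiv {G : Type*} [Group G] {A B : Subgroup G} (hc : ∀ a ∈ A, ∀ b ∈ B, a * b = b * a)
    (hd : A ⊓ B = ⊥) : Nonempty (A × B ≃* (A ⊔ B : Subgroup G)) := by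
  have comm : ∀ (m : A) (n : B), Commute (A.subtype m) (B.subtype n) := fun m n => hc m m.2 n n.2
  have hinj : Function.Injective (MonoidHom.noncommCoprod A.subtype B.subtype comm) := by
    rw [MonoidHom.noncommCoprod_injective]
    refine ⟨A.subtype_injective, B.subtype_injective, ?_⟩
    rw [Subgroup.range_subtype, Subgroup.range_subtype, disjoint_iff]
    exact hd
  have hr := MonoidHom.noncommCoprod_range A.subtype B.subtype comm
  rw [Subgroup.range_subtype, Subgroup.range_subtype] at hr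
  exact ⟨(MonoidHom.ofInjective hinj).trans (MulEquiv.subgroupCongr hr)⟩

theorem main {G Ω : Type*} [Group G] [Finite G] [MulAction G Ω] [FaithfulSMul G Ω] [Finite Ω]
    (hprim : MulAction.IsPreprimitive G Ω) (N : Subgroup G)
    (hN : N = sSup {V : Subgroup G | MN V}) :
    (∃ p : ℕ, p.Prime ∧ IsMulCommutative N ∧ (∀ x : N, x ^ p = 1) ∧
      MulAction.IsPretransitive N Ω ∧ ∀ ω : Ω, MulAction.stabilizer N ω = ⊥) ∨
    (∃ (T : Type) (_ : Group T) (m : ℕ), 1 ≤ m ∧ IsSimpleGroup T ∧ ¬ IsMulCommutative T ∧ Nonempty (N ≃* (Fin m → T))) := by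
  classical
  rcases subsingleton_or_nontrivial Ω with hΩ | hΩ
  · left
    have hG : ∀ g : G, g = 1 := fun g => FaithfulSMul.eq_of_smul_eq_smul (α := Ω) (fun a => Subsingleton.elim _ _)
    refine ⟨2, Nat.prime_two, ⟨⟨fun x y => ?_⟩⟩, fun x => ?_, ⟨fun x y => ⟨1, Subsingleton.elim _ _⟩⟩, fun ω => ?_⟩
    · exact Subtype.ext ((hG _).trans (hG _).symm)
    · exact Subtype.ext ((hG _).trans (hG _).symm)
    · rw [eq_bot_iff]
      intro x _
      rw [Subgroup.mem_bot]
      exact Subtype.ext ((hG _).trans (hG _).symm)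
  haveI := hprim
  have htop : (⊤ : Subgroup G) ≠ ⊥ := by
    intro h
    obtain ⟨a, b, hab⟩ := hΩ
    obtain ⟨g, hg⟩ := exists_smul_eq G a b
    have : g ∈ (⊥ : Subgroup G) := by rw [← h]; trivial
    rw [Subgroup.mem_bot] at this
    rw [this, one_smul] at hg
    exact hab hg
  obtain ⟨a⟩ : Nonempty Ω := inferInstance
  by_cases hab : ∃ V : Subgroup G, MN V ∧ ∀ x ∈ V, ∀ y ∈ V, x * y = y * x
  · left
    obtain ⟨V, hV, hVab⟩ := hab
    have hVt := trans_of_normal hprim V hV.1 hV.2.1
    have huniq : ∀ W, MN W → W ≤ V := by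
      intro W hW
      by_cases hWV : W = V
      · rw [hWV]
      · intro w hw
        obtain ⟨⟨v, hv⟩, hva⟩ := hVt.exists_smul_eq a (w • a)
        have hva' : v • a = w • a := hva
        have h1 : v⁻¹ * w = 1 := by
          apply semireg hVt (a := a)
          · intro n hn
            rw [← mul_assoc, hVab n hn v⁻¹ (V.inv_mem hv), mul_assoc, (hV.comm hW (Ne.symm hWV) n hn w hw), mul_assoc]
          · rw [mul_smul, ← hva', ← mul_smul, inv_mul_cancel, one_smul]
        have h2 : w = v := (inv_mul_eq_one.mp h1).symm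
        rw [h2]; exact hv
    have hNV : N = V := by
      rw [hN]
      apply le_antisymm
      · exact sSup_le huniq
      · exact le_sSup hV
    obtain ⟨r, hr, hrV⟩ := H21.MinNorm.elementary_of_abelian hV.1 hV.2.1 hV.2.2 hVab
    subst hNV
    refine ⟨r, hr, ⟨⟨fun x y => Subtype.ext (hVab x x.2 y y.2)⟩⟩, fun x => Subtype.ext (by simpa using hrV x x.2), hVt, ?_⟩
    intro ω
    rw [eq_bot_iff]
    intro n hn
    rw [Subgroup.mem_bot]
    apply Subtype.ext
    exact semireg hVt (fun m hm => hVab m hm n n.2) (a := ω) hn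
  · right
    push Not at hab
    have hst : ∀ V : Subgroup G, MN V → ∃ (T : Subgroup G), IsSimpleGroup T ∧ (∃ x ∈ T, ∃ y ∈ T, x * y ≠ y * x) ∧
        ∃ m : ℕ, 1 ≤ m ∧ Nonempty ((Fin m → T) ≃* V) := by
      intro V hV
      rcases H21.MinNorm.structure_weak hV.1 hV.2.1 hV.2.2 with h | ⟨T, hMS, hTs, hTna, hsup, hdisj⟩
      · exfalso
        obtain ⟨x, hx, y, hy, hxy⟩ := hab V hV
        exact hxy (h x hx y hy)
      · exact ⟨T, hTs, hTna, H21.Socle.minNormal_equiv hV.1 hMS hTs hTna hsup⟩
    obtain ⟨V, hVn, hV1, -, hVm⟩ := H21.MinNorm.exists_minimal (K := (⊤ : Subgroup G)) inferInstance htop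
    have hV : MN V := ⟨hVn, hV1, hVm⟩
    obtain ⟨T, hTs, hTna, m, hm, ⟨e⟩⟩ := hst V hV
    obtain ⟨T0, hT0, ⟨e0⟩⟩ := H21.Socle.exists_small T
    have hT0s : IsSimpleGroup T0 := (MulEquiv.isSimpleGroup_congr e0).mpr hTs
    have hT0na : ¬ IsMulCommutative T0 := by
      intro h
      obtain ⟨x, hx, y, hy, hxy⟩ := hTna
      apply hxy
      have h1 := h.is_comm.comm (e0.symm ⟨x, hx⟩) (e0.symm ⟨y, hy⟩)
      rw [← map_mul, ← map_mul] at h1
      exact congrArg Subtype.val (e0.symm.injective h1)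
    have eV : V ≃* (Fin m → T0) := e.symm.trans (MulEquiv.arrowCongr (Equiv.refl _) e0.symm)
    have hVt := trans_of_normal hprim V hV.1 hV.2.1
    by_cases huniq : ∀ W, MN W → W = V
    · have hNV : N = V := by
        rw [hN]
        apply le_antisymm
        · exact sSup_le (fun W hW => (huniq W hW).le)
        · exact le_sSup hV
      subst hNV
      exact ⟨T0, hT0, m, hm, hT0s, hT0na, ⟨eV⟩⟩
    · push Not at huniq
      obtain ⟨W, hW, hWV⟩ := huniq
      have hWt := trans_of_normal hprim W hW.1 hW.2.1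
      have hc := hV.comm hW (Ne.symm hWV)
      have hd : V ⊓ W = ⊥ := by
        rw [eq_bot_iff]
        intro x hx
        rw [Subgroup.mem_bot]
        -- x central in V
        obtain ⟨x', hx', y', hy', hxy⟩ := hab V hV
        have hn : (V ⊓ W).Normal := by
          haveI := hV.1; haveI := hW.1
          infer_instance
        rcases hV.2.2 _ hn inf_le_left with h | h
        · rw [h] at hx; exact hx
        · exfalso
          apply hxy
          have : y' ∈ V ⊓ W := by rw [h]; exact hy'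
          exact hc x' hx' y' this.2
      have hle : ∀ U, MN U → U ≤ V ⊔ W := by
        intro U hU
        by_cases hUV : U = V
        · rw [hUV]; exact le_sup_left
        · refine le_trans ?_ le_sup_right
          intro u hu
          obtain ⟨⟨w, hw⟩, hwa⟩ := hWt.exists_smul_eq a (u • a)
          have hwa' : w • a = u • a := hwa
          have h1 : w⁻¹ * u = 1 := by
            apply semireg hVt (a := a)
            · intro n hn
              rw [← mul_assoc, hc n hn w⁻¹ (W.inv_mem hw), mul_assoc, (hV.comm hU (Ne.symm hUV) n hn u hu), mul_assoc]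
            · rw [mul_smul, ← hwa', ← mul_smul, inv_mul_cancel, one_smul]
          have h2 : u = w := (inv_mul_eq_one.mp h1).symm
          rw [h2]; exact hw
      have hNV : N = V ⊔ W := by
        rw [hN]
        apply le_antisymm
        · exact sSup_le hle
        · exact sup_le (le_sSup hV) (le_sSup hW)
      obtain ⟨eVW⟩ := equiv_regular hVt hWt hc a
      obtain ⟨es⟩ := sup_equiv hc hd
      let e1 : (V ⊔ W : Subgroup G) ≃* (Fin m → T0) × (Fin m → T0) :=
        es.symm.trans (MulEquiv.prodCongr eV (eVW.symm.trans eV))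
      let e2 : (Fin m → T0) × (Fin m → T0) ≃* (Fin m ⊕ Fin m → T0) :=
        { Equiv.sumArrowEquivProdArrow (Fin m) (Fin m) T0 |>.symm with
          map_mul' := by
            intro x y
            funext i
            rcases i with i | i <;> rfl }
      let e3 : (Fin m ⊕ Fin m → T0) ≃* (Fin (m + m) → T0) := MulEquiv.arrowCongr finSumFinEquiv (MulEquiv.refl _)
      subst hNV
      exact ⟨T0, hT0, m + m, by omega, hT0s, hT0na, ⟨(e1.trans e2).trans e3⟩⟩

/-- The socle of a finite primitive permutation group. Let a finite group G act faithfully and primitively on a set Ω, and let N be the subgroup generated by the minimal normal subgroups of G. Then either N is an elementary abelian p-group for some prime p and acts regularly on Ω (transitively with trivial point stabilizers), or N is isomorphic to a direct product of m ≥ 1 copies of a non-abelian simple group. -/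
theorem result {G Ω : Type*} [Group G] [Finite G] [MulAction G Ω] [FaithfulSMul G Ω] [Finite Ω]
    (hprim : MulAction.IsPreprimitive G Ω) (N : Subgroup G)
    (hN : N = sSup {V : Subgroup G | V.Normal ∧ V ≠ ⊥ ∧ ∀ M : Subgroup G, M.Normal → M ≤ V → M = ⊥ ∨ M = V}) :
    (∃ p : ℕ, p.Prime ∧ IsMulCommutative N ∧ (∀ x : N, x ^ p = 1) ∧
      MulAction.IsPretransitive N Ω ∧ ∀ ω : Ω, MulAction.stabilizer N ω = ⊥) ∨
    (∃ (T : Type) (_ : Group T) (m : ℕ), 1 ≤ m ∧ IsSimpleGroup T ∧ ¬ IsMulCommutative T ∧ Nonempty (N ≃* (Fin m → T))) := by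
  exact main hprim N hN

end Cfsg.Agent.S3680
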