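import Cfsg.Statements.S3681
-- import your own Cfsg.Agent.* helpers here

set_option autoImplicit false
open Cfsg

namespace Cfsg.Agent.S3681

open MulAction Equiv.Perm

theorem H21aux_ai {Ω : Type*} (g : Equiv.Perm Ω) (x : Ω) : g (g⁻¹ x) = x := by
  rw [← Equiv.Perm.mul_apply, mul_inv_cancel, Equiv.Perm.one_apply]
theorem H21aux_ia {Ω : Type*} (g : Equiv.Perm Ω) (x : Ω) : g⁻¹ (g x) = x := by
  rw [← Equiv.Perm.mul_apply, inv_mul_cancel, Equiv.Perm.one_apply]

theorem commutator_threeCycle {Ω : Type*} [Fintype Ω] [DecidableEq Ω] (g h : Equiv.Perm Ω) (δ : Ω)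
    (hg : g δ ≠ δ) (hh : h δ ≠ δ) (hd : ∀ x, x ≠ δ → g x = x ∨ h x = x) :
    Equiv.Perm.IsThreeCycle (g * h * g⁻¹ * h⁻¹) := by
  have hgi : ∀ x, g x = x → g⁻¹ x = x := fun x hx => by
    rw [Equiv.Perm.inv_eq_iff_eq, hx]
  have hhi : ∀ x, h x = x → h⁻¹ x = x := fun x hx => by
    rw [Equiv.Perm.inv_eq_iff_eq, hx]
  have hgδ : h (g δ) = g δ := by
    rcases hd (g δ) hg with h1 | h1
    · exact absurd (g.injective h1) hg
    · exact h1
  have hhδ : g (h δ) = h δ := by
    rcases hd (h δ) hh with h1 | h1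
    · exact h1
    · exact absurd (h.injective h1) hh
  have hgiδ : g⁻¹ δ ≠ δ := by
    intro h1; rw [Equiv.Perm.inv_eq_iff_eq] at h1; exact hg h1.symm
  have hhiδ : h⁻¹ δ ≠ δ := by
    intro h1; rw [Equiv.Perm.inv_eq_iff_eq] at h1; exact hh h1.symm
  have hgiδ' : h (g⁻¹ δ) = g⁻¹ δ := by
    rcases hd (g⁻¹ δ) hgiδ with h1 | h1
    · rw [H21aux_ai] at h1; exact absurd h1.symm hgiδ
    · exact h1
  have hhiδ' : g (h⁻¹ δ) = h⁻¹ δ := by
    rcases hd (h⁻¹ δ) hhiδ with h1 | h1
    · exact h1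
    · rw [H21aux_ai] at h1; exact absurd h1.symm hhiδ
  have hne : g δ ≠ h δ := by
    intro h1
    rw [h1] at hgδ
    exact hh (h.injective hgδ)
  set c := g * h * g⁻¹ * h⁻¹ with hc
  have c1 : c δ = g δ := by
    simp only [hc, Equiv.Perm.mul_apply]
    rw [hgi _ hhiδ', H21aux_ai]
  have c2 : c (g δ) = h δ := by
    simp only [hc, Equiv.Perm.mul_apply]
    rw [hhi _ hgδ, H21aux_ia, hhδ]
  have c3 : c (h δ) = δ := by
    simp only [hc, Equiv.Perm.mul_apply]
    rw [H21aux_ia, hgiδ', H21aux_ai]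
  have c4 : ∀ x, x ≠ δ → x ≠ g δ → x ≠ h δ → c x = x := by
    intro x hx1 hx2 hx3
    simp only [hc, Equiv.Perm.mul_apply]
    have h5 : g⁻¹ x ≠ δ := by
      intro h1; rw [Equiv.Perm.inv_eq_iff_eq] at h1; exact hx2 h1
    have h6 : h⁻¹ x ≠ δ := by
      intro h1; rw [Equiv.Perm.inv_eq_iff_eq] at h1; exact hx3 h1
    rcases hd x hx1 with h1 | h1
    · -- g x = x
      rcases hd _ h6 with h2 | h2
      · rw [hgi _ h2, H21aux_ai, h1]
      · rw [H21aux_ai] at h2
        have h7 : h x = x := by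
          conv_lhs => rw [h2]
          rw [H21aux_ai]
        rw [← h2, hgi _ h1, h7, h1]
    · rw [hhi _ h1]
      rcases hd _ h5 with h2 | h2
      · rw [H21aux_ai] at h2
        have h7 : g x = x := by
          conv_lhs => rw [h2]
          rw [H21aux_ai]
        rw [← h2, h1, h7]
      · rw [h2, H21aux_ai]
  rw [← card_support_eq_three_iff]
  have hs : c.support = {δ, g δ, h δ} := by
    ext x
    rw [Equiv.Perm.mem_support]
    simp only [Finset.mem_insert, Finset.mem_singleton]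
    constructor
    · intro hx
      by_contra hcon
      push Not at hcon
      exact hx (c4 x hcon.1 hcon.2.1 hcon.2.2)
    · rintro (rfl | rfl | rfl)
      · rw [c1]; exact hg
      · rw [c2]; exact hne.symm
      · rw [c3]; exact hh.symm
  rw [hs, Finset.card_eq_three]
  exact ⟨δ, g δ, h δ, hg.symm, hh.symm, hne, rfl⟩

theorem main {Ω : Type*} [Fintype Ω] [DecidableEq Ω] (G : Subgroup (Equiv.Perm Ω))
    (hprim : MulAction.IsPreprimitive G Ω) (hA : ¬ alternatingGroup Ω ≤ G) :
    Nat.card G * Nat.factorial ((Fintype.card Ω + 1) / 2) ≤ Nat.factorial (Fintype.card Ω) := by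
  classical
  let P : Finset Ω → Prop := fun Δ => ∀ g ∈ G, (∀ x, x ∉ Δ → g x = x) → g = 1
  have hP0 : P ∅ := by
    intro g _ hg
    ext x
    exact hg x (by simp)
  obtain ⟨Δ, hΔ, hmax⟩ := Finset.exists_max_image (Finset.univ.filter P) Finset.card ⟨∅, by simpa using hP0⟩
  rw [Finset.mem_filter] at hΔ
  have hPΔ := hΔ.2
  have hk : (Fintype.card Ω + 1) / 2 ≤ Δ.card := by
    by_contra hcon
    have h1 : ¬ P Δᶜ := by
      intro h
      have h2 := hmax Δᶜ (by rw [Finset.mem_filter]; exact ⟨Finset.mem_univ _, h⟩)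
      rw [Finset.card_compl] at h2
      omega
    have h1' : ∃ g ∈ G, (∀ x, x ∉ Δᶜ → g x = x) ∧ g ≠ 1 := by
      by_contra h2
      apply h1
      intro g hg hgx
      by_contra h3
      exact h2 ⟨g, hg, hgx, h3⟩
    obtain ⟨g, hg, hgx, hg1⟩ := h1'
    obtain ⟨δ, hδ⟩ : ∃ δ, g δ ≠ δ := by
      by_contra h2
      push Not at h2
      exact hg1 (Equiv.ext h2)
    have hδΔ : δ ∉ Δ := by
      intro h2
      exact hδ (hgx δ (by simpa using h2))
    have h3 : ¬ P (insert δ Δ) := by
      intro h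
      have h2 := hmax (insert δ Δ) (by rw [Finset.mem_filter]; exact ⟨Finset.mem_univ _, h⟩)
      rw [Finset.card_insert_of_notMem hδΔ] at h2
      omega
    have h3' : ∃ g ∈ G, (∀ x, x ∉ insert δ Δ → g x = x) ∧ g ≠ 1 := by
      by_contra h2
      apply h3
      intro g hg hgx
      by_contra h3
      exact h2 ⟨g, hg, hgx, h3⟩
    obtain ⟨h, hhG, hhx, hh1⟩ := h3'
    have hhδ : h δ ≠ δ := by
      intro h2
      apply hh1
      apply hPΔ h hhG
      intro x hx
      by_cases hxδ : x = δ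
      · rw [hxδ]; exact h2
      · exact hhx x (by simp [hxδ, hx])
    have h4 := commutator_threeCycle g h δ hδ hhδ (fun x hx => by
      by_cases hxΔ : x ∈ Δ
      · left; exact hgx x (by simpa using hxΔ)
      · right; exact hhx x (by simp [hx, hxΔ]))
    exact hA (alternatingGroup_le_of_isPreprimitive_of_isThreeCycle_mem hprim h4
      (G.mul_mem (G.mul_mem (G.mul_mem hg hhG) (G.inv_mem hg)) (G.inv_mem hhG)))
  -- counting
  let f : G × Equiv.Perm {x // x ∈ Δ} → Equiv.Perm Ω := fun x => (x.1 : Equiv.Perm Ω) * Equiv.Perm.ofSubtype x.2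
  have hf : Function.Injective f := by
    rintro ⟨⟨g, hg⟩, s⟩ ⟨⟨g', hg'⟩, s'⟩ h
    have h1 : g * Equiv.Perm.ofSubtype s = g' * Equiv.Perm.ofSubtype s' := h
    have h2 : g'⁻¹ * g = Equiv.Perm.ofSubtype (s' * s⁻¹) := by
      rw [map_mul, map_inv]
      rw [inv_mul_eq_iff_eq_mul, ← mul_assoc, ← h1, mul_assoc, mul_inv_cancel, mul_one]
    have h3 : g'⁻¹ * g = 1 := by
      apply hPΔ _ (G.mul_mem (G.inv_mem hg') hg)
      intro x hx
      rw [h2]
      exact Equiv.Perm.ofSubtype_apply_of_not_mem _ hx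
    have h4 : g = g' := (inv_mul_eq_one.mp h3).symm
    subst h4
    have h5 : s = s' := by
      apply Equiv.Perm.ofSubtype_injective
      exact mul_left_cancel h1
    rw [h5]
  have hle := Nat.card_le_card_of_injective f hf
  rw [Nat.card_prod, Nat.card_perm, Nat.card_perm] at hle
  simp only [Nat.card_eq_fintype_card (α := Ω), Nat.card_eq_fintype_card (α := {x // x ∈ Δ}), Fintype.card_coe] at hle
  exact (Nat.mul_le_mul_left _ (Nat.factorial_le hk)).trans hle

/-- Bochert's bound for primitive groups. Let a finite group G act faithfully and primitively on a finite set Ω with n elements, and suppose the image of G in the symmetric group of Ω does not contain the alternating group of Ω. Then |G| · ⌊(n + 1)/2⌋! ≤ n!, that is, the index of G in the symmetric group is at least ⌊(n + 1)/2⌋!. -/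
theorem result {G Ω : Type*} [Group G] [Finite G] [MulAction G Ω] [FaithfulSMul G Ω] [Fintype Ω] [DecidableEq Ω]
    (hprim : MulAction.IsPreprimitive G Ω) (hA : ¬ alternatingGroup Ω ≤ (MulAction.toPermHom G Ω).range) :
    Nat.card G * Nat.factorial ((Fintype.card Ω + 1) / 2) ≤ Nat.factorial (Fintype.card Ω) := by
  have e : G ≃* (MulAction.toPermHom G Ω).range := MonoidHom.ofInjective (MulAction.toPerm_injective)
  rw [Nat.card_congr e.toEquiv]
  refine main _ ?_ hA
  have h0 := hprim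
  let f : Ω →ₑ[(MulAction.toPermHom G Ω).rangeRestrict] Ω := { toFun := id, map_smul' := fun _ _ => rfl }
  exact MulAction.IsPreprimitive.of_surjective (f := f) Function.surjective_id

end Cfsg.Agent.S3681
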