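import Cfsg.Statements.S3683
-- import your own Cfsg.Agent.* helpers here

set_option autoImplicit false
open Cfsg

namespace Cfsg.Agent.S3683



/-- Let a finite group G act faithfully and primitively on a set Ω, and suppose the stabilizer of a point a fixes a second point b ≠ a (a suborbit of length 1 other than {a}). Then the stabilizer of a is trivial and G is cyclic of prime order. -/
theorem result {G Ω : Type*} [Group G] [Finite G] [MulAction G Ω] [FaithfulSMul G Ω] [Finite Ω]
    (hprim : MulAction.IsPreprimitive G Ω) (a b : Ω) (hab : a ≠ b) (hfix : ∀ g : G, g • a = a → g • b = b) :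
    MulAction.stabilizer G a = ⊥ ∧ IsCyclic G ∧ (Nat.card G).Prime := by
  classical
  have hnt : Nontrivial Ω := ⟨a, b, hab⟩
  have hle : MulAction.stabilizer G a ≤ MulAction.stabilizer G b := fun g hg => hfix g hg
  obtain ⟨g, hg⟩ := hprim.toIsPretransitive.exists_smul_eq a b
  have hcoa : IsCoatom (MulAction.stabilizer G a) := (MulAction.isCoatom_stabilizer_iff_preprimitive G a).mpr hprim
  have hcob : IsCoatom (MulAction.stabilizer G b) := (MulAction.isCoatom_stabilizer_iff_preprimitive G b).mpr hprim
  have heq : MulAction.stabilizer G a = MulAction.stabilizer G b := by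
    rcases hcoa.le_iff.mp hle with h | h
    · exact absurd h hcob.1
    · exact h.symm
  -- stabilizer is normal
  have hnorm : g ∈ Subgroup.normalizer (MulAction.stabilizer G a : Set G) := by
    have h1 := MulAction.stabilizer_smul_eq_stabilizer_map_conj g a
    rw [hg, ← heq] at h1
    rw [Subgroup.mem_normalizer_iff]
    intro x
    constructor
    · intro hx
      have : g * x * g⁻¹ ∈ (MulAction.stabilizer G a).map (MulAut.conj g).toMonoidHom := ⟨x, hx, by simp⟩
      exact h1 ▸ this
    · intro hx
      have hx' : g * x * g⁻¹ ∈ (MulAction.stabilizer G a).map (MulAut.conj g).toMonoidHom := h1 ▸ hx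
      obtain ⟨y, hy, hyx⟩ := hx'
      have : y = x := by simpa using hyx
      exact this ▸ hy
  have hgn : g ∉ MulAction.stabilizer G a := by
    intro h
    have : g • a = a := h
    exact hab (by rw [← this, hg])
  have htop : Subgroup.normalizer (MulAction.stabilizer G a : Set G) = ⊤ := by
    rcases hcoa.le_iff.mp (Subgroup.le_normalizer (H := MulAction.stabilizer G a)) with h | h
    · exact h
    · exact absurd (h ▸ hnorm) hgn
  have hN : (MulAction.stabilizer G a).Normal := Subgroup.normalizer_eq_top_iff.mp htop
  have hbot : MulAction.stabilizer G a = ⊥ := by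
    rw [eq_bot_iff]
    intro x hx
    rw [Subgroup.mem_bot]
    apply FaithfulSMul.eq_of_smul_eq_smul (α := Ω)
    intro c
    obtain ⟨h, hh⟩ := hprim.toIsPretransitive.exists_smul_eq a c
    have h1 : h⁻¹ * x * h ∈ MulAction.stabilizer G a := by
      have := hN.conj_mem x hx h⁻¹
      simpa using this
    have h2 : (h⁻¹ * x * h) • a = a := h1
    rw [mul_smul, mul_smul, hh, inv_smul_eq_iff, hh] at h2
    rw [h2, one_smul]
  refine ⟨hbot, ?_⟩
  rw [hbot] at hcoa
  have hne : Nat.card G ≠ 1 := by
    intro h1
    have : (⊥ : Subgroup G) = ⊤ := by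
      have := (Nat.card_eq_one_iff_unique.mp h1).1
      exact Subsingleton.elim _ _
    exact hcoa.1 this
  obtain ⟨p, hp, hpd⟩ := Nat.exists_prime_and_dvd hne
  haveI : Fact p.Prime := ⟨hp⟩
  obtain ⟨x, hx⟩ := exists_prime_orderOf_dvd_card' p hpd
  have hz : Subgroup.zpowers x = ⊤ := by
    apply hcoa.2
    rw [bot_lt_iff_ne_bot]
    intro h
    rw [Subgroup.zpowers_eq_bot] at h
    rw [h, orderOf_one] at hx
    exact hp.one_lt.ne hx
  have hcard : Nat.card G = p := by
    rw [← hx, ← Nat.card_zpowers, hz, Subgroup.card_top]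
  refine ⟨?_, hcard ▸ hp⟩
  exact ⟨⟨x, fun y => by
    have : y ∈ Subgroup.zpowers x := by rw [hz]; trivial
    exact this⟩⟩

end Cfsg.Agent.S3683
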