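import Cfsg.Statements.S3684
import Cfsg.Agent.H21_Prim
import Cfsg.Agent.H4_Dih

set_option autoImplicit false
open Cfsg

namespace Cfsg.Agent.S3684

open MulAction H21.Prim

theorem mem_of_index_two {G : Type*} [Group G] {K H : Subgroup G} (hKH : K ≤ H) (h2 : K.relIndex H = 2)
    {h k : G} (hh : h ∈ H) (hk : k ∈ K) : h * k * h⁻¹ ∈ K := by
  have hn : (K.subgroupOf H).Normal := Subgroup.normal_of_index_eq_two h2
  have := hn.conj_mem ⟨k, hKH hk⟩ (by rw [Subgroup.mem_subgroupOf]; exact hk) ⟨h, hh⟩
  rw [Subgroup.mem_subgroupOf] at this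
  exact this

theorem main {G Ω : Type*} [Group G] [Finite G] [MulAction G Ω] [FaithfulSMul G Ω] [Finite Ω]
    (hprim : MulAction.IsPreprimitive G Ω) (a b : Ω) (h2 : Nat.card (MulAction.orbit (MulAction.stabilizer G a) b) = 2) :
    Nat.card (MulAction.stabilizer G a) = 2 ∧ ∃ p : ℕ, p.Prime ∧ Nonempty (G ≃* DihedralGroup p) := by
  classical
  haveI := hprim
  have ht : IsPretransitive G Ω := inferInstance
  have hab : a ≠ b := by
    rintro rfl
    have : orbit (stabilizer G a) a = {a} := by
      ext c
      constructor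
      · rintro ⟨⟨g, hg⟩, rfl⟩
        exact hg
      · rintro rfl
        exact mem_orbit_self _
    rw [this] at h2
    simp at h2
  haveI : Nontrivial Ω := ⟨a, b, hab⟩
  have hmax := isCoatom_stabilizer hprim a
  -- index two
  have hidx : (stabilizer G b).relIndex (stabilizer G a) = 2 := by
    rw [← h2, Subgroup.relIndex]
    have : (stabilizer G b).subgroupOf (stabilizer G a) = stabilizer (stabilizer G a) b := by
      ext x
      rw [Subgroup.mem_subgroupOf, mem_stabilizer_iff, mem_stabilizer_iff]
      rfl
    rw [this, index_stabilizer, ← Nat.card_coe_set_eq]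
  set K : Subgroup G := stabilizer G a ⊓ stabilizer G b with hK
  have hcard := card_stabilizer_eq ht a b
  have hKa : K.relIndex (stabilizer G a) = 2 := by
    rw [hK, Subgroup.inf_relIndex_left]; exact hidx
  have hKca : Nat.card K * 2 = Nat.card (stabilizer G a) := by
    rw [← hKa]
    exact H21.Prim.card_mul_relIndex inf_le_left
  have hKb : K.relIndex (stabilizer G b) = 2 := by
    have h1 : Nat.card K * K.relIndex (stabilizer G b) = Nat.card (stabilizer G b) :=
      H21.Prim.card_mul_relIndex inf_le_right
    rw [← hcard, ← hKca] at h1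
    exact Nat.eq_of_mul_eq_mul_left Nat.card_pos h1
  have hKnorm : ∀ g ∈ (stabilizer G a ⊔ stabilizer G b), ∀ k ∈ K, g * k * g⁻¹ ∈ K := by
    have hle : stabilizer G a ⊔ stabilizer G b ≤ Subgroup.normalizer (K : Set G) := by
      rw [sup_le_iff]
      constructor
      · intro x hx
        rw [Subgroup.mem_normalizer_iff]
        intro k
        constructor
        · exact fun hk => mem_of_index_two inf_le_left hKa hx hk
        · intro hk
          have := mem_of_index_two inf_le_left hKa (Subgroup.inv_mem _ hx) hk
          have e : x⁻¹ * (x * k * x⁻¹) * x⁻¹⁻¹ = k := by group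
          rwa [e] at this
      · intro x hx
        rw [Subgroup.mem_normalizer_iff]
        intro k
        constructor
        · exact fun hk => mem_of_index_two inf_le_right hKb hx hk
        · intro hk
          have := mem_of_index_two inf_le_right hKb (Subgroup.inv_mem _ hx) hk
          have e : x⁻¹ * (x * k * x⁻¹) * x⁻¹⁻¹ = k := by group
          rwa [e] at this
    intro g hg k hk
    exact (Subgroup.mem_normalizer_iff.mp (hle hg) k).mp hk
  have htop : stabilizer G a ⊔ stabilizer G b = ⊤ := by
    rcases hmax.le_iff.mp (le_sup_left : stabilizer G a ≤ stabilizer G a ⊔ stabilizer G b) with h | h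
    · exact h
    · exfalso
      have h1 : stabilizer G b ≤ stabilizer G a := by rw [← h]; exact le_sup_right
      have h3 : K = stabilizer G b := inf_eq_right.mpr h1
      rw [h3, Subgroup.relIndex_self] at hKb
      omega
  have hKn : K.Normal := ⟨fun k hk g => hKnorm g (by rw [htop]; trivial) k hk⟩
  have hKbot : K = ⊥ := normal_le_stabilizer ht hKn (a := a) inf_le_left
  have hcA : Nat.card (stabilizer G a) = 2 := by
    rw [← hKca, hKbot]; simp
  have hcB : Nat.card (stabilizer G b) = 2 := by rw [← hcard]; exact hcA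
  refine ⟨hcA, ?_⟩
  obtain ⟨⟨s, hs⟩, hs1, hsall⟩ := Nat.card_eq_two_iff' (1 : stabilizer G a) |>.mp hcA
  obtain ⟨⟨t, ht'⟩, ht1, htall⟩ := Nat.card_eq_two_iff' (1 : stabilizer G b) |>.mp hcB
  have hs1' : s ≠ 1 := fun h => hs1 (Subtype.ext h)
  have ht1' : t ≠ 1 := fun h => ht1 (Subtype.ext h)
  have hsa : ∀ x ∈ stabilizer G a, x = 1 ∨ x = s := by
    intro x hx
    by_cases h : x = 1
    · exact Or.inl h
    · right
      have := hsall ⟨x, hx⟩ (fun h' => h (congrArg Subtype.val h'))
      exact congrArg Subtype.val this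
  have htb : ∀ x ∈ stabilizer G b, x = 1 ∨ x = t := by
    intro x hx
    by_cases h : x = 1
    · exact Or.inl h
    · right
      have := htall ⟨x, hx⟩ (fun h' => h (congrArg Subtype.val h'))
      exact congrArg Subtype.val this
  have hss : s * s = 1 := by
    rcases hsa (s * s) (Subgroup.mul_mem _ hs hs) with h | h
    · exact h
    · exact absurd (mul_eq_left.mp h) hs1'
  have htt : t * t = 1 := by
    rcases htb (t * t) (Subgroup.mul_mem _ ht' ht') with h | h
    · exact h
    · exact absurd (mul_eq_left.mp h) ht1'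
  have hst : s ≠ t := by
    rintro rfl
    have : s ∈ K := ⟨hs, ht'⟩
    rw [hKbot, Subgroup.mem_bot] at this
    exact hs1' this
  have hsi : s⁻¹ = s := inv_eq_of_mul_eq_one_left hss
  have hti : t⁻¹ = t := inv_eq_of_mul_eq_one_left htt
  -- G generated by s,t
  have hgen : Subgroup.closure {s, t} = (⊤ : Subgroup G) := by
    rw [eq_top_iff, ← htop, sup_le_iff]
    constructor
    · intro x hx
      rcases hsa x hx with h | h
      · rw [h]; exact Subgroup.one_mem _
      · rw [h]; exact Subgroup.subset_closure (by simp)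
    · intro x hx
      rcases htb x hx with h | h
      · rw [h]; exact Subgroup.one_mem _
      · rw [h]; exact Subgroup.subset_closure (by simp)
  set c := s * t with hc
  have hscs : s * c * s⁻¹ = c⁻¹ := by
    rw [hc, mul_inv_rev, hsi, hti, ← mul_assoc, hss, one_mul]
  have htct : t * c * t⁻¹ = c⁻¹ := by
    rw [hc, mul_inv_rev, hsi, hti, mul_assoc, mul_assoc, htt, mul_one]
  -- powers of c generate normal subgroups
  have hnorm : ∀ d : ℕ, (Subgroup.zpowers (c ^ d)).Normal := by
    intro d
    rw [← Subgroup.normalizer_eq_top_iff, eq_top_iff, ← hgen, Subgroup.closure_le]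
    have key : ∀ u : G, u * u = 1 → u * c * u⁻¹ = c⁻¹ → u ∈ Subgroup.normalizer (Subgroup.zpowers (c ^ d) : Set G) := by
      intro u huu hu
      have h1 : ∀ x ∈ Subgroup.zpowers (c ^ d), u * x * u⁻¹ ∈ Subgroup.zpowers (c ^ d) := by
        rintro x ⟨k, rfl⟩
        refine ⟨-k, ?_⟩
        simp only
        rw [← conj_zpow, ← conj_pow, hu]
        simp
      rw [Subgroup.mem_normalizer_iff]
      intro x
      constructor
      · exact h1 x
      · intro hx
        have := h1 _ hx
        have e : u * (u * x * u⁻¹) * u⁻¹ = (u * u) * x * (u * u)⁻¹ := by group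
        rw [e, huu] at this
        simpa using this
    rintro x (rfl | rfl)
    · exact key _ hss hscs
    · exact key _ htt htct
  have hc1 : c ≠ 1 := by
    intro h
    apply hst
    have := mul_eq_one_iff_eq_inv.mp h
    rw [this, hti]
  have hCab : ∀ d : ℕ, ∀ x ∈ Subgroup.zpowers (c ^ d), ∀ y ∈ Subgroup.zpowers (c ^ d), x * y = y * x := by
    rintro d x ⟨k, rfl⟩ y ⟨l, rfl⟩
    exact (Commute.refl (c ^ d)).zpow_zpow k l
  have hcardd : ∀ d : ℕ, c ^ d ≠ 1 → orderOf (c ^ d) = Nat.card Ω := by
    intro d hd
    have h1 : Subgroup.zpowers (c ^ d) ≠ ⊥ := by rwa [Ne, Subgroup.zpowers_eq_bot]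
    have h2 := trans_of_normal hprim _ (hnorm d) h1
    have h3 := card_abelian_trans h2 (hCab d) a
    rw [Nat.card_zpowers] at h3
    exact h3
  have hoc : orderOf c = Nat.card Ω := by
    have := hcardd 1 (by rwa [pow_one])
    rwa [pow_one] at this
  have hfin : 0 < orderOf c := orderOf_pos c
  have hp : (orderOf c).Prime := by
    rw [Nat.prime_def]
    constructor
    · have h1 : orderOf c ≠ 1 := by rwa [Ne, orderOf_eq_one_iff]
      omega
    · intro d hd
      by_cases h : c ^ d = 1
      · right
        exact Nat.dvd_antisymm hd (orderOf_dvd_of_pow_eq_one h)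
      · left
        have h1 := hcardd d h
        rw [← hoc, orderOf_pow' c (fun h0 => h (by rw [h0, pow_zero])), Nat.gcd_eq_right hd] at h1
        have hd0 : 0 < d := Nat.pos_of_dvd_of_pos hd hfin
        by_contra hd1
        have h2 := Nat.div_lt_self hfin (show 1 < d by omega)
        omega
  have hsC : s ∉ Subgroup.zpowers c := by
    intro h
    -- s fixes a and lies in abelian transitive
    have h1 : Subgroup.zpowers c ≠ ⊥ := by rwa [Ne, Subgroup.zpowers_eq_bot]
    have h0 := hnorm 1
    rw [pow_one] at h0
    have h2 := trans_of_normal hprim _ h0 h1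
    have h3 := hCab 1
    rw [pow_one] at h3
    exact hs1' (semireg h2 (fun n hn => h3 n hn s h) (a := a) hs)
  have e := H4.Dih.dihEquiv (orderOf c) s c rfl hss hscs hsC
  have hcl : Subgroup.closure {s, c} = (⊤ : Subgroup G) := by
    rw [eq_top_iff, ← hgen, Subgroup.closure_le]
    rintro x (rfl | rfl)
    · exact Subgroup.subset_closure (by simp)
    · have h1 : x = s⁻¹ * c := by rw [hc]; group
      rw [h1]
      exact Subgroup.mul_mem _ (Subgroup.inv_mem _ (Subgroup.subset_closure (by simp))) (Subgroup.subset_closure (by simp))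
  exact ⟨orderOf c, hp, ⟨(Subgroup.topEquiv.symm.trans (MulEquiv.subgroupCongr hcl.symm)).trans e.symm⟩⟩

/-- Let a finite group G act faithfully and primitively on a set Ω, and suppose the stabilizer of a point a has an orbit of length 2. Then the stabilizer of a has order 2 and G is isomorphic to the dihedral group of order 2p for some prime p. -/
theorem result {G Ω : Type*} [Group G] [Finite G] [MulAction G Ω] [FaithfulSMul G Ω] [Finite Ω]
    (hprim : MulAction.IsPreprimitive G Ω) (a b : Ω) (h2 : Nat.card (MulAction.orbit (MulAction.stabilizer G a) b) = 2) :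
    Nat.card (MulAction.stabilizer G a) = 2 ∧ ∃ p : ℕ, p.Prime ∧ Nonempty (G ≃* DihedralGroup p) := by
  exact main hprim a b h2

end Cfsg.Agent.S3684
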