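import Cfsg.Statements.S3693
import Cfsg.Agent.H17_TW4

set_option autoImplicit false
open Cfsg

namespace Cfsg.Agent.S3693

/-- Let a finite group G act faithfully and primitively on a set Ω, let a and b be points such that the orbit Δ of b under the stabilizer H of a has length d ≥ 2, and consider the permutation group induced on Δ by the elements of H fixing b. If that induced group has trivial Fitting subgroup (no non-trivial nilpotent normal subgroup), then the two-point stabilizer of a and b has trivial Fitting subgroup and the order of H divides d! · ((d - 1)!)^d. -/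
theorem result {G Ω : Type*} [Group G] [Finite G] [MulAction G Ω] [FaithfulSMul G Ω] [Finite Ω]
    (hprim : MulAction.IsPreprimitive G Ω) (a b : Ω) (d : ℕ) (hd : Nat.card (MulAction.orbit (MulAction.stabilizer G a) b) = d) (h2 : 2 ≤ d)
    (hF : Cfsg.fittingSubgroup ↥(((MulAction.stabilizer G b).subgroupOf (MulAction.stabilizer G a)).map (MulAction.toPermHom (MulAction.stabilizer G a) (MulAction.orbit (MulAction.stabilizer G a) b))) = ⊥) :
    Cfsg.fittingSubgroup ↥(MulAction.stabilizer G a ⊓ MulAction.stabilizer G b) = ⊥ ∧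
      Nat.card (MulAction.stabilizer G a) ∣ Nat.factorial d * (Nat.factorial (d - 1)) ^ d := by
  have hP := Cfsg.Agent.H17.TW.prm_of hprim a b d hd h2
  apply hP.main2
  have : Finite (MulAction.orbit (MulAction.stabilizer G a) b) := inferInstance
  let φ := MulAction.toPermHom (MulAction.stabilizer G a) (MulAction.orbit (MulAction.stabilizer G a) b)
  let f : ↥(MulAction.stabilizer G a ⊓ MulAction.stabilizer G b) →*
      ↥(((MulAction.stabilizer G b).subgroupOf (MulAction.stabilizer G a)).map φ) :=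
    { toFun := fun x => ⟨φ ⟨x.1, x.2.1⟩, ⟨⟨x.1, x.2.1⟩, x.2.2, rfl⟩⟩
      map_one' := by
        apply Subtype.ext
        exact map_one φ
      map_mul' := by
        intro x y
        apply Subtype.ext
        exact map_mul φ ⟨x.1, x.2.1⟩ ⟨y.1, y.2.1⟩ }
  have hf : Function.Surjective f := by
    rintro ⟨_, ⟨x, hx, rfl⟩⟩
    exact ⟨⟨x.1, x.2, hx⟩, rfl⟩
  have h3 := Cfsg.Agent.H17.TW.fitting_le_ker f hf hF
  rintro _ ⟨x, hx, rfl⟩
  have h4 : f x = 1 := h3 hx
  have h5 : φ ⟨x.1, x.2.1⟩ = 1 := congrArg Subtype.val h4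
  intro h hh
  refine Subgroup.mem_inf.mpr ⟨?_, ?_⟩
  · exact Subgroup.mul_mem _ (Subgroup.mul_mem _ (Subgroup.inv_mem _ hh) x.2.1) hh
  · rw [MulAction.mem_stabilizer_iff]
    have h6 : φ ⟨x.1, x.2.1⟩ ⟨(⟨h, hh⟩ : MulAction.stabilizer G a) • b, ⟨⟨h, hh⟩, rfl⟩⟩ =
        ⟨(⟨h, hh⟩ : MulAction.stabilizer G a) • b, ⟨⟨h, hh⟩, rfl⟩⟩ := by
      rw [h5]; rfl
    have h7 : (x : G) • (h • b) = h • b := congrArg Subtype.val h6
    show (h⁻¹ * (x : G) * h) • b = b
    rw [mul_smul, mul_smul, h7, inv_smul_smul]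

end Cfsg.Agent.S3693
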