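import Cfsg.Statements.S3696
-- import your own Cfsg.Agent.* helpers here

set_option autoImplicit false
open Cfsg

namespace Cfsg.Agent.S3696

open MulAction

theorem chooseS {Ω : Type*} [Fintype Ω] [DecidableEq Ω] (p : ℕ) (hp : p.Prime) (A : Subgroup (Equiv.Perm Ω))
    (hab : ∀ x ∈ A, ∀ y ∈ A, x * y = y * x) : ∀ (m : ℕ) (B : Subgroup (Equiv.Perm Ω)), B ≤ A → Nat.card B ∣ p ^ m →
    ∃ S : Finset Ω, S.card ≤ m ∧ (∀ x ∈ S, ∃ b ∈ B, b x ≠ x) ∧ (∀ x ∈ S, ∀ y ∈ S, x ≠ y → ∀ a ∈ A, a x ≠ y) ∧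
      ∀ b ∈ B, (∀ x ∈ S, b x = x) → b = 1 := by
  intro m
  induction m with
  | zero =>
    intro B hB hc
    rw [pow_zero, Nat.dvd_one, Subgroup.card_eq_one] at hc
    refine ⟨∅, by simp, by simp, by simp, ?_⟩
    intro b hb _
    rw [hc] at hb
    simpa using hb
  | succ m ih =>
    intro B hB hc
    by_cases hb1 : B = ⊥
    · refine ⟨∅, by simp, by simp, by simp, ?_⟩
      intro b hb _
      rw [hb1] at hb
      simpa using hb
    · obtain ⟨b0, hb0, hb01⟩ : ∃ b : Equiv.Perm Ω, b ∈ B ∧ b ≠ 1 := by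
        by_contra h
        push Not at h
        apply hb1
        rw [eq_bot_iff]
        intro b hb
        rw [Subgroup.mem_bot]; exact h b hb
      obtain ⟨x, hx⟩ : ∃ x, b0 x ≠ x := by
        by_contra h
        push Not at h
        exact hb01 (Equiv.ext h)
      let B' : Subgroup (Equiv.Perm Ω) := B ⊓ stabilizer (Equiv.Perm Ω) x
      have hB' : B' ≤ B := inf_le_left
      have hlt : B' < B := by
        refine lt_of_le_of_ne hB' ?_
        intro h
        have : b0 ∈ B' := by rw [h]; exact hb0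
        exact hx this.2
      have hc' : Nat.card B' ∣ p ^ m := by
        have h1 : Nat.card B' ∣ Nat.card B := Subgroup.card_dvd_of_le hB'
        obtain ⟨i, hi, hi'⟩ := (Nat.dvd_prime_pow hp).mp hc
        rw [hi'] at h1
        obtain ⟨j, hj, hj'⟩ := (Nat.dvd_prime_pow hp).mp h1
        rw [hj']
        apply pow_dvd_pow
        have hne : j ≠ i := by
          intro hji
          apply hlt.ne
          apply Subgroup.eq_of_le_of_card_ge hB'
          rw [hi', hj', hji]
        omega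
      obtain ⟨S, hS1, hS2, hS3, hS4⟩ := ih B' (hB'.trans hB) hc'
      have hfix : ∀ a ∈ A, ∀ b ∈ B', b (a x) = a x := by
        intro a ha b hb
        have h1 : b * a = a * b := hab b (hB (hB' hb)) a ha
        have h2 : b x = x := hb.2
        calc b (a x) = (b * a) x := rfl
          _ = (a * b) x := by rw [h1]
          _ = a (b x) := rfl
          _ = a x := by rw [h2]
      refine ⟨insert x S, (Finset.card_insert_le _ _).trans (by omega), ?_, ?_, ?_⟩
      · intro y hy
        rw [Finset.mem_insert] at hy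
        rcases hy with rfl | hy
        · exact ⟨b0, hb0, hx⟩
        · obtain ⟨b, hb, hby⟩ := hS2 y hy
          exact ⟨b, hB' hb, hby⟩
      · have key : ∀ y ∈ S, ∀ a ∈ A, a x ≠ y := by
          intro y hy a ha h
          obtain ⟨b, hb, hby⟩ := hS2 y hy
          rw [← h] at hby
          exact hby (hfix a ha b hb)
        intro y hy z hz hyz a ha
        rw [Finset.mem_insert] at hy hz
        rcases hy with rfl | hy <;> rcases hz with rfl | hz
        · exact absurd rfl hyz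
        · exact key z hz a ha
        · intro h
          apply key y hy a⁻¹ (A.inv_mem ha)
          rw [← h, ← Equiv.Perm.mul_apply, inv_mul_cancel, Equiv.Perm.one_apply]
        · exact hS3 y hy z hz hyz a ha
      · intro b hb hbx
        apply hS4 b ⟨hb, hbx x (Finset.mem_insert_self _ _)⟩
        intro y hy
        exact hbx y (Finset.mem_insert_of_mem hy)

theorem weights {ι : Type*} [DecidableEq ι] (S : Finset ι) (e : ι → ℕ) (he : ∀ i ∈ S, 1 ≤ e i) :
    ∀ k, S.card ≤ k → k ≤ ∑ i ∈ S, e i → ∃ w : ι → ℕ, (∀ i ∈ S, 1 ≤ w i ∧ w i ≤ e i) ∧ ∑ i ∈ S, w i = k := by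
  intro k hk
  induction k, hk using Nat.le_induction with
  | base =>
    intro _
    refine ⟨fun _ => 1, fun i hi => ⟨le_refl _, he i hi⟩, by simp⟩
  | succ k hk ih =>
    intro hle
    obtain ⟨w, hw, hsum⟩ := ih (by omega)
    obtain ⟨i, hi, hlt⟩ := Finset.exists_lt_of_sum_lt (s := S) (f := w) (g := e) (by omega)
    refine ⟨Function.update w i (w i + 1), ?_, ?_⟩
    · intro j hj
      by_cases h : j = i
      · subst h
        rw [Function.update_self]
        have := hw j hj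
        omega
      · rw [Function.update_of_ne h]; exact hw j hj
    · rw [Finset.sum_update_of_mem hi]
      have := Finset.add_sum_erase S w hi
      rw [Finset.sdiff_singleton_eq_erase]
      omega

theorem amgm {ι : Type*} (S : Finset ι) (w : ι → ℕ) (z : ι → ℝ) (hz : ∀ i ∈ S, 0 ≤ z i) (k : ℕ) (hk : 0 < k)
    (hw : ∑ i ∈ S, w i = k) : (∏ i ∈ S, z i ^ w i) * (k : ℝ) ^ k ≤ (∑ i ∈ S, w i * z i) ^ k := by
  have hk' : (0 : ℝ) < k := by exact_mod_cast hk
  have h1 := Real.geom_mean_le_arith_mean_weighted S (fun i => (w i : ℝ) / k) z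
    (fun i _ => by positivity) (by
      rw [← Finset.sum_div, ← Nat.cast_sum, hw]; field_simp) hz
  have h2 : (∏ i ∈ S, z i ^ ((w i : ℝ) / k)) ^ k = ∏ i ∈ S, z i ^ w i := by
    rw [← Finset.prod_pow]
    apply Finset.prod_congr rfl
    intro i hi
    rw [← Real.rpow_natCast, ← Real.rpow_mul (hz i hi), div_mul_cancel₀ _ hk'.ne', Real.rpow_natCast]
  have h3 : ∑ i ∈ S, (w i : ℝ) / k * z i = (∑ i ∈ S, w i * z i) / k := by
    rw [Finset.sum_div]
    apply Finset.sum_congr rfl
    intro i _; ring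
  have h4 : 0 ≤ ∏ i ∈ S, z i ^ ((w i : ℝ) / k) := Finset.prod_nonneg (fun i hi => Real.rpow_nonneg (hz i hi) _)
  have h5 := pow_le_pow_left₀ h4 h1 k
  rw [h2, h3, div_pow, le_div_iff₀ (by positivity)] at h5
  exact h5

theorem numeric {ι : Type*} [DecidableEq ι] (S : Finset ι) (p : ℕ) (hp : 2 ≤ p) (e : ι → ℕ) (he : ∀ i ∈ S, 1 ≤ e i)
    (k : ℕ) (hk : S.card ≤ k) (hk' : k ≤ ∑ i ∈ S, e i) (n : ℕ) (hn : ∑ i ∈ S, p ^ e i ≤ n) :
    (∏ i ∈ S, p ^ e i) * k ^ k ≤ n ^ k := by
  rcases Nat.eq_zero_or_pos k with rfl | hk0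
  · have : S = ∅ := by
      rw [← Finset.card_eq_zero]; omega
    subst this
    simp
  obtain ⟨w, hw, hsum⟩ := weights S e he k hk hk'
  have h1 := amgm S w (fun i => (p : ℝ) ^ e i / w i) (fun i _ => by positivity) k hk0 hsum
  have h2 : ∑ i ∈ S, (w i : ℝ) * ((p : ℝ) ^ e i / w i) = ∑ i ∈ S, (p : ℝ) ^ e i := by
    apply Finset.sum_congr rfl
    intro i hi
    have : (w i : ℝ) ≠ 0 := by
      have := (hw i hi).1
      positivity
    field_simp
  rw [h2] at h1
  have h3 : ∏ i ∈ S, (p : ℝ) ^ e i ≤ ∏ i ∈ S, ((p : ℝ) ^ e i / w i) ^ w i := by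
    apply Finset.prod_le_prod
    · intro i _; positivity
    · intro i hi
      have hwi := hw i hi
      have hw0 : (0 : ℝ) < (w i : ℝ) ^ w i := by
        have : (0 : ℝ) < w i := by exact_mod_cast hwi.1
        positivity
      rw [div_pow, le_div_iff₀ hw0]
      have h4 : p ^ e i * w i ^ w i ≤ (p ^ e i) ^ w i := by
        have h5 : w i ≤ p ^ (w i - 1) := by
          have h6 : w i - 1 < 2 ^ (w i - 1) := Nat.lt_two_pow_self
          have h7 : 2 ^ (w i - 1) ≤ p ^ (w i - 1) := Nat.pow_le_pow_left hp _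
          omega
        calc p ^ e i * w i ^ w i ≤ p ^ e i * (p ^ (w i - 1)) ^ w i := Nat.mul_le_mul_left _ (Nat.pow_le_pow_left h5 _)
          _ = p ^ (e i + (w i - 1) * w i) := by rw [← pow_mul, ← pow_add]
          _ ≤ p ^ (e i + (w i - 1) * e i) := by
              apply Nat.pow_le_pow_right (by omega)
              have := Nat.mul_le_mul_left (w i - 1) hwi.2
              omega
          _ = p ^ (e i * w i) := by
              congr 1
              obtain ⟨v, hv⟩ : ∃ v, w i = v + 1 := ⟨w i - 1, by omega⟩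
              rw [hv]; simp only [Nat.add_sub_cancel]; ring
          _ = (p ^ e i) ^ w i := by rw [pow_mul]
      exact_mod_cast h4
  have h4 : (∏ i ∈ S, (p : ℝ) ^ e i) * (k : ℝ) ^ k ≤ (n : ℝ) ^ k := by
    calc (∏ i ∈ S, (p : ℝ) ^ e i) * (k : ℝ) ^ k ≤ (∏ i ∈ S, ((p : ℝ) ^ e i / w i) ^ w i) * (k : ℝ) ^ k :=
          mul_le_mul_of_nonneg_right h3 (by positivity)
      _ ≤ (∑ i ∈ S, (p : ℝ) ^ e i) ^ k := h1
      _ ≤ (n : ℝ) ^ k := by
          apply pow_le_pow_left₀
          · apply Finset.sum_nonneg; intro i _; positivity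
          · exact_mod_cast hn
  exact_mod_cast h4

theorem main {Ω : Type*} [Fintype Ω] [DecidableEq Ω]
    (p : ℕ) (hp : p.Prime) (A : Subgroup (Equiv.Perm Ω)) (hA : IsPGroup p A) (hab : IsMulCommutative A)
    (k : ℕ) (hk : Nat.card {x : A // x ^ p = 1} = p ^ k) :
    Nat.card A * k ^ k ≤ Fintype.card Ω ^ k := by
  classical
  haveI : Fact p.Prime := ⟨hp⟩
  have hab' : ∀ x ∈ A, ∀ y ∈ A, x * y = y * x := fun x hx y hy =>
    congrArg Subtype.val (hab.is_comm.comm (⟨x, hx⟩ : A) ⟨y, hy⟩)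
  let E : Subgroup (Equiv.Perm Ω) :=
    { carrier := {x | x ∈ A ∧ x ^ p = 1}
      mul_mem' := by
        rintro a b ⟨ha, ha1⟩ ⟨hb, hb1⟩
        refine ⟨A.mul_mem ha hb, ?_⟩
        have : Commute a b := hab' a ha b hb
        rw [this.mul_pow, ha1, hb1, one_mul]
      one_mem' := ⟨A.one_mem, one_pow _⟩
      inv_mem' := by
        rintro a ⟨ha, ha1⟩
        exact ⟨A.inv_mem ha, by rw [inv_pow, ha1, inv_one]⟩ }
  have hE : Nat.card E = p ^ k := by
    rw [← hk]
    refine Nat.card_congr ⟨fun x => ⟨⟨x.1, x.2.1⟩, Subtype.ext x.2.2⟩, fun x => ⟨x.1.1, x.1.2, congrArg Subtype.val x.2⟩, fun x => rfl, fun x => rfl⟩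
  have hEA : E ≤ A := fun x hx => hx.1
  obtain ⟨S, hS1, hS2, hS3, hS4⟩ := chooseS p hp A hab' k E hEA (by rw [hE])
  -- faithful on S
  have hfaith : ∀ a ∈ A, (∀ x ∈ S, a x = x) → a = 1 := by
    intro a ha hax
    by_contra ha1
    have h1 : (⟨a, ha⟩ : A) ≠ 1 := fun h => ha1 (congrArg Subtype.val h)
    obtain ⟨j, hj⟩ := (IsPGroup.iff_orderOf.mp hA) ⟨a, ha⟩
    have hj' : orderOf a = p ^ j := by rw [← hj]; exact (Subgroup.orderOf_mk a ha).symm
    have hj0 : j ≠ 0 := by
      rintro rfl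
      rw [pow_zero, orderOf_eq_one_iff] at hj'
      exact ha1 hj'
    obtain ⟨i, rfl⟩ := Nat.exists_eq_succ_of_ne_zero hj0
    have h2 : a ^ (p ^ i) ∈ E := by
      refine ⟨A.pow_mem ha _, ?_⟩
      rw [← pow_mul, ← pow_succ, ← hj', pow_orderOf_eq_one]
    have h3 : a ^ (p ^ i) = 1 := by
      apply hS4 _ h2
      intro x hx
      have h4 : ∀ m : ℕ, (a ^ m) x = x := by
        intro m
        induction m with
        | zero => simp
        | succ m ih => rw [pow_succ, Equiv.Perm.mul_apply, hax x hx, ih]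
      exact h4 _
    have h4 := orderOf_dvd_of_pow_eq_one h3
    rw [hj'] at h4
    have h5 := Nat.le_of_dvd (pow_pos hp.pos _) h4
    have h6 : p ^ i < p ^ (i + 1) := Nat.pow_lt_pow_right hp.one_lt (by omega)
    exact absurd h5 (not_le.mpr h6)
  -- orbit sizes
  have horb : ∀ x : Ω, ∃ e : ℕ, Nat.card (orbit A x) = p ^ e := by
    intro x
    obtain ⟨e, he⟩ := hA.index (stabilizer A x)
    exact ⟨e, by rw [← he, index_stabilizer, ← Nat.card_coe_set_eq]⟩
  choose e he using horb
  have he1 : ∀ x ∈ S, 1 ≤ e x := by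
    intro x hx
    by_contra h
    have h0 : e x = 0 := by omega
    have h1 := he x
    rw [h0, pow_zero] at h1
    obtain ⟨b, hb, hbx⟩ := hS2 x hx
    apply hbx
    haveI := (Nat.card_eq_one_iff_unique.mp h1).1
    have := Subsingleton.elim (⟨b x, ⟨⟨b, hEA hb⟩, rfl⟩⟩ : orbit A x) ⟨x, mem_orbit_self x⟩
    exact congrArg Subtype.val this
  -- card A bound
  have hcA : Nat.card A ≤ ∏ x ∈ S, p ^ e x := by
    let f : A → (∀ x : S, orbit A (x : Ω)) := fun a x => ⟨(a : Equiv.Perm Ω) x, ⟨a, rfl⟩⟩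
    have hf : Function.Injective f := by
      intro a b hab2
      have h1 : (b : Equiv.Perm Ω)⁻¹ * a = 1 := by
        apply hfaith _ (A.mul_mem (A.inv_mem b.2) a.2)
        intro x hx
        have h2 := congrFun hab2 ⟨x, hx⟩
        have h3 : (a : Equiv.Perm Ω) x = (b : Equiv.Perm Ω) x := congrArg Subtype.val h2
        rw [Equiv.Perm.mul_apply, h3, ← Equiv.Perm.mul_apply, inv_mul_cancel, Equiv.Perm.one_apply]
      exact Subtype.ext (inv_mul_eq_one.mp h1).symm
    have h1 := Nat.card_le_card_of_injective f hf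
    rw [Nat.card_pi] at h1
    simp_rw [he] at h1
    rw [Finset.prod_coe_sort S (fun x => p ^ e x)] at h1
    exact h1
  have hn : ∑ x ∈ S, p ^ e x ≤ Fintype.card Ω := by
    let f : (Σ x : S, orbit A (x : Ω)) → Ω := fun x => x.2
    have hf : Function.Injective f := by
      rintro ⟨⟨x, hx⟩, ⟨y, hy⟩⟩ ⟨⟨x', hx'⟩, ⟨y', hy'⟩⟩ h
      have h1 : y = y' := h
      subst h1
      have h2 : x = x' := by
        by_contra hne
        obtain ⟨⟨a, ha⟩, ha'⟩ := hy
        obtain ⟨⟨b, hb⟩, hb'⟩ := hy'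
        have ha2 : a x = y := ha'
        have hb2 : b x' = y := hb'
        apply hS3 x hx x' hx' hne (b⁻¹ * a) (A.mul_mem (A.inv_mem hb) ha)
        rw [Equiv.Perm.mul_apply, ha2, ← hb2, ← Equiv.Perm.mul_apply, inv_mul_cancel, Equiv.Perm.one_apply]
      subst h2
      rfl
    have h1 := Nat.card_le_card_of_injective f hf
    rw [Nat.card_sigma] at h1
    simp_rw [he] at h1
    rw [Finset.sum_coe_sort S (fun x => p ^ e x), Nat.card_eq_fintype_card] at h1
    exact h1
  have hksum : k ≤ ∑ x ∈ S, e x := by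
    have h1 : p ^ k ≤ p ^ (∑ x ∈ S, e x) := by
      rw [← hE, ← Finset.prod_pow_eq_pow_sum]
      exact (Subgroup.card_le_of_le hEA).trans hcA
    exact (Nat.pow_le_pow_iff_right hp.one_lt).mp h1
  have h := numeric S p hp.two_le e he1 k hS1 hksum (Fintype.card Ω) hn
  exact (Nat.mul_le_mul_right _ hcA).trans h

/-- Let p be a prime, Ω a finite set with n ≥ p elements, and A an abelian p-subgroup of the symmetric group on Ω whose elements of order dividing p number p^k (so k is the rank of A). Then |A| · k^k ≤ n^k, that is, |A| ≤ (n/k)^k. -/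
theorem result {Ω : Type*} [Fintype Ω] [DecidableEq Ω]
    (p : ℕ) (hp : p.Prime) (hn : p ≤ Fintype.card Ω) (A : Subgroup (Equiv.Perm Ω)) (hA : IsPGroup p A) (hab : IsMulCommutative A)
    (k : ℕ) (hk : Nat.card {x : A // x ^ p = 1} = p ^ k) :
    Nat.card A * k ^ k ≤ Fintype.card Ω ^ k := by
  exact main p hp A hA hab k hk

end Cfsg.Agent.S3696
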