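import Cfsg.Statements.S3703
import Cfsg.Agent.H21_Frob
import Cfsg.Agent.H1_Frob
import Cfsg.Agent.H1_Fixed
import Cfsg.Agent.H1_Coprime2
import Cfsg.Agent.H1_Nilp

set_option autoImplicit false
open Cfsg

namespace Cfsg.Agent.S3703

open Subgroup H21.Frob
open scoped Pointwise

/-- For a proper containment failure find a prime dividing the relative index. -/
theorem exists_prime_relIndex {G : Type*} [Group G] [Finite G] {A B : Subgroup G} (h : ¬ B ≤ A) :
    ∃ r : ℕ, r.Prime ∧ r ∣ A.relIndex B := by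
  apply Nat.exists_prime_and_dvd
  rwa [Ne, relIndex_eq_one]

theorem not_le_of_prime_relIndex {G : Type*} [Group G] [Finite G] {A B : Subgroup G} {r : ℕ} [hr : Fact r.Prime]
    (hr : r ∣ A.relIndex B) (P : Sylow r B) : ¬ (P : Subgroup B).map B.subtype ≤ A := by
  intro h
  have h1 : A.relIndex B ∣ ((P : Subgroup B).map B.subtype).relIndex B := relIndex_dvd_of_le_left _ h
  have h2 : ((P : Subgroup B).map B.subtype).relIndex B = (P : Subgroup B).index := by
    rw [relIndex, Subgroup.subgroupOf, Subgroup.comap_map_eq_self_of_injective B.subtype_injective]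
  rw [h2] at h1
  exact P.not_dvd_index (hr.trans h1)

/-- the action of the normalizer on the abelianization -/
noncomputable def rhoAb {G : Type*} [Group G] (P : Subgroup G) : normalizer (P : Set G) →* MulAut (Abelianization P) where
  toFun g := MulEquiv.abelianizationCongr (P.normalizerMonoidHom g)
  map_one' := by
    apply MulEquiv.ext
    intro x
    obtain ⟨w, rfl⟩ : ∃ w : P, Abelianization.of w = x := QuotientGroup.mk_surjective x
    rw [map_one]
    rfl
  map_mul' := by
    intro g h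
    apply MulEquiv.ext
    intro x
    obtain ⟨w, rfl⟩ : ∃ w : P, Abelianization.of w = x := QuotientGroup.mk_surjective x
    rw [map_mul]
    rfl

theorem rhoAb_of {G : Type*} [Group G] (P : Subgroup G) (g : normalizer (P : Set G)) (w : P) :
    rhoAb P g (Abelianization.of w) = Abelianization.of (P.normalizerMonoidHom g w) := rfl

theorem normal_pow {G : Type*} [Group G] (P : Subgroup G) (x : normalizer (P : Set G)) (w : P) (n : ℕ) :
    ∃ c : P, ((w : G) * x) ^ n = c * (x : G) ^ n ∧
      Abelianization.of c = ∏ i ∈ Finset.range n, rhoAb P (x ^ i) (Abelianization.of w) := by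
  induction n with
  | zero => exact ⟨1, by simp, by simp⟩
  | succ n ih =>
    obtain ⟨c, hc1, hc2⟩ := ih
    refine ⟨c * P.normalizerMonoidHom (x ^ n) w, ?_, ?_⟩
    · rw [pow_succ, hc1]
      have : ((P.normalizerMonoidHom (x ^ n) w : P) : G) = (x : G) ^ n * w * ((x : G) ^ n)⁻¹ := rfl
      rw [Subgroup.coe_mul, this, pow_succ]
      group
    · rw [map_mul, hc2, Finset.prod_range_succ, rhoAb_of]

/-- Core argument -/
theorem core {G : Type*} [Group G] [Finite G] (p : ℕ) [Fact p.Prime] (P R : Subgroup G) (hP : IsPGroup p P)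
    (hR : R ≤ normalizer (P : Set G)) (x : G) (hxP : x ∈ normalizer (P : Set G)) (h : ℕ) (hh : 0 < h)
    (hxR : ∀ u ∈ R, x * u * x⁻¹ ∈ R) (hinj : ∀ i, 0 < i → i < h → ∀ u ∈ R, x ^ i * u = u * x ^ i → u = 1)
    (hpow : ∀ w ∈ P, (w * x) ^ h = 1) (hcop : (Nat.card R).Coprime (Nat.card P)) :
    R ≤ centralizer (P : Set G) := by
  classical
  let Q : Subgroup (normalizer (P : Set G)) := R.subgroupOf _
  haveI : Fintype Q := Fintype.ofFinite _
  have hcard : Fintype.card Q = Nat.card R := by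
    rw [← Nat.card_eq_fintype_card]
    exact Nat.card_congr (Subgroup.subgroupOfEquivOfLe hR).toEquiv
  have hxh : x ^ h = 1 := by
    have := hpow 1 P.one_mem
    rwa [one_mul] at this
  have h1 := frob_fixed (rhoAb P) Q ⟨x, hxP⟩ h hh (fun u hu => hxR u hu) (by
    intro i hi hih u hu hux
    apply Subtype.ext
    exact hinj i hi hih u hu (congrArg Subtype.val hux)) (by
    intro v
    obtain ⟨w, rfl⟩ : ∃ w : P, Abelianization.of w = v := QuotientGroup.mk_surjective v
    obtain ⟨c, hc1, hc2⟩ := normal_pow P ⟨x, hxP⟩ w h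
    rw [← hc2]
    have h2 : (c : G) = 1 := by
      have h3 := hpow w w.2
      have h4 : ((w : G) * x) ^ h = c * x ^ h := hc1
      rw [h3, hxh, mul_one] at h4
      exact h4.symm
    have h3 : c = 1 := Subtype.ext h2
    rw [h3, map_one])
  have hcardV : Nat.card (Abelianization P) ∣ Nat.card P := by
    exact Subgroup.card_quotient_dvd_card (commutator P)
  have h2 : ∀ s ∈ R, ∀ k : P, ∀ (hs : s ∈ normalizer (P : Set G)), rhoAb P ⟨s, hs⟩ (Abelianization.of k) = Abelianization.of k := by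
    intro s hs k hsN
    have h3 := h1 (Abelianization.of k) ⟨s, hsN⟩ hs
    rw [map_pow] at h3
    have h4 : (rhoAb P ⟨s, hsN⟩ (Abelianization.of k) * (Abelianization.of k)⁻¹) ^ Fintype.card Q = 1 := by
      rw [mul_pow, h3, inv_pow, mul_inv_cancel]
    have h5 := orderOf_dvd_of_pow_eq_one h4
    have h6 : orderOf (rhoAb P ⟨s, hsN⟩ (Abelianization.of k) * (Abelianization.of k)⁻¹) ∣ Nat.card P :=
      (_root_.orderOf_dvd_natCard _).trans hcardV
    rw [hcard] at h5
    have h7 := Nat.eq_one_of_dvd_coprimes hcop h5 h6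
    rw [orderOf_eq_one_iff] at h7
    exact mul_inv_eq_one.mp h7
  apply H1.Coprime.trivial_on_frattini_quotient R P hR (hcop.coprime_dvd_right (Subgroup.card_subgroup_dvd_card _))
  intro s hs k hk
  have h3 := h2 s hs ⟨k, hk⟩ (hR hs)
  rw [rhoAb_of] at h3
  have h4 : P.normalizerMonoidHom ⟨s, hR hs⟩ ⟨k, hk⟩ * (⟨k, hk⟩ : P)⁻¹ ∈ commutator P := by
    have h5 : Abelianization.of (P.normalizerMonoidHom ⟨s, hR hs⟩ ⟨k, hk⟩ * (⟨k, hk⟩ : P)⁻¹) = 1 := by
      rw [map_mul, h3, map_inv, mul_inv_cancel]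
    rw [← Abelianization.ker_of (G := P), MonoidHom.mem_ker]
    exact h5
  have h5 := (H1.Nilp.commutator_le_frattini hP).1 h4
  exact ⟨_, h5, rfl⟩

theorem main {G : Type*} [Group G] [Finite G] (N : Subgroup G) [N.Normal]
    (Fb Hb : Subgroup (G ⧸ N)) [Fb.Normal] (hHb : Cfsg.IsFrobeniusComplement Hb) (hker : Cfsg.frobeniusKernel Hb = (Fb : Set (G ⧸ N)))
    (hcyc : IsCyclic Hb) (hcop : (Nat.card Fb).Coprime (Nat.card N))
    (hnot : ¬ Fb ≤ (Subgroup.centralizer (N : Set G)).map (QuotientGroup.mk' N)) :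
    ∃ p : ℕ, p.Prime ∧ p ∣ Nat.card N ∧ ∃ g : G, orderOf g = p * Nat.card Hb := by
  classical
  by_contra hcon
  push Not at hcon
  set f := QuotientGroup.mk' N with hf
  have hsurj : Function.Surjective f := QuotientGroup.mk'_surjective N
  have hkerf : ∀ g, f g = 1 ↔ g ∈ N := by
    intro g; rw [← MonoidHom.mem_ker, hf, QuotientGroup.ker_mk']
  -- Frobenius facts
  have hFcard : Nat.card Fb = Hb.index := by
    have := H1.Frob.card_kernel hHb
    rw [hker] at this
    exact this
  have hcopFH : (Nat.card Hb).Coprime (Nat.card Fb) := by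
    rw [hFcard]
    exact H1.Fixed.coprime_of_centralizer_le Hb (fun x hx hx1 y hy => 
      H1.Frob.centralizer_le hHb hx hx1 (Subgroup.mem_centralizer_singleton_iff.mp hy))
  have hFH : ∀ x, x ∈ Fb → x ∈ Hb → x = 1 := by
    intro x hxF hxH
    have h1 : x ∈ Cfsg.frobeniusKernel Hb := by rw [hker]; exact hxF
    rcases h1 with h1 | h1
    · exact h1
    · exfalso
      have := h1 1
      rw [map_one, one_smul] at this
      exact this hxH
  obtain ⟨⟨xb, hxbH⟩, hxb⟩ := hcyc.exists_generator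
  have hxbo : orderOf xb = Nat.card Hb := by
    have : orderOf (⟨xb, hxbH⟩ : Hb) = Nat.card Hb := orderOf_eq_card_of_forall_mem_zpowers hxb
    rw [← this]; exact (Subgroup.orderOf_mk xb hxbH).symm
  have hHpos : 0 < Nat.card Hb := Nat.card_pos
  have hHsol : Group.IsSolvable Hb := by
    letI := hcyc.commGroup
    infer_instance
  -- (star)
  have hstar : ∀ y : G, orderOf (f y) = Nat.card Hb → y ^ Nat.card Hb = 1 := by
    intro y hy
    by_contra hne
    have h1 : Nat.card Hb ∣ orderOf y := by rw [← hy]; exact orderOf_map_dvd f y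
    obtain ⟨m, hm⟩ := h1
    have h2 : orderOf (y ^ Nat.card Hb) = m := by
      rw [orderOf_pow_of_dvd hHpos.ne' ⟨m, hm⟩, hm, Nat.mul_div_cancel_left _ hHpos]
    have hm1 : m ≠ 1 := by
      rintro rfl
      rw [orderOf_eq_one_iff] at h2
      exact hne h2
    obtain ⟨q, hq, hqm⟩ := Nat.exists_prime_and_dvd hm1
    have h3 : y ^ Nat.card Hb ∈ N := by
      rw [← hkerf, map_pow, ← hy, pow_orderOf_eq_one]
    have h4 : m ∣ Nat.card N := by
      rw [← h2, ← Subgroup.orderOf_mk _ h3]
      exact _root_.orderOf_dvd_natCard _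
    obtain ⟨c, rfl⟩ := hqm
    have hc0 : c ≠ 0 := by
      rintro rfl
      rw [mul_zero, mul_zero] at hm
      exact (orderOf_pos y).ne' hm
    apply hcon q hq ((Dvd.intro c rfl).trans h4) (y ^ c)
    rw [orderOf_pow_of_dvd hc0 ⟨Nat.card Hb * q, by rw [hm]; ring⟩, hm]
    rw [show Nat.card Hb * (q * c) = (q * Nat.card Hb) * c by ring]
    exact Nat.mul_div_cancel _ (Nat.pos_of_ne_zero hc0)
  -- the prime r
  obtain ⟨r, hr, hrdvd⟩ := exists_prime_relIndex hnot
  haveI : Fact r.Prime := ⟨hr⟩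
  have hHF : Hb ≤ normalizer (Fb : Set (G ⧸ N)) := by
    rw [Subgroup.normalizer_eq_top]; exact le_top
  obtain ⟨Rs, hRs⟩ := H1.Coprime.invariant_sylow_exists Hb Fb hHF hcopFH (Or.inl hHsol) r
  have hRnot := not_le_of_prime_relIndex hrdvd Rs
  set Rb : Subgroup (G ⧸ N) := (Rs : Subgroup Fb).map Fb.subtype with hRb
  have hRbF : Rb ≤ Fb := Subgroup.map_subtype_le _
  have hRbp : IsPGroup r Rb := Rs.isPGroup'.map _
  obtain ⟨k, hk⟩ := hRbp.exists_card_eq
  have hrF : r ∣ Nat.card Fb := hrdvd.trans (relIndex_dvd_card _ _)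
  have hrN : ¬ r ∣ Nat.card N := fun h => hr.one_lt.ne' (Nat.eq_one_of_dvd_coprimes hcop hrF h)
  -- preimage
  set Rh : Subgroup G := Rb.comap f with hRh
  have hNRh : N ≤ Rh := by
    intro n hn
    change f n ∈ Rb
    rw [(hkerf n).mpr hn]; exact Rb.one_mem
  have hrel : N.relIndex Rh = r ^ k := by
    have h1 := Subgroup.relIndex_ker f (K := Rh)
    have h2 : Rh.map f = Rb := Subgroup.map_comap_eq_self_of_surjective hsurj Rb
    rw [h2, hk] at h1
    rw [← h1, hf, QuotientGroup.ker_mk']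
  have hcopN : (Nat.card N).Coprime (r ^ k) := by
    apply Nat.Coprime.pow_right
    exact (Nat.Coprime.symm ((Nat.Prime.coprime_iff_not_dvd hr).mpr hrN))
  obtain ⟨R, hRRh, hRcard, hRN, hRNs⟩ := H1.Coprime.sz_exists hNRh (by rw [Subgroup.normalizer_eq_top]; exact le_top)
    (by rw [hrel]; exact hcopN)
  rw [hrel] at hRcard
  have hRp : IsPGroup r R := IsPGroup.of_card hRcard
  have hRsol : Group.IsSolvable R := by
    haveI := hRp.isNilpotent
    infer_instance
  have hcopRN : (Nat.card R).Coprime (Nat.card N) := by rw [hRcard]; exact hcopN.symm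
  have hRnorm : R ≤ normalizer (N : Set G) := by rw [Subgroup.normalizer_eq_top]; exact le_top
  have hNR : ¬ N ≤ centralizer (R : Set G) := by
    intro h
    apply hRnot
    intro y hy
    obtain ⟨g, rfl⟩ := hsurj y
    have hg : g ∈ Rh := hy
    rw [← hRNs] at hg
    obtain ⟨s, hs, n, hn, rfl⟩ := Subgroup.mem_sup_of_normal_right.mp hg
    refine ⟨s, ?_, ?_⟩
    · rw [SetLike.mem_coe, mem_centralizer_iff]
      intro n' hn'
      exact (mem_centralizer_iff.mp (h hn') s hs).symm
    · rw [map_mul, (hkerf n).mpr hn, mul_one]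
  obtain ⟨p, hp, hpdvd⟩ := exists_prime_relIndex hNR
  haveI : Fact p.Prime := ⟨hp⟩
  obtain ⟨Ps, hPs⟩ := H1.Coprime.invariant_sylow_exists R N hRnorm hcopRN (Or.inl hRsol) p
  have hPnot := not_le_of_prime_relIndex hpdvd Ps
  set P : Subgroup G := (Ps : Subgroup N).map N.subtype with hP
  have hPN : P ≤ N := Subgroup.map_subtype_le _
  have hPp : IsPGroup p P := Ps.isPGroup'.map _
  -- x0
  have hfr : normalizer (P : Set G) ⊔ N = ⊤ := Sylow.normalizer_sup_eq_top Ps
  obtain ⟨x0, hx0P, hx0⟩ : ∃ x0 ∈ normalizer (P : Set G), f x0 = xb := by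
    obtain ⟨g, hg⟩ := hsurj xb
    have h1 : g ∈ normalizer (P : Set G) ⊔ N := by rw [hfr]; trivial
    obtain ⟨y, hy, n, hn, rfl⟩ := Subgroup.mem_sup_of_normal_right.mp h1
    refine ⟨y, hy, ?_⟩
    rw [← hg, map_mul, (hkerf n).mpr hn, mul_one]
  set A : Subgroup G := normalizer (P : Set G) ⊓ Rh with hA
  have hRA : R ≤ A := le_inf hPs hRRh
  have hxbR : ∀ g : G, f g = xb → ∀ u, u ∈ Rh ↔ g * u * g⁻¹ ∈ Rh := by
    intro g hg u
    have h1 := hRs hxbH
    rw [mem_normalizer_iff] at h1
    have h2 := h1 (f u)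
    change f u ∈ Rb ↔ f (g * u * g⁻¹) ∈ Rb
    rw [map_mul, map_mul, map_inv, hg]
    exact h2
  have hRA2 : MulAut.conj x0 • R ≤ A := by
    rintro _ ⟨u, hu, rfl⟩
    refine Subgroup.mem_inf.mpr ⟨?_, ?_⟩
    · change x0 * u * x0⁻¹ ∈ _
      exact Subgroup.mul_mem _ (Subgroup.mul_mem _ hx0P (hPs hu)) (Subgroup.inv_mem _ hx0P)
    · exact (hxbR x0 hx0 u).mp (hRRh hu)
  have hcardA : (Nat.card A).factorization r = k := by
    have h1 : Nat.card Rh = Nat.card N * r ^ k := by
      have h1 := Subgroup.card_mul_index (N.subgroupOf Rh)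
      rw [Nat.card_congr (Subgroup.subgroupOfEquivOfLe hNRh).toEquiv] at h1
      rw [← h1]; congr 1
    have h2 : Nat.card A ∣ Nat.card N * r ^ k := by rw [← h1]; exact Subgroup.card_dvd_of_le inf_le_right
    have h3 : r ^ k ∣ Nat.card A := by rw [← hRcard]; exact Subgroup.card_dvd_of_le hRA
    apply le_antisymm
    · have h4 := (Nat.factorization_le_iff_dvd Nat.card_pos.ne' (Nat.mul_ne_zero Nat.card_pos.ne' (pow_ne_zero _ hr.ne_zero))).mpr h2 r
      rw [Nat.factorization_mul Nat.card_pos.ne' (pow_ne_zero _ hr.ne_zero)] at h4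
      simp only [Finsupp.add_apply, Nat.factorization_eq_zero_of_not_dvd hrN, zero_add] at h4
      rw [Nat.Prime.factorization_pow hr] at h4
      simpa using h4
    · exact (hr.pow_dvd_iff_le_factorization Nat.card_pos.ne').mp h3
  obtain ⟨a, ha, haR⟩ := H1.Coprime.exists_conj_of_card_eq (K := A) (P := R) (Q := MulAut.conj x0 • R) (p := r)
    hRA hRA2 (by rw [hcardA, hRcard]) (by
      rw [hcardA, ← hRcard]
      exact Subgroup.card_map_of_injective (MulAut.conj x0).injective)
  -- decompose a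
  have haRh : a ∈ R ⊔ N := by rw [hRNs]; exact (Subgroup.mem_inf.mp ha).2
  rw [sup_comm] at haRh
  obtain ⟨n, hn, s, hs, rfl⟩ := Subgroup.mem_sup_of_normal_left.mp haRh
  have hnA : n ∈ A := by
    have := A.mul_mem ha (A.inv_mem (hRA hs))
    simpa using this
  have hsR : MulAut.conj s • R = R := Subgroup.conj_smul_eq_self_of_mem hs
  rw [map_mul, mul_smul, hsR] at haR
  set x := n⁻¹ * x0 with hx
  have hxP : x ∈ normalizer (P : Set G) := Subgroup.mul_mem _ (Subgroup.inv_mem _ (Subgroup.mem_inf.mp hnA).1) hx0P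
  have hfx : f x = xb := by
    rw [hx, map_mul, map_inv, (hkerf n).mpr hn, inv_one, one_mul, hx0]
  have hxR : ∀ u ∈ R, x * u * x⁻¹ ∈ R := by
    intro u hu
    have h1 : x0 * u * x0⁻¹ ∈ MulAut.conj n • R := by
      rw [haR]; exact ⟨u, hu, rfl⟩
    obtain ⟨v, hv, hv'⟩ := h1
    have h2 : n * v * n⁻¹ = x0 * u * x0⁻¹ := hv'
    have h3 : x * u * x⁻¹ = v := by
      calc x * u * x⁻¹ = n⁻¹ * (x0 * u * x0⁻¹) * n := by rw [hx]; group
        _ = v := by rw [← h2]; group
    rw [h3]; exact hv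
  -- apply core
  have hfin := core p P R hPp hPs x hxP (Nat.card Hb) hHpos hxR (by
    intro i hi hih u hu hux
    have h1 : f u ∈ Fb := hRbF (hRRh hu)
    have h2 : xb ^ i ≠ 1 := by
      intro h3
      have h4 := orderOf_dvd_of_pow_eq_one h3
      rw [hxbo] at h4
      exact absurd (Nat.le_of_dvd hi h4) (not_le.mpr hih)
    have h3 : f u ∈ Hb := by
      apply H1.Frob.centralizer_le hHb (h := xb ^ i) (Hb.pow_mem hxbH i) h2
      rw [← hfx, ← map_pow, ← map_mul, ← map_mul, hux]
    have h4 := hFH _ h1 h3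
    rw [hkerf] at h4
    have h5 : u ∈ R ⊓ N := Subgroup.mem_inf.mpr ⟨hu, h4⟩
    rw [hRN, mem_bot] at h5
    exact h5) (by
    intro w hw
    apply hstar
    rw [map_mul, (hkerf w).mpr (hPN hw), one_mul, hfx, hxbo])
    (hcopRN.coprime_dvd_right (Subgroup.card_dvd_of_le hPN))
  apply hPnot
  rw [Subgroup.le_centralizer_iff]
  exact hfin

/-- Let N be a normal subgroup of the finite group G such that G/N is a Frobenius group with kernel F and cyclic complement H, where the order of F is coprime to that of N and F is not contained in the image of C_G(N) in G/N. Then G has an element of order p·#H for some prime p dividing the order of N. (A standard tool in recognising groups by their element orders.) -/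
theorem result {G : Type*} [Group G] [Finite G] (N : Subgroup G) [N.Normal]
    (Fb Hb : Subgroup (G ⧸ N)) [Fb.Normal] (hHb : Cfsg.IsFrobeniusComplement Hb) (hker : Cfsg.frobeniusKernel Hb = (Fb : Set (G ⧸ N)))
    (hcyc : IsCyclic Hb) (hcop : (Nat.card Fb).Coprime (Nat.card N))
    (hnot : ¬ Fb ≤ (Subgroup.centralizer (N : Set G)).map (QuotientGroup.mk' N)) :
    ∃ p : ℕ, p.Prime ∧ p ∣ Nat.card N ∧ ∃ g : G, orderOf g = p * Nat.card Hb := by
  exact main N Fb Hb hHb hker hcyc hcop hnot

end Cfsg.Agent.S3703
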