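import Cfsg.Statements.S3778
import Cfsg.Agent.H22_Basic

set_option autoImplicit false
open Cfsg

namespace Cfsg.Agent.S3778

open Subgroup
open scoped commutatorElement

variable {G : Type*} [Group G]

/-- elements centralizing `x` modulo `N` -/
def E (N : Subgroup G) [N.Normal] (x : G) : Subgroup G :=
  (centralizer ({(x : G ⧸ N)} : Set (G ⧸ N))).comap (QuotientGroup.mk' N)

theorem mem_E (N : Subgroup G) [N.Normal] (x g : G) : g ∈ E N x ↔ ⁅g, x⁆ ∈ N := by
  show (g : G ⧸ N) ∈ centralizer ({(x : G ⧸ N)} : Set (G ⧸ N)) ↔ _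
  rw [mem_centralizer_singleton_iff, ← QuotientGroup.eq_one_iff, commutatorElement_def,
    QuotientGroup.mk_mul, QuotientGroup.mk_mul, QuotientGroup.mk_mul, QuotientGroup.mk_inv, QuotientGroup.mk_inv,
    mul_inv_eq_one, mul_inv_eq_iff_eq_mul]

/-- elements centralizing `M` modulo `N` -/
def K (M N : Subgroup G) [N.Normal] : Subgroup G := ⨅ g : M, E N (g : G)

theorem mem_K (M N : Subgroup G) [N.Normal] (x : G) : x ∈ K M N ↔ ∀ g ∈ M, ⁅x, g⁆ ∈ N := by
  rw [K, mem_iInf]
  simp only [mem_E]
  exact ⟨fun h g hg => h ⟨g, hg⟩, fun h g => h g g.2⟩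

theorem rel_ne [Finite G] {H K : Subgroup G} : H.relIndex K ≠ 0 := Subgroup.index_ne_zero_of_finite

open Classical in
theorem bound [Finite G] {p : ℕ} [hp : Fact p.Prime] (hG : IsPGroup p G) (x : G) (m : ℕ) :
    ∀ j, j ≤ m → p ^ ((Finset.Ico j m).filter (fun i => x ∉ K ((⊤ : Subgroup G).lowerCentralSeries i) ((⊤ : Subgroup G).lowerCentralSeries (i + 2)))).card
      ≤ (centralizer ({x} : Set G)).relIndex ((⊤ : Subgroup G).lowerCentralSeries j) := by
  intro j hj
  induction' hk : m - j with k ih generalizing j
  · have : Finset.Ico j m = ∅ := Finset.Ico_eq_empty (by omega)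
    rw [this, Finset.filter_empty, Finset.card_empty, pow_zero]
    exact Nat.one_le_iff_ne_zero.mpr rel_ne
  · have hjm : j < m := by omega
    have ih' := ih (j + 1) (by omega) (by omega)
    set Γ := fun i => (⊤ : Subgroup G).lowerCentralSeries i with hΓ
    set C := centralizer ({x} : Set G) with hC
    rw [← Finset.insert_Ico_add_one_left_eq_Ico hjm, Finset.filter_insert]
    have hmono : Γ (j + 1) ≤ Γ j := (⊤ : Subgroup G).lowerCentralSeries_antitone (Nat.le_succ j)
    have hle : C.relIndex (Γ (j + 1)) ≤ C.relIndex (Γ j) :=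
      Subgroup.relIndex_le_of_le_right hmono rel_ne
    split_ifs with hx
    · exact ih'.trans hle
    · rw [Finset.card_insert_of_notMem (by intro h; rw [Finset.mem_filter, Finset.mem_Ico] at h; omega)]
      -- D = Γ(j+1) ⊔ (C ⊓ Γ j)
      set D := Γ (j + 1) ⊔ (C ⊓ Γ j) with hD
      have hDle : D ≤ Γ j := sup_le hmono inf_le_right
      have hDE : D ≤ E (Γ (j + 2)) x := by
        refine sup_le ?_ ?_
        · intro g hg
          rw [mem_E]
          exact Subgroup.commutator_mem_commutator hg (mem_top x)
        · intro g hg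
          rw [mem_E]
          have h1 : g * x = x * g := mem_centralizer_singleton_iff.mp hg.1
          have h2 : ⁅g, x⁆ = 1 := commutatorElement_eq_one_iff_mul_comm.mpr h1
          rw [h2]; exact one_mem _
      have hDlt : D ≠ Γ j := by
        intro h
        apply hx
        rw [mem_K]
        intro g hg
        have h1 : g ∈ D := by rw [h]; exact hg
        have h2 := (mem_E _ _ _).mp (hDE h1)
        rw [← commutatorElement_inv]
        exact inv_mem h2
      have h1 : C.relIndex (Γ j) = (C.relIndex D) * (D.relIndex (Γ j)) := by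
        have h2 : (C ⊓ Γ j).relIndex D * D.relIndex (Γ j) = (C ⊓ Γ j).relIndex (Γ j) :=
          Subgroup.relIndex_mul_relIndex _ _ _ le_sup_right hDle
        have h3 : (C ⊓ Γ j).relIndex (Γ j) = C.relIndex (Γ j) := Subgroup.inf_relIndex_right _ _
        have h4 : (C ⊓ Γ j).relIndex D = C.relIndex D := by
          rw [← Subgroup.inf_relIndex_right, ← Subgroup.inf_relIndex_right C D]
          congr 1
          rw [inf_assoc, inf_eq_right.mpr hDle]
        rw [← h3, ← h2, h4]
      have h2 : C.relIndex (Γ (j + 1)) ≤ C.relIndex D :=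
        Subgroup.relIndex_le_of_le_right le_sup_left rel_ne
      have h3 : p ≤ D.relIndex (Γ j) := by
        obtain ⟨k, hk⟩ : ∃ k, D.relIndex (Γ j) = p ^ k := by
          obtain ⟨m, hm⟩ := (hG.to_subgroup (Γ j)).exists_card_eq
          have h4 : D.relIndex (Γ j) ∣ p ^ m := by
            rw [← hm]; exact Subgroup.relIndex_dvd_card _ _
          obtain ⟨k, _, hk⟩ := (Nat.dvd_prime_pow hp.out).mp h4
          exact ⟨k, hk⟩
        rw [hk]
        apply Nat.le_self_pow
        rintro rfl
        rw [pow_zero] at hk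
        exact hDlt (le_antisymm hDle (Subgroup.relIndex_eq_one.mp hk))
      rw [h1, pow_succ]
      exact Nat.mul_le_mul (ih'.trans h2) h3

/-- If G is a finite p-group in which every conjugacy class has at most p^b elements, then G is abelian when b = 0, and when b ≥ 1 its nilpotency class c satisfies (c − 1)(p − 1) < bp, and hence c ≤ 2b. -/
theorem result {G : Type*} [Group G] [Finite G] {p : ℕ} [Fact p.Prime] (hG : IsPGroup p G) (b : ℕ) (hb : ∀ x : G, (Subgroup.centralizer ({x} : Set G)).index ≤ p ^ b) : ∃ c : ℕ, (⊤ : Subgroup G).lowerCentralSeries c = ⊥ ∧ (b ≠ 0 → (c - 1) * (p - 1) < b * p ∧ c ≤ 2 * b) ∧ (b = 0 → c ≤ 1) := by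
  classical
  have hpp := Fact.out (p := p.Prime)
  have := Fintype.ofFinite G
  have hnil := hG.isNilpotent
  have hex : ∃ n, (⊤ : Subgroup G).lowerCentralSeries n = ⊥ := Subgroup.nilpotent_iff_lowerCentralSeries.mp hnil
  set c := Nat.find hex with hc
  have hc0 : (⊤ : Subgroup G).lowerCentralSeries c = ⊥ := Nat.find_spec hex
  have hcm : ∀ m < c, (⊤ : Subgroup G).lowerCentralSeries m ≠ ⊥ := fun m hm => Nat.find_min hex hm
  refine ⟨c, hc0, ?_, ?_⟩
  · intro hb0
    have hK : ∀ i, i < c - 1 → p * Nat.card (K ((⊤ : Subgroup G).lowerCentralSeries i) ((⊤ : Subgroup G).lowerCentralSeries (i + 2))) ≤ Nat.card G := by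
      intro i hi
      set C := K ((⊤ : Subgroup G).lowerCentralSeries i) ((⊤ : Subgroup G).lowerCentralSeries (i + 2)) with hC
      have hCtop : C ≠ ⊤ := by
        intro h
        have h1 : (⊤ : Subgroup G).lowerCentralSeries (i + 1) ≤ (⊤ : Subgroup G).lowerCentralSeries (i + 2) := by
          rw [Subgroup.lowerCentralSeries_succ, Subgroup.commutator_le]
          intro g hg x _
          have h2 : x ∈ C := by rw [h]; trivial
          have h3 := (mem_K _ _ _).mp h2 g hg
          rw [← commutatorElement_inv]
          exact inv_mem h3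
        have h4 : ∀ k, (⊤ : Subgroup G).lowerCentralSeries (i + 1) ≤ (⊤ : Subgroup G).lowerCentralSeries (i + 1 + k) := by
          intro k
          induction k with
          | zero => exact le_refl _
          | succ k ih =>
            refine h1.trans ?_
            have := Subgroup.commutator_mono ih (le_refl (⊤ : Subgroup G))
            exact this
        apply hcm (i + 1) (by omega)
        rw [eq_bot_iff, ← hc0]
        have := h4 (c - (i + 1))
        rwa [show i + 1 + (c - (i + 1)) = c by omega] at this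
      have h1 : C.index ≠ 1 := fun h => hCtop (Subgroup.index_eq_one.mp h)
      obtain ⟨n, hn⟩ := hG.exists_card_eq
      obtain ⟨k, _, hk⟩ := (Nat.dvd_prime_pow hpp).mp (hn ▸ C.index_dvd_card)
      have h2 : p ≤ C.index := by
        rw [hk]
        apply Nat.le_self_pow
        rintro rfl
        rw [pow_zero] at hk
        exact h1 hk
      calc p * Nat.card C ≤ C.index * Nat.card C := Nat.mul_le_mul_right _ h2
        _ = Nat.card G := by rw [mul_comm]; exact C.card_mul_index
    have hb' : ∀ x : G, ((Finset.range (c - 1)).filter (fun i => x ∉ K ((⊤ : Subgroup G).lowerCentralSeries i) ((⊤ : Subgroup G).lowerCentralSeries (i + 2)))).card ≤ b := by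
      intro x
      have h1 := bound hG x (c - 1) 0 (Nat.zero_le _)
      rw [Subgroup.lowerCentralSeries_zero, Subgroup.relIndex_top_right, ← Finset.range_eq_Ico] at h1
      exact (Nat.pow_le_pow_iff_right hpp.one_lt).mp (h1.trans (hb x))
    have hb1 : ((Finset.range (c - 1)).filter (fun i => (1 : G) ∉ K ((⊤ : Subgroup G).lowerCentralSeries i) ((⊤ : Subgroup G).lowerCentralSeries (i + 2)))).card = 0 := by
      rw [Finset.card_eq_zero, Finset.filter_eq_empty_iff]
      intro i _ h
      exact h (one_mem _)
    have hsum : ∑ x : G, ((Finset.range (c - 1)).filter (fun i => x ∉ K ((⊤ : Subgroup G).lowerCentralSeries i) ((⊤ : Subgroup G).lowerCentralSeries (i + 2)))).card < Nat.card G * b := by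
      calc _ < ∑ x : G, b := by
            apply Finset.sum_lt_sum (fun x _ => hb' x) ⟨1, Finset.mem_univ _, ?_⟩
            rw [hb1]; omega
        _ = Nat.card G * b := by rw [Finset.sum_const, Finset.card_univ, smul_eq_mul, Nat.card_eq_fintype_card]
    have hsum2 : ∑ x : G, ((Finset.range (c - 1)).filter (fun i => x ∉ K ((⊤ : Subgroup G).lowerCentralSeries i) ((⊤ : Subgroup G).lowerCentralSeries (i + 2)))).card
        = ∑ i ∈ Finset.range (c - 1), (Finset.univ.filter (fun x : G => x ∉ K ((⊤ : Subgroup G).lowerCentralSeries i) ((⊤ : Subgroup G).lowerCentralSeries (i + 2)))).card := by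
      simp only [Finset.card_filter]
      rw [Finset.sum_comm]
    have hsum3 : ∀ i ∈ Finset.range (c - 1), (p - 1) * Nat.card G ≤ p * (Finset.univ.filter (fun x : G => x ∉ K ((⊤ : Subgroup G).lowerCentralSeries i) ((⊤ : Subgroup G).lowerCentralSeries (i + 2)))).card := by
      intro i hi
      have h1 := hK i (Finset.mem_range.mp hi)
      have h2 : (Finset.univ.filter (fun x : G => x ∉ K ((⊤ : Subgroup G).lowerCentralSeries i) ((⊤ : Subgroup G).lowerCentralSeries (i + 2)))).card + Nat.card (K ((⊤ : Subgroup G).lowerCentralSeries i) ((⊤ : Subgroup G).lowerCentralSeries (i + 2))) = Nat.card G := by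
        have h3 : Nat.card (K ((⊤ : Subgroup G).lowerCentralSeries i) ((⊤ : Subgroup G).lowerCentralSeries (i + 2))) = (Finset.univ.filter (fun x : G => x ∈ K ((⊤ : Subgroup G).lowerCentralSeries i) ((⊤ : Subgroup G).lowerCentralSeries (i + 2)))).card := by
          rw [Nat.card_eq_fintype_card, Fintype.card_subtype]
        rw [h3, add_comm, Finset.card_filter_add_card_filter_not, Finset.card_univ, Nat.card_eq_fintype_card]
      obtain ⟨q, rfl⟩ : ∃ q, p = q + 1 := ⟨p - 1, by have := hpp.pos; omega⟩
      rw [Nat.add_sub_cancel]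
      nlinarith
    have hmain : (c - 1) * (p - 1) < b * p := by
      rw [hsum2] at hsum
      have h1 : (c - 1) * ((p - 1) * Nat.card G) ≤ p * ∑ i ∈ Finset.range (c - 1), (Finset.univ.filter (fun x : G => x ∉ K ((⊤ : Subgroup G).lowerCentralSeries i) ((⊤ : Subgroup G).lowerCentralSeries (i + 2)))).card := by
        rw [Finset.mul_sum]
        have := Finset.card_nsmul_le_sum (Finset.range (c - 1)) _ _ hsum3
        rwa [Finset.card_range, smul_eq_mul] at this
      have h2 : (c - 1) * ((p - 1) * Nat.card G) < p * (Nat.card G * b) :=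
        lt_of_le_of_lt h1 (Nat.mul_lt_mul_of_pos_left hsum hpp.pos)
      have h3 : ((c - 1) * (p - 1)) * Nat.card G < (b * p) * Nat.card G := by
        calc _ = (c - 1) * ((p - 1) * Nat.card G) := by ring
          _ < _ := h2
          _ = _ := by ring
      exact Nat.lt_of_mul_lt_mul_right h3
    refine ⟨hmain, ?_⟩
    have hp2 := hpp.two_le
    by_contra h
    have h1 : 2 * b ≤ c - 1 := by omega
    have h2 : 2 * b * (p - 1) < b * p := lt_of_le_of_lt (Nat.mul_le_mul_right _ h1) hmain
    obtain ⟨q, rfl⟩ : ∃ q, p = q + 2 := ⟨p - 2, by omega⟩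
    rw [show q + 2 - 1 = q + 1 by omega] at h2
    nlinarith
  · intro hb0
    apply Nat.find_min'
    rw [Subgroup.lowerCentralSeries_succ, Subgroup.lowerCentralSeries_zero, Subgroup.commutator_eq_bot_iff_le_centralizer]
    intro x _
    rw [mem_centralizer_iff]
    intro g _
    have h1 := hb g
    rw [hb0, pow_zero] at h1
    have h2 : (centralizer ({g} : Set G)).index = 1 := le_antisymm h1 (Nat.one_le_iff_ne_zero.mpr Subgroup.index_ne_zero_of_finite)
    have h3 : x ∈ centralizer ({g} : Set G) := by rw [Subgroup.index_eq_one.mp h2]; trivial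
    exact (mem_centralizer_singleton_iff.mp h3).symm

end Cfsg.Agent.S3778
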