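import Cfsg.Statements.S3802
import Cfsg.Agent.H22_Prim

set_option autoImplicit false
open Cfsg

namespace Cfsg.Agent.S3802

open Subgroup H22.Basic

/-- Let G be a finite group, M a maximal subgroup of G and N a subnormal subgroup of G contained in M. Then N is contained in every conjugate of M, that is, N lies in the core of M in G. -/
theorem result {G : Type*} [Group G] [Finite G] (M N : Subgroup G) (hM : IsCoatom M) (hN : N.IsSubnormal) (hNM : N ≤ M) :
    N ≤ Subgroup.normalCore M := by
  let L : Subgroup G := sSup {U : Subgroup G | U.IsSubnormal ∧ U ≤ M}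
  have hLs : L.IsSubnormal := H1.Subn.sSup_subnormal _ fun U hU => hU.1
  have hLM : L ≤ M := sSup_le fun U hU => hU.2
  have hNL : N ≤ L := le_sSup ⟨hN, hNM⟩
  have hML : M ≤ normalizer (L : Set G) := by
    intro m hm
    apply mem_normalizer_of_cj_le
    have h1 : cj m L ≤ M := by
      rw [← cj_eq_of_mem hm]
      exact cj_mono hLM
    exact le_sSup ⟨H1.Subn.subnormal_conj hLs m, h1⟩
  have hLn : L.Normal := by
    rw [← normalizer_eq_top_iff]
    rcases eq_or_lt_of_le hML with h2 | h2
    · exfalso
      rcases Subgroup.IsSubnormal.iff_eq_top_or_exists.mp hLs with h3 | ⟨K, hNK, hK, hn⟩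
      · exact hM.1 (top_le_iff.mp (h3 ▸ hLM))
      · have h4 : K ≤ normalizer (L : Set G) :=
          (normal_subgroupOf_iff_le_normalizer hNK.le).mp hn
        rw [← h2] at h4
        have h5 : K ≤ L := le_sSup ⟨hK, h4⟩
        exact absurd hNK (not_lt_of_ge h5)
    · exact hM.2 _ h2
  exact hNL.trans (normal_le_normalCore.mpr hLM)

end Cfsg.Agent.S3802
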