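import Mathlib
import Cfsg.Statements.S3803
import Cfsg.Agent.H22_Coprime3
import Cfsg.Agent.H22_Basic
import Cfsg.Agent.H1_Coprime2
import Cfsg.Agent.H23_Omega

namespace Cfsg.Agent.S3803

open Subgroup
open scoped commutatorElement Pointwise

theorem exists_between {X : Type*} [Group X] [Finite X] {U W : Subgroup X} (hUW : U ≤ W) (hW : IsPGroup 2 W)
    {m : ℕ} (hm : 2 ^ m ∣ Nat.card W) (hU : Nat.card U ∣ 2 ^ m) :
    ∃ E : Subgroup X, U ≤ E ∧ E ≤ W ∧ Nat.card E = 2 ^ m := by
  have hp : Fact (Nat.Prime 2) := ⟨Nat.prime_two⟩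
  obtain ⟨n, hn, hn'⟩ := (Nat.dvd_prime_pow Nat.prime_two).mp hU
  obtain ⟨K, hK, hUK⟩ := Sylow.exists_subgroup_card_pow_prime_le (G := W) 2 (n := n) (m := m) hm
    (U.subgroupOf W) (by rw [← hn']; exact Nat.card_congr (subgroupOfEquivOfLe hUW).toEquiv) hn
  refine ⟨K.map W.subtype, ?_, map_subtype_le _, ?_⟩
  · intro u hu
    exact ⟨⟨u, hUW hu⟩, hUK (by rw [mem_subgroupOf]; exact hu), rfl⟩
  · rw [card_subtype, hK]

/-- an odd-order group normalizing a cyclic 2-group centralizes it -/
theorem centralizes_cyclic {X : Type*} [Group X] [Finite X] {A E : Subgroup X} (hA : Odd (Nat.card A))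
    (hE : IsPGroup 2 E) (hc : IsCyclic E) (hAE : A ≤ normalizer (E : Set X)) :
    A ≤ centralizer (E : Set X) := by
  have hp : Fact (Nat.Prime 2) := ⟨Nat.prime_two⟩
  obtain ⟨k, hk⟩ := IsPGroup.iff_card.mp hE
  have h1 : Nat.card (MulAut E) ∣ 2 ^ k := by
    rw [IsCyclic.card_mulAut, hk]
    rcases Nat.eq_zero_or_pos k with rfl | hk0
    · simp
    · rw [Nat.totient_prime_pow Nat.prime_two hk0]
      simp only [Nat.add_one_sub_one, mul_one]
      exact pow_dvd_pow 2 (Nat.sub_le k 1)
  intro a ha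
  rw [mem_centralizer_iff]
  intro e he
  let f : normalizer (E : Set X) →* MulAut E := normalizerMonoidHom E
  have h2 : f ⟨a, hAE ha⟩ = 1 := by
    have h3 : orderOf (f ⟨a, hAE ha⟩) ∣ 2 ^ k := (_root_.orderOf_dvd_natCard _).trans h1
    have h4 : orderOf (f ⟨a, hAE ha⟩) ∣ Nat.card A := by
      have h5 := orderOf_map_dvd f ⟨a, hAE ha⟩
      rw [Subgroup.orderOf_mk] at h5
      refine h5.trans ?_
      have h6 := _root_.orderOf_dvd_natCard (⟨a, ha⟩ : A)
      rwa [Subgroup.orderOf_mk] at h6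
    have h5 := Nat.dvd_gcd h3 h4
    have h6 : Nat.gcd (2 ^ k) (Nat.card A) = 1 := Nat.Coprime.pow_left k (Nat.coprime_two_left.mpr hA)
    rw [h6, Nat.dvd_one, orderOf_eq_one_iff] at h5
    exact h5
  have h3 : ((f ⟨a, hAE ha⟩ ⟨e, he⟩ : E) : X) = e := by rw [h2]; rfl
  have h4 : ((f ⟨a, hAE ha⟩ ⟨e, he⟩ : E) : X) = a * e * a⁻¹ := rfl
  rw [h4] at h3
  calc e * a = (a * e * a⁻¹) * a := by rw [h3]
    _ = a * e := by group

theorem index_two {X : Type*} [Group X] [Finite X] {M W : Subgroup X} (hMW : M ≤ W)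
    (hc : Nat.card W = 2 * Nat.card M) {x y : X} (hx : x ∈ W) (hy : y ∈ W) (hxM : x ∉ M) (hyM : y ∉ M) :
    x * y ∈ M := by
  have h1 : (M.subgroupOf W).index = 2 := by
    have h2 := (M.subgroupOf W).card_mul_index
    rw [Nat.card_congr (subgroupOfEquivOfLe hMW).toEquiv, hc, mul_comm 2] at h2
    exact Nat.eq_of_mul_eq_mul_left Nat.card_pos h2
  have h3 := (Subgroup.mul_mem_iff_of_index_two h1 (a := (⟨x, hx⟩ : W)) (b := ⟨y, hy⟩)).mpr
  simp only [mem_subgroupOf] at h3
  exact h3 (by tauto)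

theorem result {X : Type*} [Group X] [Finite X] (P A D : Subgroup X) (hP : IsPGroup 2 P) (hA : Odd (Nat.card A))
    (hAP : A ≤ Subgroup.normalizer (P : Set X)) (hDP : D ≤ P) (hD1 : 1 < Nat.card D) (hD2 : Nat.card D < Nat.card P)
    (hinv : ∀ E : Subgroup X, E ≤ P → (Nat.card E = Nat.card D ∨ (Nat.card D = 2 ∧ Nat.card E = 4)) → A ≤ Subgroup.normalizer (E : Set X)) :
    A ≤ Subgroup.centralizer (P : Set X) := by
  have hp : Fact (Nat.Prime 2) := ⟨Nat.prime_two⟩
  obtain ⟨k, hk⟩ := IsPGroup.iff_card.mp (hP.to_le hDP)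
  obtain ⟨n, hn⟩ := IsPGroup.iff_card.mp hP
  have hkn : k < n := by
    rw [hk, hn] at hD2
    exact (Nat.pow_lt_pow_iff_right (by norm_num)).mp hD2
  have hk0 : k ≠ 0 := by
    rintro rfl
    rw [hk] at hD1
    norm_num at hD1
  by_contra hcon
  obtain ⟨L, hLP, hAL, hAL', hmin⟩ := H22.Coprime3.exists_minimal_action (p := 2) hAP hcon
  have hL2 : IsPGroup 2 L := hP.to_le hLP
  have hLc : ¬ IsCyclic L := fun h => hAL' (centralizes_cyclic hA hL2 h hAL)
  obtain ⟨l, hl⟩ := IsPGroup.iff_card.mp hL2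
  rcases Nat.lt_or_ge k l with hkl | hkl
  · -- every element of order dividing 4 is centralized
    apply hAL'
    refine H23.Omega.omega_two hAL hL2 (Nat.coprime_two_right.mpr hA) ?_
    intro x hx hx4 a ha
    have hzL : zpowers x ≤ L := by rwa [zpowers_le]
    have key : ∀ E : Subgroup X, x ∈ E → E ≤ L → E ≠ L → A ≤ normalizer (E : Set X) → a * x = x * a := by
      intro E hxE hEL hne hAE
      have h1 := hmin E (lt_of_le_of_ne hEL hne) hAE ha
      rw [mem_centralizer_iff] at h1
      exact (h1 x hxE).symm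
    have hord : orderOf x ∣ 2 ^ 2 := orderOf_dvd_of_pow_eq_one (by norm_num [hx4])
    by_cases hdv : orderOf x ∣ 2 ^ k
    · obtain ⟨E, hE1, hE2, hE3⟩ := exists_between (m := k) hzL hL2 (by rw [hl]; exact pow_dvd_pow 2 hkl.le)
        (by rw [Nat.card_zpowers]; exact hdv)
      refine key E (hE1 (mem_zpowers x)) hE2 ?_ (hinv E (hE2.trans hLP) (Or.inl (by rw [hE3, hk])))
      rintro rfl
      rw [hl] at hE3
      have := Nat.pow_right_injective (le_refl 2) hE3
      omega
    · have hk1 : k = 1 := by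
        by_contra h
        exact hdv (hord.trans (pow_dvd_pow 2 (by omega)))
      have ho4 : orderOf x = 4 := by
        obtain ⟨j, hj, hj'⟩ := (Nat.dvd_prime_pow Nat.prime_two).mp hord
        have : j = 2 := by
          by_contra h
          apply hdv
          rw [hj', hk1]
          exact pow_dvd_pow 2 (by omega)
        rw [hj', this]; norm_num
      refine key (zpowers x) (mem_zpowers x) hzL ?_ (hinv _ (hzL.trans hLP) (Or.inr ⟨by rw [hk, hk1]; norm_num, by
        rw [Nat.card_zpowers, ho4]⟩))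
      intro h
      apply hLc
      rw [← h]
      infer_instance
  · obtain ⟨W, hLW, hWP, hWc⟩ := exists_between (m := k + 1) hLP hP (by rw [hn]; exact pow_dvd_pow 2 hkn)
      (by rw [hl]; exact pow_dvd_pow 2 (by omega))
    have hW2 : IsPGroup 2 W := hP.to_le hWP
    have hAM : ∀ M : Subgroup X, M ≤ W → Nat.card M = 2 ^ k → A ≤ normalizer (M : Set X) := fun M hM hMc =>
      hinv M (hM.trans hWP) (Or.inl (by rw [hMc, hk]))
    have hWc' : Nat.card W = 2 * 2 ^ k := by rw [hWc]; ring
    have hWcyc : ¬ IsCyclic W := by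
      intro h
      apply hLc
      exact isCyclic_of_injective (inclusion hLW) (inclusion_injective hLW)
    have hover : ∀ U : Subgroup X, U < W → ∃ M : Subgroup X, U ≤ M ∧ M ≤ W ∧ Nat.card M = 2 ^ k := by
      intro U hU
      apply exists_between (m := k) hU.le hW2 (by rw [hWc]; exact pow_dvd_pow 2 (Nat.le_succ k))
      have h1 : Nat.card U ∣ 2 ^ (k + 1) := by rw [← hWc]; exact card_dvd_of_le hU.le
      obtain ⟨j, hj, hj'⟩ := (Nat.dvd_prime_pow Nat.prime_two).mp h1
      rw [hj']
      apply pow_dvd_pow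
      have h2 : Nat.card U < Nat.card W := H22.Basic.card_lt_of_lt hU
      rw [hj', hWc] at h2
      have := (Nat.pow_lt_pow_iff_right (by norm_num : 1 < 2)).mp h2
      omega
    have hAW : A ≤ normalizer (W : Set X) := by
      have hpos : 0 < 2 ^ k := by positivity
      have hbot : (⊥ : Subgroup X) < W := by
        rw [bot_lt_iff_ne_bot]
        rintro rfl
        rw [card_bot] at hWc'
        omega
      obtain ⟨M1, -, hM1, hM1c⟩ := hover ⊥ hbot
      have hM1W : M1 < W := lt_of_le_of_ne hM1 (by rintro rfl; omega)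
      obtain ⟨x, hxW, hxM⟩ := SetLike.exists_of_lt hM1W
      have hzx : zpowers x < W := by
        refine lt_of_le_of_ne (by rwa [zpowers_le]) ?_
        intro h
        apply hWcyc
        rw [← h]; infer_instance
      obtain ⟨M2, hxM2, hM2, hM2c⟩ := hover _ hzx
      have hsup : M1 ⊔ M2 = W := by
        by_contra hne
        obtain ⟨M3, hM3, hM3', hM3c⟩ := hover (M1 ⊔ M2) (lt_of_le_of_ne (sup_le hM1 hM2) hne)
        have h1 : M1 = M3 := H22.Basic.eq_of_le_of_card_le (le_sup_left.trans hM3) (by omega)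
        exact hxM (h1 ▸ hM3 (mem_sup_right (hxM2 (mem_zpowers x))))
      rw [← hsup]
      intro a ha
      rw [H22.Basic.mem_normalizer_iff_cj, H22.Basic.cj_sup,
        H22.Basic.cj_eq_of_mem_normalizer (hAM M1 hM1 hM1c ha), H22.Basic.cj_eq_of_mem_normalizer (hAM M2 hM2 hM2c ha)]
    have hcomm : ∀ M : Subgroup X, M ≤ W → Nat.card M = 2 ^ k → ⁅W, A⁆ ≤ M := by
      intro M hM hMc
      rw [commutator_le]
      intro w hw a ha
      have haM := hAM M hM hMc ha
      rw [mem_normalizer_iff] at haM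
      have haW := hAW ha
      rw [mem_normalizer_iff] at haW
      rw [commutatorElement_def]
      have e : w * a * w⁻¹ * a⁻¹ = w * (a * w⁻¹ * a⁻¹) := by group
      rw [e]
      by_cases hwM : w ∈ M
      · exact mul_mem hwM ((haM _).mp (inv_mem hwM))
      · exact index_two hM (by rw [hWc', hMc]) hw ((haW _).mp (inv_mem hw)) hwM
          (fun h => hwM (by simpa using (haM _).mpr h))
    have hcop : (Nat.card A).Coprime (Nat.card W) := by
      rw [hWc]; exact Nat.Coprime.pow_right _ (Nat.coprime_two_right.mpr hA)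
    have hsol : Group.IsSolvable W := by
      have := hW2.isNilpotent
      infer_instance
    have hdec := H1.Coprime.commutator_sup_centralizer A W hAW hcop (Or.inr hsol)
    by_cases hlt : W ⊓ centralizer (A : Set X) < W
    · obtain ⟨M, hM, hM', hMc⟩ := hover _ hlt
      have h1 : W ≤ M := by
        rw [← hdec]
        exact sup_le (hcomm M hM' hMc) hM
      have h2 := H22.Basic.card_le_of_le h1
      rw [hMc, hWc'] at h2
      have hpos : 0 < 2 ^ k := by positivity
      omega
    · have h1 : W ≤ centralizer (A : Set X) := by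
        have h2 : W ⊓ centralizer (A : Set X) = W := by
          by_contra h
          exact hlt (lt_of_le_of_ne inf_le_left h)
        rw [← h2]; exact inf_le_right
      apply hAL'
      rw [le_centralizer_iff]
      exact hLW.trans h1

end Cfsg.Agent.S3803
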