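import Cfsg.Statements.S3805
import Cfsg.Agent.H19_V9f

set_option autoImplicit false
open Cfsg

namespace Cfsg.Agent.S3805


/-- Let G be a finite group whose Sylow 3-subgroup T is elementary abelian of order 9 and self-centralizing, with N_G(T)/T a Klein four-group, and suppose that the centralizer of every nonidentity element of T lies in N_G(T). Then T is normal in G. -/
theorem result {G : Type*} [Group G] [Finite G]
    (T : Sylow 3 G) (hT : Cfsg.IsElementaryAbelian 3 (T : Subgroup G)) (hcard : Nat.card T = 9)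
    (hC : Subgroup.centralizer ((T : Subgroup G) : Set G) = T)
    [hn : ((T : Subgroup G).subgroupOf (Subgroup.normalizer ((T : Subgroup G) : Set G))).Normal]
    (hK : IsKleinFour (↥(Subgroup.normalizer ((T : Subgroup G) : Set G)) ⧸
      (T : Subgroup G).subgroupOf (Subgroup.normalizer ((T : Subgroup G) : Set G))))
    (hloc : ∀ t ∈ (T : Subgroup G), t ≠ 1 →
      Subgroup.centralizer ({t} : Set G) ≤ Subgroup.normalizer ((T : Subgroup G) : Set G)) :
    Subgroup.normalizer ((T : Subgroup G) : Set G) = ⊤ := by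
  have hcom : ∀ a ∈ (T : Subgroup G), ∀ b ∈ (T : Subgroup G), a * b = b * a := by
    intro a ha b hb
    have := hT.1.is_comm.comm (⟨a, ha⟩ : (T : Subgroup G)) ⟨b, hb⟩
    exact congrArg Subtype.val this
  have h := Cfsg.Agent.H19.V9c.Vx.of T hcom hT.2 hcard hC hloc
  obtain ⟨h36, x, y, hco⟩ := Cfsg.Agent.H19.V9c.klein h _ rfl hK
  have hG := Cfsg.Agent.H19.V9c.final h hco h36
  rw [← Subgroup.card_eq_iff_eq_top, h36, hG]

end Cfsg.Agent.S3805
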