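import Cfsg.Statements.S3815
import Cfsg.Agent.H1_Nilp

set_option autoImplicit false
open Cfsg

namespace Cfsg.Agent.S3815

/-- Let G be a finite group, p a prime and d ∈ G an element of order prime to p. If dg has order prime to p for every element g ∈ G of order prime to p, then d ∈ O_{p'}(G). -/
theorem result {G : Type*} [Group G] [Finite G] {p : ℕ} [Fact p.Prime]
    (d : G) (hd : (orderOf d).Coprime p)
    (h : ∀ g : G, (orderOf g).Coprime p → (orderOf (d * g)).Coprime p) :
    d ∈ Cfsg.pPrimeCore p G := by
  have hconj : ∀ x y : G, orderOf (y * x * y⁻¹) = orderOf x := fun x y => by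
    have := MulEquiv.orderOf_eq (MulAut.conj y) x
    simpa using this
  let S : Submonoid G :=
    { carrier := {d | ∀ g : G, (orderOf g).Coprime p → (orderOf (d * g)).Coprime p}
      one_mem' := by intro g hg; rwa [one_mul]
      mul_mem' := by
        intro a b ha hb g hg
        rw [mul_assoc]
        exact ha _ (hb g hg) }
  have hSinv : ∀ x ∈ S, x⁻¹ ∈ S := by
    intro x hx
    have h1 : x⁻¹ = x ^ (orderOf x - 1) := by
      rw [inv_eq_iff_mul_eq_one, ← pow_succ', Nat.sub_add_cancel (orderOf_pos x), pow_orderOf_eq_one]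
    rw [h1]; exact pow_mem hx _
  let N : Subgroup G := { S with inv_mem' := fun {x} hx => hSinv x hx }
  have hN : N.Normal := by
    constructor
    intro n hn g k hk
    have h1 := hn (g⁻¹ * k * g) (by
      have := hconj k g⁻¹
      rw [inv_inv] at this
      rwa [this])
    have h2 := hconj (n * (g⁻¹ * k * g)) g
    have h3 : g * (n * (g⁻¹ * k * g)) * g⁻¹ = g * n * g⁻¹ * k := by group
    rw [h3] at h2
    rwa [h2]
  have hc : (Nat.card N).Coprime p := by
    by_contra hnc
    have hp : p ∣ Nat.card N := by
      by_contra h0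
      exact hnc (((Nat.Prime.coprime_iff_not_dvd Fact.out).mpr h0).symm)
    obtain ⟨x, hx⟩ := exists_prime_orderOf_dvd_card' (G := N) p hp
    have h1 := x.2 (1 : G) (by simp)
    rw [mul_one, Subgroup.orderOf_coe, hx] at h1
    have := Nat.Prime.one_lt (Fact.out (p := p.Prime))
    rw [Nat.coprime_self] at h1
    omega
  exact H1.Nilp.le_pPrimeCore hN hc h

end Cfsg.Agent.S3815
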