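import Cfsg.Statements.S3820
import Cfsg.Agent.H22_Basic

set_option autoImplicit false
open Cfsg

namespace Cfsg.Agent.S3820

open Subgroup H22.Basic

/-- Call a subgroup H of G pronormal if H and gHg⁻¹ are conjugate inside ⟨H, gHg⁻¹⟩ for every g ∈ G. Let S ≤ H ≤ G be subgroups of a finite group with S pronormal in G (for instance S a Sylow subgroup). Then H is pronormal in G if and only if H and gHg⁻¹ are conjugate inside ⟨H, gHg⁻¹⟩ for every g ∈ N_G(S). In particular H is pronormal whenever N_G(S) ≤ H. -/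
theorem result {G : Type*} [Group G] [Finite G] (S H : Subgroup G) (hSH : S ≤ H)
    (hS : Cfsg.IsPronormal S) :
    Cfsg.IsPronormal H ↔
      ∀ g ∈ Subgroup.normalizer (S : Set G), ∃ w ∈ H ⊔ H.map (MulAut.conj g).toMonoidHom,
        H.map (MulAut.conj g).toMonoidHom = H.map (MulAut.conj w).toMonoidHom := by
  constructor
  · intro h g _
    exact h g
  · intro h g
    obtain ⟨x, hx, hxS⟩ := hS g
    have hxS : cj g S = cj x S := hxS
    have hx' : x ∈ H ⊔ cj g H := (sup_le_sup hSH (cj_mono hSH)) hx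
    have hn : x⁻¹ * g ∈ normalizer (S : Set G) := by
      rw [mem_normalizer_iff_cj, cj_mul, hxS, cj_inv_cj]
    obtain ⟨w, hw, hwH⟩ := h _ hn
    have hw : w ∈ H ⊔ cj (x⁻¹ * g) H := hw
    have hwH : cj (x⁻¹ * g) H = cj w H := hwH
    have h1 : cj (x⁻¹ * g) H ≤ H ⊔ cj g H := by
      rw [cj_mul]
      have h2 : cj x⁻¹ (H ⊔ cj g H) = H ⊔ cj g H := cj_eq_of_mem (inv_mem hx')
      rw [← h2]
      exact cj_mono le_sup_right
    have hw' : w ∈ H ⊔ cj g H := (sup_le le_sup_left h1) hw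
    refine ⟨x * w, mul_mem hx' hw', ?_⟩
    show cj g H = cj (x * w) H
    rw [cj_mul, ← hwH, cj_mul, cj_cj_inv]

end Cfsg.Agent.S3820
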