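import Cfsg.Statements.S3821
import Cfsg.Agent.H22_Basic

set_option autoImplicit false
open Cfsg

namespace Cfsg.Agent.S3821

open Subgroup H22.Basic

/-- Let A be a normal subgroup of the finite group G and H a subgroup of A. Then H is pronormal in G (H and gHg⁻¹ conjugate inside ⟨H, gHg⁻¹⟩ for every g ∈ G) if and only if H is pronormal in A and G = A · N_G(H). -/
theorem result {G : Type*} [Group G] [Finite G] (A H : Subgroup G) [A.Normal] (hHA : H ≤ A) :
    Cfsg.IsPronormal H ↔ (Cfsg.IsPronormal (H.subgroupOf A) ∧ A ⊔ Subgroup.normalizer (H : Set G) = ⊤) := by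
  have hgA : ∀ g : G, cj g H ≤ A := by
    intro g
    have : cj g A = A := cj_eq_of_mem_normalizer (by rw [Subgroup.normalizer_eq_top]; trivial)
    rw [← this]; exact cj_mono hHA
  have hmap : ∀ a : A, (cj a (H.subgroupOf A)).map A.subtype = cj (a : G) H := by
    intro a
    rw [map_subtype_cj, map_subtype_subgroupOf hHA]
  constructor
  · intro h
    refine ⟨?_, ?_⟩
    · intro a
      obtain ⟨x, hx, hxe⟩ := h (a : G)
      have hx : x ∈ H ⊔ cj (a : G) H := hx
      have hxe : cj (a : G) H = cj x H := hxe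
      have hxA : x ∈ A := (sup_le hHA (hgA a)) hx
      refine ⟨⟨x, hxA⟩, ?_, ?_⟩
      · have h1 : (H.subgroupOf A ⊔ cj a (H.subgroupOf A)).map A.subtype = H ⊔ cj (a : G) H := by
          rw [Subgroup.map_sup, hmap, map_subtype_subgroupOf hHA]
        rw [← h1] at hx
        obtain ⟨y, hy, hyx⟩ := hx
        have : y = ⟨x, hxA⟩ := Subtype.ext hyx
        rw [← this]; exact hy
      · apply Subgroup.map_injective A.subtype_injective
        show (cj a (H.subgroupOf A)).map A.subtype = (cj (⟨x, hxA⟩ : A) (H.subgroupOf A)).map A.subtype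
        rw [hmap, hmap, hxe]
    · rw [eq_top_iff]
      intro g _
      obtain ⟨x, hx, hxe⟩ := h g
      have hx : x ∈ H ⊔ cj g H := hx
      have hxe : cj g H = cj x H := hxe
      have hxA : x ∈ A := (sup_le hHA (hgA g)) hx
      have : g = x * (x⁻¹ * g) := by group
      rw [this]
      refine mul_mem (mem_sup_left hxA) (mem_sup_right ?_)
      rw [mem_normalizer_iff_cj, cj_mul, hxe, cj_inv_cj]
  · rintro ⟨h, hsup⟩ g
    have hg : g ∈ A ⊔ normalizer (H : Set G) := by rw [hsup]; trivial
    obtain ⟨a, ha, n, hn, rfl⟩ := Subgroup.mem_sup_of_normal_left.mp hg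
    have h1 : cj (a * n) H = cj a H := by rw [cj_mul, cj_eq_of_mem_normalizer hn]
    obtain ⟨x, hx, hxe⟩ := h ⟨a, ha⟩
    have hxe : cj (⟨a, ha⟩ : A) (H.subgroupOf A) = cj x (H.subgroupOf A) := hxe
    refine ⟨x, ?_, ?_⟩
    · show (x : G) ∈ H ⊔ cj (a * n) H
      rw [h1]
      have h2 : (H.subgroupOf A ⊔ cj (⟨a, ha⟩ : A) (H.subgroupOf A)).map A.subtype = H ⊔ cj a H := by
        rw [Subgroup.map_sup, hmap, map_subtype_subgroupOf hHA]
      rw [← h2]
      exact ⟨x, hx, rfl⟩
    · show cj (a * n) H = cj (x : G) H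
      rw [h1, ← hmap x, ← hxe, hmap]

end Cfsg.Agent.S3821
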