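import Cfsg.Statements.S3825
import Mathlib.GroupTheory.FixedPointFree
import Cfsg.Agent.H2_Card


set_option autoImplicit false
open Cfsg

namespace Cfsg.Agent.S3825

open Subgroup
open scoped commutatorElement

/-- Let U be a subgroup of a finite group H and w an involution of H normalizing U and commuting with exactly two elements of U, the identity and y. If V is a non-cyclic elementary abelian 2-subgroup of U containing y which is normal in U and invariant under w, then V is a Sylow 2-subgroup of U, V has order 4, and U/V is abelian. -/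
theorem result {H : Type*} [Group H] [Finite H] (U : Subgroup H) (w : H) (hw : orderOf w = 2)
    (hwU : w ∈ Subgroup.normalizer (U : Set H)) (y : H) (hy : y ≠ 1) (hyU : y ∈ U)
    (hfix : ∀ u ∈ U, w * u * w⁻¹ = u ↔ (u = 1 ∨ u = y))
    (V : Subgroup H) (hVU : V ≤ U) (hVn : (V.subgroupOf U).Normal) (hVw : ∀ v ∈ V, w * v * w⁻¹ ∈ V)
    (hVe : Cfsg.IsElementaryAbelian 2 V) (hVc : ¬ IsCyclic ↥V) (hyV : y ∈ V) :
    ¬ 2 ∣ V.relIndex U ∧ Nat.card ↥V = 4 ∧ ⁅U, U⁆ ≤ V := by

  classical
  have hwU' : ∀ u ∈ U, w * u * w⁻¹ ∈ U := fun u hu => (mem_normalizer_iff.1 hwU u).1 hu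
  have hww : w * w = 1 := by
    have := pow_orderOf_eq_one w
    rwa [hw, pow_two] at this
  have hwi : w⁻¹ = w := inv_eq_of_mul_eq_one_left hww
  have hsq : ∀ v ∈ V, v * v = 1 := by
    intro v hv
    have := hVe.2 v hv
    rwa [pow_two] at this
  have hVc' : ∀ a ∈ V, ∀ b ∈ V, a * b = b * a := fun a ha b hb => congrArg Subtype.val (hVe.1.1.1 ⟨a, ha⟩ ⟨b, hb⟩)
  have htw : ∀ u, w * (w * u * w⁻¹) * w⁻¹ = u := by
    intro u
    rw [hwi]
    calc w * (w * u * w) * w = (w * w) * u * (w * w) := by group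
      _ = u := by rw [hww]; group
  -- delta
  let δ : V →* V :=
    { toFun := fun v => ⟨v * (w * v * w⁻¹), mul_mem v.2 (hVw v v.2)⟩
      map_one' := by apply Subtype.ext; simp
      map_mul' := by
        intro a b
        apply Subtype.ext
        change (a : H) * b * (w * ((a : H) * b) * w⁻¹) = (a * (w * a * w⁻¹)) * (b * (w * b * w⁻¹))
        calc (a : H) * b * (w * ((a : H) * b) * w⁻¹) = a * (b * (w * a * w⁻¹)) * (w * b * w⁻¹) := by group
          _ = a * ((w * a * w⁻¹) * b) * (w * b * w⁻¹) := by rw [hVc' b b.2 _ (hVw a a.2)]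
          _ = _ := by group }
  have hker : Nat.card δ.ker = 2 := by
    have h1 : δ.ker = zpowers (⟨y, hyV⟩ : V) := by
      ext v
      rw [MonoidHom.mem_ker, mem_zpowers_iff]
      have hv2 := hsq v v.2
      constructor
      · intro h
        have h2 : (v : H) * (w * v * w⁻¹) = 1 := congrArg Subtype.val h
        have h3 : w * (v : H) * w⁻¹ = v := by
          rw [← mul_right_inj (v : H), h2, hv2]
        rcases (hfix v (hVU v.2)).1 h3 with h4 | h4
        · exact ⟨0, by apply Subtype.ext; rw [zpow_zero]; exact h4.symm⟩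
        · exact ⟨1, by apply Subtype.ext; rw [zpow_one]; exact h4.symm⟩
      · rintro ⟨k, rfl⟩
        rw [map_zpow]
        have : δ ⟨y, hyV⟩ = 1 := by
          apply Subtype.ext
          change y * (w * y * w⁻¹) = 1
          rw [(hfix y hyU).2 (Or.inr rfl), hsq y hyV]
        rw [this, one_zpow]
    rw [h1, Nat.card_zpowers]
    apply orderOf_eq_prime
    · apply Subtype.ext
      change y ^ 2 = 1
      rw [pow_two, hsq y hyV]
    · intro h; exact hy (congrArg Subtype.val h)
  have hrange : ∀ v : V, ((δ v : V) : H) = 1 ∨ ((δ v : V) : H) = y := by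
    intro v
    apply (hfix _ (hVU (δ v).2)).1
    change w * ((v : H) * (w * v * w⁻¹)) * w⁻¹ = (v : H) * (w * v * w⁻¹)
    calc w * ((v : H) * (w * v * w⁻¹)) * w⁻¹ = (w * v * w⁻¹) * (w * (w * v * w⁻¹) * w⁻¹) := by group
      _ = (w * v * w⁻¹) * v := by rw [htw]
      _ = _ := hVc' _ (hVw v v.2) _ v.2
  have hcV : Nat.card V = Nat.card δ.ker * Nat.card δ.range := by
    rw [← card_mul_index δ.ker, index_ker]
  have hr2 : Nat.card δ.range ≤ 2 := by
    have h1 : δ.range ≤ zpowers (⟨y, hyV⟩ : V) := by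
      rintro _ ⟨v, rfl⟩
      rcases hrange v with h | h
      · have : δ v = 1 := Subtype.ext h
        rw [this]; exact one_mem _
      · have : δ v = ⟨y, hyV⟩ := Subtype.ext h
        rw [this]; exact mem_zpowers _
    refine (card_le_of_le h1).trans ?_
    rw [Nat.card_zpowers]
    apply Nat.le_of_dvd (by norm_num)
    apply orderOf_dvd_of_pow_eq_one
    apply Subtype.ext
    change y ^ 2 = 1
    rw [pow_two, hsq y hyV]
  have hrpos : 0 < Nat.card δ.range := Nat.card_pos
  have hr : Nat.card δ.range = 2 := by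
    rcases (by omega : Nat.card δ.range = 1 ∨ Nat.card δ.range = 2) with h | h
    · exfalso
      apply hVc
      haveI : Fact (Nat.Prime 2) := ⟨Nat.prime_two⟩
      exact isCyclic_of_prime_card (p := 2) (by rw [hcV, hker, h])
    · exact h
  have hV4 : Nat.card V = 4 := by rw [hcV, hker, hr]
  obtain ⟨v0, hv0, hv0'⟩ : ∃ v0 ∈ V, w * v0 * w⁻¹ = v0 * y := by
    by_contra hcon
    push Not at hcon
    have h1 : δ.range = ⊥ := by
      rw [eq_bot_iff]
      rintro _ ⟨v, rfl⟩
      rcases hrange v with h | h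
      · exact mem_bot.2 (Subtype.ext h)
      · exfalso
        apply hcon v v.2
        have h2 : (v : H) * (w * v * w⁻¹) = y := h
        rw [← h2, ← mul_assoc, hsq v v.2, one_mul]
    rw [h1, card_bot] at hr
    exact absurd hr (by norm_num)
  -- action on the quotient
  set V' := V.subgroupOf U with hV'
  haveI := hVn
  let a : U →* U :=
    { toFun := fun u => ⟨w * u * w⁻¹, hwU' u u.2⟩
      map_one' := by apply Subtype.ext; simp
      map_mul' := fun x y => by apply Subtype.ext; simp }
  have haV : V' ≤ V'.comap a := fun u hu => hVw u hu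
  let φ : U ⧸ V' →* U ⧸ V' := QuotientGroup.map V' V' a haV
  have hφmk : ∀ u : U, φ (QuotientGroup.mk u) = QuotientGroup.mk (a u) := fun u => rfl
  have hinv : Function.Involutive φ := by
    intro x
    obtain ⟨u, rfl⟩ := QuotientGroup.mk_surjective x
    rw [hφmk, hφmk]
    congr 1
    exact Subtype.ext (htw u)
  have hfpf : MonoidHom.FixedPointFree φ := by
    intro x hx
    obtain ⟨u, rfl⟩ := QuotientGroup.mk_surjective x
    rw [hφmk] at hx
    have h1 := QuotientGroup.eq.1 hx.symm
    have h2 : (u : H)⁻¹ * (w * u * w⁻¹) ∈ V := h1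
    set v := (u : H)⁻¹ * (w * u * w⁻¹) with hv
    have h3 : w * (u : H) * w⁻¹ = u * v := by rw [hv]; group
    have h4 : w * v * w⁻¹ = v⁻¹ := by
      have h5 := htw u
      rw [h3] at h5
      have h6 : w * ((u : H) * v) * w⁻¹ = (w * u * w⁻¹) * (w * v * w⁻¹) := by group
      rw [h6, h3, mul_assoc] at h5
      have h7 := mul_eq_left.1 h5
      exact eq_inv_of_mul_eq_one_right h7
    rw [inv_eq_of_mul_eq_one_left (hsq v h2)] at h4
    rw [QuotientGroup.eq_one_iff]
    change (u : H) ∈ V
    rcases (hfix v (hVU h2)).1 h4 with h5 | h5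
    · rw [h5, mul_one] at h3
      rcases (hfix u u.2).1 h3 with h6 | h6
      · rw [h6]; exact one_mem _
      · rw [h6]; exact hyV
    · have h6 : w * ((u : H) * v0) * w⁻¹ = u * v0 := by
        calc w * ((u : H) * v0) * w⁻¹ = (w * u * w⁻¹) * (w * v0 * w⁻¹) := by group
          _ = u * y * (v0 * y) := by rw [h3, hv0', h5]
          _ = u * (y * v0) * y := by group
          _ = u * (v0 * y) * y := by rw [hVc' y hyV v0 hv0]
          _ = u * v0 * (y * y) := by group
          _ = _ := by rw [hsq y hyV, mul_one]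
      have h7 : (u : H) * v0 ∈ V := by
        rcases (hfix _ (mul_mem u.2 (hVU hv0))).1 h6 with h8 | h8
        · rw [h8]; exact one_mem _
        · rw [h8]; exact hyV
      exact (Subgroup.mul_mem_cancel_right V hv0).1 h7
  have hodd := hfpf.odd_card_of_involutive hinv
  refine ⟨?_, hV4, ?_⟩
  · intro h
    have : V.relIndex U = Nat.card (U ⧸ V') := rfl
    rw [this] at h
    rw [← Nat.not_even_iff_odd] at hodd
    exact hodd (even_iff_two_dvd.2 h)
  · rw [commutator_le]
    intro x hx z hz
    have h1 := hfpf.commute_all_of_involutive hinv (QuotientGroup.mk ⟨x, hx⟩) (QuotientGroup.mk ⟨z, hz⟩)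
    have h2 : (QuotientGroup.mk ⟨z * x, mul_mem hz hx⟩ : U ⧸ V') = QuotientGroup.mk ⟨x * z, mul_mem hx hz⟩ := h1.eq.symm
    have h3 := QuotientGroup.eq.1 h2
    have h4 : (z * x)⁻¹ * (x * z) ∈ V := h3
    have h5 : ⁅x, z⁆ = (z * x) * ((z * x)⁻¹ * (x * z)) * (z * x)⁻¹ := by
      rw [commutatorElement_def]; group
    rw [h5]
    have h6 := hVn.conj_mem ⟨_, hVU h4⟩ h4 ⟨z * x, mul_mem hz hx⟩
    exact h6


end Cfsg.Agent.S3825
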