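import Cfsg.Statements.S3835
import Cfsg.Agent.H17_QdF
import Cfsg.Agent.H18_Qd2
import Cfsg.Agent.H22_Basic
import Cfsg.Agent.H5_SL

set_option autoImplicit false
open Cfsg

namespace Cfsg.Agent.S3835

open Subgroup Matrix H17.QdF

theorem sq_unit (u : ℤˣ) : u * u = 1 := by
  rcases Int.units_eq_one_or u with h | h <;> rw [h] <;> rfl

theorem hom_trivial {p : ℕ} [hp : Fact p.Prime] (hp2 : p ≠ 2) (φ : ↥(qdOver (ZMod p)) →* ℤˣ) (x : ↥(qdOver (ZMod p))) :
    φ x = 1 := by
  have h2 : (2 : ZMod p) ≠ 0 := by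
    intro h
    have h1 : ((2 : ℕ) : ZMod p) = 0 := by exact_mod_cast h
    rw [ZMod.natCast_eq_zero_iff] at h1
    exact hp2 ((Nat.prime_dvd_prime_iff_eq hp.out Nat.prime_two).mp h1)
  have hv : ∀ w : Fin 2 → ZMod p, φ (mk 1 w) = 1 := by
    intro w
    have h1 : mk (1 : Matrix.SpecialLinearGroup (Fin 2) (ZMod p)) w = mk 1 ((2 : ZMod p)⁻¹ • w) * mk 1 ((2 : ZMod p)⁻¹ • w) := by
      rw [mk_one_mul, ← add_smul]
      congr 1
      have : (2 : ZMod p)⁻¹ + 2⁻¹ = 1 := by field_simp; norm_num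
      rw [this, one_smul]
    rw [h1, map_mul, sq_unit]
  have hA : ∀ A : Matrix.SpecialLinearGroup (Fin 2) (ZMod p), φ (mk A 0) = 1 := by
    intro A
    have h1 : A ∈ Subgroup.closure {g : SpecialLinearGroup (Fin 2) (ZMod p) | ∃ (i j : Fin 2) (hij : i ≠ j) (a : ZMod p),
        g = Matrix.SpecialLinearGroup.transvection hij a} := by
      rw [H5.SL.closure_transvections]; exact Subgroup.mem_top _
    induction h1 using Subgroup.closure_induction with
    | mem x hx =>
      obtain ⟨i, j, hij, a, rfl⟩ := hx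
      have h3 : mk (Matrix.SpecialLinearGroup.transvection hij a) 0 =
          mk (Matrix.SpecialLinearGroup.transvection hij ((2 : ZMod p)⁻¹ * a)) 0 *
          mk (Matrix.SpecialLinearGroup.transvection hij ((2 : ZMod p)⁻¹ * a)) 0 := by
        rw [mk_mul, Matrix.mulVec_zero, add_zero]
        congr 1
        apply Subtype.ext
        show Matrix.transvection i j a = Matrix.transvection i j ((2 : ZMod p)⁻¹ * a) * Matrix.transvection i j ((2 : ZMod p)⁻¹ * a)
        rw [Matrix.transvection_mul_transvection_same _ _ hij, ← add_mul]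
        have : (2 : ZMod p)⁻¹ + 2⁻¹ = 1 := by field_simp; norm_num
        rw [this, one_mul]
      rw [h3, map_mul, sq_unit]
    | one => rw [mk_one, map_one]
    | mul x y _ _ hx hy =>
      have : mk (x * y) (0 : Fin 2 → ZMod p) = mk x 0 * mk y 0 := by rw [mk_mul, Matrix.mulVec_zero, add_zero]
      rw [this, map_mul, hx, hy, one_mul]
    | inv x _ hx =>
      have : mk x⁻¹ (0 : Fin 2 → ZMod p) = (mk x 0)⁻¹ := by
        rw [eq_inv_iff_mul_eq_one, mk_mul, inv_mul_cancel, Matrix.mulVec_zero, add_zero, mk_one]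
      rw [this, map_inv, hx, inv_one]
  obtain ⟨A, w, rfl⟩ := exists_mk x
  have : mk A w = mk 1 w * mk A 0 := by
    rw [mk_mul, one_mul, Matrix.mulVec_zero, zero_add]
  rw [this, map_mul, hv, hA, one_mul]

theorem exists_hom {p : ℕ} [hp : Fact p.Prime] (hp2 : p ≠ 2) (n : ℕ) (hn : p ^ 2 ≤ n) :
    ∃ H : Subgroup (alternatingGroup (Fin n)), Nonempty (↥H ≃* ↥(Cfsg.qd p)) := by
  have hcard : Fintype.card (Fin 2 → ZMod p) ≤ Fintype.card (Fin n) := by
    rw [Fintype.card_fun, ZMod.card, Fintype.card_fin, Fintype.card_fin]; exact hn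
  obtain ⟨ι⟩ := Function.Embedding.nonempty_of_card_le hcard
  let Φ : ↥(qdOver (ZMod p)) →* Equiv.Perm (Fin n) :=
    (Equiv.Perm.viaEmbeddingHom ι).comp (MulAction.toPermHom ↥(qdOver (ZMod p)) (Fin 2 → ZMod p))
  have hΦ : Function.Injective Φ := (Equiv.Perm.viaEmbeddingHom_injective ι).comp aff_inj
  have hsign : ∀ x, Φ x ∈ alternatingGroup (Fin n) := by
    intro x
    rw [Equiv.Perm.mem_alternatingGroup]
    exact hom_trivial hp2 (Equiv.Perm.sign.comp Φ) x
  let Ψ : ↥(qdOver (ZMod p)) →* alternatingGroup (Fin n) := Φ.codRestrict _ hsign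
  have hΨ : Function.Injective Ψ := by
    intro x y hxy
    exact hΦ (congrArg Subtype.val hxy)
  exact ⟨Ψ.range, ⟨(MonoidHom.ofInjective hΨ).symm⟩⟩

/-- `p`-subgroups of `S_n` with `n < p²` are abelian -/
theorem comm_of_lt {p : ℕ} [hp : Fact p.Prime] {n : ℕ} (hn : n < p ^ 2) (P : Subgroup (Equiv.Perm (Fin n)))
    (hP : IsPGroup p P) (x y : P) : x * y = y * x := by
  apply Subtype.ext
  apply Equiv.ext
  intro a
  have : Finite (MulAction.orbit P a) := inferInstance
  let ρ := MulAction.toPermHom P (MulAction.orbit P a)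
  have hcomm : ρ x * ρ y = ρ y * ρ x := by
    have hr : IsPGroup p ρ.range := hP.of_surjective ρ.rangeRestrict ρ.rangeRestrict_surjective
    obtain ⟨k, hk⟩ := IsPGroup.iff_card.mp hr
    have ho : ∃ j, Nat.card (MulAction.orbit P a) = p ^ j := hP.card_orbit a
    obtain ⟨j, hj⟩ := ho
    have hj2 : j < 2 := by
      have h1 : Nat.card (MulAction.orbit P a) ≤ n := by
        have h2 : Nat.card (MulAction.orbit P a) ≤ Nat.card (Fin n) := Nat.card_le_card_of_injective _ Subtype.val_injective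
        rwa [Nat.card_fin] at h2
      rw [hj] at h1
      exact (Nat.pow_lt_pow_iff_right hp.out.one_lt).mp (lt_of_le_of_lt h1 hn)
    have hk2 : k < 2 := by
      by_contra hcon
      have h1 : Nat.card ρ.range ∣ Nat.card (Equiv.Perm (MulAction.orbit P a)) := Subgroup.card_subgroup_dvd_card _
      rw [hk, Nat.card_perm, hj] at h1
      have h2 : p ^ 2 ∣ (p ^ j).factorial := (pow_dvd_pow p (by omega)).trans h1
      have h3 : p ^ 2 ∣ p.factorial := h2.trans (Nat.factorial_dvd_factorial (by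
        calc p ^ j ≤ p ^ 1 := Nat.pow_le_pow_right hp.out.pos (by omega)
          _ = p := pow_one p))
      have hlog : Nat.log p p < 2 := Nat.log_lt_of_lt_pow' (by norm_num) (by nlinarith [hp.out.two_le])
      have h4 := (Nat.Prime.pow_dvd_factorial_iff hp.out hlog).mp h3
      rw [show Finset.Ico 1 2 = {1} from rfl, Finset.sum_singleton, pow_one, Nat.div_self hp.out.pos] at h4
      omega
    have hcyc : IsCyclic ρ.range := by
      have hk01 : k = 0 ∨ k = 1 := by omega
      rcases hk01 with h | h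
      · have : Subsingleton ρ.range := by
          rw [← Finite.card_le_one_iff_subsingleton, hk, h, pow_zero]
        infer_instance
      · exact isCyclic_of_prime_card (p := p) (by rw [hk, h, pow_one])
    have h5 := hcyc.isMulCommutative.is_comm.comm ⟨ρ x, x, rfl⟩ ⟨ρ y, y, rfl⟩
    exact congrArg Subtype.val h5
  have h6 := congrArg (fun f : Equiv.Perm (MulAction.orbit P a) => ((f ⟨a, MulAction.mem_orbit_self a⟩ : MulAction.orbit P a) : Fin n)) hcomm
  exact h6

theorem comm_of_surj {p : ℕ} [hp : Fact p.Prime] {X Y : Type*} [Group X] [Group Y] [Finite X] (f : X →* Y) (hf : Function.Surjective f)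
    (hX : ∀ P : Subgroup X, IsPGroup p P → ∀ x y : P, x * y = y * x) (T : Subgroup Y) (hT : IsPGroup p T) (x y : T) :
    x * y = y * x := by
  let g : T.comap f →* T := f.subgroupComap T
  have hg : Function.Surjective g := f.subgroupComap_surjective_of_surjective T hf
  let S : Sylow p (T.comap f) := default
  have hfin : Finite T := Finite.of_surjective g hg
  have hS : ((S.mapSurjective hg : Sylow p T) : Subgroup T) = ⊤ := by
    have h2 : IsPGroup p (⊤ : Subgroup T) := hT.to_subgroup ⊤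
    exact ((S.mapSurjective hg).is_maximal' h2 le_top).symm
  rw [Sylow.coe_mapSurjective] at hS
  have hx : x ∈ (S : Subgroup (T.comap f)).map g := by rw [hS]; trivial
  have hy : y ∈ (S : Subgroup (T.comap f)).map g := by rw [hS]; trivial
  obtain ⟨x', hx', rfl⟩ := hx
  obtain ⟨y', hy', rfl⟩ := hy
  have h1 : IsPGroup p ((S : Subgroup (T.comap f)).map (T.comap f).subtype) := S.2.map _
  have h2 := hX _ h1 ⟨x', x', hx', rfl⟩ ⟨y', y', hy', rfl⟩
  have h3 : x' * y' = y' * x' := Subtype.ext (by have h4 := congrArg Subtype.val h2; exact h4)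
  rw [← map_mul, ← map_mul, h3]

theorem not_involves {p : ℕ} [hp : Fact p.Prime] (n : ℕ) (hn : n < p ^ 2) :
    ¬ Cfsg.Involves ↥(Cfsg.qd p) ↥(alternatingGroup (Fin n)) := by
  rintro ⟨K, R, hR, ⟨e⟩⟩
  obtain ⟨m, hm⟩ := H18.Qd.exists_isQd (MulEquiv.refl ↥(Cfsg.qd p))
  obtain ⟨x, y, hxy⟩ := hm.T_noncomm
  apply hxy
  have hsurj : Function.Surjective (e.toMonoidHom.comp (QuotientGroup.mk' (R.subgroupOf K))) :=
    e.surjective.comp (QuotientGroup.mk'_surjective _)
  refine comm_of_surj (p := p) _ hsurj ?_ hm.T hm.isPGroup_T x y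
  intro P hP a b
  have h1 : IsPGroup p ((P.map K.subtype).map (alternatingGroup (Fin n)).subtype) := (hP.map _).map _
  have h2 := comm_of_lt hn _ h1 ⟨a, ⟨a, ⟨a, a.2, rfl⟩, rfl⟩⟩ ⟨b, ⟨b, ⟨b, b.2, rfl⟩, rfl⟩⟩
  apply Subtype.ext
  apply Subtype.ext
  apply Subtype.ext
  have h4 := congrArg Subtype.val h2
  exact h4

/-- Let p be an odd prime and n a natural number. The alternating group of degree n has a subgroup isomorphic to Qd(p) (the natural semidirect product of an elementary abelian group of order p² by SL₂(p)) if and only if n ≥ p²; and if n < p² then Qd(p) is not even involved in it. -/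
theorem result {p : ℕ} [Fact p.Prime] (hp : p ≠ 2) (n : ℕ) : ((∃ H : Subgroup (alternatingGroup (Fin n)), Nonempty (↥H ≃* ↥(Cfsg.qd p))) ↔ p ^ 2 ≤ n) ∧ (n < p ^ 2 → ¬ Cfsg.Involves ↥(Cfsg.qd p) ↥(alternatingGroup (Fin n))) := by
  refine ⟨⟨?_, exists_hom hp n⟩, not_involves n⟩
  rintro ⟨H, ⟨e⟩⟩
  by_contra hcon
  apply not_involves (p := p) n (by omega)
  have hn : ((⊥ : Subgroup (alternatingGroup (Fin n))).subgroupOf H).Normal := inferInstance
  refine ⟨H, ⊥, hn, ⟨?_⟩⟩
  have h1 : (⊥ : Subgroup (alternatingGroup (Fin n))).subgroupOf H = ⊥ := Subgroup.bot_subgroupOf H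
  exact ((QuotientGroup.quotientMulEquivOfEq h1).trans QuotientGroup.quotientBot).trans e

end Cfsg.Agent.S3835
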