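import Cfsg.Statements.S3836
import Cfsg.Agent.H22_Basic
import Cfsg.Agent.H1_Nilp

set_option autoImplicit false
open Cfsg

namespace Cfsg.Agent.S3836

open Subgroup H22.Basic

/-- Let G be a finite group that is p-stable in the normalizer form: for every p-subgroup Q and every x ∈ N_G(Q) with [Q, x, x] = 1, the image of x in N_G(Q)/C_G(Q) lies in O_p(N_G(Q)/C_G(Q)). Then every subgroup of G is p-stable in the same sense. -/
theorem result {G : Type*} [Group G] [Finite G] {p : ℕ} [Fact p.Prime] (hst : Cfsg.IsNormalizerPStable p G) (H : Subgroup G) : Cfsg.IsNormalizerPStable p ↥H := by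
  intro P hP g hg hcomm
  have hP' : IsPGroup p (P.map H.subtype) := hP.map _
  have hg' : (g : G) ∈ normalizer ((P.map H.subtype : Subgroup G) : Set G) := by
    rw [mem_normalizer_iff_cj, ← map_subtype_cj, cj_eq_of_mem_normalizer hg]
  have hz : zpowers (g : G) = (zpowers g).map H.subtype := by
    rw [MonoidHom.map_zpowers]; rfl
  have hcomm' : ⁅⁅P.map H.subtype, zpowers (g : G)⁆, zpowers (g : G)⁆ = ⊥ := by
    rw [hz, ← Subgroup.map_commutator, ← Subgroup.map_commutator, hcomm, Subgroup.map_bot]
  have h1 := hst _ hP' (g : G) hg' hcomm'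
  set P' := P.map H.subtype with hP'def
  let N := normalizer (P' : Set G)
  let C := (centralizer (P' : Set G)).subgroupOf N
  -- the homomorphism N_H(P) → N_G(P')
  have hmemN : ∀ x : normalizer (P : Set H), ((x : H) : G) ∈ N := by
    intro x
    show ((x : H) : G) ∈ normalizer (P' : Set G)
    rw [mem_normalizer_iff_cj, hP'def, ← map_subtype_cj, cj_eq_of_mem_normalizer x.2]
  let f : normalizer (P : Set H) →* N := MonoidHom.mk' (fun x => ⟨((x : H) : G), hmemN x⟩) (fun a b => rfl)
  have hcen : ∀ x : normalizer (P : Set H), f x ∈ C ↔ x ∈ (centralizer (P : Set H)).subgroupOf (normalizer (P : Set H)) := by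
    intro x
    show ((x : H) : G) ∈ centralizer (P' : Set G) ↔ (x : H) ∈ centralizer (P : Set H)
    rw [mem_centralizer_iff, mem_centralizer_iff]
    constructor
    · intro h y hy
      exact Subtype.ext (h y ⟨y, hy, rfl⟩)
    · rintro h _ ⟨y, hy, rfl⟩
      exact congrArg Subtype.val (h y hy)
  let q : normalizer (P : Set H) ⧸ ((centralizer (P : Set H)).subgroupOf (normalizer (P : Set H))) →* N ⧸ C :=
    QuotientGroup.map _ _ f (fun x hx => (hcen x).mpr hx)
  have hq : Function.Injective q := by
    rw [injective_iff_map_eq_one]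
    intro x hx
    obtain ⟨x, rfl⟩ := QuotientGroup.mk_surjective x
    have h2 : (QuotientGroup.mk (f x) : N ⧸ C) = 1 := hx
    rw [QuotientGroup.eq_one_iff, hcen] at h2
    exact (QuotientGroup.eq_one_iff x).mpr h2
  have hn : (pCore p (N ⧸ C)).Normal := H1.Nilp.pCore_normal p
  have hn' : ((pCore p (N ⧸ C)).comap q).Normal := hn.comap q
  have hpg : IsPGroup p ((pCore p (N ⧸ C)).comap q) := by
    have : IsPGroup p (pCore p (N ⧸ C)) := H1.Nilp.pCore_isPGroup p
    exact this.comap_of_injective q hq
  have hle : (pCore p (N ⧸ C)).comap q ≤ pCore p _ := H1.Nilp.le_pCore hn' hpg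
  apply hle
  exact h1

end Cfsg.Agent.S3836
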