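import Cfsg.Statements.S3838
import Cfsg.Agent.H22_Basic
import Cfsg.Agent.H1_Nilp
import Cfsg.Agent.H2_Basic
import Cfsg.Agent.H2_Fusion4

set_option autoImplicit false
open Cfsg

namespace Cfsg.Agent.S3838

open Subgroup H2.Basic

theorem frattini_equiv {A B : Type*} [Group A] [Group B] (e : A ≃* B) {x : A} (hx : x ∈ frattini A) : e x ∈ frattini B := by
  rw [H1.Nilp.mem_frattini_iff] at hx ⊢
  intro M hM
  have h1 : IsCoatom ((e.mapSubgroup).symm M) := (OrderIso.isCoatom_iff _ _).mpr hM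
  have h2 := hx _ h1
  obtain ⟨y, hy, hyx⟩ : ∃ y ∈ M, e.symm y = x := by
    have : x ∈ M.map (e.symm.toMonoidHom) := h2
    obtain ⟨y, hy, h⟩ := this
    exact ⟨y, hy, h⟩
  rw [← hyx, MulEquiv.apply_symm_apply]
  exact hy

variable {G : Type*} [Group G] [Finite G] {p : ℕ} [hp : Fact p.Prime]

/-- extension of a normal subgroup with normal `p`-complement by a `p`-group -/
theorem npc_of_normal (K : Subgroup G) [K.Normal] (hK : HasNormalPComplement p K) {k : ℕ} (hk : K.index = p ^ k) :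
    HasNormalPComplement p G := by
  obtain ⟨R, hR, hc, j, hj⟩ := npc_iff.1 hK
  rw [npc_iff]
  refine ⟨R.map K.subtype, ?_, ?_, j + k, ?_⟩
  · constructor
    rintro _ ⟨x, hx, rfl⟩ g
    have h1 := (mem_npc_iff hc hj x).mp hx
    have h2 : g * x * g⁻¹ ∈ K := ‹K.Normal›.conj_mem x x.2 g
    refine ⟨⟨g * x * g⁻¹, h2⟩, ?_, rfl⟩
    show (⟨g * x * g⁻¹, h2⟩ : K) ∈ R
    rw [mem_npc_iff hc hj, Subgroup.orderOf_mk]
    have h3 : orderOf (g * (x : G) * g⁻¹) = orderOf (x : G) := by
      have := orderOf_injective (MulAut.conj g).toMonoidHom (MulAut.conj g).injective (x : G)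
      exact this
    rw [h3, Subgroup.orderOf_coe]; exact h1
  · rwa [Subgroup.card_subtype]
  · have h1 : (R.map K.subtype).relIndex K * K.index = (R.map K.subtype).index :=
      Subgroup.relIndex_mul_index (by rintro _ ⟨x, _, rfl⟩; exact x.2)
    have h2 : (R.map K.subtype).relIndex K = R.index := by
      show ((R.map K.subtype).subgroupOf K).index = _
      congr 1
      exact Subgroup.comap_map_eq_self_of_injective K.subtype_injective R
    rw [← h1, h2, hj, hk, pow_add]

theorem main (P : Sylow p G) (hN : HasNormalPComplement p (normalizer ((P : Subgroup G) : Set G))) (Q : Subgroup G) [Q.Normal]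
    (h1 : ⁅(P : Subgroup G), (P : Subgroup G)⁆ ≤ Q) (h2 : Q ≤ (frattini (P : Subgroup G)).map (P : Subgroup G).subtype) : HasNormalPComplement p G := by
  have hQP : Q ≤ P := h2.trans (by rintro _ ⟨x, _, rfl⟩; exact x.2)
  have hmk := QuotientGroup.mk'_surjective Q
  let PQ : Sylow p (G ⧸ Q) := P.mapSurjective hmk
  have hPQ : (PQ : Subgroup (G ⧸ Q)) = (P : Subgroup G).map (QuotientGroup.mk' Q) := rfl
  -- normalizer in the quotient
  have hnorm : normalizer ((PQ : Subgroup (G ⧸ Q)) : Set (G ⧸ Q)) = (normalizer ((P : Subgroup G) : Set G)).map (QuotientGroup.mk' Q) := by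
    apply le_antisymm
    · intro x hx
      obtain ⟨g, rfl⟩ := hmk x
      refine ⟨g, ?_, rfl⟩
      apply H22.Basic.mem_normalizer_of_cj_le
      rintro _ ⟨y, hy, rfl⟩
      show g * y * g⁻¹ ∈ (P : Subgroup G)
      have h3 : QuotientGroup.mk' Q g * QuotientGroup.mk' Q y * (QuotientGroup.mk' Q g)⁻¹ ∈ (PQ : Subgroup (G ⧸ Q)) :=
        (mem_normalizer_iff.mp hx _).mp ⟨y, hy, rfl⟩
      rw [← map_mul, ← map_inv, ← map_mul] at h3
      obtain ⟨z, hz, hzy⟩ := h3
      have h4 : z⁻¹ * (g * y * g⁻¹) ∈ Q := by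
        rw [← QuotientGroup.eq]; exact hzy
      have h5 := mul_mem hz (hQP h4)
      rwa [mul_inv_cancel_left] at h5
    · rintro _ ⟨g, hg, rfl⟩
      rw [mem_normalizer_iff]
      intro x
      constructor
      · rintro ⟨y, hy, rfl⟩
        refine ⟨g * y * g⁻¹, (mem_normalizer_iff.mp hg y).mp hy, ?_⟩
        rw [map_mul, map_mul, map_inv]
      · rintro ⟨y, hy, hyx⟩
        refine ⟨g⁻¹ * y * g, ?_, ?_⟩
        · have := (mem_normalizer_iff.mp (inv_mem hg) y).mp hy
          rwa [inv_inv] at this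
        · rw [map_mul, map_mul, hyx, map_inv]; group
  have hnpcN : HasNormalPComplement p (normalizer ((PQ : Subgroup (G ⧸ Q)) : Set (G ⧸ Q))) := by
    rw [hnorm]
    let f : normalizer ((P : Subgroup G) : Set G) →* (normalizer ((P : Subgroup G) : Set G)).map (QuotientGroup.mk' Q) :=
      (QuotientGroup.mk' Q).subgroupMap (normalizer ((P : Subgroup G) : Set G))
    exact npc_of_surjective f (MonoidHom.subgroupMap_surjective _ _) hN
  have hab : ∀ x ∈ (PQ : Subgroup (G ⧸ Q)), ∀ y ∈ (PQ : Subgroup (G ⧸ Q)), x * y = y * x := by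
    rintro _ ⟨x, hx, rfl⟩ _ ⟨y, hy, rfl⟩
    show QuotientGroup.mk' Q x * QuotientGroup.mk' Q y = QuotientGroup.mk' Q y * QuotientGroup.mk' Q x
    rw [← map_mul, ← map_mul]
    show ((x * y : G) : G ⧸ Q) = ((y * x : G) : G ⧸ Q)
    rw [QuotientGroup.eq]
    have h3 := h1 (Subgroup.commutator_mem_commutator (inv_mem hy) (inv_mem hx))
    rw [commutatorElement_def] at h3
    have : (x * y)⁻¹ * (y * x) = y⁻¹ * x⁻¹ * (y⁻¹)⁻¹ * (x⁻¹)⁻¹ := by group
    rw [this]; exact h3
  have hquot : HasNormalPComplement p (G ⧸ Q) := by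
    apply H2.Fusion4.npc_of_normalizer_le_centralizer PQ
    intro n hn
    set N := normalizer ((PQ : Subgroup (G ⧸ Q)) : Set (G ⧸ Q)) with hNdef
    obtain ⟨L, hL, hLc⟩ := (npc_iff_sylow (PQ.subtype (le_normalizer : (PQ : Subgroup (G ⧸ Q)) ≤ N))).mp hnpcN
    have hPn : ((PQ.subtype (le_normalizer : (PQ : Subgroup (G ⧸ Q)) ≤ N) : Sylow p N) : Subgroup N).Normal := by
      rw [Sylow.coe_subtype]; exact Subgroup.normal_in_normalizer
    obtain ⟨⟨l, s⟩, hls⟩ := hLc.2 (⟨n, hn⟩ : N)
    have hn' : n = (l : N) * ((s : N) : G ⧸ Q) := (congrArg Subtype.val hls).symm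
    rw [hn']
    apply mul_mem
    · rw [mem_centralizer_iff]
      intro x hx
      have h3 : (⟨x, le_normalizer hx⟩ : N) ∈ ((PQ.subtype (le_normalizer : (PQ : Subgroup (G ⧸ Q)) ≤ N) : Sylow p N) : Subgroup N) := hx
      have h4 : Disjoint (L : Subgroup N) ((PQ.subtype (le_normalizer : (PQ : Subgroup (G ⧸ Q)) ≤ N) : Sylow p N) : Subgroup N) := hLc.disjoint
      have h5 := Subgroup.commute_of_normal_of_disjoint _ _ hL hPn h4 (l : N) ⟨x, le_normalizer hx⟩ l.2 h3
      exact (congrArg Subtype.val h5.eq).symm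
    · rw [mem_centralizer_iff]
      intro x hx
      exact hab x hx _ s.2
  obtain ⟨K, hK, hKc, k, hk⟩ := npc_iff.1 hquot
  let K' := K.comap (QuotientGroup.mk' Q)
  have hK'n : K'.Normal := hK.comap _
  have hK'i : K'.index = p ^ k := by
    rw [← hk]; exact Subgroup.index_comap_of_surjective _ hmk
  have hinf : K' ⊓ (P : Subgroup G) ≤ Q := by
    rintro x ⟨hxK, hxP⟩
    have h3 : QuotientGroup.mk' Q x ∈ K := hxK
    have h4 := (mem_npc_iff hKc hk _).mp h3
    obtain ⟨j, hj⟩ := P.isPGroup' ⟨x, hxP⟩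
    have h5 : x ^ p ^ j = 1 := congrArg Subtype.val hj
    have h6 : orderOf (QuotientGroup.mk' Q x) ∣ p ^ j := by
      rw [orderOf_dvd_iff_pow_eq_one, ← map_pow, h5, map_one]
    have h7 : orderOf (QuotientGroup.mk' Q x) = 1 := Nat.eq_one_of_dvd_coprimes (Nat.Coprime.pow_right j h4) dvd_rfl h6
    rw [orderOf_eq_one_iff] at h7
    exact (QuotientGroup.eq_one_iff x).mp h7
  exact npc_of_normal K' (H2.Fusion4.npc_of_inf_le_frattini P K' (hinf.trans h2)) hK'i

/-- If N_G(P) is p-nilpotent then N_G(Q) is p-nilpotent for every P′ ≤ Q ≤ Φ(P). -/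
theorem result {G : Type*} [Group G] [Finite G] {p : ℕ} [Fact p.Prime] (P : Sylow p G) (hN : Cfsg.HasNormalPComplement p ↥(Subgroup.normalizer ((P : Subgroup G) : Set G))) (Q : Subgroup G) (h1 : (commutator ↥(P : Subgroup G)).map (P : Subgroup G).subtype ≤ Q) (h2 : Q ≤ (frattini ↥(P : Subgroup G)).map (P : Subgroup G).subtype) : Cfsg.HasNormalPComplement p ↥(Subgroup.normalizer (Q : Set G)) := by
  have h1' : ⁅(P : Subgroup G), (P : Subgroup G)⁆ ≤ Q := by rw [← map_subtype_commutator]; exact h1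
  have hQP : Q ≤ P := h2.trans (by rintro _ ⟨x, _, rfl⟩; exact x.2)
  set N := normalizer (Q : Set G) with hNdef
  have hPN : (P : Subgroup G) ≤ N := by
    intro x hx
    rw [hNdef]
    apply H22.Basic.mem_normalizer_of_cj_le
    rintro _ ⟨y, hy, rfl⟩
    show x * y * x⁻¹ ∈ Q
    have h3 := h1' (Subgroup.commutator_mem_commutator hx (hQP hy))
    rw [commutatorElement_def] at h3
    have := mul_mem h3 hy
    rwa [inv_mul_cancel_right] at this
  have hQN : Q ≤ N := le_normalizer
  have : (Q.subgroupOf N).Normal := Subgroup.normal_in_normalizer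
  refine main (P.subtype hPN) ?_ (Q.subgroupOf N) ?_ ?_
  · -- normalizer
    let f : normalizer (((P.subtype hPN : Sylow p N) : Subgroup N) : Set N) →* normalizer ((P : Subgroup G) : Set G) :=
      { toFun := fun x => ⟨((x : N) : G), by
          apply H22.Basic.mem_normalizer_of_cj_le
          rintro _ ⟨y, hy, rfl⟩
          exact (mem_normalizer_iff.mp x.2 ⟨y, hPN hy⟩).mp hy⟩
        map_one' := rfl
        map_mul' := fun _ _ => rfl }
    exact npc_of_injective f (fun a b hab => by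
      have h3 : ((f a : normalizer ((P : Subgroup G) : Set G)) : G) = f b := congrArg Subtype.val hab
      exact Subtype.ext (Subtype.ext h3)) hN
  · rw [Sylow.coe_subtype, Subgroup.commutator_le]
    intro x hx y hy
    exact h1' (Subgroup.commutator_mem_commutator (show (x : G) ∈ (P : Subgroup G) from hx) hy)
  · intro x hx
    obtain ⟨y, hy, hyx⟩ := h2 (show (x : G) ∈ Q from hx)
    let e : (P : Subgroup G) ≃* ((P.subtype hPN : Sylow p N) : Subgroup N) := (Subgroup.subgroupOfEquivOfLe hPN).symm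
    refine ⟨e y, frattini_equiv e hy, Subtype.ext hyx⟩

end Cfsg.Agent.S3838
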