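import Cfsg.Statements.S3857
import Cfsg.Agent.H22_PrimeGraph

set_option autoImplicit false
open Cfsg

namespace Cfsg.Agent.S3857

open Subgroup Cfsg.Agent.H22.PrimeGraph

theorem PiNum.of_singleton {A : Set ℕ} {p n : ℕ} (h : PiNum {p} n) (hp : p ∈ A) : PiNum A n := by
  intro r hr hrn
  have := h r hr hrn
  rw [Set.mem_singleton_iff] at this
  rw [this]; exact hp

theorem half {A : Set ℕ} {G : Type*} [Group G] [Finite G] [hs : Group.IsSolvable G] (hsep : Separated A G)
    (hb : ∃ b ∉ A, b.Prime ∧ b ∣ Nat.card G) (hmin : ∃ N : Subgroup G, N.Normal ∧ N ≠ ⊥ ∧ PiNum A (Nat.card N)) :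
    (∃ C : Subgroup G, Cfsg.IsFrobeniusComplement C) ∨
    (∃ (H K : Subgroup G) (_ : H.Normal), K.Normal ∧ H < K ∧
      (∃ C : Subgroup ↥K, Cfsg.IsFrobeniusComplement C ∧ Cfsg.frobeniusKernel C = (H.subgroupOf K : Set ↥K)) ∧
      (∃ C : Subgroup (G ⧸ H), Cfsg.IsFrobeniusComplement C ∧ Cfsg.frobeniusKernel C = (K.map (QuotientGroup.mk' H) : Set (G ⧸ H)))) := by
  obtain ⟨H, hHn, hHA, hHmax⟩ := exists_core A G
  have hHne : H ≠ ⊥ := by
    obtain ⟨N, hN, hNne, hNA⟩ := hmin
    rintro rfl
    exact hNne (le_bot_iff.mp (hHmax N hN hNA))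
  have hHtop : H ≠ ⊤ := by
    rintro rfl
    obtain ⟨b, hbA, hbp, hbd⟩ := hb
    rw [Subgroup.card_top] at hHA
    exact hbA (hHA b hbp hbd)
  have hπs : Function.Surjective (QuotientGroup.mk' H) := QuotientGroup.mk'_surjective H
  have hcore : ∀ M : Subgroup (G ⧸ H), M.Normal → PiNum A (Nat.card M) → M = ⊥ := by
    intro M hM hMA
    have h1 := hHmax (M.comap (QuotientGroup.mk' H)) inferInstance
      (by rw [H1.Hall.card_comap_mk]; exact hMA.mul hHA)
    have h2 : (M.comap (QuotientGroup.mk' H)).map (QuotientGroup.mk' H) ≤ H.map (QuotientGroup.mk' H) :=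
      Subgroup.map_mono h1
    rw [Subgroup.map_comap_eq_self_of_surjective hπs, QuotientGroup.map_mk'_self] at h2
    exact le_bot_iff.mp h2
  obtain ⟨Kb, hKbn, hKbA, hKbmax⟩ := exists_core Aᶜ (G ⧸ H)
  have hXnt : Nontrivial (G ⧸ H) := QuotientGroup.nontrivial_iff.mpr hHtop
  have hKbne : Kb ≠ ⊥ := by
    obtain ⟨N, p, -, hN, hNb, hp, hc, hx, hpi, hpd⟩ := exists_minimal_pgroup (G := G ⧸ H) (H := ⊤) inferInstance top_ne_bot
    by_cases hpA : p ∈ A
    · exact absurd (hcore N hN (PiNum.of_singleton hpi hpA)) hNb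
    · intro h
      exact hNb (le_bot_iff.mp (h ▸ hKbmax N hN (PiNum.of_singleton hpi hpA)))
  set K := Kb.comap (QuotientGroup.mk' H) with hK
  have hKn : K.Normal := inferInstance
  have hHK : H ≤ K := H1.Hall.le_comap_mk H Kb
  have hKcard : Nat.card K = Nat.card Kb * Nat.card H := H1.Hall.card_comap_mk H Kb
  have hcop : (Nat.card H).Coprime (Nat.card Kb) := hHA.coprime hKbA
  have hrel : H.relIndex K = Nat.card Kb := H1.Hall.relIndex_comap_mk H Kb
  have hmapK : K.map (QuotientGroup.mk' H) = Kb := Subgroup.map_comap_eq_self_of_surjective hπs Kb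
  have hHKn : (H.subgroupOf K).Normal := inferInstance
  obtain ⟨C, hC⟩ := Subgroup.exists_right_complement'_of_coprime (N := H.subgroupOf K) (by
    rw [H22.Basic.card_subgroupOf_eq hHK]
    show (Nat.card H).Coprime (H.relIndex K)
    rw [hrel]; exact hcop)
  have hCcard : Nat.card C = Nat.card Kb := by
    rw [← hC.symm.index_eq_card]; exact hrel
  set Q := C.map K.subtype with hQ
  have hQcard : Nat.card Q = Nat.card Kb := by
    rw [hQ, Subgroup.card_map_of_injective K.subtype_injective, hCcard]
  have hQA : PiNum Aᶜ (Nat.card Q) := by rw [hQcard]; exact hKbA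
  have hQK : Q ≤ K := map_subtype_le _
  have hQne : Q ≠ ⊥ := by
    intro h
    rw [h, Subgroup.card_bot] at hQcard
    exact hKbne (Subgroup.card_eq_one.mp hQcard.symm)
  have hCne : C ≠ ⊥ := by
    rintro rfl
    rw [Subgroup.card_bot] at hCcard
    exact hKbne (Subgroup.card_eq_one.mp hCcard.symm)
  have hHQ : H ⊓ Q = ⊥ := H22.Basic.inf_eq_bot_of_coprime (by rw [hQcard]; exact hcop)
  have hfreeG : ∀ q ∈ Q, q ≠ 1 → ∀ k ∈ H, k * q = q * k → k = 1 := by
    intro q hq hq1 k hk hkq
    exact (hsep.comm hkq (piNum_orderOf hHA hk) (piNum_orderOf hQA hq)).resolve_right hq1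
  have hsupHQ : H ⊔ Q = K := by
    apply H22.Basic.eq_of_le_of_card_le (sup_le hHK hQK)
    rw [H22.Basic.card_sup_of_inf_eq_bot (by rw [normalizer_eq_top]; exact le_top) hHQ, hKcard, hQcard, mul_comm]
  by_cases hKtop : K = ⊤
  · left
    refine ⟨Q, (S3768.frob_of_free H Q ?_ hHne hQne hfreeG).1⟩
    apply Subgroup.isComplement'_of_card_mul_and_disjoint
    · have h1 : Nat.card K = Nat.card G := by rw [hKtop, Subgroup.card_top]
      rw [hQcard, mul_comm, ← hKcard, h1]
    · rw [disjoint_iff]; exact hHQ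
  · right
    refine ⟨H, K, hHn, hKn, ?_, ?_, ?_⟩
    · refine lt_of_le_of_ne hHK ?_
      intro h
      rw [← h] at hKcard
      have h1 : 0 < Nat.card H := Nat.card_pos
      have h2 : Nat.card Kb = 1 := by nlinarith
      exact hKbne (Subgroup.card_eq_one.mp h2)
    · refine ⟨C, S3768.frob_of_free (H.subgroupOf K) C hC ?_ hCne ?_⟩
      · intro h
        rw [Subgroup.subgroupOf_eq_bot, disjoint_iff, inf_eq_left.mpr hHK] at h
        exact hHne h
      · intro q hq hq1 k hk hkq
        apply Subtype.ext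
        exact hfreeG q ⟨q, hq, rfl⟩ (fun h => hq1 (Subtype.ext h)) k hk (congrArg Subtype.val hkq)
    · -- the quotient
      set N := normalizer (Q : Set G) with hN
      have hQN : Q ≤ N := le_normalizer
      have hfrat : K ⊔ N = ⊤ := by
        refine H1.Hall.hall_frattini K inferInstance Q hQK ?_
        have h1 : Nat.card Q * Q.relIndex K = Nat.card K := H22.Basic.card_mul_relIndex hQK
        have h2 : Q.relIndex K = Nat.card H := by
          have h3 : 0 < Nat.card Q := Nat.card_pos
          rw [hKcard, ← hQcard] at h1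
          exact Nat.eq_of_mul_eq_mul_left h3 h1
        rw [h2, hQcard]; exact hcop.symm
      have hHN : H ⊔ N = ⊤ := by
        rw [← hfrat, ← hsupHQ, sup_assoc, sup_eq_right.mpr hQN]
      have hHNb : H ⊓ N = ⊥ := by
        rw [eq_bot_iff]
        rintro h ⟨hhH, hhN⟩
        rw [mem_bot]
        obtain ⟨q, hq, hq1⟩ := (Subgroup.bot_or_exists_ne_one Q).resolve_left hQne
        apply hfreeG q hq hq1 h hhH
        have h1 : h * q * h⁻¹ * q⁻¹ ∈ H ⊓ Q := by
          refine ⟨?_, ?_⟩
          · have e : h * q * h⁻¹ * q⁻¹ = h * (q * h⁻¹ * q⁻¹) := by group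
            show h * q * h⁻¹ * q⁻¹ ∈ H
            rw [e]
            exact H.mul_mem hhH (hHn.conj_mem _ (H.inv_mem hhH) q)
          · show h * q * h⁻¹ * q⁻¹ ∈ Q
            exact Q.mul_mem ((mem_normalizer_iff.mp hhN q).mp hq) (Q.inv_mem hq)
        rw [hHQ, mem_bot] at h1
        calc h * q = (h * q * h⁻¹ * q⁻¹) * (q * h) := by group
          _ = q * h := by rw [h1, one_mul]
      let f : N →* G ⧸ H := (QuotientGroup.mk' H).comp N.subtype
      have hfi : Function.Injective f := by
        rw [injective_iff_map_eq_one]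
        intro n hn
        have h1 : (n : G) ∈ H := (QuotientGroup.eq_one_iff _).mp hn
        have h2 : (n : G) ∈ H ⊓ N := ⟨h1, n.2⟩
        rw [hHNb, mem_bot] at h2
        exact Subtype.ext h2
      have hfs : Function.Surjective f := by
        intro x
        obtain ⟨g, rfl⟩ := hπs x
        have hg : g ∈ H ⊔ N := by rw [hHN]; trivial
        rw [← SetLike.mem_coe, Subgroup.normal_mul] at hg
        obtain ⟨h, hh, n, hn, rfl⟩ := hg
        refine ⟨⟨n, hn⟩, ?_⟩
        show (QuotientGroup.mk' H) n = (QuotientGroup.mk' H) (h * n)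
        rw [map_mul]
        have : (QuotientGroup.mk' H) h = 1 := (QuotientGroup.eq_one_iff _).mpr hh
        rw [this, one_mul]
      let e : N ≃* G ⧸ H := MulEquiv.ofBijective f ⟨hfi, hfs⟩
      have hsepX : Separated A (G ⧸ H) :=
        (hsep.of_injective N.subtype N.subtype_injective).of_injective e.symm.toMonoidHom e.symm.injective
      have hNcard : Nat.card N = Nat.card (G ⧸ H) := Nat.card_congr e.toEquiv
      -- |Q| is odd
      have hodd : ¬ 2 ∣ Nat.card Q := by
        intro h2
        obtain ⟨⟨s, hsQ, hs2, hsu, -⟩, -⟩ := H1.Fixed.even_complement H Q hHne (by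
          intro q hq hq1
          rw [eq_bot_iff]
          rintro k ⟨hk1, hk2⟩
          rw [mem_bot]
          exact hfreeG q hq hq1 k hk1 (mem_centralizer_singleton_iff.mp hk2)) h2
        have hs1 : s ≠ 1 := by rintro rfl; rw [orderOf_one] at hs2; omega
        have hNc : ∀ n ∈ N, n * s = s * n := by
          intro n hn
          have h3 : n * s * n⁻¹ ∈ Q := (mem_normalizer_iff.mp hn s).mp hsQ
          have h4 := hsu _ h3 (by rw [← hs2]; exact orderOf_injective (MulAut.conj n).toMonoidHom (MulAut.conj n).injective s)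
          calc n * s = (n * s * n⁻¹) * n := by group
            _ = s * n := by rw [h4]
        have hNA : PiNum Aᶜ (Nat.card N) := by
          intro r hr hrN hrA
          have : Fact r.Prime := ⟨hr⟩
          obtain ⟨n, hn⟩ := exists_prime_orderOf_dvd_card' (G := N) r hrN
          have hn' : orderOf (n : G) = r := by rw [Subgroup.orderOf_coe, hn]
          have h5 := hsep.comm (hNc n n.2) (by rw [hn']; exact PiNum.prime hr hrA) (piNum_orderOf hQA hsQ)
          rcases h5 with h5 | h5
          · rw [h5, orderOf_one] at hn'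
            exact hr.one_lt.ne hn'
          · exact hs1 h5
        have h6 : (⊤ : Subgroup (G ⧸ H)) ≤ Kb := hKbmax ⊤ inferInstance (by
          rw [Subgroup.card_top, ← hNcard]; exact hNA)
        apply hKtop
        rw [hK, top_le_iff.mp h6, Subgroup.comap_top]
      obtain ⟨V, v, hVH, hVn, hVne, hvp, hVc, -, -, -⟩ := exists_minimal_pgroup hHn hHne
      have hzQ : IsZGroup Q := by
        rw [isZGroup_iff]
        intro p hp P
        have : Fact p.Prime := ⟨hp⟩
        by_cases hp2 : p = 2
        · subst hp2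
          have h1 : Nat.card (P : Subgroup Q) = 1 := by
            obtain ⟨k, hk⟩ := P.2.exists_card_eq
            rcases Nat.eq_zero_or_pos k with h2 | h2
            · rw [hk, h2, pow_zero]
            · exfalso
              apply hodd
              calc 2 ∣ 2 ^ k := dvd_pow_self 2 h2.ne'
                _ = Nat.card (P : Subgroup Q) := hk.symm
                _ ∣ _ := Subgroup.card_subgroup_dvd_card _
          have : Subsingleton (P : Subgroup Q) := (Nat.card_eq_one_iff_unique.mp h1).1
          exact isCyclic_of_subsingleton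
        · have h1 : IsCyclic ((P : Subgroup Q).map Q.subtype) := by
            apply H12.CN.sylow_cyclic_of_fpf (V := V) hp2 (P.2.map _) hVne
              (by rw [normalizer_eq_top]; exact le_top)
            rintro _ ⟨q, hq, rfl⟩ hq1
            rw [eq_bot_iff]
            rintro k ⟨hk1, hk2⟩
            rw [mem_bot]
            exact hfreeG q q.2 hq1 k (hVH hk1) (mem_centralizer_singleton_iff.mp hk2)
          exact (MulEquiv.isCyclic (equivMapOfInjective (P : Subgroup Q) Q.subtype Q.subtype_injective)).mpr h1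
      have hz : IsZGroup Kb := by
        let φ : Q →* G ⧸ H := (QuotientGroup.mk' H).comp Q.subtype
        have h1 : φ.range = Kb := by
          rw [← hmapK, ← hsupHQ, Subgroup.map_sup, QuotientGroup.map_mk'_self, bot_sup_eq, MonoidHom.range_comp,
            Subgroup.range_subtype]
        have h2 : IsZGroup φ.range := IsZGroup.of_surjective φ.rangeRestrict_surjective
        rw [h1] at h2
        exact h2
      obtain ⟨-, hidx⟩ := second_layer hcore Kb hKbA hKbmax hz
      obtain ⟨T, hT⟩ := Subgroup.exists_right_complement'_of_coprime (N := Kb) (hidx.coprime hKbA).symm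
      have hTcard : Nat.card T = Kb.index := hT.symm.index_eq_card.symm
      have hTA : PiNum A (Nat.card T) := by rw [hTcard]; exact hidx
      rw [hmapK]
      refine ⟨T, S3768.frob_of_free Kb T hT hKbne ?_ ?_⟩
      · rintro rfl
        rw [Subgroup.card_bot] at hTcard
        apply hKtop
        rw [hK, Subgroup.index_eq_one.mp hTcard.symm, Subgroup.comap_top]
      · intro h hh hh1 k hk hkh
        exact (hsepX.comm hkh.symm (piNum_orderOf hTA hh) (piNum_orderOf hKbA hk)).resolve_left hh1

/-- A finite solvable group whose prime graph (prime divisors of the order, two distinct primes joined when there is an element of order their product) is disconnected is a Frobenius group or a 2-Frobenius group (it has normal subgroups H < K with K a Frobenius group with kernel H and G/H a Frobenius group with kernel K/H). -/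
theorem result {G : Type*} [Group G] [Finite G] (hsol : Group.IsSolvable G)
    (hdisc : (∃ A : Set ℕ, (∃ a ∈ A, a.Prime ∧ a ∣ Nat.card G) ∧ (∃ b ∉ A, b.Prime ∧ b ∣ Nat.card G) ∧
      ∀ a ∈ A, ∀ b ∉ A, a.Prime → b.Prime → a ∣ Nat.card G → b ∣ Nat.card G → ¬ ∃ g : G, orderOf g = a * b)) :
    (∃ C : Subgroup G, Cfsg.IsFrobeniusComplement C) ∨
    (∃ (H K : Subgroup G) (_ : H.Normal), K.Normal ∧ H < K ∧
      (∃ C : Subgroup ↥K, Cfsg.IsFrobeniusComplement C ∧ Cfsg.frobeniusKernel C = (H.subgroupOf K : Set ↥K)) ∧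
      (∃ C : Subgroup (G ⧸ H), Cfsg.IsFrobeniusComplement C ∧ Cfsg.frobeniusKernel C = (K.map (QuotientGroup.mk' H) : Set (G ⧸ H)))) := by
  obtain ⟨A, ⟨a, haA, hap, had⟩, ⟨b, hbA, hbp, hbd⟩, hno⟩ := hdisc
  have hsep : Separated A G := by
    intro g a ha b hb hap hbp h1 h2
    apply hno a ha b hb hap hbp (h1.trans (_root_.orderOf_dvd_natCard g)) (h2.trans (_root_.orderOf_dvd_natCard g))
    have hne : a ≠ b := by rintro rfl; exact hb ha
    have h3 : a * b ∣ orderOf g := ((Nat.coprime_primes hap hbp).mpr hne).mul_dvd_of_dvd_of_dvd h1 h2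
    refine ⟨g ^ (orderOf g / (a * b)), ?_⟩
    exact orderOf_pow_orderOf_div (orderOf_pos g).ne' h3
  have hnt : Nontrivial G := by
    rw [← Finite.one_lt_card_iff_nontrivial]
    have h1 : 0 < Nat.card G := Nat.card_pos
    have h2 := Nat.le_of_dvd h1 had
    have := hap.two_le
    omega
  obtain ⟨N, p, -, hN, hNb, hp, -, -, hpi, -⟩ := exists_minimal_pgroup (G := G) (H := ⊤) inferInstance top_ne_bot
  by_cases hpA : p ∈ A
  · exact half hsep ⟨b, hbA, hbp, hbd⟩ ⟨N, hN, hNb, PiNum.of_singleton hpi hpA⟩
  · exact half hsep.compl ⟨a, not_not.mpr haA, hap, had⟩ ⟨N, hN, hNb, PiNum.of_singleton (A := Aᶜ) hpi hpA⟩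

end Cfsg.Agent.S3857
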