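import Cfsg.Statements.S3858
import Cfsg.Agent.H17_Base
import Cfsg.Agent.H24_Tools


set_option autoImplicit false
open Cfsg

namespace Cfsg.Agent.S3858

open Subgroup
open Cfsg.Agent.H17.Base (Nz cj cj_mono cj_mul cj_one cj_inv_cj mem_Nz_iff_cj cj_eq_of_mem IsSylowIn isSylowIn_coe)

theorem Nz_ne_top {G : Type*} [Group G] [Finite G] (T : Subgroup G) [T.Normal] (hT : IsSimpleGroup T)
    (hna : ¬ IsMulCommutative T) {r : ℕ} [Fact r.Prime] {R : Subgroup G} (hR : IsPGroup r R) (hR0 : R ⊓ T ≠ ⊥) :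
    Nz (R ⊓ T) ≠ ⊤ := by
  intro h
  have hn : (R ⊓ T).Normal := normalizer_eq_top_iff.1 h
  have hn' : ((R ⊓ T).subgroupOf T).Normal := hn.subgroupOf T
  rcases hn'.eq_bot_or_eq_top with h1 | h1
  · apply hR0
    rw [subgroupOf_eq_bot] at h1
    have := h1.eq_bot
    rwa [inf_assoc, inf_idem] at this
  · have h2 : T ≤ R := by
      rw [subgroupOf_eq_top] at h1
      exact h1.trans inf_le_left
    have hTp : IsPGroup r T := hR.to_le h2
    apply hna
    haveI : Nontrivial T := hT.toNontrivial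
    have h3 := hTp.center_nontrivial
    rcases (inferInstance : (center T).Normal).eq_bot_or_eq_top with h4 | h4
    · rw [h4] at h3
      exact absurd h3 (by rw [not_nontrivial_iff_subsingleton]; infer_instance)
    · refine ⟨⟨fun a b => ?_⟩⟩
      have : b ∈ center T := by rw [h4]; exact mem_top _
      exact mem_center_iff.1 this a

theorem Nz_le {G : Type*} [Group G] (T : Subgroup G) [hTn : T.Normal] (R : Subgroup G) : Nz R ≤ Nz (R ⊓ T) := by
  intro g hg
  rw [mem_Nz_iff_cj] at hg ⊢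
  rw [H17.Base.cj_inf, hg, H17.Base.cj_eq_of_normal _ hTn]

theorem exists_cj_le {G : Type*} [Group G] [Finite G] {r : ℕ} [Fact r.Prime] (R : Sylow r G) {M : Subgroup G}
    (hM : ¬ r ∣ M.index) : ∃ g : G, cj g (R : Subgroup G) ≤ M := by
  obtain ⟨P, hP⟩ := H17.Base.exists_isSylowIn r M
  obtain ⟨h, -, hh⟩ := (isSylowIn_coe R).exists_conj_le hP.2.1 le_top
  have h1 : cj h P = (R : Subgroup G) := by
    apply Subgroup.eq_of_le_of_card_ge hh
    rw [H17.Base.card_cj, hP.card, R.card_eq_multiplicity, ← M.card_mul_index,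
      Nat.factorization_mul Nat.card_pos.ne' (index_ne_zero_of_finite), Finsupp.add_apply,
      Nat.factorization_eq_zero_of_not_dvd hM, add_zero]
  refine ⟨h⁻¹, ?_⟩
  rw [← h1, cj_inv_cj]
  exact hP.1

/-- Let G be a finite group with a normal non-abelian simple subgroup T whose centralizer is trivial (G almost simple with socle T), r a prime and R a Sylow r-subgroup of G meeting T nontrivially. Then R lies in exactly one maximal subgroup of G if and only if G has exactly one conjugacy class of maximal subgroups whose index is prime to r. -/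
theorem result {G : Type*} [Group G] [Finite G] (T : Subgroup G) [T.Normal] (hT : IsSimpleGroup T) (hna : ¬ IsMulCommutative T)
    (hC : Subgroup.centralizer (T : Set G) = ⊥) {r : ℕ} [Fact r.Prime] (R : Sylow r G) (hR0 : (R : Subgroup G) ⊓ T ≠ ⊥) :
    (∃! M : Subgroup G, IsCoatom M ∧ (R : Subgroup G) ≤ M) ↔
      ((∃ M : Subgroup G, IsCoatom M ∧ ¬ r ∣ M.index) ∧
        ∀ M₁ M₂ : Subgroup G, IsCoatom M₁ → ¬ r ∣ M₁.index → IsCoatom M₂ → ¬ r ∣ M₂.index → ∃ g : G, M₂ = M₁.map (MulAut.conj g).toMonoidHom) := by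

  have hN := Nz_ne_top T hT hna R.isPGroup' hR0
  have hRN : Nz (R : Subgroup G) ≠ ⊤ := by
    intro h
    apply hN
    rw [eq_top_iff, ← h]
    exact Nz_le T _
  have hidx : ∀ M : Subgroup G, (R : Subgroup G) ≤ M → ¬ r ∣ M.index := by
    intro M hRM h
    exact R.not_dvd_index (h.trans (index_dvd_of_le hRM))
  constructor
  · rintro ⟨M, ⟨hM, hRM⟩, hu⟩
    refine ⟨⟨M, hM, hidx M hRM⟩, ?_⟩
    have key : ∀ M₁ : Subgroup G, IsCoatom M₁ → ¬ r ∣ M₁.index → ∃ g, cj g M₁ = M := by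
      intro M₁ h1 h2
      obtain ⟨g, hg⟩ := exists_cj_le R h2
      refine ⟨g⁻¹, hu _ ⟨?_, ?_⟩⟩
      · exact (OrderIso.isCoatom_iff (MulEquiv.mapSubgroup (MulAut.conj g⁻¹)) M₁).2 h1
      · rw [← cj_inv_cj g (R : Subgroup G)]
        exact cj_mono hg
    intro M₁ M₂ h1 h1' h2 h2'
    obtain ⟨g₁, hg₁⟩ := key M₁ h1 h1'
    obtain ⟨g₂, hg₂⟩ := key M₂ h2 h2'
    refine ⟨g₂⁻¹ * g₁, ?_⟩
    change M₂ = cj (g₂⁻¹ * g₁) M₁
    rw [cj_mul, hg₁, ← hg₂, cj_inv_cj]
  · rintro ⟨⟨M, hM, hMi⟩, hconj⟩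
    obtain ⟨L, hL, hL'⟩ := H24.Tools.exists_coatom_ge hRN
    have hRL : (R : Subgroup G) ≤ L := le_normalizer.trans hL'
    refine ⟨L, ⟨hL, hRL⟩, ?_⟩
    rintro M' ⟨hM', hRM'⟩
    obtain ⟨g, hg⟩ := hconj L M' hL (hidx L hRL) hM' (hidx M' hRM')
    change M' = cj g L at hg
    have h1 : cj g⁻¹ (R : Subgroup G) ≤ L := by
      rw [← cj_inv_cj g L, ← hg]
      exact cj_mono hRM'
    have h2 : IsSylowIn r (R : Subgroup G) L := (isSylowIn_coe R).mono hRL le_top
    obtain ⟨l, hl, hl'⟩ := h2.exists_conj_le (Q := cj g⁻¹ (R : Subgroup G)) (H17.Base.cj_isPGroup R.isPGroup') h1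
    rw [← cj_mul] at hl'
    have h3 : cj (l * g⁻¹) (R : Subgroup G) = R :=
      Subgroup.eq_of_le_of_card_ge hl' (by rw [H17.Base.card_cj])
    have h4 : l * g⁻¹ ∈ L := hL' (mem_Nz_iff_cj.2 h3)
    have h5 : g ∈ L := by
      have : g = (l * g⁻¹)⁻¹ * l := by group
      rw [this]
      exact mul_mem (inv_mem h4) hl
    rw [hg, cj_eq_of_mem h5]


end Cfsg.Agent.S3858
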