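import Cfsg.Statements.S3859
import Cfsg.Agent.H17_Base
import Cfsg.Agent.H2_Card
import Cfsg.Agent.H24_Tools


set_option autoImplicit false
open Cfsg

namespace Cfsg.Agent.S3859

open Subgroup
open Cfsg.Agent.H17.Base (Nz cj cj_mono cj_mul cj_one cj_inv_cj mem_Nz_iff_cj cj_eq_of_mem IsSylowIn isSylowIn_coe)

theorem Nz_ne_top {G : Type*} [Group G] [Finite G] (T : Subgroup G) [T.Normal] (hT : IsSimpleGroup T)
    (hna : ¬ IsMulCommutative T) {r : ℕ} [Fact r.Prime] {R : Subgroup G} (hR : IsPGroup r R) (hR0 : R ⊓ T ≠ ⊥) :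
    Nz (R ⊓ T) ≠ ⊤ := by
  intro h
  have hn : (R ⊓ T).Normal := normalizer_eq_top_iff.1 h
  have hn' : ((R ⊓ T).subgroupOf T).Normal := hn.subgroupOf T
  rcases hn'.eq_bot_or_eq_top with h1 | h1
  · apply hR0
    rw [subgroupOf_eq_bot] at h1
    have := h1.eq_bot
    rwa [inf_assoc, inf_idem] at this
  · have h2 : T ≤ R := by
      rw [subgroupOf_eq_top] at h1
      exact h1.trans inf_le_left
    have hTp : IsPGroup r T := hR.to_le h2
    apply hna
    haveI : Nontrivial T := hT.toNontrivial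
    have h3 := hTp.center_nontrivial
    rcases (inferInstance : (center T).Normal).eq_bot_or_eq_top with h4 | h4
    · rw [h4] at h3
      exact absurd h3 (by rw [not_nontrivial_iff_subsingleton]; infer_instance)
    · refine ⟨⟨fun a b => ?_⟩⟩
      have : b ∈ center T := by rw [h4]; exact mem_top _
      exact mem_center_iff.1 this a

theorem Nz_le {G : Type*} [Group G] (T : Subgroup G) [hTn : T.Normal] (R : Subgroup G) : Nz R ≤ Nz (R ⊓ T) := by
  intro g hg
  rw [mem_Nz_iff_cj] at hg ⊢
  rw [H17.Base.cj_inf, hg, H17.Base.cj_eq_of_normal _ hTn]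

/-- Let G be a finite group with a normal non-abelian simple subgroup T whose centralizer is trivial (G almost simple with socle T), r a prime and R a Sylow r-subgroup of G meeting T nontrivially. If R lies in exactly one maximal subgroup of G, then G/T is an r-group. -/
theorem result {G : Type*} [Group G] [Finite G] (T : Subgroup G) [T.Normal] (hT : IsSimpleGroup T) (hna : ¬ IsMulCommutative T)
    (hC : Subgroup.centralizer (T : Set G) = ⊥) {r : ℕ} [Fact r.Prime] (R : Sylow r G) (hR0 : (R : Subgroup G) ⊓ T ≠ ⊥)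
    (huniq : ∃! M : Subgroup G, IsCoatom M ∧ (R : Subgroup G) ≤ M) : IsPGroup r (G ⧸ T) := by

  obtain ⟨M, ⟨hM, hRM⟩, hu⟩ := huniq
  have hN := Nz_ne_top T hT hna R.isPGroup' hR0
  obtain ⟨M2, hM2, hM2'⟩ := H24.Tools.exists_coatom_ge hN
  have h2 : M2 = M := hu M2 ⟨hM2, le_normalizer.trans ((Nz_le T (R : Subgroup G)).trans hM2')⟩
  have hsup : (R : Subgroup G) ⊔ T = ⊤ := by
    by_contra h
    obtain ⟨M1, hM1, hM1'⟩ := H24.Tools.exists_coatom_ge h
    have h1 : M1 = M := hu M1 ⟨hM1, le_sup_left.trans hM1'⟩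
    apply hM.1
    rw [eq_top_iff]
    have h3 := H17.Base.frattini_le ((isSylowIn_coe R).inf_normal (N := T) le_top (normalizer_eq_top_iff.2 (inferInstance : T.Normal)).ge) (H := ⊤) le_top
      (normalizer_eq_top_iff.2 (inferInstance : T.Normal)).ge
    rw [← h3]
    apply sup_le
    · rw [← h1]; exact le_sup_right.trans hM1'
    · rw [← h2]; exact inf_le_right.trans hM2'
  have h4 : IsPGroup r ((R : Subgroup G).map (QuotientGroup.mk' T)) := R.isPGroup'.map _
  have h5 : (R : Subgroup G).map (QuotientGroup.mk' T) = ⊤ := by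
    rw [eq_top_iff]
    intro x _
    obtain ⟨g, rfl⟩ := QuotientGroup.mk_surjective x
    have hg : g ∈ (R : Subgroup G) ⊔ T := by rw [hsup]; exact mem_top _
    obtain ⟨a, ha, b, hb, rfl⟩ := (H2.Card.mem_sup_iff (H := (R : Subgroup G)) (N := T) (le_top.trans (normalizer_eq_top_iff.2 (inferInstance : T.Normal)).ge)).1 hg
    refine ⟨a, ha, ?_⟩
    change (QuotientGroup.mk a : G ⧸ T) = QuotientGroup.mk (a * b)
    rw [QuotientGroup.eq]
    simpa using hb
  rw [h5] at h4
  exact h4.of_equiv topEquiv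


end Cfsg.Agent.S3859
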