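import Cfsg.Statements.S3862
import Cfsg.Agent.H22_Basic
import Cfsg.Agent.H22_Minimal
import Cfsg.Agent.H2_Fusion3

set_option autoImplicit false
open Cfsg

namespace Cfsg.Agent.S3862

open Subgroup
open scoped commutatorElement

variable {G : Type*} [Group G]

theorem real_of_min [Finite G] {A P : Subgroup G} (hP : IsPGroup 2 P) (hAP : A ≤ normalizer (P : Set G))
    (hA2 : (Nat.card A).Coprime 2) (hnt : ⁅P, A⁆ ≠ ⊥)
    (hmin : ∀ U : Subgroup G, U < P → A ≤ normalizer (U : Set G) → ⁅U, A⁆ = ⊥) :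
    ∀ x ∈ P, ∃ y ∈ P, y * x * y⁻¹ = x⁻¹ := by
  have := Fact.mk Nat.prime_two
  obtain ⟨h1, h2, h3, h4, h5, h6, _⟩ := H22.Minimal.reduction hP hAP le_rfl le_normalizer hA2 hnt hmin
  rw [h4] at h5 h6
  have hcen : ∀ c ∈ ⁅P, P⁆, ∀ y ∈ P, c * y = y * c := fun c hc y hy => (mem_centralizer_iff.mp (h5 hc) y hy).symm
  have hcA : ∀ c ∈ ⁅P, P⁆, ∀ a ∈ A, c * a = a * c := by
    intro c hc a ha
    have h7 : ⁅c, a⁆ ∈ ⁅⁅P, P⁆, A⁆ := commutator_mem_commutator hc ha
    rw [h6, Subgroup.mem_bot] at h7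
    exact commutatorElement_eq_one_iff_mul_comm.mp h7
  have hsq : ∀ x ∈ P, x ^ 2 ∈ ⁅P, P⁆ := by
    intro x hx
    rw [← h4]
    have := H2.PGroup.pow_mem_frattini hP ⟨x, hx⟩
    exact ⟨_, this, rfl⟩
  have hcl : ∀ x ∈ P, ∀ y ∈ P, ⁅x, y⁆ ∈ ⁅P, P⁆ := fun x hx y hy => commutator_mem_commutator hx hy
  have hPle : ⁅P, P⁆ ≤ P := Subgroup.commutator_le_self P
  have hml : ∀ x ∈ P, ∀ y ∈ P, ∀ z ∈ P, ⁅x * y, z⁆ = ⁅x, z⁆ * ⁅y, z⁆ := by
    intro x hx y hy z hz
    have h7 : ⁅x * y, z⁆ = x * ⁅y, z⁆ * x⁻¹ * ⁅x, z⁆ := by rw [commutatorElement_def, commutatorElement_def, commutatorElement_def]; group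
    have h8 := hcen _ (hcl y hy z hz) x hx
    rw [h7, ← h8, mul_inv_cancel_right]
    exact hcen _ (hcl y hy z hz) _ (hPle (hcl x hx z hz))
  intro x hx
  by_cases hxP : x ∈ ⁅P, P⁆
  · refine ⟨1, one_mem _, ?_⟩
    -- x² = 1
    have h7 : ∀ c ∈ ⁅P, P⁆, c ^ 2 = 1 := by
      intro c hc
      refine Subgroup.closure_induction (p := fun c _ => c ^ 2 = 1) ?_ (one_pow 2) ?_ ?_ hc
      · rintro _ ⟨y, hy, z, hz, rfl⟩
        have h8 : ⁅y ^ 2, z⁆ = ⁅y, z⁆ ^ 2 := by rw [sq, hml y hy y hy z hz, sq]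
        rw [← h8, commutatorElement_eq_one_iff_mul_comm]
        exact hcen _ (hsq y hy) z hz
      · intro a b ha hb ha2 hb2
        have hab : a * b = b * a := hcen a ha b (hPle hb)
        have : (a * b) ^ 2 = a ^ 2 * b ^ 2 := (show Commute a b from hab).mul_pow 2
        rw [this, ha2, hb2, one_mul]
      · intro a _ ha2
        rw [inv_pow, ha2, inv_one]
    have h8 := h7 x hxP
    rw [one_mul, inv_one, mul_one]
    exact (inv_eq_of_mul_eq_one_right (by rw [← sq]; exact h8)).symm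
  · -- the subgroup [P, x]
    let I : Subgroup G :=
      { carrier := {c | ∃ y ∈ P, ⁅y, x⁆ = c}
        one_mem' := ⟨1, one_mem _, by rw [commutatorElement_one_left]⟩
        mul_mem' := by
          rintro _ _ ⟨y, hy, rfl⟩ ⟨z, hz, rfl⟩
          exact ⟨y * z, mul_mem hy hz, hml y hy z hz x hx⟩
        inv_mem' := by
          rintro _ ⟨y, hy, rfl⟩
          refine ⟨y⁻¹, inv_mem hy, ?_⟩
          have := hml y⁻¹ (inv_mem hy) y hy x hx
          rw [inv_mul_cancel, commutatorElement_one_left] at this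
          exact eq_inv_of_mul_eq_one_left this.symm }
    have hI : I ≤ ⁅P, P⁆ := by rintro _ ⟨y, hy, rfl⟩; exact hcl y hy x hx
    let U : Subgroup G :=
      { carrier := {y | y ∈ P ∧ ∀ z ∈ P, ⁅y, z⁆ ∈ I}
        one_mem' := ⟨one_mem _, fun z _ => by rw [commutatorElement_one_left]; exact one_mem _⟩
        mul_mem' := by
          rintro a b ⟨ha, ha'⟩ ⟨hb, hb'⟩
          exact ⟨mul_mem ha hb, fun z hz => by rw [hml a ha b hb z hz]; exact mul_mem (ha' z hz) (hb' z hz)⟩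
        inv_mem' := by
          rintro a ⟨ha, ha'⟩
          refine ⟨inv_mem ha, fun z hz => ?_⟩
          have := hml a⁻¹ (inv_mem ha) a ha z hz
          rw [inv_mul_cancel, commutatorElement_one_left] at this
          rw [eq_inv_of_mul_eq_one_left this.symm]
          exact inv_mem (ha' z hz) }
    have hUP : U ≤ P := fun y hy => hy.1
    have hAU : A ≤ normalizer (U : Set G) := by
      intro a ha
      apply H22.Basic.mem_normalizer_of_cj_le
      rintro _ ⟨y, ⟨hy, hy'⟩, rfl⟩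
      have hay : a * y * a⁻¹ ∈ P := (mem_normalizer_iff.mp (hAP ha) y).mp hy
      refine ⟨hay, fun z hz => ?_⟩
      have hz' : a⁻¹ * z * a ∈ P := by
        have := (mem_normalizer_iff.mp (hAP (inv_mem ha)) z).mp hz
        rwa [inv_inv] at this
      have h7 : ⁅a * y * a⁻¹, z⁆ = a * ⁅y, a⁻¹ * z * a⁆ * a⁻¹ := by rw [commutatorElement_def, commutatorElement_def]; group
      show ⁅a * y * a⁻¹, z⁆ ∈ I
      rw [h7, ← hcA _ (hcl y hy _ hz') a ha, mul_inv_cancel_right]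
      exact hy' _ hz'
    by_cases hU : U = P
    · have h7 : ⁅P, P⁆ ≤ I := by
        rw [commutator_le]
        intro y hy z hz
        rw [← hU] at hy
        exact hy.2 z hz
      obtain ⟨y, hy, hyx⟩ := h7 (inv_mem (hsq x hx))
      refine ⟨y, hy, ?_⟩
      rw [commutatorElement_def, mul_inv_eq_iff_eq_mul] at hyx
      rw [hyx, sq, mul_inv_rev, inv_mul_cancel_right]
    · exfalso
      apply hxP
      apply h3 U (lt_of_le_of_ne hUP hU) hAU
      refine ⟨hx, fun z hz => ?_⟩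
      rw [← commutatorElement_inv]
      exact inv_mem ⟨z, hz, rfl⟩

/-- If all real 2-elements of a finite group are central then it has a normal 2-complement. -/
theorem result {G : Type*} [Group G] [Finite G] (h : ∀ x : G, (∃ j : ℕ, orderOf x = 2 ^ j) → IsConj x x⁻¹ → x ∈ Subgroup.center G) : Cfsg.HasNormalPComplement 2 G := by
  have := Fact.mk Nat.prime_two
  apply H2.Fusion3.npc_of_frobenius
  intro Q hQ g hg hgo
  by_contra hcon
  set A := zpowers g with hA
  have hAQ : A ≤ normalizer (Q : Set G) := zpowers_le.mpr hg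
  have hnt : ⁅Q, A⁆ ≠ ⊥ := by
    intro h1
    apply hcon
    rw [mem_centralizer_iff]
    intro x hx
    have h2 : ⁅x, g⁆ ∈ ⁅Q, A⁆ := commutator_mem_commutator hx (mem_zpowers g)
    rw [h1, Subgroup.mem_bot] at h2
    exact commutatorElement_eq_one_iff_mul_comm.mp h2
  -- choose P minimal
  obtain ⟨P, ⟨hPQ, hAP, hPnt⟩, hmin⟩ := (Set.toFinite {P : Subgroup G | P ≤ Q ∧ A ≤ normalizer (P : Set G) ∧ ⁅P, A⁆ ≠ ⊥}).exists_minimal ⟨Q, le_rfl, hAQ, hnt⟩
  have hmin' : ∀ U : Subgroup G, U < P → A ≤ normalizer (U : Set G) → ⁅U, A⁆ = ⊥ := by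
    intro U hU hAU
    by_contra hcon
    exact absurd (hmin ⟨hU.le.trans hPQ, hAU, hcon⟩ hU.le) (not_le_of_gt hU)
  have hP2 : IsPGroup 2 P := hQ.to_le hPQ
  have hreal := real_of_min hP2 hAP (by rw [hA, Nat.card_zpowers]; exact hgo) hPnt hmin'
  apply hPnt
  rw [commutator_eq_bot_iff_le_centralizer]
  have hPc : P ≤ center G := by
    intro x hx
    apply h x
    · obtain ⟨k, hk⟩ := IsPGroup.iff_orderOf.mp hP2 ⟨x, hx⟩
      exact ⟨k, by rw [← hk, Subgroup.orderOf_mk]⟩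
    · obtain ⟨y, _, hy⟩ := hreal x hx
      exact isConj_iff.mpr ⟨y, hy⟩
  exact hPc.trans (center_le_centralizer _)

end Cfsg.Agent.S3862
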