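import Cfsg.Statements.S3864
import Cfsg.Agent.H19_Transfer
import Cfsg.Agent.H2_Fusion3
import Cfsg.Agent.H24_Tools
import Cfsg.Agent.H12_Core


set_option autoImplicit false
open Cfsg

namespace Cfsg.Agent.S3864

open Subgroup DihedralGroup
open scoped commutatorElement

universe u

/-- characters of order two of a dihedral group of even degree -/
def chi {m : ℕ} (h2 : 2 ∣ m) (a b : ZMod 2) : DihedralGroup m →* Multiplicative (ZMod 2) where
  toFun x := match x with
    | r i => Multiplicative.ofAdd (a * ZMod.castHom h2 (ZMod 2) i)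
    | sr i => Multiplicative.ofAdd (a * ZMod.castHom h2 (ZMod 2) i + b)
  map_one' := by
    change Multiplicative.ofAdd (a * ZMod.castHom h2 (ZMod 2) 0) = 1
    rw [map_zero, mul_zero]; rfl
  map_mul' := by
    have h2b : ∀ c : ZMod 2, c + c = 0 := by decide
    rintro (i | i) (j | j)
    · change Multiplicative.ofAdd (a * ZMod.castHom h2 (ZMod 2) (i + j)) = Multiplicative.ofAdd (a * ZMod.castHom h2 (ZMod 2) i + a * ZMod.castHom h2 (ZMod 2) j)
      rw [map_add, mul_add]
    · change Multiplicative.ofAdd (a * ZMod.castHom h2 (ZMod 2) (j - i) + b) = Multiplicative.ofAdd (a * ZMod.castHom h2 (ZMod 2) i + (a * ZMod.castHom h2 (ZMod 2) j + b))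
      rw [map_sub]; congr 1
      linear_combination -(h2b (a * ZMod.castHom h2 (ZMod 2) i))
    · change Multiplicative.ofAdd (a * ZMod.castHom h2 (ZMod 2) (i + j) + b) = Multiplicative.ofAdd (a * ZMod.castHom h2 (ZMod 2) i + b + (a * ZMod.castHom h2 (ZMod 2) j))
      rw [map_add (ZMod.castHom h2 (ZMod 2))]; congr 1; ring
    · change Multiplicative.ofAdd (a * ZMod.castHom h2 (ZMod 2) (j - i)) = Multiplicative.ofAdd (a * ZMod.castHom h2 (ZMod 2) i + b + (a * ZMod.castHom h2 (ZMod 2) j + b))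
      rw [map_sub]; congr 1
      linear_combination -(h2b (a * ZMod.castHom h2 (ZMod 2) i)) - h2b b

theorem chi_r {m : ℕ} (h2 : 2 ∣ m) (a b : ZMod 2) (i : ZMod m) :
    chi h2 a b (r i) = 1 ↔ a * ZMod.castHom h2 (ZMod 2) i = 0 := Iff.rfl

theorem chi_sr {m : ℕ} (h2 : 2 ∣ m) (a b : ZMod 2) (i : ZMod m) :
    chi h2 a b (sr i) = 1 ↔ a * ZMod.castHom h2 (ZMod 2) i + b = 0 := Iff.rfl

/-- set-up -/
structure Data (G : Type u) [Group G] [Finite G] (q : ℕ) where
  P : Sylow 2 G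
  e : ↥(P : Subgroup G) ≃* DihedralGroup (4 * q)
  hq : 0 < q

namespace Data

variable {G : Type u} [Group G] [Finite G] {q : ℕ} (D : Data G q)

def R (i : ZMod (4 * q)) : G := (D.e.symm (r i) : ↥(D.P : Subgroup G))
def S (i : ZMod (4 * q)) : G := (D.e.symm (sr i) : ↥(D.P : Subgroup G))

theorem R_mem (i : ZMod (4 * q)) : D.R i ∈ (D.P : Subgroup G) := (D.e.symm (r i)).2
theorem S_mem (i : ZMod (4 * q)) : D.S i ∈ (D.P : Subgroup G) := (D.e.symm (sr i)).2

theorem R_mul_R (i j : ZMod (4 * q)) : D.R i * D.R j = D.R (i + j) := by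
  have := congrArg Subtype.val (D.e.symm.map_mul (r i) (r j))
  rw [r_mul_r] at this
  exact this.symm

theorem R_mul_S (i j : ZMod (4 * q)) : D.R i * D.S j = D.S (j - i) := by
  have := congrArg Subtype.val (D.e.symm.map_mul (r i) (sr j))
  rw [r_mul_sr] at this
  exact this.symm

theorem S_mul_S (i j : ZMod (4 * q)) : D.S i * D.S j = D.R (j - i) := by
  have := congrArg Subtype.val (D.e.symm.map_mul (sr i) (sr j))
  rw [sr_mul_sr] at this
  exact this.symm

theorem S_mul_R (i j : ZMod (4 * q)) : D.S i * D.R j = D.S (i + j) := by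
  have := congrArg Subtype.val (D.e.symm.map_mul (sr i) (r j))
  rw [sr_mul_r] at this
  exact this.symm

theorem R_zero : D.R 0 = 1 := by
  change ((D.e.symm (r 0) : ↥(D.P : Subgroup G)) : G) = 1
  rw [r_zero, map_one]; rfl

theorem R_inv (i : ZMod (4 * q)) : (D.R i)⁻¹ = D.R (-i) := by
  rw [inv_eq_iff_mul_eq_one, R_mul_R, add_neg_cancel, R_zero]

theorem R_pow (i : ZMod (4 * q)) (k : ℕ) : (D.R i) ^ k = D.R (k * i) := by
  induction k with
  | zero => rw [pow_zero, Nat.cast_zero, zero_mul, R_zero]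
  | succ k ih => rw [pow_succ, ih, R_mul_R]; congr 1; push_cast; ring

theorem cases (x : G) (hx : x ∈ (D.P : Subgroup G)) : (∃ i, x = D.R i) ∨ ∃ i, x = D.S i := by
  have h1 : D.e.symm (D.e ⟨x, hx⟩) = ⟨x, hx⟩ := D.e.symm_apply_apply _
  cases h : D.e ⟨x, hx⟩ with
  | r i => left; refine ⟨i, ?_⟩; rw [h] at h1; exact (congrArg Subtype.val h1).symm
  | sr i => right; refine ⟨i, ?_⟩; rw [h] at h1; exact (congrArg Subtype.val h1).symm

theorem R_inj {i j : ZMod (4 * q)} (h : D.R i = D.R j) : i = j := by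
  have h1 : D.e.symm (r i) = D.e.symm (r j) := Subtype.ext h
  have h2 := D.e.symm.injective h1
  injection h2

theorem S_sq (i : ZMod (4 * q)) : D.S i * D.S i = 1 := by rw [S_mul_S, sub_self, R_zero]

theorem S_ne (i : ZMod (4 * q)) : D.S i ≠ 1 := by
  intro h
  have h1 : D.e.symm (sr i) = D.e.symm (r 0) := by
    apply Subtype.ext
    have : D.R 0 = 1 := D.R_zero
    exact h.trans this.symm
  have h2 := D.e.symm.injective h1
  cases h2

theorem orderOf_S (i : ZMod (4 * q)) : orderOf (D.S i) = 2 :=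
  orderOf_eq_prime (by rw [pow_two, S_sq]) (D.S_ne i)

theorem R_order_two {i : ZMod (4 * q)} (h : orderOf (D.R i) = 2) : D.R i = D.R ((2 * q : ℕ) : ZMod (4 * q)) := by
  have hq := D.hq
  haveI : NeZero (4 * q) := ⟨by omega⟩
  have h1 : D.R i ^ 2 = 1 := by rw [← h, pow_orderOf_eq_one]
  have h2 : D.R i ≠ 1 := by
    intro h3; rw [h3, orderOf_one] at h; exact absurd h (by norm_num)
  rw [pow_two, R_mul_R, ← R_zero] at h1
  have h3 := D.R_inj h1
  have h4 : i ≠ 0 := by rintro rfl; exact h2 D.R_zero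
  have h5 : 4 * q ∣ 2 * i.val := by
    rw [← ZMod.natCast_eq_zero_iff]
    push_cast
    rw [ZMod.natCast_zmod_val, two_mul, h3]
  have h6 := ZMod.val_lt i
  have h7 : i.val ≠ 0 := fun h => h4 ((ZMod.val_eq_zero i).1 h)
  have h8 : i.val = 2 * q := by
    obtain ⟨k, hk⟩ := h5
    have hk1 : k < 2 := by
      by_contra hlt
      have : 4 * q * 2 ≤ 4 * q * k := Nat.mul_le_mul_left _ (by omega)
      omega
    interval_cases k <;> omega
  rw [← h8, ZMod.natCast_zmod_val]

theorem z_order : orderOf (D.R ((2 * q : ℕ) : ZMod (4 * q))) = 2 := by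
  have hq := D.hq
  haveI : NeZero (4 * q) := ⟨by omega⟩
  apply orderOf_eq_prime
  · rw [pow_two, R_mul_R, ← Nat.cast_add]
    have : 2 * q + 2 * q = 4 * q := by ring
    rw [this, ZMod.natCast_self, R_zero]
  · intro h
    rw [← R_zero] at h
    have h1 := D.R_inj h
    rw [ZMod.natCast_eq_zero_iff] at h1
    have := Nat.le_of_dvd (by omega) h1
    omega

/-- conjugating reflections -/
theorem S_conj (i k : ZMod (4 * q)) : D.R k * D.S i * (D.R k)⁻¹ = D.S (i - 2 * k) := by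
  rw [R_mul_S, R_inv, S_mul_R]; congr 1; ring

theorem S_even {i : ZMod (4 * q)} (h : Even i.val) : ∃ k, D.R k * D.S 0 * (D.R k)⁻¹ = D.S i := by
  have hq := D.hq
  haveI : NeZero (4 * q) := ⟨by omega⟩
  obtain ⟨c, hc⟩ := h
  refine ⟨-(c : ZMod (4 * q)), ?_⟩
  rw [S_conj]
  congr 1
  rw [← ZMod.natCast_zmod_val i, hc]; push_cast; ring

theorem S_odd {i : ZMod (4 * q)} (h : Odd i.val) : ∃ k, D.R k * D.S 1 * (D.R k)⁻¹ = D.S i := by
  have hq := D.hq
  haveI : NeZero (4 * q) := ⟨by omega⟩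
  obtain ⟨c, hc⟩ := h
  refine ⟨-(c : ZMod (4 * q)), ?_⟩
  rw [S_conj]
  congr 1
  rw [← ZMod.natCast_zmod_val i, hc]; push_cast; ring

def z : G := D.R ((2 * q : ℕ) : ZMod (4 * q))

theorem mk_S (i : ZMod (4 * q)) : (Even i.val ∧ ConjClasses.mk (D.S i) = ConjClasses.mk (D.S 0)) ∨
    (Odd i.val ∧ ConjClasses.mk (D.S i) = ConjClasses.mk (D.S 1)) := by
  rcases Nat.even_or_odd i.val with h | h
  · left
    obtain ⟨k, hk⟩ := D.S_even h
    refine ⟨h, (ConjClasses.mk_eq_mk_iff_isConj.2 (isConj_iff.2 ⟨D.R k, hk⟩)).symm⟩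
  · right
    obtain ⟨k, hk⟩ := D.S_odd h
    refine ⟨h, (ConjClasses.mk_eq_mk_iff_isConj.2 (isConj_iff.2 ⟨D.R k, hk⟩)).symm⟩

/-- involutions of `P` -/
theorem invol {x : G} (hx : x ∈ (D.P : Subgroup G)) (h : orderOf x = 2) : x = D.z ∨ ∃ i, x = D.S i := by
  rcases D.cases x hx with ⟨i, rfl⟩ | ⟨i, rfl⟩
  · exact Or.inl (D.R_order_two h)
  · exact Or.inr ⟨i, rfl⟩

theorem classes : {C : ConjClasses G | ∃ g : G, ConjClasses.mk g = C ∧ orderOf g = 2} =
    {ConjClasses.mk D.z, ConjClasses.mk (D.S 0), ConjClasses.mk (D.S 1)} := by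
  ext C
  constructor
  · rintro ⟨g, rfl, hg⟩
    have h1 : IsPGroup 2 (zpowers g) := IsPGroup.of_card (n := 1) (by rw [Nat.card_zpowers, hg, pow_one])
    obtain ⟨Q, hQ⟩ := h1.exists_le_sylow
    obtain ⟨x, hx⟩ := MulAction.exists_smul_eq G Q D.P
    have h2 : x * g * x⁻¹ ∈ (D.P : Subgroup G) := by
      rw [← hx]
      exact ⟨g, hQ (mem_zpowers g), rfl⟩
    have h3 : orderOf (x * g * x⁻¹) = 2 := by rw [H24.Tools.orderOf_conj, hg]
    have h4 : ConjClasses.mk g = ConjClasses.mk (x * g * x⁻¹) := ConjClasses.mk_eq_mk_iff_isConj.2 (isConj_iff.2 ⟨x, rfl⟩)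
    rw [h4]
    rcases D.invol h2 h3 with h5 | ⟨i, h5⟩
    · rw [h5]; left; rfl
    · rw [h5]; right
      rcases D.mk_S i with ⟨-, h⟩ | ⟨-, h⟩
      · left; exact h
      · right; exact h
  · rintro (rfl | rfl | rfl)
    · exact ⟨_, rfl, D.z_order⟩
    · exact ⟨_, rfl, D.orderOf_S 0⟩
    · exact ⟨_, rfl, D.orderOf_S 1⟩

theorem index_odd : Odd (D.P : Subgroup G).index := by
  haveI : Fact (Nat.Prime 2) := ⟨Nat.prime_two⟩
  rw [← Nat.not_even_iff_odd, even_iff_two_dvd]
  exact D.P.not_dvd_index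

theorem le_of_mem {N : Subgroup G} (h1 : D.R 1 ∈ N) (h2 : D.S 0 ∈ N) : (D.P : Subgroup G) ≤ N := by
  have hq := D.hq
  haveI : NeZero (4 * q) := ⟨by omega⟩
  have hR : ∀ i, D.R i ∈ N := by
    intro i
    have : D.R i = (D.R 1) ^ i.val := by rw [R_pow, mul_one, ZMod.natCast_zmod_val]
    rw [this]; exact pow_mem h1 _
  intro x hx
  rcases D.cases x hx with ⟨i, rfl⟩ | ⟨i, rfl⟩
  · exact hR i
  · have : D.S i = D.R (-i) * D.S 0 := by rw [R_mul_S]; congr 1; ring
    rw [this]; exact mul_mem (hR _) h2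

/-- transfer -/
theorem exists_index_two (a b : ZMod 2) (hab : a ≠ 0 ∨ b ≠ 0) (x : G) (hx : orderOf x = 2)
    (h : ∀ g : G, ∀ hg : g⁻¹ * x * g ∈ (D.P : Subgroup G), chi (Dvd.intro (2 * q) (by ring) : 2 ∣ 4 * q) a b (D.e ⟨_, hg⟩) ≠ 1) :
    ∃ N : Subgroup G, N.Normal ∧ N.index = 2 := by
  have h2 : 2 ∣ 4 * q := Dvd.intro (2 * q) (by ring)
  set f : ↥(D.P : Subgroup G) →* Multiplicative (ZMod 2) := (chi h2 a b).comp D.e.toMonoidHom with hf
  have hfi : f.ker.index = 2 := by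
    rw [index_ker]
    have h3 : Nat.card f.range ∣ 2 := by
      have := card_subgroup_dvd_card f.range
      have h4 : Nat.card (Multiplicative (ZMod 2)) = 2 := by
        change Nat.card (ZMod 2) = 2
        rw [Nat.card_eq_fintype_card, ZMod.card]
      rwa [h4] at this
    rcases (Nat.dvd_prime Nat.prime_two).1 h3 with h4 | h4
    · exfalso
      rw [card_eq_one] at h4
      have h5 : ∀ y, chi h2 a b y = 1 := by
        intro y
        have : f (D.e.symm y) ∈ f.range := ⟨_, rfl⟩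
        rw [h4, mem_bot] at this
        change chi h2 a b (D.e (D.e.symm y)) = 1 at this
        rwa [D.e.apply_symm_apply] at this
      have h6 := h5 (sr 0)
      have h7 := h5 (r 1)
      rw [chi_sr, map_zero, mul_zero, zero_add] at h6
      rw [chi_r, map_one, mul_one] at h7
      rcases hab with h8 | h8
      · exact h8 h7
      · exact h8 h6
    · exact h4
  obtain ⟨N, hN, hNi, -⟩ := H19.Transfer.thompson (H := (D.P : Subgroup G)) (M := f.ker.map (D.P : Subgroup G).subtype)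
    D.index_odd (by
      rw [relIndex, subgroupOf, comap_map_eq_self_of_injective (D.P : Subgroup G).subtype_injective]
      exact hfi) x ⟨1, by rw [hx, pow_one]⟩ (by
      rintro g hg ⟨y, hy, hyg⟩
      apply h g hg
      have h3 : y = ⟨g⁻¹ * x * g, hg⟩ := Subtype.ext hyg
      rw [← h3]
      exact hy) (by
      intro g j hg
      have h3 : x ^ 2 ^ (j + 1) = 1 := by
        rw [pow_succ, mul_comm, pow_mul, ← hx, pow_orderOf_eq_one, one_pow]
      rw [h3, mul_one, inv_mul_cancel]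
      exact one_mem _)
  exact ⟨N, hN, hNi⟩

theorem e_S {i : ZMod (4 * q)} {y : G} (hy : y ∈ (D.P : Subgroup G)) (h : y = D.S i) : D.e ⟨y, hy⟩ = sr i := by
  have h1 : (⟨y, hy⟩ : ↥(D.P : Subgroup G)) = D.e.symm (sr i) := Subtype.ext h
  rw [h1, D.e.apply_symm_apply]

include D in
theorem cast_even {i : ZMod (4 * q)} (h2 : 2 ∣ 4 * q) (h : Even i.val) : ZMod.castHom h2 (ZMod 2) i = 0 := by
  have hq := D.hq
  haveI : NeZero (4 * q) := ⟨by omega⟩
  rw [← ZMod.natCast_zmod_val i, map_natCast, ZMod.natCast_eq_zero_iff]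
  exact h.two_dvd

include D in
theorem cast_odd {i : ZMod (4 * q)} (h2 : 2 ∣ 4 * q) (h : Odd i.val) : ZMod.castHom h2 (ZMod 2) i = 1 := by
  have hq := D.hq
  haveI : NeZero (4 * q) := ⟨by omega⟩
  obtain ⟨c, hc⟩ := h
  rw [← ZMod.natCast_zmod_val i, map_natCast, hc]
  push_cast
  have : (2 : ZMod 2) = 0 := by decide
  rw [this, zero_mul, zero_add]

theorem mk_eq {x g : G} : ConjClasses.mk (g⁻¹ * x * g) = ConjClasses.mk x :=
  ConjClasses.mk_eq_mk_iff_isConj.2 (isConj_iff.2 ⟨g, by group⟩)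

theorem no_two (h1 : ConjClasses.mk D.z = ConjClasses.mk (D.S 0)) (h2 : ConjClasses.mk D.z = ConjClasses.mk (D.S 1))
    (N : Subgroup G) (hN : N.Normal) : N.index ≠ 2 := by
  intro hNi
  have hz : D.z ∈ N := by
    have h3 : D.z = (D.R (q : ZMod (4 * q))) ^ 2 := by
      rw [R_pow, z]; congr 1; push_cast; ring
    rw [h3]; exact sq_mem_of_index_two hNi _
  have hS0 : D.S 0 ∈ N := by
    obtain ⟨g, hg⟩ := isConj_iff.1 (ConjClasses.mk_eq_mk_iff_isConj.1 h1)
    rw [← hg]; exact hN.conj_mem _ hz g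
  have hS1 : D.S 1 ∈ N := by
    obtain ⟨g, hg⟩ := isConj_iff.1 (ConjClasses.mk_eq_mk_iff_isConj.1 h2)
    rw [← hg]; exact hN.conj_mem _ hz g
  have hR1 : D.R 1 ∈ N := by
    have := mul_mem hS0 hS1
    rwa [S_mul_S, sub_zero] at this
  have h3 := index_dvd_of_le (D.le_of_mem hR1 hS0)
  rw [hNi] at h3
  exact (Nat.not_even_iff_odd.2 D.index_odd) (even_iff_two_dvd.2 h3)

theorem no_four (h : ConjClasses.mk D.z = ConjClasses.mk (D.S 0) ∨ ConjClasses.mk D.z = ConjClasses.mk (D.S 1) ∨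
    ConjClasses.mk (D.S 0) = ConjClasses.mk (D.S 1)) (N : Subgroup G) (hN : N.Normal) : N.index ≠ 4 := by
  intro hNi
  have hq := D.hq
  haveI : NeZero (4 * q) := ⟨by omega⟩
  haveI : Fact (Nat.Prime 2) := ⟨Nat.prime_two⟩
  set π := QuotientGroup.mk' N with hπ
  have hc4 : Nat.card (G ⧸ N) = 2 ^ 2 := by change N.index = _; rw [hNi]; norm_num
  have hcomm : ∀ a b : G ⧸ N, a * b = b * a := (IsPGroup.isMulCommutative_of_card_eq_prime_sq hc4).1.1
  have hconj : ∀ x y : G, ConjClasses.mk x = ConjClasses.mk y → π x = π y := by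
    intro x y hxy
    obtain ⟨g, hg⟩ := isConj_iff.1 (ConjClasses.mk_eq_mk_iff_isConj.1 hxy)
    rw [← hg, map_mul, map_mul, map_inv, hcomm (π g), mul_inv_cancel_right]
  have hs0 : π (D.S 0) * π (D.S 0) = 1 := by rw [← map_mul, S_sq, map_one]
  have hs1 : π (D.S 1) * π (D.S 1) = 1 := by rw [← map_mul, S_sq, map_one]
  have hr : π (D.S 0) * π (D.S 1) = π (D.R 1) := by rw [← map_mul, S_mul_S, sub_zero]
  have hrr : π (D.R 1) * π (D.R 1) = 1 := by
    rw [← hr]
    calc π (D.S 0) * π (D.S 1) * (π (D.S 0) * π (D.S 1)) = π (D.S 0) * (π (D.S 1) * π (D.S 0)) * π (D.S 1) := by group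
      _ = π (D.S 0) * (π (D.S 0) * π (D.S 1)) * π (D.S 1) := by rw [hcomm (π (D.S 1))]
      _ = (π (D.S 0) * π (D.S 0)) * (π (D.S 1) * π (D.S 1)) := by group
      _ = 1 := by rw [hs0, hs1, one_mul]
  have hz : π D.z = 1 := by
    have h3 : D.z = (D.R 1) ^ (2 * q) := by rw [R_pow, z, mul_one]
    rw [h3, map_pow, pow_mul, pow_two, hrr, one_pow]
  have hpow : ∀ k : ℕ, π (D.R 1) ^ k = 1 ∨ π (D.R 1) ^ k = π (D.R 1) := by
    intro k
    rcases Nat.even_or_odd k with ⟨c, hc⟩ | ⟨c, hc⟩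
    · left; rw [hc, ← two_mul, pow_mul, pow_two, hrr, one_pow]
    · right; rw [hc, pow_succ, pow_mul, pow_two, hrr, one_pow, one_mul]
  have himg : ∀ x ∈ (D.P : Subgroup G), π x = 1 ∨ π x = π (D.R 1) ∨ π x = π (D.S 0) ∨ π x = π (D.S 1) := by
    have hR : ∀ i, D.R i = (D.R 1) ^ i.val := by
      intro i
      rw [R_pow, mul_one, ZMod.natCast_zmod_val]
    intro x hx
    rcases D.cases x hx with ⟨i, rfl⟩ | ⟨i, rfl⟩
    · rw [hR, map_pow]
      rcases hpow i.val with h3 | h3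
      · left; exact h3
      · right; left; exact h3
    · have : D.S i = D.R (-i) * D.S 0 := by rw [R_mul_S]; congr 1; ring
      rw [this, map_mul, hR, map_pow]
      rcases hpow (-i).val with h3 | h3
      · right; right; left; rw [h3, one_mul]
      · right; right; right
        rw [h3, ← hr, hcomm (π (D.S 0)), mul_assoc, hs0, mul_one]
  have htop : (D.P : Subgroup G).map π = ⊤ := by
    rw [← index_eq_one]
    have h3 : ((D.P : Subgroup G).map π).index ∣ (D.P : Subgroup G).index := index_map_dvd _ (QuotientGroup.mk'_surjective N)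
    have h4 : ((D.P : Subgroup G).map π).index ∣ 2 ^ 2 := by rw [← hc4]; exact index_dvd_card _
    exact Nat.eq_one_of_dvd_coprimes (((Nat.coprime_two_right).2 D.index_odd).pow_right 2) h3 h4
  have hall : ∀ y : G ⧸ N, y = 1 ∨ y = π (D.R 1) ∨ y = π (D.S 0) ∨ y = π (D.S 1) := by
    intro y
    have : y ∈ (D.P : Subgroup G).map π := by rw [htop]; exact mem_top _
    obtain ⟨x, hx, rfl⟩ := this
    exact himg x hx
  obtain ⟨t, ht⟩ : ∃ t : G ⧸ N, ∀ y : G ⧸ N, y = 1 ∨ y = t := by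
    rcases h with h | h | h
    · have h3 := (hconj _ _ h).symm.trans hz
      rw [h3, one_mul] at hr
      refine ⟨π (D.R 1), fun y => ?_⟩
      rcases hall y with h4 | h4 | h4 | h4
      · exact Or.inl h4
      · exact Or.inr h4
      · exact Or.inl (h4.trans h3)
      · exact Or.inr (h4.trans hr)
    · have h3 := (hconj _ _ h).symm.trans hz
      rw [h3, mul_one] at hr
      refine ⟨π (D.R 1), fun y => ?_⟩
      rcases hall y with h4 | h4 | h4 | h4
      · exact Or.inl h4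
      · exact Or.inr h4
      · exact Or.inr (h4.trans hr)
      · exact Or.inl (h4.trans h3)
    · have h3 := hconj _ _ h
      rw [← h3, hs0] at hr
      refine ⟨π (D.S 0), fun y => ?_⟩
      rcases hall y with h4 | h4 | h4 | h4
      · exact Or.inl h4
      · exact Or.inl (h4.trans hr.symm)
      · exact Or.inr h4
      · exact Or.inr (h4.trans h3.symm)
  have h5 : (Set.univ : Set (G ⧸ N)) ⊆ {1, t} := by
    intro y _
    rcases ht y with h6 | h6
    · rw [h6]; exact Set.mem_insert _ _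
    · rw [h6]; exact Set.mem_insert_of_mem _ rfl
  have h6 := Set.ncard_le_ncard h5
  rw [Set.ncard_univ, hc4] at h6
  have h7 : ({1, t} : Set (G ⧸ N)).ncard ≤ 2 := Set.ncard_insert_le _ _ |>.trans (by rw [Set.ncard_singleton])
  omega

/-- fusion invariance of membership in normal subgroups of `P` when there are three classes -/
theorem fusion (h01 : ConjClasses.mk D.z ≠ ConjClasses.mk (D.S 0)) (h02 : ConjClasses.mk D.z ≠ ConjClasses.mk (D.S 1))
    (h12 : ConjClasses.mk (D.S 0) ≠ ConjClasses.mk (D.S 1)) (C : Subgroup ↥(D.P : Subgroup G)) (hC : C.Normal)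
    {y w : G} (hy : y ∈ (D.P : Subgroup G)) (hw : w ∈ (D.P : Subgroup G)) (hyw : ConjClasses.mk y = ConjClasses.mk w) :
    (⟨y, hy⟩ : ↥(D.P : Subgroup G)) ∈ C ↔ (⟨w, hw⟩ : ↥(D.P : Subgroup G)) ∈ C := by
  have hq := D.hq
  haveI : NeZero (4 * q) := ⟨by omega⟩
  have hord : orderOf w = orderOf y := by
    obtain ⟨g, hg⟩ := isConj_iff.1 (ConjClasses.mk_eq_mk_iff_isConj.1 hyw)
    rw [← hg, H24.Tools.orderOf_conj]
  have hzS : ∀ i, ConjClasses.mk D.z ≠ ConjClasses.mk (D.S i) := by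
    intro i h
    rcases D.mk_S i with ⟨-, h3⟩ | ⟨-, h3⟩
    · exact h01 (h.trans h3)
    · exact h02 (h.trans h3)
  have hnorm : ∀ (a b k : G) (ha : a ∈ (D.P : Subgroup G)) (hb : b ∈ (D.P : Subgroup G)) (hk : k ∈ (D.P : Subgroup G)),
      k * a * k⁻¹ = b → ((⟨b, hb⟩ : ↥(D.P : Subgroup G)) ∈ C ↔ (⟨a, ha⟩ : ↥(D.P : Subgroup G)) ∈ C) := by
    intro a b k ha hb hk hab
    have h3 : (⟨b, hb⟩ : ↥(D.P : Subgroup G)) = ⟨k, hk⟩ * ⟨a, ha⟩ * (⟨k, hk⟩)⁻¹ := Subtype.ext hab.symm
    rw [h3]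
    exact (hC.mem_comm_iff.trans (by rw [← mul_assoc, inv_mul_cancel, one_mul]))
  by_cases h2 : orderOf y = 2
  · rcases D.invol hy h2 with h3 | ⟨i, h3⟩
    · rcases D.invol hw (hord.trans h2) with h4 | ⟨j, h4⟩
      · subst h3; subst h4; exact Iff.rfl
      · exfalso; rw [h3, h4] at hyw; exact hzS j hyw
    · rcases D.invol hw (hord.trans h2) with h4 | ⟨j, h4⟩
      · exfalso; rw [h3, h4] at hyw; exact hzS i hyw.symm
      · subst h3; subst h4
        rcases D.mk_S i with ⟨hi, h5⟩ | ⟨hi, h5⟩ <;> rcases D.mk_S j with ⟨hj, h6⟩ | ⟨hj, h6⟩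
        · obtain ⟨k, hk⟩ := D.S_even hi
          obtain ⟨l, hl⟩ := D.S_even hj
          rw [hnorm _ _ _ (D.S_mem 0) (D.S_mem i) (D.R_mem k) hk, hnorm _ _ _ (D.S_mem 0) (D.S_mem j) (D.R_mem l) hl]
        · exfalso; exact h12 (h5.symm.trans (hyw.trans h6))
        · exfalso; exact h12 (h6.symm.trans (hyw.symm.trans h5))
        · obtain ⟨k, hk⟩ := D.S_odd hi
          obtain ⟨l, hl⟩ := D.S_odd hj
          rw [hnorm _ _ _ (D.S_mem 1) (D.S_mem i) (D.R_mem k) hk, hnorm _ _ _ (D.S_mem 1) (D.S_mem j) (D.R_mem l) hl]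
  · obtain ⟨i, hi⟩ : ∃ i, y = D.R i := by
      rcases D.cases y hy with h3 | ⟨i, h3⟩
      · exact h3
      · exfalso; rw [h3, orderOf_S] at h2; exact h2 rfl
    obtain ⟨j, hj⟩ : ∃ j, w = D.R j := by
      rcases D.cases w hw with h3 | ⟨j, h3⟩
      · exact h3
      · exfalso; rw [← hord, h3, orderOf_S] at h2; exact h2 rfl
    have hR : ∀ i, D.R i ∈ zpowers (D.R 1) := by
      intro i
      have : D.R i = (D.R 1) ^ i.val := by rw [R_pow, mul_one, ZMod.natCast_zmod_val]
      rw [this]; exact pow_mem (mem_zpowers _) _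
    have heq : zpowers y = zpowers w :=
      H12.Core.cyclic_eq_of_card_eq' (C := zpowers (D.R 1)) inferInstance (by rw [zpowers_le, hi]; exact hR i)
        (by rw [zpowers_le, hj]; exact hR j) (by rw [Nat.card_zpowers, Nat.card_zpowers, hord])
    have hpw : ∀ (a b : G) (ha : a ∈ (D.P : Subgroup G)) (hb : b ∈ (D.P : Subgroup G)), b ∈ zpowers a →
        (⟨a, ha⟩ : ↥(D.P : Subgroup G)) ∈ C → (⟨b, hb⟩ : ↥(D.P : Subgroup G)) ∈ C := by
      intro a b ha hb hab hmem
      obtain ⟨k, hk⟩ := mem_zpowers_iff.1 hab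
      have : (⟨b, hb⟩ : ↥(D.P : Subgroup G)) = (⟨a, ha⟩ : ↥(D.P : Subgroup G)) ^ k := Subtype.ext hk.symm
      rw [this]; exact zpow_mem hmem k
    exact ⟨hpw y w hy hw (by rw [heq]; exact mem_zpowers w), hpw w y hw hy (by rw [← heq]; exact mem_zpowers y)⟩

theorem npc (h01 : ConjClasses.mk D.z ≠ ConjClasses.mk (D.S 0)) (h02 : ConjClasses.mk D.z ≠ ConjClasses.mk (D.S 1))
    (h12 : ConjClasses.mk (D.S 0) ≠ ConjClasses.mk (D.S 1)) : HasNormalPComplement 2 G := by
  haveI : Fact (Nat.Prime 2) := ⟨Nat.prime_two⟩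
  apply H2.Fusion3.npc_of_tate D.P
  intro C hC hCi x hx hxG
  have h1 : x ∈ commutator G ⊓ (D.P : Subgroup G) := ⟨hxG, hx⟩
  rw [commutator_inf_eq_focalSubgroup, focalSubgroup_def] at h1
  have h2 : closure {g | g ∈ (D.P : Subgroup G) ∧ ∃ x ∈ (D.P : Subgroup G), ∃ u : G, g = ⁅x, u⁆} ≤ C.map (D.P : Subgroup G).subtype := by
    rw [closure_le]
    rintro g ⟨hg, y, hy, u, hgu⟩
    have hw : u * y * u⁻¹ ∈ (D.P : Subgroup G) := by
      have : u * y * u⁻¹ = g⁻¹ * y := by rw [hgu, commutatorElement_def]; group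
      rw [this]; exact mul_mem (inv_mem hg) hy
    have h3 := D.fusion h01 h02 h12 C hC hy hw (ConjClasses.mk_eq_mk_iff_isConj.2 (isConj_iff.2 ⟨u, rfl⟩))
    refine ⟨⟨g, hg⟩, ?_, rfl⟩
    have h4 : (⟨g, hg⟩ : ↥(D.P : Subgroup G)) = ⟨y, hy⟩ * (⟨u * y * u⁻¹, hw⟩)⁻¹ := by
      apply Subtype.ext
      change g = y * (u * y * u⁻¹)⁻¹
      rw [hgu, commutatorElement_def]; group
    change (⟨g, hg⟩ : ↥(D.P : Subgroup G)) ∈ C
    rw [h4, mul_mem_iff_of_index_two hCi, inv_mem_iff]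
    exact h3
  obtain ⟨y, hy, hyx⟩ := h2 h1
  have : y = ⟨x, hx⟩ := Subtype.ext hyx
  rw [← this]; exact hy

end Data

/-- Let G be a finite group whose Sylow 2-subgroups are dihedral of order 2 ^ n with n ≥ 3, and count the conjugacy classes of involutions of G. Then exactly one of the following holds: there is one class of involutions and no normal subgroup of index 2; there are two classes of involutions, a normal subgroup of index 2 and none of index 4; there are three classes of involutions and G has a normal 2-complement. -/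
theorem result {G : Type*} [Group G] [Finite G] (P : Sylow 2 G) (n : ℕ) (hn : 3 ≤ n) (hdih : Nonempty (↥(P : Subgroup G) ≃* DihedralGroup (2 ^ (n - 1)))) : (Nat.card {C : ConjClasses G // ∃ g : G, ConjClasses.mk g = C ∧ orderOf g = 2} = 1 ∧ ∀ N : Subgroup G, N.Normal → N.index ≠ 2) ∨ (Nat.card {C : ConjClasses G // ∃ g : G, ConjClasses.mk g = C ∧ orderOf g = 2} = 2 ∧ (∃ N : Subgroup G, N.Normal ∧ N.index = 2) ∧ ∀ N : Subgroup G, N.Normal → N.index ≠ 4) ∨ (Nat.card {C : ConjClasses G // ∃ g : G, ConjClasses.mk g = C ∧ orderOf g = 2} = 3 ∧ Cfsg.HasNormalPComplement 2 G) := by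

  classical
  obtain ⟨e⟩ := hdih
  have hm : 2 ^ (n - 1) = 4 * 2 ^ (n - 3) := by
    have : (4 : ℕ) = 2 ^ 2 := by norm_num
    rw [this, ← pow_add]; congr 1; omega
  rw [hm] at e
  let D : Data G (2 ^ (n - 3)) := ⟨P, e, by positivity⟩
  have hT : Nat.card {C : ConjClasses G // ∃ g : G, ConjClasses.mk g = C ∧ orderOf g = 2} =
      ({ConjClasses.mk D.z, ConjClasses.mk (D.S 0), ConjClasses.mk (D.S 1)} : Set (ConjClasses G)).ncard := by
    rw [← D.classes]
    exact Nat.card_coe_set_eq _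
  rw [hT]
  by_cases h01 : ConjClasses.mk D.z = ConjClasses.mk (D.S 0)
  · by_cases h02 : ConjClasses.mk D.z = ConjClasses.mk (D.S 1)
    · left
      refine ⟨?_, fun N hN => D.no_two h01 h02 N hN⟩
      rw [← h01, ← h02, Set.insert_eq_of_mem (by simp), Set.insert_eq_of_mem (by simp), Set.ncard_singleton]
    · right; left
      refine ⟨?_, ?_, fun N hN => D.no_four (Or.inl h01) N hN⟩
      · rw [← h01, Set.insert_eq_of_mem (by simp), Set.ncard_pair h02]
      · apply D.exists_index_two 1 0 (Or.inl one_ne_zero) (D.S 1) (D.orderOf_S 1)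
        intro g hg
        have ho : orderOf (g⁻¹ * D.S 1 * g) = 2 := by
          have := H24.Tools.orderOf_conj g⁻¹ (D.S 1)
          rw [inv_inv] at this
          rw [this, D.orderOf_S]
        rcases D.invol hg ho with h3 | ⟨i, h3⟩
        · exfalso; apply h02; rw [← h3]; exact Data.mk_eq
        · rcases D.mk_S i with ⟨hi, h4⟩ | ⟨hi, h4⟩
          · exfalso; apply h02; rw [h01, ← h4, ← h3]; exact Data.mk_eq
          · rw [D.e_S hg h3, Ne, chi_sr, D.cast_odd _ hi]; decide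
  · by_cases h02 : ConjClasses.mk D.z = ConjClasses.mk (D.S 1)
    · right; left
      refine ⟨?_, ?_, fun N hN => D.no_four (Or.inr (Or.inl h02)) N hN⟩
      · rw [← h02, Set.insert_eq_of_mem (by simp), Set.ncard_pair (Ne.symm h01)]
      · apply D.exists_index_two 1 1 (Or.inl one_ne_zero) (D.S 0) (D.orderOf_S 0)
        intro g hg
        have ho : orderOf (g⁻¹ * D.S 0 * g) = 2 := by
          have := H24.Tools.orderOf_conj g⁻¹ (D.S 0)
          rw [inv_inv] at this
          rw [this, D.orderOf_S]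
        rcases D.invol hg ho with h3 | ⟨i, h3⟩
        · exfalso; apply h01; rw [← h3]; exact Data.mk_eq
        · rcases D.mk_S i with ⟨hi, h4⟩ | ⟨hi, h4⟩
          · rw [D.e_S hg h3, Ne, chi_sr, D.cast_even _ hi]; decide
          · exfalso; apply h01; rw [h02, ← h4, ← h3]; exact Data.mk_eq
    · by_cases h12 : ConjClasses.mk (D.S 0) = ConjClasses.mk (D.S 1)
      · right; left
        refine ⟨?_, ?_, fun N hN => D.no_four (Or.inr (Or.inr h12)) N hN⟩
        · rw [← h12, Set.pair_eq_singleton, Set.ncard_pair h01]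
        · apply D.exists_index_two 0 1 (Or.inr one_ne_zero) (D.S 0) (D.orderOf_S 0)
          intro g hg
          have ho : orderOf (g⁻¹ * D.S 0 * g) = 2 := by
            have := H24.Tools.orderOf_conj g⁻¹ (D.S 0)
            rw [inv_inv] at this
            rw [this, D.orderOf_S]
          rcases D.invol hg ho with h3 | ⟨i, h3⟩
          · exfalso; apply h01; rw [← h3]; exact Data.mk_eq
          · rw [D.e_S hg h3, Ne, chi_sr, zero_mul]; decide
      · right; right
        refine ⟨?_, D.npc h01 h02 h12⟩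
        rw [Set.ncard_insert_of_notMem (by simp [h01, h02]), Set.ncard_pair h12]


end Cfsg.Agent.S3864
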