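import Cfsg.Statements.S3866
import Cfsg.Agent.H22_Schur

set_option autoImplicit false
open Cfsg

namespace Cfsg.Agent.S3866

open Subgroup
open scoped commutatorElement

/-- Let A be a commutative normal subgroup of the finite group G with G generated by A and an element x. Then a ↦ x a x⁻¹ a⁻¹ is a surjective homomorphism from A onto the commutator subgroup of G whose kernel is the centralizer of x in A; in particular the commutator subgroup has order equal to the index in A of that centralizer. -/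
theorem result {G : Type*} [Group G] [Finite G] (A : Subgroup G) [A.Normal] (hA : IsMulCommutative A) (x : G) (hgen : A ⊔ Subgroup.zpowers x = ⊤) : (∀ a ∈ A, x * a * x⁻¹ * a⁻¹ ∈ commutator G) ∧ (∀ c ∈ commutator G, ∃ a ∈ A, x * a * x⁻¹ * a⁻¹ = c) ∧ (∀ a ∈ A, ∀ b ∈ A, x * (a * b) * x⁻¹ * (a * b)⁻¹ = (x * a * x⁻¹ * a⁻¹) * (x * b * x⁻¹ * b⁻¹)) ∧ Nat.card (commutator G) * Nat.card ↥(A ⊓ Subgroup.centralizer ({x} : Set G)) = Nat.card A := by
  have hcomm : ∀ a ∈ A, ∀ b ∈ A, a * b = b * a := by
    intro a ha b hb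
    exact congrArg Subtype.val (hA.is_comm.comm (⟨a, ha⟩ : A) ⟨b, hb⟩)
  have hn : ∀ a ∈ A, ∀ g : G, g * a * g⁻¹ ∈ A := fun a ha g => ‹A.Normal›.conj_mem a ha g
  have h1 : ∀ a ∈ A, x * a * x⁻¹ * a⁻¹ ∈ commutator G := by
    intro a _
    rw [_root_.commutator_def]
    exact commutator_mem_commutator (mem_top x) (mem_top a)
  have hmul : ∀ a ∈ A, ∀ b ∈ A, x * (a * b) * x⁻¹ * (a * b)⁻¹ = (x * a * x⁻¹ * a⁻¹) * (x * b * x⁻¹ * b⁻¹) := by
    intro a ha b hb
    have e1 : x * (a * b) * x⁻¹ * (a * b)⁻¹ = (x * a * x⁻¹) * ((x * b * x⁻¹ * b⁻¹) * a⁻¹) := by group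
    rw [e1, hcomm _ (mul_mem (hn b hb x) (inv_mem hb)) _ (inv_mem ha)]
    group
  let φ : A →* G := MonoidHom.mk' (fun a => x * a * x⁻¹ * (a : G)⁻¹) (fun a b => hmul a a.2 b b.2)
  have hφ : ∀ a : A, φ a = x * a * x⁻¹ * (a : G)⁻¹ := fun _ => rfl
  have hrange : φ.range = commutator G := by
    apply le_antisymm
    · rintro _ ⟨a, rfl⟩; exact h1 a a.2
    · have hcl : closure ((A : Set G) ∪ {x}) = ⊤ := by
        rw [Subgroup.closure_union, Subgroup.closure_eq, ← Subgroup.zpowers_eq_closure, hgen]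
      have hrA : ∀ y ∈ φ.range, y ∈ A := by
        rintro _ ⟨a, rfl⟩; exact mul_mem (hn a a.2 x) (inv_mem a.2)
      have := H22.Schur.commutator_closure_le ((A : Set G) ∪ {x}) φ.range ?_ ?_
      · rw [hcl] at this
        rw [_root_.commutator_def]; exact this
      · intro s hs n hnr
        rcases hs with hs | hs
        · rw [hcomm s hs n (hrA n hnr), mul_inv_cancel_right, hcomm s⁻¹ (inv_mem hs) n (hrA n hnr), inv_mul_cancel_right]
          exact ⟨hnr, hnr⟩
        · have hs : s = x := hs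
          rw [hs]
          obtain ⟨a, rfl⟩ := hnr
          refine ⟨⟨⟨x * a * x⁻¹, hn a a.2 x⟩, ?_⟩, ⟨⟨x⁻¹ * a * x, ?_⟩, ?_⟩⟩
          · rw [hφ, hφ]; simp only []; group
          · have := hn a a.2 x⁻¹
            rwa [inv_inv] at this
          · rw [hφ, hφ]; simp only []; group
      · intro s hs t ht
        rcases hs with hs | hs <;> rcases ht with ht | ht
        · rw [commutatorElement_eq_one_iff_mul_comm.mpr (hcomm s hs t ht)]; exact one_mem _
        · have ht : t = x := ht
          rw [ht, ← inv_mem_iff, commutatorElement_inv]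
          exact ⟨⟨s, hs⟩, rfl⟩
        · have hs : s = x := hs
          rw [hs]; exact ⟨⟨t, ht⟩, rfl⟩
        · have hs : s = x := hs
          have ht : t = x := ht
          rw [hs, ht, commutatorElement_self]; exact one_mem _
  refine ⟨h1, ?_, hmul, ?_⟩
  · intro c hc
    rw [← hrange] at hc
    obtain ⟨a, rfl⟩ := hc
    exact ⟨a, a.2, rfl⟩
  · have hk : φ.ker.map A.subtype = A ⊓ centralizer ({x} : Set G) := by
      ext y
      constructor
      · rintro ⟨a, ha, rfl⟩
        refine mem_inf.mpr ⟨a.2, ?_⟩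
        rw [mem_centralizer_singleton_iff]
        have ha : x * a * x⁻¹ * (a : G)⁻¹ = 1 := ha
        have : x * (a : G) = a * x := by
          calc x * (a : G) = (x * a * x⁻¹ * (a : G)⁻¹) * a * x := by group
            _ = a * x := by rw [ha, one_mul]
        exact this.symm
      · intro hy
        obtain ⟨hy1, hy2⟩ := mem_inf.mp hy
        rw [mem_centralizer_singleton_iff] at hy2
        refine ⟨⟨y, hy1⟩, ?_, rfl⟩
        show x * y * x⁻¹ * y⁻¹ = 1
        rw [← hy2]; group
    rw [← hrange, ← hk, Nat.card_congr (φ.ker.equivMapOfInjective _ A.subtype_injective).symm.toEquiv,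
      ← Subgroup.index_ker, mul_comm, Subgroup.card_mul_index]

end Cfsg.Agent.S3866
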