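import Cfsg.Statements.S3867
import Cfsg.Agent.H22_Basic
import Cfsg.Agent.H24_Sylow
import Cfsg.Agent.H1_Basic

set_option autoImplicit false
open Cfsg

namespace Cfsg.Agent.S3867

open Subgroup H22.Basic
open scoped commutatorElement

variable {G : Type*} [Group G] [Finite G] {p : ℕ} [Fact p.Prime]

theorem card_quot (P : Sylow p G) (K : Subgroup G) [K.Normal] :
    Nat.card (Sylow p (G ⧸ K)) = (normalizer ((P : Subgroup G) : Set G) ⊔ K).index := by
  let Q : Sylow p (G ⧸ K) := P.mapSurjective (QuotientGroup.mk'_surjective K)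
  have hQ : (Q : Subgroup (G ⧸ K)) = (P : Subgroup G).map (QuotientGroup.mk' K) := rfl
  rw [Q.card_eq_index_normalizer]
  have h1 : (normalizer ((Q : Subgroup (G ⧸ K)) : Set (G ⧸ K))).comap (QuotientGroup.mk' K) =
      normalizer ((P : Subgroup G) : Set G) ⊔ K := by
    apply le_antisymm
    · intro g hg
      have hg' : ∀ x ∈ (P : Subgroup G), g * x * g⁻¹ ∈ (P : Subgroup G) ⊔ K := by
        intro x hx
        have h2 : QuotientGroup.mk' K g * QuotientGroup.mk' K x * (QuotientGroup.mk' K g)⁻¹ ∈ (Q : Subgroup (G ⧸ K)) :=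
          (mem_normalizer_iff.mp hg (QuotientGroup.mk' K x)).mp ⟨x, hx, rfl⟩
        rw [← map_mul, ← map_inv, ← map_mul, hQ] at h2
        have h3 : g * x * g⁻¹ ∈ ((P : Subgroup G).map (QuotientGroup.mk' K)).comap (QuotientGroup.mk' K) := h2
        rwa [Subgroup.comap_map_eq, QuotientGroup.ker_mk'] at h3
      obtain ⟨u, hu, hug⟩ := H24.Sylow.exists_lift_normalizer P K g hg'
      have h2 : u * g ∈ normalizer ((P : Subgroup G) : Set G) := by
        apply mem_normalizer_of_cj_le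
        rintro x ⟨y, hy, rfl⟩
        exact hug y hy
      have : g = u⁻¹ * (u * g) := by group
      rw [this]
      refine mul_mem ?_ (mem_sup_left h2)
      exact (sup_le (le_normalizer.trans le_sup_left) le_sup_right) (inv_mem hu)
    · refine sup_le ?_ ?_
      · intro g hg
        rw [Subgroup.mem_comap, mem_normalizer_iff_cj]
        have h2 : cj (QuotientGroup.mk' K g) (Q : Subgroup (G ⧸ K)) = (cj g (P : Subgroup G)).map (QuotientGroup.mk' K) := by
          rw [hQ]
          ext y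
          constructor
          · rintro ⟨_, ⟨x, hx, rfl⟩, rfl⟩
            exact ⟨g * x * g⁻¹, conj_mem_cj hx, by simp⟩
          · rintro ⟨_, ⟨x, hx, rfl⟩, rfl⟩
            exact ⟨QuotientGroup.mk' K x, ⟨x, hx, rfl⟩, by simp⟩
        rw [h2, cj_eq_of_mem_normalizer hg]; rfl
      · intro k hk
        have : QuotientGroup.mk' K k = 1 := (QuotientGroup.eq_one_iff k).mpr hk
        rw [Subgroup.mem_comap, this]; exact one_mem _
  rw [← h1, Subgroup.index_comap_of_surjective _ (QuotientGroup.mk'_surjective K)]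
  rfl

/-- the component in `M` of an element of `P ⊓ MN` lies in `P` -/
theorem mem_of_mul_mem (P : Sylow p G) (M N : Subgroup G) [M.Normal] [N.Normal] (hMN : M ⊓ N = ⊥) (m n : G)
    (hm : m ∈ M) (hn : n ∈ N) (h : m * n ∈ (P : Subgroup G)) : m ∈ (P : Subgroup G) := by
  have hcomm : ∀ a ∈ M, ∀ b ∈ N, a * b = b * a := by
    intro a ha b hb
    exact (Subgroup.commute_of_normal_of_disjoint M N inferInstance inferInstance (disjoint_iff.mpr hMN) a b ha hb)
  let Q : Subgroup G :=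
    { carrier := {a | a ∈ M ∧ ∃ b ∈ N, a * b ∈ (P : Subgroup G)}
      one_mem' := ⟨one_mem _, 1, one_mem _, by rw [mul_one]; exact one_mem _⟩
      mul_mem' := by
        rintro a a' ⟨ha, b, hb, hab⟩ ⟨ha', b', hb', hab'⟩
        refine ⟨mul_mem ha ha', b * b', mul_mem hb hb', ?_⟩
        have : a * a' * (b * b') = (a * b) * (a' * b') := by
          calc a * a' * (b * b') = a * (a' * b) * b' := by group
            _ = a * (b * a') * b' := by rw [hcomm a' ha' b hb]
            _ = _ := by group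
        rw [this]; exact mul_mem hab hab'
      inv_mem' := by
        rintro a ⟨ha, b, hb, hab⟩
        refine ⟨inv_mem ha, b⁻¹, inv_mem hb, ?_⟩
        have : a⁻¹ * b⁻¹ = (a * b)⁻¹ := by rw [hcomm a ha b hb]; group
        rw [this]; exact inv_mem hab }
  have hQp : IsPGroup p Q := by
    rintro ⟨a, ha, b, hb, hab⟩
    obtain ⟨k, hk⟩ := P.isPGroup' ⟨a * b, hab⟩
    have hk' : (a * b) ^ p ^ k = 1 := congrArg Subtype.val hk
    rw [Commute.mul_pow (hcomm a ha b hb)] at hk'
    refine ⟨k, Subtype.ext ?_⟩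
    have : a ^ p ^ k ∈ M ⊓ N := by
      refine mem_inf.mpr ⟨pow_mem ha _, ?_⟩
      rw [mul_eq_one_iff_eq_inv] at hk'
      rw [hk']; exact inv_mem (pow_mem hb _)
    rw [hMN, mem_bot] at this
    exact this
  have hPQ : (P : Subgroup G) ≤ normalizer (Q : Set G) := by
    intro u hu
    apply mem_normalizer_of_cj_le
    rintro _ ⟨a, ⟨ha, b, hb, hab⟩, rfl⟩
    refine ⟨‹M.Normal›.conj_mem a ha u, u * b * u⁻¹, ‹N.Normal›.conj_mem b hb u, ?_⟩
    have : (MulAut.conj u).toMonoidHom a * (u * b * u⁻¹) = u * (a * b) * u⁻¹ := by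
      show u * a * u⁻¹ * (u * b * u⁻¹) = _
      group
    rw [this]; exact mul_mem (mul_mem hu hab) (inv_mem hu)
  have hsup : IsPGroup p ((P : Subgroup G) ⊔ Q : Subgroup G) := IsPGroup.to_sup_of_normal_right' P.isPGroup' hQp hPQ
  have h1 : (P : Subgroup G) ⊔ Q = P := P.is_maximal' hsup le_sup_left
  have h2 : Q ≤ (P : Subgroup G) := by rw [← h1]; exact le_sup_right
  exact h2 ⟨hm, n, hn, h⟩

/-- Let M and N be nontrivial normal subgroups of the finite group G with M ⊓ N trivial, and let p be a prime. Writing n(X) for the number of Sylow p-subgroups of a group X, one has n(G) · n(G/MN) = n(G/M) · n(G/N). -/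
theorem result {G : Type*} [Group G] [Finite G] (p : ℕ) [Fact p.Prime] (M N : Subgroup G) [M.Normal] [N.Normal] (hM : M ≠ ⊥) (hN : N ≠ ⊥) (hMN : M ⊓ N = ⊥) : Nat.card (Sylow p G) * Nat.card (Sylow p (G ⧸ (M ⊔ N))) = Nat.card (Sylow p (G ⧸ M)) * Nat.card (Sylow p (G ⧸ N)) := by
  let P : Sylow p G := default
  rw [card_quot P, card_quot P, card_quot P, P.card_eq_index_normalizer]
  set H := normalizer ((P : Subgroup G) : Set G) with hH
  have hcomm : ∀ a ∈ M, ∀ b ∈ N, a * b = b * a := by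
    intro a ha b hb
    exact (Subgroup.commute_of_normal_of_disjoint M N inferInstance inferInstance (disjoint_iff.mpr hMN) a b ha hb)
  have hfac : ∀ a ∈ M, ∀ b ∈ N, a * b ∈ H → a ∈ H := by
    intro m hm n hn hmn
    apply mem_normalizer_of_cj_le
    rintro _ ⟨u, hu, rfl⟩
    show m * u * m⁻¹ ∈ (P : Subgroup G)
    have h1 : (m * n) * u * (m * n)⁻¹ * u⁻¹ ∈ (P : Subgroup G) :=
      mul_mem ((mem_normalizer_iff.mp hmn u).mp hu) (inv_mem hu)
    have h2 : (m * n) * u * (m * n)⁻¹ * u⁻¹ = (m * (u * m⁻¹ * u⁻¹)) * (n * (u * n⁻¹ * u⁻¹)) := by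
      have e1 : u * m⁻¹ * u⁻¹ ∈ M := ‹M.Normal›.conj_mem _ (inv_mem hm) u
      have e2 : n * (u * n⁻¹ * u⁻¹) ∈ N := mul_mem hn (‹N.Normal›.conj_mem _ (inv_mem hn) u)
      calc (m * n) * u * (m * n)⁻¹ * u⁻¹ = m * ((n * (u * n⁻¹ * u⁻¹)) * (u * m⁻¹ * u⁻¹)) := by group
        _ = m * ((u * m⁻¹ * u⁻¹) * (n * (u * n⁻¹ * u⁻¹))) := by rw [hcomm _ e1 _ e2]
        _ = _ := by group
    rw [h2] at h1
    have h3 := mem_of_mul_mem P M N hMN _ _ (mul_mem hm (‹M.Normal›.conj_mem _ (inv_mem hm) u))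
      (mul_mem hn (‹N.Normal›.conj_mem _ (inv_mem hn) u)) h1
    have : m * u * m⁻¹ = (m * (u * m⁻¹ * u⁻¹)) * u := by group
    rw [this]; exact mul_mem h3 hu
  have hinf : H ⊓ (M ⊔ N) = (H ⊓ M) ⊔ (H ⊓ N) := by
    apply le_antisymm
    · intro x hx
      obtain ⟨hxH, hxMN⟩ := mem_inf.mp hx
      obtain ⟨m, hm, n, hn, rfl⟩ := Subgroup.mem_sup_of_normal_left.mp hxMN
      have hmH := hfac m hm n hn hxH
      have hnH : n ∈ H := by
        have := mul_mem (inv_mem hmH) hxH
        rwa [inv_mul_cancel_left] at this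
      exact mul_mem (mem_sup_left (mem_inf.mpr ⟨hmH, hm⟩)) (mem_sup_right (mem_inf.mpr ⟨hnH, hn⟩))
    · exact sup_le (inf_le_inf le_rfl le_sup_left) (inf_le_inf le_rfl le_sup_right)
  have hcc : Nat.card (H ⊓ (M ⊔ N) : Subgroup G) = Nat.card (H ⊓ M : Subgroup G) * Nat.card (H ⊓ N : Subgroup G) := by
    rw [hinf]
    apply card_sup_of_inf_eq_bot
    · refine le_normalizer_inf (inf_le_left.trans le_normalizer) ?_
      rw [Subgroup.normalizer_eq_top M]; exact le_top
    · rw [eq_bot_iff, ← hMN]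
      exact inf_le_inf inf_le_right inf_le_right
  have hcMN : Nat.card (M ⊔ N : Subgroup G) = Nat.card M * Nat.card N := by
    apply card_sup_of_inf_eq_bot _ hMN
    rw [Subgroup.normalizer_eq_top]; exact le_top
  have f : ∀ (K : Subgroup G) [K.Normal], Nat.card (H ⊔ K : Subgroup G) * Nat.card (H ⊓ K : Subgroup G) = Nat.card H * Nat.card K := by
    intro K _
    apply H1.Basic.card_sup_mul_card_inf
    rw [Subgroup.normalizer_eq_top K]; exact le_top
  have f1 := f M
  have f2 := f N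
  have f3 := f (M ⊔ N)
  rw [hcc, hcMN] at f3
  have i0 := H.index_mul_card
  have i1 := (H ⊔ M).index_mul_card
  have i2 := (H ⊔ N).index_mul_card
  have i3 := (H ⊔ (M ⊔ N)).index_mul_card
  have p0 : 0 < Nat.card (H ⊓ M : Subgroup G) * Nat.card (H ⊓ N : Subgroup G) := Nat.mul_pos Nat.card_pos Nat.card_pos
  have p1 : 0 < Nat.card H * Nat.card (H ⊔ (M ⊔ N) : Subgroup G) := Nat.mul_pos Nat.card_pos Nat.card_pos
  have hcard : Nat.card H * Nat.card (H ⊔ (M ⊔ N) : Subgroup G) = Nat.card (H ⊔ M : Subgroup G) * Nat.card (H ⊔ N : Subgroup G) := by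
    apply Nat.eq_of_mul_eq_mul_right p0
    calc _ = Nat.card H * (Nat.card (H ⊔ (M ⊔ N) : Subgroup G) * (Nat.card (H ⊓ M : Subgroup G) * Nat.card (H ⊓ N : Subgroup G))) := by ring
      _ = Nat.card H * (Nat.card H * (Nat.card M * Nat.card N)) := by rw [f3]
      _ = (Nat.card H * Nat.card M) * (Nat.card H * Nat.card N) := by ring
      _ = (Nat.card (H ⊔ M : Subgroup G) * Nat.card (H ⊓ M : Subgroup G)) * (Nat.card (H ⊔ N : Subgroup G) * Nat.card (H ⊓ N : Subgroup G)) := by rw [f1, f2]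
      _ = _ := by ring
  apply Nat.eq_of_mul_eq_mul_right p1
  calc H.index * (H ⊔ (M ⊔ N)).index * (Nat.card H * Nat.card (H ⊔ (M ⊔ N) : Subgroup G))
      = (H.index * Nat.card H) * ((H ⊔ (M ⊔ N)).index * Nat.card (H ⊔ (M ⊔ N) : Subgroup G)) := by ring
    _ = Nat.card G * Nat.card G := by rw [i0, i3]
    _ = ((H ⊔ M).index * Nat.card (H ⊔ M : Subgroup G)) * ((H ⊔ N).index * Nat.card (H ⊔ N : Subgroup G)) := by rw [i1, i2]
    _ = (H ⊔ M).index * (H ⊔ N).index * (Nat.card (H ⊔ M : Subgroup G) * Nat.card (H ⊔ N : Subgroup G)) := by ring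
    _ = _ := by rw [hcard]

end Cfsg.Agent.S3867
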