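import Cfsg.Statements.S3878
import Cfsg.Agent.H9_Jordan
import Cfsg.Agent.H22_Basic

set_option autoImplicit false
open Cfsg

namespace Cfsg.Agent.S3878

open Equiv Equiv.Perm MulAction
open scoped Pointwise

theorem trans_of_index (n p k : ℕ) (hp : p.Prime) (hn : n = p ^ k) (H : Subgroup (Perm (Fin n))) (hidx : ¬ p ∣ H.index) :
    MulAction.IsPretransitive H (Fin n) := by
  have key : ∀ x : Fin n, orbit H x = Set.univ := by
    intro x
    have h1 : (stabilizer (Perm (Fin n)) x).index = n := by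
      rw [MulAction.index_stabilizer, MulAction.orbit_eq_univ, Set.ncard_univ, Nat.card_fin]
    have h2 : (stabilizer H x).map H.subtype ≤ stabilizer (Perm (Fin n)) x := by
      rintro _ ⟨g, hg, rfl⟩
      exact hg
    have h3 : n ∣ ((stabilizer H x).map H.subtype).index := by
      have h4 := Subgroup.index_dvd_of_le h2
      rwa [h1] at h4
    rw [Subgroup.index_map_subtype, MulAction.index_stabilizer] at h3
    have hcop : n.Coprime H.index := by
      have h4 : (p ^ k).Coprime H.index := Nat.Coprime.pow_left k ((hp.coprime_iff_not_dvd).mpr hidx)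
      have h5 : Nat.gcd n H.index = Nat.gcd (p ^ k) H.index := congrArg (fun a => Nat.gcd a H.index) hn
      exact h5.trans h4
    have h4 : n ∣ (orbit H x).ncard := hcop.dvd_of_dvd_mul_right h3
    have h5 : 0 < (orbit H x).ncard := (Set.ncard_pos (Set.toFinite _)).mpr ⟨x, mem_orbit_self x⟩
    have h6 := Nat.le_of_dvd h5 h4
    apply Set.eq_of_subset_of_ncard_le (Set.subset_univ _) _ (Set.toFinite _)
    rw [Set.ncard_univ, Nat.card_fin]
    exact h6
  exact ⟨fun x y => by
    have : y ∈ orbit H x := by rw [key x]; trivial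
    exact this⟩

theorem cycle_stab {n q : ℕ} (hq : q.Prime) {H : Subgroup (Perm (Fin n))} {B : Set (Fin n)} (hB : IsBlock H B)
    (h2 : ¬ B.Subsingleton) {c : Perm (Fin n)} (hc : c.IsCycle) (hcq : c.support.card = q) (hcH : c ∈ H)
    {y : Fin n} (hy : y ∈ B) (hyc : c y ≠ y) : ∀ b ∈ B, c b ∈ B := by
  have hord : orderOf c = q := by rw [hc.orderOf, hcq]
  rw [isBlock_iff_smul_eq_or_disjoint] at hB
  rcases hB ⟨c, hcH⟩ with h | h
  · intro b hb
    rw [← h]
    exact Set.smul_mem_smul_set hb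
  · exfalso
    have h3 : ∃ z ∈ B, z ≠ y := by
      by_contra hcon
      push Not at hcon
      exact h2 (fun a ha b hb => (hcon a ha).trans (hcon b hb).symm)
    obtain ⟨z, hz, hzy⟩ := h3
    have hcz : c z ≠ z := by
      intro h4
      have h5 : c z ∈ (⟨c, hcH⟩ : H) • B := Set.smul_mem_smul_set (a := (⟨c, hcH⟩ : H)) hz
      rw [h4] at h5
      exact Set.disjoint_left.mp h h5 hz
    obtain ⟨j, hj⟩ := hc.sameCycle hyc hcz
    have hjq : ¬ (q : ℤ) ∣ j := by
      intro h4
      have h5 : c ^ j = 1 := by rw [← orderOf_dvd_iff_zpow_eq_one, hord]; exact h4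
      rw [h5] at hj
      exact hzy hj.symm
    have hcop : IsCoprime (q : ℤ) j := (Nat.prime_iff_prime_int.mp hq).coprime_iff_not_dvd.mpr hjq
    obtain ⟨a, b, hab⟩ := hcop
    have hcj : c = (c ^ j) ^ b := by
      have h5 : c ^ ((q : ℤ)) = 1 := by
        rw [zpow_natCast, ← hord, pow_orderOf_eq_one]
      calc c = c ^ (a * q + b * j) := by rw [hab, zpow_one]
        _ = (c ^ (q : ℤ)) ^ a * (c ^ j) ^ b := by
          rw [zpow_add, mul_comm a, zpow_mul, mul_comm b, zpow_mul]
        _ = (c ^ j) ^ b := by rw [h5, one_zpow, one_mul]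
    have hjH : c ^ j ∈ H := H.zpow_mem hcH j
    have h5 : (⟨c ^ j, hjH⟩ : H) • B = B := by
      rcases hB ⟨c ^ j, hjH⟩ with h6 | h6
      · exact h6
      · exfalso
        have h7 : (c ^ j) y ∈ (⟨c ^ j, hjH⟩ : H) • B := Set.smul_mem_smul_set (a := (⟨c ^ j, hjH⟩ : H)) hy
        rw [hj] at h7
        exact Set.disjoint_left.mp h6 h7 hz
    have h6 : (⟨c, hcH⟩ : H) ∈ stabilizer H B := by
      have h7 : (⟨c, hcH⟩ : H) = (⟨c ^ j, hjH⟩ : H) ^ b := Subtype.ext hcj
      rw [h7]
      exact Subgroup.zpow_mem _ (mem_stabilizer_iff.mpr h5) b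
    rw [mem_stabilizer_iff] at h6
    rw [h6] at h
    exact Set.disjoint_left.mp h hy hy

theorem mod_one (p q m : ℕ) (hp : p.Prime) (hq : q.Prime) (hpq : p ≠ q) : p ^ ((q - 1) * m) % q = 1 := by
  have : Fact q.Prime := ⟨hq⟩
  have h1 : p.Coprime q := (Nat.coprime_primes hp hq).mpr hpq
  have h2 : p ^ (q - 1) ≡ 1 [MOD q] := by
    have := Nat.ModEq.pow_totient h1
    rwa [Nat.totient_prime hq] at this
  have h3 : (p ^ (q - 1)) ^ m ≡ 1 ^ m [MOD q] := h2.pow m
  rw [one_pow, ← pow_mul] at h3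
  rw [h3, Nat.one_mod_eq_one.mpr hq.one_lt.ne']

/-- a subgroup of index prime to `q` contains a conjugate of each `q`-subgroup -/
theorem exists_conj {G : Type*} [Group G] [Finite G] {q : ℕ} [hq : Fact q.Prime] (H : Subgroup G) (hH : ¬ q ∣ H.index)
    (E : Subgroup G) (hE : IsPGroup q E) : ∃ h : G, ∀ x ∈ E, h * x * h⁻¹ ∈ H := by
  obtain ⟨Q, hQ⟩ := hE.exists_le_sylow
  let R : Sylow q H := default
  have h1 : Nat.card ((R : Subgroup H).map H.subtype) = q ^ (Nat.card G).factorization q := by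
    rw [Subgroup.card_map_of_injective H.subtype_injective, R.card_eq_multiplicity]
    congr 1
    rw [← H.card_mul_index, Nat.factorization_mul Nat.card_pos.ne' H.index_ne_zero_of_finite, Finsupp.add_apply,
      Nat.factorization_eq_zero_of_not_dvd hH, add_zero]
  let R' : Sylow q G := Sylow.ofCard ((R : Subgroup H).map H.subtype) h1
  obtain ⟨h, hh⟩ := MulAction.exists_smul_eq G Q R'
  refine ⟨h, fun x hx => ?_⟩
  have h2 : h * x * h⁻¹ ∈ (R' : Subgroup G) := by
    rw [← hh]
    exact ⟨x, hQ hx, rfl⟩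
  have h3 : (R' : Subgroup G) ≤ H := Subgroup.map_subtype_le _
  exact h3 h2

theorem not_E (π : Set ℕ) {p q r : ℕ} (hp : p.Prime) (hq : q.Prime) (hr : r.Prime) (hpq : p ≠ q) (hpπ : p ∈ π)
    (hqπ : q ∈ π) (hrπ : r ∉ π) : ∃ n : ℕ, ¬ Cfsg.IsEPiGroup π (Perm (Fin n)) := by
  classical
  have : Fact q.Prime := ⟨hq⟩
  obtain ⟨k, hk⟩ : ∃ k, k = (q - 1) * (q + r + 4) := ⟨_, rfl⟩
  obtain ⟨n, hn⟩ : ∃ n, n = p ^ k := ⟨_, rfl⟩
  have hq2 := hq.two_le
  have hmod : n % q = 1 := by rw [hn, hk]; exact mod_one p q _ hp hq hpq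
  have hnlarge : q + r + 4 ≤ n := by
    have h1 : q + r + 4 ≤ k := by
      rw [hk]; exact Nat.le_mul_of_pos_left _ (by omega)
    have h2 : k < p ^ k := Nat.lt_pow_self hp.one_lt
    omega
  refine ⟨n, ?_⟩
  rintro ⟨H, hH1, hH2⟩
  have htrans := trans_of_index n p k hp hn H (hH2 p hp hpπ)
  -- the permutation
  set m := n / q with hm
  have hnm : n = q * m + 1 := by
    have := Nat.div_add_mod n q
    rw [hmod] at this; exact this.symm
  obtain ⟨g, hg⟩ := (Equiv.Perm.exists_with_cycleType_iff (Fin n) (m := Multiset.replicate m q)).mpr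
    ⟨by rw [Multiset.sum_replicate, Fintype.card_fin, smul_eq_mul, mul_comm]; omega, by
      intro a ha; rw [Multiset.eq_of_mem_replicate ha]; exact hq2⟩
  have hfac : ∀ c ∈ g.cycleFactorsFinset, c.support.card = q := by
    intro c hc
    have h1 : (Finset.card ∘ support) c ∈ g.cycleType := by
      rw [cycleType_def]
      exact Multiset.mem_map_of_mem _ hc
    rw [hg] at h1
    exact Multiset.eq_of_mem_replicate h1
  -- group generated by the cycles
  have hcomm : ∀ x ∈ (g.cycleFactorsFinset : Set (Perm (Fin n))), ∀ y ∈ (g.cycleFactorsFinset : Set (Perm (Fin n))), x * y = y * x :=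
    fun x hx y hy => cycleFactorsFinset_mem_commute' g hx hy
  have hE : IsPGroup q (Subgroup.closure (g.cycleFactorsFinset : Set (Perm (Fin n)))) := by
    have hcc := Subgroup.isMulCommutative_closure hcomm
    rintro ⟨x, hx⟩
    refine ⟨1, Subtype.ext ?_⟩
    rw [pow_one]
    show x ^ q = 1
    induction hx using Subgroup.closure_induction with
    | mem x hx =>
      have h1 : x.IsCycle := (mem_cycleFactorsFinset_iff.mp hx).1
      rw [← hfac x hx, ← h1.orderOf, pow_orderOf_eq_one]
    | one => exact one_pow q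
    | mul x y hx hy ihx ihy =>
      have h1 : Commute x y := congrArg Subtype.val (hcc.is_comm.comm ⟨x, hx⟩ ⟨y, hy⟩)
      rw [h1.mul_pow, ihx, ihy, one_mul]
    | inv x hx ih => rw [inv_pow, ih, inv_one]
  obtain ⟨h, hh⟩ := exists_conj H (hH2 q hq hqπ) _ hE
  set g' := h * g * h⁻¹ with hg'
  have hfacH : ∀ c ∈ g'.cycleFactorsFinset, c ∈ H ∧ c.support.card = q := by
    intro c hc
    have e : c = h * (h⁻¹ * c * h) * h⁻¹ := by group
    rw [e, hg', mem_cycleFactorsFinset_conj] at hc
    constructor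
    · rw [e]; exact hh _ (Subgroup.subset_closure hc)
    · rw [e, card_support_conj]; exact hfac _ hc
  have hg'type : g'.cycleType = Multiset.replicate m q := by rw [hg', cycleType_conj, hg]
  have hg'supp : g'.support.card = q * m := by
    rw [← sum_cycleType, hg'type, Multiset.sum_replicate, smul_eq_mul, mul_comm]
  have hg'q : g' ^ q = 1 := by
    rw [← orderOf_dvd_iff_pow_eq_one, ← lcm_cycleType, hg'type]
    exact Multiset.lcm_dvd.mpr (fun b hb => by rw [Multiset.eq_of_mem_replicate hb])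
  have hfixu : ∀ a b : Fin n, g' a = a → g' b = b → a = b := by
    intro a b ha hb
    have h1 : (g'.supportᶜ).card = 1 := by
      rw [Finset.card_compl, Fintype.card_fin, hg'supp]; omega
    rw [Finset.card_eq_one] at h1
    obtain ⟨x0, hx0⟩ := h1
    have ha' : a ∈ g'.supportᶜ := by rw [Finset.mem_compl, notMem_support]; exact ha
    have hb' : b ∈ g'.supportᶜ := by rw [Finset.mem_compl, notMem_support]; exact hb
    rw [hx0, Finset.mem_singleton] at ha' hb'
    rw [ha', hb']
  -- nontrivial blocks contain the fixed point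
  have hblock : ∀ B : Set (Fin n), IsBlock H B → ¬ B.Subsingleton → ∃ a ∈ B, g' a = a := by
    intro B hB hBs
    have hBne : B.Nonempty := by
      rw [Set.nonempty_iff_ne_empty]
      rintro rfl
      exact hBs Set.subsingleton_empty
    have hg'B : ∀ b ∈ B, g' b ∈ B := by
      intro b hb
      by_cases hgb : g' b = b
      · rw [hgb]; exact hb
      · have h1 : g'.cycleOf b ∈ g'.cycleFactorsFinset := cycleOf_mem_cycleFactorsFinset_iff.mpr (mem_support.mpr hgb)
        obtain ⟨h2, h3⟩ := hfacH _ h1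
        have h4 : (g'.cycleOf b) b = g' b := cycleOf_apply_self g' b
        rw [← h4]
        exact cycle_stab hq hB hBs (mem_cycleFactorsFinset_iff.mp h1).1 h3 h2 hb (by rw [h4]; exact hgb) b hb
    have hg'B' : ∀ b, g' b ∈ B ↔ b ∈ B := by
      intro b
      refine ⟨fun hb => ?_, hg'B b⟩
      have h1 : ∀ j : ℕ, (g' ^ j) (g' b) ∈ B := by
        intro j
        induction j with
        | zero => exact hb
        | succ j ih => rw [pow_succ']; exact hg'B _ ih
      have h2 := h1 (q - 1)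
      rw [← Perm.mul_apply, ← pow_succ, show q - 1 + 1 = q by omega, hg'q] at h2
      exact h2
    have hBcard : Nat.card B ∣ p ^ k := by
      have h1 := hB.ncard_dvd_card hBne
      rw [Nat.card_fin] at h1
      exact h1.trans (dvd_of_eq hn)
    have hBq : ¬ q ∣ Fintype.card B := by
      intro h1
      rw [← Nat.card_eq_fintype_card] at h1
      have h2 := hq.dvd_of_dvd_pow (h1.trans hBcard)
      exact hpq ((Nat.prime_dvd_prime_iff_eq hq hp).mp h2).symm
    obtain ⟨a, ha⟩ := Equiv.Perm.exists_fixed_point_of_prime (p := q) (n := 1) hBq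
      (σ := g'.subtypePerm (fun b => hg'B' b)) (by
        rw [pow_one, subtypePerm_pow]
        apply Equiv.ext
        intro b
        apply Subtype.ext
        show (g' ^ q) b = b
        rw [hg'q]; rfl)
    exact ⟨a, a.2, congrArg Subtype.val ha⟩
  -- primitivity
  have hprim : MulAction.IsPreprimitive H (Fin n) := by
    refine { toIsPretransitive := htrans, isTrivialBlock_of_isBlock := ?_ }
    intro B hB
    by_cases hBs : B.Subsingleton
    · exact Or.inl hBs
    · right
      obtain ⟨a, ha, hga⟩ := hblock B hB hBs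
      rw [Set.eq_univ_iff_forall]
      intro y
      obtain ⟨t, ht⟩ := htrans.exists_smul_eq a y
      obtain ⟨b, hb, hgb⟩ := hblock (t • B) (hB.translate t) (by
        intro hs
        apply hBs
        intro u hu v hv
        exact smul_left_cancel t (hs (Set.smul_mem_smul_set hu) (Set.smul_mem_smul_set hv)))
      have hab := hfixu a b hga hgb
      rw [← hab] at hb
      rw [isBlock_iff_smul_eq_or_disjoint] at hB
      rcases hB t with h1 | h1
      · rw [← ht, ← h1]
        exact Set.smul_mem_smul_set ha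
      · exact absurd ha (Set.disjoint_left.mp h1 hb)
  -- conclude
  have hm0 : 0 < m := by
    rw [Nat.pos_iff_ne_zero]
    intro h0
    rw [h0] at hnm
    omega
  obtain ⟨c, hc⟩ : ∃ c, c ∈ g'.cycleFactorsFinset := by
    have h1 : Multiset.card g'.cycleType = m := by rw [hg'type, Multiset.card_replicate]
    rw [cycleType_def, Multiset.card_map] at h1
    have h2 : 0 < g'.cycleFactorsFinset.card := by rw [Finset.card_def, h1]; exact hm0
    exact Finset.card_pos.mp h2
  have halt := H9.Jordan.alternatingGroup_le_of_isCycle_mem H hprim hq (by rw [Fintype.card_fin]; omega)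
    (mem_cycleFactorsFinset_iff.mp hc).1 (hfacH c hc).2 (hfacH c hc).1
  apply hrπ
  apply hH1 r hr
  refine Dvd.dvd.trans ?_ (Subgroup.card_dvd_of_le halt)
  have hnt : Nontrivial (Fin n) := ⟨⟨⟨0, by omega⟩, ⟨1, by omega⟩, by simp [Fin.ext_iff]⟩⟩
  have hcard : 2 * Nat.card (alternatingGroup (Fin n)) = n.factorial := by
    rw [Nat.card_eq_fintype_card, two_mul_card_alternatingGroup, Fintype.card_perm, Fintype.card_fin]
  by_cases hr2 : r = 2
  · subst hr2
    have h1 : 2 * 2 ∣ n.factorial := by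
      refine Dvd.dvd.trans ?_ (Nat.factorial_dvd_factorial (show 4 ≤ n by omega))
      decide
    rw [← hcard] at h1
    exact Nat.dvd_of_mul_dvd_mul_left (by norm_num) h1
  · have h1 : r ∣ n.factorial := (hr.dvd_factorial).mpr (by omega)
    rw [← hcard] at h1
    exact (Nat.Coprime.dvd_of_dvd_mul_left ((Nat.coprime_primes hr Nat.prime_two).mpr hr2) h1)

theorem exists_maximal {G : Type*} [Group G] [Finite G] (π : Set ℕ) (K : Subgroup G) (hK : Cfsg.IsPiSubgroup π K) :
    ∃ M : Subgroup G, K ≤ M ∧ Maximal (Cfsg.IsPiSubgroup π) M := by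
  obtain ⟨M, ⟨hKM, hM⟩, hmax⟩ := Set.Finite.exists_maximalFor (fun Q : Subgroup G => Nat.card Q)
    {M : Subgroup G | K ≤ M ∧ Cfsg.IsPiSubgroup π M} (Set.toFinite _) ⟨K, le_rfl, hK⟩
  refine ⟨M, hKM, hM, ?_⟩
  intro L hL hML
  have h1 := hmax (show L ∈ {M : Subgroup G | K ≤ M ∧ Cfsg.IsPiSubgroup π M} from ⟨hKM.trans hML, hL⟩)
    (H22.Basic.card_le_of_le hML)
  exact (H22.Basic.eq_of_le_of_card_le hML h1).symm.le

theorem D_imp_E {G : Type*} [Group G] [Finite G] (π : Set ℕ) (h : Cfsg.IsDPiGroup π G) : Cfsg.IsEPiGroup π G := by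
  obtain ⟨H, -, hH⟩ := exists_maximal π (⊥ : Subgroup G) (by
    intro p hp hd
    rw [Subgroup.card_bot] at hd
    exact absurd (Nat.dvd_one.mp hd) hp.ne_one)
  refine ⟨H, hH.1, ?_⟩
  intro p hp hpπ hpH
  have : Fact p.Prime := ⟨hp⟩
  let P : Sylow p G := default
  have hPπ : Cfsg.IsPiSubgroup π (P : Subgroup G) := by
    intro r hr hrP
    rw [P.card_eq_multiplicity] at hrP
    rw [(Nat.prime_dvd_prime_iff_eq hr hp).mp (hr.dvd_of_dvd_pow hrP)]
    exact hpπ
  obtain ⟨K, hPK, hK⟩ := exists_maximal π _ hPπ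
  obtain ⟨g, hg⟩ := h H K hH hK
  have h1 : Nat.card K = Nat.card H := by
    rw [hg]; exact H22.Basic.card_cj g H
  have h2 : K.index = H.index := by
    have h3 := K.card_mul_index
    rw [h1, ← H.card_mul_index] at h3
    exact Nat.eq_of_mul_eq_mul_left Nat.card_pos h3
  rw [← h2] at hpH
  exact P.not_dvd_index (hpH.trans (Subgroup.index_dvd_of_le hPK))

theorem E_of_cond {G : Type*} [Group G] [Finite G] (π : Set ℕ)
    (h : (∀ p q : ℕ, p.Prime → q.Prime → p ∈ π → q ∈ π → p = q) ∨ ∀ p : ℕ, p.Prime → p ∈ π) :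
    Cfsg.IsEPiGroup π G := by
  rcases h with h | h
  · by_cases hex : ∃ p : ℕ, p.Prime ∧ p ∈ π
    · obtain ⟨p, hp, hpπ⟩ := hex
      have : Fact p.Prime := ⟨hp⟩
      let P : Sylow p G := default
      refine ⟨P, ?_, ?_⟩
      · intro r hr hrP
        rw [P.card_eq_multiplicity] at hrP
        rw [(Nat.prime_dvd_prime_iff_eq hr hp).mp (hr.dvd_of_dvd_pow hrP)]
        exact hpπ
      · intro r hr hrπ
        rw [h r p hr hp hrπ hpπ]
        exact P.not_dvd_index
    · refine ⟨⊥, ?_, ?_⟩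
      · intro r hr hrP
        rw [Subgroup.card_bot] at hrP
        exact absurd (Nat.dvd_one.mp hrP) hr.ne_one
      · intro r hr hrπ
        exact absurd ⟨r, hr, hrπ⟩ hex
  · refine ⟨⊤, fun r hr _ => h r hr, ?_⟩
    intro r hr _ hrd
    rw [Subgroup.index_top] at hrd
    exact hr.ne_one (Nat.dvd_one.mp hrd)

theorem D_of_cond {G : Type*} [Group G] [Finite G] (π : Set ℕ)
    (h : (∀ p q : ℕ, p.Prime → q.Prime → p ∈ π → q ∈ π → p = q) ∨ ∀ p : ℕ, p.Prime → p ∈ π) :
    Cfsg.IsDPiGroup π G := by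
  intro H K hH hK
  rcases h with h | h
  · by_cases hex : ∃ p : ℕ, p.Prime ∧ p ∈ π
    · obtain ⟨p, hp, hpπ⟩ := hex
      have : Fact p.Prime := ⟨hp⟩
      have key : ∀ L : Subgroup G, Maximal (Cfsg.IsPiSubgroup π) L → ∃ P : Sylow p G, L = P := by
        intro L hL
        have h1 : IsPGroup p L := by
          exact IsPGroup.of_card (Nat.eq_prime_pow_of_unique_prime_dvd Nat.card_pos.ne'
            (fun {d} hd hdL => h d p hd hp (hL.1 d hd hdL) hpπ))
        obtain ⟨P, hP⟩ := h1.exists_le_sylow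
        refine ⟨P, le_antisymm hP (hL.2 ?_ hP)⟩
        intro r hr hrP
        rw [P.card_eq_multiplicity] at hrP
        rw [(Nat.prime_dvd_prime_iff_eq hr hp).mp (hr.dvd_of_dvd_pow hrP)]
        exact hpπ
      obtain ⟨P, hP⟩ := key H hH
      obtain ⟨Q, hQ⟩ := key K hK
      obtain ⟨g, hg⟩ := MulAction.exists_smul_eq G P Q
      refine ⟨g, ?_⟩
      rw [hP, hQ, ← hg]; rfl
    · have key : ∀ L : Subgroup G, Maximal (Cfsg.IsPiSubgroup π) L → L = ⊥ := by
        intro L hL
        by_contra hne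
        have h1 : Nat.card L ≠ 1 := fun h => hne (Subgroup.card_eq_one.mp h)
        obtain ⟨r, hr, hrd⟩ := Nat.exists_prime_and_dvd h1
        exact hex ⟨r, hr, hL.1 r hr hrd⟩
      refine ⟨1, ?_⟩
      rw [key H hH, key K hK, Subgroup.map_bot]
  · have key : ∀ L : Subgroup G, Maximal (Cfsg.IsPiSubgroup π) L → L = ⊤ := by
      intro L hL
      exact top_le_iff.mp (hL.2 (fun r hr _ => h r hr) le_top)
    refine ⟨1, ?_⟩
    rw [key H hH, key K hK, ← MonoidHom.range_eq_map, eq_comm, MonoidHom.range_eq_top]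
    exact (MulAut.conj (1 : G)).surjective

/-- For a set of primes π the following are equivalent: every finite group has a Hall π-subgroup; in every finite group the maximal π-subgroups are pairwise conjugate; π contains at most one prime or contains every prime. -/
theorem result (π : Set ℕ) :
    ((∀ (G : Type) [Group G] [Finite G], Cfsg.IsEPiGroup π G) ↔
      ((∀ p q : ℕ, p.Prime → q.Prime → p ∈ π → q ∈ π → p = q) ∨ ∀ p : ℕ, p.Prime → p ∈ π)) ∧
    ((∀ (G : Type) [Group G] [Finite G], Cfsg.IsDPiGroup π G) ↔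
      ((∀ p q : ℕ, p.Prime → q.Prime → p ∈ π → q ∈ π → p = q) ∨ ∀ p : ℕ, p.Prime → p ∈ π)) := by
  have key : (∀ (G : Type) [Group G] [Finite G], Cfsg.IsEPiGroup π G) →
      ((∀ p q : ℕ, p.Prime → q.Prime → p ∈ π → q ∈ π → p = q) ∨ ∀ p : ℕ, p.Prime → p ∈ π) := by
    intro hE
    by_contra hcon
    push Not at hcon
    obtain ⟨⟨p, q, hp, hq, hpπ, hqπ, hpq⟩, r, hr, hrπ⟩ := hcon
    obtain ⟨n, hn⟩ := not_E π hp hq hr hpq hpπ hqπ hrπ
    exact hn (hE (Perm (Fin n)))
  refine ⟨⟨key, fun h G _ _ => E_of_cond π h⟩, ⟨fun h => key (fun G _ _ => D_imp_E π (h G)), fun h G _ _ => D_of_cond π h⟩⟩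

end Cfsg.Agent.S3878
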