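import Cfsg.Statements.S3881
import Cfsg.Agent.H22_Meta3

set_option autoImplicit false
open Cfsg

namespace Cfsg.Agent.S3881

open Subgroup

/-- Let p be an odd prime and G a finite metacyclic p-group (G has a cyclic normal subgroup with cyclic quotient). Suppose G is non-abelian with |G'| = p^n. Then for 1 ≤ i ≤ n the number of elements of G whose conjugacy class has exactly p^i elements is |Z(G)| · (p^(2i) − p^(2i−2)). -/
theorem result {G : Type*} [Group G] [Finite G] {p : ℕ} [Fact p.Prime] (hp : p ≠ 2) (hG : IsPGroup p G) (hmc : Cfsg.IsMetacyclic G) (n : ℕ) (hn : n ≠ 0) (hGn : Nat.card ↥(commutator G) = p ^ n) (i : ℕ) (hi : 1 ≤ i) (hin : i ≤ n) :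
    Nat.card {g : G // (Subgroup.centralizer ({g} : Set G)).index = p ^ i} =
      Nat.card ↥(Subgroup.center G) * (p ^ (2 * i) - p ^ (2 * i - 2)) := by
  obtain ⟨D⟩ := H22.Meta.exists_data hG hmc
  have hpp : p.Prime := Fact.out
  have hn : D.n = n := by
    rw [D.card_commutator] at hGn
    exact Nat.pow_right_injective hpp.two_le hGn
  subst hn
  obtain ⟨k, rfl⟩ : ∃ k, i = k + 1 := ⟨i - 1, by omega⟩
  have hset : {g : G | (Subgroup.centralizer ({g} : Set G)).index = p ^ (k + 1)} =
      (D.K (k + 1) : Set G) \ (D.K k : Set G) := by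
    ext g
    rw [Set.mem_ofPred_eq, Set.mem_sdiff, D.index_centralizer hp]
    show _ ↔ g ∈ D.K (k + 1) ∧ ¬ g ∈ D.K k
    rw [D.mem_K, D.mem_K, ← addOrderOf_dvd_iff_nsmul_eq_zero, ← addOrderOf_dvd_iff_nsmul_eq_zero]
    constructor
    · intro h
      rw [h]
      refine ⟨dvd_rfl, fun hd => ?_⟩
      have := (Nat.pow_dvd_pow_iff_le_right hpp.one_lt).mp hd
      omega
    · rintro ⟨h1, h2⟩
      obtain ⟨j, hj, hj'⟩ := (Nat.dvd_prime_pow hpp).mp h1
      rw [hj'] at h2 ⊢
      congr 1
      by_contra hne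
      exact h2 (pow_dvd_pow p (by omega))
  have hle : (D.K k : Set G) ⊆ (D.K (k + 1) : Set G) := by
    intro g hg
    have h1 := D.mem_K.mp hg
    apply D.mem_K.mpr
    rw [pow_succ', mul_smul, h1, smul_zero]
  have h1 : Nat.card {g : G // (Subgroup.centralizer ({g} : Set G)).index = p ^ (k + 1)} =
      Set.ncard ((D.K (k + 1) : Set G) \ (D.K k : Set G)) := by
    rw [← hset]; rfl
  rw [h1, Set.ncard_sdiff hle (Set.toFinite _)]
  have h2 : Set.ncard (D.K (k + 1) : Set G) = Nat.card (D.K (k + 1)) := rfl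
  have h3 : Set.ncard (D.K k : Set G) = Nat.card (D.K k) := rfl
  rw [h2, h3, D.card_K hp _ hin, D.card_K hp _ (by omega), ← Nat.sub_mul, mul_comm]
  congr 2

end Cfsg.Agent.S3881
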