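import Cfsg.Statements.S3883
import Cfsg.Agent.H22_Meta3

set_option autoImplicit false
open Cfsg

namespace Cfsg.Agent.S3883

open Subgroup

variable {G : Type*} [Group G] [Finite G] {p : ℕ} [hpf : Fact p.Prime]

theorem mem_frattini_iff' (hG : IsPGroup p G) (D : H22.Meta.Data p G)
    (hna : ¬ IsMulCommutative G) (i j : ℕ) : D.b ^ i * D.a ^ j ∈ frattini G ↔ p ∣ i ∧ p ∣ j := by
  have hcop : ∀ (H : Subgroup G) (g : G) (k : ℕ), ¬ p ∣ k → g ^ k ∈ H → g ∈ H := by
    intro H g k hk hc
    obtain ⟨e, he⟩ := (IsPGroup.iff_orderOf.mp hG) g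
    have hco : (orderOf g).Coprime k := by
      rw [he]; exact ((hpf.out.coprime_iff_not_dvd).mpr hk).pow_left e
    obtain ⟨m, hm⟩ := exists_pow_eq_self_of_coprime hco.symm
    rw [← hm]; exact H.pow_mem hc m
  have hcyc : ∀ g : G, zpowers g = ⊤ → False := by
    intro g hg
    apply hna
    refine ⟨⟨fun x y => ?_⟩⟩
    have hx : x ∈ zpowers g := hg ▸ mem_top x
    have hy : y ∈ zpowers g := hg ▸ mem_top y
    obtain ⟨m, rfl⟩ := mem_zpowers_iff.mp hx
    obtain ⟨l, rfl⟩ := mem_zpowers_iff.mp hy
    exact (Commute.refl g).zpow_zpow m l |>.eq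
  have hgen : ∀ H : Subgroup G, D.a ∈ H → D.b ∈ H → H = ⊤ := by
    intro H ha hb
    rw [eq_top_iff]
    intro x _
    obtain ⟨i, j, rfl⟩ := D.gen x
    exact H.mul_mem (H.pow_mem hb _) (H.pow_mem ha _)
  constructor
  · intro h
    constructor
    · by_contra hi
      apply hcyc D.a
      have h1 : zpowers D.a ⊔ frattini G = ⊤ := by
        apply hgen
        · exact mem_sup_left (mem_zpowers _)
        · apply hcop _ _ i hi
          have h2 : D.b ^ i = (D.b ^ i * D.a ^ j) * (D.a ^ j)⁻¹ := by group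
          rw [h2]
          exact mul_mem (mem_sup_right h) (mem_sup_left (inv_mem (pow_mem (mem_zpowers _) _)))
      exact frattini_nongenerating h1
    · by_contra hj
      apply hcyc D.b
      have h1 : zpowers D.b ⊔ frattini G = ⊤ := by
        apply hgen
        · apply hcop _ _ j hj
          have h2 : D.a ^ j = (D.b ^ i)⁻¹ * (D.b ^ i * D.a ^ j) := by group
          rw [h2]
          exact mul_mem (mem_sup_left (inv_mem (pow_mem (mem_zpowers _) _))) (mem_sup_right h)
        · exact mem_sup_left (mem_zpowers _)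
      exact frattini_nongenerating h1
  · rintro ⟨⟨i', rfl⟩, ⟨j', rfl⟩⟩
    rw [H1.Nilp.mem_frattini_iff]
    intro M hM
    rw [mul_comm p i', mul_comm p j', pow_mul, pow_mul]
    exact M.mul_mem (H22.Meta.pow_mem_of_isCoatom hG hM _) (H22.Meta.pow_mem_of_isCoatom hG hM _)

/-- Let p be an odd prime and G a finite metacyclic p-group (G has a cyclic normal subgroup with cyclic quotient). Suppose G is non-abelian. Then an element g of G lies outside the Frattini subgroup if and only if its centralizer C_G(g) is abelian. -/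
theorem result {G : Type*} [Group G] [Finite G] {p : ℕ} [Fact p.Prime] (hp : p ≠ 2) (hG : IsPGroup p G) (hmc : Cfsg.IsMetacyclic G) (hna : ¬ IsMulCommutative G) (g : G) :
    g ∉ frattini G ↔ IsMulCommutative ↥(Subgroup.centralizer ({g} : Set G)) := by
  obtain ⟨D⟩ := H22.Meta.exists_data hG hmc
  have hpp : p.Prime := Fact.out
  have hn : D.n ≠ 0 := by
    intro h0
    apply hna
    have h1 := D.card_commutator
    rw [h0, pow_zero, Subgroup.card_eq_one] at h1
    exact (_root_.commutator_eq_bot_iff G).mp h1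
  -- both sides are equivalent to `p^(n-1) φ g ≠ 0`
  have h1 : g ∈ frattini G ↔ p ^ (D.n - 1) • D.φ g = 0 := by
    obtain ⟨i, j, rfl⟩ := D.gen g
    rw [mem_frattini_iff' hG D hna, D.nsmul_φ_eq_zero_iff hp i j 1 (by omega), pow_one]
  have h2 : IsMulCommutative ↥(Subgroup.centralizer ({g} : Set G)) ↔ ¬ p ^ (D.n - 1) • D.φ g = 0 := by
    rw [H22.Meta.abelian_iff hp hG hmc, H22.Meta.index_commutator hp D]
    have h3 := (centralizer ({g} : Set G)).card_mul_index
    rw [D.index_centralizer hp, D.card_G hp] at h3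
    have h4 : addOrderOf (D.φ g) ∣ p ^ D.n := addOrderOf_dvd_of_nsmul_eq_zero (D.pn_smul _)
    obtain ⟨j, hj, hj'⟩ := (Nat.dvd_prime_pow hpp).mp h4
    rw [← addOrderOf_dvd_iff_nsmul_eq_zero, hj', Nat.pow_dvd_pow_iff_le_right hpp.one_lt]
    rw [hj'] at h3
    have hz : 0 < Nat.card (center G) := Nat.card_pos
    have hpj : 0 < p ^ j := pow_pos hpp.pos _
    have h5 : p ^ (2 * D.n) = p ^ D.n * p ^ D.n := by rw [← pow_add]; congr 1; omega
    constructor
    · intro h6 h7
      have h8 : p ^ j < p ^ D.n := Nat.pow_lt_pow_right hpp.one_lt (by omega)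
      have h9 : Nat.card (centralizer ({g} : Set G)) * p ^ j < p ^ (2 * D.n) * Nat.card (center G) := by
        rw [h5]
        calc Nat.card (centralizer ({g} : Set G)) * p ^ j ≤ (Nat.card (center G) * p ^ D.n) * p ^ j :=
              Nat.mul_le_mul_right _ h6
          _ < (Nat.card (center G) * p ^ D.n) * p ^ D.n :=
              Nat.mul_lt_mul_of_pos_left h8 (Nat.mul_pos hz (pow_pos hpp.pos _))
          _ = _ := by ring
      exact absurd h3 h9.ne
    · intro h6
      have h7 : j = D.n := by omega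
      rw [h7, h5] at h3
      have h8 : Nat.card (centralizer ({g} : Set G)) * p ^ D.n = (Nat.card (center G) * p ^ D.n) * p ^ D.n := by
        rw [h3]; ring
      exact (Nat.eq_of_mul_eq_mul_right (pow_pos hpp.pos _) h8).le
  rw [h1, h2]

end Cfsg.Agent.S3883
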