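import Cfsg.Statements.S3884
import Cfsg.Agent.H22_Meta3

set_option autoImplicit false
open Cfsg

namespace Cfsg.Agent.S3884

open Subgroup H22.Meta H22.MetaNum

/-- splitting lemma for two central elements -/
theorem split {G : Type*} [Group G] [Finite G] {p : ℕ} [hp : Fact p.Prime] (hG : IsPGroup p G)
    (X Y : G) (hX : X ∈ center G) (_hY : Y ∈ center G) (hle : orderOf Y ≤ orderOf X) :
    ∃ t : ℕ, zpowers (Y * X ^ t) ⊓ zpowers X = ⊥ := by
  have hn : (zpowers X).Normal := by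
    constructor
    intro z hz g
    obtain ⟨m, rfl⟩ := mem_zpowers_iff.mp hz
    have h1 : g * X ^ m * g⁻¹ = X ^ m := by
      have := mem_center_iff.mp ((center G).zpow_mem hX m) g
      rw [this]; group
    rw [h1]; exact zpow_mem (mem_zpowers X) m
  have hmem : ∀ v : ℕ, Y ^ v ∈ zpowers X ↔ orderOf (QuotientGroup.mk Y : G ⧸ zpowers X) ∣ v := by
    intro v
    rw [orderOf_dvd_iff_pow_eq_one, ← QuotientGroup.mk_pow, QuotientGroup.eq_one_iff]
  obtain ⟨k, hk⟩ := (IsPGroup.iff_orderOf.mp (hG.to_quotient (zpowers X))) (QuotientGroup.mk Y : G ⧸ zpowers X)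
  rw [hk] at hmem
  obtain ⟨e, he⟩ := (IsPGroup.iff_orderOf.mp hG) X
  obtain ⟨f, hf⟩ := (IsPGroup.iff_orderOf.mp hG) Y
  rw [he, hf] at hle
  have hfe : f ≤ e := (Nat.pow_le_pow_iff_right hp.out.one_lt).mp hle
  have h1 : Y ^ p ^ k ∈ zpowers X := (hmem _).mpr dvd_rfl
  have hkf : k ≤ f := by
    have : p ^ k ∣ p ^ f := (hmem _).mp (by rw [← hf, pow_orderOf_eq_one]; exact one_mem _)
    exact (Nat.pow_dvd_pow_iff_le_right hp.out.one_lt).mp this
  rw [← mem_powers_iff_mem_zpowers] at h1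
  obtain ⟨w, hw⟩ := h1
  have hw : X ^ w = Y ^ p ^ k := hw
  have h2 : X ^ (w * p ^ (f - k)) = 1 := by
    rw [pow_mul, hw, ← pow_mul, ← pow_add, Nat.add_sub_cancel' hkf, ← hf, pow_orderOf_eq_one]
  rw [← orderOf_dvd_iff_pow_eq_one, he] at h2
  have h3 : p ^ k ∣ w := by
    have h4 : p ^ e = p ^ (e - f + k) * p ^ (f - k) := by rw [← pow_add]; congr 1; omega
    rw [h4] at h2
    have h5 := Nat.dvd_of_mul_dvd_mul_right (pow_pos hp.out.pos _) h2
    exact (pow_dvd_pow p (by omega)).trans h5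
  obtain ⟨w', rfl⟩ := h3
  have hXinv : ∀ m : ℕ, X ^ (m * (p ^ e - 1)) * X ^ m = 1 := by
    intro m
    rw [← pow_add]
    have : m * (p ^ e - 1) + m = p ^ e * m := by
      have : 1 ≤ p ^ e := Nat.one_le_pow _ _ hp.out.pos
      obtain ⟨r, hr⟩ := Nat.exists_eq_add_of_le this
      rw [hr]; simp; ring
    rw [this, pow_mul, ← he, pow_orderOf_eq_one, one_pow]
  refine ⟨w' * (p ^ e - 1), ?_⟩
  set t := w' * (p ^ e - 1) with ht
  have hcomm : Commute Y (X ^ t) := (mem_center_iff.mp ((center G).pow_mem hX t) Y)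
  have h4 : (Y * X ^ t) ^ p ^ k = 1 := by
    rw [hcomm.mul_pow, ← hw, ← pow_mul]
    have h5 : t * p ^ k = (p ^ k * w') * (p ^ e - 1) := by rw [ht]; ring
    rw [h5]
    have := hXinv (p ^ k * w')
    have hc : Commute (X ^ (p ^ k * w' * (p ^ e - 1))) (X ^ (p ^ k * w')) := (Commute.refl X).pow_pow _ _
    rw [hc.eq] at this
    exact this
  rw [eq_bot_iff]
  intro z hz
  obtain ⟨hz1, hz2⟩ := mem_inf.mp hz
  rw [← mem_powers_iff_mem_zpowers] at hz1
  obtain ⟨v, hv⟩ := hz1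
  have hv : (Y * X ^ t) ^ v = z := hv
  have h5 : Y ^ v ∈ zpowers X := by
    rw [hcomm.mul_pow] at hv
    have : Y ^ v = z * ((X ^ t) ^ v)⁻¹ := by rw [← hv]; group
    rw [this]
    exact mul_mem hz2 (inv_mem (pow_mem (pow_mem (mem_zpowers X) _) _))
  obtain ⟨v', rfl⟩ := (hmem v).mp h5
  rw [mem_bot, ← hv, pow_mul, h4, one_pow]

variable {G : Type*} [Group G] {p : ℕ} (D : H22.Meta.Data p G) [hp : Fact p.Prime]

theorem a_kill (X : ℕ) : D.a ^ (p ^ (D.n + D.c) * X) = 1 := by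
  rw [pow_mul, add_comm, ← D.orda, pow_orderOf_eq_one, one_pow]

theorem pow_pn (hp2 : p ≠ 2) (i j : ℕ) : (D.b ^ i * D.a ^ j) ^ (p ^ D.n) =
    D.b ^ (i * p ^ D.n) * D.a ^ (j * p ^ D.n) := by
  rw [D.pow_mk]
  congr 1
  by_cases hn : D.n = 0
  · rw [hn, pow_zero, gs_one]
  · have h1 : D.s ^ i = 1 + p ^ D.c * (D.u * gs D.s i) := by rw [D.s_pow]; ring
    obtain ⟨y, hy⟩ := gs_prime_pow hp2 (D.hc hn) (D.u * gs D.s i) D.n
    rw [h1, hy]
    have h2 : j * (p ^ D.n + p ^ (D.n + D.c) * y) = j * p ^ D.n + p ^ (D.n + D.c) * (j * y) := by ring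
    rw [h2, pow_add, a_kill, mul_one]

theorem pow_pn_mul (hp2 : p ≠ 2) (x y : G) : (x * y) ^ (p ^ D.n) = x ^ (p ^ D.n) * y ^ (p ^ D.n) := by
  obtain ⟨i, j, rfl⟩ := D.gen x
  obtain ⟨k, l, rfl⟩ := D.gen y
  rw [D.mul_mk, pow_pn D hp2, pow_pn D hp2, pow_pn D hp2, D.mul_mk]
  have key : ∀ t X : ℕ, D.a ^ (X * D.s ^ t * p ^ D.n) = D.a ^ (X * p ^ D.n) := by
    intro t X
    have : X * D.s ^ t * p ^ D.n = X * p ^ D.n + p ^ (D.n + D.c) * (X * D.u * gs D.s t) := by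
      rw [D.s_pow]; ring
    rw [this, pow_add, a_kill, mul_one]
  congr 1
  · congr 1; ring
  · have e1 : (j * D.s ^ k + l) * p ^ D.n = j * D.s ^ k * p ^ D.n + l * p ^ D.n := by ring
    have e2 : j * p ^ D.n * D.s ^ (k * p ^ D.n) + l * p ^ D.n =
        j * D.s ^ (k * p ^ D.n) * p ^ D.n + l * p ^ D.n := by ring
    rw [e1, e2, pow_add, pow_add, key, key]

theorem pow_pn_mem_center [Finite G] (hp2 : p ≠ 2) (x : G) : x ^ (p ^ D.n) ∈ center G := by
  obtain ⟨w, hw⟩ := D.φ_pow x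
  rw [D.mem_center_iff, hw]
  have : ((gs (1 + p ^ D.c * w) (p ^ D.n) : ℕ) : ZMod (p ^ D.n)) = 0 := by
    rw [ZMod.natCast_eq_zero_iff]
    by_cases hn : D.n = 0
    · rw [hn, pow_zero]; exact one_dvd _
    · exact (pow_dvd_gs_iff hp2 (D.hc hn) w D.n _).mpr dvd_rfl
  rw [this, zero_smul]

theorem pow_mem_center_iff [Finite G] (hp2 : p ≠ 2) (x : G) (hx : addOrderOf (D.φ x) = p ^ D.n) (t : ℕ) :
    x ^ t ∈ center G ↔ p ^ D.n ∣ t := by
  obtain ⟨w, hw⟩ := D.φ_pow x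
  rw [D.mem_center_iff, hw, Nat.cast_smul_eq_nsmul, ← addOrderOf_dvd_iff_nsmul_eq_zero, hx]
  by_cases hn : D.n = 0
  · rw [hn, pow_zero]; simp
  · exact pow_dvd_gs_iff hp2 (D.hc hn) w D.n t

/-- the main construction -/
theorem main [Finite G] (hp2 : p ≠ 2) (g₁ g₂ : G) (h₁ : addOrderOf (D.φ g₁) = p ^ D.n)
    (h₂ : addOrderOf (D.φ g₂) = p ^ D.n)
    (hφ : AddSubgroup.zmultiples (D.φ g₁) ⊓ AddSubgroup.zmultiples (D.φ g₂) = ⊥)
    (hZ : center G ≤ zpowers (g₁ ^ p ^ D.n) ⊔ zpowers (g₂ ^ p ^ D.n))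
    (hint : zpowers (g₁ ^ p ^ D.n) ⊓ zpowers (g₂ ^ p ^ D.n) = ⊥) :
    zpowers g₁ ⊓ zpowers g₂ = ⊥ ∧ Nat.card (zpowers g₁) * Nat.card (zpowers g₂) = Nat.card G := by
  have key : ∀ g : G, addOrderOf (D.φ g) = p ^ D.n → zpowers g ⊓ center G = zpowers (g ^ p ^ D.n) := by
    intro g hg
    apply le_antisymm
    · rintro x ⟨hx1, hx2⟩
      have hx1' : x ∈ zpowers g := hx1
      rw [← mem_powers_iff_mem_zpowers] at hx1'
      obtain ⟨t, rfl⟩ := hx1'
      obtain ⟨t', rfl⟩ := (pow_mem_center_iff D hp2 g hg t).mp hx2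
      show g ^ (p ^ D.n * t') ∈ _
      rw [pow_mul]
      exact pow_mem (mem_zpowers _) _
    · rw [zpowers_le]
      exact mem_inf.mpr ⟨pow_mem (mem_zpowers _) _, pow_pn_mem_center D hp2 g⟩
  constructor
  · rw [eq_bot_iff, ← hint]
    intro x hx
    obtain ⟨hx1, hx2⟩ := mem_inf.mp hx
    have hxc : x ∈ center G := by
      rw [D.mem_center_iff]
      have h3 : D.φ x ∈ AddSubgroup.zmultiples (D.φ g₁) ⊓ AddSubgroup.zmultiples (D.φ g₂) := by
        rw [← D.W_zpowers hp2, ← D.W_zpowers hp2]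
        exact AddSubgroup.mem_inf.mpr ⟨⟨x, hx1, rfl⟩, ⟨x, hx2, rfl⟩⟩
      rwa [hφ, AddSubgroup.mem_bot] at h3
    rw [← key g₁ h₁, ← key g₂ h₂]
    exact mem_inf.mpr ⟨mem_inf.mpr ⟨hx1, hxc⟩, mem_inf.mpr ⟨hx2, hxc⟩⟩
  · have c₁ := D.card_eq hp2 (zpowers g₁)
    have c₂ := D.card_eq hp2 (zpowers g₂)
    rw [D.W_zpowers, Nat.card_zmultiples, h₁, key g₁ h₁] at c₁
    rw [D.W_zpowers, Nat.card_zmultiples, h₂, key g₂ h₂] at c₂
    have hle₁ : zpowers (g₁ ^ p ^ D.n) ≤ center G := by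
      rw [zpowers_le]; exact pow_pn_mem_center D hp2 g₁
    have hle₂ : zpowers (g₂ ^ p ^ D.n) ≤ center G := by
      rw [zpowers_le]; exact pow_pn_mem_center D hp2 g₂
    have hc : Nat.card (center G) = Nat.card (zpowers (g₁ ^ p ^ D.n)) * Nat.card (zpowers (g₂ ^ p ^ D.n)) := by
      have h3 : zpowers (g₂ ^ p ^ D.n) ≤ normalizer (zpowers (g₁ ^ p ^ D.n) : Set G) := by
        refine le_trans ?_ (centralizer_le_normalizer _)
        refine hle₂.trans (center_le_centralizer _)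
      rw [← H22.Basic.card_sup_of_inf_eq_bot h3 hint, le_antisymm hZ (sup_le hle₁ hle₂)]
    rw [c₁, c₂, D.card_G hp2, hc, two_mul, pow_add]; ring

theorem ord_of (v : D.V) (h : v.1 = 1 ∨ v.2 = 1) : addOrderOf v = p ^ D.n := by
  apply Nat.dvd_antisymm
  · rw [addOrderOf_dvd_iff_nsmul_eq_zero]
    have h0 : ((p ^ D.n : ℕ) : ZMod (p ^ D.n)) = 0 := ZMod.natCast_self _
    ext
    · rw [Prod.smul_fst, nsmul_eq_mul, h0, zero_mul]; rfl
    · rw [Prod.smul_snd, nsmul_eq_mul, h0, zero_mul]; rfl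
  · have h1 : addOrderOf v • v = 0 := addOrderOf_nsmul_eq_zero v
    rw [← ZMod.natCast_eq_zero_iff]
    rcases h with h | h
    · have := congrArg Prod.fst h1
      simpa [h] using this
    · have := congrArg Prod.snd h1
      simpa [h] using this

theorem disj_of (v w : D.V) (h : (v.1 = 1 ∧ w.1 = 0) ∨ (v.2 = 1 ∧ w.2 = 0)) :
    AddSubgroup.zmultiples v ⊓ AddSubgroup.zmultiples w = ⊥ := by
  rw [eq_bot_iff]
  rintro x ⟨⟨k, hk⟩, ⟨l, hl⟩⟩
  have hk : k • v = x := hk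
  have hl : l • w = x := hl
  rw [AddSubgroup.mem_bot]
  have hk0 : ((k : ℤ) : ZMod (p ^ D.n)) = 0 := by
    rcases h with ⟨h1, h2⟩ | ⟨h1, h2⟩
    · have e1 := congrArg Prod.fst (hk.trans hl.symm)
      simpa [h1, h2] using e1
    · have e1 := congrArg Prod.snd (hk.trans hl.symm)
      simpa [h1, h2] using e1
  rw [← hk]
  ext
  · simp [hk0]
  · simp [hk0]

theorem center_le [Finite G] (hp2 : p ≠ 2) :
    center G ≤ zpowers (D.a ^ p ^ D.n) ⊔ zpowers (D.b ^ p ^ D.n) := by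
  intro z hz
  obtain ⟨i, j, rfl⟩ := D.gen z
  rw [D.mem_center_iff, D.φ_mk] at hz
  have h1 : ((gs D.s i : ℕ) : ZMod (p ^ D.n)) = 0 := congrArg Prod.fst hz
  have h2 : ((j : ℕ) : ZMod (p ^ D.n)) = 0 := congrArg Prod.snd hz
  rw [D.gs_eq_zero_iff hp2] at h1
  rw [ZMod.natCast_eq_zero_iff] at h1 h2
  obtain ⟨i', rfl⟩ := h1
  obtain ⟨j', rfl⟩ := h2
  rw [pow_mul, pow_mul]
  exact mul_mem (mem_sup_right (pow_mem (mem_zpowers _) _)) (mem_sup_left (pow_mem (mem_zpowers _) _))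

/-- Let p be an odd prime and G a finite metacyclic p-group (G has a cyclic normal subgroup with cyclic quotient). Then G is the product of two cyclic subgroups with trivial intersection: there are cyclic subgroups A and B with A ∩ B = 1 and |A| · |B| = |G|. -/
theorem result {G : Type*} [Group G] [Finite G] {p : ℕ} [Fact p.Prime] (hp : p ≠ 2) (hG : IsPGroup p G) (hmc : Cfsg.IsMetacyclic G) : ∃ A B : Subgroup G, IsCyclic ↥A ∧ IsCyclic ↥B ∧ A ⊓ B = ⊥ ∧ Nat.card ↥A * Nat.card ↥B = Nat.card G := by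
  obtain ⟨D⟩ := exists_data hG hmc
  have hX : D.a ^ p ^ D.n ∈ center G := pow_pn_mem_center D hp D.a
  have hY : D.b ^ p ^ D.n ∈ center G := pow_pn_mem_center D hp D.b
  rcases le_total (orderOf (D.b ^ p ^ D.n)) (orderOf (D.a ^ p ^ D.n)) with hle | hle
  · obtain ⟨t, ht⟩ := split hG _ _ hX hY hle
    have hg : (D.b * D.a ^ t) ^ p ^ D.n = D.b ^ p ^ D.n * (D.a ^ p ^ D.n) ^ t := by
      rw [pow_pn_mul D hp, ← pow_mul, ← pow_mul, mul_comm t]
    have hφ1 : D.φ (D.b * D.a ^ t) = (1, (t : ZMod (p ^ D.n))) := by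
      have := D.φ_mk 1 t
      rw [pow_one, gs_one] at this
      rw [this]; simp
    have hm := main D hp (D.b * D.a ^ t) D.a (ord_of D _ (Or.inl (by rw [hφ1])))
      (ord_of D _ (Or.inr (by rw [D.φ_a])))
      (disj_of D _ _ (Or.inl ⟨by rw [hφ1], by rw [D.φ_a]⟩)) ?_ ?_
    · exact ⟨_, _, inferInstance, inferInstance, hm.1, hm.2⟩
    · refine (center_le D hp).trans (sup_le le_sup_right ?_)
      rw [zpowers_le, hg]
      have : D.b ^ p ^ D.n = (D.b ^ p ^ D.n * (D.a ^ p ^ D.n) ^ t) * ((D.a ^ p ^ D.n) ^ t)⁻¹ := by group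
      rw [this]
      exact mul_mem (mem_sup_left (by rw [← this]; exact mem_zpowers _))
        (mem_sup_right (inv_mem (pow_mem (mem_zpowers _) _)))
    · rw [hg]; exact ht
  · obtain ⟨t, ht⟩ := split hG _ _ hY hX hle
    have hg : (D.b ^ t * D.a) ^ p ^ D.n = D.a ^ p ^ D.n * (D.b ^ p ^ D.n) ^ t := by
      rw [pow_pn_mul D hp, ← pow_mul, mul_comm t, pow_mul]
      exact (mem_center_iff.mp hX _)
    have hφ1 : D.φ (D.b ^ t * D.a) = (((gs D.s t : ℕ) : ZMod (p ^ D.n)), 1) := by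
      have := D.φ_mk t 1
      rw [pow_one] at this
      rw [this]; simp
    have hm := main D hp (D.b ^ t * D.a) D.b (ord_of D _ (Or.inr (by rw [hφ1])))
      (ord_of D _ (Or.inl (by rw [D.φ_b])))
      (disj_of D _ _ (Or.inr ⟨by rw [hφ1], by rw [D.φ_b]⟩)) ?_ ?_
    · exact ⟨_, _, inferInstance, inferInstance, hm.1, hm.2⟩
    · refine (center_le D hp).trans (sup_le ?_ le_sup_right)
      rw [zpowers_le, hg]
      have : D.a ^ p ^ D.n = (D.a ^ p ^ D.n * (D.b ^ p ^ D.n) ^ t) * ((D.b ^ p ^ D.n) ^ t)⁻¹ := by group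
      rw [this]
      exact mul_mem (mem_sup_left (by rw [← this]; exact mem_zpowers _))
        (mem_sup_right (inv_mem (pow_mem (mem_zpowers _) _)))
    · rw [hg]; exact ht

end Cfsg.Agent.S3884
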