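import Cfsg.Statements.S3886
import Cfsg.Agent.H22_Meta3

set_option autoImplicit false
open Cfsg

namespace Cfsg.Agent.S3886

open Subgroup

theorem card_center {G : Type*} [Group G] (R : Subgroup G) :
    Nat.card (center R) = Nat.card (R ⊓ centralizer (R : Set G) : Subgroup G) := by
  have h : (center R).map R.subtype = R ⊓ centralizer (R : Set G) := by
    ext x
    constructor
    · rintro ⟨y, hy, rfl⟩
      refine mem_inf.mpr ⟨y.2, mem_centralizer_iff.mpr fun z hz => ?_⟩
      exact congrArg Subtype.val (mem_center_iff.mp hy ⟨z, hz⟩)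
    · intro hx
      obtain ⟨h1, h2⟩ := mem_inf.mp hx
      refine ⟨⟨x, h1⟩, mem_center_iff.mpr fun z => ?_, rfl⟩
      exact Subtype.ext (mem_centralizer_iff.mp h2 z z.2)
  rw [← h, card_map_of_injective R.subtype_injective]

/-- Let p be an odd prime and G a finite metacyclic p-group (G has a cyclic normal subgroup with cyclic quotient). Then the largest value of |R| · |Z(R)| over subgroups R of G is |G : G'|², and the subgroups attaining it (the centrally large subgroups) are exactly the non-abelian subgroups together with the maximal abelian subgroups of G. -/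
theorem result {G : Type*} [Group G] [Finite G] {p : ℕ} [Fact p.Prime] (hp : p ≠ 2) (hG : IsPGroup p G) (hmc : Cfsg.IsMetacyclic G) : Cfsg.maxCentralProduct G = (commutator G).index ^ 2 ∧
    ∀ R : Subgroup G, Cfsg.IsCentrallyLarge R ↔ (¬ IsMulCommutative ↥R ∨ Maximal (fun K : Subgroup G => IsMulCommutative ↥K) R) := by
  obtain ⟨D⟩ := H22.Meta.exists_data hG hmc
  have hna : ∀ R : Subgroup G, ¬ IsMulCommutative R → Nat.card R * Nat.card (center R) = (commutator G).index ^ 2 := by
    intro R hR
    rw [card_center, inf_eq_right.mpr (H22.Meta.centralizer_le hG hmc R hR)]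
    exact (H22.Meta.lt_card_of_nonabelian hp hG hmc D hR).2
  have hab : ∀ R : Subgroup G, IsMulCommutative R → Nat.card R * Nat.card (center R) = Nat.card R ^ 2 := by
    intro R hR
    rw [card_center, inf_eq_left.mpr (H22.Meta.le_centralizer_self hR), sq]
  have hle : ∀ R : Subgroup G, Nat.card R * Nat.card (center R) ≤ (commutator G).index ^ 2 := by
    intro R
    by_cases hR : IsMulCommutative R
    · rw [hab R hR]
      exact Nat.pow_le_pow_left (H22.Meta.card_le_of_abelian hp D hR) 2
    · exact (hna R hR).le
  have hmax : Cfsg.maxCentralProduct G = (commutator G).index ^ 2 := by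
    apply IsGreatest.csSup_eq
    constructor
    · by_cases hR : IsMulCommutative (⊤ : Subgroup G)
      · refine ⟨⊤, ?_⟩
        rw [hab ⊤ hR]
        congr 1
        have h1 : Maximal (fun K : Subgroup G => IsMulCommutative ↥K) ⊤ := ⟨hR, fun _ _ _ => le_top⟩
        exact (H22.Meta.maximal_abelian_iff hp hG hmc ⊤).mp h1
      · exact ⟨⊤, hna ⊤ hR⟩
    · rintro _ ⟨R, rfl⟩
      exact hle R
  refine ⟨hmax, fun R => ?_⟩
  unfold Cfsg.IsCentrallyLarge
  rw [hmax]
  constructor
  · intro h
    by_cases hR : IsMulCommutative R
    · right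
      rw [hab R hR] at h
      rw [H22.Meta.maximal_abelian_iff hp hG hmc]
      exact (Nat.pow_left_injective (by norm_num : 2 ≠ 0)) h
    · exact Or.inl hR
  · rintro (h | h)
    · exact hna R h
    · rw [hab R h.1, (H22.Meta.maximal_abelian_iff hp hG hmc R).mp h]

end Cfsg.Agent.S3886
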