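import Cfsg.Statements.S3887
import Cfsg.Agent.H22_Meta3

set_option autoImplicit false
open Cfsg

namespace Cfsg.Agent.S3887

open Subgroup

/-- Let p be an odd prime and G a finite metacyclic p-group (G has a cyclic normal subgroup with cyclic quotient). Then a subgroup R of G maximizes |R| · |C_G(R)| over all subgroups of G if and only if R contains the center of G. -/
theorem result {G : Type*} [Group G] [Finite G] {p : ℕ} [Fact p.Prime] (hp : p ≠ 2) (hG : IsPGroup p G) (hmc : Cfsg.IsMetacyclic G) (R : Subgroup G) : Cfsg.IsCentralizerLarge R ↔ Subgroup.center G ≤ R := by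
  obtain ⟨D⟩ := H22.Meta.exists_data hG hmc
  have hmax : Cfsg.maxCentralizerProduct G = Nat.card G * Nat.card (center G) := by
    apply IsGreatest.csSup_eq
    constructor
    · refine ⟨⊤, ?_⟩
      rw [D.duality hp ⊤, top_inf_eq]
    · rintro _ ⟨R, rfl⟩
      rw [D.duality hp R]
      exact Nat.mul_le_mul_left _ (H22.Basic.card_le_of_le inf_le_right)
  unfold Cfsg.IsCentralizerLarge
  rw [hmax, D.duality hp R]
  constructor
  · intro h
    have h1 := Nat.eq_of_mul_eq_mul_left Nat.card_pos h
    have h2 := H22.Basic.eq_of_le_of_card_le (inf_le_right : R ⊓ center G ≤ center G) h1.ge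
    rw [← h2]; exact inf_le_left
  · intro h
    rw [inf_eq_right.mpr h]

end Cfsg.Agent.S3887
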