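import Cfsg.Statements.S3895
import Cfsg.Agent.H22_ClassCount2

set_option autoImplicit false
open Cfsg

namespace Cfsg.Agent.S3895

open Subgroup

theorem exists_reps {G : Type*} [Group G] [Finite G] {p : ℕ} [Fact p.Prime] (P : Sylow p G) :
    ∀ c : {c : ConjClasses G // ∀ x ∈ c.carrier, ∃ k : ℕ, orderOf x = p ^ k},
      ∃ x : (P : Subgroup G), ConjClasses.mk (x : G) = c.1 := by
  rintro ⟨c, hc⟩
  obtain ⟨x, rfl⟩ := ConjClasses.exists_rep c
  obtain ⟨g, hg⟩ := H22.ClassCount.exists_conj_mem_sylow P x (hc x ConjClasses.mem_carrier_mk)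
  refine ⟨⟨_, hg⟩, ?_⟩
  rw [ConjClasses.mk_eq_mk_iff_isConj]
  exact (isConj_iff.mpr ⟨g, rfl⟩).symm

theorem card_le_classes {G : Type*} [Group G] [Finite G] {p : ℕ} [Fact p.Prime] (P : Sylow p G) :
    Nat.card {c : ConjClasses G // ∀ x ∈ c.carrier, ∃ k : ℕ, orderOf x = p ^ k} ≤
      Nat.card (ConjClasses (P : Subgroup G)) := by
  classical
  choose f hf using exists_reps P
  apply Nat.card_le_card_of_injective (fun c => ConjClasses.mk (f c))
  intro c d hcd
  have h1 : ConjClasses.mk (f c) = ConjClasses.mk (f d) := hcd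
  rw [ConjClasses.mk_eq_mk_iff_isConj] at h1
  obtain ⟨g, hg⟩ := isConj_iff.mp h1
  apply Subtype.ext
  rw [← hf c, ← hf d, ConjClasses.mk_eq_mk_iff_isConj, isConj_iff]
  exact ⟨g, congrArg Subtype.val hg⟩

theorem classes_le {G : Type*} [Group G] [Finite G] {p : ℕ} [Fact p.Prime] (P : Sylow p G)
    (h : Cfsg.HasNormalPComplement p G) :
    Nat.card (ConjClasses (P : Subgroup G)) ≤
      Nat.card {c : ConjClasses G // ∀ x ∈ c.carrier, ∃ k : ℕ, orderOf x = p ^ k} := by
  classical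
  obtain ⟨Q, N, hN, hNQ⟩ := h
  have hNQcard : Nat.card N * Nat.card (Q : Subgroup G) = Nat.card G := hNQ.card_mul_card
  have h3 : (Q : Subgroup G).index = Nat.card N := by
    have h4 := (Q : Subgroup G).card_mul_index
    have h5 : 0 < Nat.card (Q : Subgroup G) := Nat.card_pos
    nlinarith
  have hNp : (Nat.card N).Coprime p := by
    rw [← h3]
    exact (((Fact.out : p.Prime).coprime_iff_not_dvd).mpr Q.not_dvd_index).symm
  have hPQ : Nat.card (P : Subgroup G) = Nat.card (Q : Subgroup G) := Nat.card_congr (Sylow.equiv P Q).toEquiv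
  have hcop : (Nat.card N).Coprime (Nat.card (P : Subgroup G)) := by
    obtain ⟨k, hk⟩ := P.2.exists_card_eq
    rw [hk]
    exact hNp.pow_right k
  have hNP : N.IsComplement' (P : Subgroup G) :=
    Subgroup.isComplement'_of_coprime (by rw [hPQ, hNQcard]) hcop
  have hrep : ∀ c : ConjClasses (P : Subgroup G), ∃ x, ConjClasses.mk x = c := fun c => ConjClasses.exists_rep c
  choose f hf using hrep
  apply Nat.card_le_card_of_injective
    (fun c : ConjClasses (P : Subgroup G) => (⟨ConjClasses.mk (f c : G), by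
      intro y hy
      obtain ⟨k, hk⟩ := H22.ClassCount.orderOf_pow_of_mem_pgroup P.2 (f c).2
      refine ⟨k, ?_⟩
      have h1 : IsConj (f c : G) y := by
        rw [ConjClasses.mem_carrier_iff_mk_eq, ConjClasses.mk_eq_mk_iff_isConj] at hy
        exact hy.symm
      obtain ⟨g, hg⟩ := isConj_iff.mp h1
      rw [← hg, ← hk]
      exact orderOf_injective (MulAut.conj g).toMonoidHom (MulAut.conj g).injective (f c : G)⟩ :
        {c : ConjClasses G // ∀ x ∈ c.carrier, ∃ k : ℕ, orderOf x = p ^ k}))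
  intro c d hcd
  have h1 : ConjClasses.mk (f c : G) = ConjClasses.mk (f d : G) := congrArg Subtype.val hcd
  rw [ConjClasses.mk_eq_mk_iff_isConj] at h1
  obtain ⟨g, hg⟩ := isConj_iff.mp h1
  obtain ⟨⟨n, u⟩, hnu⟩ := hNP.surjective g
  have hnu' : g = (n : G) * (u : G) := hnu.symm
  rw [← hf c, ← hf d, ConjClasses.mk_eq_mk_iff_isConj, isConj_iff]
  refine ⟨u, ?_⟩
  apply Subtype.ext
  show (u : G) * (f c : G) * (u : G)⁻¹ = (f d : G)
  have h2 : (u : G) * (f c : G) * (u : G)⁻¹ * (f d : G)⁻¹ ∈ N ⊓ (P : Subgroup G) := by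
    refine ⟨?_, ?_⟩
    · have e : (u : G) * (f c : G) * (u : G)⁻¹ * (f d : G)⁻¹ = (n : G)⁻¹ * ((f d : G) * n * (f d : G)⁻¹) := by
        rw [← hg, hnu']; group
      rw [e]
      exact N.mul_mem (N.inv_mem n.2) (hN.conj_mem _ n.2 _)
    · show (u : G) * (f c : G) * (u : G)⁻¹ * (f d : G)⁻¹ ∈ (P : Subgroup G)
      exact (P : Subgroup G).mul_mem ((P : Subgroup G).mul_mem ((P : Subgroup G).mul_mem u.2 (f c).2)
        ((P : Subgroup G).inv_mem u.2)) ((P : Subgroup G).inv_mem (f d).2)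
  rw [disjoint_iff.mp hNP.disjoint, Subgroup.mem_bot, mul_inv_eq_one] at h2
  exact h2

theorem main {G : Type*} [Group G] [Finite G] (P : Sylow 2 G) (h : ¬ Cfsg.HasNormalPComplement 2 G) :
    2 * Nat.card {c : ConjClasses G // ∀ x ∈ c.carrier, ∃ k : ℕ, orderOf x = 2 ^ k} ≤ Nat.card (P : Subgroup G) := by
  classical
  obtain ⟨Q, hQP, hZQ, g, hgQ, hgp, hgc⟩ := H22.ClassCount.exists_centric P h
  have hgodd : Odd (orderOf g) := Nat.coprime_two_right.mp hgp
  let A := zpowers g
  have hAQ : A ≤ normalizer (Q : Set G) := by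
    rw [zpowers_le]; exact hgQ
  let φ : A →* MulAut Q := Q.normalizerMonoidHom.comp (inclusion hAQ)
  letI act : MulAction A Q := MulAction.compHom _ φ
  have hφ : φ ≠ 1 := by
    intro h1
    apply hgc
    have h2 : (inclusion hAQ ⟨g, mem_zpowers g⟩) ∈ Q.normalizerMonoidHom.ker := by
      rw [MonoidHom.mem_ker]
      have := DFunLike.congr_fun h1 ⟨g, mem_zpowers g⟩
      exact this
    rw [normalizerMonoidHom_ker] at h2
    exact h2
  have hQ2 : IsPGroup 2 Q := P.2.to_le hQP
  have horb := H22.ClassCount.orbit_bound_odd hQ2 (by rw [Nat.card_zpowers]; exact hgodd) φ hφ (fun m x => rfl)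
  set K := {c : ConjClasses G // ∀ x ∈ c.carrier, ∃ k : ℕ, orderOf x = 2 ^ k} with hK
  have hsplit : Nat.card K = Nat.card {c : K // ∃ x ∈ Q, ConjClasses.mk x = c.1} +
      Nat.card {c : K // ¬ ∃ x ∈ Q, ConjClasses.mk x = c.1} := by
    rw [← Nat.card_sum]
    exact (Nat.card_congr (Equiv.sumCompl (fun c : K => ∃ x ∈ Q, ConjClasses.mk x = c.1))).symm
  have hb1 : Nat.card {c : K // ∃ x ∈ Q, ConjClasses.mk x = c.1} ≤
      Nat.card (Quotient (MulAction.orbitRel A Q)) := by
    have hex : ∀ c : {c : K // ∃ x ∈ Q, ConjClasses.mk x = c.1}, ∃ x : Q, ConjClasses.mk (x : G) = c.1.1 := by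
      rintro ⟨c, x, hx, hxc⟩
      exact ⟨⟨x, hx⟩, hxc⟩
    choose f hf using hex
    apply Nat.card_le_card_of_injective
      (fun c => (Quotient.mk (MulAction.orbitRel A Q) (f c)))
    intro c d hcd
    obtain ⟨n, hn⟩ := Quotient.exact hcd
    apply Subtype.ext
    apply Subtype.ext
    rw [← hf c, ← hf d, ConjClasses.mk_eq_mk_iff_isConj]
    rw [← hn]
    exact (isConj_iff.mpr ⟨(n : G), rfl⟩).symm
  have hb2 : 2 * Nat.card {c : K // ¬ ∃ x ∈ Q, ConjClasses.mk x = c.1} ≤
      Nat.card {x : (P : Subgroup G) // (x : G) ∉ Q} := by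
    have hex : ∀ c : {c : K // ¬ ∃ x ∈ Q, ConjClasses.mk x = c.1},
        ∃ x y : {x : (P : Subgroup G) // (x : G) ∉ Q}, x ≠ y ∧ ConjClasses.mk (x.1 : G) = c.1.1 ∧
          ConjClasses.mk (y.1 : G) = c.1.1 := by
      rintro ⟨c, hc⟩
      obtain ⟨x, hx⟩ := exists_reps P c
      have hxQ : (x : G) ∉ Q := fun h1 => hc ⟨x, h1, hx⟩
      have h2 : (x : G) ∉ centralizer ((P : Subgroup G) : Set G) := fun h3 => hxQ (hZQ ⟨x.2, h3⟩)
      rw [mem_centralizer_iff] at h2
      push Not at h2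
      obtain ⟨y, hy, hyx⟩ := h2
      have h4 : ConjClasses.mk (y * x * y⁻¹) = c.1 := by
        rw [← hx, ConjClasses.mk_eq_mk_iff_isConj]
        exact (isConj_iff.mpr ⟨y, rfl⟩).symm
      refine ⟨⟨x, hxQ⟩, ⟨⟨y * x * y⁻¹, mul_mem (mul_mem hy x.2) (inv_mem hy)⟩, ?_⟩, ?_, hx, h4⟩
      · intro h3
        exact hc ⟨_, h3, h4⟩
      · intro h3
        have h5 : (x : G) = y * x * y⁻¹ := congrArg (fun z => ((z.1 : (P : Subgroup G)) : G)) h3
        apply hyx
        rw [eq_mul_inv_iff_mul_eq] at h5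
        exact h5.symm
    choose f1 f2 hne hf1 hf2 using hex
    have : 2 * Nat.card {c : K // ¬ ∃ x ∈ Q, ConjClasses.mk x = c.1} =
        Nat.card (Bool × {c : K // ¬ ∃ x ∈ Q, ConjClasses.mk x = c.1}) := by
      rw [Nat.card_prod]; simp
    rw [this]
    apply Nat.card_le_card_of_injective (fun z => if z.1 then f1 z.2 else f2 z.2)
    rintro ⟨b, c⟩ ⟨b', d⟩ hcd
    have hmk : ∀ (b : Bool) (c : {c : K // ¬ ∃ x ∈ Q, ConjClasses.mk x = c.1}),
        ConjClasses.mk (((if b then f1 c else f2 c : {x : (P : Subgroup G) // (x : G) ∉ Q}).1 : G)) = c.1.1 := by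
      intro b c
      cases b
      · exact hf2 c
      · exact hf1 c
    have h1 : c = d := by
      apply Subtype.ext
      apply Subtype.ext
      rw [← hmk b c, ← hmk b' d]
      exact congrArg (fun z : {x : (P : Subgroup G) // (x : G) ∉ Q} => ConjClasses.mk ((z.1 : (P : Subgroup G)) : G)) hcd
    subst h1
    cases b <;> cases b'
    · rfl
    · exact absurd hcd.symm (hne c)
    · exact absurd hcd (hne c)
    · rfl
  have hsplitP : Nat.card (P : Subgroup G) = Nat.card Q + Nat.card {x : (P : Subgroup G) // (x : G) ∉ Q} := by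
    have h1 : Nat.card Q = Nat.card {x : (P : Subgroup G) // (x : G) ∈ Q} := by
      refine Nat.card_congr ⟨fun x => ⟨⟨x, hQP x.2⟩, x.2⟩, fun x => ⟨x.1, x.2⟩, fun x => rfl, fun x => rfl⟩
    rw [h1, ← Nat.card_sum]
    exact (Nat.card_congr (Equiv.sumCompl (fun x : (P : Subgroup G) => (x : G) ∈ Q))).symm
  omega

/-- Let G be a finite group with Sylow 2-subgroup P, and write k₂(G) for the number of conjugacy classes of G consisting of 2-elements (elements of 2-power order, the identity included). Then k₂(G) > |P|/2 if and only if G has a normal 2-complement and P has more than |P|/2 conjugacy classes. -/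
theorem result {G : Type*} [Group G] [Finite G] (P : Sylow 2 G) :
    Nat.card ↥(P : Subgroup G) < 2 * Nat.card {c : ConjClasses G // ∀ x ∈ c.carrier, ∃ k : ℕ, orderOf x = 2 ^ k} ↔
      Cfsg.HasNormalPComplement 2 G ∧ Nat.card ↥(P : Subgroup G) < 2 * Nat.card (ConjClasses ↥(P : Subgroup G)) := by
  constructor
  · intro h
    refine ⟨?_, ?_⟩
    · by_contra h1
      exact absurd (main P h1) (not_le.mpr h)
    · exact lt_of_lt_of_le h (Nat.mul_le_mul_left _ (card_le_classes P))
  · rintro ⟨h1, h2⟩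
    exact lt_of_lt_of_le h2 (Nat.mul_le_mul_left _ (classes_le P h1))

end Cfsg.Agent.S3895
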