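import Cfsg.Statements.S3897
import Cfsg.Agent.H22_ClassCount

set_option autoImplicit false
open Cfsg

namespace Cfsg.Agent.S3897

open Subgroup in
/-- Let p be an odd prime and G a finite group with Sylow p-subgroup P, and write k_p(G) for the number of conjugacy classes of G consisting of p-elements (elements of p-power order, the identity included). Then k_p(G) > (p + 1)|P|/(2p) if and only if G has a normal p-complement and P is abelian. -/
theorem result {G : Type*} [Group G] [Finite G] {p : ℕ} [Fact p.Prime] (hp : p ≠ 2) (P : Sylow p G) :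
    (p + 1) * Nat.card ↥(P : Subgroup G) < 2 * p * Nat.card {c : ConjClasses G // ∀ x ∈ c.carrier, ∃ k : ℕ, orderOf x = p ^ k} ↔
      Cfsg.HasNormalPComplement p G ∧ IsMulCommutative ↥(P : Subgroup G) := by
  constructor
  · intro h
    obtain ⟨h1, N, h2, h3⟩ := H22.ClassCount.normalComplement_of_card P h
    exact ⟨⟨P, N, h2, h3⟩, h1⟩
  · rintro ⟨⟨Q, N, hN, hNQ⟩, hab⟩
    have hp2 : 2 ≤ p := (Fact.out : p.Prime).two_le
    -- N has order prime to p
    have hNQcard : Nat.card N * Nat.card (Q : Subgroup G) = Nat.card G := hNQ.card_mul_card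
    have h3 : (Q : Subgroup G).index = Nat.card N := by
      have h4 := (Q : Subgroup G).card_mul_index
      have h5 : 0 < Nat.card (Q : Subgroup G) := Nat.card_pos
      nlinarith
    have hNp : (Nat.card N).Coprime p := by
      rw [← h3]
      exact (((Fact.out : p.Prime).coprime_iff_not_dvd).mpr Q.not_dvd_index).symm
    have hPQ : Nat.card (P : Subgroup G) = Nat.card (Q : Subgroup G) := Nat.card_congr (Sylow.equiv P Q).toEquiv
    have hcop : (Nat.card N).Coprime (Nat.card (P : Subgroup G)) := by
      obtain ⟨k, hk⟩ := P.2.exists_card_eq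
      rw [hk]
      exact hNp.pow_right k
    have hNP : N.IsComplement' (P : Subgroup G) :=
      Subgroup.isComplement'_of_coprime (by rw [hPQ, hNQcard]) hcop
    have hcomm := H22.ClassCount.commutator_le_of_complement N P hNP hab
    have hle : Nat.card (P : Subgroup G) ≤
        Nat.card {c : ConjClasses G // ∀ x ∈ c.carrier, ∃ k : ℕ, orderOf x = p ^ k} := by
      apply Nat.card_le_card_of_injective
        (fun x : (P : Subgroup G) => (⟨ConjClasses.mk (x : G), by
          intro y hy
          obtain ⟨k, hk⟩ := H22.ClassCount.orderOf_pow_of_mem_pgroup P.2 x.2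
          refine ⟨k, ?_⟩
          have h1 : IsConj (x : G) y := by
            rw [ConjClasses.mem_carrier_iff_mk_eq, ConjClasses.mk_eq_mk_iff_isConj] at hy
            exact hy.symm
          obtain ⟨g, hg⟩ := isConj_iff.mp h1
          rw [← hg, ← hk]
          exact orderOf_injective (MulAut.conj g).toMonoidHom (MulAut.conj g).injective (x : G)⟩ :
            {c : ConjClasses G // ∀ x ∈ c.carrier, ∃ k : ℕ, orderOf x = p ^ k}))
      intro x y hxy
      have h1 : ConjClasses.mk (x : G) = ConjClasses.mk (y : G) := congrArg Subtype.val hxy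
      rw [ConjClasses.mk_eq_mk_iff_isConj] at h1
      obtain ⟨g, hg⟩ := isConj_iff.mp h1
      have h2 : (y : G) * (x : G)⁻¹ ∈ N := by
        apply hcomm
        rw [← hg, commutator_def]
        exact Subgroup.commutator_mem_commutator (Subgroup.mem_top g) (Subgroup.mem_top (x : G))
      have h4 : (y : G) * (x : G)⁻¹ ∈ N ⊓ (P : Subgroup G) :=
        ⟨h2, (P : Subgroup G).mul_mem y.2 ((P : Subgroup G).inv_mem x.2)⟩
      rw [disjoint_iff.mp hNP.disjoint, Subgroup.mem_bot, mul_inv_eq_one] at h4
      exact Subtype.ext h4.symm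
    have hP0 : 0 < Nat.card (P : Subgroup G) := Nat.card_pos
    have hp3 : 3 ≤ p := by omega
    calc (p + 1) * Nat.card (P : Subgroup G) < (2 * p) * Nat.card (P : Subgroup G) :=
          Nat.mul_lt_mul_of_pos_right (by omega) hP0
      _ ≤ _ := Nat.mul_le_mul_left _ hle

end Cfsg.Agent.S3897
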