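import Cfsg.Statements.S3899
import Cfsg.Agent.H22_PiClasses

set_option autoImplicit false
open Cfsg

namespace Cfsg.Agent.S3899

open Subgroup in
theorem exists_prime_dvd_index {G : Type*} [Group G] (π : Finset ℕ) (N : ℕ → Subgroup G)
    (hN : ∀ r ∈ π, (N r).Normal) (s : ℕ) (hs : s.Prime) :
    s ∣ (π.inf N).index → ∃ r ∈ π, s ∣ (N r).index := by
  classical
  induction π using Finset.induction_on with
  | empty =>
    intro h
    simp only [Finset.inf_empty, index_top] at h
    exact absurd (Nat.dvd_one.mp h) hs.ne_one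
  | insert a π' ha ih =>
    intro h
    rw [Finset.inf_insert] at h
    have h1 := relIndex_mul_index (inf_le_right : N a ⊓ π'.inf N ≤ π'.inf N)
    rw [inf_relIndex_right] at h1
    rw [← h1] at h
    rcases (hs.dvd_mul).mp h with h2 | h2
    · have := hN a (Finset.mem_insert_self _ _)
      exact ⟨a, Finset.mem_insert_self _ _, h2.trans (relIndex_dvd_index_of_normal _ _)⟩
    · obtain ⟨r, hr, hr2⟩ := ih (fun r hr => hN r (Finset.mem_insert_of_mem hr)) h2
      exact ⟨r, Finset.mem_insert_of_mem hr, hr2⟩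

open Subgroup in
/-- Let π be a finite non-empty set of odd primes with smallest member p and G a finite group. Write k_π(G) for the number of conjugacy classes of G consisting of π-elements (elements all of whose order's prime divisors lie in π) and |G|_π for the π-part of the order of G. If k_π(G) > (p + 1)|G|_π/(2p), then G has a normal π-complement (a normal subgroup of order prime to π whose index is a π-number) and an abelian Hall π-subgroup. -/
theorem result {G : Type*} [Group G] [Finite G] (π : Finset ℕ) (hπ : ∀ r ∈ π, r.Prime) (h2 : 2 ∉ π) (p : ℕ) (hp : p ∈ π)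
    (hmin : ∀ r ∈ π, p ≤ r) (hk : (p + 1) * π.prod (fun r => r ^ (Nat.card G).factorization r) < 2 * p * Nat.card {c : ConjClasses G // ∀ x ∈ c.carrier, ∀ r : ℕ, r.Prime → r ∣ orderOf x → r ∈ π}) :
    (∃ N : Subgroup G, N.Normal ∧ (∀ r : ℕ, r.Prime → r ∣ Nat.card ↥N → r ∉ π) ∧ ∀ r : ℕ, r.Prime → r ∣ N.index → r ∈ π) ∧ ∃ H : Subgroup G, Cfsg.IsPiHall (↑π : Set ℕ) H ∧ IsMulCommutative ↥H := by
  classical
  have hp0 : 0 < p := (hπ p hp).pos
  -- each prime of π
  have key : ∀ r ∈ π, ∃ N : Subgroup G, N.Normal ∧ ¬ r ∣ Nat.card N ∧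
      (∀ s : ℕ, s.Prime → s ∣ N.index → s = r) ∧ commutator G ≤ N := by
    intro r hr
    have hrp : r.Prime := hπ r hr
    have : Fact r.Prime := ⟨hrp⟩
    let R : Sylow r G := default
    have e1 := H22.PiClasses.card_piClasses_le_mul (H := G) π hπ r hr
    set E := (π.erase r).prod (fun r => r ^ (Nat.card G).factorization r) with hE
    have hEpos : 0 < E := Finset.prod_pos fun s hs => Nat.pow_pos (hπ s (Finset.mem_of_mem_erase hs)).pos
    have e2 : π.prod (fun r => r ^ (Nat.card G).factorization r) = r ^ (Nat.card G).factorization r * E :=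
      (Finset.mul_prod_erase π (fun r => r ^ (Nat.card G).factorization r) hr).symm
    set kr := Nat.card {c : ConjClasses G // ∀ x ∈ c.carrier, ∃ k : ℕ, orderOf x = r ^ k} with hkr
    have hR : Nat.card (R : Subgroup G) = r ^ (Nat.card G).factorization r := R.card_eq_multiplicity
    rw [e2, ← hR] at hk
    have e3 : (p + 1) * Nat.card (R : Subgroup G) < 2 * p * kr := by
      have : ((p + 1) * Nat.card (R : Subgroup G)) * E < (2 * p * kr) * E := by
        calc ((p + 1) * Nat.card (R : Subgroup G)) * E = (p + 1) * (Nat.card (R : Subgroup G) * E) := by ring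
          _ < _ := hk
          _ ≤ 2 * p * (kr * E) := Nat.mul_le_mul_left _ e1
          _ = _ := by ring
      exact lt_of_mul_lt_mul_right this (Nat.zero_le _)
    have hpr : p ≤ r := hmin r hr
    have e4 : (r + 1) * Nat.card (R : Subgroup G) < 2 * r * kr := by
      have h3 : p * ((r + 1) * Nat.card (R : Subgroup G)) < p * (2 * r * kr) := by
        calc p * ((r + 1) * Nat.card (R : Subgroup G)) = (p * r + p) * Nat.card (R : Subgroup G) := by ring
          _ ≤ (p * r + r) * Nat.card (R : Subgroup G) := by gcongr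
          _ = r * ((p + 1) * Nat.card (R : Subgroup G)) := by ring
          _ < r * (2 * p * kr) := Nat.mul_lt_mul_of_pos_left e3 hrp.pos
          _ = _ := by ring
      exact lt_of_mul_lt_mul_left h3 (Nat.zero_le _)
    obtain ⟨hab, N, hN, hNR⟩ := H22.ClassCount.normalComplement_of_card R e4
    have h3 : (R : Subgroup G).index = Nat.card N := by
      have h4 := (R : Subgroup G).card_mul_index
      have h5 : 0 < Nat.card (R : Subgroup G) := Nat.card_pos
      have h6 : Nat.card N * Nat.card (R : Subgroup G) = Nat.card G := hNR.card_mul_card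
      nlinarith
    refine ⟨N, hN, ?_, ?_, H22.ClassCount.commutator_le_of_complement N _ hNR hab⟩
    · rw [← h3]; exact R.not_dvd_index
    · intro s hs hsN
      rw [hNR.symm.index_eq_card, hR] at hsN
      exact (Nat.prime_dvd_prime_iff_eq hs hrp).mp (hs.dvd_of_dvd_pow hsN)
  have key' : ∃ N : ℕ → Subgroup G, ∀ r ∈ π, (N r).Normal ∧ ¬ r ∣ Nat.card (N r) ∧
      (∀ s : ℕ, s.Prime → s ∣ (N r).index → s = r) ∧ commutator G ≤ N r := by
    refine ⟨fun r => if hr : r ∈ π then (key r hr).choose else ⊤, fun r hr => ?_⟩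
    simp only [dif_pos hr]
    exact (key r hr).choose_spec
  obtain ⟨N, hN⟩ := key'
  set K := π.inf N with hK
  have hKcomm : commutator G ≤ K := Finset.le_inf fun r hr => (hN r hr).2.2.2
  have hKn : K.Normal := Subgroup.Normal.of_commutator_le (h := hKcomm)
  have hK1 : ∀ r : ℕ, r.Prime → r ∣ Nat.card ↥K → r ∉ π := by
    intro r _ hrK hr
    exact (hN r hr).2.1 (hrK.trans (card_dvd_of_le (Finset.inf_le hr)))
  have hK2 : ∀ r : ℕ, r.Prime → r ∣ K.index → r ∈ π := by
    intro r hr hrK
    obtain ⟨s, hs, hs2⟩ := exists_prime_dvd_index π N (fun r hr => (hN r hr).1) r hr hrK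
    rw [(hN s hs).2.2.1 r hr hs2]; exact hs
  refine ⟨⟨K, hKn, hK1, hK2⟩, ?_⟩
  have hcop : (Nat.card K).Coprime K.index := by
    rw [Nat.coprime_iff_gcd_eq_one]
    by_contra hne
    obtain ⟨s, hs, hsd⟩ := Nat.exists_prime_and_dvd hne
    exact hK1 s hs (hsd.trans (Nat.gcd_dvd_left _ _)) (hK2 s hs (hsd.trans (Nat.gcd_dvd_right _ _)))
  obtain ⟨H, hH⟩ := Subgroup.exists_right_complement'_of_coprime hcop
  refine ⟨H, ⟨?_, ?_⟩, ?_⟩
  · intro r hr hrH
    exact hK2 r hr (by rw [hH.symm.index_eq_card]; exact hrH)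
  · intro r hr hrπ hrH
    rw [hH.index_eq_card] at hrH
    exact hK1 r hr hrH hrπ
  · exact H22.PiClasses.isMulCommutative_of_inf_eq_bot hKcomm (disjoint_iff.mp hH.disjoint)

end Cfsg.Agent.S3899
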