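import Cfsg.Statements.S3898
import Cfsg.Agent.H22_PiClasses2
import Cfsg.Agent.S3895
import Cfsg.Agent.S3899

set_option autoImplicit false
open Cfsg

namespace Cfsg.Agent.S3898

open Subgroup

/-- odd order version of S3899 -/
theorem odd_case {G : Type*} [Group G] [Finite G] (hG : Odd (Nat.card G)) (π : Finset ℕ) (hπ : ∀ r ∈ π, r.Prime) (h2 : 2 ∉ π)
    (hk : π.prod (fun r => r ^ (Nat.card G).factorization r) < 2 * Nat.card {c : ConjClasses G // ∀ x ∈ c.carrier, ∀ r : ℕ, r.Prime → r ∣ orderOf x → r ∈ π}) :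
    ∃ K : Subgroup G, K.Normal ∧ (∀ r : ℕ, r.Prime → r ∣ Nat.card ↥K → r ∉ π) ∧ (∀ r : ℕ, r.Prime → r ∣ K.index → r ∈ π) ∧
      ∃ H : Subgroup G, H.IsComplement' K ∧ IsMulCommutative H := by
  classical
  -- each prime of π
  have key : ∀ r ∈ π, ∃ N : Subgroup G, N.Normal ∧ ¬ r ∣ Nat.card N ∧
      (∀ s : ℕ, s.Prime → s ∣ N.index → s = r) ∧ commutator G ≤ N := by
    intro r hr
    have hrp : r.Prime := hπ r hr
    have hr2 : r ≠ 2 := by rintro rfl; exact h2 hr
    have : Fact r.Prime := ⟨hrp⟩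
    let R : Sylow r G := default
    have e1 := H22.PiClasses.card_piClasses_le_mul (H := G) π hπ r hr
    set E := (π.erase r).prod (fun r => r ^ (Nat.card G).factorization r) with hE
    have hEpos : 0 < E := Finset.prod_pos fun s hs => Nat.pow_pos (hπ s (Finset.mem_of_mem_erase hs)).pos
    have e2 : π.prod (fun r => r ^ (Nat.card G).factorization r) = r ^ (Nat.card G).factorization r * E :=
      (Finset.mul_prod_erase π (fun r => r ^ (Nat.card G).factorization r) hr).symm
    set kr := Nat.card {c : ConjClasses G // ∀ x ∈ c.carrier, ∃ k : ℕ, orderOf x = r ^ k} with hkr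
    have hR : Nat.card (R : Subgroup G) = r ^ (Nat.card G).factorization r := R.card_eq_multiplicity
    rw [e2, ← hR] at hk
    have e3 : Nat.card (R : Subgroup G) < 2 * kr := by
      have : Nat.card (R : Subgroup G) * E < (2 * kr) * E := by
        calc Nat.card (R : Subgroup G) * E < _ := hk
          _ ≤ 2 * (kr * E) := Nat.mul_le_mul_left _ e1
          _ = _ := by ring
      exact lt_of_mul_lt_mul_right this (Nat.zero_le _)
    have h1 : normalizer ((R : Subgroup G) : Set G) ≤ centralizer ((R : Subgroup G) : Set G) := by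
      by_contra h2
      exact absurd (H22.PiClasses.card_pClasses_le_odd hG hr2 R h2) (not_le.mpr e3)
    have hab : IsMulCommutative (R : Subgroup G) := ⟨⟨fun a b => Subtype.ext (h1 (le_normalizer b.2) a a.2)⟩⟩
    have hNR := MonoidHom.ker_transferSylow_isComplement' R h1
    set N := (MonoidHom.transferSylow R h1).ker with hN
    have hNn : N.Normal := inferInstance
    have h3 : (R : Subgroup G).index = Nat.card N := by
      have h4 := (R : Subgroup G).card_mul_index
      have h5 : 0 < Nat.card (R : Subgroup G) := Nat.card_pos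
      have h6 : Nat.card N * Nat.card (R : Subgroup G) = Nat.card G := hNR.card_mul_card
      nlinarith
    refine ⟨N, hNn, ?_, ?_, H22.ClassCount.commutator_le_of_complement N _ hNR hab⟩
    · rw [← h3]; exact R.not_dvd_index
    · intro s hs hsN
      rw [hNR.symm.index_eq_card, hR] at hsN
      exact (Nat.prime_dvd_prime_iff_eq hs hrp).mp (hs.dvd_of_dvd_pow hsN)
  have key' : ∃ N : ℕ → Subgroup G, ∀ r ∈ π, (N r).Normal ∧ ¬ r ∣ Nat.card (N r) ∧
      (∀ s : ℕ, s.Prime → s ∣ (N r).index → s = r) ∧ commutator G ≤ N r := by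
    refine ⟨fun r => if hr : r ∈ π then (key r hr).choose else ⊤, fun r hr => ?_⟩
    simp only [dif_pos hr]
    exact (key r hr).choose_spec
  obtain ⟨N, hN⟩ := key'
  set K := π.inf N with hK
  have hKcomm : commutator G ≤ K := Finset.le_inf fun r hr => (hN r hr).2.2.2
  have hKn : K.Normal := Subgroup.Normal.of_commutator_le (h := hKcomm)
  have hK1 : ∀ r : ℕ, r.Prime → r ∣ Nat.card ↥K → r ∉ π := by
    intro r _ hrK hr
    exact (hN r hr).2.1 (hrK.trans (card_dvd_of_le (Finset.inf_le hr)))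
  have hK2 : ∀ r : ℕ, r.Prime → r ∣ K.index → r ∈ π := by
    intro r hr hrK
    obtain ⟨s, hs, hs2⟩ := S3899.exists_prime_dvd_index π N (fun r hr => (hN r hr).1) r hr hrK
    rw [(hN s hs).2.2.1 r hr hs2]; exact hs
  refine ⟨K, hKn, hK1, hK2, ?_⟩
  have hcop : (Nat.card K).Coprime K.index := by
    rw [Nat.coprime_iff_gcd_eq_one]
    by_contra hne
    obtain ⟨s, hs, hsd⟩ := Nat.exists_prime_and_dvd hne
    exact hK1 s hs (hsd.trans (Nat.gcd_dvd_left _ _)) (hK2 s hs (hsd.trans (Nat.gcd_dvd_right _ _)))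
  obtain ⟨H, hH⟩ := Subgroup.exists_right_complement'_of_coprime hcop
  refine ⟨H, hH.symm, ?_⟩
  exact H22.PiClasses.isMulCommutative_of_inf_eq_bot hKcomm (disjoint_iff.mp hH.disjoint)

/-- Let π be a finite set of primes containing 2 and G a finite group. Write k_π(G) for the number of conjugacy classes of G consisting of π-elements (elements all of whose order's prime divisors lie in π) and |G|_π for the π-part of the order of G. If k_π(G) > |G|_π/2, then G has a normal π-complement (a normal subgroup of order prime to π whose index is a π-number) and an abelian Hall subgroup for the set of odd primes in π. -/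
theorem result {G : Type*} [Group G] [Finite G] (π : Finset ℕ) (hπ : ∀ r ∈ π, r.Prime) (h2 : 2 ∈ π)
    (hk : π.prod (fun r => r ^ (Nat.card G).factorization r) < 2 * Nat.card {c : ConjClasses G // ∀ x ∈ c.carrier, ∀ r : ℕ, r.Prime → r ∣ orderOf x → r ∈ π}) :
    (∃ N : Subgroup G, N.Normal ∧ (∀ r : ℕ, r.Prime → r ∣ Nat.card ↥N → r ∉ π) ∧ ∀ r : ℕ, r.Prime → r ∣ N.index → r ∈ π) ∧ ∃ H : Subgroup G, Cfsg.IsPiHall ((↑π : Set ℕ) \ {2}) H ∧ IsMulCommutative ↥H := by
  classical
  have f2 : Fact (Nat.Prime 2) := ⟨Nat.prime_two⟩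
  set E := (π.erase 2).prod (fun r => r ^ (Nat.card G).factorization r) with hE
  have hEpos : 0 < E := Finset.prod_pos fun s hs => Nat.pow_pos (hπ s (Finset.mem_of_mem_erase hs)).pos
  have e2 : π.prod (fun r => r ^ (Nat.card G).factorization r) = 2 ^ (Nat.card G).factorization 2 * E :=
    (Finset.mul_prod_erase π (fun r => r ^ (Nat.card G).factorization r) h2).symm
  let P : Sylow 2 G := default
  have hP : Nat.card (P : Subgroup G) = 2 ^ (Nat.card G).factorization 2 := P.card_eq_multiplicity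
  set k2 := Nat.card {c : ConjClasses G // ∀ x ∈ c.carrier, ∃ k : ℕ, orderOf x = 2 ^ k} with hk2
  have hcomp : Cfsg.HasNormalPComplement 2 G := by
    by_contra hcon
    have e1 := H22.PiClasses.card_piClasses_le_mul (H := G) π hπ 2 h2
    have e3 := S3895.main P hcon
    rw [← hk2] at e1 e3
    rw [← hE] at e1
    have : 2 * (k2 * E) ≤ Nat.card (P : Subgroup G) * E := by
      calc 2 * (k2 * E) = (2 * k2) * E := by ring
        _ ≤ _ := Nat.mul_le_mul_right _ e3
    rw [e2, ← hP] at hk
    omega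
  obtain ⟨Q, N, hN, hNQ⟩ := hcomp
  have hNQcard : Nat.card N * Nat.card (Q : Subgroup G) = Nat.card G := hNQ.card_mul_card
  have h3 : (Q : Subgroup G).index = Nat.card N := by
    have h4 := (Q : Subgroup G).card_mul_index
    have h5 : 0 < Nat.card (Q : Subgroup G) := Nat.card_pos
    nlinarith
  have hNodd : Odd (Nat.card N) := by
    rw [← h3, ← Nat.not_even_iff_odd, even_iff_two_dvd]
    exact Q.not_dvd_index
  have hNidx : N.index = Nat.card (Q : Subgroup G) := hNQ.symm.index_eq_card
  have hQ : Nat.card (Q : Subgroup G) = 2 ^ (Nat.card G).factorization 2 := Q.card_eq_multiplicity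
  set σ := π.erase 2 with hσ
  have hσp : ∀ r ∈ σ, r.Prime := fun r hr => hπ r (Finset.mem_of_mem_erase hr)
  have h2σ : 2 ∉ σ := Finset.notMem_erase _ _
  have hNσ : ∀ y : G, (∀ s : ℕ, s.Prime → s ∣ orderOf y → s ∈ σ) → y ∈ N := by
    intro y hy
    rw [← QuotientGroup.eq_one_iff, ← orderOf_eq_one_iff]
    by_contra hne
    obtain ⟨s, hs, hsd⟩ := Nat.exists_prime_and_dvd hne
    have h5 : s ∣ orderOf y := hsd.trans (orderOf_map_dvd (QuotientGroup.mk' N) y)
    have h6 : s ∣ 2 ^ (Nat.card G).factorization 2 := by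
      rw [← hQ, ← hNidx, Subgroup.index_eq_card]
      exact hsd.trans (_root_.orderOf_dvd_natCard _)
    have h7 : s = 2 := (Nat.prime_dvd_prime_iff_eq hs Nat.prime_two).mp (hs.dvd_of_dvd_pow h6)
    subst h7
    exact h2σ (hy 2 hs h5)
  set B := Nat.card {c : ConjClasses N // ∀ x ∈ c.carrier, ∀ s : ℕ, s.Prime → s ∣ orderOf x → s ∈ σ} with hB
  have e4 := H22.PiClasses.card_step' (H := G) π 2 Nat.prime_two B
    (fun x hx => H22.PiClasses.card_centralizer_le N hNodd σ hNσ x hx)
  have e5 : k2 ≤ 2 ^ (Nat.card G).factorization 2 := H22.PiClasses.card_rClasses_le 2 Nat.prime_two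
  have hfac : ∀ r ∈ σ, (Nat.card G).factorization r = (Nat.card N).factorization r := by
    intro r hr
    rw [← hNQcard, Nat.factorization_mul Nat.card_pos.ne' Nat.card_pos.ne', hQ]
    have hrne : r ≠ 2 := by rintro rfl; exact h2σ hr
    rw [Finsupp.add_apply, Nat.Prime.factorization_pow Nat.prime_two, Finsupp.single_eq_of_ne hrne, add_zero]
  have hE' : E = σ.prod (fun r => r ^ (Nat.card N).factorization r) := by
    rw [hE]
    apply Finset.prod_congr rfl
    intro r hr
    rw [hfac r hr]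
  have e6 : E < 2 * B := by
    have h5 : 2 ^ (Nat.card G).factorization 2 * E < 2 ^ (Nat.card G).factorization 2 * (2 * B) := by
      calc _ = π.prod (fun r => r ^ (Nat.card G).factorization r) := e2.symm
        _ < _ := hk
        _ ≤ 2 * (k2 * B) := Nat.mul_le_mul_left _ e4
        _ ≤ 2 * (2 ^ (Nat.card G).factorization 2 * B) := by gcongr
        _ = _ := by ring
    exact lt_of_mul_lt_mul_left h5 (Nat.zero_le _)
  rw [hE'] at e6
  obtain ⟨K, hKn, hK1, hK2, H, hHK, hHc⟩ := odd_case hNodd σ hσp h2σ e6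
  -- membership in K
  have hKmem : ∀ x : N, x ∈ K ↔ ∀ s ∈ σ, ¬ s ∣ orderOf (x : G) := by
    intro x
    constructor
    · intro hx s hs hsd
      have h5 : orderOf (x : G) ∣ Nat.card K := by
        rw [Subgroup.orderOf_coe]
        exact Subgroup.orderOf_dvd_natCard K hx
      exact hK1 s (hσp s hs) (hsd.trans h5) hs
    · intro hx
      rw [← QuotientGroup.eq_one_iff, ← orderOf_eq_one_iff]
      by_contra hne
      obtain ⟨s, hs, hsd⟩ := Nat.exists_prime_and_dvd hne
      have h5 : s ∣ orderOf (x : G) := by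
        rw [Subgroup.orderOf_coe]
        exact hsd.trans (orderOf_map_dvd (QuotientGroup.mk' K) x)
      have h6 : s ∣ K.index := by
        rw [Subgroup.index_eq_card]
        exact hsd.trans (_root_.orderOf_dvd_natCard _)
      exact hx s (hK2 s hs h6) h5
  have hKG : (K.map N.subtype).Normal := by
    constructor
    rintro _ ⟨x, hx, rfl⟩ g
    have hx' : x ∈ K := hx
    refine ⟨⟨g * (x : G) * g⁻¹, hN.conj_mem _ x.2 g⟩, ?_, rfl⟩
    show (⟨g * (x : G) * g⁻¹, hN.conj_mem _ x.2 g⟩ : N) ∈ K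
    rw [hKmem] at hx' ⊢
    intro s hs
    show ¬ s ∣ orderOf (g * (x : G) * g⁻¹)
    rw [H22.PiClasses.orderOf_conj']
    exact hx' s hs
  have hKcard : Nat.card (K.map N.subtype) = Nat.card K :=
    Subgroup.card_map_of_injective N.subtype_injective
  have hKidx : (K.map N.subtype).index = K.index * N.index := by
    rw [Subgroup.index_map_subtype]
  refine ⟨⟨K.map N.subtype, hKG, ?_, ?_⟩, H.map N.subtype, ⟨?_, ?_⟩, ?_⟩
  · intro r hr hrK hrπ
    rw [hKcard] at hrK
    by_cases hr2 : r = 2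
    · subst hr2
      have h5 : 2 ∣ Nat.card N := hrK.trans (Subgroup.card_subgroup_dvd_card _)
      exact (Nat.not_even_iff_odd.mpr hNodd) (even_iff_two_dvd.mpr h5)
    · exact hK1 r hr hrK (Finset.mem_erase.mpr ⟨hr2, hrπ⟩)
  · intro r hr hrK
    rw [hKidx, hr.dvd_mul] at hrK
    rcases hrK with h5 | h5
    · exact Finset.mem_of_mem_erase (hK2 r hr h5)
    · rw [hNidx, hQ] at h5
      rw [(Nat.prime_dvd_prime_iff_eq hr Nat.prime_two).mp (hr.dvd_of_dvd_pow h5)]
      exact h2
  · intro r hr hrH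
    rw [Subgroup.card_map_of_injective N.subtype_injective] at hrH
    have h5 : r ∈ σ := hK2 r hr (by rw [hHK.index_eq_card]; exact hrH)
    rw [hσ, Finset.mem_erase] at h5
    exact ⟨h5.2, h5.1⟩
  · intro r hr hrπ hrH
    have h5 : r ∈ σ := Finset.mem_erase.mpr ⟨hrπ.2, hrπ.1⟩
    rw [Subgroup.index_map_subtype, hr.dvd_mul] at hrH
    rcases hrH with h6 | h6
    · rw [hHK.symm.index_eq_card] at h6
      exact hK1 r hr h6 h5
    · rw [hNidx, hQ] at h6
      exact hrπ.2 ((Nat.prime_dvd_prime_iff_eq hr Nat.prime_two).mp (hr.dvd_of_dvd_pow h6))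
  · refine ⟨⟨?_⟩⟩
    rintro ⟨_, x, hx, rfl⟩ ⟨_, y, hy, rfl⟩
    apply Subtype.ext
    have := hHc.is_comm.comm ⟨x, hx⟩ ⟨y, hy⟩
    exact congrArg (fun z : H => ((z : N) : G)) this

end Cfsg.Agent.S3898
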