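import Cfsg.Statements.S3903
import Cfsg.Agent.H22_PiClasses
import Cfsg.Agent.H22_Basic
import Cfsg.Agent.H1_Coprime2

set_option autoImplicit false
open Cfsg

namespace Cfsg.Agent.S3903

open Subgroup

/-- a Sylow `p`-subgroup that is abelian and a maximal subgroup forces solvability -/
theorem solvable_of_maximal_abelian_sylow {G : Type*} [Group G] [Finite G] {p : ℕ} [Fact p.Prime]
    (P : Sylow p G) (hmax : IsCoatom (P : Subgroup G)) (hab : IsMulCommutative (P : Subgroup G)) :
    Group.IsSolvable G := by
  have hPsol : Group.IsSolvable (P : Subgroup G) :=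
    Group.isSolvable_of_comm (fun a b => hab.is_comm.comm a b)
  by_cases hn : normalizer ((P : Subgroup G) : Set G) = ⊤
  · have hPn : (P : Subgroup G).Normal := normalizer_eq_top_iff.mp hn
    rw [Group.isSolvable_iff_subgroup_quotient (P : Subgroup G)]
    refine ⟨hPsol, ?_⟩
    -- the quotient is cyclic
    obtain ⟨g, hg⟩ : ∃ g : G, g ∉ (P : Subgroup G) := by
      by_contra h
      push Not at h
      exact hmax.1 (eq_top_iff.mpr fun x _ => h x)
    have h1 : (P : Subgroup G) ⊔ zpowers g = ⊤ := by
      apply hmax.2
      refine lt_of_le_of_ne le_sup_left fun h => hg ?_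
      rw [h]; exact mem_sup_right (mem_zpowers g)
    have hc : ∀ a b : G ⧸ (P : Subgroup G), a * b = b * a := by
      have h2 : zpowers (QuotientGroup.mk' (P : Subgroup G) g) = ⊤ := by
        rw [← MonoidHom.map_zpowers]
        have h3 := congrArg (Subgroup.map (QuotientGroup.mk' (P : Subgroup G))) h1
        rw [Subgroup.map_sup, QuotientGroup.map_mk'_self, bot_sup_eq] at h3
        rw [h3, ← MonoidHom.range_eq_map, MonoidHom.range_eq_top]
        exact QuotientGroup.mk'_surjective _
      intro a b
      obtain ⟨i, hi⟩ := mem_zpowers_iff.mp (h2 ▸ mem_top a)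
      obtain ⟨j, hj⟩ := mem_zpowers_iff.mp (h2 ▸ mem_top b)
      rw [← hi, ← hj, ← zpow_add, ← zpow_add, add_comm]
    exact Group.isSolvable_of_comm hc
  · have hle : normalizer ((P : Subgroup G) : Set G) ≤ centralizer ((P : Subgroup G) : Set G) := by
      have h1 : normalizer ((P : Subgroup G) : Set G) = (P : Subgroup G) := by
        by_contra h2
        exact hn (hmax.2 _ (lt_of_le_of_ne le_normalizer (Ne.symm h2)))
      rw [h1]
      intro x hx y hy
      exact congrArg Subtype.val (hab.is_comm.comm ⟨y, hy⟩ ⟨x, hx⟩)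
    have hcompl := MonoidHom.ker_transferSylow_isComplement' P hle
    set K := (MonoidHom.transferSylow P hle).ker with hK
    have hKp : ¬ p ∣ Nat.card K := MonoidHom.not_dvd_card_ker_transferSylow P hle
    have hcop : (Nat.card (P : Subgroup G)).Coprime (Nat.card K) := by
      obtain ⟨k, hk⟩ := P.2.exists_card_eq
      rw [hk]
      exact Nat.Coprime.pow_left k (((Fact.out : p.Prime).coprime_iff_not_dvd).mpr hKp)
    have hcard : Nat.card K * Nat.card (P : Subgroup G) = Nat.card G := hcompl.card_mul_card
    have hKne : Nat.card K ≠ 1 := by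
      intro h
      rw [h, one_mul] at hcard
      exact hmax.1 (Subgroup.eq_top_of_card_eq _ hcard)
    obtain ⟨r, hr, hrK⟩ := Nat.exists_prime_and_dvd hKne
    have : Fact r.Prime := ⟨hr⟩
    obtain ⟨R, hR⟩ := H1.Coprime.invariant_sylow_exists (P : Subgroup G) K
      (by rw [normalizer_eq_top]; exact le_top) hcop (Or.inl hPsol) r
    have hRP : (R : Subgroup K).map K.subtype ⊔ (P : Subgroup G) = ⊤ := by
      apply hmax.2
      refine lt_of_le_of_ne le_sup_right fun h => ?_
      have h1 : (R : Subgroup K).map K.subtype ≤ (P : Subgroup G) := by rw [h]; exact le_sup_left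
      have h2 : (R : Subgroup K).map K.subtype ≤ K := map_subtype_le _
      have h3 : (R : Subgroup K).map K.subtype ≤ ⊥ := by
        rw [← disjoint_iff.mp hcompl.disjoint]; exact le_inf h2 h1
      have h4 : Nat.card ((R : Subgroup K).map K.subtype) = 1 := by
        rw [le_bot_iff.mp h3, Subgroup.card_bot]
      rw [Subgroup.card_map_of_injective K.subtype_injective] at h4
      have h5 := R.dvd_card_of_dvd_card hrK
      rw [h4] at h5
      exact hr.ne_one (Nat.dvd_one.mp h5)
    have hcop2 : (Nat.card ((R : Subgroup K).map K.subtype)).Coprime (Nat.card (P : Subgroup G)) := by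
      rw [Subgroup.card_map_of_injective K.subtype_injective]
      exact Nat.Coprime.coprime_dvd_left (Subgroup.card_subgroup_dvd_card _) hcop.symm
    have hcard2 := H22.Basic.card_sup_of_coprime hR hcop2
    rw [hRP, Subgroup.card_top, ← hcard] at hcard2
    have hcard3 : Nat.card K = Nat.card ((R : Subgroup K).map K.subtype) :=
      Nat.eq_of_mul_eq_mul_right Nat.card_pos hcard2
    have hKr : IsPGroup r K := by
      obtain ⟨k, hk⟩ := R.2.exists_card_eq
      rw [Subgroup.card_map_of_injective K.subtype_injective, hk] at hcard3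
      exact IsPGroup.of_card hcard3
    rw [Group.isSolvable_iff_subgroup_quotient K]
    have hKnil : Group.IsNilpotent K := hKr.isNilpotent
    refine ⟨inferInstance, ?_⟩
    have e := hcompl.symm.QuotientMulEquiv
    exact Group.isSolvable_of_isSolvable_injective (f := e.toMonoidHom) e.injective

/-- counting: if every element outside `N` is a `p`-element whose centralizer has order `|P|`, and
`P ⊔ N = ⊤`, then `P` is abelian. -/
theorem abelian_of_counting {G : Type*} [Group G] [Finite G] {p : ℕ} [Fact p.Prime]
    (P : Sylow p G) (N : Subgroup G) [N.Normal] (hPN : (P : Subgroup G) ⊔ N = ⊤) (hNP : ¬ (P : Subgroup G) ≤ N)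
    (h1 : ∀ y : G, y ∉ N → ∃ k : ℕ, orderOf y = p ^ k)
    (h2 : ∀ y : G, y ∉ N → Nat.card (centralizer ({y} : Set G)) = Nat.card (P : Subgroup G)) :
    IsMulCommutative (P : Subgroup G) := by
  classical
  have : Fintype G := Fintype.ofFinite G
  let f : G → ℕ := fun z => (Finset.univ.filter fun g : G => g⁻¹ * z * g ∈ (P : Subgroup G)).card
  have hcent : ∀ z : G, Nat.card (centralizer ({z} : Set G)) =
      (Finset.univ.filter fun g : G => g ∈ centralizer ({z} : Set G)).card := by
    intro z
    rw [Nat.card_eq_fintype_card, Fintype.card_subtype]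
  -- lower bound
  have hf : ∀ z : G, z ∉ N → Nat.card (P : Subgroup G) ≤ f z := by
    intro z hz
    obtain ⟨g0, hg0⟩ := H22.ClassCount.exists_conj_mem_sylow P z (h1 z hz)
    rw [← h2 z hz, hcent]
    apply Finset.card_le_card_of_injOn (fun c => c * g0⁻¹)
    · intro c hc
      simp only [Finset.coe_filter, Finset.mem_univ, true_and, Set.mem_ofPred_eq] at hc ⊢
      have hc' : c * z = z * c := mem_centralizer_singleton_iff.mp hc
      have : (c * g0⁻¹)⁻¹ * z * (c * g0⁻¹) = g0 * z * g0⁻¹ := by
        calc (c * g0⁻¹)⁻¹ * z * (c * g0⁻¹) = g0 * c⁻¹ * (z * c) * g0⁻¹ := by group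
          _ = g0 * c⁻¹ * (c * z) * g0⁻¹ := by rw [hc']
          _ = _ := by group
      rw [this]; exact hg0
    · intro a _ b _ hab
      exact mul_right_cancel hab
  -- total sum
  set T := Finset.univ.filter fun z : G => z ∉ N with hT
  set D := Finset.univ.filter fun z : G => z ∉ N ∧ z ∈ (P : Subgroup G) with hD
  have hsum : ∑ z ∈ T, f z = Fintype.card G * D.card := by
    have e1 : ∑ z ∈ T, f z = ∑ z ∈ T, ∑ g : G, if g⁻¹ * z * g ∈ (P : Subgroup G) then 1 else 0 := by
      apply Finset.sum_congr rfl
      intro z _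
      show (Finset.univ.filter fun g : G => g⁻¹ * z * g ∈ (P : Subgroup G)).card = _
      rw [Finset.card_filter]
    rw [e1, Finset.sum_comm]
    have e2 : ∀ g : G, ∑ z ∈ T, (if g⁻¹ * z * g ∈ (P : Subgroup G) then 1 else 0) = D.card := by
      intro g
      rw [← Finset.card_filter]
      apply Finset.card_bij (fun z _ => g⁻¹ * z * g)
      · intro z hz
        simp only [hT, hD, Finset.mem_filter, Finset.mem_univ, true_and] at hz ⊢
        refine ⟨fun h => hz.1 ?_, hz.2⟩
        have := Subgroup.Normal.conj_mem inferInstance _ h g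
        simpa [mul_assoc] using this
      · intro a _ b _ hab
        have := congrArg (fun x => g * x * g⁻¹) hab
        simpa [mul_assoc] using this
      · intro b hb
        simp only [hT, hD, Finset.mem_filter, Finset.mem_univ, true_and] at hb ⊢
        refine ⟨g * b * g⁻¹, ⟨fun h => hb.1 ?_, ?_⟩, by group⟩
        · have := Subgroup.Normal.conj_mem inferInstance _ h g⁻¹
          simpa [mul_assoc] using this
        · have : g⁻¹ * (g * b * g⁻¹) * g = b := by group
          rw [this]; exact hb.2
    rw [Finset.sum_congr rfl (fun g _ => e2 g), Finset.sum_const, Finset.card_univ, smul_eq_mul]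
  -- |G| * |D| = |P| * |T|
  have hTc : T.card + Nat.card N = Nat.card G := by
    have e1 : Nat.card N = (Finset.univ.filter fun z : G => z ∈ N).card := by
      rw [Nat.card_eq_fintype_card, Fintype.card_subtype]
    rw [e1, hT, Nat.card_eq_fintype_card, ← Finset.card_univ, add_comm]
    exact Finset.card_filter_add_card_filter_not (s := Finset.univ) (fun z : G => z ∈ N)
  have hDc : D.card + Nat.card ((P : Subgroup G) ⊓ N : Subgroup G) = Nat.card (P : Subgroup G) := by
    have e1 : Nat.card ((P : Subgroup G) ⊓ N : Subgroup G) =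
        (Finset.univ.filter fun z : G => z ∈ (P : Subgroup G) ∧ z ∈ N).card := by
      rw [Nat.card_eq_fintype_card, Fintype.card_subtype]
      congr 1
      ext z; simp [Subgroup.mem_inf]
    have e2 : Nat.card (P : Subgroup G) = (Finset.univ.filter fun z : G => z ∈ (P : Subgroup G)).card := by
      rw [Nat.card_eq_fintype_card, Fintype.card_subtype]
    rw [e1, e2, hD, add_comm]
    have := Finset.card_filter_add_card_filter_not (s := Finset.univ.filter fun z : G => z ∈ (P : Subgroup G))
      (fun z : G => z ∈ N)
    rw [Finset.filter_filter, Finset.filter_filter] at this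
    rw [← this]
    congr 2
    ext z
    simp [and_comm]
  have hidx : Nat.card (P : Subgroup G) * Nat.card N = Nat.card G * Nat.card ((P : Subgroup G) ⊓ N : Subgroup G) := by
    have e1 : N.relIndex ((P : Subgroup G) ⊔ N) = N.relIndex (P : Subgroup G) := relIndex_sup_right _ _
    rw [hPN, relIndex_top_right] at e1
    have e2 : Nat.card ((P : Subgroup G) ⊓ N : Subgroup G) * N.relIndex (P : Subgroup G) = Nat.card (P : Subgroup G) := by
      have := H22.Basic.card_mul_relIndex (inf_le_left : (P : Subgroup G) ⊓ N ≤ (P : Subgroup G))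
      rwa [inf_relIndex_left] at this
    have e3 := N.card_mul_index
    rw [e1] at e3
    rw [← e2, ← e3]; ring
  have hPT : Nat.card (P : Subgroup G) * T.card = Fintype.card G * D.card := by
    have e1 : Fintype.card G = Nat.card G := Nat.card_eq_fintype_card.symm
    rw [e1]
    have e2 : Nat.card (P : Subgroup G) * T.card + Nat.card (P : Subgroup G) * Nat.card N =
        Nat.card G * D.card + Nat.card G * Nat.card ((P : Subgroup G) ⊓ N : Subgroup G) := by
      rw [← mul_add, ← mul_add, hTc, hDc, mul_comm]
    rw [hidx] at e2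
    exact Nat.add_right_cancel e2
  have hfe : ∀ z ∈ T, Nat.card (P : Subgroup G) = f z := by
    have hle : ∀ z ∈ T, Nat.card (P : Subgroup G) ≤ f z := by
      intro z hz
      apply hf
      simpa [hT] using hz
    refine (Finset.sum_eq_sum_iff_of_le hle).mp ?_
    rw [Finset.sum_const, smul_eq_mul, hsum, ← hPT, mul_comm]
  -- conclusion: elements of P outside N are central in P
  have hcen : ∀ y ∈ (P : Subgroup G), y ∉ N → ∀ g ∈ (P : Subgroup G), g * y = y * g := by
    intro y hy hyN g hg
    have e1 : (Finset.univ.filter fun g : G => g ∈ centralizer ({y} : Set G)) ⊆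
        (Finset.univ.filter fun g : G => g⁻¹ * y * g ∈ (P : Subgroup G)) := by
      intro c hc
      simp only [Finset.mem_filter, Finset.mem_univ, true_and] at hc ⊢
      have hc' : c * y = y * c := mem_centralizer_singleton_iff.mp hc
      have : c⁻¹ * y * c = y := by rw [mul_assoc, ← hc', inv_mul_cancel_left]
      rw [this]; exact hy
    have e2 := Finset.eq_of_subset_of_card_le e1 (by
      rw [← hcent, h2 y hyN]
      exact (hfe y (by simp [hT, hyN])).ge)
    have e3 : g ∈ (Finset.univ.filter fun g : G => g⁻¹ * y * g ∈ (P : Subgroup G)) := by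
      simp only [Finset.mem_filter, Finset.mem_univ, true_and]
      exact (P : Subgroup G).mul_mem ((P : Subgroup G).mul_mem ((P : Subgroup G).inv_mem hg) hy) hg
    rw [← e2] at e3
    simp only [Finset.mem_filter, Finset.mem_univ, true_and] at e3
    exact mem_centralizer_singleton_iff.mp e3
  obtain ⟨x, hxP, hxN⟩ := SetLike.not_le_iff_exists.mp hNP
  refine ⟨⟨fun a b => Subtype.ext ?_⟩⟩
  by_cases ha : (a : G) ∈ N
  · -- a * x ∉ N
    have h3 : (a : G) * x ∉ N := fun h => hxN ((N.mul_mem_cancel_left ha).mp h)
    have h4 := hcen _ ((P : Subgroup G).mul_mem a.2 hxP) h3 b b.2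
    have h5 := hcen x hxP hxN b b.2
    show (a : G) * b = b * a
    have : (b : G) * a * x = a * b * x := by
      rw [mul_assoc, h4, mul_assoc, mul_assoc, h5]
    exact (mul_right_cancel this).symm
  · exact (hcen a a.2 ha b b.2).symm

/-- Let N be a proper normal subgroup of the finite group G such that every element x of G outside N has prime power order and has centralizer C_G(x) a maximal subgroup of G. Then N is solvable. -/
theorem result {G : Type*} [Group G] [Finite G] (N : Subgroup G) [N.Normal] (hN : N ≠ ⊤)
    (h : ∀ x : G, x ∉ N → IsPrimePow (orderOf x) ∧ IsCoatom (Subgroup.centralizer ({x} : Set G))) : Group.IsSolvable ↥N := by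
  -- centralizers are `q`-groups
  have hC : ∀ (q : ℕ) (y : G), q.Prime → y ∉ N → (∃ k, orderOf y = q ^ k) →
      IsPGroup q (centralizer ({y} : Set G)) := by
    intro q y hq hy ⟨k, hk⟩
    have : Fact q.Prime := ⟨hq⟩
    rw [IsPGroup.iff_card]
    have hall : ∀ s : ℕ, s.Prime → s ∣ Nat.card (centralizer ({y} : Set G)) → s = q := by
      intro s hs hsd
      by_contra hne
      have : Fact s.Prime := ⟨hs⟩
      obtain ⟨z, hz⟩ := exists_prime_orderOf_dvd_card' s hsd
      have hzc : Commute y (z : G) := (mem_centralizer_singleton_iff.mp z.2).symm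
      have hzo : orderOf (z : G) = s := by rw [orderOf_coe]; exact hz
      have hcop : (orderOf y).Coprime (orderOf (z : G)) := by
        rw [hk, hzo]
        exact Nat.Coprime.pow_left k ((Nat.coprime_primes hq hs).mpr (Ne.symm hne))
      have hord : orderOf (y * z) = q ^ k * s := by
        rw [hzc.orderOf_mul_eq_mul_orderOf_of_coprime hcop, hk, hzo]
      have hk0 : k ≠ 0 := by
        rintro rfl
        rw [pow_zero, orderOf_eq_one_iff] at hk
        exact hy (hk ▸ N.one_mem)
      have hyz : y * z ∈ N := by
        by_contra hyz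
        obtain ⟨r, m, hr, hm, hrm⟩ := (h _ hyz).1
        have hr' : r.Prime := hr.nat_prime
        rw [hord] at hrm
        have h1 : q ∣ r ^ m := by rw [hrm]; exact (dvd_pow_self q hk0).mul_right s
        have h2 : s ∣ r ^ m := by rw [hrm]; exact dvd_mul_left s _
        have h3 := (Nat.prime_dvd_prime_iff_eq hq hr').mp (hq.dvd_of_dvd_pow h1)
        have h4 := (Nat.prime_dvd_prime_iff_eq hs hr').mp (hs.dvd_of_dvd_pow h2)
        exact hne (h4.trans h3.symm)
      have hys : y ^ s ∈ N := by
        have := N.pow_mem hyz s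
        rwa [hzc.mul_pow, ← hzo, pow_orderOf_eq_one, mul_one, hzo] at this
      have hcop' : (orderOf y).Coprime s := by rwa [hzo] at hcop
      apply hy
      have h5 : y ∈ zpowers (y ^ s) := by
        obtain ⟨n, hn⟩ := exists_pow_eq_self_of_coprime hcop'.symm
        exact mem_zpowers_iff.mpr ⟨n, by rw [zpow_natCast]; exact hn⟩
      exact (zpowers_le.mpr hys) h5
    exact ⟨_, (Nat.eq_prime_pow_of_unique_prime_dvd Nat.card_pos.ne' (fun {d} hd hdd => hall d hd hdd))⟩
  obtain ⟨y, hy⟩ : ∃ g : G, g ∉ N := by
    by_contra h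
    push Not at h
    exact hN (eq_top_iff.mpr fun x _ => h x)
  obtain ⟨⟨q, k, hq, hk, hqk⟩, hmax⟩ := h y hy
  have hq' := hq.nat_prime
  have : Fact q.Prime := ⟨hq'⟩
  -- if `G` is a `q`-group we are done
  by_cases hG : IsPGroup q G
  · have : Group.IsNilpotent G := hG.isNilpotent
    infer_instance
  have hSyl : ∀ z : G, z ∉ N → (∃ k, orderOf z = q ^ k) → ∃ P : Sylow q G, (P : Subgroup G) = centralizer ({z} : Set G) := by
    intro z hz hzk
    obtain ⟨P, hP⟩ := (hC q z hq' hz hzk).exists_le_sylow
    refine ⟨P, ?_⟩
    by_contra hne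
    have h1 := (h z hz).2.2 _ (lt_of_le_of_ne hP (Ne.symm hne))
    apply hG
    have h2 := P.2
    rw [h1] at h2
    exact h2.of_equiv Subgroup.topEquiv
  obtain ⟨P, hP⟩ := hSyl y hy ⟨k, hqk.symm⟩
  by_cases hPN : (P : Subgroup G) ⊔ N = ⊤
  · have hPcard : ∀ z : G, z ∉ N → ∃ k, orderOf z = q ^ k := by
      intro z hz
      obtain ⟨⟨r, m, hr, hm, hrm⟩, -⟩ := h z hz
      have hr' := hr.nat_prime
      by_cases hrq : r = q
      · exact ⟨m, by rw [← hrm, hrq]⟩
      · exfalso
        -- image of z in G/N
        have h1 : N.relIndex ((P : Subgroup G) ⊔ N) = N.relIndex (P : Subgroup G) := relIndex_sup_right _ _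
        rw [hPN, relIndex_top_right] at h1
        have h2 : N.relIndex (P : Subgroup G) ∣ Nat.card (P : Subgroup G) := by
          have := H22.Basic.card_mul_relIndex (inf_le_left : (P : Subgroup G) ⊓ N ≤ (P : Subgroup G))
          rw [inf_relIndex_left] at this
          exact ⟨_, (mul_comm _ _).trans this |>.symm⟩
        obtain ⟨j, hj⟩ := P.2.exists_card_eq
        rw [hj, ← h1] at h2
        have h3 : z ^ (q ^ j) ∈ N := by
          obtain ⟨c, hc⟩ := h2
          rw [hc, pow_mul]
          exact N.pow_mem (N.pow_index_mem z) c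
        have h4 : (orderOf z).Coprime (q ^ j) := by
          rw [← hrm]
          exact Nat.Coprime.pow _ _ ((Nat.coprime_primes hr' hq').mpr hrq)
        obtain ⟨n, hn⟩ := exists_pow_eq_self_of_coprime h4.symm
        apply hz
        rw [← hn]
        exact N.pow_mem h3 n
    have hNP : ¬ (P : Subgroup G) ≤ N := by
      intro hle
      rw [sup_eq_right.mpr hle] at hPN
      exact hN hPN
    have hab := abelian_of_counting P N hPN hNP hPcard (by
      intro z hz
      obtain ⟨Q, hQ⟩ := hSyl z hz (hPcard z hz)
      rw [← hQ]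
      rw [Q.card_eq_multiplicity, P.card_eq_multiplicity])
    have hs := solvable_of_maximal_abelian_sylow P (by rw [hP]; exact hmax) hab
    infer_instance
  · have hPmax : IsCoatom (P : Subgroup G) := by rw [hP]; exact hmax
    have hNP : N ≤ (P : Subgroup G) := by
      by_contra hle
      apply hPN
      apply hPmax.2
      exact lt_of_le_of_ne le_sup_left (fun e => hle (by rw [e]; exact le_sup_right))
    have hNp : IsPGroup q N := P.2.to_le hNP
    have := hNp.isNilpotent
    infer_instance

end Cfsg.Agent.S3903
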