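import Cfsg.Statements.S3908
import Cfsg.Agent.H22_Basic
import Cfsg.Agent.H23_PQuat

set_option autoImplicit false
open Cfsg

namespace Cfsg.Agent.S3908

open Subgroup H22.Basic

theorem main {G : Type*} [Group G] [Finite G] (hB : ∀ A B : Subgroup G, IsMulCommutative ↥A → IsMulCommutative ↥B → Nat.card ↥A = Nat.card ↥B → ∃ g : G, B = A.map (MulAut.conj g).toMonoidHom)
    (p : ℕ) [hp : Fact p.Prime] (P : Sylow p G) :
    IsCyclic ↥(P : Subgroup G) ∨ (p = 2 ∧ ∃ n : ℕ, Nonempty (↥(P : Subgroup G) ≃* QuaternionGroup (2 ^ n))) ∨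
      ∀ x ∈ (P : Subgroup G), x ^ p = 1 := by
  by_cases hab : ∀ A : Subgroup P, IsMulCommutative A → (∀ a ∈ A, a ^ p = 1) → IsCyclic A
  · rcases H23.PQuat.cyclic_or_quaternion_of_abelian P.isPGroup' hab with h | h
    · exact Or.inl h
    · exact Or.inr (Or.inl h)
  · right; right
    push Not at hab
    obtain ⟨A, hA, hAp, hAc⟩ := hab
    have hAg : IsPGroup p A := P.isPGroup'.to_subgroup A
    obtain ⟨n, hn⟩ := hAg.exists_card_eq
    have hn2 : 2 ≤ n := by
      by_contra h
      apply hAc
      interval_cases n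
      · rw [pow_zero] at hn
        have := (Nat.card_eq_one_iff_unique.mp hn).1
        infer_instance
      · rw [pow_one] at hn
        exact isCyclic_of_prime_card hn
    obtain ⟨A₀, hA₀⟩ := Sylow.exists_subgroup_card_pow_prime (G := A) p (n := 2) (by rw [hn]; exact pow_dvd_pow p hn2)
    let f : A →* G := (P : Subgroup G).subtype.comp A.subtype
    have hf : Function.Injective f := (P : Subgroup G).subtype_injective.comp A.subtype_injective
    set B : Subgroup G := A₀.map f with hBdef
    have hBcard : Nat.card B = p ^ 2 := by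
      rw [hBdef, Nat.card_congr (A₀.equivMapOfInjective _ hf).symm.toEquiv, hA₀]
    have hBab : IsMulCommutative B := by
      constructor; constructor
      rintro ⟨_, a, _, rfl⟩ ⟨_, b, _, rfl⟩
      apply Subtype.ext
      show f a * f b = f b * f a
      rw [← map_mul, ← map_mul, hA.is_comm.comm a b]
    have hBp : ∀ b ∈ B, b ^ p = 1 := by
      rintro _ ⟨a, _, rfl⟩
      rw [← map_pow]
      have : a ^ p = 1 := Subtype.ext (hAp a a.2)
      rw [this, map_one]
    have hno : ∀ x : G, orderOf x ≠ p ^ 2 := by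
      intro x hx
      obtain ⟨g, hg⟩ := hB B (zpowers x) hBab inferInstance (by rw [hBcard, Nat.card_zpowers, hx])
      have hx1 : x ∈ cj g B := by
        have : x ∈ zpowers x := mem_zpowers _
        rw [hg] at this; exact this
      rw [mem_cj] at hx1
      have h2 := hBp _ hx1
      have h3 : x ^ p = 1 := by
        have h4 : (g⁻¹ * x * g) ^ p = g⁻¹ * x ^ p * g := by
          have := conj_pow (i := p) (a := g⁻¹) (b := x)
          rwa [inv_inv] at this
        rw [h4] at h2
        have : x ^ p = g * (g⁻¹ * x ^ p * g) * g⁻¹ := by group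
        rw [this, h2]; group
      have h5 := orderOf_dvd_of_pow_eq_one h3
      rw [hx] at h5
      have := Nat.le_of_dvd hp.out.pos h5
      nlinarith [hp.out.one_lt]
    intro x hx
    obtain ⟨k, hk⟩ := (IsPGroup.iff_orderOf.mp P.isPGroup') ⟨x, hx⟩
    have hk' : orderOf x = p ^ k := by rw [← hk]; exact (Subgroup.orderOf_mk x hx).symm
    match k, hk' with
    | 0, hk' =>
      rw [pow_zero, orderOf_eq_one_iff] at hk'
      rw [hk', one_pow]
    | 1, hk' =>
      rw [pow_one] at hk'
      rw [← hk', pow_orderOf_eq_one]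
    | k + 2, hk' =>
      exfalso
      apply hno (x ^ p ^ k)
      rw [orderOf_pow_of_dvd (pow_ne_zero _ hp.out.ne_zero) (by rw [hk']; exact pow_dvd_pow p (by omega)), hk',
        Nat.pow_div (by omega) hp.out.pos]
      congr 1; omega

/-- Let G be a finite group in which any two abelian subgroups of the same order are conjugate. Then a Sylow 2-subgroup of G is cyclic, elementary abelian or generalized quaternion, and for an odd prime p a Sylow p-subgroup of G is cyclic or has exponent dividing p. -/
theorem result {G : Type*} [Group G] [Finite G] (hB : ∀ A B : Subgroup G, IsMulCommutative ↥A → IsMulCommutative ↥B → Nat.card ↥A = Nat.card ↥B → ∃ g : G, B = A.map (MulAut.conj g).toMonoidHom) :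
    (∀ P : Sylow 2 G, IsCyclic ↥(P : Subgroup G) ∨ Cfsg.IsElementaryAbelian 2 (P : Subgroup G) ∨ ∃ k : ℕ, Nonempty (↥(P : Subgroup G) ≃* QuaternionGroup (2 ^ k))) ∧
    ∀ (p : ℕ) [Fact p.Prime], p ≠ 2 → ∀ P : Sylow p G, IsCyclic ↥(P : Subgroup G) ∨ ∀ x ∈ (P : Subgroup G), x ^ p = 1 := by
  constructor
  · intro P
    have := Fact.mk Nat.prime_two
    rcases main hB 2 P with h | ⟨_, h⟩ | h
    · exact Or.inl h
    · exact Or.inr (Or.inr h)
    · refine Or.inr (Or.inl ⟨?_, h⟩)
      constructor; constructor
      rintro ⟨a, ha⟩ ⟨b, hb⟩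
      apply Subtype.ext
      show a * b = b * a
      have h1 : ∀ z ∈ (P : Subgroup G), z⁻¹ = z := by
        intro z hz
        rw [inv_eq_iff_mul_eq_one, ← pow_two]; exact h z hz
      have h2 := h1 (a * b) (mul_mem ha hb)
      rw [mul_inv_rev, h1 a ha, h1 b hb] at h2
      exact h2.symm
  · intro p _ hp P
    rcases main hB p P with h | ⟨h, _⟩ | h
    · exact Or.inl h
    · exact absurd h hp
    · exact Or.inr h

end Cfsg.Agent.S3908
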