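import Cfsg.Statements.S3909
import Cfsg.Agent.H22_Basic

set_option autoImplicit false
open Cfsg

namespace Cfsg.Agent.S3909

open Subgroup H22.Basic

/-- Let G be a finite group in which any two abelian subgroups of the same order are conjugate. Let M be a normal subgroup of G. If M contains an element of the same order as a ∈ G, then a ∈ M; and if M is elementary abelian of order p^t with p prime and t ≥ 2, then M is the unique Sylow p-subgroup of G. -/
theorem result {G : Type*} [Group G] [Finite G] (hB : ∀ A B : Subgroup G, IsMulCommutative ↥A → IsMulCommutative ↥B → Nat.card ↥A = Nat.card ↥B → ∃ g : G, B = A.map (MulAut.conj g).toMonoidHom) (M : Subgroup G) [M.Normal] :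
    (∀ a : G, (∃ m ∈ M, orderOf m = orderOf a) → a ∈ M) ∧
    ∀ (p t : ℕ) [Fact p.Prime], 2 ≤ t → Nat.card ↥M = p ^ t → Cfsg.IsElementaryAbelian p M → ∀ P : Sylow p G, (P : Subgroup G) = M := by
  have h1 : ∀ a : G, (∃ m ∈ M, orderOf m = orderOf a) → a ∈ M := by
    rintro a ⟨m, hm, hma⟩
    obtain ⟨g, hg⟩ := hB (zpowers m) (zpowers a) inferInstance inferInstance (by
      rw [Nat.card_zpowers, Nat.card_zpowers, hma])
    have h4 : cj g M = M := cj_eq_of_mem_normalizer (by rw [Subgroup.normalizer_eq_top]; trivial)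
    have h3 : a ∈ cj g (zpowers m) := by
      have : a ∈ zpowers a := mem_zpowers _
      rw [hg] at this; exact this
    rw [← h4]
    exact cj_mono (zpowers_le.mpr hm) h3
  refine ⟨h1, ?_⟩
  intro p t _ ht hcard hel P
  have hp := Fact.out (p := p.Prime)
  have hMp : IsPGroup p M := IsPGroup.of_card hcard
  have hMP : M ≤ P := by
    have h2 : (P : Subgroup G) ⊔ M = P :=
      P.is_maximal' (IsPGroup.to_sup_of_normal_right P.isPGroup' hMp) le_sup_left
    rw [← h2]; exact le_sup_right
  -- no elements of order p^2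
  obtain ⟨A₀, hA₀⟩ := Sylow.exists_subgroup_card_pow_prime (G := M) p (n := 2) (by rw [hcard]; exact pow_dvd_pow p ht)
  set A : Subgroup G := A₀.map M.subtype with hA
  have hAcard : Nat.card A = p ^ 2 := by
    rw [hA, Nat.card_congr (A₀.equivMapOfInjective _ M.subtype_injective).symm.toEquiv, hA₀]
  have hAM : A ≤ M := by rintro _ ⟨a, _, rfl⟩; exact a.2
  have hAab : IsMulCommutative A := by
    constructor; constructor
    intro a b
    have h := hel.1.is_comm.comm (⟨a, hAM a.2⟩ : M) ⟨b, hAM b.2⟩
    have h' : (a : G) * b = b * a := congrArg Subtype.val h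
    exact Subtype.ext h'
  have hno : ∀ x : G, orderOf x ≠ p ^ 2 := by
    intro x hx
    obtain ⟨g, hg⟩ := hB A (zpowers x) hAab inferInstance (by rw [hAcard, Nat.card_zpowers, hx])
    have hx1 : x ∈ cj g A := by
      have : x ∈ zpowers x := mem_zpowers _
      rw [hg] at this; exact this
    rw [mem_cj] at hx1
    have h2 := hel.2 _ (hAM hx1)
    have h3 : x ^ p = 1 := by
      have h4 : (g⁻¹ * x * g) ^ p = g⁻¹ * x ^ p * g := by
        have := conj_pow (i := p) (a := g⁻¹) (b := x)
        rwa [inv_inv] at this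
      rw [h4] at h2
      have : x ^ p = g * (g⁻¹ * x ^ p * g) * g⁻¹ := by group
      rw [this, h2]; group
    have h5 := orderOf_dvd_of_pow_eq_one h3
    rw [hx] at h5
    have := Nat.le_of_dvd hp.pos h5
    nlinarith [hp.one_lt]
  -- M contains an element of order p
  obtain ⟨m, hm⟩ := exists_prime_orderOf_dvd_card' (G := M) p (by rw [hcard]; exact dvd_pow_self p (by omega))
  apply le_antisymm _ hMP
  intro x hx
  obtain ⟨k, hk⟩ := (IsPGroup.iff_orderOf.mp P.isPGroup') ⟨x, hx⟩
  have hk' : orderOf x = p ^ k := by rw [← hk]; exact (Subgroup.orderOf_mk x hx).symm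
  match k, hk' with
  | 0, hk' =>
    rw [pow_zero, orderOf_eq_one_iff] at hk'
    rw [hk']; exact one_mem _
  | 1, hk' =>
    apply h1
    exact ⟨m, m.2, by rw [Subgroup.orderOf_coe, hm, hk', pow_one]⟩
  | k + 2, hk' =>
    exfalso
    apply hno (x ^ p ^ k)
    rw [orderOf_pow_of_dvd (pow_ne_zero _ hp.ne_zero) (by rw [hk']; exact pow_dvd_pow p (by omega)), hk',
      Nat.pow_div (by omega) hp.pos]
    congr 1; omega

end Cfsg.Agent.S3909
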