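import Cfsg.Statements.S3910
import Cfsg.Agent.H22_Basic
import Cfsg.Agent.H1_Nilp
import Cfsg.Agent.H2_PGroup

set_option autoImplicit false
open Cfsg

namespace Cfsg.Agent.S3910

open Subgroup H22.Basic

/-- subgroups of a Sylow subgroup of a nilpotent group that are normal in it are normal -/
theorem normal_map {G : Type*} [Group G] [Finite G] (hnil : Group.IsNilpotent G) {p : ℕ} [Fact p.Prime]
    (P : Sylow p G) (M : Subgroup P) (hM : M.Normal) : (M.map (P : Subgroup G).subtype).Normal := by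
  have hPn : (P : Subgroup G).Normal := inferInstance
  have hFit : Cfsg.fittingSubgroup G = ⊤ := by
    rw [eq_top_iff]
    apply le_sSup
    refine ⟨inferInstance, ?_⟩
    infer_instance
  have h1 := H1.Nilp.fitting_le_sup (G := G) p
  rw [hFit] at h1
  have hn : (Cfsg.pPrimeCore p G).Normal := H1.Nilp.pPrimeCore_normal p
  have hn' : (Cfsg.pCore p G).Normal := H1.Nilp.pCore_normal p
  have hcp : Cfsg.pCore p G ≤ P := by
    have h2 : (P : Subgroup G) ⊔ Cfsg.pCore p G = P :=
      P.is_maximal' (IsPGroup.to_sup_of_normal_right P.isPGroup' (H1.Nilp.pCore_isPGroup p)) le_sup_left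
    rw [← h2]; exact le_sup_right
  have hdisj : (P : Subgroup G) ⊓ Cfsg.pPrimeCore p G = ⊥ := by
    apply H22.Basic.inf_eq_bot_of_coprime
    obtain ⟨k, hk⟩ := P.isPGroup'.exists_card_eq
    rw [hk]
    exact Nat.Coprime.pow_left _ (H1.Nilp.pPrimeCore_coprime p).symm
  have hcomm : ∀ a ∈ (P : Subgroup G), ∀ b ∈ Cfsg.pPrimeCore p G, a * b = b * a := by
    intro a ha b hb
    exact (Subgroup.commute_of_normal_of_disjoint _ _ hPn hn (disjoint_iff.mpr hdisj) a b ha hb)
  constructor
  rintro _ ⟨m, hm, rfl⟩ g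
  have hg : g ∈ Cfsg.pCore p G ⊔ Cfsg.pPrimeCore p G := h1 trivial
  obtain ⟨u, hu, k, hk, rfl⟩ := Subgroup.mem_sup_of_normal_left.mp hg
  have huP := hcp hu
  refine ⟨⟨u, huP⟩ * m * ⟨u, huP⟩⁻¹, hM.conj_mem m hm _, ?_⟩
  show u * (m : G) * u⁻¹ = u * k * (m : G) * (u * k)⁻¹
  have := hcomm m m.2 k hk
  calc u * (m : G) * u⁻¹ = u * ((m : G) * k) * k⁻¹ * u⁻¹ := by group
    _ = u * (k * (m : G)) * k⁻¹ * u⁻¹ := by rw [this]
    _ = _ := by group

/-- A finite nilpotent group in which any two abelian subgroups of the same order are conjugate is cyclic. -/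
theorem result {G : Type*} [Group G] [Finite G] (hB : ∀ A B : Subgroup G, IsMulCommutative ↥A → IsMulCommutative ↥B → Nat.card ↥A = Nat.card ↥B → ∃ g : G, B = A.map (MulAut.conj g).toMonoidHom) (hnil : Group.IsNilpotent G) : IsCyclic G := by
  have hZ : IsZGroup G := by
    rw [isZGroup_iff]
    intro p hp P
    have := Fact.mk hp
    by_contra hnc
    have hPp : IsPGroup p (P : Subgroup G) := P.isPGroup'
    -- key: elements of order dividing orders in a normal subgroup
    have key : ∀ (x y : P) (M : Subgroup P), IsCoatom M → y ∈ M → orderOf x ∣ orderOf y → x ∈ M := by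
      intro x y M hM hy hdvd
      have hMn : M.Normal := H2.PGroup.coatom_normal hPp hM
      have hn := normal_map hnil P M hMn
      obtain ⟨d, hd⟩ := hdvd
      have hd0 : d ≠ 0 := by
        rintro rfl
        rw [mul_zero] at hd
        exact (orderOf_pos y).ne' hd
      have h1 : orderOf (y ^ d) = orderOf x := by
        rw [orderOf_pow_of_dvd hd0 (by rw [hd]; exact Dvd.intro_left _ rfl), hd, Nat.mul_div_cancel _ (Nat.pos_of_ne_zero hd0)]
      obtain ⟨g, hg⟩ := hB (zpowers ((y ^ d : P) : G)) (zpowers (x : G)) inferInstance inferInstance (by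
        rw [Nat.card_zpowers, Nat.card_zpowers, Subgroup.orderOf_coe, Subgroup.orderOf_coe, h1])
      have h2 : zpowers ((y ^ d : P) : G) ≤ M.map (P : Subgroup G).subtype := by
        rw [zpowers_le]; exact ⟨y ^ d, pow_mem hy d, rfl⟩
      have h3 : (x : G) ∈ cj g (zpowers ((y ^ d : P) : G)) := by
        have : (x : G) ∈ zpowers (x : G) := mem_zpowers _
        rw [hg] at this; exact this
      have h4 : cj g (M.map (P : Subgroup G).subtype) = M.map (P : Subgroup G).subtype :=
        cj_eq_of_mem_normalizer (by rw [Subgroup.normalizer_eq_top]; trivial)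
      have h5 : (x : G) ∈ M.map (P : Subgroup G).subtype := by
        rw [← h4]; exact cj_mono h2 h3
      obtain ⟨z, hz, hzx⟩ := h5
      have : z = x := Subtype.ext hzx
      rw [← this]; exact hz
    have hnt : Nontrivial P := by
      rw [← not_subsingleton_iff_nontrivial]
      intro h
      exact hnc inferInstance
    obtain ⟨M₁, hM₁, _⟩ := (eq_top_or_exists_le_coatom (⊥ : Subgroup P)).resolve_left bot_ne_top
    obtain ⟨x, _, hx⟩ := SetLike.exists_of_lt (lt_top_iff_ne_top.mpr hM₁.1)
    have hzx : zpowers x ≠ ⊤ := by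
      intro h
      exact hnc ⟨⟨x, fun y => by
        have : y ∈ zpowers x := by rw [h]; trivial
        exact this⟩⟩
    obtain ⟨M₂, hM₂, hxM₂⟩ := (eq_top_or_exists_le_coatom (zpowers x)).resolve_left hzx
    have hx2 : x ∈ M₂ := hxM₂ (mem_zpowers x)
    have hne : ¬ M₁ ≤ M₂ := by
      intro h
      rcases hM₁.le_iff.mp h with h1 | h1
      · exact hM₂.1 h1
      · rw [h1] at hx2; exact hx hx2
    obtain ⟨y, hy1, hy2⟩ := SetLike.not_le_iff_exists.mp hne
    obtain ⟨a, ha⟩ := (IsPGroup.iff_orderOf.mp hPp) x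
    obtain ⟨b, hb⟩ := (IsPGroup.iff_orderOf.mp hPp) y
    rcases le_total a b with hab | hab
    · exact hx (key x y M₁ hM₁ hy1 (by rw [ha, hb]; exact pow_dvd_pow p hab))
    · exact hy2 (key y x M₂ hM₂ hx2 (by rw [ha, hb]; exact pow_dvd_pow p hab))
  infer_instance

end Cfsg.Agent.S3910
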