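import Cfsg.Statements.S3911
import Cfsg.Agent.H27_Bgp

set_option autoImplicit false
open Cfsg

namespace Cfsg.Agent.S3911

open Cfsg.Agent.H27.Bgp

/-- Let G be a finite group in which any two abelian subgroups of the same order are conjugate. If M is a normal subgroup of G of odd order, then any two abelian subgroups of G/M of the same order are conjugate in G/M. -/
theorem result {G : Type*} [Group G] [Finite G] (hB : ∀ A B : Subgroup G, IsMulCommutative ↥A → IsMulCommutative ↥B → Nat.card ↥A = Nat.card ↥B → ∃ g : G, B = A.map (MulAut.conj g).toMonoidHom) (M : Subgroup G) [M.Normal] (hM : Odd (Nat.card ↥M)) :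
    ∀ A B : Subgroup (G ⧸ M), IsMulCommutative ↥A → IsMulCommutative ↥B → Nat.card ↥A = Nat.card ↥B →
      ∃ g : G ⧸ M, B = A.map (MulAut.conj g).toMonoidHom := by
  intro A B hA hBc hAB
  have hφs : Function.Surjective (QuotientGroup.mk' M) := QuotientGroup.mk'_surjective M
  have key : ∀ X : Subgroup (G ⧸ M), IsMulCommutative ↥X → ∃ X0 : Subgroup G,
      X0 ⊔ M = X.comap (QuotientGroup.mk' M) ∧ IsMulCommutative ↥X0 ∧
      ∀ p : ℕ, p.Prime → (Nat.card ↥(X0 ⊓ M)).factorization p =
        if p ∣ Nat.card X then (Nat.card M).factorization p else 0 := by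
    intro X hX
    have hMX : M ≤ X.comap (QuotientGroup.mk' M) := by
      intro m hm
      rw [Subgroup.mem_comap, QuotientGroup.mk'_apply, (QuotientGroup.eq_one_iff m).mpr hm]
      exact X.one_mem
    obtain ⟨X0, h1, h2, h3⟩ := supp hB M hM (X.comap (QuotientGroup.mk' M)) hMX (by
      intro x hx y hy
      have h4 : (QuotientGroup.mk' M) x * (QuotientGroup.mk' M) y =
          (QuotientGroup.mk' M) y * (QuotientGroup.mk' M) x := by
        have := hX.is_comm.comm ⟨_, hx⟩ ⟨_, hy⟩
        exact congrArg Subtype.val this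
      rw [← QuotientGroup.eq_one_iff]
      change (QuotientGroup.mk' M) (x * y * x⁻¹ * y⁻¹) = 1
      rw [map_mul, map_mul, map_mul, map_inv, map_inv, h4]
      group)
    refine ⟨X0, h1, h2, ?_⟩
    intro p hp
    have h5 : M.relIndex (X.comap (QuotientGroup.mk' M)) = Nat.card X := by
      have h6 : (M.subgroupOf (X.comap (QuotientGroup.mk' M))) =
          ((QuotientGroup.mk' M).subgroupComap X).ker := by
        ext z
        rw [Subgroup.mem_subgroupOf, MonoidHom.mem_ker, Subtype.ext_iff]
        exact (QuotientGroup.eq_one_iff (z : G)).symm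
      rw [Subgroup.relIndex, h6, Subgroup.index_ker]
      have h7 : Function.Surjective ((QuotientGroup.mk' M).subgroupComap X) :=
        MonoidHom.subgroupComap_surjective_of_surjective _ X hφs
      rw [MonoidHom.range_eq_top.mpr h7]
      exact Nat.card_congr Subgroup.topEquiv.toEquiv
    rw [h3 p hp, h5]
  obtain ⟨A0, hA1, hA2, hA3⟩ := key A hA
  obtain ⟨B0, hB1, hB2, hB3⟩ := key B hBc
  have hcard : ∀ X : Subgroup (G ⧸ M), ∀ X0 : Subgroup G, X0 ⊔ M = X.comap (QuotientGroup.mk' M) →
      Nat.card X0 = Nat.card ↥(X0 ⊓ M) * Nat.card X := by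
    intro X X0 h1
    have h2 : X0.map (QuotientGroup.mk' M) = X := by
      have h3 : (X0 ⊔ M).map (QuotientGroup.mk' M) = X := by
        rw [h1, Subgroup.map_comap_eq_self_of_surjective hφs]
      rw [Subgroup.map_sup] at h3
      have h4 : M.map (QuotientGroup.mk' M) = ⊥ := by
        rw [Subgroup.map_eq_bot_iff, QuotientGroup.ker_mk']
      rwa [h4, sup_bot_eq] at h3
    have h5 : (((QuotientGroup.mk' M).comp X0.subtype).ker) = M.subgroupOf X0 := by
      ext z
      rw [MonoidHom.mem_ker, Subgroup.mem_subgroupOf]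
      exact QuotientGroup.eq_one_iff (z : G)
    have h6 := Subgroup.card_mul_index (M.subgroupOf X0)
    have h7 : (M.subgroupOf X0).index = Nat.card X := by
      rw [← h5, Subgroup.index_ker]
      have h8 : ((QuotientGroup.mk' M).comp X0.subtype).range = X := by
        rw [MonoidHom.range_comp, Subgroup.range_subtype, h2]
      rw [h8]
    have h9 : Nat.card (M.subgroupOf X0) = Nat.card ↥(X0 ⊓ M) := by
      have h10 : Nat.card ((M.subgroupOf X0).map X0.subtype) = Nat.card (M.subgroupOf X0) :=
        (Nat.card_congr ((M.subgroupOf X0).equivMapOfInjective X0.subtype X0.subtype_injective).toEquiv).symm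
      rw [← h10, Subgroup.subgroupOf_map_subtype, inf_comm]
    rw [← h6, h7, h9]
  have hD : Nat.card ↥(A0 ⊓ M) = Nat.card ↥(B0 ⊓ M) := by
    apply Nat.eq_of_factorization_eq Nat.card_pos.ne' Nat.card_pos.ne'
    intro p
    by_cases hp : p.Prime
    · rw [hA3 p hp, hB3 p hp, hAB]
    · rw [Nat.factorization_eq_zero_of_not_prime _ hp, Nat.factorization_eq_zero_of_not_prime _ hp]
  obtain ⟨g, hg⟩ := hB A0 B0 hA2 hB2 (by rw [hcard A A0 hA1, hcard B B0 hB1, hD, hAB])
  refine ⟨QuotientGroup.mk' M g, ?_⟩
  have hmapA : A0.map (QuotientGroup.mk' M) = A := by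
    have h3 : (A0 ⊔ M).map (QuotientGroup.mk' M) = A := by
      rw [hA1, Subgroup.map_comap_eq_self_of_surjective hφs]
    rw [Subgroup.map_sup] at h3
    have h4 : M.map (QuotientGroup.mk' M) = ⊥ := by
      rw [Subgroup.map_eq_bot_iff, QuotientGroup.ker_mk']
    rwa [h4, sup_bot_eq] at h3
  have hmapB : B0.map (QuotientGroup.mk' M) = B := by
    have h3 : (B0 ⊔ M).map (QuotientGroup.mk' M) = B := by
      rw [hB1, Subgroup.map_comap_eq_self_of_surjective hφs]
    rw [Subgroup.map_sup] at h3
    have h4 : M.map (QuotientGroup.mk' M) = ⊥ := by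
      rw [Subgroup.map_eq_bot_iff, QuotientGroup.ker_mk']
    rwa [h4, sup_bot_eq] at h3
  rw [← hmapA, ← hmapB, hg, Subgroup.map_map, Subgroup.map_map]
  congr 1

end Cfsg.Agent.S3911
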