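import Cfsg.Statements.S3917
import Cfsg.Agent.H22_Basic

set_option autoImplicit false
open Cfsg

namespace Cfsg.Agent.S3917

open Subgroup H22.Basic

/-- a non-cyclic finite abelian group has two independent elements of prime order -/
theorem exists_pair (G : Type*) [CommGroup G] [Finite G] (h : ¬ IsCyclic G) :
    ∃ (p : ℕ) (_ : Fact p.Prime) (x y : G), orderOf x = p ∧ orderOf y = p ∧ y ∉ zpowers x := by
  classical
  obtain ⟨ι, _, n, hn, ⟨e⟩⟩ := CommGroup.equiv_prod_multiplicative_zmod_of_finite G
  by_cases hcop : Pairwise (Function.onFun Nat.Coprime n)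
  · exfalso
    apply h
    let e' := ZMod.prodEquivPi n hcop
    have : IsAddCyclic ((i : ι) → ZMod (n i)) := isAddCyclic_of_surjective e'.toAddMonoidHom e'.surjective
    let e2 : Multiplicative ((i : ι) → ZMod (n i)) ≃* ((i : ι) → Multiplicative (ZMod (n i))) :=
      { toFun := fun f i => Multiplicative.ofAdd (f.toAdd i)
        invFun := fun f => Multiplicative.ofAdd (fun i => (f i).toAdd)
        left_inv := fun _ => rfl
        right_inv := fun _ => rfl
        map_mul' := fun _ _ => rfl }
    exact isCyclic_of_surjective (e2.trans e.symm).toMonoidHom (e2.trans e.symm).surjective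
  · unfold Pairwise at hcop
    push Not at hcop
    obtain ⟨i, j, hij, hnc⟩ := hcop
    obtain ⟨p, hp, hpi, hpj⟩ := Nat.Prime.not_coprime_iff_dvd.mp hnc
    have hpF := Fact.mk hp
    have : ∀ i, NeZero (n i) := fun i => ⟨by have := hn i; omega⟩
    obtain ⟨xi, hxi⟩ := exists_prime_orderOf_dvd_card' (G := Multiplicative (ZMod (n i))) p (by
      rw [Nat.card_congr Multiplicative.toAdd, Nat.card_zmod]; exact hpi)
    obtain ⟨xj, hxj⟩ := exists_prime_orderOf_dvd_card' (G := Multiplicative (ZMod (n j))) p (by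
      rw [Nat.card_congr Multiplicative.toAdd, Nat.card_zmod]; exact hpj)
    have hord : ∀ (k : ι) (x : Multiplicative (ZMod (n k))), orderOf (e.symm (Pi.mulSingle k x)) = orderOf x := by
      intro k x
      rw [MulEquiv.orderOf_eq]
      refine orderOf_injective (MonoidHom.mulSingle (fun i => Multiplicative (ZMod (n i))) k) ?_ x
      intro a b hab
      have := congrFun hab k
      simpa using this
    refine ⟨p, hpF, e.symm (Pi.mulSingle i xi), e.symm (Pi.mulSingle j xj), by rw [hord, hxi], by rw [hord, hxj], ?_⟩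
    intro hmem
    obtain ⟨k, hk⟩ := mem_zpowers_iff.mp hmem
    have h1 : (Pi.mulSingle i xi : (i : ι) → Multiplicative (ZMod (n i))) ^ k = Pi.mulSingle j xj := by
      apply e.symm.injective
      rw [map_zpow]; exact hk
    have h2 := congrFun h1 j
    rw [Pi.pow_apply, Pi.mulSingle_eq_of_ne hij.symm, one_zpow, Pi.mulSingle_eq_same] at h2
    rw [← h2, orderOf_one] at hxj
    exact hp.one_lt.ne hxj

theorem not_cyclic_of_pair {G : Type*} [Group G] [Finite G] {p : ℕ} [hp : Fact p.Prime] (x y : G) (hx : orderOf x = p)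
    (hy : orderOf y = p) (hxy : y ∉ zpowers x) : ¬ IsCyclic G := by
  classical
  intro hc
  have := Fintype.ofFinite G
  have h1 := IsCyclic.card_pow_eq_one_le (α := G) hp.out.pos
  have h2 : insert y (Finset.univ.filter (fun a : G => a ∈ zpowers x)) ⊆ Finset.univ.filter (fun a : G => a ^ p = 1) := by
    intro a ha
    rw [Finset.mem_insert, Finset.mem_filter] at ha
    rw [Finset.mem_filter]
    refine ⟨Finset.mem_univ _, ?_⟩
    rcases ha with rfl | ⟨_, ha⟩
    · rw [← hy, pow_orderOf_eq_one]
    · obtain ⟨k, rfl⟩ := mem_zpowers_iff.mp ha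
      rw [← zpow_natCast, ← zpow_mul, mul_comm, zpow_mul, zpow_natCast, ← hx, pow_orderOf_eq_one, one_zpow]
  have h3 := Finset.card_le_card h2
  rw [Finset.card_insert_of_notMem (by simp [hxy])] at h3
  have h4 : (Finset.univ.filter (fun a : G => a ∈ zpowers x)).card = p := by
    rw [← hx, ← Nat.card_zpowers, Nat.card_eq_fintype_card, Fintype.card_subtype]
  omega

/-- Say that a group has self-centralizing non-cyclic subgroups when every non-cyclic subgroup H satisfies C_G(H) ≤ H. A finite abelian group with self-centralizing non-cyclic subgroups is cyclic or elementary abelian of order p² for a prime p. -/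
theorem result {G : Type*} [CommGroup G] [Finite G] (hX : (∀ H : Subgroup G, ¬ IsCyclic ↥H → Subgroup.centralizer (H : Set G) ≤ H)) :
    IsCyclic G ∨ ∃ p : ℕ, p.Prime ∧ Nat.card G = p ^ 2 ∧ Monoid.exponent G = p := by
  by_cases hc : IsCyclic G
  · exact Or.inl hc
  right
  obtain ⟨p, hp, x, y, hx, hy, hxy⟩ := exists_pair G hc
  refine ⟨p, hp.out, ?_⟩
  let H := zpowers x ⊔ zpowers y
  have hxH : x ∈ H := mem_sup_left (mem_zpowers x)
  have hyH : y ∈ H := mem_sup_right (mem_zpowers y)
  have hnc : ¬ IsCyclic H := by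
    apply not_cyclic_of_pair (p := p) (⟨x, hxH⟩ : H) ⟨y, hyH⟩ (by rw [Subgroup.orderOf_mk, hx]) (by rw [Subgroup.orderOf_mk, hy])
    intro h
    obtain ⟨k, hk⟩ := mem_zpowers_iff.mp h
    exact hxy (mem_zpowers_iff.mpr ⟨k, congrArg Subtype.val hk⟩)
  have hH : H = ⊤ := by
    rw [eq_top_iff]
    intro g _
    apply hX H hnc
    rw [mem_centralizer_iff]
    intro h _; exact mul_comm _ _
  have hinf : zpowers x ⊓ zpowers y = ⊥ := by
    rw [eq_bot_iff]
    intro z hz
    obtain ⟨h1, h2⟩ := mem_inf.mp hz
    rw [mem_bot]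
    by_contra hz1
    have h3 : zpowers z = zpowers y := by
      apply H22.Basic.eq_of_le_of_card_le (zpowers_le.mpr h2)
      rw [Nat.card_zpowers, Nat.card_zpowers, hy]
      have h4 : orderOf z ∣ p := by
        rw [← hy, ← Nat.card_zpowers y]
        have := orderOf_dvd_natCard (⟨z, h2⟩ : zpowers y)
        rwa [Subgroup.orderOf_mk] at this
      rcases (Nat.dvd_prime hp.out).mp h4 with h5 | h5
      · exact absurd (orderOf_eq_one_iff.mp h5) hz1
      · rw [h5]
    apply hxy
    have : y ∈ zpowers z := by rw [h3]; exact mem_zpowers y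
    exact (zpowers_le.mpr h1) this
  constructor
  · have h1 := card_sup_of_inf_eq_bot (N := zpowers x) (K := zpowers y) (by rw [Subgroup.normalizer_eq_top]; exact le_top) hinf
    rw [← Subgroup.card_top (G := G), ← hH]
    show Nat.card (zpowers x ⊔ zpowers y : Subgroup G) = _
    rw [h1, Nat.card_zpowers, Nat.card_zpowers, hx, hy, pow_two]
  · have h1 : Monoid.exponent G ∣ p := by
      rw [Monoid.exponent_dvd]
      intro g
      have hg : g ∈ zpowers x ⊔ zpowers y := by
        show g ∈ H
        rw [hH]; trivial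
      obtain ⟨a, ha, b, hb, rfl⟩ := Subgroup.mem_sup.mp hg
      obtain ⟨k, rfl⟩ := mem_zpowers_iff.mp ha
      obtain ⟨l, rfl⟩ := mem_zpowers_iff.mp hb
      apply orderOf_dvd_of_pow_eq_one
      rw [mul_pow, ← zpow_natCast, ← zpow_natCast, ← zpow_mul, ← zpow_mul, mul_comm k, mul_comm l, zpow_mul, zpow_mul,
        zpow_natCast, zpow_natCast]
      have e1 : x ^ p = 1 := by rw [← hx, pow_orderOf_eq_one]
      have e2 : y ^ p = 1 := by rw [← hy, pow_orderOf_eq_one]
      rw [e1, e2, one_zpow, one_zpow, one_mul]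
    apply Nat.dvd_antisymm h1
    rw [← hx]; exact Monoid.order_dvd_exponent x

end Cfsg.Agent.S3917
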