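import Cfsg.Statements.S3918
import Cfsg.Agent.H22_Basic
import Cfsg.Agent.H22_ClassTwo
import Cfsg.Agent.H23_PQuat
import Cfsg.Agent.H2_MaxClass
import Cfsg.Agent.H2_PGroup
import Cfsg.Agent.H1_Basic
import Cfsg.Agent.S3917

set_option autoImplicit false
open Cfsg

namespace Cfsg.Agent.S3918

open Subgroup H22.Basic

variable {G : Type*} [Group G] [Finite G] {p : ℕ} [hp : Fact p.Prime]

omit [Finite G] in
theorem comm_of_le {A : Subgroup G} (hA : IsMulCommutative A) : ∀ a ∈ A, ∀ b ∈ A, a * b = b * a := by
  intro a ha b hb
  exact congrArg Subtype.val (hA.is_comm.comm (⟨a, ha⟩ : A) ⟨b, hb⟩)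

theorem exists_V (hp2 : p ≠ 2) (hG : IsPGroup p G) (hna : ¬ IsMulCommutative G) :
    ∃ A : Subgroup G, Nat.card A = p ^ 2 ∧ IsMulCommutative A ∧ (∀ a ∈ A, a ^ p = 1) ∧ ¬ IsCyclic A := by
  by_cases hab : ∀ A : Subgroup G, IsMulCommutative A → (∀ a ∈ A, a ^ p = 1) → IsCyclic A
  · rcases H23.PQuat.cyclic_or_quaternion_of_abelian hG hab with h | ⟨h, _⟩
    · exact absurd ⟨⟨fun a b => (IsCyclic.commGroup (α := G)).mul_comm a b⟩⟩ hna
    · exact absurd h hp2
  · push Not at hab
    obtain ⟨A, hA, hAp, hAc⟩ := hab
    have hAg : IsPGroup p A := hG.to_subgroup A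
    obtain ⟨n, hn⟩ := hAg.exists_card_eq
    have hn2 : 2 ≤ n := by
      by_contra h
      apply hAc
      interval_cases n
      · rw [pow_zero] at hn
        have := (Nat.card_eq_one_iff_unique.mp hn).1
        infer_instance
      · rw [pow_one] at hn
        exact isCyclic_of_prime_card hn
    obtain ⟨A₀, hA₀⟩ := Sylow.exists_subgroup_card_pow_prime (G := A) p (n := 2) (by rw [hn]; exact pow_dvd_pow p hn2)
    set B : Subgroup G := A₀.map A.subtype with hBdef
    have hBcard : Nat.card B = p ^ 2 := by
      rw [hBdef, Nat.card_congr (A₀.equivMapOfInjective _ A.subtype_injective).symm.toEquiv, hA₀]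
    have hBA : B ≤ A := by rintro _ ⟨a, _, rfl⟩; exact a.2
    refine ⟨B, hBcard, IsPGroup.isMulCommutative_of_card_eq_prime_sq hBcard, fun a ha => hAp a (hBA ha), ?_⟩
    intro hc
    obtain ⟨⟨g, hg⟩, hgen⟩ := hc.exists_generator
    have h1 : Nat.card B = orderOf (⟨g, hg⟩ : B) := (orderOf_eq_card_of_forall_mem_zpowers hgen).symm
    have h2 : orderOf (⟨g, hg⟩ : B) ∣ p := orderOf_dvd_of_pow_eq_one (Subtype.ext (hAp g (hBA hg)))
    rw [← h1, hBcard] at h2
    have := Nat.le_of_dvd hp.out.pos h2
    nlinarith [hp.out.one_lt]

theorem card_normalizer_le (hG : IsPGroup p G) (hZ : Nat.card (center G) = p) (V : Subgroup G)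
    (hV : Nat.card V = p ^ 2) (hVc : centralizer (V : Set G) = V) :
    Nat.card (normalizer (V : Set G)) ≤ p ^ 3 := by
  have hZV : center G ≤ V := by rw [← hVc]; exact center_le_centralizer _
  obtain ⟨v, hvV, hvZ⟩ : ∃ v ∈ V, v ∉ center G := by
    by_contra hcon
    push Not at hcon
    have h1 : V ≤ center G := hcon
    have h2 := H22.Basic.card_le_of_le h1
    rw [hV, hZ] at h2
    nlinarith [hp.out.one_lt]
  have hcv : ∀ g : G, g * v = v * g → g ∈ V := by
    intro g hg
    rw [← hVc, mem_centralizer_iff]
    -- V = Z ⊔ zpowers v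
    have hVz : V = center G ⊔ zpowers v := by
      symm
      apply H22.Basic.eq_of_le_of_card_le (sup_le hZV (zpowers_le.mpr hvV))
      have h3 : center G < center G ⊔ zpowers v := by
        refine lt_of_le_of_ne le_sup_left ?_
        intro h
        apply hvZ
        rw [h]; exact mem_sup_right (mem_zpowers v)
      have h4 := card_lt_of_lt h3
      obtain ⟨k, hk⟩ := (hG.to_subgroup (center G ⊔ zpowers v)).exists_card_eq
      rw [hZ, hk] at h4
      rw [hV, hk]
      apply Nat.pow_le_pow_right hp.out.pos
      by_contra h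
      have : k ≤ 1 := by omega
      have := Nat.pow_le_pow_right hp.out.pos this
      rw [pow_one] at this
      omega
    intro h hh
    rw [hVz] at hh
    have : g ∈ centralizer ((center G ⊔ zpowers v : Subgroup G) : Set G) := by
      have h5 : center G ⊔ zpowers v ≤ centralizer ({g} : Set G) := by
        refine sup_le (center_le_centralizer _) (zpowers_le.mpr ?_)
        rw [mem_centralizer_singleton_iff]; exact hg.symm
      rw [mem_centralizer_iff]
      intro y hy
      have := h5 hy
      rw [mem_centralizer_singleton_iff] at this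
      exact this
    exact mem_centralizer_iff.mp this h hh
  let N := normalizer (V : Set G)
  have hVN : V ≤ N := le_normalizer
  let f : N ⧸ (V.subgroupOf N) → V := Quotient.lift (fun n : N => (⟨(n : G) * v * (n : G)⁻¹, (mem_normalizer_iff.mp n.2 v).mp hvV⟩ : V)) (by
    intro a b hab
    have h1 : a⁻¹ * b ∈ V.subgroupOf N := QuotientGroup.leftRel_apply.mp hab
    have h2 : (a : G)⁻¹ * b ∈ V := h1
    apply Subtype.ext
    show (a : G) * v * (a : G)⁻¹ = b * v * (b : G)⁻¹
    have h3 : (a : G)⁻¹ * b * v = v * ((a : G)⁻¹ * b) := by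
      have h4 : (a : G)⁻¹ * b ∈ centralizer (V : Set G) := by rw [hVc]; exact h2
      exact (mem_centralizer_iff.mp h4 v hvV).symm
    calc (a : G) * v * (a : G)⁻¹ = a * (v * ((a : G)⁻¹ * b)) * (b : G)⁻¹ := by group
      _ = a * ((a : G)⁻¹ * b * v) * (b : G)⁻¹ := by rw [h3]
      _ = _ := by group)
  have hf : Function.Injective f := by
    intro a b hab
    obtain ⟨a, rfl⟩ := QuotientGroup.mk_surjective a
    obtain ⟨b, rfl⟩ := QuotientGroup.mk_surjective b
    rw [QuotientGroup.eq]
    have h1 : (a : G) * v * (a : G)⁻¹ = b * v * (b : G)⁻¹ := congrArg Subtype.val hab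
    show (a : G)⁻¹ * b ∈ V
    apply hcv
    calc (a : G)⁻¹ * b * v = (a : G)⁻¹ * (b * v * (b : G)⁻¹) * b := by group
      _ = (a : G)⁻¹ * (a * v * (a : G)⁻¹) * b := by rw [h1]
      _ = _ := by group
  have hns : ¬ Function.Surjective f := by
    intro hs
    obtain ⟨a, ha⟩ := hs 1
    obtain ⟨a, rfl⟩ := QuotientGroup.mk_surjective a
    have h1 : (a : G) * v * (a : G)⁻¹ = 1 := congrArg Subtype.val ha
    have h2 : v = 1 := by
      rw [mul_inv_eq_one] at h1
      exact mul_eq_left.mp h1
    exact hvZ (h2 ▸ one_mem _)
  have hlt : Nat.card (N ⧸ (V.subgroupOf N)) < p ^ 2 := by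
    rw [← hV]
    refine lt_of_le_of_ne (Nat.card_le_card_of_injective f hf) ?_
    intro h
    apply hns
    exact ((Nat.bijective_iff_injective_and_card f).mpr ⟨hf, h⟩).2
  have hpow : ∃ k, Nat.card (N ⧸ (V.subgroupOf N)) = p ^ k := by
    obtain ⟨m, hm⟩ := (hG.to_subgroup N).exists_card_eq
    have h1 : Nat.card (N ⧸ (V.subgroupOf N)) ∣ p ^ m := by
      rw [← hm]; exact Subgroup.card_quotient_dvd_card _
    obtain ⟨k, _, hk⟩ := (Nat.dvd_prime_pow hp.out).mp h1
    exact ⟨k, hk⟩
  obtain ⟨k, hk⟩ := hpow
  rw [hk] at hlt
  have hk1 : k ≤ 1 := by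
    have := (Nat.pow_lt_pow_iff_right hp.out.one_lt).mp hlt
    omega
  have h1 := Subgroup.card_eq_card_quotient_mul_card_subgroup (V.subgroupOf N)
  rw [card_subgroupOf_eq hVN, hV, hk] at h1
  show Nat.card N ≤ _
  rw [h1]
  calc p ^ k * p ^ 2 ≤ p ^ 1 * p ^ 2 := Nat.mul_le_mul_right _ (Nat.pow_le_pow_right hp.out.pos hk1)
    _ = p ^ 3 := by ring

/-- the centre has order `p` if `V` of order `p²` is self-centralizing -/
theorem card_center (hG : IsPGroup p G) (hna : ¬ IsMulCommutative G) (V : Subgroup G)
    (hV : Nat.card V = p ^ 2) (hVc : centralizer (V : Set G) = V) : Nat.card (center G) = p := by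
  have hZV : center G ≤ V := by rw [← hVc]; exact center_le_centralizer _
  have hnt : Nontrivial G := by
    rw [← not_subsingleton_iff_nontrivial]
    intro h
    exact hna ⟨⟨fun a b => Subsingleton.elim _ _⟩⟩
  have h1 : center G ≠ V := by
    intro h
    apply hna
    have h2 : centralizer (V : Set G) = ⊤ := by
      rw [eq_top_iff]
      intro g _
      rw [mem_centralizer_iff]
      intro v hv
      rw [← h] at hv
      exact (mem_center_iff.mp hv g).symm
    rw [h2] at hVc
    rw [← hVc] at h
    exact ⟨⟨fun a b => mem_center_iff.mp (h ▸ mem_top b) a⟩⟩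
  have hZn := hG.center_nontrivial
  obtain ⟨k, hk⟩ := (hG.to_subgroup (center G)).exists_card_eq
  have h2 := card_lt_of_lt (lt_of_le_of_ne hZV h1)
  rw [hk, hV] at h2
  have h3 := (Nat.pow_lt_pow_iff_right hp.out.one_lt).mp h2
  have h4 : k ≠ 0 := by
    rintro rfl
    rw [pow_zero] at hk
    exact (Subgroup.one_lt_card_iff_ne_bot _).mpr ((Subgroup.nontrivial_iff_ne_bot _).mp hZn) |>.ne' hk
  have : k = 1 := by omega
  rw [hk, this, pow_one]

/-- Say that a group has self-centralizing non-cyclic subgroups when every non-cyclic subgroup H satisfies C_G(H) ≤ H. For an odd prime p, a finite non-abelian p-group has self-centralizing non-cyclic subgroups if and only if it has order p³. -/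
theorem result {G : Type*} [Group G] [Finite G] {p : ℕ} [Fact p.Prime] (hp : p ≠ 2) (hG : IsPGroup p G) (hna : ¬ IsMulCommutative G) :
    (∀ H : Subgroup G, ¬ IsCyclic ↥H → Subgroup.centralizer (H : Set G) ≤ H) ↔ Nat.card G = p ^ 3 := by
  have hpp := Fact.out (p := p.Prime)
  obtain ⟨n, hn⟩ := hG.exists_card_eq
  have hn3 : 3 ≤ n := by
    by_contra h
    apply hna
    have h2 : n ≤ 2 := by omega
    interval_cases n
    · rw [pow_zero] at hn
      have := (Nat.card_eq_one_iff_unique.mp hn).1
      exact ⟨⟨fun a b => Subsingleton.elim _ _⟩⟩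
    · rw [pow_one] at hn
      have := isCyclic_of_prime_card hn
      exact ⟨⟨fun a b => (IsCyclic.commGroup (α := G)).mul_comm a b⟩⟩
    · exact IsPGroup.isMulCommutative_of_card_eq_prime_sq hn
  constructor
  · intro hX
    suffices h : Nat.card G ≤ p ^ 3 by
      apply le_antisymm h
      rw [hn]; exact Nat.pow_le_pow_right hpp.pos hn3
    obtain ⟨V, hV, hVab, hVp, hVnc⟩ := exists_V hp hG hna
    have hself : ∀ W : Subgroup G, IsMulCommutative W → ¬ IsCyclic W → centralizer (W : Set G) = W := by
      intro W hW hWc
      apply le_antisymm (hX W hWc)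
      intro w hw
      rw [mem_centralizer_iff]
      intro h hh
      exact comm_of_le hW h hh w hw
    have hVc := hself V hVab hVnc
    have hZ := card_center hG hna V hV hVc
    have hZV : center G ≤ V := by rw [← hVc]; exact center_le_centralizer _
    -- a normal subgroup of order p^2
    have hQ : IsPGroup p (G ⧸ center G) := hG.to_quotient _
    have hQnt : Nontrivial (G ⧸ center G) := by
      rw [← Finite.one_lt_card_iff_nontrivial]
      have h1 := Subgroup.card_eq_card_quotient_mul_card_subgroup (center G)
      rw [hZ, hn] at h1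
      by_contra h2
      have h3 : Nat.card (G ⧸ center G) = 1 := le_antisymm (not_lt.mp h2) Nat.card_pos
      rw [h3, one_mul] at h1
      have h4 : p ^ 3 ≤ p ^ n := Nat.pow_le_pow_right hpp.pos hn3
      rw [h1] at h4
      have h5 : p ^ 3 ≤ p ^ 1 := by rw [pow_one]; exact h4
      have h6 := (Nat.pow_le_pow_iff_right hpp.one_lt).mp h5
      omega
    have hQZ := hQ.center_nontrivial
    obtain ⟨k, hk⟩ := (hQ.to_subgroup (center (G ⧸ center G))).exists_card_eq
    have hk0 : k ≠ 0 := by
      rintro rfl
      rw [pow_zero] at hk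
      exact (Subgroup.one_lt_card_iff_ne_bot _).mpr ((Subgroup.nontrivial_iff_ne_bot _).mp hQZ) |>.ne' hk
    obtain ⟨⟨c, hcZ⟩, hc⟩ := exists_prime_orderOf_dvd_card' (G := center (G ⧸ center G)) p (by rw [hk]; exact dvd_pow_self p hk0)
    rw [Subgroup.orderOf_mk] at hc
    have hKn : (zpowers c).Normal := by
      constructor
      intro m hm g
      have h1 : m ∈ center (G ⧸ center G) := (zpowers_le.mpr hcZ) hm
      have := mem_center_iff.mp h1 g
      rw [this]; simpa using hm
    let N := (zpowers c).comap (QuotientGroup.mk' (center G))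
    have hNn : N.Normal := hKn.comap _
    have hZN : center G ≤ N := by
      intro z hz
      show QuotientGroup.mk' (center G) z ∈ zpowers c
      rw [show QuotientGroup.mk' (center G) z = 1 from (QuotientGroup.eq_one_iff z).mpr hz]
      exact one_mem _
    have hNcard : Nat.card N = p ^ 2 := by
      have h1 : (QuotientGroup.mk' (center G)).ker ≤ N := by rw [QuotientGroup.ker_mk']; exact hZN
      have h2 : N.index = (zpowers c).index := Subgroup.index_comap_of_surjective _ (QuotientGroup.mk'_surjective _)
      have h3 := N.card_mul_index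
      have h4 := (zpowers c).card_mul_index
      have h5 := Subgroup.card_eq_card_quotient_mul_card_subgroup (center G)
      rw [Nat.card_zpowers, hc] at h4
      rw [hZ, ← h4, ← h3, h2] at h5
      have hpos : 0 < (zpowers c).index := Nat.pos_of_ne_zero (Subgroup.index_ne_zero_of_finite)
      have h6 : Nat.card N * (zpowers c).index = p ^ 2 * (zpowers c).index := by rw [h5]; ring
      exact Nat.eq_of_mul_eq_mul_right hpos h6
    have hNcomm : ∀ x ∈ N, ∀ g : G, x * g * x⁻¹ * g⁻¹ ∈ center G := by
      intro x hx g
      rw [← QuotientGroup.eq_one_iff]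
      show QuotientGroup.mk' (center G) (x * g * x⁻¹ * g⁻¹) = 1
      have h1 : QuotientGroup.mk' (center G) x ∈ center (G ⧸ center G) := (zpowers_le.mpr hcZ) hx
      have h2 := mem_center_iff.mp h1 (QuotientGroup.mk' (center G) g)
      rw [map_mul, map_mul, map_mul, ← h2, map_inv, map_inv]; group
    by_cases hNc : IsCyclic N
    · -- H = N V
      have hVN : V ≤ normalizer (N : Set G) := by rw [Subgroup.normalizer_eq_top N]; exact le_top
      let H := N ⊔ V
      have hinf : N ⊓ V = center G := by
        symm
        apply H22.Basic.eq_of_le_of_card_le (le_inf hZN hZV)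
        have h1 : N ⊓ V < V := by
          refine lt_of_le_of_ne inf_le_right ?_
          intro h
          have h2 : V ≤ N := by rw [← h]; exact inf_le_left
          have h3 : V = N := H22.Basic.eq_of_le_of_card_le h2 (by rw [hNcard, hV])
          rw [h3] at hVnc
          exact hVnc hNc
        have h2 := card_lt_of_lt h1
        obtain ⟨j, hj⟩ := (hG.to_subgroup (N ⊓ V)).exists_card_eq
        rw [hj, hV] at h2
        have h3 := (Nat.pow_lt_pow_iff_right hpp.one_lt).mp h2
        rw [hj, hZ]
        calc p ^ j ≤ p ^ 1 := Nat.pow_le_pow_right hpp.pos (by omega)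
          _ = p := pow_one p
      have hHcard : Nat.card H = p ^ 3 := by
        have h1 := H1.Basic.card_sup_mul_card_inf (H := V) (K := N) hVN
        rw [inf_comm, hinf, hZ, hV, hNcard, sup_comm] at h1
        have h2 : Nat.card H * p = p ^ 3 * p := by
          show Nat.card (N ⊔ V : Subgroup G) * p = _
          rw [h1]; ring
        exact Nat.eq_of_mul_eq_mul_right hpp.pos h2
      -- V = elements of order dividing p in H
      have hVH : ∀ h ∈ H, h ^ p = 1 → h ∈ V := by
        intro h hh hhp
        obtain ⟨x, hx, v, hv, rfl⟩ := (H22.Basic.mem_sup_of_le_normalizer hVN).mp hh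
        have h1 := hNcomm x hx v
        obtain ⟨z, hz⟩ : ∃ z, z = (x * v * x⁻¹ * v⁻¹)⁻¹ := ⟨_, rfl⟩
        have hzZ : z ∈ center G := by rw [hz]; exact inv_mem h1
        have hzc := mem_center_iff.mp hzZ
        have h2 : v * x = x * v * z := by
          have : x * v * z = z * (x * v) := (hzc (x * v))
          rw [this, hz]; group
        have hzp : z ^ p = 1 := by
          have := orderOf_dvd_natCard (⟨z, hzZ⟩ : center G)
          rw [hZ, Subgroup.orderOf_mk] at this
          exact orderOf_dvd_iff_pow_eq_one.mp this
        have h3 := H22.ClassTwo.mul_pow_prime hpp hp h2 (hzc x).symm (hzc v).symm hzp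
        rw [hhp, hVp v hv, mul_one] at h3
        have hxZ : x ∈ center G := by
          by_contra hcon
          -- N noncyclic
          obtain ⟨⟨w, hwZ⟩, hw⟩ := exists_prime_orderOf_dvd_card' (G := center G) p (by rw [hZ])
          rw [Subgroup.orderOf_mk] at hw
          have hwz : zpowers w = center G := by
            apply H22.Basic.eq_of_le_of_card_le (zpowers_le.mpr hwZ)
            rw [Nat.card_zpowers, hw, hZ]
          have hxo : orderOf x = p := orderOf_eq_prime h3.symm (fun h => hcon (h ▸ one_mem _))
          have hxw : (⟨x, hx⟩ : N) ∈ zpowers (⟨w, hZN hwZ⟩ : N) := by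
            by_contra h5
            exact S3917.not_cyclic_of_pair (p := p) ⟨w, hZN hwZ⟩ ⟨x, hx⟩ (by rw [Subgroup.orderOf_mk]; exact hw) (by rw [Subgroup.orderOf_mk]; exact hxo) h5 hNc
          obtain ⟨j, hj⟩ := mem_zpowers_iff.mp hxw
          have hj' : w ^ j = x := congrArg Subtype.val hj
          apply hcon
          rw [← hj']
          exact zpow_mem hwZ j
        exact mul_mem (hZV hxZ) hv
      have hnorm : normalizer (H : Set G) ≤ normalizer (V : Set G) := by
        intro g hg
        apply mem_normalizer_of_cj_le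
        rintro _ ⟨v, hv, rfl⟩
        apply hVH
        · exact (mem_normalizer_iff.mp hg v).mp (mem_sup_right hv)
        · show (g * v * g⁻¹) ^ p = 1
          rw [conj_pow, hVp v hv]; group
      have hNH : normalizer (H : Set G) = H := by
        symm
        apply H22.Basic.eq_of_le_of_card_le le_normalizer
        rw [hHcard]
        exact (H22.Basic.card_le_of_le hnorm).trans (card_normalizer_le hG hZ V hV hVc)
      have hHtop : H = ⊤ := by
        by_contra hne
        have hnil := hG.isNilpotent
        have hnc := ((Group.isNilpotent_of_finite_tfae (G := G)).out 0 1 rfl rfl).mp hnil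
        have := hnc H (lt_top_iff_ne_top.mpr hne)
        rw [hNH] at this
        exact lt_irrefl _ this
      rw [← Subgroup.card_top (G := G), ← hHtop, hHcard]
    · have hNab : IsMulCommutative N := IsPGroup.isMulCommutative_of_card_eq_prime_sq hNcard
      have h1 := card_normalizer_le hG hZ N hNcard (hself N hNab hNc)
      rw [Subgroup.normalizer_eq_top N, Subgroup.card_top] at h1
      exact h1
  · intro hcard H hH
    obtain ⟨k, hk⟩ := (hG.to_subgroup H).exists_card_eq
    have hk3 : k ≤ 3 := by
      have := Subgroup.card_subgroup_dvd_card H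
      rw [hk, hcard] at this
      exact (Nat.pow_dvd_pow_iff_le_right hpp.one_lt).mp this
    interval_cases k
    · exfalso
      apply hH
      rw [pow_zero] at hk
      have := (Nat.card_eq_one_iff_unique.mp hk).1
      infer_instance
    · exfalso
      apply hH
      rw [pow_one] at hk
      exact isCyclic_of_prime_card hk
    · have hab : IsMulCommutative H := IsPGroup.isMulCommutative_of_card_eq_prime_sq hk
      have hle : H ≤ centralizer (H : Set G) := by
        intro w hw
        rw [mem_centralizer_iff]
        intro h hh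
        exact comm_of_le hab h hh w hw
      obtain ⟨j, hj⟩ := (hG.to_subgroup (centralizer (H : Set G))).exists_card_eq
      have hj3 : j ≤ 3 := by
        have := Subgroup.card_subgroup_dvd_card (centralizer (H : Set G))
        rw [hj, hcard] at this
        exact (Nat.pow_dvd_pow_iff_le_right hpp.one_lt).mp this
      have hj' : j ≠ 3 := by
        rintro rfl
        have h1 : centralizer (H : Set G) = ⊤ := Subgroup.eq_top_of_card_eq _ (by rw [hj, hcard])
        have h2 : H ≤ center G := by
          intro h hh
          rw [mem_center_iff]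
          intro g
          have : g ∈ centralizer (H : Set G) := by rw [h1]; trivial
          exact (mem_centralizer_iff.mp this h hh).symm
        apply hna
        have h3 : (center G).index ∣ p := by
          have h4 : H.index = p := by
            have := H.card_mul_index
            rw [hk, hcard] at this
            have h5 : p ^ 2 * H.index = p ^ 2 * p := by rw [this]; ring
            exact Nat.eq_of_mul_eq_mul_left (pow_pos hpp.pos _) h5
          rw [← h4]; exact Subgroup.index_dvd_of_le h2
        have h5 : IsCyclic (G ⧸ center G) := by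
          rcases (Nat.dvd_prime hpp).mp h3 with h | h
          · have : Subsingleton (G ⧸ center G) := (Nat.card_eq_one_iff_unique.mp h).1
            infer_instance
          · exact isCyclic_of_prime_card (p := p) h
        exact (QuotientGroup.mk' (center G)).isMulCommutative_of_isCyclic_of_ker_le_center (by simp)
      have := H22.Basic.eq_of_le_of_card_le hle (by
        rw [hj, hk]; exact Nat.pow_le_pow_right hpp.pos (by omega))
      rw [← this]
    · have : H = ⊤ := Subgroup.eq_top_of_card_eq _ (by rw [hk, hcard])
      rw [this]; exact le_top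

end Cfsg.Agent.S3918
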