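import Cfsg.Statements.S3919
import Cfsg.Agent.H22_Basic
import Cfsg.Agent.H23_PQuat
import Cfsg.Agent.S3917
import Cfsg.Agent.S0112
import Cfsg.Agent.S0113

set_option autoImplicit false
open Cfsg

namespace Cfsg.Agent.S3919

open Subgroup H22.Basic

theorem exists_four {G : Type*} [Group G] [Finite G] (hG : IsPGroup 2 G) (hna : ¬ IsMulCommutative G)
    (hX : ∀ H : Subgroup G, ¬ IsCyclic ↥H → Subgroup.centralizer (H : Set G) ≤ H) :
    ∃ A : Subgroup G, Nat.card A = 2 ^ 2 ∧ centralizer (A : Set G) = A := by
  have := Fact.mk Nat.prime_two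
  by_cases hab : ∀ A : Subgroup G, IsMulCommutative A → (∀ a ∈ A, a ^ 2 = 1) → IsCyclic A
  · rcases H23.PQuat.cyclic_or_quaternion_of_abelian hG hab with h | ⟨_, k, ⟨e⟩⟩
    · exact absurd ⟨⟨fun a b => (IsCyclic.commGroup (α := G)).mul_comm a b⟩⟩ hna
    · have hk : k ≠ 0 := by
        rintro rfl
        apply hna
        have h1 : IsCyclic (QuaternionGroup (2 ^ 0)) := QuaternionGroup.quaternionGroup_one_isCyclic
        have h2 : IsCyclic G := isCyclic_of_surjective e.symm.toMonoidHom e.symm.surjective
        exact ⟨⟨fun a b => (IsCyclic.commGroup (α := G)).mul_comm a b⟩⟩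
      set N := 2 ^ k with hN
      have hN0 : NeZero N := ⟨by positivity⟩
      let y : G := e.symm (QuaternionGroup.xa 0)
      have hy : orderOf y = 4 := by
        rw [MulEquiv.orderOf_eq, QuaternionGroup.orderOf_xa]
      refine ⟨zpowers y, by rw [Nat.card_zpowers, hy]; norm_num, ?_⟩
      have htwo : ∀ i : ZMod (2 * N), i = -i → i = 0 ∨ i = (N : ZMod (2 * N)) := by
        intro i hi
        have h1 : ((2 * i.val : ℕ) : ZMod (2 * N)) = 0 := by
          push_cast
          rw [ZMod.natCast_zmod_val]
          have : (2 : ZMod (2 * N)) * i = i + i := by ring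
          rw [this]
          nth_rewrite 1 [hi]
          ring
        rw [ZMod.natCast_eq_zero_iff] at h1
        have h2 : N ∣ i.val := Nat.dvd_of_mul_dvd_mul_left (by norm_num) h1
        obtain ⟨c, hc⟩ := h2
        have h3 : i.val < 2 * N := ZMod.val_lt i
        have h4 : c < 2 := by
          by_contra h
          have : 2 * N ≤ N * c := by nlinarith [Nat.not_lt.mp h, Nat.pos_of_ne_zero hN0.out]
          omega
        have h5 : i = ((i.val : ℕ) : ZMod (2 * N)) := (ZMod.natCast_zmod_val i).symm
        interval_cases c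
        · left; rw [h5, hc]; simp
        · right; rw [h5, hc]; simp
      apply le_antisymm
      · intro g hg
        have h1 : y * g = g * y := mem_centralizer_iff.mp hg y (mem_zpowers y)
        have h2 : QuaternionGroup.xa 0 * e g = e g * QuaternionGroup.xa 0 := by
          have := congrArg e h1
          rw [map_mul, map_mul, e.apply_symm_apply] at this
          exact this
        have hy2 : e (y ^ 2) = QuaternionGroup.a (N : ZMod (2 * N)) := by
          rw [map_pow, e.apply_symm_apply, QuaternionGroup.xa_sq]
        rcases hge : e g with i | i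
        · rw [hge, QuaternionGroup.xa_mul_a, QuaternionGroup.a_mul_xa, QuaternionGroup.xa.injEq] at h2
          rw [zero_add, zero_sub] at h2
          rcases htwo i h2 with rfl | rfl
          · have : g = 1 := by
              apply e.injective; rw [hge, map_one]; rfl
            rw [this]; exact one_mem _
          · have : g = y ^ 2 := by
              apply e.injective; rw [hge, hy2]
            rw [this]; exact pow_mem (mem_zpowers y) _
        · rw [hge, QuaternionGroup.xa_mul_xa, QuaternionGroup.xa_mul_xa, QuaternionGroup.a.injEq] at h2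
          have h3 : i = -i := by
            have : (N : ZMod (2 * N)) + i - 0 - N = N + 0 - i - N := by rw [h2]
            ring_nf at this
            exact this
          rcases htwo i h3 with rfl | rfl
          · have : g = y := by
              apply e.injective; rw [hge, e.apply_symm_apply]
            rw [this]; exact mem_zpowers y
          · have : g = y * y ^ 2 := by
              apply e.injective; rw [hge, map_mul, hy2, e.apply_symm_apply, QuaternionGroup.xa_mul_a, zero_add]
            rw [this]; exact mul_mem (mem_zpowers y) (pow_mem (mem_zpowers y) _)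
      · rw [zpowers_le, mem_centralizer_iff]
        intro z hz
        obtain ⟨m, rfl⟩ := mem_zpowers_iff.mp hz
        exact ((Commute.refl y).zpow_left m).eq
  · push Not at hab
    obtain ⟨A, hA, hAp, hAc⟩ := hab
    have hAg : IsPGroup 2 A := hG.to_subgroup A
    obtain ⟨n, hn⟩ := hAg.exists_card_eq
    have hn2 : 2 ≤ n := by
      by_contra h
      apply hAc
      interval_cases n
      · rw [pow_zero] at hn
        have := (Nat.card_eq_one_iff_unique.mp hn).1
        infer_instance
      · rw [pow_one] at hn
        exact isCyclic_of_prime_card hn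
    obtain ⟨A₀, hA₀⟩ := Sylow.exists_subgroup_card_pow_prime (G := A) 2 (n := 2) (by rw [hn]; exact pow_dvd_pow 2 hn2)
    set B : Subgroup G := A₀.map A.subtype with hBdef
    have hBcard : Nat.card B = 2 ^ 2 := by
      rw [hBdef, Nat.card_congr (A₀.equivMapOfInjective _ A.subtype_injective).symm.toEquiv, hA₀]
    have hBA : B ≤ A := by rintro _ ⟨a, _, rfl⟩; exact a.2
    have hBc : ∀ a ∈ B, ∀ b ∈ B, a * b = b * a := by
      intro a ha b hb
      exact congrArg Subtype.val (hA.is_comm.comm (⟨a, hBA ha⟩ : A) ⟨b, hBA hb⟩)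
    refine ⟨B, hBcard, le_antisymm (hX B ?_) ?_⟩
    · intro hc
      obtain ⟨⟨g, hg⟩, hgen⟩ := hc.exists_generator
      have h1 : Nat.card B = orderOf (⟨g, hg⟩ : B) := (orderOf_eq_card_of_forall_mem_zpowers hgen).symm
      have h2 : orderOf (⟨g, hg⟩ : B) ∣ 2 := orderOf_dvd_of_pow_eq_one (Subtype.ext (hAp g (hBA hg)))
      rw [← h1, hBcard] at h2
      norm_num at h2
    · intro b hb
      rw [mem_centralizer_iff]
      intro a ha
      exact hBc a ha b hb

/-- Say that a group has self-centralizing non-cyclic subgroups when every non-cyclic subgroup H satisfies C_G(H) ≤ H. A finite non-abelian 2-group G of order 2^n has self-centralizing non-cyclic subgroups if and only if G has nilpotency class n − 1 (that is, G is dihedral, semidihedral or generalized quaternion). -/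
theorem result {G : Type*} [Group G] [Finite G] (hna : ¬ IsMulCommutative G) (n : ℕ) (hG : Nat.card G = 2 ^ n) :
    (∀ H : Subgroup G, ¬ IsCyclic ↥H → Subgroup.centralizer (H : Set G) ≤ H) ↔ (⊤ : Subgroup G).lowerCentralSeries (n - 2) ≠ ⊥ := by
  have hfact := Fact.mk Nat.prime_two
  have hpg : IsPGroup 2 G := IsPGroup.of_card hG
  have hnil : Group.IsNilpotent G := hpg.isNilpotent
  have hn3 : 3 ≤ n := by
    by_contra h
    apply hna
    have h2 : n ≤ 2 := by omega
    interval_cases n
    · rw [pow_zero] at hG
      have := (Nat.card_eq_one_iff_unique.mp hG).1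
      exact ⟨⟨fun a b => Subsingleton.elim _ _⟩⟩
    · rw [pow_one] at hG
      have := isCyclic_of_prime_card hG
      exact ⟨⟨fun a b => (IsCyclic.commGroup (α := G)).mul_comm a b⟩⟩
    · exact ⟨⟨fun a b => (IsPGroup.commutative_of_card_eq_prime_sq hG a b)⟩⟩
  have hiff : (⊤ : Subgroup G).lowerCentralSeries (n - 2) ≠ ⊥ ↔ Group.nilpotencyClass G = n - 1 := by
    have h1 := H2.MaxClass.class_le (p := 2) n G hG (by omega)
    rw [Ne, Subgroup.lowerCentralSeries_eq_bot_iff_nilpotencyClass_le]
    omega
  rw [hiff]
  constructor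
  · intro hX
    obtain ⟨A, hA, hAc⟩ := exists_four hpg hna hX
    exact S0112.result n hG A hA hAc
  · intro hcl H hH
    obtain ⟨C, hCcyc, hCi⟩ := S0113.result n hn3 hG hcl
    have hCc : ∀ a ∈ C, ∀ b ∈ C, a * b = b * a := by
      intro a ha b hb
      exact congrArg Subtype.val ((IsCyclic.commGroup (α := C)).mul_comm (⟨a, ha⟩ : C) ⟨b, hb⟩)
    have hZ := (H2.MaxClass.center_of_max (p := 2) hG hn3 hcl).1
    have hZC : center G ≤ C := by
      apply H2.MaxClass.center_le (p := 2) hCc hCi
      intro h
      exact hna ⟨⟨h⟩⟩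
    obtain ⟨y, hyH, hyC⟩ : ∃ y ∈ H, y ∉ C := by
      by_contra hcon
      push Not at hcon
      apply hH
      have h1 : H ≤ C := hcon
      exact isCyclic_of_injective (Subgroup.inclusion h1) (Subgroup.inclusion_injective h1)
    have hyinv : y⁻¹ ∉ C := fun h => hyC (by rw [← inv_inv y]; exact inv_mem h)
    have hne : H ⊓ C ≠ ⊥ := by
      intro h0
      apply hH
      have h1 : H = zpowers y := by
        apply le_antisymm
        · intro h hh
          by_cases hhC : h ∈ C
          · have : h ∈ H ⊓ C := mem_inf.mpr ⟨hh, hhC⟩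
            rw [h0, mem_bot] at this
            rw [this]; exact one_mem _
          · have : h * y⁻¹ ∈ H ⊓ C := mem_inf.mpr ⟨mul_mem hh (inv_mem hyH), H2.MaxClass.mul_mem_of_not_mem hCi hhC hyinv⟩
            rw [h0, mem_bot, mul_inv_eq_one] at this
            rw [this]; exact mem_zpowers y
        · exact zpowers_le.mpr hyH
      rw [h1]; infer_instance
    -- the centre lies in H
    have hZH : center G ≤ H := by
      have hcard : 2 ∣ Nat.card (H ⊓ C : Subgroup G) := by
        obtain ⟨k, hk⟩ := (hpg.to_subgroup (H ⊓ C)).exists_card_eq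
        rcases Nat.eq_zero_or_pos k with rfl | hkpos
        · rw [pow_zero] at hk
          exact absurd (Subgroup.card_eq_one.mp hk) hne
        · rw [hk]; exact dvd_pow_self 2 hkpos.ne'
      obtain ⟨⟨t, ht⟩, ht2⟩ := exists_prime_orderOf_dvd_card' (G := (H ⊓ C : Subgroup G)) 2 hcard
      rw [Subgroup.orderOf_mk] at ht2
      obtain ⟨htH, htC⟩ := mem_inf.mp ht
      obtain ⟨⟨z, hz⟩, hz2⟩ := exists_prime_orderOf_dvd_card' (G := center G) 2 (by rw [hZ])
      rw [Subgroup.orderOf_mk] at hz2
      have hZz : zpowers z = center G := by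
        apply H22.Basic.eq_of_le_of_card_le (zpowers_le.mpr hz)
        rw [Nat.card_zpowers, hz2, hZ]
      have htz : t ∈ zpowers z := by
        by_contra hcon
        apply S3917.not_cyclic_of_pair (p := 2) (⟨z, hZC hz⟩ : C) ⟨t, htC⟩ (by rw [Subgroup.orderOf_mk, hz2])
          (by rw [Subgroup.orderOf_mk, ht2]) _ hCcyc
        intro h
        obtain ⟨k, hk⟩ := mem_zpowers_iff.mp h
        exact hcon (mem_zpowers_iff.mpr ⟨k, congrArg Subtype.val hk⟩)
      have : zpowers t = center G := by
        rw [hZz] at htz
        apply H22.Basic.eq_of_le_of_card_le (zpowers_le.mpr htz)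
        rw [Nat.card_zpowers, ht2, hZ]
      rw [← this]; exact zpowers_le.mpr htH
    intro x hx
    have hxH : ∀ h ∈ H, h * x = x * h := fun h hh => mem_centralizer_iff.mp hx h hh
    by_cases hxC : x ∈ C
    · exact hZH (H2.MaxClass.central_of hCc hCi hyC hxC (hxH y hyH))
    · have h1 : x * y⁻¹ ∈ C := H2.MaxClass.mul_mem_of_not_mem hCi hxC hyinv
      have h2 : x * y⁻¹ ∈ center G := by
        apply H2.MaxClass.central_of hCc hCi hyC h1
        have := hxH y hyH
        calc y * (x * y⁻¹) = (y * x) * y⁻¹ := by group
          _ = (x * y) * y⁻¹ := by rw [this]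
          _ = x * y⁻¹ * y := by group
      have h3 : x = (x * y⁻¹) * y := by group
      rw [h3]; exact mul_mem (hZH h2) hyH

end Cfsg.Agent.S3919
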