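import Cfsg.Statements.S3920
import Cfsg.Agent.H2_Card


set_option autoImplicit false
open Cfsg

namespace Cfsg.Agent.S3920

open Subgroup DihedralGroup

theorem rot_mem {n : ℕ} (hn : 3 ≤ n) (h : Odd n ∨ ∃ k : ℕ, n = 2 ^ k) {H : Subgroup (DihedralGroup n)}
    {i : ZMod n} (hi : i ≠ 0) (hiH : r i ∈ H) (c : ZMod n) (hc : c + c = 0) : r c ∈ H := by
  haveI : NeZero n := ⟨by omega⟩
  have hc' : n ∣ 2 * c.val := by
    rw [← ZMod.natCast_eq_zero_iff]
    push_cast
    rw [ZMod.natCast_zmod_val, two_mul, hc]
  have hcv := ZMod.val_lt c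
  rcases h with h | ⟨k, rfl⟩
  · have h1 : n ∣ c.val := (Nat.Coprime.dvd_of_dvd_mul_left ((Nat.coprime_two_right).2 h) hc')
    have h2 : c.val = 0 := Nat.eq_zero_of_dvd_of_lt h1 hcv
    have h3 : c = 0 := (ZMod.val_eq_zero c).1 h2
    rw [h3, r_zero]; exact one_mem _
  · by_cases hc0 : c = 0
    · rw [hc0, r_zero]; exact one_mem _
    · have hcv0 : c.val ≠ 0 := fun h => hc0 ((ZMod.val_eq_zero c).1 h)
      obtain ⟨k, rfl⟩ : ∃ m, k = m + 1 := ⟨k - 1, by
        rcases Nat.eq_zero_or_pos k with h | h
        · rw [h] at hn; norm_num at hn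
        · omega⟩
      have hcv' : c.val = 2 ^ k := by
        have hgen : ∀ v : ℕ, 2 ^ (k + 1) ∣ 2 * v → v < 2 ^ (k + 1) → v ≠ 0 → v = 2 ^ k := by
          intro v hc' hcv hv0
          rw [pow_succ, mul_comm (2 ^ k)] at hc' hcv
          obtain ⟨q, hq⟩ := Nat.dvd_of_mul_dvd_mul_left (by norm_num) hc'
          have h1 : q < 2 := by
            by_contra h2
            have : 2 ^ k * 2 ≤ 2 ^ k * q := Nat.mul_le_mul_left _ (by omega)
            omega
          have h2 : q ≠ 0 := by
            rintro rfl
            exact hv0 (by rw [hq, mul_zero])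
          have : q = 1 := by omega
          rw [hq, this, mul_one]
        exact hgen _ hc' hcv hcv0
      have hiv0 : i.val ≠ 0 := fun h => hi ((ZMod.val_eq_zero i).1 h)
      obtain ⟨e, o, ho, heo⟩ := Nat.exists_eq_two_pow_mul_odd hiv0
      have hek : e ≤ k := by
        by_contra hlt
        have h1 : 2 ^ (k + 1) ∣ i.val := by
          rw [heo]; exact Dvd.dvd.mul_right (pow_dvd_pow 2 (by omega)) o
        exact hiv0 (Nat.eq_zero_of_dvd_of_lt h1 (ZMod.val_lt i))
      obtain ⟨q, hq⟩ := ho
      have h1 : (r i : DihedralGroup (2 ^ (k + 1))) ^ (2 ^ (k - e)) = r c := by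
        rw [r_pow]
        congr 1
        rw [← ZMod.natCast_zmod_val i, ← ZMod.natCast_zmod_val c, hcv', heo, hq, ← Nat.cast_mul]
        have h2 : 2 ^ e * (2 * q + 1) * 2 ^ (k - e) = 2 ^ (k + 1) * q + 2 ^ k := by
          have h3 : 2 ^ e * 2 ^ (k - e) = 2 ^ k := by rw [← pow_add]; congr 1; omega
          calc 2 ^ e * (2 * q + 1) * 2 ^ (k - e) = (2 ^ e * 2 ^ (k - e)) * (2 * q + 1) := by ring
            _ = 2 ^ (k + 1) * q + 2 ^ k := by rw [h3]; ring
        rw [h2, Nat.cast_add, Nat.cast_mul, ZMod.natCast_self, zero_mul, zero_add]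
      rw [← h1]
      exact pow_mem hiH _

/-- Say that a group has self-centralizing non-cyclic subgroups when every non-cyclic subgroup H satisfies C_G(H) ≤ H. For n ≥ 3, the dihedral group of order 2n has self-centralizing non-cyclic subgroups if and only if n is odd or a power of 2. -/
theorem result (n : ℕ) (hn : 3 ≤ n) : (∀ H : Subgroup (DihedralGroup n), ¬ IsCyclic ↥H → Subgroup.centralizer (H : Set (DihedralGroup n)) ≤ H) ↔ (Odd n ∨ ∃ k : ℕ, n = 2 ^ k) := by

  haveI : NeZero n := ⟨by omega⟩
  constructor
  · intro hall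
    by_contra hcon
    push Not at hcon
    obtain ⟨hodd, hpow⟩ := hcon
    obtain ⟨e, o, ho, heo⟩ := Nat.exists_eq_two_pow_mul_odd (by omega : n ≠ 0)
    have he1 : 1 ≤ e := by
      by_contra h
      have h0 : e = 0 := by omega
      rw [h0, pow_zero, one_mul] at heo
      exact hodd (heo ▸ ho)
    have ho1 : o ≠ 1 := by
      rintro rfl
      exact hpow e (by rw [heo, mul_one])
    have hdvd : 2 ^ e ∣ n := ⟨o, heo⟩
    haveI : NeZero (2 ^ e) := ⟨pow_ne_zero e (by norm_num)⟩
    let φ : ZMod n →+* ZMod (2 ^ e) := ZMod.castHom hdvd _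
    let H : Subgroup (DihedralGroup n) :=
      { carrier := {x | match x with | r i => φ i = 0 | sr i => φ i = 0}
        mul_mem' := by
          rintro (a | a) (b | b) ha hb
          · have ha' : φ a = 0 := ha
            have hb' : φ b = 0 := hb
            change φ (a + b) = 0
            rw [map_add, ha', hb', add_zero]
          · have ha' : φ a = 0 := ha
            have hb' : φ b = 0 := hb
            change φ (b - a) = 0
            rw [map_sub, ha', hb', sub_zero]
          · have ha' : φ a = 0 := ha
            have hb' : φ b = 0 := hb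
            change φ (a + b) = 0
            rw [map_add, ha', hb', add_zero]
          · have ha' : φ a = 0 := ha
            have hb' : φ b = 0 := hb
            change φ (b - a) = 0
            rw [map_sub, ha', hb', sub_zero]
        one_mem' := by
          change φ 0 = 0
          exact map_zero φ
        inv_mem' := by
          rintro (a | a) ha
          · have ha' : φ a = 0 := ha
            change φ (-a) = 0
            rw [map_neg, ha', neg_zero]
          · exact ha }
    have hHr : ∀ i : ZMod n, (r i : DihedralGroup n) ∈ H ↔ φ i = 0 := fun i => Iff.rfl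
    have hHs : ∀ i : ZMod n, (sr i : DihedralGroup n) ∈ H ↔ φ i = 0 := fun i => Iff.rfl
    have hnc : ¬ IsCyclic H := by
      intro hc
      letI := hc.commGroup
      have h1 : (r ((2 ^ e : ℕ) : ZMod n) : DihedralGroup n) ∈ H := by
        rw [hHr, map_natCast, ZMod.natCast_self]
      have h2 : (sr 0 : DihedralGroup n) ∈ H := by rw [hHs, map_zero]
      have h3 := congrArg Subtype.val (mul_comm (⟨_, h1⟩ : H) ⟨_, h2⟩)
      have h4 : (r ((2 ^ e : ℕ) : ZMod n) : DihedralGroup n) * sr 0 = sr 0 * r ((2 ^ e : ℕ) : ZMod n) := h3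
      rw [r_mul_sr, sr_mul_r] at h4
      have h5 : (0 : ZMod n) - ((2 ^ e : ℕ) : ZMod n) = 0 + ((2 ^ e : ℕ) : ZMod n) := by injection h4
      have h6 : ((2 * 2 ^ e : ℕ) : ZMod n) = 0 := by
        push_cast at h5 ⊢
        linear_combination -h5
      rw [ZMod.natCast_eq_zero_iff] at h6
      have h7 : o ∣ 2 := by
        have h8 : 2 ^ e * o ∣ 2 ^ e * 2 := by rw [← heo, mul_comm (2 ^ e) 2]; exact h6
        exact Nat.dvd_of_mul_dvd_mul_left (by positivity) h8
      rcases (Nat.dvd_prime Nat.prime_two).1 h7 with h8 | h8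
      · exact ho1 h8
      · rw [h8] at ho; exact absurd ho (by decide)
    have hz := hall H hnc
    have hzc : (r ((n / 2 : ℕ) : ZMod n) : DihedralGroup n) ∈ centralizer (H : Set (DihedralGroup n)) := by
      rw [mem_centralizer_iff]
      have h2n : ((n / 2 : ℕ) : ZMod n) + ((n / 2 : ℕ) : ZMod n) = 0 := by
        rw [← Nat.cast_add]
        have : n / 2 + n / 2 = n := by
          have : 2 ∣ n := (dvd_pow_self 2 (by omega)).trans hdvd
          omega
        rw [this, ZMod.natCast_self]
      rintro (a | a) _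
      · rw [r_mul_r, r_mul_r, add_comm]
      · rw [sr_mul_r, r_mul_sr]
        congr 1
        linear_combination h2n
    have h1 := hz hzc
    rw [hHr, map_natCast, ZMod.natCast_eq_zero_iff] at h1
    obtain ⟨e, rfl⟩ : ∃ m, e = m + 1 := ⟨e - 1, by omega⟩
    have h2 : n / 2 = 2 ^ e * o := by rw [heo, pow_succ]; 
                                      rw [show 2 ^ e * 2 * o = 2 ^ e * o * 2 by ring]; exact Nat.mul_div_cancel _ (by norm_num)
    rw [h2, pow_succ] at h1
    have h3 := Nat.dvd_of_mul_dvd_mul_left (by positivity) h1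
    have h4 : Even o := even_iff_two_dvd.2 h3
    exact (Nat.not_even_iff_odd.2 ho) h4
  · intro h H hH
    obtain ⟨j, hj⟩ : ∃ j : ZMod n, (sr j : DihedralGroup n) ∈ H := by
      by_contra hcon
      push Not at hcon
      apply hH
      have h1 : H ≤ zpowers (r (1 : ZMod n)) := by
        rintro (a | a) ha
        · refine ⟨(a.val : ℤ), ?_⟩
          change (r (1 : ZMod n)) ^ (a.val : ℤ) = r a
          rw [zpow_natCast, r_one_pow, ZMod.natCast_zmod_val]
        · exact absurd ha (hcon a)
      exact isCyclic_of_injective (inclusion h1) (inclusion_injective h1)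
    obtain ⟨i, hi, hiH⟩ : ∃ i : ZMod n, i ≠ 0 ∧ (r i : DihedralGroup n) ∈ H := by
      by_contra hcon
      push Not at hcon
      have hcon' : ∀ i : ZMod n, (r i : DihedralGroup n) ∈ H → i = 0 := by
        intro i hi
        by_contra h0
        exact hcon i h0 hi
      apply hH
      have h1 : H ≤ zpowers (sr j : DihedralGroup n) := by
        rintro (a | a) ha
        · rw [hcon' a ha, r_zero]; exact one_mem _
        · have h2 := mul_mem hj ha
          rw [sr_mul_sr] at h2
          have h3 := hcon' _ h2
          rw [sub_eq_zero] at h3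
          rw [h3]; exact mem_zpowers _
      exact isCyclic_of_injective (inclusion h1) (inclusion_injective h1)
    rintro (a | a) ha
    · have h1 := mem_centralizer_iff.1 ha _ hj
      rw [sr_mul_r, r_mul_sr] at h1
      have h2 : j + a = j - a := by injection h1
      apply rot_mem hn h hi hiH
      linear_combination h2
    · have h1 := mem_centralizer_iff.1 ha _ hj
      rw [sr_mul_sr, sr_mul_sr] at h1
      have h2 : a - j = j - a := by injection h1
      have h3 : r (j - a) ∈ H := rot_mem hn h hi hiH _ (by linear_combination -h2)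
      have h4 : (sr a : DihedralGroup n) = r (j - a) * sr j := by
        rw [r_mul_sr]; congr 1; ring
      rw [h4]
      exact mul_mem h3 hj


end Cfsg.Agent.S3920
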