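import Cfsg.Statements.S3927
import Cfsg.Agent.HL_Bart5

set_option autoImplicit false
open Cfsg

namespace Cfsg.Agent.S3927

/-- Let G be a finite group and α an automorphism of G with [G, α] = G, that is, the elements g·α(g)⁻¹ generate G. Then for every k ≥ 1 the iterated commutators [g, α, …, α] with k entries α — the values of the k-th iterate of the map c ↦ c·α(c)⁻¹ — also generate G. -/
theorem result {G : Type*} [Group G] [Finite G] (α : MulAut G) (hG : Subgroup.closure (Set.range (fun c : G => c * (α c)⁻¹)) = ⊤) (k : ℕ) (hk : 1 ≤ k) :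
    Subgroup.closure (Set.range ((fun c : G => c * (α c)⁻¹)^[k])) = ⊤ := by
  classical
  haveI hfa : Finite (MulAut G) := Finite.of_injective (fun e : MulAut G => (e.toEquiv : G ≃ G)) (fun a b h => by
    ext x; exact congrArg (fun e : G ≃ G => e x) h)
  let φ : Subgroup.zpowers α →* MulAut G := (Subgroup.zpowers α).subtype
  haveI : Finite (G ⋊[φ] Subgroup.zpowers α) := Finite.of_equiv _ SemidirectProduct.equivProd.symm
  let F : G → G := fun c => c * (α c)⁻¹
  let r : Subgroup.zpowers α := ⟨α, Subgroup.mem_zpowers α⟩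
  let a : G ⋊[φ] Subgroup.zpowers α := SemidirectProduct.inr r
  have hain : ∀ c : G, a * SemidirectProduct.inl c * a⁻¹ = SemidirectProduct.inl (α c) := by
    intro c
    have h1 : a⁻¹ = SemidirectProduct.inr r⁻¹ := (map_inv _ _).symm
    rw [h1]
    exact (SemidirectProduct.inl_aut (φ := φ) r c).symm
  have hcf : ∀ c : G, Cfsg.Agent.HL.Bart.cf a (SemidirectProduct.inl c) = SemidirectProduct.inl (F c) := by
    intro c
    have h1 := hain c⁻¹
    show SemidirectProduct.inl c * a * (SemidirectProduct.inl c)⁻¹ * a⁻¹ = SemidirectProduct.inl (c * (α c)⁻¹)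
    rw [map_mul, ← map_inv, ← map_inv α, ← h1]
    simp only [mul_assoc]
  have hcfw : ∀ w : G ⋊[φ] Subgroup.zpowers α, Cfsg.Agent.HL.Bart.cf a w = SemidirectProduct.inl (F w.left) := by
    intro w
    rw [← hcf]
    conv_lhs => rw [← SemidirectProduct.inl_left_mul_inr_right w]
    have hcomm : (SemidirectProduct.inr w.right : G ⋊[φ] Subgroup.zpowers α) * a =
        a * SemidirectProduct.inr w.right := by
      show SemidirectProduct.inr w.right * SemidirectProduct.inr r = SemidirectProduct.inr r * SemidirectProduct.inr w.right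
      rw [← map_mul, ← map_mul]
      congr 1
      apply Subtype.ext
      obtain ⟨j, hj⟩ := w.right.2
      show (w.right : MulAut G) * α = α * (w.right : MulAut G)
      rw [← hj]
      show α ^ j * α = α * α ^ j
      exact ((Commute.refl α).zpow_left j).eq
    show SemidirectProduct.inl w.left * SemidirectProduct.inr w.right * a *
      (SemidirectProduct.inl w.left * SemidirectProduct.inr w.right)⁻¹ * a⁻¹ =
      SemidirectProduct.inl w.left * a * (SemidirectProduct.inl w.left)⁻¹ * a⁻¹
    rw [mul_assoc (SemidirectProduct.inl w.left) (SemidirectProduct.inr w.right) a, hcomm]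
    group
  have hiter : ∀ (j : ℕ) (c : G), ((Cfsg.Agent.HL.Bart.cf a)^[j]) (SemidirectProduct.inl c) =
      SemidirectProduct.inl ((F^[j]) c) := by
    intro j
    induction j with
    | zero => intro c; rfl
    | succ j ih => intro c; rw [Function.iterate_succ_apply, Function.iterate_succ_apply, hcf, ih]
  set H := Subgroup.closure (Set.range (F^[k])) with hH
  have hαF : ∀ (j : ℕ) (c : G), α ((F^[j]) c) = (F^[j]) (α c) := by
    intro j
    induction j with
    | zero => intro c; rfl
    | succ j ih =>
      intro c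
      rw [Function.iterate_succ_apply, Function.iterate_succ_apply, ih]
      congr 1
      show α (c * (α c)⁻¹) = α c * (α (α c))⁻¹
      rw [map_mul, map_inv]
  have hαH : H.map α.toMonoidHom ≤ H := by
    rw [hH, MonoidHom.map_closure, Subgroup.closure_le]
    rintro _ ⟨_, ⟨c, rfl⟩, rfl⟩
    exact Subgroup.subset_closure ⟨α c, (hαF k c).symm⟩
  have hαH' : H.map α.toMonoidHom = H := by
    apply Subgroup.eq_of_le_of_card_ge hαH
    exact (Nat.card_congr (H.equivMapOfInjective _ α.injective).toEquiv).le
  have hstab : ∀ β ∈ Subgroup.zpowers α, ∀ h ∈ H, β h ∈ H := by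
    intro β hβ
    obtain ⟨j, rfl⟩ := mem_powers_iff_mem_zpowers.2 hβ
    show ∀ h ∈ H, (α ^ j) h ∈ H
    clear hβ
    induction j with
    | zero => intro h hh; simpa using hh
    | succ j ih =>
      intro h hh
      rw [pow_succ']
      exact hαH ⟨_, ih h hh, rfl⟩
  -- the subgroup of `W` over `H`
  let S : Subgroup (G ⋊[φ] Subgroup.zpowers α) :=
    { carrier := {w | w.left ∈ H}
      one_mem' := H.one_mem
      mul_mem' := fun {x y} hx hy => by
        show (x * y).left ∈ H
        rw [SemidirectProduct.mul_left]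
        exact H.mul_mem hx (hstab _ x.right.2 _ hy)
      inv_mem' := fun {x} hx => by
        show (x⁻¹).left ∈ H
        rw [SemidirectProduct.inv_left]
        exact hstab _ (x.right⁻¹).2 _ (H.inv_mem hx) }
  -- `a` has full normal closure
  have hfull : Cfsg.Agent.HL.Bart.Full (Subgroup.zpowers a) := by
    intro N h1 h2
    have h3 : N.Normal := Subgroup.normalizer_eq_top_iff.1 (top_le_iff.1 h2)
    have haN : a ∈ N := h1 (Subgroup.mem_zpowers a)
    have h4 : ∀ c : G, (SemidirectProduct.inl (F c) : G ⋊[φ] Subgroup.zpowers α) ∈ N := by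
      intro c
      rw [← hcf]
      exact N.mul_mem (h3.conj_mem a haN _) (N.inv_mem haN)
    have h5 : (⊤ : Subgroup G) ≤ N.comap SemidirectProduct.inl := by
      rw [← hG, Subgroup.closure_le]
      rintro _ ⟨c, rfl⟩
      exact h4 c
    have h6 : ∀ s : Subgroup.zpowers α, (SemidirectProduct.inr s : G ⋊[φ] Subgroup.zpowers α) ∈ N := by
      rintro ⟨s, j, rfl⟩
      have h7 : (⟨(fun x : ℤ => α ^ x) j, ⟨j, rfl⟩⟩ : Subgroup.zpowers α) = r ^ j := by
        apply Subtype.ext
        rw [Subgroup.coe_zpow]
      rw [h7, map_zpow]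
      exact N.zpow_mem haN j
    rw [eq_top_iff]
    intro w _
    rw [← SemidirectProduct.inl_left_mul_inr_right w]
    exact N.mul_mem (h5 (Subgroup.mem_top w.left)) (h6 _)
  have hT := Cfsg.Agent.HL.Bart.iter hfull k
  have hS : S = ⊤ := by
    rw [eq_top_iff, ← hT, Subgroup.closure_le]
    rintro w (rfl | ⟨v, rfl⟩)
    · exact H.one_mem
    · obtain ⟨k', rfl⟩ : ∃ k', k = k' + 1 := ⟨k - 1, by omega⟩
      rw [Function.iterate_succ_apply, hcfw, hiter, ← Function.iterate_succ_apply]
      show ((F^[k' + 1]) v.left) ∈ H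
      exact Subgroup.subset_closure ⟨_, rfl⟩
  rw [eq_top_iff]
  intro c _
  have h1 : (SemidirectProduct.inl c : G ⋊[φ] Subgroup.zpowers α) ∈ S := by rw [hS]; trivial
  exact h1

end Cfsg.Agent.S3927
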