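import Cfsg.Statements.S3933
import Cfsg.Agent.H22_SylowNum
import Cfsg.Agent.H3_Burnside
import Cfsg.Agent.H1_Factor

set_option autoImplicit false
open Cfsg

namespace Cfsg.Agent.S3933

open Subgroup
open scoped Pointwise

universe u

/-- the Sylow number condition -/
def Cond (G : Type u) [Group G] : Prop :=
  ∀ (r : ℕ) [Fact r.Prime], Nat.card (Sylow r G) = 1 ∨ IsPrimePow (Nat.card (Sylow r G))

theorem cond_of_dvd {a b : ℕ} (h : a ∣ b) (hb : b = 1 ∨ IsPrimePow b) : a = 1 ∨ IsPrimePow a := by
  rcases hb with rfl | hb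
  · exact Or.inl (Nat.dvd_one.mp h)
  · by_cases h1 : a = 1
    · exact Or.inl h1
    · exact Or.inr (hb.dvd h h1)

/-- key: in a simple group, `N_G(P)` and `N_G(Q)` with coprime index and `P^g ≤ N_G(Q)` force
`Q` normal -/
theorem key {G : Type u} [Group G] [Finite G] (hs : IsSimpleGroup G) {P Q : Subgroup G}
    (hPb : P ≠ ⊥) (hcop : (normalizer (P : Set G)).index.Coprime (normalizer (Q : Set G)).index)
    (g : G) (hg : MulAut.conj g • P ≤ normalizer (Q : Set G)) : normalizer (Q : Set G) = ⊤ := by
  obtain ⟨-, hfac⟩ := H1.Factor.index_inf_of_coprime _ _ hcop.symm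
  have h0 : P ≤ normalizer (Q : Set G) := by
    obtain ⟨b, hb, a, ha, hab⟩ := hfac g
    intro x hx
    have h2 : MulAut.conj g • P = MulAut.conj b • P := by
      rw [hab, map_mul, mul_smul, (H1.Basic.conj_eq_iff_mem_normalizer).mpr ha]
    rw [h2] at hg
    have h3 : b * x * b⁻¹ ∈ MulAut.conj b • P := H1.Basic.conj_mem_conj.mpr hx
    have h4 := hg h3
    have h5 := mul_mem (mul_mem (inv_mem hb) h4) hb
    have h6 : b⁻¹ * (b * x * b⁻¹) * b = x := by group
    rwa [h6] at h5
  -- every conjugate of P lies in N(Q)
  have h1 : normalClosure (P : Set G) ≤ normalizer (Q : Set G) := by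
    rw [normalClosure, closure_le]
    intro y hy
    obtain ⟨x, hx, hxy⟩ := Group.mem_conjugatesOfSet_iff.mp hy
    obtain ⟨c, rfl⟩ := isConj_iff.mp hxy
    obtain ⟨b, hb, a, ha, hab⟩ := hfac c
    have h2 : a * x * a⁻¹ ∈ P := (mem_normalizer_iff.mp ha x).mp hx
    have h3 := mul_mem (mul_mem hb (h0 h2)) (inv_mem hb)
    have h4 : b * (a * x * a⁻¹) * b⁻¹ = c * x * c⁻¹ := by rw [hab]; group
    rw [h4] at h3
    exact h3
  rcases hs.eq_bot_or_eq_top_of_normal (normalClosure (P : Set G)) inferInstance with h | h
  · exfalso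
    apply hPb
    rw [eq_bot_iff, ← h]
    exact subset_normalClosure
  · rw [h, top_le_iff] at h1
    exact h1

theorem simple_case {G : Type u} [Group G] [Finite G] (hs : IsSimpleGroup G) (hc : Cond G) :
    Group.IsSolvable G := by
  by_contra hns
  -- no Sylow subgroup is normal
  have hnn : ∀ (r : ℕ) [Fact r.Prime], r ∣ Nat.card G → ∀ P : Sylow r G,
      normalizer ((P : Subgroup G) : Set G) ≠ ⊤ := by
    intro r hr hrd P hP
    have hn : (P : Subgroup G).Normal := normalizer_eq_top_iff.mp hP
    rcases hs.eq_bot_or_eq_top_of_normal _ hn with h | h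
    · exact P.ne_bot_of_dvd_card hrd h
    · apply hns
      have h2 := P.2
      rw [h] at h2
      have h3 : IsPGroup r G := h2.of_equiv topEquiv
      have := h3.isNilpotent
      infer_instance
  have hr' : ∀ r : ℕ, r.Prime → r ∣ Nat.card G → ∃ s : ℕ, s.Prime ∧ s ∣ Nat.card G ∧ s ≠ r ∧
      ∀ [Fact r.Prime], ∀ P : Sylow r G, ∃ k, (normalizer ((P : Subgroup G) : Set G)).index = s ^ k := by
    intro r hr hrd
    have hrf : Fact r.Prime := ⟨hr⟩
    let P : Sylow r G := default
    have hP := P.card_eq_index_normalizer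
    rcases hc r with h | ⟨s, k, hs', hk, hsk⟩
    · exfalso
      rw [h] at hP
      exact hnn r hrd P (index_eq_one.mp hP.symm)
    · refine ⟨s, hs'.nat_prime, ?_, ?_, ?_⟩
      · have h1 : s ∣ (normalizer ((P : Subgroup G) : Set G)).index := by
          rw [← P.coe_coe] at hP
          rw [← hP, ← hsk]; exact dvd_pow_self s hk.ne'
        exact h1.trans (index_dvd_card _)
      · rintro rfl
        have h1 := card_sylow_modEq_one s G
        rw [← hsk] at h1
        have h2 : s ∣ s ^ k := dvd_pow_self s hk.ne'
        have h3 : (1 : ℕ) ≡ 0 [MOD s] := h1.symm.trans (Nat.modEq_zero_iff_dvd.mpr h2)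
        exact hs'.nat_prime.one_lt.ne' (Nat.dvd_one.mp ((Nat.modEq_zero_iff_dvd).mp h3))
      · intro _ Q
        refine ⟨k, ?_⟩
        have := Q.card_eq_index_normalizer
        rw [hsk, this]; rfl
  choose! f hf1 hf2 hf3 hf4 using hr'
  -- the main alternative
  have halt : ∀ p q : ℕ, p.Prime → q.Prime → p ∣ Nat.card G → q ∣ Nat.card G → p ≠ q →
      f p = f q ∨ f q = p := by
    intro p q hp hq hpd hqd hpq
    by_contra hcon
    push Not at hcon
    obtain ⟨h1, h2⟩ := hcon
    have : Fact p.Prime := ⟨hp⟩
    have : Fact q.Prime := ⟨hq⟩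
    let P : Sylow p G := default
    let Q : Sylow q G := default
    obtain ⟨k, hk⟩ := hf4 p hp hpd P
    obtain ⟨j, hj⟩ := hf4 q hq hqd Q
    have hcop : (normalizer ((P : Subgroup G) : Set G)).index.Coprime
        (normalizer ((Q : Subgroup G) : Set G)).index := by
      rw [hk, hj]
      exact Nat.Coprime.pow _ _ ((Nat.coprime_primes (hf1 p hp hpd) (hf1 q hq hqd)).mpr h1)
    -- a Sylow p-subgroup of N(Q) is a Sylow p-subgroup of G
    let R : Sylow p (normalizer ((Q : Subgroup G) : Set G)) := default
    have hRp : IsPGroup p ((R : Subgroup _).map (normalizer ((Q : Subgroup G) : Set G)).subtype) := R.2.map _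
    obtain ⟨S, hS⟩ := hRp.exists_le_sylow
    have hSR : (R : Subgroup _).map (normalizer ((Q : Subgroup G) : Set G)).subtype = (S : Subgroup G) := by
      apply Subgroup.eq_of_le_of_card_ge hS
      rw [card_map_of_injective (subtype_injective _), R.card_eq_multiplicity, S.card_eq_multiplicity]
      apply Nat.pow_le_pow_right hp.pos
      have h3 := card_mul_index (normalizer ((Q : Subgroup G) : Set G))
      rw [← h3, hj, Nat.factorization_mul Nat.card_pos.ne' (pow_ne_zero _ (hf1 q hq hqd).ne_zero)]
      rw [Nat.Prime.factorization_pow (hf1 q hq hqd)]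
      simp [Finsupp.single_apply, h2]
    obtain ⟨g, hg⟩ := MulAction.exists_smul_eq G P S
    have hg' : MulAut.conj g • (P : Subgroup G) = (S : Subgroup G) := by rw [← hg]; rfl
    have := key hs (P := (P : Subgroup G)) (Q := (Q : Subgroup G)) (P.ne_bot_of_dvd_card hpd) hcop g (by
      rw [hg', ← hSR]; exact map_subtype_le _)
    exact hnn q hqd Q this
  -- at most two primes
  have hG1 : Nat.card G ≠ 1 := by
    intro h
    apply hns
    have : Subsingleton G := (Nat.card_eq_one_iff_unique.mp h).1
    infer_instance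
  obtain ⟨p, hp, hpd⟩ := Nat.exists_prime_and_dvd hG1
  set q := f p with hq
  have hqp : q.Prime := hf1 p hp hpd
  have hqd : q ∣ Nat.card G := hf2 p hp hpd
  have hqne : q ≠ p := hf3 p hp hpd
  have hfq : f q = p := by
    rcases halt p q hp hqp hpd hqd hqne.symm with h | h
    · exact absurd h.symm (hf3 q hqp hqd)
    · exact h
  have hall : ∀ r : ℕ, r.Prime → r ∣ Nat.card G → r = p ∨ r = q := by
    intro r hr hrd
    by_contra hcon
    push Not at hcon
    have h1 : f r = q := by
      rcases halt r p hr hp hrd hpd hcon.1 with h | h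
      · exact h
      · exact absurd h (Ne.symm hcon.2)
    have h2 : f r = p := by
      rcases halt r q hr hqp hrd hqd hcon.2 with h | h
      · rw [h, hfq]
      · exact absurd (h.symm.trans hfq) hcon.1
    exact hqne (h1.symm.trans h2)
  apply hns
  have hcard : Nat.card G = p ^ (Nat.card G).factorization p * q ^ (Nat.card G).factorization q := by
    have h0 : Nat.card G ≠ 0 := Nat.card_pos.ne'
    conv_lhs => rw [← Nat.prod_factorization_pow_eq_self h0]
    rw [Finsupp.prod]
    have hsub : (Nat.card G).factorization.support ⊆ {p, q} := by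
      intro r hr
      have h1 := Nat.prime_of_mem_primeFactors (by simpa using hr)
      have h2 := Nat.dvd_of_mem_primeFactors (by simpa using hr)
      rcases hall r h1 h2 with rfl | rfl <;> simp
    rw [Finset.prod_subset hsub (fun x _ hx => by
      rw [Finsupp.notMem_support_iff.mp hx, pow_zero]), Finset.prod_pair hqne.symm]
  exact H3.Burnside.burnside _ G p q _ _ hp hqp rfl hcard

theorem main (n : ℕ) : ∀ (G : Type u) [Group G] [Finite G], Nat.card G = n → Cond G →
    Group.IsSolvable G := by
  induction n using Nat.strong_induction_on with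
  | _ n ih =>
    intro G _ _ hn hc
    by_cases hnt : Nontrivial G
    · by_cases hs : IsSimpleGroup G
      · exact simple_case hs hc
      · have : ∃ N : Subgroup G, N.Normal ∧ N ≠ ⊥ ∧ N ≠ ⊤ := by
          by_contra hcon
          push Not at hcon
          apply hs
          exact ⟨fun N hN => by
            by_cases h : N = ⊥
            · exact Or.inl h
            · exact Or.inr (hcon N hN h)⟩
        obtain ⟨N, hN, hNb, hNt⟩ := this
        have hN1 : 1 < Nat.card N := N.one_lt_card_iff_ne_bot.mpr hNb
        have hN2 : 1 < N.index := N.one_lt_index_of_ne_top hNt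
        have hm := N.card_mul_index
        rw [hn] at hm
        rw [Group.isSolvable_iff_subgroup_quotient N]
        constructor
        · apply ih (Nat.card N) (by nlinarith) N rfl
          intro r _
          exact cond_of_dvd (H22.SylowNum.card_sylow_normal_dvd N) (hc r)
        · apply ih (Nat.card (G ⧸ N)) (by rw [← index_eq_card]; nlinarith) (G ⧸ N) rfl
          intro r _
          exact cond_of_dvd (H22.SylowNum.card_sylow_quotient_dvd N) (hc r)
    · rw [not_nontrivial_iff_subsingleton] at hnt
      infer_instance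

/-- If for every prime r the number of Sylow r-subgroups of the finite group G is a prime power or 1, then G is solvable. -/
theorem result {G : Type*} [Group G] [Finite G] (h : ∀ (r : ℕ) [Fact r.Prime], Nat.card (Sylow r G) = 1 ∨ IsPrimePow (Nat.card (Sylow r G))) :
    Group.IsSolvable G :=
  main _ G rfl h

end Cfsg.Agent.S3933
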