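import Cfsg.Statements.S3937
import Cfsg.Agent.H22_Basic
import Cfsg.Agent.H1_Subn2
import Cfsg.Agent.H24_Zipper

set_option autoImplicit false
open Cfsg

namespace Cfsg.Agent.S3937

open Subgroup
open scoped commutatorElement

/-- `[x, g, …, g]` -/
def eng {G : Type*} [Group G] (g x : G) (n : ℕ) : G := (List.replicate n g).foldl (fun a b => a * b * a⁻¹ * b⁻¹) x

theorem eng_zero {G : Type*} [Group G] (g x : G) : eng g x 0 = x := rfl

theorem eng_succ {G : Type*} [Group G] (g x : G) (n : ℕ) : eng g x (n + 1) = ⁅eng g x n, g⁆ := by
  unfold eng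
  rw [List.replicate_succ', List.foldl_append]
  rfl

theorem map_eng {G H : Type*} [Group G] [Group H] (f : G →* H) (g x : G) (n : ℕ) : f (eng g x n) = eng (f g) (f x) n := by
  induction n with
  | zero => rfl
  | succ n ih => rw [eng_succ, eng_succ, map_commutatorElement, ih]

theorem aux (n : ℕ) : ∀ (G : Type*) [Group G] [Finite G], Nat.card G = n → ∀ g : G, (∀ x : G, ∃ k, eng g x k = 1) →
    g ∈ Cfsg.fittingSubgroup G := by
  induction n using Nat.strong_induction_on with
  | _ n ih =>
  intro G _ _ hn g hg
  have hsub : ∀ H : Subgroup G, H ≠ ⊤ → zpowers g ≤ H → ((zpowers g).subgroupOf H).IsSubnormal := by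
    intro H hH hgH
    have hgm : g ∈ H := hgH (mem_zpowers g)
    have hlt : Nat.card H < n := by rw [← hn]; exact H1.SZ.card_subgroup_lt hH
    have h1 : (⟨g, hgm⟩ : H) ∈ Cfsg.fittingSubgroup H := by
      refine ih _ hlt H rfl ⟨g, hgm⟩ (fun x => ?_)
      obtain ⟨k, hk⟩ := hg x
      refine ⟨k, Subtype.ext ?_⟩
      have := map_eng H.subtype ⟨g, hgm⟩ x k
      rw [Subgroup.coe_subtype] at this
      rw [this]; exact hk
    have h2 : (zpowers g).subgroupOf H ≤ Cfsg.fittingSubgroup H := by
      intro x hx
      obtain ⟨j, hj⟩ := mem_zpowers_iff.mp (mem_subgroupOf.mp hx)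
      have : x = (⟨g, hgm⟩ : H) ^ j := Subtype.ext hj.symm
      rw [this]
      exact zpow_mem h1 j
    have h3 : (((zpowers g).subgroupOf H).subgroupOf (Cfsg.fittingSubgroup H)).IsSubnormal :=
      H1.FratFit.nilpotent_iff_subnormal.mp (H1.Nilp.fitting_nilpotent) _
    exact Subgroup.IsSubnormal.trans h2 h3 (H1.Nilp.fitting_normal).isSubnormal
  by_cases hsn : (zpowers g).IsSubnormal
  · have hz : Group.IsNilpotent (zpowers g) := by
      let _ : CommGroup (zpowers g) := IsCyclic.commGroup
      exact CommGroup.isNilpotent
    exact H1.Subn.subnormal_nilpotent_le_fitting hsn hz (mem_zpowers g)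
  · exfalso
    obtain ⟨M, hM, hgM, huniq⟩ := H24.Zipper.zipper (zpowers g) hsub hsn
    have hgm : g ∈ M := hgM (mem_zpowers g)
    have hMn : normalizer (M : Set G) = M := by
      rcases hM.le_iff.mp (le_normalizer : M ≤ normalizer (M : Set G)) with h | h
      · exfalso
        have hMnorm : M.Normal := normalizer_eq_top_iff.mp h
        exact hsn (Subgroup.IsSubnormal.trans hgM (hsub M hM.1 hgM) hMnorm.isSubnormal)
      · exact h
    -- every element is in M
    have key : ∀ x : G, x ∈ M := by
      intro x
      obtain ⟨k, hk⟩ := hg x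
      have : ∀ j, j ≤ k → eng g x (k - j) ∈ M := by
        intro j
        induction j with
        | zero => intro _; rw [Nat.sub_zero, hk]; exact one_mem _
        | succ j ihj =>
          intro hj
          have h1 := ihj (by omega)
          rw [show k - j = (k - (j + 1)) + 1 by omega, eng_succ] at h1
          set y := eng g x (k - (j + 1)) with hy
          rw [commutatorElement_def] at h1
          have h2 : y * g * y⁻¹ ∈ M := by
            have := mul_mem h1 hgm
            rwa [inv_mul_cancel_right] at this
          have h3 : zpowers g ≤ H22.Basic.cj y⁻¹ M := by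
            rw [zpowers_le, H22.Basic.mem_cj, inv_inv]; exact h2
          have h4 : IsCoatom (H22.Basic.cj y⁻¹ M) := by
            have := (OrderIso.isCoatom_iff (MulAut.conj y⁻¹ : G ≃* G).mapSubgroup M).mpr hM
            exact this
          have h5 := huniq _ h4 h3
          have h6 := H22.Basic.mem_normalizer_iff_cj.mpr h5
          rw [hMn] at h6
          have := inv_mem h6
          rwa [inv_inv] at this
      have := this k le_rfl
      rwa [Nat.sub_self, eng_zero] at this
    exact hM.1 (eq_top_iff.mpr (fun x _ => key x))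

/-- (Baer) An element `g` of a finite group lies in the Fitting subgroup iff it is a left Engel element. -/
theorem result {G : Type*} [Group G] [Finite G] (g : G) :
    g ∈ Cfsg.fittingSubgroup G ↔ ∀ x : G, ∃ n : ℕ, (List.replicate n g).foldl (fun a b => a * b * a⁻¹ * b⁻¹) x = 1 := by
  constructor
  · intro hg x
    set F := Cfsg.fittingSubgroup G with hF
    have hFn : F.Normal := H1.Nilp.fitting_normal
    have hnil : Group.IsNilpotent F := H1.Nilp.fitting_nilpotent
    obtain ⟨c, hc⟩ := Subgroup.nilpotent_iff_lowerCentralSeries.mp hnil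
    have key : ∀ k, eng g x (k + 1) ∈ F.lowerCentralSeries k := by
      intro k
      induction k with
      | zero =>
        rw [eng_succ, eng_zero, commutatorElement_def]
        exact mul_mem (hFn.conj_mem g hg x) (inv_mem hg)
      | succ k ih =>
        rw [eng_succ]
        exact commutator_mem_commutator ih hg
    refine ⟨c + 1, ?_⟩
    have h1 := key c
    have h2 : F.lowerCentralSeries c = ⊥ := by
      rw [← Subgroup.top_subtype_lowerCentralSeries, hc, Subgroup.map_bot]
    rw [h2, Subgroup.mem_bot] at h1
    exact h1
  · exact aux _ G rfl g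

end Cfsg.Agent.S3937
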