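import Cfsg.Statements.S3939
import Cfsg.Agent.H22_Basic
import Cfsg.Agent.S3937
import Cfsg.Agent.S3778
import Cfsg.Agent.H2_Fusion2
import Cfsg.Agent.H2_Fusion4
import Cfsg.Agent.H2_PGroup

set_option autoImplicit false
open Cfsg

namespace Cfsg.Agent.S3939

open Subgroup
open scoped commutatorElement

/-- all two-generator subgroups containing `g` are nilpotent -/
def Good {G : Type*} [Group G] (g : G) : Prop := ∀ x : G, Group.IsNilpotent (closure ({x, g} : Set G))

theorem Good.map {G H : Type*} [Group G] [Group H] (f : G →* H) (hf : Function.Surjective f) {g : G} (hg : Good g) : Good (f g) := by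
  intro y
  obtain ⟨x, rfl⟩ := hf y
  have h1 : (closure ({x, g} : Set G)).map f = closure ({f x, f g} : Set H) := by
    rw [MonoidHom.map_closure, Set.image_pair]
  rw [← h1]
  have := hg x
  exact Group.nilpotent_of_surjective (f := f.subgroupMap _) (f.subgroupMap_surjective _)

theorem isNilpotent_of_le {G : Type*} [Group G] {A B : Subgroup G} (h : A ≤ B) (hB : Group.IsNilpotent B) : Group.IsNilpotent A := by
  rw [Subgroup.isNilpotent_iff_lowerCentralSeries] at hB ⊢
  obtain ⟨n, hn⟩ := hB
  exact ⟨n, eq_bot_iff.mpr (hn ▸ Subgroup.lowerCentralSeries_mono n h)⟩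

theorem Good.zpow {G : Type*} [Group G] {g : G} (hg : Good g) (k : ℤ) : Good (g ^ k) := by
  intro x
  refine isNilpotent_of_le ?_ (hg x)
  rw [closure_le]
  rintro y (rfl | rfl)
  · exact subset_closure (Set.mem_insert _ _)
  · have hgm : g ∈ closure ({x, g} : Set G) := subset_closure (Set.mem_insert_of_mem _ (Set.mem_singleton g))
    exact zpow_mem hgm k

theorem Good.engel {G : Type*} [Group G] {g : G} (hg : Good g) (x : G) : ∃ n, S3937.eng g x n = 1 := by
  have hn := hg x
  set H := closure ({x, g} : Set G) with hH
  have hx : x ∈ H := subset_closure (Set.mem_insert _ _)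
  have hg' : g ∈ H := subset_closure (Set.mem_insert_of_mem _ rfl)
  obtain ⟨c, hc⟩ := Subgroup.nilpotent_iff_lowerCentralSeries.mp hn
  refine ⟨c, ?_⟩
  have key : ∀ k, S3937.eng g x k ∈ H.lowerCentralSeries k := by
    intro k
    induction k with
    | zero => exact hx
    | succ k ih =>
      rw [S3937.eng_succ]
      exact commutator_mem_commutator ih hg'
  have h1 := key c
  have h2 : H.lowerCentralSeries c = ⊥ := by
    rw [← Subgroup.top_subtype_lowerCentralSeries, hc, Subgroup.map_bot]
  rwa [h2, Subgroup.mem_bot] at h1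

theorem coprime_comm {G : Type*} [Group G] [Finite G] {p : ℕ} [hp : Fact p.Prime] {g x : G} (hg : Good g) (hgp : IsPGroup p (zpowers g))
    (hx : (orderOf x).Coprime p) : g * x = x * g := by
  have hn := hg x
  set H := closure ({x, g} : Set G) with hH
  have hxH : x ∈ H := subset_closure (Set.mem_insert _ _)
  have hgH : g ∈ H := subset_closure (Set.mem_insert_of_mem _ rfl)
  obtain ⟨P, N, hN, hc⟩ := H2.Fusion4.npc_of_nilpotent (p := p) (G := H)
  have hP := ((Group.isNilpotent_of_finite_tfae (G := H)).out 0 3 rfl rfl).mp hn p inferInstance P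
  have hNc : ¬ p ∣ Nat.card N := by rw [← hc.index_eq_card]; exact P.not_dvd_index
  obtain ⟨k, hk⟩ := IsPGroup.iff_card.1 P.isPGroup'
  rw [← hc.symm.index_eq_card] at hk
  have hxN : (⟨x, hxH⟩ : H) ∈ N := (H2.Basic.mem_npc_iff hNc hk _).mpr (by rw [Subgroup.orderOf_mk]; exact hx)
  have hgP : (⟨g, hgH⟩ : H) ∈ (P : Subgroup H) := by
    have h1 : IsPGroup p (zpowers (⟨g, hgH⟩ : H)) := by
      obtain ⟨k, hk⟩ := hgp.exists_card_eq
      exact IsPGroup.of_card (n := k) (by rw [← hk, Nat.card_zpowers, Nat.card_zpowers, Subgroup.orderOf_mk])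
    obtain ⟨Q, hQ⟩ := h1.exists_le_sylow
    have : Q = P := by
      have hsub := Sylow.unique_of_normal P hP
      exact Subsingleton.elim _ _
    rw [← this]
    exact hQ (mem_zpowers _)
  have := Subgroup.commute_of_normal_of_disjoint _ _ hP hN hc.disjoint.symm _ _ hgP hxN
  exact congrArg Subtype.val this.eq

theorem aux (n : ℕ) : ∀ (G : Type*) [Group G] [Finite G], Nat.card G = n → ∀ g : G, Good g →
    ∃ m, g ∈ Subgroup.upperCentralSeries G m := by
  induction n using Nat.strong_induction_on with
  | _ n ih =>
  intro G _ _ hn g hg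
  by_cases hZ : center G = ⊥
  · refine ⟨0, ?_⟩
    rw [Subgroup.upperCentralSeries_zero, Subgroup.mem_bot]
    by_contra hg1
    -- a power of prime order
    obtain ⟨p, hp, hpd⟩ := Nat.exists_prime_and_dvd (n := orderOf g) (fun h => hg1 (orderOf_eq_one_iff.mp h))
    have := Fact.mk hp
    set a := g ^ (orderOf g / p) with ha
    have hao : orderOf a = p := by
      rw [ha, orderOf_pow' g (Nat.div_pos (Nat.le_of_dvd (orderOf_pos g) hpd) hp.pos).ne',
        Nat.gcd_eq_right (Nat.div_dvd_of_dvd hpd), Nat.div_div_self hpd (orderOf_pos g).ne']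
    have hag : Good a := by rw [ha, ← zpow_natCast]; exact hg.zpow _
    have hap : IsPGroup p (zpowers a) := IsPGroup.of_card (n := 1) (by rw [Nat.card_zpowers, hao, pow_one])
    have haF : a ∈ Cfsg.fittingSubgroup G := S3937.aux _ G rfl a hag.engel
    -- the Sylow p-subgroup of F
    set F := Cfsg.fittingSubgroup G with hF
    have hFn : F.Normal := H1.Nilp.fitting_normal
    have hnil : Group.IsNilpotent F := H1.Nilp.fitting_nilpotent
    have hSn := ((Group.isNilpotent_of_finite_tfae (G := F)).out 0 3).mp hnil
    let S : Sylow p F := default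
    have hS : (S : Subgroup F).Normal := hSn p inferInstance S
    have hSc : (S : Subgroup F).Characteristic := Sylow.characteristic_of_normal S hS
    let D := (S : Subgroup F).map F.subtype
    have hDn : D.Normal := inferInstance
    have hDp : IsPGroup p D := S.isPGroup'.map _
    have haD : a ∈ D := by
      have h1 : IsPGroup p (zpowers (⟨a, haF⟩ : F)) := by
        exact IsPGroup.of_card (n := 1) (by rw [Nat.card_zpowers, Subgroup.orderOf_mk, hao, pow_one])
      obtain ⟨Q, hQ⟩ := h1.exists_le_sylow
      have : Q = S := by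
        have hsub := Sylow.unique_of_normal S hS
        exact Subsingleton.elim _ _
      rw [this] at hQ
      exact ⟨⟨a, haF⟩, hQ (mem_zpowers _), rfl⟩
    let E := normalClosure ({a} : Set G)
    have hED : E ≤ D := normalClosure_le_normal (Set.singleton_subset_iff.mpr haD)
    have hEp : IsPGroup p E := hDp.to_le hED
    let P : Sylow p G := default
    have hEP : E ≤ P := hEp.le_sylow_of_normal P
    have hEb : E.subgroupOf (P : Subgroup G) ≠ ⊥ := by
      intro h
      have haE : a ∈ E := subset_normalClosure (Set.mem_singleton a)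
      have : (⟨a, hEP haE⟩ : (P : Subgroup G)) ∈ E.subgroupOf (P : Subgroup G) := haE
      rw [h, Subgroup.mem_bot] at this
      have h1 : a = 1 := congrArg Subtype.val this
      rw [h1, orderOf_one] at hao
      exact hp.one_lt.ne hao
    have hne := H2.PGroup.inf_center_ne_bot P.isPGroup' hEb
    obtain ⟨d, ⟨hdE, hdZ⟩, hd1⟩ := (Subgroup.bot_or_exists_ne_one _).resolve_left hne
    have hdc : (d : G) ∈ center G := by
      have h1 : (⊤ : Subgroup G) ≤ centralizer ({(d : G)} : Set G) := by
        rw [← H2.Fusion2.sup_pResidual P]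
        refine sup_le ?_ ?_
        · intro y hy
          rw [mem_centralizer_singleton_iff]
          exact congrArg Subtype.val (mem_center_iff.mp hdZ ⟨y, hy⟩)
        · rw [pResidual, closure_le]
          intro y hy
          show y ∈ centralizer ({(d : G)} : Set G)
          rw [mem_centralizer_singleton_iff]
          have h2 : E ≤ centralizer ({y} : Set G) := by
            show Subgroup.closure _ ≤ _
            rw [closure_le]
            intro z hz
            obtain ⟨b, hb, hbz⟩ := Group.mem_conjugatesOfSet_iff.mp hz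
            rw [Set.mem_singleton_iff] at hb
            subst hb
            obtain ⟨c, hc⟩ := isConj_iff.mp hbz
            show z ∈ centralizer ({y} : Set G)
            rw [mem_centralizer_singleton_iff, ← hc]
            have hgood : Good (c * a * c⁻¹) := Good.map (MulAut.conj c).toMonoidHom (MulAut.conj c).surjective hag
            refine coprime_comm (p := p) hgood ?_ hy
            exact IsPGroup.of_card (n := 1) (by
              rw [Nat.card_zpowers, pow_one, ← hao]
              exact orderOf_injective (MulAut.conj c).toMonoidHom (MulAut.conj c).injective a)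
          exact (mem_centralizer_singleton_iff.mp (h2 hdE)).symm
      rw [mem_center_iff]
      intro y
      exact mem_centralizer_singleton_iff.mp (h1 (mem_top y))
    rw [hZ, Subgroup.mem_bot] at hdc
    exact hd1 (Subtype.ext hdc)
  · have hlt : Nat.card (G ⧸ center G) < n := by rw [← hn]; exact H1.SZ.card_quotient_lt hZ
    obtain ⟨m, hm⟩ := ih _ hlt (G ⧸ center G) rfl (QuotientGroup.mk' (center G) g) (hg.map _ (QuotientGroup.mk'_surjective _))
    refine ⟨m.succ, ?_⟩
    rw [← Subgroup.comap_upperCentralSeries_quotient_center]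
    exact hm

/-- In a finite group the elements g with ⟨x, g⟩ nilpotent for all x form the hypercenter. -/
theorem result {G : Type*} [Group G] [Finite G] (g : G) :
    (∀ x : G, Group.IsNilpotent ↥(Subgroup.closure ({x, g} : Set G))) ↔ g ∈ ⨆ n : ℕ, Subgroup.upperCentralSeries G n := by
  rw [Subgroup.mem_iSup_of_directed (Subgroup.upperCentralSeries_mono G).directed_le]
  constructor
  · exact aux _ G rfl g
  · rintro ⟨n, hn⟩ x
    set H := closure ({x, g} : Set G) with hH
    have hxH : x ∈ H := subset_closure (Set.mem_insert _ _)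
    have hgH : g ∈ H := subset_closure (Set.mem_insert_of_mem _ rfl)
    have key : ∀ k, ∀ h : H, (h : G) ∈ Subgroup.upperCentralSeries G k → h ∈ Subgroup.upperCentralSeries H k := by
      intro k
      induction k with
      | zero =>
        intro h hh
        rw [Subgroup.upperCentralSeries_zero, Subgroup.mem_bot] at hh ⊢
        exact Subtype.ext hh
      | succ k ih =>
        intro h hh
        rw [Subgroup.mem_upperCentralSeries_succ_iff] at hh ⊢
        intro y
        exact ih _ (hh y)
    have hg' := key n ⟨g, hgH⟩ hn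
    refine ⟨n + 1, ?_⟩
    have hgen : (⊤ : Subgroup H) ≤ closure ({⟨x, hxH⟩, ⟨g, hgH⟩} : Set H) := by
      have h1 : (closure ({⟨x, hxH⟩, ⟨g, hgH⟩} : Set H)).map H.subtype = H := by
        rw [MonoidHom.map_closure, Set.image_pair]; rfl
      intro y _
      have h2 : (y : G) ∈ (closure ({⟨x, hxH⟩, ⟨g, hgH⟩} : Set H)).map H.subtype := by rw [h1]; exact y.2
      obtain ⟨z, hz, hzy⟩ := h2
      have : z = y := Subtype.ext hzy
      rwa [← this]
    rw [eq_top_iff]
    refine hgen.trans ?_
    rw [closure_le]
    rintro y (rfl | rfl)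
    · show _ ∈ Subgroup.upperCentralSeries H (n + 1)
      rw [Subgroup.mem_upperCentralSeries_succ_iff]
      intro y
      have h1 : (⊤ : Subgroup H) ≤ S3778.E (Subgroup.upperCentralSeries H n) ⟨x, hxH⟩ := by
        refine hgen.trans ?_
        rw [closure_le]
        rintro y (rfl | rfl)
        · show _ ∈ S3778.E _ _
          rw [S3778.mem_E, commutatorElement_self]; exact one_mem _
        · show _ ∈ S3778.E _ _
          rw [S3778.mem_E, commutatorElement_def]
          have hn' : (Subgroup.upperCentralSeries H n).Normal := inferInstance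
          have := mul_mem hg' (hn'.conj_mem _ (inv_mem hg') ⟨x, hxH⟩)
          rwa [← mul_assoc, ← mul_assoc] at this
      have h2 := (S3778.mem_E _ _ _).mp (h1 (mem_top y))
      rw [← commutatorElement_inv] at h2
      exact inv_mem_iff.mp h2
    · exact Subgroup.upperCentralSeries_mono H (Nat.le_succ n) hg'

end Cfsg.Agent.S3939
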