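import Cfsg.Statements.S3941


set_option autoImplicit false
open Cfsg

namespace Cfsg.Agent.S3941

open Subgroup Equiv Equiv.Perm

/-- the embedding of the alternating group of degree `m` fixing the last point -/
noncomputable def emb (m : ℕ) : alternatingGroup (Fin m) →* alternatingGroup (Fin (m + 1)) :=
  ((extendDomainHom (finSuccAboveEquiv (Fin.last m))).comp (alternatingGroup (Fin m)).subtype).codRestrict _
    (fun a => by
      rw [mem_alternatingGroup]
      change sign ((a : Equiv.Perm (Fin m)).extendDomain (finSuccAboveEquiv (Fin.last m))) = 1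
      rw [sign_extendDomain]; exact a.2)

theorem emb_injective (m : ℕ) : Function.Injective (emb m) := by
  intro a b h
  have h1 := congrArg Subtype.val h
  exact Subtype.ext (extendDomainHom_injective _ h1)

/-- Let n ≥ 5 and p an odd prime with p ≤ n, and suppose that every proper subgroup of the alternating group of degree n whose order is divisible by p has a normal Sylow p-subgroup. Then n = p. -/
theorem result (n p : ℕ) (hn : 5 ≤ n) [Fact p.Prime] (hp : p ≠ 2) (hpn : p ≤ n)
    (h : ∀ H : Subgroup ↥(alternatingGroup (Fin n)), H ≠ ⊤ → p ∣ Nat.card ↥H → Cfsg.IsPClosed p ↥H) : n = p := by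

  by_contra hne
  obtain ⟨m, rfl⟩ : ∃ m, n = m + 1 := ⟨n - 1, by omega⟩
  have hpm : p ≤ m := by omega
  have hm4 : 4 ≤ m := by omega
  have hpp : p.Prime := Fact.out
  haveI : Nontrivial (Fin m) := Fin.nontrivial_iff_two_le.2 (by omega)
  have hcard : Nat.card (alternatingGroup (Fin m)) * 2 = m.factorial := by
    have := two_mul_nat_card_alternatingGroup (α := Fin m)
    rw [Nat.card_perm, Nat.card_fin] at this
    omega
  haveI : Nontrivial (Fin (m + 1)) := Fin.nontrivial_iff_two_le.2 (by omega)
  have hcard' : Nat.card (alternatingGroup (Fin (m + 1))) * 2 = (m + 1).factorial := by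
    have := two_mul_nat_card_alternatingGroup (α := Fin (m + 1))
    rw [Nat.card_perm, Nat.card_fin] at this
    omega
  let e : alternatingGroup (Fin m) ≃* (emb m).range := MonoidHom.ofInjective (emb_injective m)
  have hrc : Nat.card (emb m).range = Nat.card (alternatingGroup (Fin m)) := (Nat.card_congr e.toEquiv).symm
  have hlt : (emb m).range ≠ ⊤ := by
    intro h1
    have h2 := hrc
    rw [h1, Nat.card_congr topEquiv.toEquiv] at h2
    rw [h2, hcard, Nat.factorial_succ] at hcard'
    have := Nat.factorial_pos m
    nlinarith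
  have hp2 : Nat.Coprime p 2 := (Nat.coprime_primes hpp Nat.prime_two).2 hp
  have hpd : p ∣ Nat.card (alternatingGroup (Fin m)) := by
    have h1 : p ∣ m.factorial := (Nat.Prime.dvd_factorial hpp).2 hpm
    rw [← hcard] at h1
    exact hp2.dvd_of_dvd_mul_right h1
  have hcl := h (emb m).range hlt (by rw [hrc]; exact hpd)
  obtain ⟨P⟩ : Nonempty (Sylow p (emb m).range) := inferInstance
  have hPn : (P : Subgroup (emb m).range).Normal := hcl P
  have hmem : ∀ x : (emb m).range, x ^ p = 1 → x ∈ (P : Subgroup (emb m).range) := by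
    intro x hx
    have h1 : IsPGroup p (zpowers x) := by
      rcases (Nat.dvd_prime hpp).1 (orderOf_dvd_of_pow_eq_one hx) with h1 | h1
      · exact IsPGroup.of_card (n := 0) (by rw [Nat.card_zpowers, h1, pow_zero])
      · exact IsPGroup.of_card (n := 1) (by rw [Nat.card_zpowers, h1, pow_one])
    obtain ⟨Q, hQ⟩ := h1.exists_le_sylow
    obtain ⟨g, hg⟩ := MulAction.exists_smul_eq (emb m).range P Q
    rw [Sylow.smul_eq_of_normal] at hg
    rw [hg]; exact hQ (mem_zpowers x)
  have hPp := P.isPGroup'
  rcases Nat.lt_or_ge m 5 with hm5 | hm5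
  · have hm : m = 4 := by omega
    subst hm
    have hp3 : p = 3 := by
      have h2 := hpp.two_le
      interval_cases p
      · exact absurd rfl hp
      · rfl
      · exact absurd hpp (by norm_num)
    subst hp3
    let c1 : alternatingGroup (Fin 4) := ⟨swap 0 1 * swap 1 2, by rw [mem_alternatingGroup]; decide⟩
    let c2 : alternatingGroup (Fin 4) := ⟨swap 0 1 * swap 1 3, by rw [mem_alternatingGroup]; decide⟩
    have h1 : c1 ^ 3 = 1 := by decide
    have h2 : c2 ^ 3 = 1 := by decide
    have h3 : (c1 * c2) ^ 2 = 1 := by decide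
    have h4 : c1 * c2 ≠ 1 := by decide
    have h5 : e (c1 * c2) ∈ (P : Subgroup (emb 4).range) := by
      rw [map_mul]
      exact mul_mem (hmem _ (by rw [← map_pow, h1, map_one])) (hmem _ (by rw [← map_pow, h2, map_one]))
    obtain ⟨k, hk⟩ := hPp ⟨_, h5⟩
    have hk' : (e (c1 * c2)) ^ 3 ^ k = 1 := congrArg Subtype.val hk
    have h6 : orderOf (e (c1 * c2)) = 1 := by
      refine Nat.eq_one_of_dvd_coprimes (a := 3 ^ k) (b := 2) ?_ (orderOf_dvd_of_pow_eq_one hk')
        (orderOf_dvd_of_pow_eq_one (by rw [← map_pow, h3, map_one]))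
      exact Nat.Coprime.pow_left _ (by norm_num)
    rw [orderOf_eq_one_iff] at h6
    exact h4 (e.injective (by rw [h6, map_one]))
  · haveI hs : IsSimpleGroup (alternatingGroup (Fin m)) := alternatingGroup.isSimpleGroup (by rw [Nat.card_fin]; exact hm5)
    have hn : ((P : Subgroup (emb m).range).comap e.toMonoidHom).Normal := hPn.comap _
    rcases hn.eq_bot_or_eq_top with h1 | h1
    · have h2 : (P : Subgroup (emb m).range) = ⊥ := by
        rw [eq_bot_iff]
        intro x hx
        obtain ⟨y, rfl⟩ := e.surjective x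
        have : y ∈ (P : Subgroup (emb m).range).comap e.toMonoidHom := hx
        rw [h1, mem_bot] at this
        rw [this, map_one, mem_bot]
      have h3 := P.dvd_card_of_dvd_card (by rw [hrc]; exact hpd)
      rw [h2, card_bot] at h3
      exact hpp.one_lt.ne' (Nat.dvd_one.1 h3)
    · have h2 : (P : Subgroup (emb m).range) = ⊤ := by
        rw [eq_top_iff]
        intro x _
        obtain ⟨y, rfl⟩ := e.surjective x
        have : y ∈ (P : Subgroup (emb m).range).comap e.toMonoidHom := by rw [h1]; exact mem_top _
        exact this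
      rw [h2] at hPp
      obtain ⟨k, hk⟩ := IsPGroup.iff_card.1 hPp
      rw [Nat.card_congr topEquiv.toEquiv, hrc] at hk
      have h4 : 2 ∣ Nat.card (alternatingGroup (Fin m)) := by
        have : 4 ∣ m.factorial := by
          exact (by decide : 4 ∣ (4 : ℕ).factorial).trans (Nat.factorial_dvd_factorial hm4)
        omega
      rw [hk] at h4
      have h5 := (Nat.prime_dvd_prime_iff_eq Nat.prime_two hpp).1 (Nat.prime_two.dvd_of_dvd_pow h4)
      exact hp h5.symm


end Cfsg.Agent.S3941
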