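import Cfsg.Statements.S3947
import Cfsg.Agent.HL_Bart3

set_option autoImplicit false
open Cfsg

namespace Cfsg.Agent.S3947

/-- Let G be a finite group and A a proper subgroup of G whose normal closure is G. Let Y be the join of all proper subgroups H of G that contain A and are generated by their own conjugates of A (the normal closure of A in H is H). Then either Y = G, or A is contained in exactly one maximal subgroup of G. -/
theorem result {G : Type*} [Group G] [Finite G] (A : Subgroup G) (hA : Subgroup.normalClosure (A : Set G) = ⊤) (hAG : A ≠ ⊤) :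
    sSup {H : Subgroup G | A ≤ H ∧ H ≠ ⊤ ∧ Subgroup.normalClosure ((A.subgroupOf H : Subgroup ↥H) : Set ↥H) = ⊤} = ⊤ ∨
      ∃! M : Subgroup G, IsCoatom M ∧ A ≤ M := by
  by_cases hY : Cfsg.Agent.HL.Bart.Y A = ⊤
  · left
    refine top_le_iff.1 (hY.ge.trans ?_)
    refine Cfsg.Agent.HL.Bart.Y_le fun H h1 h2 => le_sSup ⟨h2.1, h1, ?_⟩
    by_contra hne
    set K : Subgroup ↥H := Subgroup.normalClosure ((A.subgroupOf H : Subgroup ↥H) : Set ↥H) with hK
    have hKs : (K.map H.subtype).subgroupOf H = K := by
      rw [Subgroup.subgroupOf]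
      exact Subgroup.comap_map_eq_self_of_injective H.subtype_injective K
    have h3 := h2.2 (K.map H.subtype) (by
        intro x hx
        exact ⟨⟨x, h2.1 hx⟩, Subgroup.subset_normalClosure (by
          show (⟨x, _⟩ : H) ∈ A.subgroupOf H
          rw [Subgroup.mem_subgroupOf]; exact hx), rfl⟩) (Subgroup.map_subtype_le K) (by
        rw [← Cfsg.Agent.H17.Base.normal_subgroupOf_iff (Subgroup.map_subtype_le K), hKs]
        exact Subgroup.normalClosure_normal)
    apply hne
    rw [← hKs, h3, Subgroup.subgroupOf_self]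
  · right
    have hf : Cfsg.Agent.HL.Bart.Full A := by
      intro N h1 h2
      have h3 : N.Normal := Subgroup.normalizer_eq_top_iff.1 (top_le_iff.1 h2)
      rw [eq_top_iff, ← hA]
      exact Subgroup.normalClosure_le_normal h1
    obtain ⟨M, h1, h2, h3⟩ := Cfsg.Agent.HL.Bart.main A hAG hf hY
    exact ⟨M, ⟨h1, h2⟩, fun K hK => h3 K hK.1 hK.2⟩

end Cfsg.Agent.S3947
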