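import Cfsg.Statements.S3949


set_option autoImplicit false
open Cfsg

namespace Cfsg.Agent.S3949

/-- Let G be a finite group and α an automorphism of G of order 2 such that the elements g·α(g)⁻¹ generate G. Let j be a positive integer such that 2^j divides the order of no element inverted by α. Then the set of values of the j-th iterate of the map c ↦ c·α(c)⁻¹ is exactly the set of elements of odd order inverted by α. -/
theorem result {G : Type*} [Group G] [Finite G] (α : MulAut G) (hα : orderOf α = 2) (hG : Subgroup.closure (Set.range (fun c : G => c * (α c)⁻¹)) = ⊤)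
    (j : ℕ) (hj : ∀ g : G, α g = g⁻¹ → ¬ 2 ^ j ∣ orderOf g) :
    Set.range ((fun c : G => c * (α c)⁻¹)^[j]) = {g : G | Odd (orderOf g) ∧ α g = g⁻¹} := by

  have hα2 : ∀ g, α (α g) = g := by
    intro g
    have h1 : α ^ 2 = 1 := by rw [← hα, pow_orderOf_eq_one]
    have h2 := congrArg (fun f : MulAut G => f g) h1
    simpa [pow_two] using h2
  set f : G → G := fun c => c * (α c)⁻¹ with hf
  have hinv : ∀ c, α (f c) = (f c)⁻¹ := by
    intro c
    simp [hf, hα2]
  have hsq : ∀ k : ℕ, ∀ x : G, α x = x⁻¹ → (f^[k]) x = x ^ (2 ^ k) := by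
    intro k
    induction k with
    | zero => intro x _; simp
    | succ k ih =>
      intro x hx
      rw [Function.iterate_succ_apply, ih _ (hinv x)]
      have : f x = x ^ 2 := by simp [hf, hx, pow_two]
      rw [this, ← pow_mul, pow_succ, mul_comm]
  have hj1 : 1 ≤ j := by
    by_contra h
    have h0 : j = 0 := by omega
    exact hj 1 (by simp) (by rw [h0]; simp)
  obtain ⟨k, rfl⟩ : ∃ k, j = k + 1 := ⟨j - 1, by omega⟩
  ext y
  constructor
  · rintro ⟨c, rfl⟩
    rw [Function.iterate_succ_apply, hsq k _ (hinv c)]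
    set x := f c with hx
    have hxi : α x = x⁻¹ := hinv c
    constructor
    · obtain ⟨s, m, hm, hsm⟩ := Nat.exists_eq_two_pow_mul_odd (orderOf_pos x).ne'
      have hs : s ≤ k := by
        by_contra h
        apply hj x hxi
        rw [hsm]
        exact Dvd.dvd.mul_right (pow_dvd_pow 2 (by omega)) m
      have h1 : (x ^ 2 ^ k) ^ m = 1 := by
        rw [← pow_mul]
        apply orderOf_dvd_iff_pow_eq_one.1
        rw [hsm]
        exact Nat.mul_dvd_mul_right (pow_dvd_pow 2 hs) m
      exact Odd.of_dvd_nat hm (orderOf_dvd_of_pow_eq_one h1)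
    · rw [map_pow, hxi, inv_pow]
  · rintro ⟨hy1, hy2⟩
    obtain ⟨m, hm⟩ := exists_pow_eq_self_of_coprime (n := 2 ^ (k + 1)) (x := y)
      (Nat.Coprime.pow_left _ ((Nat.coprime_two_left).2 hy1))
    refine ⟨y ^ m, ?_⟩
    rw [hsq (k + 1) (y ^ m) (by rw [map_pow, hy2, inv_pow]), ← pow_mul, mul_comm, pow_mul, hm]


end Cfsg.Agent.S3949
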