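import Cfsg.Statements.S3982
import Cfsg.Agent.H23_Basic
import Cfsg.Agent.H2_Basic
import Cfsg.Agent.H2_Card
import Cfsg.Agent.H24_Tools
import Cfsg.Agent.H1_Schmidt

set_option autoImplicit false
open Cfsg

namespace Cfsg.Agent.S3982

open scoped Pointwise

/-- the quotient by `C` of a group `N = C * C_N(y)` -/
theorem dvd_of_mul {N : Type*} [Group N] [Finite N] (C L : Subgroup N) [C.Normal] (h : ∀ n : N, ∃ c ∈ C, ∃ l ∈ L, n = c * l) :
    C.index ∣ Nat.card L := by
  apply Subgroup.card_dvd_of_surjective ((QuotientGroup.mk' C).comp L.subtype)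
  intro x
  obtain ⟨n, rfl⟩ := QuotientGroup.mk'_surjective C x
  obtain ⟨c, hc, l, hl, rfl⟩ := h n
  refine ⟨⟨l, hl⟩, ?_⟩
  have h1 : QuotientGroup.mk' C c = 1 := (QuotientGroup.eq_one_iff c).2 hc
  rw [map_mul, h1, one_mul]
  rfl

/-- two involutions with odd order product -/
theorem conj_of_odd {G : Type*} [Group G] (y t : G) (hy : y * y = 1) (ht : t * t = 1) (k : ℕ) (h : (y * t) ^ (2 * k + 1) = 1) :
    (y * t) ^ (k + 1) * t * ((y * t) ^ (k + 1))⁻¹ = y := by
  set c := y * t with hc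
  have hyi : y⁻¹ = y := inv_eq_of_mul_eq_one_left hy
  have hti : t⁻¹ = t := inv_eq_of_mul_eq_one_left ht
  have h1 : t * c * t⁻¹ = c⁻¹ := by rw [hc, mul_inv_rev, hyi, hti, mul_assoc, mul_assoc, ht, mul_one]
  have h2 : t * c ^ (k + 1) * t⁻¹ = (c ^ (k + 1))⁻¹ := by
    rw [← conj_pow, h1, inv_pow]
  have h3 : t * (c ^ (k + 1))⁻¹ = c ^ (k + 1) * t := by
    rw [← h2, hti, ← mul_assoc, ← mul_assoc, ht, one_mul]
  rw [mul_assoc, h3, ← mul_assoc, ← pow_add]
  have h5 : k + 1 + (k + 1) = (2 * k + 1) + 1 := by ring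
  rw [h5, pow_succ, h, one_mul, hc, mul_assoc, ht, mul_one]

/-- Core: in a group `N` with normal nontrivial `p`-subgroup `Q` that is Sylow in `C = C(Q)` but not in `N`, `y` an involution
inverting `Q`. -/
theorem core {G : Type*} [Group G] [Finite G] (p : ℕ) [Fact p.Prime]
    (hC : ∀ g : G, g ≠ 1 → (∃ k : ℕ, orderOf g = p ^ k) → Odd (Nat.card ↥(Subgroup.centralizer ({g} : Set G))))
    (Q : Subgroup G) (hQ : IsPGroup p ↥Q) (hQ1 : Q ≠ ⊥) (hev : Even (Nat.card ↥(Subgroup.normalizer (Q : Set G))))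
    (hmax : ∀ R : Subgroup G, IsPGroup p R → R ≠ ⊥ → Even (Nat.card ↥(Subgroup.normalizer (R : Set G))) → Nat.card R ≤ Nat.card Q)
    (P : Sylow p G) (hQP : Q ≤ P) : Q = P := by
  classical
  by_contra hne
  set N : Subgroup G := Subgroup.normalizer (Q : Set G) with hN
  set Cs : Subgroup G := Subgroup.centralizer (Q : Set G) with hCs
  have hCsN : Cs ≤ N := Subgroup.centralizer_le_normalizer _
  have hQN : Q ≤ N := Subgroup.le_normalizer
  have hord : ∀ z ∈ Q, ∃ k, orderOf z = p ^ k := fun z hz => by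
    obtain ⟨k, hk⟩ := (IsPGroup.iff_orderOf.1 hQ) ⟨z, hz⟩
    exact ⟨k, by rw [← hk, ← Subgroup.orderOf_coe]⟩
  -- no involution centralises a nontrivial p-element
  have hfree : ∀ y g : G, y * y = 1 → y ≠ 1 → g ≠ 1 → (∃ k, orderOf g = p ^ k) → y * g = g * y → False := by
    intro y g hy hy1 hg1 hg hyg
    have h1 := hC g hg1 hg
    have h2 : orderOf y = 2 := orderOf_eq_prime (by rw [pow_two, hy]) hy1
    have h3 : y ∈ Subgroup.centralizer ({g} : Set G) := by
      rw [Subgroup.mem_centralizer_singleton_iff]; exact hyg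
    have h4 : orderOf y ∣ Nat.card ↥(Subgroup.centralizer ({g} : Set G)) := by
      rw [← Subgroup.orderOf_mk y h3]; exact orderOf_dvd_natCard _
    rw [h2] at h4
    exact (Nat.not_even_iff_odd.2 h1) (even_iff_two_dvd.2 h4)
  obtain ⟨⟨z0, hz0⟩, hz01⟩ := (Subgroup.ne_bot_iff_exists_ne_one).1 hQ1
  have hz01' : z0 ≠ 1 := fun h => hz01 (Subtype.ext h)
  have hCodd : Odd (Nat.card Cs) := by
    have h1 := hC z0 hz01' (hord z0 hz0)
    have h2 : Cs ≤ Subgroup.centralizer ({z0} : Set G) :=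
      Subgroup.centralizer_le (by simpa using hz0)
    exact Odd.of_dvd_nat h1 (Subgroup.card_dvd_of_le h2)
  haveI hCnorm : (Cs.subgroupOf N).Normal := by
    constructor
    rintro ⟨c, hcN⟩ hc ⟨n, hn⟩
    rw [Subgroup.mem_subgroupOf] at hc ⊢
    change n * c * n⁻¹ ∈ Cs
    rw [hCs, Subgroup.mem_centralizer_iff]
    intro z hz
    have h1 : n⁻¹ * z * n ∈ Q := by
      have := (Subgroup.mem_normalizer_iff'.1 (N.inv_mem hn) (z * n)).2
      have h2 := (Subgroup.mem_normalizer_iff.1 (N.inv_mem hn) z).1 hz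
      rwa [inv_inv] at h2
    have h2 := (Subgroup.mem_centralizer_iff.1 hc) _ h1
    have h3 : z * (n * c * n⁻¹) = n * ((n⁻¹ * z * n) * c) * n⁻¹ := by group
    rw [h3, h2]; group
  have hcardC : Nat.card (Cs.subgroupOf N) = Nat.card Cs := H2.Card.card_subgroupOf_of_le hCsN
  have hidx : (Cs.subgroupOf N).index * Nat.card Cs = Nat.card N := by
    rw [← hcardC]; exact Subgroup.index_mul_card _
  -- an involution
  obtain ⟨⟨y, hyN⟩, hy2⟩ := exists_prime_orderOf_dvd_card' 2 (even_iff_two_dvd.1 hev)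
  rw [Subgroup.orderOf_mk] at hy2
  have hy1 : y ≠ 1 := by rintro rfl; simp at hy2
  have hyy : y * y = 1 := by rw [← pow_two, ← hy2, pow_orderOf_eq_one]
  have hyi : y⁻¹ = y := inv_eq_of_mul_eq_one_left hyy
  let φ : Q →* Q :=
    { toFun := fun z => ⟨y * z * y⁻¹, (Subgroup.mem_normalizer_iff.1 hyN z).1 z.2⟩
      map_one' := by ext; simp
      map_mul' := by intro a b; ext; simp }
  have hφ : MonoidHom.FixedPointFree φ := by
    intro z hz
    by_contra hz1
    have h1 : y * z * y⁻¹ = z := congrArg Subtype.val hz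
    exact hfree y z hyy hy1 (fun h => hz1 (Subtype.ext h)) (hord z z.2) (by rw [← mul_inv_eq_iff_eq_mul]; exact h1)
  have hφ2 : Function.Involutive φ := by
    intro z
    apply Subtype.ext
    change y * (y * z * y⁻¹) * y⁻¹ = z
    rw [hyi]
    have : y * (y * (z : G) * y) * y = (y * y) * z * (y * y) := by group
    rw [this, hyy, one_mul, mul_one]
  have hinv : ∀ z ∈ Q, y * z * y⁻¹ = z⁻¹ := by
    intro z hz
    exact congrArg Subtype.val (congrFun (hφ.coe_eq_inv_of_involutive hφ2) ⟨z, hz⟩)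
  have hQC : Q ≤ Cs := by
    intro z hz
    rw [hCs, Subgroup.mem_centralizer_iff]
    intro w hw
    exact congrArg Subtype.val (hφ.commute_all_of_involutive hφ2 ⟨w, hw⟩ ⟨z, hz⟩)
  -- Step A
  have hstepA : ¬ p ∣ Q.relIndex Cs := by
    have hQ' : IsPGroup p (Q.subgroupOf Cs) := hQ.comap_subtype
    obtain ⟨R, hR⟩ := hQ'.exists_le_sylow
    set RG := (R : Subgroup Cs).map Cs.subtype with hRG
    have hQR : Q ≤ RG := fun z hz => ⟨⟨z, hQC hz⟩, hR (show (⟨z, hQC hz⟩ : Cs) ∈ Q.subgroupOf Cs from hz), rfl⟩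
    have hRp : IsPGroup p RG := R.2.map _
    have hR1 : RG ≠ ⊥ := fun h => hQ1 (le_bot_iff.1 (h ▸ hQR))
    -- Frattini
    have hfr : ∀ n : N, ∃ c ∈ Cs.subgroupOf N, ∃ l ∈ (Subgroup.normalizer (RG : Set G)).subgroupOf N, n = c * l := by
      rintro ⟨n, hn⟩
      have hconj : ∀ c ∈ Cs, n * c * n⁻¹ ∈ Cs := fun c hc =>
        hCnorm.conj_mem ⟨c, hCsN hc⟩ hc ⟨n, hn⟩
      -- the automorphism of Cs induced by n
      let ψ : Cs →* Cs :=
        { toFun := fun c => ⟨n * c * n⁻¹, hconj c c.2⟩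
          map_one' := by ext; simp
          map_mul' := by intro a b; ext; simp }
      have hψ : Function.Injective ψ := by
        intro a b h
        have h1 : n * (a : G) * n⁻¹ = n * b * n⁻¹ := congrArg Subtype.val h
        exact Subtype.ext (mul_left_cancel (mul_right_cancel h1))
      obtain ⟨R', hR'⟩ := (R.2.map ψ).exists_le_sylow
      obtain ⟨c, rfl⟩ := MulAction.exists_smul_eq Cs R R'
      have h2 : (c : G)⁻¹ * n ∈ Subgroup.normalizer (RG : Set G) := by
        apply H24.Tools.mem_normalizer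
        rintro _ ⟨r, hr, rfl⟩
        have h3 := (H2.Basic.mem_smul_sylow R c _).1 (hR' ⟨r, hr, rfl⟩)
        refine ⟨_, h3, ?_⟩
        change (c : G)⁻¹ * (n * r * n⁻¹) * c = _
        simp only [Subgroup.coe_subtype]
        group
      refine ⟨⟨c, hCsN c.2⟩, c.2, ⟨(c : G)⁻¹ * n, N.mul_mem (N.inv_mem (hCsN c.2)) hn⟩, h2, ?_⟩
      apply Subtype.ext
      change n = c * ((c : G)⁻¹ * n)
      group
    have h1 := dvd_of_mul _ _ hfr
    have h2 : Nat.card ((Subgroup.normalizer (RG : Set G)).subgroupOf N) ∣ Nat.card (Subgroup.normalizer (RG : Set G)) := by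
      rw [H2.Card.card_subgroupOf]
      exact Subgroup.card_dvd_of_le inf_le_left
    have h3 : Even ((Cs.subgroupOf N).index) := by
      rw [← hidx] at hev
      rcases Nat.even_mul.1 hev with h | h
      · exact h
      · exact absurd hCodd (Nat.not_odd_iff_even.2 h)
    have h4 : Even (Nat.card (Subgroup.normalizer (RG : Set G))) :=
      even_iff_two_dvd.2 ((even_iff_two_dvd.1 h3).trans (h1.trans h2))
    have h5 := hmax RG hRp hR1 h4
    have h6 : Q = RG := H2.Card.eq_of_le_of_card_eq hQR (le_antisymm (Subgroup.card_le_of_le hQR) h5)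
    have h7 : Q.subgroupOf Cs = R := by
      rw [h6, hRG]
      exact Subgroup.comap_map_eq_self_of_injective Cs.subtype_injective _
    rw [Subgroup.relIndex, h7]
    exact R.not_dvd_index
  -- Step C
  have hstepC : ∀ n ∈ N, ∃ c ∈ Cs, ∃ l ∈ Subgroup.centralizer ({y} : Set G), n = c * l := by
    intro n hn
    set t := n * y * n⁻¹ with ht
    have htt : t * t = 1 := by
      have : t * t = n * (y * y) * n⁻¹ := by rw [ht]; group
      rw [this, hyy]; group
    have hti : t⁻¹ = t := inv_eq_of_mul_eq_one_left htt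
    have htinv : ∀ z ∈ Q, t * z * t⁻¹ = z⁻¹ := by
      intro z hz
      have h2 : n⁻¹ * z * n ∈ Q := by
        have h2 := (Subgroup.mem_normalizer_iff.1 (N.inv_mem hn) z).1 hz
        rwa [inv_inv] at h2
      have h3 : t * z * t⁻¹ = n * (y * (n⁻¹ * z * n) * y⁻¹) * n⁻¹ := by rw [ht]; group
      rw [h3, hinv _ h2]; group
    have hyt : y * t ∈ Cs := by
      rw [hCs, Subgroup.mem_centralizer_iff]
      intro z hz
      have h1 : (y * t) * z * (y * t)⁻¹ = z := by
        have : (y * t) * z * (y * t)⁻¹ = y * (t * z * t⁻¹) * y⁻¹ := by group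
        rw [this, htinv z hz, hinv _ (Q.inv_mem hz), inv_inv]
      exact (mul_inv_eq_iff_eq_mul.1 h1).symm
    obtain ⟨k, hk⟩ : Odd (orderOf (y * t)) := by
      refine Odd.of_dvd_nat hCodd ?_
      rw [← Subgroup.orderOf_mk (y * t) hyt]
      exact orderOf_dvd_natCard _
    have h1 := conj_of_odd y t hyy htt k (by rw [← hk, pow_orderOf_eq_one])
    set d := (y * t) ^ (k + 1) with hd
    have hdC : d ∈ Cs := Cs.pow_mem hyt _
    refine ⟨d⁻¹, Cs.inv_mem hdC, d * n, ?_, by group⟩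
    rw [Subgroup.mem_centralizer_singleton_iff]
    have h2 : (d * n) * y * (d * n)⁻¹ = y := by
      have : (d * n) * y * (d * n)⁻¹ = d * t * d⁻¹ := by rw [ht]; group
      rw [this, h1]
    exact mul_inv_eq_iff_eq_mul.1 h2
  have hfin := dvd_of_mul (Cs.subgroupOf N) ((Subgroup.centralizer ({y} : Set G)).subgroupOf N) (by
    rintro ⟨n, hn⟩
    obtain ⟨c, hc, l, hl, hcl⟩ := hstepC n hn
    have hlN : l ∈ N := by
      have : l = c⁻¹ * n := by rw [hcl]; group
      rw [this]; exact N.mul_mem (N.inv_mem (hCsN hc)) hn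
    exact ⟨⟨c, hCsN hc⟩, hc, ⟨l, hlN⟩, hl, Subtype.ext hcl⟩)
  have hlt : Q < P := lt_of_le_of_ne hQP hne
  have hgrow := H1.Schmidt.lt_inf_normalizer hlt P.2.isNilpotent
  have hpN : p ∣ Q.relIndex N := by
    have h1 : IsPGroup p ((P : Subgroup G) ⊓ N : Subgroup G) := P.2.to_le inf_le_left
    obtain ⟨k, hk⟩ := IsPGroup.iff_card.1 h1
    have h2 := H2.Card.card_mul_relIndex hgrow.le
    have h3 : Q.relIndex ((P : Subgroup G) ⊓ N) ∣ p ^ k := by
      rw [← hk, ← h2]; exact dvd_mul_left _ _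
    obtain ⟨j, -, hj⟩ := (Nat.dvd_prime_pow Fact.out).1 h3
    have h4 : Q.relIndex ((P : Subgroup G) ⊓ N) ≠ 1 := by
      rw [Ne, Subgroup.relIndex_eq_one]
      exact not_le_of_gt hgrow
    have h5 : j ≠ 0 := by rintro rfl; exact h4 (by rw [hj, pow_zero])
    have h6 : p ∣ Q.relIndex ((P : Subgroup G) ⊓ N) := by rw [hj]; exact dvd_pow_self p h5
    refine h6.trans ?_
    have h7 := Subgroup.relIndex_mul_relIndex Q ((P : Subgroup G) ⊓ N) N hgrow.le inf_le_right
    rw [← h7]; exact dvd_mul_right _ _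
  have h8 := Subgroup.relIndex_mul_relIndex Q Cs N hQC hCsN
  rw [← h8] at hpN
  rcases ((Fact.out : p.Prime).dvd_mul).1 hpN with h | h
  · exact hstepA h
  · have h9 : p ∣ Nat.card ((Subgroup.centralizer ({y} : Set G)).subgroupOf N) := h.trans hfin
    obtain ⟨⟨g, hg⟩, hgo⟩ := exists_prime_orderOf_dvd_card' p h9
    have h10 : orderOf (g : G) = p := by
      rw [Subgroup.orderOf_coe, ← hgo, Subgroup.orderOf_mk g hg]
    have h11 : (g : G) ≠ 1 := by
      intro h; rw [h, orderOf_one] at h10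
      exact (Fact.out : p.Prime).one_lt.ne h10
    refine hfree y g hyy hy1 h11 ⟨1, by rw [pow_one, h10]⟩ ?_
    rw [Subgroup.mem_subgroupOf, Subgroup.mem_centralizer_singleton_iff] at hg
    exact hg.symm

/-- Let p be an odd prime and G a finite group of even order divisible by p in which the centralizer of every non-identity p-element has odd order. If some nontrivial p-subgroup of G has a normalizer of even order, then the normalizer of every Sylow p-subgroup of G has even order. -/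
theorem result {G : Type*} [Group G] [Finite G] (p : ℕ) [Fact p.Prime] (hp2 : p ≠ 2) (hpG : p ∣ Nat.card G) (h2G : 2 ∣ Nat.card G) (hC : ∀ g : G, g ≠ 1 → (∃ k : ℕ, orderOf g = p ^ k) → Odd (Nat.card ↥(Subgroup.centralizer ({g} : Set G)))) (Q : Subgroup G) (hQ : IsPGroup p ↥Q) (hQ1 : Q ≠ ⊥) (hev : Even (Nat.card ↥(Subgroup.normalizer (Q : Set G)))) (P : Sylow p G) : Even (Nat.card ↥(Subgroup.normalizer ((P : Subgroup G) : Set G))) := by

  classical
  -- choose Q maximal
  obtain ⟨R, ⟨hR, hR1, hRev⟩, hmax⟩ := Set.exists_max_image {R : Subgroup G | IsPGroup p R ∧ R ≠ ⊥ ∧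
    Even (Nat.card ↥(Subgroup.normalizer (R : Set G)))} (fun R => Nat.card R) (Set.toFinite _) ⟨Q, hQ, hQ1, hev⟩
  obtain ⟨S, hS⟩ := hR.exists_le_sylow
  have h1 := core p hC R hR hR1 hRev (fun T h1 h2 h3 => hmax T ⟨h1, h2, h3⟩) S hS
  rw [h1] at hRev
  have h2 : Nat.card (Sylow p G) = (Subgroup.normalizer ((S : Subgroup G) : Set G)).index := S.card_eq_index_normalizer
  have h3 : Nat.card (Sylow p G) = (Subgroup.normalizer ((P : Subgroup G) : Set G)).index := P.card_eq_index_normalizer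
  have h4 := (Subgroup.normalizer ((S : Subgroup G) : Set G)).index_mul_card
  have h5 := (Subgroup.normalizer ((P : Subgroup G) : Set G)).index_mul_card
  rw [← h2] at h4
  rw [← h3, ← h4] at h5
  rw [Nat.eq_of_mul_eq_mul_left Nat.card_pos h5]
  exact hRev


end Cfsg.Agent.S3982
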