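import Cfsg.Statements.S3984
import Cfsg.Agent.H23_TISyl

set_option autoImplicit false
open scoped Pointwise
open Cfsg

namespace Cfsg.Agent.S3984

/-- Let P be a Sylow p-subgroup of the finite group G that meets each conjugate g P g⁻¹ with g outside N_G(P) trivially, and let N be a normal subgroup of G of order prime to p. Then every Sylow p-subgroup Q of G ⧸ N meets each conjugate x Q x⁻¹ with x outside its normalizer trivially. -/
theorem result {G : Type*} [Group G] [Finite G] (p : ℕ) [Fact p.Prime] (P : Sylow p G) (hTI : ∀ g : G, g ∉ Subgroup.normalizer ((P : Subgroup G) : Set G) → (P : Subgroup G) ⊓ (MulAut.conj g • (P : Subgroup G)) = ⊥) (N : Subgroup G) [N.Normal] (hN : (Nat.card ↥N).Coprime p) (Q : Sylow p (G ⧸ N)) : ∀ x : G ⧸ N, x ∉ Subgroup.normalizer ((Q : Subgroup (G ⧸ N)) : Set (G ⧸ N)) → (Q : Subgroup (G ⧸ N)) ⊓ (MulAut.conj x • (Q : Subgroup (G ⧸ N))) = ⊥ := by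
  have hp : p.Prime := Fact.out
  intro x hx
  refine Cfsg.Agent.H23.TISyl.ti_of_all ?_ Q x hx
  intro T S hTS
  have hsurj := QuotientGroup.mk'_surjective N
  obtain ⟨T', rfl⟩ := Sylow.mapSurjective_surjective hsurj p T
  obtain ⟨S', rfl⟩ := Sylow.mapSurjective_surjective hsurj p S
  obtain ⟨⟨y, hy⟩, hy1⟩ := Subgroup.ne_bot_iff_exists_ne_one.1 hTS
  obtain ⟨⟨t, ht, hty⟩, ⟨s, hs, hsy⟩⟩ := hy
  have hts : s⁻¹ * t ∈ N := by
    rw [← QuotientGroup.eq]
    exact hsy.trans hty.symm
  -- both are Sylow in zpowers t ⊔ N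
  set W := Subgroup.zpowers t ⊔ N with hW
  have htW : t ∈ W := le_sup_left (α := Subgroup G) (Subgroup.mem_zpowers t)
  have hsW : s ∈ W := by
    have h1 : s = t * (s⁻¹ * t)⁻¹ := by group
    rw [h1]
    exact W.mul_mem htW (le_sup_right (α := Subgroup G) (N.inv_mem hts))
  have hpt : IsPGroup p (Subgroup.zpowers t) := T'.isPGroup'.to_le (Subgroup.zpowers_le.2 ht)
  have hps : IsPGroup p (Subgroup.zpowers s) := S'.isPGroup'.to_le (Subgroup.zpowers_le.2 hs)
  obtain ⟨h, hhW, R, hR1, hR2⟩ := Cfsg.Agent.H2.Basic.exists_conj_common_sylow W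
    (Subgroup.zpowers t) (Subgroup.zpowers s) hpt hps (Subgroup.zpowers_le.2 htW)
    (Subgroup.zpowers_le.2 hsW)
  have ht1 : t ≠ 1 := by
    rintro rfl
    apply hy1
    apply Subtype.ext
    change y = 1
    exact hty.symm.trans (map_one _)
  have hs1 : s ≠ 1 := by
    rintro rfl
    apply hy1
    apply Subtype.ext
    change y = 1
    exact hsy.symm.trans (map_one _)
  have e1 : R = T' := by
    apply Cfsg.Agent.H23.TISyl.ti_all P hTI
    intro h0
    have : t ∈ (R : Subgroup G) ⊓ T' := ⟨hR1 (Subgroup.mem_zpowers t), ht⟩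
    rw [h0, Subgroup.mem_bot] at this
    exact ht1 this
  have e2 : R = h • S' := by
    apply Cfsg.Agent.H23.TISyl.ti_all P hTI
    intro h0
    have : h * s * h⁻¹ ∈ (R : Subgroup G) ⊓ (h • S' : Sylow p G) :=
      ⟨hR2 s (Subgroup.mem_zpowers s), (Cfsg.Agent.H2.Basic.mem_smul_sylow S' h _).2 (by
        have : h⁻¹ * (h * s * h⁻¹) * h = s := by group
        rw [this]; exact hs)⟩
    rw [h0, Subgroup.mem_bot] at this
    apply hs1
    have h2 : s = h⁻¹ * (h * s * h⁻¹) * h := by group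
    rw [h2, this]; group
  -- T' = h • S' with h in W = zpowers t ⊔ N
  have hmk : (QuotientGroup.mk' N h) ∈ Subgroup.map (QuotientGroup.mk' N) (S' : Subgroup G) := by
    have h1 : W.map (QuotientGroup.mk' N) ≤ Subgroup.map (QuotientGroup.mk' N) (S' : Subgroup G) := by
      rw [hW, Subgroup.map_sup, sup_le_iff]
      constructor
      · rw [MonoidHom.map_zpowers, Subgroup.zpowers_le]
        exact ⟨s, hs, hsy.trans hty.symm⟩
      · have : N.map (QuotientGroup.mk' N) = ⊥ := by
          rw [Subgroup.map_eq_bot_iff, QuotientGroup.ker_mk']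
        rw [this]; exact bot_le
    exact h1 ⟨h, hhW, rfl⟩
  have hle : Subgroup.map (QuotientGroup.mk' N) (T' : Subgroup G) ≤
      Subgroup.map (QuotientGroup.mk' N) (S' : Subgroup G) := by
    rintro _ ⟨x, hx, rfl⟩
    have hx' : x ∈ (h • S' : Sylow p G) := by rw [← e2, e1]; exact hx
    have h3 := (Cfsg.Agent.H2.Basic.mem_smul_sylow S' h x).1 hx'
    have h4 : x = h * (h⁻¹ * x * h) * h⁻¹ := by group
    rw [h4, map_mul, map_mul, map_inv]
    exact Subgroup.mul_mem _ (Subgroup.mul_mem _ hmk ⟨_, h3, rfl⟩) (Subgroup.inv_mem _ hmk)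
  apply Sylow.ext
  exact ((T'.mapSurjective hsurj).3 (S'.mapSurjective hsurj).2 hle).symm

end Cfsg.Agent.S3984
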