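import Cfsg.Statements.S3985
import Cfsg.Agent.H23_TISyl
import Cfsg.Agent.H23_ZAction
import Cfsg.Agent.H2_Basic

set_option autoImplicit false
open scoped Pointwise
open Cfsg

namespace Cfsg.Agent.S3985

/-- Let P be a cyclic Sylow p-subgroup of the finite group G. Then P meets each conjugate g P g⁻¹ with g outside N_G(P) trivially if and only if P is weakly self-centralizing: C_G(x) = C_G(P) for every non-identity x ∈ P. -/
theorem result {G : Type*} [Group G] [Finite G] (p : ℕ) [Fact p.Prime] (P : Sylow p G) (hcyc : IsCyclic ↥(P : Subgroup G)) : (∀ g : G, g ∉ Subgroup.normalizer ((P : Subgroup G) : Set G) → (P : Subgroup G) ⊓ (MulAut.conj g • (P : Subgroup G)) = ⊥) ↔ ∀ x : G, x ∈ (P : Subgroup G) → x ≠ 1 → Subgroup.centralizer ({x} : Set G) = Subgroup.centralizer ((P : Subgroup G) : Set G) := by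
  have hp : p.Prime := Fact.out
  haveI := hcyc
  constructor
  · intro hTI x hx hx1
    apply le_antisymm
    · intro g hg
      -- g normalizes P
      have hxn : ∀ g ∈ Subgroup.centralizer ({x} : Set G), g ∈ Subgroup.normalizer ((P : Subgroup G) : Set G) := by
        intro g hg
        by_contra hn
        have h1 := hTI g hn
        have h2 : x ∈ (P : Subgroup G) ⊓ (g • P : Sylow p G) := by
          refine ⟨hx, (Cfsg.Agent.H2.Basic.mem_smul_sylow P g x).2 ?_⟩
          have h3 := Subgroup.mem_centralizer_singleton_iff.1 hg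
          have : g⁻¹ * x * g = x := by
            rw [mul_assoc, ← h3]; group
          rw [this]; exact hx
        have h4 : x ∈ (⊥ : Subgroup G) := by rw [← h1]; exact h2
        exact hx1 (Subgroup.mem_bot.1 h4)
      obtain ⟨a, ha, b, hb, hab, _, ⟨k, hk⟩, hbp⟩ := Cfsg.Agent.H2.Basic.exists_p_decomp p g
      have haC : a ∈ Subgroup.centralizer ({x} : Set G) := (Subgroup.zpowers_le.2 hg) ha
      have hbC : b ∈ Subgroup.centralizer ({x} : Set G) := (Subgroup.zpowers_le.2 hg) hb
      have haP : a ∈ (P : Subgroup G) := by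
        have h1 : IsPGroup p (Subgroup.zpowers a) := IsPGroup.of_card (n := k) (by rw [Nat.card_zpowers, hk])
        have h2 : Subgroup.zpowers a ≤ Subgroup.normalizer ((P : Subgroup G) : Set G) :=
          Subgroup.zpowers_le.2 (hxn a haC)
        have h3 : IsPGroup p (Subgroup.zpowers a ⊔ (P : Subgroup G) : Subgroup G) :=
          h1.to_sup_of_normal_right' P.2 h2
        have h4 := P.3 h3 le_sup_right
        rw [← h4]
        exact le_sup_left (α := Subgroup G) (Subgroup.mem_zpowers a)
      have hbP : b ∈ Subgroup.centralizer ((P : Subgroup G) : Set G) := by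
        have h1 : (P : Subgroup G) ≤ Subgroup.centralizer (Subgroup.zpowers b : Set G) := by
          apply Cfsg.Agent.H23.ZAction.cyclic_pgroup_action P.2
          · exact Subgroup.zpowers_le.2 (hxn b hbC)
          · rw [Nat.card_zpowers]
            obtain ⟨n, hn⟩ := IsPGroup.iff_card.1 P.2
            rw [hn]
            exact Nat.Coprime.pow_right n hbp
          · intro h0
            apply hx1
            rw [← Subgroup.mem_bot, ← h0]
            refine ⟨hx, ?_⟩
            have h5 : Subgroup.zpowers b ≤ Subgroup.centralizer ({x} : Set G) := Subgroup.zpowers_le.2 hbC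
            intro z hz
            exact (Subgroup.mem_centralizer_singleton_iff.1 (h5 hz)).symm ▸ rfl
        intro y hy
        exact ((h1 hy) b (Subgroup.mem_zpowers b)).symm
      rw [← hab]
      refine Subgroup.mul_mem _ ?_ hbP
      intro y hy
      have := IsMulCommutative.is_comm (M := (P : Subgroup G)) |>.comm ⟨y, hy⟩ ⟨a, haP⟩
      exact congrArg Subtype.val this
    · exact Subgroup.centralizer_le (Set.singleton_subset_iff.2 hx)
  · intro hC g hg
    by_contra hne
    apply hg
    obtain ⟨⟨x, hx⟩, hx1⟩ := Subgroup.ne_bot_iff_exists_ne_one.1 hne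
    have hx1' : x ≠ 1 := fun h => hx1 (Subtype.ext h)
    have hxg : g⁻¹ * x * g ∈ (P : Subgroup G) := (Cfsg.Agent.H2.Basic.mem_smul_sylow P g x).1 hx.2
    have hPab := IsMulCommutative.is_comm (M := (P : Subgroup G))
    have h1 : ((g • P : Sylow p G) : Subgroup G) ≤ Subgroup.centralizer ((P : Subgroup G) : Set G) := by
      rw [← hC x hx.1 hx1']
      intro y hy
      have hy' := (Cfsg.Agent.H2.Basic.mem_smul_sylow P g y).1 hy
      rw [Subgroup.mem_centralizer_singleton_iff]
      have h2 := congrArg Subtype.val (hPab.comm ⟨_, hy'⟩ ⟨_, hxg⟩)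
      simp only [Subgroup.coe_mul] at h2
      have h3 : g⁻¹ * (y * x) * g = g⁻¹ * (x * y) * g := by
        calc g⁻¹ * (y * x) * g = (g⁻¹ * y * g) * (g⁻¹ * x * g) := by group
          _ = (g⁻¹ * x * g) * (g⁻¹ * y * g) := h2
          _ = _ := by group
      exact mul_left_cancel (mul_right_cancel h3)
    have h3 : IsPGroup p (((g • P : Sylow p G) : Subgroup G) ⊔ (P : Subgroup G) : Subgroup G) :=
      (g • P : Sylow p G).2.to_sup_of_normal_right' P.2 (h1.trans (Subgroup.centralizer_le_normalizer _))
    have h4 := P.3 h3 le_sup_right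
    have h5 := (g • P : Sylow p G).3 h3 le_sup_left
    apply Sylow.smul_eq_iff_mem_normalizer.1
    apply Sylow.ext
    rw [← h5, h4]

end Cfsg.Agent.S3985
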