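import Cfsg.Statements.S3987
import Cfsg.Agent.H23_DirF
import Cfsg.Agent.H23_ClassSize2
import Cfsg.Agent.H1_Factor

set_option autoImplicit false
open Cfsg

namespace Cfsg.Agent.S3987

/-- Let p be a prime and G a finite group. Then some Sylow p-subgroup of G is a direct factor of G (normal with a normal complement) if and only if for every element x of p-power order and every element y whose order is a power of a prime other than p, the conjugacy class of x y has as many elements as the product of the sizes of the classes of x and of y. -/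
theorem result {G : Type*} [Group G] [Finite G] (p : ℕ) [Fact p.Prime] : (∃ (P : Sylow p G) (K : Subgroup G), (P : Subgroup G).Normal ∧ K.Normal ∧ (P : Subgroup G) ⊓ K = ⊥ ∧ (P : Subgroup G) ⊔ K = ⊤) ↔ ∀ x y : G, (∃ a : ℕ, orderOf x = p ^ a) → (∃ q b : ℕ, q.Prime ∧ q ≠ p ∧ orderOf y = q ^ b) → (Subgroup.centralizer ({x * y} : Set G)).index = (Subgroup.centralizer ({x} : Set G)).index * (Subgroup.centralizer ({y} : Set G)).index := by
  have hp : p.Prime := Fact.out
  constructor
  · rintro ⟨P, K, hP, hK, h1, h2⟩ x y hx hy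
    have hxy := Cfsg.Agent.H23.DirF.iff_commute.1 ⟨P, K, hP, hK, h1, h2⟩
    obtain ⟨i1, i2⟩ := Cfsg.Agent.H23.DirF.index_eq hP hK h1 h2
    obtain ⟨a, ha⟩ := hx
    obtain ⟨q, b, hq, hqp, hb⟩ := hy
    obtain ⟨n, hn⟩ := IsPGroup.iff_card.1 P.2
    have hKc : ¬ p ∣ Nat.card K := by
      rw [← i2]; exact P.not_dvd_index
    have hxP : x ∈ (P : Subgroup G) := by
      apply Cfsg.Agent.H23.DirF.mem_of_coprime hP x (n := Nat.card K) _ i2.dvd
      rw [ha]
      exact Nat.Coprime.pow_left a ((Nat.Prime.coprime_iff_not_dvd hp).2 hKc)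
    have hyK : y ∈ K := by
      apply Cfsg.Agent.H23.DirF.mem_of_coprime hK y (n := p ^ n) _ (i1.trans hn).dvd
      rw [hb]
      exact Nat.Coprime.pow _ _ ((Nat.coprime_primes hq hp).2 hqp)
    have c1 : K ≤ Subgroup.centralizer ({x} : Set G) := by
      intro k hk
      rw [Subgroup.mem_centralizer_singleton_iff]
      exact (Cfsg.Agent.H23.DirF.comm_of_direct hP hK h1 x k hxP hk).symm
    have c2 : (P : Subgroup G) ≤ Subgroup.centralizer ({y} : Set G) := by
      intro k hk
      rw [Subgroup.mem_centralizer_singleton_iff]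
      exact Cfsg.Agent.H23.DirF.comm_of_direct hP hK h1 k y hk hyK
    have d1 := Subgroup.index_dvd_of_le c1
    have d2 := Subgroup.index_dvd_of_le c2
    rw [i1, hn] at d1
    rw [i2] at d2
    have hcop : (Subgroup.centralizer ({x} : Set G)).index.Coprime (Subgroup.centralizer ({y} : Set G)).index :=
      Nat.Coprime.of_dvd d1 d2 (Nat.Coprime.pow_left n ((Nat.Prime.coprime_iff_not_dvd hp).2 hKc))
    obtain ⟨e1, _⟩ := Cfsg.Agent.H1.Factor.index_inf_of_coprime _ _ hcop
    rw [← e1]
    congr 1
    have hcomm := hxy x y ⟨a, ha⟩ ⟨q, b, hq, hqp, hb⟩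
    have hco : Nat.Coprime (orderOf x) (orderOf y) := by
      rw [ha, hb]
      exact Nat.Coprime.pow _ _ ((Nat.coprime_primes hp hq).2 (Ne.symm hqp))
    apply le_antisymm
    · apply le_inf
      · exact Cfsg.Agent.H23.ClassSize.centralizer_mul_le hcomm hco
      · have := Cfsg.Agent.H23.ClassSize.centralizer_mul_le hcomm.symm hco.symm
        rw [hcomm]
        exact this
    · rintro c ⟨hc1, hc2⟩
      rw [Subgroup.mem_centralizer_singleton_iff]
      have e1 := Subgroup.mem_centralizer_singleton_iff.1 hc1
      have e2 := Subgroup.mem_centralizer_singleton_iff.1 hc2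
      calc c * (x * y) = (c * x) * y := by group
        _ = x * (c * y) := by rw [e1]; group
        _ = x * y * c := by rw [e2]; group
  · intro h
    apply Cfsg.Agent.H23.DirF.direct_of_commute
    intro x y hx hy
    have h1 := h x y hx hy
    have h2 : (Subgroup.centralizer ({x} : Set G) ⊓ Subgroup.centralizer ({y} : Set G)) ≤
        Subgroup.centralizer ({x * y} : Set G) := by
      rintro c ⟨hc1, hc2⟩
      rw [Subgroup.mem_centralizer_singleton_iff]
      have e1 := Subgroup.mem_centralizer_singleton_iff.1 hc1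
      have e2 := Subgroup.mem_centralizer_singleton_iff.1 hc2
      calc c * (x * y) = (c * x) * y := by group
        _ = x * (c * y) := by rw [e1]; group
        _ = x * y * c := by rw [e2]; group
    have h3 := Subgroup.index_inf_le (H := Subgroup.centralizer ({x} : Set G))
      (K := Subgroup.centralizer ({y} : Set G))
    rw [← h1] at h3
    have h4 : (Subgroup.centralizer ({x * y} : Set G)).index =
        (Subgroup.centralizer ({x} : Set G) ⊓ Subgroup.centralizer ({y} : Set G)).index :=
      le_antisymm (Nat.le_of_dvd (Nat.pos_of_ne_zero Subgroup.index_ne_zero_of_finite)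
        (Subgroup.index_dvd_of_le h2)) h3
    have h5 := Cfsg.Agent.H2.Card.eq_of_le_of_index_eq h2 h4.symm
    have h6 : x * y ∈ Subgroup.centralizer ({x * y} : Set G) :=
      Subgroup.mem_centralizer_singleton_iff.2 rfl
    rw [← h5] at h6
    have h7 := Subgroup.mem_centralizer_singleton_iff.1 h6.1
    -- (x y) x = x (x y)
    have h8 : x * (y * x) = x * (x * y) := by rw [← mul_assoc]; exact h7
    exact (mul_left_cancel h8).symm

end Cfsg.Agent.S3987
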