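import Cfsg.Statements.S3989
import Mathlib
import Cfsg.Agent.H23_Basic
import Cfsg.Agent.H2_Fusion3

set_option autoImplicit false
open Cfsg

namespace Cfsg.Agent.S3989

open Cfsg.Agent.H23.Basic Subgroup
open scoped Pointwise

def Hyp (G : Type*) [Group G] (p : ℕ) : Prop :=
  ∀ x y : G, (∃ a : ℕ, orderOf x = p ^ a) → (∃ q b : ℕ, q.Prime ∧ q ≠ p ∧ orderOf y = q ^ b) →
    ∀ z : G, IsConj (x * y) z ↔ ∃ a b : G, z = a * x * a⁻¹ * (b * y * b⁻¹)

theorem key {G : Type*} [Group G] [Finite G] (p : ℕ) [hp : Fact p.Prime] (h : Hyp G p)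
    (N : Subgroup G) [N.Normal] (hmin : ∀ K : Subgroup G, K.Normal → K ≤ N → K ≠ ⊥ → K = N) :
    HasNormalPComplement p N := by
  apply H2.Fusion3.npc_of_frobenius
  intro Q hQ g hg hgp
  apply mem_of_prime_pow_parts
  intro y hy q b hq hyo
  have hyN : y ∈ normalizer (Q : Set N) := (zpowers_le.2 hg) hy
  have hqp : q ≠ p ∨ y = 1 := by
    by_cases hqp : q = p
    · right
      subst hqp
      have h2 : orderOf y ∣ orderOf g := orderOf_dvd_of_mem_zpowers hy
      have h3 : Nat.Coprime (orderOf y) q := Nat.Coprime.coprime_dvd_left h2 hgp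
      rw [← orderOf_eq_one_iff]
      have h4 : Nat.Coprime (orderOf y) (q ^ b) := Nat.Coprime.pow_right b h3
      rw [← hyo] at h4
      simpa using h4
    · left; exact hqp
  rcases hqp with hqp | rfl
  swap
  · exact one_mem _
  rw [mem_centralizer_iff]
  intro u hu
  by_contra hne
  set x : N := u⁻¹ * y * u * y⁻¹ with hx
  have hxQ : x ∈ Q := by
    rw [hx]
    have h1 : y * u * y⁻¹ ∈ Q := (mem_normalizer_iff.1 hyN u).1 hu
    have h2 : u⁻¹ * y * u * y⁻¹ = u⁻¹ * (y * u * y⁻¹) := by group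
    rw [h2]
    exact Q.mul_mem (Q.inv_mem hu) h1
  have hx1 : x ≠ 1 := by
    intro h1
    apply hne
    rw [hx, mul_inv_eq_one] at h1
    calc u * y = u * (u⁻¹ * y * u) := by rw [h1]
      _ = y * u := by group
  have hxo : ∃ a : ℕ, orderOf (x : G) = p ^ a := by
    obtain ⟨k, hk⟩ := (IsPGroup.iff_orderOf.1 hQ) ⟨x, hxQ⟩
    refine ⟨k, ?_⟩
    rw [← hk, Subgroup.orderOf_mk x hxQ]
    exact Subgroup.orderOf_coe x
  have hyo' : ∃ q b : ℕ, q.Prime ∧ q ≠ p ∧ orderOf (y : G) = q ^ b :=
    ⟨q, b, hq, hqp, by rw [Subgroup.orderOf_coe, hyo]⟩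
  have hH := h x y hxo hyo'
  set Y : Set G := {z : G | IsConj (y : G) z} with hY
  have hxy : IsConj (y : G) (x * y) := by
    rw [isConj_iff]
    refine ⟨(u : G)⁻¹, ?_⟩
    rw [hx]
    push_cast
    group
  have hstab : ∀ a : G, a * x * a⁻¹ ∈ MulAction.stabilizer G Y := by
    intro a
    rw [MulAction.mem_stabilizer_iff]
    have hsub : (a * x * a⁻¹) • Y ⊆ Y := by
      rintro _ ⟨z, hz, rfl⟩
      obtain ⟨c, rfl⟩ := isConj_iff.1 hz
      exact hxy.trans ((hH _).2 ⟨a, c, rfl⟩)
    exact Set.eq_of_subset_of_ncard_le hsub (by rw [Set.ncard_smul_set]) (Set.toFinite _)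
  have hle : normalClosure {(x : G)} ≤ MulAction.stabilizer G Y := by
    rw [normalClosure, closure_le]
    intro z hz
    rw [Group.conjugatesOfSet, Set.mem_iUnion₂] at hz
    obtain ⟨w, hw, hz⟩ := hz
    rw [Set.mem_singleton_iff] at hw
    subst hw
    obtain ⟨c, rfl⟩ := isConj_iff.1 (show IsConj (x : G) z from hz)
    exact hstab c
  have hNeq : normalClosure {(x : G)} = N := by
    apply hmin _ normalClosure_normal
    · apply normalClosure_le_normal
      rw [Set.singleton_subset_iff]; exact x.2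
    · intro hb
      apply hx1
      have : (x : G) ∈ normalClosure {(x : G)} := subset_normalClosure rfl
      rw [hb, mem_bot] at this
      exact Subtype.ext this
  have hyS : (y : G)⁻¹ ∈ MulAction.stabilizer G Y := by
    apply hle
    rw [hNeq]
    exact N.inv_mem y.2
  rw [MulAction.mem_stabilizer_iff] at hyS
  have h1Y : (1 : G) ∈ Y := by
    rw [← hyS]
    exact ⟨y, IsConj.refl _, by simp⟩
  have hy1 : (y : G) = 1 := by
    have : IsConj (y : G) 1 := h1Y
    exact isConj_one_right.1 this.symm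
  apply hx1
  have : y = 1 := Subtype.ext hy1
  rw [hx, this]; group

theorem hyp_quotient {G : Type*} [Group G] [Finite G] (p : ℕ) [hp : Fact p.Prime] (h : Hyp G p)
    (N : Subgroup G) [N.Normal] : Hyp (G ⧸ N) p := by
  intro x y hx hy z
  obtain ⟨q, b, hq, hqp, hyo⟩ := hy
  obtain ⟨x', rfl, hx'⟩ := exists_lift_prime_pow (QuotientGroup.mk' N) (QuotientGroup.mk'_surjective N) hp.out x hx
  obtain ⟨y', rfl, c, hy'⟩ := exists_lift_prime_pow (QuotientGroup.mk' N) (QuotientGroup.mk'_surjective N) hq y ⟨b, hyo⟩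
  have hH := h x' y' hx' ⟨q, c, hq, hqp, hy'⟩
  constructor
  · intro hc
    obtain ⟨c', rfl⟩ := isConj_iff.1 hc
    obtain ⟨c, rfl⟩ := QuotientGroup.mk'_surjective N c'
    obtain ⟨a, b, hab⟩ := (hH (c * (x' * y') * c⁻¹)).1 (isConj_iff.2 ⟨c, rfl⟩)
    refine ⟨QuotientGroup.mk' N a, QuotientGroup.mk' N b, ?_⟩
    rw [← map_mul, ← map_inv, ← map_mul, ← map_mul, hab]
    simp only [map_mul, map_inv]
  · rintro ⟨a', b', rfl⟩
    obtain ⟨a, rfl⟩ := QuotientGroup.mk'_surjective N a'
    obtain ⟨b, rfl⟩ := QuotientGroup.mk'_surjective N b'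
    obtain ⟨c, hc⟩ := isConj_iff.1 ((hH (a * x' * a⁻¹ * (b * y' * b⁻¹))).2 ⟨a, b, rfl⟩)
    rw [isConj_iff]
    refine ⟨QuotientGroup.mk' N c, ?_⟩
    simp only [← map_mul, ← map_inv]
    rw [hc]

theorem main (p : ℕ) [hp : Fact p.Prime] (n : ℕ) : ∀ (G : Type*) [Group G] [Finite G], Nat.card G = n → Hyp G p →
    IsPSolvable p G := by
  induction' n using Nat.strong_induction_on with n ih
  intro G _ _ hn h
  rcases subsingleton_or_nontrivial G with hs | hs
  · exact isPSolvable_of_subsingleton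
  obtain ⟨N, hN, hNb, hmin⟩ := exists_minimal_normal (G := G)
  have hc := key p h N hmin
  obtain ⟨K, hK, hKc, k, hk⟩ := H2.Basic.npc_iff.1 hc
  have hchar : K.Characteristic := by
    have hKP : ∀ g : N, g ∈ K ↔ (orderOf g).Coprime p := by
      intro g
      exact H2.Basic.mem_npc_iff hKc hk g
    rw [characteristic_iff_comap_eq]
    intro ϕ
    ext g
    rw [mem_comap, hKP, hKP]
    simp
  have hKn : (K.map N.subtype).Normal := inferInstance
  apply isPSolvable_of_quotient N
  · by_cases hKb : K = ⊥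
    · left
      refine ⟨k, ?_⟩
      rw [← hk, hKb, index_bot]
    · right
      have := hmin (K.map N.subtype) hKn (map_subtype_le K) (by
        rw [Ne, map_eq_bot_iff_of_injective _ N.subtype_injective]; exact hKb)
      have h2 : Nat.card N = Nat.card K := by
        conv_lhs => rw [← this]
        exact Nat.card_congr (K.equivMapOfInjective _ N.subtype_injective).toEquiv.symm
      rw [h2]
      exact ((Nat.Prime.coprime_iff_not_dvd hp.out).2 hKc).symm
  · refine ih (Nat.card (G ⧸ N)) ?_ (G ⧸ N) rfl (hyp_quotient p h N)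
    rw [← hn, Subgroup.card_eq_card_quotient_mul_card_subgroup N]
    have h1 : 1 < Nat.card N := by
      rw [one_lt_card_iff_ne_bot]; exact hNb
    have h2 : 0 < Nat.card (G ⧸ N) := Nat.card_pos
    nlinarith


/-- Let p be a prime and G a finite group such that for every element x of p-power order and every element y whose order is a power of a prime other than p, the conjugacy class of x y is the set of all products of a conjugate of x with a conjugate of y. Then G is p-solvable. -/
theorem result {G : Type*} [Group G] [Finite G] (p : ℕ) [Fact p.Prime] (h : ∀ x y : G, (∃ a : ℕ, orderOf x = p ^ a) → (∃ q b : ℕ, q.Prime ∧ q ≠ p ∧ orderOf y = q ^ b) → ∀ z : G, IsConj (x * y) z ↔ ∃ a b : G, z = a * x * a⁻¹ * (b * y * b⁻¹)) : Cfsg.IsPSolvable p G := by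
  exact main p _ G rfl h

end Cfsg.Agent.S3989
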