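import Cfsg.Statements.S4010
import Cfsg.Agent.H23_DLen


set_option autoImplicit false
open Cfsg

namespace Cfsg.Agent.S4010

open Subgroup Module

/-- Let F be a field, n ≥ 1, and P a finite p-group (p a prime) admitting an injective homomorphism into the general linear group of degree n over F. Then the derived length of P is at most ⌊log₂ n⌋ + 1: that term of the derived series of P is trivial. -/
theorem result {P : Type*} [Group P] [Finite P] (p : ℕ) [Fact p.Prime] (hP : IsPGroup p P) (F : Type*) [Field F] (n : ℕ) (hn : 1 ≤ n) (ρ : P →* Matrix.GeneralLinearGroup (Fin n) F) (hρ : Function.Injective ρ) : derivedSeries P (Nat.log 2 n + 1) = ⊥ := by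

  classical
  haveI : NeZero n := ⟨by omega⟩
  have hlt : n < 2 ^ (Nat.log 2 n + 1) := Nat.lt_pow_succ_log_self (by norm_num) n
  rw [eq_bot_iff]
  intro g hg
  rw [mem_bot]
  by_cases hpF : (p : F) = 0
  · haveI : CharP F p := (CharP.charP_iff_prime_eq_zero (Fact.out : p.Prime)).2 hpF
    let σ : P →* Module.End F (Fin n → F) := (Units.coeHom _).comp ((Matrix.GeneralLinearGroup.toLin (n := Fin n) (R := F)).toMonoidHom.comp ρ)
    have hσ : Function.Injective σ := by
      intro x y hxy
      apply hρ
      apply (Matrix.GeneralLinearGroup.toLin (n := Fin n) (R := F)).injective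
      exact Units.ext hxy
    apply hσ
    rw [map_one]
    apply H23.DLen.charp hP σ (k := Nat.log 2 n + 1) ?_ hg
    rw [Module.finrank_fin_fun]
    exact hlt.le
  · let E := AlgebraicClosure F
    let σ : P →* Module.End E (Fin n → E) := (Units.coeHom _).comp ((Matrix.GeneralLinearGroup.toLin (n := Fin n) (R := E)).toMonoidHom.comp
      ((Matrix.GeneralLinearGroup.map (algebraMap F E)).comp ρ))
    have hσ : Function.Injective σ := by
      intro x y hxy
      apply hρ
      have h1 : Matrix.GeneralLinearGroup.map (algebraMap F E) (ρ x) = Matrix.GeneralLinearGroup.map (algebraMap F E) (ρ y) := by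
        apply (Matrix.GeneralLinearGroup.toLin (n := Fin n) (R := E)).injective
        exact Units.ext hxy
      apply Units.ext
      have h2 := congrArg (fun u : Matrix.GeneralLinearGroup (Fin n) E => (u : Matrix (Fin n) (Fin n) E)) h1
      ext i j
      have h3 := congrFun (congrFun h2 i) j
      exact (algebraMap F E).injective h3
    apply hσ
    rw [map_one]
    refine H23.DLen.alg (F := E) (p := p) ?_ n (Nat.log 2 n + 1) P (Fin n → E) σ hP (Module.finrank_fin_fun _) hlt g hg
    rw [← map_natCast (algebraMap F E)]
    intro h
    rw [map_eq_zero] at h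
    exact hpF h


end Cfsg.Agent.S4010
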