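import Cfsg.Statements.S4013
import Cfsg.Agent.H2_Card
import Cfsg.Agent.H23_Regular

set_option autoImplicit false
open Cfsg

namespace Cfsg.Agent.S4013

/-- Let G be a finite p-group (p prime) and N < M normal subgroups of G such that for some g ∈ M ∖ N the conjugacy class of g is exactly M ∖ N. Then p = 2 and N has index 2 in M. -/
theorem result {G : Type*} [Group G] [Finite G] (p : ℕ) [Fact p.Prime] (hG : IsPGroup p G) (N M : Subgroup G) [N.Normal] [M.Normal] (hNM : N < M) (g : G) (hgM : g ∈ M) (hgN : g ∉ N) (hcl : {h : G | IsConj g h} = (M : Set G) \ (N : Set G)) : p = 2 ∧ N.relIndex M = 2 := by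
  classical
  have hp : p.Prime := Fact.out
  -- class size
  obtain ⟨n, hn⟩ := IsPGroup.iff_card.1 hG
  obtain ⟨b, hb⟩ : ∃ b, ((M : Set G) \ (N : Set G)).ncard = p ^ b := by
    have h1 : (ConjClasses.mk g).carrier = (M : Set G) \ (N : Set G) := by
      rw [← hcl]
      ext h
      rw [ConjClasses.mem_carrier_iff_mk_eq, ConjClasses.mk_eq_mk_iff_isConj]
      exact isConj_comm
    have h2 := Cfsg.Agent.H23.Regular.ncard_carrier g
    rw [h1] at h2
    have h3 : (Subgroup.centralizer ({g} : Set G)).index ∣ p ^ n := hn ▸ Subgroup.index_dvd_card _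
    obtain ⟨b, _, hb⟩ := (Nat.dvd_prime_pow hp).1 h3
    exact ⟨b, h2.trans hb⟩
  obtain ⟨k, hk⟩ := IsPGroup.iff_card.1 (hG.to_subgroup N)
  have h4 := Set.ncard_sdiff_add_ncard_of_subset (s := (N : Set G)) (t := (M : Set G)) hNM.le (Set.toFinite _)
  have h5 : (N : Set G).ncard = p ^ k := by rw [← hk]; exact (Nat.card_coe_set_eq _).symm
  have h6 := Cfsg.Agent.H2.Card.card_mul_relIndex hNM.le
  have h7 : (M : Set G).ncard = Nat.card M := (Nat.card_coe_set_eq _).symm
  obtain ⟨m, hm⟩ := IsPGroup.iff_card.1 (hG.to_subgroup M)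
  have h8 : N.relIndex M ∣ p ^ m := by rw [← hm, ← h6]; exact dvd_mul_left _ _
  obtain ⟨c, _, hc⟩ := (Nat.dvd_prime_pow hp).1 h8
  rw [hb, h5, h7, ← h6, hk, hc] at h4
  have hc0 : c ≠ 0 := by
    rintro rfl
    rw [pow_zero, Subgroup.relIndex_eq_one] at hc
    exact hNM.not_ge hc
  -- p ^ b = p ^ k * (p ^ c - 1)
  have h9 : p ^ c - 1 ∣ p ^ b := by
    refine ⟨p ^ k, ?_⟩
    have h10 : 1 ≤ p ^ c := Nat.one_le_pow _ _ hp.pos
    zify [h10]
    have h11 : (p : ℤ) ^ b + p ^ k = p ^ k * p ^ c := by exact_mod_cast h4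
    linear_combination h11
  obtain ⟨d, _, hd⟩ := (Nat.dvd_prime_pow hp).1 h9
  have hcp : p ∣ p ^ c := dvd_pow_self p hc0
  have hd0 : d = 0 := by
    by_contra h
    have h12 : p ∣ p ^ c - 1 := hd ▸ dvd_pow_self p h
    have h13 : 1 ≤ p ^ c := Nat.one_le_pow _ _ hp.pos
    have h14 : p ∣ 1 := (Nat.dvd_sub_iff_right h13 hcp).1 h12
    exact hp.one_lt.ne' (Nat.dvd_one.1 h14)
  rw [hd0, pow_zero] at hd
  have h15 : p ^ c = 2 := by omega
  refine ⟨?_, hc.trans h15⟩
  rw [h15] at hcp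
  exact (Nat.prime_dvd_prime_iff_eq hp Nat.prime_two).1 hcp

end Cfsg.Agent.S4013
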