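import Cfsg.Agent.H16_DL3
import Cfsg.Statements.S4015
-- import your own Cfsg.Agent.* helpers here

set_option autoImplicit false
open Cfsg

namespace Cfsg.Agent.S4015

/-- Let p be an odd prime, F a finite field with q elements where p does not divide q, and e the multiplicative order of q modulo p. Let n ≥ e and write w = ⌊n/e⌋ and k = ⌊log_p w⌋. Then a Sylow p-subgroup of GL(n, F) has derived length exactly k + 1: its (k+1)-st derived subgroup is trivial and its k-th is not. -/
theorem result (p : ℕ) [Fact p.Prime] (hp : p ≠ 2) (F : Type*) [Field F] [Fintype F] (q : ℕ) (hq : Fintype.card F = q) (hpq : ¬ p ∣ q) (n : ℕ) (hn : orderOf (q : ZMod p) ≤ n) (P : Sylow p (Matrix.GeneralLinearGroup (Fin n) F)) : derivedSeries ↥(P : Subgroup (Matrix.GeneralLinearGroup (Fin n) F)) (Nat.log p (n / orderOf (q : ZMod p)) + 1) = ⊥ ∧ derivedSeries ↥(P : Subgroup (Matrix.GeneralLinearGroup (Fin n) F)) (Nat.log p (n / orderOf (q : ZMod p))) ≠ ⊥ := by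
  classical
  subst hq
  have hqp : ((Fintype.card F : ℕ) : ZMod p) ≠ 0 := fun h => hpq ((ZMod.natCast_eq_zero_iff _ p).1 h)
  set e := orderOf ((Fintype.card F : ℕ) : ZMod p) with he
  have hp' : p.Prime := Fact.out
  have he1 : e ∣ p - 1 := ZMod.orderOf_dvd_card_sub_one hqp
  have he0 : 0 < e := Nat.pos_of_dvd_of_pos he1 (by have := hp'.two_le; omega)
  constructor
  · refine H16.DL.upperG (F := F) (n := n) P.2 ((Units.coeHom _).comp (P : Subgroup (Matrix.GeneralLinearGroup (Fin n) F)).subtype) ?_ hpq ?_
    · intro a b hab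
      exact Subtype.ext (Units.ext hab)
    · intro i hi
      refine Nat.le_log_of_pow_le hp'.one_lt ?_
      rw [Nat.le_div_iff_mul_le he0, mul_comm]
      exact hi
  · have h0 : H16.DL.HasG F p e 0 := by
      have hdvd : p ∣ Nat.card (Matrix.GeneralLinearGroup (Fin e) F) := by
        rw [Matrix.card_GL_field]
        refine dvd_trans ?_ (Finset.dvd_prod_of_mem _ (Finset.mem_univ (⟨0, he0⟩ : Fin e)))
        have h1 : ((Fintype.card F : ℕ) : ZMod p) ^ e = 1 := pow_orderOf_eq_one _
        rw [← ZMod.natCast_eq_zero_iff, Nat.cast_sub (Nat.pow_le_pow_right Fintype.card_pos (Nat.zero_le _))]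
        push_cast
        rw [h1]
        simp
      let D : Sylow p (Matrix.GeneralLinearGroup (Fin e) F) := default
      have hD : p ∣ Nat.card (D : Subgroup (Matrix.GeneralLinearGroup (Fin e) F)) := D.dvd_card_of_dvd_card hdvd
      refine ⟨(D : Subgroup (Matrix.GeneralLinearGroup (Fin e) F)), inferInstance, inferInstance, Fin e → F, inferInstance, inferInstance,
        inferInstance, (Matrix.toLinAlgEquiv' (R := F) (n := Fin e)).toRingEquiv.toMulEquiv.toMonoidHom.comp
          ((Units.coeHom _).comp (D : Subgroup (Matrix.GeneralLinearGroup (Fin e) F)).subtype), ?_, ?_, D.2, ?_⟩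
      · rw [Module.finrank_pi, Fintype.card_fin]
      · intro a b hab
        exact Subtype.ext (Units.ext ((Matrix.toLinAlgEquiv' (R := F) (n := Fin e)).injective hab))
      · rw [derivedSeries_zero]
        intro h
        have h1 : Nat.card (D : Subgroup (Matrix.GeneralLinearGroup (Fin e) F)) = 1 := by
          rw [← Subgroup.card_top, h, Subgroup.card_bot]
        rw [h1] at hD
        exact hp'.one_lt.ne' (Nat.dvd_one.1 hD)
    have h1 := h0.pow he0 (Nat.log p (n / e))
    rw [zero_add] at h1
    refine (h1.mono ?_).sylow P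
    have h2 : n / e ≠ 0 := by
      have := Nat.div_pos hn he0
      omega
    calc p ^ Nat.log p (n / e) * e ≤ n / e * e := Nat.mul_le_mul_right e (Nat.pow_log_le_self p h2)
      _ ≤ n := Nat.div_mul_le_self n e

end Cfsg.Agent.S4015
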