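import Cfsg.Statements.S4023
import Cfsg.Agent.H23_IsoSub

set_option autoImplicit false
open Cfsg

namespace Cfsg.Agent.S4023

open Subgroup

/-- Let p be a prime and G a finite group in which any two p-subgroups of the same order are conjugate, with Sylow p-subgroup P. Then P is cyclic, or elementary abelian, or p = 2 and P is a quaternion group of order 8, or p is odd and P is non-abelian of order p³ and exponent p. -/
theorem result {G : Type*} [Group G] [Finite G]
    {p : ℕ} [Fact p.Prime] (hC : ∀ H K : Subgroup G, IsPGroup p H → IsPGroup p K → Nat.card H = Nat.card K →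
      ∃ g : G, K = H.map (MulAut.conj g).toMonoidHom) (P : Sylow p G) :
    IsCyclic P ∨ Cfsg.IsElementaryAbelian p (P : Subgroup G) ∨
      (p = 2 ∧ Nonempty ((P : Subgroup G) ≃* QuaternionGroup 2)) ∨
      (p ≠ 2 ∧ ¬ IsMulCommutative P ∧ Nat.card P = p ^ 3 ∧ Monoid.exponent P = p) := by

  classical
  have hI : ∀ H K : Subgroup (P : Subgroup G), Nat.card H = Nat.card K → Nonempty (H ≃* K) := by
    intro H K hHK
    obtain ⟨g, hg⟩ := hC (H.map (P : Subgroup G).subtype) (K.map (P : Subgroup G).subtype)
      ((P.2.to_subgroup H).map _) ((P.2.to_subgroup K).map _) (by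
        rw [card_map_of_injective (P : Subgroup G).subtype_injective, card_map_of_injective (P : Subgroup G).subtype_injective, hHK])
    have e1 := H.equivMapOfInjective (P : Subgroup G).subtype (P : Subgroup G).subtype_injective
    have e2 := K.equivMapOfInjective (P : Subgroup G).subtype (P : Subgroup G).subtype_injective
    have e3 := (H.map (P : Subgroup G).subtype).equivMapOfInjective (MulAut.conj g).toMonoidHom (MulAut.conj g).injective
    rw [← hg] at e3
    exact ⟨(e1.trans e3).trans e2.symm⟩
  rcases H23.IsoSub.main P.2 hI with h | ⟨h1, h2⟩ | h | ⟨h1, ⟨a, b, h2⟩, h3, h4⟩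
  · exact Or.inl h
  · exact Or.inr (Or.inl ⟨⟨⟨h1⟩⟩, fun a ha => congrArg Subtype.val (h2 ⟨a, ha⟩)⟩)
  · exact Or.inr (Or.inr (Or.inl h))
  · refine Or.inr (Or.inr (Or.inr ⟨h1, fun hc => h2 (hc.1.1 a b), h3, ?_⟩))
    have h5 : Monoid.exponent P ∣ p := Monoid.exponent_dvd_of_forall_pow_eq_one h4
    rcases (Nat.dvd_prime (Fact.out : p.Prime)).1 h5 with h6 | h6
    · exfalso
      apply h2
      have h7 : ∀ x : (P : Subgroup G), x = 1 := fun x => by
        have := Monoid.pow_exponent_eq_one x
        rwa [h6, pow_one] at this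
      rw [h7 a]; simp
    · exact h6


end Cfsg.Agent.S4023
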