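import Cfsg.Statements.S4020
import Cfsg.Agent.S4023
import Cfsg.Agent.S0215
import Cfsg.Agent.H18_Qd2
-- import your own Cfsg.Agent.* helpers here

set_option autoImplicit false
open Cfsg

namespace Cfsg.Agent.S4020

open Subgroup

open scoped commutatorElement

theorem exists_conj {Q : Type*} [Group Q] [Finite Q] {p : ℕ} [hp : Fact p.Prime] (hc : Nat.card Q = p ^ 3)
    (hn : ∃ x y : Q, x * y ≠ y * x) (he : ∀ x : Q, x ^ p = 1) {x z : Q} (hx : x ∈ center Q) (hz : z ∉ center Q) :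
    ∃ v : Q, v * z * v⁻¹ = z * x := by
  have hcc := H18.Qd.card_center_cube hc hn
  have hex := H18.Qd.extraspecial_cube hc hn he
  have hcomm : _root_.commutator Q = center Q := hex.1.2.2
  obtain ⟨r, hr⟩ : ∃ r : Q, r * z ≠ z * r := by
    by_contra h
    push Not at h
    exact hz (mem_center_iff.2 h)
  set d := z⁻¹ * (r * z * r⁻¹) with hd
  have hdc : d ∈ center Q := by
    rw [← hcomm]
    have : d = ⁅z⁻¹, r⁆ := by rw [hd, commutatorElement_def, inv_inv]; group
    rw [this]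
    exact commutator_mem_commutator (mem_top _) (mem_top _)
  have hd1 : d ≠ 1 := by
    intro h
    apply hr
    rw [hd] at h
    have : r * z * r⁻¹ = z := by
      have := congrArg (fun t => z * t) h
      simpa using this
    calc r * z = (r * z * r⁻¹) * r := by group
      _ = z * r := by rw [this]
  have hgen : x ∈ zpowers d := by
    have h1 : zpowers d = center Q := by
      apply Subgroup.eq_of_le_of_card_ge (zpowers_le.2 hdc)
      rw [hcc, Nat.card_zpowers]
      exact (orderOf_eq_prime (he d) hd1).ge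
    rw [h1]; exact hx
  obtain ⟨n, hn'⟩ := (mem_powers_iff_mem_zpowers.2 hgen)
  have hrd : r * z * r⁻¹ = z * d := by rw [hd]; group
  have key : ∀ k : ℕ, r ^ k * z * (r ^ k)⁻¹ = z * d ^ k := by
    intro k
    induction k with
    | zero => simp
    | succ k ih =>
      have h2 : r * d ^ k = d ^ k * r := (mem_center_iff.1 (pow_mem hdc k) r)
      calc r ^ (k+1) * z * (r ^ (k+1))⁻¹ = r * (r ^ k * z * (r ^ k)⁻¹) * r⁻¹ := by rw [pow_succ']; group
        _ = (r * z * r⁻¹) * (r * d ^ k * r⁻¹) := by rw [ih]; group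
        _ = z * d * d ^ k := by rw [hrd, h2]; group
        _ = z * d ^ (k+1) := by rw [pow_succ']; group
  refine ⟨r ^ n, ?_⟩
  rw [key, ← hn']

/-- the configuration. -/
theorem config {G : Type*} [Group G] [Finite G] {p : ℕ} [hp : Fact p.Prime]
    (hC : ∀ H K : Subgroup G, IsPGroup p H → IsPGroup p K → Nat.card H = Nat.card K →
      ∃ g : G, K = H.map (MulAut.conj g).toMonoidHom) (P : Sylow p G)
    (hna : ¬ IsMulCommutative P) (hcard : Nat.card P = p ^ 3) (hexp : ∀ v : (P : Subgroup G), v ^ p = 1) :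
    ∃ u l x z g v : G, u ∈ (P : Subgroup G) ∧ v ∈ (P : Subgroup G) ∧ l = g * v * g⁻¹ ∧ x ∈ (P : Subgroup G) ∧ x ≠ 1 ∧
      u * x * u⁻¹ = x * z ∧ u * z * u⁻¹ = z ∧ l * x * l⁻¹ = x ∧ l * z * l⁻¹ = z * x⁻¹ ∧ x * z = z * x := by
  have hn : ∃ x y : (P : Subgroup G), x * y ≠ y * x := by
    by_contra h
    push Not at h
    exact hna ⟨⟨h⟩⟩
  have hcc := H18.Qd.card_center_cube hcard hn
  obtain ⟨x, hx⟩ : ∃ x : (P : Subgroup G), x ∉ center (P : Subgroup G) := by
    obtain ⟨x, y, hxy⟩ := hn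
    exact ⟨x, fun h => hxy ((mem_center_iff.1 h) y).symm⟩
  obtain ⟨z, hz⟩ : ∃ z : (P : Subgroup G), z ∈ center (P : Subgroup G) ∧ z ≠ 1 := by
    have : Nontrivial (center (P : Subgroup G)) := by
      rw [← Finite.one_lt_card_iff_nontrivial, hcc]; exact hp.out.one_lt
    obtain ⟨z, hz⟩ := exists_ne (1 : center (P : Subgroup G))
    exact ⟨z, z.2, fun h => hz (Subtype.ext h)⟩
  obtain ⟨hzc, hz1⟩ := hz
  have hgenc : ∀ a ∈ center (P : Subgroup G), a ≠ 1 → ∀ b ∈ center (P : Subgroup G), b ∈ zpowers a := by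
    intro a ha ha1 b hb
    have h1 : zpowers a = center (P : Subgroup G) := by
      apply Subgroup.eq_of_le_of_card_ge (zpowers_le.2 ha)
      rw [hcc, Nat.card_zpowers]
      exact (orderOf_eq_prime (hexp a) ha1).ge
    rw [h1]; exact hb
  have hx1 : x ≠ 1 := fun h => hx (h ▸ one_mem _)
  obtain ⟨u, hu⟩ := exists_conj hcard hn hexp hzc hx
  have hox : orderOf (x : G) = p := by
    rw [orderOf_coe]; exact orderOf_eq_prime (hexp x) hx1
  have hoz : orderOf (z : G) = p := by
    rw [orderOf_coe]; exact orderOf_eq_prime (hexp z) hz1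
  obtain ⟨g, hg⟩ := hC (zpowers (z : G)) (zpowers (x : G))
    (IsPGroup.of_card (n := 1) (by rw [Nat.card_zpowers, hoz, pow_one]))
    (IsPGroup.of_card (n := 1) (by rw [Nat.card_zpowers, hox, pow_one]))
    (by rw [Nat.card_zpowers, Nat.card_zpowers, hox, hoz])
  obtain ⟨k, hk⟩ : ∃ k : ℤ, (x : G) = g * (z : G) ^ k * g⁻¹ := by
    have : (x : G) ∈ zpowers (x : G) := mem_zpowers _
    rw [hg] at this
    obtain ⟨w, hw, hw2⟩ := this
    obtain ⟨k, hk⟩ := mem_zpowers_iff.1 hw
    exact ⟨k, by rw [hk]; exact hw2.symm⟩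
  set C := centralizer ({(x : G)} : Set G) with hCdef
  have hP1 : ((g • P : Sylow p G) : Subgroup G) ≤ C := by
    intro w hw
    rw [Sylow.coe_subgroup_smul] at hw
    obtain ⟨w', hw', rfl⟩ := hw
    rw [hCdef, mem_centralizer_singleton_iff]
    have h1 : (w' : G) * (z : G) ^ k = (z : G) ^ k * w' := by
      have h2 := mem_center_iff.1 (zpow_mem hzc k) ⟨w', hw'⟩
      have h3 := congrArg Subtype.val h2
      simpa using h3
    show (MulAut.conj g) w' * (x : G) = x * (MulAut.conj g) w'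
    rw [hk, MulAut.conj_apply]
    calc g * w' * g⁻¹ * (g * (z : G) ^ k * g⁻¹) = g * (w' * (z : G) ^ k) * g⁻¹ := by group
      _ = g * ((z : G) ^ k * w') * g⁻¹ := by rw [h1]
      _ = _ := by group
  have hzC : (z : G) ∈ C := by
    rw [hCdef, mem_centralizer_singleton_iff]
    have := mem_center_iff.1 hzc x
    have h3 := congrArg Subtype.val this
    simpa using h3.symm
  obtain ⟨Q₀, hQ₀⟩ := (IsPGroup.of_card (G := zpowers (⟨z, hzC⟩ : C)) (n := 1) (by
    rw [Nat.card_zpowers, pow_one]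
    exact (Subgroup.orderOf_mk _ _).trans hoz) : IsPGroup p (zpowers (⟨z, hzC⟩ : C))).exists_le_sylow
  obtain ⟨c, hcQ⟩ := MulAction.exists_smul_eq C ((g • P).subtype hP1) Q₀
  have hzQ : (⟨z, hzC⟩ : C) ∈ ((c • ((g • P).subtype hP1) : Sylow p C) : Subgroup C) := by
    rw [hcQ]; exact hQ₀ (mem_zpowers _)
  rw [Sylow.coe_subgroup_smul] at hzQ
  obtain ⟨w, hw, hw2⟩ := hzQ
  have hw3 : (w : G) ∈ ((g • P : Sylow p G) : Subgroup G) := hw
  rw [Sylow.coe_subgroup_smul] at hw3
  obtain ⟨w', hw', hw4⟩ := hw3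
  have hw5 : g * w' * g⁻¹ = w := hw4
  have hw6 : (c : G) * w * (c : G)⁻¹ = z := congrArg Subtype.val hw2
  have hcx : (c : G) * x = x * c := by
    exact mem_centralizer_singleton_iff.1 c.2
  set g' := (c : G) * g with hg'
  have hzz : (z : G) = g' * w' * g'⁻¹ := by
    rw [← hw6, ← hw5, hg']; group
  have hxx : (x : G) = g' * (z : G) ^ k * g'⁻¹ := by
    calc (x : G) = c * x * (c : G)⁻¹ := by rw [hcx]; group
      _ = _ := by rw [hg']; nth_rewrite 1 [hk]; group
  have hzk1 : z ^ k ≠ 1 := by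
    intro h
    apply hx1
    apply Subtype.ext
    rw [hxx]
    have : (z : G) ^ k = 1 := by
      have := congrArg Subtype.val h
      simpa using this
    rw [this]; simp
  have hw'c : (⟨w', hw'⟩ : (P : Subgroup G)) ∉ center (P : Subgroup G) := by
    intro h
    have h1 := hgenc (z ^ k) (zpow_mem hzc k) hzk1 _ h
    obtain ⟨j, hj⟩ := mem_zpowers_iff.1 h1
    have h2 : ((z : G) ^ k) ^ j = w' := by
      have := congrArg Subtype.val hj
      simpa using this
    have h3 : (z : G) = (x : G) ^ j := by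
      rw [hzz, hxx, ← h2]
      rw [show g' * (z : G) ^ k * g'⁻¹ = MulAut.conj g' ((z : G) ^ k) from rfl, ← map_zpow]
      rfl
    have h4 : zpowers (z : G) = zpowers (x : G) := by
      apply Subgroup.eq_of_le_of_card_ge
      · rw [h3]; exact zpowers_le.2 (zpow_mem (mem_zpowers _) _)
      · rw [Nat.card_zpowers, Nat.card_zpowers, hox, hoz]
    have h5 : (x : G) ∈ zpowers (z : G) := by rw [h4]; exact mem_zpowers _
    obtain ⟨i, hi⟩ := mem_zpowers_iff.1 h5
    apply hx
    have h6 : x = z ^ i := Subtype.ext (by rw [← hi]; simp)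
    rw [h6]; exact zpow_mem hzc i
  obtain ⟨v, hv⟩ := exists_conj hcard hn hexp (inv_mem (zpow_mem hzc k)) hw'c
  refine ⟨u, g' * v * g'⁻¹, x, z, g', v, u.2, v.2, rfl, x.2, fun h => hx1 (Subtype.ext h), ?_, ?_, ?_, ?_, ?_⟩
  · have := congrArg Subtype.val hu
    simpa using this
  · have h1 := mem_center_iff.1 hzc u
    have h2 := congrArg Subtype.val h1
    have h3 : (u : G) * z = z * u := by simpa using h2
    rw [h3]; group
  · have h1 := mem_center_iff.1 (zpow_mem hzc k) v
    have h2 := congrArg Subtype.val h1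
    have h3 : (v : G) * (z : G) ^ k = (z : G) ^ k * v := by simpa using h2
    calc g' * v * g'⁻¹ * (x : G) * (g' * v * g'⁻¹)⁻¹ = g' * v * g'⁻¹ * (g' * (z : G) ^ k * g'⁻¹) * (g' * v * g'⁻¹)⁻¹ := by rw [← hxx]
      _ = g' * (v * (z : G) ^ k) * (v : G)⁻¹ * g'⁻¹ := by group
      _ = g' * (z : G) ^ k * g'⁻¹ := by rw [h3]; group
      _ = x := hxx.symm
  · have h2 := congrArg Subtype.val hv
    have h3 : (v : G) * w' * (v : G)⁻¹ = w' * ((z : G) ^ k)⁻¹ := by simpa using h2
    calc g' * v * g'⁻¹ * (z : G) * (g' * v * g'⁻¹)⁻¹ = g' * v * g'⁻¹ * (g' * w' * g'⁻¹) * (g' * v * g'⁻¹)⁻¹ := by rw [← hzz]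
      _ = g' * (v * w' * (v : G)⁻¹) * g'⁻¹ := by group
      _ = (g' * w' * g'⁻¹) * (g' * (z : G) ^ k * g'⁻¹)⁻¹ := by rw [h3]; group
      _ = z * (x : G)⁻¹ := by rw [← hzz, ← hxx]
  · have := mem_center_iff.1 hzc x
    have h3 := congrArg Subtype.val this
    simpa using h3

/-- no normal subgroup of odd order contains `u`, `l`. -/
theorem no_odd {G : Type*} [Group G] [Finite G] {u l x z : G} (hx2 : x ^ 2 ≠ 1)
    (h1 : u * x * u⁻¹ = x * z) (h2 : u * z * u⁻¹ = z) (h3 : l * x * l⁻¹ = x) (h4 : l * z * l⁻¹ = z * x⁻¹)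
    (h5 : x * z = z * x) :
    ∃ h : G, h ∈ closure ({u, l} : Set G) ∧ ∃ k : ℕ, orderOf h = 2 ^ k ∧ h ^ 2 * x * (h ^ 2)⁻¹ = x⁻¹ := by
  set h := u * l * u with hh
  have hu : u ∈ closure ({u, l} : Set G) := subset_closure (by simp)
  have hl : l ∈ closure ({u, l} : Set G) := subset_closure (by simp)
  have hhm : h ∈ closure ({u, l} : Set G) := mul_mem (mul_mem hu hl) hu
  have e1 : h * x * h⁻¹ = z := by
    calc h * x * h⁻¹ = u * (l * (u * x * u⁻¹) * l⁻¹) * u⁻¹ := by rw [hh]; group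
      _ = u * ((l * x * l⁻¹) * (l * z * l⁻¹)) * u⁻¹ := by rw [h1]; group
      _ = u * (x * z * x⁻¹) * u⁻¹ := by rw [h3, h4]; group
      _ = u * z * u⁻¹ := by rw [h5]; group
      _ = z := h2
  have e2 : h * z * h⁻¹ = x⁻¹ := by
    calc h * z * h⁻¹ = u * (l * (u * z * u⁻¹) * l⁻¹) * u⁻¹ := by rw [hh]; group
      _ = u * (z * x⁻¹) * u⁻¹ := by rw [h2, h4]
      _ = (u * z * u⁻¹) * (u * x * u⁻¹)⁻¹ := by group
      _ = z * (x * z)⁻¹ := by rw [h2, h1]
      _ = x⁻¹ := by simp
  have e3 : h ^ 2 * x * (h ^ 2)⁻¹ = x⁻¹ := by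
    calc h ^ 2 * x * (h ^ 2)⁻¹ = h * (h * x * h⁻¹) * h⁻¹ := by rw [pow_two]; group
      _ = x⁻¹ := by rw [e1, e2]
  obtain ⟨k, m, hm, hkm⟩ := Nat.exists_eq_two_pow_mul_odd (orderOf_pos h).ne'
  refine ⟨h ^ m, pow_mem hhm m, k, ?_, ?_⟩
  · rw [orderOf_pow, hkm, Nat.gcd_eq_right (Dvd.intro_left _ rfl)]
    exact Nat.mul_div_cancel _ hm.pos
  · have e4 : ∀ n : ℕ, (h ^ 2) ^ (2 * n + 1) * x * ((h ^ 2) ^ (2 * n + 1))⁻¹ = x⁻¹ := by
      intro n
      induction n with
      | zero => simpa using e3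
      | succ n ih =>
        have e5 : h ^ 2 * x⁻¹ * (h ^ 2)⁻¹ = x := by
          have := congrArg (fun t => t⁻¹) e3
          simp only [mul_inv_rev, inv_inv] at this
          rw [← mul_assoc] at this
          exact this
        calc (h ^ 2) ^ (2 * (n + 1) + 1) * x * ((h ^ 2) ^ (2 * (n + 1) + 1))⁻¹
            = h ^ 2 * (h ^ 2 * ((h ^ 2) ^ (2 * n + 1) * x * ((h ^ 2) ^ (2 * n + 1))⁻¹) * (h ^ 2)⁻¹) * (h ^ 2)⁻¹ := by
              rw [show 2 * (n + 1) + 1 = 2 + (2 * n + 1) by ring, pow_add (h ^ 2) 2, pow_two (h ^ 2)]; group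
          _ = x⁻¹ := by rw [ih, e5, e3]
    obtain ⟨n, hn⟩ := hm
    rw [← pow_mul, mul_comm m 2, pow_mul, hn]
    exact e4 n

theorem quat_unique : ∀ a b : QuaternionGroup 2, a ^ 2 = 1 → a ≠ 1 → b ^ 2 = 1 → b ≠ 1 → a = b := by decide

theorem quat_four : ∀ a : QuaternionGroup 2, a ^ 4 = 1 := by decide

theorem excl {G : Type*} [Group G] [Finite G]
    (hD : ∀ p : ℕ, p.Prime → ∀ H K : Subgroup G, IsPGroup p H → IsPGroup p K → Nat.card H = Nat.card K →
      ∃ g : G, K = H.map (MulAut.conj g).toMonoidHom) {p : ℕ} [hp : Fact p.Prime] (P : Sylow p G) (hp2 : p ≠ 2)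
    (hna : ¬ IsMulCommutative P) (hcard : Nat.card P = p ^ 3) (hexp : ∀ v : (P : Subgroup G), v ^ p = 1) : False := by
  obtain ⟨u, l, x, z, g, v, hu, hv, hl, hx, hx1, h1, h2, h3, h4, h5⟩ := config (hD p hp.out) P hna hcard hexp
  have hodd : Odd p := hp.out.odd_of_ne_two hp2
  have hexp' : ∀ w ∈ (P : Subgroup G), w ^ p = 1 := fun w hw => by
    have := congrArg Subtype.val (hexp ⟨w, hw⟩)
    simpa using this
  have hsq : ∀ w ∈ (P : Subgroup G), ∀ N : Subgroup G, w ^ 2 ∈ N → w ∈ N := by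
    intro w hw N hN
    obtain ⟨n, hn⟩ := hodd
    have h6 : (w ^ 2) ^ (n + 1) = w := by
      rw [← pow_mul, show 2 * (n + 1) = (2 * n + 1) + 1 by ring, ← hn, pow_succ, hexp' w hw, one_mul]
    rw [← h6]; exact pow_mem hN _
  have hx2 : x ^ 2 ≠ 1 := by
    intro h
    have := hsq x hx ⊥ (by rw [mem_bot]; exact h)
    exact hx1 (mem_bot.1 this)
  obtain ⟨h, hh, k, hk, hinv⟩ := no_odd hx2 h1 h2 h3 h4 h5
  have hne : h ^ 2 ≠ 1 := by
    intro h6
    rw [h6] at hinv
    apply hx2
    rw [one_mul, inv_one, mul_one] at hinv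
    rw [pow_two]
    nth_rewrite 1 [hinv]
    exact inv_mul_cancel x
  have hfin : ∀ N : Subgroup G, Odd (Nat.card N) → u ∈ N → l ∈ N → False := by
    intro N hN huN hlN
    have h6 : h ∈ N := (closure_le N).2 (by
      intro t ht
      simp only [Set.mem_insert_iff, Set.mem_singleton_iff] at ht
      rcases ht with rfl | rfl
      · exact huN
      · exact hlN) hh
    have h7 : 2 ^ k ∣ Nat.card N := by
      rw [← hk, ← Subgroup.orderOf_mk h h6]; exact orderOf_dvd_natCard _
    have h8 : k = 0 := by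
      by_contra hk0
      have : 2 ∣ Nat.card N := (dvd_pow_self 2 hk0).trans h7
      exact (Nat.not_even_iff_odd.2 hN) (even_iff_two_dvd.2 this)
    rw [h8, pow_zero, orderOf_eq_one_iff] at hk
    apply hne
    rw [hk, one_pow]
  haveI : Fact (Nat.Prime 2) := ⟨Nat.prime_two⟩
  obtain ⟨T, hT⟩ := (IsPGroup.of_card (G := zpowers h) (n := k) (by rw [Nat.card_zpowers, hk]) : IsPGroup 2 (zpowers h)).exists_le_sylow
  have hhT : h ∈ T := hT (mem_zpowers h)
  rcases S4023.result (hD 2 Nat.prime_two) T with hcyc | hel | ⟨-, ⟨e⟩⟩ | hbad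
  · -- cyclic
    have hmin : (Nat.card G).minFac = 2 := by
      rw [Nat.minFac_eq_two_iff]
      have h6 : orderOf h ∣ Nat.card G := orderOf_dvd_natCard _
      rw [hk] at h6
      have hk0 : k ≠ 0 := by
        rintro rfl
        rw [pow_zero, orderOf_eq_one_iff] at hk
        apply hne; rw [hk, one_pow]
      exact (dvd_pow_self 2 hk0).trans h6
    have hcompl := IsCyclic.isComplement' hmin hcyc
    set f := MonoidHom.transferSylow T (IsCyclic.normalizer_le_centralizer hmin hcyc) with hf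
    have hk1 : ∀ w : G, w ^ p = 1 → w ∈ f.ker := by
      intro w hw
      rw [MonoidHom.mem_ker]
      have h6 : f w ^ p = 1 := by rw [← map_pow, hw, map_one]
      obtain ⟨n, hn⟩ := (IsPGroup.iff_orderOf.1 T.isPGroup') (f w)
      have h7 : orderOf (f w) ∣ p := orderOf_dvd_of_pow_eq_one h6
      rw [hn] at h7
      have h8 : n = 0 := by
        by_contra hn0
        have : 2 ∣ p := (dvd_pow_self 2 hn0).trans h7
        exact (Nat.not_even_iff_odd.2 hodd) (even_iff_two_dvd.2 this)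
      rw [h8, pow_zero] at hn
      exact orderOf_eq_one_iff.1 hn
    refine hfin f.ker ?_ (hk1 u (hexp' u hu)) (hk1 l ?_)
    · rw [← Nat.not_even_iff_odd, even_iff_two_dvd, ← hcompl.index_eq_card]
      exact T.not_dvd_index
    · rw [hl, conj_pow, hexp' v hv]; simp
  · apply hne
    exact hel.2 h hhT
  · have hh4 : h ^ 4 = 1 := by
      have h6 := quat_four (e ⟨h, hhT⟩)
      rw [← map_pow, map_eq_one_iff e e.injective] at h6
      have := congrArg Subtype.val h6
      simpa using this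
    have ho : orderOf (h ^ 2) = 2 := orderOf_eq_prime (by rw [← pow_mul]; exact hh4) hne
    obtain ⟨N, hN, hNodd, hNc⟩ := S0215.result T (h ^ 2) ho (pow_mem hhT 2) (by
      intro g hg
      have h6 := quat_unique (e ⟨g * h ^ 2 * g⁻¹, hg⟩) (e ⟨h ^ 2, pow_mem hhT 2⟩) (by
        rw [← map_pow, map_eq_one_iff e e.injective]
        apply Subtype.ext
        show (g * h ^ 2 * g⁻¹) ^ 2 = 1
        rw [conj_pow, ← pow_mul, hh4]; simp) (by
        rw [Ne, map_eq_one_iff e e.injective]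
        intro h7
        have h8 : g * h ^ 2 * g⁻¹ = 1 := congrArg Subtype.val h7
        exact hne (conj_eq_one_iff.1 h8)) (by
        rw [← map_pow, map_eq_one_iff e e.injective]
        apply Subtype.ext
        show (h ^ 2) ^ 2 = 1
        rw [← pow_mul, hh4]) (by
        rw [Ne, map_eq_one_iff e e.injective]
        intro h7
        exact hne (congrArg Subtype.val h7))
      exact congrArg Subtype.val (e.injective h6))
    have hxN : x ∈ N := by
      apply hsq x hx
      have h6 := hNc x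
      rw [hinv] at h6
      have : x ^ 2 = (x⁻¹ * x⁻¹)⁻¹ := by rw [pow_two]; simp
      rw [this]; exact inv_mem h6
    have hox : orderOf x = p := orderOf_eq_prime (hexp' x hx) hx1
    have hPN : ∀ w ∈ (P : Subgroup G), w ∈ N := by
      intro w hw
      by_cases hw1 : w = 1
      · rw [hw1]; exact one_mem _
      have how : orderOf w = p := orderOf_eq_prime (hexp' w hw) hw1
      obtain ⟨y, hy⟩ := hD p hp.out (zpowers x) (zpowers w)
        (IsPGroup.of_card (n := 1) (by rw [Nat.card_zpowers, hox, pow_one]))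
        (IsPGroup.of_card (n := 1) (by rw [Nat.card_zpowers, how, pow_one]))
        (by rw [Nat.card_zpowers, Nat.card_zpowers, hox, how])
      have h6 : w ∈ zpowers w := mem_zpowers _
      rw [hy] at h6
      obtain ⟨w', hw', rfl⟩ := h6
      have h7 : w' ∈ N := (zpowers_le.2 hxN) hw'
      exact hN.conj_mem _ h7 y
    exact hfin N hNodd (hPN u hu) (by rw [hl]; exact hN.conj_mem _ (hPN v hv) g)
  · exact hbad.1 rfl

/-- Let G be a finite group in which, for every prime p, any two p-subgroups of the same order are conjugate. Then every Sylow subgroup of G is cyclic, elementary abelian, or a quaternion group of order 8. -/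
theorem result {G : Type*} [Group G] [Finite G]
    (hD : ∀ p : ℕ, p.Prime → ∀ H K : Subgroup G, IsPGroup p H → IsPGroup p K → Nat.card H = Nat.card K →
      ∃ g : G, K = H.map (MulAut.conj g).toMonoidHom) {p : ℕ} [Fact p.Prime] (P : Sylow p G) :
    IsCyclic P ∨ Cfsg.IsElementaryAbelian p (P : Subgroup G) ∨ Nonempty ((P : Subgroup G) ≃* QuaternionGroup 2) := by
  rcases S4023.result (hD p Fact.out) P with h | h | ⟨-, h⟩ | ⟨h1, h2, h3, h4⟩
  · exact Or.inl h
  · exact Or.inr (Or.inl h)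
  · exact Or.inr (Or.inr h)
  · exfalso
    refine excl hD P h1 h2 h3 (fun v => ?_)
    have := Monoid.pow_exponent_eq_one v
    rwa [h4] at this

end Cfsg.Agent.S4020
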