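import Cfsg.Statements.S4024
import Cfsg.Agent.H23_IsoSub
import Cfsg.Agent.H22_PSolv
import Cfsg.Agent.S4023
import Cfsg.Agent.H11_Cores

set_option autoImplicit false
open Cfsg

namespace Cfsg.Agent.S4024

open Subgroup

/-- Let p be an odd prime and G a finite group in which any two p-subgroups of the same order are conjugate, with Sylow p-subgroup P. If H is a normal p-solvable subgroup of G whose order is divisible by p, then P is abelian, and either P ≤ H or P is cyclic. -/
theorem result {G : Type*} [Group G] [Finite G]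
    {p : ℕ} [Fact p.Prime] (hp : p ≠ 2) (hC : ∀ H K : Subgroup G, IsPGroup p H → IsPGroup p K → Nat.card H = Nat.card K →
      ∃ g : G, K = H.map (MulAut.conj g).toMonoidHom) (P : Sylow p G)
    (H : Subgroup G) [H.Normal] (hsolv : Cfsg.IsPSolvable p H) (hdiv : p ∣ Nat.card H) :
    IsMulCommutative P ∧ ((P : Subgroup G) ≤ H ∨ IsCyclic P) := by

  classical
  have hpp := (Fact.out : p.Prime)
  -- choose K
  obtain ⟨K, ⟨hKn, hKH, hKp⟩, hKmax⟩ := Set.exists_max_image {K : Subgroup G | K.Normal ∧ K ≤ H ∧ (Nat.card K).Coprime p}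
    (fun K => Nat.card K) (Set.toFinite _) ⟨⊥, (inferInstance : (⊥ : Subgroup G).Normal), bot_le, by simp⟩
  set q := QuotientGroup.mk' K with hq
  have hqs := QuotientGroup.mk'_surjective K
  set Hb := H.map q with hHb
  haveI hHbn : Hb.Normal := Normal.map inferInstance q hqs
  have hHbs : Cfsg.IsPSolvable p Hb := H22.PSolv.isPSolvable_of_surjective (q.subgroupMap H) (q.subgroupMap_surjective H) hsolv
  have hcHb : Nat.card H = Nat.card K * Nat.card Hb := by
    have h1 := H2.Card.card_mul_relIndex hKH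
    have h2 : Nat.card Hb = K.relIndex H := by
      rw [hHb, relIndex, ← MonoidHom.domRestrict_range, ← index_ker, MonoidHom.ker_domRestrict, hq, QuotientGroup.ker_mk']
    rw [h2, h1]
  have hpK : ¬ p ∣ Nat.card K := (Nat.Prime.coprime_iff_not_dvd hpp).1 hKp.symm
  have hpHb : p ∣ Nat.card Hb := by
    rw [hcHb] at hdiv
    exact (hpp.dvd_mul.1 hdiv).resolve_left hpK
  haveI : Nontrivial Hb := by
    rw [← Finite.one_lt_card_iff_nontrivial]
    exact lt_of_lt_of_le hpp.one_lt (Nat.le_of_dvd Nat.card_pos hpHb)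
  -- the p'-core of Hb is trivial
  have hprime : Cfsg.pPrimeCore p Hb = ⊥ := by
    by_contra hne
    have h1 : ((Cfsg.pPrimeCore p Hb).map Hb.subtype).Normal := H11.Cores.map_subtype_normal_of_characteristic _ _
    set L := ((Cfsg.pPrimeCore p Hb).map Hb.subtype).comap q with hL
    have hLn : L.Normal := h1.comap q
    have hKL : K ≤ L := by
      intro k hk
      rw [hL, mem_comap]
      have : q k = 1 := (QuotientGroup.eq_one_iff k).2 hk
      rw [this]; exact one_mem _
    have hLH : L ≤ H := by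
      have h2 : L ≤ Hb.comap q := comap_mono (map_subtype_le _)
      rwa [hHb, comap_map_eq, hq, QuotientGroup.ker_mk', sup_eq_left.2 hKH] at h2
    have h2 : L.map q = (Cfsg.pPrimeCore p Hb).map Hb.subtype := map_comap_eq_self_of_surjective hqs _
    have h3 : Nat.card L = Nat.card K * Nat.card (Cfsg.pPrimeCore p Hb) := by
      have h4 := H2.Card.card_mul_relIndex hKL
      have h5 : Nat.card (L.map q) = K.relIndex L := by
        rw [relIndex, ← MonoidHom.domRestrict_range, ← index_ker, MonoidHom.ker_domRestrict, hq, QuotientGroup.ker_mk']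
      rw [h2, card_map_of_injective Hb.subtype_injective] at h5
      rw [h5, h4]
    have h4 : (Nat.card L).Coprime p := by
      rw [h3]
      exact Nat.Coprime.mul_left hKp (H11.Cores.pPrimeCore_coprime p)
    have h5 := hKmax L ⟨hLn, hLH, h4⟩
    rw [h3] at h5
    have h6 : 1 < Nat.card (Cfsg.pPrimeCore p Hb) := by
      have := H2.Card.card_lt_of_lt (bot_lt_iff_ne_bot.2 hne)
      rwa [Subgroup.card_bot] at this
    have h7 : 0 < Nat.card K := Nat.card_pos
    nlinarith
  have hOne : Cfsg.pCore p Hb ≠ ⊥ := (H22.PSolv.pCore_or_pPrimeCore_ne_bot hHbs).resolve_right (fun h => h hprime)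
  set O := (Cfsg.pCore p Hb).map Hb.subtype with hO
  haveI hOn : O.Normal := H11.Cores.map_subtype_normal_of_characteristic _ _
  have hOp : IsPGroup p O := (H1.Nilp.pCore_isPGroup p).map _
  have hO1 : O ≠ ⊥ := by
    intro h
    exact hOne ((map_eq_bot_iff_of_injective _ Hb.subtype_injective).1 h)
  have hOH : O ≤ Hb := map_subtype_le _
  -- Sylow subgroup of G/K
  have hOP : O ≤ (P : Subgroup G).map q := by
    have h1 : IsPGroup p ((P.mapSurjective hqs : Subgroup (G ⧸ K)) ⊔ O : Subgroup (G ⧸ K)) :=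
      IsPGroup.to_sup_of_normal_right (P.mapSurjective hqs).2 hOp
    have h2 := (P.mapSurjective hqs).3 h1 le_sup_left
    rw [Sylow.coe_mapSurjective] at h2
    rw [← h2]
    exact le_sup_right
  have hqinj : ∀ x ∈ (P : Subgroup G), q x = 1 → x = 1 := by
    intro x hx h
    have h1 : x ∈ K := (QuotientGroup.eq_one_iff x).1 h
    obtain ⟨k, hk⟩ := H24.Tools.exists_orderOf P.2 hx
    have h2 : orderOf x ∣ Nat.card K := by rw [← orderOf_mk x h1]; exact orderOf_dvd_natCard _
    rw [← orderOf_eq_one_iff]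
    exact Nat.eq_one_of_dvd_coprimes (Nat.Coprime.pow_right k hKp) h2 (hk ▸ dvd_rfl)
  have hqinj2 : ∀ x ∈ (P : Subgroup G), ∀ y ∈ (P : Subgroup G), q x = q y → x = y := by
    intro x hx y hy h
    have := hqinj (x * y⁻¹) (mul_mem hx (inv_mem hy)) (by rw [map_mul, map_inv, h, mul_inv_cancel])
    exact mul_inv_eq_one.1 this
  set Q := (P : Subgroup G) ⊓ O.comap q with hQ
  have hQO : Q.map q = O := by
    apply le_antisymm
    · rintro _ ⟨x, hx, rfl⟩
      exact hx.2
    · intro o ho
      obtain ⟨x, hx, rfl⟩ := hOP ho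
      exact ⟨x, mem_inf.2 ⟨hx, ho⟩, rfl⟩
  have hQP : Q ≤ P := inf_le_left
  have hQp : IsPGroup p Q := P.2.to_le inf_le_left
  have hQ1 : Q ≠ ⊥ := by
    intro h
    apply hO1
    rw [← hQO, h, Subgroup.map_bot]
  have huniq : ∀ R : Subgroup G, R ≤ P → Nat.card R = Nat.card Q → R = Q := by
    intro R hR hc
    obtain ⟨g, hg⟩ := hC Q R hQp (P.2.to_le hR) hc.symm
    apply H2.Card.eq_of_le_of_card_eq _ hc
    intro r hr
    refine mem_inf.2 ⟨hR hr, ?_⟩
    rw [mem_comap]
    rw [hg] at hr
    obtain ⟨x, hx, rfl⟩ := hr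
    have hx2 : q x ∈ O := hx.2
    change q (g * x * g⁻¹) ∈ O
    rw [map_mul, map_mul, map_inv]
    exact hOn.conj_mem _ hx2 _
  obtain ⟨j, hj⟩ := IsPGroup.iff_card.1 hQp
  have hj1 : 1 ≤ j := by
    rcases Nat.eq_zero_or_pos j with rfl | h
    · exact absurd (Subgroup.card_eq_one.1 (by rw [hj, pow_zero])) hQ1
    · exact h
  have hQtop : (∀ a : (P : Subgroup G), a ^ p = 1) → Q = P := by
    intro hexp
    apply le_antisymm hQP
    intro x hx
    by_contra hxQ
    have hx1 : x ≠ 1 := by rintro rfl; exact hxQ (one_mem _)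
    have hxo : orderOf x = p := orderOf_eq_prime (congrArg Subtype.val (hexp ⟨x, hx⟩)) hx1
    have hdvd : p ^ j ∣ Nat.card (P : Subgroup G) := by rw [← hj]; exact card_dvd_of_le hQP
    obtain ⟨R, hR, hRle⟩ := Sylow.exists_subgroup_card_pow_prime_le (G := (P : Subgroup G)) p (n := 1) (m := j) hdvd
      (zpowers (⟨x, hx⟩ : (P : Subgroup G))) (by rw [Nat.card_zpowers, orderOf_mk, hxo, pow_one]) hj1
    have h1 := huniq (R.map (P : Subgroup G).subtype) (map_subtype_le _) (by
      rw [card_map_of_injective (P : Subgroup G).subtype_injective, hR, hj])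
    apply hxQ
    rw [← h1]
    exact ⟨⟨x, hx⟩, hRle (mem_zpowers _), rfl⟩
  rcases S4023.result hC P with h | h | h | ⟨-, h1, h2, h3⟩
  · exact ⟨inferInstance, Or.inr h⟩
  · refine ⟨h.1, Or.inl ?_⟩
    have h1 := hQtop (fun a => Subtype.ext (h.2 a a.2))
    rw [← h1]
    have h2 : Q ≤ Hb.comap q := fun x hx => hOH (hx.2)
    rwa [hHb, comap_map_eq, hq, QuotientGroup.ker_mk', sup_eq_left.2 hKH] at h2
  · exact absurd h.1 hp
  · exfalso
    have hexp : ∀ a : (P : Subgroup G), a ^ p = 1 := by
      intro a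
      have := Monoid.pow_exponent_eq_one a
      rwa [h3] at this
    have hQP' := hQtop hexp
    have hPO : (P : Subgroup G).map q = O := by rw [← hQO, hQP']
    -- centre
    apply h1
    haveI : Nontrivial (P : Subgroup G) := by
      rw [← Finite.one_lt_card_iff_nontrivial, h2]
      exact Nat.one_lt_pow (by omega) hpp.one_lt
    obtain ⟨⟨z, hzP⟩, hz, hz1⟩ := SetLike.exists_of_lt P.2.bot_lt_center
    have hz1' : z ≠ 1 := fun h => hz1 (by rw [mem_bot]; exact Subtype.ext h)
    have hzo : orderOf z = p := orderOf_eq_prime (congrArg Subtype.val (hexp ⟨z, hzP⟩)) hz1'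
    have hqz : ∀ y ∈ O, y * q z = q z * y := by
      intro y hy
      rw [← hPO] at hy
      obtain ⟨w, hw, rfl⟩ := hy
      rw [← map_mul, ← map_mul]
      congr 1
      exact congrArg Subtype.val (mem_center_iff.1 hz ⟨w, hw⟩)
    have key : ∀ x : G, x ∈ (P : Subgroup G) → ∀ y ∈ (P : Subgroup G), x * y = y * x := by
      intro x hx y hy
      rcases eq_or_ne x 1 with rfl | hx1
      · simp
      have hxo : orderOf x = p := orderOf_eq_prime (congrArg Subtype.val (hexp ⟨x, hx⟩)) hx1
      obtain ⟨g, hg⟩ := hC (zpowers z) (zpowers x) (H24.Tools.isPGroup_zpowers (k := 1) (by rw [hzo, pow_one]))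
        (H24.Tools.isPGroup_zpowers (k := 1) (by rw [hxo, pow_one])) (by rw [Nat.card_zpowers, Nat.card_zpowers, hzo, hxo])
      have hxm : x ∈ (zpowers z).map (MulAut.conj g).toMonoidHom := by rw [← hg]; exact mem_zpowers x
      obtain ⟨_, ⟨k, rfl⟩, hk⟩ := hxm
      have hk' : g * z ^ k * g⁻¹ = x := hk
      have hOy : q g⁻¹ * q y * q g ∈ O := by
        have h4 : q y ∈ O := by rw [← hPO]; exact mem_map_of_mem q hy
        have := hOn.conj_mem _ h4 (q g⁻¹)
        have e1 : (q g⁻¹)⁻¹ = q g := by rw [map_inv, inv_inv]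
        rwa [e1] at this
      have h5 := hqz _ hOy
      apply hqinj2 _ (mul_mem hx hy) _ (mul_mem hy hx)
      have h6 : Commute (q z) (q g⁻¹ * q y * q g) := h5.symm
      have h7 := (h6.zpow_left k).eq
      rw [← hk']
      simp only [map_mul, map_zpow, map_inv] at h7 ⊢
      calc q g * q z ^ k * (q g)⁻¹ * q y = q g * (q z ^ k * ((q g)⁻¹ * q y * q g)) * (q g)⁻¹ := by group
        _ = q g * (((q g)⁻¹ * q y * q g) * q z ^ k) * (q g)⁻¹ := by rw [h7]
        _ = _ := by group
    exact ⟨⟨fun a b => Subtype.ext (key a a.2 b b.2)⟩⟩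


end Cfsg.Agent.S4024
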