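import Cfsg.Statements.S4028
import Cfsg.Agent.H2_Basic

set_option autoImplicit false
open Cfsg

namespace Cfsg.Agent.S4028

theorem comm_of_odd {G : Type*} [Group G] [Finite G] (x b : G) {k : ℕ} (hx : orderOf x = 2 ^ k)
    (hb : (orderOf b).Coprime 2) (hn : b ∈ Subgroup.normalizer ((Subgroup.zpowers x : Subgroup G) : Set G)) :
    b * x = x * b := by
  let Z := Subgroup.zpowers x
  haveI : (Z.subgroupOf (Subgroup.normalizer (Z : Set G))).Normal := Subgroup.normal_in_normalizer
  let f : Subgroup.normalizer (Z : Set G) →* MulAut (Z.subgroupOf (Subgroup.normalizer (Z : Set G))) :=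
    MulAut.conjNormal
  haveI hc : IsCyclic (Z.subgroupOf (Subgroup.normalizer (Z : Set G))) :=
    (Subgroup.subgroupOfEquivOfLe (Subgroup.le_normalizer (H := Z))).isCyclic.2 inferInstance
  have h1 : Nat.card (MulAut (Z.subgroupOf (Subgroup.normalizer (Z : Set G)))) = Nat.totient (2 ^ k) := by
    rw [IsCyclic.card_mulAut, Nat.card_congr (Subgroup.subgroupOfEquivOfLe (Subgroup.le_normalizer (H := Z))).toEquiv,
      Nat.card_zpowers, hx]
  have h2 : orderOf (f ⟨b, hn⟩) ∣ Nat.totient (2 ^ k) := h1 ▸ orderOf_dvd_natCard _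
  have h3 : orderOf (f ⟨b, hn⟩) ∣ orderOf b := by
    have := orderOf_map_dvd f ⟨b, hn⟩
    rwa [Subgroup.orderOf_mk] at this
  have h4 : Nat.totient (2 ^ k) ∣ 2 ^ k := by
    rcases Nat.eq_zero_or_pos k with rfl | hk
    · simp
    · rw [Nat.totient_prime_pow Nat.prime_two hk]
      simp only [Nat.add_one_sub_one, mul_one]
      exact pow_dvd_pow 2 (Nat.sub_le k 1)
  have h5 : orderOf (f ⟨b, hn⟩) = 1 :=
    Nat.eq_one_of_dvd_coprimes (hb.pow_right k) h3 (h2.trans h4)
  rw [orderOf_eq_one_iff] at h5
  have hxN : x ∈ Subgroup.normalizer (Z : Set G) := Subgroup.le_normalizer (Subgroup.mem_zpowers x)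
  have h6 := congrArg (fun g => ((g ⟨⟨x, hxN⟩, Subgroup.mem_zpowers x⟩ :
    Z.subgroupOf (Subgroup.normalizer (Z : Set G))) : Subgroup.normalizer (Z : Set G))) h5
  have h7 := congrArg Subtype.val h6
  simp only [f, MulAut.conjNormal_apply, Subgroup.coe_mul, MulAut.one_apply] at h7
  have h8 : b * x * b⁻¹ = x := h7
  exact mul_inv_eq_iff_eq_mul.1 h8

/-- Let G be a finite group with Sylow 2-subgroup P. Then N_G(⟨x⟩) = C_G(x) holds for every 2-element x of G if and only if N_P(⟨y⟩) = C_P(y) holds for every y ∈ P (computed inside P). -/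
theorem result {G : Type*} [Group G] [Finite G] (P : Sylow 2 G) :
    (∀ x : G, (∀ r : ℕ, r.Prime → r ∣ orderOf x → r = 2) →
      Subgroup.normalizer ((Subgroup.zpowers x : Subgroup G) : Set G) ≤ Subgroup.centralizer {x}) ↔
    (∀ y : ↥(P : Subgroup G), Subgroup.normalizer ((Subgroup.zpowers y : Subgroup ↥(P : Subgroup G)) : Set ↥(P : Subgroup G)) ≤
        Subgroup.centralizer {y}) := by
  constructor
  · intro h y n hn
    rw [Subgroup.mem_centralizer_singleton_iff]
    obtain ⟨k, hk⟩ := IsPGroup.iff_orderOf.1 P.2 y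
    have h1 := h (y : G) (by
      intro r hr hd
      rw [Subgroup.orderOf_coe, hk] at hd
      exact (Nat.prime_dvd_prime_iff_eq hr Nat.prime_two).1 (hr.dvd_of_dvd_pow hd))
    have h2 : (n : G) ∈ Subgroup.normalizer ((Subgroup.zpowers (y : G) : Subgroup G) : Set G) := by
      have e : Subgroup.zpowers (y : G) = (Subgroup.zpowers y).map (P : Subgroup G).subtype := by
        rw [MonoidHom.map_zpowers]; rfl
      rw [e, Subgroup.mem_normalizer_iff]
      intro z
      have h3 := Subgroup.mem_normalizer_iff.1 hn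
      constructor
      · rintro ⟨w, hw, rfl⟩
        exact ⟨n * w * n⁻¹, (h3 w).1 hw, rfl⟩
      · rintro ⟨w, hw, hw2⟩
        refine ⟨n⁻¹ * w * n, ?_, ?_⟩
        · apply (h3 _).2
          have : n * (n⁻¹ * w * n) * n⁻¹ = w := by group
          rw [this]; exact hw
        · have : z = (n : G)⁻¹ * ((n : G) * z * (n : G)⁻¹) * n := by group
          rw [this, ← hw2]; rfl
    have h3 := Subgroup.mem_centralizer_singleton_iff.1 (h1 h2)
    exact Subtype.ext h3
  · intro h x hx g hg
    rw [Subgroup.mem_centralizer_singleton_iff]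
    have hxo : ∃ k, orderOf x = 2 ^ k := by
      refine ⟨_, Nat.eq_prime_pow_of_unique_prime_dvd (orderOf_pos x).ne' fun {d} hd hdv => hx d hd hdv⟩
    obtain ⟨k, hk⟩ := hxo
    obtain ⟨a, ha, b, hb, hab, _, ⟨m, hm⟩, hbo⟩ := Cfsg.Agent.H2.Basic.exists_p_decomp 2 g
    have haN : a ∈ Subgroup.normalizer ((Subgroup.zpowers x : Subgroup G) : Set G) := Subgroup.zpowers_le.2 hg ha
    have hbN : b ∈ Subgroup.normalizer ((Subgroup.zpowers x : Subgroup G) : Set G) := Subgroup.zpowers_le.2 hg hb
    have hbx := comm_of_odd x b hk hbo hbN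
    have hax : a * x = x * a := by
      have h1 : IsPGroup 2 (Subgroup.zpowers a ⊔ Subgroup.zpowers x : Subgroup G) :=
        (IsPGroup.of_card (n := m) (by rw [Nat.card_zpowers, hm])).to_sup_of_normal_right'
          (IsPGroup.of_card (n := k) (by rw [Nat.card_zpowers, hk])) (Subgroup.zpowers_le.2 haN)
      obtain ⟨S, hS⟩ := h1.exists_le_sylow
      obtain ⟨c, hc⟩ := MulAction.exists_smul_eq G P S
      have hmem : ∀ z ∈ Subgroup.zpowers a ⊔ Subgroup.zpowers x, c⁻¹ * z * c ∈ P := by
        intro z hz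
        rw [← Cfsg.Agent.H2.Basic.mem_smul_sylow, hc]
        exact hS hz
      have hxP := hmem x (Subgroup.mem_sup_right (Subgroup.mem_zpowers x))
      have haP := hmem a (Subgroup.mem_sup_left (Subgroup.mem_zpowers a))
      have h2 := h ⟨_, hxP⟩
      have h3 : (⟨_, haP⟩ : (P : Subgroup G)) ∈ Subgroup.normalizer
          ((Subgroup.zpowers (⟨_, hxP⟩ : (P : Subgroup G)) : Subgroup (P : Subgroup G)) : Set (P : Subgroup G)) := by
        have key : ∀ z : (P : Subgroup G), z ∈ Subgroup.zpowers (⟨_, hxP⟩ : (P : Subgroup G)) ↔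
            c * z * c⁻¹ ∈ Subgroup.zpowers x := by
          intro z
          rw [Subgroup.mem_zpowers_iff, Subgroup.mem_zpowers_iff]
          apply exists_congr
          intro i
          rw [Subtype.ext_iff, Subgroup.coe_zpow]
          have : (c⁻¹ * x * c) ^ i = c⁻¹ * x ^ i * c := by
            have := conj_zpow (i := i) (a := c⁻¹) (b := x)
            rwa [inv_inv] at this
          rw [this]
          constructor
          · intro h; rw [← h]; group
          · intro h; rw [h]; group
        rw [Subgroup.mem_normalizer_iff]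
        intro z
        rw [key, key]
        have h4 := Subgroup.mem_normalizer_iff.1 haN (c * z * c⁻¹)
        rw [h4]
        have : c * ((⟨_, haP⟩ * z * (⟨_, haP⟩ : (P : Subgroup G))⁻¹ : (P : Subgroup G)) : G) * c⁻¹ =
            a * (c * z * c⁻¹) * a⁻¹ := by
          simp only [Subgroup.coe_mul, Subgroup.coe_inv]
          group
        rw [this]
      have h4 := congrArg Subtype.val (Subgroup.mem_centralizer_singleton_iff.1 (h2 h3))
      simp only [Subgroup.coe_mul] at h4
      have h5 : c⁻¹ * (a * x) * c = c⁻¹ * (x * a) * c := by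
        calc c⁻¹ * (a * x) * c = (c⁻¹ * a * c) * (c⁻¹ * x * c) := by group
          _ = (c⁻¹ * x * c) * (c⁻¹ * a * c) := h4
          _ = _ := by group
      exact mul_left_cancel (mul_right_cancel h5)
    rw [← hab]
    calc a * b * x = a * (b * x) := by group
      _ = (a * x) * b := by rw [hbx]; group
      _ = x * (a * b) := by rw [hax]; group

end Cfsg.Agent.S4028
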