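import Cfsg.Statements.S4032
import Cfsg.Agent.H1_Coprime
import Cfsg.Agent.H23_PiClasses

set_option autoImplicit false
open Cfsg

namespace Cfsg.Agent.S4032
open scoped Pointwise

/-- Let π be a set of primes and G a finite group in which N_G(⟨x⟩) = C_G(x) for every π-element x. If N is a normal subgroup of G whose order is divisible by no prime of π, then G/N has the same property: N_{G/N}(⟨y⟩) = C_{G/N}(y) for every π-element y of G/N. -/
theorem result {G : Type*} [Group G] [Finite G] (π : Set ℕ)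
    (hirr : ∀ x : G, (∀ r : ℕ, r.Prime → r ∣ orderOf x → r ∈ π) →
      Subgroup.normalizer ((Subgroup.zpowers x : Subgroup G) : Set G) ≤ Subgroup.centralizer {x})
    (N : Subgroup G) [N.Normal] (hN : ∀ r : ℕ, r.Prime → r ∣ Nat.card N → r ∉ π) :
    ∀ y : G ⧸ N, (∀ r : ℕ, r.Prime → r ∣ orderOf y → r ∈ π) →
      Subgroup.normalizer ((Subgroup.zpowers y : Subgroup (G ⧸ N)) : Set (G ⧸ N)) ≤ Subgroup.centralizer {y} := by
  intro y hy g hg
  obtain ⟨x0, rfl⟩ := QuotientGroup.mk_surjective y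
  obtain ⟨g, rfl⟩ := QuotientGroup.mk_surjective g
  obtain ⟨a, b, hab, hcop, ha, hb⟩ := Cfsg.Agent.H23.PiClasses.exists_pi_parts π (orderOf x0) (orderOf_pos x0)
  obtain ⟨u, hu1, hu2⟩ := Nat.chineseRemainder hcop 1 0
  set x := x0 ^ u with hxdef
  have hoy : orderOf (x0 : G ⧸ N) ∣ a := by
    have h1 : orderOf (x0 : G ⧸ N) ∣ a * b := hab ▸ orderOf_map_dvd (QuotientGroup.mk' N) x0
    refine Nat.Coprime.dvd_of_dvd_mul_right ?_ h1
    rw [Nat.coprime_iff_gcd_eq_one]
    by_contra hne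
    obtain ⟨r, hr, hrd⟩ := Nat.exists_prime_and_dvd hne
    exact hb r hr (hrd.trans (Nat.gcd_dvd_right _ _)) (hy r hr (hrd.trans (Nat.gcd_dvd_left _ _)))
  have hxy : (x : G ⧸ N) = (x0 : G ⧸ N) := by
    rw [hxdef, QuotientGroup.mk_pow]
    conv_rhs => rw [← pow_one (x0 : G ⧸ N)]
    exact pow_eq_pow_iff_modEq.2 (hu1.of_dvd hoy)
  have hxa : orderOf x ∣ a := by
    apply orderOf_dvd_of_pow_eq_one
    rw [hxdef, ← pow_mul, ← orderOf_dvd_iff_pow_eq_one, ← hab, mul_comm u a]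
    exact Nat.mul_dvd_mul_left a ((Nat.modEq_zero_iff_dvd).1 hu2)
  have hxπ : ∀ r : ℕ, r.Prime → r ∣ orderOf x → r ∈ π := fun r hr hd => ha r hr (hd.trans hxa)
  rw [← hxy] at hg ⊢
  -- conjugate of zpowers x
  have hxN : Nat.Coprime (Nat.card (Subgroup.zpowers x)) (Nat.card N) := by
    rw [Nat.card_zpowers, Nat.coprime_iff_gcd_eq_one]
    by_contra hne
    obtain ⟨r, hr, hrd⟩ := Nat.exists_prime_and_dvd hne
    exact hN r hr (hrd.trans (Nat.gcd_dvd_right _ _)) (hxπ r hr (hrd.trans (Nat.gcd_dvd_left _ _)))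
  have hB : MulAut.conj g • Subgroup.zpowers x ≤ Subgroup.zpowers x ⊔ N := by
    intro z hz
    rw [Subgroup.mem_pointwise_smul_iff_inv_smul_mem] at hz
    obtain ⟨i, hi⟩ := Subgroup.mem_zpowers_iff.1 hz
    have hz' : z = g * x ^ i * g⁻¹ := by
      rw [hi]; simp only [MulAut.smul_def, MulAut.conj_inv_apply]; group
    have h1 : (z : G ⧸ N) ∈ Subgroup.zpowers (x : G ⧸ N) := by
      rw [hz', QuotientGroup.mk_mul, QuotientGroup.mk_mul, QuotientGroup.mk_inv, QuotientGroup.mk_zpow]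
      exact (Subgroup.mem_normalizer_iff.1 hg _).1 ⟨i, rfl⟩
    obtain ⟨j, hj⟩ := Subgroup.mem_zpowers_iff.1 h1
    have h2 : (x ^ j)⁻¹ * z ∈ N := by
      rw [← QuotientGroup.eq, QuotientGroup.mk_zpow]; exact hj
    have h3 : z = x ^ j * ((x ^ j)⁻¹ * z) := by group
    rw [h3]
    exact Subgroup.mul_mem _ (Subgroup.mem_sup_left ⟨j, rfl⟩) (Subgroup.mem_sup_right h2)
  obtain ⟨m, hm, hmx⟩ := Cfsg.Agent.H1.Coprime.sz_internal (A := Subgroup.zpowers x)
    (B := MulAut.conj g • Subgroup.zpowers x) (K := N) Subgroup.le_normalizer_of_normal hB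
    (Nat.card_congr (Subgroup.equivSMul (MulAut.conj g) (Subgroup.zpowers x)).toEquiv.symm)
    hxN (Or.inl inferInstance)
  have h1 : m⁻¹ * g ∈ Subgroup.normalizer ((Subgroup.zpowers x : Subgroup G) : Set G) := by
    have h2 : MulAut.conj (m⁻¹ * g) • Subgroup.zpowers x = Subgroup.zpowers x := by
      rw [map_mul, mul_smul, ← hmx, ← mul_smul, ← map_mul, inv_mul_cancel, map_one, one_smul]
    rw [Subgroup.mem_normalizer_iff]
    intro z
    conv_rhs => rw [← h2, Subgroup.mem_pointwise_smul_iff_inv_smul_mem]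
    simp [MulAut.smul_def, mul_assoc]
  have h3 := Subgroup.mem_centralizer_singleton_iff.1 (hirr x hxπ h1)
  rw [Subgroup.mem_centralizer_singleton_iff]
  have h4 : (g : G ⧸ N) = ((m⁻¹ * g : G) : G ⧸ N) := by
    rw [QuotientGroup.mk_mul, QuotientGroup.mk_inv, (QuotientGroup.eq_one_iff m).2 hm, inv_one, one_mul]
  rw [h4, ← QuotientGroup.mk_mul, ← QuotientGroup.mk_mul, h3]

end Cfsg.Agent.S4032
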