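import Cfsg.Statements.S4034
import Mathlib
import Cfsg.Agent.H23_PClass
import Cfsg.Agent.H3_Burnside
import Cfsg.Agent.H1_Hall
import Cfsg.Agent.H11_Cores
import Cfsg.Agent.H22_PSolv

set_option autoImplicit false
open Cfsg

namespace Cfsg.Agent.S4034

open Cfsg.Agent.H23.Regular Cfsg.Agent.H23.PClass Cfsg.Agent.H23.ClassSize Subgroup
open scoped Pointwise

universe u

/-- Burnside-type solvability induction. -/
theorem solvable_induction (P : ∀ (G : Type u) [Group G], Prop)
    (hnormal : ∀ (G : Type u) [Group G] [Finite G] (N : Subgroup G) [N.Normal], P G → P N)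
    (hquot : ∀ (G : Type u) [Group G] [Finite G] (N : Subgroup G) [N.Normal], P G → P (G ⧸ N))
    (hcl : ∀ (G : Type u) [Group G] [Finite G] [Nontrivial G], P G →
      ∃ g : G, g ≠ 1 ∧ ∃ p k : ℕ, p.Prime ∧ (centralizer ({g} : Set G)).index = p ^ k) (n : ℕ) :
    ∀ (G : Type u) [Group G] [Finite G], Nat.card G = n → P G → Group.IsSolvable G := by
  induction n using Nat.strong_induction_on with
  | _ n ih =>
    intro G _ _ hn hP
    rcases subsingleton_or_nontrivial G with hs | hs
    · infer_instance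
    by_cases hsimple : ∃ N : Subgroup G, N.Normal ∧ N ≠ ⊥ ∧ N ≠ ⊤
    · obtain ⟨N, hN, hNb, hNt⟩ := hsimple
      have h1 : Group.IsSolvable N := by
        apply ih (Nat.card N) _ N rfl (hnormal G N hP)
        rw [← hn]
        exact H2.Card.card_lt_of_ne_top hNt
      have h2 : Group.IsSolvable (G ⧸ N) := by
        apply ih (Nat.card (G ⧸ N)) _ (G ⧸ N) rfl (hquot G N hP)
        rw [← hn]
        exact H2.Card.card_quotient_lt hNb
      apply Group.isSolvable_of_ker_le_range N.subtype (QuotientGroup.mk' N)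
      rw [QuotientGroup.ker_mk', range_subtype]
    · have hS : IsSimpleGroup G := by
        refine ⟨fun N hN => ?_⟩
        by_contra hc
        push Not at hc
        exact hsimple ⟨N, hN, hc.1, hc.2⟩
      obtain ⟨g, hg, p, k, hp, hk⟩ := hcl G hP
      have h1 := H3.Burnside.class_prime_pow hp hg hk
      have : Fact (Nat.card G).Prime := ⟨h1⟩
      have : IsCyclic G := isCyclic_of_prime_card rfl
      have hc : IsMulCommutative G := inferInstance
      exact Group.isSolvable_of_comm (fun a b => hc.is_comm.comm a b)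

def P1 (p : ℕ) (G : Type u) [Group G] : Prop :=
  ∀ x : G, (orderOf x).Coprime p → ∃ k : ℕ, (centralizer ({x} : Set G)).index = p ^ k

def P2 (p : ℕ) (G : Type u) [Group G] : Prop :=
  ∃ H : Subgroup G, IsMulCommutative H ∧ ¬ p ∣ Nat.card H ∧ ∃ k : ℕ, H.index = p ^ k

theorem center_of_pgroup {p : ℕ} [hp : Fact p.Prime] (G : Type u) [Group G] [Finite G] [Nontrivial G] (hG : IsPGroup p G) :
    ∃ g : G, g ≠ 1 ∧ ∃ p k : ℕ, p.Prime ∧ (centralizer ({g} : Set G)).index = p ^ k := by
  have := hG.center_nontrivial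
  obtain ⟨g, hg⟩ := exists_ne (1 : center G)
  refine ⟨g, fun h => hg (Subtype.ext h), p, 0, hp.out, ?_⟩
  rw [pow_zero, index_centralizer_eq_one_iff]
  exact g.2

theorem solvable_P1 {p : ℕ} [hp : Fact p.Prime] (G : Type u) [Group G] [Finite G] (h : P1 p G) : Group.IsSolvable G := by
  refine solvable_induction (fun G _ => P1 p G) ?_ ?_ ?_ _ G rfl h
  · intro G _ _ N _ h x hx
    obtain ⟨k, hk⟩ := h x (by rwa [Subgroup.orderOf_coe])
    have h1 := H24.Tools.index_centralizer_subgroupOf_dvd N x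
    rw [hk] at h1
    obtain ⟨j, -, hj⟩ := (Nat.dvd_prime_pow hp.out).1 h1
    exact ⟨j, hj⟩
  · intro G _ _ N _ h x hx
    obtain ⟨y, rfl⟩ := QuotientGroup.mk'_surjective N x
    obtain ⟨a, ha, b, hb, hab, -, ⟨k, hk⟩, hbo⟩ := H2.Basic.exists_p_decomp p y
    have h1 : QuotientGroup.mk' N a = 1 := by
      have h2 : orderOf (QuotientGroup.mk' N a) ∣ orderOf a := orderOf_map_dvd _ a
      have h3 : orderOf (QuotientGroup.mk' N a) ∣ orderOf (QuotientGroup.mk' N y) := by
        obtain ⟨k, rfl⟩ := mem_zpowers_iff.1 ha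
        rw [map_zpow]
        exact orderOf_dvd_of_mem_zpowers ⟨k, rfl⟩
      rw [hk] at h2
      have h4 := Nat.eq_one_of_dvd_coprimes (Nat.Coprime.pow_right k hx) h3 h2
      exact orderOf_eq_one_iff.1 h4
    have h2 : QuotientGroup.mk' N y = QuotientGroup.mk' N b := by
      rw [← hab, map_mul, h1, one_mul]
    rw [h2]
    obtain ⟨k, hk⟩ := h b hbo
    have h3 := H24.Tools.index_centralizer_map_dvd (QuotientGroup.mk' N) (QuotientGroup.mk'_surjective N) b
    rw [hk] at h3
    obtain ⟨j, -, hj⟩ := (Nat.dvd_prime_pow hp.out).1 h3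
    exact ⟨j, hj⟩
  · intro G _ _ _ h
    by_cases hG : IsPGroup p G
    · exact center_of_pgroup G hG
    · rw [IsPGroup.iff_card] at hG
      have : ∃ q, q.Prime ∧ q ≠ p ∧ q ∣ Nat.card G := by
        by_contra hc
        push Not at hc
        apply hG
        refine ⟨(Nat.card G).factorization p, ?_⟩
        apply Nat.eq_of_factorization_eq Nat.card_pos.ne' (pow_pos hp.out.pos _).ne'
        intro q
        rw [hp.out.factorization_pow]
        by_cases hq : q = p
        · subst hq; simp
        · rw [Finsupp.single_eq_of_ne (by exact hq)]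
          by_cases hqp : q.Prime
          · exact Nat.factorization_eq_zero_of_not_dvd (hc q hqp hq)
          · exact Nat.factorization_eq_zero_of_not_prime _ hqp
      obtain ⟨q, hq, hqp, hqd⟩ := this
      have : Fact q.Prime := ⟨hq⟩
      obtain ⟨g, hg⟩ := exists_prime_orderOf_dvd_card' q hqd
      obtain ⟨k, hk⟩ := h g (by rw [hg]; exact (Nat.coprime_primes hq hp.out).2 hqp)
      refine ⟨g, ?_, p, k, hp.out, hk⟩
      rintro rfl
      rw [orderOf_one] at hg
      exact hq.one_lt.ne hg

theorem solvable_P2 {p : ℕ} [hp : Fact p.Prime] (G : Type u) [Group G] [Finite G] (h : P2 p G) : Group.IsSolvable G := by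
  refine solvable_induction (fun G _ => P2 p G) ?_ ?_ ?_ _ G rfl h
  · rintro G _ _ N _ ⟨H, hH, hHc, k, hk⟩
    refine ⟨H.subgroupOf N, ?_, ?_, ?_⟩
    · refine ⟨⟨fun a b => ?_⟩⟩
      apply Subtype.ext; apply Subtype.ext
      have := hH.is_comm.comm (⟨((a : N) : G), mem_subgroupOf.1 a.2⟩ : H) ⟨((b : N) : G), mem_subgroupOf.1 b.2⟩
      have h2 := congrArg Subtype.val this
      exact h2
    · intro hd
      apply hHc
      refine hd.trans ?_
      rw [H2.Card.card_subgroupOf]
      exact card_dvd_of_le inf_le_left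
    · have h1 : (H.subgroupOf N).index ∣ H.index := H24.Sub.relIndex_dvd_index_of_normal_right H N
      rw [hk] at h1
      obtain ⟨j, -, hj⟩ := (Nat.dvd_prime_pow hp.out).1 h1
      exact ⟨j, hj⟩
  · rintro G _ _ N _ ⟨H, hH, hHc, k, hk⟩
    refine ⟨H.map (QuotientGroup.mk' N), ?_, ?_, ?_⟩
    · infer_instance
    · intro hd
      apply hHc
      exact hd.trans (card_map_dvd H _)
    · have h1 := H.index_map_dvd (QuotientGroup.mk'_surjective N)
      rw [hk] at h1
      obtain ⟨j, -, hj⟩ := (Nat.dvd_prime_pow hp.out).1 h1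
      exact ⟨j, hj⟩
  · rintro G _ _ _ ⟨H, hH, hHc, k, hk⟩
    by_cases hb : H = ⊥
    · rw [hb, index_bot] at hk
      exact center_of_pgroup G (IsPGroup.of_card hk)
    · obtain ⟨⟨g, hgH⟩, hg⟩ := ne_bot_iff_exists_ne_one.1 hb
      have h1 : H ≤ centralizer ({g} : Set G) := by
        intro y hy
        rw [mem_centralizer_singleton_iff]
        have := hH.is_comm.comm (⟨y, hy⟩ : H) ⟨g, hgH⟩
        exact congrArg Subtype.val this
      have h2 := index_dvd_of_le h1
      rw [hk] at h2
      obtain ⟨j, -, hj⟩ := (Nat.dvd_prime_pow hp.out).1 h2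
      exact ⟨g, fun he => hg (Subtype.ext he), p, j, hp.out, hj⟩


theorem main_mp {p : ℕ} [hp : Fact p.Prime] (G : Type u) [Group G] [Finite G] (h : P1 p G) : P2 p G := by
  have hsolv := solvable_P1 G h
  set O := pCore p G with hO
  have hOn : O.Normal := H1.Nilp.pCore_normal p
  have hOp : IsPGroup p O := H1.Nilp.pCore_isPGroup p
  have hq : P1 p (G ⧸ O) := by
    intro x hx
    obtain ⟨y, rfl⟩ := QuotientGroup.mk'_surjective O x
    obtain ⟨a, ha, b, hb, hab, -, ⟨k, hk⟩, hbo⟩ := H2.Basic.exists_p_decomp p y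
    have h1 : QuotientGroup.mk' O a = 1 := by
      have h2 : orderOf (QuotientGroup.mk' O a) ∣ orderOf a := orderOf_map_dvd _ a
      have h3 : orderOf (QuotientGroup.mk' O a) ∣ orderOf (QuotientGroup.mk' O y) := by
        obtain ⟨k, rfl⟩ := mem_zpowers_iff.1 ha
        rw [map_zpow]
        exact orderOf_dvd_of_mem_zpowers ⟨k, rfl⟩
      rw [hk] at h2
      have h4 := Nat.eq_one_of_dvd_coprimes (Nat.Coprime.pow_right k hx) h3 h2
      exact orderOf_eq_one_iff.1 h4
    have h2 : QuotientGroup.mk' O y = QuotientGroup.mk' O b := by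
      rw [← hab, map_mul, h1, one_mul]
    rw [h2]
    obtain ⟨k, hk⟩ := h b hbo
    have h3 := H24.Tools.index_centralizer_map_dvd (QuotientGroup.mk' O) (QuotientGroup.mk'_surjective O) b
    rw [hk] at h3
    obtain ⟨j, -, hj⟩ := (Nat.dvd_prime_pow hp.out).1 h3
    exact ⟨j, hj⟩
  have hcore : pCore p (G ⧸ O) = ⊥ := H22.PSolv.pCore_quotient
  set F := fittingSubgroup (G ⧸ O) with hF
  have hFn : F.Normal := H1.Nilp.fitting_normal
  have hFp : (Nat.card F).Coprime p := by
    have h1 : F ≤ pPrimeCore p (G ⧸ O) := by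
      refine (H1.Nilp.fitting_le_sup p).trans ?_
      rw [hcore, bot_sup_eq]
    exact Nat.Coprime.coprime_dvd_left (card_dvd_of_le h1) (H1.Nilp.pPrimeCore_coprime p)
  have hcent : ∀ x : G ⧸ O, (orderOf x).Coprime p → F ≤ centralizer ({x} : Set (G ⧸ O)) := by
    intro x hx
    obtain ⟨k, hk⟩ := hq x hx
    have h1 := H24.Sub.relIndex_dvd_index_of_normal_right (centralizer ({x} : Set (G ⧸ O))) F
    rw [hk] at h1
    have h2 : (centralizer ({x} : Set (G ⧸ O))).relIndex F ∣ Nat.card F := relIndex_dvd_card _ _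
    have h3 := Nat.eq_one_of_dvd_coprimes (Nat.Coprime.pow_right k hFp) h2 h1
    exact relIndex_eq_one.1 h3
  have hmem : ∀ x : G ⧸ O, (orderOf x).Coprime p → x ∈ F := by
    intro x hx
    have : Group.IsSolvable (G ⧸ O) := inferInstance
    apply H1.Hall.centralizer_fitting_le
    rw [mem_centralizer_iff]
    intro y hy
    have := hcent x hx hy
    rw [mem_centralizer_singleton_iff] at this
    exact this
  have hFc : ∀ x ∈ F, ∀ y ∈ F, x * y = y * x := by
    intro x hx y hy
    have h1 : (orderOf y).Coprime p := by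
      refine Nat.Coprime.coprime_dvd_left ?_ hFp
      rw [← Subgroup.orderOf_mk y hy]
      exact orderOf_dvd_natCard _
    have := hcent y h1 hx
    rwa [mem_centralizer_singleton_iff] at this
  have hFi : ∃ k, F.index = p ^ k := by
    refine ⟨_, Nat.eq_prime_pow_of_unique_prime_dvd index_ne_zero_of_finite ?_⟩
    intro q hq' hqd
    by_contra hqp
    have : Fact q.Prime := ⟨hq'⟩
    obtain ⟨S⟩ : Nonempty (Sylow q (G ⧸ O)) := inferInstance
    have hSF : (S : Subgroup (G ⧸ O)) ≤ F := by
      intro x hx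
      apply hmem
      obtain ⟨k, hk⟩ := H24.Tools.exists_orderOf S.isPGroup' hx
      rw [hk]
      exact Nat.Coprime.pow_left k ((Nat.coprime_primes hq' hp.out).2 hqp)
    exact S.not_dvd_index (hqd.trans (index_dvd_of_le hSF))
  obtain ⟨k, hk⟩ := hFi
  set K := F.comap (QuotientGroup.mk' O) with hK
  have hOK : O ≤ K := H1.Hall.le_comap_mk O F
  have hKc : Nat.card K = Nat.card F * Nat.card O := H1.Hall.card_comap_mk O F
  have hKi : K.index = p ^ k := by
    rw [hK, index_comap_of_surjective _ (QuotientGroup.mk'_surjective O), hk]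
  have hO'c : Nat.card (O.subgroupOf K) = Nat.card O := H2.Card.card_subgroupOf_of_le hOK
  have hO'i : (O.subgroupOf K).index = Nat.card F := by
    have h1 := (O.subgroupOf K).card_mul_index
    rw [hO'c, hKc, mul_comm (Nat.card F)] at h1
    exact Nat.eq_of_mul_eq_mul_left Nat.card_pos h1
  obtain ⟨n, hn⟩ := IsPGroup.iff_card.1 hOp
  have hcop : Nat.Coprime (Nat.card (O.subgroupOf K)) (O.subgroupOf K).index := by
    rw [hO'c, hO'i, hn]
    exact Nat.Coprime.pow_left n hFp.symm
  obtain ⟨L, hL⟩ := exists_right_complement'_of_coprime hcop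
  have hLc : Nat.card L = Nat.card F := by rw [← hO'i]; exact hL.symm.index_eq_card.symm
  have hLi : L.index = p ^ n := by rw [← hn, ← hO'c]; exact hL.index_eq_card
  refine ⟨L.map K.subtype, ?_, ?_, n + k, ?_⟩
  · have hLcomm : ∀ a ∈ L, ∀ b ∈ L, a * b = b * a := by
      intro a ha b hb
      have h1 : a * b * a⁻¹ * b⁻¹ ∈ L := L.mul_mem (L.mul_mem (L.mul_mem ha hb) (L.inv_mem ha)) (L.inv_mem hb)
      have h2 : a * b * a⁻¹ * b⁻¹ ∈ O.subgroupOf K := by
        rw [mem_subgroupOf, ← QuotientGroup.eq_one_iff]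
        have haF : QuotientGroup.mk' O (a : G) ∈ F := a.2
        have hbF : QuotientGroup.mk' O (b : G) ∈ F := b.2
        have h3 := hFc _ haF _ hbF
        change QuotientGroup.mk' O ((a : G) * b * (a : G)⁻¹ * (b : G)⁻¹) = 1
        rw [map_mul, map_mul, map_mul, h3, map_inv, map_inv]
        group
      have h3 : a * b * a⁻¹ * b⁻¹ = 1 := by
        have h4 := hL.disjoint
        rw [disjoint_iff_inf_le] at h4
        exact mem_bot.1 (h4 ⟨h2, h1⟩)
      calc a * b = (a * b * a⁻¹ * b⁻¹) * (b * a) := by group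
        _ = b * a := by rw [h3, one_mul]
    refine ⟨⟨?_⟩⟩
    rintro ⟨_, a, ha, rfl⟩ ⟨_, b, hb, rfl⟩
    apply Subtype.ext
    have h5 : ((a * b : K) : G) = ((b * a : K) : G) := congrArg Subtype.val (hLcomm a ha b hb)
    exact h5
  · rw [Subgroup.card_map_of_injective K.subtype_injective, hLc]
    exact (Nat.Prime.coprime_iff_not_dvd hp.out).1 hFp.symm
  · rw [index_map_subtype, hLi, hKi, pow_add]

theorem main_mpr {p : ℕ} [hp : Fact p.Prime] (G : Type u) [Group G] [Finite G] (h : P2 p G) : P1 p G := by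
  have hsolv := solvable_P2 G h
  obtain ⟨H, hH, hHc, k, hk⟩ := h
  intro x hx
  have h1 : (Nat.card H).Coprime H.index := by
    rw [hk]; exact Nat.Coprime.pow_right k ((Nat.Prime.coprime_iff_not_dvd hp.out).2 hHc).symm
  have h2 : (Nat.card (zpowers x)).Coprime H.index := by
    rw [hk, Nat.card_zpowers]; exact Nat.Coprime.pow_right k hx
  obtain ⟨g, hg⟩ := H1.Hall.hall_dominance h1 h2
  have hgx : g * x * g⁻¹ ∈ H := by
    apply hg
    rw [H24.Tools.mem_conj]
    have : g⁻¹ * (g * x * g⁻¹) * g = x := by group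
    rw [this]; exact mem_zpowers x
  have h3 : H ≤ centralizer ({g * x * g⁻¹} : Set G) := by
    intro y hy
    rw [mem_centralizer_singleton_iff]
    have := hH.is_comm.comm (⟨y, hy⟩ : H) ⟨_, hgx⟩
    exact congrArg Subtype.val this
  have h4 := index_dvd_of_le h3
  rw [hk, index_centralizer_conj] at h4
  obtain ⟨j, -, hj⟩ := (Nat.dvd_prime_pow hp.out).1 h4
  exact ⟨j, hj⟩

theorem main {p : ℕ} (hp : p.Prime) (G : Type u) [Group G] [Finite G] :
    (∀ x : G, (orderOf x).Coprime p → ∃ k : ℕ, (ConjClasses.mk x).carrier.ncard = p ^ k) ↔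
    (∃ H : Subgroup G, IsMulCommutative H ∧ ¬ p ∣ Nat.card H ∧ ∃ k : ℕ, H.index = p ^ k) := by
  have : Fact p.Prime := ⟨hp⟩
  constructor
  · intro h
    apply main_mp (p := p) G
    intro x hx
    obtain ⟨k, hk⟩ := h x hx
    exact ⟨k, by rw [← ncard_carrier, hk]⟩
  · intro h x hx
    obtain ⟨k, hk⟩ := main_mpr G h x hx
    exact ⟨k, by rw [ncard_carrier, hk]⟩

/-- Let G be a finite group and p a prime. Every conjugacy class of p-regular elements of G (elements of order prime to p) has p-power size if and only if G has an abelian p-complement, i.e. an abelian subgroup of order prime to p and p-power index. -/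
theorem result {G : Type*} [Group G] [Finite G] {p : ℕ} (hp : p.Prime) :
    (∀ x : G, (orderOf x).Coprime p → ∃ k : ℕ, (ConjClasses.mk x).carrier.ncard = p ^ k) ↔
    (∃ H : Subgroup G, IsMulCommutative H ∧ ¬ p ∣ Nat.card H ∧ ∃ k : ℕ, H.index = p ^ k) := by
  exact main hp G

end Cfsg.Agent.S4034
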