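import Cfsg.Statements.S4036
import Cfsg.Agent.H2_Basic

set_option autoImplicit false
open Cfsg

namespace Cfsg.Agent.S4036

/-- Let P be a finite abelian p-group and K a group of automorphisms of P (a subgroup of Aut P) whose order is divisible by p. If all non-identity elements of K have the same fixed-point subgroup on P, then K has no non-trivial normal subgroup of order prime to p. -/
theorem result {P : Type*} [CommGroup P] [Finite P] {p : ℕ}
    [Fact p.Prime] (hP : IsPGroup p P) (K : Subgroup (MulAut P)) (hK : p ∣ Nat.card K)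
    (hfix : ∀ x y : MulAut P, x ∈ K → y ∈ K → x ≠ 1 → y ≠ 1 → ∀ v : P, x v = v ↔ y v = v) :
    ∀ N : Subgroup ↥K, N.Normal → ¬ p ∣ Nat.card N → N = ⊥ := by
  intro N hN hNp
  have hp : p.Prime := Fact.out
  classical
  haveI : Fintype N := Fintype.ofFinite N
  by_contra hne
  -- a nonidentity element of N and an element of order p of K
  obtain ⟨⟨n0, hn0⟩, hn1⟩ := Subgroup.ne_bot_iff_exists_ne_one.1 hne
  have hn1' : (n0 : MulAut P) ≠ 1 := fun h => hn1 (Subtype.ext (Subtype.ext h))
  obtain ⟨x, hx⟩ := exists_prime_orderOf_dvd_card' (G := K) p hK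
  have hx1 : (x : MulAut P) ≠ 1 := by
    intro h
    have : x = 1 := Subtype.ext h
    rw [this, orderOf_one] at hx
    exact hp.one_lt.ne hx
  -- the norm map
  let ν : P →* P := ∏ n : N, ((n : K) : MulAut P).toMonoidHom
  have hν : ∀ v, ν v = ∏ n : N, ((n : K) : MulAut P) v := by
    intro v
    simp only [ν, MonoidHom.finsetProd_apply]
    rfl
  have hνx : ∀ (x : K) (v : P), ν ((x : MulAut P) v) = (x : MulAut P) (ν v) := by
    intro x v
    rw [hν, hν, map_prod]
    let e : N ≃ N := (MulAut.conjNormal (H := N) x).toEquiv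
    rw [← Equiv.prod_comp e]
    refine Finset.prod_congr rfl fun n _ => ?_
    have h1 : (((e n : N) : K) : MulAut P) = (x : MulAut P) * ((n : K) : MulAut P) * (x : MulAut P)⁻¹ := by
      have : ((e n : N) : K) = x * n * x⁻¹ := MulAut.conjNormal_apply x n
      rw [this]; rfl
    rw [h1]
    simp [MulAut.mul_apply]
  have hνfix : ∀ v, (∀ n : N, ((n : K) : MulAut P) v = v) → ν v = v ^ Nat.card N := by
    intro v hv
    rw [hν, Finset.prod_congr rfl fun n _ => hv n, Finset.prod_const, Finset.card_univ,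
      Nat.card_eq_fintype_card]
  have hfixN : ∀ v, (x : MulAut P) v = v → ∀ n : N, ((n : K) : MulAut P) v = v := by
    intro v hv n
    by_cases h : ((n : K) : MulAut P) = 1
    · rw [h]; rfl
    · exact (hfix x (n : K) x.2 (n : K).2 hx1 h v).1 hv
  have hker : ν.ker ≠ ⊥ := by
    intro h
    have hinj : Function.Injective ν := (MonoidHom.ker_eq_bot_iff ν).1 h
    have hsurj : Function.Surjective ν := Finite.injective_iff_surjective.1 hinj
    apply hn1'
    ext v
    obtain ⟨w, rfl⟩ := hsurj v
    -- n0 fixes the norm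
    rw [hν, map_prod]
    change ∏ n : N, (n0 : MulAut P) (((n : K) : MulAut P) w) = ∏ n : N, ((n : K) : MulAut P) w
    rw [← Equiv.prod_comp (Equiv.mulLeft (⟨n0, hn0⟩ : N)) (fun n : N => ((n : K) : MulAut P) w)]
    refine Finset.prod_congr rfl fun n _ => ?_
    rfl
  -- x acts on the kernel
  have hkerp : IsPGroup p ν.ker := hP.to_subgroup _
  letI act : MulAction K ν.ker :=
    { smul := fun g v => ⟨(g : MulAut P) v, by
        rw [MonoidHom.mem_ker, hνx g, MonoidHom.mem_ker.1 v.2, map_one]⟩
      one_smul := fun v => Subtype.ext rfl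
      mul_smul := fun a b v => Subtype.ext rfl }
  have hxp : IsPGroup p (Subgroup.zpowers x) := IsPGroup.of_card (n := 1) (by
    rw [Nat.card_zpowers, hx, pow_one])
  have hpk : p ∣ Nat.card ν.ker := by
    obtain ⟨m, hm⟩ := IsPGroup.iff_card.1 hkerp
    rw [hm]
    apply dvd_pow_self
    rintro rfl
    rw [pow_zero] at hm
    exact hker (Subgroup.eq_bot_of_card_eq _ hm)
  obtain ⟨v, hv, hv1⟩ := hxp.exists_fixed_point_of_prime_dvd_card_of_fixed_point ν.ker hpk
    (a := 1) (by
      intro g
      apply Subtype.ext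
      exact map_one _)
  have hv' : (x : MulAut P) (v : P) = v :=
    congrArg Subtype.val (hv ⟨x, Subgroup.mem_zpowers x⟩)
  have h1 := hνfix v (hfixN v hv')
  rw [MonoidHom.mem_ker.1 v.2] at h1
  apply hv1
  obtain ⟨m, hm⟩ := IsPGroup.iff_orderOf.1 hP (v : P)
  have h2 : orderOf (v : P) = 1 := by
    apply Nat.eq_one_of_dvd_coprimes (a := p ^ m) (b := Nat.card N)
      (Nat.Coprime.pow_left m ((Nat.Prime.coprime_iff_not_dvd hp).2 hNp))
    · exact hm.dvd
    · exact orderOf_dvd_of_pow_eq_one h1.symm
  exact (Subtype.ext (orderOf_eq_one_iff.1 h2)).symm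

end Cfsg.Agent.S4036
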