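import Cfsg.Statements.S4039
import Cfsg.Agent.H23_NilMax


set_option autoImplicit false
open Cfsg

namespace Cfsg.Agent.S4039

open Subgroup

universe u

def Cl2 (G : Type u) [Group G] (M : Subgroup G) : Prop :=
  ∀ x ∈ M, ∀ y ∈ M, ∀ z ∈ M, (x * y * x⁻¹ * y⁻¹) * z = z * (x * y * x⁻¹ * y⁻¹)

theorem cl2_of (G : Type u) [Group G] (M : Subgroup G) (hnil : Group.IsNilpotent M) (hcl : Group.nilpotencyClass M ≤ 2) : Cl2 G M := by
  intro x hx y hy z hz
  have h1 : (⊤ : Subgroup M).lowerCentralSeries 2 = ⊥ := (Subgroup.lowerCentralSeries_eq_bot_iff_nilpotencyClass_le).2 hcl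
  rw [Subgroup.lowerCentralSeries_succ, Subgroup.lowerCentralSeries_succ, Subgroup.lowerCentralSeries_zero, commutator_eq_bot_iff_le_centralizer] at h1
  have h2 := h1 (commutator_mem_commutator (mem_top (⟨x, hx⟩ : M)) (mem_top (⟨y, hy⟩ : M)))
  have h3 := mem_centralizer_iff.1 h2 ⟨z, hz⟩ (mem_top _)
  exact (congrArg Subtype.val h3).symm


/-- A finite group possessing a maximal subgroup that is nilpotent of class at most 2 is solvable. -/
theorem result {G : Type*} [Group G] [Finite G]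
    (M : Subgroup G) (hmax : IsCoatom M) (hnil : Group.IsNilpotent M) (hcl : Group.nilpotencyClass ↥M ≤ 2) :
    Group.IsSolvable G := by

  refine H23.NilMax.main _ Cl2 ?_ ?_ G M rfl hmax hnil (cl2_of G M hnil hcl)
  · intro G _ _ N _ M _ h
    rintro _ ⟨x, hx, rfl⟩ _ ⟨y, hy, rfl⟩ _ ⟨z, hz, rfl⟩
    have := congrArg (QuotientGroup.mk' N) (h x hx y hy z hz)
    simpa only [map_mul, map_inv] using this
  · intro G _ _ M hmax hnil hcore h q hq hqM
    haveI : Fact q.Prime := ⟨hq⟩
    apply H23.NilMax.npc_of_class hmax hcore hnil hqM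
    intro x hx y hy z hz
    have hle : H23.NilMax.Syl M q ≤ M := H23.NilMax.syl_in.1
    exact h x (hle hx) y (hle hy) z (hle hz)


end Cfsg.Agent.S4039
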