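import Cfsg.Statements.S4043
import Cfsg.Agent.H23_Basic
import Cfsg.Agent.H2_Basic
import Cfsg.Agent.H2_Card
import Cfsg.Agent.H24_Tools
import Cfsg.Agent.H1_Coprime2
import Cfsg.Agent.H22_Prim

set_option autoImplicit false
open Cfsg

namespace Cfsg.Agent.S4043

open scoped Pointwise
open Subgroup

theorem mem_conj' {G : Type*} [Group G] {g x : G} {H : Subgroup G} : x ∈ MulAut.conj g • H ↔ g⁻¹ * x * g ∈ H :=
  H24.Tools.mem_conj

/-- Let G be a finite group that is the semidirect product of a normal p-subgroup N by a subgroup A, and also of N by a subgroup A₁, where p is a prime and A and A₁ both have normal p-complements. If C_N(A) = C_N(A₁) = 1, then A₁ is conjugate to A by an element of N. -/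
theorem result {G : Type*} [Group G] [Finite G] {p : ℕ}
    [Fact p.Prime] (N : Subgroup G) [N.Normal] (hN : IsPGroup p N) (A A₁ : Subgroup G)
    (hA : A.IsComplement' N) (hA₁ : A₁.IsComplement' N)
    (hAp : Cfsg.HasNormalPComplement p A) (hA₁p : Cfsg.HasNormalPComplement p A₁)
    (hC : ∀ n : G, n ∈ N → (∀ a : G, a ∈ A → a * n * a⁻¹ = n) → n = 1)
    (hC₁ : ∀ n : G, n ∈ N → (∀ a : G, a ∈ A₁ → a * n * a⁻¹ = n) → n = 1) :
    ∃ n : G, n ∈ N ∧ A₁ = A.map (MulAut.conj n).toMonoidHom := by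

  classical
  have hp := (Fact.out : p.Prime)
  obtain ⟨P, B', hB', hcomp⟩ := hAp
  obtain ⟨P₁, B₁', hB₁', hcomp₁⟩ := hA₁p
  set B : Subgroup G := B'.map A.subtype with hB
  set B₁ : Subgroup G := B₁'.map A₁.subtype with hB₁
  set T : Subgroup G := (P : Subgroup A).map A.subtype with hT
  have hcA : Nat.card A = Nat.card A₁ := by
    rw [← hA.index_eq_card, ← hA₁.index_eq_card]
  have hcB : Nat.card B = Nat.card B' := card_map_of_injective A.subtype_injective
  have hcB₁ : Nat.card B₁ = Nat.card B₁' := card_map_of_injective A₁.subtype_injective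
  have hc1 : Nat.card B' * Nat.card P = Nat.card A := hcomp.card_mul
  have hc2 : Nat.card B₁' * Nat.card P₁ = Nat.card A₁ := hcomp₁.card_mul
  have hcop : ∀ {X : Type _} [Group X] [Finite X] (P : Sylow p X) (B' : Subgroup X), B'.IsComplement' (P : Subgroup X) →
      (Nat.card B').Coprime p := by
    intro X _ _ P B' h
    rw [← h.index_eq_card]
    exact ((Nat.Prime.coprime_iff_not_dvd hp).2 P.not_dvd_index).symm
  have hcop1 : (Nat.card B').Coprime p := hcop P B' hcomp
  have hcop2 : (Nat.card B₁').Coprime p := hcop P₁ B₁' hcomp₁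
  obtain ⟨k, hk⟩ := IsPGroup.iff_card.1 P.2
  obtain ⟨k₁, hk₁⟩ := IsPGroup.iff_card.1 P₁.2
  have hBB : Nat.card B₁ = Nat.card B := by
    rw [hcB, hcB₁]
    apply Nat.dvd_antisymm
    · refine (Nat.Coprime.pow_right k hcop2).dvd_of_dvd_mul_right ?_
      change Nat.card B₁' ∣ Nat.card B' * p ^ k
      rw [← hk]
      change Nat.card B₁' ∣ Nat.card B' * Nat.card P
      rw [hc1, hcA, ← hc2]; exact dvd_mul_right _ _
    · refine (Nat.Coprime.pow_right k₁ hcop1).dvd_of_dvd_mul_right ?_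
      rw [← hk₁]
      change Nat.card B' ∣ Nat.card B₁' * Nat.card P₁
      rw [hc2, ← hcA, ← hc1]; exact dvd_mul_right _ _
  have hBA : B ≤ A := map_subtype_le _
  have hBA₁ : B₁ ≤ A₁ := map_subtype_le _
  have hdA : A ⊓ N = ⊥ := hA.disjoint.eq_bot
  -- B₁ ≤ B ⊔ N
  have hle : B₁ ≤ B ⊔ N := by
    rintro _ ⟨b, hb, rfl⟩
    obtain ⟨⟨a, n⟩, han⟩ := hA.2 (b : G)
    have han' : (a : G) * (n : G) = (b : G) := han
    have h1 : (QuotientGroup.mk' N) (a : G) = (QuotientGroup.mk' N) (b : G) := by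
      have hn1 : (QuotientGroup.mk' N) (n : G) = 1 := (QuotientGroup.eq_one_iff (n : G)).2 n.2
      rw [← han', map_mul, hn1, mul_one]
    have h2 : orderOf (a : G) ∣ orderOf (b : G) := by
      have h3 : ((a : G)) ^ (orderOf (b : G)) ∈ A ⊓ N := by
        refine mem_inf.2 ⟨A.pow_mem a.2 _, ?_⟩
        rw [← QuotientGroup.eq_one_iff]
        change (QuotientGroup.mk' N) _ = 1
        rw [map_pow, h1, ← map_pow, pow_orderOf_eq_one, map_one]
      rw [hdA, mem_bot] at h3
      exact orderOf_dvd_of_pow_eq_one h3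
    have h3 : orderOf (b : G) ∣ Nat.card B₁' := by
      rw [orderOf_coe, ← orderOf_mk b hb]; exact orderOf_dvd_natCard _
    have h4 : Nat.Coprime (orderOf a) p := by
      rw [← orderOf_coe]
      exact Nat.Coprime.coprime_dvd_left (h2.trans h3) hcop2
    have h5 : a ∈ B' := by
      haveI := hB'
      refine (H2.Basic.mem_npc_iff (k := k) (N := B') (p := p) ?_ ?_ a).2 h4
      · exact (Nat.Prime.coprime_iff_not_dvd hp).1 hcop1.symm
      · rw [hcomp.symm.index_eq_card]; exact hk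
    change (b : G) ∈ B ⊔ N
    rw [← han']
    exact mul_mem (mem_sup_left ⟨a, h5, rfl⟩) (mem_sup_right n.2)
  obtain ⟨l, hl⟩ := IsPGroup.iff_card.1 hN
  obtain ⟨n, hn, hnB⟩ := H1.Coprime.sz_internal (A := B) (B := B₁) (K := N) (by
      rw [normalizer_eq_top]; exact le_top) hle hBB (by
      rw [hcB, hl]; exact Nat.Coprime.pow_right l hcop1)
      (Or.inr (by haveI := hN.isNilpotent; infer_instance))
  refine ⟨n, hn, ?_⟩
  set A₂ : Subgroup G := A.map (MulAut.conj n).toMonoidHom with hA₂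
  have hmem₂ : ∀ x : G, x ∈ A₂ ↔ n⁻¹ * x * n ∈ A := fun x => H24.Tools.mem_map_conj
  have hB₁mem : ∀ x : G, x ∈ B₁ ↔ n⁻¹ * x * n ∈ B := by
    intro x; rw [← hnB]; exact H24.Tools.mem_conj
  have hAB : A ≤ normalizer (B : Set G) := by
    intro a ha
    apply H24.Tools.mem_normalizer
    rintro _ ⟨b, hb, rfl⟩
    exact ⟨⟨a, ha⟩ * b * ⟨a, ha⟩⁻¹, hB'.conj_mem b hb ⟨a, ha⟩, rfl⟩
  have hAB₁ : A₁ ≤ normalizer (B₁ : Set G) := by
    intro a ha
    apply H24.Tools.mem_normalizer
    rintro _ ⟨b, hb, rfl⟩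
    exact ⟨⟨a, ha⟩ * b * ⟨a, ha⟩⁻¹, hB₁'.conj_mem b hb ⟨a, ha⟩, rfl⟩
  have hAB₂ : A₂ ≤ normalizer (B₁ : Set G) := by
    intro a ha
    apply H24.Tools.mem_normalizer
    intro b hb
    rw [hB₁mem] at hb ⊢
    rw [hmem₂] at ha
    have := (mem_normalizer_iff.1 (hAB ha) _).1 hb
    convert this using 1
    group
  set T₂ : Subgroup G := T.map (MulAut.conj n).toMonoidHom with hT₂
  have hT₂p : IsPGroup p T₂ := (P.2.map A.subtype).map _
  have hmemT₂ : ∀ x : G, x ∈ T₂ ↔ n⁻¹ * x * n ∈ T := fun x => H24.Tools.mem_map_conj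
  have hTA : T ≤ A := map_subtype_le _
  -- C := C_N(B₁)
  set C : Subgroup G := N ⊓ centralizer (B₁ : Set G) with hCdef
  have hTC : T₂ ≤ normalizer (C : Set G) := by
    intro t ht
    apply H24.Tools.mem_normalizer
    intro c hc
    refine mem_inf.2 ⟨(inferInstance : N.Normal).conj_mem c hc.1 t, ?_⟩
    rw [mem_centralizer_iff]
    intro b hb
    have ht' : t ∈ normalizer (B₁ : Set G) := by
      apply hAB₂
      rw [hmem₂]; rw [hmemT₂] at ht; exact hTA ht
    have h1 : t⁻¹ * b * t ∈ B₁ := by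
      have := (mem_normalizer_iff.1 ((normalizer (B₁ : Set G)).inv_mem ht') b).1 hb
      rwa [inv_inv] at this
    have h2 := (mem_centralizer_iff.1 hc.2) _ h1
    have h3 : b * (t * c * t⁻¹) = t * ((t⁻¹ * b * t) * c) * t⁻¹ := by group
    rw [h3, h2]; group
  have hCbot : C = ⊥ := by
    by_contra hCne
    have hCp : IsPGroup p C := hN.to_le inf_le_left
    have hd : p ∣ Nat.card C := by
      obtain ⟨j, hj⟩ := IsPGroup.iff_card.1 hCp
      rw [hj]
      apply dvd_pow_self
      rintro rfl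
      rw [pow_zero] at hj
      exact hCne (Subgroup.card_eq_one.1 hj)
    have h1 := H22.Prim.exists_fixed_of_dvd hT₂p hTC hd
    obtain ⟨⟨v, hv⟩, hv1⟩ := ne_bot_iff_exists_ne_one.1 h1
    apply hv1
    apply Subtype.ext
    change v = 1
    have h2 : n⁻¹ * v * n = 1 := by
      apply hC
      · have := (inferInstance : N.Normal).conj_mem v hv.1.1 n⁻¹
        rwa [inv_inv] at this
      · intro a ha
        obtain ⟨⟨b, t⟩, hbt⟩ := hcomp.2 (⟨a, ha⟩ : A)
        have hbt' : ((b : A) : G) * ((t : A) : G) = a := congrArg Subtype.val hbt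
        have h3 : n * ((b : A) : G) * n⁻¹ ∈ B₁ := by
          rw [hB₁mem]
          have : n⁻¹ * (n * ((b : A) : G) * n⁻¹) * n = ((b : A) : G) := by group
          rw [this]; exact ⟨b, b.2, rfl⟩
        have h4 : n * ((t : A) : G) * n⁻¹ ∈ T₂ := by
          rw [hmemT₂]
          have : n⁻¹ * (n * ((t : A) : G) * n⁻¹) * n = ((t : A) : G) := by group
          rw [this]; exact ⟨t, t.2, rfl⟩
        have h5 := (mem_centralizer_iff.1 hv.1.2) _ h3
        have h6 := (mem_centralizer_iff.1 hv.2) _ h4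
        have h7 : (n * a * n⁻¹) * v = v * (n * a * n⁻¹) := by
          rw [← hbt']
          calc n * (((b : A) : G) * ((t : A) : G)) * n⁻¹ * v = (n * ((b : A) : G) * n⁻¹) * ((n * ((t : A) : G) * n⁻¹) * v) := by group
            _ = (n * ((b : A) : G) * n⁻¹) * (v * (n * ((t : A) : G) * n⁻¹)) := by rw [h6]
            _ = ((n * ((b : A) : G) * n⁻¹) * v) * (n * ((t : A) : G) * n⁻¹) := by group
            _ = (v * (n * ((b : A) : G) * n⁻¹)) * (n * ((t : A) : G) * n⁻¹) := by rw [h5]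
            _ = _ := by group
        calc a * (n⁻¹ * v * n) * a⁻¹ = n⁻¹ * ((n * a * n⁻¹) * v) * n * a⁻¹ := by group
          _ = n⁻¹ * (v * (n * a * n⁻¹)) * n * a⁻¹ := by rw [h7]
          _ = n⁻¹ * v * n := by group
    have : v = n * (n⁻¹ * v * n) * n⁻¹ := by group
    rw [this, h2]; group
  -- normalizer of B₁ is A₂
  have hfin : A₁ ≤ A₂ := by
    intro g hg
    obtain ⟨⟨a, m⟩, ham⟩ := hA.2 (n⁻¹ * g * n)
    have ham' : (a : G) * (m : G) = n⁻¹ * g * n := ham
    have h1 : n * (a : G) * n⁻¹ ∈ A₂ := by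
      rw [hmem₂]
      have : n⁻¹ * (n * (a : G) * n⁻¹) * n = a := by group
      rw [this]; exact a.2
    have h2 : g = (n * (a : G) * n⁻¹) * (n * (m : G) * n⁻¹) := by
      have : g = n * (n⁻¹ * g * n) * n⁻¹ := by group
      rw [this, ← ham']; group
    have h3 : n * (m : G) * n⁻¹ ∈ N := (inferInstance : N.Normal).conj_mem _ m.2 n
    have h4 : n * (m : G) * n⁻¹ ∈ normalizer (B₁ : Set G) := by
      have : n * (m : G) * n⁻¹ = (n * (a : G) * n⁻¹)⁻¹ * g := by rw [h2]; group
      rw [this]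
      exact mul_mem (inv_mem (hAB₂ h1)) (hAB₁ hg)
    have h5 : n * (m : G) * n⁻¹ ∈ C := by
      refine ⟨h3, ?_⟩
      refine H1.Coprime.mem_centralizer_of_mem_normalizer (A := B₁) (K := N) (by
        rw [normalizer_eq_top]; exact le_top) ?_ h3 h4
      exact le_bot_iff.1 ((inf_le_inf_right N hBA₁).trans hA₁.disjoint.eq_bot.le)
    rw [hCbot, mem_bot] at h5
    rw [h2, h5, mul_one]
    exact h1
  apply H2.Card.eq_of_le_of_card_eq hfin
  rw [← hcA, hA₂]
  exact (card_map_of_injective (MulAut.conj n).injective).symm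


end Cfsg.Agent.S4043
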