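import Cfsg.Statements.S4049
import Cfsg.Agent.H23_Bs2

set_option autoImplicit false
open Cfsg

namespace Cfsg.Agent.S4049


/-- Let G be a finite group such that N_G(H)/C_G(H) has odd order for every nontrivial subgroup H of odd order. Then the Sylow 2-subgroups of G are normal. -/
theorem result {G : Type*} [Group G] [Finite G]
    (hhom : ∀ H : Subgroup G, H ≠ ⊥ → ¬ 2 ∣ Nat.card ↥H →
        ¬ 2 ∣ (Subgroup.centralizer (H : Set G)).relIndex (Subgroup.normalizer (H : Set G))) (P : Sylow 2 G) :
    (P : Subgroup G).Normal := by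

  refine H23.Bs2.main (Nat.card G) G le_rfl ?_ P
  intro x t hx ht hn
  rcases eq_or_ne x 1 with rfl | hx1
  · simp
  have h1 := hhom (Subgroup.zpowers x) (by rwa [Ne, Subgroup.zpowers_eq_bot]) (by
    rw [Nat.card_zpowers]
    intro h
    exact (Nat.not_even_iff_odd.2 hx) (even_iff_two_dvd.2 h))
  have h2 : t ∈ Subgroup.centralizer ((Subgroup.zpowers x : Subgroup G) : Set G) := by
    obtain ⟨k, hk⟩ := ht
    have h3 : t ^ ((Subgroup.centralizer ((Subgroup.zpowers x : Subgroup G) : Set G)).relIndex
        (Subgroup.normalizer ((Subgroup.zpowers x : Subgroup G) : Set G))) ∈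
        Subgroup.centralizer ((Subgroup.zpowers x : Subgroup G) : Set G) := by
      haveI hn' : ((Subgroup.centralizer ((Subgroup.zpowers x : Subgroup G) : Set G)).subgroupOf
        (Subgroup.normalizer ((Subgroup.zpowers x : Subgroup G) : Set G))).Normal := by
        rw [← Subgroup.normalizerMonoidHom_ker]; infer_instance
      exact ((Subgroup.centralizer ((Subgroup.zpowers x : Subgroup G) : Set G)).subgroupOf
        (Subgroup.normalizer ((Subgroup.zpowers x : Subgroup G) : Set G))).pow_index_mem ⟨t, hn⟩
    refine H24.Tools.coprime_pow_mem h3 ?_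
    rw [hk]
    exact Nat.Coprime.pow_left k ((Nat.Prime.coprime_iff_not_dvd Nat.prime_two).2 h1)
  exact ((Subgroup.mem_centralizer_iff.1 h2) x (Subgroup.mem_zpowers x)).symm


end Cfsg.Agent.S4049
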