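import Cfsg.Statements.S4050
import Cfsg.Agent.H23_PiClosed

set_option autoImplicit false
open Cfsg

namespace Cfsg.Agent.S4050

open H23.PiClosed

theorem step {G : Type*} [Group G] [Finite G] {π : Set ℕ} (hG : Hom π G) (A B : Subgroup G) (hAB : A ≤ B) [A.Normal]
    (hA : Closed π A) (h : Pi π (A.relIndex B) ∨ Pi πᶜ (A.relIndex B)) : Closed π B := by
  refine H23.PiClosed.main (hom_subgroup hG B) (A.subgroupOf B) ?_ ?_
  · exact closed_congr (Subgroup.subgroupOfEquivOfLe hAB).symm hA
  · rcases h with h | h
    · exact closed_of_pi (by rw [← Subgroup.index_eq_card]; exact h)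
    · exact closed_of_pi' (by rw [← Subgroup.index_eq_card]; exact h)

/-- Let π be a set of primes and G a finite group. The π-elements of G (elements whose order is divisible only by primes of π) form a subgroup if and only if G is π-separable (it has a chain of normal subgroups from 1 to G with each successive index divisible only by primes in π or only by primes outside π) and N_G(H)/C_G(H) is a π'-group for every nontrivial π'-subgroup H of G. -/
theorem result {G : Type*} [Group G] [Finite G] (π : Set ℕ)
    (hπ : ∀ p ∈ π, p.Prime) :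
    (∃ K : Subgroup G, ∀ x : G, x ∈ K ↔ ∀ p : ℕ, p.Prime → p ∣ orderOf x → p ∈ π) ↔
    ((∃ (n : ℕ) (H : Fin (n + 1) → Subgroup G), H 0 = ⊥ ∧ H (Fin.last n) = ⊤ ∧ Monotone H ∧ (∀ i, (H i).Normal) ∧
      ∀ i : Fin n, (∀ q : ℕ, q.Prime → q ∣ (H i.castSucc).relIndex (H i.succ) → q ∈ π) ∨
        (∀ q : ℕ, q.Prime → q ∣ (H i.castSucc).relIndex (H i.succ) → q ∉ π)) ∧
     (∀ H : Subgroup G, H ≠ ⊥ → (∀ p : ℕ, p.Prime → p ∣ Nat.card ↥H → p ∉ π) →
        ∀ p : ℕ, p.Prime → p ∣ (Subgroup.centralizer (H : Set G)).relIndex (Subgroup.normalizer (H : Set G)) → p ∉ π)) := by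

  classical
  constructor
  · rintro ⟨K, hK⟩
    have hKn : K.Normal := by
      constructor
      intro l hl g
      rw [hK] at hl ⊢
      rw [H24.Tools.orderOf_conj]; exact hl
    refine ⟨⟨2, ![⊥, K, ⊤], rfl, rfl, ?_, ?_, ?_⟩, ?_⟩
    · intro i j hij
      fin_cases i <;> fin_cases j <;> simp at hij ⊢
    · intro i
      fin_cases i
      · exact (inferInstance : (⊥ : Subgroup G).Normal)
      · exact hKn
      · exact (inferInstance : (⊤ : Subgroup G).Normal)
    · intro i
      fin_cases i
      · left
        change ∀ q : ℕ, q.Prime → q ∣ (⊥ : Subgroup G).relIndex K → q ∈ π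
        rw [Subgroup.relIndex_bot_left]
        exact pi_card (fun x => by rw [← Subgroup.orderOf_coe]; exact (hK x).1 x.2)
      · right
        change ∀ q : ℕ, q.Prime → q ∣ K.relIndex (⊤ : Subgroup G) → q ∉ π
        rw [Subgroup.relIndex_top_right]
        intro q hq hd hqπ
        haveI : Fact q.Prime := ⟨hq⟩
        rw [Subgroup.index_eq_card] at hd
        obtain ⟨x, hx⟩ := exists_prime_orderOf_dvd_card' q hd
        obtain ⟨n, hn, c, hc⟩ := H23.Basic.exists_lift_prime_pow
          (QuotientGroup.mk' K) (QuotientGroup.mk'_surjective _) hq x ⟨1, by rw [hx, pow_one]⟩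
        have h1 : n ∈ K := by
          rw [hK, hc]
          intro r hr hrd
          rw [(Nat.prime_dvd_prime_iff_eq hr hq).1 (hr.dvd_of_dvd_pow hrd)]; exact hqπ
        have h2 : x = 1 := by
          rw [← hn]
          exact (QuotientGroup.eq_one_iff n).2 h1
        rw [h2, orderOf_one] at hx
        exact hq.one_lt.ne hx
    · intro H hH hHπ p hp hd
      exact relIndex_of_hom (hom_of_closed ⟨K, hK⟩) H hHπ p hp hd
  · rintro ⟨⟨n, H, h0, hlast, hmono, hnorm, hfac⟩, hhom⟩
    have hG := hom_of_relIndex hhom
    have key : ∀ i : Fin (n + 1), Closed π (H i) := by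
      intro i
      induction i using Fin.induction with
      | zero =>
        rw [h0]
        exact closed_of_pi' (by
          intro p hp hd; rw [Subgroup.card_bot] at hd; exact absurd (Nat.dvd_one.1 hd) hp.one_lt.ne')
      | succ i ih =>
        haveI := hnorm i.castSucc
        exact step hG (H i.castSucc) (H i.succ) (hmono (Fin.castSucc_le_succ i)) ih (hfac i)
    have h1 := key (Fin.last n)
    rw [hlast] at h1
    exact closed_congr Subgroup.topEquiv h1


end Cfsg.Agent.S4050
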