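import Cfsg.Statements.S4058
import Mathlib
import Cfsg.Agent.H23_FSInd
import Cfsg.Agent.H2_PGroup
import Cfsg.Agent.S0159

set_option autoImplicit false
open Cfsg

namespace Cfsg.Agent.S4058

open Cfsg.Agent.H3.CharIrr Cfsg.Agent.H3.CharInd Subgroup
open scoped ComplexConjugate

variable {G : Type*} [Group G]

/-- the group of linear characters trivial on the Frattini subgroup -/
abbrev Lam (G : Type*) [Group G] := (G ⧸ frattini G) →* ℂˣ

noncomputable def lamFun (l : Lam G) : G → ℂ := fun g => (l (QuotientGroup.mk' (frattini G) g) : ℂˣ)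

theorem lamFun_irr [Finite G] (l : Lam G) : IsIrrCharacter G (lamFun l) :=
  isIrr_of_hom_units (l.comp (QuotientGroup.mk' (frattini G)))

theorem lamFun_one (l : Lam G) : lamFun l 1 = 1 := by
  simp [lamFun]

theorem lamFun_mul_apply (l : Lam G) (g h : G) : lamFun l (g * h) = lamFun l g * lamFun l h := by
  simp [lamFun]

noncomputable def act [Fintype G] (l : Lam G) (χ : IrrCharacter G) : IrrCharacter G :=
  ⟨lamFun l * (χ : G → ℂ), IsIrr.mul_linear χ.2 (IsIrr.isCharacter (lamFun_irr l)) (lamFun_one l)⟩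

@[instance_reducible] noncomputable def actInst [Fintype G] : MulAction (Lam G) (IrrCharacter G) where
  smul := act
  one_smul χ := by
    apply Subtype.ext
    ext g
    change lamFun (1 : Lam G) g * (χ : G → ℂ) g = (χ : G → ℂ) g
    simp [lamFun]
  mul_smul l m χ := by
    apply Subtype.ext
    ext g
    change lamFun (l * m) g * (χ : G → ℂ) g = lamFun l g * (lamFun m g * (χ : G → ℂ) g)
    simp [lamFun, mul_assoc]

theorem lam_sq [Finite G] (hG : IsPGroup 2 G) (l : Lam G) (g : G) : lamFun l (g * g) = 1 := by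
  have h1 : QuotientGroup.mk' (frattini G) (g * g) = 1 := by
    have hp : Fact (Nat.Prime 2) := ⟨Nat.prime_two⟩
    have := H2.PGroup.pow_mem_frattini hG g
    rw [pow_two] at this
    exact (QuotientGroup.eq_one_iff _).2 this
  unfold lamFun
  rw [h1, map_one]; rfl

theorem lam_pm [Finite G] (hG : IsPGroup 2 G) (l : Lam G) (g : G) : lamFun l g = 1 ∨ lamFun l g = -1 := by
  have := lam_sq hG l g
  rw [lamFun_mul_apply] at this
  exact mul_self_eq_one_iff.1 this

theorem card_lam [Finite G] (hG : IsPGroup 2 G) : Nat.card (Lam G) = Nat.card (G ⧸ frattini G) := by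
  classical
  have hp : Fact (Nat.Prime 2) := ⟨Nat.prime_two⟩
  have hcomm : ∀ a b : G ⧸ frattini G, a * b = b * a := by
    intro a b
    obtain ⟨a, rfl⟩ := QuotientGroup.mk'_surjective _ a
    obtain ⟨b, rfl⟩ := QuotientGroup.mk'_surjective _ b
    have h1 := H2.PGroup.commutator_le_frattini hG (Subgroup.commutator_mem_commutator (mem_top a) (mem_top b))
    rw [← commutatorElement_eq_one_iff_mul_comm, ← map_commutatorElement]
    exact (QuotientGroup.eq_one_iff _).2 h1
  let inst : CommGroup (G ⧸ frattini G) := { (inferInstance : Group (G ⧸ frattini G)) with mul_comm := hcomm }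
  exact CommGroup.card_monoidHom_of_hasEnoughRootsOfUnity (G ⧸ frattini G) ℂ

/-- the stabilizer bound -/
theorem card_stab_le [Fintype G] (hG : IsPGroup 2 G) (χ : IrrCharacter G) (S : Subgroup (Lam G))
    (hS : ∀ l ∈ S, ∀ g, lamFun l g * (χ : G → ℂ) g = (χ : G → ℂ) g) (n : ℕ) (hn : (χ : G → ℂ) 1 = n) :
    Nat.card S ≤ n ^ 2 := by
  classical
  have : Finite (Lam G) := by
    have h1 := card_lam (G := G) hG
    exact Nat.finite_of_card_ne_zero (by rw [h1]; exact Nat.card_pos.ne')
  have : Fintype S := Fintype.ofFinite S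
  -- real sums
  have hre : ∀ (l : Lam G) (g : G), ((lamFun l g).re : ℂ) = lamFun l g := by
    intro l g
    rcases lam_pm hG l g with h | h <;> rw [h] <;> simp
  set s : G → ℝ := fun g => ∑ l : S, (lamFun (l : Lam G) g).re with hs
  have hs0 : ∀ g, s g = 0 ∨ s g = Nat.card S := by
    intro g
    by_cases hex : ∃ l0 ∈ S, lamFun l0 g = -1
    · left
      obtain ⟨l0, hl0, hl0g⟩ := hex
      have h1 : s g = - s g := by
        simp only [hs]
        rw [← Finset.sum_neg_distrib]
        apply Fintype.sum_equiv (Equiv.mulLeft (⟨l0, hl0⟩ : S))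
        intro l
        have h2 : lamFun ((⟨l0, hl0⟩ * l : S) : Lam G) g = - lamFun (l : Lam G) g := by
          have : lamFun ((⟨l0, hl0⟩ * l : S) : Lam G) g = lamFun l0 g * lamFun (l : Lam G) g := by
            simp [lamFun]
          rw [this, hl0g]; ring
        have h3 : (Equiv.mulLeft (⟨l0, hl0⟩ : S)) l = ⟨l0, hl0⟩ * l := rfl
        rw [h3, h2]; simp
      linarith
    · right
      push Not at hex
      have : ∀ l : S, (lamFun (l : Lam G) g).re = 1 := by
        intro l
        rcases lam_pm hG (l : Lam G) g with h | h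
        · rw [h]; simp
        · exact absurd h (hex l l.2)
      simp only [hs, this]
      simp [Nat.card_eq_fintype_card]
  have hsn : ∀ g, 0 ≤ s g := by
    intro g
    rcases hs0 g with h | h <;> rw [h]
    exact Nat.cast_nonneg _
  have hsum : ∑ g, s g = Nat.card G := by
    simp only [hs]
    rw [Finset.sum_comm]
    have h1 : ∀ l : S, ∑ g : G, (lamFun (l : Lam G) g).re = if l = 1 then (Nat.card G : ℝ) else 0 := by
      intro l
      split_ifs with hl
      · subst hl
        simp [lamFun, Nat.card_eq_fintype_card]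
      · have hne : lamFun (l : Lam G) ≠ fun _ => 1 := by
          intro he
          apply hl
          apply Subtype.ext
          apply MonoidHom.ext
          intro x
          obtain ⟨x, rfl⟩ := QuotientGroup.mk'_surjective _ x
          have := congrFun he x
          exact Units.ext this
        have htr : IsIrrCharacter G (fun _ : G => (1 : ℂ)) := by
          have := lamFun_irr (G := G) 1
          have h2 : lamFun (1 : Lam G) = fun _ => 1 := by ext g; simp [lamFun]
          rwa [h2] at this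
        have h3 := ci_irr_ne (lamFun_irr (l : Lam G)) htr hne
        rw [classInner] at h3
        have hG0 : (Nat.card G : ℂ) ≠ 0 := by
          rw [Nat.cast_ne_zero]; exact Nat.card_pos.ne'
        have h4 : ∑ g : G, lamFun (l : Lam G) g = 0 := by
          have := (mul_eq_zero.1 h3).resolve_left (inv_ne_zero hG0)
          simpa using this
        have h5 := congrArg Complex.re h4
        simpa using h5
    simp only [h1]
    rw [Finset.sum_ite_eq' Finset.univ (1 : S)]
    simp
  have hmain : ∑ g, ‖(χ : G → ℂ) g‖ ^ 2 * s g = Nat.card S * Nat.card G := by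
    have h1 : ∀ (g : G) (l : S), ‖(χ : G → ℂ) g‖ ^ 2 * (lamFun (l : Lam G) g).re = ‖(χ : G → ℂ) g‖ ^ 2 := by
      intro g l
      have h2 := hS l l.2 g
      by_cases h0 : (χ : G → ℂ) g = 0
      · rw [h0]; simp
      · have : lamFun (l : Lam G) g = 1 := by
          have h3 : lamFun (l : Lam G) g * (χ : G → ℂ) g = 1 * (χ : G → ℂ) g := by rw [h2, one_mul]
          exact mul_right_cancel₀ h0 h3
        rw [this]; simp
    simp only [hs, Finset.mul_sum, h1]
    simp only [Finset.sum_const, Finset.card_univ, nsmul_eq_mul]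
    rw [← Finset.mul_sum, Nat.card_eq_fintype_card (α := S)]
    congr 1
    have h3 := ci_irr_self χ.2
    rw [classInner] at h3
    have hG0 : (Nat.card G : ℂ) ≠ 0 := by
      rw [Nat.cast_ne_zero]; exact Nat.card_pos.ne'
    have h4 : ∑ g : G, (χ : G → ℂ) g * conj ((χ : G → ℂ) g) = Nat.card G := by
      rw [inv_mul_eq_iff_eq_mul₀ hG0, mul_one] at h3
      exact h3
    have h5 : ∀ g : G, (χ : G → ℂ) g * conj ((χ : G → ℂ) g) = ((‖(χ : G → ℂ) g‖ ^ 2 : ℝ) : ℂ) := by
      intro g
      rw [Complex.mul_conj, Complex.normSq_eq_norm_sq]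
    simp only [h5] at h4
    exact_mod_cast h4
  have hle : ∑ g, ‖(χ : G → ℂ) g‖ ^ 2 * s g ≤ ∑ g, (n : ℝ) ^ 2 * s g := by
    apply Finset.sum_le_sum
    intro g _
    apply mul_le_mul_of_nonneg_right _ (hsn g)
    have h1 := IsChar.norm_le (IsIrr.isCharacter χ.2) g
    rw [hn] at h1
    simp only [Complex.natCast_re] at h1
    exact pow_le_pow_left₀ (norm_nonneg _) h1 2
  rw [hmain, ← Finset.mul_sum, hsum] at hle
  have hGpos : (0 : ℝ) < Nat.card G := by exact_mod_cast Nat.card_pos
  have := le_of_mul_le_mul_right hle hGpos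
  exact_mod_cast this

theorem main [Finite G] (hG : IsPGroup 2 G) (k : ℕ)
    (hgen : 2 ^ (2 * k + 1) ≤ Nat.card (G ⧸ frattini G)) :
    2 ^ (k + 1) ∣ Nat.card {x : G // x ^ 2 = 1} := by
  classical
  have := Fintype.ofFinite G
  have : Fintype (IrrCharacter G) := Fintype.ofFinite _
  have hLfin : Finite (Lam G) := by
    have h1 := card_lam (G := G) hG
    exact Nat.finite_of_card_ne_zero (by rw [h1]; exact Nat.card_pos.ne')
  have : Fintype (Lam G) := Fintype.ofFinite _
  have hp : Fact (Nat.Prime 2) := ⟨Nat.prime_two⟩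
  let inst := actInst (G := G)
  have h0 : Nat.card {x : G // x ^ 2 = 1} = Nat.card {s : G // s * s = 1} := by
    simp only [pow_two]
  rw [h0]
  apply H3.CharInt.dvd_of_isIntegral_div (by positivity)
  rw [S0159.result, finsum_eq_sum_of_fintype]
  let f : IrrCharacter G → ℂ := fun χ => ((Nat.card G : ℂ)⁻¹ * ∑ s : G, (χ : G → ℂ) (s * s)) * (χ : G → ℂ) 1
  change IsIntegral ℤ ((∑ χ, f χ) / _)
  have hfact : ∀ (l : Lam G) (χ : IrrCharacter G), f (l • χ) = f χ := by
    intro l χ
    have h1 : ∀ g, ((l • χ : IrrCharacter G) : G → ℂ) g = lamFun l g * (χ : G → ℂ) g := fun g => rfl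
    simp only [f, h1, lam_sq hG, lamFun_one, one_mul]
  rw [Fintype.sum_equiv (MulAction.selfEquivSigmaOrbits (Lam G) (IrrCharacter G)) f
    (fun x => f x.2.1) (fun χ => rfl), Fintype.sum_sigma, Finset.sum_div]
  apply IsIntegral.sum
  intro ω _
  have hconst : ∀ x : MulAction.orbit (Lam G) (Quotient.out ω), f x.1 = f (Quotient.out ω) := by
    rintro ⟨_, l, rfl⟩
    exact hfact l _
  simp only [hconst, Finset.sum_const, Finset.card_univ, nsmul_eq_mul]
  set χ := (Quotient.out ω : IrrCharacter G) with hχ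
  obtain ⟨n, hn0, hn, hnd⟩ := H3.CharInt.IsIrr.dvd_card χ.2
  have hos := MulAction.card_orbit_mul_card_stabilizer_eq_card_group (Lam G) χ
  have hstab : Nat.card (MulAction.stabilizer (Lam G) χ) ≤ n ^ 2 := by
    apply card_stab_le hG χ _ _ n hn
    intro l hl g
    have h1 : l • χ = χ := hl
    have h2 : ((l • χ : IrrCharacter G) : G → ℂ) g = (χ : G → ℂ) g := by rw [h1]
    exact h2
  have hLc : Fintype.card (Lam G) = Nat.card (G ⧸ frattini G) := by
    rw [← Nat.card_eq_fintype_card]; exact card_lam hG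
  obtain ⟨d, hd⟩ : ∃ d, Nat.card (G ⧸ frattini G) = 2 ^ d := IsPGroup.iff_card.1 (hG.to_quotient _)
  obtain ⟨e, he⟩ := IsPGroup.iff_card.1 hG
  rw [hLc, hd] at hos
  obtain ⟨o, -, ho⟩ := (Nat.dvd_prime_pow Nat.prime_two).1 (Dvd.intro _ hos)
  obtain ⟨s, -, hs⟩ := (Nat.dvd_prime_pow Nat.prime_two).1 (Dvd.intro_left _ hos)
  rw [he] at hnd
  obtain ⟨a, -, ha⟩ := (Nat.dvd_prime_pow Nat.prime_two).1 hnd
  have hos' : o + s = d := by
    rw [ho, hs, ← pow_add] at hos
    exact Nat.pow_right_injective le_rfl hos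
  have hs2 : s ≤ 2 * a := by
    rw [Nat.card_eq_fintype_card, hs, ha, ← pow_mul] at hstab
    have := (Nat.pow_le_pow_iff_right (by norm_num : 1 < 2)).1 hstab
    omega
  have hd2 : 2 * k + 1 ≤ d := by
    rw [hd] at hgen
    exact (Nat.pow_le_pow_iff_right (by norm_num : 1 < 2)).1 hgen
  have hoa : k + 1 ≤ o + a := by omega
  obtain ⟨c, hc⟩ := Nat.exists_eq_add_of_le hoa
  have hfin : (Fintype.card (MulAction.orbit (Lam G) χ) : ℂ) * f χ / ((2 ^ (k + 1) : ℕ) : ℂ) =
      ((2 ^ c : ℕ) : ℂ) * ((Nat.card G : ℂ)⁻¹ * ∑ s : G, (χ : G → ℂ) (s * s)) := by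
    simp only [f]
    rw [hn, ho, ha]
    push_cast
    have : (2 : ℂ) ^ o * 2 ^ a = 2 ^ (k + 1) * 2 ^ c := by
      rw [← pow_add, ← pow_add, hc]
    field_simp
    linear_combination (∑ s : G, (χ : G → ℂ) (s * s)) * this
  rw [hfin]
  exact (isIntegral_algebraMap (R := ℤ) (x := ((2 ^ c : ℕ) : ℤ))).mul (H23.FSInd.isIntegral_indicator (IsIrr.isCharacter χ.2)) |> fun h => by
    simpa using h


/-- Let G be a finite 2-group with #(G/Φ(G)) ≥ 2^(2k+1). Then the number of elements x of G with x² = 1 is divisible by 2^(k+1). -/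
theorem result {G : Type*} [Group G] [Finite G] (hG : IsPGroup 2 G) (k : ℕ)
    (hgen : 2 ^ (2 * k + 1) ≤ Nat.card (G ⧸ frattini G)) :
    2 ^ (k + 1) ∣ Nat.card {x : G // x ^ 2 = 1} := by
  exact main hG k hgen

end Cfsg.Agent.S4058
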