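import Cfsg.Statements.S4065
import Cfsg.Agent.H23_Basic
import Cfsg.Agent.H24_Tools

set_option autoImplicit false
open Cfsg

namespace Cfsg.Agent.S4065

open Subgroup

/-- proportional triples -/
theorem prop_of {F : Type*} [Field F] {b c d f g h : F} (hne : ¬ (b = 0 ∧ c = 0 ∧ d = 0)) (h1 : f * c = b * g)
    (h2 : f * d = b * h) (h3 : g * d = c * h) : ∃ l, f = l * b ∧ g = l * c ∧ h = l * d := by
  by_cases hb : b = 0
  · subst hb
    by_cases hc : c = 0
    · subst hc
      have hd : d ≠ 0 := fun hd => hne ⟨rfl, rfl, hd⟩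
      refine ⟨h / d, ?_, ?_, ?_⟩
      · rw [mul_zero]
        have : f * d = 0 := by rw [h2, zero_mul]
        exact (mul_eq_zero.1 this).resolve_right hd
      · rw [mul_zero]
        have : g * d = 0 := by rw [h3, zero_mul]
        exact (mul_eq_zero.1 this).resolve_right hd
      · field_simp
    · refine ⟨g / c, ?_, ?_, ?_⟩
      · rw [mul_zero]
        have : f * c = 0 := by rw [h1, zero_mul]
        exact (mul_eq_zero.1 this).resolve_right hc
      · field_simp
      · field_simp; linear_combination -h3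
  · refine ⟨f / b, ?_, ?_, ?_⟩
    · field_simp
    · field_simp; linear_combination -h1
    · field_simp; linear_combination -h2

theorem comm_trans {F : Type*} [Field F] (A B C : Matrix (Fin 2) (Fin 2) F)
    (hA : ¬ (A 0 1 = 0 ∧ A 1 0 = 0 ∧ A 0 0 - A 1 1 = 0)) (hB : B * A = A * B) (hC : C * A = A * C) : B * C = C * B := by
  have key : ∀ B : Matrix (Fin 2) (Fin 2) F, B * A = A * B →
      ∃ l, B 0 1 = l * A 0 1 ∧ B 1 0 = l * A 1 0 ∧ B 0 0 - B 1 1 = l * (A 0 0 - A 1 1) := by
    intro B hB
    have e1 := congrFun (congrFun hB 0) 0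
    have e2 := congrFun (congrFun hB 0) 1
    have e3 := congrFun (congrFun hB 1) 0
    simp only [Matrix.mul_apply, Fin.sum_univ_two] at e1 e2 e3
    apply prop_of hA
    · linear_combination e1
    · linear_combination -e2
    · linear_combination e3
  obtain ⟨l, l1, l2, l3⟩ := key B hB
  obtain ⟨m, m1, m2, m3⟩ := key C hC
  have l4 : B 0 0 = B 1 1 + l * (A 0 0 - A 1 1) := by linear_combination l3
  have m4 : C 0 0 = C 1 1 + m * (A 0 0 - A 1 1) := by linear_combination m3
  ext i j
  fin_cases i <;> fin_cases j <;> simp only [Matrix.mul_apply, Fin.sum_univ_two, Fin.zero_eta, Fin.mk_one, Fin.isValue, l1, l2, l4, m1, m2, m4] <;> ring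

theorem ti {G : Type*} [Group G] (h : ∀ x a b : G, x ≠ 1 → a * x = x * a → b * x = x * b → a * b = b * a) (x : G) :
    Cfsg.IsTISubset (Subgroup.centralizer ({x} : Set G) : Set G) := by
  intro g hg y hy hgy
  by_contra hy1
  apply hg
  have hxy : ∀ z : G, z ≠ 1 → z ∈ centralizer ({x} : Set G) → x ≠ 1 → centralizer ({z} : Set G) = centralizer ({x} : Set G) := by
    intro z hz1 hz hx
    ext a
    rw [mem_centralizer_singleton_iff, mem_centralizer_singleton_iff]
    rw [mem_centralizer_singleton_iff] at hz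
    constructor
    · intro ha; exact h z a x hz1 ha hz.symm
    · intro ha; exact h x a z hx ha hz
  rcases eq_or_ne x 1 with rfl | hx
  · rw [mem_normalizer_iff]
    intro a
    have : ∀ b : G, b ∈ centralizer ({1} : Set G) := fun b => by
      rw [mem_centralizer_singleton_iff, mul_one, one_mul]
    exact ⟨fun _ => this _, fun _ => this _⟩
  · have h1 := hxy y hy1 hy hx
    have h2 := hxy (g * y * g⁻¹) (fun h0 => hy1 (by
      have : y = g⁻¹ * (g * y * g⁻¹) * g := by group
      rw [this, h0]; group)) hgy hx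
    rw [mem_normalizer_iff]
    intro a
    change a ∈ centralizer ({x} : Set G) ↔ g * a * g⁻¹ ∈ centralizer ({x} : Set G)
    rw [← h2]
    nth_rewrite 1 [h2, ← h1]
    rw [mem_centralizer_singleton_iff, mem_centralizer_singleton_iff]
    constructor
    · intro ha
      calc g * a * g⁻¹ * (g * y * g⁻¹) = g * (a * y) * g⁻¹ := by group
        _ = g * (y * a) * g⁻¹ := by rw [ha]
        _ = _ := by group
    · intro ha
      calc a * y = g⁻¹ * (g * a * g⁻¹ * (g * y * g⁻¹)) * g := by group
        _ = g⁻¹ * (g * y * g⁻¹ * (g * a * g⁻¹)) * g := by rw [ha]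
        _ = _ := by group

/-- Let F be a finite field with 2ⁿ elements, n ≥ 2. In PSL₂(F) the centralizer of every element meets each of its conjugates by elements outside its normalizer trivially. -/
theorem result (n : ℕ) (hn : 2 ≤ n)
    (x : Matrix.ProjectiveSpecialLinearGroup (Fin 2) (GaloisField 2 n)) :
    Cfsg.IsTISubset (Subgroup.centralizer ({x} : Set (Matrix.ProjectiveSpecialLinearGroup (Fin 2) (GaloisField 2 n))) :
      Set (Matrix.ProjectiveSpecialLinearGroup (Fin 2) (GaloisField 2 n))) := by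

  apply ti
  have hcen : ∀ A ∈ center (Matrix.SpecialLinearGroup (Fin 2) (GaloisField 2 n)), A = 1 := by
    intro A hA
    obtain ⟨r, hr, hrA⟩ := Matrix.SpecialLinearGroup.mem_center_iff.1 hA
    rw [Fintype.card_fin] at hr
    have h2 : (r + 1) ^ 2 = 0 := by
      rw [CharTwo.add_sq, hr, one_pow, CharTwo.add_self_eq_zero]
    have h3 : r = 1 := by
      have h4 : r + 1 = 0 := pow_eq_zero_iff (two_ne_zero) |>.1 h2
      have h5 : r = r + 1 + 1 := by rw [add_assoc, CharTwo.add_self_eq_zero, add_zero]
      rw [h5, h4, zero_add]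
    apply Subtype.ext
    rw [← hrA, h3, map_one]
    rfl
  intro x a b hx hax hbx
  obtain ⟨A, rfl⟩ := QuotientGroup.mk'_surjective (center (Matrix.SpecialLinearGroup (Fin 2) (GaloisField 2 n))) x
  obtain ⟨B, rfl⟩ := QuotientGroup.mk'_surjective (center (Matrix.SpecialLinearGroup (Fin 2) (GaloisField 2 n))) a
  obtain ⟨C, rfl⟩ := QuotientGroup.mk'_surjective (center (Matrix.SpecialLinearGroup (Fin 2) (GaloisField 2 n))) b
  have hinj : ∀ S T : Matrix.SpecialLinearGroup (Fin 2) (GaloisField 2 n),
      QuotientGroup.mk' (center (Matrix.SpecialLinearGroup (Fin 2) (GaloisField 2 n))) S =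
      QuotientGroup.mk' (center (Matrix.SpecialLinearGroup (Fin 2) (GaloisField 2 n))) T → S = T := by
    intro S T h
    have h1 := hcen _ (QuotientGroup.eq.1 h)
    rw [inv_mul_eq_one] at h1
    exact h1
  rw [← map_mul, ← map_mul] at hax hbx ⊢
  have hBA := hinj _ _ hax
  have hCA := hinj _ _ hbx
  congr 1
  apply Subtype.ext
  refine comm_trans A.1 B.1 C.1 ?_ (congrArg Subtype.val hBA) (congrArg Subtype.val hCA)
  rintro ⟨h1, h2, h3⟩
  apply hx
  have : A ∈ center (Matrix.SpecialLinearGroup (Fin 2) (GaloisField 2 n)) := by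
    rw [Matrix.SpecialLinearGroup.mem_center_iff]
    have hd := A.2
    rw [Matrix.det_fin_two, h1, zero_mul, sub_zero] at hd
    have h4 : A.1 1 1 = A.1 0 0 := (sub_eq_zero.1 h3).symm
    refine ⟨A.1 0 0, ?_, ?_⟩
    · rw [Fintype.card_fin, pow_two]
      nth_rewrite 2 [← h4]
      exact hd
    · ext i j
      fin_cases i <;> fin_cases j
      · simp
      · simp; exact h1.symm
      · simp; exact h2.symm
      · simp; exact h4.symm
  exact (QuotientGroup.eq_one_iff A).2 this


end Cfsg.Agent.S4065
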