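import Cfsg.Statements.S4066
import Cfsg.Agent.H1_Nilp
import Cfsg.Agent.H2_Basic
import Cfsg.Agent.H4_BaerSuzuki

set_option autoImplicit false
open Cfsg

namespace Cfsg.Agent.S4066

theorem comm_norm {G : Type*} [Group G]
    (hTI : ∀ x : G, Cfsg.IsTISubset (Subgroup.centralizer ({x} : Set G) : Set G)) (x z : G)
    (hz : z ≠ 1) (hxz : x * z = z * x) :
    Subgroup.centralizer ({z} : Set G) ≤ Subgroup.normalizer ((Subgroup.centralizer ({x} : Set G) : Subgroup G) : Set G) := by
  intro g hg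
  by_contra hn
  apply hz
  refine hTI x g hn z ?_ ?_
  · exact Subgroup.mem_centralizer_singleton_iff.2 hxz.symm
  · have h1 := Subgroup.mem_centralizer_singleton_iff.1 hg
    have : g * z * g⁻¹ = z := by rw [h1]; group
    rw [this]
    exact Subgroup.mem_centralizer_singleton_iff.2 hxz.symm

theorem mem_of {G : Type*} [Group G] [Finite G]
    (hTI : ∀ x : G, Cfsg.IsTISubset (Subgroup.centralizer ({x} : Set G) : Set G)) {p : ℕ} [hp : Fact p.Prime]
    (Q : Sylow p G) (x : G) (hx : x ≠ 1) (hxQ : x ∈ Q) (y : G) (hy : IsPGroup p (Subgroup.zpowers y))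
    (hxy : x * y = y * x) : y ∈ Q := by
  set H := Subgroup.centralizer ({x} : Set G) with hH
  have hyH : y ∈ H := Subgroup.mem_centralizer_singleton_iff.2 hxy.symm
  -- y in the p-core of H
  have hcore : ∀ y : H, IsPGroup p (Subgroup.zpowers y) → y ∈ Cfsg.pCore p H := by
    intro y hyp
    by_cases hy1 : y = 1
    · rw [hy1]; exact one_mem _
    have hcomm : ∀ h : H, (h * y * h⁻¹) * y = y * (h * y * h⁻¹) := by
      intro h
      have hxy' := Subgroup.mem_centralizer_singleton_iff.1 y.2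
      have h1 := comm_norm hTI (y : G) x hx hxy' h.2
      have h2 := (Subgroup.mem_normalizer_iff.1 h1 (y : G)).1 (Subgroup.mem_centralizer_singleton_iff.2 rfl)
      have h3 := Subgroup.mem_centralizer_singleton_iff.1 h2
      exact Subtype.ext h3
    obtain ⟨N, hN, hNp, hle⟩ := Cfsg.Agent.H4.BaerSuzuki.baer_suzuki (Subgroup.zpowers y) hyp (by
      intro g
      rw [MonoidHom.map_zpowers]
      have h1 : IsPGroup p (Subgroup.zpowers ((MulAut.conj g).toMonoidHom y)) := by
        rw [← MonoidHom.map_zpowers]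
        exact hyp.map _
      refine hyp.to_sup_of_normal_right' h1 ?_
      rw [Subgroup.zpowers_le]
      apply Subgroup.centralizer_le_normalizer
      intro z hz
      obtain ⟨i, rfl⟩ := Subgroup.mem_zpowers_iff.1 hz
      have h2 : Commute ((MulAut.conj g).toMonoidHom y) y := hcomm g
      exact (h2.zpow_left i).eq)
    exact Cfsg.Agent.H1.Nilp.le_pCore hN hNp (hle (Subgroup.mem_zpowers y))
  -- the p-core is normalized by Q
  haveI hnt : Nontrivial (Q : Subgroup G) := ⟨⟨⟨x, hxQ⟩, 1, fun h => hx (congrArg Subtype.val h)⟩⟩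
  haveI := Q.2.center_nontrivial
  obtain ⟨⟨w, hw⟩, hw1⟩ := exists_ne (1 : Subgroup.center (Q : Subgroup G))
  have hw1' : (w : G) ≠ 1 := fun h => hw1 (Subtype.ext (Subtype.ext h))
  have hQw : (Q : Subgroup G) ≤ Subgroup.centralizer ({(w : G)} : Set G) := by
    intro q hq
    rw [Subgroup.mem_centralizer_singleton_iff]
    exact congrArg Subtype.val (Subgroup.mem_center_iff.1 hw ⟨q, hq⟩)
  have hQN : (Q : Subgroup G) ≤ Subgroup.normalizer (H : Set G) := by
    refine hQw.trans (comm_norm hTI x (w : G) hw1' ?_)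
    exact congrArg Subtype.val (Subgroup.mem_center_iff.1 hw ⟨x, hxQ⟩)
  set R := (Cfsg.pCore p H).map H.subtype with hR
  have hRp : IsPGroup p R := (Cfsg.Agent.H1.Nilp.pCore_isPGroup p).map _
  have hQR : (Q : Subgroup G) ≤ Subgroup.normalizer (R : Set G) := by
    have key : ∀ g ∈ Subgroup.normalizer (H : Set G), ∀ r ∈ R, g * r * g⁻¹ ∈ R := by
      rintro g hg _ ⟨r, hr, rfl⟩
      have h1 : g * r * g⁻¹ ∈ H := (Subgroup.mem_normalizer_iff.1 hg _).1 r.2
      refine ⟨⟨_, h1⟩, ?_, rfl⟩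
      apply hcore
      have h2 : IsPGroup p (Subgroup.zpowers r) :=
        (Cfsg.Agent.H1.Nilp.pCore_isPGroup (G := H) p).to_le (Subgroup.zpowers_le.2 hr)
      obtain ⟨k, hk⟩ := IsPGroup.iff_card.1 h2
      apply IsPGroup.of_card (n := k)
      rw [Nat.card_zpowers] at hk ⊢
      rw [← hk, Subgroup.orderOf_mk]
      have := orderOf_injective (MulAut.conj g).toMonoidHom (MulAut.conj g).injective (r : G)
      rw [← Subgroup.orderOf_coe r, ← this]; rfl
    intro g hg
    have hgN := hQN hg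
    rw [Subgroup.mem_normalizer_iff]
    intro r
    constructor
    · exact key g hgN r
    · intro hr
      have h1 := key g⁻¹ (inv_mem hgN) _ hr
      have h2 : g⁻¹ * (g * r * g⁻¹) * g⁻¹⁻¹ = r := by group
      rwa [h2] at h1
  have h3 : IsPGroup p ((Q : Subgroup G) ⊔ R : Subgroup G) := Q.2.to_sup_of_normal_right' hRp hQR
  have h4 := Q.3 h3 le_sup_left
  change y ∈ (Q : Subgroup G)
  rw [← h4]
  have h5 : y ∈ R := ⟨⟨y, hyH⟩, hcore _ (by
    obtain ⟨k, hk⟩ := IsPGroup.iff_card.1 hy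
    apply IsPGroup.of_card (n := k)
    rw [Nat.card_zpowers] at hk ⊢
    rw [← hk, Subgroup.orderOf_mk]), rfl⟩
  exact Subgroup.mem_sup_right h5

/-- Let G be a finite group in which the centralizer of every element meets each of its conjugates by elements outside its normalizer trivially. Then any two distinct Sylow p-subgroups of G, for any prime p, intersect trivially. -/
theorem result {G : Type*} [Group G] [Finite G] (hTI : ∀ x : G, Cfsg.IsTISubset (Subgroup.centralizer ({x} : Set G) : Set G))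
    {p : ℕ} [Fact p.Prime] (P Q : Sylow p G) (hPQ : P ≠ Q) : (P : Subgroup G) ⊓ (Q : Subgroup G) = ⊥ := by
  by_contra hne
  apply hPQ
  obtain ⟨⟨x, hx⟩, hx1⟩ := Subgroup.ne_bot_iff_exists_ne_one.1 hne
  have hx1' : x ≠ 1 := fun h => hx1 (Subtype.ext h)
  have hzp : ∀ (P : Sylow p G) (y : G), y ∈ P → IsPGroup p (Subgroup.zpowers y) := fun P y hy =>
    P.2.to_le (Subgroup.zpowers_le.2 hy)
  haveI hnt : Nontrivial (P : Subgroup G) := ⟨⟨⟨x, hx.1⟩, 1, fun h => hx1' (congrArg Subtype.val h)⟩⟩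
  haveI := P.2.center_nontrivial
  obtain ⟨⟨z, hz⟩, hz1⟩ := exists_ne (1 : Subgroup.center (P : Subgroup G))
  have hz1' : (z : G) ≠ 1 := fun h => hz1 (Subtype.ext (Subtype.ext h))
  have hzc : ∀ q ∈ (P : Subgroup G), q * (z : G) = z * q := fun q hq =>
    congrArg Subtype.val (Subgroup.mem_center_iff.1 hz ⟨q, hq⟩)
  have hzQ : (z : G) ∈ Q := mem_of hTI Q x hx1' hx.2 z (hzp P z z.2) (hzc x hx.1)
  have hPleQ : (P : Subgroup G) ≤ Q := fun y hy =>
    mem_of hTI Q z hz1' hzQ y (hzp P y hy) (hzc y hy).symm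
  exact Sylow.ext (P.3 Q.2 hPleQ).symm

end Cfsg.Agent.S4066
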