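import Cfsg.Statements.S4067
import Cfsg.Agent.H10_Orb3
import Cfsg.Agent.H1_Basic

set_option autoImplicit false
open Cfsg
open scoped commutatorElement

namespace Cfsg.Agent.S4067

open Cfsg.Agent Cfsg.Agent.H10.Orb

theorem large {G : Type*} [Group G] [Finite G] (h2 : 2 ≤ (Nat.card G).minFac)
    (hD : (Nat.card G).minFac + 1 ≤ Nat.card (commutator G)) :
    Nat.card (MulAction.orbitRel.Quotient (MulAut G) G) * (Nat.card G).minFac ≤ Nat.card G := by
  have h1 := class_bound (G := G) rfl
  have h3 := orbits_le_classes G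
  have h4 := (commutator G).card_mul_index
  set p := (Nat.card G).minFac
  set k := Nat.card (ConjClasses G)
  set i := (commutator G).index
  set n := Nat.card G
  have h5 : (p + 1) * i ≤ n := by
    rw [← h4]; exact Nat.mul_le_mul_right _ hD
  have h6 : k * p ≤ n := by
    zify at h1 h5 h2 ⊢
    have h7 : ((p : ℤ) - 1) * ((p + 1) * i) ≤ (p - 1) * n := mul_le_mul_of_nonneg_left h5 (by linarith)
    have h8 : (p : ℤ) * (k * p) ≤ p * n := by nlinarith
    exact le_of_mul_le_mul_left h8 (by linarith)
  exact (Nat.mul_le_mul_right _ h3).trans h6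

/-- Let G be a finite non-abelian group and p the least prime dividing its order. Then the automorphism group of G has at most #G/p orbits on G. -/
theorem result {G : Type*} [Group G] [Finite G] (hna : ¬ IsMulCommutative G) :
    Nat.card (MulAction.orbitRel.Quotient (MulAut G) G) ≤ Nat.card G / (Nat.card G).minFac := by
  have hnc : ∃ x y : G, x * y ≠ y * x := by
    by_contra hcon
    push Not at hcon
    exact hna ⟨⟨hcon⟩⟩
  obtain ⟨x₀, y₀, hxy⟩ := hnc
  have hG1 : Nat.card G ≠ 1 := by
    intro h
    haveI := (Nat.card_eq_one_iff_unique.1 h).1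
    exact hxy (Subsingleton.elim _ _)
  have hpp : (Nat.card G).minFac.Prime := Nat.minFac_prime hG1
  rw [Nat.le_div_iff_mul_le hpp.pos]
  have hDne : Nat.card (commutator G) ≠ 1 := by
    intro h
    have h1 : commutator G = ⊥ := Subgroup.card_eq_one.1 h
    have h2 : ⁅x₀, y₀⁆ ∈ commutator G := Subgroup.commutator_mem_commutator (Subgroup.mem_top _) (Subgroup.mem_top _)
    rw [h1, Subgroup.mem_bot, commutatorElement_eq_one_iff_mul_comm] at h2
    exact hxy h2
  have hDge : (Nat.card G).minFac ≤ Nat.card (commutator G) := by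
    apply Nat.minFac_le_of_dvd _ (Subgroup.card_subgroup_dvd_card _)
    have : 0 < Nat.card (commutator G) := Nat.card_pos
    omega
  rcases Nat.lt_or_ge (Nat.card G).minFac (Nat.card (commutator G)) with hlt | hge
  · exact large hpp.two_le hlt
  have hD : Nat.card (commutator G) = (Nat.card G).minFac := le_antisymm hge hDge
  have hDZ := comm_central hD
  obtain ⟨p, hpdef⟩ : ∃ p, p = (Nat.card G).minFac := ⟨_, rfl⟩
  haveI : Fact p.Prime := ⟨by rw [hpdef]; exact hpp⟩
  have hD' : Nat.card (commutator G) = p := by rw [hD, hpdef]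
  have hDp : ∀ d ∈ commutator G, d ^ p = 1 := by
    intro d hd
    have h1 : (⟨d, hd⟩ : commutator G) ^ p = 1 := by rw [← hD']; exact pow_card_eq_one'
    exact congrArg Subtype.val h1
  have hcomm : ∀ a b : G, (a * b)⁻¹ * (b * a) ∈ commutator G := by
    intro a b
    have h1 : (a * b)⁻¹ * (b * a) = ⁅b⁻¹, a⁻¹⁆ := by rw [commutatorElement_def]; group
    rw [h1]
    exact Subgroup.commutator_mem_commutator (Subgroup.mem_top _) (Subgroup.mem_top _)
  have hrel : ∀ a b : G, b * a = a * b * ((a * b)⁻¹ * (b * a)) := fun a b => by group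
  have hcc : ∀ d ∈ commutator G, ∀ g : G, Commute d g := fun d hd g => (Subgroup.mem_center_iff.1 (hDZ hd) g).symm
  have hexp : ∀ y : G, y ^ p ∈ Subgroup.center G := by
    intro y
    rw [Subgroup.mem_center_iff]
    intro g
    have h1 := Cfsg.Agent.H22.ClassTwo.pow_mul_of_central (hrel g y) (hcc _ (hcomm g y) y) p
    rw [hDp _ (hcomm g y), mul_one] at h1
    exact h1.symm
  have hx₀ : x₀ ∉ Subgroup.center G := by
    intro h
    exact hxy (Subgroup.mem_center_iff.1 h y₀).symm
  -- the order of the centre
  have hZ : 2 * (Nat.card G).minFac * Nat.card (Subgroup.center G) ≤ Nat.card G := by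
    have hZM : Subgroup.center G ≤ Subgroup.centralizer {x₀} := Subgroup.center_le_centralizer _
    have h1 := Cfsg.Agent.H1.Basic.relIndex_mul_card hZM
    have h2 := (Subgroup.centralizer {x₀}).card_mul_index
    rw [cent_index hD hx₀] at h2
    have h3 : (Nat.card G).minFac ≤ (Subgroup.center G).relIndex (Subgroup.centralizer {x₀}) := by
      apply Nat.minFac_le_of_dvd
      · have h4 : (Subgroup.center G).relIndex (Subgroup.centralizer {x₀}) ≠ 1 := by
          intro h
          rw [Subgroup.relIndex_eq_one] at h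
          apply hx₀
          apply h
          rw [Subgroup.mem_centralizer_iff]
          intro y hy
          rw [Set.mem_singleton_iff.1 hy]
        have h5 : (Subgroup.center G).relIndex (Subgroup.centralizer {x₀}) ≠ 0 := by
          intro h
          rw [h, zero_mul] at h1
          exact absurd h1.symm Nat.card_pos.ne'
        omega
      · exact (Dvd.intro _ h1).trans (Subgroup.card_subgroup_dvd_card _)
    calc 2 * (Nat.card G).minFac * Nat.card (Subgroup.center G)
        ≤ (Nat.card G).minFac * (Nat.card G).minFac * Nat.card (Subgroup.center G) :=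
          Nat.mul_le_mul_right _ (Nat.mul_le_mul_right _ hpp.two_le)
      _ ≤ (Nat.card G).minFac * (Subgroup.center G).relIndex (Subgroup.centralizer {x₀}) * Nat.card (Subgroup.center G) :=
          Nat.mul_le_mul_right _ (Nat.mul_le_mul_left _ h3)
      _ = Nat.card (Subgroup.centralizer {x₀}) * (Nat.card G).minFac := by rw [mul_assoc, h1, mul_comm]
      _ = Nat.card G := h2
  have fin : ∀ t : G, t ∉ Subgroup.center G → (∀ x ∉ Subgroup.centralizer {t}, ∃ φ : MulAut G, x⁻¹ * φ x ∉ commutator G) →
      Nat.card (MulAction.orbitRel.Quotient (MulAut G) G) * (Nat.card G).minFac ≤ Nat.card G := fun t ht h =>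
    final (Subgroup.centralizer {t}) (Subgroup.center_le_centralizer _) (cent_index hD ht) hZ hpp.two_le h
  by_cases hA : ∃ u ∈ Subgroup.center G, u ^ p = 1 ∧ u ∉ commutator G
  · obtain ⟨u, hu, hup, huD⟩ := hA
    exact fin x₀ hx₀ fun x hx => case1 hD' hDZ hx hu hup huD
  push Not at hA
  by_cases hp2 : p = 2
  · -- `p = 2`
    suffices hex : ∃ t : G, t ∉ Subgroup.center G ∧ t * t ∈ commutator G ∧ t * t ≠ 1 by
      obtain ⟨t, ht, ht1, ht2⟩ := hex
      exact fin t ht fun x hx => case3 (by rw [hD', hp2]) hDZ hx ht1 ht2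
    by_contra hcon
    push Not at hcon
    set c : G := (x₀ * y₀)⁻¹ * (y₀ * x₀) with hc
    have hcD : c ∈ commutator G := hcomm x₀ y₀
    have hc1 : c ≠ 1 := by
      intro h
      rw [hc, inv_mul_eq_one] at h
      exact hxy h
    have hcsq : c * c = 1 := by
      have := hDp c hcD
      rw [hp2, sq] at this
      exact this
    have hcZ := hDZ hcD
    let f : Subgroup.center G →* Subgroup.center G :=
      { toFun := fun z => z ^ 2
        map_one' := one_pow 2
        map_mul' := by
          intro a b
          apply Subtype.ext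
          show ((a : G) * b) ^ 2 = (a : G) ^ 2 * (b : G) ^ 2
          exact (show Commute (a : G) (b : G) from Subgroup.mem_center_iff.1 b.2 a).mul_pow 2 }
    let S : Subgroup (Subgroup.center G) := f.range
    have hS : S.index = 2 := by
      have h1 : Nat.card f.ker = 2 := by
        rw [← hp2, ← hD']
        refine Nat.card_congr
          { toFun := fun u => ⟨((u : Subgroup.center G) : G), hA _ u.1.2 ?_⟩
            invFun := fun d => ⟨⟨(d : G), hDZ d.2⟩, ?_⟩
            left_inv := fun u => rfl
            right_inv := fun d => rfl }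
        · have h2 := MonoidHom.mem_ker.1 u.2
          have h3 : (u : Subgroup.center G) ^ 2 = 1 := h2
          rw [hp2]
          exact congrArg Subtype.val h3
        · rw [MonoidHom.mem_ker]
          apply Subtype.ext
          show (d : G) ^ 2 = 1
          have := hDp d d.2
          rwa [hp2] at this
      have h2 := f.ker.card_mul_index
      rw [Subgroup.index_ker, h1] at h2
      have h3 := S.card_mul_index
      have h4 : Nat.card S * S.index = Nat.card S * 2 := by
        rw [h3, ← h2, mul_comm]
      exact Nat.eq_of_mul_eq_mul_left Nat.card_pos h4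
    have hsq : ∀ t : G, t * t ∈ Subgroup.center G := by
      intro t
      have := hexp t
      rwa [hp2, sq] at this
    have claim : ∀ t : G, t ∉ Subgroup.center G → (⟨c * (t * t), (Subgroup.center G).mul_mem hcZ (hsq t)⟩ : Subgroup.center G) ∉ S := by
      rintro t ht ⟨z, hz⟩
      have hz' : (z : G) ^ 2 = c * (t * t) := congrArg Subtype.val hz
      have hzc : ∀ g : G, g * (z : G) = z * g := Subgroup.mem_center_iff.1 z.2
      have htz : t * (z : G)⁻¹ ∉ Subgroup.center G := by
        intro h
        apply ht
        have := (Subgroup.center G).mul_mem h z.2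
        rwa [inv_mul_cancel_right] at this
      have h1 : (t * (z : G)⁻¹) * (t * (z : G)⁻¹) = c := by
        have hcz : Commute t (z : G)⁻¹ := (show Commute t (z : G) from hzc t).inv_right
        have h2 : (t * (z : G)⁻¹) ^ 2 = t ^ 2 * ((z : G)⁻¹) ^ 2 := hcz.mul_pow 2
        rw [← sq, h2, inv_pow, hz', sq]
        have h3 : (c * (t * t))⁻¹ = (t * t)⁻¹ * c⁻¹ := by group
        rw [h3, mul_inv_cancel_left, inv_eq_iff_mul_eq_one, hcsq]
      exact hcon _ htz (by rw [h1]; exact hcD) |> fun h => hc1 (by rw [← h1]; exact h)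
    have hx₀y₀ : x₀ * y₀ ∉ Subgroup.center G := by
      intro h
      apply hxy
      have := Subgroup.mem_center_iff.1 h x₀
      have h2 : x₀ * (x₀ * y₀) = x₀ * (y₀ * x₀) := by rw [this]; group
      exact mul_left_cancel h2
    have hy₀ : y₀ ∉ Subgroup.center G := by
      intro h
      exact hxy (Subgroup.mem_center_iff.1 h x₀)
    have h1 := (Subgroup.mul_mem_iff_of_index_two hS).2 (iff_of_false (claim x₀ hx₀) (claim y₀ hy₀))
    apply claim _ hx₀y₀
    convert h1 using 1
    apply Subtype.ext
    show c * (x₀ * y₀ * (x₀ * y₀)) = c * (x₀ * x₀) * (c * (y₀ * y₀))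
    have h2 : y₀ * x₀ = x₀ * y₀ * c := hrel x₀ y₀
    have hcm : ∀ g : G, g * c = c * g := Subgroup.mem_center_iff.1 hcZ
    calc c * (x₀ * y₀ * (x₀ * y₀)) = c * x₀ * (y₀ * x₀) * y₀ := by group
      _ = c * x₀ * (x₀ * y₀ * c) * y₀ := by rw [h2]
      _ = c * (x₀ * x₀) * (y₀ * c) * y₀ := by group
      _ = c * (x₀ * x₀) * (c * y₀) * y₀ := by rw [hcm]
      _ = _ := by group
  · -- `p` odd
    suffices hex : ∃ t : G, t ∉ Subgroup.center G ∧ t ^ p = 1 by
      obtain ⟨t, ht, htp⟩ := hex
      exact fin t ht fun x hx => case2 hp2 hD' hDZ hx htp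
    by_contra hcon
    push Not at hcon
    let f : G →* G :=
      { toFun := fun x => x ^ p
        map_one' := one_pow _
        map_mul' := fun x y => Cfsg.Agent.H22.ClassTwo.mul_pow_prime Fact.out hp2 (hrel x y) (hcc _ (hcomm x y) x) (hcc _ (hcomm x y) y) (hDp _ (hcomm x y)) }
    have h1 : Nat.card f.ker ≤ (Nat.card G).minFac := by
      rw [← hD]
      apply Subgroup.card_le_of_le
      intro x hx
      have hx' : x ^ p = 1 := hx
      exact hA x (by
        by_contra hxc
        exact hcon x hxc hx') hx'
    have h2 : Nat.card f.range ≤ Nat.card (Subgroup.center G) := by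
      apply Subgroup.card_le_of_le
      rintro _ ⟨x, rfl⟩
      exact hexp x
    have h3 := f.ker.card_mul_index
    rw [Subgroup.index_ker] at h3
    have h4 : Nat.card G ≤ (Nat.card G).minFac * Nat.card (Subgroup.center G) := by
      conv_lhs => rw [← h3]
      exact Nat.mul_le_mul h1 h2
    have h5 : 0 < (Nat.card G).minFac * Nat.card (Subgroup.center G) := Nat.mul_pos hpp.pos Nat.card_pos
    have h6 : 2 * (Nat.card G).minFac * Nat.card (Subgroup.center G) = 2 * ((Nat.card G).minFac * Nat.card (Subgroup.center G)) := by ring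
    omega

end Cfsg.Agent.S4067
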