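import Cfsg.Statements.S4071
import Cfsg.Agent.H1_Basic
import Cfsg.Agent.H11_FStar
import Cfsg.Agent.H24_Sub
import Cfsg.Agent.H18_KS0

set_option autoImplicit false
open Cfsg

namespace Cfsg.Agent.S4071

open Subgroup
open scoped commutatorElement
open Cfsg.Agent.H18.KS (mem_sup_of_norm le_normalizer_iff_conj)

section aux
variable {G : Type*} [Group G]

/-- the `p'`-part of a commutative subgroup -/
def pp (M : Subgroup G) (hM : ∀ a ∈ M, ∀ b ∈ M, a * b = b * a) (p : ℕ) : Subgroup G where
  carrier := {m | m ∈ M ∧ (orderOf m).Coprime p}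
  mul_mem' := by
    rintro a b ⟨ha, ha'⟩ ⟨hb, hb'⟩
    refine ⟨M.mul_mem ha hb, ?_⟩
    have hc : Commute a b := hM a ha b hb
    exact Nat.Coprime.coprime_dvd_left (hc.orderOf_mul_dvd_mul_orderOf) (Nat.Coprime.mul_left ha' hb')
  one_mem' := ⟨M.one_mem, by simp⟩
  inv_mem' := by
    rintro a ⟨ha, ha'⟩
    exact ⟨M.inv_mem ha, by rw [orderOf_inv]; exact ha'⟩

/-- fixed-point-free action on an abelian subgroup -/
theorem norm_le [Finite G] {A H : Subgroup G} (hAn : A.Normal) (hAc : ∀ a ∈ A, ∀ b ∈ A, a * b = b * a) {h : G}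
    (hh : h ∈ H) (hfp : ∀ a ∈ A, h * a = a * h → a = 1) (hgen : A ⊔ zpowers h = ⊤) :
    normalizer (H : Set G) ≤ H := by
  intro n hn
  have h1 : n ∈ A ⊔ zpowers h := by rw [hgen]; trivial
  obtain ⟨b, hb, z, hz, rfl⟩ := mem_sup_of_norm (by rw [normalizer_eq_top]; exact le_top) h1
  have hzH : z ∈ H := (zpowers_le.mpr hh) hz
  have hbn : b ∈ normalizer (H : Set G) := by
    have := mul_mem hn (inv_mem (le_normalizer hzH))
    rwa [mul_inv_cancel_right] at this
  refine mul_mem ?_ hzH
  -- the map `a ↦ a * h * a⁻¹ * h⁻¹`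
  have hmem : ∀ a ∈ A, a * h * a⁻¹ * h⁻¹ ∈ A := by
    intro a ha
    have e1 : a * h * a⁻¹ * h⁻¹ = a * (h * a⁻¹ * h⁻¹) := by group
    rw [e1]
    exact mul_mem ha (hAn.conj_mem _ (inv_mem ha) h)
  have hinj : ∀ a ∈ A, ∀ c ∈ A, a * h * a⁻¹ * h⁻¹ = c * h * c⁻¹ * h⁻¹ → a = c := by
    intro a ha c hc he
    have e2 : h * (c⁻¹ * a) = (c⁻¹ * a) * h := by
      have e3 : a * h * a⁻¹ = c * h * c⁻¹ := mul_right_cancel he
      calc h * (c⁻¹ * a) = c⁻¹ * (c * h * c⁻¹) * a := by group
        _ = c⁻¹ * (a * h * a⁻¹) * a := by rw [e3]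
        _ = (c⁻¹ * a) * h := by group
    have := hfp _ (mul_mem (inv_mem hc) ha) e2
    exact (inv_mul_eq_one.mp this).symm
  let f : ↥(H ⊓ A) → ↥(H ⊓ A) := fun a => ⟨(a : G) * h * (a : G)⁻¹ * h⁻¹,
    H.mul_mem (H.mul_mem (H.mul_mem a.2.1 hh) (H.inv_mem a.2.1)) (H.inv_mem hh), hmem _ a.2.2⟩
  have hf : Function.Injective f := by
    intro a c hac
    exact Subtype.ext (hinj a a.2.2 c c.2.2 (congrArg Subtype.val hac))
  have hfs : Function.Surjective f := Finite.surjective_of_injective hf
  have hbH : b * h * b⁻¹ * h⁻¹ ∈ H := mul_mem ((mem_normalizer_iff.mp hbn h).mp hh) (inv_mem hh)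
  obtain ⟨c, hc⟩ := hfs ⟨b * h * b⁻¹ * h⁻¹, hbH, hmem b hb⟩
  have := hinj c c.2.2 b hb (congrArg Subtype.val hc)
  rw [← this]
  exact c.2.1

theorem back [Finite G] {x : G} {A : Subgroup G} {p : ℕ} (hp : p.Prime) (hAn : A.Normal)
    (hAc : ∀ a ∈ A, ∀ b ∈ A, a * b = b * a) {k : ℕ} (hx : orderOf x = p ^ k) (hc : A ⊔ zpowers x = ⊤)
    (hxp : x ^ p ∈ center G) (hfp : ∀ a : G, a ∈ A → a ≠ 1 → x * a * x⁻¹ ≠ a) {H : Subgroup G}
    (hH : ¬ IsMulCommutative H) : normalizer (H : Set G) = H := by
  refine le_antisymm ?_ le_normalizer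
  have hfactor : ∀ g : G, ∃ a ∈ A, ∃ i : ℤ, g = a * x ^ i := by
    intro g
    have h1 : g ∈ A ⊔ zpowers x := by rw [hc]; trivial
    obtain ⟨a, ha, z, hz, rfl⟩ := mem_sup_of_norm (by rw [normalizer_eq_top]; exact le_top) h1
    obtain ⟨i, rfl⟩ := mem_zpowers_iff.mp hz
    exact ⟨a, ha, i, rfl⟩
  -- an element of `H` of the right kind
  obtain ⟨h, hh, a, ha, i, rfl, hi⟩ : ∃ h ∈ H, ∃ a ∈ A, ∃ i : ℤ, h = a * x ^ i ∧ ¬ (p : ℤ) ∣ i := by
    by_contra hcon
    push_neg at hcon
    apply hH
    have hz : ∀ h ∈ H, ∃ a ∈ A, ∃ z ∈ center G, h = a * z := by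
      intro h hh
      obtain ⟨a, ha, i, rfl⟩ := hfactor h
      obtain ⟨j, rfl⟩ := hcon _ hh a ha i rfl
      refine ⟨a, ha, x ^ ((p : ℤ) * j), ?_, rfl⟩
      rw [zpow_mul, zpow_natCast]
      exact zpow_mem hxp j
    refine ⟨⟨fun u v => Subtype.ext ?_⟩⟩
    obtain ⟨a, ha, z, hz1, e1⟩ := hz u u.2
    obtain ⟨b, hb, w, hw1, e2⟩ := hz v v.2
    change (u : G) * v = v * u
    rw [e1, e2]
    have c1 := mem_center_iff.mp hz1
    have c2 := mem_center_iff.mp hw1
    calc a * z * (b * w) = a * (z * b) * w := by group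
      _ = a * (b * z) * w := by rw [c1 b]
      _ = (a * b) * (z * w) := by group
      _ = (b * a) * (w * z) := by rw [hAc a ha b hb, c1 w]
      _ = b * (a * w) * z := by group
      _ = b * (w * a) * z := by rw [c2 a]
      _ = b * w * (a * z) := by group
  have hcop : IsCoprime i ((p ^ k : ℕ) : ℤ) := by
    push_cast
    apply IsCoprime.pow_right
    exact ((Nat.prime_iff_prime_int.mp hp).coprime_iff_not_dvd.mpr hi).symm
  obtain ⟨u, v, huv⟩ := hcop
  have hxi : x = (x ^ i) ^ u := by
    rw [← zpow_mul]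
    have e1 : i * u = 1 - v * ((p ^ k : ℕ) : ℤ) := by linarith [huv, mul_comm i u]
    rw [e1, zpow_sub, zpow_one, mul_comm v, zpow_mul, zpow_natCast, ← hx, pow_orderOf_eq_one, one_zpow, inv_one, mul_one]
  refine norm_le hAn hAc hh ?_ ?_
  · intro b hb hcb
    by_contra hb1
    apply hfp b hb hb1
    have e1 : Commute (x ^ i) b := by
      have e2 : a * x ^ i * b = b * (a * x ^ i) := hcb
      have e3 := hAc a ha b hb
      have : a * (x ^ i * b) = a * (b * x ^ i) := by
        calc a * (x ^ i * b) = a * x ^ i * b := by group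
          _ = b * a * x ^ i := by rw [e2]; group
          _ = a * (b * x ^ i) := by rw [← e3]; group
      exact mul_left_cancel this
    have e4 : Commute x b := by
      rw [hxi]; exact e1.zpow_left u
    rw [e4.eq, mul_inv_cancel_right]
  · rw [eq_top_iff, ← hc]
    refine sup_le le_sup_left ?_
    rw [zpowers_le]
    have h1 : x ^ i ∈ A ⊔ zpowers (a * x ^ i) := by
      have e1 : x ^ i = a⁻¹ * (a * x ^ i) := by group
      rw [e1]
      have h3 : a⁻¹ * (a * x ^ i) ∈ A ⊔ zpowers (a * x ^ i) :=
        mul_mem ((le_sup_left : A ≤ A ⊔ zpowers (a * x ^ i)) (inv_mem ha))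
          ((le_sup_right : zpowers (a * x ^ i) ≤ A ⊔ zpowers (a * x ^ i)) (mem_zpowers _))
      simpa using h3
    have h2 := zpow_mem h1 u
    rw [← hxi] at h2
    exact h2

end aux

/-- Let G be a finite solvable non-nilpotent group. Every non-abelian subgroup of G is self-normalizing if and only if G is a semidirect product ⟨x⟩ ⋉ A in which ⟨x⟩ is a p-group for some prime p, A is a normal abelian subgroup of order prime to p, x^p is central in G, and x acts fixed-point-freely on A (no non-identity element of A commutes with x). -/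
theorem result {G : Type*} [Group G] [Finite G]
    [Group.IsSolvable G] (hnn : ¬ Group.IsNilpotent G) :
    (∀ H : Subgroup G, ¬ IsMulCommutative H → Subgroup.normalizer (H : Set G) = H) ↔
    ∃ (x : G) (A : Subgroup G) (p : ℕ), p.Prime ∧ A.Normal ∧ IsMulCommutative A ∧ (∃ k : ℕ, orderOf x = p ^ k) ∧
      ¬ p ∣ Nat.card A ∧ (Subgroup.zpowers x).IsComplement' A ∧ x ^ p ∈ Subgroup.center G ∧
      ∀ a : G, a ∈ A → a ≠ 1 → x * a * x⁻¹ ≠ a := by
  have hnt : Nontrivial G := by
    by_contra h
    rw [not_nontrivial_iff_subsingleton] at h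
    exact hnn inferInstance
  constructor
  · intro hself
    -- proper normal subgroups are commutative
    have hnorm : ∀ N : Subgroup G, N.Normal → N ≠ ⊤ → ∀ a ∈ N, ∀ b ∈ N, a * b = b * a := by
      intro N hN hne
      by_contra hcon
      apply hne
      have h1 : ¬ IsMulCommutative N := by
        intro hc
        apply hcon
        intro a ha b hb
        exact congrArg Subtype.val (hc.is_comm.comm ⟨a, ha⟩ ⟨b, hb⟩)
      rw [← hself N h1, normalizer_eq_top]
    obtain ⟨M, hMn, hMp, hcM⟩ := H1.Basic.exists_normal_index_prime (G := G)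
    have hMne : M ≠ ⊤ := by
      rintro rfl
      rw [index_top] at hMp
      exact Nat.not_prime_one hMp
    have hMc := hnorm M hMn hMne
    set p := M.index with hpdef
    have hpf : Fact p.Prime := ⟨hMp⟩
    set A := pp M hMc p with hA
    have hAM : A ≤ M := fun a ha => ha.1
    have hAn : A.Normal := ⟨fun a ha g => ⟨hMn.conj_mem a ha.1 g, by
      have : orderOf (g * a * g⁻¹) = orderOf a := by
        rw [← MulAut.conj_apply]; exact orderOf_injective (MulAut.conj g).toMonoidHom (MulAut.conj g).injective a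
      rw [this]; exact ha.2⟩⟩
    have hAc : ∀ a ∈ A, ∀ b ∈ A, a * b = b * a := fun a ha b hb => hMc a (hAM ha) b (hAM hb)
    have hAp : ¬ p ∣ Nat.card A := by
      intro h
      obtain ⟨a, ha⟩ := exists_prime_orderOf_dvd_card' p h
      have h1 := a.2.2
      rw [← Subgroup.orderOf_coe] at ha
      rw [ha, Nat.coprime_self] at h1
      exact hMp.one_lt.ne' h1
    have hpg : IsPGroup p (G ⧸ A) := by
      intro q
      obtain ⟨g, rfl⟩ := QuotientGroup.mk_surjective q
      have h1 : g ^ p ∈ M := M.pow_index_mem g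
      have hpos : orderOf (g ^ p) ≠ 0 := (orderOf_pos _).ne'
      obtain ⟨j, n, hn, hl⟩ := Nat.exists_eq_pow_mul_and_not_dvd hpos p hMp.ne_one
      refine ⟨j + 1, ?_⟩
      rw [← QuotientGroup.mk_pow, QuotientGroup.eq_one_iff]
      have e1 : g ^ p ^ (j + 1) = (g ^ p) ^ (p ^ j) := by rw [← pow_mul, pow_succ']
      rw [e1]
      refine ⟨pow_mem h1 _, ?_⟩
      have h2 : orderOf ((g ^ p) ^ (p ^ j)) ∣ n := by
        apply orderOf_dvd_of_pow_eq_one
        rw [← pow_mul, ← hl, pow_orderOf_eq_one]
      exact Nat.Coprime.coprime_dvd_left h2 ((Nat.Prime.coprime_iff_not_dvd hMp).mpr hn).symm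
    -- the element `x`
    obtain ⟨P⟩ : Nonempty (Sylow p G) := inferInstance
    obtain ⟨x, hxP, hxM⟩ : ∃ x ∈ (P : Subgroup G), x ∉ M := by
      by_contra hcon
      push_neg at hcon
      have h1 : p ∣ (P : Subgroup G).index := index_dvd_of_le hcon
      exact P.not_dvd_index h1
    obtain ⟨k, hk⟩ := P.isPGroup' ⟨x, hxP⟩
    have hk' : x ^ p ^ k = 1 := by simpa using congrArg Subtype.val hk
    obtain ⟨k', -, hxo⟩ := (Nat.dvd_prime_pow hMp).mp (orderOf_dvd_of_pow_eq_one hk')
    -- `A ⊔ ⟨x⟩ = ⊤`
    have hgen : A ⊔ zpowers x = ⊤ := by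
      have hsn : (((zpowers x).map (QuotientGroup.mk' A)).comap (QuotientGroup.mk' A)).IsSubnormal :=
        (H24.Sub.isSubnormal_of_nilpotent hpg.isNilpotent _).comap _
      have hcm : ((zpowers x).map (QuotientGroup.mk' A)).comap (QuotientGroup.mk' A) = A ⊔ zpowers x := by
        rw [comap_map_eq, QuotientGroup.ker_mk', sup_comm]
      rw [hcm] at hsn
      rcases hsn.lt_normal with h | ⟨K, hKn, hle, hlt⟩
      · exact h
      · exfalso
        have hKc := hnorm K hKn hlt.ne
        have hxK : x ∈ K := hle ((le_sup_right : zpowers x ≤ _) (mem_zpowers x))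
        have hMK : M ⊔ K = ⊤ := by
          rw [← index_eq_one]
          rcases (Nat.dvd_prime hMp).mp (index_dvd_of_le (le_sup_left : M ≤ M ⊔ K)) with h | h
          · exact h
          · exfalso
            apply hxM
            have : M.relIndex (M ⊔ K) = 1 := by
              have h2 := relIndex_mul_index (le_sup_left : M ≤ M ⊔ K)
              rw [h] at h2
              exact Nat.eq_of_mul_eq_mul_right hMp.pos (by rw [h2, one_mul])
            exact relIndex_eq_one.mp this ((le_sup_right : K ≤ _) hxK)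
        have iM : IsMulCommutative M := ⟨⟨fun a b => Subtype.ext (hMc a a.2 b b.2)⟩⟩
        have iK : IsMulCommutative K := ⟨⟨fun a b => Subtype.ext (hKc a a.2 b b.2)⟩⟩
        have hcK : commutator G ≤ K := by
          have := Normal.commutator_le_of_self_sup_commutative_eq_top (N := K) (H := M) (by rw [sup_comm]; exact hMK) iM
          exact this
        have hcz : commutator G ≤ center G := by
          intro z hz
          have hzM := hcM hz
          have hzK := hcK hz
          have h1 : M ⊔ K ≤ centralizer ({z} : Set G) := by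
            refine sup_le ?_ ?_
            · intro m hm y hy
              rw [Set.mem_singleton_iff.mp hy]
              exact hMc z hzM m hm
            · intro m hm y hy
              rw [Set.mem_singleton_iff.mp hy]
              exact hKc z hzK m hm
          rw [mem_center_iff]
          intro g
          have h2 : g ∈ centralizer ({z} : Set G) := by
            apply h1; rw [hMK]; trivial
          exact (h2 z rfl).symm
        apply hnn
        apply H11.FStar.isNilpotent_of_quotient_center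
        refine ⟨⟨fun a b => ?_⟩⟩
        obtain ⟨a, rfl⟩ := QuotientGroup.mk_surjective a
        obtain ⟨b, rfl⟩ := QuotientGroup.mk_surjective b
        rw [← QuotientGroup.mk_mul, ← QuotientGroup.mk_mul, QuotientGroup.eq]
        have e1 : (a * b)⁻¹ * (b * a) = ⁅b⁻¹, a⁻¹⁆ := by rw [commutatorElement_def]; group
        rw [e1]
        exact hcz (commutator_mem_commutator (mem_top _) (mem_top _))
    have hxp : x ^ p ∈ center G := by
      have h1 : x ^ p ∈ M := M.pow_index_mem x
      have h2 : A ⊔ zpowers x ≤ centralizer ({x ^ p} : Set G) := by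
        refine sup_le ?_ ?_
        · intro m hm y hy
          rw [Set.mem_singleton_iff.mp hy]
          exact hMc _ h1 m (hAM hm)
        · rw [zpowers_le]
          intro y hy
          rw [Set.mem_singleton_iff.mp hy]
          exact (Commute.pow_self x p).eq
      rw [mem_center_iff]
      intro g
      have h3 : g ∈ centralizer ({x ^ p} : Set G) := by
        apply h2; rw [hgen]; trivial
      exact (h3 _ rfl).symm
    have hdisj : ∀ z : G, z ∈ zpowers x → z ∈ A → z = 1 := by
      intro z hz hzA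
      have h1 : orderOf z ∣ p ^ k' := by
        have := Subgroup.orderOf_dvd_natCard (zpowers x) hz
        rw [Nat.card_zpowers, hxo] at this
        exact this
      have h2 : (orderOf z).Coprime (p ^ k') := Nat.Coprime.pow_right k' hzA.2
      have h3 : orderOf z = 1 := Nat.Coprime.eq_one_of_dvd h2 h1
      exact orderOf_eq_one_iff.mp h3
    refine ⟨x, A, p, hMp, hAn, ⟨⟨fun a b => Subtype.ext (hAc a a.2 b b.2)⟩⟩, ⟨k', hxo⟩, hAp, ?_, hxp, ?_⟩
    · apply isComplement'_of_disjoint_and_mul_eq_univ
      · rw [disjoint_def]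
        intro z hz hzA
        exact hdisj z hz hzA
      · rw [← mul_normal, sup_comm, hgen]; rfl
    · -- the fixed-point-free action
      let φ : ↥A →* G :=
        { toFun := fun a => (a : G) * x * (a : G)⁻¹ * x⁻¹
          map_one' := by simp
          map_mul' := by
            intro a b
            have h1 : (b : G) * x * (b : G)⁻¹ * x⁻¹ ∈ A := by
              have e1 : (b : G) * x * (b : G)⁻¹ * x⁻¹ = b * (x * (b : G)⁻¹ * x⁻¹) := by group
              rw [e1]
              exact mul_mem b.2 (hAn.conj_mem _ (inv_mem b.2) x)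
            have h2 : x * (a : G)⁻¹ * x⁻¹ ∈ A := hAn.conj_mem _ (inv_mem a.2) x
            calc ((a * b : ↥A) : G) * x * ((a * b : ↥A) : G)⁻¹ * x⁻¹
                = (a : G) * ((b * x * (b : G)⁻¹ * x⁻¹) * (x * (a : G)⁻¹ * x⁻¹)) := by push_cast; group
              _ = (a : G) * ((x * (a : G)⁻¹ * x⁻¹) * (b * x * (b : G)⁻¹ * x⁻¹)) := by rw [hAc _ h1 _ h2]
              _ = (a : G) * x * (a : G)⁻¹ * x⁻¹ * ((b : G) * x * (b : G)⁻¹ * x⁻¹) := by group }
      have hφA : φ.range ≤ A := by
        rintro _ ⟨b, rfl⟩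
        have e1 : (b : G) * x * (b : G)⁻¹ * x⁻¹ = b * (x * (b : G)⁻¹ * x⁻¹) := by group
        change (b : G) * x * (b : G)⁻¹ * x⁻¹ ∈ A
        rw [e1]
        exact mul_mem b.2 (hAn.conj_mem _ (inv_mem b.2) x)
      have hxn : zpowers x ≤ normalizer (φ.range : Set G) := by
        rw [le_normalizer_iff_conj]
        rintro g hg _ ⟨w, rfl⟩
        refine ⟨⟨g * w * g⁻¹, hAn.conj_mem _ w.2 g⟩, ?_⟩
        obtain ⟨i, rfl⟩ := mem_zpowers_iff.mp hg
        change (x ^ i * w * (x ^ i)⁻¹) * x * (x ^ i * w * (x ^ i)⁻¹)⁻¹ * x⁻¹ = x ^ i * (w * x * (w : G)⁻¹ * x⁻¹) * (x ^ i)⁻¹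
        group
      set H := φ.range ⊔ zpowers x with hH
      have hHn : H.Normal := by
        rw [← normalizer_eq_top_iff, eq_top_iff, ← hgen]
        have hxH : x ∈ H := (le_sup_right : zpowers x ≤ H) (mem_zpowers x)
        refine sup_le ?_ ((zpowers_le.mpr hxH).trans le_normalizer)
        rw [le_normalizer_iff_conj]
        intro a ha y hy
        obtain ⟨b, hb, z, hz, rfl⟩ := mem_sup_of_norm hxn hy
        have e1 : a * (b * z) * a⁻¹ = (a * b * a⁻¹) * (a * z * a⁻¹) := by group
        rw [e1]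
        have h1 : a * b * a⁻¹ = b := by rw [hAc a ha b (hφA hb), mul_inv_cancel_right]
        rw [h1]
        refine mul_mem ((le_sup_left : φ.range ≤ H) hb) ?_
        obtain ⟨i, rfl⟩ := mem_zpowers_iff.mp hz
        have e2 : a * x ^ i * a⁻¹ = (a * x * a⁻¹) ^ i := by rw [conj_zpow]
        rw [e2]
        apply zpow_mem
        have e3 : a * x * a⁻¹ = (a * x * a⁻¹ * x⁻¹) * x := by group
        rw [e3]
        exact mul_mem ((le_sup_left : φ.range ≤ H) ⟨⟨a, ha⟩, rfl⟩) hxH
      have hHtop : H = ⊤ := by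
        by_contra hne
        have hHc := hnorm H hHn hne
        apply hnn
        have hxH : x ∈ H := (le_sup_right : zpowers x ≤ H) (mem_zpowers x)
        -- `x` commutes with `A`
        have hxA : ∀ a ∈ A, a * x = x * a := by
          intro a ha
          have h1 : a * x * a⁻¹ * x⁻¹ ∈ H := (le_sup_left : φ.range ≤ H) ⟨⟨a, ha⟩, rfl⟩
          have h2 : x * (a * x * a⁻¹ * x⁻¹) = (a * x * a⁻¹ * x⁻¹) * x := hHc _ hxH _ h1
          set z := a * x * a⁻¹ * x⁻¹ with hz
          have h3 : z ∈ A := hφA ⟨⟨a, ha⟩, rfl⟩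
          have h4 : a * x * a⁻¹ = z * x := by rw [hz]; group
          have h5 : (a * x * a⁻¹) ^ (p ^ k') = 1 := by
            rw [conj_pow, ← hxo, pow_orderOf_eq_one]; group
          have hcz : Commute z x := h2.symm
          rw [h4, hcz.mul_pow, ← hxo, pow_orderOf_eq_one, mul_one, hxo] at h5
          have h6 : orderOf z ∣ p ^ k' := orderOf_dvd_of_pow_eq_one h5
          have h7 : orderOf z = 1 := Nat.Coprime.eq_one_of_dvd (Nat.Coprime.pow_right k' h3.2) h6
          have h8 : z = 1 := orderOf_eq_one_iff.mp h7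
          rw [h8, one_mul] at h4
          calc a * x = (a * x * a⁻¹) * a := by group
            _ = x * a := by rw [h4]
        apply H11.FStar.isNilpotent_of_isMulCommutative
        have hall : A ⊔ zpowers x ≤ center G := by
          have hcomm : ∀ y ∈ A ⊔ zpowers x, (∀ a ∈ A, y * a = a * y) ∧ y * x = x * y := by
            intro y hy
            obtain ⟨b, hb, z, hz, rfl⟩ := mem_sup_of_norm (by rw [normalizer_eq_top]; exact le_top) hy
            obtain ⟨i, rfl⟩ := mem_zpowers_iff.mp hz
            have hc1 : ∀ a ∈ A, Commute (x ^ i) a := fun a ha => (Commute.symm (hxA a ha)).zpow_left i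
            refine ⟨fun a ha => ?_, ?_⟩
            · have c1 : Commute b a := hAc b hb a ha
              exact (c1.mul_left (hc1 a ha)).eq
            · have c1 : Commute b x := hxA b hb
              exact (c1.mul_left ((Commute.refl x).zpow_left i)).eq
          intro y hy
          rw [mem_center_iff]
          intro g
          obtain ⟨h1, h2⟩ := hcomm y hy
          have hg : g ∈ A ⊔ zpowers x := by rw [hgen]; trivial
          obtain ⟨b, hb, z, hz, rfl⟩ := mem_sup_of_norm (by rw [normalizer_eq_top]; exact le_top) hg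
          obtain ⟨i, rfl⟩ := mem_zpowers_iff.mp hz
          have c1 : Commute y b := h1 b hb
          have c2 : Commute y x := h2
          exact ((c1.mul_right (c2.zpow_right i)).eq).symm
        rw [hgen] at hall
        refine ⟨⟨fun a b => ?_⟩⟩
        exact (mem_center_iff.mp (hall (mem_top b)) a)
      -- so `φ` is onto `A`
      have hsurj : A ≤ φ.range := by
        intro a ha
        have h1 : a ∈ H := by rw [hHtop]; trivial
        obtain ⟨b, hb, z, hz, he⟩ := mem_sup_of_norm hxn h1
        have h2 : z = 1 := by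
          apply hdisj z hz
          have : z = b⁻¹ * a := by rw [he]; group
          rw [this]
          exact mul_mem (inv_mem (hφA hb)) ha
        rw [he, h2, mul_one]; exact hb
      let ψ : ↥A → ↥A := fun a => ⟨φ a, hφA ⟨a, rfl⟩⟩
      have hψs : Function.Surjective ψ := by
        intro a
        obtain ⟨b, hb⟩ := hsurj a.2
        exact ⟨b, Subtype.ext hb⟩
      have hψi : Function.Injective ψ := Finite.injective_iff_surjective.mpr hψs
      intro a ha ha1 hfix
      apply ha1
      have h1 : ψ ⟨a, ha⟩ = ψ 1 := by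
        apply Subtype.ext
        change a * x * a⁻¹ * x⁻¹ = ((1 : ↥A) : G) * x * ((1 : ↥A) : G)⁻¹ * x⁻¹
        have e1 : a * x * a⁻¹ * x⁻¹ = 1 := by
          have e2 : x * a = a * x := by
            calc x * a = (x * a * x⁻¹) * x := by group
              _ = a * x := by rw [hfix]
          rw [← e2]; group
        rw [e1]; simp
      have := hψi h1
      exact congrArg Subtype.val this
  · rintro ⟨x, A, p, hp, hAn, hAc, ⟨k, hk⟩, -, hcompl, hxp, hfp⟩ H hH
    refine back hp hAn (fun a ha b hb => congrArg Subtype.val (hAc.is_comm.comm ⟨a, ha⟩ ⟨b, hb⟩)) hk ?_ hxp hfp hH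
    rw [sup_comm]; exact hcompl.sup_eq_top

end Cfsg.Agent.S4071
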