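import Cfsg.Statements.S4072
import Cfsg.Agent.H1_Coprime2
import Cfsg.Agent.H1_Schmidt2
import Cfsg.Agent.H2_Basic
import Cfsg.Agent.H2_Card
import Cfsg.Agent.H2_Fusion3
import Cfsg.Agent.H2_Fusion4
import Cfsg.Agent.H23_Rad
import Cfsg.Agent.H24_Tools


set_option autoImplicit false
open Cfsg

namespace Cfsg.Agent.S4072

open Subgroup
open scoped Pointwise commutatorElement

universe u

variable {G : Type u} [Group G]

theorem self_norm [Finite G] (hS : ∀ H : Subgroup G, ¬ IsMulCommutative H → normalizer (H : Set G) = H)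
    {p : ℕ} [hp : Fact p.Prime] {z : G} (hz : orderOf z = p) (hzc : ∀ x, z * x = x * z) : HasNormalPComplement p G := by
  classical
  apply H2.Fusion3.npc_of_frobenius
  intro Q hQ g hg hgp
  by_contra hgC
  by_cases hQc : IsMulCommutative Q
  · set T := ⁅Q, zpowers g⁆ with hT
    have hAQ : zpowers g ≤ normalizer (Q : Set G) := zpowers_le.2 hg
    have hTQ : T ≤ Q := H1.Coprime.commutator_le_of_le_normalizer hAQ
    obtain ⟨k, hk⟩ := IsPGroup.iff_card.1 hQ
    have hcop : (Nat.card (zpowers g)).Coprime (Nat.card Q) := by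
      rw [Nat.card_zpowers, hk]
      exact Nat.Coprime.pow_right k hgp
    have hinf := H1.Coprime.inf_commutator_eq_bot_of_abelian (zpowers g) Q hAQ hcop
    rw [← hT] at hinf
    have hTb : T ≠ ⊥ := by
      intro h1
      rw [hT, Subgroup.commutator_eq_bot_iff_le_centralizer, Subgroup.le_centralizer_iff] at h1
      exact hgC (h1 (mem_zpowers g))
    set H := T ⊔ zpowers g with hH
    have hHn : ¬ IsMulCommutative H := by
      intro hHc
      apply hTb
      rw [eq_bot_iff, ← hinf]
      refine le_inf (le_inf hTQ ?_) le_rfl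
      intro t ht
      rw [mem_centralizer_iff]
      intro a ha
      exact H1.Schmidt.comm_of_isMulCommutative hHc (le_sup_right (a := T) ha) (le_sup_left (b := zpowers g) ht)
    have hQH : Q ≤ H := by
      rw [← hS H hHn]
      intro x hx
      apply H24.Tools.mem_normalizer
      have h1 : H ≤ H.comap (MulAut.conj x).toMonoidHom := by
        refine sup_le ?_ (zpowers_le.2 ?_)
        · intro t ht
          have h2 : x * t = t * x := H1.Schmidt.comm_of_isMulCommutative hQc hx (hTQ ht)
          change x * t * x⁻¹ ∈ H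
          rw [h2, mul_inv_cancel_right]
          exact le_sup_left (b := zpowers g) ht
        · change x * g * x⁻¹ ∈ H
          have h2 : x * g * x⁻¹ = ⁅x, g⁆ * g := by rw [commutatorElement_def]; group
          rw [h2]
          exact mul_mem (le_sup_left (b := zpowers g) (commutator_mem_commutator hx (mem_zpowers g))) (le_sup_right (a := T) (mem_zpowers g))
      exact fun y hy => h1 hy
    have hzH : z ∈ H := by
      rw [← hS H hHn]
      apply H24.Tools.mem_normalizer
      intro y hy
      rw [hzc y, mul_inv_cancel_right]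
      exact hy
    have hAT : zpowers g ≤ normalizer (T : Set G) := by
      apply H1.Coprime.le_normalizer_commutator_of hAQ
      exact le_normalizer
    obtain ⟨t, ht, a, ha, hta⟩ := (H2.Card.mem_sup_iff' hAT).1 hzH
    have ht1 : t ∈ (Q ⊓ centralizer ((zpowers g : Subgroup G) : Set G)) ⊓ T := by
      refine mem_inf.2 ⟨mem_inf.2 ⟨hTQ ht, ?_⟩, ht⟩
      have h2 : t = z * a⁻¹ := by rw [← hta, mul_inv_cancel_right]
      rw [mem_centralizer_iff]
      intro b hb
      have h3 : b * a⁻¹ = a⁻¹ * b := H1.Schmidt.comm_of_isMulCommutative inferInstance hb (inv_mem ha)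
      rw [h2, ← mul_assoc, ← hzc b, mul_assoc, h3, mul_assoc]
    rw [hinf, mem_bot] at ht1
    rw [ht1, one_mul] at hta
    have h3 : orderOf z ∣ orderOf g := by
      rw [← hta, ← Nat.card_zpowers g]
      exact Subgroup.orderOf_dvd_natCard _ ha
    rw [hz] at h3
    exact hp.out.one_lt.ne' (Nat.eq_one_of_dvd_coprimes hgp h3 dvd_rfl)
  · have h1 := hS Q hQc
    rw [h1] at hg
    obtain ⟨k, hk⟩ := H24.Tools.exists_orderOf hQ hg
    have h2 : orderOf g = 1 := Nat.eq_one_of_dvd_coprimes (Nat.Coprime.pow_right k hgp) dvd_rfl (by rw [hk])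
    rw [orderOf_eq_one_iff] at h2
    rw [h2] at hgC
    exact hgC (one_mem _)

theorem solv [Finite G] (hns : ¬ Group.IsSolvable G) (hab : ∀ K : Subgroup G, K.Normal → K ≠ ⊤ → IsMulCommutative K)
    {N : Subgroup G} [N.Normal] {p : ℕ} [hp : Fact p.Prime] (hpd : p ∣ Nat.card (G ⧸ N)) (h : HasNormalPComplement p (G ⧸ N)) : False := by
  obtain ⟨K, hK, hc, k, hk⟩ := H2.Basic.npc_iff.1 h
  set L := K.comap (QuotientGroup.mk' N) with hL
  haveI hLn : L.Normal := hK.comap _
  have hi : L.index = p ^ k := by
    rw [hL, index_comap_of_surjective _ (QuotientGroup.mk'_surjective N), hk]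
  have hLt : L ≠ ⊤ := by
    intro h1
    have h2 : K = ⊤ := by
      rw [eq_top_iff]
      intro x _
      obtain ⟨g, rfl⟩ := QuotientGroup.mk'_surjective N x
      have : g ∈ L := by rw [h1]; trivial
      exact this
    rw [h2, Subgroup.card_top] at hc
    exact hc hpd
  have h1 := hab L hLn hLt
  apply hns
  apply H23.Rad.solvable_quot L (Group.isSolvable_of_comm (fun a b => h1.is_comm.comm a b))
  apply H23.Rad.solvable_of_pgroup (p := p)
  exact IsPGroup.of_card (n := k) hi


/-- A finite group in which every non-abelian subgroup is self-normalizing is solvable or simple. -/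
theorem result {G : Type*} [Group G] [Finite G] (hS : ∀ H : Subgroup G, ¬ IsMulCommutative H → Subgroup.normalizer (H : Set G) = H) :
    Group.IsSolvable G ∨ IsSimpleGroup G := by

  classical
  by_contra hcon
  push Not at hcon
  obtain ⟨hns, hsim⟩ := hcon
  have hnt : Nontrivial G := by
    by_contra h
    rw [not_nontrivial_iff_subsingleton] at h
    exact hns inferInstance
  have hab : ∀ K : Subgroup G, K.Normal → K ≠ ⊤ → IsMulCommutative K := by
    intro K hK hKt
    by_contra h
    haveI := hK
    exact hKt ((hS K h).symm.trans (normalizer_eq_top K))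
  obtain ⟨N, hN, hNb, hNt⟩ : ∃ N : Subgroup G, N.Normal ∧ N ≠ ⊥ ∧ N ≠ ⊤ := by
    by_contra hcon
    push Not at hcon
    apply hsim
    refine ⟨fun H hH => ?_⟩
    by_cases h1 : H = ⊥
    · exact Or.inl h1
    · exact Or.inr (hcon H hH h1)
  haveI := hN
  by_cases hC : centralizer (N : Set G) = ⊤
  · -- N central
    obtain ⟨p, hp, hpN⟩ := Nat.exists_prime_and_dvd (n := Nat.card N) (fun h => hNb (Subgroup.card_eq_one.1 h))
    haveI : Fact p.Prime := ⟨hp⟩
    obtain ⟨z, hz⟩ := exists_prime_orderOf_dvd_card' p hpN
    have h1 := self_norm hS (p := p) (z := z) (by rw [orderOf_coe, hz]) (by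
      intro x
      have : x ∈ centralizer (N : Set G) := by rw [hC]; trivial
      exact mem_centralizer_iff.1 this z z.2)
    apply solv (p := p) (N := ⊥) hns hab
    · rw [Nat.card_congr QuotientGroup.quotientBot.toEquiv]
      exact hpN.trans N.card_subgroup_dvd_card
    · exact H2.Basic.npc_mulEquiv (QuotientGroup.quotientBot (G := G)) h1
  · set M := centralizer (N : Set G) with hM
    haveI hMn : M.Normal := inferInstance
    have hMab := hab M hMn hC
    have hNM : N ≤ M := by
      intro x hx
      rw [hM, mem_centralizer_iff]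
      intro y hy
      exact H1.Schmidt.comm_of_isMulCommutative (hab N hN hNt) hy hx
    have hcm : ∀ x, (∀ y ∈ M, y * x = x * y) → x ∈ M := by
      intro x hx
      rw [hM, mem_centralizer_iff]
      exact fun y hy => hx y (hNM hy)
    have hself : ∀ K : Subgroup (G ⧸ M), K ≠ ⊥ → normalizer (K : Set (G ⧸ M)) = K := by
      intro K hK
      set L := K.comap (QuotientGroup.mk' M) with hL
      have hML : M ≤ L := by
        intro x hx
        rw [hL, mem_comap]
        have : QuotientGroup.mk' M x = 1 := (QuotientGroup.eq_one_iff x).2 hx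
        rw [this]; exact one_mem _
      have hLn : ¬ IsMulCommutative L := by
        intro hc
        apply hK
        rw [eq_bot_iff]
        intro x hx
        obtain ⟨g, rfl⟩ := QuotientGroup.mk'_surjective M x
        rw [mem_bot]
        refine (QuotientGroup.eq_one_iff g).2 (hcm g ?_)
        intro y hy
        exact H1.Schmidt.comm_of_isMulCommutative hc (hML hy) hx
      have h1 := hS L hLn
      rw [hL, ← comap_normalizer_eq_of_surjective _ (QuotientGroup.mk'_surjective M)] at h1
      exact comap_injective (QuotientGroup.mk'_surjective M) h1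
    obtain ⟨p, hp, hpd⟩ := Nat.exists_prime_and_dvd (n := Nat.card (G ⧸ M)) (fun h => hC (by
      rw [← Subgroup.index_eq_one]; exact h))
    haveI : Fact p.Prime := ⟨hp⟩
    apply solv (p := p) (N := M) hns hab hpd
    let P : Sylow p (G ⧸ M) := default
    have hPnt : Nontrivial (P : Subgroup (G ⧸ M)) := by
      rw [Subgroup.nontrivial_iff_ne_bot]
      exact P.ne_bot_of_dvd_card hpd
    have hZ : (center (P : Subgroup (G ⧸ M))).map (P : Subgroup (G ⧸ M)).subtype ≠ ⊥ := by
      intro h1
      have h2 := (map_eq_bot_iff_of_injective _ (P : Subgroup (G ⧸ M)).subtype_injective).1 h1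
      haveI := P.2.center_nontrivial
      exact (Subgroup.nontrivial_iff_ne_bot _).1 inferInstance h2
    have hPZ : (P : Subgroup (G ⧸ M)) ≤ (center (P : Subgroup (G ⧸ M))).map (P : Subgroup (G ⧸ M)).subtype := by
      rw [← hself _ hZ]
      intro x hx
      apply H24.Tools.mem_normalizer
      rintro _ ⟨z, hz, rfl⟩
      have h1 : x * (z : G ⧸ M) = z * x := congrArg Subtype.val (Subgroup.mem_center_iff.1 hz ⟨x, hx⟩)
      change x * (z : G ⧸ M) * x⁻¹ ∈ _
      rw [h1, mul_inv_cancel_right]
      exact ⟨z, hz, rfl⟩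
    apply H2.Fusion4.npc_of_normalizer_le_centralizer P
    have hPn := hself (P : Subgroup (G ⧸ M)) ((Subgroup.nontrivial_iff_ne_bot _).1 hPnt)
    intro x hx
    replace hx : x ∈ (P : Subgroup (G ⧸ M)) := by rw [← hPn]; exact hx
    obtain ⟨z, hz, rfl⟩ := hPZ hx
    rw [mem_centralizer_iff]
    intro y hy
    exact congrArg Subtype.val (Subgroup.mem_center_iff.1 hz ⟨y, hy⟩)


end Cfsg.Agent.S4072
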