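import Cfsg.Statements.S4074


set_option autoImplicit false
open Cfsg

namespace Cfsg.Agent.S4074

open DihedralGroup

def evenSub (n : ℕ) : Subgroup (DihedralGroup n) where
  carrier := {g | ∃ i : ZMod n, g = r (2 * i) ∨ g = sr (2 * i)}
  one_mem' := ⟨0, Or.inl (by rw [mul_zero]; rfl)⟩
  mul_mem' := by
    rintro a b ⟨i, hi | hi⟩ ⟨j, hj | hj⟩
    · exact ⟨i + j, Or.inl (by rw [hi, hj, r_mul_r]; congr 1; ring)⟩
    · exact ⟨j - i, Or.inr (by rw [hi, hj, r_mul_sr]; congr 1; ring)⟩
    · exact ⟨i + j, Or.inr (by rw [hi, hj, sr_mul_r]; congr 1; ring)⟩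
    · exact ⟨j - i, Or.inl (by rw [hi, hj, sr_mul_sr]; congr 1; ring)⟩
  inv_mem' := by
    rintro a ⟨i, hi | hi⟩
    · exact ⟨-i, Or.inl (by rw [hi, inv_r]; congr 1; ring)⟩
    · exact ⟨i, Or.inr (by rw [hi, inv_sr])⟩

/-- For n > 2, every non-abelian subgroup of the dihedral group of order 2n is self-normalizing if and only if n = 4 or n is odd. -/
theorem result (n : ℕ) (hn : 2 < n) :
    (∀ H : Subgroup (DihedralGroup n), ¬ IsMulCommutative H → Subgroup.normalizer (H : Set (DihedralGroup n)) = H) ↔
    (n = 4 ∨ Odd n) := by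
  open DihedralGroup in
  constructor
  · intro h
    by_contra hcon
    push Not at hcon
    obtain ⟨hn4, hodd⟩ := hcon
    rw [Nat.not_odd_iff_even] at hodd
    have h1 := h (evenSub n) (by
      rintro ⟨⟨hc⟩⟩
      have h2 := hc ⟨r (2 * 1), 1, Or.inl rfl⟩ ⟨sr (2 * 0), 0, Or.inr rfl⟩
      have h3 := congrArg Subtype.val h2
      simp only [Subgroup.coe_mul, r_mul_sr, sr_mul_r, mul_zero, mul_one, zero_sub, zero_add, sr.injEq] at h3
      have h4 : ((4 : ℕ) : ZMod n) = 0 := by
        have : (4 : ZMod n) = 0 := by linear_combination -h3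
        exact_mod_cast this
      rw [ZMod.natCast_eq_zero_iff] at h4
      have h5 := Nat.le_of_dvd (by norm_num) h4
      interval_cases n
      · exact absurd hodd (by decide)
      · exact hn4 rfl)
    have h2 : r 1 ∈ Subgroup.normalizer ((evenSub n : Subgroup (DihedralGroup n)) : Set (DihedralGroup n)) := by
      have key : ∀ (k : ZMod n) (g : DihedralGroup n), g ∈ evenSub n → r k * g * (r k)⁻¹ ∈ evenSub n := by
        rintro k g ⟨i, hi | hi⟩
        · exact ⟨i, Or.inl (by rw [hi, inv_r, r_mul_r, r_mul_r]; congr 1; ring)⟩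
        · exact ⟨i - k, Or.inr (by rw [hi, inv_r, r_mul_sr, sr_mul_r]; congr 1; ring)⟩
      rw [Subgroup.mem_normalizer_iff]
      intro g
      constructor
      · exact key 1 g
      · intro hg
        have h3 := key (-1) _ hg
        have h4 : r (-1) * (r 1 * g * (r 1)⁻¹) * (r (-1))⁻¹ = g := by
          have : (r (-1) : DihedralGroup n) = (r 1)⁻¹ := by rw [inv_r]
          rw [this]; group
        rwa [h4] at h3
    rw [h1] at h2
    obtain ⟨i, hi | hi⟩ := h2
    · have h3 : (1 : ZMod n) = 2 * i := r.inj hi
      obtain ⟨m, hm⟩ := hodd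
      have hd : 2 ∣ n := ⟨m, by omega⟩
      have h4 := congrArg (ZMod.castHom hd (ZMod 2)) h3
      rw [map_one, map_mul, map_ofNat] at h4
      have h5 : (2 : ZMod 2) = 0 := rfl
      rw [h5, zero_mul] at h4
      exact one_ne_zero h4
    · cases hi
  · intro hor H hH
    apply le_antisymm _ Subgroup.le_normalizer
    haveI : NeZero n := ⟨by omega⟩
    -- H contains a reflection
    have hrefl : ∃ i, sr i ∈ H := by
      by_contra hno
      push Not at hno
      apply hH
      refine ⟨⟨fun a b => Subtype.ext ?_⟩⟩
      obtain ⟨a | a, ha⟩ := a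
      · obtain ⟨b | b, hb⟩ := b
        · simp only [Subgroup.coe_mul, r_mul_r, add_comm]
        · exact absurd hb (hno b)
      · exact absurd ha (hno a)
    obtain ⟨i, hi⟩ := hrefl
    rcases hor with rfl | hodd
    · -- n = 4
      have hcard : Nat.card (DihedralGroup 4) = 8 := by
        rw [DihedralGroup.nat_card]
      have hd : Nat.card H ∣ 2 ^ 3 := by
        have := Subgroup.card_subgroup_dvd_card H
        rwa [hcard] at this
      obtain ⟨k, hk, hk2⟩ := (Nat.dvd_prime_pow Nat.prime_two).1 hd
      have htop : H = ⊤ := by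
        by_contra hne
        apply hH
        haveI : Fact (Nat.Prime 2) := ⟨Nat.prime_two⟩
        have hk3 : k ≤ 2 := by
          by_contra hk4
          have : k = 3 := by omega
          apply hne
          apply Subgroup.eq_top_of_card_eq
          rw [hk2, this, hcard]
          norm_num
        interval_cases k
        · haveI : Subsingleton H := (Nat.card_eq_one_iff_unique.1 hk2).1
          exact ⟨⟨fun a b => Subsingleton.elim _ _⟩⟩
        · haveI : IsCyclic H := isCyclic_of_prime_card (p := 2) hk2
          infer_instance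
        · exact ⟨⟨fun a b => IsPGroup.commutative_of_card_eq_prime_sq (p := 2) hk2 a b⟩⟩
      rw [htop]
      exact le_top
    · have hrot : ∀ k : ZMod n, r k ∈ Subgroup.normalizer (H : Set (DihedralGroup n)) → r k ∈ H := by
        intro k hk
        have h1 := (Subgroup.mem_normalizer_iff.1 hk (sr i)).1 hi
        rw [inv_r, r_mul_sr, sr_mul_r] at h1
        have h2 := H.mul_mem h1 hi
        rw [sr_mul_sr] at h2
        have h3 : i - (i - k + -k) = 2 * k := by ring
        rw [h3] at h2
        obtain ⟨m, hm⟩ := hodd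
        have h4 : r k = (r (2 * k)) ^ (m + 1) := by
          rw [r_pow]
          congr 1
          have h5 : ((2 * m + 1 : ℕ) : ZMod n) = 0 := by rw [← hm]; exact ZMod.natCast_self n
          push_cast at h5 ⊢
          linear_combination -k * h5
        rw [h4]
        exact H.pow_mem h2 _
      rintro (k | k) hk
      · exact hrot k hk
      · have h1 : sr k * sr i ∈ Subgroup.normalizer (H : Set (DihedralGroup n)) :=
          Subgroup.mul_mem _ hk (Subgroup.le_normalizer hi)
        rw [sr_mul_sr] at h1
        have h2 := hrot _ h1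
        have h3 := H.mul_mem hi (H.inv_mem h2)
        rw [inv_r, sr_mul_r] at h3
        have h4 : i + -(i - k) = k := by ring
        rwa [h4] at h3

end Cfsg.Agent.S4074
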