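import Cfsg.Statements.S4075
import Cfsg.Agent.H23_Basic

set_option autoImplicit false
open Cfsg

namespace Cfsg.Agent.S4075

/-- Let G be a finite nilpotent group. Every non-abelian subgroup of G is self-normalizing if and only if G is abelian or G is a minimal non-abelian p-group for some prime p (non-abelian of prime-power order with every proper subgroup abelian). -/
theorem result {G : Type*} [Group G] [Finite G]
    [Group.IsNilpotent G] :
    (∀ H : Subgroup G, ¬ IsMulCommutative H → Subgroup.normalizer (H : Set G) = H) ↔
    (IsMulCommutative G ∨ (IsPrimePow (Nat.card G) ∧ ¬ IsMulCommutative G ∧ ∀ H : Subgroup G, H ≠ ⊤ → IsMulCommutative H)) := by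
  constructor
  · intro h
    by_cases hab : IsMulCommutative G
    · exact Or.inl hab
    right
    have hprop : ∀ H : Subgroup G, H ≠ ⊤ → IsMulCommutative H := by
      intro H hH
      by_contra hc
      have h1 := h H hc
      have h2 := (Group.normalizerCondition_of_isNilpotent (G := G)) H (lt_top_iff_ne_top.2 hH)
      rw [h1] at h2
      exact lt_irrefl _ h2
    refine ⟨?_, hab, hprop⟩
    by_contra hpp
    apply hab
    -- every Sylow subgroup is proper
    have hsyl : ∀ (p : ℕ) [Fact p.Prime] (P : Sylow p G), (P : Subgroup G) ≠ ⊤ := by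
      intro p hp P hP
      obtain ⟨n, hn⟩ := IsPGroup.iff_card.1 P.2
      rw [hP, Subgroup.card_top] at hn
      apply hpp
      rw [hn]
      have hn0 : n ≠ 0 := by
        rintro rfl
        apply hab
        rw [pow_zero] at hn
        haveI : Subsingleton G := (Nat.card_eq_one_iff_unique.1 hn).1
        exact ⟨⟨fun a b => Subsingleton.elim _ _⟩⟩
      exact hp.out.isPrimePow.pow hn0
    have hnorm : ∀ (p : ℕ) [Fact p.Prime] (P : Sylow p G), (P : Subgroup G).Normal :=
      fun p hp P => (Group.isNilpotent_of_finite_tfae.out 0 3 rfl rfl).mp inferInstance p hp P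
    have hmem : ∀ (p : ℕ) [hp : Fact p.Prime] (P : Sylow p G) (x : G) (k : ℕ), orderOf x = p ^ k → x ∈ P := by
      intro p hp P x k hk
      have h1 : IsPGroup p (Subgroup.zpowers x) := IsPGroup.of_card (n := k) (by rw [Nat.card_zpowers, hk])
      obtain ⟨Q, hQ⟩ := h1.exists_le_sylow
      obtain ⟨g, hg⟩ := MulAction.exists_smul_eq G P Q
      have h2 : g • P = P := Sylow.smul_eq_iff_mem_normalizer.2 (by
        have := Subgroup.normalizer_eq_top_iff.2 (hnorm p P)
        change g ∈ Subgroup.normalizer ((P : Subgroup G) : Set G)
        rw [this]; trivial)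
      rw [← h2, hg]
      exact hQ (Subgroup.mem_zpowers x)
    have hprim : ∀ (x y : G) (p q a b : ℕ), p.Prime → q.Prime → orderOf x = p ^ a → orderOf y = q ^ b →
        x * y = y * x := by
      intro x y p q a b hp hq ha hb
      haveI := Fact.mk hp
      haveI := Fact.mk hq
      have P : Sylow p G := default
      have hxP := hmem p P x a ha
      by_cases hpq : p = q
      · subst hpq
        have hyP := hmem p P y b hb
        haveI := hprop _ (hsyl p P)
        exact congrArg Subtype.val ((IsMulCommutative.is_comm (M := (P : Subgroup G))).comm ⟨x, hxP⟩ ⟨y, hyP⟩)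
      · have Q : Sylow q G := default
        have hyQ := hmem q Q y b hb
        have hd : Disjoint (P : Subgroup G) Q := by
          apply IsPGroup.disjoint_of_ne p q hpq _ _ P.2 Q.2
        exact Subgroup.commute_of_normal_of_disjoint _ _ (hnorm p P) (hnorm q Q) hd x y hxP hyQ
    refine ⟨⟨fun x y => ?_⟩⟩
    have h1 : x ∈ Subgroup.centralizer ({y} : Set G) := by
      apply Cfsg.Agent.H23.Basic.mem_of_prime_pow_parts
      intro x' _ p a hp ha
      rw [Subgroup.mem_centralizer_singleton_iff]
      have h2 : y ∈ Subgroup.centralizer ({x'} : Set G) := by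
        apply Cfsg.Agent.H23.Basic.mem_of_prime_pow_parts
        intro y' _ q b hq hb
        rw [Subgroup.mem_centralizer_singleton_iff]
        exact (hprim x' y' p q a b hp hq ha hb).symm
      exact (Subgroup.mem_centralizer_singleton_iff.1 h2).symm
    exact Subgroup.mem_centralizer_singleton_iff.1 h1
  · rintro (h | ⟨_, _, h⟩) H hH
    · exfalso
      apply hH
      exact ⟨⟨fun a b => Subtype.ext (h.is_comm.comm a b)⟩⟩
    · have : H = ⊤ := by
        by_contra hne
        exact hH (h H hne)
      rw [this]
      exact Subgroup.normalizer_eq_top _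

end Cfsg.Agent.S4075
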