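import Cfsg.Statements.S4080
import Cfsg.Agent.H23_Basic

set_option autoImplicit false
open Cfsg

namespace Cfsg.Agent.S4080

open scoped BigOperators

theorem nil_sq {F : Type*} [Field F] (N : Matrix (Fin 2) (Fin 2) F) (h : IsNilpotent N) : N * N = 0 := by
  have h1 : N.trace = 0 := (Matrix.isNilpotent_trace_of_isNilpotent h).eq_zero
  have h2 : N.det = 0 := by
    obtain ⟨k, hk⟩ := h
    have : N.det ^ (k + 1) = 0 := by
      rw [← Matrix.det_pow, pow_succ, hk, zero_mul, Matrix.det_zero]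
    exact (pow_eq_zero_iff (Nat.succ_ne_zero k)).1 this
  rw [Matrix.det_fin_two] at h2
  rw [Matrix.trace_fin_two] at h1
  have h3 : N 1 1 = - N 0 0 := by linear_combination h1
  rw [h3] at h2
  ext i j
  fin_cases i <;> fin_cases j <;> simp [Matrix.mul_apply, Fin.sum_univ_two, h3] <;>
    first | ring1 | linear_combination (-1 : F) * h2

theorem main_ring {R : Type*} [Ring R] (p : ℕ) [hp : Fact p.Prime] (h5 : 5 ≤ p) (M m : R)
    (hM : M ^ p = 1) (hsq : (M - 1) * (M - 1) = (p : R) * m) (hpp : (p : R) * (p : R) = 0) :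
    (p : R) * (M - 1) = 0 := by
  obtain ⟨n, hn⟩ : ∃ n, n = M - 1 := ⟨_, rfl⟩
  rw [← hn] at hsq ⊢
  have hc : ∀ x : R, (p : R) * x = x * p := fun x => (Nat.cast_commute p x).eq
  have h1 : M = n + 1 := by rw [hn]; abel
  have h2 : ∀ k, 2 ≤ k → (p : R) * n ^ k = 0 := by
    intro k hk
    obtain ⟨l, rfl⟩ := Nat.exists_eq_add_of_le hk
    rw [pow_add, pow_two, hsq, ← mul_assoc, ← mul_assoc, hpp, zero_mul, zero_mul]
  have h3 : n ^ p = 0 := by
    obtain ⟨l, hl⟩ := Nat.exists_eq_add_of_le (show 2 ≤ p by omega)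
    rw [hl, pow_add, pow_two, hsq, hc m, mul_assoc]
    have : 2 ≤ l := by omega
    rw [h2 l this, mul_zero]
  rw [h1, (Commute.one_right n).add_pow, Finset.sum_range_succ, h3, zero_mul, zero_mul, add_zero] at hM
  obtain ⟨q, hq⟩ := Nat.exists_eq_add_of_le (show 2 ≤ p by omega)
  have h4 : ∑ i ∈ Finset.range p, n ^ i * 1 ^ (p - i) * (p.choose i : R) = 1 + n * p := by
    have : ∀ i ∈ Finset.range p, n ^ i * 1 ^ (p - i) * (p.choose i : R) =
        if i = 0 then 1 else if i = 1 then n * p else 0 := by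
      intro i hi
      rw [Finset.mem_range] at hi
      split_ifs with h h'
      · subst h; simp
      · subst h'; simp
      · have hd : p ∣ p.choose i := hp.out.dvd_choose_self h hi
        obtain ⟨c, hc'⟩ := hd
        rw [one_pow, mul_one, hc', Nat.cast_mul, ← mul_assoc, ← hc, h2 i (by omega), zero_mul]
    rw [Finset.sum_congr rfl this]
    have hp2 : p = q + 1 + 1 := by omega
    rw [hp2, Finset.sum_range_succ', Finset.sum_range_succ']
    simp [add_comm]
  rw [h4] at hM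
  rw [hc]
  simpa using hM

theorem dvd_iff {p : ℕ} [hp : Fact p.Prime] (u : ZMod (p ^ 2)) :
    ZMod.castHom (dvd_pow_self p two_ne_zero : p ∣ p ^ 2) (ZMod p) u = 0 → ∃ v, u = (p : ZMod (p ^ 2)) * v := by
  intro h
  haveI : NeZero (p ^ 2) := ⟨pow_ne_zero _ hp.out.ne_zero⟩
  have h1 : ((u.val : ℕ) : ZMod (p ^ 2)) = u := ZMod.natCast_zmod_val u
  rw [← h1, map_natCast, ZMod.natCast_eq_zero_iff] at h
  obtain ⟨c, hc⟩ := h
  exact ⟨c, by rw [← h1, hc]; push_cast; ring⟩

theorem ann {p : ℕ} [hp : Fact p.Prime] (u : ZMod (p ^ 2)) (h : (p : ZMod (p ^ 2)) * u = 0) :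
    ∃ v, u = (p : ZMod (p ^ 2)) * v := by
  haveI : NeZero (p ^ 2) := ⟨pow_ne_zero _ hp.out.ne_zero⟩
  have h1 : ((u.val : ℕ) : ZMod (p ^ 2)) = u := ZMod.natCast_zmod_val u
  rw [← h1] at h
  have h2 : ((p * u.val : ℕ) : ZMod (p ^ 2)) = 0 := by push_cast; exact h
  rw [ZMod.natCast_eq_zero_iff] at h2
  obtain ⟨c, hc⟩ := Nat.dvd_of_mul_dvd_mul_left hp.out.pos ((dvd_of_eq (pow_two p).symm).trans h2)
  exact ⟨c, by rw [← h1, hc]; push_cast; ring⟩

/-- Let p > 3 be a prime and L the direct product of two cyclic groups of order p². Every automorphism of L of order p fixes every element of order p of L. -/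
theorem result {p : ℕ} [Fact p.Prime] (hp : 3 < p)
    (a : MulAut (Multiplicative (ZMod (p ^ 2) × ZMod (p ^ 2)))) (ha : orderOf a = p)
    (x : Multiplicative (ZMod (p ^ 2) × ZMod (p ^ 2))) (hx : orderOf x = p) : a x = x := by

  have h5 : 5 ≤ p := by
    have h := (Fact.out : p.Prime)
    by_contra h'
    have : p = 4 := by omega
    rw [this] at h
    revert h; decide
  have hp0 : p ≠ 0 := (Fact.out : p.Prime).ne_zero
  haveI : NeZero (p ^ 2) := ⟨pow_ne_zero _ hp0⟩
  -- additive endomorphism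
  let V := ZMod (p ^ 2) × ZMod (p ^ 2)
  let A : MulAut (Multiplicative V) →* Module.End (ZMod (p ^ 2)) V :=
    { toFun := fun b => AddMonoidHom.toZModLinearMap (p ^ 2) (MonoidHom.toAdditive (b : Multiplicative V →* Multiplicative V))
      map_one' := rfl
      map_mul' := fun b c => rfl }
  let e := LinearMap.toMatrixAlgEquiv (Module.Basis.finTwoProd (ZMod (p ^ 2)))
  have hap : a ^ p = 1 := by
    have := pow_orderOf_eq_one a
    rwa [ha] at this
  have hA : (A a) ^ p = 1 := by rw [← map_pow, hap, map_one]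
  have hB : (e (A a)) ^ p = 1 := by rw [← map_pow, hA, map_one]
  have hchar : (p : ZMod (p ^ 2)) * (p : ZMod (p ^ 2)) = 0 := by
    rw [← pow_two]
    have := ZMod.natCast_self (p ^ 2)
    push_cast at this
    exact this
  have hppM : ((p : Matrix (Fin 2) (Fin 2) (ZMod (p ^ 2)))) * (p : Matrix (Fin 2) (Fin 2) (ZMod (p ^ 2))) = 0 := by
    have h1 : ((p : Matrix (Fin 2) (Fin 2) (ZMod (p ^ 2)))) = algebraMap (ZMod (p ^ 2)) _ (p : ZMod (p ^ 2)) := by simp
    rw [h1, ← map_mul, hchar, map_zero]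
  let φ := (ZMod.castHom (dvd_pow_self p two_ne_zero : p ∣ p ^ 2) (ZMod p)).mapMatrix (m := Fin 2)
  have hnil : φ (e (A a) - 1) * φ (e (A a) - 1) = 0 := by
    apply nil_sq
    refine ⟨p, ?_⟩
    rw [map_sub, map_one, sub_pow_char_of_commute p (Commute.one_right _), ← map_pow, hB, map_one, one_pow, sub_self]
  have hm : ∃ m, (e (A a) - 1) * (e (A a) - 1) = (p : Matrix (Fin 2) (Fin 2) (ZMod (p ^ 2))) * m := by
    rw [← map_mul] at hnil
    have h1 : ∀ i j, ∃ v, ((e (A a) - 1) * (e (A a) - 1)) i j = (p : ZMod (p ^ 2)) * v := by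
      intro i j
      apply dvd_iff
      exact congrFun (congrFun hnil i) j
    choose m hm using h1
    refine ⟨Matrix.of m, ?_⟩
    have h1 : ((p : Matrix (Fin 2) (Fin 2) (ZMod (p ^ 2)))) = algebraMap (ZMod (p ^ 2)) _ (p : ZMod (p ^ 2)) := by simp
    rw [h1, ← Algebra.smul_def]
    ext i j
    rw [hm i j]
    rfl
  obtain ⟨m, hm⟩ := hm
  have hfin := main_ring p h5 _ m hB hm hppM
  have hfin2 : (p : Module.End (ZMod (p ^ 2)) V) * (A a - 1) = 0 := by
    apply e.injective
    rw [map_mul, map_natCast, map_sub, map_one, map_zero]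
    exact hfin
  have hx1 : x ^ p = 1 := by
    have := pow_orderOf_eq_one x
    rwa [hx] at this
  have hx2 : ((p : ZMod (p ^ 2)) * (Multiplicative.toAdd x).1, (p : ZMod (p ^ 2)) * (Multiplicative.toAdd x).2) = 0 := by
    have h1 : p • (Multiplicative.toAdd x) = 0 := by
      rw [← toAdd_pow, hx1]; rfl
    rw [← h1]
    ext <;> simp
  obtain ⟨v1, hv1⟩ := ann _ (congrArg Prod.fst hx2)
  obtain ⟨v2, hv2⟩ := ann _ (congrArg Prod.snd hx2)
  have hx3 : Multiplicative.toAdd x = (p : Module.End (ZMod (p ^ 2)) V) (v1, v2) := by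
    rw [Module.End.natCast_apply]
    apply Prod.ext
    · rw [hv1, Prod.smul_fst, nsmul_eq_mul]
    · rw [hv2, Prod.smul_snd, nsmul_eq_mul]
  have hfin3 : (A a - 1) * (p : Module.End (ZMod (p ^ 2)) V) = 0 := by
    rw [← hfin2]; exact ((Nat.cast_commute p _).eq).symm
  have h7 : (A a - 1) (Multiplicative.toAdd x) = 0 := by
    rw [hx3, ← Module.End.mul_apply, hfin3]; rfl
  rw [LinearMap.sub_apply, sub_eq_zero] at h7
  exact h7


end Cfsg.Agent.S4080
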