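import Cfsg.Statements.S4082
import Mathlib
import Cfsg.Agent.H23_PbyC
import Cfsg.Agent.H11_ThD2


set_option autoImplicit false
open Cfsg

namespace Cfsg.Agent.S4082
open Subgroup Cfsg.Agent.H23.PbyC

section

variable {G : Type*} [Group G] [Finite G] {p : ℕ} [hp : Fact p.Prime]

theorem key {H : Subgroup G} (hp2 : p ≠ 2) {n : ℕ} (φ : H ≃* DihedralGroup (p ^ n)) {R : Subgroup G} (hR : IsPGroup p R) (hRH : R ≤ H) {x : G} (hx : x ∈ H) :
    (∀ y ∈ R, x * y * x⁻¹ = y) ∨ (x * x = 1 ∧ ∀ y ∈ R, x * y * x⁻¹ = y⁻¹) := by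
  have hodd : Odd p := hp.out.odd_of_ne_two hp2
  have hr : ∀ y ∈ R, ∀ hy : y ∈ H, ∃ j, φ ⟨y, hy⟩ = DihedralGroup.r j := by
    intro y hyR hy
    rcases h : φ ⟨y, hy⟩ with j | j
    · exact ⟨j, rfl⟩
    · exfalso
      obtain ⟨k, hk⟩ := hR ⟨y, hyR⟩
      have hk' : (⟨y, hy⟩ : H) ^ p ^ k = 1 := by
        apply Subtype.ext
        have := congrArg (Subtype.val) hk
        exact this
      have h2 : (⟨y, hy⟩ : H) ^ 2 = 1 := by
        apply φ.injective
        rw [map_pow, h, map_one, sq, DihedralGroup.sr_mul_self]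
      have h3 : (⟨y, hy⟩ : H) = 1 := by
        have h4 : orderOf (⟨y, hy⟩ : H) ∣ p ^ k := orderOf_dvd_of_pow_eq_one hk'
        have h5 : orderOf (⟨y, hy⟩ : H) ∣ 2 := orderOf_dvd_of_pow_eq_one h2
        have h6 : (p ^ k).Coprime 2 := (Nat.coprime_two_right.2 (hodd.pow))
        rw [← orderOf_eq_one_iff]
        exact Nat.eq_one_of_dvd_coprimes h6 h4 h5
      rw [h3, map_one, DihedralGroup.one_def] at h
      exact nomatch h
  rcases h : φ ⟨x, hx⟩ with i | i
  · left
    intro y hy
    obtain ⟨j, hj⟩ := hr y hy (hRH hy)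
    have h1 : (⟨x, hx⟩ : H) * ⟨y, hRH hy⟩ = ⟨y, hRH hy⟩ * ⟨x, hx⟩ := by
      apply φ.injective
      rw [map_mul, map_mul, h, hj, DihedralGroup.r_mul_r, DihedralGroup.r_mul_r, add_comm]
    have h2 : x * y = y * x := congrArg Subtype.val h1
    rw [h2, mul_inv_cancel_right]
  · right
    constructor
    · have h1 : (⟨x, hx⟩ : H) * ⟨x, hx⟩ = 1 := by
        apply φ.injective
        rw [map_mul, h, map_one, DihedralGroup.sr_mul_self]
      exact congrArg Subtype.val h1
    · intro y hy
      obtain ⟨j, hj⟩ := hr y hy (hRH hy)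
      have h1 : (⟨x, hx⟩ : H) * ⟨y, hRH hy⟩ * ⟨x, hx⟩⁻¹ = (⟨y, hRH hy⟩)⁻¹ := by
        apply φ.injective
        rw [map_mul, map_mul, map_inv, map_inv, h, hj, DihedralGroup.sr_mul_r, DihedralGroup.inv_sr, DihedralGroup.sr_mul_sr, DihedralGroup.inv_r]
        congr 1
        ring
      exact congrArg Subtype.val h1

theorem core (hp2 : p ≠ 2) (P : Sylow p G) (hPc : IsCyclic P)
    (hc : Subgroup.normalizer ((P : Subgroup G) : Set G) = Subgroup.centralizer ((P : Subgroup G) : Set G) ∨
       (∀ Q : Subgroup G, Q ≤ P → Nat.card Q = p →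
          IsMulCommutative ↥(Subgroup.centralizer (Q : Set G)) ∧
          ∀ x : G, x ∈ Subgroup.normalizer (Q : Set G) → x ∉ Subgroup.centralizer (Q : Set G) →
            orderOf x = 2 ∧ ∀ c : G, c ∈ Subgroup.centralizer (Q : Set G) → x * c * x⁻¹ = c⁻¹))
    {S : Subgroup G} (hSP : S ≤ P) {x : G} (hx : x ∈ normalizer (S : Set G)) :
    IsCyclic ↥(S ⊔ zpowers x) ∨ ∃ n : ℕ, Nonempty (↥(S ⊔ zpowers x) ≃* DihedralGroup (p ^ n)) := by
  have hSp : IsPGroup p S := P.2.to_le hSP
  have hcyc : ∀ R : Subgroup G, IsPGroup p R → IsCyclic R := by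
    intro R hR
    obtain ⟨T, hT⟩ := hR.exists_le_sylow
    haveI : IsCyclic T := isCyclic_of_surjective (P.equiv T).toMonoidHom (P.equiv T).surjective
    exact isCyclic_of_injective (Subgroup.inclusion hT) (Subgroup.inclusion_injective hT)
  have hPcomm : ∀ a ∈ (P : Subgroup G), ∀ b ∈ (P : Subgroup G), a * b = b * a := by
    intro a ha b hb
    haveI := hPc
    letI : CommGroup P := IsCyclic.commGroup
    exact congrArg Subtype.val (mul_comm (⟨a, ha⟩ : P) ⟨b, hb⟩)
  rcases hc with hc | hc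
  · left
    refine cyclic_of_comm hx hSp ?_ hcyc
    have hcompl := MonoidHom.ker_transferSylow_isComplement' P hc.le
    set K := (MonoidHom.transferSylow P hc.le).ker with hK
    have hmod : ∀ r s : G, r ∈ S → s ∈ S → ∀ k l : ℤ, (r * x ^ k) * (s * x ^ l) * (r * x ^ k)⁻¹ * (s * x ^ l)⁻¹ ∈ S := by
      intro r s hr hs k l
      have hN : ∀ m : ℤ, ∀ t ∈ S, x ^ m * t * (x ^ m)⁻¹ ∈ S := by
        intro m t ht
        exact (mem_normalizer_iff.1 (zpow_mem hx m) t).1 ht
      have e : (r * x ^ k) * (s * x ^ l) * (r * x ^ k)⁻¹ * (s * x ^ l)⁻¹ =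
          r * (x ^ k * s * (x ^ k)⁻¹) * (x ^ l * r⁻¹ * (x ^ l)⁻¹) * s⁻¹ := by
        rw [mul_inv_rev, mul_inv_rev]
        have h1 : x ^ k * x ^ l = x ^ l * x ^ k := by rw [← zpow_add, add_comm, zpow_add]
        have h2 : x ^ l * (x ^ k)⁻¹ = (x ^ k)⁻¹ * x ^ l := by
          rw [mul_inv_eq_iff_eq_mul, mul_assoc, eq_inv_mul_iff_mul_eq, h1]
        calc r * x ^ k * (s * x ^ l) * ((x ^ k)⁻¹ * r⁻¹) * ((x ^ l)⁻¹ * s⁻¹)
            = r * x ^ k * s * (x ^ l * (x ^ k)⁻¹) * r⁻¹ * (x ^ l)⁻¹ * s⁻¹ := by group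
          _ = _ := by rw [h2]; group
      rw [e]
      exact mul_mem (mul_mem (mul_mem hr (hN k s hs)) (hN l _ (inv_mem hr))) (inv_mem hs)
    have hform : ∀ a ∈ S ⊔ zpowers x, ∃ r ∈ S, ∃ k : ℤ, a = r * x ^ k := by
      intro a ha
      have hHN : S ⊔ zpowers x ≤ normalizer (S : Set G) := sup_le le_normalizer (by rwa [zpowers_le])
      haveI : (S.subgroupOf (S ⊔ zpowers x)).Normal := Subgroup.normal_subgroupOf_iff_le_normalizer le_sup_left |>.2 hHN
      have h1 : S.subgroupOf (S ⊔ zpowers x) ⊔ (zpowers x).subgroupOf (S ⊔ zpowers x) = ⊤ := by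
        apply Subgroup.map_injective (S ⊔ zpowers x).subtype_injective
        rw [Subgroup.map_sup, Subgroup.subgroupOf_map_subtype, Subgroup.subgroupOf_map_subtype, inf_eq_left.2 le_sup_left,
          inf_eq_left.2 le_sup_right, ← MonoidHom.range_eq_map, Subgroup.range_subtype]
      have h2 : (⟨a, ha⟩ : ↥(S ⊔ zpowers x)) ∈ S.subgroupOf (S ⊔ zpowers x) ⊔ (zpowers x).subgroupOf (S ⊔ zpowers x) := by rw [h1]; exact mem_top _
      rw [Subgroup.mem_sup_of_normal_left] at h2
      obtain ⟨y, hy, z, hz, hyz⟩ := h2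
      obtain ⟨k, hk⟩ := mem_zpowers_iff.1 (mem_subgroupOf.1 hz)
      refine ⟨y, hy, k, ?_⟩
      rw [hk]
      exact (congrArg Subtype.val hyz).symm
    intro a ha b hb
    have h1 : a * b * a⁻¹ * b⁻¹ ∈ S := by
      obtain ⟨r, hr, k, rfl⟩ := hform a ha
      obtain ⟨s, hs, l, rfl⟩ := hform b hb
      exact hmod r s hr hs k l
    have h2 : a * b * a⁻¹ * b⁻¹ ∈ K := by
      rw [hK, MonoidHom.mem_ker, map_mul, map_mul, map_mul, map_inv, map_inv]
      haveI := hPc
      letI : CommGroup P := IsCyclic.commGroup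
      have h5 : ∀ u v : P, u * v * u⁻¹ * v⁻¹ = 1 := fun u v => by
        rw [mul_comm u v, mul_inv_cancel_right, mul_inv_cancel]
      exact h5 _ _
    have h3 := hcompl.disjoint
    rw [Subgroup.disjoint_def] at h3
    have h4 := h3 h2 (hSP h1)
    rw [mul_inv_eq_one, mul_inv_eq_iff_eq_mul] at h4
    exact h4
  · by_cases hS : S = ⊥
    · left
      rw [hS, bot_sup_eq]
      infer_instance
    have hpS : p ∣ Nat.card S := by
      obtain ⟨k, hk⟩ := hSp.exists_card_eq
      rcases k with _ | k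
      · rw [pow_zero] at hk
        exact absurd (Subgroup.card_eq_one.1 hk) hS
      · rw [hk]; exact dvd_pow_self p (Nat.succ_ne_zero k)
    obtain ⟨y, hy⟩ := exists_prime_orderOf_dvd_card' p hpS
    have hyo : orderOf (y : G) = p := by rw [Subgroup.orderOf_coe, hy]
    obtain ⟨s, hs⟩ := (hcyc S hSp).exists_generator
    have hsS : zpowers (s : G) = S := by
      apply le_antisymm
      · rw [zpowers_le]; exact s.2
      · intro z hz
        obtain ⟨k, hk⟩ := hs ⟨z, hz⟩
        exact ⟨k, congrArg Subtype.val hk⟩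
    have hQS : zpowers (y : G) ≤ S := by rw [zpowers_le]; exact y.2
    have hxN : x ∈ normalizer ((zpowers (y : G) : Subgroup G) : Set G) := by
      have h1 : ∀ z ∈ zpowers (y : G), x * z * x⁻¹ ∈ zpowers (y : G) := by
        have h2 : zpowers (x * y * x⁻¹) = zpowers (y : G) := by
          apply Cfsg.Agent.H25.DihGrp2.zpowers_eq_of_order (s := (s : G))
          · rw [hsS]; exact (mem_normalizer_iff.1 hx _).1 y.2
          · rw [hsS]; exact y.2
          · exact Cfsg.Agent.H24.Tools.orderOf_conj _ _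
        rintro _ ⟨k, rfl⟩
        change x * (y : G) ^ k * x⁻¹ ∈ _
        rw [← conj_zpow, ← h2]
        exact zpow_mem_zpowers _ _
      exact Cfsg.Agent.H24.Tools.mem_normalizer h1
    have hcard : Nat.card (zpowers (y : G)) = p := by rw [Nat.card_zpowers, hyo]
    obtain ⟨hcm, hinv⟩ := hc (zpowers (y : G)) (hQS.trans hSP) hcard
    have hSC : S ≤ centralizer ((zpowers (y : G) : Subgroup G) : Set G) := by
      intro z hz
      rw [mem_centralizer_iff]
      intro w hw
      exact hPcomm _ (hSP (hQS hw)) _ (hSP hz)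
    by_cases hxC : x ∈ centralizer ((zpowers (y : G) : Subgroup G) : Set G)
    · left
      refine cyclic_of_comm hx hSp ?_ hcyc
      intro a ha b hb
      have h1 : S ⊔ zpowers x ≤ centralizer ((zpowers (y : G) : Subgroup G) : Set G) := sup_le hSC (by rwa [zpowers_le])
      exact congrArg Subtype.val (hcm.is_comm.comm ⟨a, h1 ha⟩ ⟨b, h1 hb⟩)
    · right
      obtain ⟨hx2, hxi⟩ := hinv x hxN hxC
      obtain ⟨n, hn⟩ := hSp.exists_card_eq
      refine ⟨n, ?_⟩
      have h1 := Cfsg.Agent.H11.ThD.dih_iso (a := x) (y := (s : G)) (by rw [← sq, ← hx2, pow_orderOf_eq_one])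
        (hxi _ (hSC s.2)) (by rw [hsS]; exact fun h => hxC (hSC h))
      have h2 : orderOf (s : G) = p ^ n := by rw [← Nat.card_zpowers, hsS, hn]
      rw [h2, hsS, sup_comm] at h1
      exact h1

end

/-- Let p be an odd prime and G a finite group with Sylow p-subgroup P. Say that G has restricted p-by-cyclic subgroups when every subgroup H of G whose Sylow p-subgroup is normal in H with cyclic quotient is itself cyclic or dihedral of order 2pⁿ for some n. Then G has restricted p-by-cyclic subgroups if and only if P is cyclic and one of the following holds: (1) N_G(P) = C_G(P); or (2) N_G(P)/C_G(P) has order 2 and, for the subgroup Q of order p of P, the centralizer C_G(Q) is abelian and every element of N_G(Q) outside C_G(Q) is an involution inverting every element of C_G(Q). -/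
theorem result {G : Type*} [Group G] [Finite G] {p : ℕ}
    [Fact p.Prime] (hp : p ≠ 2) (P : Sylow p G) :
    (∀ H : Subgroup G, (∀ S : Sylow p ↥H, (S : Subgroup ↥H).Normal) →
        (∀ (S : Sylow p ↥H) [(S : Subgroup ↥H).Normal], IsCyclic (↥H ⧸ (S : Subgroup ↥H))) →
        IsCyclic H ∨ (∃ n : ℕ, Nonempty (H ≃* DihedralGroup (p ^ n)))) ↔
    (IsCyclic P ∧
      (Subgroup.normalizer ((P : Subgroup G) : Set G) = Subgroup.centralizer ((P : Subgroup G) : Set G) ∨
       ((Subgroup.centralizer ((P : Subgroup G) : Set G)).relIndex (Subgroup.normalizer ((P : Subgroup G) : Set G)) = 2 ∧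
        ∀ Q : Subgroup G, Q ≤ P → Nat.card Q = p →
          IsMulCommutative ↥(Subgroup.centralizer (Q : Set G)) ∧
          ∀ x : G, x ∈ Subgroup.normalizer (Q : Set G) → x ∉ Subgroup.centralizer (Q : Set G) →
            orderOf x = 2 ∧ ∀ c : G, c ∈ Subgroup.centralizer (Q : Set G) → x * c * x⁻¹ = c⁻¹))) := by

  constructor
  · intro hA
    have hA' : ∀ R : Subgroup G, IsPGroup p R → ∀ x ∈ normalizer (R : Set G),
        IsCyclic ↥(R ⊔ zpowers x) ∨ (∃ n : ℕ, Nonempty (↥(R ⊔ zpowers x) ≃* DihedralGroup (p ^ n))) := by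
      intro R hR x hx
      obtain ⟨h1, h2⟩ := cond_of hR hx
      exact hA _ h1 h2
    have hK : ∀ R : Subgroup G, IsPGroup p R → ∀ x ∈ normalizer (R : Set G),
        (∀ y ∈ R, x * y * x⁻¹ = y) ∨ (x * x = 1 ∧ ∀ y ∈ R, x * y * x⁻¹ = y⁻¹) := by
      intro R hR x hx
      rcases hA' R hR x hx with h | ⟨n, ⟨φ⟩⟩
      · left
        intro y hy
        haveI := h
        letI : CommGroup ↥(R ⊔ zpowers x) := IsCyclic.commGroup
        have h1 := congrArg Subtype.val (mul_comm (⟨x, mem_sup_right (mem_zpowers x)⟩ : ↥(R ⊔ zpowers x)) ⟨y, mem_sup_left hy⟩)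
        have h2 : x * y = y * x := h1
        rw [h2, mul_inv_cancel_right]
      · exact key hp φ hR le_sup_left (mem_sup_right (mem_zpowers x))
    have hodd : Odd p := (Fact.out : p.Prime).odd_of_ne_two hp
    have hPc : IsCyclic P := by
      have h1 := hA' (P : Subgroup G) P.2 1 (one_mem _)
      rw [zpowers_one_eq_bot, sup_bot_eq] at h1
      rcases h1 with h | ⟨n, ⟨φ⟩⟩
      · exact h
      · exfalso
        obtain ⟨k, hk⟩ := P.2.exists_card_eq
        have h2 := Nat.card_congr φ.toEquiv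
        rw [DihedralGroup.nat_card] at h2
        rw [hk] at h2
        have h3 : Odd (p ^ k) := hodd.pow
        rw [h2] at h3
        exact (Nat.not_odd_iff_even.2 (even_two_mul _)) h3
    refine ⟨hPc, ?_⟩
    by_cases hNC : Subgroup.normalizer ((P : Subgroup G) : Set G) = Subgroup.centralizer ((P : Subgroup G) : Set G)
    · exact Or.inl hNC
    right
    have hPcomm : ∀ a ∈ (P : Subgroup G), ∀ b ∈ (P : Subgroup G), a * b = b * a := by
      intro a ha b hb
      haveI := hPc
      letI : CommGroup P := IsCyclic.commGroup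
      exact congrArg Subtype.val (mul_comm (⟨a, ha⟩ : P) ⟨b, hb⟩)
    have hCN : Subgroup.centralizer ((P : Subgroup G) : Set G) ≤ Subgroup.normalizer ((P : Subgroup G) : Set G) := Subgroup.centralizer_le_normalizer _
    have hcen : ∀ (R : Subgroup G) (x : G), x ∈ centralizer (R : Set G) ↔ ∀ y ∈ R, x * y * x⁻¹ = y := by
      intro R x
      rw [mem_centralizer_iff]
      constructor
      · intro h y hy
        rw [← h y hy, mul_inv_cancel_right]
      · intro h y hy
        have := h y hy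
        rw [mul_inv_eq_iff_eq_mul] at this
        exact this.symm
    obtain ⟨a, haN, haC⟩ : ∃ a, a ∈ Subgroup.normalizer ((P : Subgroup G) : Set G) ∧ a ∉ Subgroup.centralizer ((P : Subgroup G) : Set G) := by
      by_contra hcon
      push Not at hcon
      exact hNC (le_antisymm (fun a ha => hcon a ha) hCN)
    have hinv : ∀ b, b ∈ Subgroup.normalizer ((P : Subgroup G) : Set G) → b ∉ Subgroup.centralizer ((P : Subgroup G) : Set G) →
        b * b = 1 ∧ ∀ y ∈ (P : Subgroup G), b * y * b⁻¹ = y⁻¹ := by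
      intro b hb hb'
      rcases hK _ P.2 b hb with h | h
      · exact absurd ((hcen _ _).2 h) hb'
      · exact h
    obtain ⟨ha1, ha2⟩ := hinv a haN haC
    constructor
    · rw [relIndex_eq_two_iff_exists_notMem_and]
      refine ⟨a, haN, haC, fun b hb => ?_⟩
      by_cases hbC : b ∈ Subgroup.centralizer ((P : Subgroup G) : Set G)
      · exact Or.inr hbC
      · left
        obtain ⟨-, hb2⟩ := hinv b hb hbC
        rw [hcen]
        intro y hy
        have h1 : b * a * y * (b * a)⁻¹ = b * (a * y * a⁻¹) * b⁻¹ := by group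
        rw [h1, ha2 y hy, hb2 _ (inv_mem hy), inv_inv]
    · intro Q hQP hQc
      have hQp : IsPGroup p Q := P.2.to_le hQP
      have haQ : a ∈ normalizer (Q : Set G) := by
        apply Cfsg.Agent.H24.Tools.mem_normalizer
        intro y hy
        rw [ha2 y (hQP hy)]
        exact inv_mem hy
      have haQC : a ∉ centralizer (Q : Set G) := by
        intro h
        rw [hcen] at h
        obtain ⟨y, hy⟩ := exists_prime_orderOf_dvd_card' p (hQc ▸ dvd_refl _ : p ∣ Nat.card Q)
        have h1 := h y y.2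
        rw [ha2 y (hQP y.2)] at h1
        have h2 : (y : G) ^ 2 = 1 := by
          rw [sq]
          nth_rewrite 1 [← h1]
          exact inv_mul_cancel _
        have h3 := orderOf_dvd_of_pow_eq_one h2
        rw [Subgroup.orderOf_coe, hy, Nat.prime_dvd_prime_iff_eq Fact.out Nat.prime_two] at h3
        exact hp h3
      have hinvQ : ∀ x : G, x ∈ Subgroup.normalizer (Q : Set G) → x ∉ Subgroup.centralizer (Q : Set G) → x * x = 1 := by
        intro x hx hx'
        rcases hK _ hQp x hx with h | h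
        · exact absurd ((hcen _ _).2 h) hx'
        · exact h.1
      have hCQN : Subgroup.centralizer (Q : Set G) ≤ Subgroup.normalizer (Q : Set G) := Subgroup.centralizer_le_normalizer _
      have hmain : ∀ x : G, x ∈ Subgroup.normalizer (Q : Set G) → x ∉ Subgroup.centralizer (Q : Set G) →
            orderOf x = 2 ∧ ∀ c : G, c ∈ Subgroup.centralizer (Q : Set G) → x * c * x⁻¹ = c⁻¹ := by
        intro x hx hx'
        have hxx := hinvQ x hx hx'
        constructor
        · apply orderOf_eq_prime (by rw [sq, hxx])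
          rintro rfl
          exact hx' (one_mem _)
        · intro c hc
          have h1 := hinvQ (x * c) (mul_mem hx (hCQN hc)) (fun h => hx' (by
            have := mul_mem h (inv_mem hc)
            rwa [mul_inv_cancel_right] at this))
          have h2 : x⁻¹ = x := inv_eq_of_mul_eq_one_left hxx
          rw [h2]
          rw [← mul_assoc] at h1
          exact eq_inv_of_mul_eq_one_left h1
      refine ⟨⟨⟨fun c d => ?_⟩⟩, hmain⟩
      obtain ⟨-, hai⟩ := hmain a haQ haQC
      apply Subtype.ext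
      change (c : G) * d = d * c
      have h1 := hai (c * d) (mul_mem c.2 d.2)
      have h2 : a * ((c : G) * d) * a⁻¹ = (a * c * a⁻¹) * (a * d * a⁻¹) := by group
      rw [h2, hai c c.2, hai d d.2, mul_inv_rev] at h1
      have h3 := congrArg (fun z => z⁻¹) h1
      simp only [mul_inv_rev, inv_inv] at h3
      exact h3.symm
  · rintro ⟨hPc, hc⟩ H h1 h2
    obtain ⟨S, x, hSn, hxN, hxH, hHe, hHN⟩ := cond_ex (p := p) (H := H) ⟨h1, h2⟩
    set S' := (S : Subgroup H).map H.subtype with hS'
    have hS'p : IsPGroup p S' := S.2.map _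
    obtain ⟨T, hT⟩ := hS'p.exists_le_sylow
    obtain ⟨g, hg⟩ := MulAction.exists_smul_eq G T P
    have hle : S'.map (MulAut.conj g).toMonoidHom ≤ P := by
      rw [← hg]
      exact Subgroup.map_mono hT
    have hx' : MulAut.conj g x ∈ normalizer ((S'.map (MulAut.conj g).toMonoidHom : Subgroup G) : Set G) := by
      apply Cfsg.Agent.H24.Tools.mem_normalizer
      rintro _ ⟨s, hs, rfl⟩
      refine ⟨x * s * x⁻¹, (mem_normalizer_iff.1 hxN s).1 hs, ?_⟩
      change MulAut.conj g (x * s * x⁻¹) = MulAut.conj g x * MulAut.conj g s * (MulAut.conj g x)⁻¹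
      rw [map_mul, map_mul, map_inv]
    have h3 := core hp P hPc (hc.imp id (fun h => h.2)) hle hx'
    have h4 : S'.map (MulAut.conj g).toMonoidHom ⊔ zpowers (MulAut.conj g x) = H.map (MulAut.conj g).toMonoidHom := by
      conv_rhs => rw [hHe]
      rw [Subgroup.map_sup, MonoidHom.map_zpowers]
      rfl
    obtain ⟨e⟩ := equiv_conj H g
    rw [h4] at h3
    rcases h3 with h | ⟨n, ⟨φ⟩⟩
    · left
      haveI := h
      exact isCyclic_of_surjective e.symm.toMonoidHom e.symm.surjective
    · right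
      exact ⟨n, ⟨e.trans φ⟩⟩


end Cfsg.Agent.S4082
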