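import Cfsg.Statements.S4083
import Mathlib
import Cfsg.Agent.H23_PbyC
import Cfsg.Agent.H11_ThD2
import Cfsg.Agent.H24_Zas21
import Cfsg.Agent.H23_AltSpec


set_option autoImplicit false
open Cfsg

namespace Cfsg.Agent.S4083
open Subgroup Cfsg.Agent.H23.PbyC

section

variable {G : Type*} [Group G] [Finite G]

theorem odd_gen {H : Subgroup G} (hH : Cond 2 H) : ∃ S : Subgroup G, IsPGroup 2 S ∧ ∃ v : G,
    v ∈ normalizer (S : Set G) ∧ Odd (orderOf v) ∧ H = S ⊔ zpowers v := by
  obtain ⟨S, x, hSn, hxN, hxH, hHe, hHN⟩ := cond_ex (p := 2) hH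
  set S' := (S : Subgroup H).map H.subtype with hS'
  have hS'p : IsPGroup 2 S' := S.2.map _
  obtain ⟨a, b, hb, hab⟩ := Nat.exists_eq_two_pow_mul_odd (orderOf_pos x).ne'
  have hcop : IsCoprime ((2 : ℤ) ^ a) (b : ℤ) := by
    have h1 : (2 ^ a).Coprime b := Nat.Coprime.pow_left a (Nat.coprime_two_left.2 hb)
    have := Nat.isCoprime_iff_coprime.2 h1
    push_cast at this
    exact this
  obtain ⟨i, j, hij⟩ := hcop
  set v := x ^ (i * 2 ^ a) with hv
  set u := x ^ (j * (b : ℤ)) with hu
  have hx : x = u * v := by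
    rw [hu, hv, ← zpow_add, add_comm, hij, zpow_one]
  have hu2 : u ^ 2 ^ a = 1 := by
    rw [hu, ← zpow_natCast, ← zpow_mul]
    have : j * (b : ℤ) * ((2 ^ a : ℕ) : ℤ) = (orderOf x : ℤ) * j := by rw [hab]; push_cast; ring
    rw [this, zpow_mul, zpow_natCast, pow_orderOf_eq_one, one_zpow]
  have hvb : v ^ b = 1 := by
    rw [hv, ← zpow_natCast, ← zpow_mul]
    have : i * 2 ^ a * (b : ℤ) = (orderOf x : ℤ) * i := by rw [hab]; push_cast; ring
    rw [this, zpow_mul, zpow_natCast, pow_orderOf_eq_one, one_zpow]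
  have huH : u ∈ H := zpow_mem hxH _
  have huS : u ∈ S' := by
    haveI := hSn
    have h1 : IsPGroup 2 (zpowers (⟨u, huH⟩ : H)) := by
      rw [IsPGroup.iff_card, Nat.card_zpowers]
      have h2 : orderOf (⟨u, huH⟩ : H) ∣ 2 ^ a := orderOf_dvd_of_pow_eq_one (Subtype.ext hu2)
      obtain ⟨k, -, hk⟩ := (Nat.dvd_prime_pow Nat.prime_two).1 h2
      exact ⟨k, hk⟩
    obtain ⟨T, hT⟩ := h1.exists_le_sylow
    haveI : Subsingleton (Sylow 2 H) := by
      haveI := S.unique_of_normal hSn
      infer_instance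
    have h2 : T = S := Subsingleton.elim _ _
    rw [h2] at hT
    exact ⟨⟨u, huH⟩, hT (mem_zpowers _), rfl⟩
  refine ⟨S', hS'p, v, zpow_mem hxN _, Odd.of_dvd_nat hb (orderOf_dvd_of_pow_eq_one hvb), ?_⟩
  apply le_antisymm
  · conv_lhs => rw [hHe]
    refine sup_le le_sup_left ?_
    rw [zpowers_le, hx]
    exact mul_mem (mem_sup_left huS) (mem_sup_right (mem_zpowers v))
  · conv_rhs => rw [hHe]
    refine sup_le le_sup_left ?_
    rw [zpowers_le]
    exact mem_sup_right (zpow_mem_zpowers _ _)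

theorem cyc_cent {C : Subgroup G} (hC : IsCyclic C) (hC2 : IsPGroup 2 C) {v : G} (hv : v ∈ normalizer (C : Set G)) (hodd : Odd (orderOf v)) :
    ∀ y ∈ C, v * y = y * v := by
  haveI := hC
  set φ := C.normalizerMonoidHom with hφ
  have h1 : orderOf (φ ⟨v, hv⟩) ∣ orderOf v := by
    have := orderOf_map_dvd φ ⟨v, hv⟩
    rwa [Subgroup.orderOf_mk] at this
  obtain ⟨k, hk⟩ := hC2.exists_card_eq
  have h2 : ∃ m, orderOf (φ ⟨v, hv⟩) ∣ 2 ^ m := by
    have := orderOf_dvd_natCard (φ ⟨v, hv⟩)
    rw [IsCyclic.card_mulAut, hk] at this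
    rcases k with _ | k
    · exact ⟨0, by simpa using this⟩
    · rw [Nat.totient_prime_pow_succ Nat.prime_two] at this
      exact ⟨k, by simpa using this⟩
  obtain ⟨m, h2⟩ := h2
  have h3 : orderOf (φ ⟨v, hv⟩) = 1 := by
    have hc : (orderOf v).Coprime (2 ^ m) := Nat.Coprime.pow_right m (Nat.coprime_two_right.2 hodd)
    exact Nat.eq_one_of_dvd_coprimes hc h1 h2
  rw [orderOf_eq_one_iff] at h3
  have h4 : (⟨v, hv⟩ : normalizer (C : Set G)) ∈ φ.ker := h3
  rw [hφ, Subgroup.normalizerMonoidHom_ker, mem_subgroupOf, mem_centralizer_iff] at h4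
  intro y hy
  exact (h4 y hy).symm

theorem case_cyc {S : Subgroup G} (hS : IsCyclic S) (hS2 : IsPGroup 2 S) {v : G} (hv : v ∈ normalizer (S : Set G)) (hodd : Odd (orderOf v)) :
    IsCyclic ↥(S ⊔ zpowers v) := by
  obtain ⟨s, hs⟩ := hS.exists_generator
  have hsS : zpowers (s : G) = S := by
    apply le_antisymm
    · rw [zpowers_le]; exact s.2
    · intro z hz
      obtain ⟨k, hk⟩ := hs ⟨z, hz⟩
      exact ⟨k, congrArg Subtype.val hk⟩
  have hc : Commute (s : G) v := (cyc_cent hS hS2 hv hodd s s.2).symm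
  obtain ⟨k, hk⟩ := hS2.exists_card_eq
  have hso : orderOf (s : G) = 2 ^ k := by rw [← Nat.card_zpowers, hsS, hk]
  have hcop : (orderOf (s : G)).Coprime (orderOf v) := by
    rw [hso]; exact Nat.Coprime.pow_left k (Nat.coprime_two_left.2 hodd)
  obtain ⟨i, j, hij⟩ := Nat.isCoprime_iff_coprime.2 hcop
  have e1 : ((s : G) * v) ^ (j * (orderOf v : ℤ)) = s := by
    rw [hc.mul_zpow, mul_comm j, zpow_mul v, zpow_natCast, pow_orderOf_eq_one, one_zpow, mul_one]
    have : (orderOf v : ℤ) * j = 1 - (orderOf (s : G) : ℤ) * i := by linarith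
    rw [this, zpow_sub, zpow_one, zpow_mul, zpow_natCast, pow_orderOf_eq_one, one_zpow, inv_one, mul_one]
  have e2 : ((s : G) * v) ^ (i * (orderOf (s : G) : ℤ)) = v := by
    rw [hc.mul_zpow, mul_comm i, zpow_mul (s : G), zpow_natCast, pow_orderOf_eq_one, one_zpow, one_mul]
    have : (orderOf (s : G) : ℤ) * i = 1 - (orderOf v : ℤ) * j := by linarith
    rw [this, zpow_sub, zpow_one, zpow_mul, zpow_natCast, pow_orderOf_eq_one, one_zpow, inv_one, mul_one]
  have h2 : zpowers ((s : G) * v) = S ⊔ zpowers v := by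
    apply le_antisymm
    · rw [zpowers_le]
      exact mul_mem (mem_sup_left s.2) (mem_sup_right (mem_zpowers v))
    · refine sup_le ?_ ?_
      · intro w hw
        have hs1 : zpowers (s : G) ≤ zpowers ((s : G) * v) := by rw [zpowers_le]; exact ⟨_, e1⟩
        exact hs1 (by rw [hsS]; exact hw)
      · rw [zpowers_le]; exact ⟨_, e2⟩
  rw [← h2]
  infer_instance

/-- structure of the rotations of a dihedral group -/
structure DS (P C : Subgroup G) : Prop where
  le : C ≤ P
  cyc : IsCyclic C
  ref : ∀ s ∈ P, s ∉ C → s * s = 1 ∧ ∀ c ∈ C, s * c * s⁻¹ = c⁻¹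
  prod : ∀ s ∈ P, ∀ t ∈ P, s ∉ C → t ∉ C → s * t ∈ C

theorem ds_of {P : Subgroup G} {n : ℕ} (φ : P ≃* DihedralGroup n) : ∃ C : Subgroup G, DS P C := by
  set c : P := φ.symm (DihedralGroup.r 1) with hc
  have hmem : ∀ x : P, (x : G) ∈ zpowers (c : G) ↔ ∃ i, φ x = DihedralGroup.r i := by
    intro x
    constructor
    · rintro ⟨k, hk⟩
      have h1 : c ^ k = x := Subtype.ext hk
      refine ⟨(k : ZMod n), ?_⟩
      rw [← h1, hc, map_zpow, MulEquiv.apply_symm_apply, DihedralGroup.r_one_zpow]
    · rintro ⟨i, hi⟩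
      obtain ⟨k, rfl⟩ := ZMod.intCast_surjective i
      refine ⟨k, ?_⟩
      have h1 : c ^ k = x := by
        apply φ.injective
        rw [hc, map_zpow, MulEquiv.apply_symm_apply, DihedralGroup.r_one_zpow, hi]
      exact congrArg Subtype.val h1
  refine ⟨zpowers (c : G), ⟨?_, inferInstance, ?_, ?_⟩⟩
  · rw [zpowers_le]; exact c.2
  · intro s hs hsC
    rcases h : φ ⟨s, hs⟩ with i | i
    · exact absurd ((hmem ⟨s, hs⟩).2 ⟨i, h⟩) hsC
    constructor
    · have h1 : (⟨s, hs⟩ : P) * ⟨s, hs⟩ = 1 := by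
        apply φ.injective
        rw [map_mul, h, map_one, DihedralGroup.sr_mul_self]
      exact congrArg Subtype.val h1
    · intro d hd
      have hdP : d ∈ P := by
        have : zpowers (c : G) ≤ P := by rw [zpowers_le]; exact c.2
        exact this hd
      obtain ⟨j, hj⟩ := (hmem ⟨d, hdP⟩).1 hd
      have h1 : (⟨s, hs⟩ : P) * ⟨d, hdP⟩ * ⟨s, hs⟩⁻¹ = (⟨d, hdP⟩)⁻¹ := by
        apply φ.injective
        rw [map_mul, map_mul, map_inv, map_inv, h, hj, DihedralGroup.sr_mul_r, DihedralGroup.inv_sr, DihedralGroup.sr_mul_sr, DihedralGroup.inv_r]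
        congr 1
        ring
      exact congrArg Subtype.val h1
  · intro s hs t ht hsC htC
    rcases h : φ ⟨s, hs⟩ with i | i
    · exact absurd ((hmem ⟨s, hs⟩).2 ⟨i, h⟩) hsC
    rcases h' : φ ⟨t, ht⟩ with j | j
    · exact absurd ((hmem ⟨t, ht⟩).2 ⟨j, h'⟩) htC
    refine (hmem (⟨s, hs⟩ * ⟨t, ht⟩)).2 ⟨j - i, ?_⟩
    rw [map_mul, h, h', DihedralGroup.sr_mul_sr]

theorem case_dih {P C : Subgroup G} (hP : IsPGroup 2 P) (hD : DS P C)
    (hK : ∀ K : Subgroup G, K ≤ P → Nat.card K = 4 → (∀ k ∈ K, k ^ 2 = 1) → Subgroup.centralizer (K : Set G) = K)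
    {S : Subgroup G} (hSP : S ≤ P) {v : G} (hv : v ∈ normalizer (S : Set G)) (hodd : Odd (orderOf v)) :
    IsCyclic ↥(S ⊔ zpowers v) ∨ (∃ n : ℕ, Nonempty (↥(S ⊔ zpowers v) ≃* DihedralGroup (2 ^ n))) ∨
      Nonempty (↥(S ⊔ zpowers v) ≃* alternatingGroup (Fin 4)) := by
  have hSp : IsPGroup 2 S := hP.to_le hSP
  have hsmall : ∀ w : G, Odd (orderOf w) → w ∈ P → w = 1 := by
    intro w hw hwP
    obtain ⟨k, hk⟩ := hP ⟨w, hwP⟩
    have hk' : w ^ 2 ^ k = 1 := congrArg Subtype.val hk
    have h1 : orderOf w ∣ 2 ^ k := orderOf_dvd_of_pow_eq_one hk'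
    have h2 : (orderOf w).Coprime (2 ^ k) := Nat.Coprime.pow_right k (Nat.coprime_two_right.2 hw)
    rw [← orderOf_eq_one_iff]
    exact Nat.eq_one_of_dvd_coprimes h2 dvd_rfl h1
  by_cases hSC : S ≤ C
  · left
    refine case_cyc ?_ hSp hv hodd
    haveI := hD.cyc
    exact isCyclic_of_injective (Subgroup.inclusion hSC) (Subgroup.inclusion_injective hSC)
  obtain ⟨s, hsS, hsC⟩ := SetLike.not_le_iff_exists.1 hSC
  obtain ⟨hss, hsinv⟩ := hD.ref s (hSP hsS) hsC
  -- rotations in S
  haveI : IsCyclic ↥(S ⊓ C) := by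
    haveI := hD.cyc
    exact isCyclic_of_injective (Subgroup.inclusion (inf_le_right : S ⊓ C ≤ C)) (Subgroup.inclusion_injective _)
  obtain ⟨c, hc⟩ := IsCyclic.exists_generator (α := ↥(S ⊓ C))
  have hcC : zpowers (c : G) = S ⊓ C := by
    apply le_antisymm
    · rw [zpowers_le]; exact c.2
    · intro z hz
      obtain ⟨k, hk⟩ := hc ⟨z, hz⟩
      exact ⟨k, congrArg Subtype.val hk⟩
  have hSgen : S = zpowers s ⊔ zpowers (c : G) := by
    apply le_antisymm
    · intro t ht
      by_cases htC : t ∈ C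
      · exact mem_sup_right (by rw [hcC]; exact ⟨ht, htC⟩)
      · have h1 := hD.prod s (hSP hsS) t (hSP ht) hsC htC
        have h2 : s * t ∈ zpowers (c : G) := by rw [hcC]; exact ⟨mul_mem hsS ht, h1⟩
        have h3 : t = s * (s * t) := by rw [← mul_assoc, hss, one_mul]
        rw [h3]
        exact mul_mem (mem_sup_left (mem_zpowers s)) (mem_sup_right h2)
    · refine sup_le ?_ ?_
      · rw [zpowers_le]; exact hsS
      · rw [hcC]; exact inf_le_left
  have hsc : s ∉ zpowers (c : G) := by rw [hcC]; exact fun h => hsC h.2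
  obtain ⟨e⟩ := Cfsg.Agent.H11.ThD.dih_iso (a := s) (y := (c : G)) hss (hsinv _ c.2.2) hsc
  rw [← hSgen] at e
  obtain ⟨m, hm⟩ := (hSp.to_le (inf_le_left : S ⊓ C ≤ S)).exists_card_eq
  have hco : orderOf (c : G) = 2 ^ m := by rw [← Nat.card_zpowers, hcC, hm]
  rw [hco] at e
  have hScard : Nat.card S = 2 * 2 ^ m := by
    rw [Nat.card_congr e.toEquiv, DihedralGroup.nat_card]
  rcases m with _ | m
  · -- order 2
    left
    refine case_cyc ?_ hSp hv hodd
    haveI : Fact (Nat.Prime 2) := ⟨Nat.prime_two⟩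
    exact isCyclic_of_prime_card (p := 2) (by rw [hScard]; norm_num)
  -- the Klein four-group
  set z := (c : G) ^ 2 ^ m with hz
  have hzz : z * z = 1 := by
    rw [hz, ← pow_add, ← two_mul, ← pow_succ', ← hco, pow_orderOf_eq_one]
  have hz1 : z ≠ 1 := by
    intro h
    have := orderOf_dvd_of_pow_eq_one h
    rw [hco] at this
    exact absurd (Nat.le_of_dvd (by positivity) this) (by rw [not_le]; exact Nat.pow_lt_pow_right (by norm_num) (by omega))
  have hzC : z ∈ C := pow_mem c.2.2 _
  have hzS : z ∈ S := pow_mem c.2.1 _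
  have hsz : s * z = z * s := by
    have h1 := hsinv z hzC
    have h2 : z⁻¹ = z := inv_eq_of_mul_eq_one_left hzz
    rw [h2, mul_inv_eq_iff_eq_mul] at h1
    exact h1
  set K : Subgroup G := zpowers s ⊔ zpowers z with hKdef
  have hKS : K ≤ S := sup_le (by rw [zpowers_le]; exact hsS) (by rw [zpowers_le]; exact hzS)
  have hoz : orderOf z = 2 := orderOf_eq_prime (by rw [sq, hzz]) hz1
  obtain ⟨eK⟩ := Cfsg.Agent.H11.ThD.dih_iso (a := s) (y := z) hss (hsinv z hzC) (by
    intro h
    apply hsC
    have : zpowers z ≤ C := by rw [zpowers_le]; exact hzC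
    exact this h)
  have hKcard : Nat.card K = 4 := by
    rw [hKdef, Nat.card_congr eK.toEquiv, DihedralGroup.nat_card, hoz]
  have hcomm : ∀ a ∈ ({s, z} : Set G), ∀ b ∈ ({s, z} : Set G), a * b = b * a := by
    rintro a (rfl | rfl) b (rfl | rfl)
    · rfl
    · exact hsz
    · exact hsz.symm
    · rfl
  have hKcl : K = Subgroup.closure {s, z} := by
    rw [hKdef, zpowers_eq_closure, zpowers_eq_closure, ← Subgroup.closure_union]
    rfl
  have hKcomm : ∀ a ∈ K, ∀ b ∈ K, a * b = b * a := by
    rw [hKcl]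
    intro a ha b hb
    letI := Subgroup.closureCommGroupOfComm hcomm
    exact congrArg Subtype.val (mul_comm (⟨a, ha⟩ : Subgroup.closure ({s, z} : Set G)) ⟨b, hb⟩)
  have hKsq : ∀ k ∈ K, k ^ 2 = 1 := by
    intro k hk
    have hk0 := hk
    rw [hKcl] at hk
    induction hk using Subgroup.closure_induction with
    | mem x hx =>
      rcases hx with rfl | rfl
      · rw [sq, hss]
      · rw [sq, hzz]
    | one => exact one_pow _
    | mul x y hx hy h1 h2 =>
      rw [← hKcl] at hx hy
      have : Commute x y := hKcomm x hx y hy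
      rw [this.mul_pow, h1 hx, h2 hy, one_mul]
    | inv x hx h1 => 
      rw [← hKcl] at hx
      rw [inv_pow, h1 hx, inv_one]
  have hCK := hK K (hKS.trans hSP) hKcard hKsq
  rcases m with _ | m
  · -- S = K
    have hSK : K = S := by
      apply Subgroup.eq_of_le_of_card_ge hKS
      rw [hScard, hKcard]
      norm_num
    by_cases hvC : v ∈ centralizer (K : Set G)
    · right; left
      have hv1 : v = 1 := hsmall v hodd ((hKS.trans hSP) (by rw [← hCK]; exact hvC))
      rw [hv1, zpowers_one_eq_bot, sup_bot_eq]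
      exact ⟨_, ⟨e⟩⟩
    · right; right
      rw [← hSK] at hv ⊢
      set φ := K.normalizerMonoidHom with hφ
      have h1 : orderOf (φ ⟨v, hv⟩) ∣ orderOf v := by
        have := orderOf_map_dvd φ ⟨v, hv⟩
        rwa [Subgroup.orderOf_mk] at this
      have h2 : orderOf (φ ⟨v, hv⟩) ∣ 24 := by
        have h3 := orderOf_dvd_natCard (MulAut.toPerm K (φ ⟨v, hv⟩))
        rw [Nat.card_perm, hKcard] at h3
        have h4 : orderOf (MulAut.toPerm K (φ ⟨v, hv⟩)) = orderOf (φ ⟨v, hv⟩) :=
          orderOf_injective (MulAut.toPerm K) (fun a b h => by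
            apply MulEquiv.ext; intro k; exact congrFun (congrArg (fun (f : Equiv.Perm K) => (f : K → K)) h) k) _
        rw [h4] at h3
        exact h3
      have h5 : orderOf (φ ⟨v, hv⟩) ∣ 3 := by
        have h6 : (orderOf (φ ⟨v, hv⟩)).Coprime 8 := by
          have h7 : Odd (orderOf (φ ⟨v, hv⟩)) := Odd.of_dvd_nat hodd h1
          exact Nat.Coprime.pow_right 3 (Nat.coprime_two_right.2 h7)
        exact h6.dvd_of_dvd_mul_left (by exact h2 : orderOf (φ ⟨v, hv⟩) ∣ 8 * 3)
      have hv3 : v ^ 3 ∈ centralizer (K : Set G) := by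
        have h6 : (⟨v, hv⟩ : normalizer (K : Set G)) ^ 3 ∈ φ.ker := by
          rw [MonoidHom.mem_ker, map_pow]
          exact orderOf_dvd_iff_pow_eq_one.1 h5
        rw [hφ, Subgroup.normalizerMonoidHom_ker, mem_subgroupOf] at h6
        exact h6
      have hv31 : v ^ 3 = 1 := hsmall (v ^ 3) (Odd.of_dvd_nat hodd (orderOf_pow_dvd 3)) ((hKS.trans hSP) (by rw [← hCK]; exact hv3))
      have hvo : orderOf v = 3 := by
        apply orderOf_eq_prime hv31
        rintro rfl
        exact hvC (one_mem _)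
      set H := K ⊔ zpowers v with hH
      have hKH : K ≤ H := le_sup_left
      have hHN : H ≤ normalizer (K : Set G) := sup_le le_normalizer (by rwa [zpowers_le])
      haveI hVn : (K.subgroupOf H).Normal := Subgroup.normal_subgroupOf_iff_le_normalizer hKH |>.2 hHN
      have hc4 : Nat.card (K.subgroupOf H) = 4 := by
        rw [Nat.card_congr (Subgroup.subgroupOfEquivOfLe hKH).toEquiv, hKcard]
      have hc3 : Nat.card ((zpowers v).subgroupOf H) = 3 := by
        rw [Nat.card_congr (Subgroup.subgroupOfEquivOfLe (le_sup_right : zpowers v ≤ H)).toEquiv, Nat.card_zpowers, hvo]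
      have htop : (zpowers v).subgroupOf H ⊔ K.subgroupOf H = ⊤ := by
        apply Subgroup.map_injective H.subtype_injective
        rw [Subgroup.map_sup, Subgroup.subgroupOf_map_subtype, Subgroup.subgroupOf_map_subtype, inf_eq_left.2 (le_sup_right : zpowers v ≤ H),
          inf_eq_left.2 hKH, ← MonoidHom.range_eq_map, Subgroup.range_subtype, sup_comm]
      have hc12 : Nat.card H = 12 := by
        apply Nat.dvd_antisymm
        · have h6 := Cfsg.Agent.H23.AltSpec.card_sup_dvd ((zpowers v).subgroupOf H) (K.subgroupOf H)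
          rw [htop, Subgroup.card_top, hc4, hc3] at h6
          exact h6
        · have h6 : 4 ∣ Nat.card H := hc4 ▸ Subgroup.card_subgroup_dvd_card (K.subgroupOf H)
          have h7 : 3 ∣ Nat.card H := hc3 ▸ Subgroup.card_subgroup_dvd_card ((zpowers v).subgroupOf H)
          exact Nat.Coprime.mul_dvd_of_dvd_of_dvd (by norm_num : Nat.Coprime 4 3) h6 h7
      refine Cfsg.Agent.H24.Zas.klein_12 (K.subgroupOf H) ?_ hc4 ?_ hc12
      · intro w hw
        apply Subtype.ext
        have := hKsq w (mem_subgroupOf.1 hw)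
        rwa [sq] at this
      · intro w hw
        rw [mem_subgroupOf, ← hCK, mem_centralizer_iff]
        intro k hk
        rw [mem_centralizer_iff] at hw
        exact congrArg Subtype.val (hw ⟨k, hKH hk⟩ (mem_subgroupOf.2 hk))
  · right; left
    -- v centralizes S
    have hconjS : ∀ w ∈ S, v * w * v⁻¹ ∈ S := fun w hw => (mem_normalizer_iff.1 hv w).1 hw
    have hvc : v * c * v⁻¹ ∈ zpowers (c : G) := by
      rw [hcC]
      refine ⟨hconjS _ c.2.1, ?_⟩
      by_contra hn
      have h1 := (hD.ref _ (hSP (hconjS _ c.2.1)) hn).1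
      have h2 : (c : G) ^ 2 = 1 := by
        have h3 : v * (c : G) ^ 2 * v⁻¹ = 1 := by
          rw [sq, ← h1]; group
        have h4 : (c : G) ^ 2 = v⁻¹ * (v * (c : G) ^ 2 * v⁻¹) * v := by group
        rw [h4, h3]; group
      have h3 := orderOf_dvd_of_pow_eq_one h2
      rw [hco] at h3
      have h4 := Nat.le_of_dvd (by norm_num) h3
      have h5 : 2 ^ 2 ≤ 2 ^ (m + 1 + 1) := Nat.pow_le_pow_right (by norm_num) (by omega)
      omega
    have hvN : v ∈ normalizer ((zpowers (c : G) : Subgroup G) : Set G) := by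
      apply Cfsg.Agent.H24.Tools.mem_normalizer
      rintro _ ⟨k, rfl⟩
      change v * (c : G) ^ k * v⁻¹ ∈ _
      rw [← conj_zpow]
      exact zpow_mem hvc _
    have hc2 : IsPGroup 2 (zpowers (c : G)) := by
      rw [hcC]; exact hSp.to_le inf_le_left
    have hvcomm := cyc_cent (C := zpowers (c : G)) inferInstance hc2 hvN hodd
    have hvsC : v * s * v⁻¹ ∉ C := by
      intro h
      have h1 : v * s * v⁻¹ ∈ zpowers (c : G) := by rw [hcC]; exact ⟨hconjS _ hsS, h⟩
      have h2 := hvcomm _ h1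
      have h3 : s = v⁻¹ * (v * s * v⁻¹) * v := by group
      rw [mul_assoc v⁻¹, ← h2, ← mul_assoc, inv_mul_cancel, one_mul] at h3
      exact hsc (h3 ▸ h1)
    set d := s * (v * s * v⁻¹) with hd
    have hdc : d ∈ zpowers (c : G) := by
      rw [hcC]
      exact ⟨mul_mem hsS (hconjS _ hsS), hD.prod _ (hSP hsS) _ (hSP (hconjS _ hsS)) hsC hvsC⟩
    have hvd := hvcomm _ hdc
    have hvs : v * s * v⁻¹ = s * d := by rw [hd, ← mul_assoc, hss, one_mul]
    have hiter : ∀ k : ℕ, v ^ k * s * (v ^ k)⁻¹ = s * d ^ k := by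
      intro k
      induction k with
      | zero => simp
      | succ k ih =>
        have h1 : v ^ (k + 1) * s * (v ^ (k + 1))⁻¹ = v * (v ^ k * s * (v ^ k)⁻¹) * v⁻¹ := by
          rw [pow_succ']; group
        have h2 : v * d ^ k * v⁻¹ = d ^ k := by
          rw [mul_inv_eq_iff_eq_mul]
          exact ((show Commute v d from hvd).pow_right k)
        rw [h1, ih]
        calc v * (s * d ^ k) * v⁻¹ = (v * s * v⁻¹) * (v * d ^ k * v⁻¹) := by group
          _ = s * d ^ (k + 1) := by rw [h2, hvs, mul_assoc, pow_succ']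
    have hd1 : d = 1 := by
      have h1 := hiter (orderOf v)
      rw [pow_orderOf_eq_one, one_mul, inv_one, mul_one] at h1
      have h2 : d ^ orderOf v = 1 := by
        have := h1.symm
        rwa [mul_eq_left] at this
      apply hsmall d _ (hSP (mul_mem hsS (hconjS _ hsS)))
      exact Odd.of_dvd_nat hodd (orderOf_dvd_of_pow_eq_one h2)
    have hvsc : v * s = s * v := by
      rw [hd1, mul_one, mul_inv_eq_iff_eq_mul] at hvs
      exact hvs
    have hvK : v ∈ centralizer (K : Set G) := by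
      have h1 : K ≤ centralizer ({v} : Set G) := by
        refine sup_le ?_ ?_
        · rw [zpowers_le, mem_centralizer_singleton_iff]; exact hvsc.symm
        · rw [zpowers_le, mem_centralizer_singleton_iff]; exact (hvcomm z (pow_mem (mem_zpowers _) _)).symm
      rw [mem_centralizer_iff]
      intro k hk
      exact mem_centralizer_singleton_iff.1 (h1 hk)
    have hv1 : v = 1 := hsmall v hodd ((hKS.trans hSP) (by rw [← hCK]; exact hvK))
    rw [hv1, zpowers_one_eq_bot, sup_bot_eq]
    exact ⟨_, ⟨e⟩⟩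

end

/-- Let G be a finite group with Sylow 2-subgroup P. Every subgroup H of G whose Sylow 2-subgroup is normal in H with cyclic quotient is cyclic, dihedral of 2-power order, or isomorphic to the alternating group of degree 4, if and only if either P is cyclic, or P is dihedral (of order at least 4) and every elementary abelian subgroup K of order 4 of P satisfies C_G(K) = K. -/
theorem result {G : Type*} [Group G] [Finite G] (P : Sylow 2 G) :
    (∀ H : Subgroup G, (∀ S : Sylow 2 ↥H, (S : Subgroup ↥H).Normal) →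
        (∀ (S : Sylow 2 ↥H) [(S : Subgroup ↥H).Normal], IsCyclic (↥H ⧸ (S : Subgroup ↥H))) →
        IsCyclic H ∨ (∃ n : ℕ, Nonempty (H ≃* DihedralGroup (2 ^ n))) ∨ Nonempty (H ≃* alternatingGroup (Fin 4))) ↔
    (IsCyclic P ∨
      ((∃ n : ℕ, 1 ≤ n ∧ Nonempty ((P : Subgroup G) ≃* DihedralGroup (2 ^ n))) ∧
        ∀ K : Subgroup G, K ≤ P → Nat.card K = 4 → (∀ k ∈ K, k ^ 2 = 1) → Subgroup.centralizer (K : Set G) = K)) := by
  have hA4 : Nat.card (alternatingGroup (Fin 4)) = 12 := by
    rw [nat_card_alternatingGroup, Nat.card_fin]; rfl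
  constructor
  · intro hA
    have hA' : ∀ R : Subgroup G, IsPGroup 2 R → ∀ x ∈ normalizer (R : Set G),
        IsCyclic ↥(R ⊔ zpowers x) ∨ (∃ n : ℕ, Nonempty (↥(R ⊔ zpowers x) ≃* DihedralGroup (2 ^ n))) ∨
          Nonempty (↥(R ⊔ zpowers x) ≃* alternatingGroup (Fin 4)) := by
      intro R hR x hx
      obtain ⟨h1, h2⟩ := cond_of hR hx
      exact hA _ h1 h2
    by_cases hPc : IsCyclic P
    · exact Or.inl hPc
    right
    constructor
    · have h1 := hA' (P : Subgroup G) P.2 1 (one_mem _)
      rw [zpowers_one_eq_bot, sup_bot_eq] at h1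
      rcases h1 with h | ⟨n, ⟨φ⟩⟩ | hφ
      · exact absurd h hPc
      · rcases n with _ | n
        · exfalso
          apply hPc
          have h2 := Nat.card_congr φ.toEquiv
          rw [DihedralGroup.nat_card, pow_zero, mul_one] at h2
          haveI : Fact (Nat.Prime 2) := ⟨Nat.prime_two⟩
          exact isCyclic_of_prime_card (p := 2) h2
        · exact ⟨n + 1, by omega, ⟨φ⟩⟩
      · exfalso
        obtain ⟨φ⟩ := hφ
        obtain ⟨k, hk⟩ := P.2.exists_card_eq
        have h2 := Nat.card_congr φ.toEquiv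
        rw [hA4, hk] at h2
        have h3 : 3 ∣ 2 ^ k := by rw [h2]; norm_num
        have h4 := Nat.prime_three.dvd_of_dvd_pow h3
        omega
    · intro K hKP hK4 hKsq
      have hK2 : IsPGroup 2 K := P.2.to_le hKP
      have hKcomm : ∀ a ∈ K, ∀ b ∈ K, a * b = b * a := by
        intro a ha b hb
        have h1 := hKsq (a * b) (mul_mem ha hb)
        have h2 := hKsq a ha
        have h3 := hKsq b hb
        rw [sq] at h1 h2 h3
        have ha' : a⁻¹ = a := inv_eq_of_mul_eq_one_left h2
        have hb' : b⁻¹ = b := inv_eq_of_mul_eq_one_left h3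
        have h4 : (a * b)⁻¹ = a * b := inv_eq_of_mul_eq_one_left h1
        rw [mul_inv_rev, ha', hb'] at h4
        exact h4.symm
      have hKC : K ≤ centralizer (K : Set G) := by
        intro a ha
        rw [mem_centralizer_iff]
        intro b hb
        exact hKcomm b hb a ha
      apply le_antisymm _ hKC
      intro x hx
      have hxN : x ∈ normalizer (K : Set G) := Subgroup.centralizer_le_normalizer _ hx
      have e1 : K ⊔ zpowers x ≤ centralizer (K : Set G) := sup_le hKC (by rwa [zpowers_le])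
      have e2 : K ⊔ zpowers x ≤ centralizer ({x} : Set G) := by
        refine sup_le ?_ ?_
        · intro k hk
          rw [mem_centralizer_singleton_iff]
          exact (mem_centralizer_iff.1 hx k hk)
        · rw [zpowers_le, mem_centralizer_singleton_iff]
      have hHcomm : ∀ a ∈ K ⊔ zpowers x, ∀ b ∈ K ⊔ zpowers x, a * b = b * a := by
        intro a ha b hb
        have h1 : K ⊔ zpowers x ≤ centralizer ({a} : Set G) := by
          refine sup_le ?_ ?_
          · intro k hk
            rw [mem_centralizer_singleton_iff]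
            exact mem_centralizer_iff.1 (e1 ha) k hk
          · rw [zpowers_le, mem_centralizer_singleton_iff]
            exact (mem_centralizer_singleton_iff.1 (e2 ha)).symm
        exact (mem_centralizer_singleton_iff.1 (h1 hb)).symm
      have hKle : K ≤ K ⊔ zpowers x := le_sup_left
      rcases hA' K hK2 x hxN with h | ⟨n, ⟨φ⟩⟩ | hφ
      · exfalso
        haveI := h
        haveI : IsCyclic K := isCyclic_of_injective (Subgroup.inclusion hKle) (Subgroup.inclusion_injective hKle)
        obtain ⟨g, hg⟩ := IsCyclic.exists_generator (α := K)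
        have h1 : orderOf g = 4 := by rw [← hK4]; exact orderOf_eq_card_of_forall_mem_zpowers hg
        have h2 : g ^ 2 = 1 := Subtype.ext (hKsq g g.2)
        have h3 := orderOf_dvd_of_pow_eq_one h2
        rw [h1] at h3
        norm_num at h3
      · have h1 : (1 : ZMod (2 ^ n)) + 1 = 0 := by
          have h2 : DihedralGroup.r (1 : ZMod (2 ^ n)) * DihedralGroup.sr 0 = DihedralGroup.sr 0 * DihedralGroup.r 1 := by
            have h3 := hHcomm _ (φ.symm (DihedralGroup.r 1)).2 _ (φ.symm (DihedralGroup.sr 0)).2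
            have h4 : φ.symm (DihedralGroup.r 1) * φ.symm (DihedralGroup.sr 0) = φ.symm (DihedralGroup.sr 0) * φ.symm (DihedralGroup.r 1) := Subtype.ext h3
            have h5 := congrArg φ h4
            rwa [map_mul, map_mul, MulEquiv.apply_symm_apply, MulEquiv.apply_symm_apply] at h5
          rw [DihedralGroup.r_mul_sr, DihedralGroup.sr_mul_r] at h2
          injection h2 with h2
          rw [zero_sub, zero_add] at h2
          nth_rewrite 1 [← h2]
          exact neg_add_cancel _
        have h2 : (2 ^ n) ∣ 2 := by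
          have h3 : ((2 : ℕ) : ZMod (2 ^ n)) = 0 := by
            push_cast
            rw [one_add_one_eq_two] at h1; exact h1
          exact (ZMod.natCast_eq_zero_iff _ _).1 h3
        have h3 := Nat.le_of_dvd (by norm_num) h2
        have h4 := Nat.card_congr φ.toEquiv
        rw [DihedralGroup.nat_card] at h4
        have h5 : K = K ⊔ zpowers x := Subgroup.eq_of_le_of_card_ge hKle (by rw [h4, hK4]; omega)
        rw [h5]
        exact mem_sup_right (mem_zpowers x)
      · exfalso
        obtain ⟨φ⟩ := hφ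
        have h1 : Subgroup.center (alternatingGroup (Fin 4)) = ⊥ := alternatingGroup.center_eq_bot (by rw [Nat.card_fin])
        have h2 : Subgroup.center (alternatingGroup (Fin 4)) = ⊤ := by
          rw [eq_top_iff]
          intro a _
          rw [Subgroup.mem_center_iff]
          intro b
          apply φ.symm.injective
          rw [map_mul, map_mul]
          exact Subtype.ext (hHcomm _ (φ.symm b).2 _ (φ.symm a).2)
        have h3 : Nat.card (Subgroup.center (alternatingGroup (Fin 4))) = 12 := by rw [h2, Subgroup.card_top, hA4]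
        rw [h1, Subgroup.card_bot] at h3
        norm_num at h3
  · intro hc H h1 h2
    obtain ⟨S, hS2, v, hvN, hodd, hHe⟩ := odd_gen (H := H) ⟨h1, h2⟩
    obtain ⟨T, hT⟩ := hS2.exists_le_sylow
    obtain ⟨g, hg⟩ := MulAction.exists_smul_eq G T P
    have hle : S.map (MulAut.conj g).toMonoidHom ≤ P := by
      rw [← hg]
      exact Subgroup.map_mono hT
    have hv' : MulAut.conj g v ∈ normalizer ((S.map (MulAut.conj g).toMonoidHom : Subgroup G) : Set G) := by
      apply Cfsg.Agent.H24.Tools.mem_normalizer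
      rintro _ ⟨s, hs, rfl⟩
      refine ⟨v * s * v⁻¹, (mem_normalizer_iff.1 hvN s).1 hs, ?_⟩
      change MulAut.conj g (v * s * v⁻¹) = MulAut.conj g v * MulAut.conj g s * (MulAut.conj g v)⁻¹
      rw [map_mul, map_mul, map_inv]
    have hodd' : Odd (orderOf (MulAut.conj g v)) := by
      rw [MulEquiv.orderOf_eq]
      exact hodd
    have h4 : S.map (MulAut.conj g).toMonoidHom ⊔ zpowers (MulAut.conj g v) = H.map (MulAut.conj g).toMonoidHom := by
      conv_rhs => rw [hHe]
      rw [Subgroup.map_sup, MonoidHom.map_zpowers]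
      rfl
    obtain ⟨e⟩ := equiv_conj H g
    have h5 : IsCyclic ↥(H.map (MulAut.conj g).toMonoidHom) ∨ (∃ n : ℕ, Nonempty (↥(H.map (MulAut.conj g).toMonoidHom) ≃* DihedralGroup (2 ^ n))) ∨
        Nonempty (↥(H.map (MulAut.conj g).toMonoidHom) ≃* alternatingGroup (Fin 4)) := by
      rw [← h4]
      rcases hc with hc | ⟨⟨n, -, ⟨φ⟩⟩, hK⟩
      · left
        haveI := hc
        have h6 : IsCyclic ↥(S.map (MulAut.conj g).toMonoidHom) :=
          isCyclic_of_injective (Subgroup.inclusion hle) (Subgroup.inclusion_injective hle)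
        exact case_cyc h6 (P.2.to_le hle) hv' hodd'
      · obtain ⟨C, hD⟩ := ds_of φ
        exact case_dih P.2 hD hK hle hv' hodd'
    rcases h5 with h | ⟨n, ⟨φ⟩⟩ | hφ
    · left
      haveI := h
      exact isCyclic_of_surjective e.symm.toMonoidHom e.symm.surjective
    · right; left
      exact ⟨n, ⟨e.trans φ⟩⟩
    · right; right
      obtain ⟨φ⟩ := hφ
      exact ⟨e.trans φ⟩


end Cfsg.Agent.S4083
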