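import Cfsg.Statements.S4084
import Cfsg.Agent.H23_Basic

set_option autoImplicit false
open Cfsg

namespace Cfsg.Agent.S4084

theorem one_dir {G H : Type*} [Group G] [Finite G] [Group H] [Finite H] (e : G ≃ H)
    (he : ∀ x y : G, Commute x y ↔ Commute (e x) (e y))
    {p q : ℕ} (hp : p.Prime) (hq : q.Prime) (hpq : p ≠ q) (h : ∃ g : G, orderOf g = p * q) :
    ∃ h : H, orderOf h = p * q := by
  obtain ⟨g, hg⟩ := h
  have hx : orderOf (g ^ q) = p := by
    rw [orderOf_pow_of_dvd hq.ne_zero (by rw [hg]; exact dvd_mul_left _ _), hg, Nat.mul_div_cancel _ hq.pos]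
  have hy : orderOf (g ^ p) = q := by
    rw [orderOf_pow_of_dvd hp.ne_zero (by rw [hg]; exact dvd_mul_right _ _), hg, Nat.mul_div_cancel_left _ hp.pos]
  set x := g ^ q with hxd
  have hxy : Commute x (g ^ p) := (Commute.refl g).pow_pow q p
  -- double centralizers
  have hC : ∀ w : G, w ∈ Subgroup.centralizer ({x} : Set G) ↔ e w ∈ Subgroup.centralizer ({e x} : Set H) := by
    intro w
    rw [Subgroup.mem_centralizer_singleton_iff, Subgroup.mem_centralizer_singleton_iff]
    exact he w x
  have hC' : ∀ w : H, w ∈ Subgroup.centralizer ({e x} : Set H) ↔ e.symm w ∈ Subgroup.centralizer ({x} : Set G) := by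
    intro w
    rw [hC, Equiv.apply_symm_apply]
  have hCC : ∀ w : G, w ∈ Subgroup.centralizer (Subgroup.centralizer ({x} : Set G) : Set G) ↔
      e w ∈ Subgroup.centralizer (Subgroup.centralizer ({e x} : Set H) : Set H) := by
    intro w
    rw [Subgroup.mem_centralizer_iff, Subgroup.mem_centralizer_iff]
    constructor
    · intro h v hv
      have h1 := h (e.symm v) ((hC' v).1 hv)
      have h2 := (he (e.symm v) w).1 h1
      rwa [Equiv.apply_symm_apply] at h2
    · intro h v hv
      exact (he v w).2 (h (e v) ((hC v).1 hv))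
  have c1 : Nat.card (Subgroup.centralizer ({x} : Set G)) = Nat.card (Subgroup.centralizer ({e x} : Set H)) :=
    Nat.card_congr (e.subtypeEquiv hC)
  have c2 : Nat.card (Subgroup.centralizer (Subgroup.centralizer ({x} : Set G) : Set G)) =
      Nat.card (Subgroup.centralizer (Subgroup.centralizer ({e x} : Set H) : Set H)) :=
    Nat.card_congr (e.subtypeEquiv hCC)
  have d1 : p ∣ Nat.card (Subgroup.centralizer (Subgroup.centralizer ({x} : Set G) : Set G)) := by
    have hm : x ∈ Subgroup.centralizer (Subgroup.centralizer ({x} : Set G) : Set G) := by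
      rw [Subgroup.mem_centralizer_iff]
      intro w hw
      exact Subgroup.mem_centralizer_singleton_iff.1 hw
    have := orderOf_dvd_natCard (⟨x, hm⟩ : Subgroup.centralizer (Subgroup.centralizer ({x} : Set G) : Set G))
    rwa [Subgroup.orderOf_mk, hx] at this
  have d2 : q ∣ Nat.card (Subgroup.centralizer ({x} : Set G)) := by
    have hm : g ^ p ∈ Subgroup.centralizer ({x} : Set G) := by
      rw [Subgroup.mem_centralizer_singleton_iff]
      exact hxy.symm
    have := orderOf_dvd_natCard (⟨g ^ p, hm⟩ : Subgroup.centralizer ({x} : Set G))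
    rwa [Subgroup.orderOf_mk, hy] at this
  rw [c2] at d1
  rw [c1] at d2
  haveI := Fact.mk hp
  haveI := Fact.mk hq
  obtain ⟨z, hz⟩ := exists_prime_orderOf_dvd_card' p d1
  obtain ⟨w, hw⟩ := exists_prime_orderOf_dvd_card' q d2
  have hzw : Commute (z : H) (w : H) := (Subgroup.mem_centralizer_iff.1 z.2 w w.2).symm
  rw [← Subgroup.orderOf_coe] at hz hw
  refine ⟨z * w, ?_⟩
  rw [hzw.orderOf_mul_eq_mul_orderOf_of_coprime (by rw [hz, hw]; exact (Nat.coprime_primes hp hq).2 hpq), hz, hw]

/-- Let G and H be finite groups whose commuting graphs are isomorphic: there is a bijection e : G → H with x, y commuting exactly when e(x), e(y) commute. Then G and H have the same prime graph: for distinct primes p, q, G has an element of order pq if and only if H does (and #G = #H, so the prime divisors agree). -/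
theorem result {G H : Type*} [Group G] [Finite G] [Group H] [Finite H] (e : G ≃ H)
    (he : ∀ x y : G, Commute x y ↔ Commute (e x) (e y))
    {p q : ℕ} (hp : p.Prime) (hq : q.Prime) (hpq : p ≠ q) :
    (∃ g : G, orderOf g = p * q) ↔ (∃ h : H, orderOf h = p * q) := by
  constructor
  · exact one_dir e he hp hq hpq
  · refine one_dir e.symm (fun x y => ?_) hp hq hpq
    rw [he, Equiv.apply_symm_apply, Equiv.apply_symm_apply]

end Cfsg.Agent.S4084
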