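import Cfsg.Statements.S4086


set_option autoImplicit false
open Cfsg

namespace Cfsg.Agent.S4086

theorem le_of_card_dvd {G : Type*} [Group G] [Finite G] {C A B : Subgroup G} [IsCyclic C] (hA : A ≤ C) (hB : B ≤ C)
    (h : Nat.card A ∣ Nat.card B) : A ≤ B := by
  classical
  haveI := Fintype.ofFinite C
  let B' := B.subgroupOf C
  have hB' : Nat.card B' = Nat.card B := Nat.card_congr (Subgroup.subgroupOfEquivOfLe hB).toEquiv
  have key : (B' : Set C) = {a : C | a ^ Nat.card B = 1} := by
    apply Set.eq_of_subset_of_ncard_le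
    · intro a ha
      have h1 : (⟨a, ha⟩ : B') ^ Nat.card B' = 1 := pow_card_eq_one'
      rw [hB'] at h1
      exact congrArg Subtype.val h1
    · have h1 := IsCyclic.card_pow_eq_one_le (α := C) (n := Nat.card B) Nat.card_pos
      have h2 : ({a : C | a ^ Nat.card B = 1}).ncard = (Finset.univ.filter (fun a : C => a ^ Nat.card B = 1)).card := by
        rw [← Set.ncard_coe_finset]; congr 1; ext; simp
      rw [h2]
      refine h1.trans ?_
      rw [← hB']
      exact (Nat.card_coe_set_eq _).le
    · exact Set.toFinite _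
  intro a ha
  have h1 : (⟨a, hA ha⟩ : C) ∈ (B' : Set C) := by
    rw [key]
    obtain ⟨m, hm⟩ := h
    apply Subtype.ext
    change a ^ Nat.card B = 1
    rw [hm, pow_mul]
    have h2 : (⟨a, ha⟩ : A) ^ Nat.card A = 1 := pow_card_eq_one'
    have h3 : a ^ Nat.card A = 1 := congrArg Subtype.val h2
    rw [h3, one_pow]
  exact h1

/-- For a finite group G the following are equivalent: every non-identity element has prime-power order; whenever two elements generate a cyclic subgroup, one of them is a power of the other (the enhanced power graph of G coincides with its power graph). -/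
theorem result {G : Type*} [Group G] [Finite G] :
    (∀ g : G, g ≠ 1 → IsPrimePow (orderOf g)) ↔
    (∀ x y : G, IsCyclic ↥(Subgroup.closure ({x, y} : Set G)) → (x ∈ Subgroup.zpowers y ∨ y ∈ Subgroup.zpowers x)) := by
  constructor
  · intro h x y hcyc
    obtain ⟨⟨z, hz⟩, hgen⟩ := hcyc.exists_generator
    have hx : x ∈ Subgroup.zpowers z := by
      obtain ⟨i, hi⟩ := hgen ⟨x, Subgroup.subset_closure (by simp)⟩
      exact ⟨i, congrArg Subtype.val hi⟩
    have hy : y ∈ Subgroup.zpowers z := by
      obtain ⟨i, hi⟩ := hgen ⟨y, Subgroup.subset_closure (by simp)⟩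
      exact ⟨i, congrArg Subtype.val hi⟩
    by_cases hz1 : z = 1
    · left
      rw [hz1] at hx
      have : x = 1 := by simpa using hx
      rw [this]; exact one_mem _
    obtain ⟨p, k, hp, _, hk⟩ := (isPrimePow_def _).1 (h z hz1)
    rw [← Nat.prime_iff] at hp
    have h1 : Nat.card (Subgroup.zpowers x) ∣ p ^ k := by
      rw [hk, ← Nat.card_zpowers]
      exact Subgroup.card_dvd_of_le (Subgroup.zpowers_le.2 hx)
    have h2 : Nat.card (Subgroup.zpowers y) ∣ p ^ k := by
      rw [hk, ← Nat.card_zpowers]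
      exact Subgroup.card_dvd_of_le (Subgroup.zpowers_le.2 hy)
    obtain ⟨a, _, ha⟩ := (Nat.dvd_prime_pow hp).1 h1
    obtain ⟨b, _, hb⟩ := (Nat.dvd_prime_pow hp).1 h2
    rcases le_total a b with hab | hab
    · left
      apply le_of_card_dvd (C := Subgroup.zpowers z) (Subgroup.zpowers_le.2 hx) (Subgroup.zpowers_le.2 hy)
        (by rw [ha, hb]; exact pow_dvd_pow p hab)
      exact Subgroup.mem_zpowers x
    · right
      apply le_of_card_dvd (C := Subgroup.zpowers z) (Subgroup.zpowers_le.2 hy) (Subgroup.zpowers_le.2 hx)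
        (by rw [ha, hb]; exact pow_dvd_pow p hab)
      exact Subgroup.mem_zpowers y
  · intro h g hg
    have hn : orderOf g ≠ 1 := fun h => hg (orderOf_eq_one_iff.1 h)
    obtain ⟨p, hp, hpd⟩ := Nat.exists_prime_and_dvd hn
    obtain ⟨k, m, hm, hkm⟩ := Nat.exists_eq_pow_mul_and_not_dvd (orderOf_pos g).ne' p hp.ne_one
    have hk0 : k ≠ 0 := by
      rintro rfl
      rw [pow_zero, one_mul] at hkm
      exact hm (hkm ▸ hpd)
    have hm0 : 0 < m := Nat.pos_of_ne_zero (by rintro rfl; exact hm (dvd_zero _))
    by_cases hm1 : m = 1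
    · rw [hkm, hm1, mul_one]
      exact hp.isPrimePow.pow hk0
    exfalso
    have ox : orderOf (g ^ m) = p ^ k := by
      rw [orderOf_pow_of_dvd hm0.ne' (by rw [hkm]; exact dvd_mul_left _ _), hkm, Nat.mul_div_cancel _ hm0]
    have oy : orderOf (g ^ (p ^ k)) = m := by
      rw [orderOf_pow_of_dvd (pow_pos hp.pos k).ne' (by rw [hkm]; exact dvd_mul_right _ _), hkm,
        Nat.mul_div_cancel_left _ (pow_pos hp.pos k)]
    have hle : Subgroup.closure ({g ^ m, g ^ (p ^ k)} : Set G) ≤ Subgroup.zpowers g := by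
      rw [Subgroup.closure_le]
      rintro z (rfl | rfl)
      · exact Subgroup.pow_mem _ (Subgroup.mem_zpowers g) _
      · exact Subgroup.pow_mem _ (Subgroup.mem_zpowers g) _
    rcases h _ _ (isCyclic_of_injective (Subgroup.inclusion hle) (Subgroup.inclusion_injective hle)) with h1 | h1
    · have h2 := orderOf_dvd_of_mem_zpowers h1
      rw [ox, oy] at h2
      exact hm ((dvd_pow_self p hk0).trans h2)
    · have h2 := orderOf_dvd_of_mem_zpowers h1
      rw [ox, oy] at h2
      have h3 : Nat.Coprime m (p ^ k) := (Nat.Coprime.pow_left k ((Nat.Prime.coprime_iff_not_dvd hp).2 hm)).symm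
      exact hm1 (Nat.eq_one_of_dvd_coprimes h3 dvd_rfl h2)

end Cfsg.Agent.S4086
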