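import Cfsg.Statements.S4091
import Cfsg.Agent.H12_NP4

set_option autoImplicit false
open Cfsg

namespace Cfsg.Agent.S4091

open Subgroup in
theorem amgm {ι : Type*} [Fintype ι] (z : ι → ℝ) (hz : ∀ i, 0 ≤ z i) (hm : 0 < Fintype.card ι) :
    (Fintype.card ι : ℝ) ^ Fintype.card ι * ∏ i, z i ≤ (∑ i, z i) ^ Fintype.card ι := by
  have hm' : (0 : ℝ) < Fintype.card ι := by exact_mod_cast hm
  have h := Real.geom_mean_le_arith_mean_weighted Finset.univ (fun _ : ι => (1 / (Fintype.card ι : ℝ))) z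
    (fun i _ => by positivity) (by
      rw [Finset.sum_const, Finset.card_univ, nsmul_eq_mul]
      field_simp) (fun i _ => hz i)
  have h2 := pow_le_pow_left₀ (Finset.prod_nonneg (fun i _ => Real.rpow_nonneg (hz i) _)) h (Fintype.card ι)
  rw [← Finset.prod_pow] at h2
  have h3 : ∀ i, (z i ^ (1 / (Fintype.card ι : ℝ))) ^ Fintype.card ι = z i := by
    intro i
    rw [one_div, Real.rpow_inv_natCast_pow (hz i) hm.ne']
  rw [Finset.prod_congr rfl (fun i _ => h3 i), ← Finset.mul_sum, mul_pow] at h2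
  have h4 : (1 / (Fintype.card ι : ℝ)) ^ Fintype.card ι * (Fintype.card ι : ℝ) ^ Fintype.card ι = 1 := by
    rw [← mul_pow, one_div, inv_mul_cancel₀ hm'.ne', one_pow]
  calc (Fintype.card ι : ℝ) ^ Fintype.card ι * ∏ i, z i
      ≤ (Fintype.card ι : ℝ) ^ Fintype.card ι * ((1 / (Fintype.card ι : ℝ)) ^ Fintype.card ι * (∑ i, z i) ^ Fintype.card ι) := by
        gcongr
    _ = ((1 / (Fintype.card ι : ℝ)) ^ Fintype.card ι * (Fintype.card ι : ℝ) ^ Fintype.card ι) * (∑ i, z i) ^ Fintype.card ι := by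
        ring
    _ = _ := by rw [h4, one_mul]

open Cfsg.Agent.H12.NP in
/-- double counting -/
theorem count {G : Type*} [Group G] [Finite G] (p : ℕ) [Fact p.Prime] (P : Sylow p G) [Fintype (P : Subgroup G)] :
    (Nat.card {g : G // ∃ k : ℕ, orderOf g = p ^ k} : ℝ) =
      Nat.card G * ∑ x : (P : Subgroup G), (1 / (mu (P : Subgroup G) (x : G) : ℝ)) := by
  classical
  have : Fintype G := Fintype.ofFinite G
  set U := {g : G // ∃ k : ℕ, orderOf g = p ^ k} with hU
  have hmem : ∀ (x : (P : Subgroup G)) (g : G), ∃ k : ℕ, orderOf (g * x * g⁻¹) = p ^ k := by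
    intro x g
    obtain ⟨k, hk⟩ := P.isPGroup' x
    have hxk : (x : G) ^ p ^ k = 1 := by
      have := congrArg Subtype.val hk
      simpa using this
    have h1 : (g * x * g⁻¹) ^ p ^ k = 1 := by rw [conj_pow, hxk]; group
    obtain ⟨j, -, hj⟩ := (Nat.dvd_prime_pow (Fact.out (p := p.Prime))).1 (orderOf_dvd_of_pow_eq_one h1)
    exact ⟨j, hj⟩
  let e : ((↥(P : Subgroup G)) × G) ≃ (Σ y : U, {g : G // g⁻¹ * (y : G) * g ∈ (P : Subgroup G)}) :=
    { toFun := fun a => ⟨⟨a.2 * a.1 * a.2⁻¹, hmem a.1 a.2⟩, ⟨a.2, by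
        have : a.2⁻¹ * (a.2 * (a.1 : G) * a.2⁻¹) * a.2 = a.1 := by group
        rw [this]; exact a.1.2⟩⟩
      invFun := fun b => (⟨b.2.1⁻¹ * (b.1 : G) * b.2.1, b.2.2⟩, b.2.1)
      left_inv := by
        rintro ⟨x, g⟩
        refine Prod.ext (Subtype.ext ?_) rfl
        show g⁻¹ * (g * (x : G) * g⁻¹) * g = x
        group
      right_inv := by
        rintro ⟨⟨y, hy⟩, ⟨g, hg⟩⟩
        have : g * (g⁻¹ * y * g) * g⁻¹ = y := by group
        apply Sigma.ext
        · exact Subtype.ext this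
        · simp only
          congr 1
          · funext h
            rw [this]
          · exact proof_irrel_heq _ _ }
  have hmuconj : ∀ (x : (P : Subgroup G)) (g : G), mu (P : Subgroup G) (g * x * g⁻¹) = mu (P : Subgroup G) (x : G) := by
    intro x g
    apply Nat.card_congr
    refine (Equiv.mulLeft g⁻¹).subtypeEquiv ?_
    intro h
    have : (g⁻¹ * h)⁻¹ * (x : G) * (g⁻¹ * h) = h⁻¹ * (g * x * g⁻¹) * h := by group
    simp only [Equiv.coe_mulLeft]
    rw [this]
  have hmupos : ∀ y : U, mu (P : Subgroup G) (y : G) ≠ 0 := by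
    rintro ⟨y, k, hk⟩
    have hyp : IsPGroup p (Subgroup.zpowers y) := IsPGroup.of_card (by rw [Nat.card_zpowers, hk])
    obtain ⟨Q, hQ⟩ := hyp.exists_le_sylow
    obtain ⟨g, hg⟩ := MulAction.exists_smul_eq G Q P
    have h1 : g * y * g⁻¹ ∈ (P : Subgroup G) := by
      rw [← hg, Sylow.coe_subgroup_smul]
      have := Subgroup.smul_mem_pointwise_smul _ (MulAut.conj g) _ (hQ (Subgroup.mem_zpowers y))
      simpa using this
    have : Nonempty {h : G // h⁻¹ * y * h ∈ (P : Subgroup G)} := ⟨⟨g⁻¹, by rw [inv_inv]; exact h1⟩⟩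
    exact Nat.card_pos.ne'
  have h1 : ∑ a : (↥(P : Subgroup G)) × G, (1 / (mu (P : Subgroup G) (a.2 * a.1 * a.2⁻¹ : G) : ℝ)) =
      ∑ b : (Σ y : U, {g : G // g⁻¹ * (y : G) * g ∈ (P : Subgroup G)}), (1 / (mu (P : Subgroup G) (b.1 : G) : ℝ)) :=
    Fintype.sum_equiv e _ _ (fun a => rfl)
  rw [Fintype.sum_prod_type, Fintype.sum_sigma] at h1
  have h2 : ∀ x : (P : Subgroup G), ∑ g : G, (1 / (mu (P : Subgroup G) (g * x * g⁻¹ : G) : ℝ)) =
      Nat.card G * (1 / (mu (P : Subgroup G) (x : G) : ℝ)) := by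
    intro x
    rw [Finset.sum_congr rfl (fun g _ => by rw [hmuconj x g]), Finset.sum_const, Finset.card_univ, nsmul_eq_mul,
      Nat.card_eq_fintype_card]
  have h3 : ∀ y : U, ∑ _g : {g : G // g⁻¹ * (y : G) * g ∈ (P : Subgroup G)}, (1 / (mu (P : Subgroup G) (y : G) : ℝ)) = 1 := by
    intro y
    rw [Finset.sum_const, Finset.card_univ, nsmul_eq_mul, ← Nat.card_eq_fintype_card]
    exact mul_one_div_cancel (by exact_mod_cast hmupos y)
  rw [Finset.sum_congr rfl (fun x _ => h2 x), Finset.sum_congr rfl (fun y _ => h3 y), ← Finset.mul_sum,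
    Finset.sum_const, Finset.card_univ, nsmul_eq_mul, mul_one] at h1
  rw [h1, Nat.card_eq_fintype_card]

/-- Let G be a finite p-solvable group, P a Sylow p-subgroup of G, u the number of p-elements of G (elements of p-power order, the identity included) and n the number of Sylow p-subgroups of G. Then u/#P ≥ n^((p−1)/p), stated as u^p ≥ #P^p · n^(p−1). -/
theorem result {G : Type*} [Group G] [Finite G] (p : ℕ) [Fact p.Prime]
    (hG : Cfsg.IsPSolvable p G) (P : Sylow p G) :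
    Nat.card (P : Subgroup G) ^ p * Nat.card (Sylow p G) ^ (p - 1) ≤ Nat.card {g : G // ∃ k : ℕ, orderOf g = p ^ k} ^ p := by
  classical
  letI : Fintype (P : Subgroup G) := Fintype.ofFinite _
  set m := Fintype.card (P : Subgroup G) with hm
  have hmpos : 0 < m := Fintype.card_pos
  set u := Nat.card {g : G // ∃ k : ℕ, orderOf g = p ^ k} with hu
  set ν := Nat.card (Subgroup.normalizer ((P : Subgroup G) : Set G) : Subgroup G) with hν
  set M := ∏ x : (P : Subgroup G), Cfsg.Agent.H12.NP.mu (P : Subgroup G) (x : G) with hM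
  have hνpos : 0 < ν := Nat.card_pos
  have hmupos : ∀ x : (P : Subgroup G), 0 < Cfsg.Agent.H12.NP.mu (P : Subgroup G) (x : G) := by
    intro x
    have : Nonempty {h : G // h⁻¹ * (x : G) * h ∈ (P : Subgroup G)} := ⟨⟨1, by simp⟩⟩
    exact Nat.card_pos
  have hMpos : 0 < M := Finset.prod_pos (fun x _ => hmupos x)
  have hA : M ^ p ≤ Nat.card G ^ m * ν ^ ((p - 1) * m) :=
    Cfsg.Agent.H12.NP.A_main (Nat.card G) G (P : Subgroup G) hG rfl P.isPGroup' P.not_dvd_index
  have hn : Nat.card G = Nat.card (Sylow p G) * ν := by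
    have h := (Subgroup.normalizer (P : Set G) : Subgroup G).card_mul_index
    rw [← P.card_eq_index_normalizer] at h
    rw [← h, mul_comm]
    rfl
  set n := Nat.card (Sylow p G) with hn'
  have hnpos : 0 < n := Nat.card_pos
  -- AM-GM
  have h1 : (Nat.card G * m) ^ m ≤ u ^ m * M := by
    have h2 := amgm (fun x : (P : Subgroup G) => (1 / (Cfsg.Agent.H12.NP.mu (P : Subgroup G) (x : G) : ℝ)))
      (fun x => by positivity) hmpos
    have h3 := count p P
    have hMr : (0 : ℝ) < (M : ℝ) := by exact_mod_cast hMpos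
    have h4 : ∏ x : (P : Subgroup G), (1 / (Cfsg.Agent.H12.NP.mu (P : Subgroup G) (x : G) : ℝ)) = 1 / (M : ℝ) := by
      rw [Finset.prod_div_distrib, Finset.prod_const_one, hM, Nat.cast_prod]
    rw [h4] at h2
    have h5 : ((Nat.card G : ℝ) * m) ^ m ≤ (u : ℝ) ^ m * M := by
      rw [hu, h3, mul_pow, mul_pow]
      have h6 : ((m : ℕ) : ℝ) ^ m ≤ (∑ x : (P : Subgroup G), (1 / (Cfsg.Agent.H12.NP.mu (P : Subgroup G) (x : G) : ℝ))) ^ m * M := by
        have h7 := mul_le_mul_of_nonneg_right h2 hMr.le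
        rw [mul_assoc, one_div, inv_mul_cancel₀ hMr.ne', mul_one] at h7
        exact h7
      rw [mul_assoc]
      exact mul_le_mul_of_nonneg_left h6 (by positivity)
    exact_mod_cast h5
  -- combine
  obtain ⟨q, hq⟩ := Nat.exists_eq_succ_of_ne_zero (Fact.out (p := p.Prime)).ne_zero
  have hq1 : p - 1 = q := by rw [hq]; rfl
  have hcm : Nat.card (P : Subgroup G) = m := by rw [Nat.card_eq_fintype_card]
  rw [hq1] at hA ⊢
  rw [hcm]
  have h2 : ((m ^ p * n ^ q) ^ m) * (n ^ m * ν ^ (m * p)) ≤ (u ^ p) ^ m * (n ^ m * ν ^ (m * p)) := by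
    calc ((m ^ p * n ^ q) ^ m) * (n ^ m * ν ^ (m * p)) = ((Nat.card G * m) ^ m) ^ p := by
          rw [hn, hq, Nat.succ_eq_add_one]; ring
      _ ≤ (u ^ m * M) ^ p := Nat.pow_le_pow_left h1 p
      _ = (u ^ p) ^ m * M ^ p := by ring
      _ ≤ (u ^ p) ^ m * (Nat.card G ^ m * ν ^ (q * m)) := Nat.mul_le_mul_left _ hA
      _ = _ := by rw [hn, hq, Nat.succ_eq_add_one]; ring
  have h3 := Nat.le_of_mul_le_mul_right h2 (Nat.mul_pos (pow_pos hnpos _) (pow_pos hνpos _))
  exact (Nat.pow_le_pow_iff_left hmpos.ne').1 h3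

end Cfsg.Agent.S4091
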