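import Cfsg.Statements.S4092
import Cfsg.Agent.H23_Basic
import Cfsg.Agent.H2_Basic
import Cfsg.Agent.H2_Card
import Cfsg.Agent.H24_Tools
import Cfsg.Agent.H1_Schmidt

set_option autoImplicit false
open Cfsg

namespace Cfsg.Agent.S4092

open scoped Pointwise

theorem pgroup_inf {G : Type*} [Group G] {p : ℕ} (P : Sylow p G) (H : Subgroup G) :
    IsPGroup p ↥((P : Subgroup G) ⊓ H) := P.2.to_le inf_le_left

/-- counting a family of sets with a common pairwise intersection -/
theorem count_family {G : Type*} [Finite G] {ι : Type*} [Finite ι] (S : ι → Set G) (D T : Set G) (m d : ℕ)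
    (hm : ∀ i, (S i).ncard = m) (hD : D.ncard = d) (hDS : ∀ i, D ⊆ S i)
    (hdis : ∀ i j, i ≠ j → S i ∩ S j ⊆ D) (hT : ∀ i, S i ⊆ T) (hne : Nonempty ι) :
    Nat.card ι * (m - d) + d ≤ T.ncard := by
  classical
  haveI := Fintype.ofFinite ι
  haveI := Fintype.ofFinite G
  have h1 : ((Finset.univ : Finset ι).biUnion fun i => ((S i) \ D).toFinset).card = ∑ i : ι, (((S i) \ D).toFinset).card := by
    apply Finset.card_biUnion
    intro i _ j _ hij
    change Disjoint _ _
    rw [Finset.disjoint_left]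
    intro a ha hb
    rw [Set.mem_toFinset] at ha hb
    exact ha.2 (hdis i j hij ⟨ha.1, hb.1⟩)
  have h2 : ∀ i, (((S i) \ D).toFinset).card = m - d := by
    intro i
    rw [← Set.ncard_eq_toFinset_card']
    have := Set.ncard_sdiff_add_ncard_of_subset (hDS i)
    rw [hm, hD] at this
    omega
  rw [Finset.sum_congr rfl fun i _ => h2 i, Finset.sum_const, smul_eq_mul, Finset.card_univ, ← Nat.card_eq_fintype_card] at h1
  set U := (Finset.univ : Finset ι).biUnion fun i => ((S i) \ D).toFinset with hU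
  have h3 : Disjoint U D.toFinset := by
    rw [Finset.disjoint_left]
    intro a ha hb
    rw [hU, Finset.mem_biUnion] at ha
    obtain ⟨i, -, hi⟩ := ha
    rw [Set.mem_toFinset] at hi hb
    exact hi.2 hb
  have h4 : U ∪ D.toFinset ⊆ T.toFinset := by
    intro a ha
    rw [Finset.mem_union] at ha
    rw [Set.mem_toFinset]
    rcases ha with ha | ha
    · rw [hU, Finset.mem_biUnion] at ha
      obtain ⟨i, -, hi⟩ := ha
      rw [Set.mem_toFinset] at hi
      exact hT i hi.1
    · obtain ⟨i⟩ := hne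
      rw [Set.mem_toFinset] at ha
      exact hT i (hDS i ha)
  have h5 := Finset.card_le_card h4
  rw [Finset.card_union_of_disjoint h3, h1, ← Set.ncard_eq_toFinset_card', ← Set.ncard_eq_toFinset_card', hD] at h5
  exact h5

theorem exists_max_inter {G : Type*} [Group G] [Finite G] (p : ℕ) [Fact p.Prime]
    (P : Sylow p G) (hP : ¬ (P : Subgroup G).Normal) :
    ∃ Q R : Sylow p G, Q ≠ R ∧ ∀ S T : Sylow p G, S ≠ T →
      Nat.card ↥((S : Subgroup G) ⊓ T) ≤ Nat.card ↥((Q : Subgroup G) ⊓ R) := by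
  classical
  have hne : ∃ x : Sylow p G × Sylow p G, x.1 ≠ x.2 := by
    by_contra h
    push Not at h
    apply hP
    haveI : Subsingleton (Sylow p G) := ⟨fun a b => h (a, b)⟩
    exact P.normal_of_subsingleton
  obtain ⟨x, hx, hmax⟩ := Set.exists_max_image {x : Sylow p G × Sylow p G | x.1 ≠ x.2}
    (fun x => Nat.card ↥((x.1 : Subgroup G) ⊓ x.2)) (Set.toFinite _) hne
  exact ⟨x.1, x.2, hx, fun S T hST => hmax (S, T) hST⟩

/-- Let G be a finite group, p a prime and P a Sylow p-subgroup of G that is not normal in G. Then G has at least p·#P elements of p-power order (the identity included). -/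
theorem result {G : Type*} [Group G] [Finite G] (p : ℕ) [Fact p.Prime]
    (P : Sylow p G) (hP : ¬ (P : Subgroup G).Normal) :
    p * Nat.card (P : Subgroup G) ≤ Nat.card {g : G // ∃ k : ℕ, orderOf g = p ^ k} := by

  classical
  obtain ⟨P1, P2, hne, hmax⟩ := exists_max_inter p P hP
  set D : Subgroup G := (P1 : Subgroup G) ⊓ P2 with hD
  set H : Subgroup G := Subgroup.normalizer (D : Set G) with hH
  have hDlt : ∀ Q : Sylow p G, (Q = P1 ∨ Q = P2) → D < (Q : Subgroup G) := by
    intro Q hQ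
    refine lt_of_le_of_ne ?_ ?_
    · rcases hQ with rfl | rfl
      · exact inf_le_left
      · exact inf_le_right
    · intro h
      apply hne
      have h1 : (Q : Subgroup G) ≤ P1 := by rw [← h]; exact inf_le_left
      have h2 : (Q : Subgroup G) ≤ P2 := by rw [← h]; exact inf_le_right
      have h3 : P1 = Q := Sylow.ext (Q.3 P1.2 h1)
      have h4 : P2 = Q := Sylow.ext (Q.3 P2.2 h2)
      rw [h3, h4]
  have hDle : D ≤ H := Subgroup.le_normalizer
  -- a Sylow of `G` meeting another in more than `D`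
  have hbig : ∀ S T : Sylow p G, (∃ E : Subgroup G, D < E ∧ E ≤ S ∧ E ≤ T) → S = T := by
    rintro S T ⟨E, hE, hS, hT⟩
    by_contra h
    have h1 := hmax S T h
    have h2 := H2.Card.card_lt_of_lt hE
    have h3 := Subgroup.card_le_of_le (le_inf hS hT)
    omega
  have hgrow : ∀ Q : Sylow p G, (Q = P1 ∨ Q = P2) → D < (Q : Subgroup G) ⊓ H := by
    intro Q hQ
    exact H1.Schmidt.lt_inf_normalizer (hDlt Q hQ) Q.2.isNilpotent
  -- Sylow subgroups of H
  have hsyl : ∀ Q : Sylow p G, (Q = P1 ∨ Q = P2) → ∀ R : Sylow p H,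
      (Q : Subgroup G) ⊓ H ≤ (R : Subgroup H).map H.subtype → (R : Subgroup H).map H.subtype = (Q : Subgroup G) ⊓ H := by
    intro Q hQ R hR
    obtain ⟨S, hS⟩ := (R.2.map H.subtype).exists_le_sylow
    have h1 : S = Q := hbig S Q ⟨_, hgrow Q hQ, hR.trans hS, inf_le_left⟩
    apply le_antisymm _ hR
    refine le_inf (h1 ▸ hS) ?_
    rintro _ ⟨x, -, rfl⟩
    exact x.2
  have hex : ∀ Q : Sylow p G, (Q = P1 ∨ Q = P2) → ∃ R : Sylow p H, (R : Subgroup H).map H.subtype = (Q : Subgroup G) ⊓ H := by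
    intro Q hQ
    have h1 : IsPGroup p (((Q : Subgroup G) ⊓ H).subgroupOf H) := (pgroup_inf Q H).comap_subtype
    obtain ⟨R, hR⟩ := h1.exists_le_sylow
    refine ⟨R, hsyl Q hQ R ?_⟩
    intro x hx
    exact ⟨⟨x, hx.2⟩, hR (show (⟨x, hx.2⟩ : H) ∈ ((Q : Subgroup G) ⊓ H).subgroupOf H from hx), rfl⟩
  obtain ⟨R1, hR1⟩ := hex P1 (Or.inl rfl)
  obtain ⟨R2, hR2⟩ := hex P2 (Or.inr rfl)
  have hR12 : R1 ≠ R2 := by
    intro h
    have h1 : (P1 : Subgroup G) ⊓ H = (P2 : Subgroup G) ⊓ H := by rw [← hR1, ← hR2, h]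
    have h2 := hgrow P1 (Or.inl rfl)
    have h3 : (P1 : Subgroup G) ⊓ H ≤ D := le_inf inf_le_left (h1 ▸ inf_le_left)
    exact absurd h2 (not_lt_of_ge h3)
  have hn : p + 1 ≤ Nat.card (Sylow p H) := by
    have h1 := card_sylow_modEq_one p H
    have h2 : 1 < Nat.card (Sylow p H) := by
      rw [Finite.one_lt_card_iff_nontrivial]
      exact ⟨R1, R2, hR12⟩
    have h3 : p ∣ Nat.card (Sylow p H) - 1 := (Nat.modEq_iff_dvd' h2.le).1 h1.symm
    have h4 := Nat.le_of_dvd (by omega) h3
    omega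
  -- all Sylow subgroups of H contain D
  have hpD : IsPGroup p D := P1.2.to_le inf_le_left
  have hDR : ∀ R : Sylow p H, D ≤ (R : Subgroup H).map H.subtype := by
    intro R
    haveI hnorm : (D.subgroupOf H).Normal := by rw [hH]; infer_instance
    have h1 : IsPGroup p ((R : Subgroup H) ⊔ D.subgroupOf H : Subgroup H) :=
      IsPGroup.to_sup_of_normal_right R.2 hpD.comap_subtype
    have h2 := R.3 h1 le_sup_left
    intro x hx
    have h3 : (⟨x, hDle hx⟩ : H) ∈ (R : Subgroup H) := by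
      rw [← h2]
      exact (le_sup_right : D.subgroupOf H ≤ _) hx
    exact ⟨_, h3, rfl⟩
  choose S hS using fun R : Sylow p H => (R.2.map H.subtype).exists_le_sylow
  have hSinj : ∀ R R' : Sylow p H, S R = S R' → R = R' := by
    intro R R' h
    have h0 : IsPGroup p (((S R : Subgroup G) ⊓ H).subgroupOf H) := (pgroup_inf (S R) H).comap_subtype
    have h1 : (R : Subgroup H) ≤ ((S R : Subgroup G) ⊓ H).subgroupOf H := by
      intro x hx
      exact ⟨hS R ⟨x, hx, rfl⟩, x.2⟩
    have h2 : (R' : Subgroup H) ≤ ((S R : Subgroup G) ⊓ H).subgroupOf H := by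
      intro x hx
      exact ⟨h ▸ hS R' ⟨x, hx, rfl⟩, x.2⟩
    have h3 := R.3 h0 h1
    have h4 := R'.3 h0 h2
    exact Sylow.ext (h3.symm.trans h4)
  have hDS : ∀ R, D ≤ (S R : Subgroup G) := fun R => (hDR R).trans (hS R)
  have hcount := count_family (fun R : Sylow p H => ((S R : Subgroup G) : Set G)) (D : Set G)
    {g : G | ∃ k : ℕ, orderOf g = p ^ k} (Nat.card P) (Nat.card D)
    (fun R => by
      rw [← Nat.card_coe_set_eq]
      exact Nat.card_congr (Sylow.equiv (S R) P).toEquiv)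
    (by rw [← Nat.card_coe_set_eq]; rfl)
    (fun R => hDS R)
    (by
      intro R R' hne' x hx
      by_contra hxD
      apply hne'
      apply hSinj
      refine hbig _ _ ⟨(S R : Subgroup G) ⊓ S R', ?_, inf_le_left, inf_le_right⟩
      refine lt_of_le_of_ne (le_inf (hDS R) (hDS R')) ?_
      intro h
      apply hxD
      rw [h]
      exact hx)
    (by
      intro R x hx
      obtain ⟨k, hk⟩ := (IsPGroup.iff_orderOf.1 (S R).2) ⟨x, hx⟩
      exact ⟨k, by rw [← hk, ← Subgroup.orderOf_coe]⟩)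
    ⟨R1⟩
  have hT : ({g : G | ∃ k : ℕ, orderOf g = p ^ k} : Set G).ncard = Nat.card {g : G // ∃ k : ℕ, orderOf g = p ^ k} := by
    rw [← Nat.card_coe_set_eq]; rfl
  rw [hT] at hcount
  refine le_trans ?_ hcount
  have hPP : Nat.card P = Nat.card P1 := Nat.card_congr (Sylow.equiv P P1).toEquiv
  have hpd : p * Nat.card D ≤ Nat.card P := by
    have h1 := hDlt P1 (Or.inl rfl)
    have h2 := H2.Card.card_mul_relIndex h1.le
    obtain ⟨k, hk⟩ := (IsPGroup.iff_card.1 P1.2)
    have h3 : D.relIndex P1 ∣ p ^ k := by rw [← hk, ← h2]; exact dvd_mul_left _ _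
    obtain ⟨j, -, hj⟩ := (Nat.dvd_prime_pow Fact.out).1 h3
    have h4 : D.relIndex (P1 : Subgroup G) ≠ 1 := by
      rw [Ne, Subgroup.relIndex_eq_one]
      exact not_le_of_gt h1
    have h5 : j ≠ 0 := by rintro rfl; exact h4 (by rw [hj, pow_zero])
    have h6 : p ≤ D.relIndex (P1 : Subgroup G) := by
      rw [hj]
      exact Nat.le_of_dvd (pow_pos (Fact.out : p.Prime).pos _) (dvd_pow_self p h5)
    rw [hPP, ← h2, mul_comm]
    exact Nat.mul_le_mul_left _ h6
  have hdm : Nat.card D ≤ Nat.card P := by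
    rw [hPP]; exact Subgroup.card_le_of_le (hDlt P1 (Or.inl rfl)).le
  change p * Nat.card P ≤ _
  obtain ⟨e, he⟩ := Nat.exists_eq_add_of_le hdm
  have h7 : Nat.card P - Nat.card D = e := by omega
  rw [h7]
  have h8 : (p + 1) * e ≤ Nat.card (Sylow p H) * e := Nat.mul_le_mul_right _ hn
  nlinarith


end Cfsg.Agent.S4092
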