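import Cfsg.Statements.S4093
import Cfsg.Agent.H23_Basic
import Cfsg.Agent.H2_Basic
import Cfsg.Agent.H24_Tools

set_option autoImplicit false
open scoped BigOperators
open Cfsg

namespace Cfsg.Agent.S4093

open scoped Pointwise

theorem card_orbit {G : Type*} [Group G] [Finite G] (N : Subgroup G) (x : G) :
    Nat.card {g : G // ∃ n ∈ N, n * x * n⁻¹ = g} =
      Nat.card N / Nat.card ↥(N ⊓ Subgroup.centralizer ({x} : Set G)) := by
  classical
  letI : MulAction N G := MulAction.compHom G ((MulAut.conj : G →* MulAut G).comp N.subtype)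
  have hsm : ∀ (n : N) (g : G), n • g = (n : G) * g * (n : G)⁻¹ := fun n g => rfl
  have h1 : (MulAction.orbit N x) = {g : G | ∃ n ∈ N, n * x * n⁻¹ = g} := by
    ext g
    simp only [MulAction.mem_orbit_iff, Set.mem_setOf_eq]
    constructor
    · rintro ⟨n, hn⟩
      exact ⟨n, n.2, hn⟩
    · rintro ⟨n, hn, h⟩
      exact ⟨⟨n, hn⟩, h⟩
  have h2 : MulAction.stabilizer N x = (N ⊓ Subgroup.centralizer ({x} : Set G)).subgroupOf N := by
    ext n
    rw [MulAction.mem_stabilizer_iff, Subgroup.mem_subgroupOf, hsm, Subgroup.mem_inf,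
      Subgroup.mem_centralizer_singleton_iff, mul_inv_eq_iff_eq_mul]
    constructor
    · intro h; exact ⟨n.2, h⟩
    · intro h; exact h.2
  have h3 := MulAction.index_stabilizer (G := N) x
  have h4 := (MulAction.stabilizer N x).index_mul_card
  have h5 : Nat.card (MulAction.stabilizer N x) = Nat.card ↥(N ⊓ Subgroup.centralizer ({x} : Set G)) := by
    rw [h2]
    exact Nat.card_congr (Subgroup.subgroupOfEquivOfLe inf_le_left).toEquiv
  have h6 : Nat.card {g : G // ∃ n ∈ N, n * x * n⁻¹ = g} = (MulAction.orbit N x).ncard := by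
    rw [h1, ← Nat.card_coe_set_eq]; rfl
  rw [h6, ← h3, ← h4, h5, Nat.mul_div_cancel _ Nat.card_pos]

/-- Let G be a finite group with a normal subgroup N complementing a Sylow p-subgroup P (a normal p-complement). Then the number of elements of G of p-power order equals the sum over x ∈ P of the index of C_N(x) in N. -/
theorem result {G : Type*} [Group G] [Finite G] (p : ℕ) [Fact p.Prime]
    (P : Sylow p G) (N : Subgroup G) [N.Normal] (hNP : N.IsComplement' (P : Subgroup G)) :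
    Nat.card {g : G // ∃ k : ℕ, orderOf g = p ^ k} =
      ∑ᶠ x : (P : Subgroup G), Nat.card N / Nat.card ↥(N ⊓ Subgroup.centralizer ({(x : G)} : Set G)) := by

  classical
  have hN : N.Normal := inferInstance
  have key : ∀ g : G, (∃ k : ℕ, orderOf g = p ^ k) → ∃ n ∈ N, ∃ x ∈ (P : Subgroup G), g = n * x * n⁻¹ := by
    rintro g ⟨k, hk⟩
    obtain ⟨Q, hQ'⟩ := (H24.Tools.isPGroup_zpowers hk).exists_le_sylow
    have hQ : g ∈ Q := hQ' (Subgroup.mem_zpowers g)
    obtain ⟨a, rfl⟩ := MulAction.exists_smul_eq G P Q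
    obtain ⟨⟨n, q⟩, hnq⟩ := hNP.2 a
    simp only at hnq
    refine ⟨(n : G), n.2, (n : G)⁻¹ * g * (n : G), ?_, by group⟩
    have h1 := (H2.Basic.mem_smul_sylow P a g).1 hQ
    have h2 : (n : G)⁻¹ * g * n = q * (a⁻¹ * g * a) * (q : G)⁻¹ := by
      rw [← hnq]; group
    rw [h2]
    exact (P : Subgroup G).mul_mem ((P : Subgroup G).mul_mem q.2 h1) ((P : Subgroup G).inv_mem q.2)
  set f : {g : G // ∃ k : ℕ, orderOf g = p ^ k} → (P : Subgroup G) := fun g => (hNP.equiv g.1).2 with hf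
  haveI := Fintype.ofFinite (P : Subgroup G)
  rw [Nat.card_congr (Equiv.sigmaFiberEquiv f).symm, Nat.card_sigma, finsum_eq_sum_of_fintype]
  refine Finset.sum_congr rfl fun x _ => ?_
  rw [← card_orbit N (x : G)]
  have hfib : ∀ g : {g : G // ∃ k : ℕ, orderOf g = p ^ k}, f g = x ↔ ∃ n ∈ N, n * (x : G) * n⁻¹ = g := by
    intro g
    have hmul : ((hNP.equiv g.1).1 : G) * ((hNP.equiv g.1).2 : G) = g := hNP.equiv_fst_mul_equiv_snd g.1
    constructor
    · intro h
      obtain ⟨n, hn, y, hy, hg⟩ := key g g.2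
      have h1 : (g : G) = (n * (y * n⁻¹ * y⁻¹)) * y := by rw [hg]; group
      have h2 : n * (y * n⁻¹ * y⁻¹) ∈ N := N.mul_mem hn (hN.conj_mem _ (N.inv_mem hn) y)
      have h3 : hNP.equiv g.1 = (⟨n * (y * n⁻¹ * y⁻¹), h2⟩, ⟨y, hy⟩) := by
        apply hNP.equiv.symm.injective
        rw [Equiv.symm_apply_apply]
        exact h1
      refine ⟨n, hn, ?_⟩
      rw [hg]
      have h4 : x = ⟨y, hy⟩ := by rw [← h, hf]; simp only; rw [h3]
      rw [h4]
    · rintro ⟨n, hn, hg⟩
      have h1 : (g : G) = (n * (x * n⁻¹ * (x : G)⁻¹)) * x := by rw [← hg]; group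
      have h2 : n * (x * n⁻¹ * (x : G)⁻¹) ∈ N := N.mul_mem hn (hN.conj_mem _ (N.inv_mem hn) _)
      have h3 : hNP.equiv g.1 = (⟨n * (x * n⁻¹ * (x : G)⁻¹), h2⟩, x) := by
        apply hNP.equiv.symm.injective
        rw [Equiv.symm_apply_apply]
        exact h1
      rw [hf]; simp only; rw [h3]
  refine Nat.card_congr ⟨fun g => ⟨g.1.1, (hfib g.1).1 g.2⟩, fun g => ⟨⟨g.1, ?_⟩, ?_⟩, fun g => rfl, fun g => rfl⟩
  · obtain ⟨n, hn, hg⟩ := g.2
    rw [← hg]
    have h1 : orderOf (n * (x : G) * n⁻¹) = orderOf (x : G) := by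
      have := orderOf_injective (MulAut.conj n).toMonoidHom (MulAut.conj n).injective (x : G)
      simpa using this
    rw [h1]
    obtain ⟨k, hk⟩ := (IsPGroup.iff_orderOf.1 P.2) x
    exact ⟨k, by rw [← hk, Subgroup.orderOf_coe]⟩
  · exact (hfib ⟨g.1, _⟩).2 g.2


end Cfsg.Agent.S4093
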