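import Cfsg.Statements.S4106
import Mathlib
import Cfsg.Agent.H23_PiClasses

set_option autoImplicit false
open Cfsg

namespace Cfsg.Agent.S4106

/-- Let G be a finite group, π a set of primes and m the π-part of the order of G. Then the number of conjugacy classes of G consisting of π-elements (elements whose order is divisible only by primes in π) is at most m. -/
theorem result {G : Type*} [Group G] [Finite G]
    (π : Set ℕ) (hπ : ∀ q ∈ π, q.Prime)
    (m : ℕ) (hm : m ∣ Nat.card G) (hmπ : ∀ q : ℕ, q.Prime → q ∣ m → q ∈ π)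
    (hm' : ∀ q ∈ π, ¬ q ∣ Nat.card G / m) :
    Nat.card {C : ConjClasses G // ∀ q : ℕ, q.Prime → (∃ g : G, ConjClasses.mk g = C ∧ q ∣ orderOf g) → q ∈ π} ≤ m := by
  classical
  have hG : Nat.card G ≠ 0 := Nat.card_pos.ne'
  have hm0 : m ≠ 0 := by
    rintro rfl
    exact hG (Nat.eq_zero_of_zero_dvd hm)
  set T : Finset ℕ := m.primeFactors with hT
  have hfac : ∀ q ∈ T, (Nat.card G).factorization q = m.factorization q := by
    intro q hq
    have hqp := Nat.prime_of_mem_primeFactors hq
    have hqm := Nat.dvd_of_mem_primeFactors hq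
    obtain ⟨k, hk⟩ := hm
    have hk0 : k ≠ 0 := by rintro rfl; exact hG (by simpa using hk)
    have h1 : Nat.card G / m = k := by rw [hk]; exact Nat.mul_div_cancel_left k (Nat.pos_of_ne_zero hm0)
    have h2 : ¬ q ∣ k := h1 ▸ hm' q (hmπ q hqp hqm)
    rw [hk, Nat.factorization_mul hm0 hk0]
    simp [Nat.factorization_eq_zero_of_not_dvd h2]
  have hcl : ∀ C : ConjClasses G, (∀ q : ℕ, q.Prime → (∃ g : G, ConjClasses.mk g = C ∧ q ∣ orderOf g) → q ∈ π) ↔
      Cfsg.Agent.H23.PiClasses.Cl (T : Set ℕ) C := by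
    intro C
    constructor
    · rintro h q hq ⟨g, hg, hd⟩
      have h1 := h q hq ⟨g, hg, hd⟩
      have h2 : q ∣ Nat.card G := hd.trans (orderOf_dvd_natCard g)
      have h3 : q ∣ m := by
        obtain ⟨k, hk⟩ := hm
        have h4 : Nat.card G / m = k := by rw [hk]; exact Nat.mul_div_cancel_left k (Nat.pos_of_ne_zero hm0)
        rw [hk] at h2
        rcases (Nat.Prime.dvd_mul hq).mp h2 with h5 | h5
        · exact h5
        · exact absurd (h4 ▸ h5) (hm' q h1)
      exact Finset.mem_coe.mpr (Nat.mem_primeFactors.mpr ⟨hq, h3, hm0⟩)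
    · intro h q hq hd
      have h1 := h q hq hd
      exact hmπ q hq (Nat.dvd_of_mem_primeFactors (Finset.mem_coe.mp h1))
  rw [Nat.card_congr (Equiv.subtypeEquivRight hcl)]
  refine (Cfsg.Agent.H23.PiClasses.main T (fun q hq => Nat.prime_of_mem_primeFactors hq) G).trans ?_
  rw [Finset.prod_congr rfl (fun q hq => by rw [hfac q hq])]
  exact (Nat.factorization_prod_pow_eq_self hm0).le

end Cfsg.Agent.S4106
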