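import Cfsg.Statements.S4107
import Mathlib
import Cfsg.Agent.H1_Nilp

set_option autoImplicit false
open Cfsg

namespace Cfsg.Agent.S4107

/-- Let G be a finite group and N a proper non-trivial normal subgroup such that for every x outside N all elements of the coset xN have the same order as x. Then N ≤ F(G) or F(G) ≤ N, where F(G) is the Fitting subgroup; and if N is properly contained in F(G) then F(G) has prime-power order. -/
theorem result {G : Type*} [Group G] [Finite G] (N : Subgroup G) [N.Normal] (hN1 : N ≠ ⊥) (hN2 : N ≠ ⊤)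
    (heq : ∀ x : G, x ∉ N → ∀ n ∈ N, orderOf (x * n) = orderOf x) :
    (N ≤ Cfsg.fittingSubgroup G ∨ Cfsg.fittingSubgroup G ≤ N) ∧
    (N < Cfsg.fittingSubgroup G → IsPrimePow (Nat.card (Cfsg.fittingSubgroup G))) := by
  classical
  have key : ∀ p : ℕ, p.Prime → ¬ (Cfsg.pCore p G ≤ N) → IsPGroup p N := by
    intro p hp hpN
    haveI : Fact p.Prime := ⟨hp⟩
    rw [SetLike.not_le_iff_exists] at hpN
    obtain ⟨x, hxp, hxN⟩ := hpN
    haveI := Cfsg.Agent.H1.Nilp.pCore_normal (G := G) p
    set M := Cfsg.pCore p G ⊓ N with hM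
    have hMn : M.Normal := Subgroup.normal_inf_normal _ _
    have hpow : ∀ y ∈ Cfsg.pCore p G, ∃ k, orderOf y = p ^ k := by
      intro y hy
      obtain ⟨k, hk⟩ := (IsPGroup.iff_orderOf.mp (Cfsg.Agent.H1.Nilp.pCore_isPGroup (G := G) p)) ⟨y, hy⟩
      exact ⟨k, by rw [← hk, Subgroup.orderOf_mk]⟩
    obtain ⟨k, hk⟩ := hpow x hxp
    rw [IsPGroup.iff_card]
    refine ⟨_, Nat.eq_prime_pow_of_unique_prime_dvd Nat.card_pos.ne' ?_⟩
    intro q hq hqd
    by_contra hqp
    haveI : Fact q.Prime := ⟨hq⟩
    obtain ⟨⟨n, hnN⟩, hn⟩ := exists_prime_orderOf_dvd_card' (G := N) q hqd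
    rw [Subgroup.orderOf_mk] at hn
    -- images in G ⧸ M
    have hnM : n ∉ M := by
      intro h
      obtain ⟨j, hj⟩ := hpow n h.1
      rw [hn] at hj
      have h1 : q ∣ p ^ j := by rw [← hj]
      exact hqp ((Nat.prime_dvd_prime_iff_eq hq hp).mp (hq.dvd_of_dvd_pow h1))
    have hcomm : Commute (QuotientGroup.mk' M x) (QuotientGroup.mk' M n) := by
      have h1 : (x * n)⁻¹ * (n * x) ∈ M := by
        constructor
        · have h2 : (x * n)⁻¹ * (n * x) = (n⁻¹ * x⁻¹ * n) * x := by group
          rw [h2]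
          apply mul_mem _ hxp
          have := (Cfsg.Agent.H1.Nilp.pCore_normal (G := G) p).conj_mem x⁻¹ (inv_mem hxp) n⁻¹
          simpa using this
        · have h2 : (x * n)⁻¹ * (n * x) = n⁻¹ * (x⁻¹ * n * x) := by group
          rw [h2]
          apply mul_mem (inv_mem hnN)
          have := (inferInstance : N.Normal).conj_mem n hnN x⁻¹
          simpa using this
      change QuotientGroup.mk' M x * QuotientGroup.mk' M n = QuotientGroup.mk' M n * QuotientGroup.mk' M x
      rw [← map_mul, ← map_mul]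
      exact QuotientGroup.eq.mpr h1
    have hno : orderOf (QuotientGroup.mk' M n) = q := by
      have h1 : orderOf (QuotientGroup.mk' M n) ∣ q := hn ▸ orderOf_map_dvd (QuotientGroup.mk' M) n
      rcases (Nat.dvd_prime hq).mp h1 with h2 | h2
      · exfalso
        rw [orderOf_eq_one_iff] at h2
        exact hnM ((QuotientGroup.eq_one_iff n).mp h2)
      · exact h2
    have hxo : orderOf (QuotientGroup.mk' M x) ∣ p ^ k := hk ▸ orderOf_map_dvd (QuotientGroup.mk' M) x
    have hcop : Nat.Coprime (orderOf (QuotientGroup.mk' M x)) (orderOf (QuotientGroup.mk' M n)) := by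
      rw [hno]
      apply Nat.Coprime.coprime_dvd_left hxo
      apply Nat.Coprime.pow_left
      rw [Nat.coprime_primes hp hq]
      exact fun h => hqp h.symm
    have h3 := hcomm.orderOf_mul_eq_mul_orderOf_of_coprime hcop
    have h4 : q ∣ orderOf (x * n) := by
      have h5 : orderOf (QuotientGroup.mk' M (x * n)) ∣ orderOf (x * n) := orderOf_map_dvd _ _
      rw [map_mul, h3, hno] at h5
      exact (Dvd.intro_left _ rfl).trans h5
    rw [heq x hxN n hnN, hk] at h4
    exact hqp ((Nat.prime_dvd_prime_iff_eq hq hp).mp (hq.dvd_of_dvd_pow h4))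
  have hex : ¬ (Cfsg.fittingSubgroup G ≤ N) → ∃ p : ℕ, p.Prime ∧ ¬ (Cfsg.pCore p G ≤ N) := by
    intro h
    by_contra hcon
    push Not at hcon
    apply h
    rw [Cfsg.Agent.H1.Nilp.fitting_eq_iSup]
    exact iSup_le (fun p => hcon p p.2)
  constructor
  · by_cases h : Cfsg.fittingSubgroup G ≤ N
    · exact Or.inr h
    · left
      obtain ⟨p, hp, hpN⟩ := hex h
      haveI : Fact p.Prime := ⟨hp⟩
      exact (Cfsg.Agent.H1.Nilp.le_pCore inferInstance (key p hp hpN)).trans
        (Cfsg.Agent.H1.Nilp.pCore_le_fitting p)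
  · intro hlt
    obtain ⟨p, hp, hpN⟩ := hex (not_le_of_gt hlt)
    haveI : Fact p.Prime := ⟨hp⟩
    have hNp := key p hp hpN
    have hF : Cfsg.fittingSubgroup G = Cfsg.pCore p G := by
      apply le_antisymm
      · rw [Cfsg.Agent.H1.Nilp.fitting_eq_iSup]
        apply iSup_le
        rintro ⟨q, hq⟩
        haveI : Fact q.Prime := ⟨hq⟩
        by_cases hqp : q = p
        · subst hqp
          exact le_rfl
        · have h1 : Cfsg.pCore q G ≤ N := by
            by_contra h2
            have h3 := key q hq h2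
            exact hN1 (Subgroup.eq_bot_of_card_eq _ (by
              obtain ⟨a, ha⟩ := IsPGroup.iff_card.mp h3
              obtain ⟨b, hb⟩ := IsPGroup.iff_card.mp hNp
              have h4 : Nat.Coprime (q ^ a) (p ^ b) := Nat.Coprime.pow a b ((Nat.coprime_primes hq hp).mpr hqp)
              rw [← ha, ← hb, Nat.coprime_self] at h4
              exact h4))
          have h2 : IsPGroup p (Cfsg.pCore q G) := hNp.to_le h1
          have h3 : Cfsg.pCore q G = ⊥ := Subgroup.eq_bot_of_card_eq _ (by
              obtain ⟨a, ha⟩ := IsPGroup.iff_card.mp (Cfsg.Agent.H1.Nilp.pCore_isPGroup (G := G) q)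
              obtain ⟨b, hb⟩ := IsPGroup.iff_card.mp h2
              have h4 : Nat.Coprime (q ^ a) (p ^ b) := Nat.Coprime.pow a b ((Nat.coprime_primes hq hp).mpr hqp)
              rw [← ha, ← hb, Nat.coprime_self] at h4
              exact h4)
          simp only
          rw [h3]
          exact bot_le
      · exact Cfsg.Agent.H1.Nilp.pCore_le_fitting p
    obtain ⟨a, ha⟩ := IsPGroup.iff_card.mp (Cfsg.Agent.H1.Nilp.pCore_isPGroup (G := G) p)
    rw [hF, ha, isPrimePow_nat_iff]
    refine ⟨p, a, hp, ?_, rfl⟩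
    rw [Nat.pos_iff_ne_zero]
    rintro rfl
    rw [pow_zero] at ha
    have h1 : Cfsg.pCore p G = ⊥ := Subgroup.eq_bot_of_card_eq _ ha
    apply hpN
    rw [h1]
    exact bot_le

end Cfsg.Agent.S4107
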