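import Cfsg.Statements.S4108
import Mathlib
import Cfsg.Agent.H23_FrobKer

set_option autoImplicit false
open Cfsg

namespace Cfsg.Agent.S4108

/-- Let G be a finite group, p a prime and N a proper non-trivial normal p-subgroup such that for every x outside N all elements of the coset xN have the same order as x. Then every non-trivial subgroup H of G of order prime to p acts fixed-point-freely on N: NH is a Frobenius group with complement H and kernel N. -/
theorem result {G : Type*} [Group G] [Finite G] (N : Subgroup G) [N.Normal] (hN1 : N ≠ ⊥) (hN2 : N ≠ ⊤)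
    (heq : ∀ x : G, x ∉ N → ∀ n ∈ N, orderOf (x * n) = orderOf x)
    (p : ℕ) [Fact p.Prime] (hNp : IsPGroup p N) :
    ∀ H : Subgroup G, H ≠ ⊥ → (Nat.card H).Coprime p →
      Cfsg.IsFrobeniusComplement (H.subgroupOf (N ⊔ H)) ∧ Cfsg.frobeniusKernel (H.subgroupOf (N ⊔ H)) = (N.subgroupOf (N ⊔ H) : Set ↥(N ⊔ H)) := by
  intro H hH hcop
  apply Cfsg.Agent.H23.FrobKer.frobenius_of_fpf N H hN1 hH
  intro h hh hh1 n hn hcomm
  by_contra hn1
  have hp : p.Prime := Fact.out
  -- h is not in N
  have hho : (orderOf h).Coprime p := by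
    apply Nat.Coprime.coprime_dvd_left _ hcop
    have := orderOf_dvd_natCard (⟨h, hh⟩ : H)
    rwa [Subgroup.orderOf_mk] at this
  obtain ⟨k, hk⟩ := (IsPGroup.iff_orderOf.mp hNp) ⟨n, hn⟩
  rw [Subgroup.orderOf_mk] at hk
  have hhN : h ∉ N := by
    intro hhN
    obtain ⟨j, hj⟩ := (IsPGroup.iff_orderOf.mp hNp) ⟨h, hhN⟩
    rw [Subgroup.orderOf_mk] at hj
    rw [hj] at hho
    have h1 : Nat.Coprime (p ^ j) (p ^ j) := Nat.Coprime.pow_right j hho
    rw [Nat.coprime_self, ← hj, orderOf_eq_one_iff] at h1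
    exact hh1 h1
  have h2 := heq h hhN n hn
  have hc : Commute h n := hcomm
  have hcop2 : Nat.Coprime (orderOf h) (orderOf n) := by
    rw [hk]
    exact Nat.Coprime.pow_right k hho
  rw [hc.orderOf_mul_eq_mul_orderOf_of_coprime hcop2] at h2
  have h3 : orderOf n = 1 := by
    have h4 := orderOf_pos h
    exact Nat.eq_of_mul_eq_mul_left h4 (by rw [h2, mul_one])
  exact hn1 (orderOf_eq_one_iff.mp h3)

end Cfsg.Agent.S4108
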