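import Cfsg.Statements.S4112
import Mathlib
import Cfsg.Agent.H1_Nilp
import Cfsg.Agent.H23_PiPart

set_option autoImplicit false
open Cfsg

namespace Cfsg.Agent.S4112

/-- all prime divisors of the order of a minimal supplement divide the index -/
theorem minimal_supplement {G : Type*} [Group G] [Finite G] (N : Subgroup G) [N.Normal] :
    ∃ H : Subgroup G, H ⊔ N = ⊤ ∧ ∀ p : ℕ, p.Prime → p ∣ Nat.card H → p ∣ N.index := by
  obtain ⟨H, hH⟩ := (Set.toFinite {H : Subgroup G | H ⊔ N = ⊤}).exists_minimal ⟨⊤, by simp⟩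
  have hHN : H ⊔ N = ⊤ := hH.prop
  refine ⟨H, hHN, ?_⟩
  intro p hp hpH
  by_contra hpN
  haveI : Fact p.Prime := ⟨hp⟩
  -- any subgroup of `H` supplementing is `H`
  have hmin : ∀ L : Subgroup H, (L.map H.subtype) ⊔ N = ⊤ → L = ⊤ := by
    intro L hL
    have h1 := hH.eq_of_le hL (Subgroup.map_subtype_le L)
    rw [eq_top_iff]
    intro x _
    have h2 : (x : G) ∈ L.map H.subtype := h1.symm ▸ x.2
    obtain ⟨y, hy, hyx⟩ := Subgroup.mem_map.mp h2
    have : y = x := Subtype.ext hyx
    rwa [← this]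
  have hsup : ∀ L : Subgroup H, L ⊔ N.subgroupOf H = ⊤ → L = ⊤ := by
    intro L hL
    apply hmin
    rw [eq_top_iff, ← hHN]
    apply sup_le _ le_sup_right
    intro x hx
    have h1 : (⟨x, hx⟩ : H) ∈ L ⊔ N.subgroupOf H := by rw [hL]; exact Subgroup.mem_top _
    obtain ⟨y, hy, z, hz, hyz⟩ := Subgroup.mem_sup_of_normal_right.mp h1
    have h2 : x = (y : G) * z := (congrArg Subtype.val hyz).symm
    rw [h2]
    exact mul_mem (Subgroup.mem_sup_left (Subgroup.mem_map_of_mem _ hy)) (Subgroup.mem_sup_right hz)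
  -- the index of N ∩ H in H
  have hidx : (N.subgroupOf H).index = N.index := by
    have h1 : N.relIndex (H ⊔ N) = N.relIndex H := Subgroup.relIndex_sup_right _ _
    rw [hHN, Subgroup.relIndex_top_right] at h1
    exact h1.symm
  let P : Sylow p (N.subgroupOf H) := default
  have hfrat := Sylow.normalizer_sup_eq_top P
  have hnorm := hsup _ hfrat
  rw [Subgroup.normalizer_eq_top_iff] at hnorm
  set P' : Subgroup H := (P : Subgroup (N.subgroupOf H)).map (N.subgroupOf H).subtype with hP'
  have hcardP : Nat.card P' = Nat.card P := by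
    rw [hP']
    exact Subgroup.card_map_of_injective (Subgroup.subtype_injective _)
  have hPi : ¬ p ∣ P'.index := by
    have h1 : P'.index = P.index * (N.subgroupOf H).index := by
      rw [hP', Subgroup.index_map_subtype]
    rw [h1, hidx, hp.dvd_mul, not_or]
    exact ⟨P.not_dvd_index, hpN⟩
  have hcop : Nat.Coprime (Nat.card P') P'.index := by
    obtain ⟨k, hk⟩ := IsPGroup.iff_card.mp P.isPGroup'
    rw [hcardP, hk]
    exact Nat.Coprime.pow_left k ((hp.coprime_iff_not_dvd).mpr hPi)
  obtain ⟨L, hL⟩ := Subgroup.exists_left_complement'_of_coprime hcop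
  have hL2 : L ⊔ N.subgroupOf H = ⊤ := by
    rw [eq_top_iff, ← hL.sup_eq_top]
    exact sup_le_sup le_rfl (Subgroup.map_subtype_le _)
  have hLt := hsup L hL2
  subst hLt
  have h3 : P' = ⊥ := by
    have := hL.disjoint.eq_bot
    rwa [top_inf_eq] at this
  apply hPi
  rw [h3, Subgroup.index_bot]
  exact hpH


/-- Let G be a finite group and M ≤ N non-trivial proper normal subgroups such that for every g outside N the conjugacy class of g is a union of cosets of M (equivalently gm is conjugate to g for every m ∈ M). Then (1) and (2) below are equivalent, and they imply (3): (1) every g outside N acts fixed-point-freely on M, that is C_G(x) ≤ N for every x ∈ M, x ≠ 1; (2) the index of N in G is coprime to the order of M; (3) there is a subgroup H of G with HN = G and H ∩ M = 1. -/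
theorem result {G : Type*} [Group G] [Finite G] (N M : Subgroup G) [N.Normal] [M.Normal] (hMN : M ≤ N) (hM1 : M ≠ ⊥) (hN2 : N ≠ ⊤)
    (hcam : ∀ g : G, g ∉ N → ∀ m ∈ M, ∃ x : G, x * g * x⁻¹ = g * m) :
    ((∀ x ∈ M, x ≠ 1 → Subgroup.centralizer ({x} : Set G) ≤ N) ↔ N.index.Coprime (Nat.card M)) ∧
    ((∀ x ∈ M, x ≠ 1 → Subgroup.centralizer ({x} : Set G) ≤ N) → ∃ H : Subgroup G, H ⊔ N = ⊤ ∧ H ⊓ M = ⊥) := by
  classical
  have h12 : (∀ x ∈ M, x ≠ 1 → Subgroup.centralizer ({x} : Set G) ≤ N) → N.index.Coprime (Nat.card M) := by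
    intro h1
    rw [Nat.coprime_iff_gcd_eq_one]
    by_contra hne
    obtain ⟨p, hp, hpd⟩ := Nat.exists_prime_and_dvd hne
    have hpN : p ∣ N.index := hpd.trans (Nat.gcd_dvd_left _ _)
    have hpM : p ∣ Nat.card M := hpd.trans (Nat.gcd_dvd_right _ _)
    haveI : Fact p.Prime := ⟨hp⟩
    obtain ⟨⟨z, hzM⟩, hz⟩ := exists_prime_orderOf_dvd_card' (G := M) p hpM
    rw [Subgroup.orderOf_mk] at hz
    have hzp : IsPGroup p (Subgroup.zpowers z) := by
      rw [IsPGroup.iff_card]
      exact ⟨1, by rw [Nat.card_zpowers, hz, pow_one]⟩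
    obtain ⟨P, hP⟩ := hzp.exists_le_sylow
    have hzP : z ∈ P := hP (Subgroup.mem_zpowers z)
    haveI : Group.IsNilpotent P := P.isPGroup'.isNilpotent
    have hb : M.subgroupOf (P : Subgroup G) ≠ ⊥ := by
      intro hbot
      have h2 : (⟨z, hzP⟩ : P) ∈ M.subgroupOf (P : Subgroup G) := hzM
      rw [hbot, Subgroup.mem_bot] at h2
      have h3 : z = 1 := congrArg Subtype.val h2
      rw [h3, orderOf_one] at hz
      exact hp.one_lt.ne hz
    have h3 := Cfsg.Agent.H1.Nilp.normal_inf_center_ne_bot (M.subgroupOf (P : Subgroup G)) hb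
    obtain ⟨⟨⟨w, hwP⟩, hw⟩, hw1⟩ := Subgroup.ne_bot_iff_exists_ne_one.mp h3
    have hwM : w ∈ M := hw.1
    have hwc := Subgroup.mem_center_iff.mp hw.2
    have hw1' : w ≠ 1 := by
      rintro rfl
      apply hw1
      apply Subtype.ext
      rfl
    have hPN : (P : Subgroup G) ≤ N := by
      intro y hy
      apply h1 w hwM hw1'
      rw [Subgroup.mem_centralizer_singleton_iff]
      exact congrArg Subtype.val (hwc ⟨y, hy⟩)
    exact P.not_dvd_index (hpN.trans (Subgroup.index_dvd_of_le hPN))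
  refine ⟨⟨h12, ?_⟩, ?_⟩
  · intro hcop x hxM hx1 c hc
    by_contra hcN
    rw [Subgroup.mem_centralizer_singleton_iff] at hc
    have hox : orderOf x ≠ 1 := fun h => hx1 (orderOf_eq_one_iff.mp h)
    obtain ⟨p, hp, hpd⟩ := Nat.exists_prime_and_dvd hox
    haveI : Fact p.Prime := ⟨hp⟩
    have hpM : p ∣ Nat.card M := by
      have := orderOf_dvd_natCard (⟨x, hxM⟩ : M)
      rw [Subgroup.orderOf_mk] at this
      exact hpd.trans this
    have hpN : ¬ p ∣ N.index := fun h => by
      have := Nat.dvd_gcd h hpM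
      rw [hcop] at this
      exact hp.not_dvd_one this
    set x' := x ^ (orderOf x / p) with hx'
    have hx'o : orderOf x' = p := by
      rw [hx', orderOf_pow_of_dvd (Nat.div_pos (Nat.le_of_dvd (orderOf_pos x) hpd) hp.pos).ne' (Nat.div_dvd_of_dvd hpd)]
      exact Nat.div_div_self hpd (orderOf_pos x).ne'
    have hx'M : x' ∈ M := pow_mem hxM _
    have hcx : Commute c x' := (show Commute c x from hc).pow_right _
    -- decomposition of c
    have ho : orderOf c ≠ 0 := (orderOf_pos c).ne'
    set e := (orderOf c).factorization p with he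
    have h1 : orderOf c = p ^ e * (orderOf c / p ^ e) := (Nat.mul_div_cancel' (Nat.ordProj_dvd _ p)).symm
    have hcop2 : Nat.Coprime (p ^ e) (orderOf c / p ^ e) := by
      apply Nat.Coprime.pow_left
      exact Nat.coprime_ordCompl hp ho
    obtain ⟨u, v, hu, hu', hv, hv', huv⟩ := Cfsg.Agent.H23.PiPart.exists_exponents _ _ hcop2
    rw [← h1] at huv
    have hsum : c ^ u * c ^ v = c := by
      rw [← pow_add, Cfsg.Agent.H23.PiPart.pow_modEq (pow_orderOf_eq_one c) huv, pow_one]
    have hcu : (c ^ u) ^ (p ^ e) = 1 := by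
      obtain ⟨k, hk⟩ := hu'
      rw [← pow_mul, hk]
      have : orderOf c / p ^ e * k * p ^ e = orderOf c * k := by
        conv_rhs => rw [h1]
        ring
      rw [this, pow_mul, pow_orderOf_eq_one, one_pow]
    have hcv : (c ^ v) ^ (orderOf c / p ^ e) = 1 := by
      obtain ⟨k, hk⟩ := hv'
      rw [← pow_mul, hk]
      have : p ^ e * k * (orderOf c / p ^ e) = orderOf c * k := by
        conv_rhs => rw [h1]
        ring
      rw [this, pow_mul, pow_orderOf_eq_one, one_pow]
    have hcuN : c ^ u ∈ N := by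
      rw [← QuotientGroup.eq_one_iff, ← orderOf_eq_one_iff]
      have h2 : orderOf ((c ^ u : G) : G ⧸ N) ∣ p ^ e :=
        (orderOf_map_dvd (QuotientGroup.mk' N) (c ^ u)).trans (orderOf_dvd_of_pow_eq_one hcu)
      have h3 : orderOf ((c ^ u : G) : G ⧸ N) ∣ N.index := by
        rw [Subgroup.index_eq_card]
        exact orderOf_dvd_natCard _
      have h4 : Nat.Coprime (p ^ e) N.index := Nat.Coprime.pow_left e ((hp.coprime_iff_not_dvd).mpr hpN)
      exact Nat.eq_one_of_dvd_coprimes h4 h2 h3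
    have hcvN : c ^ v ∉ N := fun h => hcN (by rw [← hsum]; exact mul_mem hcuN h)
    obtain ⟨y, hy⟩ := hcam _ hcvN x' hx'M
    have h5 : orderOf (c ^ v * x') = orderOf (c ^ v) := by
      rw [← hy]
      have := orderOf_injective (MulAut.conj y).toMonoidHom (MulAut.conj y).injective (c ^ v)
      simpa using this
    have h6 : Nat.Coprime (orderOf (c ^ v)) (orderOf x') := by
      rw [hx'o]
      apply Nat.Coprime.coprime_dvd_left (orderOf_dvd_of_pow_eq_one hcv)
      exact ((hp.coprime_iff_not_dvd).mpr (Nat.not_dvd_ordCompl hp ho)).symm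
    rw [(hcx.pow_left v).orderOf_mul_eq_mul_orderOf_of_coprime h6, hx'o] at h5
    have h7 := orderOf_pos (c ^ v)
    have h8 := hp.two_le
    nlinarith
  · intro h1
    have hcop := h12 h1
    obtain ⟨H, hH1, hH2⟩ := minimal_supplement N
    refine ⟨H, hH1, ?_⟩
    apply Subgroup.inf_eq_bot_of_coprime
    rw [Nat.coprime_iff_gcd_eq_one]
    by_contra hne
    obtain ⟨p, hp, hpd⟩ := Nat.exists_prime_and_dvd hne
    have h3 := hH2 p hp (hpd.trans (Nat.gcd_dvd_left _ _))
    have h4 := Nat.dvd_gcd h3 (hpd.trans (Nat.gcd_dvd_right _ _))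
    rw [hcop] at h4
    exact hp.not_dvd_one h4

end Cfsg.Agent.S4112
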