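import Cfsg.Statements.S4115
import Cfsg.Agent.H24_TIHall
-- import your own Cfsg.Agent.* helpers here

set_option autoImplicit false
universe u
open Cfsg

namespace Cfsg.Agent.S4115

open Subgroup Cfsg.Agent.H24.TIHall in
theorem mkDat {G : Type*} [Group G] [Finite G] (H : Subgroup G)
    (hTI : Cfsg.IsTISubset (H : Set G)) (hHall : (Nat.card H).Coprime (H.subgroupOf (Subgroup.normalizer (H : Set G))).index)
    (K : Subgroup (Subgroup.normalizer (H : Set G))) (hK : K.Normal) (hKc : K.IsComplement' (H.subgroupOf (Subgroup.normalizer (H : Set G)))) :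
    Dat H (K.map (Subgroup.normalizer (H : Set G)).subtype) := by
  have hHn : (H.subgroupOf (Subgroup.normalizer (H : Set G))).Normal := inferInstance
  have hdisj := hKc.disjoint
  refine ⟨hTI, ?_, ?_, ?_⟩
  · intro y hy
    obtain ⟨⟨k, h⟩, hkh⟩ := hKc.2 ⟨y, hy⟩
    refine ⟨k.1, ⟨k.1, k.2, rfl⟩, h.1, h.2, ?_⟩
    exact (congrArg Subtype.val hkh).symm
  · rintro _ ⟨k, hk, rfl⟩ h hh
    have h1 := Subgroup.commute_of_normal_of_disjoint K _ hK hHn hdisj k ⟨h, le_normalizer hh⟩ hk hh
    exact congrArg Subtype.val h1.eq
  · rw [card_map_of_injective (subtype_injective _)]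
    have h1 : (H.subgroupOf (Subgroup.normalizer (H : Set G))).index = Nat.card K := hKc.index_eq_card
    rw [← h1]
    exact hHall.symm

/-- Let G be a finite group and H a subgroup that meets each of its conjugates by elements outside N_G(H) trivially and whose order is coprime to its index in N_G(H). Then H has a normal complement in N_G(H) if and only if H has a normal complement in G. Moreover, if H is not normal in G and has a normal complement in N_G(H), then H is isomorphic to a Frobenius complement of some finite Frobenius group. -/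
theorem result {G : Type u} [Group G] [Finite G] (H : Subgroup G)
    (hTI : Cfsg.IsTISubset (H : Set G)) (hHall : (Nat.card H).Coprime (H.subgroupOf (Subgroup.normalizer (H : Set G))).index) :
    ((∃ K : Subgroup (Subgroup.normalizer (H : Set G)), K.Normal ∧ K.IsComplement' (H.subgroupOf (Subgroup.normalizer (H : Set G)))) ↔
      (∃ N : Subgroup G, N.Normal ∧ N.IsComplement' H)) ∧
    (¬ H.Normal → (∃ K : Subgroup (Subgroup.normalizer (H : Set G)), K.Normal ∧ K.IsComplement' (H.subgroupOf (Subgroup.normalizer (H : Set G)))) →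
      ∃ (F : Type u) (_ : Group F) (_ : Finite F) (C : Subgroup F), Cfsg.IsFrobeniusComplement C ∧ Nonempty (H ≃* C)) := by
  have hiff : (∃ K : Subgroup (Subgroup.normalizer (H : Set G)), K.Normal ∧ K.IsComplement' (H.subgroupOf (Subgroup.normalizer (H : Set G)))) ↔
      (∃ N : Subgroup G, N.Normal ∧ N.IsComplement' H) := by
    constructor
    · rintro ⟨K, hK, hKc⟩
      have d := mkDat H hTI hHall K hK hKc
      obtain ⟨M, hM, h1, h2⟩ := d.complement (d.hall hHall)
      refine ⟨M, hM, ?_⟩
      apply Subgroup.isComplement'_of_disjoint_and_mul_eq_univ (disjoint_iff.2 h2)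
      ext g
      constructor
      · intro _; trivial
      · intro _
        obtain ⟨m, hm, h, hh, rfl⟩ := Cfsg.Agent.H24.TIHall.factor M h1 g
        exact Set.mul_mem_mul hm hh
    · rintro ⟨N, hN, hNc⟩
      refine ⟨N.subgroupOf _, inferInstance, ?_⟩
      apply Subgroup.isComplement'_of_disjoint_and_mul_eq_univ
      · rw [disjoint_iff, eq_bot_iff]
        intro x hx
        rw [Subgroup.mem_bot]
        apply Subtype.ext
        have h1 : (x : G) ∈ N ⊓ H := ⟨hx.1, hx.2⟩
        rw [hNc.disjoint.eq_bot, Subgroup.mem_bot] at h1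
        exact h1
      · ext x
        constructor
        · intro _; trivial
        · intro _
          obtain ⟨⟨n, h⟩, hnh⟩ := hNc.2 (x : G)
          have hhn : (h : G) ∈ Subgroup.normalizer (H : Set G) := Subgroup.le_normalizer h.2
          have hnn : (n : G) ∈ Subgroup.normalizer (H : Set G) := by
            have h1 := mul_mem x.2 (inv_mem hhn)
            have h2 : (x : G) * (h : G)⁻¹ = n := by rw [← hnh]; simp
            rwa [h2] at h1
          have h3 : x = ⟨n, hnn⟩ * ⟨h, hhn⟩ := Subtype.ext hnh.symm
          rw [h3]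
          exact Set.mul_mem_mul n.2 h.2
  refine ⟨hiff, ?_⟩
  rintro hn ⟨K, hK, hKc⟩
  have d := mkDat H hTI hHall K hK hKc
  obtain ⟨M, hM, h1, h2⟩ := d.complement (d.hall hHall)
  haveI := hM
  exact d.frob M (d.hall hHall) hn h1 h2

end Cfsg.Agent.S4115
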