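import Cfsg.Statements.S4117
import Mathlib
import Cfsg.Agent.H23_ZAction

set_option autoImplicit false
open Cfsg

namespace Cfsg.Agent.S4117

open Subgroup
open scoped commutatorElement

theorem core {G A Γ : Type*} [Group G] [Finite G] [Group A] [Finite A] [Group Γ] [Finite Γ]
    [MulDistribMulAction A G] (inl : G →* Γ) (inr : A →* Γ) (hinl : Function.Injective inl)
    (hinr : Function.Injective inr)
    (hact : ∀ (a : A) (g : G), inl (a • g) = inr a * inl g * (inr a)⁻¹)
    (hcop : (Nat.card A).Coprime (Nat.card G))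
    (hcyc : ∀ (p : ℕ) [Fact p.Prime] (P : Sylow p G), IsCyclic (P : Subgroup G)) :
    (Nat.card (MulAction.fixedPoints A G : Set G)).Coprime (Nat.card G / Nat.card (MulAction.fixedPoints A G : Set G)) ∧
    IsCyclic (Subgroup.closure {y : G | ∃ (a : A) (g : G), y = g⁻¹ * a • g}) ∧
    (Subgroup.closure {y : G | ∃ (a : A) (g : G), y = g⁻¹ * a • g}).Normal ∧
    (Subgroup.closure {y : G | ∃ (a : A) (g : G), y = g⁻¹ * a • g} : Set G) ∩ MulAction.fixedPoints A G = {1} ∧
    Subgroup.closure {y : G | ∃ (a : A) (g : G), y = g⁻¹ * a • g} ⊔ Subgroup.closure (MulAction.fixedPoints A G) = ⊤ := by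
  have hZG : IsZGroup G := ⟨fun p hp P => @hcyc p ⟨hp⟩ P⟩
  set K : Subgroup Γ := inl.range with hK
  set A' : Subgroup Γ := inr.range with hA'
  have hKA : A' ≤ normalizer (K : Set Γ) := by
    rintro _ ⟨a, rfl⟩
    apply H24.Tools.mem_normalizer
    rintro _ ⟨g, rfl⟩
    exact ⟨a • g, hact a g⟩
  have eK : G ≃* K := inl.ofInjective hinl
  have hcK : Nat.card K = Nat.card G := Nat.card_congr (inl.ofInjective hinl).toEquiv.symm
  have hcA : Nat.card A' = Nat.card A := Nat.card_congr (inr.ofInjective hinr).toEquiv.symm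
  have hcop' : (Nat.card A').Coprime (Nat.card K) := by rw [hcK, hcA]; exact hcop
  have hZK : IsZGroup K := IsZGroup.of_injective (f := eK.symm.toMonoidHom) eK.symm.injective
  have h1 := H23.ZAction.fixed_hall A' K hKA hcop'
  have h2 := H23.ZAction.commutator_cyclic A' K hKA hcop'
  have h3 := H23.ZAction.commutator_inf A' K hKA hcop'
  have h4 := H1.Coprime.commutator_sup_centralizer A' K hKA hcop' (Or.inr inferInstance)
  -- fixed points
  have hfix : ∀ g : G, inl g ∈ centralizer (A' : Set Γ) ↔ g ∈ MulAction.fixedPoints A G := by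
    intro g
    rw [mem_centralizer_iff, MulAction.mem_fixedPoints]
    constructor
    · intro h a
      apply hinl
      rw [hact, h (inr a) ⟨a, rfl⟩]; group
    · rintro h _ ⟨a, rfl⟩
      have := hact a g
      rw [h a] at this
      calc inr a * inl g = (inr a * inl g * (inr a)⁻¹) * inr a := by group
        _ = inl g * inr a := by rw [← this]
  let F : Subgroup G := (centralizer (A' : Set Γ)).comap inl
  have hF : (F : Set G) = MulAction.fixedPoints A G := by
    ext g; exact hfix g
  have hFmap : F.map inl = K ⊓ centralizer (A' : Set Γ) := by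
    rw [map_comap_eq, ← hK]
  have hFc : Nat.card F = Nat.card (K ⊓ centralizer (A' : Set Γ) : Subgroup Γ) := by
    rw [← hFmap, card_map_of_injective hinl]
  -- commutator
  set S : Subgroup G := closure {y : G | ∃ (a : A) (g : G), y = g⁻¹ * a • g} with hS
  have hSmap : S.map inl = ⁅K, A'⁆ := by
    apply le_antisymm
    · rw [map_le_iff_le_comap, hS, closure_le]
      rintro _ ⟨a, g, rfl⟩
      have h5 : inl (g⁻¹ * a • g) = ⁅inl g⁻¹, inr a⁆ := by
        rw [commutatorElement_def, map_mul, hact, map_inv]; group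
      have h6 : ⁅inl g⁻¹, inr a⁆ ∈ ⁅K, A'⁆ := commutator_mem_commutator ⟨_, rfl⟩ ⟨_, rfl⟩
      change inl (g⁻¹ * a • g) ∈ ⁅K, A'⁆
      rw [h5]; exact h6
    · rw [commutator_le]
      rintro _ ⟨g, rfl⟩ _ ⟨a, rfl⟩
      have h5 : ⁅inl g, inr a⁆ = inl ((g⁻¹)⁻¹ * a • g⁻¹) := by
        rw [commutatorElement_def, map_mul, hact, inv_inv, map_inv]; group
      rw [h5]
      exact ⟨_, subset_closure ⟨a, g⁻¹, rfl⟩, rfl⟩
  have hSK : S.map inl ≤ K := by rintro _ ⟨g, -, rfl⟩; exact ⟨g, rfl⟩
  refine ⟨?_, ?_, ?_, ?_, ?_⟩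
  · have e1 : Nat.card (MulAction.fixedPoints A G : Set G) = Nat.card F := by
      rw [← hF]; rfl
    rw [e1, hFc]
    have e2 : Nat.card G / Nat.card (K ⊓ centralizer (A' : Set Γ) : Subgroup Γ) = (K ⊓ centralizer (A' : Set Γ)).relIndex K := by
      rw [← hcK, ← H24.Tools.card_mul_relIndex (inf_le_left : K ⊓ centralizer (A' : Set Γ) ≤ K)]
      exact Nat.mul_div_cancel_left _ Nat.card_pos
    rw [e2]; exact h1
  · have e1 : S ≃* (⁅K, A'⁆ : Subgroup Γ) :=
      (S.equivMapOfInjective inl hinl).trans (MulEquiv.subgroupCongr hSmap)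
    exact isCyclic_of_surjective e1.symm.toMonoidHom e1.symm.surjective
  · constructor
    intro y hy g
    have h5 : inl g * inl y * (inl g)⁻¹ ∈ ⁅K, A'⁆ := by
      have h6 : inl y ∈ ⁅K, A'⁆ := by rw [← hSmap]; exact ⟨y, hy, rfl⟩
      have h7 : K ≤ normalizer ((⁅K, A'⁆ : Subgroup Γ) : Set Γ) := by
        exact normalizer_commutator_ge_left _ _
      exact (mem_normalizer_iff.1 (h7 ⟨g, rfl⟩) _).1 h6
    rw [← map_mul, ← map_inv, ← map_mul, ← hSmap] at h5
    obtain ⟨z, hz, hz'⟩ := h5
    rw [← hinl hz']; exact hz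
  · ext y
    rw [Set.mem_inter_iff, Set.mem_singleton_iff]
    constructor
    · rintro ⟨hy1, hy2⟩
      have h5 : inl y ∈ ⁅K, A'⁆ ⊓ centralizer (A' : Set Γ) :=
        ⟨by rw [← hSmap]; exact ⟨y, hy1, rfl⟩, (hfix y).2 hy2⟩
      rw [h3, mem_bot] at h5
      exact hinl (by rw [h5, map_one])
    · rintro rfl
      refine ⟨one_mem _, ?_⟩
      rw [← hF]; exact F.one_mem
  · have e1 : closure (MulAction.fixedPoints A G) = F := by
      rw [← hF, closure_eq]
    rw [e1]
    apply map_injective hinl
    rw [Subgroup.map_sup, hSmap, hFmap, h4, ← MonoidHom.range_eq_map]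


theorem main {G A : Type*} [Group G] [Finite G] [Group A] [Finite A]
    [MulDistribMulAction A G] (hcop : (Nat.card A).Coprime (Nat.card G))
    (hcyc : ∀ (p : ℕ) [Fact p.Prime] (P : Sylow p G), IsCyclic (P : Subgroup G)) :
    (Nat.card (MulAction.fixedPoints A G : Set G)).Coprime (Nat.card G / Nat.card (MulAction.fixedPoints A G : Set G)) ∧
    IsCyclic (Subgroup.closure {y : G | ∃ (a : A) (g : G), y = g⁻¹ * a • g}) ∧
    (Subgroup.closure {y : G | ∃ (a : A) (g : G), y = g⁻¹ * a • g}).Normal ∧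
    (Subgroup.closure {y : G | ∃ (a : A) (g : G), y = g⁻¹ * a • g} : Set G) ∩ MulAction.fixedPoints A G = {1} ∧
    Subgroup.closure {y : G | ∃ (a : A) (g : G), y = g⁻¹ * a • g} ⊔ Subgroup.closure (MulAction.fixedPoints A G) = ⊤ := by
  have hfin : Finite (G ⋊[MulDistribMulAction.toMulAut A G] A) :=
    Finite.of_equiv (G × A) (SemidirectProduct.equivProd (φ := MulDistribMulAction.toMulAut A G)).symm
  refine core (Γ := G ⋊[MulDistribMulAction.toMulAut A G] A) SemidirectProduct.inl SemidirectProduct.inr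
    SemidirectProduct.inl_injective SemidirectProduct.inr_injective ?_ hcop hcyc
  intro a g
  have := SemidirectProduct.inl_aut (φ := MulDistribMulAction.toMulAut A G) a g
  rw [map_inv] at this
  exact this

/-- Let A be a finite group acting on the finite group G by automorphisms with the orders of A and G coprime, and suppose every Sylow subgroup of G is cyclic. Then the fixed-point subgroup C_G(A) is a Hall subgroup of G (its order is coprime to its index), the subgroup [G, A] generated by the elements g⁻¹·a(g) is cyclic and normal with [G, A] ∩ C_G(A) = 1 and [G, A]·C_G(A) = G. -/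
theorem result {G A : Type*} [Group G] [Finite G] [Group A] [Finite A]
    [MulDistribMulAction A G] (hcop : (Nat.card A).Coprime (Nat.card G))
    (hcyc : ∀ (p : ℕ) [Fact p.Prime] (P : Sylow p G), IsCyclic (P : Subgroup G)) :
    (Nat.card (MulAction.fixedPoints A G : Set G)).Coprime (Nat.card G / Nat.card (MulAction.fixedPoints A G : Set G)) ∧
    IsCyclic (Subgroup.closure {y : G | ∃ (a : A) (g : G), y = g⁻¹ * a • g}) ∧
    (Subgroup.closure {y : G | ∃ (a : A) (g : G), y = g⁻¹ * a • g}).Normal ∧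
    (Subgroup.closure {y : G | ∃ (a : A) (g : G), y = g⁻¹ * a • g} : Set G) ∩ MulAction.fixedPoints A G = {1} ∧
    Subgroup.closure {y : G | ∃ (a : A) (g : G), y = g⁻¹ * a • g} ⊔ Subgroup.closure (MulAction.fixedPoints A G) = ⊤ := by
  exact main hcop hcyc

end Cfsg.Agent.S4117
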