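import Cfsg.Statements.S4126
import Mathlib
import Cfsg.Agent.H23_PClass
import Cfsg.Agent.H23_Omega
import Cfsg.Agent.H2_PGroup

set_option autoImplicit false
open Cfsg

namespace Cfsg.Agent.S4126

open Cfsg.Agent.H23.Regular Cfsg.Agent.H23.PClass Cfsg.Agent.H23.ClassSize Subgroup
open Cfsg.Agent.H22.Coprime3 Cfsg.Agent.H22
open scoped commutatorElement

variable {G : Type*} [Group G]

/-- the exponent `4` (if `p = 2`) or `p` -/
def ex (p : ℕ) : ℕ := if p = 2 then 4 else p

theorem ex_choose {p : ℕ} (hp : p.Prime) : p ∣ (ex p).choose 2 := by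
  unfold ex
  split_ifs with h
  · subst h; decide
  · exact hp.dvd_choose_self (by norm_num) (lt_of_le_of_ne hp.two_le (Ne.symm h))

theorem ex_dvd {p : ℕ} : p ∣ ex p := by
  unfold ex
  split_ifs with h
  · subst h; norm_num
  · exact dvd_rfl

def Hyp (G : Type*) [Group G] (p : ℕ) : Prop :=
  ∀ x : G, (orderOf x = p ∨ (p = 2 ∧ orderOf x = 4)) → ∃ a : ℕ, (Subgroup.centralizer ({x} : Set G)).index = p ^ a

theorem hyp_ex [Finite G] {p : ℕ} [hp : Fact p.Prime] (h : Hyp G p) (x : G) (hx : x ^ ex p = 1) :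
    (∃ a : ℕ, (Subgroup.centralizer ({x} : Set G)).index = p ^ a) ∧ ∃ k, orderOf x = p ^ k := by
  have hd : orderOf x ∣ ex p := orderOf_dvd_of_pow_eq_one hx
  unfold ex at hd
  split_ifs at hd with h2
  · subst h2
    have h4 : orderOf x ∣ 2 ^ 2 := hd
    obtain ⟨j, hj, hj'⟩ := (Nat.dvd_prime_pow Nat.prime_two).1 h4
    refine ⟨?_, j, hj'⟩
    interval_cases j
    · rw [pow_zero, orderOf_eq_one_iff] at hj'
      subst hj'
      refine ⟨0, ?_⟩
      rw [pow_zero, index_centralizer_eq_one_iff]; exact one_mem _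
    · exact h x (Or.inl hj')
    · exact h x (Or.inr ⟨rfl, hj'⟩)
  · rcases (Nat.dvd_prime hp.out).1 hd with h1 | h1
    · rw [orderOf_eq_one_iff] at h1
      subst h1
      refine ⟨⟨0, ?_⟩, 0, by simp⟩
      rw [pow_zero, index_centralizer_eq_one_iff]; exact one_mem _
    · exact ⟨h x (Or.inl h1), 1, by rw [h1, pow_one]⟩

theorem isPGroup_coprime [Finite G] {p : ℕ} [hp : Fact p.Prime] {V : Subgroup G} (hV : IsPGroup p V) (y : G)
    (hy : (orderOf y).Coprime p) : (Nat.card (zpowers y)).Coprime (Nat.card V) := by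
  obtain ⟨n, hn⟩ := IsPGroup.iff_card.mp hV
  rw [Nat.card_zpowers, hn]; exact Nat.Coprime.pow_right n hy

theorem res_centralizes [Finite G] {p : ℕ} [hp : Fact p.Prime] (h : Hyp G p) (V : Subgroup G) (hVn : V.Normal)
    (hVp : IsPGroup p V) : pResidual p G ≤ centralizer (V : Set G) := by
  by_contra hne
  set R := pResidual p G with hR
  have hRn : R.Normal := H2.Fusion.pResidual_normal p
  -- choose V minimal
  obtain ⟨V, ⟨hVn, hVp, hne⟩, hmin'⟩ := (Set.toFinite {V : Subgroup G | V.Normal ∧ IsPGroup p V ∧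
    ¬ R ≤ centralizer (V : Set G)}).exists_minimal ⟨V, hVn, hVp, hne⟩
  have hmin : ∀ L : Subgroup G, L.Normal → L ≤ V → L ≠ V → R ≤ centralizer (L : Set G) := by
    intro L hL hLV hne'
    by_contra hc
    exact hne' (le_antisymm hLV (hmin' ⟨hL, hVp.to_le hLV, hc⟩ hLV))
  clear hmin'
  have hsolv : Group.IsSolvable V := by
    have := hVp.isNilpotent
    infer_instance
  have hall : (∀ y : G, (orderOf y).Coprime p → zpowers y ≤ centralizer (V : Set G)) → False := by
    intro hy
    apply hne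
    rw [hR, pResidual, closure_le]
    intro y hyo
    exact hy y hyo (mem_zpowers y)
  have hyR : ∀ y : G, (orderOf y).Coprime p → zpowers y ≤ R := by
    intro y hy
    rw [zpowers_le]; exact H2.Fusion.mem_pResidual hy
  -- [V,R] = V
  have hVR : ⁅V, R⁆ = V := by
    by_contra hc
    have h1 := hmin ⁅V, R⁆ inferInstance (commutator_le_left V R) hc
    apply hall
    intro y hy
    have h2 := H1.Coprime.commutator_commutator_eq (zpowers y) V le_normalizer_of_normal
      (isPGroup_coprime hVp y hy) (Or.inr hsolv)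
    have h3 : ⁅⁅V, zpowers y⁆, zpowers y⁆ = ⊥ := by
      rw [commutator_eq_bot_iff_le_centralizer]
      have h4 : ⁅V, zpowers y⁆ ≤ ⁅V, R⁆ := commutator_mono le_rfl (hyR y hy)
      have h5 : R ≤ centralizer ((⁅V, zpowers y⁆ : Subgroup G) : Set G) :=
        h1.trans (centralizer_le h4)
      exact (le_centralizer_iff.1 h5).trans (centralizer_le (hyR y hy))
    rw [h3] at h2
    rw [← commutator_eq_bot_iff'] 
    exact h2.symm
  have hVb : V ≠ ⊥ := by
    rintro rfl
    apply hne
    intro r _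
    rw [mem_centralizer_iff]
    intro z hz
    have : z = 1 := hz
    rw [this]; simp
  -- W maximal
  obtain ⟨W, ⟨hWn, hWV⟩, hWmax'⟩ := (Set.toFinite {W : Subgroup G | W.Normal ∧ W < V}).exists_maximal
    ⟨⊥, inferInstance, bot_lt_iff_ne_bot.2 hVb⟩
  have hWmax : ∀ L : Subgroup G, L.Normal → W ≤ L → L ≤ V → L ≠ V → L = W := by
    intro L hL hWL hLV hLne
    exact le_antisymm (hWmax' ⟨hL, lt_of_le_of_ne hLV hLne⟩ hWL) hWL
  have hRW : R ≤ centralizer (W : Set G) := hmin W hWn hWV.le hWV.ne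
  have hVW : ⁅V, W⁆ = ⊥ := by
    rw [← hVR]
    apply commutator_commutator_eq_bot_of_rotate
    · have h1 : ⁅R, W⁆ = ⊥ := commutator_eq_bot_iff_le_centralizer.2 hRW
      rw [h1, commutator_bot_left]
    · have h1 : ⁅W, V⁆ ≤ W := commutator_le_left W V
      rw [commutator_eq_bot_iff_le_centralizer]
      exact h1.trans (le_centralizer_iff.1 hRW)
  have hVWc : ∀ v ∈ V, ∀ w ∈ W, v * w = w * v := by
    intro v hv w hw
    have h1 := commutator_eq_bot_iff_le_centralizer.1 hVW
    exact (mem_centralizer_iff.1 (h1 hv) w hw).symm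
  -- Frattini
  set F := (frattini V).map V.subtype with hF
  have hFn : F.Normal := H11.Cores.map_subtype_normal_of_characteristic V (frattini V)
  have hFW : F ≤ W := by
    have h1 : W ⊔ F ≠ V := by
      intro he
      have h2 : W.subgroupOf V ⊔ frattini V = ⊤ := by
        apply map_injective V.subtype_injective
        rw [Subgroup.map_sup, subgroupOf_map_subtype, inf_of_le_left hWV.le, ← hF, he,
          ← MonoidHom.range_eq_map, range_subtype]
      have h3 := frattini_nongenerating h2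
      rw [subgroupOf_eq_top] at h3
      exact hWV.not_ge h3
    have h4 := hWmax (W ⊔ F) inferInstance le_sup_left (sup_le hWV.le (map_subtype_le _)) h1
    rw [← h4]; exact le_sup_right
  have hpow : ∀ v ∈ V, v ^ p ∈ W := fun v hv => hFW (pow_mem_map_frattini hVp hv)
  have hcomm : ∀ u ∈ V, ∀ v ∈ V, ⁅u, v⁆ ∈ W := fun u hu v hv =>
    hFW (commutator_le_map_frattini hVp (commutator_mem_commutator hu hv))
  -- multiplicativity of the power map
  have hmul : ∀ x ∈ V, ∀ y ∈ V, (x * y) ^ ex p = x ^ ex p * y ^ ex p := by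
    intro x hx y hy
    have hc : y * x = x * y * ⁅y⁻¹, x⁻¹⁆ := by rw [commutatorElement_def]; group
    have hcm : ⁅y⁻¹, x⁻¹⁆ ∈ W := hcomm _ (V.inv_mem hy) _ (V.inv_mem hx)
    have hcx : Commute ⁅y⁻¹, x⁻¹⁆ x := (hVWc x hx _ hcm).symm
    have hcy : Commute ⁅y⁻¹, x⁻¹⁆ y := (hVWc y hy _ hcm).symm
    have hcp : ⁅y⁻¹, x⁻¹⁆ ^ p = 1 :=
      ClassTwo.pow_eq_one_of_central hc hcy (hVWc x hx _ (hpow y hy)).symm
    rw [ClassTwo.mul_pow_of_central hc hcx hcy]
    obtain ⟨t, ht⟩ := ex_choose hp.out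
    rw [ht, pow_mul, hcp, one_pow, mul_one]
  set Ω : Subgroup G :=
    { carrier := {v | v ∈ V ∧ v ^ ex p = 1}
      mul_mem' := by
        rintro x y ⟨hx, hx'⟩ ⟨hy, hy'⟩
        exact ⟨V.mul_mem hx hy, by rw [hmul x hx y hy, hx', hy', one_mul]⟩
      one_mem' := ⟨V.one_mem, one_pow _⟩
      inv_mem' := by
        rintro x ⟨hx, hx'⟩
        exact ⟨V.inv_mem hx, by rw [inv_pow, hx', inv_one]⟩ } with hΩ
  have hΩmem : ∀ v, v ∈ Ω ↔ v ∈ V ∧ v ^ ex p = 1 := fun v => Iff.rfl
  have hΩn : Ω.Normal := by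
    constructor
    intro v hv g
    rw [hΩmem] at hv ⊢
    exact ⟨hVn.conj_mem v hv.1 g, by rw [conj_pow, hv.2]; group⟩
  have hΩV : Ω = V := by
    by_contra hc
    have h1 := hmin Ω hΩn (fun v hv => hv.1) hc
    apply hall
    intro y hy
    apply H23.Omega.omega (p := p) le_normalizer_of_normal hVp (by rwa [Nat.card_zpowers])
    intro x hx hx' a ha
    have hxΩ : x ∈ Ω := by
      refine ⟨hx, ?_⟩
      unfold ex
      split_ifs with h2
      · rcases hx' with h3 | h3
        · rw [h2] at h3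
          have : (4 : ℕ) = 2 * 2 := rfl
          rw [this, pow_mul, h3, one_pow]
        · exact h3.2
      · rcases hx' with h3 | h3
        · exact h3
        · exact absurd h3.1 h2
    exact (mem_centralizer_iff.1 (h1 (hyR y hy ha)) x hxΩ).symm
  -- fixed point modulo W
  obtain ⟨P, hP⟩ := hVp.exists_le_sylow
  have hWP : W ≤ P := hWV.le.trans hP
  have hfix : ∃ v ∈ V, v ∉ W ∧ ∀ u ∈ P, ⁅u, v⁆ ∈ W := by
    set W' := W.subgroupOf (P : Subgroup G) with hW'
    set M := (V.subgroupOf (P : Subgroup G)).map (QuotientGroup.mk' W') with hM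
    have hMn : M.Normal := Subgroup.Normal.map inferInstance _ (QuotientGroup.mk'_surjective W')
    have hMb : M ≠ ⊥ := by
      rw [Ne, hM, Subgroup.map_eq_bot_iff, QuotientGroup.ker_mk']
      intro hle
      apply hWV.not_ge
      intro v hv
      exact hle (show (⟨v, hP hv⟩ : (P : Subgroup G)) ∈ V.subgroupOf (P : Subgroup G) from hv)
    have hPq : IsPGroup p ((P : Subgroup G) ⧸ W') := P.isPGroup'.to_quotient W'
    have hne2 := H2.PGroup.inf_center_ne_bot hPq hMb
    obtain ⟨⟨z, hzM, hzc⟩, hz1⟩ := ne_bot_iff_exists_ne_one.1 hne2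
    obtain ⟨⟨v, hvP⟩, hvV, rfl⟩ := hzM
    refine ⟨v, hvV, ?_, ?_⟩
    · intro hvW
      apply hz1
      apply Subtype.ext
      exact (QuotientGroup.eq_one_iff _).2 (show (⟨v, hvP⟩ : (P : Subgroup G)) ∈ W' from hvW)
    · intro u hu
      have h1 := mem_center_iff.1 hzc (QuotientGroup.mk' W' ⟨u, hu⟩)
      rw [← commutatorElement_eq_one_iff_mul_comm, ← map_commutatorElement] at h1
      have h2 : ⁅(⟨u, hu⟩ : (P : Subgroup G)), ⟨v, hvP⟩⁆ ∈ W' := (QuotientGroup.eq_one_iff _).1 h1
      exact h2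
  obtain ⟨v, hvV, hvW, hvP⟩ := hfix
  obtain ⟨⟨a, ha⟩, -⟩ := hyp_ex h v (by
    have : v ∈ Ω := by rw [hΩV]; exact hvV
    exact this.2)
  have hvG : ∀ g : G, ⁅g, v⁆ ∈ W := by
    intro g
    obtain ⟨u, hu, c, hc, rfl⟩ := exists_mul_of_index_pow v ha P g
    have : ⁅u * c, v⁆ = ⁅u, v⁆ := by
      rw [commutatorElement_def, commutatorElement_def]
      calc u * c * v * (u * c)⁻¹ * v⁻¹ = u * (c * v) * c⁻¹ * u⁻¹ * v⁻¹ := by group
        _ = u * (v * c) * c⁻¹ * u⁻¹ * v⁻¹ := by rw [hc]
        _ = _ := by group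
    rw [this]; exact hvP u hu
  set Z := (center (G ⧸ W)).comap (QuotientGroup.mk' W) with hZ
  have hZmem : ∀ x : G, x ∈ Z ↔ ∀ g : G, ⁅g, x⁆ ∈ W := by
    intro x
    rw [hZ, mem_comap, mem_center_iff]
    constructor
    · intro hx g
      have h1 := hx (QuotientGroup.mk' W g)
      rw [← QuotientGroup.eq_one_iff]
      have h2 : ((⁅g, x⁆ : G) : G ⧸ W) = ⁅QuotientGroup.mk' W g, QuotientGroup.mk' W x⁆ := by
        rw [← map_commutatorElement]; rfl
      rw [h2, commutatorElement_eq_one_iff_mul_comm]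
      exact h1
    · intro hx g
      obtain ⟨g, rfl⟩ := QuotientGroup.mk'_surjective W g
      have h1 := hx g
      rw [← QuotientGroup.eq_one_iff] at h1
      have h2 : ((⁅g, x⁆ : G) : G ⧸ W) = ⁅QuotientGroup.mk' W g, QuotientGroup.mk' W x⁆ := by
        rw [← map_commutatorElement]; rfl
      rw [h2, commutatorElement_eq_one_iff_mul_comm] at h1
      exact h1
  have hZn : Z.Normal := Subgroup.Normal.comap inferInstance _
  have hWZ : W ≤ Z := by
    intro w hw
    rw [hZmem]
    intro g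
    have : ⁅g, w⁆ = (g * w * g⁻¹) * w⁻¹ := by rw [commutatorElement_def]
    rw [this]
    exact W.mul_mem (hWn.conj_mem w hw g) (W.inv_mem hw)
  have hZV : Z ⊓ V = V := by
    by_contra hc
    have h1 := hWmax (Z ⊓ V) inferInstance (le_inf hWZ hWV.le) inf_le_right hc
    apply hvW
    rw [← h1]
    exact ⟨(hZmem v).2 hvG, hvV⟩
  have hVRW : ⁅V, R⁆ ≤ W := by
    rw [commutator_le]
    intro x hx r _
    have hxZ : x ∈ Z := by
      have : x ∈ Z ⊓ V := by rw [hZV]; exact hx
      exact this.1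
    rw [← commutatorElement_inv]
    exact W.inv_mem ((hZmem x).1 hxZ r)
  rw [hVR] at hVRW
  exact hWV.not_ge hVRW

theorem main [Finite G] (p : ℕ) [hp : Fact p.Prime] (h : Hyp G p) : HasNormalPComplement p G := by
  apply H2.Fusion3.npc_of_frobenius
  intro Q hQ g hg hgp
  have hgR : zpowers g ≤ pResidual p G := by
    rw [zpowers_le]; exact H2.Fusion.mem_pResidual hgp
  have : zpowers g ≤ centralizer (Q : Set G) := by
    apply H23.Omega.omega (p := p) (zpowers_le.2 hg) hQ (by rwa [Nat.card_zpowers])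
    intro x hx hx' a ha
    have hxe : x ^ ex p = 1 := by
      unfold ex
      split_ifs with h2
      · rcases hx' with h3 | h3
        · rw [h2] at h3
          have : (4 : ℕ) = 2 * 2 := rfl
          rw [this, pow_mul, h3, one_pow]
        · exact h3.2
      · rcases hx' with h3 | h3
        · exact h3
        · exact absurd h3.1 h2
    obtain ⟨⟨b, hb⟩, k, hk⟩ := hyp_ex h x hxe
    have h1 := res_centralizes h (normalClosure {x}) normalClosure_normal (normalClosure_isPGroup x hb hk)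
    exact (mem_centralizer_iff.1 (h1 (hgR ha)) x (subset_normalClosure rfl)).symm
  exact this (mem_zpowers g)


/-- Let G be a finite group and p a prime. Suppose every element of order p, and when p = 2 also every element of order 4, has a conjugacy class of p-power size. Then G has a normal p-complement. -/
theorem result {G : Type*} [Group G] [Finite G] (p : ℕ) [Fact p.Prime]
    (h : ∀ x : G, (orderOf x = p ∨ (p = 2 ∧ orderOf x = 4)) → ∃ a : ℕ, (Subgroup.centralizer ({x} : Set G)).index = p ^ a) :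
    Cfsg.HasNormalPComplement p G := by
  exact main p h

end Cfsg.Agent.S4126
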