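import Cfsg.Statements.S4127
import Mathlib
import Cfsg.Agent.H23_PClass

set_option autoImplicit false
open Cfsg

namespace Cfsg.Agent.S4127

open Cfsg.Agent.H23.Regular Cfsg.Agent.H23.PClass Cfsg.Agent.H23.ClassSize Subgroup

theorem main {G : Type*} [Group G] [Finite G] (p : ℕ) [hp : Fact p.Prime]
    (a : ℕ) (hmax : ∀ y : G, ¬ p ^ (a + 1) ∣ (Subgroup.centralizer ({y} : Set G)).index)
    (hx : ∃ x : G, (∃ k : ℕ, orderOf x = p ^ k) ∧ (Subgroup.centralizer ({x} : Set G)).index = p ^ a) :
    Cfsg.HasNormalPComplement p G := by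
  obtain ⟨x, ⟨k, hk⟩, hxa⟩ := hx
  set C := centralizer ({x} : Set G) with hC
  -- the centralizer satisfies the hypothesis of the regular class theorem
  have hreg : ∀ y : C, (orderOf y).Coprime p → ¬ p ∣ (centralizer ({y} : Set C)).index := by
    rintro ⟨y, hy⟩ hyo hd
    have hxy : x * y = y * x := (mem_centralizer_singleton_iff.1 hy).symm
    have hco : Nat.Coprime (orderOf x) (orderOf y) := by
      rw [hk]; apply Nat.Coprime.pow_left
      rw [Subgroup.orderOf_mk] at hyo
      exact hyo.symm
    have h1 : centralizer ({x * y} : Set G) ≤ C ⊓ centralizer ({y} : Set G) := by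
      refine le_inf (centralizer_mul_le hxy hco) ?_
      have := centralizer_mul_le hxy.symm hco.symm
      rwa [← hxy] at this
    apply hmax (x * y)
    refine dvd_trans ?_ (index_dvd_of_le h1)
    have h2 := congrArg Subgroup.index (centralizer_subgroupOf_index x y hy)
    rw [index_map_subtype] at h2
    rw [← h2, pow_succ, mul_comm (p ^ a)]
    exact Nat.mul_dvd_mul hd hxa.symm.dvd
  obtain ⟨S⟩ : Nonempty (Sylow p C) := inferInstance
  obtain ⟨hSn, hScent, hnpc⟩ := regular_direct hreg S
  obtain ⟨K, hK, hKc, l, hl⟩ := H2.Basic.npc_iff.1 hnpc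
  have hKmem := H2.Basic.mem_npc_iff hKc hl
  set H := K.map C.subtype with hH
  have hHmem : ∀ y, y ∈ H ↔ y ∈ C ∧ (orderOf y).Coprime p := by
    intro y
    constructor
    · rintro ⟨z, hz, rfl⟩
      refine ⟨z.2, ?_⟩
      have := (hKmem z).1 hz
      rwa [← Subgroup.orderOf_coe] at this
    · rintro ⟨h1, h2⟩
      exact ⟨⟨y, h1⟩, (hKmem _).2 (by rwa [Subgroup.orderOf_mk]), rfl⟩
  have hHcard : Nat.card H = Nat.card K :=
    (Nat.card_congr (K.equivMapOfInjective _ C.subtype_injective).toEquiv).symm
  have hHC : H ≤ C := map_subtype_le K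
  set O := normalClosure {x} with hO
  have hOp : IsPGroup p O := normalClosure_isPGroup x hxa hk
  have hxO : x ∈ O := subset_normalClosure rfl
  have hOn : O.Normal := normalClosure_normal
  have hHO : H ≤ centralizer (O : Set G) := by
    apply H1.Coprime.p_times_q p (zpowers x) H O (H24.Tools.isPGroup_zpowers hk) _ hOp
    · rw [zpowers_le, mem_centralizer_iff]
      intro y hy
      exact mem_centralizer_singleton_iff.1 (hHC hy)
    · exact le_normalizer_of_normal
    · exact le_normalizer_of_normal
    · intro y hy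
      have hyC : y ∈ C := by
        rw [hC, mem_centralizer_singleton_iff]
        exact (mem_centralizer_iff.1 hy.2 x (mem_zpowers x)).symm
      -- y is a p-element of C hence in S
      obtain ⟨j, hj⟩ := H24.Tools.exists_orderOf hOp hy.1
      have hyS : (⟨y, hyC⟩ : C) ∈ S := by
        have h1 : IsPGroup p (zpowers (⟨y, hyC⟩ : C)) :=
          H24.Tools.isPGroup_zpowers (k := j) (by rw [Subgroup.orderOf_mk, hj])
        obtain ⟨T, hT⟩ := h1.exists_le_sylow
        have hTS : T = S := by
          obtain ⟨g, hg⟩ := MulAction.exists_smul_eq C S T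
          rw [← hg]
          exact Sylow.smul_eq_of_normal
        rw [← hTS]; exact hT (mem_zpowers _)
      rw [mem_centralizer_iff]
      intro z hz
      have hzC := (hHmem z).1 hz
      have := hScent ⟨z, hzC.1⟩ (by rw [Subgroup.orderOf_mk]; exact hzC.2) _ hyS
      exact congrArg Subtype.val this
    · rw [hHcard]; exact ((Nat.Prime.coprime_iff_not_dvd hp.out).2 hKc).symm
  -- conclusion
  rw [H2.Basic.npc_iff]
  refine ⟨H, ?_, by rw [hHcard]; exact hKc, l + a, ?_⟩
  · constructor
    intro y hy g
    have hCO : centralizer (O : Set G) ≤ C := by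
      intro z hz
      rw [hC, mem_centralizer_singleton_iff]
      exact (mem_centralizer_iff.1 hz x hxO).symm
    have hCn : (centralizer (O : Set G)).Normal := inferInstance
    rw [hHmem]
    refine ⟨hCO (hCn.conj_mem y (hHO hy) g), ?_⟩
    rw [H24.Tools.orderOf_conj]
    exact ((hHmem y).1 hy).2
  · rw [hH, index_map_subtype, hl, hxa, pow_add]


/-- Let G be a finite group, p a prime and p^a the largest power of p dividing the size of any conjugacy class of G. If some element of p-power order has a conjugacy class of size exactly p^a, then G has a normal p-complement. -/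
theorem result {G : Type*} [Group G] [Finite G] (p : ℕ) [Fact p.Prime]
    (a : ℕ) (hmax : ∀ y : G, ¬ p ^ (a + 1) ∣ (Subgroup.centralizer ({y} : Set G)).index)
    (hx : ∃ x : G, (∃ k : ℕ, orderOf x = p ^ k) ∧ (Subgroup.centralizer ({x} : Set G)).index = p ^ a) :
    Cfsg.HasNormalPComplement p G := by
  exact main p a hmax hx

end Cfsg.Agent.S4127
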