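import Cfsg.Statements.S4130
import Cfsg.Agent.H24_SqFree4
-- import your own Cfsg.Agent.* helpers here

set_option autoImplicit false
open Cfsg

namespace Cfsg.Agent.S4130

open Subgroup
open scoped commutatorElement

theorem ucs_two {A : Type*} [Group A] (h : ∀ a b : A, ⁅a, b⁆ ∈ center A) : Subgroup.upperCentralSeries A 2 = ⊤ := by
  rw [eq_top_iff]
  intro a _
  rw [Subgroup.mem_upperCentralSeries_succ_iff]
  intro b
  rw [Subgroup.upperCentralSeries_one]
  have := h a b
  rwa [commutatorElement_def] at this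

theorem nilp {A : Type*} [Group A] (h : ∀ a b : A, ⁅a, b⁆ ∈ center A) : Group.IsNilpotent A :=
  ⟨2, ucs_two h⟩

/-- a cyclic normal subgroup of square-free order is centralized by the Fitting subgroup. -/
theorem le_cent {G : Type*} [Group G] [Finite G] (D : Subgroup G) [hDn : D.Normal] (hc : IsCyclic D) (hsq : Squarefree (Nat.card D)) :
    D ≤ centralizer (Cfsg.fittingSubgroup G : Set G) := by
  set F := Cfsg.fittingSubgroup G with hF
  haveI hFn : F.Normal := H24.Basic.fittingSubgroup_normal'
  have hFnil : Group.IsNilpotent F := H24.Basic.fittingSubgroup_nilpotent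
  haveI : IsMulCommutative D := inferInstance
  have hDab : ∀ a ∈ D, ∀ b ∈ D, a * b = b * a := fun a ha b hb =>
    congrArg Subtype.val (mul_comm' (⟨a, ha⟩ : D) ⟨b, hb⟩)
  have hord : ∀ (r : ℕ), r.Prime → ∀ d ∈ D, orderOf d = r → d ∈ centralizer (F : Set G) := by
    intro r hr d hd hdr
    haveI : Fact r.Prime := ⟨hr⟩
    have hZn : (zpowers d).Normal := by
      constructor
      intro y hy g
      obtain ⟨e, he⟩ := hc.exists_generator
      obtain ⟨k, hk⟩ := mem_zpowers_iff.1 (he ⟨g * e * g⁻¹, hDn.conj_mem e e.2 g⟩)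
      have hk' : (e : G) ^ k = g * e * g⁻¹ := congrArg Subtype.val hk
      obtain ⟨m, hm⟩ := mem_zpowers_iff.1 (he ⟨d, hd⟩)
      have hm' : (e : G) ^ m = d := congrArg Subtype.val hm
      have hgd : g * d * g⁻¹ = d ^ k := by
        rw [← hm', ← conj_zpow, ← hk', ← zpow_mul, ← zpow_mul, mul_comm]
      obtain ⟨j, rfl⟩ := mem_zpowers_iff.1 hy
      rw [← conj_zpow, hgd]
      exact zpow_mem (zpow_mem (mem_zpowers d) k) j
    have hZF : zpowers d ≤ F := by
      apply H24.Basic.le_fittingSubgroup hZn
      apply nilp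
      intro a b
      have h9 : ⁅a, b⁆ = 1 := by
        rw [commutatorElement_eq_one_iff_mul_comm]
        exact mul_comm' a b
      rw [h9]; exact one_mem _
    set M := (zpowers d).subgroupOf F with hM
    haveI hMn : M.Normal := hZn.subgroupOf F
    have hd1 : d ≠ 1 := by
      rintro rfl
      rw [orderOf_one] at hdr
      exact hr.one_lt.ne hdr
    have hMc : Nat.card M = r := by
      rw [hM, Nat.card_congr (subgroupOfEquivOfLe hZF).toEquiv, Nat.card_zpowers, hdr]
    have hMb : M ≠ ⊥ := by
      intro h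
      rw [h, card_bot] at hMc
      exact hr.one_lt.ne hMc
    have hlt := H2.PGroup.commutator_top_lt_of_nilpotent hMb
    have hb : ⁅M, (⊤ : Subgroup F)⁆ = ⊥ := by
      rw [← card_eq_one]
      have h5 : Nat.card (⁅M, (⊤ : Subgroup F)⁆ : Subgroup F) ∣ r := hMc ▸ card_dvd_of_le hlt.le
      rcases (Nat.dvd_prime hr).1 h5 with h6 | h6
      · exact h6
      · exact absurd (eq_of_le_of_card_ge hlt.le (by rw [hMc, h6])) hlt.ne
    rw [mem_centralizer_iff]
    intro y hy
    have h7 : (⟨d, hZF (mem_zpowers d)⟩ : F) ∈ M := by rw [hM, mem_subgroupOf]; exact mem_zpowers d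
    have h8 := commutator_mem_commutator h7 (mem_top (⟨y, hy⟩ : F))
    rw [hb, mem_bot, commutatorElement_eq_one_iff_mul_comm] at h8
    exact (congrArg Subtype.val h8).symm
  rw [← relIndex_eq_one]
  by_contra hne
  obtain ⟨r, hr, hrd⟩ := Nat.exists_prime_and_dvd hne
  haveI : Fact r.Prime := ⟨hr⟩
  have h1 := H2.Card.card_inf_mul_relIndex (centralizer (F : Set G)) D
  have h2 : r ∣ Nat.card D := hrd.trans (relIndex_dvd_card _ _)
  obtain ⟨d, hd⟩ := exists_prime_orderOf_dvd_card' (G := D) r h2
  have h3 := hord r hr d d.2 (by rw [orderOf_coe, hd])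
  have h4 : r ∣ Nat.card (centralizer (F : Set G) ⊓ D : Subgroup G) := by
    have h5 : (d : G) ∈ (centralizer (F : Set G) ⊓ D : Subgroup G) := ⟨h3, d.2⟩
    rw [← hd, ← orderOf_coe, ← Subgroup.orderOf_mk (d : G) h5]
    exact orderOf_dvd_natCard _
  have h6 : r * r ∣ Nat.card D := by
    rw [← h1]; exact mul_dvd_mul h4 hrd
  exact hr.one_lt.ne' (Nat.isUnit_iff.1 (hsq r h6))

/-- Let G be a finite group all of whose conjugacy class sizes are square-free. Then G is supersolvable, G/F(G) and the derived subgroup G′ are cyclic of square-free order (F(G) the Fitting subgroup, which is normal), F(G) has nilpotency class at most 2, and G is metabelian. -/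
theorem result {G : Type*} [Group G] [Finite G]
    (h : ∀ x : G, Squarefree (Subgroup.centralizer ({x} : Set G)).index) :
    Cfsg.IsSupersolvable G ∧ (Cfsg.fittingSubgroup G).Normal ∧
    (∀ _h : (Cfsg.fittingSubgroup G).Normal, IsCyclic (G ⧸ Cfsg.fittingSubgroup G) ∧ Squarefree (Cfsg.fittingSubgroup G).index) ∧
    IsCyclic (commutator G) ∧ Squarefree (Nat.card (commutator G)) ∧
    Subgroup.upperCentralSeries ↥(Cfsg.fittingSubgroup G) 2 = ⊤ ∧ commutator ↥(commutator G) = ⊥ := by
  have hSF : H24.SqFree.SF G := h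
  have hsol := H24.SqFree.solvable _ G rfl hSF
  obtain ⟨hab, hsq⟩ := H24.SqFree.derived _ G rfl hSF hsol
  haveI hcyc : IsCyclic (commutator G) := H24.SqFree.cyclic_of (fun a b => Subtype.ext (hab a a.2 b b.2)) hsq
  haveI hFn : (Cfsg.fittingSubgroup G).Normal := H24.Basic.fittingSubgroup_normal'
  have hDC : commutator G ≤ centralizer (commutator G : Set G) := by
    intro a ha
    rw [mem_centralizer_iff]
    exact fun b hb => hab b hb a ha
  have hCF : centralizer (commutator G : Set G) ≤ Cfsg.fittingSubgroup G := by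
    apply H24.Basic.le_fittingSubgroup inferInstance
    apply nilp
    intro a b
    rw [mem_center_iff]
    intro c
    apply Subtype.ext
    have h1 : ⁅(a : G), (b : G)⁆ ∈ commutator G := commutator_mem_commutator (mem_top _) (mem_top _)
    exact ((mem_centralizer_iff.1 c.2) _ h1).symm
  have hFC : Cfsg.fittingSubgroup G ≤ centralizer (commutator G : Set G) :=
    le_centralizer_iff.1 (le_cent (commutator G) hcyc hsq)
  have hidx : Squarefree (Cfsg.fittingSubgroup G).index := by
    obtain ⟨d, hd⟩ := hcyc.exists_generator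
    have h1 : centralizer (commutator G : Set G) = centralizer ({(d : G)} : Set G) := by
      apply le_antisymm
      · exact centralizer_le (by simp)
      · intro g hg
        rw [mem_centralizer_singleton_iff] at hg
        rw [mem_centralizer_iff]
        intro x hx
        obtain ⟨k, hk⟩ := mem_zpowers_iff.1 (hd ⟨x, hx⟩)
        have h2 : (d : G) ^ k = x := congrArg Subtype.val hk
        rw [← h2]
        exact ((show Commute g (d : G) from hg).zpow_right k).symm
    have h2 := h (d : G)
    rw [← h1] at h2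
    exact h2.squarefree_of_dvd (index_dvd_of_le hCF)
  have hcomG : ∀ a b : G ⧸ Cfsg.fittingSubgroup G, a * b = b * a := by
    intro a b
    obtain ⟨a, rfl⟩ := QuotientGroup.mk'_surjective _ a
    obtain ⟨b, rfl⟩ := QuotientGroup.mk'_surjective _ b
    rw [← map_mul, ← map_mul]
    have h1 : ⁅a⁻¹, b⁻¹⁆ ∈ Cfsg.fittingSubgroup G := hCF (hDC (commutator_mem_commutator (mem_top _) (mem_top _)))
    apply (QuotientGroup.eq).2
    have : (a * b)⁻¹ * (b * a) = (⁅a⁻¹, b⁻¹⁆ : G)⁻¹ ∨ True := Or.inr trivial
    have h3 : (a * b)⁻¹ * (b * a) = ⁅b⁻¹, a⁻¹⁆ := by rw [commutatorElement_def]; group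
    rw [h3]
    exact hCF (hDC (commutator_mem_commutator (mem_top _) (mem_top _)))
  refine ⟨?_, hFn, ?_, hcyc, hsq, ?_, ?_⟩
  · apply H1.Super.ss_of_cyclic_normal (commutator G)
    letI : CommGroup (G ⧸ commutator G) := { (inferInstance : Group (G ⧸ commutator G)) with
      mul_comm := fun a b => by
        obtain ⟨a, rfl⟩ := QuotientGroup.mk'_surjective _ a
        obtain ⟨b, rfl⟩ := QuotientGroup.mk'_surjective _ b
        rw [← map_mul, ← map_mul]
        apply (QuotientGroup.eq).2
        have h3 : (a * b)⁻¹ * (b * a) = ⁅b⁻¹, a⁻¹⁆ := by rw [commutatorElement_def]; group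
        rw [h3]
        exact commutator_mem_commutator (mem_top _) (mem_top _) }
    exact H1.Super.ss_comm (A := G ⧸ commutator G)
  · intro _
    exact ⟨H24.SqFree.cyclic_of hcomG (by rw [← index_eq_card]; exact hidx), hidx⟩
  · apply ucs_two
    intro a b
    rw [mem_center_iff]
    intro c
    apply Subtype.ext
    have h1 : ⁅(a : G), (b : G)⁆ ∈ commutator G := commutator_mem_commutator (mem_top _) (mem_top _)
    exact ((mem_centralizer_iff.1 (hFC c.2)) _ h1).symm
  · rw [eq_bot_iff]
    show ⁅(⊤ : Subgroup ↥(commutator G)), ⊤⁆ ≤ ⊥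
    rw [commutator_le]
    intro a _ b _
    rw [mem_bot, commutatorElement_eq_one_iff_mul_comm]
    exact Subtype.ext (hab a a.2 b b.2)

end Cfsg.Agent.S4130
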