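import Cfsg.Statements.S4139
import Mathlib
import Cfsg.Agent.H22_CH3

set_option autoImplicit false
open Cfsg

namespace Cfsg.Agent.S4139

open Subgroup Cfsg.Agent.H22.CH Cfsg.Agent.H1.Basic

theorem mem_center_iff_cs {X : Type*} [Group X] [Finite X] (x : X) : x ∈ center X ↔ cs x = 1 := by
  rw [cs, Subgroup.index_eq_one]
  constructor
  · intro h
    rw [eq_top_iff]
    intro g _
    rw [mem_c]
    exact mem_center_iff.mp h g
  · intro h
    rw [mem_center_iff]
    intro g
    exact mem_c.mp (by rw [h]; trivial)

/-- Let G and H be finite groups such that for every natural number k, G and H have the same number of conjugacy classes of size k. If H is nilpotent then G is nilpotent. -/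
theorem result {G H : Type*} [Group G] [Finite G] [Group H] [Finite H]
    (hH : Group.IsNilpotent H)
    (h : ∀ k : ℕ, Nat.card {C : ConjClasses G // Nat.card C.carrier = k} = Nat.card {C : ConjClasses H // Nat.card C.carrier = k}) :
    Group.IsNilpotent G := by
  obtain ⟨e, he⟩ := exists_equiv h
  have hQ : ∀ Q : ℕ → Prop, Nat.card {x : G // Q (cs x)} = Nat.card {x : H // Q (cs x)} := by
    intro Q
    apply Nat.card_congr
    exact e.subtypeEquiv (fun x => by rw [he])
  have hcard : Nat.card G = Nat.card H := Nat.card_congr e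
  have hz : Nat.card (center G) = Nat.card (center H) := by
    have h1 : Nat.card (center G) = Nat.card {x : G // cs x = 1} := Nat.card_congr (Equiv.subtypeEquivRight mem_center_iff_cs)
    have h2 : Nat.card (center H) = Nat.card {x : H // cs x = 1} := Nat.card_congr (Equiv.subtypeEquivRight mem_center_iff_cs)
    rw [h1, h2]
    exact hQ (fun n => n = 1)
  have hcen : ∀ (r : ℕ) [Fact r.Prime] (R : Sylow r G), (R : Subgroup G) ⊓ centralizer (R : Set G) ≤ center G := by
    intro r _ R
    apply center_sylow R
    intro k hk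
    obtain ⟨RH⟩ : Nonempty (Sylow r H) := inferInstance
    rw [hz]
    apply nil_D RH k
    rw [← hQ (fun n => ¬ r ∣ n)]
    exact hk
  have h41 := (Group.isNilpotent_of_finite_tfae (G := G)).out 0 3 rfl rfl
  rw [h41]
  intro p hp P
  obtain ⟨PH⟩ : Nonempty (Sylow p H) := inferInstance
  have hA := nil_A PH
  rw [← hQ (fun n => ∀ r : ℕ, r.Prime → r ≠ p → ¬ r ∣ n), ← hz] at hA
  have hL : Nat.card {x : G // ∀ r : ℕ, r.Prime → r ≠ p → ¬ r ∣ cs x} ≤
      Nat.card (center G ⊔ (P : Subgroup G).normalCore : Subgroup G) := by
    apply Nat.card_le_card_of_injective (fun x => (⟨x.1, mem_sup P hcen x.2⟩ : (center G ⊔ (P : Subgroup G).normalCore : Subgroup G)))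
    intro a b hab
    exact Subtype.ext (congrArg (fun z => z.1) hab)
  have hprod := card_sup_mul_card_inf (H := center G) (K := (P : Subgroup G).normalCore) (by rw [normalizer_eq_top]; exact le_top)
  have hinf : Nat.card ((PH : Subgroup H) ⊓ center H : Subgroup H) ≤ Nat.card (center G ⊓ (P : Subgroup G).normalCore : Subgroup G) := by
    obtain ⟨k, hk⟩ := IsPGroup.iff_card.mp (PH.2.to_le (inf_le_left : (PH : Subgroup H) ⊓ center H ≤ PH))
    have hd : p ^ k ∣ Nat.card (center G) := by
      rw [hz, ← hk]
      exact card_dvd_of_le inf_le_right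
    obtain ⟨T, h1, h2, h3, h4⟩ := exists_central P hd
    rw [hk, ← h3]
    exact Subgroup.card_le_of_le (le_inf h1 (Subgroup.normal_le_normalCore.mpr h2))
  have hP : Nat.card PH = Nat.card P := by
    rw [Sylow.card_eq_multiplicity, Sylow.card_eq_multiplicity, hcard]
  have hfin : Nat.card P * Nat.card (center G) ≤ Nat.card (P : Subgroup G).normalCore * Nat.card (center G) := by
    rw [← hP]
    calc _ ≤ _ := hA
      _ ≤ Nat.card (center G ⊔ (P : Subgroup G).normalCore : Subgroup G) * Nat.card (center G ⊓ (P : Subgroup G).normalCore : Subgroup G) := Nat.mul_le_mul hL hinf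
      _ = Nat.card (center G) * Nat.card (P : Subgroup G).normalCore := hprod
      _ = _ := mul_comm _ _
  have hle := Nat.le_of_mul_le_mul_right hfin Nat.card_pos
  have heq : (P : Subgroup G).normalCore = P := Subgroup.eq_of_le_of_card_ge (Subgroup.normalCore_le _) hle
  rw [← heq]
  infer_instance

end Cfsg.Agent.S4139
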