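import Cfsg.Statements.S4145
import Cfsg.Agent.H23_CycSyl

set_option autoImplicit false
open Cfsg

namespace Cfsg.Agent.S4145

open Subgroup

/-- Let G be a finite group with a cyclic Sylow p-subgroup and H a normal subgroup such that p divides both the order of H and the index of H. Then H has a normal p-complement and G is p-solvable. -/
theorem result {G : Type*} [Group G] [Finite G] (p : ℕ) [Fact p.Prime]
    (P : Sylow p G) (hP : IsCyclic (P : Subgroup G)) (H : Subgroup G) [H.Normal] (h1 : p ∣ Nat.card H) (h2 : p ∣ H.index) :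
    Cfsg.HasNormalPComplement p H ∧ Cfsg.IsPSolvable p G := by

  classical
  have hp := (Fact.out : p.Prime)
  have hnpc := H23.CycSyl.npc_of_index P hP H h1 h2
  refine ⟨hnpc, ?_⟩
  obtain ⟨M', hM'n, hM'c, k, hk⟩ := H2.Basic.npc_iff.1 hnpc
  set M := M'.map H.subtype with hM
  have hMn : M.Normal := by
    constructor
    rintro _ ⟨y, hy, rfl⟩ g
    have h1 : g * (y : G) * g⁻¹ ∈ H := (inferInstance : H.Normal).conj_mem y y.2 g
    refine ⟨⟨_, h1⟩, ?_, rfl⟩
    haveI := hM'n
    rw [SetLike.mem_coe, H2.Basic.mem_npc_iff hM'c hk] at hy ⊢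
    rw [orderOf_mk, H24.Tools.orderOf_conj]
    rwa [← orderOf_coe] at hy
  have hcM : Nat.card M = Nat.card M' := card_map_of_injective H.subtype_injective
  refine H23.Basic.isPSolvable_of_quotient M (Or.inr ?_) ?_
  · rw [hcM]
    exact ((Nat.Prime.coprime_iff_not_dvd hp).2 hM'c).symm
  set q := QuotientGroup.mk' M with hq
  have hsur := QuotientGroup.mk'_surjective M
  haveI : (H.map q).Normal := Normal.map inferInstance q hsur
  have hMH : M ≤ H := map_subtype_le _
  have hidx : M.relIndex H = p ^ k := by
    have : M.subgroupOf H = M' := comap_map_eq_self_of_injective H.subtype_injective _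
    rw [relIndex, this, hk]
  have hcH : Nat.card (H.map q) = p ^ k := by
    rw [← hidx, relIndex, ← MonoidHom.domRestrict_range, ← index_ker, MonoidHom.ker_domRestrict, hq, QuotientGroup.ker_mk']
  refine H23.CycSyl.isPSolvable_of_normal (P.mapSurjective hsur) ?_ (H.map q) (IsPGroup.of_card hcH) ?_
  · rw [Sylow.coe_mapSurjective]
    exact isCyclic_of_surjective (q.subgroupMap (P : Subgroup G)) (q.subgroupMap_surjective _)
  · intro hb
    rw [hb, Subgroup.card_bot] at hcH
    have h3 := H2.Card.card_mul_relIndex hMH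
    rw [hidx, ← hcH, mul_one, hcM] at h3
    rw [← h3] at h1
    exact hM'c h1


end Cfsg.Agent.S4145
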