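import Cfsg.Statements.S4149
import Mathlib
import Cfsg.Agent.H23_ClassSize

set_option autoImplicit false
open Cfsg

namespace Cfsg.Agent.S4149

open Cfsg.Agent.H23.ClassSize Subgroup in
theorem aux {G : Type*} [Group G] [Finite G] (σ : ℕ)
    (hσ : ∀ x : G, ((Subgroup.centralizer ({x} : Set G)).index).primeFactors.card ≤ σ)
    (hnil : ∀ p q : ℕ, p.Prime → q.Prime → p ∣ Nat.card G → q ∣ Nat.card G →
      Cfsg.HasNormalPComplement p G → Cfsg.HasNormalPComplement q G → p = q) :
    Nat.card {p : ℕ | p.Prime ∧ ∃ x : G, p ∣ (Subgroup.centralizer ({x} : Set G)).index} ≤ 2 * σ := by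
  classical
  have := Fintype.ofFinite G
  set ρ : Finset ℕ := (Nat.card G).primeFactors.filter
    (fun p => ∃ x : G, p ∣ (Subgroup.centralizer ({x} : Set G)).index) with hρ
  have hdvd : ∀ (p : ℕ) (x : G), p ∣ (Subgroup.centralizer ({x} : Set G)).index → p ∣ Nat.card G :=
    fun p x h => h.trans (index_dvd_card _)
  have hset : {p : ℕ | p.Prime ∧ ∃ x : G, p ∣ (Subgroup.centralizer ({x} : Set G)).index} = (ρ : Set ℕ) := by
    ext p
    simp only [hρ, Set.mem_setOf_eq, Finset.coe_filter, Nat.mem_primeFactors]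
    constructor
    · rintro ⟨h1, x, hx⟩
      exact ⟨⟨h1, hdvd p x hx, Nat.card_pos.ne'⟩, x, hx⟩
    · rintro ⟨⟨h1, _, _⟩, h2⟩
      exact ⟨h1, h2⟩
  rw [hset, Nat.card_coe_set_eq, Set.ncard_coe_finset]
  by_contra hlt
  push Not at hlt
  -- σ > 0
  have hmemρ : ∀ p, p ∈ ρ ↔ p.Prime ∧ ∃ x : G, p ∣ (Subgroup.centralizer ({x} : Set G)).index := by
    intro p
    have : p ∈ (ρ : Set ℕ) ↔ p.Prime ∧ ∃ x : G, p ∣ (Subgroup.centralizer ({x} : Set G)).index := by
      rw [← hset]; rfl
    simpa using this
  have hcount : ∀ x : G, (ρ.filter (fun p => p ∣ (centralizer ({x} : Set G)).index)).card ≤ σ := by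
    intro x
    refine le_trans (Finset.card_le_card ?_) (hσ x)
    intro p hp
    rw [Finset.mem_filter] at hp
    exact Nat.mem_primeFactors.2 ⟨((hmemρ p).1 hp.1).1, hp.2, index_ne_zero_of_finite⟩
  have hcount1 : (ρ.filter (fun p => p ∣ (centralizer ({(1 : G)} : Set G)).index)).card = 0 := by
    rw [Finset.card_eq_zero, Finset.filter_eq_empty_iff]
    intro p hp hd
    have : centralizer ({1} : Set G) = ⊤ := by
      ext y; simp [mem_centralizer_singleton_iff]
    rw [this, index_top] at hd
    exact ((hmemρ p).1 hp).1.one_lt.ne' (Nat.dvd_one.1 hd)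
  -- double counting
  have hdc : ∑ x : G, (ρ.filter (fun p => p ∣ (centralizer ({x} : Set G)).index)).card
      = ∑ p ∈ ρ, (Finset.univ.filter (fun x : G => p ∣ (centralizer ({x} : Set G)).index)).card := by
    simp only [Finset.card_filter]
    exact Finset.sum_comm
  have hup : ∑ x : G, (ρ.filter (fun p => p ∣ (centralizer ({x} : Set G)).index)).card
      ≤ (Nat.card G - 1) * σ := by
    rw [← Finset.add_sum_erase _ _ (Finset.mem_univ (1 : G)), hcount1, zero_add]
    refine le_trans (Finset.sum_le_card_nsmul _ _ σ (fun x _ => hcount x)) ?_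
    rw [Finset.card_erase_of_mem (Finset.mem_univ _), Finset.card_univ, smul_eq_mul, Nat.card_eq_fintype_card]
  have hcard : ∀ p : ℕ, (Finset.univ.filter (fun x : G => p ∣ (centralizer ({x} : Set G)).index)).card
      + Nat.card {x : G | ¬ p ∣ (centralizer ({x} : Set G)).index} = Nat.card G := by
    intro p
    have h1 : Nat.card {x : G | ¬ p ∣ (centralizer ({x} : Set G)).index}
        = (Finset.univ.filter (fun x : G => ¬ p ∣ (centralizer ({x} : Set G)).index)).card := by
      rw [Nat.card_coe_set_eq, ← Set.ncard_coe_finset]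
      congr 1
      ext x; simp
    rw [h1, Finset.card_filter_add_card_filter_not, Finset.card_univ, Nat.card_eq_fintype_card]
  have hlow : ∀ p ∈ ρ, ¬ HasNormalPComplement p G →
      Nat.card G ≤ 2 * (Finset.univ.filter (fun x : G => p ∣ (centralizer ({x} : Set G)).index)).card := by
    intro p hp hn
    have h1 := two_mul_card_le ((hmemρ p).1 hp).1 hn
    have h2 := hcard p
    omega
  have hlow' : ∀ p ∈ ρ, 0 < (Finset.univ.filter (fun x : G => p ∣ (centralizer ({x} : Set G)).index)).card := by
    intro p hp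
    have h1 := card_lt_of_exists ((hmemρ p).1 hp).2
    have h2 := hcard p
    omega
  have hG : 0 < Nat.card G := Nat.card_pos
  -- at most one exceptional prime
  have key : (ρ.card - 1) * Nat.card G < 2 * ∑ p ∈ ρ, (Finset.univ.filter (fun x : G => p ∣ (centralizer ({x} : Set G)).index)).card := by
    by_cases hex : ∃ p0 ∈ ρ, HasNormalPComplement p0 G
    · obtain ⟨p0, hp0, hp0n⟩ := hex
      rw [← Finset.add_sum_erase _ _ hp0]
      have h1 : ∑ p ∈ ρ.erase p0, Nat.card G ≤ ∑ p ∈ ρ.erase p0, 2 * (Finset.univ.filter (fun x : G => p ∣ (centralizer ({x} : Set G)).index)).card := by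
        apply Finset.sum_le_sum
        intro p hp
        rw [Finset.mem_erase] at hp
        apply hlow p hp.2
        intro hn
        obtain ⟨x, hx⟩ := ((hmemρ p).1 hp.2).2
        obtain ⟨y, hy⟩ := ((hmemρ p0).1 hp0).2
        exact hp.1 (hnil p p0 ((hmemρ p).1 hp.2).1 ((hmemρ p0).1 hp0).1 (hdvd _ _ hx) (hdvd _ _ hy) hn hp0n)
      rw [Finset.sum_const, Finset.card_erase_of_mem hp0, smul_eq_mul, ← Finset.mul_sum] at h1
      have h2 := hlow' p0 hp0
      omega
    · push Not at hex
      have h1 : ∑ p ∈ ρ, Nat.card G ≤ ∑ p ∈ ρ, 2 * (Finset.univ.filter (fun x : G => p ∣ (centralizer ({x} : Set G)).index)).card := by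
        apply Finset.sum_le_sum
        intro p hp
        exact hlow p hp (hex p hp)
      rw [Finset.sum_const, smul_eq_mul, ← Finset.mul_sum] at h1
      refine lt_of_lt_of_le ?_ h1
      apply Nat.mul_lt_mul_of_pos_right _ hG
      omega
  rw [← hdc] at key
  have h3 : 2 * σ ≤ ρ.card - 1 := by omega
  have h4 : (2 * σ) * Nat.card G ≤ (ρ.card - 1) * Nat.card G := Nat.mul_le_mul_right _ h3
  have h5 : (Nat.card G - 1) * σ ≤ Nat.card G * σ := Nat.mul_le_mul_right _ (by omega)
  have h6 : (2 * σ) * Nat.card G = 2 * (Nat.card G * σ) := by ring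
  omega


/-- Let G be a finite group that has a normal p-complement for at most one prime p dividing its order, and let σ be a natural number such that every conjugacy class size of G has at most σ distinct prime divisors. Then the number of primes dividing at least one conjugacy class size of G is at most 2σ. -/
theorem result {G : Type*} [Group G] [Finite G] (σ : ℕ)
    (hσ : ∀ x : G, ((Subgroup.centralizer ({x} : Set G)).index).primeFactors.card ≤ σ)
    (hnil : ∀ p q : ℕ, p.Prime → q.Prime → p ∣ Nat.card G → q ∣ Nat.card G →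
      Cfsg.HasNormalPComplement p G → Cfsg.HasNormalPComplement q G → p = q) :
    Nat.card {p : ℕ | p.Prime ∧ ∃ x : G, p ∣ (Subgroup.centralizer ({x} : Set G)).index} ≤ 2 * σ := by
  exact aux σ hσ hnil

end Cfsg.Agent.S4149
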