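import Cfsg.Statements.S4150
import Cfsg.Agent.H11_Trouble4
import Cfsg.Agent.H11_Three

set_option autoImplicit false
open Cfsg

namespace Cfsg.Agent.S4150

open Equiv.Perm

theorem transport {m : ℕ} (x y : alternatingGroup (Fin m)) :
    ∃ x' y' : Equiv.Perm {i : Fin m // (x : Equiv.Perm (Fin m)) i ≠ i ∨ (y : Equiv.Perm (Fin m)) i ≠ i},
      orderOf x' = orderOf x ∧ orderOf y' = orderOf y ∧ sign x' = 1 ∧ sign y' = 1 ∧
      (∀ i, x' i ≠ i ∨ y' i ≠ i) ∧
      Nonempty (Subgroup.closure ({x, y} : Set (alternatingGroup (Fin m))) ≃*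
        Subgroup.closure ({x', y'} : Set (Equiv.Perm {i : Fin m // (x : Equiv.Perm (Fin m)) i ≠ i ∨ (y : Equiv.Perm (Fin m)) i ≠ i}))) := by
  classical
  set X := (x : Equiv.Perm (Fin m)) with hX
  set Y := (y : Equiv.Perm (Fin m)) with hY
  have aux : ∀ (Z W : Equiv.Perm (Fin m)) (i : Fin m), Z (Z i) = Z i → Z i = i := fun Z W i h => Z.injective h
  have hx : ∀ i, (X (X i) ≠ X i ∨ Y (X i) ≠ X i) ↔ (X i ≠ i ∨ Y i ≠ i) := by
    intro i
    by_cases h : X i = i
    · rw [h]; simp [h]
    · exact ⟨fun _ => Or.inl h, fun _ => Or.inl (fun h' => h (X.injective h'))⟩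
  have hy : ∀ i, (X (Y i) ≠ Y i ∨ Y (Y i) ≠ Y i) ↔ (X i ≠ i ∨ Y i ≠ i) := by
    intro i
    by_cases h : Y i = i
    · rw [h]; simp [h]
    · exact ⟨fun _ => Or.inr h, fun _ => Or.inr (fun h' => h (Y.injective h'))⟩
  set x' := X.subtypePerm (p := fun i => X i ≠ i ∨ Y i ≠ i) hx with hx'
  set y' := Y.subtypePerm (p := fun i => X i ≠ i ∨ Y i ≠ i) hy with hy'
  have ex : Equiv.Perm.ofSubtype x' = X := Equiv.Perm.ofSubtype_subtypePerm (p := fun i => X i ≠ i ∨ Y i ≠ i) hx (fun i hi => Or.inl hi)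
  have ey : Equiv.Perm.ofSubtype y' = Y := Equiv.Perm.ofSubtype_subtypePerm (p := fun i => X i ≠ i ∨ Y i ≠ i) hy (fun i hi => Or.inr hi)
  refine ⟨x', y', ?_, ?_, ?_, ?_, ?_, ?_⟩
  · rw [← orderOf_injective _ Equiv.Perm.ofSubtype_injective x', ex, hX, Subgroup.orderOf_coe]
  · rw [← orderOf_injective _ Equiv.Perm.ofSubtype_injective y', ey, hY, Subgroup.orderOf_coe]
  · rw [← Equiv.Perm.sign_ofSubtype, ex]
    exact Equiv.Perm.mem_alternatingGroup.mp x.2
  · rw [← Equiv.Perm.sign_ofSubtype, ey]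
    exact Equiv.Perm.mem_alternatingGroup.mp y.2
  · rintro ⟨i, hi⟩
    rcases hi with hi | hi
    · left
      intro h
      exact hi (congrArg Subtype.val h)
    · right
      intro h
      exact hi (congrArg Subtype.val h)
  · have h1 : (Subgroup.closure ({x, y} : Set (alternatingGroup (Fin m)))).map (alternatingGroup (Fin m)).subtype
        = Subgroup.closure ({X, Y} : Set (Equiv.Perm (Fin m))) := by
      rw [MonoidHom.map_closure, Set.image_insert_eq, Set.image_singleton]; rfl
    have h2 : (Subgroup.closure ({x', y'} : Set _)).map (Equiv.Perm.ofSubtype)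
        = Subgroup.closure ({X, Y} : Set (Equiv.Perm (Fin m))) := by
      rw [MonoidHom.map_closure, Set.image_insert_eq, Set.image_singleton, ex, ey]
    exact ⟨((Subgroup.equivMapOfInjective _ _ (alternatingGroup (Fin m)).subtype_injective).trans
      (MulEquiv.subgroupCongr (h1.trans h2.symm))).trans
      (Subgroup.equivMapOfInjective _ _ Equiv.Perm.ofSubtype_injective).symm⟩

theorem fin_alt {α : Type*} [Fintype α] [DecidableEq α] {x y : Equiv.Perm α} (h5 : 5 ≤ Fintype.card α)
    (h : Subgroup.closure ({x, y} : Set (Equiv.Perm α)) = alternatingGroup α) :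
    ∃ d : ℕ, 5 ≤ d ∧ Nonempty (Subgroup.closure ({x, y} : Set (Equiv.Perm α)) ≃* alternatingGroup (Fin d)) :=
  ⟨Fintype.card α, h5, ⟨(MulEquiv.subgroupCongr h).trans (Equiv.altCongrHom (Fintype.equivFin α))⟩⟩

theorem reduce {m p q : ℕ} (hq : q.Prime) (hm : m < 2 * q)
    (H : ∀ (α : Type) [Fintype α] [DecidableEq α] (x y : Equiv.Perm α), Fintype.card α ≤ m →
      q ≤ Fintype.card α → orderOf x = p → orderOf y = q → sign x = 1 → sign y = 1 →
      (∀ i, x i ≠ i ∨ y i ≠ i) →
      ∃ d : ℕ, 5 ≤ d ∧ Nonempty (Subgroup.closure ({x, y} : Set (Equiv.Perm α)) ≃* alternatingGroup (Fin d)))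
    (x y : alternatingGroup (Fin m)) (hx : orderOf x = p) (hy : orderOf y = q) :
    ∃ d : ℕ, 5 ≤ d ∧ Nonempty (Subgroup.closure ({x, y} : Set (alternatingGroup (Fin m))) ≃* alternatingGroup (Fin d)) := by
  classical
  obtain ⟨x', y', h1, h2, h3, h4, h5, ⟨e⟩⟩ := transport x y
  have hle : Fintype.card {i : Fin m // (x : Equiv.Perm (Fin m)) i ≠ i ∨ (y : Equiv.Perm (Fin m)) i ≠ i} ≤ m := by
    have := Fintype.card_subtype_le (fun i : Fin m => (x : Equiv.Perm (Fin m)) i ≠ i ∨ (y : Equiv.Perm (Fin m)) i ≠ i)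
    rwa [Fintype.card_fin] at this
  have hge : q ≤ Fintype.card {i : Fin m // (x : Equiv.Perm (Fin m)) i ≠ i ∨ (y : Equiv.Perm (Fin m)) i ≠ i} := by
    obtain ⟨hyc, hyq⟩ := H11.Cyc.cycle_of_order hq (h2.trans hy) (by omega)
    rw [← hyq]
    exact Finset.card_le_univ _
  obtain ⟨d, hd, ⟨e'⟩⟩ := H _ x' y' hle hge (h1.trans hx) (h2.trans hy) h3 h4 h5
  exact ⟨d, hd, ⟨e.trans e'⟩⟩

/-- Let m ≥ 5. Then there are primes p < q with m/2 ≤ p and q ≤ m such that any two elements x, y of the alternating group of degree m with x of order p and y of order q generate a subgroup isomorphic to an alternating group of some degree d ≥ 5. -/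
theorem result (m : ℕ) (hm : 5 ≤ m) :
    ∃ p q : ℕ, p.Prime ∧ q.Prime ∧ m ≤ 2 * p ∧ p < q ∧ q ≤ m ∧
      ∀ x y : alternatingGroup (Fin m), orderOf x = p → orderOf y = q →
        ∃ d : ℕ, 5 ≤ d ∧ Nonempty (Subgroup.closure ({x, y} : Set (alternatingGroup (Fin m))) ≃* alternatingGroup (Fin d)) := by
  rcases lt_or_ge m 6 with h | h
  · -- m = 5
    refine ⟨3, 5, by norm_num, by norm_num, by omega, by omega, by omega, ?_⟩
    refine reduce (by norm_num) (by omega) ?_
    intro α _ _ x y h1 h2 hx hy hxs hys hcov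
    obtain ⟨hxc, hxp⟩ := H11.Cyc.cycle_of_order (by norm_num) hx (by omega)
    exact fin_alt (by omega) (H11.Cyc.alt_three (by norm_num) (card_support_eq_three_iff.mp hxp) hy hys hcov
      (by norm_num) (by omega))
  rcases lt_or_ge m 7 with h' | h'
  · -- m = 6
    refine ⟨3, 5, by norm_num, by norm_num, by omega, by omega, by omega, ?_⟩
    refine reduce (by norm_num) (by omega) ?_
    intro α _ _ x y h1 h2 hx hy hxs hys hcov
    by_cases h6 : Fintype.card α = 6
    · rcases H11.Trouble.six h6 hx hy hxs hys hcov with h7 | h7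
      · exact fin_alt (by omega) h7
      · exact ⟨5, le_rfl, h7⟩
    · obtain ⟨hxc, hxp⟩ := H11.Cyc.cycle_of_order (by norm_num) hx (by omega)
      exact fin_alt (by omega) (H11.Cyc.alt_three (by norm_num) (card_support_eq_three_iff.mp hxp) hy hys hcov
        (by norm_num) (by omega))
  rcases lt_or_ge m 11 with h'' | h''
  · -- 7 ≤ m ≤ 10
    refine ⟨5, 7, by norm_num, by norm_num, by omega, by omega, by omega, ?_⟩
    refine reduce (by norm_num) (by omega) ?_
    intro α _ _ x y h1 h2 hx hy hxs hys hcov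
    by_cases h7 : Fintype.card α = 7
    · exact fin_alt (by omega) (H11.Trouble.seven h7 hx hy hxs hys)
    by_cases h10 : Fintype.card α = 10
    · exact fin_alt (by omega) (H11.Cyc.alt_y (by norm_num) (by norm_num) hx hy hxs hys hcov (by norm_num)
        (by omega) (by omega))
    · exact fin_alt (by omega) (H11.Cyc.alt_x (by norm_num) (by norm_num) hx hy hxs hys hcov (by norm_num)
        (by omega) (by omega))
  rcases lt_or_ge m 15 with h3 | h3
  · -- 11 ≤ m ≤ 14
    refine ⟨7, 11, by norm_num, by norm_num, by omega, by omega, by omega, ?_⟩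
    refine reduce (by norm_num) (by omega) ?_
    intro α _ _ x y h1 h2 hx hy hxs hys hcov
    by_cases h14 : Fintype.card α = 14
    · exact fin_alt (by omega) (H11.Cyc.alt_y (by norm_num) (by norm_num) hx hy hxs hys hcov (by norm_num)
        (by omega) (by omega))
    · exact fin_alt (by omega) (H11.Cyc.alt_x (by norm_num) (by norm_num) hx hy hxs hys hcov (by norm_num)
        (by omega) (by omega))
  rcases lt_or_ge m 17 with h4 | h4
  · -- m = 15, 16
    refine ⟨11, 13, by norm_num, by norm_num, by omega, by omega, by omega, ?_⟩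
    refine reduce (by norm_num) (by omega) ?_
    intro α _ _ x y h1 h2 hx hy hxs hys hcov
    by_cases h13 : Fintype.card α = 13
    · exact fin_alt (by omega) (H11.Trouble.thirteen h13 hx hy hxs hys)
    · exact fin_alt (by omega) (H11.Cyc.alt_x (by norm_num) (by norm_num) hx hy hxs hys hcov (by norm_num)
        (by omega) (by omega))
  obtain ⟨p, q, hp, hq, h5, h6, h7⟩ := H11.Three.exists_pair m h4
  refine ⟨p, q, hp, hq, by omega, by omega, h7, ?_⟩
  refine reduce hq (by omega) ?_
  intro α _ _ x y h1 h2 hx hy hxs hys hcov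
  have := hp.two_le
  exact fin_alt (by omega) (H11.Cyc.alt_x hp hq hx hy hxs hys hcov (by omega) (by omega) (by omega))

end Cfsg.Agent.S4150
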