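import Cfsg.Statements.S4151
import Mathlib
import Cfsg.Agent.H23_ZAction
import Cfsg.Agent.H23_HallTI
import Cfsg.Agent.H23_PBasic
import Cfsg.Agent.H1_Partition
import Cfsg.Agent.H13_Syl
import Cfsg.Agent.H22_Basic

set_option autoImplicit false
open Cfsg

namespace Cfsg.Agent.S4151

open Subgroup Cfsg.Agent.H13.Syl Cfsg.Agent.H23
open scoped Pointwise commutatorElement

universe u

variable {G : Type u} [Group G] [Finite G]

theorem normalizer_le_of_ti {H T : Subgroup G} (hTI : IsTISubset (H : Set G)) (hTH : T ≤ H) (hT : T ≠ ⊥) :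
    normalizer (T : Set G) ≤ normalizer (H : Set G) := by
  intro g hg
  by_contra hc
  obtain ⟨⟨t, ht⟩, ht1⟩ := ne_bot_iff_exists_ne_one.1 hT
  have h1 : g * t * g⁻¹ ∈ T := (mem_normalizer_iff.1 hg t).1 ht
  exact ht1 (Subtype.ext (hTI g hc t (hTH ht) (hTH h1)))

theorem isSylIn_ne_bot {T K : Subgroup G} {r : ℕ} [Fact r.Prime] (h : IsSylIn r T K) (hr : r ∣ Nat.card K) : T ≠ ⊥ := by
  rintro rfl
  apply h.not_dvd
  rw [relIndex_bot_left]
  exact hr

/-- `H` is a Hall subgroup. -/
theorem hall {H : Subgroup G} (hTI : IsTISubset (H : Set G))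
    (hHall : (Nat.card H).Coprime (H.relIndex (normalizer (H : Set G)))) : (Nat.card H).Coprime H.index := by
  rw [Nat.coprime_iff_gcd_eq_one]
  by_contra hne
  obtain ⟨r, hr, hrd⟩ := Nat.exists_prime_and_dvd hne
  have hrf : Fact r.Prime := ⟨hr⟩
  have h1 := hrd.trans (Nat.gcd_dvd_left _ _)
  have h2 := hrd.trans (Nat.gcd_dvd_right _ _)
  obtain ⟨T, hT⟩ := exists_isSylIn (p := r) H
  have hTb := isSylIn_ne_bot hT h1
  have hN := normalizer_le_of_ti hTI hT.le hTb
  have h3 : IsSylIn r T (normalizer (H : Set G)) := by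
    refine ⟨hT.le.trans le_normalizer, hT.isPGroup, ?_⟩
    rw [← relIndex_mul_relIndex T H _ hT.le le_normalizer]
    intro hd
    rcases (Nat.Prime.dvd_mul hr).1 hd with hd | hd
    · exact hT.not_dvd hd
    · exact hr.one_lt.ne' (Nat.dvd_one.1 (hHall ▸ Nat.dvd_gcd h1 hd))
  have h4 : IsSylIn r T (⊤ ⊓ normalizer (T : Set G)) := by
    rw [top_inf_eq]
    exact h3.mono le_normalizer hN
  have h5 := isSylIn_of_isSylIn_normalizer h4
  apply h5.not_dvd
  rw [relIndex_top_right, ← relIndex_mul_index hT.le]
  exact Dvd.dvd.mul_left h2 _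

theorem main (H : Subgroup G)
    (hTI : Cfsg.IsTISubset (H : Set G)) (hnn : ¬ H.Normal)
    (hHall : (Nat.card H).Coprime (H.subgroupOf (Subgroup.normalizer (H : Set G))).index)
    (hsep : ∃ (n : ℕ) (M : Fin (n + 1) → Subgroup G), M 0 = ⊥ ∧ M (Fin.last n) = ⊤ ∧ Monotone M ∧ (∀ i, (M i).Normal) ∧
      ∀ i : Fin n, (∀ q : ℕ, q.Prime → q ∣ (M i.castSucc).relIndex (M i.succ) → q ∣ Nat.card H) ∨
        ((M i.castSucc).relIndex (M i.succ)).Coprime (Nat.card H))
    (h2 : ∀ P : Sylow 2 H, IsMulCommutative (P : Subgroup H))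
    (Q : Subgroup G) (hQ : Q ≤ Subgroup.normalizer (H : Set G)) (hQH : Q ⊓ H = ⊥) (hQH' : Q ⊔ H = Subgroup.normalizer (H : Set G)) :
    (Nat.card ↥(H ⊓ Subgroup.centralizer (Q : Set G))).Coprime (H ⊓ Subgroup.centralizer (Q : Set G)).index ∧
    ∃ N : Subgroup G, N.Normal ∧ N.IsComplement' (H ⊓ Subgroup.centralizer (Q : Set G)) := by
  have hHallG := hall hTI hHall
  have hHb : H ≠ ⊥ := by
    rintro rfl
    exact hnn inferInstance
  have hHc : Nat.card H ≠ 1 := by rwa [Ne, card_eq_one]
  set N := normalizer (H : Set G) with hN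
  -- the maximal normal π'-subgroup
  obtain ⟨O, ⟨hOn, hOc⟩, hOmax'⟩ := (Set.toFinite {O : Subgroup G | O.Normal ∧ (Nat.card O).Coprime (Nat.card H)}).exists_maximal
    ⟨⊥, (inferInstance : (⊥ : Subgroup G).Normal), by rw [card_bot]; exact Nat.coprime_one_left _⟩
  have hOmax : ∀ L : Subgroup G, L.Normal → (Nat.card (O ⊔ L : Subgroup G)).Coprime (Nat.card H) → L ≤ O := by
    intro L hL hc
    exact le_sup_right.trans (hOmax' ⟨inferInstance, hc⟩ le_sup_left)
  have hOH : O ⊓ H = ⊥ := by
    rw [← disjoint_iff]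
    exact disjoint_of_coprime_natCard hOc
  -- find the section
  obtain ⟨n, M, hM0, hMl, hMm, hMn, hMi⟩ := hsep
  have hex : ∃ i : Fin n, M i.castSucc ≤ O ∧ ¬ M i.succ ≤ O := by
    by_contra hcon
    push Not at hcon
    have hall : ∀ i : Fin (n + 1), M i ≤ O := by
      intro i
      induction i using Fin.induction with
      | zero => rw [hM0]; exact bot_le
      | succ i ih => exact hcon i ih
    have h3 := hall (Fin.last n)
    rw [hMl] at h3
    have h4 : H ≤ O := le_top.trans h3
    have h5 : O ⊓ H = H := inf_eq_right.2 h4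
    rw [hOH] at h5
    exact hHb h5.symm
  obtain ⟨i, hi1, hi2⟩ := hex
  set L := M i.succ with hL
  have hLn : L.Normal := hMn _
  have hrel : O.relIndex L ∣ (M i.castSucc).relIndex L := relIndex_dvd_of_le_left L hi1
  have hrelOL : O.relIndex (O ⊔ L) = O.relIndex L := relIndex_sup_left L O
  have hcardOL := H2.Card.card_mul_relIndex (le_sup_left : O ≤ O ⊔ L)
  have hπ : ∀ q : ℕ, q.Prime → q ∣ O.relIndex L → q ∣ Nat.card H := by
    rcases hMi i with h3 | h3
    · intro q hq hqd
      exact h3 q hq (hqd.trans hrel)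
    · exfalso
      apply hi2
      apply hOmax L hLn
      rw [← hcardOL, hrelOL]
      exact Nat.Coprime.mul_left hOc (Nat.Coprime.coprime_dvd_left hrel h3)
  set K := O ⊔ L with hK
  have hKn : K.Normal := inferInstance
  have hOK : O ≤ K := le_sup_left
  have hKO : K ≠ O := fun h => hi2 (by rw [← h]; exact le_sup_right)
  have hrel1 : O.relIndex K ≠ 1 := by
    rw [Ne, relIndex_eq_one]
    intro h; exact hKO (le_antisymm h hOK)
  -- complement to O in K
  have hO'c : Nat.card (O.subgroupOf K) = Nat.card O := H2.Card.card_subgroupOf_of_le hOK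
  have hcop : Nat.Coprime (Nat.card (O.subgroupOf K)) (O.subgroupOf K).index := by
    rw [hO'c, Nat.coprime_iff_gcd_eq_one]
    by_contra hne
    obtain ⟨q, hq, hqd⟩ := Nat.exists_prime_and_dvd hne
    have h4 : q ∣ Nat.card H := hπ q hq (by rw [← hrelOL]; exact hqd.trans (Nat.gcd_dvd_right _ _))
    exact hq.one_lt.ne' (Nat.dvd_one.1 (hOc ▸ Nat.dvd_gcd (hqd.trans (Nat.gcd_dvd_left _ _)) h4))
  obtain ⟨K1', hK1'⟩ := exists_right_complement'_of_coprime hcop
  set K1 := K1'.map K.subtype with hK1
  have hK1c : Nat.card K1 = O.relIndex K := by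
    rw [hK1, card_map_of_injective K.subtype_injective]; exact hK1'.symm.index_eq_card.symm
  have hK1π : ∀ q : ℕ, q.Prime → q ∣ Nat.card K1 → q ∣ Nat.card H := by
    intro q hq hqd
    rw [hK1c, hrelOL] at hqd
    exact hπ q hq hqd
  have hKsup : K ≤ O ⊔ K1 := by
    intro k hk
    obtain ⟨⟨o, k1⟩, hok⟩ := hK1'.2 ⟨k, hk⟩
    have h4 : ((o : K) : G) * ((k1 : K) : G) = k := congrArg Subtype.val hok
    rw [← h4]
    exact mul_mem_sup (mem_subgroupOf.1 o.2) ⟨k1, k1.2, rfl⟩
  have hKOH : K ≤ O ⊔ H := by
    obtain ⟨g, hg⟩ := HallTI.dominance H hHallG hTI K1 hK1π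
    have h4 : ∀ x ∈ O ⊔ K1, g⁻¹ * x * g ∈ O ⊔ H := by
      have h5 : O ⊔ K1 ≤ (O ⊔ H).comap (MulAut.conj g⁻¹).toMonoidHom := by
        apply sup_le
        · intro x hx
          rw [mem_comap]
          apply mem_sup_left
          exact hOn.conj_mem x hx g⁻¹
        · intro x hx
          rw [mem_comap]
          apply mem_sup_right
          have := hg x hx
          simpa using this
      intro x hx
      have := h5 hx
      rw [mem_comap] at this
      simpa using this
    intro k hk
    have h5 : g * k * g⁻¹ ∈ K := hKn.conj_mem k hk g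
    have h6 := h4 _ (hKsup h5)
    have h7 : g⁻¹ * (g * k * g⁻¹) * g = k := by group
    rwa [h7] at h6
  -- Frattini
  obtain ⟨r, hr, hrd⟩ := Nat.exists_prime_and_dvd hrel1
  have hrf : Fact r.Prime := ⟨hr⟩
  have hrH : r ∣ Nat.card H := hπ r hr (by rw [← hrelOL]; exact hrd)
  have hrK : r ∣ Nat.card K := by
    rw [← hcardOL]
    exact Dvd.dvd.mul_left hrd _
  obtain ⟨T0, hT0⟩ := exists_isSylIn (p := r) K
  obtain ⟨g0, hg0⟩ := HallTI.dominance H hHallG hTI T0 (by
    intro q hq hqd
    obtain ⟨k, hk⟩ := IsPGroup.iff_card.1 hT0.isPGroup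
    rw [hk] at hqd
    rw [(Nat.prime_dvd_prime_iff_eq hq hr).1 (hq.dvd_of_dvd_pow hqd)]
    exact hrH)
  set T := cj g0⁻¹ T0 with hT
  have hTS : IsSylIn r T K := by
    have := hT0.cj g0⁻¹
    rwa [cj_eq_of_normal g0⁻¹ K] at this
  have hTH : T ≤ H := by
    rw [hT, cj_le_iff_forall]
    intro a ha
    have := hg0 a ha
    simpa using this
  have hTb := isSylIn_ne_bot hTS hrK
  have hNT := normalizer_le_of_ti hTI hTH hTb
  have hGON : O ⊔ N = ⊤ := by
    rw [eq_top_iff]
    intro g _
    obtain ⟨k, hk, m, hm, hkm⟩ := hTS.frattini (H := ⊤) le_top le_normalizer_of_normal (mem_top g)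
    rw [hkm]
    have h4 : O ⊔ H ≤ O ⊔ N := sup_le_sup_left le_normalizer O
    exact mul_mem (h4 (hKOH hk)) (mem_sup_right (hNT hm.2))
  -- centralizers
  have hcent : ∀ h ∈ H, h ≠ 1 → ∀ o ∈ O, o * h = h * o → o ∈ centralizer (H : Set G) := by
    intro h hh hh1 o ho hoh
    have hoN : o ∈ N := by
      by_contra hc
      apply hh1
      apply hTI o hc h hh
      rw [hoh]
      simpa using hh
    rw [mem_centralizer_iff]
    intro h' hh'
    have h4 : o * h' * o⁻¹ * h'⁻¹ ∈ O ⊓ H := by
      refine ⟨?_, ?_⟩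
      · have : o * h' * o⁻¹ * h'⁻¹ = o * (h' * o⁻¹ * h'⁻¹) := by group
        rw [this]
        exact O.mul_mem ho (hOn.conj_mem _ (O.inv_mem ho) h')
      · exact H.mul_mem ((mem_normalizer_iff.1 hoN h').1 hh') (H.inv_mem hh')
    rw [hOH, mem_bot] at h4
    calc h' * o = (o * h' * o⁻¹ * h'⁻¹)⁻¹ * (o * h') := by group
      _ = o * h' := by rw [h4]; group
  have hOnc : ¬ O ≤ centralizer (H : Set G) := by
    intro hle
    apply hnn
    rw [← normalizer_eq_top_iff, ← hN, ← hGON]
    symm
    rw [sup_eq_right]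
    exact hle.trans (centralizer_le_normalizer _)
  have hab : ∀ A : Subgroup G, A ≤ H → IsMulCommutative A → IsCyclic A := by
    intro A hAH hAc
    by_contra hnc
    apply hOnc
    have h4 := H1.Partition.generation A O (hA := hAc) hnc le_normalizer_of_normal
      (Nat.Coprime.coprime_dvd_left (card_dvd_of_le hAH) hOc.symm)
    rw [← h4]
    apply iSup₂_le
    intro a ha o ho
    exact hcent a (hAH ha.1) ha.2 o ho.1 (mem_centralizer_singleton_iff.1 ho.2)
  have hZ : IsZGroup H := by
    refine ⟨fun p hp P => ?_⟩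
    have hpf : Fact p.Prime := ⟨hp⟩
    apply PBasic.cyclic_of_abelian_cyclic P.isPGroup'
    · by_cases hp2 : p = 2
      · subst hp2
        right
        intro a b
        exact (h2 P).is_comm.comm a b
      · exact Or.inl hp2
    · intro A hA _
      have e : A ≃* ((A.map (P : Subgroup H).subtype).map H.subtype : Subgroup G) :=
        (A.equivMapOfInjective _ (P : Subgroup H).subtype_injective).trans
          ((A.map (P : Subgroup H).subtype).equivMapOfInjective _ H.subtype_injective)
      have h4 : IsMulCommutative ((A.map (P : Subgroup H).subtype).map H.subtype : Subgroup G) := by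
        refine ⟨⟨fun x y => ?_⟩⟩
        apply e.symm.injective
        rw [map_mul, map_mul]
        exact hA.is_comm.comm _ _
      have h5 := hab _ (map_subtype_le _) h4
      exact isCyclic_of_surjective e.symm.toMonoidHom e.symm.surjective
  -- action of Q on H
  have hcardN : Nat.card N = Nat.card Q * Nat.card H := by
    have := H2.Card.card_sup_mul_card_inf (H := Q) (N := H) hQ
    rw [hQH, hQH', card_bot, mul_one] at this
    exact this
  have hQc : Nat.card Q = (H.subgroupOf N).index := by
    have h4 := H2.Card.card_mul_relIndex (le_normalizer : H ≤ normalizer (H : Set G))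
    rw [← hN, hcardN, mul_comm (Nat.card Q)] at h4
    exact (Nat.eq_of_mul_eq_mul_left Nat.card_pos h4).symm
  have hQcop : (Nat.card Q).Coprime (Nat.card H) := by rw [hQc]; exact hHall.symm
  have z1 := ZAction.fixed_hall Q H hQ hQcop
  have z2 := ZAction.commutator_inf Q H hQ hQcop
  have z3 := H1.Coprime.commutator_sup_centralizer Q H hQ hQcop (Or.inr inferInstance)
  set C := H ⊓ centralizer (Q : Set G) with hC
  set D := ⁅H, Q⁆ with hD
  have hDH : D ≤ H := H1.Coprime.commutator_le_of_le_normalizer hQ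
  have hHD : H ≤ normalizer (D : Set G) := normalizer_commutator_ge_left _ _
  have hQD : Q ≤ normalizer (D : Set G) := normalizer_commutator_ge_right _ _
  have hDc : Nat.card D = C.relIndex H := by
    have h4 := H2.Card.card_sup_mul_card_inf (H := C) (N := D) (inf_le_left.trans hHD)
    rw [sup_comm, z3] at h4
    have h5 : C ⊓ D = ⊥ := by
      rw [eq_bot_iff, ← z2]
      exact le_inf inf_le_right (inf_le_left.trans inf_le_right)
    rw [h5, card_bot, mul_one] at h4
    have h6 := H2.Card.card_mul_relIndex (inf_le_left : C ≤ H)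
    rw [← h6] at h4
    exact (Nat.eq_of_mul_eq_mul_left Nat.card_pos h4).symm
  -- the normal complement
  set B := Q ⊔ D with hB
  have hNB : N ≤ normalizer (B : Set G) := by
    rw [← hQH']
    apply sup_le
    · exact le_sup_left.trans le_normalizer
    · intro h hh
      apply H24.Tools.mem_normalizer
      intro y hy
      have h5 : B ≤ B.comap (MulAut.conj h).toMonoidHom := by
        apply sup_le
        · intro q hq
          rw [mem_comap]
          have h6 : (MulAut.conj h).toMonoidHom q = ⁅h, q⁆ * q := by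
            simp only [MulEquiv.toMonoidHom_eq_coe, MonoidHom.coe_coe, MulAut.conj_apply, commutatorElement_def]
            group
          rw [h6]
          exact mul_mem (mem_sup_right (commutator_mem_commutator hh hq)) (mem_sup_left hq)
        · intro d hd
          rw [mem_comap]
          apply mem_sup_right
          exact (mem_normalizer_iff.1 (hHD hh) d).1 hd
      exact h5 hy
  have hNn : (O ⊔ B).Normal := by
    rw [← normalizer_eq_top_iff, eq_top_iff, ← hGON]
    apply sup_le
    · exact le_sup_left.trans le_normalizer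
    · intro x hx
      apply H24.Tools.mem_normalizer
      intro y hy
      have h5 : O ⊔ B ≤ (O ⊔ B).comap (MulAut.conj x).toMonoidHom := by
        apply sup_le
        · intro o ho
          rw [mem_comap]
          exact mem_sup_left (hOn.conj_mem o ho x)
        · intro b hb
          rw [mem_comap]
          exact mem_sup_right ((mem_normalizer_iff.1 (hNB hx) b).1 hb)
      exact h5 hy
  have hBc : Nat.card B ∣ Nat.card Q * Nat.card D := by
    have := H2.Card.card_sup_mul_card_inf (H := Q) (N := D) hQD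
    rw [← this]; exact Dvd.intro _ rfl
  have hOBc : Nat.card (O ⊔ B : Subgroup G) ∣ Nat.card O * (Nat.card Q * Nat.card D) := by
    have := H2.Card.card_sup_mul_card_inf (H := B) (N := O) le_normalizer_of_normal
    rw [sup_comm] at this
    refine (Dvd.intro _ this).trans ?_
    rw [mul_comm]
    exact Nat.mul_dvd_mul_left _ hBc
  have hCdvd : Nat.card C ∣ Nat.card H := card_dvd_of_le inf_le_left
  have hcopC : (Nat.card (O ⊔ B : Subgroup G)).Coprime (Nat.card C) := by
    refine Nat.Coprime.coprime_dvd_left hOBc ?_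
    refine Nat.Coprime.mul_left (Nat.Coprime.coprime_dvd_right hCdvd hOc) (Nat.Coprime.mul_left
      (Nat.Coprime.coprime_dvd_right hCdvd hQcop) ?_)
    rw [hDc]; exact z1.symm
  have hcompl : (O ⊔ B).IsComplement' C := by
    apply isComplement'_of_disjoint_and_mul_eq_univ
    · exact disjoint_of_coprime_natCard hcopC
    · rw [← Subgroup.normal_mul, ← coe_top]
      congr 1
      rw [eq_top_iff, ← hGON, ← hQH', ← z3]
      apply sup_le
      · exact le_sup_left.trans le_sup_left
      · apply sup_le
        · exact (le_sup_left.trans le_sup_right).trans le_sup_left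
        · apply sup_le
          · exact (le_sup_right.trans le_sup_right).trans le_sup_left
          · exact le_sup_right
  refine ⟨?_, O ⊔ B, hNn, hcompl⟩
  have : C.index = Nat.card (O ⊔ B : Subgroup G) := hcompl.index_eq_card
  rw [this]; exact hcopC.symm


/-- Let G be a finite group and H a non-normal subgroup meeting each of its conjugates by elements outside N_G(H) trivially, with the order of H coprime to its index in N_G(H), such that G is π-separable for π the set of primes dividing the order of H (G has a chain of normal subgroups from 1 to G each of whose factors has order divisible only by primes dividing the order of H or coprime to it). Suppose a Sylow 2-subgroup of H is abelian and Q is a complement of H in N_G(H). Then C_H(Q), the subgroup of elements of H commuting with Q, has order coprime to its index in G and has a normal complement in G. -/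
theorem result {G : Type*} [Group G] [Finite G] (H : Subgroup G)
    (hTI : Cfsg.IsTISubset (H : Set G)) (hnn : ¬ H.Normal)
    (hHall : (Nat.card H).Coprime (H.subgroupOf (Subgroup.normalizer (H : Set G))).index)
    (hsep : ∃ (n : ℕ) (M : Fin (n + 1) → Subgroup G), M 0 = ⊥ ∧ M (Fin.last n) = ⊤ ∧ Monotone M ∧ (∀ i, (M i).Normal) ∧
      ∀ i : Fin n, (∀ q : ℕ, q.Prime → q ∣ (M i.castSucc).relIndex (M i.succ) → q ∣ Nat.card H) ∨
        ((M i.castSucc).relIndex (M i.succ)).Coprime (Nat.card H))
    (h2 : ∀ P : Sylow 2 H, IsMulCommutative (P : Subgroup H))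
    (Q : Subgroup G) (hQ : Q ≤ Subgroup.normalizer (H : Set G)) (hQH : Q ⊓ H = ⊥) (hQH' : Q ⊔ H = Subgroup.normalizer (H : Set G)) :
    (Nat.card ↥(H ⊓ Subgroup.centralizer (Q : Set G))).Coprime (H ⊓ Subgroup.centralizer (Q : Set G)).index ∧
    ∃ N : Subgroup G, N.Normal ∧ N.IsComplement' (H ⊓ Subgroup.centralizer (Q : Set G)) := by
  exact main H hTI hnn hHall hsep h2 Q hQ hQH hQH'

end Cfsg.Agent.S4151
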