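import Cfsg.Statements.S4152
import Mathlib
import Cfsg.Agent.H23_PiClasses

set_option autoImplicit false
open Cfsg

namespace Cfsg.Agent.S4152

open Cfsg.Agent.H23.PiClasses

/-- elements of a coset commuting with a given element -/
theorem coset_bound {G : Type*} [Group G] [Finite G] (N : Subgroup G) (c : G ⧸ N) (m : G) :
    Nat.card {y : G // (y : G ⧸ N) = c ∧ Commute m y} ≤ Nat.card {y : N // Commute m (y : G)} := by
  by_cases h : Nonempty {y : G // (y : G ⧸ N) = c ∧ Commute m y}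
  · obtain ⟨⟨y0, hy0, hc0⟩⟩ := h
    refine Nat.card_le_card_of_injective (fun y => ⟨⟨y0⁻¹ * y.1, ?_⟩, ?_⟩) ?_
    · rw [← QuotientGroup.eq, hy0, y.2.1]
    · exact (hc0.inv_right).mul_right y.2.2
    · intro a b hab
      have h2 := congrArg (fun z => (z.1 : G)) hab
      simp only [mul_right_inj] at h2
      exact Subtype.ext h2
  · rw [not_nonempty_iff] at h
    rw [Nat.card_of_isEmpty]
    exact Nat.zero_le _

/-- switching -/
theorem switch {G : Type*} [Group G] [Finite G] (N : Subgroup G) [N.Normal] (π : Set ℕ) (c : G ⧸ N) (hc : El π c) :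
    Nat.card {q : G × N // (q.1 : G ⧸ N) = c ∧ El π q.1 ∧ Commute q.1 (q.2 : G)} =
      Nat.card {q : G × N // (q.1 : G ⧸ N) = c ∧ El π (q.2 : G) ∧ Commute q.1 (q.2 : G)} := by
  obtain ⟨a, b, hab, hcop, ha, hb⟩ := exists_pi_parts π (Nat.card G) Nat.card_pos
  obtain ⟨u, v, hu, hu', hv, hv', huv⟩ := Cfsg.Agent.H23.PiPart.exists_exponents a b hcop
  have hG : ∀ g : G, g ^ (a * b) = 1 := fun g => by rw [hab]; exact pow_card_eq_one'
  have hGN : ∀ g : G ⧸ N, g ^ (a * b) = 1 := by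
    intro g
    obtain ⟨g, rfl⟩ := QuotientGroup.mk_surjective g
    rw [← QuotientGroup.mk_pow, hG]; rfl
  have hel : ∀ g : G, El π g ↔ g ^ a = 1 := fun g => el_iff ha hb (hG g)
  have hca : c ^ a = 1 := (el_iff ha hb (hGN c)).mp hc
  have hcv : c ^ v = 1 := by
    obtain ⟨k, hk⟩ := hv'
    rw [hk, pow_mul, hca, one_pow]
  have hua : ∀ g : G, (g ^ u) ^ a = 1 := by
    intro g
    obtain ⟨k, hk⟩ := hu'
    rw [← pow_mul, hk]
    have : b * k * a = a * b * k := by ring
    rw [this, pow_mul, hG, one_pow]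
  have hsum : ∀ g : G, g ^ u * g ^ v = g := by
    intro g
    rw [← pow_add, Cfsg.Agent.H23.PiPart.pow_modEq (hG g) huv, pow_one]
  have hav : ∀ g : G, g ^ a = 1 → g ^ v = 1 := by
    intro g hg
    obtain ⟨k, hk⟩ := hv'
    rw [hk, pow_mul, hg, one_pow]
  have hau : ∀ g : G, g ^ a = 1 → g ^ u = g := by
    intro g hg
    have := hsum g
    rwa [hav g hg, mul_one] at this
  have huv0 : ∀ g : G, (g ^ v) ^ u = 1 := by
    intro g
    obtain ⟨k, hk⟩ := hu'
    obtain ⟨l, hl⟩ := hv'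
    rw [← pow_mul, hk, hl]
    have : a * l * (b * k) = a * b * (l * k) := by ring
    rw [this, pow_mul, hG, one_pow]
  have hvv : ∀ g : G, (g ^ v) ^ v = g ^ v := by
    intro g
    have h1 := hsum (g ^ v)
    rwa [huv0, one_mul] at h1
  refine Nat.card_congr
    { toFun := fun q => ⟨(q.1.1 * (q.1.2 : G) ^ v, q.1.2 ^ u), ?_, ?_, ?_⟩
      invFun := fun q => ⟨(q.1.1 ^ u, ⟨(q.1.2 : G) * q.1.1 ^ v, ?_⟩), ?_, ?_, ?_⟩
      left_inv := ?_
      right_inv := ?_ }
  · have h2 : ((q.1.2 : G) : G ⧸ N) = 1 := (QuotientGroup.eq_one_iff _).mpr q.1.2.2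
    simp only [QuotientGroup.mk_mul, QuotientGroup.mk_pow, h2, one_pow, mul_one]
    exact q.2.1
  · simp only [SubmonoidClass.coe_pow]
    rw [hel]
    exact hua _
  · simp only [SubmonoidClass.coe_pow]
    exact (q.2.2.2.pow_right u).mul_left ((Commute.refl _).pow_pow v u)
  · apply mul_mem q.1.2.2
    rw [← QuotientGroup.eq_one_iff, QuotientGroup.mk_pow, q.2.1, hcv]
  · simp only [QuotientGroup.mk_pow]
    rw [q.2.1]
    have h3 : c ^ u * c ^ v = c := by
      rw [← pow_add]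
      rw [Cfsg.Agent.H23.PiPart.pow_modEq (hGN c) huv, pow_one]
    rwa [hcv, mul_one] at h3
  · simp only
    rw [hel]
    exact hua _
  · simp only
    exact (q.2.2.2.pow_left u).mul_right ((Commute.refl _).pow_pow u v)
  · rintro ⟨⟨x, n⟩, h1, h2, h3⟩
    simp only at h1 h2 h3
    rw [hel] at h2
    have h4 : Commute x ((n : G) ^ v) := h3.pow_right v
    apply Subtype.ext
    refine Prod.ext ?_ (Subtype.ext ?_)
    · simp only
      rw [h4.mul_pow, huv0, mul_one]
      exact hau x h2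
    · simp only [SubmonoidClass.coe_pow]
      rw [h4.mul_pow, hvv, hav x h2, one_mul]
      exact hsum _
  · rintro ⟨⟨y, m⟩, h1, h2, h3⟩
    simp only at h1 h2 h3
    rw [hel] at h2
    have h4 : Commute (m : G) (y ^ v) := (h3.pow_left v).symm
    apply Subtype.ext
    refine Prod.ext ?_ (Subtype.ext ?_)
    · simp only
      rw [h4.mul_pow, hav _ h2, one_mul, hvv]
      exact hsum y
    · simp only [SubmonoidClass.coe_pow]
      rw [h4.mul_pow, huv0, mul_one]
      exact hau _ h2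

theorem el_coe_iff {G : Type*} [Group G] {N : Subgroup G} (π : Set ℕ) (n : N) : El π (n : G) ↔ El π n := by
  unfold El
  simp only [Subgroup.orderOf_coe]

theorem fiber_bound {G : Type*} [Group G] [Finite G] (N : Subgroup G) [N.Normal] (π : Set ℕ) (c d : G ⧸ N) (hc : El π c) :
    Nat.card {q : G × G // ((q.1 : G ⧸ N) = c ∧ (q.2 : G ⧸ N) = d) ∧ El π q.1 ∧ Commute q.1 q.2} ≤
      Nat.card {C : ConjClasses N // Cl π C} * Nat.card N := by
  classical
  have := Fintype.ofFinite G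
  have := Fintype.ofFinite N
  rw [← card_comm_pairs_el]
  -- first step
  have e1 : Nat.card {q : G × G // ((q.1 : G ⧸ N) = c ∧ (q.2 : G ⧸ N) = d) ∧ El π q.1 ∧ Commute q.1 q.2} =
      Nat.card (Σ x : {x : G // (x : G ⧸ N) = c ∧ El π x}, {y : G // (y : G ⧸ N) = d ∧ Commute x.1 y}) :=
    Nat.card_congr
      { toFun := fun q => ⟨⟨q.1.1, q.2.1.1, q.2.2.1⟩, ⟨q.1.2, q.2.1.2, q.2.2.2⟩⟩
        invFun := fun x => ⟨(x.1.1, x.2.1), ⟨x.1.2.1, x.2.2.1⟩, x.1.2.2, x.2.2.2⟩
        left_inv := fun q => rfl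
        right_inv := fun x => rfl }
  have e2 : Nat.card {q : G × N // (q.1 : G ⧸ N) = c ∧ El π q.1 ∧ Commute q.1 (q.2 : G)} =
      Nat.card (Σ x : {x : G // (x : G ⧸ N) = c ∧ El π x}, {y : N // Commute x.1 (y : G)}) :=
    Nat.card_congr
      { toFun := fun q => ⟨⟨q.1.1, q.2.1, q.2.2.1⟩, ⟨q.1.2, q.2.2.2⟩⟩
        invFun := fun x => ⟨(x.1.1, x.2.1), x.1.2.1, x.1.2.2, x.2.2⟩
        left_inv := fun q => rfl
        right_inv := fun x => rfl }
  have e3 : Nat.card {q : G × N // (q.1 : G ⧸ N) = c ∧ El π (q.2 : G) ∧ Commute q.1 (q.2 : G)} =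
      Nat.card (Σ m : {m : N // El π m}, {y : G // (y : G ⧸ N) = c ∧ Commute (m.1 : G) y}) :=
    Nat.card_congr
      { toFun := fun q => ⟨⟨q.1.2, (el_coe_iff π _).mp q.2.2.1⟩, ⟨q.1.1, q.2.1, q.2.2.2.symm⟩⟩
        invFun := fun x => ⟨(x.2.1, x.1.1), x.2.2.1, (el_coe_iff π _).mpr x.1.2, x.2.2.2.symm⟩
        left_inv := fun q => rfl
        right_inv := fun x => rfl }
  have e4 : Nat.card {q : N × N // El π q.1 ∧ Commute q.1 q.2} =
      Nat.card (Σ m : {m : N // El π m}, {y : N // Commute (m.1 : G) (y : G)}) :=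
    Nat.card_congr
      { toFun := fun q => ⟨⟨q.1.1, q.2.1⟩, ⟨q.1.2, by
            have := q.2.2
            exact congrArg Subtype.val this⟩⟩
        invFun := fun x => ⟨(x.1.1, x.2.1), x.1.2, Subtype.ext x.2.2⟩
        left_inv := fun q => rfl
        right_inv := fun x => rfl }
  calc _ = _ := e1
    _ ≤ Nat.card (Σ x : {x : G // (x : G ⧸ N) = c ∧ El π x}, {y : N // Commute x.1 (y : G)}) := by
        rw [Nat.card_sigma, Nat.card_sigma]
        exact Finset.sum_le_sum (fun x _ => coset_bound N d x.1)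
    _ = _ := e2.symm
    _ = _ := switch N π c hc
    _ = _ := e3
    _ ≤ Nat.card (Σ m : {m : N // El π m}, {y : N // Commute (m.1 : G) (y : G)}) := by
        rw [Nat.card_sigma, Nat.card_sigma]
        exact Finset.sum_le_sum (fun x _ => coset_bound N c (x.1 : G))
    _ = _ := e4.symm


/-- Let G be a finite group, N a normal subgroup and π a set of primes. Then the number of conjugacy classes of π-elements of G (elements whose order is divisible only by primes in π) is at most the number of conjugacy classes of π-elements of N (under conjugation by N) times the number of conjugacy classes of π-elements of G/N. -/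
theorem result {G : Type*} [Group G] [Finite G] (N : Subgroup G) [N.Normal] (π : Set ℕ) :
    Nat.card {C : ConjClasses G // ∀ q : ℕ, q.Prime → (∃ g : G, ConjClasses.mk g = C ∧ q ∣ orderOf g) → q ∈ π} ≤ Nat.card {C : ConjClasses N // ∀ q : ℕ, q.Prime → (∃ g : N, ConjClasses.mk g = C ∧ q ∣ orderOf g) → q ∈ π} * Nat.card {C : ConjClasses (G ⧸ N) // ∀ q : ℕ, q.Prime → (∃ g : (G ⧸ N), ConjClasses.mk g = C ∧ q ∣ orderOf g) → q ∈ π} := by
  classical
  have := Fintype.ofFinite G
  have := Fintype.ofFinite (G ⧸ N)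
  have hmain : Nat.card {C : ConjClasses G // Cl π C} * Nat.card G ≤
      (Nat.card {C : ConjClasses N // Cl π C} * Nat.card N) *
        (Nat.card {C : ConjClasses (G ⧸ N) // Cl π C} * Nat.card (G ⧸ N)) := by
    rw [← card_comm_pairs_el (G := G), ← card_comm_pairs_el (G := G ⧸ N)]
    have hel : ∀ x : G, El π x → El π (x : G ⧸ N) := by
      intro x hx q hq hd
      exact hx q hq (hd.trans (orderOf_map_dvd (QuotientGroup.mk' N) x))
    have e1 : Nat.card {q : G × G // El π q.1 ∧ Commute q.1 q.2} =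
        Nat.card (Σ z : {q : (G ⧸ N) × (G ⧸ N) // El π q.1 ∧ Commute q.1 q.2},
          {q : G × G // ((q.1 : G ⧸ N) = z.1.1 ∧ (q.2 : G ⧸ N) = z.1.2) ∧ El π q.1 ∧ Commute q.1 q.2}) := by
      refine Nat.card_congr
        { toFun := fun q => ⟨⟨((q.1.1 : G ⧸ N), (q.1.2 : G ⧸ N)), hel _ q.2.1, q.2.2.map (QuotientGroup.mk' N)⟩,
            ⟨q.1, ⟨rfl, rfl⟩, q.2.1, q.2.2⟩⟩
          invFun := fun x => ⟨x.2.1, x.2.2.2.1, x.2.2.2.2⟩
          left_inv := fun q => rfl
          right_inv := ?_ }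
      rintro ⟨⟨⟨c, d⟩, h1, h2⟩, ⟨⟨x, y⟩, ⟨h3, h4⟩, h5, h6⟩⟩
      simp only at h3 h4
      subst h3 h4
      rfl
    rw [e1, Nat.card_sigma]
    refine (Finset.sum_le_card_nsmul _ _ _ (fun z _ => fiber_bound N π z.1.1 z.1.2 z.2.1)).trans ?_
    rw [smul_eq_mul, Finset.card_univ, ← Nat.card_eq_fintype_card, mul_comm]
  have hG : 0 < Nat.card G := Nat.card_pos
  have hNG : Nat.card N * Nat.card (G ⧸ N) = Nat.card G := by
    rw [← Subgroup.index_eq_card, Subgroup.card_mul_index]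
  have h3 : Nat.card {C : ConjClasses G // Cl π C} * Nat.card G ≤
      (Nat.card {C : ConjClasses N // Cl π C} * Nat.card {C : ConjClasses (G ⧸ N) // Cl π C}) * Nat.card G := by
    refine hmain.trans (le_of_eq ?_)
    rw [← hNG]
    ring
  exact Nat.le_of_mul_le_mul_right h3 hG

end Cfsg.Agent.S4152
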