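import Cfsg.Statements.S4153
import Cfsg.Agent.H23_Basic
import Cfsg.Agent.H2_Basic
import Cfsg.Agent.H2_Card
import Cfsg.Agent.H24_Tools

set_option autoImplicit false
open Cfsg

namespace Cfsg.Agent.S4153

open scoped Pointwise

theorem fiber_card {G : Type*} [Group G] [Finite G] (p : ℕ) [Fact p.Prime] (N : Subgroup G) [N.Normal]
    (P : Sylow p G) (y : G ⧸ N) (hy : ∃ k : ℕ, orderOf y = p ^ k) :
    (Nat.card ↥((P : Subgroup G) ⊓ N) ≤ Nat.card {g : G // (∃ k : ℕ, orderOf g = p ^ k) ∧ (g : G ⧸ N) = y}) ∧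
    (N ≤ Subgroup.center G →
      Nat.card ↥((P : Subgroup G) ⊓ N) = Nat.card {g : G // (∃ k : ℕ, orderOf g = p ^ k) ∧ (g : G ⧸ N) = y}) := by
  classical
  obtain ⟨k, hk⟩ := hy
  obtain ⟨g, rfl⟩ := QuotientGroup.mk'_surjective N y
  obtain ⟨x, ⟨l, hl⟩, hx⟩ : ∃ x : G, (∃ l, orderOf x = p ^ l) ∧ (x : G ⧸ N) = QuotientGroup.mk' N g := by
    obtain ⟨x, h1, h2⟩ := H23.Basic.exists_lift_prime_pow (QuotientGroup.mk' N) (QuotientGroup.mk'_surjective N)
      (Fact.out : p.Prime) (QuotientGroup.mk' N g) ⟨k, hk⟩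
    exact ⟨x, h2, h1⟩
  obtain ⟨Q, hQ'⟩ := (H24.Tools.isPGroup_zpowers hl).exists_le_sylow
  have hQ : x ∈ Q := hQ' (Subgroup.mem_zpowers x)
  obtain ⟨a, rfl⟩ := MulAction.exists_smul_eq G P Q
  have hfin : Finite {g' : G // (∃ k : ℕ, orderOf g' = p ^ k) ∧ (g' : G ⧸ N) = QuotientGroup.mk' N g} := inferInstance
  have hmem : ∀ z ∈ (P : Subgroup G) ⊓ N, x * (a * z * a⁻¹) ∈ ((a • P : Sylow p G) : Subgroup G) := by
    intro z hz
    refine mul_mem hQ ((H2.Basic.mem_smul_sylow P a _).2 ?_)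
    have : a⁻¹ * (a * z * a⁻¹) * a = z := by group
    rw [this]; exact hz.1
  have hord : ∀ z ∈ (P : Subgroup G) ⊓ N, ∃ k, orderOf (x * (a * z * a⁻¹)) = p ^ k := by
    intro z hz
    obtain ⟨k, hk⟩ := (IsPGroup.iff_orderOf.1 (a • P).2) ⟨_, hmem z hz⟩
    exact ⟨k, by rw [← hk, ← Subgroup.orderOf_coe]⟩
  have hN : N.Normal := inferInstance
  let F : ↥((P : Subgroup G) ⊓ N) → {g' : G // (∃ k : ℕ, orderOf g' = p ^ k) ∧ (g' : G ⧸ N) = QuotientGroup.mk' N g} :=
    fun z => ⟨x * (a * z * a⁻¹), hord z z.2, by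
      rw [← hx]
      rw [QuotientGroup.eq]
      have : (x * (a * z * a⁻¹))⁻¹ * x = (a * (z : G)⁻¹ * a⁻¹) := by group
      rw [this]
      exact hN.conj_mem _ (N.inv_mem z.2.2) _⟩
  have hF : Function.Injective F := by
    intro z w h
    have h1 : x * (a * z * a⁻¹) = x * (a * w * a⁻¹) := congrArg Subtype.val h
    have h2 := mul_left_cancel h1
    have h3 : (z : G) = w := by
      have := mul_right_cancel h2
      exact mul_left_cancel this
    exact Subtype.ext h3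
  refine ⟨Nat.card_le_card_of_injective F hF, fun hZ => ?_⟩
  refine Nat.card_congr (Equiv.ofBijective F ⟨hF, ?_⟩)
  rintro ⟨g', ⟨m, hm⟩, hg'⟩
  have h1 : x⁻¹ * g' ∈ N := by
    rw [← QuotientGroup.eq, hg', hx]
  have hc : ∀ n ∈ N, ∀ b : G, b * n = n * b := fun n hn b => (Subgroup.mem_center_iff.1 (hZ hn) b)
  have h2 : x⁻¹ * g' ∈ (P : Subgroup G) ⊓ N := by
    refine ⟨?_, h1⟩
    -- x⁻¹ g' is a p-element, central
    have h3 : (x⁻¹ * g') ^ (p ^ (l + m)) = 1 := by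
      have hcomm : Commute x g' := by
        have := hc _ h1 x
        have h4 : g' = x * (x⁻¹ * g') := by group
        rw [h4]
        exact (Commute.refl x).mul_right this
      rw [(hcomm.inv_left).mul_pow, inv_pow, pow_add, pow_mul, ← hl, pow_orderOf_eq_one, one_pow, inv_one, one_mul,
        mul_comm (orderOf x) , pow_mul, ← hm, pow_orderOf_eq_one, one_pow]
    have h4 : orderOf (x⁻¹ * g') ∣ p ^ (l + m) := orderOf_dvd_of_pow_eq_one h3
    obtain ⟨j, -, hj⟩ := (Nat.dvd_prime_pow Fact.out).1 h4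
    obtain ⟨R, hR'⟩ := (H24.Tools.isPGroup_zpowers hj).exists_le_sylow
    have hR : x⁻¹ * g' ∈ R := hR' (Subgroup.mem_zpowers _)
    obtain ⟨b, rfl⟩ := MulAction.exists_smul_eq G P R
    have h5 := (H2.Basic.mem_smul_sylow P b _).1 hR
    have h6 : b⁻¹ * (x⁻¹ * g') * b = x⁻¹ * g' := by rw [hc _ h1 b⁻¹]; group
    rwa [h6] at h5
  refine ⟨⟨x⁻¹ * g', h2⟩, Subtype.ext ?_⟩
  change x * (a * (x⁻¹ * g') * a⁻¹) = g'
  rw [hc _ h1 a]; group

/-- Let G be a finite group, p a prime, N a normal subgroup, P a Sylow p-subgroup of G and P̄ a Sylow p-subgroup of G/N. Count the elements of p-power order, the identity included. Then (number of such elements of G/N)/#P̄ ≤ (number of such elements of G)/#P, stated as a cross-multiplied inequality, with equality when N is central. -/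
theorem result {G : Type*} [Group G] [Finite G] (p : ℕ) [Fact p.Prime] (N : Subgroup G) [N.Normal]
    (P : Sylow p G) (Pbar : Sylow p (G ⧸ N)) :
    Nat.card {g : (G ⧸ N) // ∃ k : ℕ, orderOf g = p ^ k} * Nat.card (P : Subgroup G) ≤ Nat.card {g : G // ∃ k : ℕ, orderOf g = p ^ k} * Nat.card (Pbar : Subgroup (G ⧸ N)) ∧
    (N ≤ Subgroup.center G → Nat.card {g : (G ⧸ N) // ∃ k : ℕ, orderOf g = p ^ k} * Nat.card (P : Subgroup G) = Nat.card {g : G // ∃ k : ℕ, orderOf g = p ^ k} * Nat.card (Pbar : Subgroup (G ⧸ N))) := by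

  classical
  have hcardP : Nat.card (P : Subgroup G) = Nat.card ↥((P : Subgroup G) ⊓ N) * Nat.card (Pbar : Subgroup (G ⧸ N)) := by
    have h1 : Nat.card (Pbar : Subgroup (G ⧸ N)) = Nat.card ((P : Subgroup G).map (QuotientGroup.mk' N)) := by
      rw [← Sylow.coe_mapSurjective (QuotientGroup.mk'_surjective N) P]
      exact Nat.card_congr (Sylow.equiv _ _).toEquiv
    have h2 := Subgroup.index_ker ((QuotientGroup.mk' N).domRestrict (P : Subgroup G))
    rw [MonoidHom.domRestrict_range, MonoidHom.ker_domRestrict, QuotientGroup.ker_mk'] at h2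
    have h3 := (N.subgroupOf (P : Subgroup G)).index_mul_card
    rw [h2, ← h1] at h3
    rw [← h3, mul_comm]
    congr 1
    rw [← Subgroup.inf_subgroupOf_right, inf_comm]
    exact Nat.card_congr (Subgroup.subgroupOfEquivOfLe inf_le_left).toEquiv
  set f : {g : G // ∃ k : ℕ, orderOf g = p ^ k} → {y : G ⧸ N // ∃ k : ℕ, orderOf y = p ^ k} :=
    fun g => ⟨(g.1 : G ⧸ N), by
      obtain ⟨k, hk⟩ := g.2
      have : orderOf ((g.1 : G ⧸ N)) ∣ p ^ k := hk ▸ orderOf_map_dvd (QuotientGroup.mk' N) g.1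
      obtain ⟨j, -, hj⟩ := (Nat.dvd_prime_pow Fact.out).1 this
      exact ⟨j, hj⟩⟩ with hf
  haveI := Fintype.ofFinite {y : G ⧸ N // ∃ k : ℕ, orderOf y = p ^ k}
  have hsum : Nat.card {g : G // ∃ k : ℕ, orderOf g = p ^ k} =
      ∑ y : {y : G ⧸ N // ∃ k : ℕ, orderOf y = p ^ k},
        Nat.card {g : G // (∃ k : ℕ, orderOf g = p ^ k) ∧ (g : G ⧸ N) = y} := by
    rw [Nat.card_congr (Equiv.sigmaFiberEquiv f).symm, Nat.card_sigma]
    refine Finset.sum_congr rfl fun y _ => ?_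
    refine Nat.card_congr ⟨fun g => ⟨g.1.1, g.1.2, congrArg Subtype.val g.2⟩, fun g => ⟨⟨g.1, g.2.1⟩, Subtype.ext g.2.2⟩, fun g => rfl, fun g => rfl⟩
  have hconst : ∑ y : {y : G ⧸ N // ∃ k : ℕ, orderOf y = p ^ k}, Nat.card ↥((P : Subgroup G) ⊓ N) =
      Nat.card {y : G ⧸ N // ∃ k : ℕ, orderOf y = p ^ k} * Nat.card ↥((P : Subgroup G) ⊓ N) := by
    rw [Finset.sum_const, smul_eq_mul, Finset.card_univ, Nat.card_eq_fintype_card (α := {y : G ⧸ N // ∃ k : ℕ, orderOf y = p ^ k})]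
  constructor
  · rw [hcardP, ← mul_assoc, ← hconst]
    refine Nat.mul_le_mul_right _ ?_
    rw [hsum]
    exact Finset.sum_le_sum fun y _ => (fiber_card p N P y.1 y.2).1
  · intro hZ
    rw [hcardP, ← mul_assoc, ← hconst, hsum]
    congr 1
    exact Finset.sum_congr rfl fun y _ => (fiber_card p N P y.1 y.2).2 hZ


end Cfsg.Agent.S4153
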