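import Cfsg.Statements.S4154


set_option autoImplicit false
open Cfsg

namespace Cfsg.Agent.S4154

/-- Let G be a finite group and α an automorphism of G such that every element of G is the product of an element fixed by α and an element of the form g⁻¹α(g). If N is a normal α-invariant subgroup, then the automorphism ᾱ induced on G/N has the same property, and every coset fixed by ᾱ contains an element fixed by α (so the fixed points of ᾱ are the images of the fixed points of α). -/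
theorem result {G : Type*} [Group G] [Finite G] (α : MulAut G)
    (hccp : ∀ x : G, ∃ c g : G, α c = c ∧ x = c * (g⁻¹ * α g))
    (N : Subgroup G) [N.Normal] (hN : ∀ n ∈ N, α n ∈ N) :
    (∀ x : G, ∃ c g : G, c⁻¹ * α c ∈ N ∧ x⁻¹ * (c * (g⁻¹ * α g)) ∈ N) ∧
    (∀ x : G, x⁻¹ * α x ∈ N → ∃ c : G, α c = c ∧ c⁻¹ * x ∈ N) := by
  classical
  refine ⟨fun x => ?_, ?_⟩
  · obtain ⟨c, g, hc, hx⟩ := hccp x
    exact ⟨c, g, by rw [hc, inv_mul_cancel]; exact N.one_mem, by rw [← hx, inv_mul_cancel]; exact N.one_mem⟩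
  · let β : G ⧸ N →* G ⧸ N := QuotientGroup.map N N α.toMonoidHom (fun n hn => hN n hn)
    have hβ : ∀ x : G, β (x : G ⧸ N) = ((α x : G) : G ⧸ N) := fun x => rfl
    let D : Subgroup (G ⧸ N) := β.eqLocus (MonoidHom.id _)
    have hD : ∀ x, x ∈ D ↔ β x = x := fun x => Iff.rfl
    let C : Subgroup G := α.toMonoidHom.eqLocus (MonoidHom.id _)
    let Cb : Subgroup (G ⧸ N) := C.map (QuotientGroup.mk' N)
    have hCD : Cb ≤ D := by
      rintro _ ⟨c, hc, rfl⟩
      have hc' : α c = c := hc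
      change β (c : G ⧸ N) = (c : G ⧸ N)
      rw [hβ, hc']
    let F : G ⧸ N → G ⧸ N := fun g => g⁻¹ * β g
    have hF : ∀ d ∈ D, ∀ g, F (d * g) = F g := by
      intro d hd g
      change (d * g)⁻¹ * β (d * g) = g⁻¹ * β g
      rw [map_mul, (hD d).1 hd]; group
    -- |range F| |D| ≤ |Ḡ|
    have h1 : Nat.card (Set.range F) * Nat.card D ≤ Nat.card (G ⧸ N) := by
      rw [← Nat.card_prod]
      refine Nat.card_le_card_of_injective
        (fun z : Set.range F × D => (z.2 : G ⧸ N) * Classical.choose z.1.2) ?_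
      rintro ⟨⟨k, hk⟩, d⟩ ⟨⟨k', hk'⟩, d'⟩ h
      have e1 := Classical.choose_spec hk
      have e2 := Classical.choose_spec hk'
      simp only at h
      have e3 := congrArg F h
      rw [hF _ d.2, hF _ d'.2, e1, e2] at e3
      subst e3
      have e4 := mul_right_cancel h
      rw [Subtype.ext e4]
    have h2 : Nat.card (G ⧸ N) ≤ Nat.card Cb * Nat.card (Set.range F) := by
      rw [← Nat.card_prod]
      refine Nat.card_le_card_of_surjective
        (fun z : Cb × Set.range F => (z.1 : G ⧸ N) * z.2) ?_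
      intro y
      obtain ⟨x, rfl⟩ := QuotientGroup.mk_surjective y
      obtain ⟨c, g, hc, hx⟩ := hccp x
      refine ⟨⟨⟨(c : G ⧸ N), c, hc, rfl⟩, ⟨F (g : G ⧸ N), (g : G ⧸ N), rfl⟩⟩, ?_⟩
      change (c : G ⧸ N) * ((g : G ⧸ N)⁻¹ * β (g : G ⧸ N)) = (x : G ⧸ N)
      rw [hβ, hx]; rfl
    have h3 : Nat.card D ≤ Nat.card Cb := by
      have hpos : 0 < Nat.card (Set.range F) := Nat.card_pos_iff.2 ⟨⟨⟨F 1, 1, rfl⟩⟩, inferInstance⟩
      have := h1.trans h2
      rw [mul_comm] at this
      exact Nat.le_of_mul_le_mul_right this hpos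
    have h4 : Cb = D := Subgroup.eq_of_le_of_card_ge hCD h3
    intro x hx
    have h5 : (x : G ⧸ N) ∈ Cb := by
      rw [h4, hD, hβ]
      exact (QuotientGroup.eq.2 hx).symm
    obtain ⟨c, hc, hcx⟩ := h5
    exact ⟨c, hc, QuotientGroup.eq.1 hcx⟩

end Cfsg.Agent.S4154
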