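import Cfsg.Statements.S4155
import Cfsg.Agent.H1_Fpf
import Cfsg.Agent.H1_Nilp
import Cfsg.Agent.H1_Schmidt2
import Cfsg.Agent.H11_Cores
import Cfsg.Agent.H23_Basic
import Cfsg.Agent.H23_PQuat
import Cfsg.Agent.H24_Tools


set_option autoImplicit false
open Cfsg

namespace Cfsg.Agent.S4155

open Subgroup
open scoped Pointwise

universe u

variable {G : Type u} [Group G]

/-- coprime commuting elements -/
theorem key [Finite G] {N : Subgroup G}
    (heq : ∀ x : G, x ∉ N → ∀ n ∈ N, orderOf (x * n) = orderOf x) {p q : ℕ} (hp : p.Prime) (hq : q.Prime) (hpq : p ≠ q)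
    {x y : G} (hx : x ∉ N) (hxq : ∃ k, orderOf x = p ^ k) (hy : y ∈ N) (hyr : ∃ k, orderOf y = q ^ k) (hc : x * y = y * x) : y = 1 := by
  obtain ⟨a, ha⟩ := hxq
  obtain ⟨b, hb⟩ := hyr
  have h1 := heq x hx y hy
  have h2 : orderOf (x * y) = orderOf x * orderOf y := (show Commute x y from hc).orderOf_mul_eq_mul_orderOf_of_coprime (by
    rw [ha, hb]; exact Nat.Coprime.pow _ _ ((Nat.coprime_primes hp hq).2 hpq))
  rw [h2] at h1
  have h3 : orderOf y = 1 := by
    have := orderOf_pos x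
    exact Nat.eq_of_mul_eq_mul_left this (by rw [h1, mul_one])
  exact orderOf_eq_one_iff.1 h3

theorem exists_other_prime {n : ℕ} (hn0 : n ≠ 0) (hn1 : n ≠ 1) (h : ¬ IsPrimePow n) (q : ℕ) : ∃ r : ℕ, r.Prime ∧ r ≠ q ∧ r ∣ n := by
  by_contra hcon
  push Not at hcon
  have h1 : ∀ r : ℕ, r.Prime → r ∣ n → r = q := by
    intro r hr hrn
    by_contra hne
    exact hcon r hr hne hrn
  have h2 := Nat.eq_prime_pow_of_unique_prime_dvd hn0 (fun {d} hd hdvd => h1 d hd hdvd)
  obtain ⟨r, hr, hrn⟩ := Nat.exists_prime_and_dvd hn1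
  have hrq := h1 r hr hrn
  subst hrq
  apply h
  refine ⟨r, n.primeFactorsList.length, hr.prime, ?_, h2.symm⟩
  apply Nat.pos_of_ne_zero
  intro h3
  rw [h3, pow_zero] at h2
  exact hn1 h2

theorem part_two [Finite G] (N : Subgroup G) [hNn : N.Normal] (hN1 : N ≠ ⊥)
    (heq : ∀ x : G, x ∉ N → ∀ n ∈ N, orderOf (x * n) = orderOf x)
    (hnil : Group.IsNilpotent N) (hnpp : ¬ IsPrimePow (Nat.card N)) (q : ℕ) [hq : Fact q.Prime] (Q : Sylow q (G ⧸ N)) :
    IsCyclic (Q : Subgroup (G ⧸ N)) ∨ ∃ n : ℕ, Nonempty ((Q : Subgroup (G ⧸ N)) ≃* QuaternionGroup (2 ^ n)) := by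
  classical
  obtain ⟨r, hr, hrq, hrN⟩ := exists_other_prime Nat.card_pos.ne' (fun h => hN1 (Subgroup.card_eq_one.1 h)) hnpp q
  haveI : Fact r.Prime := ⟨hr⟩
  -- Sylow r- and q-subgroups of N
  let R : Sylow r N := default
  let D0 : Sylow q N := default
  have hRn : ((R : Subgroup N).map N.subtype).Normal := H1.Nilp.sylow_map_normal_of_nilpotent hNn hnil R
  have hDn : ((D0 : Subgroup N).map N.subtype).Normal := H1.Nilp.sylow_map_normal_of_nilpotent hNn hnil D0
  set R1 := (R : Subgroup N).map N.subtype with hR1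
  set D := (D0 : Subgroup N).map N.subtype with hD
  have hR1p : IsPGroup r R1 := R.2.map _
  have hDp : IsPGroup q D := D0.2.map _
  have hR1N : R1 ≤ N := map_subtype_le _
  have hDN : D ≤ N := map_subtype_le _
  have hmemD : ∀ x ∈ N, (∃ k, orderOf x = q ^ k) → x ∈ D := by
    rintro x hx ⟨k, hk⟩
    refine ⟨⟨x, hx⟩, ?_, rfl⟩
    have h1 : (D0 : Subgroup N).Normal := inferInstance
    apply H1.Nilp.mem_sylow_of_normal D0 h1
    apply H24.Tools.isPGroup_zpowers (k := k)
    rw [← hk, ← orderOf_coe]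
  have hRnt : Nontrivial R1 := by
    rw [Subgroup.nontrivial_iff_ne_bot]
    intro h1
    have h2 : (R : Subgroup N) = ⊥ := (map_eq_bot_iff_of_injective _ N.subtype_injective).1 h1
    have h3 := R.card_eq_multiplicity
    rw [h2, Subgroup.card_bot] at h3
    have h4 : (Nat.card N).factorization r ≠ 0 := (hr.factorization_pos_of_dvd Nat.card_pos.ne' hrN).ne'
    exact absurd h3.symm (Nat.one_lt_pow h4 hr.one_lt).ne'
  -- V = Z(R1)
  set V := (center R1).map R1.subtype with hV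
  have hVn : V.Normal := H11.Cores.map_subtype_normal_of_characteristic _ _
  have hVR : V ≤ R1 := map_subtype_le _
  have hVb : V ≠ ⊥ := by
    intro h1
    have h2 : center R1 = ⊥ := (map_eq_bot_iff_of_injective _ R1.subtype_injective).1 h1
    haveI := hR1p.center_nontrivial
    exact (Subgroup.nontrivial_iff_ne_bot _).1 inferInstance h2
  haveI hVc : IsMulCommutative V := H1.Schmidt.isMulCommutative_map _ inferInstance
  have hVD : V ⊓ D = ⊥ := by
    rw [eq_bot_iff]
    have : Disjoint R1 D := IsPGroup.disjoint_of_ne r q hrq _ _ hR1p hDp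
    exact (inf_le_inf_right D hVR).trans this.le_bot
  have hel : ∀ {s : ℕ} [Fact s.Prime] {S : Subgroup G} (hS : IsPGroup s S) (x : G), x ∈ S → ∃ k, orderOf x = s ^ k :=
    fun hS x hx => H24.Tools.exists_orderOf hS hx
  -- apply the criterion
  have hmain : ∀ A : Subgroup (G ⧸ N), A ≤ Q → IsMulCommutative A → IsCyclic A := by
    intro A hAQ hAc
    obtain ⟨Q0, hQ0⟩ := Sylow.mapSurjective_surjective (QuotientGroup.mk'_surjective N) q Q
    set B := (Q0 : Subgroup G) ⊓ A.comap (QuotientGroup.mk' N) with hB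
    have hBp : IsPGroup q B := Q0.2.to_le inf_le_left
    have hBA : ∀ a ∈ A, ∃ b ∈ B, QuotientGroup.mk' N b = a := by
      intro a ha
      have h1 : a ∈ (Q : Subgroup (G ⧸ N)) := hAQ ha
      rw [← hQ0] at h1
      obtain ⟨b, hb, hba⟩ := h1
      exact ⟨b, mem_inf.2 ⟨hb, by rw [mem_comap, hba]; exact ha⟩, hba⟩
    set π := QuotientGroup.mk' D with hπ
    have hπs := QuotientGroup.mk'_surjective D
    have hker : ∀ x, π x = 1 ↔ x ∈ D := fun x => QuotientGroup.eq_one_iff x
    haveI : IsMulCommutative (V.map π) := H1.Schmidt.isMulCommutative_map _ hVc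
    haveI : IsMulCommutative (B.map π) := by
      apply H1.Schmidt.isMulCommutative_of_forall
      rintro _ ⟨x, hx, rfl⟩ _ ⟨y, hy, rfl⟩
      have h1 : QuotientGroup.mk' N (x * y * x⁻¹ * y⁻¹) = 1 := by
        have := H1.Schmidt.comm_of_isMulCommutative hAc hx.2 hy.2
        simp only [map_mul, map_inv]
        rw [this]; group
      have h2 : x * y * x⁻¹ * y⁻¹ ∈ D := by
        apply hmemD _ ((QuotientGroup.eq_one_iff _).1 h1)
        exact hel hBp _ (mul_mem (mul_mem (mul_mem hx hy) (inv_mem hx)) (inv_mem hy))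
      have h3 := (hker _).2 h2
      rw [map_mul, map_mul, map_mul, map_inv, map_inv, mul_inv_eq_one, mul_inv_eq_iff_eq_mul] at h3
      exact h3
    have hVπ : V.map π ≠ ⊥ := by
      intro h1
      rw [Subgroup.map_eq_bot_iff, hπ, QuotientGroup.ker_mk'] at h1
      apply hVb
      rw [← hVD]
      exact (inf_eq_left.2 h1).symm
    haveI : (V.map π).Normal := hVn.map _ hπs
    have hcyc : IsCyclic (B.map π) := by
      apply H1.Fpf.isCyclic_of_fpf_comm (B.map π) (V.map π) hVπ (by rw [normalizer_eq_top]; exact le_top)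
      rintro _ ⟨b, hb, rfl⟩ hb1
      rw [eq_bot_iff]
      rintro _ ⟨⟨v, hv, rfl⟩, hvc⟩
      have hbN : b ∉ N := by
        intro hbN
        exact hb1 ((hker b).2 (hmemD b hbN (hel hBp b hb)))
      have h1 : π (v * b * v⁻¹ * b⁻¹) = 1 := by
        have := mem_centralizer_singleton_iff.1 hvc
        simp only [map_mul, map_inv]
        rw [this]; group
      have h2 : v * b * v⁻¹ * b⁻¹ ∈ V ⊓ D := by
        refine mem_inf.2 ⟨?_, (hker _).1 h1⟩
        have : v * b * v⁻¹ * b⁻¹ = v * (b * v⁻¹ * b⁻¹) := by group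
        rw [this]
        exact mul_mem hv (hVn.conj_mem _ (inv_mem hv) b)
      rw [hVD, mem_bot, mul_inv_eq_one, mul_inv_eq_iff_eq_mul] at h2
      have h3 : v = 1 := key heq hq.out hr (Ne.symm hrq) hbN (hel hBp b hb) (hR1N (hVR hv)) (hel hR1p v (hVR hv)) h2.symm
      rw [mem_bot, h3, map_one]
    obtain ⟨⟨_, b, hb, rfl⟩, hgen⟩ := hcyc
    have hbA : QuotientGroup.mk' N b ∈ A := hb.2
    refine ⟨⟨QuotientGroup.mk' N b, hbA⟩, ?_⟩
    rintro ⟨a, ha⟩
    obtain ⟨y, hy, rfl⟩ := hBA a ha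
    obtain ⟨k, hk⟩ := hgen ⟨π y, y, hy, rfl⟩
    have hk' : π b ^ k = π y := congrArg Subtype.val hk
    refine ⟨k, ?_⟩
    apply Subtype.ext
    change (QuotientGroup.mk' N b) ^ k = QuotientGroup.mk' N y
    rw [← map_zpow] at hk' ⊢
    have h1 : π (y⁻¹ * b ^ k) = 1 := by
      rw [map_mul, map_inv, hk', inv_mul_cancel]
    have h2 : QuotientGroup.mk' N (y⁻¹ * b ^ k) = 1 := (QuotientGroup.eq_one_iff _).2 (hDN ((hker _).1 h1))
    rw [map_mul, map_inv, inv_mul_eq_one] at h2
    exact h2.symm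
  rcases H23.PQuat.cyclic_or_quaternion_of_abelian (P := (Q : Subgroup (G ⧸ N))) Q.2 (by
    intro A hA _
    have h1 := hmain (A.map (Q : Subgroup (G ⧸ N)).subtype) (map_subtype_le _) (H1.Schmidt.isMulCommutative_map _ hA)
    exact isCyclic_of_injective ((A.equivMapOfInjective _ (Q : Subgroup (G ⧸ N)).subtype_injective).toMonoidHom) (MulEquiv.injective _)) with h | ⟨-, h⟩
  · exact Or.inl h
  · exact Or.inr h


/-- Let G be a finite group and N a proper non-trivial normal nilpotent subgroup whose order is not a prime power, such that for every x outside N all elements of the coset xN have the same order as x. Then N is the Fitting subgroup of G, and for every prime q every Sylow q-subgroup of G/N is cyclic or generalized quaternion. -/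
theorem result {G : Type*} [Group G] [Finite G] (N : Subgroup G) [N.Normal] (hN1 : N ≠ ⊥) (hN2 : N ≠ ⊤)
    (heq : ∀ x : G, x ∉ N → ∀ n ∈ N, orderOf (x * n) = orderOf x)
    (hnil : Group.IsNilpotent N) (hnpp : ¬ IsPrimePow (Nat.card N)) :
    N = Cfsg.fittingSubgroup G ∧
    ∀ (q : ℕ) [Fact q.Prime] (Q : Sylow q (G ⧸ N)), IsCyclic (Q : Subgroup (G ⧸ N)) ∨ ∃ n : ℕ, Nonempty ((Q : Subgroup (G ⧸ N)) ≃* QuaternionGroup (2 ^ n)) := by

  refine ⟨?_, fun q hq Q => part_two N hN1 heq hnil hnpp q Q⟩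
  apply le_antisymm ((H1.Nilp.le_fitting_iff inferInstance).2 hnil)
  intro x hx
  apply H23.Basic.mem_of_prime_pow_parts
  intro y hy q b hq hyo
  by_contra hyN
  have hyF : y ∈ Cfsg.fittingSubgroup G := (zpowers_le.2 hx) hy
  obtain ⟨r, hr, hrq, hrN⟩ := exists_other_prime Nat.card_pos.ne' (fun h => hN1 (Subgroup.card_eq_one.1 h)) hnpp q
  haveI : Fact r.Prime := ⟨hr⟩
  haveI : Fact q.Prime := ⟨hq⟩
  obtain ⟨z, hz⟩ := exists_prime_orderOf_dvd_card' r hrN
  have hzo : orderOf (z : G) = r ^ 1 := by rw [orderOf_coe, hz, pow_one]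
  have hzF : (z : G) ∈ Cfsg.fittingSubgroup G := (H1.Nilp.le_fitting_iff inferInstance).2 hnil z.2
  have hc := H1.Schmidt.commute_of_nilpotent' (H1.Nilp.fitting_nilpotent (G := G)) (Ne.symm hrq)
    (H24.Tools.isPGroup_zpowers hyo) (H24.Tools.isPGroup_zpowers hzo) (zpowers_le.2 hyF) (zpowers_le.2 hzF)
    (mem_zpowers y) (mem_zpowers (z : G))
  have h1 := key heq hq hr (Ne.symm hrq) hyN ⟨b, hyo⟩ z.2 ⟨1, hzo⟩ hc
  rw [h1, orderOf_one, pow_one] at hzo
  exact hr.one_lt.ne hzo


end Cfsg.Agent.S4155
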