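import Cfsg.Statements.S4156
import Cfsg.Agent.H23_Basic

set_option autoImplicit false
open Cfsg

namespace Cfsg.Agent.S4156

open scoped BigOperators commutatorElement

/-- matrix entries of the deleted permutation module -/
def A {n : ℕ} (F : Type*) [Field F] (s : Equiv.Perm (Fin (n + 1))) (i j : Fin (n + 1)) : F :=
  (if s j = i then 1 else 0) - (if s (Fin.last n) = i then 1 else 0)

theorem A_last {n : ℕ} (F : Type*) [Field F] (s : Equiv.Perm (Fin (n + 1))) (i : Fin (n + 1)) :
    A F s i (Fin.last n) = 0 := by simp [A]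

theorem A_mul {n : ℕ} (F : Type*) [Field F] (s t : Equiv.Perm (Fin (n + 1))) (i j : Fin (n + 1)) :
    ∑ k, A F s i k * A F t k j = A F (s * t) i j := by
  unfold A
  have h1 : ∀ a : Fin (n + 1), ∑ k, ((if s k = i then (1 : F) else 0) - (if s (Fin.last n) = i then 1 else 0)) *
      (if t a = k then 1 else 0) = (if s (t a) = i then (1 : F) else 0) - (if s (Fin.last n) = i then 1 else 0) := by
    intro a
    simp
  simp only [mul_sub, Finset.sum_sub_distrib]
  rw [h1, h1]
  change _ = (if s (t j) = i then (1 : F) else 0) - (if s (t (Fin.last n)) = i then 1 else 0)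
  ring

theorem A_one {n : ℕ} (F : Type*) [Field F] (i j : Fin n) :
    A F 1 i.castSucc j.castSucc = if i = j then 1 else 0 := by
  unfold A
  have h : (Fin.last n) ≠ i.castSucc := (Fin.castSucc_lt_last i).ne'
  by_cases hij : i = j
  · subst hij; simp [h]
  · have : j.castSucc ≠ i.castSucc := fun h => hij (Fin.castSucc_injective n h).symm
    simp [h, hij, this]

/-- the deleted permutation representation -/
def rep (n : ℕ) (F : Type*) [Field F] : Equiv.Perm (Fin (n + 1)) →* Matrix (Fin n) (Fin n) F where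
  toFun s := Matrix.of fun i j => A F s i.castSucc j.castSucc
  map_one' := by
    ext i j
    rw [Matrix.of_apply, A_one, Matrix.one_apply]
  map_mul' s t := by
    ext i j
    rw [Matrix.of_apply, Matrix.mul_apply, ← A_mul, Fin.sum_univ_castSucc, A_last, zero_mul, add_zero]
    rfl

/-- Let n ≥ 5 and F a finite field. Then the projective special linear group PSL_n(F) contains a subgroup isomorphic to the alternating group of degree n + 1. -/
theorem result (n : ℕ) (hn : 5 ≤ n) (F : Type*) [Field F] [Finite F] :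
    ∃ f : alternatingGroup (Fin (n + 1)) →* Matrix.ProjectiveSpecialLinearGroup (Fin n) F, Function.Injective f := by

  classical
  haveI : Fintype F := Fintype.ofFinite F
  have hcard : 5 ≤ Nat.card (Fin (n + 1)) := by rw [Nat.card_eq_fintype_card, Fintype.card_fin]; omega
  haveI : IsSimpleGroup (alternatingGroup (Fin (n + 1))) := alternatingGroup.isSimpleGroup (by simpa using hcard)
  let r : alternatingGroup (Fin (n + 1)) →* Matrix (Fin n) (Fin n) F := (rep n F).comp (alternatingGroup (Fin (n + 1))).subtype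
  have i0 : (⟨0, by omega⟩ : Fin (n + 1)) ≠ ⟨1, by omega⟩ := by simp
  have i1 : (⟨0, by omega⟩ : Fin (n + 1)) ≠ ⟨2, by omega⟩ := by simp
  have i2 : (⟨1, by omega⟩ : Fin (n + 1)) ≠ ⟨2, by omega⟩ := by simp
  have hc : ∀ a b c : Fin (n + 1), a ≠ b → a ≠ c → b ≠ c →
      Equiv.swap a b * Equiv.swap a c ∈ alternatingGroup (Fin (n + 1)) := by
    intro a b c hab hac hbc
    rw [Equiv.Perm.mem_alternatingGroup, Equiv.Perm.sign_mul, Equiv.Perm.sign_swap hab, Equiv.Perm.sign_swap hac]
    rfl
  have hnc : ∃ x y : alternatingGroup (Fin (n + 1)), x * y ≠ y * x := by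
    refine ⟨⟨_, hc ⟨0, by omega⟩ ⟨1, by omega⟩ ⟨2, by omega⟩ (by simp) (by simp) (by simp)⟩,
      ⟨_, hc ⟨0, by omega⟩ ⟨1, by omega⟩ ⟨3, by omega⟩ (by simp) (by simp) (by simp)⟩, ?_⟩
    intro h
    have h1 := congrArg (fun g : alternatingGroup (Fin (n + 1)) => (g : Equiv.Perm (Fin (n + 1))) ⟨2, by omega⟩) h
    simp [Equiv.swap_apply_def] at h1
  have hperf : commutator (alternatingGroup (Fin (n + 1))) = ⊤ := by
    rcases (inferInstance : (commutator (alternatingGroup (Fin (n + 1)))).Normal).eq_bot_or_eq_top with h | h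
    · exfalso
      obtain ⟨x, y, hxy⟩ := hnc
      apply hxy
      have h1 : ⁅x, y⁆ ∈ commutator (alternatingGroup (Fin (n + 1))) :=
        Subgroup.commutator_mem_commutator (Subgroup.mem_top _) (Subgroup.mem_top _)
      rw [h, Subgroup.mem_bot] at h1
      exact commutatorElement_eq_one_iff_mul_comm.1 h1
    · exact h
  have hdet : ∀ g, (r g).det = 1 := by
    intro g
    let d : alternatingGroup (Fin (n + 1)) →* F := (Matrix.detMonoidHom).comp r
    let d' : alternatingGroup (Fin (n + 1)) →* Fˣ := d.toHomUnits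
    have h1 : commutator (alternatingGroup (Fin (n + 1))) ≤ d'.ker := Abelianization.commutator_subset_ker d'
    rw [hperf] at h1
    have h2 : d' g = 1 := h1 (Subgroup.mem_top g)
    have h3 : ((d' g : Fˣ) : F) = d g := rfl
    rw [h2] at h3
    exact h3.symm
  let f1 : alternatingGroup (Fin (n + 1)) →* Matrix.SpecialLinearGroup (Fin n) F :=
    { toFun := fun g => ⟨r g, hdet g⟩
      map_one' := Subtype.ext (map_one r)
      map_mul' := fun a b => Subtype.ext (map_mul r a b) }
  let f : alternatingGroup (Fin (n + 1)) →* Matrix.ProjectiveSpecialLinearGroup (Fin n) F :=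
    (QuotientGroup.mk' _).comp f1
  refine ⟨f, ?_⟩
  rw [← MonoidHom.ker_eq_bot_iff]
  rcases (inferInstance : f.ker.Normal).eq_bot_or_eq_top with h | h
  · exact h
  · exfalso
    set g : alternatingGroup (Fin (n + 1)) := ⟨_, hc ⟨0, by omega⟩ ⟨1, by omega⟩ ⟨2, by omega⟩ (by simp) (by simp) (by simp)⟩ with hg
    have h1 : f g = 1 := by
      have : g ∈ f.ker := by rw [h]; exact Subgroup.mem_top g
      exact this
    have h2 : f1 g ∈ Subgroup.center (Matrix.SpecialLinearGroup (Fin n) F) :=
      (QuotientGroup.eq_one_iff (f1 g)).1 h1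
    rw [Matrix.SpecialLinearGroup.mem_center_iff] at h2
    obtain ⟨c, -, hc2⟩ := h2
    have h3 : (Matrix.scalar (Fin n)) c ⟨2, by omega⟩ ⟨0, by omega⟩ = (r g) ⟨2, by omega⟩ ⟨0, by omega⟩ := by rw [hc2]; rfl
    have h4 : (r g) ⟨2, by omega⟩ ⟨0, by omega⟩ = (1 : F) := by
      change A F (g : Equiv.Perm (Fin (n + 1))) _ _ = 1
      unfold A
      have h5 : (g : Equiv.Perm (Fin (n + 1))) (Fin.castSucc ⟨0, by omega⟩) = Fin.castSucc ⟨2, by omega⟩ := by
        rw [hg]
        simp [Equiv.swap_apply_def]
      have h6 : (g : Equiv.Perm (Fin (n + 1))) (Fin.last n) ≠ Fin.castSucc ⟨2, by omega⟩ := by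
        rw [← h5]
        intro h7
        have h8 := (g : Equiv.Perm (Fin (n + 1))).injective h7
        have h9 := congrArg Fin.val h8
        simp at h9
        omega
      rw [if_pos h5, if_neg h6, sub_zero]
    rw [h4] at h3
    simp at h3


end Cfsg.Agent.S4156
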