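import Cfsg.Statements.S4157
import Cfsg.Agent.H23_Kula7


set_option autoImplicit false
open Cfsg

namespace Cfsg.Agent.S4157

/-- Let G be a finite p-group of order p^m that is not cyclic and, when p = 2, not of maximal class (nilpotency class m − 1). Then for every 1 ≤ k < m the number of subgroups of G of order p^k is congruent to 1 + p modulo p². -/
theorem result {G : Type*} [Group G] [Finite G] {p : ℕ} [Fact p.Prime] (m : ℕ)
    (hG : Nat.card G = p ^ m) (hnc : ¬ IsCyclic G) (h2 : p = 2 → Group.nilpotencyClass G ≠ m - 1)
    (k : ℕ) (hk1 : 1 ≤ k) (hk2 : k < m) :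
    Nat.card {H : Subgroup G // Nat.card H = p ^ k} ≡ 1 + p [MOD p ^ 2] := by
  by_cases hp2 : p = 2
  · subst hp2
    have hpg : IsPGroup 2 G := IsPGroup.of_card hG
    have h3 : 3 ≤ m := by
      by_contra hcon
      have hm : m = 2 := by omega
      subst hm
      apply h2 rfl
      have hab := IsPGroup.isMulCommutative_of_card_eq_prime_sq hG
      have hnil := hpg.isNilpotent
      have h4 := Group.IsNilpotent.nilpotencyClass_le_one_iff.2 hab
      have h5 : Group.nilpotencyClass G ≠ 0 := by
        intro h
        have h6 := Group.nilpotencyClass_zero_iff_subsingleton.1 h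
        exact hnc inferInstance
      omega
    have hcl : (commutator G).index ≠ 4 := fun h => h2 rfl (H2.MaxClass.max_of_klein m G h3 hG h)
    have h4 := H23.Kula.kulakoff_two m G hG h3 hnc hcl k hk1 hk2
    rw [H23.Kula.card_Sk_top] at h4
    exact h4
  · have h4 := H23.Kula.kulakoff_odd hp2 m G hG hnc k hk1 hk2
    rw [H23.Kula.card_Sk_top] at h4
    exact h4


end Cfsg.Agent.S4157
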