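import Cfsg.Statements.S4160
import Mathlib
import Cfsg.Agent.H23_ClassSize

set_option autoImplicit false
open Cfsg

namespace Cfsg.Agent.S4160

open Cfsg.Agent.H23.ClassSize Subgroup in
theorem aux {G : Type*} [Group G] [Finite G] (p q : ℕ) (hp : p.Prime) (hq : q.Prime) (hpq : p ≠ q)
    (h : ∀ x : G, ¬ p * q ∣ (Subgroup.centralizer ({x} : Set G)).index) :
    Cfsg.HasNormalPComplement p G ∨ Cfsg.HasNormalPComplement q G := by
  by_contra hc
  push Not at hc
  have h1 := two_mul_card_le hp hc.1
  have h2 := two_mul_card_le hq hc.2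
  set A : Set G := {x : G | ¬ p ∣ (centralizer ({x} : Set G)).index}
  set B : Set G := {x : G | ¬ q ∣ (centralizer ({x} : Set G)).index}
  have hU : A ∪ B = Set.univ := by
    ext x
    simp only [Set.mem_union, Set.mem_univ, iff_true]
    by_contra hx
    push Not at hx
    have h3 : p ∣ (centralizer ({x} : Set G)).index := by
      by_contra h4; exact hx.1 h4
    have h4 : q ∣ (centralizer ({x} : Set G)).index := by
      by_contra h4; exact hx.2 h4
    exact h x (((Nat.coprime_primes hp hq).2 hpq).mul_dvd_of_dvd_of_dvd h3 h4)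
  have h1m : (1 : G) ∈ A ∩ B := by
    have : centralizer ({1} : Set G) = ⊤ := by
      ext y; simp [mem_centralizer_singleton_iff]
    constructor
    · show ¬ p ∣ (centralizer ({1} : Set G)).index
      rw [this, index_top]; exact hp.one_lt.ne' ∘ Nat.dvd_one.1
    · show ¬ q ∣ (centralizer ({1} : Set G)).index
      rw [this, index_top]; exact hq.one_lt.ne' ∘ Nat.dvd_one.1
  have h5 : (A ∪ B).ncard + (A ∩ B).ncard = A.ncard + B.ncard := Set.ncard_union_add_ncard_inter A B
  rw [hU, Set.ncard_univ] at h5
  have h6 : 0 < (A ∩ B).ncard := (Set.ncard_pos (Set.toFinite _)).2 ⟨1, h1m⟩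
  have h7 : A.ncard = Nat.card A := rfl
  have h8 : B.ncard = Nat.card B := rfl
  omega


/-- Let G be a finite group and p ≠ q primes each dividing the size of some conjugacy class of G, such that no conjugacy class size is divisible by pq. Then G has a normal p-complement or a normal q-complement. -/
theorem result {G : Type*} [Group G] [Finite G] (p q : ℕ) (hp : p.Prime) (hq : q.Prime) (hpq : p ≠ q)
    (hp' : ∃ x : G, p ∣ (Subgroup.centralizer ({x} : Set G)).index) (hq' : ∃ x : G, q ∣ (Subgroup.centralizer ({x} : Set G)).index) (h : ∀ x : G, ¬ p * q ∣ (Subgroup.centralizer ({x} : Set G)).index) :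
    Cfsg.HasNormalPComplement p G ∨ Cfsg.HasNormalPComplement q G := by
  exact aux p q hp hq hpq h

end Cfsg.Agent.S4160
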