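import Cfsg.Statements.S4168
import Cfsg.Agent.H2_Fusion4
import Cfsg.Agent.H2_Basic
import Cfsg.Agent.H2_Card

set_option autoImplicit false
open Cfsg

namespace Cfsg.Agent.S4168

/-- Let L be a finite quasisimple group (perfect with L/Z(L) simple). Then every prime dividing the order of the centre Z(L) also divides the order of L/Z(L). -/
theorem result {L : Type*} [Group L] [Finite L] (hL : Cfsg.IsQuasisimple L)
    (p : ℕ) (hp : p.Prime) (hdiv : p ∣ Nat.card (Subgroup.center L)) : p ∣ (Subgroup.center L).index := by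
  by_contra hnd
  haveI := Fact.mk hp
  haveI := hL.1
  have P : Sylow p L := default
  -- the Sylow p-subgroup lies in the centre
  have hPZ : (P : Subgroup L) ≤ Subgroup.center L := by
    intro x hx
    rw [← QuotientGroup.eq_one_iff, ← orderOf_eq_one_iff]
    obtain ⟨k, hk⟩ := IsPGroup.iff_orderOf.1 P.2 ⟨x, hx⟩
    rw [Subgroup.orderOf_mk] at hk
    have h1 : orderOf (x : L ⧸ Subgroup.center L) ∣ p ^ k :=
      hk ▸ orderOf_map_dvd (QuotientGroup.mk' (Subgroup.center L)) x
    have h2 : orderOf (x : L ⧸ Subgroup.center L) ∣ (Subgroup.center L).index := by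
      rw [Subgroup.index_eq_card]; exact orderOf_dvd_natCard _
    exact Nat.eq_one_of_dvd_coprimes (Nat.Coprime.pow_left k ((Nat.Prime.coprime_iff_not_dvd hp).2 hnd)) h1 h2
  have hnpc := Cfsg.Agent.H2.Fusion4.npc_of_normalizer_le_centralizer P (by
    intro g _
    rw [Subgroup.mem_centralizer_iff]
    intro x hx
    exact (Subgroup.mem_center_iff.1 (hPZ hx) g).symm)
  obtain ⟨N, hN, hNc, k, hk⟩ := Cfsg.Agent.H2.Basic.npc_iff.1 hnpc
  -- L / N is a p-group, hence trivial
  have hqp : IsPGroup p (L ⧸ N) := IsPGroup.of_card (n := k) (by rw [← Subgroup.index_eq_card, hk])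
  haveI := hqp.isNilpotent
  have hperf : commutator L = ⊤ := Group.IsPerfect.commutator_eq_top
  have hsub : Subsingleton (L ⧸ N) := by
    by_contra hns
    rw [not_subsingleton_iff_nontrivial] at hns
    have h1 := Group.IsSolvable.commutator_lt_top_of_nontrivial (L ⧸ N)
    have h2 : (commutator L).map (QuotientGroup.mk' N) = commutator (L ⧸ N) := by
      rw [commutator_def, commutator_def, Subgroup.map_commutator, Subgroup.map_top_of_surjective _ (QuotientGroup.mk'_surjective N)]
    rw [← h2, hperf, Subgroup.map_top_of_surjective _ (QuotientGroup.mk'_surjective N)] at h1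
    exact lt_irrefl _ h1
  have hNt : N = ⊤ := by
    rw [← Subgroup.index_eq_one, Subgroup.index_eq_card]
    exact Nat.card_unique
  rw [hNt, Subgroup.card_top] at hNc
  exact hNc (hdiv.trans (Subgroup.card_subgroup_dvd_card _))

end Cfsg.Agent.S4168
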