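import Cfsg.Statements.S4169
import Mathlib
import Cfsg.Agent.H23_SmallClass
import Cfsg.Agent.H1_Frattini

set_option autoImplicit false
open Cfsg

namespace Cfsg.Agent.S4169

open Subgroup in
theorem main {P : Type*} [Group P] [Finite P] {p : ℕ} [Fact p.Prime] (hP : IsPGroup p P)
    (m : ℕ) (hm : 1 < m) (h : ∀ x : P, (Subgroup.centralizer ({x} : Set P)).index = 1 ∨ (Subgroup.centralizer ({x} : Set P)).index = m) :
    Subgroup.upperCentralSeries P 3 = ⊤ := by
  have hnil : Group.IsNilpotent P := hP.isNilpotent
  obtain ⟨A, hA⟩ := (Set.toFinite {A : Subgroup P | A.Normal ∧ IsMulCommutative A}).exists_maximal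
    ⟨⊥, (inferInstance : (⊥ : Subgroup P).Normal), inferInstance⟩
  have hAn : A.Normal := hA.1.1
  have hAc : IsMulCommutative A := hA.1.2
  have hCA : centralizer (A : Set P) = A :=
    H1.Frattini.max_abelian_normal_self_centralizing A (fun M hM hMc hAM => le_antisymm (hA.2 ⟨hM, hMc⟩ hAM) hAM)
  have hmin : ∀ x : P, 1 < (centralizer ({x} : Set P)).index → m ≤ (centralizer ({x} : Set P)).index := by
    intro x hx
    rcases h x with h1 | h1
    · omega
    · omega
  have hM := H23.SmallClass.main A hAc hCA m hm hmin _ rfl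
  have hmem : ∀ x : P, x ∈ closure {x : P | (Subgroup.centralizer ({x} : Set P)).index = 1 ∨ (Subgroup.centralizer ({x} : Set P)).index = m} :=
    fun x => subset_closure (h x)
  apply H23.SmallClass.upper3 A
  · intro b hb y
    have h2 := (hM y (hmem y)).1 b hb
    rw [← commutatorElement_inv]
    exact inv_mem h2
  · intro x y
    exact (hM x (hmem x)).2 y (hmem y)


/-- Let P be a finite p-group whose conjugacy classes have exactly two sizes (1 and one other value). Then P has nilpotency class at most 3. -/
theorem result {P : Type*} [Group P] [Finite P] {p : ℕ} [Fact p.Prime] (hP : IsPGroup p P)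
    (m : ℕ) (hm : 1 < m) (h : ∀ x : P, (Subgroup.centralizer ({x} : Set P)).index = 1 ∨ (Subgroup.centralizer ({x} : Set P)).index = m) :
    upperCentralSeries P 3 = ⊤ := by
  exact main hP m hm h

end Cfsg.Agent.S4169
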