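import Cfsg.Statements.S4172
import Cfsg.Agent.H12_TP2

set_option autoImplicit false
open Cfsg

namespace Cfsg.Agent.S4172

/-- Let p be a prime and G a finite group with a non-commutative Sylow p-subgroup P whose Frattini subgroup has index p² in P (P is generated by two elements). Suppose G has no nontrivial normal subgroup of order prime to p and the Frattini subgroup of P contains no nontrivial normal subgroup of G. Then the generalized Fitting subgroup F*(G) is the unique minimal normal subgroup of G, the image of P in G/F*(G) is cyclic, and if F*(G) is not commutative then P permutes the components of G transitively by conjugation. -/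
theorem result {G : Type*} [Group G] [Finite G] (p : ℕ) [Fact p.Prime] (P : Sylow p G) (hna : ¬ IsMulCommutative (P : Subgroup G)) (hgen : (frattini ↥(P : Subgroup G)).index = p ^ 2) (hcore : Cfsg.pPrimeCore p G = ⊥) (hfrat : ((frattini ↥(P : Subgroup G)).map (P : Subgroup G).subtype).normalCore = ⊥) [hFn : (Cfsg.generalizedFittingSubgroup G).Normal] :
    (Cfsg.generalizedFittingSubgroup G ≠ ⊥ ∧ ∀ K : Subgroup G, K.Normal → K ≠ ⊥ → Cfsg.generalizedFittingSubgroup G ≤ K) ∧
      IsCyclic ↥((P : Subgroup G).map (QuotientGroup.mk' (Cfsg.generalizedFittingSubgroup G))) ∧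
      (¬ IsMulCommutative (Cfsg.generalizedFittingSubgroup G) → ∀ K L : Subgroup G, Cfsg.IsComponent K → Cfsg.IsComponent L → ∃ x ∈ (P : Subgroup G), L = K.map (MulAut.conj x).toMonoidHom) := by
  have h : H12.TP.Hy P := ⟨hna, hgen, hcore, hfrat⟩
  set F := generalizedFittingSubgroup G with hF
  have hFb : F ≠ ⊥ := by
    intro hFb
    have h1 := H11.FStar.centralizer_generalizedFitting_le (G := G)
    rw [← hF, hFb] at h1
    apply hna
    refine ⟨⟨fun a b => ?_⟩⟩
    have h2 : ∀ g : G, g = 1 := by
      intro g
      have h3 : g ∈ Subgroup.centralizer ((⊥ : Subgroup G) : Set G) := by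
        rw [Subgroup.mem_centralizer_iff]
        intro y hy
        rw [SetLike.mem_coe, Subgroup.mem_bot] at hy
        rw [hy, one_mul, mul_one]
      exact Subgroup.mem_bot.1 (h1 h3)
    apply Subtype.ext
    rw [h2 (((a * b : (P : Subgroup G)) : G)), h2 (((b * a : (P : Subgroup G)) : G))]
  have hFR : pCore p G ≠ ⊥ → F = pCore p G := by
    intro hRb
    show layer G ⊔ fittingSubgroup G = _
    rw [H12.TP.layer_bot h hRb, bot_sup_eq, H12.TP.fit_eq h]
  have part1 : ∀ K : Subgroup G, K.Normal → K ≠ ⊥ → F ≤ K := by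
    intro K hK hKb
    by_cases hRb : pCore p G = ⊥
    · have hfit : fittingSubgroup G = ⊥ := by rw [H12.TP.fit_eq h, hRb]
      have hFE : F = layer G := by
        show layer G ⊔ fittingSubgroup G = _
        rw [hfit, sup_bot_eq]
      rw [hFE, H11.Components.layer_le_iff]
      intro L hL
      rcases H11.Components.le_or_commutator_eq_bot hL hK.isSubnormal with h1 | h1
      · exact h1
      · exfalso
        have hC : (Subgroup.centralizer (K : Set G)).Normal := inferInstance
        have hLC : L ≤ Subgroup.centralizer (K : Set G) := (Subgroup.commutator_eq_bot_iff_le_centralizer).1 h1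
        have hCb : Subgroup.centralizer (K : Set G) ≠ ⊥ := fun e => by
          rw [e] at hLC
          exact H11.Components.IsComponent.ne_bot hL (le_bot_iff.1 hLC)
        apply H12.TP.no_two h hK hC hKb hCb
        rw [eq_bot_iff]
        rintro x ⟨hx1, hx2⟩
        have h2 := H11.FStar.mem_fitting_of_mem_center hK.isSubnormal hx1
          (fun y hy => Subgroup.mem_centralizer_iff.1 hx2 y hy)
        rw [hfit] at h2; exact h2
    · rw [hFR hRb]; exact H12.TP.R_le h hK hKb
  refine ⟨⟨hFb, part1⟩, ?_, ?_⟩
  · obtain ⟨x, hxP, hx⟩ := H12.TP.cyc_mem h (D := F) (by rw [Subgroup.normalizer_eq_top]; exact le_top)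
      (H12.TP.not_le h hFn hFb)
    refine ⟨⟨⟨QuotientGroup.mk' F x, ⟨x, hxP, rfl⟩⟩, ?_⟩⟩
    rintro ⟨_, a, ha, rfl⟩
    obtain ⟨n, hn, k, rfl⟩ := hx a ha
    refine ⟨k, Subtype.ext ?_⟩
    show (QuotientGroup.mk' F x) ^ k = QuotientGroup.mk' F (n * x ^ k)
    have h1 : QuotientGroup.mk' F n = 1 := (QuotientGroup.eq_one_iff n).2 hn
    rw [map_mul, h1, one_mul, map_zpow]
  · intro hFna K L hK hL
    have hRb : pCore p G = ⊥ := by
      by_contra hRb
      apply hFna
      rw [← hF, hFR hRb]
      exact ⟨⟨fun a b => Subtype.ext (H12.TP.R_comm h a a.2 b b.2)⟩⟩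
    have hfit : fittingSubgroup G = ⊥ := by rw [H12.TP.fit_eq h, hRb]
    by_contra hcon
    push_neg at hcon
    have gen : ∀ M : Subgroup G, IsComponent M →
        (∀ A ∈ {A : Subgroup G | ∃ x ∈ (P : Subgroup G), A = M.map (MulAut.conj x).toMonoidHom}, IsComponent A) ∧
        ((P : Subgroup G) ≤ Subgroup.normalizer ((sSup {A : Subgroup G | ∃ x ∈ (P : Subgroup G),
          A = M.map (MulAut.conj x).toMonoidHom} : Subgroup G) : Set G)) ∧
        ¬ ((sSup {A : Subgroup G | ∃ x ∈ (P : Subgroup G), A = M.map (MulAut.conj x).toMonoidHom}) ⊓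
          (P : Subgroup G) ≤ H12.TP.FP P) := by
      intro M hM
      set S := {A : Subgroup G | ∃ x ∈ (P : Subgroup G), A = M.map (MulAut.conj x).toMonoidHom} with hS
      have a1 : ∀ A ∈ S, IsComponent A := by
        rintro _ ⟨x, hx, rfl⟩
        exact (H11.Components.isComponent_map_conj M x).2 hM
      have a0 : ∀ g ∈ (P : Subgroup G), ∀ n ∈ sSup S, g * n * g⁻¹ ∈ sSup S := by
        intro g hg n hn
        have b1 : sSup S ≤ (sSup S).comap (MulAut.conj g).toMonoidHom := by
          apply sSup_le
          rintro _ ⟨x, hx, rfl⟩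
          rw [← Subgroup.map_le_iff_le_comap]
          apply le_sSup
          refine ⟨g * x, mul_mem hg hx, ?_⟩
          rw [Subgroup.map_map]
          congr 1
          ext y
          simp [mul_assoc]
        exact b1 hn
      have a2 : (P : Subgroup G) ≤ Subgroup.normalizer ((sSup S : Subgroup G) : Set G) := by
        intro g hg
        rw [Subgroup.mem_normalizer_iff]
        intro n
        refine ⟨fun hn => a0 g hg n hn, fun hn => ?_⟩
        have b2 := a0 g⁻¹ (inv_mem hg) _ hn
        have e : g⁻¹ * (g * n * g⁻¹) * g⁻¹⁻¹ = n := by group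
        rwa [e] at b2
      refine ⟨a1, a2, fun hle => ?_⟩
      have a3 := H12.TP.tateN hcore P (H11.FStar.sSup_components_isSubnormal a1) a2 hle
      have a4 : M ≤ sSup S := by
        apply le_sSup
        refine ⟨1, one_mem _, ?_⟩
        ext y
        simp
      have a5 : IsPGroup p M := a3.to_le a4
      apply H11.Components.not_isSolvable_of_isComponent hM
      have a6 : Group.IsNilpotent M := a5.isNilpotent
      infer_instance
    obtain ⟨k1, k2, k3⟩ := gen K hK
    obtain ⟨l1, l2, l3⟩ := gen L hL
    refine H12.TP.no_two' h k2 l2 k3 l3 ?_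
    set S1 := {A : Subgroup G | ∃ x ∈ (P : Subgroup G), A = K.map (MulAut.conj x).toMonoidHom} with hS1
    set S2 := {A : Subgroup G | ∃ x ∈ (P : Subgroup G), A = L.map (MulAut.conj x).toMonoidHom} with hS2
    have hcc : sSup S1 ≤ Subgroup.centralizer ((sSup S2 : Subgroup G) : Set G) := by
      apply sSup_le
      intro A hA
      rw [Subgroup.le_centralizer_iff]
      apply sSup_le
      intro B hB
      rw [← Subgroup.commutator_eq_bot_iff_le_centralizer]
      apply H11.Components.commutator_eq_bot_of_ne (l1 B hB) (k1 A hA)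
      obtain ⟨x, hx, rfl⟩ := hA
      obtain ⟨y, hy, rfl⟩ := hB
      intro e
      apply hcon (y⁻¹ * x) (mul_mem (inv_mem hy) hx)
      have e2 : L = (L.map (MulAut.conj y).toMonoidHom).map (MulAut.conj y⁻¹).toMonoidHom := by
        rw [Subgroup.map_map]
        have : (MulAut.conj y⁻¹).toMonoidHom.comp (MulAut.conj y).toMonoidHom = MonoidHom.id G := by
          ext z; simp [mul_assoc]
        rw [this, Subgroup.map_id]
      rw [e2, e, Subgroup.map_map]
      congr 1
      ext z
      simp [mul_assoc]
    rw [eq_bot_iff]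
    rintro z ⟨hz1, hz2⟩
    have h2 := H11.FStar.mem_fitting_of_mem_center (H11.FStar.sSup_components_isSubnormal l1) hz2
      (fun y hy => Subgroup.mem_centralizer_iff.1 (hcc hz1) y hy)
    rw [hfit] at h2; exact h2

end Cfsg.Agent.S4172
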