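import Cfsg.Statements.S4176
import Cfsg.Agent.H1_Factor
import Cfsg.Agent.H22_PSolv
import Cfsg.Agent.H22_PComp


set_option autoImplicit false
open Cfsg

namespace Cfsg.Agent.S4176

open Subgroup

open Classical in
/-- the sum of the orbit of `a` -/
noncomputable def orb {k V H : Type*} [Field k] [AddCommGroup V] [Module k V] [Group H] [Fintype H]
    (ρ : Representation k H V) (a : V) : Finset V := Finset.univ.image (fun h => ρ h a)

open Classical in
theorem orb_fix {k V H : Type*} [Field k] [AddCommGroup V] [Module k V] [Group H] [Fintype H]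
    (ρ : Representation k H V) (a : V) (g : H) : ρ g (∑ u ∈ orb ρ a, u) = ∑ u ∈ orb ρ a, u := by
  rw [map_sum]
  have hmem : ∀ u, u ∈ orb ρ a ↔ ∃ h, ρ h a = u := fun u => by simp [orb]
  refine Finset.sum_bij (fun u _ => ρ g u) ?_ ?_ ?_ (fun _ _ => rfl)
  · intro u hu
    rw [hmem] at hu ⊢
    obtain ⟨h, rfl⟩ := hu
    exact ⟨g * h, by rw [map_mul]; rfl⟩
  · intro u _ v _ huv
    have h1 : ρ g⁻¹ (ρ g u) = ρ g⁻¹ (ρ g v) := by rw [huv]
    have h2 : ∀ w, ρ g⁻¹ (ρ g w) = w := fun w => by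
      change (ρ g⁻¹ * ρ g) w = w
      rw [← map_mul, inv_mul_cancel, map_one]; rfl
    rwa [h2, h2] at h1
  · intro v hv
    rw [hmem] at hv
    obtain ⟨h, rfl⟩ := hv
    refine ⟨ρ (g⁻¹ * h) a, ?_, ?_⟩
    · rw [hmem]; exact ⟨_, rfl⟩
    · change (ρ g * ρ (g⁻¹ * h)) a = ρ h a
      rw [← map_mul, mul_inv_cancel_left]

open Classical in
theorem key {k V H : Type*} [Field k] [AddCommGroup V] [Module k V] [Group H] [Fintype H]
    (ρ : Representation k H V) (a : V)
    (hspan : Submodule.span k {u : V | ∃ h : H, ρ h a = u} = ⊤)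
    (L : Subgroup H) (hL : ((Nat.card L : ℕ) : k) ≠ 0) (hO : (((orb ρ a).card : ℕ) : k) ≠ 0)
    (hfac : ∀ h : H, ∃ β ∈ L, ρ h a = ρ β a) (b : V) (hb : ∀ h ∈ L, ρ h b = b) :
    ∃ c : k, b = c • ∑ u ∈ orb ρ a, u := by
  let T : V →ₗ[k] V := ∑ h : L, ρ (h : H)
  have hTapp : ∀ v, T v = ∑ h : L, ρ (h : H) v := fun v => by simp only [T, LinearMap.sum_apply]
  have hTa : ∀ h : H, T (ρ h a) = T a := by
    intro h
    obtain ⟨β, hβ, he⟩ := hfac h
    rw [he, hTapp, hTapp]
    rw [← Equiv.sum_comp (Equiv.mulRight (⟨β, hβ⟩ : L)) (fun h : L => ρ (h : H) a)]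
    refine Finset.sum_congr rfl fun h _ => ?_
    change ρ (h : H) (ρ β a) = ρ ((h : H) * β) a
    rw [map_mul]; rfl
  have hTfix : ∀ b : V, (∀ h ∈ L, ρ h b = b) → T b = ((Nat.card L : ℕ) : k) • b := by
    intro b hb
    rw [hTapp, Finset.sum_congr rfl fun (h : L) _ => hb (h : H) h.2, Finset.sum_const, Finset.card_univ,
      Nat.card_eq_fintype_card, Nat.cast_smul_eq_nsmul]
  have hspan' : ∀ v : V, ∃ c : k, T v = c • T a := by
    intro v
    have hv : v ∈ Submodule.span k {u : V | ∃ h : H, ρ h a = u} := by rw [hspan]; trivial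
    induction hv using Submodule.span_induction with
    | mem x hx =>
      obtain ⟨h, rfl⟩ := hx
      exact ⟨1, by rw [hTa, one_smul]⟩
    | zero => exact ⟨0, by simp⟩
    | add x y _ _ hx hy =>
      obtain ⟨c, hc⟩ := hx
      obtain ⟨d, hd⟩ := hy
      exact ⟨c + d, by rw [map_add, hc, hd, add_smul]⟩
    | smul r x _ hx =>
      obtain ⟨c, hc⟩ := hx
      exact ⟨r * c, by rw [map_smul, hc, smul_smul]⟩
  have hTs : ((Nat.card L : ℕ) : k) • (∑ u ∈ orb ρ a, u) = (((orb ρ a).card : ℕ) : k) • T a := by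
    rw [← hTfix _ (fun h _ => orb_fix ρ a h), map_sum, Finset.sum_congr rfl (g := fun _ => T a), Finset.sum_const,
      Nat.cast_smul_eq_nsmul]
    intro u hu
    obtain ⟨h, -, rfl⟩ := Finset.mem_image.1 hu
    exact hTa h
  obtain ⟨c, hc⟩ := hspan' b
  refine ⟨((Nat.card L : ℕ) : k)⁻¹ * c * ((((orb ρ a).card : ℕ) : k)⁻¹ * ((Nat.card L : ℕ) : k)), ?_⟩
  have h1 : T a = ((((orb ρ a).card : ℕ) : k)⁻¹ * ((Nat.card L : ℕ) : k)) • ∑ u ∈ orb ρ a, u := by
    rw [mul_smul, hTs, smul_smul, inv_mul_cancel₀ hO, one_smul]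
  rw [mul_smul, ← h1, mul_smul, ← hc, hTfix b hb, smul_smul, inv_mul_cancel₀ hL, one_smul]


/-- Let k be a field of prime characteristic p, H a finite p-soluble group and ρ a k-linear representation of H on V. Let a be a vector that is fixed by some Sylow p-subgroup of H and whose H-orbit spans V. Then the space of H-fixed vectors has dimension at most 1, and every vector b whose H-orbit has size coprime to the size of the orbit of a is fixed by H. -/
theorem result {k V H : Type*} [Field k] (p : ℕ) [Fact p.Prime] [CharP k p] [AddCommGroup V] [Module k V]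
    [Group H] [Finite H] (hsol : Cfsg.IsPSolvable p H) (ρ : Representation k H V) (a : V)
    (hfix : ∃ P : Sylow p H, ∀ x : H, x ∈ (P : Subgroup H) → ρ x a = a)
    (hspan : Submodule.span k {u : V | ∃ h : H, ρ h a = u} = ⊤) :
    Module.finrank k ρ.invariants ≤ 1 ∧
    ∀ b : V, (Nat.card {u : V | ∃ h : H, ρ h a = u}).Coprime (Nat.card {u : V | ∃ h : H, ρ h b = u}) → ∀ h : H, ρ h b = b := by

  classical
  haveI : Fintype H := Fintype.ofFinite H
  obtain ⟨P, hP⟩ := hfix
  letI act : MulAction H V :=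
    { smul := fun h v => ρ h v
      one_smul := fun v => by change ρ 1 v = v; rw [map_one]; rfl
      mul_smul := fun a b v => by change ρ (a * b) v = ρ a (ρ b v); rw [map_mul]; rfl }
  have horb : ∀ v : V, {u : V | ∃ h : H, ρ h v = u} = MulAction.orbit H v := fun v => rfl
  set A := MulAction.stabilizer H a with hA
  have hPA : (P : Subgroup H) ≤ A := fun x hx => hP x hx
  have hAp : ¬ p ∣ A.index := by
    intro h
    exact P.not_dvd_index (h.trans (Subgroup.index_dvd_of_le hPA))
  have hcast : ∀ m : ℕ, ¬ p ∣ m → ((m : ℕ) : k) ≠ 0 := by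
    intro m hm h
    exact hm ((CharP.cast_eq_zero_iff k p m).1 h)
  have hOcard : (orb ρ a).card = A.index := by
    rw [hA, MulAction.index_stabilizer]
    have h1 : MulAction.orbit H a = ((orb ρ a : Finset V) : Set V) := by
      ext u
      simp only [orb, Finset.coe_image, Finset.coe_univ, Set.image_univ]
      rfl
    rw [h1, Set.ncard_coe_finset]
  have hO : (((orb ρ a).card : ℕ) : k) ≠ 0 := by
    rw [hOcard]; exact hcast _ hAp
  have hcop : ∀ {m : ℕ}, m.Coprime p → ¬ p ∣ m := fun {m} h h1 =>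
    (Fact.out : p.Prime).one_lt.ne' (Nat.eq_one_of_dvd_coprimes h h1 dvd_rfl)
  constructor
  · obtain ⟨K, hK1, n, hn⟩ := H22.PComp.exists_pComp hsol
    refine finrank_le_one (⟨∑ u ∈ orb ρ a, u, fun g => orb_fix ρ a g⟩ : ρ.invariants) ?_
    rintro ⟨w, hw⟩
    have hfac : ∀ h : H, ∃ β ∈ K, ρ h a = ρ β a := by
      intro h
      have h1 : K.index.Coprime A.index := by
        rw [hn]
        exact Nat.Coprime.pow_left n ((Nat.Prime.coprime_iff_not_dvd (Fact.out : p.Prime)).2 hAp)
      obtain ⟨x, hx, y, hy, hxy⟩ := (Cfsg.Agent.H1.Factor.index_inf_of_coprime _ _ h1).2 h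
      refine ⟨x, hx, ?_⟩
      rw [hxy, map_mul]
      change ρ x (ρ y a) = ρ x a
      rw [show ρ y a = a from hy]
    obtain ⟨c, hc⟩ := key ρ a hspan K (hcast _ (hcop hK1)) hO hfac w (fun h _ => hw h)
    exact ⟨c, Subtype.ext hc.symm⟩
  · intro b hcp h
    rw [horb, horb] at hcp
    set B := MulAction.stabilizer H b with hB
    have h1 : B.index.Coprime A.index := by
      rw [MulAction.index_stabilizer, MulAction.index_stabilizer]
      exact hcp.symm
    have hi := H1.Factor.index_inf_of_coprime _ _ h1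
    obtain ⟨L, hL1, n, hn⟩ := H22.PComp.exists_pComp (H22.PSolv.isPSolvable_subgroup B hsol)
    have hrel : (A.subgroupOf B).index = A.index := by
      have h2 : (B ⊓ A).relIndex B * B.index = (B ⊓ A).index := Subgroup.relIndex_mul_index inf_le_left
      rw [hi.1, mul_comm, inf_comm, inf_relIndex_right] at h2
      exact Nat.eq_of_mul_eq_mul_left (Nat.pos_of_ne_zero B.index_ne_zero_of_finite) h2
    have hfac : ∀ h : H, ∃ β ∈ L.map B.subtype, ρ h a = ρ β a := by
      intro h
      obtain ⟨x, hx, y, hy, hxy⟩ := hi.2 h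
      have h3 : L.index.Coprime (A.subgroupOf B).index := by
        rw [hn, hrel]
        exact Nat.Coprime.pow_left n ((Nat.Prime.coprime_iff_not_dvd (Fact.out : p.Prime)).2 hAp)
      obtain ⟨l, hl, z, hz, hlz⟩ := (H1.Factor.index_inf_of_coprime _ _ h3).2 ⟨x, hx⟩
      refine ⟨l, ⟨l, hl, rfl⟩, ?_⟩
      have h4 : x = (l : H) * z := congrArg Subtype.val hlz
      rw [hxy, map_mul]
      change ρ x (ρ y a) = ρ l a
      rw [show ρ y a = a from hy, h4, map_mul]
      change ρ l (ρ z a) = ρ l a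
      rw [show ρ z a = a from hz]
    obtain ⟨c, hc⟩ := key ρ a hspan (L.map B.subtype) (by
      rw [Subgroup.card_map_of_injective B.subtype_injective]
      exact hcast _ (hcop hL1)) hO hfac b (by
      rintro _ ⟨l, _, rfl⟩
      exact l.2)
    rw [hc, map_smul, orb_fix]


end Cfsg.Agent.S4176
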