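import Cfsg.Statements.S4177
import Cfsg.Agent.H1_Factor

set_option autoImplicit false
open Cfsg

namespace Cfsg.Agent.S4177

open Classical in
theorem avg {k V H : Type*} [Field k] [AddCommGroup V] [Module k V] [Group H] [Finite H] [Fintype H]
    (hc : ((Nat.card H : ℕ) : k) ≠ 0) (ρ : Representation k H V) (a : V)
    (hspan : Submodule.span k {u : V | ∃ h : H, ρ h a = u} = ⊤)
    (B : Subgroup H) [Fintype B] (b : V) (hb : ∀ h ∈ B, ρ h b = b)
      (hfac : ∀ h : H, ∃ β ∈ B, ρ h a = ρ β a) :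
      (∃ c : k, b = c • ∑ h : B, ρ (h : H) a) ∧
      ((Nat.card H : ℕ) : k) • ∑ h : B, ρ (h : H) a = ((Nat.card B : ℕ) : k) • ∑ h : H, ρ h a := by
  let T : V →ₗ[k] V := ∑ h : B, ρ (h : H)
  have hTapp : ∀ v, T v = ∑ h : B, ρ (h : H) v := fun v => by simp only [T, LinearMap.sum_apply]
  have hTa : ∀ h : H, T (ρ h a) = T a := by
    intro h
    obtain ⟨β, hβ, he⟩ := hfac h
    rw [he, hTapp, hTapp]
    rw [← Equiv.sum_comp (Equiv.mulRight (⟨β, hβ⟩ : B)) (fun h : B => ρ (h : H) a)]
    refine Finset.sum_congr rfl fun h _ => ?_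
    change ρ (h : H) (ρ β a) = ρ ((h : H) * β) a
    rw [map_mul]; rfl
  have hB0 : ((Nat.card B : ℕ) : k) ≠ 0 := by
    intro h
    apply hc
    obtain ⟨m, hm⟩ := Subgroup.card_subgroup_dvd_card B
    rw [hm, Nat.cast_mul, h, zero_mul]
  have hTfix : ∀ b : V, (∀ h ∈ B, ρ h b = b) → T b = ((Nat.card B : ℕ) : k) • b := by
    intro b hb
    rw [hTapp, Finset.sum_congr rfl fun (h : B) _ => hb (h : H) h.2, Finset.sum_const, Finset.card_univ,
      Nat.card_eq_fintype_card, Nat.cast_smul_eq_nsmul]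
  have hspan' : ∀ v : V, ∃ c : k, T v = c • T a := by
    intro v
    have hv : v ∈ Submodule.span k {u : V | ∃ h : H, ρ h a = u} := by rw [hspan]; trivial
    induction hv using Submodule.span_induction with
    | mem x hx =>
      obtain ⟨h, rfl⟩ := hx
      exact ⟨1, by rw [hTa, one_smul]⟩
    | zero => exact ⟨0, by simp⟩
    | add x y _ _ hx hy =>
      obtain ⟨c, hc⟩ := hx
      obtain ⟨d, hd⟩ := hy
      exact ⟨c + d, by rw [map_add, hc, hd, add_smul]⟩
    | smul r x _ hx =>
      obtain ⟨c, hc⟩ := hx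
      exact ⟨r * c, by rw [map_smul, hc, smul_smul]⟩
  constructor
  · obtain ⟨c, hc'⟩ := hspan' b
    refine ⟨((Nat.card B : ℕ) : k)⁻¹ * c, ?_⟩
    rw [← hTapp, mul_smul, ← hc', hTfix b hb, smul_smul, inv_mul_cancel₀ hB0, one_smul]
  · rw [← hTfix (∑ h : H, ρ h a), map_sum, Finset.sum_congr rfl fun h _ => hTa h, Finset.sum_const,
      Finset.card_univ, ← Nat.card_eq_fintype_card, ← hTapp, Nat.cast_smul_eq_nsmul]
    intro g _
    rw [map_sum, ← Equiv.sum_comp (Equiv.mulLeft g) (fun h : H => ρ h a)]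
    refine Finset.sum_congr rfl fun h _ => ?_
    change ρ g (ρ h a) = ρ (g * h) a
    rw [map_mul]; rfl

/-- Let k be a field whose characteristic does not divide the order of the finite group H (for instance a field of characteristic zero), and ρ a k-linear representation of H on V. Let a be a vector whose H-orbit spans V. Then the space of H-fixed vectors has dimension at most 1, and every vector b whose H-orbit has size coprime to the size of the orbit of a is fixed by H. -/
theorem result {k V H : Type*} [Field k] [AddCommGroup V] [Module k V] [Group H] [Finite H]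
    (hchar : ¬ ringChar k ∣ Nat.card H) (ρ : Representation k H V) (a : V)
    (hspan : Submodule.span k {u : V | ∃ h : H, ρ h a = u} = ⊤) :
    Module.finrank k ρ.invariants ≤ 1 ∧
    ∀ b : V, (Nat.card {u : V | ∃ h : H, ρ h a = u}).Coprime (Nat.card {u : V | ∃ h : H, ρ h b = u}) → ∀ h : H, ρ h b = b := by
  classical
  haveI : Fintype H := Fintype.ofFinite H
  have hc : ((Nat.card H : ℕ) : k) ≠ 0 := by
    intro h
    exact hchar ((ringChar.spec k _).1 h)
  letI act : MulAction H V :=
    { smul := fun h v => ρ h v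
      one_smul := fun v => by change ρ 1 v = v; rw [map_one]; rfl
      mul_smul := fun a b v => by change ρ (a * b) v = ρ a (ρ b v); rw [map_mul]; rfl }
  have horb : ∀ v : V, {u : V | ∃ h : H, ρ h v = u} = MulAction.orbit H v := fun v => rfl
  have hfixH : ∀ g : H, ρ g (∑ h : H, ρ h a) = ∑ h : H, ρ h a := by
    intro g
    rw [map_sum]
    conv_rhs => rw [← Equiv.sum_comp (Equiv.mulLeft g) (fun h : H => ρ h a)]
    refine Finset.sum_congr rfl fun h _ => ?_
    change ρ g (ρ h a) = ρ (g * h) a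
    rw [map_mul]; rfl
  refine ⟨?_, ?_⟩
  · refine finrank_le_one (⟨∑ h : H, ρ h a, hfixH⟩ : ρ.invariants) ?_
    rintro ⟨w, hw⟩
    obtain ⟨⟨c, hc1⟩, _⟩ := avg hc ρ a hspan ⊤ w (fun h _ => hw h) (fun h => ⟨h, trivial, rfl⟩)
    refine ⟨c, Subtype.ext ?_⟩
    change c • ∑ h : H, ρ h a = w
    rw [hc1]
    congr 1
    exact (Equiv.sum_comp (Subgroup.topEquiv (G := H)).toEquiv (fun h : H => ρ h a)).symm
  · intro b hcop h
    rw [horb, horb] at hcop
    have hfac : ∀ h : H, ∃ β ∈ MulAction.stabilizer H b, ρ h a = ρ β a := by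
      intro h
      have h1 : (MulAction.stabilizer H b).index.Coprime (MulAction.stabilizer H a).index := by
        rw [MulAction.index_stabilizer, MulAction.index_stabilizer]
        exact hcop.symm
      obtain ⟨x, hx, y, hy, hxy⟩ := (Cfsg.Agent.H1.Factor.index_inf_of_coprime _ _ h1).2 h
      refine ⟨x, hx, ?_⟩
      rw [hxy, map_mul]
      change ρ x (ρ y a) = ρ x a
      rw [show ρ y a = a from hy]
    obtain ⟨⟨c, hc1⟩, hc2⟩ := avg hc ρ a hspan (MulAction.stabilizer H b) b (fun h hh => hh) hfac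
    have h3 : ∑ h : MulAction.stabilizer H b, ρ (h : H) a =
        ((Nat.card H : ℕ) : k)⁻¹ • ((Nat.card (MulAction.stabilizer H b) : ℕ) : k) • ∑ h : H, ρ h a := by
      rw [← hc2, smul_smul, inv_mul_cancel₀ hc, one_smul]
    rw [h3] at hc1
    rw [hc1, map_smul, map_smul, map_smul, hfixH]

end Cfsg.Agent.S4177
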