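import Cfsg.Statements.S4178
import Mathlib

set_option autoImplicit false
open Cfsg

namespace Cfsg.Agent.S4178

theorem index_le_of_fun {H X : Type*} [Group H] (R : Subgroup H) (f : H → X) (s : Set X) (hs : s.Finite)
    (hf : ∀ h, f h ∈ s) (hR : ∀ h₁ h₂, f h₁ = f h₂ → h₁⁻¹ * h₂ ∈ R) : R.index ≤ s.ncard := by
  haveI := hs.to_subtype
  rw [Subgroup.index_eq_card, ← Nat.card_coe_set_eq]
  refine Nat.card_le_card_of_injective (fun c : H ⧸ R => (⟨f c.out, hf _⟩ : s)) ?_
  intro c d hcd
  have h1 : f c.out = f d.out := congrArg Subtype.val hcd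
  have h2 := hR _ _ h1
  rw [← QuotientGroup.eq, QuotientGroup.out_eq', QuotientGroup.out_eq'] at h2
  exact h2


/-- Let F be a finite field with q elements, V a non-zero finite-dimensional F-space of dimension d, H a group of invertible linear maps of V, and R the subgroup of H generated by the elements of H that fix some non-zero vector (have eigenvalue 1). Then the index of R in H is at most q^d − 1; and if H leaves invariant some proper non-zero subspace, the index is at most q^(d/2) − 1. -/
theorem result {F V : Type*} [Field F] [Fintype F] [AddCommGroup V] [Module F V] [FiniteDimensional F V] [Nontrivial V]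
    (H : Subgroup (V ≃ₗ[F] V)) :
    (Subgroup.closure {h : ↥H | ∃ v : V, v ≠ 0 ∧ (h : V ≃ₗ[F] V) v = v}).index ≤ Fintype.card F ^ Module.finrank F V - 1 ∧
    ((∃ W : Submodule F V, W ≠ ⊥ ∧ W ≠ ⊤ ∧ ∀ h ∈ H, ∀ w ∈ W, h w ∈ W) →
      ((Subgroup.closure {h : ↥H | ∃ v : V, v ≠ 0 ∧ (h : V ≃ₗ[F] V) v = v}).index : ℝ) ≤ Real.sqrt ((Fintype.card F : ℝ) ^ Module.finrank F V) - 1) := by
  classical
  haveI hVfin : Finite V := Module.finite_of_finite F
  have hcardV : Nat.card V = Fintype.card F ^ Module.finrank F V := by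
    rw [Module.natCard_eq_pow_finrank (K := F), Nat.card_eq_fintype_card]
  have hcompl : ∀ (W : Submodule F V), ({0} : Set W)ᶜ.ncard = Fintype.card F ^ Module.finrank F W - 1 := by
    intro W
    rw [Set.ncard_compl, Set.ncard_singleton, Module.natCard_eq_pow_finrank (K := F), Nat.card_eq_fintype_card]
  set R := Subgroup.closure {h : ↥H | ∃ v : V, v ≠ 0 ∧ (h : V ≃ₗ[F] V) v = v} with hR
  have hmem : ∀ h : ↥H, (∃ v : V, v ≠ 0 ∧ (h : V ≃ₗ[F] V) v = v) → h ∈ R := fun h hh => Subgroup.subset_closure hh
  have hmul : ∀ (a b : ↥H) (v : V), ((a * b : ↥H) : V ≃ₗ[F] V) v = (a : V ≃ₗ[F] V) ((b : V ≃ₗ[F] V) v) := fun a b v => rfl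
  have hinv : ∀ (a : ↥H) (v : V), ((a⁻¹ : ↥H) : V ≃ₗ[F] V) ((a : V ≃ₗ[F] V) v) = v := by
    intro a v
    rw [← hmul, inv_mul_cancel]
    rfl
  constructor
  · obtain ⟨v, hv⟩ := exists_ne (0 : V)
    have h1 := index_le_of_fun R (fun h : ↥H => (h : V ≃ₗ[F] V) v) ({0} : Set V)ᶜ (Set.toFinite _)
      (fun h => by
        rw [Set.mem_compl_iff, Set.mem_singleton_iff, map_eq_zero_iff _ (LinearEquiv.injective _)]
        exact hv)
      (fun a b hab => by
        apply hmem
        refine ⟨v, hv, ?_⟩
        rw [hmul, ← hab, hinv])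
    rwa [Set.ncard_compl, Set.ncard_singleton, hcardV] at h1
  · rintro ⟨W, hW0, hW1, hWH⟩
    have hsum := Submodule.finrank_quotient_add_finrank W
    set d := Module.finrank F V
    set w := Module.finrank F W
    set w' := Module.finrank F (V ⧸ W)
    have hq : (1 : ℝ) ≤ (Fintype.card F : ℝ) := by exact_mod_cast Fintype.card_pos
    -- it is enough to have index ≤ q ^ j - 1 with 2 j ≤ d
    have hfin : ∀ j : ℕ, 2 * j ≤ d → R.index ≤ Fintype.card F ^ j - 1 →
        (R.index : ℝ) ≤ Real.sqrt ((Fintype.card F : ℝ) ^ d) - 1 := by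
      intro j hj hle
      have h1 : (Fintype.card F : ℝ) ^ j ≤ Real.sqrt ((Fintype.card F : ℝ) ^ d) := by
        apply Real.le_sqrt_of_sq_le
        rw [← pow_mul, mul_comm j 2]
        exact pow_le_pow_right₀ hq hj
      have h2 : 1 ≤ Fintype.card F ^ j := Nat.one_le_pow _ _ Fintype.card_pos
      have h3 : (R.index : ℝ) ≤ (Fintype.card F : ℝ) ^ j - 1 := by
        have h4 : R.index + 1 ≤ Fintype.card F ^ j := by omega
        have h5 : ((R.index + 1 : ℕ) : ℝ) ≤ ((Fintype.card F ^ j : ℕ) : ℝ) := by exact_mod_cast h4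
        push_cast at h5
        linarith
      linarith
    by_cases hw : 2 * w ≤ d
    · apply hfin w hw
      obtain ⟨v, hvW, hv⟩ := Submodule.exists_mem_ne_zero_of_ne_bot hW0
      have h1 := index_le_of_fun R (fun h : ↥H => (⟨(h : V ≃ₗ[F] V) v, hWH h h.2 v hvW⟩ : W)) ({0} : Set W)ᶜ (Set.toFinite _)
        (fun h => by
          rw [Set.mem_compl_iff, Set.mem_singleton_iff]
          intro h2
          have h3 : (h : V ≃ₗ[F] V) v = 0 := congrArg Subtype.val h2
          rw [map_eq_zero_iff _ (LinearEquiv.injective _)] at h3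
          exact hv h3)
        (fun a b hab => by
          apply hmem
          have h3 : (a : V ≃ₗ[F] V) v = (b : V ≃ₗ[F] V) v := congrArg Subtype.val hab
          refine ⟨v, hv, ?_⟩
          rw [hmul, ← h3, hinv])
      rwa [hcompl] at h1
    · have hw' : 2 * w' ≤ d := by omega
      apply hfin w' hw'
      obtain ⟨v, hv⟩ : ∃ v : V, v ∉ W := by
        by_contra hcon
        push Not at hcon
        exact hW1 ((Submodule.eq_top_iff').mpr hcon)
      have hcomplQ : ({0} : Set (V ⧸ W))ᶜ.ncard = Fintype.card F ^ w' - 1 := by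
        haveI : Finite (V ⧸ W) := Module.finite_of_finite F
        rw [Set.ncard_compl, Set.ncard_singleton, Module.natCard_eq_pow_finrank (K := F), Nat.card_eq_fintype_card]
      haveI : Finite (V ⧸ W) := Module.finite_of_finite F
      have hinvW : ∀ (a : ↥H) (x : V), (a : V ≃ₗ[F] V) x ∈ W → x ∈ W := by
        intro a x hx
        have := hWH _ (a⁻¹ : ↥H).2 _ hx
        rwa [hinv] at this
      have h1 := index_le_of_fun R (fun h : ↥H => (Submodule.Quotient.mk ((h : V ≃ₗ[F] V) v) : V ⧸ W)) ({0} : Set (V ⧸ W))ᶜ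
        (Set.toFinite _)
        (fun h => by
          rw [Set.mem_compl_iff, Set.mem_singleton_iff, Submodule.Quotient.mk_eq_zero]
          intro h2
          exact hv (hinvW h v h2))
        (fun a b hab => by
          rw [Submodule.Quotient.eq] at hab
          apply hmem
          set c : ↥H := a⁻¹ * b with hc
          have hcv : (c : V ≃ₗ[F] V) v - v ∈ W := by
            apply hinvW a
            rw [map_sub, ← hmul, hc, mul_inv_cancel_left]
            have := W.neg_mem hab
            rwa [neg_sub] at this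
          by_contra hcon
          push Not at hcon
          -- c - 1 restricted to W is injective hence surjective
          let g : W →ₗ[F] W := ((c : V ≃ₗ[F] V) : V →ₗ[F] V).restrict (fun x hx => hWH c c.2 x hx) - LinearMap.id
          have hg : Function.Injective g := by
            rw [injective_iff_map_eq_zero]
            intro x hx
            by_contra hx0
            apply hcon (x : V) (fun h => hx0 (Subtype.ext h))
            have h3 : (c : V ≃ₗ[F] V) (x : V) - x = 0 := congrArg Subtype.val hx
            exact sub_eq_zero.mp h3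
          obtain ⟨x, hx⟩ := (LinearMap.injective_iff_surjective.mp hg) ⟨_, hcv⟩
          have h3 : (c : V ≃ₗ[F] V) (x : V) - x = (c : V ≃ₗ[F] V) v - v := congrArg Subtype.val hx
          have h4 : v - x ≠ 0 := by
            intro h5
            rw [sub_eq_zero] at h5
            exact hv (h5 ▸ x.2)
          apply hcon (v - x) h4
          rw [map_sub]
          have h5 : (c : V ≃ₗ[F] V) v = (c : V ≃ₗ[F] V) (x : V) - x + v := by rw [h3]; abel
          rw [h5]
          abel)
      rwa [hcomplQ] at h1

end Cfsg.Agent.S4178
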