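import Cfsg.Statements.S4182
import Mathlib
import Cfsg.Agent.H24_Tools
import Cfsg.Agent.H2_Card
import Cfsg.Agent.H2_Basic

set_option autoImplicit false
open Cfsg

namespace Cfsg.Agent.S4182

open Subgroup Cfsg.Agent.H24.Tools
open scoped Pointwise

universe u v

section
variable {G : Type u} [Group G] (p : ℕ)

/-- `p`-elements -/
def El (g : G) : Prop := ∃ k : ℕ, orderOf g = p ^ k

/-- generated by `p`-elements -/
def Gen (L : Subgroup G) : Prop := ∀ T : Subgroup G, (∀ x ∈ L, El p x → x ∈ T) → L ≤ T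

variable {p}

theorem El.conj {g : G} (h : El p g) (x : G) : El p (x * g * x⁻¹) := by
  obtain ⟨k, hk⟩ := h
  exact ⟨k, by rw [orderOf_conj, hk]⟩

theorem Gen.conj {L : Subgroup G} (h : Gen p L) (g : G) : Gen p (MulAut.conj g • L) := by
  intro T hT x hx
  rw [mem_conj] at hx
  have h1 : L ≤ MulAut.conj g⁻¹ • T := h _ (fun y hy hyp => by
    rw [mem_conj, inv_inv]
    apply hT _ _ (hyp.conj g)
    rw [mem_conj]
    have : g⁻¹ * (g * y * g⁻¹) * g = y := by group
    rwa [this])
  have h2 := h1 hx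
  rw [mem_conj, inv_inv] at h2
  have : g * (g⁻¹ * x * g) * g⁻¹ = x := by group
  rwa [this] at h2

theorem gen_zpowers {g : G} (h : El p g) : Gen p (zpowers g) := by
  intro T hT
  rw [zpowers_le]
  exact hT g (mem_zpowers g) h

theorem gen_pgroup [Finite G] [hp : Fact p.Prime] {P : Subgroup G} (h : IsPGroup p P) : Gen p P := by
  intro T hT x hx
  obtain ⟨k, hk⟩ := IsPGroup.iff_orderOf.1 h ⟨x, hx⟩
  exact hT x hx ⟨k, by rw [← hk, Subgroup.orderOf_mk]⟩

theorem conj_conj' (a b : G) (L : Subgroup G) : MulAut.conj a • MulAut.conj b • L = MulAut.conj (a * b) • L := by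
  rw [map_mul, mul_smul]

theorem conj_one' (L : Subgroup G) : MulAut.conj (1 : G) • L = L := by
  rw [map_one, one_smul]

theorem mem_normalizer_of_conj {g : G} {L : Subgroup G} (h : MulAut.conj g • L = L) : g ∈ normalizer (L : Set G) := by
  rw [mem_normalizer_iff]
  intro x
  have h1 : g * x * g⁻¹ ∈ MulAut.conj g • L ↔ x ∈ L := by
    rw [mem_conj]
    have : g⁻¹ * (g * x * g⁻¹) * g = x := by group
    rw [this]
  rw [h] at h1
  exact h1.symm

theorem conj_of_mem_normalizer {g : G} {L : Subgroup G} (h : g ∈ normalizer (L : Set G)) : MulAut.conj g • L = L := by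
  ext x
  rw [mem_conj]
  have h1 := (mem_normalizer_iff.1 h) (g⁻¹ * x * g)
  rw [h1]
  have : g * (g⁻¹ * x * g) * g⁻¹ = x := by group
  rw [this]

end

theorem aux (p : ℕ) [hp : Fact p.Prime] (n : ℕ) : ∀ (G : Type u) [Group G] [Finite G], Nat.card G = n →
    Gen p (⊤ : Subgroup G) → ∀ (ι : Type v) [Fintype ι] (K : ι → Subgroup G), (∀ i, K i ≠ ⊤) →
    (∀ g : G, El p g → ∃ i, g ∈ K i) → p + 1 ≤ Fintype.card ι := by
  induction n using Nat.strong_induction_on with
  | _ n IH =>
  intro G _ _ hn hG ι _ K hK hcov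
  classical
  haveI := Fintype.ofFinite G
  by_contra hlt
  push Not at hlt
  have hcard : Fintype.card ι ≤ p := by omega
  -- proper `p`-generated subgroups are contained in some `K i`
  have h1 : ∀ L : Subgroup G, L ≠ ⊤ → Gen p L → ∃ i, L ≤ K i := by
    intro L hL hLg
    by_contra hcon
    push Not at hcon
    have h2 : Nat.card L < n := by rw [← hn]; exact H2.Card.card_lt_of_ne_top hL
    have h3 := IH _ h2 L rfl (by
      intro T hT x _
      have h4 : L ≤ T.map L.subtype := hLg _ (fun y hy hyp => by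
        refine ⟨⟨y, hy⟩, hT ⟨y, hy⟩ (mem_top _) ?_, rfl⟩
        obtain ⟨k, hk⟩ := hyp
        exact ⟨k, by rw [Subgroup.orderOf_mk, hk]⟩)
      obtain ⟨y, hy, hyx⟩ := h4 x.2
      have : y = x := Subtype.ext hyx
      rwa [← this]) ι (fun i => (K i).subgroupOf L) (fun i h => hcon i (subgroupOf_eq_top.1 h)) (by
      rintro ⟨g, hg⟩ ⟨k, hk⟩
      obtain ⟨i, hi⟩ := hcov g ⟨k, by rw [← hk, Subgroup.orderOf_mk]⟩
      exact ⟨i, hi⟩)
    omega
  -- the case of a `p`-group
  obtain ⟨P⟩ : Nonempty (Sylow p G) := inferInstance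
  by_cases hPt : (P : Subgroup G) = ⊤
  · have hGp : IsPGroup p G := by
      intro g
      have hg : g ∈ (P : Subgroup G) := by rw [hPt]; trivial
      obtain ⟨k, hk⟩ := P.2 ⟨g, hg⟩
      exact ⟨k, congrArg Subtype.val hk⟩
    have h2 : ∀ i, p * (Nat.card (K i)) ≤ Nat.card G := by
      intro i
      obtain ⟨m, hm⟩ := hGp.index (K i)
      have hm0 : m ≠ 0 := by
        rintro rfl
        rw [pow_zero] at hm
        exact hK i (index_eq_one.1 hm)
      rw [← card_mul_index (K i), hm, mul_comm]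
      apply Nat.mul_le_mul_left
      calc p = p ^ 1 := (pow_one p).symm
        _ ≤ p ^ m := Nat.pow_le_pow_right hp.out.pos (by omega)
    have h3 : (Finset.univ.erase (1 : G)) ⊆ Finset.univ.biUnion (fun i : ι => (Finset.univ.filter (fun g => g ∈ K i)).erase 1) := by
      intro g hg
      rw [Finset.mem_erase] at hg
      obtain ⟨i, hi⟩ := hcov g (by
        obtain ⟨k, hk⟩ := IsPGroup.iff_orderOf.1 hGp g
        exact ⟨k, hk⟩)
      rw [Finset.mem_biUnion]
      exact ⟨i, Finset.mem_univ _, Finset.mem_erase.2 ⟨hg.1, Finset.mem_filter.2 ⟨Finset.mem_univ _, hi⟩⟩⟩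
    have h4 := (Finset.card_le_card h3).trans Finset.card_biUnion_le
    rw [Finset.card_erase_of_mem (Finset.mem_univ _), Finset.card_univ, ← Nat.card_eq_fintype_card] at h4
    have h5 : ∀ i ∈ (Finset.univ : Finset ι), p * ((Finset.univ.filter (fun g => g ∈ K i)).erase 1).card ≤ Nat.card G - p := by
      intro i _
      rw [Finset.card_erase_of_mem (Finset.mem_filter.2 ⟨Finset.mem_univ _, (K i).one_mem⟩)]
      have h6 : (Finset.univ.filter (fun g => g ∈ K i)).card = Nat.card (K i) := by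
        rw [Nat.card_eq_fintype_card, Fintype.card_subtype]
      rw [h6, Nat.mul_sub, mul_one]
      exact Nat.sub_le_sub_right (h2 i) p
    have h6 : p * ∑ i : ι, ((Finset.univ.filter (fun g => g ∈ K i)).erase 1).card ≤ p * (Nat.card G - p) := by
      rw [Finset.mul_sum]
      calc _ ≤ ∑ _i : ι, (Nat.card G - p) := Finset.sum_le_sum h5
        _ = Fintype.card ι * (Nat.card G - p) := by rw [Finset.sum_const, Finset.card_univ, smul_eq_mul]
        _ ≤ _ := Nat.mul_le_mul_right _ hcard
    have h7 := Nat.le_of_mul_le_mul_left h6 hp.out.pos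
    have h8 := h4.trans h7
    obtain ⟨i, hi⟩ := hcov 1 ⟨0, by simp⟩
    have h9 : p ≤ Nat.card G := by
      have h10 : 1 ≤ Nat.card (K i) := Nat.card_pos
      have := h2 i
      nlinarith
    have h10 := hp.out.two_le
    omega
  -- maximal proper `p`-generated subgroups
  let PP : Set (Subgroup G) := {L | L ≠ ⊤ ∧ Gen p L}
  let MM : Set (Subgroup G) := {L | Maximal (fun L => L ∈ PP) L}
  have habove : ∀ L : Subgroup G, L ≠ ⊤ → Gen p L → ∃ M ∈ MM, L ≤ M := by
    intro L hL hLg
    obtain ⟨M, hLM, hM⟩ := (Set.toFinite PP).exists_le_maximal (a := L) ⟨hL, hLg⟩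
    exact ⟨M, hM, hLM⟩
  let f : ι → Subgroup G := fun i => closure {g | g ∈ K i ∧ El p g}
  have hf : ∀ i, f i ≤ K i := fun i => (closure_le _).2 (fun g hg => hg.1)
  have hsub : MM ⊆ Set.range f := by
    intro M hM
    obtain ⟨i, hi⟩ := h1 M hM.1.1 hM.1.2
    refine ⟨i, ?_⟩
    have h2 : M ≤ f i := hM.1.2 _ (fun x hx hxp => subset_closure ⟨hi hx, hxp⟩)
    refine le_antisymm (hM.2 ⟨?_, ?_⟩ h2) h2
    · intro h
      exact hK i (eq_top_iff.2 (h ▸ hf i))
    · intro T hT
      refine (closure_le _).2 ?_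
      rintro g ⟨hg1, hg2⟩
      exact hT g (subset_closure ⟨hg1, hg2⟩) hg2
  have hMcard : MM.ncard ≤ p := by
    refine (Set.ncard_le_ncard hsub (Set.toFinite _)).trans ?_
    refine le_trans ?_ hcard
    rw [← Set.image_univ]
    refine (Set.ncard_image_le (Set.toFinite _)).trans ?_
    rw [Set.ncard_univ, Nat.card_eq_fintype_card]
  have hconjPP : ∀ (g : G) (L : Subgroup G), L ∈ PP → MulAut.conj g • L ∈ PP := by
    rintro g L ⟨h1, h2⟩
    refine ⟨?_, h2.conj g⟩
    intro h
    apply h1
    have h3 : MulAut.conj g⁻¹ • MulAut.conj g • L = MulAut.conj g⁻¹ • (⊤ : Subgroup G) := by rw [h]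
    rw [conj_conj', inv_mul_cancel, conj_one'] at h3
    rw [h3, eq_top_iff]
    intro x _
    rw [mem_conj]; trivial
  have hconjM : ∀ (g : G) (L : Subgroup G), L ∈ MM → MulAut.conj g • L ∈ MM := by
    intro g L hL
    refine ⟨hconjPP g L hL.1, ?_⟩
    intro L' hL' hle
    have h2 : L ≤ MulAut.conj g⁻¹ • L' := by
      intro x hx
      rw [mem_conj, inv_inv]
      apply hle
      rw [mem_conj]
      have : g⁻¹ * (g * x * g⁻¹) * g = x := by group
      rwa [this]
    have h3 := hL.2 (hconjPP g⁻¹ L' hL') h2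
    intro x hx
    rw [mem_conj]
    apply h3
    rw [mem_conj, inv_inv]
    have : g * (g⁻¹ * x * g) * g⁻¹ = x := by group
    rwa [this]
  -- `p`-elements normalize every member
  have hnorm : ∀ g : G, El p g → ∀ L' ∈ MM, g ∈ normalizer (L' : Set G) := by
    intro g hg L' hL'
    by_contra hgn
    have hgt : zpowers g ≠ ⊤ := by
      intro h
      obtain ⟨i, hi⟩ := hcov g hg
      exact hK i (eq_top_iff.2 (by rw [← h, zpowers_le]; exact hi))
    obtain ⟨L, hL, hgL⟩ := habove (zpowers g) hgt (gen_zpowers hg)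
    have hgL' : g ∈ L := hgL (mem_zpowers g)
    let φ : Fin p → Subgroup G := fun k => MulAut.conj (g ^ (k : ℕ)) • L'
    have hpow : ∀ i : ℕ, MulAut.conj (g ^ i) • L = L := fun i =>
      conj_of_mem_normalizer (le_normalizer (pow_mem hgL' i))
    have hcopr : ∀ i : ℕ, i ≠ 0 → i < p → g ^ i ∉ normalizer (L' : Set G) := by
      intro i hi0 hip h
      apply hgn
      obtain ⟨k, hk⟩ := hg
      exact coprime_pow_mem h (by
        rw [hk]
        exact Nat.Coprime.pow_left _ (Nat.coprime_of_lt_prime hi0 hip hp.out))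
    have hinj : Function.Injective φ := by
      have haux : ∀ i j : Fin p, (i : ℕ) < j → φ i ≠ φ j := by
        intro i j hij h
        have h2 : MulAut.conj (g ^ (i : ℕ))⁻¹ • φ i = MulAut.conj (g ^ (i : ℕ))⁻¹ • φ j := by rw [h]
        change MulAut.conj (g ^ (i : ℕ))⁻¹ • MulAut.conj (g ^ (i : ℕ)) • L' = MulAut.conj (g ^ (i : ℕ))⁻¹ • MulAut.conj (g ^ (j : ℕ)) • L' at h2
        rw [conj_conj', conj_conj', inv_mul_cancel, conj_one'] at h2
        have h3 : (g ^ (i : ℕ))⁻¹ * g ^ (j : ℕ) = g ^ ((j : ℕ) - i) := by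
          rw [inv_mul_eq_iff_eq_mul, ← pow_add]
          congr 1
          omega
        rw [h3] at h2
        exact hcopr _ (by omega) (by have := j.2; omega) (mem_normalizer_of_conj h2.symm)
      intro i j h
      rcases lt_trichotomy (i : ℕ) j with h' | h' | h'
      · exact absurd h (haux i j h')
      · exact Fin.ext h'
      · exact absurd h.symm (haux j i h')
    have hLn : L ∉ Set.range φ := by
      rintro ⟨k, hk⟩
      apply hgn
      have h2 : L' = L := by
        have h3 : MulAut.conj (g ^ (k : ℕ))⁻¹ • φ k = MulAut.conj (g ^ (k : ℕ))⁻¹ • L := by rw [hk]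
        change MulAut.conj (g ^ (k : ℕ))⁻¹ • MulAut.conj (g ^ (k : ℕ)) • L' = _ at h3
        rw [conj_conj', inv_mul_cancel, conj_one'] at h3
        rw [h3]
        conv_lhs => rw [← hpow k]
        rw [conj_conj', inv_mul_cancel, conj_one']
      rw [h2]
      exact le_normalizer hgL'
    have h2 : (insert L (Set.range φ)).ncard ≤ MM.ncard := by
      apply Set.ncard_le_ncard _ (Set.toFinite _)
      rintro M (rfl | ⟨k, rfl⟩)
      · exact hL
      · exact hconjM _ _ hL'
    rw [Set.ncard_insert_of_notMem hLn (Set.toFinite _), ← Set.image_univ, Set.ncard_image_of_injective _ hinj,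
      Set.ncard_univ, Nat.card_eq_fintype_card, Fintype.card_fin] at h2
    omega
  obtain ⟨L, hL, hPL⟩ := habove P hPt (gen_pgroup P.2)
  have hLn : normalizer (L : Set G) = ⊤ := by
    rw [eq_top_iff]
    exact hG _ (fun g _ hg => hnorm g hg L hL)
  haveI hLnormal : L.Normal := normalizer_eq_top_iff.1 hLn
  apply hL.1.1
  rw [eq_top_iff]
  apply hG
  rintro g - ⟨k, hk⟩
  obtain ⟨P', hP'⟩ := (isPGroup_zpowers hk).exists_le_sylow
  obtain ⟨x, hx⟩ := MulAction.exists_smul_eq G P P'
  have h2 : g ∈ P' := hP' (mem_zpowers g)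
  rw [← hx, H2.Basic.mem_smul_sylow] at h2
  have h3 := hLnormal.conj_mem _ (hPL h2) x
  have : x * (x⁻¹ * g * x) * x⁻¹ = g := by group
  rwa [this] at h3


/-- Let p be a prime and G a finite group generated by its p-elements. If a finite family of proper subgroups of G covers the set of p-elements of G (every element of p-power order lies in one of them), then the family has at least p + 1 members. -/
theorem result {G : Type*} [Group G] [Finite G] (p : ℕ) [Fact p.Prime] (hgen : Subgroup.closure {g : G | ∃ k : ℕ, orderOf g = p ^ k} = ⊤)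
    {ι : Type*} [Fintype ι] (K : ι → Subgroup G) (hK : ∀ i, K i ≠ ⊤)
    (hcov : ∀ g : G, (∃ k : ℕ, orderOf g = p ^ k) → ∃ i, g ∈ K i) :
    p + 1 ≤ Fintype.card ι := by
  refine aux p _ G rfl ?_ ι K hK hcov
  intro T hT
  rw [← hgen, closure_le]
  intro g hg
  exact hT g (Subgroup.mem_top g) hg


end Cfsg.Agent.S4182
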