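import Cfsg.Statements.S4184
import Mathlib
import Cfsg.Agent.H23_ClassSize2

set_option autoImplicit false
open Cfsg

namespace Cfsg.Agent.S4184

open Cfsg.Agent.H23.ClassSize Subgroup
open scoped Pointwise

/-- class size of `x` -/
noncomputable abbrev cs {G : Type*} [Group G] (x : G) : ℕ := (centralizer ({x} : Set G)).index

theorem eq_of_forall_factorization {k m : ℕ} (hm : m ≠ 0) (hk : k ≠ 0)
    (h : ∀ p, p.Prime → k.factorization p = m.factorization p) : k = m := by
  apply Nat.eq_of_factorization_eq hk hm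
  intro p
  by_cases hp : p.Prime
  · exact h p hp
  · rw [Nat.factorization_eq_zero_of_not_prime k hp, Nat.factorization_eq_zero_of_not_prime m hp]

theorem core {G : Type*} [Group G] [Finite G] (A : Set ℕ) (m : ℕ) (hm : m ≠ 0)
    (h1 : ∀ x : G, cs x ∣ m) (h2 : ∀ x : G, cs x ≠ m)
    (h3 : ∀ x : G, x ≠ 1 → (∀ p, p.Prime → p ∈ A → (cs x).factorization p = m.factorization p) ∨
      (∀ p, p.Prime → p ∉ A → (cs x).factorization p = m.factorization p))
    (q s : ℕ) (hq : q.Prime) (hqA : q ∉ A) (hqm : q ∣ m) (hqG : q ∣ Nat.card G)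
    (hs : s.Prime) (hsA : s ∈ A) (hsm : s ∣ m) (hsG : s ∣ Nat.card G) :
    (Nat.card G).factorization s ≤ m.factorization s := by
  by_contra hlt
  push Not at hlt
  have hfq : Fact q.Prime := ⟨hq⟩
  have hfs : Fact s.Prime := ⟨hs⟩
  have hcs0 : ∀ x : G, cs x ≠ 0 := fun x => index_ne_zero_of_finite
  -- two commuting elements of coprime orders have the same type
  have hnot : ∀ x y : G, x * y = y * x → Nat.Coprime (orderOf x) (orderOf y) →
      (∀ p, p.Prime → p ∈ A → (cs x).factorization p = m.factorization p) →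
      (∀ p, p.Prime → p ∉ A → (cs y).factorization p = m.factorization p) → False := by
    intro x y hxy hco hx hy
    apply h2 (x * y)
    apply eq_of_forall_factorization hm (hcs0 _)
    intro p hp
    have hle : (cs (x * y)).factorization p ≤ m.factorization p :=
      (Nat.factorization_le_iff_dvd (hcs0 _) hm).2 (h1 _) p
    apply le_antisymm hle
    by_cases hpA : p ∈ A
    · rw [← hx p hp hpA]
      exact (Nat.factorization_le_iff_dvd (hcs0 _) (hcs0 _)).2 (index_dvd_index_mul hxy hco) p
    · rw [← hy p hp hpA]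
      have h4 : cs y ∣ cs (y * x) := index_dvd_index_mul hxy.symm hco.symm
      rw [← hxy] at h4
      exact (Nat.factorization_le_iff_dvd (hcs0 _) (hcs0 _)).2 h4 p
  -- Q, h
  obtain ⟨Q⟩ : Nonempty (Sylow q G) := inferInstance
  have hQn : Nontrivial Q := by
    rw [← Finite.one_lt_card_iff_nontrivial]
    have h4 := Q.card_mul_index
    by_contra hle
    have h5 : Nat.card (Q : Subgroup G) = 1 := by
      have : 0 < Nat.card Q := Nat.card_pos
      have h6 : ¬ 1 < Nat.card (Q : Subgroup G) := hle
      omega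
    rw [h5, one_mul] at h4
    exact Q.not_dvd_index (h4 ▸ hqG)
  have hZQ := Q.isPGroup'.center_nontrivial
  obtain ⟨⟨h0, hh0⟩, hne⟩ := exists_ne (1 : center Q)
  set h : G := (h0 : G) with hh
  have hh1 : h ≠ 1 := by
    intro he
    apply hne
    apply Subtype.ext; apply Subtype.ext; exact he
  have hho : ∃ k, orderOf h = q ^ k := by
    obtain ⟨k, hk⟩ := (IsPGroup.iff_orderOf.1 Q.isPGroup') h0
    exact ⟨k, by rw [hh, Subgroup.orderOf_coe, hk]⟩
  have hhQ : ¬ q ∣ cs h := by
    apply not_dvd_of_centralizes h Q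
    intro y hy
    have := mem_center_iff.1 hh0 ⟨y, hy⟩
    exact congrArg Subtype.val this
  have hhB : ∀ p, p.Prime → p ∈ A → (cs h).factorization p = m.factorization p := by
    rcases h3 h hh1 with h4 | h4
    · exact h4
    · exfalso
      have h5 := h4 q hq hqA
      rw [Nat.factorization_eq_zero_of_not_dvd hhQ] at h5
      have := hq.factorization_pos_of_dvd hm hqm
      omega
  -- the Sylow s-subgroup of C(x) for x of type B
  have hval : ∀ x : G, (∀ p, p.Prime → p ∈ A → (cs x).factorization p = m.factorization p) →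
      (Nat.card (centralizer ({x} : Set G))).factorization s + m.factorization s = (Nat.card G).factorization s := by
    intro x hx
    rw [← hx s hs hsA, ← (centralizer ({x} : Set G)).card_mul_index,
      Nat.factorization_mul Nat.card_pos.ne' (hcs0 _)]
    rfl
  obtain ⟨W, hWC, hWs, hWc⟩ := exists_sylow_in s (centralizer ({h} : Set G))
  have hWn : 1 < Nat.card W := by
    rw [hWc]
    apply Nat.one_lt_pow _ hs.one_lt
    have := hval h hhB
    omega
  have hsh : ∀ x : G, (∃ k, orderOf x = s ^ k) → Nat.Coprime (orderOf h) (orderOf x) := by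
    rintro x ⟨k, hk⟩
    obtain ⟨l, hl⟩ := hho
    rw [hk, hl]
    apply Nat.Coprime.pow
    rw [Nat.coprime_primes hq hs]
    rintro rfl
    exact hqA hsA
  have hWB : ∀ w ∈ W, w ≠ 1 → ∀ p, p.Prime → p ∈ A → (cs w).factorization p = m.factorization p := by
    intro w hw hw1
    rcases h3 w hw1 with h4 | h4
    · exact h4
    · exfalso
      apply hnot h w _ _ hhB h4
      · have := mem_centralizer_singleton_iff.1 (hWC hw)
        exact this.symm
      · apply hsh
        obtain ⟨k, hk⟩ := (IsPGroup.iff_orderOf.1 hWs) ⟨w, hw⟩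
        exact ⟨k, by rw [← hk, Subgroup.orderOf_mk]⟩
  -- Sylow S above W
  obtain ⟨S, hWS⟩ := hWs.exists_le_sylow
  have hSn : Nontrivial S := by
    rw [← Finite.one_lt_card_iff_nontrivial]
    exact lt_of_lt_of_le hWn (card_le_of_le hWS)
  have hZS := S.isPGroup'.center_nontrivial
  obtain ⟨⟨z0, hz0⟩, hzne⟩ := exists_ne (1 : center S)
  set z : G := (z0 : G) with hz
  have hz1 : z ≠ 1 := by
    intro he
    apply hzne
    apply Subtype.ext; apply Subtype.ext; exact he
  have hzS : ∀ y ∈ S, y * z = z * y := by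
    intro y hy
    have := mem_center_iff.1 hz0 ⟨y, hy⟩
    exact congrArg Subtype.val this
  have hzW : z ∉ W := by
    intro hzW
    have h4 := hWB z hzW hz1 s hs hsA
    rw [Nat.factorization_eq_zero_of_not_dvd (not_dvd_of_centralizes z S hzS)] at h4
    have := hs.factorization_pos_of_dvd hm hsm
    omega
  have hWnt : Nontrivial W := Finite.one_lt_card_iff_nontrivial.1 hWn
  have hZW := hWs.center_nontrivial
  obtain ⟨⟨w0, hw0⟩, hwne⟩ := exists_ne (1 : center W)
  set w : G := (w0 : G) with hw
  have hw1 : w ≠ 1 := by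
    intro he
    apply hwne
    apply Subtype.ext; apply Subtype.ext; exact he
  have hWC : W ≤ centralizer ({w} : Set G) := by
    intro y hy
    rw [mem_centralizer_singleton_iff]
    have := mem_center_iff.1 hw0 ⟨y, hy⟩
    exact congrArg Subtype.val this
  have hzC : zpowers z ≤ centralizer ({w} : Set G) := by
    rw [zpowers_le, mem_centralizer_singleton_iff]
    exact (hzS w (hWS w0.2)).symm
  have hle : W ⊔ zpowers z ≤ centralizer ({w} : Set G) := sup_le hWC hzC
  have hleS : W ⊔ zpowers z ≤ S := by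
    refine sup_le hWS ?_
    rw [zpowers_le]; exact z0.2
  have hlt2 : W < W ⊔ zpowers z := by
    refine lt_of_le_of_ne le_sup_left ?_
    intro he
    apply hzW
    rw [he]
    exact (le_sup_right : zpowers z ≤ W ⊔ zpowers z) (mem_zpowers z)
  have hpg : IsPGroup s (W ⊔ zpowers z : Subgroup G) := S.isPGroup'.to_le hleS
  obtain ⟨k, hk⟩ := IsPGroup.iff_card.1 hpg
  have hklt : (Nat.card (centralizer ({h} : Set G))).factorization s < k := by
    have h5 : Nat.card W < Nat.card (W ⊔ zpowers z : Subgroup G) := by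
      by_contra hge
      exact hlt2.ne (eq_of_le_of_card_ge hlt2.le (not_lt.1 hge))
    rw [hWc, hk] at h5
    exact (Nat.pow_lt_pow_iff_right hs.one_lt).1 h5
  have hkle : k ≤ (Nat.card (centralizer ({w} : Set G))).factorization s := by
    rw [← hs.pow_dvd_iff_le_factorization Nat.card_pos.ne', ← hk]
    exact card_dvd_of_le hle
  have h6 := hval h hhB
  have h7 := hval w (hWB w w0.2 hw1)
  omega

theorem main {G M : Type*}
    [Group G] [Finite G] [Group M] [Finite M] (hZG : Subgroup.center G = ⊥) (hZM : Subgroup.center M = ⊥)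
    (h : Set.range (fun g : G => (Subgroup.centralizer ({g} : Set G)).index) = Set.range (fun g : M => (Subgroup.centralizer ({g} : Set M)).index))
    (hdisc : ∃ A : Set ℕ, (∃ a ∈ A, a.Prime ∧ a ∣ Nat.card M) ∧ (∃ b ∉ A, b.Prime ∧ b ∣ Nat.card M) ∧
      ∀ a ∈ A, ∀ b ∉ A, a.Prime → b.Prime → a ∣ Nat.card M → b ∣ Nat.card M → ¬ ∃ x : M, orderOf x = a * b) :
    Nat.card G = Nat.card M := by
  obtain ⟨A, ⟨a, haA, ha, ham⟩, ⟨b, hbA, hb, hbm⟩, hAB⟩ := hdisc
  set m := Nat.card M with hmdef
  have hm : m ≠ 0 := Nat.card_pos.ne'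
  have hfac : ∀ (y : M) (p : ℕ), p.Prime → ¬ p ∣ Nat.card (centralizer ({y} : Set M)) → (cs y).factorization p = m.factorization p := by
    intro y p hp hnd
    rw [hmdef, ← (centralizer ({y} : Set M)).card_mul_index, Nat.factorization_mul Nat.card_pos.ne' index_ne_zero_of_finite,
      Finsupp.add_apply, Nat.factorization_eq_zero_of_not_dvd hnd, zero_add]
  -- products of commuting elements of prime orders
  have hcomm : ∀ (r s : ℕ), r.Prime → s.Prime → r ∈ A → s ∉ A → ∀ u v : M, orderOf u = r → orderOf v = s → u * v = v * u → False := by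
    intro r s hr hs hrA hsA u v hu hv huv
    have hrs : r ≠ s := by rintro rfl; exact hsA hrA
    refine hAB r hrA s hsA hr hs (hu ▸ orderOf_dvd_natCard u) (hv ▸ orderOf_dvd_natCard v) ⟨u * v, ?_⟩
    rw [← hu, ← hv]
    apply Commute.orderOf_mul_eq_mul_orderOf_of_coprime huv
    rw [hu, hv]
    exact (Nat.coprime_primes hr hs).2 hrs
  have hM3' : ∀ y : M, y ≠ 1 → (∀ p, p.Prime → p ∈ A → ¬ p ∣ Nat.card (centralizer ({y} : Set M))) ∨
      (∀ p, p.Prime → p ∉ A → ¬ p ∣ Nat.card (centralizer ({y} : Set M))) := by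
    intro y hy
    by_contra hcon
    push Not at hcon
    obtain ⟨⟨p, hp, hpA, hpd⟩, ⟨r, hr, hrA, hrd⟩⟩ := hcon
    have hfp : Fact p.Prime := ⟨hp⟩
    have hfr : Fact r.Prime := ⟨hr⟩
    obtain ⟨u, hu⟩ := exists_prime_orderOf_dvd_card' p hpd
    obtain ⟨v, hv⟩ := exists_prime_orderOf_dvd_card' r hrd
    have ho : orderOf y ≠ 1 := by rwa [Ne, orderOf_eq_one_iff]
    obtain ⟨t, ht, k, hk⟩ := Nat.exists_prime_and_dvd ho
    have hk0 : k ≠ 0 := by rintro rfl; rw [mul_zero] at hk; exact (orderOf_pos y).ne' hk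
    have hyt : orderOf (y ^ k) = t := by
      rw [orderOf_pow_of_dvd hk0 ⟨t, by rw [hk, mul_comm]⟩, hk]
      exact Nat.mul_div_cancel _ (Nat.pos_of_ne_zero hk0)
    have hcomu : ∀ c : centralizer ({y} : Set M), (c : M) * y ^ k = y ^ k * (c : M) := by
      intro c
      have : Commute (c : M) y := mem_centralizer_singleton_iff.1 c.2
      exact this.pow_right k
    by_cases htA : t ∈ A
    · exact hcomm t r ht hr htA hrA (y ^ k) (v : M) hyt (by rw [Subgroup.orderOf_coe, hv]) (hcomu v).symm
    · exact hcomm p t hp ht hpA htA (u : M) (y ^ k) (by rw [Subgroup.orderOf_coe, hu]) hyt (hcomu u)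
  have hM3 : ∀ y : M, y ≠ 1 → (∀ p, p.Prime → p ∈ A → (cs y).factorization p = m.factorization p) ∨
      (∀ p, p.Prime → p ∉ A → (cs y).factorization p = m.factorization p) := by
    intro y hy
    rcases hM3' y hy with h4 | h4
    · exact Or.inl fun p hp hpA => hfac y p hp (h4 p hp hpA)
    · exact Or.inr fun p hp hpA => hfac y p hp (h4 p hp hpA)
  have hM2 : ∀ y : M, cs y ≠ m := by
    intro y hy
    have h4 := (centralizer ({y} : Set M)).card_mul_index
    rw [show (centralizer ({y} : Set M)).index = m from hy, ← hmdef] at h4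
    have h5 : Nat.card (centralizer ({y} : Set M)) = 1 := by
      have h6 : Nat.card (centralizer ({y} : Set M)) * m = 1 * m := by rw [h4, one_mul]
      exact Nat.eq_of_mul_eq_mul_right (Nat.pos_of_ne_zero hm) h6
    rw [card_eq_one] at h5
    have h6 : y ∈ centralizer ({y} : Set M) := by rw [mem_centralizer_singleton_iff]
    rw [h5, mem_bot] at h6
    subst h6
    have h7 : cs (1 : M) = 1 := (index_centralizer_eq_one_iff 1).2 (one_mem _)
    rw [h7] at hy
    rw [← hy] at ham
    exact ha.one_lt.ne' (Nat.dvd_one.1 ham)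
  have hGM : ∀ x : G, ∃ y : M, cs x = cs y := by
    intro x
    have : cs x ∈ Set.range (fun g : M => (Subgroup.centralizer ({g} : Set M)).index) := by
      rw [← h]; exact ⟨x, rfl⟩
    obtain ⟨y, hy⟩ := this
    exact ⟨y, hy.symm⟩
  have hMG : ∀ y : M, ∃ x : G, cs x = cs y := by
    intro y
    have : cs y ∈ Set.range (fun g : G => (Subgroup.centralizer ({g} : Set G)).index) := by
      rw [h]; exact ⟨y, rfl⟩
    obtain ⟨x, hx⟩ := this
    exact ⟨x, hx⟩
  have F1 : ∀ x : G, cs x ∣ m := by
    intro x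
    obtain ⟨y, hy⟩ := hGM x
    rw [hy]; exact index_dvd_card _
  have F2 : ∀ x : G, cs x ≠ m := by
    intro x
    obtain ⟨y, hy⟩ := hGM x
    rw [hy]; exact hM2 y
  have F3 : ∀ x : G, x ≠ 1 → (∀ p, p.Prime → p ∈ A → (cs x).factorization p = m.factorization p) ∨
      (∀ p, p.Prime → p ∉ A → (cs x).factorization p = m.factorization p) := by
    intro x hx
    obtain ⟨y, hy⟩ := hGM x
    rw [hy]
    apply hM3
    rintro rfl
    apply hx
    have h7 : cs (1 : M) = 1 := (index_centralizer_eq_one_iff 1).2 (one_mem _)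
    rw [h7, index_centralizer_eq_one_iff, hZG, mem_bot] at hy
    exact hy
  have hcsG : ∀ x : G, cs x ∣ Nat.card G := fun x => index_dvd_card _
  have F4 : ∀ p, p.Prime → m.factorization p ≤ (Nat.card G).factorization p := by
    intro p hp
    have hfa : Fact a.Prime := ⟨ha⟩
    have hfb : Fact b.Prime := ⟨hb⟩
    obtain ⟨u, hu⟩ := exists_prime_orderOf_dvd_card' a ham
    obtain ⟨v, hv⟩ := exists_prime_orderOf_dvd_card' b hbm
    have hself : ∀ w : M, orderOf w ∣ Nat.card (centralizer ({w} : Set M)) := by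
      intro w
      have h6 : w ∈ centralizer ({w} : Set M) := by rw [mem_centralizer_singleton_iff]
      rw [← Subgroup.orderOf_mk w h6]
      exact orderOf_dvd_natCard _
    have hu1 : u ≠ 1 := by
      rintro rfl; rw [orderOf_one] at hu; exact ha.one_lt.ne hu
    have hv1 : v ≠ 1 := by
      rintro rfl; rw [orderOf_one] at hv; exact hb.one_lt.ne hv
    have key : ∃ w : M, (cs w).factorization p = m.factorization p := by
      by_cases hpA : p ∈ A
      · refine ⟨v, ?_⟩
        rcases hM3' v hv1 with h4 | h4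
        · exact hfac v p hp (h4 p hp hpA)
        · exact absurd (hv ▸ hself v) (h4 b hb hbA)
      · refine ⟨u, ?_⟩
        rcases hM3' u hu1 with h4 | h4
        · exact absurd (hu ▸ hself u) (h4 a ha haA)
        · exact hfac u p hp (h4 p hp hpA)
    obtain ⟨w, hw⟩ := key
    obtain ⟨x, hx⟩ := hMG w
    rw [← hw, ← hx]
    exact (Nat.factorization_le_iff_dvd index_ne_zero_of_finite Nat.card_pos.ne').2 (hcsG x) p
  have F4' : ∀ p, p.Prime → p ∣ m → p ∣ Nat.card G := by
    intro p hp hpm
    have h5 := hp.factorization_pos_of_dvd hm hpm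
    have h6 := F4 p hp
    exact Nat.dvd_of_factorization_pos (by omega)
  have F5 : ∀ p, p.Prime → p ∣ Nat.card G → p ∣ m := by
    intro p hp hpG
    have hfp : Fact p.Prime := ⟨hp⟩
    obtain ⟨x, hx⟩ := dvd_of_dvd_card hZG hpG
    exact hx.trans (F1 x)
  have F6 : ∀ p, p.Prime → (Nat.card G).factorization p ≤ m.factorization p := by
    intro p hp
    by_cases hpG : p ∣ Nat.card G
    · by_cases hpA : p ∈ A
      · exact core A m hm F1 F2 F3 b p hb hbA hbm (F4' b hb hbm) hp hpA (F5 p hp hpG) hpG
      · refine core Aᶜ m hm F1 F2 ?_ a p ha (by simpa using haA) ham (F4' a ha ham) hp hpA (F5 p hp hpG) hpG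
        intro x hx
        rcases F3 x hx with h4 | h4
        · right; intro p hp hpA'; exact h4 p hp (by simpa using hpA')
        · left; intro p hp hpA'; exact h4 p hp hpA'
    · rw [Nat.factorization_eq_zero_of_not_dvd hpG]; exact Nat.zero_le _
  exact eq_of_forall_factorization hm Nat.card_pos.ne' (fun p hp => le_antisymm (F6 p hp) (F4 p hp))


/-- Let G and M be finite groups with trivial centres and the same set of conjugacy class sizes, and suppose the prime graph of M is disconnected: the prime divisors of #M split into two non-empty parts such that M has no element of order pq with p in one part and q in the other. Then #G = #M. -/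
theorem result {G M : Type*}
    [Group G] [Finite G] [Group M] [Finite M] (hZG : Subgroup.center G = ⊥) (hZM : Subgroup.center M = ⊥)
    (h : Set.range (fun g : G => (Subgroup.centralizer ({g} : Set G)).index) = Set.range (fun g : M => (Subgroup.centralizer ({g} : Set M)).index))
    (hdisc : ∃ A : Set ℕ, (∃ a ∈ A, a.Prime ∧ a ∣ Nat.card M) ∧ (∃ b ∉ A, b.Prime ∧ b ∣ Nat.card M) ∧
      ∀ a ∈ A, ∀ b ∉ A, a.Prime → b.Prime → a ∣ Nat.card M → b ∣ Nat.card M → ¬ ∃ x : M, orderOf x = a * b) :
    Nat.card G = Nat.card M := by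
  exact main hZG hZM h hdisc

end Cfsg.Agent.S4184
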