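import Cfsg.Statements.S4186


set_option autoImplicit false
open Cfsg

namespace Cfsg.Agent.S4186

/-- Let T and X be subgroups of a group with T a finite 2-group normalizing X but not centralizing it. Then some element of T inverts some non-identity element of X under conjugation. -/
theorem result {G : Type*} [Group G] (T X : Subgroup G) [Finite ↥T] (hT : IsPGroup 2 ↥T) (hTN : T ≤ Subgroup.normalizer (X : Set G)) (hTC : ¬ T ≤ Subgroup.centralizer (X : Set G)) : ∃ t ∈ T, ∃ x ∈ X, x ≠ 1 ∧ t * x * t⁻¹ = x⁻¹ := by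
  classical
  have hT0 : ∃ t ∈ T, t ∉ Subgroup.centralizer (X : Set G) ∧ t ^ 2 ∈ Subgroup.centralizer (X : Set G) := by
    obtain ⟨t, htT, htC⟩ := SetLike.not_le_iff_exists.1 hTC
    obtain ⟨n, hn⟩ := hT ⟨t, htT⟩
    have hn' : t ^ 2 ^ n = 1 := congrArg Subtype.val hn
    have hex : ∃ k, t ^ 2 ^ k ∈ Subgroup.centralizer (X : Set G) := ⟨n, by rw [hn']; exact one_mem _⟩
    have hk := Nat.find_spec hex
    have hk0 : Nat.find hex ≠ 0 := by
      intro h
      rw [h, pow_zero, pow_one] at hk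
      exact htC hk
    obtain ⟨j, hj⟩ := Nat.exists_eq_succ_of_ne_zero hk0
    refine ⟨t ^ 2 ^ j, T.pow_mem htT _, Nat.find_min hex (by omega), ?_⟩
    rw [← pow_mul, ← pow_succ, ← Nat.succ_eq_add_one, ← hj]
    exact hk
  obtain ⟨t, htT, htC, ht2⟩ := hT0
  rw [Subgroup.mem_centralizer_iff] at htC
  push Not at htC
  obtain ⟨x, hx, hxt⟩ := htC
  have hxX : t * x * t⁻¹ ∈ X := (Subgroup.mem_normalizer_iff.1 (hTN htT) x).1 hx
  refine ⟨t, htT, x⁻¹ * (t * x * t⁻¹), X.mul_mem (X.inv_mem hx) hxX, ?_, ?_⟩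
  · intro h
    apply hxt
    rw [inv_mul_eq_one, eq_mul_inv_iff_mul_eq] at h
    exact h
  · have h1 := Subgroup.mem_centralizer_iff.1 ht2 x hx
    have h2 : t * (t * x * t⁻¹) * t⁻¹ = x := by
      have : t * (t * x * t⁻¹) * t⁻¹ = t ^ 2 * x * (t ^ 2)⁻¹ := by
        rw [pow_two]; group
      rw [this, ← h1]; group
    calc t * (x⁻¹ * (t * x * t⁻¹)) * t⁻¹ = (t * x * t⁻¹)⁻¹ * (t * (t * x * t⁻¹) * t⁻¹) := by group
      _ = (x⁻¹ * (t * x * t⁻¹))⁻¹ := by rw [h2]; group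

end Cfsg.Agent.S4186
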