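import Cfsg.Statements.S4189
import Mathlib
import Cfsg.Agent.H24_FratAut
import Cfsg.Agent.H2_PGroup
import Cfsg.Agent.H23_PQuat

set_option autoImplicit false
open Cfsg

namespace Cfsg.Agent.S4189

open Subgroup
open scoped commutatorElement

theorem comm_of_gen {P Q : Type*} [Group P] [Group Q] (s : P →* Q) {x y : P}
    (hgen : Subgroup.closure ({x, y} : Set P) = ⊤) (h : Commute (s x) (s y)) : ∀ a b : P, Commute (s a) (s b) := by
  have key : ∀ w : Q, Commute w (s x) → Commute w (s y) → ∀ a : P, Commute w (s a) := by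
    intro w h1 h2 a
    have h3 : (⊤ : Subgroup P) ≤ (Subgroup.centralizer ({w} : Set Q)).comap s := by
      rw [← hgen, Subgroup.closure_le]
      intro t ht
      simp only [Set.mem_insert_iff, Set.mem_singleton_iff] at ht
      rw [SetLike.mem_coe, Subgroup.mem_comap, Subgroup.mem_centralizer_singleton_iff]
      rcases ht with rfl | rfl
      · exact h1.symm.eq
      · exact h2.symm.eq
    have h4 := h3 (Subgroup.mem_top a)
    rw [Subgroup.mem_comap, Subgroup.mem_centralizer_singleton_iff] at h4
    exact (show Commute (s a) w from h4).symm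
  have hx : ∀ a, Commute (s x) (s a) := key (s x) (Commute.refl _) h
  have hy : ∀ a, Commute (s y) (s a) := key (s y) h.symm (Commute.refl _)
  exact fun a b => key (s a) (hx a).symm (hy a).symm b

/-- an automorphism with an "orbit" of length three on `P / P'` -/
theorem exists_aut {P : Type*} [Group P] [Finite P] (hP : IsPGroup 2 P) (haut : ¬ IsPGroup 2 (MulAut P)) :
    ∃ (α : MulAut P) (x : P), α x * x⁻¹ ∉ commutator P ∧ α (α x) * x⁻¹ ∉ commutator P := by
  obtain ⟨r, hr, hr2, hrd⟩ : ∃ r : ℕ, r.Prime ∧ r ≠ 2 ∧ r ∣ Nat.card (MulAut P) := by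
    by_contra hcon
    push Not at hcon
    apply haut
    rw [IsPGroup.iff_card]
    refine ⟨_, Nat.eq_prime_pow_of_unique_prime_dvd Nat.card_pos.ne' ?_⟩
    intro q hq hqd
    by_contra hq2
    exact hcon q hq hq2 hqd
  haveI : Fact r.Prime := ⟨hr⟩
  haveI : Fact (Nat.Prime 2) := ⟨Nat.prime_two⟩
  obtain ⟨α, hα⟩ := exists_prime_orderOf_dvd_card' (G := MulAut P) r hrd
  obtain ⟨n, hn⟩ := IsPGroup.iff_card.mp hP
  have hchar : ∀ x : P, x ∈ commutator P → α x ∈ commutator P := by
    intro x hx
    have h1 : (commutator P).map α.toMonoidHom = commutator P :=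
      (Subgroup.characteristic_iff_map_eq.mp (inferInstance : (commutator P).Characteristic)) α
    rw [← h1]
    exact Subgroup.mem_map_of_mem _ hx
  obtain ⟨x, hx⟩ : ∃ x : P, α x * x⁻¹ ∉ commutator P := by
    by_contra hcon
    push Not at hcon
    have hidx : ∃ s, (frattini P).index = 2 ^ s := by
      have h1 : (frattini P).index ∣ 2 ^ n := hn ▸ Subgroup.index_dvd_card _
      obtain ⟨s, _, hs⟩ := (Nat.dvd_prime_pow Nat.prime_two).mp h1
      exact ⟨s, hs⟩
    obtain ⟨s, hs⟩ := hidx
    have h2 := Cfsg.Agent.H24.FratAut.card_dvd (p := 2) hn hs (Subgroup.zpowers α) (by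
      intro β hβ x
      apply Cfsg.Agent.H2.PGroup.commutator_le_frattini hP
      -- powers of α act trivially
      have h3 : ∀ k : ℕ, ∀ x : P, (α ^ k) x * x⁻¹ ∈ commutator P := by
        intro k
        induction k with
        | zero => intro x; simp
        | succ k ih =>
          intro x
          have h4 : (α ^ (k + 1)) x * x⁻¹ = ((α ^ k) (α x) * (α x)⁻¹) * (α x * x⁻¹) := by
            rw [pow_succ, MulAut.mul_apply]; group
          rw [h4]
          exact mul_mem (ih _) (hcon x)
      obtain ⟨k, hk⟩ := mem_powers_iff_mem_zpowers.mpr hβ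
      simp only at hk
      rw [← hk]
      exact h3 k x)
    rw [Nat.card_zpowers, hα] at h2
    exact hr2 ((Nat.prime_dvd_prime_iff_eq hr Nat.prime_two).mp (hr.dvd_of_dvd_pow h2))
  refine ⟨α, x, hx, ?_⟩
  intro h2
  -- α² fixes x modulo, α^r = 1 with r odd
  apply hx
  have h3 : ∀ k : ℕ, ((α ^ 2) ^ k) x * x⁻¹ ∈ commutator P := by
    intro k
    induction k with
    | zero => simp
    | succ k ih =>
      have h4 : ((α ^ 2) ^ (k + 1)) x * x⁻¹ = (α (α (((α ^ 2) ^ k) x * x⁻¹))) * (α (α x) * x⁻¹) := by
        rw [pow_succ', MulAut.mul_apply, pow_two, MulAut.mul_apply]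
        simp only [map_mul, map_inv]
        group
      rw [h4]
      exact mul_mem (hchar _ (hchar _ ih)) h2
  have hodd : Odd r := hr.odd_of_ne_two hr2
  obtain ⟨k, hk⟩ := hodd
  have h5 : α * (α ^ 2) ^ k = 1 := by
    rw [← pow_mul, ← pow_succ', ← hk, ← hα, pow_orderOf_eq_one]
  have h6 : α (((α ^ 2) ^ k) x * x⁻¹) ∈ commutator P := hchar _ (h3 k)
  rw [map_mul, map_inv, ← MulAut.mul_apply, h5, MulAut.one_apply] at h6
  have := inv_mem h6
  simpa using this


/-- Let P be a finite non-abelian 2-group whose commutator subgroup has index 4 and whose automorphism group is not a 2-group (some automorphism has order that is not a power of 2). Then P is isomorphic to the quaternion group of order 8. -/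
theorem result {P : Type*} [Group P] [Finite P] (hP : IsPGroup 2 P) (hna : ¬ IsMulCommutative P) (h4 : (commutator P).index = 4) (haut : ¬ IsPGroup 2 (MulAut P)) : Nonempty (P ≃* QuaternionGroup 2) := by
  classical
  haveI : Fact (Nat.Prime 2) := ⟨Nat.prime_two⟩
  obtain ⟨α, x, hxy, hxz⟩ := exists_aut hP haut
  haveI hnil : Group.IsNilpotent P := hP.isNilpotent
  set D := commutator P with hD
  have hchar : ∀ (L : Subgroup P) [L.Characteristic] (x : P), α x ∈ L ↔ x ∈ L := by
    intro L _ x
    have h1 : L.comap α.toMonoidHom = L :=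
      (Subgroup.characteristic_iff_comap_eq.mp (inferInstance : L.Characteristic)) α
    conv_rhs => rw [← h1]
    rfl
  have hDchar : D.Characteristic := by rw [hD]; infer_instance
  have hDn : D.Normal := by infer_instance
  set y := α x with hy
  set z := α y with hz
  have hxD : x ∉ D := by
    intro h
    exact hxy (mul_mem ((hchar D x).mpr h) (inv_mem h))
  have hyD : y ∉ D := fun h => hxD ((hchar D x).mp h)
  have hzD : z ∉ D := fun h => hyD ((hchar D y).mp h)
  have hyz : z * y⁻¹ ∉ D := by
    intro h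
    apply hxy
    rw [hz] at h
    have : α (y * x⁻¹) ∈ D := by rw [map_mul, map_inv]; exact h
    exact (hchar D _).mp this
  -- all elements of P / D
  let q : P →* P ⧸ D := QuotientGroup.mk' D
  have hq : ∀ a b : P, q a = q b ↔ a * b⁻¹ ∈ D := by
    intro a b
    rw [← QuotientGroup.eq_one_iff, QuotientGroup.mk_mul, QuotientGroup.mk_inv, mul_inv_eq_one]
    rfl
  have hq1 : ∀ a : P, q a = 1 ↔ a ∈ D := fun a => QuotientGroup.eq_one_iff a
  have hcardQ : Nat.card (P ⧸ D) = 4 := by rw [← Subgroup.index_eq_card]; exact h4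
  have hall : ∀ w : P ⧸ D, w = 1 ∨ w = q x ∨ w = q y ∨ w = q z := by
    haveI := Fintype.ofFinite (P ⧸ D)
    have hs : ({1, q x, q y, q z} : Finset (P ⧸ D)) = Finset.univ := by
      apply Finset.eq_univ_of_card
      rw [← Nat.card_eq_fintype_card, hcardQ]
      have e1 : (1 : P ⧸ D) ∉ ({q x, q y, q z} : Finset (P ⧸ D)) := by
        simp only [Finset.mem_insert, Finset.mem_singleton, not_or]
        exact ⟨fun h => hxD ((hq1 x).mp h.symm), fun h => hyD ((hq1 y).mp h.symm), fun h => hzD ((hq1 z).mp h.symm)⟩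
      have e2 : q x ∉ ({q y, q z} : Finset (P ⧸ D)) := by
        simp only [Finset.mem_insert, Finset.mem_singleton, not_or]
        exact ⟨fun h => hxy ((hq y x).mp h.symm), fun h => hxz ((hq z x).mp h.symm)⟩
      have e3 : q y ∉ ({q z} : Finset (P ⧸ D)) := by
        simp only [Finset.mem_singleton]
        exact fun h => hyz ((hq z y).mp h.symm)
      rw [Finset.card_insert_of_notMem e1, Finset.card_insert_of_notMem e2, Finset.card_insert_of_notMem e3,
        Finset.card_singleton]
    intro w
    have : w ∈ ({1, q x, q y, q z} : Finset (P ⧸ D)) := by rw [hs]; exact Finset.mem_univ w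
    simpa [Finset.mem_insert] using this
  -- squares are in D
  have hsq1 : ∀ w : P, w ^ 2 ∈ D := by
    have h2 : ∃ w : P ⧸ D, orderOf w = 2 := by
      apply exists_prime_orderOf_dvd_card' 2
      rw [hcardQ]; norm_num
    obtain ⟨w, hw⟩ := h2
    have hw2 : w ^ 2 = 1 := by rw [← hw]; exact pow_orderOf_eq_one w
    have hstep : ∀ a : P, a ^ 2 ∈ D → (α a) ^ 2 ∈ D := by
      intro a ha
      rw [← map_pow]
      exact (hchar D _).mpr ha
    have hstep' : ∀ a : P, (α a) ^ 2 ∈ D → a ^ 2 ∈ D := by
      intro a ha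
      rw [← map_pow] at ha
      exact (hchar D _).mp ha
    have hx2 : x ^ 2 ∈ D := by
      rcases hall w with h | h | h | h
      · rw [h, orderOf_one] at hw
        norm_num at hw
      · rw [← hq1, map_pow, ← h, hw2]
      · apply hstep'
        rw [← hy, ← hq1, map_pow, ← h, hw2]
      · apply hstep'
        rw [← hy]
        apply hstep'
        rw [← hz, ← hq1, map_pow, ← h, hw2]
    have hy2 := hstep x hx2
    have hz2 := hstep _ hy2
    intro w
    rw [← hq1, map_pow]
    rcases hall (q w) with h | h | h | h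
    · rw [h, one_pow]
    · rw [h, ← map_pow]; exact (hq1 _).mpr hx2
    · rw [h, ← map_pow]; exact (hq1 _).mpr hy2
    · rw [h, ← map_pow]; exact (hq1 _).mpr hz2
  -- x y generate modulo D
  have hxyz : q x * q y = q z := by
    rcases hall (q x * q y) with h | h | h | h
    · exfalso
      have h2 : q x * q x = 1 := by rw [← map_mul, ← pow_two]; exact (hq1 _).mpr (hsq1 x)
      have h3 : q y = q x := mul_left_cancel (h.trans h2.symm)
      exact hxy ((hq y x).mp h3)
    · exfalso
      have h2 : q y = 1 := by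
        have := mul_left_cancel (h.trans (mul_one _).symm)
        exact this
      exact hyD ((hq1 y).mp h2)
    · exfalso
      have h2 : q x = 1 := mul_right_cancel (h.trans (one_mul _).symm)
      exact hxD ((hq1 x).mp h2)
    · exact h
  have hgen : Subgroup.closure ({x, y} : Set P) = ⊤ := by
    by_contra hne
    obtain ⟨M, hM, hle⟩ := (eq_top_or_exists_le_coatom (Subgroup.closure ({x, y} : Set P))).resolve_left hne
    have hDM : D ≤ M := (Cfsg.Agent.H2.PGroup.commutator_le_frattini hP).trans (frattini_le_coatom hM)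
    have hxM : x ∈ M := hle (Subgroup.subset_closure (by simp))
    have hyM : y ∈ M := hle (Subgroup.subset_closure (by simp))
    apply hM.1
    rw [eq_top_iff]
    intro w _
    rcases hall (q w) with h | h | h | h
    · exact hDM ((hq1 w).mp h)
    · have h2 := hDM ((hq w x).mp h)
      have := mul_mem h2 hxM
      simpa using this
    · have h2 := hDM ((hq w y).mp h)
      have := mul_mem h2 hyM
      simpa using this
    · rw [← hxyz, ← map_mul, hq] at h
      have h3 := mul_mem (hDM h) (mul_mem hxM hyM)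
      rwa [inv_mul_cancel_right] at h3
  -- general: K = [D, P]
  set K := ⁅D, (⊤ : Subgroup P)⁆ with hK
  have hKn : K.Normal := by rw [hK]; infer_instance
  have hKchar : K.Characteristic := by rw [hK]; infer_instance
  have hKD : K ≤ D := Subgroup.commutator_le_left D ⊤
  set c := ⁅x, y⁆ with hc
  have hcD : c ∈ D := Subgroup.commutator_mem_commutator (Subgroup.mem_top x) (Subgroup.mem_top y)
  let r : P →* P ⧸ K := QuotientGroup.mk' K
  have hr1 : ∀ a : P, r a = 1 ↔ a ∈ K := fun a => QuotientGroup.eq_one_iff a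
  have hcen : ∀ d ∈ D, ∀ w : P, r d * r w = r w * r d := by
    intro d hd w
    have h1 : ⁅d, w⁆ ∈ K := Subgroup.commutator_mem_commutator hd (Subgroup.mem_top w)
    rw [← hr1, commutatorElement_def] at h1
    simp only [map_mul, map_inv] at h1
    have h2 := congrArg (fun t => t * r w * r d) h1
    simpa [mul_assoc] using h2
  -- D = K ⊔ ⟨c⟩
  have hDc : ∀ d ∈ D, ∃ k ∈ K, ∃ i : ℤ, d = k * c ^ i := by
    have hLn : (K ⊔ Subgroup.zpowers c).Normal := by
      constructor
      intro a ha g
      obtain ⟨k, hk, b, hb, rfl⟩ := Subgroup.mem_sup_of_normal_left.mp ha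
      obtain ⟨i, rfl⟩ := Subgroup.mem_zpowers_iff.mp hb
      have h1 : r (g * (k * c ^ i) * g⁻¹ * (c ^ i)⁻¹) = 1 := by
        have h2 := hcen (c ^ i) (zpow_mem hcD i) g
        have h3 := (hr1 k).mpr hk
        simp only [map_mul, map_inv, h3, one_mul]
        rw [← h2]
        group
      have h2 := (hr1 _).mp h1
      have h3 : g * (k * c ^ i) * g⁻¹ = (g * (k * c ^ i) * g⁻¹ * (c ^ i)⁻¹) * c ^ i := by group
      rw [h3]
      exact mul_mem (Subgroup.mem_sup_left h2) (Subgroup.mem_sup_right (zpow_mem (Subgroup.mem_zpowers c) i))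
    have hle : D ≤ K ⊔ Subgroup.zpowers c := by
      rw [hD, ← Subgroup.Normal.quotient_commutative_iff_commutator_le]
      have h1 := comm_of_gen (QuotientGroup.mk' (K ⊔ Subgroup.zpowers c)) hgen (by
        have h2 : QuotientGroup.mk' (K ⊔ Subgroup.zpowers c) (x * y * x⁻¹ * y⁻¹) = 1 :=
          (QuotientGroup.eq_one_iff c).mpr (Subgroup.mem_sup_right (Subgroup.mem_zpowers c))
        simp only [map_mul, map_inv] at h2
        have h3 := congrArg (fun t => t * QuotientGroup.mk' (K ⊔ Subgroup.zpowers c) y *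
          QuotientGroup.mk' (K ⊔ Subgroup.zpowers c) x) h2
        have h4 : QuotientGroup.mk' (K ⊔ Subgroup.zpowers c) x * QuotientGroup.mk' (K ⊔ Subgroup.zpowers c) y =
            QuotientGroup.mk' (K ⊔ Subgroup.zpowers c) y * QuotientGroup.mk' (K ⊔ Subgroup.zpowers c) x := by
          simpa [mul_assoc] using h3
        exact h4)
      refine ⟨⟨fun a b => ?_⟩⟩
      obtain ⟨a, rfl⟩ := QuotientGroup.mk'_surjective _ a
      obtain ⟨b, rfl⟩ := QuotientGroup.mk'_surjective _ b
      exact h1 a b
    intro d hd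
    obtain ⟨k, hk, b, hb, rfl⟩ := Subgroup.mem_sup_of_normal_left.mp (hle hd)
    obtain ⟨i, rfl⟩ := Subgroup.mem_zpowers_iff.mp hb
    exact ⟨k, hk, i, rfl⟩
  have hDne : D ≠ ⊥ := by
    intro h
    apply hna
    refine ⟨⟨fun a b => ?_⟩⟩
    have h1 : ⁅a, b⁆ ∈ D := Subgroup.commutator_mem_commutator (Subgroup.mem_top a) (Subgroup.mem_top b)
    rw [h, Subgroup.mem_bot, commutatorElement_eq_one_iff_mul_comm] at h1
    exact h1
  have hKlt : K < D := Cfsg.Agent.H2.PGroup.commutator_top_lt hP hDne
  -- c ^ 2 ∈ K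
  have hrc2 : r c * r c = 1 := by
    have hx2 := hcen _ (hsq1 x) y
    have hcx := hcen c hcD x
    have h1 : r x * r y = r c * r y * r x := by
      rw [hc, commutatorElement_def]
      simp only [map_mul, map_inv]
      group
    have h2 : r (x ^ 2) * r y = r c * r c * (r y * r (x ^ 2)) := by
      rw [pow_two, map_mul]
      calc r x * r x * r y = r x * (r x * r y) := by group
        _ = r x * (r c * r y * r x) := by rw [h1]
        _ = (r x * r c) * r y * r x := by group
        _ = (r c * r x) * r y * r x := by rw [hcx]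
        _ = r c * (r x * r y) * r x := by group
        _ = r c * (r c * r y * r x) * r x := by rw [h1]
        _ = _ := by group
    rw [hx2] at h2
    have h3 := congrArg (fun t => t * (r y * r (x ^ 2))⁻¹) h2
    simp only [mul_inv_cancel_right, mul_inv_cancel] at h3
    exact h3.symm
  have hrci : ∀ i : ℤ, r (c ^ i) = 1 ∨ r (c ^ i) = r c := by
    intro i
    rw [map_zpow]
    rcases Int.even_or_odd i with ⟨j, hj⟩ | ⟨j, hj⟩
    · left
      have : (r c) ^ (2 : ℤ) = 1 := by rw [zpow_two]; exact hrc2
      rw [hj, ← two_mul, zpow_mul, this, one_zpow]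
    · right
      have : (r c) ^ (2 : ℤ) = 1 := by rw [zpow_two]; exact hrc2
      rw [hj, zpow_add, zpow_mul, this, one_zpow, one_mul, zpow_one]
  have hrd : ∀ d ∈ D, r d = 1 ∨ r d = r c := by
    intro d hd
    obtain ⟨k, hk, i, rfl⟩ := hDc d hd
    rw [map_mul, (hr1 k).mpr hk, one_mul]
    exact hrci i
  have hrd2 : ∀ d ∈ D, r d * r d = 1 := by
    intro d hd
    rcases hrd d hd with h | h
    · rw [h, one_mul]
    · rw [h, hrc2]
  -- squares outside D are not in K
  have hcosetsq : ∀ w w' : P, q w = q w' → r (w ^ 2) = r (w' ^ 2) := by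
    intro w w' h
    have hd : w * w'⁻¹ ∈ D := (hq w w').mp h
    have h1 : r w = r (w * w'⁻¹) * r w' := by rw [← map_mul, inv_mul_cancel_right]
    rw [map_pow, map_pow, h1, pow_two, pow_two]
    have h2 := hcen _ hd w'
    calc r (w * w'⁻¹) * r w' * (r (w * w'⁻¹) * r w') = r (w * w'⁻¹) * (r w' * r (w * w'⁻¹)) * r w' := by group
      _ = r (w * w'⁻¹) * (r (w * w'⁻¹) * r w') * r w' := by rw [h2]
      _ = (r (w * w'⁻¹) * r (w * w'⁻¹)) * (r w' * r w') := by group
      _ = r w' * r w' := by rw [hrd2 _ hd, one_mul]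
  have hnosq : ∀ w : P, w ∉ D → w ^ 2 ∉ K := by
    intro w hw hwK
    have hback : ∀ a : P, (α a) ^ 2 ∈ K → a ^ 2 ∈ K := by
      intro a ha
      rw [← map_pow] at ha
      exact (hchar K _).mp ha
    have hforw : ∀ a : P, a ^ 2 ∈ K → (α a) ^ 2 ∈ K := by
      intro a ha
      rw [← map_pow]
      exact (hchar K _).mpr ha
    have hx2 : x ^ 2 ∈ K := by
      rcases hall (q w) with h | h | h | h
      · exact absurd ((hq1 w).mp h) hw
      · rw [← hr1, ← hcosetsq _ _ h, hr1]; exact hwK
      · apply hback
        rw [← hy, ← hr1, ← hcosetsq _ _ h, hr1]; exact hwK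
      · apply hback
        rw [← hy]
        apply hback
        rw [← hz, ← hr1, ← hcosetsq _ _ h, hr1]; exact hwK
    have hy2 := hforw x hx2
    have hz2 := hforw _ hy2
    rw [← hy, ← hz] at hz2
    rw [← hy] at hy2
    have h1 : r ((x * y) ^ 2) = 1 := by
      rw [hcosetsq (x * y) z (by rw [map_mul]; exact hxyz)]
      exact (hr1 _).mpr hz2
    have hX : r x * r x = 1 := by rw [← map_mul, ← pow_two]; exact (hr1 _).mpr hx2
    have hY : r y * r y = 1 := by rw [← map_mul, ← pow_two]; exact (hr1 _).mpr hy2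
    have hXY : r x * r y = r y * r x := by
      rw [pow_two] at h1
      simp only [map_mul] at h1
      have hXi : (r x)⁻¹ = r x := inv_eq_of_mul_eq_one_left hX
      have hYi : (r y)⁻¹ = r y := inv_eq_of_mul_eq_one_left hY
      have h2 : (r x * r y)⁻¹ = r x * r y := inv_eq_of_mul_eq_one_left h1
      rw [mul_inv_rev, hXi, hYi] at h2
      exact h2.symm
    have h3 := comm_of_gen r hgen hXY
    have h4 : D ≤ K := by
      rw [hD, ← Subgroup.Normal.quotient_commutative_iff_commutator_le]
      refine ⟨⟨fun a b => ?_⟩⟩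
      obtain ⟨a, rfl⟩ := QuotientGroup.mk'_surjective _ a
      obtain ⟨b, rfl⟩ := QuotientGroup.mk'_surjective _ b
      exact h3 a b
    exact absurd hKlt (not_lt_of_ge h4)
  -- K = 1
  have hKbot : K = ⊥ := by
    by_contra hKne
    have hlt := Cfsg.Agent.H2.PGroup.commutator_top_lt hP hKne
    apply absurd hlt (not_lt_of_ge _)
    set K4 := ⁅K, (⊤ : Subgroup P)⁆ with hK4
    have hK4n : K4.Normal := by rw [hK4]; infer_instance
    let s : P →* P ⧸ K4 := QuotientGroup.mk' K4
    have hs1 : ∀ a : P, s a = 1 ↔ a ∈ K4 := fun a => QuotientGroup.eq_one_iff a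
    have hscen : ∀ k ∈ K, ∀ w : P, Commute (s k) (s w) := by
      intro d hd w
      have h1 : ⁅d, w⁆ ∈ K4 := Subgroup.commutator_mem_commutator hd (Subgroup.mem_top w)
      rw [← hs1, commutatorElement_def] at h1
      simp only [map_mul, map_inv] at h1
      have h2 := congrArg (fun t => t * s w * s d) h1
      have h3 : s d * s w = s w * s d := by simpa [mul_assoc] using h2
      exact h3
    have hone : ∀ w : P, w ∉ D → Commute (s c) (s w) := by
      intro w hw
      have h1 : r (w ^ 2) = r c := (hrd _ (hsq1 w)).resolve_left (fun h => hnosq w hw ((hr1 _).mp h))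
      have h2 : w ^ 2 * c⁻¹ ∈ K := by
        rw [← hr1, map_mul, map_inv, h1, mul_inv_cancel]
      have h3 : s c = (s (w ^ 2 * c⁻¹))⁻¹ * s (w ^ 2) := by
        rw [← map_inv, ← map_mul]
        congr 1
        group
      rw [h3]
      refine Commute.mul_left ((hscen _ h2 w).inv_left) ?_
      rw [map_pow]
      exact (Commute.refl _).pow_left 2
    have hcs : ∀ w : P, Commute (s c) (s w) := by
      intro w
      have h3 : (⊤ : Subgroup P) ≤ (Subgroup.centralizer ({s c} : Set (P ⧸ K4))).comap s := by
        rw [← hgen, Subgroup.closure_le]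
        intro t ht
        simp only [Set.mem_insert_iff, Set.mem_singleton_iff] at ht
        rw [SetLike.mem_coe, Subgroup.mem_comap, Subgroup.mem_centralizer_singleton_iff]
        rcases ht with rfl | rfl
        · exact (hone _ hxD).symm.eq
        · exact (hone _ hyD).symm.eq
      have h4 := h3 (Subgroup.mem_top w)
      rw [Subgroup.mem_comap, Subgroup.mem_centralizer_singleton_iff] at h4
      exact (show Commute (s w) (s c) from h4).symm
    rw [hK, Subgroup.commutator_le]
    intro d hd w _
    rw [← hs1, commutatorElement_def]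
    obtain ⟨k, hk, i, rfl⟩ := hDc d hd
    have h5 : Commute (s (k * c ^ i)) (s w) := by
      rw [map_mul, map_zpow]
      exact (hscen k hk w).mul_left ((hcs w).zpow_left i)
    simp only [map_mul, map_inv] at h5 ⊢
    rw [h5.eq]
    group
  -- P has order 8 and a unique involution
  have hc2 : c * c = 1 := by
    have h1 : r (c * c) = 1 := by rw [map_mul]; exact hrc2
    rw [hr1, hKbot, Subgroup.mem_bot] at h1
    exact h1
  have hDz : D = Subgroup.zpowers c := by
    apply le_antisymm
    · intro d hd
      obtain ⟨k, hk, i, rfl⟩ := hDc d hd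
      rw [hKbot, Subgroup.mem_bot] at hk
      rw [hk, one_mul]
      exact zpow_mem (Subgroup.mem_zpowers c) i
    · rw [Subgroup.zpowers_le]
      exact hcD
  have hc1 : c ≠ 1 := by
    intro h
    rw [h, Subgroup.zpowers_one_eq_bot] at hDz
    exact hDne hDz
  have hco : orderOf c = 2 := orderOf_eq_prime (by rw [pow_two]; exact hc2) hc1
  have hcardD : Nat.card D = 2 := by rw [hDz, Nat.card_zpowers, hco]
  have hcardP : Nat.card P = 8 := by
    have := Subgroup.card_mul_index D
    rw [hcardD, h4] at this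
    omega
  have huniq : ∀ H L : Subgroup P, Nat.card H = 2 → Nat.card L = 2 → H = L := by
    have h1 : ∀ H : Subgroup P, Nat.card H = 2 → H = D := by
      intro H hH
      apply Subgroup.eq_of_le_of_card_ge
      · intro h hh
        by_contra hhD
        apply hnosq h hhD
        have h2 : (⟨h, hh⟩ : H) ^ 2 = 1 := by rw [← hH]; exact pow_card_eq_one'
        have h3 : h ^ 2 = 1 := congrArg Subtype.val h2
        rw [h3]
        exact one_mem _
      · rw [hH, hcardD]
    intro H L hH hL
    rw [h1 H hH, h1 L hL]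
  have hnc : ¬ IsCyclic P := by
    intro h
    apply hna
    letI := IsCyclic.commGroup (α := P)
    exact ⟨⟨mul_comm⟩⟩
  obtain ⟨n, ⟨e⟩⟩ := Cfsg.Agent.H23.PQuat.quaternion_of_unique hP huniq hnc
  have hn : n = 1 := by
    haveI : NeZero (2 ^ n) := ⟨by positivity⟩
    have h1 := Nat.card_congr e.toEquiv
    rw [hcardP, Nat.card_eq_fintype_card, QuaternionGroup.card] at h1
    have h2 : 2 ^ n = 2 ^ 1 := by omega
    exact Nat.pow_right_injective le_rfl h2
  subst hn
  exact ⟨e⟩

end Cfsg.Agent.S4189
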