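import Cfsg.Statements.S4195
import Mathlib
import Cfsg.Agent.H24_Class

set_option autoImplicit false
open Cfsg

namespace Cfsg.Agent.S4195

/-- Let x be a non-identity element of a finite group G whose centralizer contains a Sylow 2-subgroup of G. If x is conjugate to its inverse, then x has order 2. -/
theorem result {G : Type*} [Group G] [Finite G] (x : G) (hx : x ≠ 1) (P : Sylow 2 G) (hP : (P : Subgroup G) ≤ Subgroup.centralizer ({x} : Set G)) (hreal : IsConj x x⁻¹) : orderOf x = 2 := by
  have hodd : ¬ 2 ∣ (Subgroup.centralizer ({x} : Set G)).index := fun h =>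
    P.not_dvd_index (h.trans (Subgroup.index_dvd_of_le hP))
  have h := Cfsg.Agent.H24.Class.eq_inv_of_real_of_odd hreal hodd
  refine orderOf_eq_prime ?_ hx
  rw [pow_two]
  nth_rewrite 2 [h]
  exact mul_inv_cancel x

end Cfsg.Agent.S4195
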