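import Cfsg.Statements.S4196
import Mathlib
import Cfsg.Agent.H24_Class
import Cfsg.Agent.H24_Sylow

set_option autoImplicit false
open Cfsg

namespace Cfsg.Agent.S4196

/-- A finite group G has elementary abelian Sylow 2-subgroups (commutative with every element squaring to the identity) if and only if every 2-element of G has a Sylow 2-subgroup in its centralizer and is conjugate to its inverse. -/
theorem result {G : Type*} [Group G] [Finite G] (P : Sylow 2 G) :
    (IsMulCommutative (P : Subgroup G) ∧ ∀ x ∈ (P : Subgroup G), x ^ 2 = 1) ↔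
      ∀ x : G, (∃ k : ℕ, orderOf x = 2 ^ k) → (∃ Q : Sylow 2 G, (Q : Subgroup G) ≤ Subgroup.centralizer ({x} : Set G)) ∧ IsConj x x⁻¹ := by
  constructor
  · rintro ⟨hc, hsq⟩
    intro x ⟨k, hk⟩
    obtain ⟨g, hg⟩ := Cfsg.Agent.H24.Sylow.exists_conj_mem_sylow P hk
    have hx2 : x ^ 2 = 1 := by
      have h1 := hsq _ hg
      have h2 : (g⁻¹ * x * g) ^ 2 = g⁻¹ * x ^ 2 * g := by
        rw [pow_two, pow_two]; group
      rw [h2] at h1
      have h3 : x ^ 2 = g * (g⁻¹ * x ^ 2 * g) * g⁻¹ := by group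
      rw [h3, h1]; group
    refine ⟨⟨g • P, fun y hy => ?_⟩, ?_⟩
    · rw [Cfsg.Agent.H24.Sylow.mem_smul_sylow] at hy
      rw [Subgroup.mem_centralizer_iff]
      intro z hz
      rw [Set.mem_singleton_iff] at hz
      rw [hz]
      have h1 := hc.is_comm.comm ⟨_, hg⟩ ⟨_, hy⟩
      have h2 : (g⁻¹ * x * g) * (g⁻¹ * y * g) = (g⁻¹ * y * g) * (g⁻¹ * x * g) := by
        simpa [Subtype.ext_iff] using h1
      calc x * y = g * ((g⁻¹ * x * g) * (g⁻¹ * y * g)) * g⁻¹ := by group
        _ = g * ((g⁻¹ * y * g) * (g⁻¹ * x * g)) * g⁻¹ := by rw [h2]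
        _ = y * x := by group
    · have : x⁻¹ = x := by
        rw [inv_eq_iff_mul_eq_one, ← pow_two, hx2]
      rw [this]
  · intro h
    have hsq : ∀ x ∈ (P : Subgroup G), x ^ 2 = 1 := by
      intro x hx
      have hk : ∃ k : ℕ, orderOf x = 2 ^ k := by
        obtain ⟨j, hj⟩ := P.isPGroup' ⟨x, hx⟩
        have : x ^ 2 ^ j = 1 := by simpa [Subtype.ext_iff] using hj
        obtain ⟨i, _, hi⟩ := (Nat.dvd_prime_pow Nat.prime_two).mp (orderOf_dvd_of_pow_eq_one this)
        exact ⟨i, hi⟩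
      obtain ⟨⟨Q, hQ⟩, hr⟩ := h x hk
      have hodd : ¬ 2 ∣ (Subgroup.centralizer ({x} : Set G)).index := fun h =>
        Q.not_dvd_index (h.trans (Subgroup.index_dvd_of_le hQ))
      have h := Cfsg.Agent.H24.Class.eq_inv_of_real_of_odd hr hodd
      rw [pow_two]
      nth_rewrite 2 [h]
      exact mul_inv_cancel x
    refine ⟨⟨⟨fun a b => ?_⟩⟩, hsq⟩
    apply Subtype.ext
    change (a : G) * b = b * a
    have ha := hsq a a.2
    have hb := hsq b b.2
    have hab := hsq (a * b : G) (mul_mem a.2 b.2)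
    rw [pow_two] at ha hb hab
    have h1 : (a : G)⁻¹ = a := by rw [inv_eq_iff_mul_eq_one]; exact ha
    have h2 : (b : G)⁻¹ = b := by rw [inv_eq_iff_mul_eq_one]; exact hb
    have h3 : ((a : G) * b)⁻¹ = a * b := by rw [inv_eq_iff_mul_eq_one]; exact hab
    rw [← h3, mul_inv_rev, h1, h2]

end Cfsg.Agent.S4196
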