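import Cfsg.Statements.S4230
import Cfsg.Agent.H24_Zsig

set_option autoImplicit false
open Cfsg

namespace Cfsg.Agent.S4230

/-- Let p be an odd prime, q a natural number not divisible by p, and e the multiplicative order of q modulo p. For a natural number f, p divides the value at q of the f-th cyclotomic polynomial if and only if f = e·p^j for some j ≥ 0. -/
theorem result (p q f : ℕ) (hp : p.Prime) (hp2 : p ≠ 2) (hpq : ¬ p ∣ q) :
    ((p : ℤ) ∣ (Polynomial.cyclotomic f ℤ).eval (q : ℤ)) ↔ ∃ j : ℕ, f = orderOf (q : ZMod p) * p ^ j := by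
  constructor
  · intro h
    rcases Nat.eq_zero_or_pos f with rfl | hf
    · rw [Polynomial.cyclotomic_zero, Polynomial.eval_one] at h
      have h1 : (p : ℤ) ∣ ((1 : ℕ) : ℤ) := by simpa using h
      have h2 : p ∣ 1 := by exact_mod_cast h1
      exact absurd (Nat.dvd_one.mp h2) hp.ne_one
    · obtain ⟨_, k, hk⟩ := Cfsg.Agent.H24.Zsig.prime_dvd_cyclotomic hp hf h
      exact ⟨k, by rw [mul_comm]; exact hk⟩
  · rintro ⟨j, hj⟩
    have := Cfsg.Agent.H24.Zsig.dvd_cyclotomic_of_order (k := j) hp hpq
    rw [hj, mul_comm]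
    exact this

end Cfsg.Agent.S4230
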