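import Cfsg.Statements.S4236
import Mathlib
import Cfsg.Agent.S4303
import Cfsg.Agent.H23_N35


set_option autoImplicit false
open Cfsg

namespace Cfsg.Agent.S4236

/-- No finite group has exactly 35 Sylow 17-subgroups. -/
theorem result {G : Type*} [Group G] [Finite G] : Nat.card (Sylow 17 G) ≠ 35 := by

  intro h
  haveI : Fact (Nat.Prime 17) := ⟨by norm_num⟩
  obtain ⟨l, hl, hm⟩ := Cfsg.Agent.S4303.result (G := G) 17
  rw [h] at hl
  have hno : ∀ m ∈ l, m = 1 := by
    intro m hml
    have h1 : m ∣ 35 := by rw [← hl]; exact List.dvd_prod hml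
    have h2 : m ≤ 35 := Nat.le_of_dvd (by norm_num) h1
    have h3 : m % 17 = 1 := by
      rcases hm m hml with h4 | ⟨S, _, _, _, h4⟩
      · exact h4.2
      · rw [h4]
        exact card_sylow_modEq_one 17 S
    have h5 : m = 1 ∨ m = 35 := by
      interval_cases m <;> first | omega | (exfalso; revert h1; decide)
    rcases h5 with h5 | h5
    · exact h5
    · exfalso
      subst h5
      rcases hm 35 hml with h4 | ⟨S, _, _, hS, h4⟩
      · obtain ⟨q, k, hq, hk, hqk⟩ := (isPrimePow_nat_iff _).1 h4.1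
        have h5 : 5 ∣ q ^ k := by rw [hqk]; norm_num
        have h7 : 7 ∣ q ^ k := by rw [hqk]; norm_num
        have e5 := (Nat.prime_dvd_prime_iff_eq (by norm_num) hq).1 (Nat.Prime.dvd_of_dvd_pow (by norm_num) h5)
        have e7 := (Nat.prime_dvd_prime_iff_eq (by norm_num) hq).1 (Nat.Prime.dvd_of_dvd_pow (by norm_num) h7)
        omega
      · exact Cfsg.Agent.H23.N35.simple_case h4.symm
  rw [List.prod_eq_one hno] at hl
  omega


end Cfsg.Agent.S4236
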