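import Cfsg.Statements.S4237
import Cfsg.Agent.H23_Kula4


set_option autoImplicit false
open Cfsg

namespace Cfsg.Agent.S4237


/-- Let G be a finite group, p a prime and a a natural number such that p^(a+1) divides the order of G. Then the number of subgroups of G of order p^a is congruent to 1 or to 1 + p modulo p². -/
theorem result {G : Type*} [Group G] [Finite G] (p a : ℕ) (hp : p.Prime) (hdvd : p ^ (a + 1) ∣ Nat.card G) :
    Nat.card {H : Subgroup G // Nat.card H = p ^ a} ≡ 1 [MOD p ^ 2] ∨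
      Nat.card {H : Subgroup G // Nat.card H = p ^ a} ≡ 1 + p [MOD p ^ 2] := by
  classical
  haveI hpf : Fact p.Prime := ⟨hp⟩
  by_cases hp2 : p = 2
  · subst hp2
    have h1 := Cfsg.Agent.H23.Wielandt.card_modEq_one (G := G) 2 a Nat.prime_two ((pow_dvd_pow 2 (by omega)).trans hdvd)
    have h2 : Nat.card {H : Subgroup G // Nat.card H = 2 ^ a} % 2 = 1 := h1
    generalize Nat.card {H : Subgroup G // Nat.card H = 2 ^ a} = n at h2 ⊢
    show n % 2 ^ 2 = 1 % 2 ^ 2 ∨ n % 2 ^ 2 = (1 + 2) % 2 ^ 2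
    norm_num
    omega
  · obtain ⟨P⟩ : Nonempty (Sylow p G) := inferInstance
    obtain ⟨m, hm⟩ := IsPGroup.iff_card.mp P.isPGroup'
    have ha : a + 1 ≤ m := by
      have h1 : p ^ (a + 1) ∣ Nat.card (P : Subgroup G) := P.pow_dvd_card_of_pow_dvd_card hdvd
      rw [hm] at h1
      exact (Nat.pow_dvd_pow_iff_le_right hp.one_lt).mp h1
    have h1 := Cfsg.Agent.H23.Kula.sylow_mod P hm ha
    rw [Cfsg.Agent.H23.Kula.card_Sk_top] at h1
    rw [Cfsg.Agent.H23.Kula.card_Sk] at h1
    by_cases hc : IsCyclic (P : Subgroup G)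
    · left
      rw [Cfsg.Agent.H23.Kula.cyc_one hc (by rw [hm]; exact pow_dvd_pow p (by omega))] at h1
      exact h1
    · rcases Nat.eq_zero_or_pos a with h0 | h0
      · left
        subst h0
        have h2 : Nat.card {H : Subgroup (P : Subgroup G) // Nat.card H = p ^ 0} = 1 := by
          rw [Nat.card_eq_one_iff_unique]
          refine ⟨⟨fun x y => Subtype.ext ?_⟩, ⟨⟨⊥, by simp⟩⟩⟩
          have hx : x.1 = ⊥ := Subgroup.card_eq_one.mp (by rw [x.2, pow_zero])
          have hy : y.1 = ⊥ := Subgroup.card_eq_one.mp (by rw [y.2, pow_zero])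
          rw [hx, hy]
        rw [h2] at h1
        exact h1
      · right
        have h2 := Cfsg.Agent.H23.Kula.kulakoff_odd hp2 m (P : Subgroup G) hm hc a h0 (by omega)
        rw [Cfsg.Agent.H23.Kula.card_Sk_top] at h2
        exact h1.trans h2


end Cfsg.Agent.S4237
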