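import Cfsg.Statements.S4238
import Cfsg.Agent.H2_Fusion3
import Cfsg.Agent.H2_Card
import Cfsg.Agent.H1_Coprime2
import Cfsg.Agent.H1_Nilp
import Cfsg.Agent.H23_Basic
import Cfsg.Agent.H24_Tools


set_option autoImplicit false
open Cfsg

namespace Cfsg.Agent.S4238

open Subgroup
open scoped commutatorElement

universe u

/-- sections -/
def Sec (K G : Type u) [Group K] [Group G] : Prop := ∃ (H : Subgroup G) (f : H →* K), Function.Surjective f

/-- the hypothesis -/
def Good (p : ℕ) (G : Type u) [Group G] : Prop := ∀ (K : Type u) [Group K] [Finite K], Sec K G → Cfsg.pPrimeCore p K = ⊥ →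
  ∃ k : K, orderOf k = Monoid.exponent K

theorem good_of {p : ℕ} {G : Type u} [Group G] [Finite G] (h : ∀ (H : Subgroup G) (N : Subgroup H) [N.Normal], Cfsg.pPrimeCore p (H ⧸ N) = ⊥ →
        ∃ k : H ⧸ N, orderOf k = Monoid.exponent (H ⧸ N)) : Good p G := by
  intro K _ _ ⟨H, f, hf⟩ hK
  let e : (H ⧸ f.ker) ≃* K := QuotientGroup.quotientKerEquivOfSurjective f hf
  have h1 : Cfsg.pPrimeCore p (H ⧸ f.ker) = ⊥ := by
    rw [eq_bot_iff]
    intro x hx
    have h2 : ((Cfsg.pPrimeCore p (H ⧸ f.ker)).map e.toMonoidHom) ≤ Cfsg.pPrimeCore p K := by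
      apply H1.Nilp.le_pPrimeCore
      · exact (H1.Nilp.pPrimeCore_normal (G := H ⧸ f.ker) p).map _ e.surjective
      · have hinj : Function.Injective e.toMonoidHom := e.injective
        rw [card_map_of_injective hinj]
        exact H1.Nilp.pPrimeCore_coprime (G := H ⧸ f.ker) p
    rw [hK] at h2
    have h3 : e x ∈ (⊥ : Subgroup K) := h2 ⟨x, hx, rfl⟩
    rw [mem_bot] at h3 ⊢
    exact e.injective (by rw [h3, map_one])
  obtain ⟨k, hk⟩ := h H f.ker h1
  refine ⟨e k, ?_⟩
  rw [MulEquiv.orderOf_eq, hk]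
  exact Monoid.exponent_eq_of_mulEquiv e

theorem Good.sub {p : ℕ} {G : Type u} [Group G] (h : Good p G) (M : Subgroup G) : Good p M := by
  intro K _ _ ⟨H, f, hf⟩ hK
  refine h K ⟨H.map M.subtype, f.comp (H.equivMapOfInjective M.subtype M.subtype_injective).symm.toMonoidHom, ?_⟩ hK
  exact hf.comp (H.equivMapOfInjective M.subtype M.subtype_injective).symm.surjective

theorem Good.quot {p : ℕ} {G : Type u} [Group G] (h : Good p G) (N : Subgroup G) [N.Normal] : Good p (G ⧸ N) := by
  intro K _ _ ⟨H, f, hf⟩ hK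
  refine h K ⟨H.comap (QuotientGroup.mk' N), f.comp ((QuotientGroup.mk' N).subgroupComap H), ?_⟩ hK
  intro k
  obtain ⟨x, rfl⟩ := hf k
  obtain ⟨g, hg⟩ := QuotientGroup.mk'_surjective N (x : G ⧸ N)
  refine ⟨⟨g, by rw [mem_comap, hg]; exact x.2⟩, ?_⟩
  change f _ = f x
  congr 1
  exact Subtype.ext hg

theorem cent_of_npc {p : ℕ} [hp : Fact p.Prime] {G : Type u} [Group G] [Finite G] (h : Cfsg.HasNormalPComplement p G) {Q : Subgroup G}
    (hQ : IsPGroup p Q) {x : G} (hx : x ∈ normalizer (Q : Set G)) (hxo : (orderOf x).Coprime p) : x ∈ centralizer (Q : Set G) := by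
  obtain ⟨N, hN, hNp, k, hk⟩ := H2.Basic.npc_iff.1 h
  have hxN : x ∈ N := (H2.Basic.mem_npc_iff hNp hk x).2 hxo
  rw [mem_centralizer_iff]
  intro q hq
  have h1 : x * q * x⁻¹ * q⁻¹ ∈ Q := mul_mem ((mem_normalizer_iff.1 hx q).1 hq) (inv_mem hq)
  have h2 : x * q * x⁻¹ * q⁻¹ ∈ N := by
    have h3 := hN.conj_mem _ (inv_mem hxN) q
    have h4 := mul_mem hxN h3
    have h5 : x * (q * x⁻¹ * q⁻¹) = x * q * x⁻¹ * q⁻¹ := by group
    rw [h5] at h4; exact h4
  have h3 : x * q * x⁻¹ * q⁻¹ = 1 := by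
    rw [← orderOf_eq_one_iff]
    have hd1 := (H2.Basic.mem_npc_iff hNp hk _).1 h2
    obtain ⟨l, hl⟩ := IsPGroup.iff_orderOf.1 hQ ⟨_, h1⟩
    rw [← orderOf_coe] at hl
    change orderOf (x * q * x⁻¹ * q⁻¹) = p ^ l at hl
    have hc := hd1.pow_right l
    rw [← hl, Nat.coprime_self] at hc
    exact hc
  calc q * x = (x * q * x⁻¹ * q⁻¹)⁻¹ * (x * q) := by group
    _ = x * q := by rw [h3, inv_one, one_mul]

theorem main {p : ℕ} [hp : Fact p.Prime] (n : ℕ) : ∀ (G : Type u) [Group G] [Finite G], Nat.card G = n → Good p G → Cfsg.HasNormalPComplement p G := by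
  induction n using Nat.strong_induction_on with
  | _ n ih =>
  intro G _ _ hGn hG
  by_contra hn
  have hsub : ∀ M : Subgroup G, M ≠ ⊤ → Cfsg.HasNormalPComplement p M := fun M hM =>
    ih _ (by rw [← hGn]; exact H2.Card.card_lt_of_ne_top hM) M rfl (hG.sub M)
  have hquo : ∀ N : Subgroup G, ∀ [N.Normal], N ≠ ⊥ → Cfsg.HasNormalPComplement p (G ⧸ N) := fun N _ hN =>
    ih _ (by rw [← hGn]; exact H2.Card.card_quotient_lt hN) (G ⧸ N) rfl (hG.quot N)
  have hcore : Cfsg.pPrimeCore p G = ⊥ := by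
    by_contra hne
    haveI := H1.Nilp.pPrimeCore_normal (G := G) p
    apply hn
    apply H2.Basic.npc_of_quotient_p' (Cfsg.pPrimeCore p G) _ (hquo _ hne)
    rw [← Nat.Prime.coprime_iff_not_dvd hp.out, Nat.coprime_comm]
    exact H1.Nilp.pPrimeCore_coprime (G := G) p
  obtain ⟨Q, hQ, x, r, b, hr, hrp, hxN, hxo, hxc⟩ : ∃ Q : Subgroup G, IsPGroup p Q ∧ ∃ x : G, ∃ r b : ℕ, r.Prime ∧ r ≠ p ∧
      x ∈ normalizer (Q : Set G) ∧ orderOf x = r ^ b ∧ x ∉ centralizer (Q : Set G) := by
    by_contra hcon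
    push Not at hcon
    apply hn
    apply H2.Fusion3.npc_of_frobenius
    intro Q hQ g hg hgo
    apply H23.Basic.mem_of_prime_pow_parts
    intro x hx r b hr hxo
    by_cases hb : b = 0
    · subst hb
      rw [pow_zero, orderOf_eq_one_iff] at hxo
      rw [hxo]; exact one_mem _
    apply hcon Q hQ x r b hr _ ((zpowers_le.2 hg) hx) hxo
    rintro rfl
    have h1 : orderOf x ∣ orderOf g := orderOf_dvd_of_mem_zpowers hx
    rw [hxo] at h1
    have h2 := Nat.Coprime.coprime_dvd_left ((dvd_pow_self r hb).trans h1) hgo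
    rw [Nat.coprime_self] at h2
    exact hr.one_lt.ne' h2
  haveI : Fact r.Prime := ⟨hr⟩
  have hxcop : (orderOf x).Coprime p := by
    rw [hxo]
    exact Nat.Coprime.pow_left _ ((Nat.coprime_primes hr hp.out).2 hrp)
  have htop : Q ⊔ zpowers x = ⊤ := by
    by_contra hne
    have h1 := cent_of_npc (hsub _ hne) (Q := Q.subgroupOf (Q ⊔ zpowers x)) (hQ.comap_subtype)
      (x := ⟨x, mem_sup_right (mem_zpowers x)⟩) ?_ ?_
    · apply hxc
      rw [mem_centralizer_iff] at h1 ⊢
      intro q hq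
      exact congrArg Subtype.val (h1 ⟨q, mem_sup_left hq⟩ hq)
    · rw [mem_normalizer_iff]
      intro y
      exact mem_normalizer_iff.1 hxN y
    · rw [← orderOf_coe]; exact hxcop
  have hQn : Q.Normal := by
    rw [← normalizer_eq_top_iff, eq_top_iff, ← htop, sup_le_iff]
    exact ⟨le_normalizer, zpowers_le.2 hxN⟩
  -- passing to quotients
  have hact : ∀ N : Subgroup G, ∀ [N.Normal], N ≠ ⊥ → ∀ q ∈ Q, x * q * x⁻¹ * q⁻¹ ∈ N := by
    intro N _ hN q hq
    have h1 := cent_of_npc (hquo N hN) (Q := Q.map (QuotientGroup.mk' N)) (hQ.map _) (x := QuotientGroup.mk' N x) ?_ ?_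
    · rw [← QuotientGroup.eq_one_iff]
      rw [mem_centralizer_iff] at h1
      have h2 := h1 _ ⟨q, hq, rfl⟩
      change QuotientGroup.mk' N (x * q * x⁻¹ * q⁻¹) = 1
      rw [map_mul, map_mul, map_mul, map_inv, map_inv, ← h2]; group
    · have := hQn.map (QuotientGroup.mk' N) (QuotientGroup.mk'_surjective N)
      rw [normalizer_eq_top_iff.2 this]; exact mem_top _
    · exact Nat.Coprime.coprime_dvd_left (orderOf_map_dvd _ _) hxcop
  have hcopQ : ∀ R : Subgroup G, IsPGroup p R → (Nat.card (zpowers x)).Coprime (Nat.card R) := by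
    intro R hR
    obtain ⟨m, hm⟩ := IsPGroup.iff_card.1 hR
    rw [hm, Nat.card_zpowers]
    exact hxcop.pow_right m
  have hΦ : frattini Q = ⊥ := by
    by_contra hne
    have hΦn : ((frattini Q).map Q.subtype).Normal := inferInstance
    have hne' : (frattini Q).map Q.subtype ≠ ⊥ := by
      intro h
      apply hne
      rw [← Subgroup.map_bot Q.subtype] at h
      exact map_injective Q.subtype_injective h
    apply hxc
    apply H1.Coprime.trivial_on_frattini_quotient (zpowers x) Q (zpowers_le.2 hxN) ?_ ?_ (mem_zpowers x)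
    · rw [← card_map_of_injective (K := frattini Q) Q.subtype_injective]
      exact hcopQ _ ((hQ.to_subgroup _).map _)
    · intro a ha k hk
      -- zpowers x acts trivially modulo Φ
      have h1 : ∀ q ∈ Q, x * q * x⁻¹ * q⁻¹ ∈ (frattini Q).map Q.subtype := hact _ hne'
      set N := (frattini Q).map Q.subtype with hN
      have h2 : QuotientGroup.mk' N x ∈ centralizer ((Q.map (QuotientGroup.mk' N) : Subgroup (G ⧸ N)) : Set (G ⧸ N)) := by
        rw [mem_centralizer_iff]
        rintro _ ⟨q, hq, rfl⟩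
        have h3 := (QuotientGroup.eq_one_iff _).2 (h1 q hq)
        change QuotientGroup.mk' N (x * q * x⁻¹ * q⁻¹) = 1 at h3
        rw [map_mul, map_mul, map_mul, map_inv, map_inv, mul_inv_eq_one, mul_inv_eq_iff_eq_mul] at h3
        exact h3.symm
      obtain ⟨m, rfl⟩ := mem_zpowers_iff.1 ha
      have h3 := zpow_mem h2 m
      rw [← map_zpow, mem_centralizer_iff] at h3
      have h4 := h3 _ ⟨k, hk, rfl⟩
      apply (QuotientGroup.eq_one_iff _).1
      change QuotientGroup.mk' N (x ^ m * k * (x ^ m)⁻¹ * k⁻¹) = 1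
      rw [map_mul, map_mul, map_mul, map_inv, map_inv, ← h4]; group
  have hQab : ∀ a ∈ Q, ∀ b ∈ Q, a * b = b * a := by
    intro a ha b hb
    have h1 := H1.Nilp.commutator_le_frattini hQ
    rw [hΦ, le_bot_iff] at h1
    have h2 : ⁅(⟨a, ha⟩ : Q), (⟨b, hb⟩ : Q)⁆ ∈ commutator Q := commutator_mem_commutator (mem_top _) (mem_top _)
    rw [h1.1, mem_bot, commutatorElement_eq_one_iff_mul_comm] at h2
    exact congrArg Subtype.val h2
  -- no fixed points
  have hfix : Q ⊓ centralizer {x} = ⊥ := by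
    by_contra hne
    have hDn : (Q ⊓ centralizer {x}).Normal := by
      rw [← normalizer_eq_top_iff, eq_top_iff, ← htop, sup_le_iff]
      constructor
      · rw [le_normalizer_iff]
        intro a ha d hd
        rw [hQab a ha d hd.1, mul_inv_cancel_right]; exact hd
      · rw [zpowers_le, mem_normalizer_iff]
        intro y
        have h1 : ∀ d ∈ centralizer ({x} : Set G), x * d * x⁻¹ = d := by
          intro d hd
          rw [mem_centralizer_singleton_iff] at hd
          rw [← hd]; group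
        constructor
        · intro hy
          rw [h1 y hy.2]; exact hy
        · intro hy
          have h2 : x⁻¹ * (x * y * x⁻¹) * x = y := by group
          have h3 : x⁻¹ * (x * y * x⁻¹) * x = x * y * x⁻¹ := by
            have h4 := mem_centralizer_singleton_iff.1 hy.2
            rw [mul_assoc, h4]; group
          rw [← h2, h3]; exact hy
    apply hxc
    rw [mem_centralizer_iff]
    intro q hq
    have h1 := hact _ hne q hq
    obtain ⟨d, hd⟩ : ∃ d, d = x * q * x⁻¹ * q⁻¹ := ⟨_, rfl⟩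
    rw [← hd] at h1
    have h2 : x * q * x⁻¹ = d * q := by rw [hd]; group
    have hdx : ∀ m : ℕ, Commute x (d ^ m) := by
      intro m
      have : Commute x d := (mem_centralizer_singleton_iff.1 h1.2).symm
      exact this.pow_right m
    have h3 : ∀ m : ℕ, x ^ m * q * (x ^ m)⁻¹ = d ^ m * q := by
      intro m
      induction m with
      | zero => simp
      | succ m ih =>
        calc x ^ (m + 1) * q * (x ^ (m + 1))⁻¹ = x * (x ^ m * q * (x ^ m)⁻¹) * x⁻¹ := by rw [pow_succ']; group
          _ = (x * d ^ m) * q * x⁻¹ := by rw [ih]; group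
          _ = (d ^ m * x) * q * x⁻¹ := by rw [(hdx m).eq]
          _ = d ^ m * (x * q * x⁻¹) := by group
          _ = d ^ (m + 1) * q := by rw [h2, pow_succ]; group
    have h4 := h3 (orderOf x)
    rw [pow_orderOf_eq_one, inv_one, one_mul, mul_one] at h4
    have h5 : d ^ orderOf x = 1 := mul_eq_right.1 h4.symm
    have h6 : d = 1 := by
      rw [← orderOf_eq_one_iff]
      obtain ⟨l, hl⟩ := IsPGroup.iff_orderOf.1 hQ ⟨d, h1.1⟩
      rw [← orderOf_coe] at hl
      change orderOf d = p ^ l at hl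
      have h7 := orderOf_dvd_of_pow_eq_one h5
      have h8 := Nat.Coprime.coprime_dvd_left h7 (hxcop.pow_right l)
      rw [← hl, Nat.coprime_self] at h8
      exact h8
    rw [h6, one_mul, mul_inv_eq_iff_eq_mul] at h2
    exact h2.symm
  -- the element
  obtain ⟨k, hk⟩ := hG G ⟨⊤, (topEquiv : (⊤ : Subgroup G) ≃* G).toMonoidHom, (topEquiv : (⊤ : Subgroup G) ≃* G).surjective⟩ hcore
  have hxe : r ^ b ∣ orderOf k := by rw [hk, ← hxo]; exact Monoid.order_dvd_exponent x
  have hQne : Q ≠ ⊥ := by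
    rintro rfl
    apply hxc
    rw [mem_centralizer_iff]
    intro q hq
    rw [SetLike.mem_coe, mem_bot] at hq
    rw [hq, one_mul, mul_one]
  have hpe : p ∣ orderOf k := by
    haveI : Nontrivial Q := (nontrivial_iff_ne_bot Q).2 hQne
    obtain ⟨m, hm⟩ := IsPGroup.iff_card.1 hQ
    have h1 : p ∣ Nat.card Q := by
      rw [hm]
      apply dvd_pow_self
      rintro rfl
      rw [pow_zero] at hm
      exact absurd (Finite.one_lt_card (α := Q)) (by rw [hm]; exact lt_irrefl 1)
    obtain ⟨z, hz⟩ := exists_prime_orderOf_dvd_card' p h1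
    rw [hk, ← hz, ← orderOf_coe]
    exact Monoid.order_dvd_exponent _
  have hk0 : 0 < orderOf k := orderOf_pos k
  have hy : orderOf (k ^ (orderOf k / r ^ b)) = r ^ b := by
    rw [orderOf_pow_of_dvd (Nat.div_pos (Nat.le_of_dvd hk0 hxe) (pow_pos hr.pos b)).ne' (Nat.div_dvd_of_dvd hxe)]
    exact Nat.div_div_self hxe hk0.ne'
  have hz : orderOf (k ^ (orderOf k / p)) = p := by
    rw [orderOf_pow_of_dvd (Nat.div_pos (Nat.le_of_dvd hk0 hpe) hp.out.pos).ne' (Nat.div_dvd_of_dvd hpe)]
    exact Nat.div_div_self hpe hk0.ne'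
  set y := k ^ (orderOf k / r ^ b) with hydef
  set z := k ^ (orderOf k / p) with hzdef
  have hyz : Commute y z := (Commute.refl k).pow_pow _ _
  -- cardinality of G
  have hcard : Nat.card G = Nat.card Q * r ^ b := by
    have h1 := H2.Card.card_sup_mul_card_inf (H := zpowers x) (N := Q) (by rw [normalizer_eq_top_iff.2 hQn]; exact le_top)
    have h2 : Nat.card (zpowers x ⊓ Q : Subgroup G) = 1 := by
      have h3 := Nat.Coprime.coprime_dvd_left (card_dvd_of_le (inf_le_left : zpowers x ⊓ Q ≤ zpowers x)) (hcopQ Q hQ)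
      exact Nat.eq_one_of_dvd_coprimes h3 dvd_rfl (card_dvd_of_le inf_le_right)
    rw [h2, mul_one, sup_comm, htop, Subgroup.card_top, Nat.card_zpowers, hxo, mul_comm] at h1
    exact h1
  have hrQ : ¬ r ∣ Nat.card Q := by
    obtain ⟨m, hm⟩ := IsPGroup.iff_card.1 hQ
    rw [hm]
    intro h
    exact hrp ((Nat.prime_dvd_prime_iff_eq hr hp.out).1 (hr.dvd_of_dvd_pow h))
  have hidx : ∀ w : G, orderOf w = r ^ b → ¬ r ∣ (zpowers w).index := by
    intro w hw h
    apply hrQ
    have h1 := (zpowers w).card_mul_index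
    rw [Nat.card_zpowers, hw, hcard, mul_comm] at h1
    rw [← Nat.eq_of_mul_eq_mul_right (pow_pos hr.pos b) h1]
    exact h
  let Sx : Sylow r G := (H24.Tools.isPGroup_zpowers hxo).toSylow (hidx x hxo)
  let Sy : Sylow r G := (H24.Tools.isPGroup_zpowers hy).toSylow (hidx y hy)
  obtain ⟨g, hg⟩ := MulAction.exists_smul_eq G Sx Sy
  have hxy : g * x * g⁻¹ ∈ zpowers y := by
    have h1 : g * x * g⁻¹ ∈ (g • Sx : Sylow r G) := by
      rw [H2.Basic.mem_smul_sylow]
      have : g⁻¹ * (g * x * g⁻¹) * g = x := by group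
      rw [this]; exact mem_zpowers x
    rw [hg] at h1
    exact h1
  have hzx : Commute (g⁻¹ * z * g) x := by
    obtain ⟨m, hm⟩ := mem_zpowers_iff.1 hxy
    have h1 : Commute z (g * x * g⁻¹) := by rw [← hm]; exact (hyz.zpow_left m).symm
    change g⁻¹ * z * g * x = x * (g⁻¹ * z * g)
    calc g⁻¹ * z * g * x = g⁻¹ * (z * (g * x * g⁻¹)) * g := by group
      _ = g⁻¹ * ((g * x * g⁻¹) * z) * g := by rw [h1.eq]
      _ = _ := by group
  have hzQ : z ∈ Q := by
    have h1 : orderOf (QuotientGroup.mk' Q z) ∣ p := by rw [← hz]; exact orderOf_map_dvd _ _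
    have h2 : orderOf (QuotientGroup.mk' Q z) ∣ r ^ b := by
      have h3 := orderOf_dvd_natCard (QuotientGroup.mk' Q z)
      have h4 : Nat.card (G ⧸ Q) = r ^ b := by
        have h5 := Q.card_eq_card_quotient_mul_card_subgroup
        rw [hcard, mul_comm] at h5
        exact (Nat.eq_of_mul_eq_mul_right Nat.card_pos h5).symm
      rwa [h4] at h3
    have h3 : orderOf (QuotientGroup.mk' Q z) = 1 :=
      Nat.eq_one_of_dvd_coprimes (Nat.Coprime.pow_right b ((Nat.coprime_primes hp.out hr).2 (Ne.symm hrp))) h1 h2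
    rw [orderOf_eq_one_iff] at h3
    exact (QuotientGroup.eq_one_iff z).1 h3
  have h1 : g⁻¹ * z * g ∈ Q ⊓ centralizer {x} := by
    refine ⟨?_, mem_centralizer_singleton_iff.2 hzx.eq⟩
    have := hQn.conj_mem z hzQ g⁻¹
    rwa [inv_inv] at this
  rw [hfix, mem_bot] at h1
  have h2 : z = 1 := by
    calc z = g * (g⁻¹ * z * g) * g⁻¹ := by group
      _ = 1 := by rw [h1]; group
  rw [h2, orderOf_one] at hz
  exact hp.out.one_lt.ne hz


/-- Let G be a finite group and p a prime. Then G has a normal p-complement if and only if every section K = H/N of G (N a normal subgroup of a subgroup H) whose largest normal subgroup of order prime to p is trivial contains an element whose order equals the exponent of K. -/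
theorem result {G : Type*} [Group G] [Finite G] (p : ℕ) [Fact p.Prime] :
    Cfsg.HasNormalPComplement p G ↔
      ∀ (H : Subgroup G) (N : Subgroup H) [N.Normal], Cfsg.pPrimeCore p (H ⧸ N) = ⊥ →
        ∃ k : H ⧸ N, orderOf k = Monoid.exponent (H ⧸ N) := by

  constructor
  · intro h H N _ hcore
    have h1 : Cfsg.HasNormalPComplement p (H ⧸ N) := H2.Basic.npc_quotient N (H2.Basic.npc_subgroup H h)
    obtain ⟨M, hM, hMp, k, hk⟩ := H2.Basic.npc_iff.1 h1
    have h2 : M ≤ Cfsg.pPrimeCore p (H ⧸ N) := H1.Nilp.le_pPrimeCore hM (by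
      rw [Nat.coprime_comm]
      exact (Nat.Prime.coprime_iff_not_dvd Fact.out).2 hMp)
    rw [hcore, le_bot_iff] at h2
    rw [h2, index_bot] at hk
    have hexp : Monoid.exponent (H ⧸ N) ∣ p ^ k := by
      rw [← hk]; exact Group.exponent_dvd_nat_card
    obtain ⟨m, -, hm⟩ := (Nat.dvd_prime_pow Fact.out).1 hexp
    rcases Nat.eq_zero_or_pos m with h0 | h0
    · refine ⟨1, ?_⟩
      rw [hm, h0, orderOf_one, pow_zero]
    · by_contra hcon
      push Not at hcon
      have h3 : Monoid.exponent (H ⧸ N) ∣ p ^ (m - 1) := by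
        apply Monoid.exponent_dvd_of_forall_pow_eq_one
        intro x
        rw [← orderOf_dvd_iff_pow_eq_one]
        have h4 := Monoid.order_dvd_exponent x
        rw [hm] at h4
        obtain ⟨j, hj, hjo⟩ := (Nat.dvd_prime_pow Fact.out).1 h4
        rw [hjo]
        apply pow_dvd_pow
        have h5 : j ≠ m := by
          rintro rfl
          exact hcon x (by rw [hjo, hm])
        omega
      rw [hm, Nat.pow_dvd_pow_iff_le_right (Nat.Prime.one_lt Fact.out)] at h3
      omega
  · intro h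
    exact main _ G rfl (good_of h)


end Cfsg.Agent.S4238
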