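import Cfsg.Statements.S4242
import Cfsg.Agent.H2_Fusion3
import Cfsg.Agent.H2_Fusion4
import Cfsg.Agent.H2_Card
import Cfsg.Agent.H1_Coprime2
import Cfsg.Agent.H1_Schmidt2
import Cfsg.Agent.H1_Nilp
import Cfsg.Agent.H23_Basic
import Cfsg.Agent.H24_Tools
import Cfsg.Agent.H24_Basic


set_option autoImplicit false
open Cfsg

namespace Cfsg.Agent.S4242

open Subgroup
open scoped commutatorElement

universe u

theorem npc_nil {p : ℕ} [hp : Fact p.Prime] {G : Type u} [Group G] [Finite G] (h : Group.IsNilpotent G) :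
    Cfsg.HasNormalPComplement p G := by
  haveI := h
  exact H2.Fusion4.npc_of_nilpotent

/-- coprime commuting -/
theorem comm_of_nil {p : ℕ} [hp : Fact p.Prime] {G : Type u} [Group G] [Finite G] {M Q : Subgroup G} (hM : Group.IsNilpotent M)
    (hQ : IsPGroup p Q) (hQM : Q ≤ M) {x : G} (hx : x ∈ M) (hxN : x ∈ normalizer (Q : Set G)) (hxo : (orderOf x).Coprime p) :
    x ∈ centralizer (Q : Set G) := by
  obtain ⟨N, hN, hNp, k, hk⟩ := H2.Basic.npc_iff.1 (npc_nil (p := p) hM)
  have hxN' : (⟨x, hx⟩ : M) ∈ N := (H2.Basic.mem_npc_iff hNp hk _).2 (by rw [← orderOf_coe]; exact hxo)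
  rw [mem_centralizer_iff]
  intro q hq
  have h1 : x * q * x⁻¹ * q⁻¹ ∈ Q := mul_mem ((mem_normalizer_iff.1 hxN q).1 hq) (inv_mem hq)
  have h2 : (⟨x, hx⟩ * ⟨q, hQM hq⟩ * (⟨x, hx⟩)⁻¹ * (⟨q, hQM hq⟩)⁻¹ : M) ∈ N := by
    have h3 := hN.conj_mem _ (inv_mem hxN') ⟨q, hQM hq⟩
    have h4 := mul_mem hxN' h3
    have h5 : (⟨x, hx⟩ : M) * (⟨q, hQM hq⟩ * (⟨x, hx⟩)⁻¹ * (⟨q, hQM hq⟩)⁻¹) = ⟨x, hx⟩ * ⟨q, hQM hq⟩ * (⟨x, hx⟩)⁻¹ * (⟨q, hQM hq⟩)⁻¹ := by group
    rw [h5] at h4; exact h4
  have h3 : x * q * x⁻¹ * q⁻¹ = 1 := by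
    rw [← orderOf_eq_one_iff]
    have hd1 := (H2.Basic.mem_npc_iff hNp hk _).1 h2
    rw [← orderOf_coe] at hd1
    change (orderOf (x * q * x⁻¹ * q⁻¹)).Coprime p at hd1
    obtain ⟨l, hl⟩ := IsPGroup.iff_orderOf.1 hQ ⟨_, h1⟩
    rw [← orderOf_coe] at hl
    change orderOf (x * q * x⁻¹ * q⁻¹) = p ^ l at hl
    have hc := hd1.pow_right l
    rw [← hl, Nat.coprime_self] at hc
    exact hc
  calc q * x = (x * q * x⁻¹ * q⁻¹)⁻¹ * (x * q) := by group
    _ = x * q := by rw [h3, inv_one, one_mul]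

theorem orderOf_coprime {p : ℕ} (hp : p.Prime) {G : Type u} [Group G] {K : Subgroup G} (hK : ¬ p ∣ Nat.card K) {x : G} (hx : x ∈ K) :
    (orderOf x).Coprime p := by
  have h1 := orderOf_dvd_natCard (⟨x, hx⟩ : K)
  rw [← orderOf_coe] at h1
  exact Nat.Coprime.coprime_dvd_left h1 ((Nat.Prime.coprime_iff_not_dvd hp).2 hK).symm

variable {G : Type u} [Group G] [Finite G]

/-- a nontrivial normal `p`-subgroup exists -/
theorem step1 (p : ℕ) [hp : Fact p.Prime] (hpG : p ∣ Nat.card G)
    (hprop : ∀ M : Subgroup G, M ≠ ⊤ → p ∣ Nat.card M → Group.IsNilpotent M)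
    {K : Subgroup G} (hK : IsCoatom K) (hKn : ¬ Group.IsNilpotent K) (hpK : ¬ p ∣ Nat.card K) :
    ∃ R : Subgroup G, R.Normal ∧ IsPGroup p R ∧ R ≠ ⊥ := by
  by_contra hcon
  push Not at hcon
  have hnpc : Cfsg.HasNormalPComplement p G := by
    apply H2.Fusion3.npc_of_frobenius
    intro Q hQ g hg hgo
    by_cases hQ1 : Q = ⊥
    · subst hQ1
      rw [mem_centralizer_iff]
      intro q hq
      rw [SetLike.mem_coe, mem_bot] at hq
      rw [hq, one_mul, mul_one]
    · have hN : normalizer (Q : Set G) ≠ ⊤ := fun h => hQ1 (hcon Q (normalizer_eq_top_iff.1 h) hQ)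
      have hpQ : p ∣ Nat.card Q := by
        haveI : Nontrivial Q := (nontrivial_iff_ne_bot Q).2 hQ1
        obtain ⟨m, hm⟩ := IsPGroup.iff_card.1 hQ
        rw [hm]
        apply dvd_pow_self
        rintro rfl
        rw [pow_zero] at hm
        exact absurd (Finite.one_lt_card (α := Q)) (by rw [hm]; exact lt_irrefl 1)
      exact comm_of_nil (hprop _ hN (hpQ.trans (card_dvd_of_le le_normalizer))) hQ le_normalizer hg hg hgo
  obtain ⟨N0, hN0, hN0p, k, hk⟩ := H2.Basic.npc_iff.1 hnpc
  have hKN : K = N0 := by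
    have h1 : K ≤ N0 := fun x hx => (H2.Basic.mem_npc_iff hN0p hk x).2 (orderOf_coprime hp.out hpK hx)
    rcases h1.eq_or_lt with h2 | h2
    · exact h2
    · exfalso
      rw [hK.2 N0 h2, Subgroup.card_top] at hN0p
      exact hN0p hpG
  subst hKN
  let P : Sylow p G := default
  have hPne : (P : Subgroup G) ≠ ⊥ := fun h => by
    have := P.card_eq_multiplicity
    have h1 : Nat.card (P : Subgroup G) = 1 := by rw [h]; exact Subgroup.card_bot
    rw [h1] at this
    have h2 : (Nat.card G).factorization p ≠ 0 := (hp.out.factorization_pos_of_dvd Nat.card_pos.ne' hpG).ne'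
    exact absurd this (Nat.one_lt_pow h2 hp.out.one_lt).ne
  have hcompl := H2.Basic.isComplement'_sylow P hN0p hk
  have hcop : (Nat.card (P : Subgroup G)).Coprime (Nat.card K) := by
    obtain ⟨m, hm⟩ := IsPGroup.iff_card.1 P.2
    rw [hm]
    exact Nat.Coprime.pow_left _ ((Nat.Prime.coprime_iff_not_dvd hp.out).2 hpK)
  have hpP : p ∣ Nat.card (P : Subgroup G) := by
    rw [P.card_eq_multiplicity]
    exact dvd_pow_self p (hp.out.factorization_pos_of_dvd Nat.card_pos.ne' hpG).ne'
  have hcent : (K ⊓ centralizer ((P : Subgroup G) : Set G)).subgroupOf K = ⊤ := by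
    apply H1.Nilp.eq_top_of_sylow_le
    intro q hq
    obtain ⟨Q, hQ⟩ := H1.Coprime.invariant_sylow_exists (P : Subgroup G) K (by rw [normalizer_eq_top_iff.2 hN0]; exact le_top) hcop
      (Or.inl (haveI := P.2.isNilpotent; inferInstance)) q
    refine ⟨Q, ?_⟩
    set Q' := (Q : Subgroup K).map K.subtype with hQ'
    have hcQ : Nat.card Q' = Nat.card (Q : Subgroup K) := card_map_of_injective K.subtype_injective
    have h1 : (P : Subgroup G) ⊔ Q' ≠ ⊤ := by
      intro h
      have h2 := H2.Card.card_sup_mul_card_inf hQ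
      have h3 : Nat.card ((P : Subgroup G) ⊓ Q' : Subgroup G) = 1 := by
        have h4 : Nat.card Q' ∣ Nat.card K := by rw [hcQ]; exact card_subgroup_dvd_card _
        have h5 := Nat.Coprime.coprime_dvd_left (card_dvd_of_le (inf_le_left : (P : Subgroup G) ⊓ Q' ≤ P)) hcop
        exact Nat.eq_one_of_dvd_coprimes h5 dvd_rfl ((card_dvd_of_le inf_le_right).trans h4)
      rw [h3, h, mul_one, Subgroup.card_top, ← hcompl.card_mul_card, mul_comm] at h2
      have h4 : Nat.card K = Nat.card Q' := Nat.eq_of_mul_eq_mul_left Nat.card_pos h2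
      apply hKn
      have h5 : (Q : Subgroup K) = ⊤ := Subgroup.eq_top_of_card_eq _ (by rw [← hcQ, ← h4])
      have h6 : IsPGroup q K := by
        have := Q.2
        rw [show Q.toSubgroup = (Q : Subgroup K) from rfl, h5] at this
        exact this.of_equiv topEquiv
      exact h6.isNilpotent
    have h2 := hprop _ h1 (hpP.trans (card_dvd_of_le le_sup_left))
    intro x hx
    rw [mem_subgroupOf]
    refine ⟨x.2, ?_⟩
    change (x : G) ∈ centralizer ((P : Subgroup G) : Set G)
    have hxQ : (x : G) ∈ Q' := ⟨x, hx, rfl⟩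
    -- elements of P and Q' commute
    rw [mem_centralizer_iff]
    intro y hy
    by_cases hqp : q = p
    · subst hqp
      have h3 : (x : G) = 1 := by
        have h4 : Nat.card Q' = 1 := by
          have h5 : Nat.card Q' ∣ Nat.card K := by rw [hcQ]; exact card_subgroup_dvd_card _
          obtain ⟨m, hm⟩ := IsPGroup.iff_card.1 Q.2
          have h6 : Nat.card Q' = q ^ m := by rw [hcQ]; exact hm
          rcases Nat.eq_zero_or_pos m with h0 | h0
          · rw [h6, h0, pow_zero]
          · exact absurd ((h6 ▸ dvd_pow_self q h0.ne').trans h5) hpK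
        have h5 : Q' = ⊥ := Subgroup.card_eq_one.1 h4
        rw [h5, mem_bot] at hxQ; exact hxQ
      rw [h3, one_mul, mul_one]
    · haveI := hq
      exact H1.Schmidt.commute_of_nilpotent' h2 (Ne.symm hqp) P.2 (Q.2.map K.subtype) le_sup_left le_sup_right hy hxQ
  have hKC : K ≤ centralizer ((P : Subgroup G) : Set G) := by
    rw [subgroupOf_eq_top] at hcent
    exact hcent.trans inf_le_right
  have hPn : (P : Subgroup G).Normal := by
    rw [← normalizer_eq_top_iff, eq_top_iff, ← hcompl.sup_eq_top, sup_le_iff]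
    exact ⟨hKC.trans (centralizer_le_normalizer _), le_normalizer⟩
  exact hPne (hcon _ hPn P.2)

theorem step2 (p : ℕ) [hp : Fact p.Prime] (hpG : p ∣ Nat.card G)
    (hprop : ∀ M : Subgroup G, M ≠ ⊤ → p ∣ Nat.card M → Group.IsNilpotent M)
    {K : Subgroup G} (hK : IsCoatom K) (hKn : ¬ Group.IsNilpotent K) (hpK : ¬ p ∣ Nat.card K) :
    ∃ Z K : Subgroup G, Z.Normal ∧ K.Normal ∧ Z ⊓ K = ⊥ ∧ Z ⊔ K = ⊤ ∧ Nat.card Z = p ∧
          Cfsg.IsMinimalNonNilpotent K ∧ ¬ p ∣ Nat.card K := by
  obtain ⟨R, hRn, hR, hR1⟩ := step1 p hpG hprop hK hKn hpK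
  have hpR : ∀ R1 : Subgroup G, IsPGroup p R1 → R1 ≠ ⊥ → p ∣ Nat.card R1 := by
    intro R1 h1 h2
    haveI : Nontrivial R1 := (nontrivial_iff_ne_bot R1).2 h2
    obtain ⟨m, hm⟩ := IsPGroup.iff_card.1 h1
    rw [hm]
    apply dvd_pow_self
    rintro rfl
    rw [pow_zero] at hm
    exact absurd (Finite.one_lt_card (α := R1)) (by rw [hm]; exact lt_irrefl 1)
  have hinf : ∀ R1 : Subgroup G, IsPGroup p R1 → ∀ L ≤ K, L ⊓ R1 = ⊥ := by
    intro R1 h1 L hL
    rw [← Subgroup.card_eq_one]
    obtain ⟨m, hm⟩ := IsPGroup.iff_card.1 h1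
    have h2 : (Nat.card R1).Coprime (Nat.card K) := by
      rw [hm]; exact Nat.Coprime.pow_left _ ((Nat.Prime.coprime_iff_not_dvd hp.out).2 hpK)
    exact Nat.eq_one_of_dvd_coprimes h2 (card_dvd_of_le inf_le_right) (card_dvd_of_le (inf_le_left.trans hL))
  have hsup : ∀ R1 : Subgroup G, IsPGroup p R1 → R1 ≠ ⊥ → K ⊔ R1 = ⊤ := by
    intro R1 h1 h2
    apply hK.2
    refine lt_of_le_of_ne le_sup_left (fun h => hpK ?_)
    have h3 : R1 ≤ K := by rw [h]; exact le_sup_right
    exact (hpR R1 h1 h2).trans (card_dvd_of_le h3)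
  have hcard : ∀ L ≤ K, Nat.card (L ⊔ R : Subgroup G) = Nat.card L * Nat.card R := by
    intro L hL
    have h1 := H2.Card.card_sup_mul_card_inf (H := L) (N := R) (by rw [normalizer_eq_top_iff.2 hRn]; exact le_top)
    rw [hinf R hR L hL, Subgroup.card_bot, mul_one] at h1
    exact h1
  have hGc : Nat.card G = Nat.card K * Nat.card R := by
    rw [← hcard K le_rfl, hsup R hR hR1, Subgroup.card_top]
  -- proper subgroups of K
  have hL : ∀ L ≤ K, L ≠ K → Group.IsNilpotent L ∧ L ≤ centralizer (R : Set G) := by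
    intro L hLK hne
    have h1 : L ⊔ R ≠ ⊤ := by
      intro h
      have h2 := hcard L hLK
      rw [h, Subgroup.card_top, hGc] at h2
      exact hne (H2.Card.eq_of_le_of_card_eq hLK (Nat.eq_of_mul_eq_mul_right Nat.card_pos h2).symm)
    have h2 := hprop _ h1 ((hpR R hR hR1).trans (card_dvd_of_le le_sup_right))
    refine ⟨H1.Nilp.isNilpotent_of_le le_sup_left h2, fun x hx => ?_⟩
    exact comm_of_nil h2 hR le_sup_right (mem_sup_left hx) (by rw [normalizer_eq_top_iff.2 hRn]; exact mem_top _)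
      (orderOf_coprime hp.out hpK (hLK hx))
  have hKR : K ≤ centralizer (R : Set G) := by
    intro x hx
    have h1 : zpowers x ≠ K := by
      intro h
      apply hKn
      rw [← h]
      haveI : IsMulCommutative (zpowers x) := inferInstance
      letI : CommGroup (zpowers x) := { (inferInstance : Group (zpowers x)) with mul_comm := this.is_comm.comm }
      exact CommGroup.isNilpotent
    exact (hL _ (zpowers_le.2 hx) h1).2 (mem_zpowers x)
  have hKnorm : K.Normal := by
    rw [← normalizer_eq_top_iff, eq_top_iff, ← hsup R hR hR1, sup_le_iff]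
    exact ⟨le_normalizer, (le_centralizer_iff.1 hKR).trans (centralizer_le_normalizer _)⟩
  have hRp : Nat.card R = p := by
    obtain ⟨z, hz⟩ := exists_prime_orderOf_dvd_card' p (hpR R hR hR1)
    rw [← orderOf_coe] at hz
    have hzp : IsPGroup p (zpowers (z : G)) := H24.Tools.isPGroup_zpowers (hz.trans (pow_one p).symm)
    have hz1 : zpowers (z : G) ≠ ⊥ := by
      intro h
      rw [zpowers_eq_bot] at h
      rw [h, orderOf_one] at hz
      exact hp.out.one_lt.ne hz
    have h1 := hsup _ hzp hz1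
    have h2 := H2.Card.card_sup_mul_card_inf (H := zpowers (z : G)) (N := K) (by rw [normalizer_eq_top_iff.2 hKnorm]; exact le_top)
    rw [sup_comm, h1, Subgroup.card_top, inf_comm, hinf _ hzp K le_rfl, Subgroup.card_bot, mul_one, hGc, mul_comm,
      Nat.card_zpowers, hz] at h2
    exact Nat.eq_of_mul_eq_mul_right Nat.card_pos h2
  refine ⟨R, K, hRn, hKnorm, ?_, ?_, hRp, ⟨hKn, ?_⟩, hpK⟩
  · rw [inf_comm]; exact hinf R hR K le_rfl
  · rw [sup_comm]; exact hsup R hR hR1
  · intro H hH
    have h1 : H.map K.subtype ≠ K := by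
      intro h
      apply hH
      apply Subgroup.eq_top_of_card_eq
      rw [← card_map_of_injective (K := H) K.subtype_injective, h]
    have h2 := (hL _ (map_subtype_le H) h1).1
    exact (Group.isNilpotent_congr (H.equivMapOfInjective K.subtype K.subtype_injective)).mpr h2


/-- Let G be a finite group and p a prime dividing its order. Every maximal subgroup of G of order divisible by p is nilpotent if and only if G is nilpotent, or G is a minimal non-nilpotent group, or G is the internal direct product of a normal subgroup of order p and a normal minimal non-nilpotent subgroup of order prime to p. -/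
theorem result {G : Type*} [Group G] [Finite G] (p : ℕ) (hp : p.Prime) (hpG : p ∣ Nat.card G) :
    (∀ M : Subgroup G, IsCoatom M → p ∣ Nat.card M → Group.IsNilpotent M) ↔
      (Group.IsNilpotent G ∨ Cfsg.IsMinimalNonNilpotent G ∨
        ∃ Z K : Subgroup G, Z.Normal ∧ K.Normal ∧ Z ⊓ K = ⊥ ∧ Z ⊔ K = ⊤ ∧ Nat.card Z = p ∧
          Cfsg.IsMinimalNonNilpotent K ∧ ¬ p ∣ Nat.card K) := by

  haveI : Fact p.Prime := ⟨hp⟩
  constructor
  · intro hmax
    by_contra hcon
    push Not at hcon
    obtain ⟨h1, h2, h3⟩ := hcon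
    have hprop : ∀ M : Subgroup G, M ≠ ⊤ → p ∣ Nat.card M → Group.IsNilpotent M := by
      intro M hM hpM
      obtain ⟨K, hK, hMK⟩ := (eq_top_or_exists_le_coatom M).resolve_left hM
      exact H1.Nilp.isNilpotent_of_le hMK (hmax K hK (hpM.trans (card_dvd_of_le hMK)))
    obtain ⟨L, hL, hLn⟩ : ∃ L : Subgroup G, L ≠ ⊤ ∧ ¬ Group.IsNilpotent L := by
      by_contra hc
      push Not at hc
      exact h2 ⟨h1, hc⟩
    obtain ⟨K, hK, hLK⟩ := (eq_top_or_exists_le_coatom L).resolve_left hL
    have hKn : ¬ Group.IsNilpotent K := fun h => hLn (H1.Nilp.isNilpotent_of_le hLK h)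
    have hpK : ¬ p ∣ Nat.card K := fun h => hKn (hmax K hK h)
    obtain ⟨Z, K', a1, a2, a3, a4, a5, a6, a7⟩ := step2 p hpG hprop hK hKn hpK
    exact a7 (h3 Z K' a1 a2 a3 a4 a5 a6)
  · rintro (h | h | ⟨Z, K, hZn, hKn, hinf, hsup, hZ, hKm, hpK⟩) M hM hpM
    · haveI := h
      infer_instance
    · exact h.2 M hM.1
    · have hcard : Nat.card G = p * Nat.card K := by
        have h1 := H2.Card.card_sup_mul_card_inf (H := Z) (N := K) (by rw [normalizer_eq_top_iff.2 hKn]; exact le_top)
        rw [hinf, Subgroup.card_bot, mul_one, hsup, Subgroup.card_top, hZ] at h1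
        exact h1
      have hZM : Z ≤ M := by
        obtain ⟨z, hz⟩ := exists_prime_orderOf_dvd_card' p hpM
        rw [← orderOf_coe] at hz
        have h1 : (z : G) ∈ Z := by
          have h2 : orderOf (QuotientGroup.mk' Z (z : G)) ∣ p := by rw [← hz]; exact orderOf_map_dvd _ _
          have h3 : Nat.card (G ⧸ Z) = Nat.card K := by
            have h5 := Z.card_eq_card_quotient_mul_card_subgroup
            rw [hcard, hZ, mul_comm] at h5
            exact (Nat.eq_of_mul_eq_mul_right hp.pos h5).symm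
          have h4 := orderOf_dvd_natCard (QuotientGroup.mk' Z (z : G))
          rw [h3] at h4
          have h5 : orderOf (QuotientGroup.mk' Z (z : G)) = 1 :=
            Nat.eq_one_of_dvd_coprimes ((Nat.Prime.coprime_iff_not_dvd hp).2 hpK) h2 h4
          rw [orderOf_eq_one_iff] at h5
          exact (QuotientGroup.eq_one_iff (z : G)).1 h5
        have h2 : zpowers (z : G) = Z := H2.Card.eq_of_le_of_card_eq (zpowers_le.2 h1) (by rw [Nat.card_zpowers, hz, hZ])
        rw [← h2, zpowers_le]; exact z.2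
      have hKM : K ⊓ M ≠ K := by
        intro h
        apply hM.1
        rw [eq_top_iff, ← hsup]
        exact sup_le hZM (inf_eq_left.1 h)
      have hnil : Group.IsNilpotent (K ⊓ M : Subgroup G) := by
        have h1 : (K ⊓ M).subgroupOf K ≠ ⊤ := by
          intro h
          rw [subgroupOf_eq_top] at h
          exact hKM (le_antisymm inf_le_left h)
        exact (Group.isNilpotent_congr (subgroupOfEquivOfLe (inf_le_left : K ⊓ M ≤ K))).mp (hKm.2 _ h1)
      have hMe : Z ⊔ (K ⊓ M) = M := by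
        apply le_antisymm (sup_le hZM inf_le_right)
        intro m hm
        have h2 : m ∈ Z ⊔ K := by rw [hsup]; exact mem_top m
        obtain ⟨a, ha, b, hb, hab⟩ := (H2.Card.mem_sup_iff' (H := K) (N := Z) (by rw [normalizer_eq_top_iff.2 hZn]; exact le_top)).1 h2
        rw [← hab]
        have h3 : b = a⁻¹ * m := by rw [← hab]; group
        have h4 : b ∈ M := by rw [h3]; exact mul_mem (inv_mem (hZM ha)) hm
        exact mul_mem (mem_sup_left ha) (mem_sup_right (Subgroup.mem_inf.2 ⟨hb, h4⟩))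
      haveI : (Z.subgroupOf M).Normal := inferInstance
      haveI : (K.subgroupOf M).Normal := inferInstance
      have h1 : (Z.subgroupOf M) ⊔ (K.subgroupOf M) = ⊤ := by
        rw [eq_top_iff]
        intro m _
        have h2 : (m : G) ∈ Z ⊔ (K ⊓ M) := by rw [hMe]; exact m.2
        obtain ⟨a, ha, b, hb, hab⟩ := (H2.Card.mem_sup_iff' (H := K ⊓ M) (N := Z) (by rw [normalizer_eq_top_iff.2 hZn]; exact le_top)).1 h2
        have h3 : m = (⟨a, hZM ha⟩ : M) * ⟨b, hb.2⟩ := Subtype.ext hab.symm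
        rw [h3]
        exact mul_mem (mem_sup_left (mem_subgroupOf.2 ha)) (mem_sup_right (mem_subgroupOf.2 hb.1))
      have h2 : Group.IsNilpotent (Z.subgroupOf M) := by
        have : IsPGroup p (Z.subgroupOf M) := by
          apply IsPGroup.comap_subtype
          exact IsPGroup.of_card (n := 1) (by rw [hZ, pow_one])
        exact this.isNilpotent
      have h3 : Group.IsNilpotent (K.subgroupOf M) := by
        have h4 : K.subgroupOf M = (K ⊓ M).subgroupOf M := by rw [inf_subgroupOf_right]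
        rw [h4]
        exact (Group.isNilpotent_congr (subgroupOfEquivOfLe (inf_le_right : K ⊓ M ≤ M))).mpr hnil
      haveI h4 := H24.Basic.sup_nilpotent (Z.subgroupOf M) (K.subgroupOf M) h2 h3
      rw [h1] at h4
      exact (Group.isNilpotent_congr (topEquiv (G := M))).mp h4


end Cfsg.Agent.S4242
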