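import Cfsg.Statements.S4250
import Cfsg.Agent.H23_Tame


set_option autoImplicit false
open Cfsg

namespace Cfsg.Agent.S4250

open Subgroup
open Cfsg.Agent.H17.Base
open scoped commutatorElement


/-- Let P be a Sylow p-subgroup of a finite group G. Call an intersection H = P ∩ Q with a Sylow p-subgroup Q tame when N_P(H) and N_Q(H) are Sylow p-subgroups of N_G(H). Then P ∩ G′ is generated by [P, N_G(P)] together with the commutator subgroups [P ∩ Q, ⟨x⟩] for all tame intersections P ∩ Q and all p-elements x of N_G(P ∩ Q). -/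
theorem result {G : Type*} [Group G] [Finite G] (p : ℕ) [Fact p.Prime] (P : Sylow p G) :
    (P : Subgroup G) ⊓ commutator G =
      ⁅(P : Subgroup G), Subgroup.normalizer ((P : Subgroup G) : Set G)⁆ ⊔
        ⨆ (Q : Sylow p G) (_ : (¬ p ∣ ((P : Subgroup G) ⊓ Subgroup.normalizer (((P : Subgroup G) ⊓ (Q : Subgroup G) : Subgroup G) : Set G)).relIndex (Subgroup.normalizer (((P : Subgroup G) ⊓ (Q : Subgroup G) : Subgroup G) : Set G)) ∧ ¬ p ∣ ((Q : Subgroup G) ⊓ Subgroup.normalizer (((P : Subgroup G) ⊓ (Q : Subgroup G) : Subgroup G) : Set G)).relIndex (Subgroup.normalizer (((P : Subgroup G) ⊓ (Q : Subgroup G) : Subgroup G) : Set G))))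
          (x : G) (_ : x ∈ Subgroup.normalizer (((P : Subgroup G) ⊓ (Q : Subgroup G) : Subgroup G) : Set G) ∧ ∃ k : ℕ, orderOf x = p ^ k),
          ⁅(P : Subgroup G) ⊓ (Q : Subgroup G), Subgroup.zpowers x⁆ := by

  set F : Subgroup G := ⁅(P : Subgroup G), Subgroup.normalizer ((P : Subgroup G) : Set G)⁆ ⊔
        ⨆ (Q : Sylow p G) (_ : (¬ p ∣ ((P : Subgroup G) ⊓ Subgroup.normalizer (((P : Subgroup G) ⊓ (Q : Subgroup G) : Subgroup G) : Set G)).relIndex (Subgroup.normalizer (((P : Subgroup G) ⊓ (Q : Subgroup G) : Subgroup G) : Set G)) ∧ ¬ p ∣ ((Q : Subgroup G) ⊓ Subgroup.normalizer (((P : Subgroup G) ⊓ (Q : Subgroup G) : Subgroup G) : Set G)).relIndex (Subgroup.normalizer (((P : Subgroup G) ⊓ (Q : Subgroup G) : Subgroup G) : Set G))))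
          (x : G) (_ : x ∈ Subgroup.normalizer (((P : Subgroup G) ⊓ (Q : Subgroup G) : Subgroup G) : Set G) ∧ ∃ k : ℕ, orderOf x = p ^ k),
          ⁅(P : Subgroup G) ⊓ (Q : Subgroup G), Subgroup.zpowers x⁆ with hF
  apply le_antisymm
  · have key := H23.Tame.alperin_tame (isSylowIn_coe P) (fun A g => ∀ a ∈ A, g * a * g⁻¹ * a⁻¹ ∈ F) ?_ ?_ ?_ ?_ ?_
    · rw [inf_comm, Subgroup.commutator_inf_eq_focalSubgroup, focalSubgroup_def, closure_le]
      rintro y ⟨hyP, x, hx, u, rfl⟩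
      have h1 : u * x * u⁻¹ ∈ (P : Subgroup G) := by
        have h2 := mul_mem (inv_mem hyP) hx
        have h3 : (⁅x, u⁆)⁻¹ * x = u * x * u⁻¹ := by rw [commutatorElement_def]; group
        rwa [h3] at h2
      have h2 := key (zpowers x) (zpowers_le.2 hx) u (by
        rintro _ ⟨z, hz, rfl⟩
        obtain ⟨k, rfl⟩ := mem_zpowers_iff.1 hz
        change u * x ^ k * u⁻¹ ∈ _
        rw [← conj_zpow]
        exact zpow_mem h1 k) x (mem_zpowers x)
      have h3 : ⁅x, u⁆ = (u * x * u⁻¹ * x⁻¹)⁻¹ := by rw [commutatorElement_def]; group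
      rw [SetLike.mem_coe, h3]
      exact inv_mem h2
    · intro A g h _ _ _ h1 h2 a ha
      have e : h * g * a * (h * g)⁻¹ * a⁻¹ = (h * (g * a * g⁻¹) * h⁻¹ * (g * a * g⁻¹)⁻¹) * (g * a * g⁻¹ * a⁻¹) := by group
      rw [e]
      exact mul_mem (h2 _ (conj_mem_cj ha)) (h1 a ha)
    · intro A g _ _ h1 b hb
      have h2 := inv_mem (h1 _ (mem_cj.1 hb))
      have e : g⁻¹ * b * g⁻¹⁻¹ * b⁻¹ = (g * (g⁻¹ * b * g) * g⁻¹ * (g⁻¹ * b * g)⁻¹)⁻¹ := by group
      rw [e]; exact h2
    · intro A B g hAB _ _ h a ha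
      exact h a (hAB ha)
    · intro y hy a ha
      apply mem_sup_left
      rw [commutator_comm]
      exact commutator_mem_commutator hy ha
    · intro Q hQ htm x hx hk a ha
      apply mem_sup_right
      have h1 : ⁅(P : Subgroup G) ⊓ (hQ.toSylowTop : Subgroup G), Subgroup.zpowers x⁆ ≤ ⨆ (Q : Sylow p G) (_ : (¬ p ∣ ((P : Subgroup G) ⊓ Subgroup.normalizer (((P : Subgroup G) ⊓ (Q : Subgroup G) : Subgroup G) : Set G)).relIndex (Subgroup.normalizer (((P : Subgroup G) ⊓ (Q : Subgroup G) : Subgroup G) : Set G)) ∧ ¬ p ∣ ((Q : Subgroup G) ⊓ Subgroup.normalizer (((P : Subgroup G) ⊓ (Q : Subgroup G) : Subgroup G) : Set G)).relIndex (Subgroup.normalizer (((P : Subgroup G) ⊓ (Q : Subgroup G) : Subgroup G) : Set G))))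
          (x : G) (_ : x ∈ Subgroup.normalizer (((P : Subgroup G) ⊓ (Q : Subgroup G) : Subgroup G) : Set G) ∧ ∃ k : ℕ, orderOf x = p ^ k),
          ⁅(P : Subgroup G) ⊓ (Q : Subgroup G), Subgroup.zpowers x⁆ :=
        le_iSup_of_le hQ.toSylowTop (le_iSup_of_le htm (le_iSup_of_le x (le_iSup_of_le ⟨hx, hk⟩ le_rfl)))
      apply h1
      rw [commutator_comm]
      exact commutator_mem_commutator (mem_zpowers x) ha
  · rw [hF, sup_le_iff]
    constructor
    · refine le_inf ?_ (Subgroup.commutator_mono le_top le_top)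
      rw [commutator_le]
      intro a ha g hg
      have h1 : g * a⁻¹ * g⁻¹ ∈ (P : Subgroup G) := (mem_normalizer_iff.1 hg _).1 (inv_mem ha)
      have h2 : ⁅a, g⁆ = a * (g * a⁻¹ * g⁻¹) := by rw [commutatorElement_def]; group
      rw [h2]; exact mul_mem ha h1
    · refine iSup_le fun Q => iSup_le fun _ => iSup_le fun x => iSup_le fun hx => ?_
      refine le_inf (le_trans ?_ (inf_le_left : (P : Subgroup G) ⊓ (Q : Subgroup G) ≤ P)) (Subgroup.commutator_mono le_top le_top)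
      rw [commutator_le]
      intro a ha g hg
      have hg' : g ∈ Subgroup.normalizer (((P : Subgroup G) ⊓ (Q : Subgroup G) : Subgroup G) : Set G) := (zpowers_le.2 hx.1) hg
      have h1 : g * a⁻¹ * g⁻¹ ∈ (P : Subgroup G) ⊓ (Q : Subgroup G) := (mem_normalizer_iff.1 hg' _).1 (inv_mem ha)
      have h2 : ⁅a, g⁆ = a * (g * a⁻¹ * g⁻¹) := by rw [commutatorElement_def]; group
      rw [h2]; exact mul_mem ha h1


end Cfsg.Agent.S4250
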