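import Cfsg.Statements.S4251
import Cfsg.Agent.H23_Tame
import Cfsg.Agent.H2_Fusion3


set_option autoImplicit false
open Cfsg

namespace Cfsg.Agent.S4251

open Subgroup
open Cfsg.Agent.H17.Base
open scoped commutatorElement

universe u

/-- if `N/C` is a `p`-group then `N = C T` -/
theorem exists_mul {G : Type u} [Group G] [Finite G] {p : ℕ} [hp : Fact p.Prime] {H T : Subgroup G}
    (hT : IsSylowIn p T (Nz H)) (hq : ∃ m, ((Cz H).subgroupOf (Nz H)).index = p ^ m) {n : G} (hn : n ∈ Nz H) :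
    ∃ c ∈ Cz H, ∃ t ∈ T, n = t * c := by
  have h1 : (hT.toSylow : Subgroup (Nz H)) ⊔ (Cz H).subgroupOf (Nz H) = ⊤ := by
    rw [← index_eq_one]
    by_contra hne
    obtain ⟨q, hq1, hqd⟩ := Nat.exists_prime_and_dvd hne
    have h2 : q ∣ ((Cz H).subgroupOf (Nz H)).index := hqd.trans (index_dvd_of_le le_sup_right)
    have h3 : q = p := by
      obtain ⟨m, hm⟩ := hq
      rw [hm] at h2
      exact (Nat.prime_dvd_prime_iff_eq hq1 hp.out).1 (hq1.dvd_of_dvd_pow h2)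
    subst h3
    exact hT.toSylow.not_dvd_index (hqd.trans (index_dvd_of_le le_sup_left))
  have h2 : T ⊔ Cz H = Nz H := by
    have h3 := congrArg (Subgroup.map (Nz H).subtype) h1
    rw [Subgroup.map_sup, hT.map_toSylow, ← MonoidHom.range_eq_map, Subgroup.range_subtype,
      Subgroup.map_subgroupOf_eq_of_le (Cz_le_Nz H)] at h3
    exact h3
  rw [← h2] at hn
  obtain ⟨t, ht, c, hc, htc⟩ := (H2.Card.mem_sup_iff (hT.1.trans (Nz_le_Nz_Cz H))).1 hn
  exact ⟨c, hc, t, ht, htc.symm⟩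


/-- Let P be a Sylow p-subgroup of a finite group G. Call an intersection H = P ∩ Q with a Sylow p-subgroup Q tame when N_P(H) and N_Q(H) are Sylow p-subgroups of N_G(H). If N_G(H)/C_G(H) is a p-group for every nontrivial tame intersection H = P ∩ Q, then G has a normal p-complement. -/
theorem result {G : Type*} [Group G] [Finite G] (p : ℕ) [Fact p.Prime] (P : Sylow p G)
    (h : ∀ Q : Sylow p G, (P : Subgroup G) ⊓ (Q : Subgroup G) ≠ ⊥ → (¬ p ∣ ((P : Subgroup G) ⊓ Subgroup.normalizer (((P : Subgroup G) ⊓ (Q : Subgroup G) : Subgroup G) : Set G)).relIndex (Subgroup.normalizer (((P : Subgroup G) ⊓ (Q : Subgroup G) : Subgroup G) : Set G)) ∧ ¬ p ∣ ((Q : Subgroup G) ⊓ Subgroup.normalizer (((P : Subgroup G) ⊓ (Q : Subgroup G) : Subgroup G) : Set G)).relIndex (Subgroup.normalizer (((P : Subgroup G) ⊓ (Q : Subgroup G) : Subgroup G) : Set G))) →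
      IsPGroup p (Subgroup.normalizer (((P : Subgroup G) ⊓ (Q : Subgroup G) : Subgroup G) : Set G) ⧸
        (Subgroup.centralizer (((P : Subgroup G) ⊓ (Q : Subgroup G) : Subgroup G) : Set G)).subgroupOf
          (Subgroup.normalizer (((P : Subgroup G) ⊓ (Q : Subgroup G) : Subgroup G) : Set G)))) :
    Cfsg.HasNormalPComplement p G := by

  apply H2.Fusion3.npc_of_controls_fusion P
  intro x hx g hg
  have key := H23.Tame.alperin_tame (isSylowIn_coe P) (fun A g => ∃ z ∈ (P : Subgroup G), ∀ a ∈ A, z * a * z⁻¹ = g * a * g⁻¹) ?_ ?_ ?_ ?_ ?_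
    (zpowers x) (zpowers_le.2 hx) g ?_
  · obtain ⟨z, hz, hza⟩ := key
    exact ⟨z, hz, hza x (mem_zpowers x)⟩
  · rintro A g h _ _ _ ⟨z, hz, hza⟩ ⟨w, hw, hwa⟩
    refine ⟨w * z, mul_mem hw hz, fun a ha => ?_⟩
    have h1 := hwa _ (conj_mem_cj ha)
    calc w * z * a * (w * z)⁻¹ = w * (z * a * z⁻¹) * w⁻¹ := by group
      _ = w * (g * a * g⁻¹) * w⁻¹ := by rw [hza a ha]
      _ = h * (g * a * g⁻¹) * h⁻¹ := h1
      _ = _ := by group
  · rintro A g _ _ ⟨z, hz, hza⟩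
    refine ⟨z⁻¹, inv_mem hz, fun b hb => ?_⟩
    have h1 := hza _ (mem_cj.1 hb)
    have h2 : z * (g⁻¹ * b * g) * z⁻¹ = b := by rw [h1]; group
    calc z⁻¹ * b * z⁻¹⁻¹ = z⁻¹ * (z * (g⁻¹ * b * g) * z⁻¹) * z := by rw [h2]; group
      _ = _ := by group
  · rintro A B g hAB _ _ ⟨z, hz, hza⟩
    exact ⟨z, hz, fun a ha => hza a (hAB ha)⟩
  · intro y hy
    by_cases hP : (P : Subgroup G) = ⊥
    · refine ⟨1, one_mem _, fun a ha => ?_⟩
      rw [hP, mem_bot] at ha
      rw [ha]; group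
    · have hPN : IsSylowIn p (P : Subgroup G) (Nz (P : Subgroup G)) := (isSylowIn_coe P).mono Subgroup.le_normalizer le_top
      have h1 := h P (by rw [inf_idem]; exact hP) (by
        rw [inf_idem, inf_eq_left.2 Subgroup.le_normalizer]
        exact ⟨H23.Tame.not_dvd_relIndex hPN, H23.Tame.not_dvd_relIndex hPN⟩)
      rw [inf_idem] at h1
      obtain ⟨c, hc, t, ht, rfl⟩ := exists_mul hPN (by obtain ⟨m, hm⟩ := IsPGroup.iff_card.1 h1; exact ⟨m, by rw [index_eq_card]; exact hm⟩) hy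
      refine ⟨t, ht, fun a ha => ?_⟩
      have h2 := mem_centralizer_iff.1 hc a ha
      calc t * a * t⁻¹ = t * (a * c) * c⁻¹ * t⁻¹ := by group
        _ = t * (c * a) * c⁻¹ * t⁻¹ := by rw [h2]
        _ = _ := by group
  · intro Q hQ htm y hy _
    by_cases hPQ : (P : Subgroup G) ⊓ Q = ⊥
    · refine ⟨1, one_mem _, fun a ha => ?_⟩
      rw [hPQ, mem_bot] at ha
      rw [ha]; group
    · have h1 := h hQ.toSylowTop hPQ htm
      have hT : IsSylowIn p ((P : Subgroup G) ⊓ Nz ((P : Subgroup G) ⊓ Q)) (Nz ((P : Subgroup G) ⊓ Q)) :=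
        H23.Tame.isSylowIn_of_not_dvd (P.2.to_le inf_le_left) inf_le_right htm.1
      obtain ⟨c, hc, t, ht, rfl⟩ := exists_mul hT (by obtain ⟨m, hm⟩ := IsPGroup.iff_card.1 h1; exact ⟨m, by rw [index_eq_card]; exact hm⟩) hy
      refine ⟨t, ht.1, fun a ha => ?_⟩
      have h2 := mem_centralizer_iff.1 hc a ha
      calc t * a * t⁻¹ = t * (a * c) * c⁻¹ * t⁻¹ := by group
        _ = t * (c * a) * c⁻¹ * t⁻¹ := by rw [h2]
        _ = _ := by group
  · rintro _ ⟨y, hy, rfl⟩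
    obtain ⟨k, rfl⟩ := mem_zpowers_iff.1 hy
    change g * x ^ k * g⁻¹ ∈ _
    rw [← conj_zpow]
    exact zpow_mem hg k


end Cfsg.Agent.S4251
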