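import Cfsg.Statements.S4252
import Mathlib

set_option autoImplicit false
open Cfsg

namespace Cfsg.Agent.S4252

open scoped Pointwise

/-- Let a finite group G act on a finite set Ω with more than one point, transitively but not regularly, so that no non-identity element of G fixes two distinct points. Then the stabilizer H of any point is a Frobenius complement in G (nontrivial, proper, meeting its other conjugates trivially), and the Frobenius kernel of G with respect to H (the identity together with the elements lying in no conjugate of H) is exactly the set consisting of the identity and the elements fixing no point. -/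
theorem result {G Ω : Type*} [Group G] [Finite G] [Fintype Ω] [MulAction G Ω] (hΩ : 1 < Fintype.card Ω)
    (htrans : ∀ α β : Ω, ∃ g : G, g • α = β) (hnreg : ∃ g : G, g ≠ 1 ∧ ∃ α : Ω, g • α = α)
    (hfix : ∀ g : G, g ≠ 1 → ∀ α β : Ω, g • α = α → g • β = β → α = β) (α : Ω) :
    Cfsg.IsFrobeniusComplement (MulAction.stabilizer G α) ∧
      Cfsg.frobeniusKernel (MulAction.stabilizer G α) = {g : G | g = 1 ∨ ∀ ω : Ω, g • ω ≠ ω} := by
  have hconj : ∀ (g x : G), x ∈ MulAut.conj g • MulAction.stabilizer G α ↔ x • (g • α) = g • α := by
    intro g x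
    rw [Subgroup.mem_pointwise_smul_iff_inv_smul_mem, ← map_inv, MulAut.smul_def, MulAut.conj_apply,
      MulAction.mem_stabilizer_iff, inv_inv, mul_smul, mul_smul, inv_smul_eq_iff]
  refine ⟨⟨?_, ?_, ?_⟩, ?_⟩
  · obtain ⟨g, hg, β, hβ⟩ := hnreg
    obtain ⟨k, hk⟩ := htrans α β
    intro h
    have h1 : k⁻¹ * g * k ∈ MulAction.stabilizer G α := by
      rw [MulAction.mem_stabilizer_iff, mul_smul, mul_smul, hk, hβ, ← hk, inv_smul_smul]
    rw [h, Subgroup.mem_bot] at h1
    apply hg
    have : g = k * (k⁻¹ * g * k) * k⁻¹ := by group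
    rw [this, h1]; group
  · intro h
    obtain ⟨β, hβ⟩ := Fintype.exists_ne_of_one_lt_card hΩ α
    obtain ⟨k, hk⟩ := htrans α β
    have h1 : k ∈ MulAction.stabilizer G α := by rw [h]; trivial
    rw [MulAction.mem_stabilizer_iff] at h1
    exact hβ (hk.symm.trans h1)
  · intro g hg
    rw [eq_bot_iff]
    intro x hx12
    rw [Subgroup.mem_inf, hconj] at hx12
    obtain ⟨hx1, hx2⟩ := hx12
    rw [Subgroup.mem_bot]
    by_contra hx
    exact hg (MulAction.mem_stabilizer_iff.mpr (hfix x hx α (g • α) hx1 hx2).symm)
  · ext x
    simp only [Cfsg.frobeniusKernel, Set.mem_ofPred_eq]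
    constructor
    · rintro (h | h)
      · exact Or.inl h
      · refine Or.inr fun ω hω => ?_
        obtain ⟨k, hk⟩ := htrans α ω
        apply h k
        rw [hconj, hk]; exact hω
    · rintro (h | h)
      · exact Or.inl h
      · refine Or.inr fun g hg => ?_
        rw [hconj] at hg
        exact h _ hg

end Cfsg.Agent.S4252
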