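import Cfsg.Statements.S4253
import Mathlib

set_option autoImplicit false
open Cfsg

namespace Cfsg.Agent.S4253

open scoped Pointwise

/-- Let H be a Frobenius complement in a finite group G (a nontrivial proper subgroup meeting each conjugate gHg⁻¹ with g outside H trivially). Then in the action of G on the left cosets of H by left multiplication, no non-identity element of G fixes two distinct cosets. -/
theorem result {G : Type*} [Group G] [Finite G] (H : Subgroup G) (hH : Cfsg.IsFrobeniusComplement H)
    (g : G) (hg : g ≠ 1) (a b : G ⧸ H) (ha : g • a = a) (hb : g • b = b) : a = b := by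
  obtain ⟨a, rfl⟩ := QuotientGroup.mk_surjective a
  obtain ⟨b, rfl⟩ := QuotientGroup.mk_surjective b
  have ha' : a⁻¹ * g * a ∈ H := by
    have : (QuotientGroup.mk (g * a) : G ⧸ H) = QuotientGroup.mk a := ha
    have := QuotientGroup.eq.1 this.symm
    simpa [mul_assoc] using this
  have hb' : b⁻¹ * g * b ∈ H := by
    have : (QuotientGroup.mk (g * b) : G ⧸ H) = QuotientGroup.mk b := hb
    have := QuotientGroup.eq.1 this.symm
    simpa [mul_assoc] using this
  rw [QuotientGroup.eq]
  by_contra hc
  have h1 := hH.2.2 _ hc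
  have h2 : a⁻¹ * g * a ∈ H ⊓ (MulAut.conj (a⁻¹ * b) • H) := by
    rw [Subgroup.mem_inf]
    refine ⟨ha', ?_⟩
    rw [Subgroup.mem_pointwise_smul_iff_inv_smul_mem, ← map_inv, MulAut.smul_def, MulAut.conj_apply]
    have e : (a⁻¹ * b)⁻¹ * (a⁻¹ * g * a) * (a⁻¹ * b)⁻¹⁻¹ = b⁻¹ * g * b := by group
    rw [e]; exact hb'
  rw [h1, Subgroup.mem_bot] at h2
  apply hg
  have : g = a * (a⁻¹ * g * a) * a⁻¹ := by group
  rw [this, h2]; group

end Cfsg.Agent.S4253
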