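import Cfsg.Statements.S4261
import Mathlib
import Cfsg.Agent.H1_Hall
import Cfsg.Agent.H2_PGroup

set_option autoImplicit false
open Cfsg

namespace Cfsg.Agent.S4261

/-- Let M be a maximal subgroup of a finite solvable group G such that x^[G : M] lies in M for every x in G. Then M is normal in G. -/
theorem result {G : Type*} [Group G] [Finite G] (hG : Group.IsSolvable G) (M : Subgroup G) (hM : IsCoatom M)
    (hexp : ∀ x : G, x ^ M.index ∈ M) : M.Normal := by
  obtain ⟨p, k, hp, hk, hidx⟩ := Cfsg.Agent.H1.Hall.maximal_index_prime_pow M hM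
  have hpf : Fact p.Prime := ⟨hp⟩
  -- all p'-elements lie in M
  have h1 : ∀ x : G, ¬ p ∣ orderOf x → x ∈ M := by
    intro x hx
    have h2 := hexp x
    rw [hidx] at h2
    have hco : (orderOf x).Coprime (p ^ k) := (((Nat.Prime.coprime_iff_not_dvd hp).mpr hx).symm).pow_right k
    obtain ⟨m, hm⟩ := exists_pow_eq_self_of_coprime hco.symm
    rw [← hm]
    exact M.pow_mem h2 m
  set K : Subgroup G := Subgroup.closure {x : G | ¬ p ∣ orderOf x} with hK
  have hKM : K ≤ M := (Subgroup.closure_le _).mpr (fun x hx => h1 x hx)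
  have hKn : K.Normal := by
    apply Subgroup.Normal.mk
    intro n hn g
    have hset : ∀ y ∈ {x : G | ¬ p ∣ orderOf x}, g * y * g⁻¹ ∈ {x : G | ¬ p ∣ orderOf x} := by
      intro y hy
      change ¬ p ∣ orderOf (g * y * g⁻¹)
      rw [← MulAut.conj_apply, MulEquiv.orderOf_eq]; exact hy
    have : K ≤ K.comap (MulAut.conj g).toMonoidHom := by
      rw [hK, Subgroup.closure_le]
      intro y hy
      exact Subgroup.subset_closure (hset y hy)
    exact this hn
  have hPG : IsPGroup p (G ⧸ K) := by
    intro x
    obtain ⟨y, rfl⟩ := QuotientGroup.mk_surjective x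
    obtain ⟨a, b, hb, hab⟩ := Nat.exists_eq_pow_mul_and_not_dvd (orderOf_pos y).ne' p hp.ne_one
    refine ⟨a, ?_⟩
    rw [← QuotientGroup.mk_pow, QuotientGroup.eq_one_iff]
    apply Subgroup.subset_closure
    change ¬ p ∣ orderOf (y ^ p ^ a)
    rw [orderOf_pow_of_dvd (pow_ne_zero _ hp.ne_zero) (by rw [hab]; exact dvd_mul_right _ _), hab,
      Nat.mul_div_cancel_left _ (pow_pos hp.pos a)]
    exact hb
  -- M/K is maximal in G/K
  have hMc : IsCoatom (M.map (QuotientGroup.mk' K)) := by
    have hcm : (M.map (QuotientGroup.mk' K)).comap (QuotientGroup.mk' K) = M := by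
      rw [Subgroup.comap_map_eq, QuotientGroup.ker_mk', sup_eq_left]; exact hKM
    constructor
    · intro h
      apply hM.1
      rw [← hcm, h, Subgroup.comap_top]
    · intro L hL
      have h3 : M < L.comap (QuotientGroup.mk' K) := by
        rw [← hcm]
        exact (Subgroup.comap_lt_comap_of_surjective (QuotientGroup.mk'_surjective K)).mpr hL
      have h4 := hM.2 _ h3
      rw [← Subgroup.map_comap_eq_self_of_surjective (QuotientGroup.mk'_surjective K) L, h4]
      exact Subgroup.map_top_of_surjective _ (QuotientGroup.mk'_surjective K)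
  have hMn := Cfsg.Agent.H2.PGroup.coatom_normal hPG hMc
  have hcm : (M.map (QuotientGroup.mk' K)).comap (QuotientGroup.mk' K) = M := by
    rw [Subgroup.comap_map_eq, QuotientGroup.ker_mk', sup_eq_left]; exact hKM
  rw [← hcm]
  exact hMn.comap _

end Cfsg.Agent.S4261
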