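import Cfsg.Statements.S4263
import Cfsg.Agent.H24_Sub

set_option autoImplicit false
open Cfsg

namespace Cfsg.Agent.S4263

/-- Let G be a finite group. An element x lies in the Fitting subgroup F(G) if and only if, for every subgroup H of G, the power x^[G : H] lies in H. -/
theorem result {G : Type*} [Group G] [Finite G] (x : G) :
    x ∈ Cfsg.fittingSubgroup G ↔ ∀ H : Subgroup G, x ^ H.index ∈ H := by
  constructor
  · intro hx H
    have hnil : Group.IsNilpotent (Cfsg.fittingSubgroup G) :=
      Cfsg.Agent.H24.Basic.fittingSubgroup_nilpotent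
    have hn : (Cfsg.fittingSubgroup G).Normal := Cfsg.Agent.H24.Basic.fittingSubgroup_normal'
    have hsub := Cfsg.Agent.H24.Sub.isSubnormal_of_nilpotent hnil
      (H.subgroupOf (Cfsg.fittingSubgroup G))
    have h1 := Cfsg.Agent.H24.Sub.pow_index_mem_of_subnormal _ hsub ⟨x, hx⟩
    rw [Subgroup.mem_subgroupOf] at h1
    simp only [SubmonoidClass.mk_pow] at h1
    obtain ⟨k, hk⟩ := Cfsg.Agent.H24.Sub.relIndex_dvd_index_of_normal_right H
      (Cfsg.fittingSubgroup G)
    rw [hk, pow_mul]
    exact Subgroup.pow_mem _ h1 k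
  · intro h
    have hn : (Cfsg.fittingSubgroup G).Normal := Cfsg.Agent.H24.Basic.fittingSubgroup_normal'
    rw [← QuotientGroup.eq_one_iff, ← orderOf_eq_one_iff]
    by_contra hne
    obtain ⟨p, hp, hpd⟩ := Nat.exists_prime_and_dvd hne
    haveI : Fact p.Prime := ⟨hp⟩
    have hK : ∀ y : G, (∀ P : Sylow p G, y ∈ (P : Subgroup G)) → y ∈ Cfsg.fittingSubgroup G := by
      intro y hy
      have hN : (⨅ P : Sylow p G, (P : Subgroup G)).Normal := by
        constructor
        intro n hn g
        rw [Subgroup.mem_iInf] at hn ⊢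
        intro P
        have h2 := hn (g⁻¹ • P)
        rw [Sylow.coe_subgroup_smul, Subgroup.mem_pointwise_smul_iff_inv_smul_mem] at h2
        simpa [MulAut.smul_def, MulAut.conj_apply] using h2
      have hp' : IsPGroup p (⨅ P : Sylow p G, (P : Subgroup G) : Subgroup G) := by
        obtain ⟨P⟩ : Nonempty (Sylow p G) := inferInstance
        exact P.isPGroup'.to_le (iInf_le _ P)
      have hle := Cfsg.Agent.H24.Basic.le_fittingSubgroup hN hp'.isNilpotent
      exact hle (by rw [Subgroup.mem_iInf]; exact hy)
    obtain ⟨P⟩ : Nonempty (Sylow p G) := inferInstance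
    have hmem : x ^ (P : Subgroup G).index ∈ Cfsg.fittingSubgroup G := by
      apply hK
      intro Q
      have h2 := h (Q : Subgroup G)
      have : (Q : Subgroup G).index = (P : Subgroup G).index := by
        have e1 := (Q : Subgroup G).card_mul_index
        have e2 := (P : Subgroup G).card_mul_index
        have e3 : Nat.card (Q : Subgroup G) = Nat.card (P : Subgroup G) := by
          rw [Q.card_eq_multiplicity, P.card_eq_multiplicity]
        rw [e3, ← e2] at e1
        exact Nat.eq_of_mul_eq_mul_left Nat.card_pos e1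
      rw [← this]
      exact h2
    have hd : orderOf (x : G ⧸ Cfsg.fittingSubgroup G) ∣ (P : Subgroup G).index := by
      apply orderOf_dvd_of_pow_eq_one
      rw [← QuotientGroup.mk_pow, QuotientGroup.eq_one_iff]
      exact hmem
    exact P.not_dvd_index (hpd.trans hd)

end Cfsg.Agent.S4263
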