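import Cfsg.Statements.S4269
import Mathlib
import Cfsg.Agent.H24_Tools

set_option autoImplicit false
open Cfsg

namespace Cfsg.Agent.S4269

/-- Let G be a finite group, V an abelian normal subgroup and H a subgroup with HV = G. Then H is pronormal in G (H and gHg⁻¹ are conjugate inside the subgroup they generate, for every g) if and only if every H-invariant subgroup U of V satisfies U = N_U(H)·[H, U], that is, U is the join of U ∩ N_G(H) and the commutator subgroup [H, U]. -/
theorem result {G : Type*} [Group G] [Finite G]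
    (V : Subgroup G) [V.Normal] (hV : IsMulCommutative ↥V) (H : Subgroup G) (hHV : H ⊔ V = ⊤) :
    Cfsg.IsPronormal H ↔
      ∀ U : Subgroup G, U ≤ V → (∀ h ∈ H, U.map (MulAut.conj h).toMonoidHom = U) →
        U = (U ⊓ Subgroup.normalizer (H : Set G)) ⊔ ⁅H, U⁆ := by
  have hab : ∀ a ∈ V, ∀ b ∈ V, a * b = b * a := fun a ha b hb => by
    have := hV.is_comm.comm ⟨a, ha⟩ ⟨b, hb⟩
    simpa [Subtype.ext_iff] using this
  have hmc : ∀ (K : Subgroup G) (g x : G), x ∈ K.map (MulAut.conj g).toMonoidHom ↔ g⁻¹ * x * g ∈ K :=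
    fun K g x => Cfsg.Agent.H24.Tools.mem_map_conj
  constructor
  · intro hpro U hUV hU
    have hUc : ∀ h ∈ H, ∀ u ∈ U, h * u * h⁻¹ ∈ U := by
      intro h hh u hu
      have : h * u * h⁻¹ ∈ U.map (MulAut.conj h).toMonoidHom := by
        rw [hmc]
        have e : h⁻¹ * (h * u * h⁻¹) * h = u := by group
        rw [e]; exact hu
      rwa [hU h hh] at this
    have hcle : ⁅H, U⁆ ≤ U := by
      rw [Subgroup.commutator_le]
      intro h hh u hu
      rw [commutatorElement_def]
      exact U.mul_mem (hUc h hh u hu) (U.inv_mem hu)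
    apply le_antisymm
    · intro u hu
      obtain ⟨x, hx, hxe⟩ := hpro u
      -- ⟨H, H^u⟩ ≤ H [H,U]
      have hn : H ≤ Subgroup.normalizer ((⁅H, U⁆ : Subgroup G) : Set G) :=
        Subgroup.normalizer_commutator_ge_left _ _
      have hle : H ⊔ H.map (MulAut.conj u).toMonoidHom ≤ H ⊔ ⁅H, U⁆ := by
        refine sup_le le_sup_left ?_
        rintro _ ⟨h, hh, rfl⟩
        have e : (MulAut.conj u).toMonoidHom h = h * (h⁻¹ * u * h * u⁻¹) := by
          simp only [MulEquiv.toMonoidHom_eq_coe, MonoidHom.coe_coe, MulAut.conj_apply]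
          group
        rw [e]
        have hcm := Subgroup.commutator_mem_commutator (H.inv_mem hh) hu
        rw [commutatorElement_def, inv_inv] at hcm
        exact Subgroup.mul_mem _ (Subgroup.mem_sup_left hh) (Subgroup.mem_sup_right hcm)
      have hx' := hle hx
      rw [← SetLike.mem_coe, sup_comm, Subgroup.coe_mul_of_right_le_normalizer_left _ _ hn, Set.mem_mul] at hx'
      obtain ⟨w, hw, h, hh, rfl⟩ := hx'
      have hwU : w ∈ U := hcle hw
      refine (by
        have e : u = (w⁻¹ * u) * w := by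
          rw [hab (w⁻¹) (V.inv_mem (hUV hwU)) u (hUV hu), inv_mul_cancel_right]
        rw [e]
        refine Subgroup.mul_mem _ (Subgroup.mem_sup_left ?_) (Subgroup.mem_sup_right hw)
        refine Subgroup.mem_inf.mpr ⟨U.mul_mem (U.inv_mem hwU) hu, ?_⟩
        apply Cfsg.Agent.H24.Tools.mem_normalizer
        intro y hy
        have h1 : u * y * u⁻¹ ∈ H.map (MulAut.conj (w * h)).toMonoidHom := by
          rw [← hxe, hmc]
          have e : u⁻¹ * (u * y * u⁻¹) * u = y := by group
          rw [e]; exact hy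
        rw [hmc] at h1
        have h2 := H.mul_mem (H.mul_mem hh h1) (H.inv_mem hh)
        have e2 : h * ((w * h)⁻¹ * (u * y * u⁻¹) * (w * h)) * h⁻¹ = w⁻¹ * u * y * (w⁻¹ * u)⁻¹ := by group
        rwa [e2] at h2)
    · exact sup_le inf_le_left hcle
  · intro hU
    -- reduce to conjugation by elements of V
    have hv : ∀ v ∈ V, ∃ x ∈ H ⊔ H.map (MulAut.conj v).toMonoidHom,
        H.map (MulAut.conj v).toMonoidHom = H.map (MulAut.conj x).toMonoidHom := by
      intro v hv
      -- U0 = group generated by the commutators [h, v]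
      set D : Subgroup G := Subgroup.closure {z | ∃ h ∈ H, z = h * v * h⁻¹ * v⁻¹} with hD
      have hDV : D ≤ V := by
        rw [hD, Subgroup.closure_le]
        rintro z ⟨h, hh, rfl⟩
        exact V.mul_mem (Subgroup.Normal.conj_mem inferInstance v hv h) (V.inv_mem hv)
      have hDH : ∀ k ∈ H, ∀ z ∈ D, k * z * k⁻¹ ∈ D := by
        intro k hk z hz
        have : D ≤ D.comap (MulAut.conj k).toMonoidHom := by
          rw [hD, Subgroup.closure_le]
          rintro z ⟨h, hh, rfl⟩
          change k * (h * v * h⁻¹ * v⁻¹) * k⁻¹ ∈ D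
          have a1 : (k * h) * v * (k * h)⁻¹ * v⁻¹ ∈ D := Subgroup.subset_closure ⟨k * h, H.mul_mem hk hh, rfl⟩
          have a2 : k * v * k⁻¹ * v⁻¹ ∈ D := Subgroup.subset_closure ⟨k, hk, rfl⟩
          have e : k * (h * v * h⁻¹ * v⁻¹) * k⁻¹ = ((k * h) * v * (k * h)⁻¹ * v⁻¹) * (k * v * k⁻¹ * v⁻¹)⁻¹ := by group
          rw [e]
          exact D.mul_mem a1 (D.inv_mem a2)
        exact this hz
      set U : Subgroup G := Subgroup.zpowers v ⊔ D with hUdef
      have hUV : U ≤ V := sup_le ((Subgroup.zpowers_le).mpr hv) hDV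
      have hvU : v ∈ U := Subgroup.mem_sup_left (Subgroup.mem_zpowers v)
      have hUH : ∀ k ∈ H, ∀ z ∈ U, k * z * k⁻¹ ∈ U := by
        intro k hk z hz
        have : U ≤ U.comap (MulAut.conj k).toMonoidHom := by
          refine sup_le ?_ ?_
          · rw [Subgroup.zpowers_le]
            change k * v * k⁻¹ ∈ U
            have e : k * v * k⁻¹ = (k * v * k⁻¹ * v⁻¹) * v := by group
            rw [e]
            exact U.mul_mem (Subgroup.mem_sup_right (Subgroup.subset_closure ⟨k, hk, rfl⟩)) hvU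
          · intro z hz
            exact Subgroup.mem_sup_right (hDH k hk z hz)
        exact this hz
      have hUinv : ∀ h ∈ H, U.map (MulAut.conj h).toMonoidHom = U := by
        intro h hh
        apply le_antisymm
        · rintro _ ⟨z, hz, rfl⟩
          exact hUH h hh z hz
        · intro z hz
          rw [hmc]
          have := hUH h⁻¹ (H.inv_mem hh) z hz
          rwa [inv_inv] at this
      have hkey := hU U hUV hUinv
      -- [H, U] ≤ D
      have hHU : ⁅H, U⁆ ≤ D := by
        rw [Subgroup.commutator_le]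
        intro h hh z hz
        rw [commutatorElement_def]
        -- the map z ↦ [h,z] is a homomorphism on U since V abelian
        have hmul : ∀ a ∈ V, ∀ b ∈ V, h * (a * b) * h⁻¹ * (a * b)⁻¹ = (h * a * h⁻¹ * a⁻¹) * (h * b * h⁻¹ * b⁻¹) := by
          intro a ha b hb
          have hb' : h * b * h⁻¹ ∈ V := Subgroup.Normal.conj_mem inferInstance b hb h
          calc h * (a * b) * h⁻¹ * (a * b)⁻¹ = (h * a * h⁻¹) * ((h * b * h⁻¹) * b⁻¹) * a⁻¹ := by group
            _ = (h * a * h⁻¹) * (a⁻¹ * ((h * b * h⁻¹) * b⁻¹)) := by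
              rw [mul_assoc (h * a * h⁻¹), hab _ (V.mul_mem hb' (V.inv_mem hb)) _ (V.inv_mem ha)]
            _ = _ := by group
        have hinv : ∀ a ∈ V, h * a⁻¹ * h⁻¹ * a⁻¹⁻¹ = (h * a * h⁻¹ * a⁻¹)⁻¹ := by
          intro a ha
          have ha' : h * a⁻¹ * h⁻¹ ∈ V := Subgroup.Normal.conj_mem inferInstance _ (V.inv_mem ha) h
          rw [inv_inv, hab _ ha' a ha]; group
        let E : Subgroup G :=
          { carrier := {z | z ∈ V ∧ h * z * h⁻¹ * z⁻¹ ∈ D}
            one_mem' := ⟨V.one_mem, by simp⟩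
            mul_mem' := fun {a b} ha hb => ⟨V.mul_mem ha.1 hb.1, by
              rw [hmul a ha.1 b hb.1]; exact D.mul_mem ha.2 hb.2⟩
            inv_mem' := fun {a} ha => ⟨V.inv_mem ha.1, by
              rw [hinv a ha.1]; exact D.inv_mem ha.2⟩ }
        have hUE : U ≤ E := by
          refine sup_le ?_ ?_
          · rw [Subgroup.zpowers_le]
            exact ⟨hv, Subgroup.subset_closure ⟨h, hh, rfl⟩⟩
          · intro z hz
            exact ⟨hDV hz, D.mul_mem (hDH h hh z hz) (D.inv_mem hz)⟩
        exact (hUE hz).2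
      have hD2 : D ≤ H ⊔ H.map (MulAut.conj v).toMonoidHom := by
        rw [hD, Subgroup.closure_le]
        rintro z ⟨h, hh, rfl⟩
        have e : h * v * h⁻¹ * v⁻¹ = h * (v * h⁻¹ * v⁻¹) := by group
        rw [e]
        refine Subgroup.mul_mem _ (Subgroup.mem_sup_left hh) (Subgroup.mem_sup_right ?_)
        exact ⟨h⁻¹, H.inv_mem hh, rfl⟩
      have hv2 : v ∈ (U ⊓ Subgroup.normalizer (H : Set G)) ⊔ ⁅H, U⁆ := by rw [← hkey]; exact hvU
      have hcomm : (U ⊓ Subgroup.normalizer (H : Set G)) ≤ Subgroup.normalizer ((⁅H, U⁆ : Subgroup G) : Set G) := by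
        intro z hz
        exact Subgroup.normalizer_commutator_ge_right H U (Subgroup.mem_inf.mp hz).1
      rw [← SetLike.mem_coe, sup_comm, Subgroup.coe_mul_of_right_le_normalizer_left _ _ hcomm, Set.mem_mul] at hv2
      obtain ⟨w, hw, n, hn, hwn⟩ := hv2
      refine ⟨w, hD2 (hHU hw), ?_⟩
      ext z
      rw [hmc, hmc, ← hwn]
      have hn2 : n ∈ Subgroup.normalizer (H : Set G) := (Subgroup.mem_inf.mp hn).2
      have e : (w * n)⁻¹ * z * (w * n) = n⁻¹ * (w⁻¹ * z * w) * n := by group
      rw [e]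
      exact (Subgroup.mem_normalizer_iff''.mp hn2 _).symm
    intro g
    have hg : g ∈ V ⊔ H := by rw [sup_comm, hHV]; trivial
    rw [Subgroup.mem_sup_of_normal_left] at hg
    obtain ⟨v, hvV, h, hh, rfl⟩ := hg
    have e : H.map (MulAut.conj (v * h)).toMonoidHom = H.map (MulAut.conj v).toMonoidHom := by
      ext z
      rw [hmc, hmc]
      have e1 : (v * h)⁻¹ * z * (v * h) = h⁻¹ * (v⁻¹ * z * v) * h := by group
      rw [e1]
      constructor
      · intro h1
        have := H.mul_mem (H.mul_mem hh h1) (H.inv_mem hh)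
        have e2 : h * (h⁻¹ * (v⁻¹ * z * v) * h) * h⁻¹ = v⁻¹ * z * v := by group
        rwa [e2] at this
      · intro h1
        exact H.mul_mem (H.mul_mem (H.inv_mem hh) h1) hh
    rw [e]
    exact hv v hvV

end Cfsg.Agent.S4269
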