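import Cfsg.Statements.S4270
import Cfsg.Agent.H27_Pro

set_option autoImplicit false
open Cfsg

namespace Cfsg.Agent.S4270

open Cfsg.Agent.H27.Grp Cfsg.Agent.H27.Pro

/-- Let p be a prime and G a finite group with a normal subgroup A such that, both in A and in G/A, every subgroup containing a Sylow p-subgroup of that group is pronormal in that group. Let T be a Sylow p-subgroup of A. Then every subgroup of G containing a Sylow p-subgroup of G is pronormal in G if and only if (i) every subgroup of N_G(T)/T containing a Sylow p-subgroup of N_G(T)/T is pronormal there, and (ii) for every subgroup H of G containing a Sylow p-subgroup of G, the image of N_G(H) in G/A is the full normalizer of the image of H. (Pronormal: H and gHg⁻¹ are conjugate inside the subgroup they generate, for every g.) -/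
theorem result {G : Type*} [Group G] [Finite G] {p : ℕ} [Fact p.Prime]
    (A : Subgroup G) [A.Normal] (hA : (∀ K : Subgroup ↥A, (∃ P : Sylow p ↥A, (P : Subgroup ↥A) ≤ K) → Cfsg.IsPronormal K)) (hQ : (∀ K : Subgroup (G ⧸ A), (∃ P : Sylow p (G ⧸ A), (P : Subgroup (G ⧸ A)) ≤ K) → Cfsg.IsPronormal K))
    (T : Subgroup G) (hT : ∃ P : Sylow p ↥A, (P : Subgroup ↥A).map A.subtype = T) [(T.subgroupOf (Subgroup.normalizer (T : Set G))).Normal] :
    (∀ K : Subgroup G, (∃ P : Sylow p G, (P : Subgroup G) ≤ K) → Cfsg.IsPronormal K) ↔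
      ((∀ K : Subgroup (↥(Subgroup.normalizer (T : Set G)) ⧸ T.subgroupOf (Subgroup.normalizer (T : Set G))), (∃ P : Sylow p (↥(Subgroup.normalizer (T : Set G)) ⧸ T.subgroupOf (Subgroup.normalizer (T : Set G))), (P : Subgroup (↥(Subgroup.normalizer (T : Set G)) ⧸ T.subgroupOf (Subgroup.normalizer (T : Set G)))) ≤ K) → Cfsg.IsPronormal K) ∧
        ∀ K : Subgroup G, (∃ P : Sylow p G, (P : Subgroup G) ≤ K) →
          (Subgroup.normalizer (K : Set G)).map (QuotientGroup.mk' A) = Subgroup.normalizer ((K.map (QuotientGroup.mk' A) : Subgroup (G ⧸ A)) : Set (G ⧸ A))) := by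
  obtain ⟨PA, hPA⟩ := hT
  have hTle : T ≤ A := by rw [← hPA]; exact Subgroup.map_subtype_le _
  have hTs : IsSyl p T A := by
    rw [isSyl_iff hTle]
    refine ⟨PA, ?_⟩
    rw [← hPA, Subgroup.subgroupOf, Subgroup.comap_map_eq_self_of_injective A.subtype_injective]
  -- a Sylow subgroup of G containing T
  have hexP : ∃ P : Subgroup G, IsSyl p P ⊤ ∧ T ≤ P ∧ P ≤ Subgroup.normalizer (T : Set G) := by
    obtain ⟨P0, hP0⟩ := hTs.2.1.exists_le_sylow
    have hP0s : IsSyl p (P0 : Subgroup G) ⊤ := isSyl_top_iff.mpr ⟨P0, rfl⟩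
    have hPT : (P0 : Subgroup G) ⊓ A = T := by
      apply (hTs.eq_of_le inf_le_right (hP0s.2.1.to_le inf_le_left) (le_inf hP0 hTle)).symm
    refine ⟨P0, hP0s, hP0, ?_⟩
    intro x hx
    rw [mem_normalizer_iff_cj]
    apply cj_eq_of_card _ le_rfl
    rw [cj_le]
    intro b hb
    rw [← hPT] at hb ⊢
    exact ⟨Subgroup.mul_mem _ (Subgroup.mul_mem _ hx hb.1) (Subgroup.inv_mem _ hx),
      (inferInstance : A.Normal).conj_mem b hb.2 x⟩
  obtain ⟨P, hP, hTP, hPN⟩ := hexP
  have hφs : Function.Surjective (QuotientGroup.mk' A) := QuotientGroup.mk'_surjective A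
  have hcjmap : ∀ (g : G) (X : Subgroup G), cj ((QuotientGroup.mk' A) g) (X.map (QuotientGroup.mk' A)) =
      (cj g X).map (QuotientGroup.mk' A) := by
    intro g X
    unfold cj
    rw [Subgroup.map_map, Subgroup.map_map]
    congr 1
  constructor
  · intro h
    refine ⟨fun K hK => quot_of T P hP hTP hPN h K hK, ?_⟩
    intro K hK
    apply le_antisymm
    · rintro _ ⟨n, hn, rfl⟩
      rw [SetLike.mem_coe] at hn
      rw [mem_normalizer_iff_cj, hcjmap, mem_normalizer_iff_cj.mp hn]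
    · intro gq hgq
      obtain ⟨g, rfl⟩ := hφs gq
      rw [mem_normalizer_iff_cj, hcjmap, Subgroup.map_eq_map_iff, QuotientGroup.ker_mk'] at hgq
      obtain ⟨x, hx, hxe⟩ := isPro_iff.mp (h K hK) g
      have h1 : x ∈ A ⊔ K := by
        have h2 : K ⊔ cj g K ≤ A ⊔ K := by
          apply sup_le le_sup_right
          rw [sup_comm A K, ← hgq]
          exact le_sup_left
        exact h2 hx
      rw [← SetLike.mem_coe, Subgroup.normal_mul, Set.mem_mul] at h1
      obtain ⟨a, ha, k, hk, rfl⟩ := h1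
      rw [← cj_cj, cj_eq_of_mem hk] at hxe
      refine ⟨a⁻¹ * g, ?_, ?_⟩
      · rw [SetLike.mem_coe, mem_normalizer_iff_cj, ← cj_cj, hxe, cj_inv_cj]
      · rw [map_mul]
        have h3 : (QuotientGroup.mk' A) a⁻¹ = 1 := by
          rw [QuotientGroup.mk'_apply, QuotientGroup.eq_one_iff]
          exact A.inv_mem ha
        rw [h3, one_mul]
  · rintro ⟨h, h2⟩ K hK
    refine finish A hA T hTs h ?_ K hK
    intro K P hP hPK g
    obtain ⟨P', hP'⟩ := isSyl_top_iff.mp hP
    have hPK' : ((P'.mapSurjective hφs : Sylow p (G ⧸ A)) : Subgroup (G ⧸ A)) ≤ K.map (QuotientGroup.mk' A) := by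
      rw [Sylow.coe_mapSurjective, hP']
      exact Subgroup.map_mono hPK
    obtain ⟨y, hy, hye⟩ := isPro_iff.mp (hQ _ ⟨_, hPK'⟩) ((QuotientGroup.mk' A) g)
    rw [hcjmap, ← Subgroup.map_sup] at hy
    obtain ⟨x, hx, rfl⟩ := hy
    have h3 : (QuotientGroup.mk' A) (x⁻¹ * g) ∈ Subgroup.normalizer ((K.map (QuotientGroup.mk' A) : Subgroup (G ⧸ A)) : Set (G ⧸ A)) := by
      rw [mem_normalizer_iff_cj, map_mul, map_inv, ← cj_cj, hye, cj_inv_cj]
    rw [← h2 K ⟨P', by rw [hP']; exact hPK⟩] at h3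
    obtain ⟨n, hn, hne⟩ := h3
    refine ⟨x⁻¹, Subgroup.inv_mem _ hx, n, hn, ?_⟩
    have h4 : (QuotientGroup.mk' A) (x⁻¹ * g * n⁻¹) = 1 := by
      rw [map_mul, map_inv _ n, hne, mul_inv_cancel]
    rwa [QuotientGroup.mk'_apply, QuotientGroup.eq_one_iff] at h4

end Cfsg.Agent.S4270
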