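import Cfsg.Statements.S4271
import Cfsg.Agent.H27_Pro

set_option autoImplicit false
open Cfsg

namespace Cfsg.Agent.S4271

open Cfsg.Agent.H27.Grp Cfsg.Agent.H27.Pro

/-- Let p be a prime and G a finite group with a normal subgroup A such that every subgroup of A containing a Sylow p-subgroup of A is pronormal in A, and the Sylow p-subgroups of G/A are self-normalizing. Let T be a Sylow p-subgroup of A. Then every subgroup of G containing a Sylow p-subgroup of G is pronormal in G if and only if every subgroup of N_G(T)/T containing a Sylow p-subgroup of N_G(T)/T is pronormal in N_G(T)/T. (Pronormal: H and gHg⁻¹ are conjugate inside the subgroup they generate, for every g.) -/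
theorem result {G : Type*} [Group G] [Finite G] {p : ℕ} [Fact p.Prime]
    (A : Subgroup G) [A.Normal] (hA : (∀ K : Subgroup ↥A, (∃ P : Sylow p ↥A, (P : Subgroup ↥A) ≤ K) → Cfsg.IsPronormal K))
    (hQ : ∀ P : Sylow p (G ⧸ A), Subgroup.normalizer ((P : Subgroup (G ⧸ A)) : Set (G ⧸ A)) = P)
    (T : Subgroup G) (hT : ∃ P : Sylow p ↥A, (P : Subgroup ↥A).map A.subtype = T) [(T.subgroupOf (Subgroup.normalizer (T : Set G))).Normal] :
    (∀ K : Subgroup G, (∃ P : Sylow p G, (P : Subgroup G) ≤ K) → Cfsg.IsPronormal K) ↔ (∀ K : Subgroup (↥(Subgroup.normalizer (T : Set G)) ⧸ T.subgroupOf (Subgroup.normalizer (T : Set G))), (∃ P : Sylow p (↥(Subgroup.normalizer (T : Set G)) ⧸ T.subgroupOf (Subgroup.normalizer (T : Set G))), (P : Subgroup (↥(Subgroup.normalizer (T : Set G)) ⧸ T.subgroupOf (Subgroup.normalizer (T : Set G)))) ≤ K) → Cfsg.IsPronormal K) := by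
  obtain ⟨PA, hPA⟩ := hT
  have hTle : T ≤ A := by rw [← hPA]; exact Subgroup.map_subtype_le _
  have hTs : IsSyl p T A := by
    rw [isSyl_iff hTle]
    refine ⟨PA, ?_⟩
    rw [← hPA, Subgroup.subgroupOf, Subgroup.comap_map_eq_self_of_injective A.subtype_injective]
  -- a Sylow subgroup of G containing T
  have hexP : ∃ P : Subgroup G, IsSyl p P ⊤ ∧ T ≤ P ∧ P ≤ Subgroup.normalizer (T : Set G) := by
    obtain ⟨P0, hP0⟩ := hTs.2.1.exists_le_sylow
    have hP0s : IsSyl p (P0 : Subgroup G) ⊤ := isSyl_top_iff.mpr ⟨P0, rfl⟩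
    have hPT : (P0 : Subgroup G) ⊓ A = T := by
      apply (hTs.eq_of_le inf_le_right (hP0s.2.1.to_le inf_le_left) (le_inf hP0 hTle)).symm
    refine ⟨P0, hP0s, hP0, ?_⟩
    intro x hx
    rw [mem_normalizer_iff_cj]
    apply cj_eq_of_card _ le_rfl
    rw [cj_le]
    intro b hb
    rw [← hPT] at hb ⊢
    exact ⟨Subgroup.mul_mem _ (Subgroup.mul_mem _ hx hb.1) (Subgroup.inv_mem _ hx),
      (inferInstance : A.Normal).conj_mem b hb.2 x⟩
  obtain ⟨P, hP, hTP, hPN⟩ := hexP
  constructor
  · intro h K hK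
    exact quot_of T P hP hTP hPN h K hK
  · intro h K hK
    refine finish A hA T hTs h ?_ K hK
    intro K P hP hPK g
    set L := K ⊔ cj g K with hL
    have hPL : IsSyl p P L := hP.mono (hPK.trans le_sup_left) le_top
    have hgP : cj g P ≤ L := (cj_mono g hPK).trans le_sup_right
    obtain ⟨b, hb, hbe⟩ := syl_conj_eq hPL hgP
    rw [cj_cj] at hbe
    refine ⟨b, hb, ?_⟩
    obtain ⟨P', hP'⟩ := isSyl_top_iff.mp hP
    have hφs : Function.Surjective (QuotientGroup.mk' A) := QuotientGroup.mk'_surjective A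
    have h1 : (QuotientGroup.mk' A) (b * g) ∈
        Subgroup.normalizer (((P'.mapSurjective hφs : Sylow p (G ⧸ A)) : Subgroup (G ⧸ A)) : Set (G ⧸ A)) := by
      rw [Sylow.coe_mapSurjective, hP', mem_normalizer_iff_cj]
      have h2 : cj ((QuotientGroup.mk' A) (b * g)) (P.map (QuotientGroup.mk' A)) =
          (cj (b * g) P).map (QuotientGroup.mk' A) := by
        unfold cj
        rw [Subgroup.map_map, Subgroup.map_map]
        congr 1
      rw [h2, hbe]
    rw [hQ, Sylow.coe_mapSurjective, hP'] at h1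
    obtain ⟨n, hn, hne⟩ := h1
    refine ⟨n, Subgroup.le_normalizer (hPK hn), ?_⟩
    have h3 : (QuotientGroup.mk' A) (b * g * n⁻¹) = 1 := by
      rw [map_mul, map_inv, hne, mul_inv_cancel]
    rwa [QuotientGroup.mk'_apply, QuotientGroup.eq_one_iff] at h3

end Cfsg.Agent.S4271
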