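import Cfsg.Statements.S4331
import Mathlib
import Cfsg.Agent.H23_PiPart
import Cfsg.Agent.H1_FratFit
import Cfsg.Agent.H17_Base


set_option autoImplicit false
open Cfsg

namespace Cfsg.Agent.S4331
open Subgroup
open scoped Pointwise

/-- the abstract criterion -/
theorem crit {G : Type*} [Group G] [Finite G] (t : G) (ht : orderOf t = 2)
    (hodd : ∀ x : G, Odd (orderOf x) → ∃ h : G, Commute (h * x * h⁻¹) t) (c : G) :
    ∃ g : G, IsConj c g ∧ ((zpowers t).subgroupOf (zpowers t ⊔ zpowers g)).IsSubnormal := by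
  classical
  haveI : Fact (Nat.Prime 2) := ⟨Nat.prime_two⟩
  obtain ⟨e, m, hm, hem⟩ := Nat.exists_eq_pow_mul_and_not_dvd (n := orderOf c) (orderOf_pos c).ne' 2 (by norm_num)
  have hmodd : Odd m := by rwa [← Nat.not_even_iff_odd, even_iff_two_dvd]
  have hco : (2 ^ e).Coprime m := Nat.Coprime.pow_left e ((Nat.Prime.coprime_iff_not_dvd Nat.prime_two).2 hm)
  obtain ⟨u, v, hu1, hu2, hv1, hv2, huv⟩ := H23.PiPart.exists_exponents (2 ^ e) m hco
  have hcu : (c ^ u) ^ (2 ^ e) = 1 := by
    obtain ⟨k, hk⟩ := hu2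
    rw [← pow_mul, hk]
    have : m * k * 2 ^ e = orderOf c * k := by rw [hem]; ring
    rw [this, pow_mul, pow_orderOf_eq_one, one_pow]
  have hcv : (c ^ v) ^ m = 1 := by
    obtain ⟨k, hk⟩ := hv2
    rw [← pow_mul, hk]
    have : 2 ^ e * k * m = orderOf c * k := by rw [hem]; ring
    rw [this, pow_mul, pow_orderOf_eq_one, one_pow]
  have hcuv : c ^ u * c ^ v = c := by
    rw [← pow_add]
    have h1 := H23.PiPart.pow_modEq (g := c) (n := 2 ^ e * m) (by rw [← hem]; exact pow_orderOf_eq_one c) huv
    rwa [pow_one] at h1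
  obtain ⟨h, hh⟩ := hodd (c ^ v) (Odd.of_dvd_nat hmodd (orderOf_dvd_of_pow_eq_one hcv))
  set x := h * c ^ v * h⁻¹ with hx
  set y := h * c ^ u * h⁻¹ with hy
  have hxy : y * x = h * c * h⁻¹ := by
    rw [hx, hy]
    conv_rhs => rw [← hcuv]
    group
  have hxyc : x * y = y * x := by
    rw [hx, hy]
    have : c ^ u * c ^ v = c ^ v * c ^ u := by rw [← pow_add, ← pow_add, add_comm]
    calc h * c ^ v * h⁻¹ * (h * c ^ u * h⁻¹) = h * (c ^ v * c ^ u) * h⁻¹ := by group
      _ = h * (c ^ u * c ^ v) * h⁻¹ := by rw [this]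
      _ = _ := by group
  have hy2 : y ^ (2 ^ e) = 1 := by
    rw [hy, conj_pow, hcu]; group
  set C := centralizer ({x} : Set G) with hC
  have htC : t ∈ C := by
    rw [hC, mem_centralizer_singleton_iff]; exact hh.symm
  have hyC : y ∈ C := by
    rw [hC, mem_centralizer_singleton_iff]; exact hxyc.symm
  have hxC : x ∈ C := by
    rw [hC, mem_centralizer_singleton_iff]
  -- Sylow subgroups of C
  have hpt : IsPGroup 2 (zpowers (⟨t, htC⟩ : C)) := by
    apply IsPGroup.of_card (n := 1)
    rw [Nat.card_zpowers, pow_one, ← Subgroup.orderOf_coe]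
    exact ht
  obtain ⟨P, hP⟩ := hpt.exists_le_sylow
  have hpy : IsPGroup 2 (zpowers (⟨y, hyC⟩ : C)) := by
    have h1 : orderOf (⟨y, hyC⟩ : C) ∣ 2 ^ e := by
      apply orderOf_dvd_of_pow_eq_one
      exact Subtype.ext hy2
    obtain ⟨k, _, hk⟩ := (Nat.dvd_prime_pow Nat.prime_two).1 h1
    apply IsPGroup.of_card (n := k)
    rw [Nat.card_zpowers, hk]
  obtain ⟨Q, hQ⟩ := hpy.exists_le_sylow
  obtain ⟨k, hk⟩ := MulAction.exists_smul_eq C Q P
  have hky : (k : G) * y * (k : G)⁻¹ ∈ (P : Subgroup C).map C.subtype := by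
    refine ⟨k * ⟨y, hyC⟩ * k⁻¹, ?_, rfl⟩
    change k * ⟨y, hyC⟩ * k⁻¹ ∈ P
    rw [← hk]
    exact Subgroup.smul_mem_pointwise_smul (⟨y, hyC⟩ : C) (MulAut.conj k) (Q : Subgroup C) (hQ (mem_zpowers _))
  set D := (P : Subgroup C).map C.subtype with hD
  have htD : t ∈ D := ⟨⟨t, htC⟩, hP (mem_zpowers _), rfl⟩
  have hDC : D ≤ C := Subgroup.map_subtype_le _
  set g := (k : G) * (y * x) * (k : G)⁻¹ with hg
  have hkx : (k : G) * x * (k : G)⁻¹ = x := by
    have := mem_centralizer_singleton_iff.1 k.2
    rw [this]; group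
  have hgx : g = ((k : G) * y * (k : G)⁻¹) * x := by
    conv_rhs => rw [← hkx]
    rw [hg]; group
  refine ⟨g, ?_, ?_⟩
  · rw [isConj_iff]
    refine ⟨k * h, ?_⟩
    rw [hg, hxy]; group
  set E := D ⊔ zpowers x with hE
  have hDE : D ≤ E := le_sup_left
  have hDN : (D.subgroupOf E).Normal := by
    rw [Subgroup.normal_subgroupOf_iff_le_normalizer hDE, hE]
    apply sup_le le_normalizer
    have h1 : zpowers x ≤ centralizer (D : Set G) := by
      rw [zpowers_le, mem_centralizer_iff]
      intro d hd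
      exact mem_centralizer_singleton_iff.1 (hDC hd)
    exact h1.trans (centralizer_le_normalizer _)
  have hAD : zpowers t ≤ D := by rwa [zpowers_le]
  have hDnil : Group.IsNilpotent D := by
    have h1 : IsPGroup 2 D := P.2.map _
    exact h1.isNilpotent
  have hsD : ((zpowers t).subgroupOf D).IsSubnormal := (H1.FratFit.nilpotent_iff_subnormal.1 hDnil) _
  have hsE : ((zpowers t).subgroupOf E).IsSubnormal := by
    have h1 : (((zpowers t).subgroupOf E).subgroupOf (D.subgroupOf E)).IsSubnormal := by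
      have h2 := hsD.comap ((Subgroup.subgroupOfEquivOfLe hDE).toMonoidHom)
      convert h2 using 1
      ext z
      exact Iff.rfl
    exact IsSubnormal.trans (fun z hz => hAD hz) h1 hDN.isSubnormal
  have hME : zpowers t ⊔ zpowers g ≤ E := by
    apply sup_le (hAD.trans hDE)
    rw [zpowers_le, hgx]
    exact mul_mem (hDE hky) (mem_sup_right (mem_zpowers x))
  have h2 := hsE.comap (Subgroup.inclusion hME)
  convert h2 using 1
  ext z
  exact Iff.rfl

abbrev V0 := ZMod 3 × ZMod 3
abbrev V := Multiplicative V0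

def s0 : V0 ≃+ V0 where
  toFun a := (a.1 - a.2, a.1 + a.2)
  invFun a := (- a.1 - a.2, a.1 - a.2)
  left_inv := by decide
  right_inv := by decide
  map_add' := by decide

def t0 : V0 ≃+ V0 where
  toFun a := (a.1, - a.2)
  invFun a := (a.1, - a.2)
  left_inv := by decide
  right_inv := by decide
  map_add' := by decide

def s : MulAut V := AddEquiv.toMultiplicative s0
def t : MulAut V := AddEquiv.toMultiplicative t0

theorem t_sq : t ^ 2 = 1 := by
  rw [pow_two]
  ext1 x
  revert x
  decide

theorem s_pow : s ^ 8 = 1 := by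
  have h2 : s ^ 8 = s * s * (s * s) * (s * s * (s * s)) := by
    rw [← pow_two, ← pow_two, ← pow_two, ← pow_mul, ← pow_mul]
  rw [h2]
  ext1 x
  revert x
  decide

theorem t_conj : t * s * t⁻¹ = s ^ 3 := by
  have h2 : s ^ 3 = s * s * s := by rw [← pow_two, ← pow_succ]
  rw [h2]
  ext1 x
  revert x
  decide

theorem fix : ∀ v : V, t v = v ∨ t (s v) = s v ∨ t (s (s v)) = s (s v) ∨ t (s (s (s v))) = s (s (s v)) := by
  decide

theorem t_ne : ∃ v : V, t v ≠ v := by decide

theorem cube : ∀ v : V, v * v * v = 1 := by decide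


/-- There is a finite solvable group G with a subgroup A of order 2 such that every conjugacy class of G contains an element g for which A is subnormal in the subgroup generated by A and g, and yet A is not contained in O_2(G). (So the corresponding criteria for odd primes fail at the prime 2, even for solvable groups.) -/
theorem result :
    ∃ (G : Type) (_ : Group G) (_ : Finite G) (A : Subgroup G), Group.IsSolvable G ∧ Nat.card A = 2 ∧
      (∀ c : G, ∃ g : G, IsConj c g ∧ (A.subgroupOf (A ⊔ Subgroup.zpowers g)).IsSubnormal) ∧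
      ¬ A ≤ Cfsg.pCore 2 G := by

  classical
  haveI : Fact (Nat.Prime 2) := ⟨Nat.prime_two⟩
  let H : Subgroup (MulAut V) := zpowers t ⊔ zpowers s
  have htH : t ∈ H := mem_sup_left (mem_zpowers t)
  have hsH : s ∈ H := mem_sup_right (mem_zpowers s)
  have hHp : IsPGroup 2 H := by
    have h1 : IsPGroup 2 (zpowers t) := by
      obtain ⟨k, _, hk⟩ := (Nat.dvd_prime_pow Nat.prime_two).1 (show orderOf t ∣ 2 ^ 1 from orderOf_dvd_of_pow_eq_one (by rw [pow_one]; exact t_sq))
      apply IsPGroup.of_card (n := k)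
      rw [Nat.card_zpowers, hk]
    have h2 : IsPGroup 2 (zpowers s) := by
      obtain ⟨k, _, hk⟩ := (Nat.dvd_prime_pow Nat.prime_two).1 (show orderOf s ∣ 2 ^ 3 from orderOf_dvd_of_pow_eq_one s_pow)
      apply IsPGroup.of_card (n := k)
      rw [Nat.card_zpowers, hk]
    apply h1.to_sup_of_normal_right' h2
    rw [zpowers_le]
    have key : ∀ z ∈ zpowers s, t * z * t⁻¹ ∈ zpowers s := by
      rintro z ⟨k, rfl⟩
      simp only
      rw [← conj_zpow, t_conj, ← zpow_natCast, ← zpow_mul]
      exact ⟨_, rfl⟩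
    have htinv : t⁻¹ = t := by
      rw [inv_eq_iff_mul_eq_one, ← pow_two]; exact t_sq
    rw [mem_normalizer_iff]
    intro z
    refine ⟨fun hz => key z hz, fun hz => ?_⟩
    have := key _ hz
    rw [htinv] at this
    have h3 : t * (t * z * t) * t = t ^ 2 * z * t ^ 2 := by rw [pow_two]; group
    rw [h3, t_sq, one_mul, mul_one] at this
    exact this
  haveI : Finite (MulAut V) := inferInstance
  let G := SemidirectProduct V H H.subtype
  haveI hGfin : Finite G := Finite.of_equiv _ (SemidirectProduct.equivProd (N := V) (G := H) (φ := H.subtype)).symm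
  let T : G := SemidirectProduct.inr ⟨t, htH⟩
  have hinj : Function.Injective (SemidirectProduct.inl (N := V) (G := H) (φ := H.subtype)) := SemidirectProduct.inl_injective
  have haut : ∀ (h : H) (v : V), (SemidirectProduct.inr h : G) * SemidirectProduct.inl v * (SemidirectProduct.inr h)⁻¹ = SemidirectProduct.inl ((h : MulAut V) v) := by
    intro h v
    have := SemidirectProduct.inl_aut (φ := H.subtype) h v
    rw [← map_inv]
    exact this.symm
  have hT : orderOf T = 2 := by
    apply orderOf_eq_prime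
    · rw [← map_pow]
      have : (⟨t, htH⟩ : H) ^ 2 = 1 := Subtype.ext t_sq
      rw [this, map_one]
    · intro h
      obtain ⟨v, hv⟩ := t_ne
      have h1 : (⟨t, htH⟩ : H) = 1 := SemidirectProduct.inr_injective (h.trans (map_one _).symm)
      apply hv
      have h2 : t = 1 := congrArg Subtype.val h1
      rw [h2]; rfl
  refine ⟨G, inferInstance, hGfin, zpowers T, ?_, ?_, ?_, ?_⟩
  · haveI : Group.IsSolvable V := inferInstance
    haveI : Group.IsSolvable H := by
      haveI := hHp.isNilpotent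
      infer_instance
    exact solvable_of_ker_le_range (SemidirectProduct.inl (N := V) (G := H) (φ := H.subtype)) SemidirectProduct.rightHom
      (by rw [SemidirectProduct.range_inl_eq_ker_rightHom])
  · rw [Nat.card_zpowers, hT]
  · intro c
    apply crit T hT
    intro x hx
    -- x is in V
    have h1 : SemidirectProduct.rightHom x = 1 := by
      have h2 : orderOf (SemidirectProduct.rightHom x) ∣ orderOf x := orderOf_map_dvd _ x
      obtain ⟨k, hk⟩ := IsPGroup.iff_orderOf.1 hHp (SemidirectProduct.rightHom x)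
      have h3 : Odd (orderOf (SemidirectProduct.rightHom x)) := Odd.of_dvd_nat hx h2
      rw [hk] at h3
      rcases Nat.eq_zero_or_pos k with h4 | h4
      · rw [h4, pow_zero] at hk
        exact orderOf_eq_one_iff.1 hk
      · exfalso
        rw [← Nat.not_even_iff_odd] at h3
        apply h3
        rw [even_iff_two_dvd]
        exact dvd_pow_self 2 h4.ne'
    have h2 : x ∈ (SemidirectProduct.inl (N := V) (G := H) (φ := H.subtype)).range := by
      rw [SemidirectProduct.range_inl_eq_ker_rightHom]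
      exact h1
    obtain ⟨v, rfl⟩ := h2
    have key : ∀ h ∈ H, t (h v) = h v → ∃ g : G, Commute (g * SemidirectProduct.inl v * g⁻¹) T := by
      intro h hh hhv
      refine ⟨SemidirectProduct.inr ⟨h, hh⟩, ?_⟩
      rw [haut]
      have h3 := haut ⟨t, htH⟩ (h v)
      change _ = SemidirectProduct.inl (t (h v)) at h3
      rw [hhv] at h3
      have h4 : T * SemidirectProduct.inl (h v) = SemidirectProduct.inl (h v) * T := by
        rw [← h3]
        show _ = T * SemidirectProduct.inl (h v) * T⁻¹ * T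
        rw [inv_mul_cancel_right]
        rw [h3]
      exact h4.symm
    rcases fix v with h3 | h3 | h3 | h3
    · exact key 1 (one_mem _) h3
    · exact key s hsH h3
    · exact key (s * s) (mul_mem hsH hsH) h3
    · exact key (s * (s * s)) (mul_mem hsH (mul_mem hsH hsH)) h3
  · intro hle
    have hTO : T ∈ Cfsg.pCore 2 G := hle (mem_zpowers T)
    haveI := H17.Base.pCore_normal 2 G
    obtain ⟨v, hv⟩ := t_ne
    have h1 : (SemidirectProduct.inl v : G) * T * (SemidirectProduct.inl v)⁻¹ * T⁻¹ ∈ Cfsg.pCore 2 G :=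
      mul_mem (Subgroup.Normal.conj_mem inferInstance T hTO _) (inv_mem hTO)
    have h2 : (SemidirectProduct.inl v : G) * T * (SemidirectProduct.inl v)⁻¹ * T⁻¹ = SemidirectProduct.inl (v * (t v)⁻¹) := by
      have h3 := haut ⟨t, htH⟩ v⁻¹
      change T * SemidirectProduct.inl v⁻¹ * T⁻¹ = SemidirectProduct.inl (t v⁻¹) at h3
      rw [map_mul, ← map_inv, mul_assoc, mul_assoc, ← mul_assoc T, h3, map_inv t]
    rw [h2] at h1
    obtain ⟨k, hk⟩ := H17.Base.pCore_isPGroup 2 G ⟨_, h1⟩
    have hk' : (v * (t v)⁻¹) ^ (2 ^ k) = 1 := by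
      apply hinj
      rw [map_pow, map_one]
      exact congrArg Subtype.val hk
    have hk3 : (v * (t v)⁻¹) ^ 3 = 1 := by
      have := cube (v * (t v)⁻¹)
      rw [pow_succ, pow_two]; exact this
    have h5 : orderOf (v * (t v)⁻¹) ∣ Nat.gcd (2 ^ k) 3 :=
      Nat.dvd_gcd (orderOf_dvd_of_pow_eq_one hk') (orderOf_dvd_of_pow_eq_one hk3)
    have h6 : Nat.gcd (2 ^ k) 3 = 1 := Nat.Coprime.pow_left k (by norm_num)
    rw [h6, Nat.dvd_one, orderOf_eq_one_iff, mul_inv_eq_one] at h5
    exact hv h5.symm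


end Cfsg.Agent.S4331
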