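import Cfsg.Statements.S4332
import Mathlib
import Cfsg.Agent.H24_Perm
import Cfsg.Agent.H1_Nilp

set_option autoImplicit false
open Pointwise
open Cfsg

namespace Cfsg.Agent.S4332

open scoped Pointwise

def emb {n : ℕ} (y0 y1 y2 : Fin n) (h01 : y0 ≠ y1) (h02 : y0 ≠ y2) (h12 : y1 ≠ y2) : Fin 3 ↪ Fin n :=
  ⟨![y0, y1, y2], by
    intro i j hij
    fin_cases i <;> fin_cases j <;> simp_all [Ne.symm]⟩

/-- the combinatorial heart -/
theorem comb (c : Equiv.Perm (Fin 8)) : ∃ y0 y1 y2 : Fin 8, y0 ≠ y1 ∧ y0 ≠ y2 ∧ y1 ≠ y2 ∧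
    ((c y0 = y0 ∧ c y1 = y1 ∧ c y2 = y2) ∨ (c y0 = y1 ∧ c y1 = y2 ∧ c y2 = y0) ∨
      ∀ y ∈ [y0, y1, y2], ∀ y' ∈ [y0, y1, y2], c y ≠ y') := by
  set F : Finset (Fin 8) := Finset.univ.filter (fun x => c x = x) with hF
  have hmF : ∀ x, x ∈ F ↔ c x = x := fun x => by simp [hF]
  by_cases h3 : 2 < F.card
  · obtain ⟨a, ha, b, hb, d, hd, hab, had, hbd⟩ := Finset.two_lt_card.mp h3
    exact ⟨a, b, d, hab, had, hbd, Or.inl ⟨(hmF a).mp ha, (hmF b).mp hb, (hmF d).mp hd⟩⟩
  · push Not at h3
    have hpick : ∀ E : Finset (Fin 8), E.card < 8 → ∃ x, x ∉ E := by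
      intro E hE
      by_contra hcon
      push Not at hcon
      have : E = Finset.univ := Finset.eq_univ_iff_forall.mpr hcon
      rw [this, Finset.card_univ, Fintype.card_fin] at hE
      omega
    by_cases h3c : ∃ y, c y ≠ y ∧ c (c (c y)) = y
    · obtain ⟨y, hy, hy3⟩ := h3c
      refine ⟨y, c y, c (c y), hy.symm, ?_, ?_, Or.inr (Or.inl ⟨rfl, rfl, hy3⟩)⟩
      · intro h; apply hy
        have := hy3; rw [← h] at this; exact this
      · intro h; exact hy (c.injective h).symm
    · push Not at h3c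
      by_cases h4 : ∃ y, c y ≠ y ∧ c (c y) ≠ y
      · obtain ⟨y, hy1, hy2⟩ := h4
        have hy3 := h3c y hy1
        obtain ⟨z, hz⟩ := hpick (({y, c y, c (c y), c (c (c y)), c⁻¹ y} : Finset (Fin 8)) ∪ F) (by
          have h5 := Finset.card_union_le ({y, c y, c (c y), c (c (c y)), c⁻¹ y} : Finset (Fin 8)) F
          have h6 : ({y, c y, c (c y), c (c (c y)), c⁻¹ y} : Finset (Fin 8)).card ≤ 5 := Finset.card_le_five
          omega)
        simp only [Finset.mem_union, Finset.mem_insert, Finset.mem_singleton, not_or, hmF] at hz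
        obtain ⟨⟨z1, z2, z3, z4, z5⟩, z6⟩ := hz
        refine ⟨y, c (c y), z, Ne.symm hy2, Ne.symm z1, Ne.symm z3, Or.inr (Or.inr ?_)⟩
        simp only [List.mem_cons, List.not_mem_nil, or_false, forall_eq_or_imp, forall_eq]
        refine ⟨⟨hy1, fun h => hy1 (c.injective h).symm, Ne.symm z2⟩, ⟨hy3, fun h => hy1 (c.injective (c.injective h)), Ne.symm z4⟩,
          ⟨fun h => z5 (by rw [← h]; simp), fun h => z2 (c.injective h), z6⟩⟩
      · push Not at h4
        obtain ⟨y0, hy0⟩ := hpick F (by omega)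
        obtain ⟨y1, hy1⟩ := hpick (({y0, c y0} : Finset (Fin 8)) ∪ F) (by
          have h5 := Finset.card_union_le ({y0, c y0} : Finset (Fin 8)) F
          have h6 : ({y0, c y0} : Finset (Fin 8)).card ≤ 2 := Finset.card_le_two
          omega)
        obtain ⟨y2, hy2⟩ := hpick (({y0, c y0, y1, c y1} : Finset (Fin 8)) ∪ F) (by
          have h5 := Finset.card_union_le ({y0, c y0, y1, c y1} : Finset (Fin 8)) F
          have h6 : ({y0, c y0, y1, c y1} : Finset (Fin 8)).card ≤ 4 := Finset.card_le_four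
          omega)
        simp only [Finset.mem_union, Finset.mem_insert, Finset.mem_singleton, not_or, hmF] at hy0 hy1 hy2
        obtain ⟨⟨a1, a2⟩, a3⟩ := hy1
        obtain ⟨⟨b1, b2, b3, b4⟩, b5⟩ := hy2
        have s0 := h4 y0 hy0
        have s1 := h4 y1 a3
        have s2 := h4 y2 b5
        refine ⟨y0, y1, y2, Ne.symm a1, Ne.symm b1, Ne.symm b3, Or.inr (Or.inr ?_)⟩
        simp only [List.mem_cons, List.not_mem_nil, or_false, forall_eq_or_imp, forall_eq]
        refine ⟨⟨hy0, Ne.symm a2, Ne.symm b2⟩, ⟨fun h => a2 (by rw [← h, s1]), a3, Ne.symm b4⟩,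
          ⟨fun h => b2 (by rw [← h, s2]), fun h => b4 (by rw [← h, s2]), b5⟩⟩

/-- In the symmetric group of degree 8, let A be the subgroup generated by a 3-cycle. Then every conjugacy class contains an element g for which A is subnormal in the subgroup generated by A and its conjugate by g, although O_3 of the symmetric group of degree 8 is trivial. -/
theorem result
    (σ : Equiv.Perm (Fin 8)) (hσ : σ.IsThreeCycle) :
    (∀ c : Equiv.Perm (Fin 8), ∃ g : Equiv.Perm (Fin 8), IsConj c g ∧
      ((Subgroup.zpowers σ).subgroupOf (Subgroup.zpowers σ ⊔ MulAut.conj g • Subgroup.zpowers σ)).IsSubnormal) ∧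
    Cfsg.pCore 3 (Equiv.Perm (Fin 8)) = ⊥ := by
  refine ⟨fun c => ?_, ?_⟩
  · -- structure of σ
    have hcard := hσ.card_support
    have hord := hσ.orderOf
    obtain ⟨x0, hx0⟩ : σ.support.Nonempty := by
      rw [← Finset.card_pos, hcard]; norm_num
    have hcyc := hσ.isCycle
    have h3 : ∀ x, σ (σ (σ x)) = x := by
      intro x
      have := pow_orderOf_eq_one σ
      rw [hord] at this
      have h4 := congrArg (fun τ : Equiv.Perm (Fin 8) => τ x) this
      simpa [pow_succ] using h4
    have hx0' : σ x0 ≠ x0 := Equiv.Perm.mem_support.mp hx0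
    set x1 := σ x0 with hx1
    set x2 := σ x1 with hx2
    have e2 : σ x2 = x0 := h3 x0
    have h01 : x0 ≠ x1 := Ne.symm hx0'
    have h12 : x1 ≠ x2 := fun h => h01 (σ.injective (by rw [← hx1, ← hx2]; exact h))
    have h02 : x0 ≠ x2 := fun h => by
      have : σ x2 = σ x0 := by rw [← h]
      rw [e2, ← hx1] at this
      exact h01 this
    have hsupp : σ.support = {x0, x1, x2} := by
      symm
      apply Finset.eq_of_subset_of_card_le
      · intro z hz
        simp only [Finset.mem_insert, Finset.mem_singleton] at hz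
        rw [Equiv.Perm.mem_support]
        rcases hz with rfl | rfl | rfl
        · exact h01.symm
        · exact h12.symm
        · rw [e2]; exact h02
      · rw [hcard, Finset.card_insert_of_notMem (by simp [h01, h02]), Finset.card_pair h12]
    have hout : ∀ z, z ≠ x0 → z ≠ x1 → z ≠ x2 → σ z = z := by
      intro z hz0 hz1 hz2
      by_contra hne
      have : z ∈ σ.support := Equiv.Perm.mem_support.mpr hne
      rw [hsupp] at this
      simp only [Finset.mem_insert, Finset.mem_singleton] at this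
      rcases this with h | h | h
      · exact hz0 h
      · exact hz1 h
      · exact hz2 h
    obtain ⟨y0, y1, y2, hy01, hy02, hy12, hcase⟩ := comb c
    -- a permutation taking y to x
    obtain ⟨h, hh0, hh1, hh2⟩ : ∃ h : Equiv.Perm (Fin 8), h y0 = x0 ∧ h y1 = x1 ∧ h y2 = x2 := by
      have htr : MulAction.IsPretransitive (Equiv.Perm (Fin 8)) (Fin 3 ↪ Fin 8) :=
        Equiv.Perm.isMultiplyPretransitive (Fin 8) 3
      obtain ⟨g, hg⟩ := htr.exists_smul_eq
        (emb y0 y1 y2 hy01 hy02 hy12) (emb x0 x1 x2 h01 h02 h12)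
      refine ⟨g, ?_, ?_, ?_⟩
      · exact congrArg (fun f : Fin 3 ↪ Fin 8 => f 0) hg
      · exact congrArg (fun f : Fin 3 ↪ Fin 8 => f 1) hg
      · exact congrArg (fun f : Fin 3 ↪ Fin 8 => f 2) hg
    set g : Equiv.Perm (Fin 8) := h * c * h⁻¹ with hg
    have hi0 : h⁻¹ x0 = y0 := by rw [Equiv.Perm.inv_eq_iff_eq, hh0]
    have hi1 : h⁻¹ x1 = y1 := by rw [Equiv.Perm.inv_eq_iff_eq, hh1]
    have hi2 : h⁻¹ x2 = y2 := by rw [Equiv.Perm.inv_eq_iff_eq, hh2]
    have hg0 : g x0 = h (c y0) := by rw [hg, Equiv.Perm.mul_apply, Equiv.Perm.mul_apply, hi0]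
    have hg1 : g x1 = h (c y1) := by rw [hg, Equiv.Perm.mul_apply, Equiv.Perm.mul_apply, hi1]
    have hg2 : g x2 = h (c y2) := by rw [hg, Equiv.Perm.mul_apply, Equiv.Perm.mul_apply, hi2]
    refine ⟨g, isConj_iff.mpr ⟨h, rfl⟩, ?_⟩
    -- σ commutes with g σ g⁻¹
    have hcomm : Commute σ (g * σ * g⁻¹) := by
      rcases hcase with ⟨a0, a1, a2⟩ | ⟨a0, a1, a2⟩ | hd
      · -- g fixes x_i
        have hgc : Commute g σ := by
          apply Equiv.Perm.Disjoint.commute
          intro z
          by_cases z0 : z = x0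
          · left; rw [z0, hg0, a0, hh0]
          by_cases z1 : z = x1
          · left; rw [z1, hg1, a1, hh1]
          by_cases z2 : z = x2
          · left; rw [z2, hg2, a2, hh2]
          right; exact hout z z0 z1 z2
        have : g * σ * g⁻¹ = σ := by rw [hgc.eq, mul_inv_cancel_right]
        rw [this]
      · have g0 : g x0 = x1 := by rw [hg0, a0, hh1]
        have g1 : g x1 = x2 := by rw [hg1, a1, hh2]
        have g2 : g x2 = x0 := by rw [hg2, a2, hh0]
        have hgc : g * σ = σ * g := by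
          refine Equiv.ext (fun z => ?_)
          change g (σ z) = σ (g z)
          by_cases z0 : z = x0
          · rw [z0, g0, ← hx1, g1, ← hx2]
          by_cases z1 : z = x1
          · rw [z1, g1, ← hx2, g2, e2]
          by_cases z2 : z = x2
          · rw [z2, g2, e2, g0, ← hx1]
          rw [hout z z0 z1 z2]
          rw [hout (g z)]
          · intro hz; exact z2 (g.injective (by rw [hz, g2]))
          · intro hz; exact z0 (g.injective (by rw [hz, g0]))
          · intro hz; exact z1 (g.injective (by rw [hz, g1]))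
        have : g * σ * g⁻¹ = σ := by rw [hgc, mul_inv_cancel_right]
        rw [this]
      · apply Equiv.Perm.Disjoint.commute
        have key : ∀ i j : Fin 8, (i = x0 ∨ i = x1 ∨ i = x2) → (j = x0 ∨ j = x1 ∨ j = x2) → g i ≠ j := by
          have hdd : ∀ y ∈ [y0, y1, y2], ∀ y' ∈ [y0, y1, y2], h (c y) ≠ h y' := by
            intro y hy y' hy' heq
            exact hd y hy y' hy' (h.injective heq)
          simp only [List.mem_cons, List.not_mem_nil, or_false, forall_eq_or_imp, forall_eq] at hdd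
          obtain ⟨⟨d00, d01, d02⟩, ⟨d10, d11, d12⟩, ⟨d20, d21, d22⟩⟩ := hdd
          rw [hh0] at d00 d10 d20
          rw [hh1] at d01 d11 d21
          rw [hh2] at d02 d12 d22
          rintro i j (rfl | rfl | rfl) (rfl | rfl | rfl)
          · rw [hg0]; exact d00
          · rw [hg0]; exact d01
          · rw [hg0]; exact d02
          · rw [hg1]; exact d10
          · rw [hg1]; exact d11
          · rw [hg1]; exact d12
          · rw [hg2]; exact d20
          · rw [hg2]; exact d21
          · rw [hg2]; exact d22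
        intro z
        by_cases hz : σ z = z
        · exact Or.inl hz
        · right
          have hz' : z = x0 ∨ z = x1 ∨ z = x2 := by
            by_contra hcon
            push Not at hcon
            exact hz (hout z hcon.1 hcon.2.1 hcon.2.2)
          rw [Equiv.Perm.mul_apply, Equiv.Perm.mul_apply]
          have hw : ¬ (g⁻¹ z = x0 ∨ g⁻¹ z = x1 ∨ g⁻¹ z = x2) := by
            intro hcon
            exact key (g⁻¹ z) z hcon hz' (by simp)
          push Not at hw
          rw [hout _ hw.1 hw.2.1 hw.2.2]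
          simp
    apply Subgroup.Normal.isSubnormal
    rw [Subgroup.normal_subgroupOf_iff_le_normalizer le_sup_left]
    refine sup_le Subgroup.le_normalizer ?_
    refine le_trans ?_ (Subgroup.centralizer_le_normalizer _)
    intro x hx
    rw [Cfsg.Agent.H24.Tools.mem_conj] at hx
    obtain ⟨i, hi⟩ := Subgroup.mem_zpowers_iff.mp hx
    have hx' : x = (g * σ * g⁻¹) ^ i := by
      rw [conj_zpow, hi]; group
    rw [Subgroup.mem_centralizer_iff]
    intro y hy
    obtain ⟨j, hj⟩ := Subgroup.mem_zpowers_iff.mp hy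
    rw [hx', ← hj]
    exact (hcomm.zpow_zpow j i).eq
  · by_contra hne
    have h1 := Cfsg.Agent.H24.Perm.card_dvd_of_normal (Cfsg.pCore 3 (Equiv.Perm (Fin 8)))
      (Cfsg.Agent.H1.Nilp.pCore_normal 3) hne
    have h2 : IsPGroup 3 (Cfsg.pCore 3 (Equiv.Perm (Fin 8))) := Cfsg.Agent.H1.Nilp.pCore_isPGroup 3
    obtain ⟨k, hk⟩ := (IsPGroup.iff_card).mp h2
    rw [hk, Fintype.card_fin] at h1
    have h3 : Nat.Coprime 8 (3 ^ k) := Nat.Coprime.pow_right k (by norm_num)
    have := Nat.Coprime.eq_one_of_dvd h3 h1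
    omega

end Cfsg.Agent.S4332
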