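import Cfsg.Statements.S4333
import Mathlib
import Cfsg.Agent.H24_Zipper

set_option autoImplicit false
open Pointwise
open Cfsg

namespace Cfsg.Agent.S4333

open scoped Pointwise

/-- Let A be a subgroup of a finite group G. If A is subnormal in the subgroup generated by A and its conjugate by g⁻¹ a g, for every a ∈ A and every g ∈ G, then A is subnormal in G. (A sharpening of Wielandt's subnormality criterion: only conjugates of A by conjugates of elements of A are needed.) -/
theorem result {G : Type*} [Group G] [Finite G]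
    (A : Subgroup G)
    (h : ∀ a ∈ A, ∀ g : G, (A.subgroupOf (A ⊔ MulAut.conj (g⁻¹ * a * g) • A)).IsSubnormal) :
    A.IsSubnormal := by
  induction' hn : Nat.card G using Nat.strong_induction_on with n ih generalizing G
  subst hn
  by_contra hA
  -- subnormal in every proper overgroup
  have hsub : ∀ H : Subgroup G, H ≠ ⊤ → A ≤ H → (A.subgroupOf H).IsSubnormal := by
    intro H hH hAH
    have hlt : Nat.card H < Nat.card G :=
      lt_of_le_of_ne (Subgroup.card_le_card_group H) (fun h => hH (Subgroup.eq_top_of_card_eq H h))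
    refine ih (Nat.card H) hlt (A.subgroupOf H) (fun a ha g => ?_) rfl
    apply Cfsg.Agent.H1.Subn.rel_transport H.subtype H.subtype_injective
    have e1 : (A.subgroupOf H).map H.subtype = A := Subgroup.map_subgroupOf_eq_of_le hAH
    have e2 : (MulAut.conj (g⁻¹ * a * g) • (A.subgroupOf H)).map H.subtype =
        MulAut.conj ((g : G)⁻¹ * a * g) • A := by
      ext x
      constructor
      · rintro ⟨y, hy, rfl⟩
        rw [SetLike.mem_coe, Cfsg.Agent.H24.Tools.mem_conj, Subgroup.mem_subgroupOf] at hy
        rw [Cfsg.Agent.H24.Tools.mem_conj]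
        exact hy
      · intro hx
        rw [Cfsg.Agent.H24.Tools.mem_conj] at hx
        have hk : ((g⁻¹ * a * g : H) : G) ∈ H := (g⁻¹ * a * g).2
        have hxH : x ∈ H := by
          have h2 := H.mul_mem (H.mul_mem hk (hAH hx)) (H.inv_mem hk)
          simp only [Subgroup.coe_mul, Subgroup.coe_inv] at h2
          have e : (g : G)⁻¹ * a * g * (((g : G)⁻¹ * a * g)⁻¹ * x * ((g : G)⁻¹ * a * g)) * ((g : G)⁻¹ * a * g)⁻¹ = x := by group
          rwa [e] at h2
        refine ⟨⟨x, hxH⟩, ?_, rfl⟩
        rw [SetLike.mem_coe, Cfsg.Agent.H24.Tools.mem_conj, Subgroup.mem_subgroupOf]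
        exact hx
    rw [Subgroup.map_sup, e1, e2]
    exact h a ha g
  obtain ⟨M, hM, hAM, huniq⟩ := Cfsg.Agent.H24.Zipper.zipper A hsub hA
  -- every conjugate of an element of A normalizes M
  have hnorm : ∀ a ∈ A, ∀ g : G, g⁻¹ * a * g ∈ Subgroup.normalizer (M : Set G) := by
    intro a ha g
    set x := g⁻¹ * a * g with hx
    have h1 := h a ha g
    have h2 : A ⊔ MulAut.conj x • A ≠ ⊤ := by
      intro h3
      rw [← hx, h3] at h1
      apply hA
      apply Subgroup.IsSubnormal.trans le_top h1 Subgroup.IsSubnormal.top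
    obtain ⟨K, hK, hle⟩ := Cfsg.Agent.H24.Tools.exists_coatom_ge h2
    have hKM := huniq K hK (le_sup_left.trans hle)
    rw [hKM] at hle
    have h3 : MulAut.conj x • A ≤ M := le_sup_right.trans hle
    have hco : IsCoatom (MulAut.conj x⁻¹ • M) := by
      have h5 : (MulAut.conj x⁻¹ • M : Subgroup G) = (MulEquiv.mapSubgroup (MulAut.conj x⁻¹)) M := rfl
      rw [h5]
      exact (OrderIso.isCoatom_iff (MulEquiv.mapSubgroup (MulAut.conj x⁻¹)) M).mpr hM
    have h4 : A ≤ MulAut.conj x⁻¹ • M := by
      intro y hy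
      rw [Cfsg.Agent.H24.Tools.mem_conj, inv_inv]
      apply h3
      rw [Cfsg.Agent.H24.Tools.mem_conj]
      have e : x⁻¹ * (x * y * x⁻¹) * x = y := by group
      rw [e]; exact hy
    have h6 := huniq _ hco h4
    apply Cfsg.Agent.H24.Tools.mem_normalizer
    intro y hy
    rw [← h6, Cfsg.Agent.H24.Tools.mem_conj, inv_inv] at hy
    exact hy
  by_cases hMn : Subgroup.normalizer (M : Set G) = ⊤
  · have hMnorm : M.Normal := Subgroup.normalizer_eq_top_iff.mp hMn
    exact hA (Subgroup.IsSubnormal.trans hAM (hsub M hM.1 hAM) hMnorm.isSubnormal)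
  · have hNM : Subgroup.normalizer (M : Set G) = M := by
      by_contra hne
      exact hMn (hM.2 _ (lt_of_le_of_ne Subgroup.le_normalizer (Ne.symm hne)))
    have hcl : Subgroup.normalClosure (A : Set G) ≤ M := by
      rw [Subgroup.normalClosure, Subgroup.closure_le]
      intro y hy
      rw [Group.mem_conjugatesOfSet_iff] at hy
      obtain ⟨a, ha, hay⟩ := hy
      obtain ⟨c, hc⟩ := isConj_iff.mp hay
      have h1 := hnorm a ha c⁻¹
      rw [inv_inv, hc, hNM] at h1
      exact h1
    have hAcl : A ≤ Subgroup.normalClosure (A : Set G) := Subgroup.le_normalClosure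
    have hne : Subgroup.normalClosure (A : Set G) ≠ ⊤ := fun h1 => hM.1 (top_le_iff.mp (h1 ▸ hcl))
    exact hA (Subgroup.IsSubnormal.trans hAcl (hsub _ hne hAcl) (Subgroup.Normal.isSubnormal inferInstance))

end Cfsg.Agent.S4333
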