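import Cfsg.Statements.S4334
import Cfsg.Agent.H17_Base
import Cfsg.Agent.H2_Card
import Cfsg.Agent.H2_Fusion3
import Cfsg.Agent.H23_Basic
import Cfsg.Agent.H24_Tools
import Cfsg.Agent.H1_Schmidt2


set_option autoImplicit false
open Cfsg

namespace Cfsg.Agent.S4334

open Subgroup
open Cfsg.Agent.H17.Base

universe u

variable {G : Type u} [Group G] [Finite G]

/-- a subgroup of index prime to `r` contains a Sylow subgroup -/
theorem exists_sylow {K : Subgroup G} {r : ℕ} [hr : Fact r.Prime] (h : ¬ r ∣ K.index) : ∃ R, IsSylowIn r R (⊤ : Subgroup G) ∧ R ≤ K := by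
  obtain ⟨R, hR⟩ := exists_isSylowIn r K
  refine ⟨R, ?_, hR.1⟩
  obtain ⟨T, hRT, hT⟩ := exists_isSylowIn_ge (H := ⊤) hR.2.1 le_top
  have h1 : R.relIndex T = 1 := by
    obtain ⟨n, hn⟩ := IsPGroup.iff_card.1 hT.2.1
    have h2 := H2.Card.card_mul_relIndex hRT
    have h3 : R.relIndex T ∣ r ^ n := by rw [← hn, ← h2]; exact Dvd.intro_left _ rfl
    obtain ⟨m, -, hm⟩ := (Nat.dvd_prime_pow hr.out).1 h3
    rcases Nat.eq_zero_or_pos m with h0 | h0
    · rw [hm, h0, pow_zero]
    · exfalso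
      have h4 : r ∣ R.index := by
        have h5 : R.relIndex T ∣ R.index := relIndex_dvd_index_of_le hRT
        exact (hm ▸ dvd_pow_self r h0.ne').trans h5
      have h6 := relIndex_mul_index hR.1
      rw [← h6] at h4
      rcases (Nat.Prime.dvd_mul hr.out).1 h4 with h7 | h7
      · have := hR.toSylow.not_dvd_index
        exact this h7
      · exact h h7
  have h2 : R = T := le_antisymm hRT (relIndex_eq_one.1 h1)
  rw [h2]; exact hT

theorem isPGroup_of {x : G} {q b : ℕ} (h : orderOf x = q ^ b) : IsPGroup q (zpowers x) :=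
  H24.Tools.isPGroup_zpowers h

structure Data (σ τ : Set ℕ) (H Hs Ht : Subgroup G) : Prop where
  hd : Disjoint σ τ
  hH : Cfsg.IsPiHall (σ ∪ τ) H
  hs : Cfsg.IsPiSubgroup σ Hs
  ht : Cfsg.IsPiSubgroup τ Ht
  hsn : Group.IsNilpotent Hs
  hjoin : Hs ⊔ Ht = H
  hcomm : ∀ a ∈ Hs, ∀ b ∈ Ht, a * b = b * a

variable {σ τ : Set ℕ} {H Hs Ht : Subgroup G}

theorem Data.norm (D : Data σ τ H Hs Ht) : Ht ≤ normalizer (Hs : Set G) := by
  rw [le_normalizer_iff]
  intro b hb a ha
  rw [← D.hcomm a ha b hb, mul_inv_cancel_right]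
  exact ha

theorem Data.card (D : Data σ τ H Hs Ht) : Nat.card H ∣ Nat.card Hs * Nat.card Ht := by
  have := H2.Card.card_sup_mul_card_inf D.norm
  rw [sup_comm, D.hjoin] at this
  rw [mul_comm (Nat.card Hs), ← this]
  exact Dvd.intro _ rfl

theorem Data.index_s (D : Data σ τ H Hs Ht) {r : ℕ} (hr : r.Prime) (hrs : r ∈ σ) : ¬ r ∣ Hs.index := by
  intro h
  have hle : Hs ≤ H := D.hjoin ▸ le_sup_left
  rw [← relIndex_mul_index hle] at h
  rcases (Nat.Prime.dvd_mul hr).1 h with h7 | h7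
  · have h1 := D.card
    rw [← H2.Card.card_mul_relIndex hle] at h1
    have h2 := Nat.dvd_of_mul_dvd_mul_left (Nat.card_pos) h1
    exact Set.disjoint_left.1 D.hd hrs (D.ht r hr (h7.trans h2))
  · exact D.hH.2 r hr (Or.inl hrs) h7

theorem Data.index_t (D : Data σ τ H Hs Ht) {r : ℕ} (hr : r.Prime) (hrs : r ∈ τ) : ¬ r ∣ Ht.index := by
  intro h
  have hle : Ht ≤ H := D.hjoin ▸ le_sup_right
  rw [← relIndex_mul_index hle] at h
  rcases (Nat.Prime.dvd_mul hr).1 h with h7 | h7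
  · have h1 := D.card
    rw [← H2.Card.card_mul_relIndex hle, mul_comm (Nat.card Hs)] at h1
    have h2 := Nat.dvd_of_mul_dvd_mul_left (Nat.card_pos) h1
    exact Set.disjoint_left.1 D.hd (D.hs r hr (h7.trans h2)) hrs
  · exact D.hH.2 r hr (Or.inr hrs) h7

/-- commuting Sylow subgroups -/
theorem Data.pair (D : Data σ τ H Hs Ht) {r q : ℕ} [hr : Fact r.Prime] [hq : Fact q.Prime] (hrs : r ∈ σ) (hqs : q ∈ σ ∪ τ) (hqr : q ≠ r) :
    ∃ R Q : Subgroup G, IsSylowIn r R ⊤ ∧ R ≤ Hs ∧ IsSylowIn q Q ⊤ ∧ ∀ x ∈ R, ∀ y ∈ Q, x * y = y * x := by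
  obtain ⟨R, hR, hRH⟩ := exists_sylow (D.index_s hr.out hrs)
  rcases hqs with hqs | hqs
  · obtain ⟨Q, hQ, hQH⟩ := exists_sylow (D.index_s hq.out hqs)
    refine ⟨R, Q, hR, hRH, hQ, fun x hx y hy => ?_⟩
    exact H1.Schmidt.commute_of_nilpotent' D.hsn hqr.symm hR.2.1 hQ.2.1 hRH hQH hx hy
  · obtain ⟨Q, hQ, hQH⟩ := exists_sylow (D.index_t hq.out hqs)
    exact ⟨R, Q, hR, hRH, hQ, fun x hx y hy => D.hcomm x (hRH hx) y (hQH hy)⟩

/-- `q`-elements normalizing an `r`-subgroup centralize it -/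
theorem Data.cent (D : Data σ τ H Hs Ht) {r q b : ℕ} [hr : Fact r.Prime] [hq : Fact q.Prime] (hrs : r ∈ σ) (hqs : q ∈ σ ∪ τ) (hqr : q ≠ r)
    {R1 : Subgroup G} (hR1 : IsPGroup r R1) {x : G} (hx : x ∈ Nz R1) (hxo : orderOf x = q ^ b) : x ∈ Cz R1 := by
  obtain ⟨R, Q, hR, -, hQ, hcomm⟩ := D.pair hrs hqs hqr
  obtain ⟨g, -, hg⟩ := hR.exists_conj_le hR1 le_top
  rw [cj_le_iff] at hg
  have hQ' : IsSylowIn q (cj g⁻¹ Q) ⊤ := by
    have := hQ.conj g⁻¹
    rwa [cj_eq_of_normal g⁻¹ (inferInstance : (⊤ : Subgroup G).Normal)] at this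
  have hQC : cj g⁻¹ Q ≤ Cz R1 := by
    intro y hy
    rw [mem_centralizer_iff]
    intro z hz
    have h1 := hcomm _ (mem_cj.1 (hg hz)) _ (mem_cj.1 hy)
    rw [inv_inv] at h1
    have h2 : g * (z * y) * g⁻¹ = g * (y * z) * g⁻¹ := by
      calc g * (z * y) * g⁻¹ = (g * z * g⁻¹) * (g * y * g⁻¹) := by group
        _ = (g * y * g⁻¹) * (g * z * g⁻¹) := h1
        _ = g * (y * z) * g⁻¹ := by group
    exact mul_left_cancel (mul_right_cancel h2)
  have hQN : IsSylowIn q (cj g⁻¹ Q) (Nz R1) := hQ'.mono (hQC.trans (Cz_le_Nz R1)) le_top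
  obtain ⟨n, hn, hxn⟩ := hQN.exists_conj_le (isPGroup_of hxo) (zpowers_le.2 hx)
  have h3 : n * x * n⁻¹ ∈ Cz R1 := hQC (hxn (conj_mem_cj (mem_zpowers x)))
  have h4 : n⁻¹ * (n * x * n⁻¹) * n⁻¹⁻¹ ∈ Cz R1 := by
    have h5 := Nz_le_Nz_Cz R1 (inv_mem hn)
    exact (mem_normalizer_iff.1 h5 _).1 h3
  have h5 : n⁻¹ * (n * x * n⁻¹) * n⁻¹⁻¹ = x := by group
  rwa [h5] at h4

/-- `π`-subgroups are `r`-nilpotent -/
theorem Data.npc (D : Data σ τ H Hs Ht) {r : ℕ} [hr : Fact r.Prime] (hrs : r ∈ σ) {K : Subgroup G}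
    (hK : Cfsg.IsPiSubgroup (σ ∪ τ) K) : Cfsg.HasNormalPComplement r K := by
  apply H2.Fusion3.npc_of_frobenius
  intro R1 hR1 g hg hgo
  apply H23.Basic.mem_of_prime_pow_parts
  intro x hx q b hq hxo
  haveI : Fact q.Prime := ⟨hq⟩
  by_cases hb : b = 0
  · subst hb
    rw [pow_zero, orderOf_eq_one_iff] at hxo
    rw [hxo]; exact one_mem _
  have hqK : q ∣ Nat.card K := by
    have h1 := orderOf_dvd_natCard x
    rw [hxo] at h1
    exact (dvd_pow_self q hb).trans h1
  have hqr : q ≠ r := by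
    rintro rfl
    have h1 : orderOf x ∣ orderOf g := orderOf_dvd_of_mem_zpowers hx
    rw [hxo] at h1
    have h2 := Nat.Coprime.coprime_dvd_left ((dvd_pow_self q hb).trans h1) hgo
    rw [Nat.coprime_self] at h2
    exact hq.one_lt.ne' h2
  have hxN : x ∈ normalizer (R1 : Set K) := (zpowers_le.2 hg) hx
  have h1 : (x : G) ∈ Cz (R1.map K.subtype) := by
    apply D.cent (b := b) hrs (hK q hq hqK) hqr (hR1.map _)
    · rw [mem_normalizer_iff]
      intro y
      constructor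
      · rintro ⟨z, hz, rfl⟩
        exact ⟨x * z * x⁻¹, (mem_normalizer_iff.1 hxN z).1 hz, rfl⟩
      · rintro ⟨z, hz, hzy⟩
        refine ⟨x⁻¹ * z * x, ?_, ?_⟩
        · have := (mem_normalizer_iff.1 (inv_mem hxN) z).1 hz
          rw [inv_inv] at this; exact this
        · change (x : G)⁻¹ * z * x = y
          have h2 : (z : G) = x * y * (x : G)⁻¹ := hzy
          rw [h2]; group
    · rw [orderOf_coe]; exact hxo
  rw [mem_centralizer_iff] at h1 ⊢
  intro y hy
  exact Subtype.ext (h1 y ⟨y, hy, rfl⟩)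

theorem Data.main (D : Data σ τ H Hs Ht) (hD : Cfsg.IsDPiGroup τ G) (n : ℕ) : ∀ K : Subgroup G, Nat.card K = n →
    Cfsg.IsPiSubgroup (σ ∪ τ) K → ∃ g, K ≤ cj g H := by
  induction n using Nat.strong_induction_on with
  | _ n ih =>
  intro K hKn hK
  by_cases hex : ∃ r : ℕ, r.Prime ∧ r ∈ σ ∧ r ∣ Nat.card K
  · obtain ⟨r, hr, hrs, hrK⟩ := hex
    haveI : Fact r.Prime := ⟨hr⟩
    obtain ⟨N0, hN0, hN0r, k, hk⟩ := H2.Basic.npc_iff.1 (D.npc hrs hK)
    set M := N0.map K.subtype with hM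
    have hMK : M ≤ K := map_subtype_le _
    have hMc : Nat.card M = Nat.card N0 := card_map_of_injective K.subtype_injective
    have hlt : Nat.card M < n := by
      rw [← hKn]
      refine lt_of_le_of_ne (Subgroup.card_le_of_le hMK) (fun h => hN0r ?_)
      rw [← hMc, h]; exact hrK
    have hMπ : Cfsg.IsPiSubgroup (σ ∪ τ) M := fun q hq hqd => hK q hq (hqd.trans (card_dvd_of_le hMK))
    obtain ⟨g, hg⟩ := ih _ hlt M rfl hMπ
    -- the Sylow subgroup R of H
    obtain ⟨R, hR, hRH⟩ := exists_sylow (D.index_s hr hrs)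
    have hRn : H ≤ Nz R := by
      rw [← D.hjoin, sup_le_iff]
      constructor
      · have hRs : IsSylowIn r R Hs := hR.mono hRH le_top
        haveI := D.hsn
        have h1 : (hRs.toSylow : Subgroup Hs).Normal := inferInstance
        rw [hRs.coe_toSylow] at h1
        rw [← normal_subgroupOf_iff_le_normalizer hRH]
        exact h1
      · rw [le_normalizer_iff]
        intro b hb a ha
        rw [← D.hcomm a (hRH ha) b hb, mul_inv_cancel_right]
        exact ha
    have hMC : M ≤ Cz (cj g R) := by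
      intro y hy
      have h1 : (⟨y, hy⟩ : M) ∈ (Cz (cj g R)).subgroupOf M := by
        apply H23.Basic.mem_of_prime_pow_parts
        intro x hx q b hq hxo
        haveI : Fact q.Prime := ⟨hq⟩
        rw [mem_subgroupOf]
        by_cases hb : b = 0
        · subst hb
          rw [pow_zero, orderOf_eq_one_iff] at hxo
          rw [hxo]; exact one_mem _
        have hqM : q ∣ Nat.card M := by
          have h1 := orderOf_dvd_natCard x
          rw [hxo] at h1
          exact (dvd_pow_self q hb).trans h1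
        have hqr : q ≠ r := by
          rintro rfl
          rw [hMc] at hqM
          exact hN0r hqM
        apply D.cent (b := b) hrs (hMπ q hq hqM) hqr (cj_isPGroup hR.2.1)
        · rw [← cj_Nz]
          exact cj_mono hRn (hg x.2)
        · rw [orderOf_coe]; exact hxo
      exact h1
    have hRC : cj g R ≤ Cz M := le_centralizer_iff.1 hMC
    have hKN : K ≤ Nz M := by
      rw [← normal_subgroupOf_iff_le_normalizer hMK]
      have : M.subgroupOf K = N0 := Subgroup.comap_map_eq_self_of_injective K.subtype_injective _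
      rw [this]; exact hN0
    have hRN : IsSylowIn r (cj g R) (Nz M) := by
      have h1 := hR.conj g
      rw [cj_eq_of_normal g (inferInstance : (⊤ : Subgroup G).Normal)] at h1
      exact h1.mono (hRC.trans (Cz_le_Nz M)) le_top
    obtain ⟨P0, hP0⟩ := exists_isSylowIn r K
    obtain ⟨m, hm, hPm⟩ := hRN.exists_conj_le hP0.2.1 (hP0.1.trans hKN)
    refine ⟨m⁻¹ * g, ?_⟩
    have hKe : K ≤ M ⊔ P0 := by
      have h1 := (H2.Basic.isComplement'_sylow hP0.toSylow hN0r hk).sup_eq_top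
      have h2 := congrArg (Subgroup.map K.subtype) h1
      rw [Subgroup.map_sup, hP0.map_toSylow, ← MonoidHom.range_eq_map, Subgroup.range_subtype] at h2
      exact h2.ge
    refine hKe.trans (sup_le ?_ ?_)
    · rw [cj_mul, le_cj_iff, inv_inv, cj_eq_of_mem_Nz hm]
      exact hg
    · rw [cj_mul, le_cj_iff, inv_inv]
      refine hPm.trans (cj_mono (hRH.trans ?_))
      rw [← D.hjoin]; exact le_sup_left
  · push Not at hex
    have hKτ : Cfsg.IsPiSubgroup τ K := by
      intro q hq hqd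
      rcases hK q hq hqd with h | h
      · exact absurd hqd (hex q hq h)
      · exact h
    obtain ⟨M, hKM, hM⟩ := (Set.toFinite {M : Subgroup G | Cfsg.IsPiSubgroup τ M}).exists_le_maximal hKτ
    have hHt : Maximal (Cfsg.IsPiSubgroup τ) Ht := by
      refine ⟨D.ht, ?_⟩
      intro L hL hle
      rw [← relIndex_eq_one]
      by_contra hne
      obtain ⟨q, hq, hqd⟩ := Nat.exists_prime_and_dvd hne
      have h1 : q ∣ Nat.card L := by
        rw [← H2.Card.card_mul_relIndex hle]; exact hqd.mul_left _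
      exact D.index_t hq (hL q hq h1) (hqd.trans (relIndex_dvd_index_of_le hle))
    obtain ⟨g, hg⟩ := hD Ht M hHt hM
    refine ⟨g, hKM.trans ?_⟩
    rw [hg]
    exact cj_mono (D.hjoin ▸ le_sup_right)


/-- Let σ and τ be disjoint sets of primes with union π. Suppose a finite group G has a Hall π-subgroup H which is the direct product of a nilpotent σ-subgroup and a τ-subgroup (two elementwise-commuting subgroups generating H), and that the maximal τ-subgroups of G are pairwise conjugate. Then the maximal π-subgroups of G are pairwise conjugate. -/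
theorem result {G : Type*} [Group G] [Finite G]
    (σ τ π : Set ℕ) (hπ : π = σ ∪ τ) (hd : Disjoint σ τ) (H Hs Ht : Subgroup G) (hH : Cfsg.IsPiHall π H)
    (hs : Cfsg.IsPiSubgroup σ Hs) (ht : Cfsg.IsPiSubgroup τ Ht) (hsn : Group.IsNilpotent Hs)
    (hjoin : Hs ⊔ Ht = H) (hcomm : ∀ a ∈ Hs, ∀ b ∈ Ht, a * b = b * a) (hD : Cfsg.IsDPiGroup τ G) :
    Cfsg.IsDPiGroup π G := by

  subst hπ
  have D : Data σ τ H Hs Ht := ⟨hd, hH, hs, ht, hsn, hjoin, hcomm⟩
  have key : ∀ A : Subgroup G, Maximal (Cfsg.IsPiSubgroup (σ ∪ τ)) A → ∃ g, A = cj g H := by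
    intro A hA
    obtain ⟨g, hg⟩ := D.main hD _ A rfl hA.1
    refine ⟨g, le_antisymm hg (hA.2 ?_ hg)⟩
    intro q hq hqd
    rw [card_cj] at hqd
    exact hH.1 q hq hqd
  intro A B hA hB
  obtain ⟨g, rfl⟩ := key A hA
  obtain ⟨h, rfl⟩ := key B hB
  refine ⟨h * g⁻¹, ?_⟩
  change _ = cj (h * g⁻¹) (cj g H)
  rw [← cj_mul, inv_mul_cancel_right]


end Cfsg.Agent.S4334
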