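import Cfsg.Statements.S4337
import Mathlib
import Cfsg.Agent.H24_Perm
import Cfsg.Agent.H3_Burnside

set_option autoImplicit false
open Cfsg

namespace Cfsg.Agent.S4337

theorem small {n : ℕ} (U : Finset (Fin n)) (hU : U.card ≤ 4) (s : Set (Equiv.Perm (Fin n)))
    (hs : ∀ x ∈ s, x ∈ Cfsg.Agent.H24.Perm.supp U) : Group.IsSolvable (Subgroup.closure s) := by
  have hle : Subgroup.closure s ≤ Cfsg.Agent.H24.Perm.supp U := (Subgroup.closure_le _).mpr hs
  have h1 : Nat.card (Subgroup.closure s) ∣ 24 := by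
    refine (Subgroup.card_dvd_of_le hle).trans ?_
    rw [Cfsg.Agent.H24.Perm.card_supp]
    exact Nat.factorial_dvd_factorial hU
  have h2 : ∃ a b : ℕ, Nat.card (Subgroup.closure s) = 2 ^ a * 3 ^ b := by
    have h3 : Nat.card (Subgroup.closure s) ∈ Nat.divisors 24 := Nat.mem_divisors.mpr ⟨h1, by norm_num⟩
    have h4 : Nat.divisors 24 = {1, 2, 3, 4, 6, 8, 12, 24} := by decide
    rw [h4] at h3
    simp only [Finset.mem_insert, Finset.mem_singleton] at h3
    rcases h3 with h | h | h | h | h | h | h | h <;> rw [h]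
    · exact ⟨0, 0, rfl⟩
    · exact ⟨1, 0, rfl⟩
    · exact ⟨0, 1, rfl⟩
    · exact ⟨2, 0, rfl⟩
    · exact ⟨1, 1, rfl⟩
    · exact ⟨3, 0, rfl⟩
    · exact ⟨2, 1, rfl⟩
    · exact ⟨3, 1, rfl⟩
  obtain ⟨a, b, hab⟩ := h2
  exact Cfsg.Agent.H3.Burnside.burnside _ _ 2 3 a b Nat.prime_two Nat.prime_three rfl hab

theorem disj {n : ℕ} (a1 a2 b1 b2 c1 c2 : Fin n)
    (h : Disjoint ({c1, c2} : Finset (Fin n)) ({a1, a2} ∪ {b1, b2})) :
    Group.IsSolvable (Subgroup.closure ({Equiv.swap a1 a2, Equiv.swap b1 b2, Equiv.swap c1 c2} : Set (Equiv.Perm (Fin n)))) := by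
  set U : Finset (Fin n) := {a1, a2} ∪ {b1, b2} with hU
  have hUc : U.card ≤ 4 := by
    have h1 := Finset.card_union_le ({a1, a2} : Finset (Fin n)) {b1, b2}
    have h2 := Finset.card_le_two (a := a1) (b := a2)
    have h3 := Finset.card_le_two (a := b1) (b := b2)
    rw [hU]
    omega
  have hs1 : Group.IsSolvable (Subgroup.closure ({Equiv.swap a1 a2, Equiv.swap b1 b2} : Set (Equiv.Perm (Fin n)))) := by
    apply small U hUc
    intro x hx
    rcases hx with rfl | rfl
    · exact Cfsg.Agent.H24.Perm.swap_mem_supp (by simp [hU]) (by simp [hU])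
    · exact Cfsg.Agent.H24.Perm.swap_mem_supp (by simp [hU]) (by simp [hU])
  set K := Subgroup.closure ({Equiv.swap a1 a2, Equiv.swap b1 b2} : Set (Equiv.Perm (Fin n))) with hK
  have hKU : K ≤ Cfsg.Agent.H24.Perm.supp U := by
    rw [hK, Subgroup.closure_le]
    intro x hx
    rcases hx with rfl | rfl
    · exact Cfsg.Agent.H24.Perm.swap_mem_supp (by simp [hU]) (by simp [hU])
    · exact Cfsg.Agent.H24.Perm.swap_mem_supp (by simp [hU]) (by simp [hU])
  have hcomm : ∀ k : K, ∀ z : Subgroup.zpowers (Equiv.swap c1 c2), Commute (k : Equiv.Perm (Fin n)) z := by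
    intro k z
    obtain ⟨i, hi⟩ := Subgroup.mem_zpowers_iff.mp z.2
    rw [← hi]
    apply Commute.zpow_right
    apply Equiv.Perm.Disjoint.commute
    intro x
    by_cases hx : x ∈ U
    · right
      rw [Finset.disjoint_right] at h
      have h1 := h hx
      simp only [Finset.mem_insert, Finset.mem_singleton, not_or] at h1
      exact Equiv.swap_apply_of_ne_of_ne h1.1 h1.2
    · left
      exact hKU k.2 x hx
  let f : K × Subgroup.zpowers (Equiv.swap c1 c2) →* Equiv.Perm (Fin n) :=
    MonoidHom.noncommCoprod K.subtype (Subgroup.zpowers (Equiv.swap c1 c2)).subtype hcomm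
  have hz : Group.IsSolvable (Subgroup.zpowers (Equiv.swap c1 c2)) := by
    have : IsMulCommutative (Subgroup.zpowers (Equiv.swap c1 c2)) := inferInstance
    infer_instance
  have hsol : Group.IsSolvable (K × Subgroup.zpowers (Equiv.swap c1 c2)) := inferInstance
  have hr : Group.IsSolvable f.range :=
    Group.isSolvable_of_surjective (f := f.rangeRestrict) f.rangeRestrict_surjective
  have hle : Subgroup.closure ({Equiv.swap a1 a2, Equiv.swap b1 b2, Equiv.swap c1 c2} : Set (Equiv.Perm (Fin n))) ≤ f.range := by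
    rw [Subgroup.closure_le]
    intro x hx
    rcases hx with rfl | rfl | rfl
    · refine ⟨(⟨Equiv.swap a1 a2, Subgroup.subset_closure (by simp)⟩, 1), ?_⟩
      change Equiv.swap a1 a2 * 1 = _
      rw [mul_one]
    · refine ⟨(⟨Equiv.swap b1 b2, Subgroup.subset_closure (by simp)⟩, 1), ?_⟩
      change Equiv.swap b1 b2 * 1 = _
      rw [mul_one]
    · refine ⟨(1, ⟨Equiv.swap c1 c2, Subgroup.mem_zpowers _⟩), ?_⟩
      change 1 * Equiv.swap c1 c2 = _
      rw [one_mul]
  exact Group.isSolvable_of_isSolvable_injective (f := Subgroup.inclusion hle) (Subgroup.inclusion_injective hle)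

/-- In a finite symmetric group, any three transpositions generate a solvable subgroup. -/
theorem result (n : ℕ) (a b c : Equiv.Perm (Fin n))
    (ha : a.IsSwap) (hb : b.IsSwap) (hc : c.IsSwap) :
    Group.IsSolvable (Subgroup.closure ({a, b, c} : Set (Equiv.Perm (Fin n)))) := by
  obtain ⟨a1, a2, hane, rfl⟩ := ha
  obtain ⟨b1, b2, hbne, rfl⟩ := hb
  obtain ⟨c1, c2, hcne, rfl⟩ := hc
  let A : Finset (Fin n) := {a1, a2}
  let B : Finset (Fin n) := {b1, b2}
  let C : Finset (Fin n) := {c1, c2}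
  have hA : A.card = 2 := Finset.card_pair hane
  have hB : B.card = 2 := Finset.card_pair hbne
  have hC : C.card = 2 := Finset.card_pair hcne
  by_cases hU : (A ∪ B ∪ C).card ≤ 4
  · apply small (A ∪ B ∪ C) hU
    intro x hx
    rcases hx with rfl | rfl | rfl
    · exact Cfsg.Agent.H24.Perm.swap_mem_supp (by simp [A]) (by simp [A])
    · exact Cfsg.Agent.H24.Perm.swap_mem_supp (by simp [B]) (by simp [B])
    · exact Cfsg.Agent.H24.Perm.swap_mem_supp (by simp [C]) (by simp [C])
  · push Not at hU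
    have hcases : (Disjoint C (A ∪ B)) ∨ (Disjoint B (A ∪ C)) ∨ (Disjoint A (B ∪ C)) := by
      by_contra hcon
      push Not at hcon
      obtain ⟨h1, h2, h3⟩ := hcon
      have e1 := Finset.card_union_add_card_inter (A ∪ B) C
      have e2 := Finset.card_union_add_card_inter A B
      have e3 := Finset.card_union_add_card_inter A C
      have e4 := Finset.card_union_add_card_inter (A ∪ C) B
      have e5 : (A ∪ C ∪ B) = (A ∪ B ∪ C) := by
        ext x; simp only [Finset.mem_union]; tauto
      rw [e5] at e4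
      have p1 : 0 < ((A ∪ B) ∩ C).card := by
        rw [Finset.card_pos, ← Finset.not_disjoint_iff_nonempty_inter]
        exact fun h => h1 h.symm
      have p2 : 0 < ((A ∪ C) ∩ B).card := by
        rw [Finset.card_pos, ← Finset.not_disjoint_iff_nonempty_inter]
        exact fun h => h2 h.symm
      have p3 : 0 < (A ∩ B).card ∨ 0 < (A ∩ C).card := by
        rw [Finset.not_disjoint_iff] at h3
        obtain ⟨x, hx1, hx2⟩ := h3
        rcases Finset.mem_union.mp hx2 with h | h
        · left; rw [Finset.card_pos]; exact ⟨x, Finset.mem_inter.mpr ⟨hx1, h⟩⟩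
        · right; rw [Finset.card_pos]; exact ⟨x, Finset.mem_inter.mpr ⟨hx1, h⟩⟩
      rcases p3 with h | h <;> omega
    rcases hcases with h | h | h
    · exact disj a1 a2 b1 b2 c1 c2 h
    · have e : ({Equiv.swap a1 a2, Equiv.swap b1 b2, Equiv.swap c1 c2} : Set (Equiv.Perm (Fin n))) =
        {Equiv.swap a1 a2, Equiv.swap c1 c2, Equiv.swap b1 b2} := by
        ext x; simp only [Set.mem_insert_iff, Set.mem_singleton_iff]; tauto
      rw [e]
      exact disj a1 a2 c1 c2 b1 b2 h
    · have e : ({Equiv.swap a1 a2, Equiv.swap b1 b2, Equiv.swap c1 c2} : Set (Equiv.Perm (Fin n))) =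
        {Equiv.swap b1 b2, Equiv.swap c1 c2, Equiv.swap a1 a2} := by
        ext x; simp only [Set.mem_insert_iff, Set.mem_singleton_iff]; tauto
      rw [e]
      exact disj b1 b2 c1 c2 a1 a2 h

end Cfsg.Agent.S4337
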