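import Cfsg.Statements.S4342
import Mathlib
import Cfsg.Agent.H24_Tools

set_option autoImplicit false
open Cfsg

namespace Cfsg.Agent.S4342

/-- Let H be a normal subgroup of a finite group G and p a prime not dividing the index of H. Then the number of Sylow p-subgroups of H/Z(H) equals the number of Sylow p-subgroups of G. -/
theorem result {G : Type*} [Group G] [Finite G]
    (p : ℕ) [Fact p.Prime] (H : Subgroup G) [H.Normal] (hp : ¬ p ∣ H.index) :
    Nat.card (Sylow p (H ⧸ Subgroup.center H)) = Nat.card (Sylow p G) := by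
  -- number of Sylow subgroups of H and of G agree
  have h1 : Nat.card (Sylow p H) = Nat.card (Sylow p G) := by
    obtain ⟨P⟩ : Nonempty (Sylow p H) := inferInstance
    have hle : ∀ Q : Sylow p G, (Q : Subgroup G) ≤ H := by
      intro Q x hx
      obtain ⟨k, hk⟩ := Cfsg.Agent.H24.Tools.exists_orderOf Q.isPGroup' hx
      apply Cfsg.Agent.H24.Tools.coprime_pow_mem (Subgroup.pow_index_mem H x)
      rw [hk]
      exact Nat.Coprime.pow_left _ (((Fact.out : p.Prime).coprime_iff_not_dvd).mpr hp)
    apply Nat.card_congr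
    symm
    refine Equiv.ofBijective (fun Q : Sylow p G => Q.subtype (hle Q)) ⟨?_, ?_⟩
    · intro Q R h
      exact Sylow.subtype_injective h
    · intro R
      have hpR : IsPGroup p ((R : Subgroup H).map H.subtype) := R.isPGroup'.map _
      obtain ⟨Q, hQ⟩ := hpR.exists_le_sylow
      refine ⟨Q, ?_⟩
      apply Sylow.ext
      apply R.is_maximal' (Q.subtype (hle Q)).isPGroup'
      intro x hx
      exact hQ ⟨x, hx, rfl⟩
  rw [← h1]
  have hsurj : Function.Surjective (QuotientGroup.mk' (Subgroup.center H)) := QuotientGroup.mk'_surjective _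
  apply Nat.card_congr
  symm
  refine Equiv.ofBijective (fun Q : Sylow p H => Q.mapSurjective hsurj) ⟨?_, Sylow.mapSurjective_surjective hsurj p⟩
  intro Q R h
  apply Sylow.ext
  symm
  apply Q.is_maximal' R.isPGroup'
  intro x hx
  obtain ⟨k, hk⟩ := Cfsg.Agent.H24.Tools.exists_orderOf Q.isPGroup' hx
  apply Cfsg.Agent.H24.Sylow.mem_of_normalizes R hk
  have h2 : QuotientGroup.mk' (Subgroup.center H) x ∈ Q.mapSurjective hsurj := ⟨x, hx, rfl⟩
  simp only at h
  rw [h] at h2
  obtain ⟨y, hy, hyx⟩ := h2
  have hz : y⁻¹ * x ∈ Subgroup.center H := QuotientGroup.eq.mp hyx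
  have hx' : x = y * (y⁻¹ * x) := by group
  rw [hx']
  apply Subgroup.mul_mem
  · exact Subgroup.le_normalizer hy
  · exact Subgroup.centralizer_le_normalizer _ (Subgroup.center_le_centralizer _ hz)

end Cfsg.Agent.S4342
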