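import Cfsg.Statements.S4343
import Mathlib
import Cfsg.Agent.H24_Tools
import Cfsg.Agent.H2_PGroup

set_option autoImplicit false
open Cfsg

namespace Cfsg.Agent.S4343

/-- Let S be a finite non-abelian simple group and p a prime dividing its order. If S has fewer than p² Sylow p-subgroups, then its Sylow p-subgroups have order p. -/
theorem result {S : Type*} [Group S] [Finite S]
    [IsSimpleGroup S] (hS : ¬ IsMulCommutative S) (p : ℕ) [Fact p.Prime] (hp : p ∣ Nat.card S)
    (hn : Nat.card (Sylow p S) < p ^ 2) (P : Sylow p S) : Nat.card P = p := by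
  classical
  have hpp : p.Prime := Fact.out
  -- intersection of all Sylow subgroups is trivial
  have hcore : ∀ x : S, (∀ Q : Sylow p S, x ∈ (Q : Subgroup S)) → x = 1 := by
    set K : Subgroup S := ⨅ Q : Sylow p S, (Q : Subgroup S) with hK
    have hKn : K.Normal := by
      refine ⟨fun n hn g => ?_⟩
      rw [hK, Subgroup.mem_iInf] at hn ⊢
      intro Q
      have := hn (g⁻¹ • Q)
      rw [Cfsg.Agent.H24.Sylow.mem_smul_sylow, inv_inv] at this
      exact this
    intro x hx
    rcases hKn.eq_bot_or_eq_top with h | h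
    · have : x ∈ K := by rw [hK, Subgroup.mem_iInf]; exact hx
      rwa [h, Subgroup.mem_bot] at this
    · exfalso
      have hPtop : (P : Subgroup S) = ⊤ := by
        rw [eq_top_iff, ← h, hK]; exact iInf_le _ P
      have hpS : IsPGroup p S := by
        have := P.isPGroup'
        rw [hPtop] at this
        exact this.of_surjective (Subgroup.topEquiv (G := S)).toMonoidHom (Subgroup.topEquiv (G := S)).surjective
      have hnil := hpS.isNilpotent
      have hsol : Group.IsSolvable S := inferInstance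
      exact hS (IsSimpleGroup.comm_iff_isSolvable.mpr hsol |> fun h => ⟨⟨h⟩⟩)
  -- index of intersections
  have hidx : ∀ P Q : Sylow p S, P ≠ Q → (Q : Subgroup S).relIndex (P : Subgroup S) = p := by
    intro P Q hPQ
    have h1 : (MulAction.stabilizer (P : Subgroup S) Q) = (Q : Subgroup S).subgroupOf P := by
      ext x
      rw [MulAction.mem_stabilizer_iff, Subgroup.mem_subgroupOf]
      constructor
      · intro h
        have h2 : (x : S) • Q = Q := h
        rw [Sylow.smul_eq_iff_mem_normalizer] at h2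
        obtain ⟨k, hk⟩ := Cfsg.Agent.H24.Tools.exists_orderOf P.isPGroup' x.2
        exact Cfsg.Agent.H24.Sylow.mem_of_normalizes Q hk h2
      · intro h
        have h2 : (x : S) • Q = Q := by
          rw [Sylow.smul_eq_iff_mem_normalizer]; exact Subgroup.le_normalizer h
        exact h2
    have h2 := MulAction.index_stabilizer (P : Subgroup S) Q
    rw [h1] at h2
    have h3 : (MulAction.orbit (P : Subgroup S) Q).ncard < p ^ 2 := by
      refine lt_of_le_of_lt ?_ hn
      exact Set.ncard_le_card _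
    rw [← h2] at h3
    change (Q : Subgroup S).relIndex (P : Subgroup S) < p ^ 2 at h3
    have h4 : (Q : Subgroup S).relIndex (P : Subgroup S) ∣ Nat.card (P : Subgroup S) := Subgroup.relIndex_dvd_card _ _
    obtain ⟨m, hm⟩ := (IsPGroup.iff_card).mp P.isPGroup'
    rw [hm] at h4
    obtain ⟨j, -, hj⟩ := (Nat.dvd_prime_pow hpp).mp h4
    rw [hj] at h3
    have hj2 : j < 2 := (Nat.pow_lt_pow_iff_right hpp.one_lt).mp h3
    interval_cases j
    · exfalso
      rw [pow_zero, Subgroup.relIndex_eq_one] at hj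
      exact hPQ (Sylow.ext (P.is_maximal' Q.isPGroup' hj).symm)
    · rw [hj, pow_one]
  -- Sylow subgroups are abelian
  have hab : ∀ P : Sylow p S, ∀ a ∈ (P : Subgroup S), ∀ b ∈ (P : Subgroup S), a * b = b * a := by
    intro P a ha b hb
    have h1 : a * b * a⁻¹ * b⁻¹ = 1 := by
      apply hcore
      intro Q
      by_cases hPQ : P = Q
      · rw [← hPQ]
        exact Subgroup.mul_mem _ (Subgroup.mul_mem _ (Subgroup.mul_mem _ ha hb) (Subgroup.inv_mem _ ha)) (Subgroup.inv_mem _ hb)
      · have h2 := hidx P Q hPQ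
        have h3 : ((Q : Subgroup S).subgroupOf P).index = p := h2
        have h4 := Cfsg.Agent.H2.PGroup.isCoatom_of_index h3
        have h5 := Cfsg.Agent.H2.PGroup.commutator_le_coatom P.isPGroup' h4
        have h6 : (⟨a, ha⟩ : (P : Subgroup S)) * ⟨b, hb⟩ * (⟨a, ha⟩ : (P : Subgroup S))⁻¹ * (⟨b, hb⟩ : (P : Subgroup S))⁻¹ ∈ commutator (P : Subgroup S) := by
          rw [commutator_def, ← commutatorElement_def]
          exact Subgroup.commutator_mem_commutator (Subgroup.mem_top _) (Subgroup.mem_top _)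
        have h7 := h5 h6
        rw [Subgroup.mem_subgroupOf] at h7
        exact h7
    rw [mul_assoc, mul_assoc, ← mul_assoc b] at h1
    have h8 := eq_inv_of_mul_eq_one_left h1
    calc a * b = (a * b * a⁻¹ * b⁻¹) * (b * a) := by group
      _ = b * a := by
        have : a * b * a⁻¹ * b⁻¹ = 1 := by rw [mul_assoc, mul_assoc, ← mul_assoc b]; exact h1
        rw [this, one_mul]
  -- Brodkey
  obtain ⟨⟨P1, Q1⟩, -, hmin⟩ := Set.exists_min_image (Set.univ : Set (Sylow p S × Sylow p S))
    (fun X => Nat.card ((X.1 : Subgroup S) ⊓ X.2 : Subgroup S)) (Set.toFinite _) ⟨(P, P), trivial⟩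
  simp only at hmin
  set D : Subgroup S := (P1 : Subgroup S) ⊓ Q1 with hD
  set N := Subgroup.normalizer (D : Set S) with hN
  have hP1N : (P1 : Subgroup S) ≤ N := by
    intro x hx
    apply Cfsg.Agent.H24.Tools.mem_normalizer
    intro y hy
    rw [hab P1 x hx y (Subgroup.mem_inf.mp hy).1, mul_inv_cancel_right]; exact hy
  have hQ1N : (Q1 : Subgroup S) ≤ N := by
    intro x hx
    apply Cfsg.Agent.H24.Tools.mem_normalizer
    intro y hy
    rw [hab Q1 x hx y (Subgroup.mem_inf.mp hy).2, mul_inv_cancel_right]; exact hy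
  have hDR : ∀ R : Sylow p S, D ≤ R := by
    intro R
    have hRp : IsPGroup p (((R : Subgroup S) ⊓ N).subgroupOf N) :=
      (R.isPGroup'.to_le inf_le_left).comap_of_injective _ (Subgroup.subtype_injective _)
    have hi : ¬ p ∣ ((P1 : Subgroup S).subgroupOf N).index := fun h =>
      P1.not_dvd_index (h.trans (Subgroup.relIndex_dvd_index_of_le hP1N))
    obtain ⟨n, hn⟩ := Cfsg.Agent.H24.Sylow.exists_conj_in _ _ hRp hi
    have h1 : ∀ x ∈ (R : Subgroup S), x ∈ N → (n : S)⁻¹ * x * n ∈ (P1 : Subgroup S) := by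
      intro x hx hxN
      have := hn ⟨x, hxN⟩ (by rw [Subgroup.mem_subgroupOf]; exact Subgroup.mem_inf.mpr ⟨hx, hxN⟩)
      rwa [Subgroup.mem_subgroupOf] at this
    set R' : Sylow p S := (n : S)⁻¹ • R with hR'
    have h2 : (R' : Subgroup S) ⊓ Q1 ≤ D := by
      intro x hx
      rw [Subgroup.mem_inf, hR', Cfsg.Agent.H24.Sylow.mem_smul_sylow, inv_inv] at hx
      refine Subgroup.mem_inf.mpr ⟨?_, hx.2⟩
      have h3 := h1 _ hx.1 (Subgroup.mul_mem _ (Subgroup.mul_mem _ n.2 (hQ1N hx.2)) (Subgroup.inv_mem _ n.2))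
      have e : (n : S)⁻¹ * (n * x * (n : S)⁻¹) * n = x := by group
      rwa [e] at h3
    have h3 : (R' : Subgroup S) ⊓ Q1 = D := Subgroup.eq_of_le_of_card_ge h2 (hmin (R', Q1) trivial)
    intro d hd
    have h4 : (n : S)⁻¹ * d * n ∈ D := by
      have := (Subgroup.mem_normalizer_iff''.mp n.2 d).mp hd
      exact this
    rw [← h3, Subgroup.mem_inf, hR', Cfsg.Agent.H24.Sylow.mem_smul_sylow, inv_inv] at h4
    have e : (n : S) * ((n : S)⁻¹ * d * n) * (n : S)⁻¹ = d := by group
    rw [e] at h4
    exact h4.1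
  have hDb : D = ⊥ := by
    rw [eq_bot_iff]
    intro x hx
    rw [Subgroup.mem_bot]
    exact hcore x (fun Q => hDR Q hx)
  have hPQ : P1 ≠ Q1 := by
    intro h
    have h1 : (P1 : Subgroup S) = ⊥ := by rw [← hDb, hD, ← h, inf_idem]
    have h2 := P1.not_dvd_index
    rw [h1, Subgroup.index_bot] at h2
    exact h2 hp
  have h1 := hidx P1 Q1 hPQ
  rw [← Subgroup.inf_relIndex_right, inf_comm, ← hD, hDb, Subgroup.relIndex_bot_left] at h1
  exact (Nat.card_congr (P.equiv P1).toEquiv).trans h1

end Cfsg.Agent.S4343
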