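import Cfsg.Statements.S4344
import Mathlib
import Cfsg.Agent.H24_Tools

set_option autoImplicit false
open Cfsg

namespace Cfsg.Agent.S4344

/-- Let S be a finite non-abelian simple group, M a maximal subgroup of S and C a cyclic normal subgroup of M. If a Sylow p-subgroup P of S (for a prime p dividing the order of S) is contained in C, then the number of Sylow p-subgroups of S equals the index of M. -/
theorem result {S : Type*} [Group S] [Finite S]
    [IsSimpleGroup S] (hS : ¬ IsMulCommutative S) (p : ℕ) [Fact p.Prime] (hp : p ∣ Nat.card S)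
    (M : Subgroup S) (hM : IsCoatom M) (C : Subgroup S) (hCM : C ≤ M) (hCn : (C.subgroupOf M).Normal)
    (hC : IsCyclic C) (P : Sylow p S) (hP : (P : Subgroup S) ≤ C) :
    Nat.card (Sylow p S) = M.index := by
  have hPn : M ≤ Subgroup.normalizer ((P : Subgroup S) : Set S) := by
    intro m hm
    apply Cfsg.Agent.H24.Tools.mem_normalizer
    intro y hy
    -- conj by m preserves C; unique subgroups in cyclic groups
    have hconj : ∀ c ∈ C, m * c * m⁻¹ ∈ C := by
      intro c hc
      have := hCn.conj_mem ⟨c, hCM hc⟩ (Subgroup.mem_subgroupOf.mpr hc) ⟨m, hm⟩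
      simpa [Subgroup.mem_subgroupOf] using this
    have h1 : (P : Subgroup S).map (MulAut.conj m).toMonoidHom ≤ C := by
      rintro _ ⟨z, hz, rfl⟩
      exact hconj z (hP hz)
    -- p-element normalizing P
    have h2 : ∀ z ∈ C, z ∈ Subgroup.normalizer ((P : Subgroup S) : Set S) := by
      intro z hz
      apply Cfsg.Agent.H24.Tools.mem_normalizer
      intro w hw
      have := (IsCyclic.isMulCommutative (α := C)).is_comm.comm ⟨z, hz⟩ ⟨w, hP hw⟩
      have h3 : z * w = w * z := by simpa [Subtype.ext_iff] using this
      rw [h3, mul_inv_cancel_right]; exact hw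
    have h3 : IsPGroup p ((P : Subgroup S).map (MulAut.conj m).toMonoidHom) := P.isPGroup'.map _
    have h4 := h3.inf_normalizer_sylow P
    have h5 : (P : Subgroup S).map (MulAut.conj m).toMonoidHom ≤ P := by
      intro z hz
      have h6 : z ∈ (P : Subgroup S).map (MulAut.conj m).toMonoidHom ⊓ Subgroup.normalizer (P : Set S) :=
        Subgroup.mem_inf.mpr ⟨hz, h2 z (h1 hz)⟩
      rw [h4] at h6
      exact (Subgroup.mem_inf.mp h6).2
    exact h5 ⟨y, hy, rfl⟩
  have hne : Subgroup.normalizer ((P : Subgroup S) : Set S) ≠ ⊤ := by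
    intro h
    have hnorm : (P : Subgroup S).Normal := Subgroup.normalizer_eq_top_iff.mp h
    rcases hnorm.eq_bot_or_eq_top with h1 | h1
    · have h2 := P.not_dvd_index
      rw [h1, Subgroup.index_bot] at h2
      exact h2 hp
    · apply hS
      refine ⟨⟨fun a b => ?_⟩⟩
      have ha : a ∈ C := hP (by rw [h1]; trivial)
      have hb : b ∈ C := hP (by rw [h1]; trivial)
      have := (IsCyclic.isMulCommutative (α := C)).is_comm.comm ⟨a, ha⟩ ⟨b, hb⟩
      simpa [Subtype.ext_iff] using this
  have heq : Subgroup.normalizer ((P : Subgroup S) : Set S) = M := by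
    by_contra h
    exact hne (hM.2 _ (lt_of_le_of_ne hPn (Ne.symm h)))
  rw [P.card_eq_index_normalizer]
  exact congrArg Subgroup.index heq

end Cfsg.Agent.S4344
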