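import Cfsg.Statements.S4345
import Mathlib
import Cfsg.Agent.H24_SylCount
import Cfsg.Agent.H1_Hall

set_option autoImplicit false
open Cfsg

namespace Cfsg.Agent.S4345

/-- Let G be a finite solvable group and p, ℓ primes. Then the largest power of ℓ dividing the number of Sylow p-subgroups of G is congruent to 1 modulo p. -/
theorem result {G : Type*} [Group G] [Finite G]
    (hG : Group.IsSolvable G) (p ℓ : ℕ) [Fact p.Prime] (hℓ : ℓ.Prime) :
    ℓ ^ (Nat.card (Sylow p G)).factorization ℓ ≡ 1 [MOD p] := by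
  induction' hn : Nat.card G using Nat.strong_induction_on with n ih generalizing G
  subst hn
  rcases subsingleton_or_nontrivial G with hsub | hnt
  · have h1 : Nat.card (Sylow p G) = 1 := by
      obtain ⟨P⟩ : Nonempty (Sylow p G) := inferInstance
      rw [P.card_eq_index_normalizer, Subgroup.index_eq_one]
      exact Subsingleton.elim _ _
    rw [h1]
    simp only [Nat.factorization_one, Finsupp.coe_zero, Pi.zero_apply, pow_zero]
    exact Nat.ModEq.refl 1
  obtain ⟨K, hKn, hKb, hKmin⟩ := Cfsg.Agent.H1.Hall.exists_minimal_normal_of_nontrivial G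
  obtain ⟨-, q, hq, hKq⟩ := Cfsg.Agent.H1.Hall.minimal_normal_elementary K hKb hKmin
  have hqf : Fact q.Prime := ⟨hq⟩
  have hKp : IsPGroup q K := fun x => ⟨1, by
    apply Subtype.ext
    simpa using hKq x x.2⟩
  obtain ⟨m, hm⟩ := (IsPGroup.iff_card).mp hKp
  obtain ⟨P⟩ : Nonempty (Sylow p G) := inferInstance
  have hmul := Cfsg.Agent.H24.SylCount.card_sylow_mul P K
  -- the second factor is a power of q
  have hdvd : Nat.card (Sylow p ((P : Subgroup G) ⊔ K : Subgroup G)) ∣ Nat.card K := by
    refine ((P.subtype (le_sup_left : (P : Subgroup G) ≤ (P : Subgroup G) ⊔ K)).card_dvd_index).trans ?_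
    have e : ((P.subtype (le_sup_left : (P : Subgroup G) ≤ (P : Subgroup G) ⊔ K)) : Subgroup ((P : Subgroup G) ⊔ K : Subgroup G)).index
        = (P : Subgroup G).relIndex ((P : Subgroup G) ⊔ K) := rfl
    rw [e]
    have h1 : (P : Subgroup G).relIndex ((P : Subgroup G) ⊔ K) = (P : Subgroup G).relIndex K := by
      apply Cfsg.Agent.H1.Basic.relIndex_eq_of_factor le_sup_right
      intro l hl
      rw [sup_comm, Subgroup.mem_sup_of_normal_left] at hl
      obtain ⟨k, hk, x, hx, rfl⟩ := hl
      exact ⟨k, hk, by rw [inv_mul_cancel_left]; exact hx⟩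
    rw [h1]
    exact Subgroup.relIndex_dvd_card _ _
  rw [hm] at hdvd
  obtain ⟨t, -, ht⟩ := (Nat.dvd_prime_pow hq).mp hdvd
  have hmod : q ^ t ≡ 1 [MOD p] := by
    rw [← ht]
    exact card_sylow_modEq_one p _
  have hlt : Nat.card (G ⧸ K) < Nat.card G := by
    have h1 := Subgroup.card_eq_card_quotient_mul_card_subgroup K
    have h2 : 1 < Nat.card K := by
      rw [Finite.one_lt_card_iff_nontrivial]
      exact (Subgroup.nontrivial_iff_ne_bot K).mpr hKb
    have h3 : 0 < Nat.card (G ⧸ K) := Nat.card_pos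
    rw [h1]
    nlinarith
  have hih := ih (Nat.card (G ⧸ K)) hlt inferInstance rfl
  rw [hmul, ht, Nat.factorization_mul Nat.card_pos.ne' (pow_ne_zero _ hq.ne_zero), Finsupp.add_apply, pow_add]
  have h2 : ℓ ^ ((q ^ t).factorization ℓ) ≡ 1 [MOD p] := by
    rw [Nat.Prime.factorization_pow hq]
    by_cases h : q = ℓ
    · subst h
      rw [Finsupp.single_eq_same]; exact hmod
    · rw [Finsupp.single_eq_of_ne (Ne.symm h), pow_zero]
  exact hih.mul h2

end Cfsg.Agent.S4345
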