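import Cfsg.Statements.S4346
import Mathlib
import Cfsg.Agent.S4303
import Cfsg.Agent.H23_N22b


set_option autoImplicit false
open Cfsg

namespace Cfsg.Agent.S4346

/-- No finite group has exactly 22 Sylow 3-subgroups. -/
theorem result {G : Type*} [Group G] [Finite G] : Nat.card (Sylow 3 G) ≠ 22 := by
  intro h
  haveI : Fact (Nat.Prime 3) := ⟨Nat.prime_three⟩
  obtain ⟨l, hl, hm⟩ := Cfsg.Agent.S4303.result (G := G) 3
  rw [h] at hl
  have hno : ∀ m ∈ l, m = 1 := by
    intro m hml
    have h1 : m ∣ 22 := by rw [← hl]; exact List.dvd_prod hml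
    have h2 : m ≤ 22 := Nat.le_of_dvd (by norm_num) h1
    have h3 : m % 3 = 1 := by
      rcases hm m hml with h4 | ⟨S, _, _, _, h4⟩
      · exact h4.2
      · rw [h4]
        exact card_sylow_modEq_one 3 S
    have h5 : m = 1 ∨ m = 22 := by
      interval_cases m <;> first | omega | (exfalso; revert h1; decide)
    rcases h5 with h5 | h5
    · exact h5
    · exfalso
      subst h5
      rcases hm 22 hml with h4 | ⟨S, _, _, hS, h4⟩
      · exact absurd h4.1 (by rw [isPrimePow_nat_iff_bounded]; decide)
      · exact Cfsg.Agent.H23.N22.simple_case h4.symm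
  rw [List.prod_eq_one hno] at hl
  omega


end Cfsg.Agent.S4346
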