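import Cfsg.Statements.S4354
import Mathlib
import Cfsg.Agent.H24_Sylow

set_option autoImplicit false
open Cfsg

namespace Cfsg.Agent.S4354

/-- Let G be a finite group and p a prime such that the Sylow p-subgroups of G are non-abelian while every element of p-power order has conjugacy class size prime to p, and suppose no nontrivial proper normal subgroup N of G has this property and no quotient G/N by such an N has it. Then G is simple. -/
theorem result {G : Type*} [Group G] [Finite G]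
    (p : ℕ) [Fact p.Prime] (h : ((∃ P : Sylow p G, ¬ IsMulCommutative P) ∧ ∀ x : G, (∃ k : ℕ, orderOf x = p ^ k) → ¬ p ∣ (Subgroup.centralizer ({x} : Set G)).index))
    (hmin : ∀ (N : Subgroup G) [N.Normal], N ≠ ⊥ → N ≠ ⊤ →
      ¬ ((∃ P : Sylow p N, ¬ IsMulCommutative P) ∧ ∀ x : N, (∃ k : ℕ, orderOf x = p ^ k) → ¬ p ∣ (Subgroup.centralizer ({x} : Set N)).index) ∧
      ¬ ((∃ P : Sylow p (G ⧸ N), ¬ IsMulCommutative P) ∧ ∀ x : (G ⧸ N), (∃ k : ℕ, orderOf x = p ^ k) → ¬ p ∣ (Subgroup.centralizer ({x} : Set (G ⧸ N))).index)) :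
    IsSimpleGroup G := by
  classical
  obtain ⟨⟨P, hP⟩, hG⟩ := h
  have hnt : Nontrivial G := by
    by_contra hn
    rw [not_nontrivial_iff_subsingleton] at hn
    apply hP
    exact ⟨⟨fun a b => Subsingleton.elim _ _⟩⟩
  refine { exists_pair_ne := hnt.exists_pair_ne, eq_bot_or_eq_top_of_normal := fun N hN => ?_ }
  by_contra hcon
  push Not at hcon
  obtain ⟨hb, ht⟩ := hcon
  obtain ⟨h1, h2⟩ := hmin N hb ht
  -- class sizes in N
  have hN1 : ∀ x : N, (∃ k : ℕ, orderOf x = p ^ k) → ¬ p ∣ (Subgroup.centralizer ({x} : Set N)).index := by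
    rintro x ⟨k, hk⟩ hd
    apply hG x ⟨k, by rw [← hk]; exact Subgroup.orderOf_coe x⟩
    refine dvd_trans ?_ (Cfsg.Agent.H24.Sub.relIndex_dvd_index_of_normal_right (Subgroup.centralizer ({(x : G)} : Set G)) N)
    rw [Subgroup.relIndex]
    have e : (Subgroup.centralizer ({(x : G)} : Set G)).subgroupOf N = Subgroup.centralizer ({x} : Set N) := by
      ext y
      simp only [Subgroup.mem_subgroupOf, Subgroup.mem_centralizer_iff, Set.mem_singleton_iff, forall_eq]
      rw [← Subgroup.coe_mul, ← Subgroup.coe_mul, Subtype.ext_iff]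
    rw [e]; exact hd
  have hQ1 : ∀ x : (G ⧸ N), (∃ k : ℕ, orderOf x = p ^ k) → ¬ p ∣ (Subgroup.centralizer ({x} : Set (G ⧸ N))).index := by
    rintro x ⟨k, hk⟩ hd
    obtain ⟨g, hg⟩ := Cfsg.Agent.H24.Sylow.exists_conj_mem_sylow (P.mapSurjective (QuotientGroup.mk'_surjective N)) hk
    obtain ⟨y, hy, hyx⟩ := hg
    obtain ⟨g', rfl⟩ := QuotientGroup.mk'_surjective N g
    have hxy : x = QuotientGroup.mk' N (g' * y * g'⁻¹) := by
      rw [map_mul, map_mul, hyx, map_inv]; group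
    have hyk : ∃ j : ℕ, orderOf (g' * y * g'⁻¹) = p ^ j := by
      rw [← MulAut.conj_apply, MulEquiv.orderOf_eq]
      obtain ⟨j, hj⟩ := P.isPGroup' ⟨y, hy⟩
      have : y ^ p ^ j = 1 := by simpa [Subtype.ext_iff] using hj
      obtain ⟨i, _, hi⟩ := (Nat.dvd_prime_pow Fact.out).mp (orderOf_dvd_of_pow_eq_one this)
      exact ⟨i, hi⟩
    apply hG _ hyk
    refine dvd_trans hd (dvd_trans ?_ (Subgroup.index_map_dvd _ (QuotientGroup.mk'_surjective N)))
    apply Subgroup.index_dvd_of_le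
    rintro _ ⟨c, hc, rfl⟩
    rw [Subgroup.mem_centralizer_iff]
    rintro _ rfl
    have hc' := (Subgroup.mem_centralizer_iff.mp hc) _ rfl
    rw [hxy, ← map_mul, ← map_mul, hc']
  have h1' : ∀ Q : Sylow p N, IsMulCommutative Q := by
    by_contra hc; push Not at hc; exact h1 ⟨hc, hN1⟩
  have h2' : ∀ Q : Sylow p (G ⧸ N), IsMulCommutative Q := by
    by_contra hc; push Not at hc; exact h2 ⟨hc, hQ1⟩
  -- P ∩ N commutative
  have hPN : ∀ a ∈ (P : Subgroup G), a ∈ N → ∀ b ∈ (P : Subgroup G), b ∈ N → a * b = b * a := by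
    intro a ha haN b hb hbN
    obtain ⟨Q, hQ⟩ := (P.isPGroup'.comap_of_injective N.subtype N.subtype_injective).exists_le_sylow
    have hcomm := (h1' Q).is_comm.comm ⟨⟨a, haN⟩, hQ ha⟩ ⟨⟨b, hbN⟩, hQ hb⟩
    simpa [Subtype.ext_iff] using hcomm
  set Pb := P.mapSurjective (QuotientGroup.mk'_surjective N) with hPb
  have hmemPb : ∀ x : G, QuotientGroup.mk' N x ∈ Pb ↔ x ∈ (P : Subgroup G) ⊔ N := by
    intro x
    have e : ((P : Subgroup G) ⊔ N) = ((P : Subgroup G).map (QuotientGroup.mk' N)).comap (QuotientGroup.mk' N) := by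
      rw [Subgroup.comap_map_eq, QuotientGroup.ker_mk']
    rw [e, Subgroup.mem_comap]
    rfl
  have hPbc : IsMulCommutative Pb := h2' Pb
  -- decomposition
  have key : ∀ x ∈ (P : Subgroup G), ∃ z ∈ (P : Subgroup G), ∃ d ∈ (P : Subgroup G), d ∈ N ∧ x = z * d ∧
      ∀ y ∈ (P : Subgroup G), y * z = z * y := by
    intro x hx
    obtain ⟨k, hk⟩ : ∃ k : ℕ, orderOf x = p ^ k := by
      obtain ⟨j, hj⟩ := P.isPGroup' ⟨x, hx⟩
      have : x ^ p ^ j = 1 := by simpa [Subtype.ext_iff] using hj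
      obtain ⟨i, _, hi⟩ := (Nat.dvd_prime_pow Fact.out).mp (orderOf_dvd_of_pow_eq_one this)
      exact ⟨i, hi⟩
    obtain ⟨g, hgP, hgc⟩ := Cfsg.Agent.H24.Sylow.exists_conj_central P hk (hG x ⟨k, hk⟩)
    set y := g * x * g⁻¹ with hy
    -- fusion in the quotient
    obtain ⟨n, hn, hxn⟩ := Pb.conj_eq_normalizer_conj_of_mem (QuotientGroup.mk' N x) (QuotientGroup.mk' N g⁻¹)
      ((hmemPb x).mpr (Subgroup.mem_sup_left hx)) (by
        have e : (QuotientGroup.mk' N g⁻¹)⁻¹ * QuotientGroup.mk' N x * QuotientGroup.mk' N g⁻¹ = QuotientGroup.mk' N y := by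
          rw [hy, map_mul, map_mul, map_inv, inv_inv]
        rw [e]; exact (hmemPb y).mpr (Subgroup.mem_sup_left hgP))
    obtain ⟨m, rfl⟩ := QuotientGroup.mk'_surjective N n
    have hym : QuotientGroup.mk' N y = QuotientGroup.mk' N (m⁻¹ * x * m) := by
      rw [map_mul (QuotientGroup.mk' N) (m⁻¹ * x), map_mul (QuotientGroup.mk' N) m⁻¹, map_inv (QuotientGroup.mk' N) m, ← hxn, hy, map_mul, map_mul, map_inv, inv_inv]
    -- lift
    have hn' : ∀ c ∈ (P : Subgroup G), m⁻¹ * c * m⁻¹⁻¹ ∈ (P : Subgroup G) ⊔ N := by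
      intro c hc
      rw [← hmemPb, map_mul, map_mul, map_inv, map_inv, map_inv, inv_inv]
      have hn2 : QuotientGroup.mk' N m ∈ Subgroup.normalizer ((Pb : Subgroup (G ⧸ N)) : Set (G ⧸ N)) := hn
      rw [Subgroup.mem_normalizer_iff''] at hn2
      exact (hn2 _).mp ((hmemPb c).mpr (Subgroup.mem_sup_left hc))
    obtain ⟨u, hu, hum⟩ := Cfsg.Agent.H24.Sylow.exists_lift_normalizer P N m⁻¹ hn'
    set w := u * m⁻¹ with hw
    -- w x w⁻¹ ≡ y mod N
    have hwx : QuotientGroup.mk' N (w * x * w⁻¹) = QuotientGroup.mk' N y := by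
      have e1 : w * x * w⁻¹ = u * (m⁻¹ * x * m) * u⁻¹ := by rw [hw]; group
      rw [e1, map_mul, map_mul, ← hym]
      have hc := hPbc.is_comm.comm ⟨QuotientGroup.mk' N u, (hmemPb u).mpr hu⟩
        ⟨QuotientGroup.mk' N y, (hmemPb y).mpr (Subgroup.mem_sup_left hgP)⟩
      have hc' : QuotientGroup.mk' N u * QuotientGroup.mk' N y = QuotientGroup.mk' N y * QuotientGroup.mk' N u := by
        simpa [Subtype.ext_iff] using hc
      rw [hc', map_inv, mul_inv_cancel_right]
    have hwn : ∀ c : G, w * c * w⁻¹ ∈ (P : Subgroup G) ↔ c ∈ (P : Subgroup G) := by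
      intro c
      have hle : ((w • P : Sylow p G) : Subgroup G) ≤ P := by
        intro z hz
        rw [Cfsg.Agent.H24.Sylow.mem_smul_sylow] at hz
        have := hum _ hz
        have e : w * (w⁻¹ * z * w) * w⁻¹ = z := by group
        rwa [e] at this
      have heq : w • P = P := by
        apply Sylow.ext
        exact ((w • P).is_maximal' P.isPGroup' hle).symm
      constructor
      · intro hc
        rw [← heq, Cfsg.Agent.H24.Sylow.mem_smul_sylow] at hc
        have e : w⁻¹ * (w * c * w⁻¹) * w = c := by group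
        rwa [e] at hc
      · intro hc
        exact hum c hc
    refine ⟨w⁻¹ * y * w, ?_, w⁻¹ * (y⁻¹ * (w * x * w⁻¹)) * w, ?_, ?_, ?_, ?_⟩
    · rw [← hwn]
      have e : w * (w⁻¹ * y * w) * w⁻¹ = y := by group
      rw [e]; exact hgP
    · rw [← hwn]
      have e : w * (w⁻¹ * (y⁻¹ * (w * x * w⁻¹)) * w) * w⁻¹ = y⁻¹ * (w * x * w⁻¹) := by group
      rw [e]
      exact mul_mem (inv_mem hgP) ((hwn x).mpr hx)
    · have h3 : y⁻¹ * (w * x * w⁻¹) ∈ N := by
        rw [← QuotientGroup.ker_mk' N, MonoidHom.mem_ker, map_mul, hwx, map_inv, inv_mul_cancel]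
      have := hN.conj_mem _ h3 w⁻¹
      rwa [inv_inv] at this
    · group
    · intro c hc
      have h4 := hgc _ ((hwn c).mpr hc)
      calc c * (w⁻¹ * y * w) = w⁻¹ * ((w * c * w⁻¹) * y) * w := by group
        _ = w⁻¹ * (y * (w * c * w⁻¹)) * w := by rw [h4]
        _ = _ := by group
  apply hP
  refine ⟨⟨fun a b => ?_⟩⟩
  obtain ⟨z1, hz1, d1, hd1, hd1N, e1, c1⟩ := key a a.2
  obtain ⟨z2, hz2, d2, hd2, hd2N, e2, c2⟩ := key b b.2
  apply Subtype.ext
  change (a : G) * b = b * a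
  have hdd := hPN d1 hd1 hd1N d2 hd2 hd2N
  calc (a : G) * b = z1 * (d1 * z2) * d2 := by rw [e1, e2]; group
    _ = z1 * (z2 * d1) * d2 := by rw [c2 d1 hd1]
    _ = (z1 * z2) * (d1 * d2) := by group
    _ = (z2 * z1) * (d2 * d1) := by rw [hdd, c2 z1 hz1]
    _ = z2 * (z1 * d2) * d1 := by group
    _ = z2 * (d2 * z1) * d1 := by rw [c1 d2 hd2]
    _ = b * a := by rw [e1, e2]; group

end Cfsg.Agent.S4354
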