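import Cfsg.Statements.S4365
import Mathlib
import Cfsg.Agent.H24_Tools

set_option autoImplicit false
open Cfsg

namespace Cfsg.Agent.S4365

theorem ringlem {R : Type*} [Ring R] (p : ℕ) (hp : p.Prime) (α β : R) (hc : Commute α β)
    (hα : α ^ p = 1) (h1 : ∑ j ∈ Finset.range p, α ^ j = 0)
    (h2 : ∀ i ∈ Finset.range p, ∑ j ∈ Finset.range p, (α ^ i * β) ^ j = 0) : (p : R) = 0 := by
  have h3 : ∑ i ∈ Finset.range p, ∑ j ∈ Finset.range p, (α ^ i * β) ^ j = 0 := Finset.sum_eq_zero h2
  have h4 : ∀ i j : ℕ, (α ^ i * β) ^ j = α ^ (i * j) * β ^ j := by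
    intro i j
    rw [(hc.pow_left i).mul_pow, pow_mul]
  simp only [h4] at h3
  rw [Finset.sum_comm] at h3
  have h5 : ∀ j ∈ Finset.range p, j ≠ 0 → ∑ i ∈ Finset.range p, α ^ (i * j) * β ^ j = 0 := by
    intro j hj hj0
    rw [← Finset.sum_mul]
    have hjp : j < p := Finset.mem_range.mp hj
    have hco : Nat.Coprime p j := (hp.coprime_iff_not_dvd).mpr (fun h => by
      have := Nat.le_of_dvd (Nat.pos_of_ne_zero hj0) h
      omega)
    have : ∑ i ∈ Finset.range p, α ^ (i * j) = ∑ i ∈ Finset.range p, α ^ i := by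
      apply Finset.sum_nbij (fun i => (i * j) % p)
      · intro i _
        exact Finset.mem_range.mpr (Nat.mod_lt _ hp.pos)
      · intro i hi k hk hik
        have hi' : i < p := Finset.mem_range.mp hi
        have hk' : k < p := Finset.mem_range.mp hk
        have h6 : i * j ≡ k * j [MOD p] := hik
        have h7 := Nat.ModEq.cancel_right_of_coprime hco h6
        exact Nat.ModEq.eq_of_lt_of_lt h7 hi' hk'
      · intro k hk
        have hk' : k < p := Finset.mem_range.mp hk
        -- surjectivity from injectivity on finite set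
        have hinj : Set.InjOn (fun i => (i * j) % p) (Finset.range p : Set ℕ) := by
          intro i hi k hk hik
          have hi' : i < p := Finset.mem_range.mp hi
          have hk' : k < p := Finset.mem_range.mp hk
          have h6 : i * j ≡ k * j [MOD p] := hik
          exact Nat.ModEq.eq_of_lt_of_lt (Nat.ModEq.cancel_right_of_coprime hco h6) hi' hk'
        have hmaps : Set.MapsTo (fun i => (i * j) % p) (Finset.range p : Set ℕ) (Finset.range p : Set ℕ) :=
          fun i _ => Finset.mem_coe.mpr (Finset.mem_range.mpr (Nat.mod_lt _ hp.pos))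
        exact Finset.surjOn_of_injOn_of_card_le _ hmaps hinj le_rfl hk
      · intro i _
        exact pow_eq_pow_mod _ hα
    rw [this, h1, zero_mul]
  rw [Finset.sum_eq_single_of_mem 0 (Finset.mem_range.mpr hp.pos) h5] at h3
  simpa using h3

/-- Let P be a finite p-group whose conjugacy class sizes are exactly 1 and pᵃ for some a ≥ 1. Then every element of P has its p-th power in the center of P (P/Z(P) has exponent p). -/
theorem result {P : Type*} [Group P] [Finite P] (p : ℕ) [Fact p.Prime]
    (hP : IsPGroup p P) (a : ℕ) (ha : 1 ≤ a)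
    (hcs : {k : ℕ | ∃ x : P, (Subgroup.centralizer ({x} : Set P)).index = k} = {1, p ^ a}) (x : P) :
    x ^ p ∈ Subgroup.center P := by
  classical
  have hp : p.Prime := Fact.out
  have hidx : ∀ x : P, (Subgroup.centralizer ({x} : Set P)).index = 1 ∨ (Subgroup.centralizer ({x} : Set P)).index = p ^ a := by
    intro x
    have : (Subgroup.centralizer ({x} : Set P)).index ∈ {k : ℕ | ∃ x : P, (Subgroup.centralizer ({x} : Set P)).index = k} := ⟨x, rfl⟩
    rw [hcs] at this
    simpa using this
  have hcen : ∀ x : P, x ∈ Subgroup.center P ↔ (Subgroup.centralizer ({x} : Set P)) = ⊤ := by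
    intro x
    rw [Subgroup.mem_center_iff, Subgroup.eq_top_iff']
    refine forall_congr' (fun g => ?_)
    rw [Subgroup.mem_centralizer_singleton_iff]
  have hidx' : ∀ x : P, x ∉ Subgroup.center P → (Subgroup.centralizer ({x} : Set P)).index = p ^ a := by
    intro x hx
    rcases hidx x with h | h
    · exact absurd ((hcen x).mpr (Subgroup.index_eq_one.mp h)) hx
    · exact h
  have heqC : ∀ x y : P, x ∉ Subgroup.center P → y ∉ Subgroup.center P →
      Subgroup.centralizer ({x} : Set P) ≤ Subgroup.centralizer ({y} : Set P) →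
      Subgroup.centralizer ({x} : Set P) = Subgroup.centralizer ({y} : Set P) := by
    intro x y hx hy hle
    apply Subgroup.eq_of_le_of_card_ge hle
    have h1 := (Subgroup.centralizer ({x} : Set P)).card_mul_index
    have h2 := (Subgroup.centralizer ({y} : Set P)).card_mul_index
    rw [hidx' x hx] at h1
    rw [hidx' y hy] at h2
    rw [← h1] at h2
    exact (Nat.eq_of_mul_eq_mul_right (pow_pos hp.pos a) h2).le
  have hmc : ∀ x y : P, y ∈ Subgroup.centralizer ({x} : Set P) ↔ y * x = x * y := fun x y =>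
    Subgroup.mem_centralizer_singleton_iff
  by_contra hx0
  set Z := Subgroup.center P with hZ
  -- z in the second center
  have hQnt : Nontrivial (P ⧸ Z) := by
    rw [QuotientGroup.nontrivial_iff]
    intro h
    exact hx0 (by rw [h]; trivial)
  have hQp : IsPGroup p (P ⧸ Z) := hP.to_quotient Z
  have hcnt := hQp.center_nontrivial
  have hcp : p ∣ Nat.card (Subgroup.center (P ⧸ Z)) := by
    have h1 : IsPGroup p (Subgroup.center (P ⧸ Z)) := hQp.to_subgroup _
    obtain ⟨n, hn0, hn⟩ := (h1.nontrivial_iff_card).mp hcnt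
    rw [hn]; exact dvd_pow_self p hn0.ne'
  obtain ⟨⟨zb, hzb⟩, hzo⟩ := exists_prime_orderOf_dvd_card' p hcp
  obtain ⟨z, rfl⟩ := QuotientGroup.mk_surjective zb
  have hzo' : orderOf (QuotientGroup.mk z : P ⧸ Z) = p := (Subgroup.orderOf_coe (⟨QuotientGroup.mk z, hzb⟩ : Subgroup.center (P ⧸ Z))).trans hzo
  have hzZ : z ∉ Z := by
    intro h
    rw [(QuotientGroup.eq_one_iff z).mpr h, orderOf_one] at hzo'
    exact hp.one_lt.ne hzo'
  have hzp : (QuotientGroup.mk z : P ⧸ Z) ^ p = 1 := by rw [← hzo']; exact pow_orderOf_eq_one _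
  have hzc : ∀ g : P, Commute (QuotientGroup.mk g : P ⧸ Z) (QuotientGroup.mk z) := fun g =>
    (Subgroup.mem_center_iff.mp hzb) _
  have hmodZ' : ∀ x y : P, (QuotientGroup.mk x : P ⧸ Z) = QuotientGroup.mk y →
      Subgroup.centralizer ({x} : Set P) ≤ Subgroup.centralizer ({y} : Set P) := by
    intro x y h g hg
    rw [QuotientGroup.eq] at h
    have hcc := Subgroup.mem_center_iff.mp h
    rw [hmc] at hg ⊢
    have e : y = x * (x⁻¹ * y) := by group
    have h1 := hcc g
    rw [e, ← mul_assoc, hg, mul_assoc, h1, ← mul_assoc]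
  have hmodZ : ∀ x y : P, (QuotientGroup.mk x : P ⧸ Z) = QuotientGroup.mk y →
      Subgroup.centralizer ({x} : Set P) = Subgroup.centralizer ({y} : Set P) := fun x y h =>
    le_antisymm (hmodZ' x y h) (hmodZ' y x h.symm)
  have hnotZ : ∀ x : P, (QuotientGroup.mk x : P ⧸ Z) = 1 ↔ x ∈ Z := fun x => QuotientGroup.eq_one_iff x
  -- Step 2
  have hCx : ∀ x : P, x ^ p ∉ Z → Subgroup.centralizer ({x} : Set P) = Subgroup.centralizer ({z} : Set P) := by
    intro x hx
    have hxZ : x ∉ Z := fun h => hx (Z.pow_mem h p)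
    have hxzp : (QuotientGroup.mk ((x * z) ^ p) : P ⧸ Z) = QuotientGroup.mk (x ^ p) := by
      rw [QuotientGroup.mk_pow, QuotientGroup.mk_mul, (hzc x).mul_pow, hzp, mul_one, QuotientGroup.mk_pow]
    have h1 : (x * z) ^ p ∉ Z := by
      rw [← hnotZ, hxzp, hnotZ]; exact hx
    have hxzZ : x * z ∉ Z := fun h => h1 (Z.pow_mem h p)
    have hle : ∀ w : P, Subgroup.centralizer ({w} : Set P) ≤ Subgroup.centralizer ({w ^ p} : Set P) := by
      intro w g hg
      rw [hmc] at hg ⊢
      exact ((show Commute g w from hg).pow_right p).eq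
    have e1 := heqC x (x ^ p) hxZ hx (hle x)
    have e2 := heqC (x * z) ((x * z) ^ p) hxzZ h1 (hle _)
    have e3 := hmodZ _ _ hxzp
    apply heqC x z hxZ hzZ
    intro g hg
    have hg2 : g ∈ Subgroup.centralizer ({x * z} : Set P) := by rw [e2, e3, ← e1]; exact hg
    rw [hmc] at hg hg2 ⊢
    have h2 : x * (g * z) = x * (z * g) := by
      rw [← mul_assoc, ← hg, mul_assoc, hg2, mul_assoc]
    exact mul_left_cancel h2
  set C := Subgroup.centralizer ({z} : Set P) with hC
  have hZC : Z ≤ C := Subgroup.center_le_centralizer _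
  have hCn : C.Normal := by
    refine ⟨fun n hn g => ?_⟩
    have h1 : (QuotientGroup.mk (g * z * g⁻¹) : P ⧸ Z) = QuotientGroup.mk z := by
      rw [QuotientGroup.mk_mul, QuotientGroup.mk_mul, (hzc g).eq, QuotientGroup.mk_inv, mul_inv_cancel_right]
    rw [hC, ← hmodZ _ _ h1, hmc]
    rw [hC, hmc] at hn
    calc g * n * g⁻¹ * (g * z * g⁻¹) = g * (n * z) * g⁻¹ := by group
      _ = g * (z * n) * g⁻¹ := by rw [hn]
      _ = _ := by group
  have hout : ∀ y : P, y ∉ C → y ^ p ∈ Z := by
    intro y hy
    by_contra h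
    apply hy
    rw [← hCx y h, hmc]
  have hx0C : Subgroup.centralizer ({x} : Set P) = C := hCx x hx0
  have hCy : ∀ y ∈ C, C ≤ Subgroup.centralizer ({y} : Set P) := by
    intro y hy
    by_cases hyZ : y ∈ Z
    · rw [(hcen y).mp hyZ]; exact le_top
    · by_contra hne
      have hyx : Commute y x := by
        have : y ∈ Subgroup.centralizer ({x} : Set P) := by rw [hx0C]; exact hy
        exact (hmc x y).mp this
      have h1 : y ^ p ∈ Z := by
        by_contra h
        exact hne (hCx y h).ge
      have h2 : (x * y) ^ p ∈ Z := by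
        by_contra h
        apply hne
        intro g hg
        have g1 : g ∈ Subgroup.centralizer ({x * y} : Set P) := by rw [hCx _ h]; exact hg
        have g2 : g ∈ Subgroup.centralizer ({x} : Set P) := by rw [hx0C]; exact hg
        rw [hmc] at g1 g2 ⊢
        have h2 : x * (g * y) = x * (y * g) := by
          rw [← mul_assoc, ← g2, mul_assoc, g1, mul_assoc]
        exact mul_left_cancel h2
      rw [hyx.symm.mul_pow] at h2
      apply hx0
      have := Z.mul_mem h2 (Z.inv_mem h1)
      rwa [mul_inv_cancel_right] at this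
  have hCab : ∀ u ∈ C, ∀ v ∈ C, u * v = v * u := fun u hu v hv => (hmc v u).mp (hCy v hv hu)
  have hxC : x ∈ C := by rw [← hx0C, hmc]
  have hCidx : C.index = p ^ a := hidx' z hzZ
  have hCtop : C ≠ ⊤ := by
    intro h
    rw [h, Subgroup.index_top] at hCidx
    have := Nat.one_lt_pow (by omega : a ≠ 0) hp.one_lt
    omega
  obtain ⟨y, hyC⟩ : ∃ y : P, y ∉ C := by
    by_contra hcon
    push Not at hcon
    exact hCtop (eq_top_iff.mpr (fun y _ => hcon y))
  have hCCy : ∀ y : P, y ∉ C → Subgroup.centralizer ({y} : Set P) ⊓ C = Z := by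
    intro y hy
    apply le_antisymm
    · intro c hc
      rw [Subgroup.mem_inf] at hc
      by_contra hcZ
      apply hy
      have h1 : C = Subgroup.centralizer ({c} : Set P) := heqC z c hzZ hcZ (hCy c hc.2)
      rw [h1, hmc]
      exact ((hmc y c).mp hc.1).symm
    · exact le_inf (Subgroup.center_le_centralizer _) hZC
  rcases Nat.lt_or_ge 1 a with ha1 | ha1
  · -- noncyclic case
    have hPC : IsPGroup p (P ⧸ C) := hP.to_quotient C
    have hPCnt : Nontrivial (P ⧸ C) := by
      rw [QuotientGroup.nontrivial_iff]; exact hCtop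
    have hcnt2 := hPC.center_nontrivial
    obtain ⟨⟨y1b, hy1c⟩, hy1ne⟩ := exists_ne (1 : Subgroup.center (P ⧸ C))
    obtain ⟨y1, rfl⟩ := QuotientGroup.mk_surjective y1b
    have hy1C : y1 ∉ C := by
      intro h
      apply hy1ne
      apply Subtype.ext
      exact (QuotientGroup.eq_one_iff y1).mpr h
    have hy1p : (QuotientGroup.mk y1 : P ⧸ C) ^ p = 1 := by
      rw [← QuotientGroup.mk_pow, QuotientGroup.eq_one_iff]; exact hZC (hout y1 hy1C)
    obtain ⟨y2b, hy2b⟩ : ∃ y2b : P ⧸ C, y2b ∉ Subgroup.zpowers (QuotientGroup.mk y1 : P ⧸ C) := by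
      by_contra hcon
      push Not at hcon
      have h1 : Subgroup.zpowers (QuotientGroup.mk y1 : P ⧸ C) = ⊤ := eq_top_iff.mpr (fun w _ => hcon w)
      have h2 := Nat.card_zpowers (QuotientGroup.mk y1 : P ⧸ C)
      rw [h1, Subgroup.card_top, ← Subgroup.index_eq_card, hCidx] at h2
      have h3 := orderOf_dvd_of_pow_eq_one hy1p
      rw [← h2] at h3
      have h4 := Nat.le_of_dvd hp.pos h3
      have h5 : p ^ 1 < p ^ a := Nat.pow_lt_pow_right hp.one_lt ha1
      rw [pow_one] at h5
      omega
    obtain ⟨y2, rfl⟩ := QuotientGroup.mk_surjective y2b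
    have hy12 : ∀ i : ℕ, y1 ^ i * y2 ∉ C := by
      intro i h
      apply hy2b
      have h1 := (QuotientGroup.eq_one_iff (y1 ^ i * y2)).mpr h
      rw [QuotientGroup.mk_mul] at h1
      rw [eq_inv_of_mul_eq_one_right h1]
      exact Subgroup.inv_mem _ (by rw [QuotientGroup.mk_pow]; exact Subgroup.pow_mem _ (Subgroup.mem_zpowers _) _)
    -- the module
    let D : Subgroup (P ⧸ Z) := C.map (QuotientGroup.mk' Z)
    have hDn : D.Normal := hCn.map _ (QuotientGroup.mk'_surjective Z)
    let cg : CommGroup D := { (inferInstance : Group D) with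
      mul_comm := by
        rintro ⟨_, u, hu, rfl⟩ ⟨_, v, hv, rfl⟩
        apply Subtype.ext
        change QuotientGroup.mk' Z u * QuotientGroup.mk' Z v = QuotientGroup.mk' Z v * QuotientGroup.mk' Z u
        rw [← map_mul, ← map_mul, hCab u hu v hv] }
    let T : P →* MulAut D := (MulAut.conjNormal (H := D)).comp (QuotientGroup.mk' Z)
    have hT : ∀ (g : P) (d : D), ((T g d : D) : P ⧸ Z) = QuotientGroup.mk' Z g * d * (QuotientGroup.mk' Z g)⁻¹ := by
      intro g d
      rfl
    have hTC : ∀ g ∈ C, T g = 1 := by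
      intro g hg
      ext ⟨_, v, hv, rfl⟩
      rw [hT]
      change QuotientGroup.mk' Z g * QuotientGroup.mk' Z v * (QuotientGroup.mk' Z g)⁻¹ = QuotientGroup.mk' Z v
      rw [← map_mul, hCab g hg v hv, map_mul, mul_inv_cancel_right]
    let E : P → AddMonoid.End (Additive D) := fun g => (MulEquiv.toMonoidHom (T g)).toAdditive
    have hE1 : E 1 = 1 := by
      refine AddMonoidHom.ext (fun d => ?_)
      change Additive.ofMul (T 1 (Additive.toMul d)) = d
      rw [map_one]; rfl
    have hEmul : ∀ g h, E (g * h) = E g * E h := by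
      intro g h
      refine AddMonoidHom.ext (fun d => ?_)
      change Additive.ofMul (T (g * h) (Additive.toMul d)) = Additive.ofMul (T g (T h (Additive.toMul d)))
      rw [map_mul]; rfl
    have hEpow : ∀ (g : P) (n : ℕ), E (g ^ n) = E g ^ n := by
      intro g n
      induction n with
      | zero => rw [pow_zero, pow_zero, hE1]
      | succ n ih => rw [pow_succ, pow_succ, hEmul, ih]
    have hEC : ∀ g ∈ C, E g = 1 := by
      intro g hg
      refine AddMonoidHom.ext (fun d => ?_)
      change Additive.ofMul (T g (Additive.toMul d)) = d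
      rw [hTC g hg]; rfl
    have hnorm : ∀ g : P, g ∉ C → ∑ j ∈ Finset.range p, E g ^ j = 0 := by
      intro g hg
      refine AddMonoidHom.ext (fun d => ?_)
      obtain ⟨⟨_, c, hc, rfl⟩, rfl⟩ := Additive.ofMul.surjective d
      -- product of conjugates
      have key : ∀ n : ℕ, (c * g) ^ n = ((List.range n).map (fun i => g ^ i * c * (g ^ i)⁻¹)).prod * g ^ n := by
        intro n
        induction n with
        | zero => simp
        | succ n ih =>
          rw [pow_succ, ih, List.range_succ, List.map_append, List.prod_append]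
          simp only [List.map_cons, List.map_nil, List.prod_cons, List.prod_nil, mul_one]
          rw [pow_succ]; group
      have h1 : (c * g) ∉ C := fun h => hg (by
        have := C.mul_mem (C.inv_mem hc) h
        rwa [inv_mul_cancel_left] at this)
      have h2 := hout _ h1
      have h3 := hout _ hg
      rw [key p] at h2
      have h4 : ((List.range p).map (fun i => g ^ i * c * (g ^ i)⁻¹)).prod ∈ Z := by
        have := Z.mul_mem h2 (Z.inv_mem h3)
        rwa [mul_inv_cancel_right] at this
      have h5 : ∀ n : ℕ, ((Additive.toMul ((∑ j ∈ Finset.range n, E g ^ j) (Additive.ofMul (⟨QuotientGroup.mk' Z c, c, hc, rfl⟩ : D))) : D) : P ⧸ Z) =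
          QuotientGroup.mk' Z (((List.range n).map (fun i => g ^ i * c * (g ^ i)⁻¹)).prod) := by
        intro n
        induction n with
        | zero => rfl
        | succ n ih =>
          rw [Finset.sum_range_succ]
          change ((Additive.toMul ((∑ j ∈ Finset.range n, E g ^ j) (Additive.ofMul (⟨QuotientGroup.mk' Z c, c, hc, rfl⟩ : D))) : D) : P ⧸ Z) *
            ((Additive.toMul ((E g ^ n) (Additive.ofMul (⟨QuotientGroup.mk' Z c, c, hc, rfl⟩ : D))) : D) : P ⧸ Z) = _
          rw [ih, List.range_succ, List.map_append, List.prod_append, map_mul]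
          congr 1
          simp only [List.map_cons, List.map_nil, List.prod_cons, List.prod_nil, mul_one]
          rw [← hEpow, map_mul, map_mul, map_inv]
          rfl
      have h6 := h5 p
      rw [show QuotientGroup.mk' Z (((List.range p).map (fun i => g ^ i * c * (g ^ i)⁻¹)).prod) = 1 from
        (QuotientGroup.eq_one_iff _).mpr h4] at h6
      apply Additive.toMul.injective
      apply Subtype.ext
      exact h6
    have hα : E y1 ^ p = 1 := by rw [← hEpow]; exact hEC _ (hZC (hout y1 hy1C))
    have hcomm : Commute (E y1) (E y2) := by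
      change E y1 * E y2 = E y2 * E y1
      rw [← hEmul, ← hEmul]
      have h1 : (y2 * y1)⁻¹ * (y1 * y2) ∈ C := by
        rw [← QuotientGroup.eq, QuotientGroup.mk_mul, QuotientGroup.mk_mul]
        exact (Subgroup.mem_center_iff.mp hy1c) _
      have h2 : y1 * y2 = (y2 * y1) * ((y2 * y1)⁻¹ * (y1 * y2)) := by group
      rw [h2, hEmul, hEC _ h1, mul_one]
    have hzero := ringlem p hp (E y1) (E y2) hcomm hα (hnorm y1 hy1C) (fun i _ => by
      rw [← hEpow, ← hEmul]
      exact hnorm _ (hy12 i))
    -- conclude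
    have h1 : (p : AddMonoid.End (Additive D)) (Additive.ofMul (⟨QuotientGroup.mk' Z x, x, hxC, rfl⟩ : D)) = 0 := by
      rw [hzero]; rfl
    rw [AddMonoid.End.natCast_apply] at h1
    have h2 : (⟨QuotientGroup.mk' Z x, x, hxC, rfl⟩ : D) ^ p = 1 := h1
    have h3 := congrArg Subtype.val h2
    apply hx0
    rw [← hnotZ, QuotientGroup.mk_pow]
    exact h3
  · -- index p
    have ha' : a = 1 := by omega
    rw [ha', pow_one] at hCidx hidx'
    have hyZ : y ∉ Z := fun h => hyC (hZC h)
    have h1 : Z.relIndex C ≤ p := by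
      rw [← hCCy y hyC, Subgroup.inf_relIndex_right, ← hidx' y hyZ, ← Subgroup.relIndex_top_right]
      apply Subgroup.relIndex_le_of_le_right le_top
      rw [Subgroup.relIndex_top_right]
      exact Subgroup.index_ne_zero_of_finite
    have h2 : Z.relIndex C ∣ Nat.card C := Subgroup.relIndex_dvd_card _ _
    obtain ⟨n, hn⟩ := (IsPGroup.iff_card).mp (hP.to_subgroup C)
    rw [hn] at h2
    obtain ⟨j, -, hj⟩ := (Nat.dvd_prime_pow hp).mp h2
    have hj1 : j ≤ 1 := by
      rw [hj] at h1
      by_contra hcon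
      push Not at hcon
      have : p ^ 1 < p ^ j := Nat.pow_lt_pow_right hp.one_lt hcon
      rw [pow_one] at this
      omega
    have h3 : Z.relIndex C ∣ p := by
      rw [hj]
      exact (pow_dvd_pow p hj1).trans (by rw [pow_one])
    have hn' : (Z.subgroupOf C).Normal := inferInstance
    have h4 : (⟨x, hxC⟩ : C) ^ (Z.relIndex C) ∈ Z.subgroupOf C := Subgroup.pow_index_mem _ _
    rw [Subgroup.mem_subgroupOf] at h4
    obtain ⟨t, ht⟩ := h3
    apply hx0
    rw [ht, pow_mul]
    exact Z.pow_mem h4 t

end Cfsg.Agent.S4365
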