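import Cfsg.Statements.S4370
import Cfsg.Agent.H23_PQuat
import Cfsg.Agent.H23_Basic
import Cfsg.Agent.H2_Fusion4
import Cfsg.Agent.H24_Tools
import Cfsg.Agent.H12_Core


set_option autoImplicit false
open Cfsg

namespace Cfsg.Agent.S4370

open Subgroup

universe u

/-- centralizers in the quaternion group -/
theorem cyclic_quat {n : ℕ} [NeZero n] (q : QuaternionGroup n) (hq : q ∉ center (QuaternionGroup n)) :
    IsCyclic (centralizer ({q} : Set (QuaternionGroup n))) := by
  obtain ⟨y, hy⟩ : ∃ y : QuaternionGroup n, centralizer ({q} : Set (QuaternionGroup n)) ≤ zpowers y := by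
    have ha : ∀ i j : ZMod (2 * n), (QuaternionGroup.a i) = QuaternionGroup.a j → i = j := by
      intro i j h; injection h
    cases q with
    | a i =>
      refine ⟨QuaternionGroup.a 1, ?_⟩
      have hpow : ∀ j : ZMod (2 * n), (QuaternionGroup.a j : QuaternionGroup n) ∈ zpowers (QuaternionGroup.a 1 : QuaternionGroup n) := by
        intro j
        obtain ⟨k, rfl⟩ := ZMod.intCast_surjective j
        refine mem_zpowers_iff.2 ⟨k, ?_⟩
        cases k with
        | ofNat k => simp
        | negSucc k =>
          rw [zpow_negSucc, QuaternionGroup.a_one_pow, Int.cast_negSucc]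
          rfl
      intro g hg
      rw [mem_centralizer_singleton_iff] at hg
      cases g with
      | a j => exact hpow j
      | xa j =>
        exfalso
        rw [QuaternionGroup.xa_mul_a, QuaternionGroup.a_mul_xa] at hg
        have h1 : j + i = j - i := by injection hg
        have h2 : i = - i := by linear_combination h1
        apply hq
        rw [Subgroup.mem_center_iff]
        intro g
        cases g with
        | a k => rw [QuaternionGroup.a_mul_a, QuaternionGroup.a_mul_a, add_comm]
        | xa k => rw [QuaternionGroup.xa_mul_a, QuaternionGroup.a_mul_xa, sub_eq_add_neg, ← h2]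
    | xa i =>
      refine ⟨QuaternionGroup.xa i, ?_⟩
      have h2 : ∀ t : ZMod (2 * n), 2 * t = 0 → t = 0 ∨ t = n := by
        intro t ht
        have hpos : 0 < n := Nat.pos_of_ne_zero (NeZero.ne n)
        · haveI : NeZero (2 * n) := ⟨by omega⟩
          have h3 : ((2 * t.val : ℕ) : ZMod (2 * n)) = 0 := by
            push_cast
            rw [ZMod.natCast_zmod_val]; exact ht
          rw [ZMod.natCast_eq_zero_iff] at h3
          have h4 : n ∣ t.val := Nat.dvd_of_mul_dvd_mul_left (by norm_num) h3
          have h5 := t.val_lt
          obtain ⟨c, hc⟩ := h4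
          have h6 : c < 2 := by
            by_contra h
            have : 2 ≤ c := by omega
            have : n * 2 ≤ n * c := Nat.mul_le_mul_left n this
            omega
          interval_cases c
          · left
            rw [mul_zero] at hc
            rw [← ZMod.natCast_zmod_val t, hc]; simp
          · right
            rw [mul_one] at hc
            rw [← ZMod.natCast_zmod_val t, hc]
      have hz : (QuaternionGroup.a n : QuaternionGroup n) ∈ zpowers (QuaternionGroup.xa i : QuaternionGroup n) := by
        have : (QuaternionGroup.a n : QuaternionGroup n) = QuaternionGroup.xa i * QuaternionGroup.xa i := by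
          rw [QuaternionGroup.xa_mul_xa]; simp
        rw [this]
        exact mul_mem (mem_zpowers _) (mem_zpowers _)
      intro g hg
      rw [mem_centralizer_singleton_iff] at hg
      cases g with
      | a j =>
        rw [QuaternionGroup.xa_mul_a, QuaternionGroup.a_mul_xa] at hg
        have h1 : i - j = i + j := by injection hg
        rcases h2 j (by linear_combination -h1) with h3 | h3
        · rw [h3]; exact one_mem _
        · rw [h3]; exact hz
      | xa j =>
        rw [QuaternionGroup.xa_mul_xa, QuaternionGroup.xa_mul_xa] at hg
        have h1 := ha _ _ hg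
        rcases h2 (i - j) (by linear_combination h1) with h3 | h3
        · have : j = i := by linear_combination -h3
          rw [this]; exact mem_zpowers _
        · have : (QuaternionGroup.xa j : QuaternionGroup n) = QuaternionGroup.a n * QuaternionGroup.xa i := by
            rw [QuaternionGroup.a_mul_xa]; congr 1; linear_combination -h3
          rw [this]
          exact mul_mem hz (mem_zpowers _)
  exact isCyclic_of_injective (inclusion hy) (inclusion_injective hy)

theorem center_lift {G : Type u} [Group G] [Finite G] {p : ℕ} [hp : Fact p.Prime] {x : G} (hx : x ∉ center G) : ∃ y ∈ zpowers x, y ∉ center G ∧ ∃ q b : ℕ, q.Prime ∧ orderOf y = q ^ b := by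
  by_contra h
  push Not at h
  apply hx
  apply H23.Basic.mem_of_prime_pow_parts
  intro y hy q b hq hyo
  by_contra hyc
  exact h y hy hyc q b hq hyo


/-- Let G be a finite non-abelian nilpotent group. Then the centralizer of every non-central element of G is cyclic if and only if G is isomorphic to the direct product of a generalized quaternion group and a cyclic group of odd order. -/
theorem result {G : Type*} [Group G] [Finite G] (hG : Group.IsNilpotent G)
    (hna : ¬ IsMulCommutative G) :
    (∀ x : G, x ∉ Subgroup.center G → IsCyclic (Subgroup.centralizer ({x} : Set G))) ↔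
      ∃ (k m : ℕ), 1 ≤ k ∧ Odd m ∧ Nonempty (G ≃* QuaternionGroup (2 ^ k) × Multiplicative (ZMod m)) := by

  constructor
  · intro hcyc
    obtain ⟨x0, hx0⟩ : ∃ x : G, x ∉ center G := by
      by_contra h
      push Not at h
      exact hna ⟨⟨fun a b => (Subgroup.mem_center_iff.1 (h a) b).symm⟩⟩
    haveI : Fact (Nat.Prime 2) := ⟨Nat.prime_two⟩
    obtain ⟨x, -, hx, p, b, hp, hxo⟩ := center_lift (p := 2) hx0
    haveI : Fact p.Prime := ⟨hp⟩
    let P : Sylow p G := default
    have hPn : (P : Subgroup G).Normal := inferInstance
    have hxP : x ∈ (P : Subgroup G) := by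
      obtain ⟨Q, hQ⟩ := (H24.Tools.isPGroup_zpowers hxo).exists_le_sylow
      haveI := Sylow.unique_of_normal P hPn
      have : Q = P := Subsingleton.elim _ _
      rw [← this]; exact hQ (mem_zpowers x)
    haveI := hG
    obtain ⟨N, hN, hNp, k, hk⟩ := H2.Basic.npc_iff.1 (H2.Fusion4.npc_of_nilpotent (p := p) (G := G))
    have hcompl := H2.Basic.isComplement'_sylow P hNp hk
    have hdisj : Disjoint (P : Subgroup G) N := hcompl.disjoint.symm
    have hcomm : ∀ a ∈ (P : Subgroup G), ∀ b ∈ N, Commute a b := fun a ha b hb =>
      commute_of_normal_of_disjoint _ _ hPn hN hdisj a b ha hb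
    have htop : (P : Subgroup G) ⊔ N = ⊤ := hcompl.symm.sup_eq_top
    have hcen : ∀ y ∈ (P : Subgroup G), (∀ a ∈ (P : Subgroup G), a * y = y * a) → y ∈ center G := by
      intro y hy h
      have h1 : (⊤ : Subgroup G) ≤ centralizer {y} := by
        rw [← htop, sup_le_iff]
        refine ⟨fun a ha => mem_centralizer_singleton_iff.2 (h a ha), fun a ha => mem_centralizer_singleton_iff.2 (hcomm y hy a ha).symm⟩
      rw [Subgroup.mem_center_iff]
      intro g
      exact mem_centralizer_singleton_iff.1 (h1 (mem_top g))
    have hNc : IsCyclic N := by
      haveI := hcyc x hx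
      have hle : N ≤ centralizer {x} := fun a ha => mem_centralizer_singleton_iff.2 (hcomm x hxP a ha).symm
      exact isCyclic_of_injective (inclusion hle) (inclusion_injective hle)
    have huniq : ∀ H K : Subgroup (P : Subgroup G), Nat.card H = p → Nat.card K = p → H = K := by
      -- all subgroups of order p are inside the center, which lies in a cyclic group
      have h1 : ∀ y : (P : Subgroup G), y ^ p = 1 → (y : G) ∈ center G := by
        intro y hy
        by_contra hyc
        have hnt : Nontrivial (P : Subgroup G) := ⟨⟨y, 1, fun h => hyc (by rw [h]; exact one_mem _)⟩⟩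
        have h2 := P.2.bot_lt_center
        have h3 : p ∣ Nat.card (center (P : Subgroup G)) := by
          obtain ⟨m, hm⟩ := IsPGroup.iff_card.1 (P.2.to_subgroup (center (P : Subgroup G)))
          rw [hm]
          apply dvd_pow_self
          rintro rfl
          have := H2.Card.card_lt_of_lt h2
          rw [hm, Subgroup.card_bot, pow_zero] at this
          omega
        obtain ⟨⟨z, hz⟩, hzo⟩ := exists_prime_orderOf_dvd_card' p h3
        rw [← orderOf_coe] at hzo
        change orderOf z = p at hzo
        rw [← orderOf_coe] at hzo
        haveI := hcyc y hyc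
        have hzc : (z : G) ∈ center G := hcen z z.2 (fun a ha => congrArg Subtype.val (Subgroup.mem_center_iff.1 hz ⟨a, ha⟩))
        have hy1 : orderOf (y : G) = p := by
          apply orderOf_eq_prime
          · exact_mod_cast congrArg Subtype.val hy
          · intro h; exact hyc (by rw [h]; exact one_mem _)
        have e : zpowers (⟨y, mem_centralizer_singleton_iff.2 rfl⟩ : centralizer {(y : G)}) =
            zpowers (⟨z, mem_centralizer_singleton_iff.2 (Subgroup.mem_center_iff.1 hzc y).symm⟩ : centralizer {(y : G)}) := by
          apply H12.Core.cyclic_eq_of_card_eq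
          rw [Nat.card_zpowers, Nat.card_zpowers, ← orderOf_coe, ← orderOf_coe]
          change orderOf (y : G) = orderOf (z : G)
          rw [hy1, hzo]
        have h4 := e ▸ mem_zpowers (⟨y, mem_centralizer_singleton_iff.2 rfl⟩ : centralizer {(y : G)})
        obtain ⟨m, hm⟩ := mem_zpowers_iff.1 h4
        have h5 : (z : G) ^ m = y := congrArg Subtype.val hm
        exact hyc (h5 ▸ zpow_mem hzc m)
      haveI := hcyc x hx
      have hZx : center G ≤ centralizer {x} := fun a ha =>
        mem_centralizer_singleton_iff.2 (Subgroup.mem_center_iff.1 ha x).symm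
      haveI hZcyc : IsCyclic (center G) := isCyclic_of_injective (inclusion hZx) (inclusion_injective hZx)
      intro H K hH hK
      have hle : ∀ H : Subgroup (P : Subgroup G), Nat.card H = p → H.map (P : Subgroup G).subtype ≤ center G := by
        intro H hH
        rw [map_le_iff_le_comap]
        intro y hy
        apply h1
        have := pow_card_eq_one' (x := (⟨y, hy⟩ : H))
        rw [hH] at this
        exact congrArg Subtype.val this
      have e : (H.map (P : Subgroup G).subtype).subgroupOf (center G) = (K.map (P : Subgroup G).subtype).subgroupOf (center G) := by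
        apply H12.Core.cyclic_eq_of_card_eq
        rw [Nat.card_congr (subgroupOfEquivOfLe (hle H hH)).toEquiv, Nat.card_congr (subgroupOfEquivOfLe (hle K hK)).toEquiv,
          card_map_of_injective (P : Subgroup G).subtype_injective, card_map_of_injective (P : Subgroup G).subtype_injective, hH, hK]
      rw [subgroupOf_inj, inf_eq_left.2 (hle H hH), inf_eq_left.2 (hle K hK)] at e
      exact map_injective (P : Subgroup G).subtype_injective e
    rcases H23.PQuat.cyclic_or_quaternion P.2 huniq with hc | ⟨rfl, n, ⟨e⟩⟩
    · exfalso
      apply hx
      apply hcen x hxP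
      intro a ha
      have := hc.isMulCommutative.is_comm.comm (⟨a, ha⟩ : (P : Subgroup G)) ⟨x, hxP⟩
      exact congrArg Subtype.val this
    · refine ⟨n, Nat.card N, ?_, ?_, ?_⟩
      · by_contra h
        have : n = 0 := by omega
        subst this
        apply hx
        apply hcen x hxP
        intro a ha
        have h1 : ∀ u v : QuaternionGroup (2 ^ 0), u * v = v * u := by decide
        have := h1 (e ⟨a, ha⟩) (e ⟨x, hxP⟩)
        rw [← map_mul, ← map_mul] at this
        exact congrArg Subtype.val (e.injective this)
      · rw [Nat.odd_iff]; omega
      · -- G ≃ P × N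
        have hc' : ∀ (m : (P : Subgroup G)) (n : N), Commute ((P : Subgroup G).subtype m) (N.subtype n) :=
          fun m n => hcomm m m.2 n n.2
        let f := MonoidHom.noncommCoprod (P : Subgroup G).subtype N.subtype hc'
        have hf : Function.Bijective f := by
          have h1 : Function.Injective f := by
            rw [injective_iff_map_eq_one]
            rintro ⟨a, b⟩ h
            have h2 : (a : G) * b = 1 := by
              have : f (a, b) = (a : G) * b := MonoidHom.noncommCoprod_apply _ _ _ _
              rw [← this]; exact h
            have h3 : (a : G) = (b : G)⁻¹ := eq_inv_of_mul_eq_one_left h2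
            have h4 : (a : G) ∈ (P : Subgroup G) ⊓ N := Subgroup.mem_inf.2 ⟨a.2, by rw [h3]; exact inv_mem b.2⟩
            rw [hdisj.eq_bot, mem_bot] at h4
            have h5 : (b : G) = 1 := by rw [h4, one_mul] at h2; exact h2
            exact Prod.ext (Subtype.ext h4) (Subtype.ext h5)
          refine (Nat.bijective_iff_injective_and_card f).2 ⟨h1, ?_⟩
          rw [Nat.card_prod]
          have := hcompl.card_mul_card
          rw [mul_comm]; exact this
        have g1 := (MulEquiv.ofBijective f hf).symm
        exact ⟨g1.trans (MulEquiv.prodCongr e (zmodCyclicMulEquiv hNc).symm)⟩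
  · rintro ⟨k, m, hk, hm, ⟨e⟩⟩ x hx
    haveI : NeZero m := ⟨by rintro rfl; simp at hm⟩
    haveI : NeZero (2 ^ k) := ⟨by positivity⟩
    have hq : (e x).1 ∉ center (QuaternionGroup (2 ^ k)) := by
      intro h
      apply hx
      rw [Subgroup.mem_center_iff] at h ⊢
      intro g
      apply e.injective
      rw [map_mul, map_mul]
      refine Prod.ext (h (e g).1) (mul_comm _ _)
    have hc1 := cyclic_quat _ hq
    have hc2 : IsCyclic (centralizer ({(e x).1} : Set (QuaternionGroup (2 ^ k))) × Multiplicative (ZMod m)) := by
      rw [Group.isCyclic_prod_iff]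
      refine ⟨hc1, inferInstance, ?_⟩
      have h1 : Nat.card (centralizer ({(e x).1} : Set (QuaternionGroup (2 ^ k)))) ∣ 2 ^ (k + 2) := by
        have := card_subgroup_dvd_card (centralizer ({(e x).1} : Set (QuaternionGroup (2 ^ k))))
        rw [Nat.card_eq_fintype_card (α := QuaternionGroup (2 ^ k)), QuaternionGroup.card] at this
        rw [pow_add, mul_comm]; exact this
      apply Nat.Coprime.coprime_dvd_left h1
      apply Nat.Coprime.pow_left
      have h2 : Nat.card (Multiplicative (ZMod m)) = m := by
        rw [Nat.card_congr Multiplicative.toAdd, Nat.card_zmod]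
      rw [h2]
      exact (Nat.coprime_two_left).2 hm
    let f : centralizer ({x} : Set G) →* centralizer ({(e x).1} : Set (QuaternionGroup (2 ^ k))) × Multiplicative (ZMod m) :=
      MonoidHom.prod
        (((MonoidHom.fst _ _).comp (e.toMonoidHom.comp (centralizer ({x} : Set G)).subtype)).codRestrict
          (centralizer ({(e x).1} : Set (QuaternionGroup (2 ^ k)))) (by
            intro g
            rw [mem_centralizer_singleton_iff]
            have h1 := congrArg e (mem_centralizer_singleton_iff.1 g.2)
            rw [map_mul, map_mul] at h1
            exact congrArg Prod.fst h1))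
        ((MonoidHom.snd _ _).comp (e.toMonoidHom.comp (centralizer ({x} : Set G)).subtype))
    have hf : Function.Injective f := by
      intro a b hab
      apply Subtype.ext
      apply e.injective
      have h1 := congrArg (fun z => (z.1 : QuaternionGroup (2 ^ k))) hab
      have h2 := congrArg Prod.snd hab
      exact Prod.ext h1 h2
    exact isCyclic_of_injective f hf


end Cfsg.Agent.S4370
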