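import Cfsg.Statements.S4376
import Mathlib
import Cfsg.Agent.H24_OType6

set_option autoImplicit false
open Cfsg

namespace Cfsg.Agent.S4376

open Cfsg.Agent.H24.OType

/-- cyclic group of order `k` -/
abbrev Z (k : ℕ) := Multiplicative (ZMod k)
/-- dihedral group of order 8 -/
abbrev D4 := DihedralGroup 4

instance : Fact (Nat.Prime 7) := ⟨by norm_num⟩

/-- test for `h ^ n = 1` -/
def bZ (k : ℕ) (n : ℕ) (h : Z k) : Bool := (h.toAdd.val * n) % k == 0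

theorem bZ_spec (k : ℕ) [NeZero k] (n : ℕ) (h : Z k) : h ^ n = 1 ↔ bZ k n h = true := by
  rw [bZ, beq_iff_eq, ← Nat.dvd_iff_mod_eq_zero, ← ZMod.natCast_eq_zero_iff, Nat.cast_mul, ZMod.natCast_zmod_val]
  constructor
  · intro h1
    have := congrArg Multiplicative.toAdd h1
    rw [toAdd_pow, toAdd_one, nsmul_eq_mul] at this
    rw [mul_comm]; exact this
  · intro h1
    apply Multiplicative.toAdd.injective
    rw [toAdd_pow, toAdd_one, nsmul_eq_mul, mul_comm]; exact h1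

/-- test for `h ^ n = 1` -/
def bD (n : ℕ) (h : D4) : Bool := match h with
  | DihedralGroup.r i => (i.val * n) % 4 == 0
  | DihedralGroup.sr _ => n % 2 == 0

theorem bD_spec (n : ℕ) (h : D4) : h ^ n = 1 ↔ bD n h = true := by
  cases h with
  | r i =>
    have h1 : (DihedralGroup.r i : D4) ^ n = DihedralGroup.r (i * (n : ZMod 4)) := by
      induction n with
      | zero => rw [pow_zero, Nat.cast_zero, mul_zero, DihedralGroup.r_zero]
      | succ n ih => rw [pow_succ, ih, DihedralGroup.r_mul_r, Nat.cast_succ, mul_add, mul_one]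
    change _ ↔ ((i.val * n) % 4 == 0) = true
    rw [h1, beq_iff_eq, ← Nat.dvd_iff_mod_eq_zero, ← ZMod.natCast_eq_zero_iff, Nat.cast_mul, ZMod.natCast_zmod_val,
      DihedralGroup.one_def]
    constructor
    · intro h2; injection h2
    · intro h2; rw [h2]
  | sr i =>
    change _ ↔ (n % 2 == 0) = true
    rw [beq_iff_eq, ← Nat.dvd_iff_mod_eq_zero, ← orderOf_dvd_iff_pow_eq_one, DihedralGroup.orderOf_sr]

/-- product test -/
def bP {P Q : Type} (b : ℕ → P → Bool) (b' : ℕ → Q → Bool) (n : ℕ) (h : P × Q) : Bool := b n h.1 && b' n h.2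

theorem bP_spec {P Q : Type} [Group P] [Group Q] {b : ℕ → P → Bool} {b' : ℕ → Q → Bool}
    (h1 : ∀ n h, h ^ n = 1 ↔ b n h = true) (h2 : ∀ n h, h ^ n = 1 ↔ b' n h = true) (n : ℕ) (h : P × Q) :
    h ^ n = 1 ↔ bP b b' n h = true := by
  rw [bP, Bool.and_eq_true, ← h1, ← h2, Prod.ext_iff]; rfl

theorem solZ (k : ℕ) : Group.IsSolvable (Z k) := Group.isSolvable_of_comm (fun a b => mul_comm a b)

theorem solP {P Q : Type} [Group P] [Group Q] (h1 : Group.IsSolvable P) (h2 : Group.IsSolvable Q) :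
    Group.IsSolvable (P × Q) :=
  Group.isSolvable_of_ker_le_range (MonoidHom.inl P Q) (MonoidHom.snd P Q) (by
    intro x hx
    exact ⟨x.1, Prod.ext rfl (by simpa using hx.symm)⟩)

theorem solD : Group.IsSolvable D4 := by
  have : IsPGroup 2 D4 := IsPGroup.of_card (n := 3) (by rw [DihedralGroup.nat_card]; norm_num)
  have := this.isNilpotent
  infer_instance

/-- sign on `Z 2` -/
def s2 : Z 2 →* ℤˣ := MonoidHom.mk' (fun x => if x.toAdd.val % 2 = 0 then 1 else -1) (by decide)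
/-- sign on `Z 4` -/
def s4 : Z 4 →* ℤˣ := MonoidHom.mk' (fun x => if x.toAdd.val % 2 = 0 then 1 else -1) (by decide)
/-- sign on `D4` with kernel the rotations -/
def da : D4 →* ℤˣ := MonoidHom.mk' (fun x => match x with | DihedralGroup.r _ => 1 | DihedralGroup.sr _ => -1) (by decide)
/-- sign on `D4` -/
def db : D4 →* ℤˣ := MonoidHom.mk' (fun x => match x with
  | DihedralGroup.r i => if i.val % 2 = 0 then 1 else -1
  | DihedralGroup.sr i => if i.val % 2 = 0 then 1 else -1) (by decide)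
/-- third sign -/
def dc : D4 →* ℤˣ := da * db
/-- reduction of signs -/
def red (m : ℕ) : ℤˣ →* (ZMod m)ˣ := Units.map (Int.castRingHom (ZMod m)).toMonoidHom
/-- cubic character -/
def om : Z 3 →* (ZMod 7)ˣ := MonoidHom.mk' (fun x => ⟨(2 : ZMod 7) ^ x.toAdd.val, (4 : ZMod 7) ^ x.toAdd.val, by
  rw [← mul_pow]; have : (2 : ZMod 7) * 4 = 1 := by decide
  rw [this, one_pow], by
  rw [← mul_pow]; have : (4 : ZMod 7) * 2 = 1 := by decide
  rw [this, one_pow]⟩) (by decide)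

/-- character -/
def ch0 : Z 4 →* (ZMod 3)ˣ := (red 3).comp s4
/-- kernel -/
def kr0 : Z 4 → Bool := fun h => h.toAdd.val % 2 == 0
theorem kr0_spec : ∀ h, ch0 h = 1 ↔ kr0 h = true := by decide

/-- character -/
def ch1 : D4 →* (ZMod 3)ˣ := (red 3).comp db
/-- kernel -/
def kr1 : D4 → Bool := fun h => (match h with | DihedralGroup.r i => i.val % 2 == 0 | DihedralGroup.sr i => i.val % 2 == 0)
theorem kr1_spec : ∀ h, ch1 h = 1 ↔ kr1 h = true := by decide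

/-- character -/
def ch2 : Z 4 →* (ZMod 7)ˣ := (red 7).comp s4
/-- kernel -/
def kr2 : Z 4 → Bool := fun h => h.toAdd.val % 2 == 0
theorem kr2_spec : ∀ h, ch2 h = 1 ↔ kr2 h = true := by decide

/-- character -/
def ch3 : (Z 3 × Z 2) →* (ZMod 7)ˣ := ((om.comp (MonoidHom.fst _ _)) * ((red 7).comp (s2.comp (MonoidHom.snd _ _))))
/-- kernel -/
def kr3 : (Z 3 × Z 2) → Bool := fun h => decide (h.1 = 1) && (h.2.toAdd.val % 2 == 0)
theorem kr3_spec : ∀ h, ch3 h = 1 ↔ kr3 h = true := by decide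

/-- character -/
def ch4 : D4 →* (ZMod 7)ˣ := (red 7).comp da
/-- kernel -/
def kr4 : D4 → Bool := fun h => (match h with | DihedralGroup.r _ => true | DihedralGroup.sr _ => false)
theorem kr4_spec : ∀ h, ch4 h = 1 ↔ kr4 h = true := by decide

/-- character -/
def ch5 : (Z 3 × (Z 2 × Z 2)) →* (ZMod 7)ˣ := ((om.comp (MonoidHom.fst _ _)) * ((red 7).comp ((s2.comp (MonoidHom.fst _ _)).comp (MonoidHom.snd _ _))))
/-- kernel -/
def kr5 : (Z 3 × (Z 2 × Z 2)) → Bool := fun h => decide (h.1 = 1) && (h.2.1.toAdd.val % 2 == 0)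
theorem kr5_spec : ∀ h, ch5 h = 1 ↔ kr5 h = true := by decide

/-- character -/
def ch6 : (Z 3 × (Z 2 × Z 2)) →* (ZMod 7)ˣ := ((om.comp (MonoidHom.fst _ _)) * ((red 7).comp ((s2.comp (MonoidHom.snd _ _)).comp (MonoidHom.snd _ _))))
/-- kernel -/
def kr6 : (Z 3 × (Z 2 × Z 2)) → Bool := fun h => decide (h.1 = 1) && (h.2.2.toAdd.val % 2 == 0)
theorem kr6_spec : ∀ h, ch6 h = 1 ↔ kr6 h = true := by decide

/-- character -/
def ch7 : D4 →* (ZMod 7)ˣ := (red 7).comp db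
/-- kernel -/
def kr7 : D4 → Bool := fun h => (match h with | DihedralGroup.r i => i.val % 2 == 0 | DihedralGroup.sr i => i.val % 2 == 0)
theorem kr7_spec : ∀ h, ch7 h = 1 ↔ kr7 h = true := by decide

/-- character -/
def ch8 : (Z 2 × Z 2) →* (ZMod 3)ˣ := (red 3).comp (s2.comp (MonoidHom.fst _ _))
/-- kernel -/
def kr8 : (Z 2 × Z 2) → Bool := fun h => h.1.toAdd.val % 2 == 0
theorem kr8_spec : ∀ h, ch8 h = 1 ↔ kr8 h = true := by decide

/-- character -/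
def ch9 : (Z 2 × Z 2) →* (ZMod 7)ˣ := (red 7).comp (s2.comp (MonoidHom.snd _ _))
/-- kernel -/
def kr9 : (Z 2 × Z 2) → Bool := fun h => h.2.toAdd.val % 2 == 0
theorem kr9_spec : ∀ h, ch9 h = 1 ↔ kr9 h = true := by decide

/-- character -/
def ch10 : (Z 2 × Z 2) →* (ZMod 7)ˣ := (red 7).comp ((s2.comp (MonoidHom.fst _ _)) * (s2.comp (MonoidHom.snd _ _)))
/-- kernel -/
def kr10 : (Z 2 × Z 2) → Bool := fun h => (h.1.toAdd.val + h.2.toAdd.val) % 2 == 0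
theorem kr10_spec : ∀ h, ch10 h = 1 ↔ kr10 h = true := by decide

/-- character -/
def ch11 : Z 2 →* (ZMod 7)ˣ := (red 7).comp s2
/-- kernel -/
def kr11 : Z 2 → Bool := fun h => h.toAdd.val % 2 == 0
theorem kr11_spec : ∀ h, ch11 h = 1 ↔ kr11 h = true := by decide

/-- character -/
def ch12 : (Z 3 × D4) →* (ZMod 7)ˣ := ((om.comp (MonoidHom.fst _ _)) * ((red 7).comp (da.comp (MonoidHom.snd _ _))))
/-- kernel -/
def kr12 : (Z 3 × D4) → Bool := fun h => decide (h.1 = 1) && (match h.2 with | DihedralGroup.r _ => true | DihedralGroup.sr _ => false)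
theorem kr12_spec : ∀ h, ch12 h = 1 ↔ kr12 h = true := by decide

/-- character -/
def ch13 : D4 →* (ZMod 7)ˣ := (red 7).comp dc
/-- kernel -/
def kr13 : D4 → Bool := fun h => (match h with | DihedralGroup.r i => i.val % 2 == 0 | DihedralGroup.sr i => i.val % 2 == 1)
theorem kr13_spec : ∀ h, ch13 h = 1 ↔ kr13 h = true := by decide

/-- character -/
def ch14 : Z 2 →* (ZMod 3)ˣ := (red 3).comp s2
/-- kernel -/
def kr14 : Z 2 → Bool := fun h => h.toAdd.val % 2 == 0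
theorem kr14_spec : ∀ h, ch14 h = 1 ↔ kr14 h = true := by decide

/-- character -/
def ch15 : (Z 3 × D4) →* (ZMod 7)ˣ := ((om.comp (MonoidHom.fst _ _)) * ((red 7).comp (db.comp (MonoidHom.snd _ _))))
/-- kernel -/
def kr15 : (Z 3 × D4) → Bool := fun h => decide (h.1 = 1) && (match h.2 with | DihedralGroup.r i => i.val % 2 == 0 | DihedralGroup.sr i => i.val % 2 == 0)
theorem kr15_spec : ∀ h, ch15 h = 1 ↔ kr15 h = true := by decide

/-- count -/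
def Fl0 (n : ℕ) : ℕ := ∑ h : Z 2, (if (bZ 2) n h then 1 else 0)
theorem sol_l0 : Sol Fl0 := (rl_base (Z 2) (solZ 2) (bZ 2) (bZ_spec 2)).sol

/-- count -/
def Fl1 (n : ℕ) : ℕ := ∑ h : D4, (if (bD) n h then 1 else 0)
theorem sol_l1 : Sol Fl1 := (rl_base (D4) solD (bD) bD_spec).sol

/-- count -/
def Fl2 (n : ℕ) : ℕ := ∑ h : Z 4, ((if (bZ 4) n h then 1 else 0) * if kr0 h && !(decide (3 ∣ n)) then 1 else 3)
theorem sol_l2 : Sol Fl2 := (rl_step (rl_base (Z 4) (solZ 4) (bZ 4) (bZ_spec 4)) 3 ch0 kr0 kr0_spec).sol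

/-- count -/
def Fl3 (n : ℕ) : ℕ := ∑ h : D4, ((if (bD) n h then 1 else 0) * if kr1 h && !(decide (3 ∣ n)) then 1 else 3)
theorem sol_l3 : Sol Fl3 := (rl_step (rl_base (D4) solD (bD) bD_spec) 3 ch1 kr1 kr1_spec).sol

/-- count -/
def Fl4 (n : ℕ) : ℕ := ∑ h : Z 4, ((if (bZ 4) n h then 1 else 0) * if kr2 h && !(decide (7 ∣ n)) then 1 else 7)
theorem sol_l4 : Sol Fl4 := (rl_step (rl_base (Z 4) (solZ 4) (bZ 4) (bZ_spec 4)) 7 ch2 kr2 kr2_spec).sol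

/-- count -/
def Fl5 (n : ℕ) : ℕ := ∑ h : (Z 3 × Z 2), ((if (bP (bZ 3) (bZ 2)) n h then 1 else 0) * if kr3 h && !(decide (7 ∣ n)) then 1 else 7)
theorem sol_l5 : Sol Fl5 := (rl_step (rl_base ((Z 3 × Z 2)) (solP (solZ 3) (solZ 2)) (bP (bZ 3) (bZ 2)) (bP_spec (bZ_spec 3) (bZ_spec 2))) 7 ch3 kr3 kr3_spec).sol

/-- count -/
def Fl6 (n : ℕ) : ℕ := ∑ h : D4, ((if (bD) n h then 1 else 0) * if kr4 h && !(decide (7 ∣ n)) then 1 else 7)
theorem sol_l6 : Sol Fl6 := (rl_step (rl_base (D4) solD (bD) bD_spec) 7 ch4 kr4 kr4_spec).sol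

/-- count -/
def Fl7 (n : ℕ) : ℕ := ∑ h : (Z 3 × (Z 2 × Z 2)), (((if (bP (bZ 3) (bP (bZ 2) (bZ 2))) n h then 1 else 0) * if kr5 h && !(decide (7 ∣ n)) then 1 else 7) * if kr6 h && !(decide (7 ∣ n)) then 1 else 7)
theorem sol_l7 : Sol Fl7 := (rl_step (rl_step (rl_base ((Z 3 × (Z 2 × Z 2))) (solP (solZ 3) (solP (solZ 2) (solZ 2))) (bP (bZ 3) (bP (bZ 2) (bZ 2))) (bP_spec (bZ_spec 3) (bP_spec (bZ_spec 2) (bZ_spec 2)))) 7 ch5 kr5 kr5_spec) 7 ch6 kr6 kr6_spec).sol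

/-- count -/
def Fl8 (n : ℕ) : ℕ := ∑ h : Z 3, (if (bZ 3) n h then 1 else 0)
theorem sol_l8 : Sol Fl8 := (rl_base (Z 3) (solZ 3) (bZ 3) (bZ_spec 3)).sol

/-- count -/
def Fl9 (n : ℕ) : ℕ := ∑ h : D4, (((if (bD) n h then 1 else 0) * if kr4 h && !(decide (7 ∣ n)) then 1 else 7) * if kr7 h && !(decide (7 ∣ n)) then 1 else 7)
theorem sol_l9 : Sol Fl9 := (rl_step (rl_step (rl_base (D4) solD (bD) bD_spec) 7 ch4 kr4 kr4_spec) 7 ch7 kr7 kr7_spec).sol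

/-- count -/
def Fl10 (n : ℕ) : ℕ := ∑ h : (Z 2 × Z 2), (((((if (bP (bZ 2) (bZ 2)) n h then 1 else 0) * if kr8 h && !(decide (3 ∣ n)) then 1 else 3) * if kr8 h && !(decide (3 ∣ n)) then 1 else 3) * if kr9 h && !(decide (7 ∣ n)) then 1 else 7) * if kr10 h && !(decide (7 ∣ n)) then 1 else 7)
theorem sol_l10 : Sol Fl10 := (rl_step (rl_step (rl_step (rl_step (rl_base ((Z 2 × Z 2)) (solP (solZ 2) (solZ 2)) (bP (bZ 2) (bZ 2)) (bP_spec (bZ_spec 2) (bZ_spec 2))) 3 ch8 kr8 kr8_spec) 3 ch8 kr8 kr8_spec) 7 ch9 kr9 kr9_spec) 7 ch10 kr10 kr10_spec).sol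

/-- count -/
def Fr0 (n : ℕ) : ℕ := ∑ h : Z 4, (if (bZ 4) n h then 1 else 0)
theorem sol_r0 : Sol Fr0 := (rl_base (Z 4) (solZ 4) (bZ 4) (bZ_spec 4)).sol

/-- count -/
def Fr1 (n : ℕ) : ℕ := ∑ h : Z 2, ((if (bZ 2) n h then 1 else 0) * if kr11 h && !(decide (7 ∣ n)) then 1 else 7)
theorem sol_r1 : Sol Fr1 := (rl_step (rl_base (Z 2) (solZ 2) (bZ 2) (bZ_spec 2)) 7 ch11 kr11 kr11_spec).sol

/-- count -/
def Fr2 (n : ℕ) : ℕ := ∑ h : Z 4, (((if (bZ 4) n h then 1 else 0) * if kr0 h && !(decide (3 ∣ n)) then 1 else 3) * if kr2 h && !(decide (7 ∣ n)) then 1 else 7)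
theorem sol_r2 : Sol Fr2 := (rl_step (rl_step (rl_base (Z 4) (solZ 4) (bZ 4) (bZ_spec 4)) 3 ch0 kr0 kr0_spec) 7 ch2 kr2 kr2_spec).sol

/-- count -/
def Fr3 (n : ℕ) : ℕ := ∑ h : (Z 3 × D4), ((if (bP (bZ 3) (bD)) n h then 1 else 0) * if kr12 h && !(decide (7 ∣ n)) then 1 else 7)
theorem sol_r3 : Sol Fr3 := (rl_step (rl_base ((Z 3 × D4)) (solP (solZ 3) solD) (bP (bZ 3) (bD)) (bP_spec (bZ_spec 3) bD_spec)) 7 ch12 kr12 kr12_spec).sol

/-- count -/
def Fr4 (n : ℕ) : ℕ := ∑ h : D4, (((if (bD) n h then 1 else 0) * if kr1 h && !(decide (3 ∣ n)) then 1 else 3) * if kr13 h && !(decide (7 ∣ n)) then 1 else 7)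
theorem sol_r4 : Sol Fr4 := (rl_step (rl_step (rl_base (D4) solD (bD) bD_spec) 3 ch1 kr1 kr1_spec) 7 ch13 kr13 kr13_spec).sol

/-- count -/
def Fr5 (n : ℕ) : ℕ := ∑ h : Z 2, ((((if (bZ 2) n h then 1 else 0) * if kr14 h && !(decide (3 ∣ n)) then 1 else 3) * if kr14 h && !(decide (3 ∣ n)) then 1 else 3) * if kr11 h && !(decide (7 ∣ n)) then 1 else 7)
theorem sol_r5 : Sol Fr5 := (rl_step (rl_step (rl_step (rl_base (Z 2) (solZ 2) (bZ 2) (bZ_spec 2)) 3 ch14 kr14 kr14_spec) 3 ch14 kr14 kr14_spec) 7 ch11 kr11 kr11_spec).sol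

/-- count -/
def Fr6 (n : ℕ) : ℕ := ∑ h : (Z 3 × D4), (((if (bP (bZ 3) (bD)) n h then 1 else 0) * if kr12 h && !(decide (7 ∣ n)) then 1 else 7) * if kr15 h && !(decide (7 ∣ n)) then 1 else 7)
theorem sol_r6 : Sol Fr6 := (rl_step (rl_step (rl_base ((Z 3 × D4)) (solP (solZ 3) solD) (bP (bZ 3) (bD)) (bP_spec (bZ_spec 3) bD_spec)) 7 ch12 kr12 kr12_spec) 7 ch15 kr15 kr15_spec).sol

/-- count -/
def FA (n : ℕ) : ℕ := ∑ k ∈ ({1, 2, 3, 6, 7} : Finset ℕ), if k ∣ n then NAG k else 0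
/-- count -/
def FG (n : ℕ) : ℕ := ∑ k ∈ ({1, 2, 3, 4, 7} : Finset ℕ), if k ∣ n then NGL k else 0
theorem sol_FA : Sol FA := sol_AG
theorem nsol_FG : NSol FG := nsol_GL

/-- left total -/
def TL (n : ℕ) : ℕ := ((((((((((((FG n * FG n) * Fl0 n ^ 1) * Fl1 n ^ 2) * Fl2 n ^ 2) * Fl3 n ^ 2) * Fl4 n ^ 3) * Fl5 n ^ 4) * Fl6 n ^ 2) * Fl7 n ^ 2) * Fl8 n ^ 2) * Fl9 n ^ 2) * Fl10 n ^ 2)
/-- right total -/
def TR (n : ℕ) : ℕ := ((((((((FA n ^ 2) * Fr0 n ^ 3) * Fr1 n ^ 5) * Fr2 n ^ 2) * Fr3 n ^ 4) * Fr4 n ^ 4) * Fr5 n ^ 2) * Fr6 n ^ 2)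
theorem nsol_TL : NSol TL := (((((((((((nsol_FG.mul' nsol_FG).mul (sol_l0.pow 1)).mul (sol_l1.pow 2)).mul (sol_l2.pow 2)).mul (sol_l3.pow 2)).mul (sol_l4.pow 3)).mul (sol_l5.pow 4)).mul (sol_l6.pow 2)).mul (sol_l7.pow 2)).mul (sol_l8.pow 2)).mul (sol_l9.pow 2)).mul (sol_l10.pow 2)
theorem sol_TR : Sol TR := (((((((sol_FA.pow 2).mul (sol_r0.pow 3)).mul (sol_r1.pow 5)).mul (sol_r2.pow 2)).mul (sol_r3.pow 4)).mul (sol_r4.pow 4)).mul (sol_r5.pow 2)).mul (sol_r6.pow 2)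

theorem rel : ∀ n ∈ ({0, 1, 2, 3, 4, 6, 7, 12, 14, 21, 28, 42, 84} : Finset ℕ), TL n = TR n := by
  decide +kernel

theorem rel0 : TR 0 = TR 84 := by decide +kernel


/-- There are finite groups G and H having the same number of elements of each order (the same order type) with G solvable and H not solvable. -/
theorem result :
    ∃ (G : Type) (_ : Group G) (_ : Finite G) (H : Type) (_ : Group H) (_ : Finite H),
      Group.IsSolvable G ∧ ¬ Group.IsSolvable H ∧ ∀ n : ℕ, Nat.card {g : G // orderOf g = n} = Nat.card {h : H // orderOf h = n} := by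
  obtain ⟨G, iG, fG, hsG, hG⟩ := sol_TR
  obtain ⟨H, iH, fH, hsH, hH⟩ := nsol_TL
  refine ⟨G, iG, fG, H, iH, fH, hsG, hsH, fun n => ?_⟩
  refine order_type_eq 84 (by norm_num) TR (fun n _ => hG n) (fun n hn => ?_) rel0 n
  rw [hH n]
  apply rel
  rcases hn with hn | rfl
  · have h1 : n ∈ Nat.divisors 84 := Nat.mem_divisors.mpr ⟨hn, by norm_num⟩
    have h2 : Nat.divisors 84 ⊆ ({0, 1, 2, 3, 4, 6, 7, 12, 14, 21, 28, 42, 84} : Finset ℕ) := by decide +kernel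
    exact h2 h1
  · decide

end Cfsg.Agent.S4376
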