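import Cfsg.Statements.S4377
import Mathlib

set_option autoImplicit false
open Cfsg

namespace Cfsg.Agent.S4377

theorem key (K : Type*) [Group K] [Finite K] (n : ℕ) (hn : n ≠ 0) :
    Nat.card {g : K // g ^ n = 1} = ∑ d ∈ n.divisors, Nat.card {g : K // orderOf g = d} := by
  classical
  have : Fintype K := Fintype.ofFinite K
  simp only [Nat.card_eq_fintype_card, Fintype.card_subtype]
  rw [← Finset.card_biUnion]
  · congr 1
    ext g
    simp only [Finset.mem_filter, Finset.mem_univ, true_and, Finset.mem_biUnion, Nat.mem_divisors]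
    rw [← orderOf_dvd_iff_pow_eq_one]
    exact ⟨fun h => ⟨orderOf g, ⟨h, hn⟩, rfl⟩, fun ⟨d, ⟨h, _⟩, he⟩ => he ▸ h⟩
  · intro a _ b _ hab
    rw [Function.onFun, Finset.disjoint_left]
    intro g hg hg'
    simp only [Finset.mem_filter, Finset.mem_univ, true_and] at hg hg'
    exact hab (hg.symm.trans hg')

/-- Two finite groups have the same number of elements of each order if and only if, for every n, they have the same number of elements g with gⁿ = 1. -/
theorem result {G H : Type*} [Group G] [Finite G] [Group H] [Finite H] :
    (∀ n : ℕ, Nat.card {g : G // orderOf g = n} = Nat.card {h : H // orderOf h = n}) ↔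
      ∀ n : ℕ, Nat.card {g : G // g ^ n = 1} = Nat.card {h : H // h ^ n = 1} := by
  classical
  haveI : Fintype G := Fintype.ofFinite G
  haveI : Fintype H := Fintype.ofFinite H
  constructor
  · intro h n
    rcases Nat.eq_zero_or_pos n with rfl | hn
    · have e1 : Nat.card {g : G // g ^ 0 = 1} = Nat.card G :=
        Nat.card_congr (Equiv.subtypeUnivEquiv (fun _ => pow_zero _))
      have e2 : Nat.card {g : H // g ^ 0 = 1} = Nat.card H :=
        Nat.card_congr (Equiv.subtypeUnivEquiv (fun _ => pow_zero _))
      rw [e1, e2]
      have hN : Nat.card G * Nat.card H ≠ 0 := (Nat.mul_pos Nat.card_pos Nat.card_pos).ne'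
      have f1 : Nat.card {g : G // g ^ (Nat.card G * Nat.card H) = 1} = Nat.card G :=
        Nat.card_congr (Equiv.subtypeUnivEquiv (fun g => by rw [pow_mul, pow_card_eq_one', one_pow]))
      have f2 : Nat.card {g : H // g ^ (Nat.card G * Nat.card H) = 1} = Nat.card H :=
        Nat.card_congr (Equiv.subtypeUnivEquiv (fun g => by rw [mul_comm, pow_mul, pow_card_eq_one', one_pow]))
      refine f1.symm.trans (Eq.trans ?_ f2)
      rw [key G _ hN, key H _ hN]
      exact Finset.sum_congr rfl (fun d _ => h d)
    · rw [key G n hn.ne', key H n hn.ne']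
      exact Finset.sum_congr rfl (fun d _ => h d)
  · intro h n
    induction n using Nat.strong_induction_on with
    | _ n ih =>
      rcases Nat.eq_zero_or_pos n with rfl | hn
      · have e1 : IsEmpty {g : G // orderOf g = 0} := ⟨fun g => (orderOf_pos g.1).ne' g.2⟩
        have e2 : IsEmpty {g : H // orderOf g = 0} := ⟨fun g => (orderOf_pos g.1).ne' g.2⟩
        rw [Nat.card_of_isEmpty, Nat.card_of_isEmpty]
      · have h1 := h n
        rw [key G n hn.ne', key H n hn.ne', ← Nat.cons_self_properDivisors hn.ne',
          Finset.sum_cons, Finset.sum_cons] at h1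
        have h2 : ∑ d ∈ n.properDivisors, Nat.card {g : G // orderOf g = d} =
            ∑ d ∈ n.properDivisors, Nat.card {g : H // orderOf g = d} :=
          Finset.sum_congr rfl (fun d hd => ih d (Nat.mem_properDivisors.mp hd).2)
        omega

end Cfsg.Agent.S4377
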