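import Cfsg.Statements.S4387
import Mathlib
import Cfsg.Agent.H24_Tools
import Cfsg.Agent.H20_Derange

set_option autoImplicit false
open Pointwise
open Cfsg

namespace Cfsg.Agent.S4387

open scoped Pointwise

/-- Let G be a non-trivial finite group in which any two maximal subgroups are conjugate. Then G is cyclic of prime-power order. -/
theorem result {G : Type*} [Group G] [Finite G] [Nontrivial G]
    (h : ∀ M N : Subgroup G, IsCoatom M → IsCoatom N → ∃ g : G, N = MulAut.conj g • M) :
    IsCyclic G ∧ IsPrimePow (Nat.card G) := by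
  obtain ⟨M, hM, -⟩ := Cfsg.Agent.H24.Tools.exists_coatom_ge (G := G) (bot_ne_top)
  obtain ⟨x, hx⟩ := Cfsg.Agent.H20.Derange.jordan M hM.1
  have hgen : Subgroup.zpowers x = ⊤ := by
    by_contra hne
    obtain ⟨N, hN, hxN⟩ := Cfsg.Agent.H24.Tools.exists_coatom_ge hne
    obtain ⟨g, rfl⟩ := h M N hM hN
    have := hxN (Subgroup.mem_zpowers x)
    rw [Cfsg.Agent.H24.Tools.mem_conj] at this
    exact hx g this
  have hcyc : IsCyclic G := ⟨x, fun y => show y ∈ Subgroup.zpowers x by rw [hgen]; trivial⟩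
  refine ⟨hcyc, ?_⟩
  have hcomm : ∀ a b : G, a * b = b * a := (IsCyclic.isMulCommutative (α := G)).is_comm.comm
  have huniq : ∀ N : Subgroup G, IsCoatom N → N = M := by
    intro N hN
    obtain ⟨g, rfl⟩ := h M N hM hN
    ext y
    rw [Cfsg.Agent.H24.Tools.mem_conj, hcomm g⁻¹ y, inv_mul_cancel_right]
  have hcard1 : Nat.card G ≠ 1 := (Finite.one_lt_card).ne'
  obtain ⟨p, hp, hpd⟩ := Nat.exists_prime_and_dvd hcard1
  rw [isPrimePow_iff_unique_prime_dvd]
  -- for each prime divisor the subgroup of `q`-th powers is a proper subgroup with index q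
  have key : ∀ q : ℕ, q.Prime → q ∣ Nat.card G → x ^ q ∈ M := by
    intro q hq hqd
    have hne : Subgroup.zpowers (x ^ q) ≠ ⊤ := by
      intro htop
      have h1 : orderOf (x ^ q) = orderOf x := by
        rw [← Nat.card_zpowers, ← Nat.card_zpowers, htop, hgen]
      have h2 : orderOf x = Nat.card G := by
        rw [← Nat.card_zpowers, hgen, Subgroup.card_top]
      rw [orderOf_pow_of_dvd hq.ne_zero (by rw [h2]; exact hqd), h2] at h1
      have h3 : Nat.card G / q < Nat.card G := Nat.div_lt_self Nat.card_pos hq.one_lt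
      omega
    obtain ⟨N, hN, hxN⟩ := Cfsg.Agent.H24.Tools.exists_coatom_ge hne
    rw [← huniq N hN]
    exact hxN (Subgroup.mem_zpowers _)
  refine ⟨p, ⟨hp, hpd⟩, ?_⟩
  rintro q ⟨hq, hqd⟩
  by_contra hne
  have hco : (q : ℕ).Coprime p := (Nat.coprime_primes hq hp).mpr hne
  have h1 := key q hq hqd
  have h2 := key p hp hpd
  have hxM : x ∈ M := by
    have hb := Nat.gcd_eq_gcd_ab q p
    rw [hco.gcd_eq_one] at hb
    have h3 : x = (x ^ q) ^ (Nat.gcdA q p) * (x ^ p) ^ (Nat.gcdB q p) := by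
      rw [← zpow_natCast x q, ← zpow_natCast x p, ← zpow_mul, ← zpow_mul, ← zpow_add, ← hb]
      simp
    rw [h3]
    exact M.mul_mem (M.zpow_mem h1 _) (M.zpow_mem h2 _)
  apply hM.1
  rw [← top_le_iff, ← hgen, Subgroup.zpowers_le]
  exact hxM

end Cfsg.Agent.S4387
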