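import Cfsg.Statements.S4396
import Cfsg.Agent.H10_FrF4
import Cfsg.Agent.H1_Frob

set_option autoImplicit false
open Cfsg

namespace Cfsg.Agent.S4396

/-- Let the finite group A act faithfully and linearly on a finite-dimensional vector space V over a field k, and suppose A is a Frobenius group with nilpotent kernel F (every Frobenius kernel is nilpotent) and complement H such that F fixes no nonzero vector. Then V is free as a module for H: there is a subspace W with V the direct sum of the translates hW, h ∈ H. (No assumption on the characteristic of k.) -/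
theorem result {k V A : Type*} [Field k] [AddCommGroup V] [Module k V] [FiniteDimensional k V] [Group A] [Finite A] [DecidableEq A]
    (ρ : Representation k A V) (hρ : Function.Injective ρ)
    (Fk Hc : Subgroup A) [Fk.Normal] (hHc : Cfsg.IsFrobeniusComplement Hc) (hker : Cfsg.frobeniusKernel Hc = (Fk : Set A)) (hnil : Group.IsNilpotent ↥Fk)
    (hCF : ∀ v : V, (∀ f ∈ Fk, ρ f v = v) → v = 0) :
    ∃ W : Submodule k V, DirectSum.IsInternal (fun h : ↥Hc => W.map (ρ (h : A))) := by
  haveI := hnil
  let φ : ↥Hc →* MulAut ↥Fk := (MulAut.conjNormal (H := Fk)).comp Hc.subtype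
  have hmain := Cfsg.Agent.H10.FrF4.free (k := k) (Q := ↥Fk) hnil ↥Hc φ ?_ V (ρ.comp Fk.subtype) (ρ.comp Hc.subtype) ?_ ?_
  · exact Cfsg.Agent.H10.FrF2.FrOn_internal _ hmain
  · intro h hh q hq
    have h1 : (h : A) * q * (h : A)⁻¹ = q := congrArg Subtype.val hq
    have hh1 : (h : A) ≠ 1 := fun h2 => hh (Subtype.ext h2)
    have h2 : (q : A) ∈ Hc := Cfsg.Agent.H1.Frob.centralizer_le hHc h.2 hh1 (mul_inv_eq_iff_eq_mul.1 h1).symm
    have h3 : (q : A) ∈ Cfsg.frobeniusKernel Hc := by rw [hker]; exact q.2
    rcases h3 with h4 | h4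
    · exact Subtype.ext h4
    · exfalso
      apply h4 1
      rw [Cfsg.Agent.H1.Basic.mem_conj]
      simpa using h2
  · intro h q
    show ρ (h : A) * ρ (q : A) = ρ ((h : A) * q * (h : A)⁻¹) * ρ (h : A)
    rw [← map_mul, ← map_mul]; congr 1; group
  · intro v hv
    exact hCF v fun f hf => hv ⟨f, hf⟩

end Cfsg.Agent.S4396
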