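import Cfsg.Statements.S4401
import Cfsg.Agent.H24_SRank3
-- import your own Cfsg.Agent.* helpers here

set_option autoImplicit false
open Cfsg

namespace Cfsg.Agent.S4401

/-- Let S be a finite 2-group of sectional 2-rank at most 4 and P a proper non-abelian subgroup whose centre has order 2. Let S₀ be the centralizer in S of Z(P) and suppose P is normal in S₀. Then either S₀ = S, or P has sectional 2-rank at most 2 and S₀ has index 2 in S. -/
theorem result {S : Type*} [Group S] [Finite S] (h2 : IsPGroup 2 S) (hr : Cfsg.SectionalPRankLE 2 4 S)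
    (P : Subgroup S) (hPlt : P ≠ ⊤) (hP : ¬ IsMulCommutative ↥P) (hZP : Nat.card ↥(Subgroup.center ↥P) = 2)
    (S₀ : Subgroup S) (hS₀ : S₀ = Subgroup.centralizer (((Subgroup.center ↥P).map P.subtype : Subgroup S) : Set S))
    (hPn : ∀ s ∈ S₀, ∀ x ∈ P, s * x * s⁻¹ ∈ P) :
    S₀ = ⊤ ∨ (Cfsg.SectionalPRankLE 2 2 ↥P ∧ S₀.index = 2) := by
  obtain ⟨z, hz1, hzu⟩ := (Nat.card_eq_two_iff' (1 : Subgroup.center P)).1 hZP
  have hzc : ∀ a ∈ P, ((z : P) : S) * a = a * z := by
    intro a ha
    have := Subgroup.mem_center_iff.1 z.2 ⟨a, ha⟩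
    exact (congrArg Subtype.val this).symm
  have hz : ∀ s, s ∈ S₀ ↔ s * ((z : P) : S) = z * s := by
    intro s
    rw [hS₀, Subgroup.mem_centralizer_iff]
    constructor
    · intro h
      exact (h _ ⟨z, z.2, rfl⟩).symm
    · rintro h _ ⟨w, hw, rfl⟩
      by_cases hw1 : w = 1
      · rw [hw1]; simp
      · have := hzu ⟨w, hw⟩ (fun h => hw1 (congrArg Subtype.val h))
        have hwz : w = (z : P) := congrArg Subtype.val this
        rw [hwz]
        exact h.symm
  have hPS : P ≤ S₀ := by
    intro a ha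
    rw [hz]
    exact (hzc a ha).symm
  refine Cfsg.Agent.H24.SRank.main h2 hr P S₀ hPS hP hZP hPn ((z : P) : S) (z : P).2 ?_ hzc ?_ hz
  · intro h
    apply hz1
    exact Subtype.ext (Subtype.ext h)
  · intro w hw hwc
    by_cases hw1 : w = 1
    · exact Or.inl hw1
    · right
      have h1 : (⟨w, hw⟩ : P) ∈ Subgroup.center P := by
        rw [Subgroup.mem_center_iff]
        rintro ⟨a, ha⟩
        exact Subtype.ext (hwc a ha).symm
      have := hzu ⟨_, h1⟩ (fun h => hw1 (congrArg (fun t : Subgroup.center P => ((t : P) : S)) h))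
      exact congrArg (fun t : Subgroup.center P => ((t : P) : S)) this

end Cfsg.Agent.S4401
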