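import Cfsg.Statements.S4405
import Cfsg.Agent.H19_X320
import Cfsg.Agent.H28_Xsp
import Cfsg.Agent.H1_Hall
import Cfsg.Agent.H1_Nilp
import Cfsg.Agent.S0144

set_option autoImplicit false
open Cfsg

namespace Cfsg.Agent.S4405


/-- Let G be a finite group of order 320 = 64·5 whose largest normal 2-subgroup H = O₂(G) equals the Fitting subgroup F(G) and is extraspecial of order 32 containing no elementary abelian subgroup of order 8 (so H is the central product of a quaternion group and a dihedral group of order 8). If T is an involution of G outside H whose centralizer in H contains an elementary abelian subgroup of order 4, then C_H(T) itself is elementary abelian of order 4. -/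
theorem result {G : Type*} [Group G] [Finite G]
    (hG : Nat.card G = 320) (hHF : Cfsg.pCore 2 G = Cfsg.fittingSubgroup G)
    (hex : Cfsg.IsExtraspecial 2 ↥(Cfsg.pCore 2 G)) (h32 : Nat.card ↥(Cfsg.pCore 2 G) = 32)
    (hminus : ∀ A : Subgroup G, A ≤ Cfsg.pCore 2 G → Cfsg.IsElementaryAbelian 2 A → Nat.card ↥A ≤ 4)
    (T : G) (hT : orderOf T = 2) (hTH : T ∉ Cfsg.pCore 2 G)
    (V : Subgroup G) (hV : V ≤ Cfsg.pCore 2 G ⊓ Subgroup.centralizer ({T} : Set G)) (hV4 : Nat.card ↥V = 4) (hVe : Cfsg.IsElementaryAbelian 2 V) :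
    Nat.card ↥(Cfsg.pCore 2 G ⊓ Subgroup.centralizer ({T} : Set G)) = 4 ∧
      Cfsg.IsElementaryAbelian 2 (Cfsg.pCore 2 G ⊓ Subgroup.centralizer ({T} : Set G)) := by
  classical
  haveI : Fact (Nat.Prime 2) := ⟨Nat.prime_two⟩
  have hsol : Group.IsSolvable G := Cfsg.Agent.S0144.result 2 5 6 1 Nat.prime_two (by norm_num) (by rw [hG]; norm_num)
  have hHn : (Cfsg.pCore 2 G).Normal := Cfsg.Agent.H1.Nilp.pCore_normal 2
  have hHp : IsPGroup 2 (Cfsg.pCore 2 G : Subgroup G) := Cfsg.Agent.H1.Nilp.pCore_isPGroup 2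
  have hcent : Subgroup.centralizer ((Cfsg.pCore 2 G : Subgroup G) : Set G) ≤ Cfsg.pCore 2 G := by
    rw [hHF]; exact Cfsg.Agent.H1.Hall.centralizer_fitting_le
  have hlePC : ∀ N : Subgroup G, N.Normal → IsPGroup 2 N → N ≤ Cfsg.pCore 2 G := fun N h1 h2 => Cfsg.Agent.H1.Nilp.le_pCore h1 h2
  obtain ⟨z, hz⟩ := Cfsg.Agent.H28.Xsp.Xsp.exists_of_isExtraspecial hex
  set H : Subgroup G := Cfsg.pCore 2 G with hH
  have zcen : ∀ g : G, g * z = z * g := by
    intro g
    have h1 : g * z * g⁻¹ ∈ H := hHn.conj_mem z hz.mem g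
    have h2 := hz.cen _ h1 (fun y hy => by
      have h3 : g⁻¹ * y * g ∈ H := by simpa using hHn.conj_mem y hy g⁻¹
      have h4 := hz.zc _ h3
      have : g * z * g⁻¹ * y = g * (z * (g⁻¹ * y * g)) * g⁻¹ := by group
      rw [this, h4]; group)
    rcases h2 with h2 | h2
    · exfalso
      apply hz.ne
      have : z = g⁻¹ * (g * z * g⁻¹) * g := by group
      rw [this, h2]; group
    · exact mul_inv_eq_iff_eq_mul.1 h2
  set Z : Subgroup G := Subgroup.zpowers z with hZ
  have memZ : ∀ x, x ∈ Z ↔ x = 1 ∨ x = z := fun x => Cfsg.Agent.H28.Xsp.mem_zpowers_of_sq hz.sq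
  have hZn : Z.Normal := by
    constructor
    intro x hx g
    have : g * x * g⁻¹ = x := by
      rcases (memZ x).1 hx with rfl | rfl
      · simp
      · rw [zcen]; group
    rw [this]; exact hx
  have hZc : Nat.card Z = 2 := by
    rw [hZ, Nat.card_zpowers]
    exact orderOf_eq_prime (by rw [pow_two]; exact hz.sq) hz.ne
  have hZH : Z ≤ H := (Subgroup.zpowers_le).2 hz.mem
  let π : G →* G ⧸ Z := QuotientGroup.mk' Z
  have hπ : ∀ a b : G, π a = π b ↔ b = a ∨ b = a * z := by
    intro a b
    have h1 : π a = π b ↔ a⁻¹ * b ∈ Z := QuotientGroup.eq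
    rw [h1, memZ, inv_mul_eq_one, inv_mul_eq_iff_eq_mul]
    constructor
    · rintro (h | h)
      · exact Or.inl h.symm
      · exact Or.inr h
    · rintro (h | h)
      · exact Or.inl h.symm
      · exact Or.inr h
  set W : Subgroup (G ⧸ Z) := H.map π with hW
  have hWn : W.Normal := hHn.map π (QuotientGroup.mk'_surjective Z)
  have hcomap : W.comap π = H := by
    rw [hW, Subgroup.comap_map_eq, show π.ker = Z from QuotientGroup.ker_mk' Z]
    exact sup_eq_left.2 hZH
  have hXc : Nat.card (G ⧸ Z) = 160 := by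
    have := Subgroup.card_eq_card_quotient_mul_card_subgroup Z
    rw [hG, hZc] at this; omega
  have hcm : ∀ L : Subgroup (G ⧸ Z), Nat.card (L.comap π) = 2 * Nat.card L := by
    intro L
    have := Cfsg.Agent.H1.Hall.card_comap_mk Z L
    rw [hZc] at this
    rw [mul_comm]
    first
      | exact this
      | (rw [mul_comm]; exact this)
  have hWc : Nat.card W = 16 := by
    have := hcm W
    rw [hcomap, h32] at this; omega
  have hTT : T * T = 1 := by rw [← pow_two, ← hT]; exact pow_orderOf_eq_one T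
  have hW1 : ∀ a ∈ W, ∀ b ∈ W, a * b = b * a := by
    rintro _ ⟨a, ha, rfl⟩ _ ⟨b, hb, rfl⟩
    rw [← map_mul, ← map_mul]
    rcases hz.comm a ha b hb with h | h
    · rw [h]
    · symm
      rw [hπ]; right; rw [h, zcen]
  have hW2 : ∀ a ∈ W, a * a = 1 := by
    rintro _ ⟨a, ha, rfl⟩
    rw [← map_mul, ← map_one π]
    symm
    rw [hπ]
    rcases hz.sqr a ha with h | h
    · left; exact h
    · right; rw [h, one_mul]
  have hK : ∀ g : G ⧸ Z, (∀ w ∈ W, g * w = w * g) → g ∈ W := by
    intro g hg
    set K : Subgroup G := (Subgroup.centralizer (W : Set (G ⧸ Z))).comap π with hKdef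
    have hKn : K.Normal := by
      have : (Subgroup.centralizer (W : Set (G ⧸ Z))).Normal := inferInstance
      exact this.comap π
    have hKs : ∀ k ∈ K, ∀ h ∈ H, k * h = h * k ∨ k * h = h * k * z := by
      intro k hk h hh
      have h1 := (Subgroup.mem_centralizer_iff.1 hk) (π h) ⟨h, hh, rfl⟩
      rw [← map_mul, ← map_mul, hπ] at h1
      exact h1
    have hKp : IsPGroup 2 K := by
      rintro ⟨k, hk⟩
      have h1 : k * k ∈ Subgroup.centralizer (H : Set G) := by
        rw [Subgroup.mem_centralizer_iff]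
        intro h hh
        symm
        rcases hKs k hk h hh with h2 | h2
        · rw [mul_assoc, h2, ← mul_assoc, h2, mul_assoc]
        · calc k * k * h = k * (k * h) := mul_assoc _ _ _
            _ = k * (h * k * z) := by rw [h2]
            _ = (k * h) * (k * z) := by simp only [mul_assoc]
            _ = (h * k * z) * (k * z) := by rw [h2]
            _ = h * k * (z * k) * z := by simp only [mul_assoc]
            _ = h * k * (k * z) * z := by rw [← zcen k]
            _ = h * (k * k) * (z * z) := by simp only [mul_assoc]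
            _ = _ := by rw [hz.sq, mul_one]
      obtain ⟨n, hn⟩ := hHp ⟨k * k, hcent h1⟩
      refine ⟨n + 1, ?_⟩
      apply Subtype.ext
      show k ^ 2 ^ (n + 1) = 1
      have h3 : (k * k) ^ 2 ^ n = 1 := congrArg Subtype.val hn
      rw [pow_succ, mul_comm, pow_mul, pow_two]; exact h3
    have hKH : K ≤ H := hlePC K hKn hKp
    obtain ⟨g, rfl⟩ := QuotientGroup.mk'_surjective Z g
    refine ⟨g, hKH ?_, rfl⟩
    show π g ∈ Subgroup.centralizer (W : Set (G ⧸ Z))
    rw [Subgroup.mem_centralizer_iff]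
    intro w hw
    exact (hg w hw).symm
  have hTT' : π T * π T = 1 := by rw [← map_mul, hTT, map_one]
  have hTW : π T ∉ W := by
    intro h
    apply hTH
    rw [← hcomap]; exact h
  obtain ⟨m1, m2⟩ := Cfsg.Agent.H19.X320.main hXc hWn hWc hW1 hW2 hK hTT' hTW
  set C : Subgroup G := H ⊓ Subgroup.centralizer ({T} : Set G) with hC
  have hCmem : ∀ x, x ∈ C ↔ x ∈ H ∧ x * T = T * x := by
    intro x; rw [hC, Subgroup.mem_inf, Subgroup.mem_centralizer_singleton_iff]
  set E0 : Subgroup G := (W ⊓ Subgroup.centralizer ({π T} : Set (G ⧸ Z))).comap π with hE0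
  have hE0c : Nat.card E0 = 8 := by rw [hE0, hcm, m1]
  have hCE : C ≤ E0 := by
    intro x hx
    rw [hE0, Subgroup.mem_comap, Subgroup.mem_inf, Subgroup.mem_centralizer_singleton_iff]
    refine ⟨⟨x, ((hCmem x).1 hx).1, rfl⟩, ?_⟩
    rw [← map_mul, ← map_mul, ((hCmem x).1 hx).2]
  have h1 : Nat.card C ∣ 8 := by rw [← hE0c]; exact Subgroup.card_dvd_of_le hCE
  have h2 : 4 ≤ Nat.card C := by rw [← hV4]; exact Subgroup.card_le_of_le hV
  have h3 : Nat.card C ≠ 8 := by
    intro h8
    have hCE' : C = E0 := Subgroup.eq_of_le_of_card_ge hCE (by rw [h8, hE0c])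
    have hsq : ∀ e ∈ C, e * e = 1 := by
      intro e he
      have he1 := (hCmem e).1 he
      obtain ⟨x, ⟨y, hy, rfl⟩, hx⟩ := m2 (π e) ⟨e, he1.1, rfl⟩ (by rw [← map_mul, ← map_mul, he1.2])
      rw [← map_inv, ← map_inv, ← map_mul, ← map_mul, ← map_mul] at hx
      set c : G := y * (T * y⁻¹ * T⁻¹) with hc
      have hcC : c ∈ C := by
        rw [hCE', hE0, Subgroup.mem_comap, ← hx]
        rw [hCE', hE0, Subgroup.mem_comap] at he
        exact he
      have hcT := ((hCmem c).1 hcC).2
      have hTi : T⁻¹ = T := inv_eq_of_mul_eq_one_left hTT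
      have hcc : c * c = 1 := by
        have h4 : T * c * T⁻¹ = c⁻¹ := by
          have e1 : T * c * T⁻¹ = T * y * (T * y⁻¹ * (T⁻¹ * T⁻¹)) := by rw [hc]; simp only [mul_assoc]
          have e2 : c⁻¹ = T * y * T⁻¹ * y⁻¹ := by rw [hc]; group
          rw [e1, e2, hTi, hTT, mul_one]; simp only [mul_assoc]
        rw [← hcT] at h4
        have h5 : c = c⁻¹ := by
          have : c * T * T⁻¹ = c := by group
          rw [this] at h4; exact h4
        nth_rw 2 [h5]; group
      rcases (hπ c e).1 hx.symm with h | h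
      · rw [h]; exact hcc
      · have : c * z * (c * z) = c * c * (z * z) := by
          calc c * z * (c * z) = c * (z * c) * z := by simp only [mul_assoc]
            _ = c * (c * z) * z := by rw [← zcen c]
            _ = _ := by simp only [mul_assoc]
        rw [h, this, hcc, hz.sq, mul_one]
    have hCea : Cfsg.IsElementaryAbelian 2 C := by
      refine ⟨⟨⟨fun a b => ?_⟩⟩, fun a ha => by rw [pow_two]; exact hsq a ha⟩
      apply Subtype.ext
      show (a : G) * b = b * a
      have ha := hsq a a.2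
      have hb := hsq b b.2
      have hab := hsq (a * b) (C.mul_mem a.2 b.2)
      have e1 : (a : G)⁻¹ = a := inv_eq_of_mul_eq_one_left ha
      have e2 : (b : G)⁻¹ = b := inv_eq_of_mul_eq_one_left hb
      have e3 : ((a : G) * b)⁻¹ = a * b := inv_eq_of_mul_eq_one_left hab
      rw [← e3, mul_inv_rev, e1, e2]
    have := hminus C inf_le_left hCea
    omega
  have h4 : Nat.card C = 4 := by
    have : Nat.card C ≤ 8 := Nat.le_of_dvd (by norm_num) h1
    interval_cases hcc : Nat.card C <;> omega
  refine ⟨h4, ?_⟩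
  have h5 : V = C := Subgroup.eq_of_le_of_card_ge hV (by rw [h4, hV4])
  rw [← h5]; exact hVe

end Cfsg.Agent.S4405
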