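import Cfsg.Statements.S4406
import Cfsg.Agent.H24_Tools
import Cfsg.Agent.H2_Card


set_option autoImplicit false
open Cfsg

namespace Cfsg.Agent.S4406

open Subgroup

abbrev A4 := ↥(alternatingGroup (Fin 4))

set_option maxRecDepth 100000 in
theorem F1 : ∀ c : A4, c ^ 4 = 1 → c ^ 2 = 1 := by decide +kernel

set_option maxRecDepth 100000 in
set_option synthInstance.maxHeartbeats 400000 in
set_option synthInstance.maxSize 2000 in
theorem F2 : ∀ a : A4, a ^ 3 = 1 → a ≠ 1 → ∀ v : A4, v ^ 2 = 1 → v ≠ 1 → ∀ w : A4, w ^ 2 = 1 → w ≠ 1 →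
    w = v ∨ w = a * v * a⁻¹ ∨ w = a⁻¹ * v * a := by decide +kernel

set_option maxRecDepth 100000 in
theorem F3 : ∀ a : A4, a ^ 3 = 1 → a ≠ 1 → ∀ v : A4, v ^ 2 = 1 →
    a * (a * v * a⁻¹) * a⁻¹ = v * (a * v * a⁻¹) := by decide +kernel

theorem cardA4 : Nat.card A4 = 12 := by
  have := two_mul_nat_card_alternatingGroup (α := Fin 4)
  rw [Nat.card_perm, Nat.card_fin] at this
  have h : Nat.factorial 4 = 24 := by decide
  rw [h] at this
  change 2 * Nat.card A4 = 24 at this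
  omega

/-- In the direct product P = A₄ × A₄, let X be the Sylow 2-subgroup, X₁ and X₂ its intersections with the two direct factors, Q a Sylow 3-subgroup and Q₁, Q₂ its intersections with the two factors. Then every subgroup B of X of order 4 either meets X₁ or X₂ nontrivially, or is normalized by one of the two subgroups of Q of order 3 other than Q₁ and Q₂. -/
theorem result
    (X : Sylow 2 (↥(alternatingGroup (Fin 4)) × ↥(alternatingGroup (Fin 4))))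
    (Q : Sylow 3 (↥(alternatingGroup (Fin 4)) × ↥(alternatingGroup (Fin 4))))
    (B : Subgroup (↥(alternatingGroup (Fin 4)) × ↥(alternatingGroup (Fin 4)))) (hBX : B ≤ (X : Subgroup _)) (hB4 : Nat.card ↥B = 4) :
    B ⊓ ((X : Subgroup _) ⊓ Subgroup.prod ⊤ ⊥) ≠ ⊥ ∨ B ⊓ ((X : Subgroup _) ⊓ Subgroup.prod ⊥ ⊤) ≠ ⊥ ∨
      ∃ R : Subgroup (↥(alternatingGroup (Fin 4)) × ↥(alternatingGroup (Fin 4))), R ≤ (Q : Subgroup _) ∧ Nat.card ↥R = 3 ∧
        R ≠ (Q : Subgroup _) ⊓ Subgroup.prod ⊤ ⊥ ∧ R ≠ (Q : Subgroup _) ⊓ Subgroup.prod ⊥ ⊤ ∧ R ≤ Subgroup.normalizer (B : Set _) := by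

  classical
  by_contra hcon
  push Not at hcon
  obtain ⟨h1, h2, h3⟩ := hcon
  have cardP : Nat.card (A4 × A4) = 144 := by rw [Nat.card_prod, cardA4]
  -- elements of X
  have hX : ∀ x ∈ (X : Subgroup (A4 × A4)), x.1 ^ 2 = 1 ∧ x.2 ^ 2 = 1 := by
    intro x hx
    obtain ⟨k, hk⟩ := IsPGroup.iff_orderOf.1 X.isPGroup' ⟨x, hx⟩
    rw [← orderOf_coe] at hk
    change orderOf x = 2 ^ k at hk
    have hd : 2 ^ k ∣ 144 := by rw [← hk, ← cardP]; exact orderOf_dvd_natCard x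
    have hgen : ∀ y : A4, y ^ 2 ^ k = 1 → y ^ 2 = 1 := by
      intro y hy
      apply F1
      have e1 := orderOf_dvd_of_pow_eq_one hy
      have e2 : orderOf y ∣ 12 := by rw [← cardA4]; exact orderOf_dvd_natCard y
      obtain ⟨j, hj, hj'⟩ := (Nat.dvd_prime_pow Nat.prime_two).1 e1
      have hj2 : j ≤ 2 := by
        by_contra hlt
        have : 2 ^ 3 ∣ 12 := (pow_dvd_pow 2 (by omega)).trans (hj' ▸ e2)
        exact absurd this (by decide)
      apply orderOf_dvd_iff_pow_eq_one.1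
      rw [hj']
      exact pow_dvd_pow 2 hj2
    have hxk : x ^ 2 ^ k = 1 := by rw [← hk, pow_orderOf_eq_one]
    exact ⟨hgen _ (congrArg Prod.fst hxk), hgen _ (congrArg Prod.snd hxk)⟩
  -- Q
  have hQc : Nat.card (Q : Subgroup (A4 × A4)) = 9 := by
    rw [Q.card_eq_multiplicity, cardP]
    have h24 : (144 : ℕ) = 2 ^ 4 * 3 ^ 2 := by norm_num
    rw [h24, Nat.factorization_mul (by norm_num) (by norm_num), Nat.Prime.factorization_pow Nat.prime_two,
      Nat.Prime.factorization_pow (by norm_num : Nat.Prime 3)]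
    simp
  have hsm : ∀ f : (A4 × A4) →* A4, Nat.card ((Q : Subgroup (A4 × A4)).map f) ≤ 3 := by
    intro f
    obtain ⟨k, hk⟩ := IsPGroup.iff_card.1 (Q.isPGroup'.map f)
    rw [hk]
    have hd : 3 ^ k ∣ 12 := by rw [← hk, ← cardA4]; exact card_subgroup_dvd_card _
    have : k ≤ 1 := by
      by_contra hlt
      have : 3 ^ 2 ∣ 12 := (pow_dvd_pow 3 (by omega)).trans hd
      exact absurd this (by decide)
    calc 3 ^ k ≤ 3 ^ 1 := Nat.pow_le_pow_right (by norm_num) this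
      _ = 3 := by norm_num
  have hker : ∀ f : (A4 × A4) →* A4, ∃ q ∈ (Q : Subgroup (A4 × A4)), f q = 1 ∧ q ≠ 1 := by
    intro f
    by_contra hc
    push Not at hc
    have hinj : Function.Injective (f.comp (Q : Subgroup (A4 × A4)).subtype) := by
      rw [injective_iff_map_eq_one]
      intro q hq
      exact Subtype.ext (hc q q.2 hq)
    have e1 := Nat.card_range_of_injective hinj
    have e2 : Set.range (f.comp (Q : Subgroup (A4 × A4)).subtype) = ((Q : Subgroup (A4 × A4)).map f : Set A4) := by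
      ext y
      constructor
      · rintro ⟨q, rfl⟩; exact ⟨q, q.2, rfl⟩
      · rintro ⟨q, hq, rfl⟩; exact ⟨⟨q, hq⟩, rfl⟩
    rw [e2, hQc] at e1
    have e3 := hsm f
    have e4 : Nat.card ((Q : Subgroup (A4 × A4)).map f : Set A4) = Nat.card ((Q : Subgroup (A4 × A4)).map f) := rfl
    omega
  have hQ3 : ∀ q ∈ (Q : Subgroup (A4 × A4)), q.1 ^ 3 = 1 ∧ q.2 ^ 3 = 1 := by
    have hgen : ∀ f : (A4 × A4) →* A4, ∀ q ∈ (Q : Subgroup (A4 × A4)), f q ^ 3 = 1 := by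
      intro f q hq
      have e1 : f q ∈ (Q : Subgroup (A4 × A4)).map f := ⟨q, hq, rfl⟩
      obtain ⟨k, hk⟩ := IsPGroup.iff_card.1 (Q.isPGroup'.map f)
      have e2 := hsm f
      rw [hk] at e2
      have hk1 : k ≤ 1 := by
        by_contra hlt
        have : 3 ^ 2 ≤ 3 ^ k := Nat.pow_le_pow_right (by norm_num) (by omega)
        omega
      have e3 := orderOf_dvd_natCard (⟨f q, e1⟩ : (Q : Subgroup (A4 × A4)).map f)
      rw [hk, ← orderOf_coe] at e3
      apply orderOf_dvd_iff_pow_eq_one.1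
      exact e3.trans ((pow_dvd_pow 3 hk1).trans (by norm_num))
    intro q hq
    exact ⟨hgen (MonoidHom.fst _ _) q hq, hgen (MonoidHom.snd _ _) q hq⟩
  obtain ⟨qa, hqa, hqa2, hqa1⟩ := hker (MonoidHom.snd _ _)
  obtain ⟨qb, hqb, hqb1, hqb2⟩ := hker (MonoidHom.fst _ _)
  obtain ⟨a, a'⟩ := qa
  obtain ⟨b', b⟩ := qb
  have ha' : a' = 1 := hqa2
  have hb' : b' = 1 := hqb1
  subst ha' hb'
  have ha1 : a ≠ 1 := fun h => hqa1 (by rw [h]; rfl)
  have hb1 : b ≠ 1 := fun h => hqb2 (by rw [h]; rfl)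
  have ha3 : a ^ 3 = 1 := (hQ3 _ hqa).1
  have hb3 : b ^ 3 = 1 := (hQ3 _ hqb).2
  -- injectivity
  have hB1 : ∀ x ∈ B, x.2 = 1 → x = 1 := by
    intro x hx hx2
    have : x ∈ B ⊓ ((X : Subgroup (A4 × A4)) ⊓ Subgroup.prod ⊤ ⊥) := by
      refine mem_inf.2 ⟨hx, mem_inf.2 ⟨hBX hx, ?_⟩⟩
      rw [mem_prod]
      exact ⟨mem_top _, by rw [mem_bot]; exact hx2⟩
    rw [h1, mem_bot] at this
    exact this
  have hB2 : ∀ x ∈ B, x.1 = 1 → x = 1 := by
    intro x hx hx2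
    have : x ∈ B ⊓ ((X : Subgroup (A4 × A4)) ⊓ Subgroup.prod ⊥ ⊤) := by
      refine mem_inf.2 ⟨hx, mem_inf.2 ⟨hBX hx, ?_⟩⟩
      rw [mem_prod]
      exact ⟨by rw [mem_bot]; exact hx2, mem_top _⟩
    rw [h2, mem_bot] at this
    exact this
  -- two elements of B
  obtain ⟨β, hβ, hβ1⟩ : ∃ β ∈ B, β ≠ 1 := by
    by_contra hc
    push Not at hc
    have : B = ⊥ := by rw [eq_bot_iff]; intro x hx; rw [mem_bot]; exact hc x hx
    rw [this, card_bot] at hB4
    exact absurd hB4 (by norm_num)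
  obtain ⟨γ, hγ, hγ1, hγβ⟩ : ∃ γ ∈ B, γ ≠ 1 ∧ γ ≠ β := by
    by_contra hc
    push Not at hc
    have e1 : (B : Set (A4 × A4)) ⊆ {1, β} := by
      intro x hx
      by_cases hx1 : x = 1
      · rw [hx1]; exact Set.mem_insert _ _
      · rw [hc x hx hx1]; exact Set.mem_insert_of_mem _ rfl
    have e2 := Set.ncard_le_ncard e1
    have e3 : (B : Set (A4 × A4)).ncard = 4 := (Nat.card_coe_set_eq (B : Set (A4 × A4))).symm.trans hB4
    have e4 : ({1, β} : Set (A4 × A4)).ncard ≤ 2 := Set.ncard_insert_le _ _ |>.trans (by rw [Set.ncard_singleton])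
    omega
  obtain ⟨v, w⟩ := β
  obtain ⟨v', w'⟩ := γ
  have hv := (hX _ (hBX hβ)).1
  have hw := (hX _ (hBX hβ)).2
  have hv' := (hX _ (hBX hγ)).1
  have hw' := (hX _ (hBX hγ)).2
  have hv1 : v ≠ 1 := fun h => hβ1 (hB2 _ hβ h)
  have hw1 : w ≠ 1 := fun h => hβ1 (hB1 _ hβ h)
  have hv1' : v' ≠ 1 := fun h => hγ1 (hB2 _ hγ h)
  have hw1' : w' ≠ 1 := fun h => hγ1 (hB1 _ hγ h)
  have hvv : v' ≠ v := by
    intro h
    have e1 : ((v', w') : A4 × A4) * (v, w)⁻¹ ∈ B := mul_mem hγ (inv_mem hβ)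
    have e2 := hB2 _ e1 (by change v' * v⁻¹ = 1; rw [h, mul_inv_cancel])
    rw [mul_inv_eq_one] at e2
    exact hγβ e2
  have hww : w' ≠ w := by
    intro h
    have e1 : ((v', w') : A4 × A4) * (v, w)⁻¹ ∈ B := mul_mem hγ (inv_mem hβ)
    have e2 := hB1 _ e1 (by change w' * w⁻¹ = 1; rw [h, mul_inv_cancel])
    rw [mul_inv_eq_one] at e2
    exact hγβ e2
  obtain ⟨c, hc1, hc3, hcQ, hcv⟩ : ∃ c : A4, c ≠ 1 ∧ c ^ 3 = 1 ∧ ((c, 1) : A4 × A4) ∈ (Q : Subgroup (A4 × A4)) ∧ v' = c * v * c⁻¹ := by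
    rcases F2 a ha3 ha1 v hv hv1 v' hv' hv1' with h | h | h
    · exact absurd h hvv
    · exact ⟨a, ha1, ha3, hqa, h⟩
    · refine ⟨a⁻¹, inv_ne_one.2 ha1, by rw [inv_pow, ha3, inv_one], ?_, by rw [inv_inv]; exact h⟩
      have := inv_mem hqa
      have e : ((a, 1) : A4 × A4)⁻¹ = (a⁻¹, 1) := by rw [Prod.inv_mk, inv_one]
      rwa [e] at this
  obtain ⟨d, hd1, hd3, hdQ, hdw⟩ : ∃ d : A4, d ≠ 1 ∧ d ^ 3 = 1 ∧ ((1, d) : A4 × A4) ∈ (Q : Subgroup (A4 × A4)) ∧ w' = d * w * d⁻¹ := by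
    rcases F2 b hb3 hb1 w hw hw1 w' hw' hw1' with h | h | h
    · exact absurd h hww
    · exact ⟨b, hb1, hb3, hqb, h⟩
    · refine ⟨b⁻¹, inv_ne_one.2 hb1, by rw [inv_pow, hb3, inv_one], ?_, by rw [inv_inv]; exact h⟩
      have := inv_mem hqb
      have e : ((1, b) : A4 × A4)⁻¹ = (1, b⁻¹) := by rw [Prod.inv_mk, inv_one]
      rwa [e] at this
  set t : A4 × A4 := (c, d) with ht
  have htQ : t ∈ (Q : Subgroup (A4 × A4)) := by
    have := mul_mem hcQ hdQ
    have e : ((c, 1) : A4 × A4) * (1, d) = (c, d) := by rw [Prod.mk_mul_mk, mul_one, one_mul]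
    rwa [e] at this
  have ht3 : t ^ 3 = 1 := by rw [ht, Prod.pow_mk, hc3, hd3]; rfl
  have ht1 : t ≠ 1 := fun h => hc1 (congrArg Prod.fst h)
  have hto : orderOf t = 3 := orderOf_eq_prime ht3 ht1
  have hc1' : t * (v, w) * t⁻¹ = (v', w') := by
    rw [ht, Prod.inv_mk, Prod.mk_mul_mk, Prod.mk_mul_mk, ← hcv, ← hdw]
  have hc2' : t * (v', w') * t⁻¹ = (v, w) * (v', w') := by
    rw [ht, Prod.inv_mk, Prod.mk_mul_mk, Prod.mk_mul_mk, Prod.mk_mul_mk, hcv, hdw, F3 c hc3 hc1 v hv, F3 d hd3 hd1 w hw]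
  have hBset : (B : Set (A4 × A4)) = {1, (v, w), (v', w'), (v, w) * (v', w')} := by
    symm
    apply Set.eq_of_subset_of_ncard_le
    · rintro x (rfl | rfl | rfl | rfl)
      · exact one_mem _
      · exact hβ
      · exact hγ
      · exact mul_mem hβ hγ
    · have e3 : (B : Set (A4 × A4)).ncard = 4 := (Nat.card_coe_set_eq (B : Set (A4 × A4))).symm.trans hB4
      rw [e3]
      have q1 : ({(v', w'), (v, w) * (v', w')} : Set (A4 × A4)).ncard = 2 :=
        Set.ncard_pair (fun h => hβ1 (mul_eq_right.1 h.symm))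
      have q2 : ({(v, w), (v', w'), (v, w) * (v', w')} : Set (A4 × A4)).ncard = 3 := by
        rw [Set.ncard_insert_of_notMem, q1]
        rintro (h | h)
        · exact hγβ h.symm
        · exact hγ1 (mul_eq_left.1 h.symm)
      rw [Set.ncard_insert_of_notMem, q2]
      rintro (h | h | h)
      · exact hβ1 h.symm
      · exact hγ1 h.symm
      · have e5 : ((v', w') : A4 × A4) = (v, w)⁻¹ := eq_inv_of_mul_eq_one_right h.symm
        have e6 : ((v, w) : A4 × A4)⁻¹ = (v, w) := by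
          rw [inv_eq_iff_mul_eq_one, Prod.mk_mul_mk, ← pow_two, ← pow_two, hv, hw]; rfl
        rw [e6] at e5
        exact hγβ e5
    · exact Set.toFinite _
  apply h3 (zpowers t) (by rw [zpowers_le]; exact htQ) (by rw [Nat.card_zpowers, hto])
  · intro h
    have : t ∈ (Q : Subgroup (A4 × A4)) ⊓ Subgroup.prod ⊤ ⊥ := by rw [← h]; exact mem_zpowers t
    have e1 := (mem_prod.1 (mem_inf.1 this).2).2
    rw [mem_bot] at e1
    exact hd1 e1
  · intro h
    have : t ∈ (Q : Subgroup (A4 × A4)) ⊓ Subgroup.prod ⊥ ⊤ := by rw [← h]; exact mem_zpowers t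
    have e1 := (mem_prod.1 (mem_inf.1 this).2).1
    rw [mem_bot] at e1
    exact hc1 e1
  · rw [zpowers_le]
    apply H24.Tools.mem_normalizer
    intro y hy
    have hy' : y ∈ (B : Set (A4 × A4)) := hy
    rw [hBset] at hy'
    rcases hy' with h | h | h | h
    · rw [h]; simp
    · rw [h, hc1']; exact hγ
    · rw [h, hc2']; exact mul_mem hβ hγ
    · rw [h]
      have : t * ((v, w) * (v', w')) * t⁻¹ = (t * (v, w) * t⁻¹) * (t * (v', w') * t⁻¹) := by group
      rw [this, hc1', hc2']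
      exact mul_mem hγ (mul_mem hβ hγ)


end Cfsg.Agent.S4406
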