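import Cfsg.Statements.S4407
import Cfsg.Agent.H24_D8Mod
-- import your own Cfsg.Agent.* helpers here

set_option autoImplicit false
open Cfsg

namespace Cfsg.Agent.S4407


open Cfsg.Agent.H24.D8Mod Subgroup

/-- Let S be a finite group with a normal elementary abelian subgroup A of order 9 that is self-centralizing (C_S(A) = A), and a dihedral subgroup X of order 8 with S = AX. Let M be a finite-dimensional module for S over the field with two elements that is faithful and irreducible. Then M has 16 elements, and X contains exactly one subgroup B of order 4 and exponent 2 whose fixed points on M form a subspace with exactly 2 elements (equivalently, M is free of rank one over the group algebra of B). -/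
theorem result {S : Type*} [Group S] [Finite S]
    (A : Subgroup S) [A.Normal] (hA : Cfsg.IsElementaryAbelian 3 A) (hA9 : Nat.card ↥A = 9)
    (hAC : Subgroup.centralizer (A : Set S) = A) (X : Subgroup S) (hX : Nonempty (↥X ≃* DihedralGroup 4)) (hAX : A ⊔ X = ⊤)
    {M : Type*} [AddCommGroup M] [Module (ZMod 2) M] [Finite M] (ρ : Representation (ZMod 2) S M)
    (hfaith : Function.Injective ρ)
    (hirr : ∀ N : Submodule (ZMod 2) M, (∀ s : S, ∀ m ∈ N, ρ s m ∈ N) → N = ⊥ ∨ N = ⊤) (hM : Nontrivial M) :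
    Nat.card M = 16 ∧
      ∃! B : Subgroup S, B ≤ X ∧ Nat.card ↥B = 4 ∧ (∀ b ∈ B, b ^ 2 = 1) ∧
        Nat.card {m : M // ∀ b ∈ B, ρ b m = m} = 2 := by
  classical
  obtain ⟨e⟩ := hX
  let ψ : DihedralGroup 4 →* S := X.subtype.comp e.symm.toMonoidHom
  have hψ : Function.Injective ψ := X.subtype_injective.comp e.symm.injective
  have hψX : ∀ g, ψ g ∈ X := fun g => (e.symm g).2
  have hXψ : ∀ x ∈ X, ∃ g, ψ g = x := fun x hx => ⟨e ⟨x, hx⟩, by
    change ((e.symm (e ⟨x, hx⟩) : X) : S) = x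
    rw [e.symm_apply_apply]⟩
  obtain ⟨a, ha⟩ : ∃ a, a = ψ (DihedralGroup.sr 0) := ⟨_, rfl⟩
  obtain ⟨b, hb⟩ : ∃ b, b = ψ (DihedralGroup.sr 1) := ⟨_, rfl⟩
  obtain ⟨z, hz⟩ : ∃ z, z = ψ (DihedralGroup.r 2) := ⟨_, rfl⟩
  have haa : a * a = 1 := by rw [ha, ← map_mul, ← map_one ψ]; congr 1
  have hbb : b * b = 1 := by rw [hb, ← map_mul, ← map_one ψ]; congr 1
  have hzz : z * z = 1 := by rw [hz, ← map_mul, ← map_one ψ]; congr 1
  have hza : z * a = a * z := by rw [ha, hz, ← map_mul, ← map_mul]; congr 1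
  have hzb : z * b = b * z := by rw [hb, hz, ← map_mul, ← map_mul]; congr 1
  have hab : a * b = b * (a * z) := by rw [ha, hb, hz, ← map_mul, ← map_mul, ← map_mul]; congr 1
  have hz1 : z ≠ 1 := by
    rw [hz, ← map_one ψ]
    intro h
    exact absurd (hψ h) (by decide)
  have hAc : ∀ x ∈ A, ∀ y ∈ A, x * y = y * x := fun x hx y hy => by
    have := hA.1.is_comm.comm (⟨x, hx⟩ : A) ⟨y, hy⟩
    exact congrArg Subtype.val this
  obtain ⟨x₁, x₂, hR, hcl⟩ := exists_rel A hAc hA.2 hA9 hAC a b z haa hbb hzz hza hzb hab hz1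
  have hXcl : X ≤ closure {a, b} := by
    intro x hx
    obtain ⟨g, rfl⟩ := hXψ x hx
    have h1 := mem_closure_ab g
    have h2 : ψ g ∈ (closure {(DihedralGroup.sr 0 : DihedralGroup 4), DihedralGroup.sr 1}).map ψ := mem_map_of_mem ψ h1
    rw [MonoidHom.map_closure, Set.image_pair, ← ha, ← hb] at h2
    exact h2
  have hgen' : ∀ y₁ y₂ c d : S, x₁ ∈ closure {y₁, y₂, c, d} → x₂ ∈ closure {y₁, y₂, c, d} → a ∈ closure {y₁, y₂, c, d} →
      b ∈ closure {y₁, y₂, c, d} → closure {y₁, y₂, c, d} = (⊤ : Subgroup S) := by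
    intro y₁ y₂ c d h1 h2 h3 h4
    rw [eq_top_iff, ← hAX, sup_le_iff]
    constructor
    · rw [← hcl, closure_le]
      rintro x (rfl | rfl)
      · exact h1
      · exact h2
    · refine hXcl.trans ?_
      rw [closure_le]
      rintro x (rfl | rfl)
      · exact h3
      · exact h4
  -- fixed points of `A`
  have hC : ∀ m, ρ x₁ m = m → ρ x₂ m = m → m = 0 := by
    have hmul : ∀ (g h : S) (m : M), ρ g (ρ h m) = ρ (g * h) m := fun g h m => by rw [map_mul]; rfl
    let N : Submodule (ZMod 2) M :=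
      { carrier := {m | ∀ x ∈ A, ρ x m = m}
        zero_mem' := fun x _ => map_zero _
        add_mem' := fun {m n} hm hn x hx => by rw [map_add, hm x hx, hn x hx]
        smul_mem' := fun c m hm x hx => by rw [map_smul, hm x hx] }
    have hN : ∀ s : S, ∀ m ∈ N, ρ s m ∈ N := by
      intro s m hm x hx
      have h1 := hm (s⁻¹ * x * s) (by
        have := Subgroup.Normal.conj_mem (inferInstance : A.Normal) x hx s⁻¹
        rwa [inv_inv] at this)
      rw [hmul]
      have e1 : x * s = s * (s⁻¹ * x * s) := by group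
      rw [e1, ← hmul, h1]
    have hNbot : N = ⊥ := by
      refine (hirr N hN).resolve_right (fun h => ?_)
      have h1 : A = ⊥ := by
        rw [Subgroup.eq_bot_iff_forall]
        intro x hx
        apply hfaith
        rw [map_one]
        ext m
        have : m ∈ N := by rw [h]; trivial
        exact this x hx
      rw [h1, Subgroup.card_bot] at hA9
      norm_num at hA9
    intro m h1 h2
    have h3 : m ∈ N := by
      intro x hx
      rw [← hcl] at hx
      induction hx using closure_induction with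
      | mem x hx =>
        rcases hx with rfl | rfl
        · exact h1
        · exact h2
      | one => rw [map_one]; rfl
      | mul x y _ _ hx hy => rw [← hmul, hy, hx]
      | inv x _ hx =>
        have := congrArg (ρ x⁻¹) hx
        rw [hmul, inv_mul_cancel, map_one] at this
        exact this.symm
    rw [hNbot] at h3
    exact (Submodule.mem_bot _).1 h3
  -- the two cases
  have final : ∀ D E : Subgroup (DihedralGroup 4), Nat.card D = 4 → (∀ g ∈ D, g ^ 2 = 1) →
      (∀ B : Subgroup (DihedralGroup 4), Nat.card B = 4 → (∀ g ∈ B, g ^ 2 = 1) → B = D ∨ B = E) →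
      Nat.card {m : M // ∀ b ∈ D.map ψ, ρ b m = m} = 2 → Nat.card {m : M // ∀ b ∈ E.map ψ, ρ b m = m} = 4 →
      ∃! B : Subgroup S, B ≤ X ∧ Nat.card ↥B = 4 ∧ (∀ b ∈ B, b ^ 2 = 1) ∧
        Nat.card {m : M // ∀ b ∈ B, ρ b m = m} = 2 := by
    intro D E hD hD2 hall h1 h2
    refine ⟨D.map ψ, ⟨?_, ?_, ?_, h1⟩, ?_⟩
    · rintro _ ⟨g, _, rfl⟩
      exact hψX g
    · exact (Nat.card_congr (D.equivMapOfInjective ψ hψ).symm.toEquiv).trans hD
    · rintro _ ⟨g, hg, rfl⟩
      rw [← map_pow, hD2 g hg, map_one]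
    · rintro B ⟨hB1, hB2, hB3, hB4⟩
      have hBmap : (B.comap ψ).map ψ = B := by
        apply le_antisymm (map_comap_le _ _)
        intro x hx
        obtain ⟨g, rfl⟩ := hXψ x (hB1 hx)
        exact mem_map_of_mem ψ hx
      have h3 : Nat.card (B.comap ψ) = 4 := by
        rw [Nat.card_congr ((B.comap ψ).equivMapOfInjective ψ hψ).toEquiv, hBmap, hB2]
      rcases hall (B.comap ψ) h3 (fun g hg => by
        apply hψ
        rw [map_pow, map_one]
        exact hB3 _ hg) with h | h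
      · rw [← hBmap, h]
      · exfalso
        rw [← h, hBmap, hB4] at h2
        norm_num at h2
  have hfa : ∀ m : M, (∀ t ∈ Da.map ψ, ρ t m = m) ↔ (ρ a m = m ∧ ρ z m = m) := by
    intro m
    constructor
    · intro h
      exact ⟨h a ⟨_, Or.inr (Or.inr (Or.inl rfl)), ha.symm⟩, h z ⟨_, Or.inr (Or.inl rfl), hz.symm⟩⟩
    · rintro ⟨h1, h2⟩ _ ⟨g, hg, rfl⟩
      rcases mem_Da.1 hg with rfl | rfl | rfl | rfl
      · rw [map_one, map_one]; rfl
      · rw [← hz, h2]
      · rw [← ha, h1]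
      · have : (DihedralGroup.sr 2 : DihedralGroup 4) = DihedralGroup.sr 0 * DihedralGroup.r 2 := by decide
        rw [this, map_mul, ← ha, ← hz, map_mul]
        change ρ a (ρ z m) = m
        rw [h2, h1]
  have hfb : ∀ m : M, (∀ t ∈ Db.map ψ, ρ t m = m) ↔ (ρ b m = m ∧ ρ z m = m) := by
    intro m
    constructor
    · intro h
      exact ⟨h b ⟨_, Or.inr (Or.inr (Or.inl rfl)), hb.symm⟩, h z ⟨_, Or.inr (Or.inl rfl), hz.symm⟩⟩
    · rintro ⟨h1, h2⟩ _ ⟨g, hg, rfl⟩
      rcases mem_Db.1 hg with rfl | rfl | rfl | rfl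
      · rw [map_one, map_one]; rfl
      · rw [← hz, h2]
      · rw [← hb, h1]
      · have : (DihedralGroup.sr 3 : DihedralGroup 4) = DihedralGroup.sr 1 * DihedralGroup.r 2 := by decide
        rw [this, map_mul, ← hb, ← hz, map_mul]
        change ρ b (ρ z m) = m
        rw [h2, h1]
  have hca : Nat.card {m : M // ∀ t ∈ Da.map ψ, ρ t m = m} = Nat.card {m : M // ρ a m = m ∧ ρ z m = m} :=
    Nat.card_congr (Equiv.subtypeEquivRight hfa)
  have hcb : Nat.card {m : M // ∀ t ∈ Db.map ψ, ρ t m = m} = Nat.card {m : M // ρ b m = m ∧ ρ z m = m} :=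
    Nat.card_congr (Equiv.subtypeEquivRight hfb)
  have hDa2 : ∀ g ∈ Da, g ^ 2 = 1 := by
    intro g hg
    rcases mem_Da.1 hg with rfl | rfl | rfl | rfl <;> decide
  have hDb2 : ∀ g ∈ Db, g ^ 2 = 1 := by
    intro g hg
    rcases mem_Db.1 hg with rfl | rfl | rfl | rfl <;> decide
  rcases exists_v ρ hR with ⟨v, hv0, hv1⟩ | ⟨v, hv0, hv1⟩
  · obtain ⟨w, hw0, hw1, hwa, hwz⟩ := fixv ρ hR v hv0 hv1
    obtain ⟨k1, k2, k3⟩ := main ρ hR (hgen' _ _ _ _ (subset_closure (by simp)) (subset_closure (by simp))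
      (subset_closure (by simp)) (subset_closure (by simp))) hirr hC w hw0 hw1 hwa hwz
    refine ⟨k1, final Db Da card_Db hDb2 (fun B h1 h2 => (eq_Da_or B h1 h2).symm) ?_ ?_⟩
    · rw [hcb, k2]
    · rw [hca, k3]
  · obtain ⟨w, hw0, hw1, hwa, hwz⟩ := fixv ρ hR.swap v hv0 hv1
    have m1 : x₁ * x₂ ∈ closure {x₁ * x₂, x₁ * (x₂ * x₂), b, a} := subset_closure (by simp)
    have m2 : x₁ * (x₂ * x₂) ∈ closure {x₁ * x₂, x₁ * (x₂ * x₂), b, a} := subset_closure (by simp)
    have m3 : x₂ ∈ closure {x₁ * x₂, x₁ * (x₂ * x₂), b, a} := by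
      have := mul_mem (inv_mem m1) m2
      have e1 : (x₁ * x₂)⁻¹ * (x₁ * (x₂ * x₂)) = x₂ := by group
      rwa [e1] at this
    have m4 : x₁ ∈ closure {x₁ * x₂, x₁ * (x₂ * x₂), b, a} := by
      have := mul_mem m1 (inv_mem m3)
      rwa [mul_inv_cancel_right] at this
    have hC' : ∀ m, ρ (x₁ * x₂) m = m → ρ (x₁ * (x₂ * x₂)) m = m → m = 0 := by
      intro m h1 h2
      have hmul : ∀ (g h : S) (m : M), ρ g (ρ h m) = ρ (g * h) m := fun g h m => by rw [map_mul]; rfl
      have h3 : ρ x₂ m = m := by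
        have e1 : x₂ * (x₁ * x₂) = x₁ * (x₂ * x₂) := hR.xx' x₂
        rw [← e1, ← hmul, h1] at h2
        exact h2
      have h4 : ρ x₁ m = m := by
        rw [← hmul, h3] at h1
        exact h1
      exact hC m h4 h3
    obtain ⟨k1, k2, k3⟩ := main ρ hR.swap (hgen' _ _ _ _ m4 m3 (subset_closure (by simp)) (subset_closure (by simp)))
      hirr hC' w hw0 hw1 hwa hwz
    refine ⟨k1, final Da Db card_Da hDa2 (fun B h1 h2 => eq_Da_or B h1 h2) ?_ ?_⟩
    · rw [hca, k2]
    · rw [hcb, k3]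


end Cfsg.Agent.S4407
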