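import Cfsg.Statements.S4408
import Cfsg.Agent.H11_ThD3

set_option autoImplicit false
open Cfsg

namespace Cfsg.Agent.S4408

open Subgroup Cfsg.Agent.H11.ThD in
theorem main {S : Type*} [Group S] [Finite S]
    [Group.IsSolvable S] (hF : Odd (Nat.card ↥(Cfsg.fittingSubgroup S)))
    (I : Subgroup S) (hI : Cfsg.IsElementaryAbelian 2 I) (n : ℕ) (hIn : Nat.card ↥I = 2 ^ n) :
    ∃ f : Fin n → Subgroup S, (∀ i, (Nat.card ↥(f i)).Prime) ∧ (∀ i, f i ≤ Cfsg.fittingSubgroup S) ∧
      (∀ i, I ≤ Subgroup.normalizer ((f i) : Set S)) ∧ (∀ i j, i ≠ j → ∀ a ∈ f i, ∀ b ∈ f j, a * b = b * a) ∧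
      Nat.card ↥(⨆ i, f i) = ∏ i, Nat.card ↥(f i) ∧ I ⊓ Subgroup.centralizer ((⨆ i, f i : Subgroup S) : Set S) = ⊥ := by
  classical
  set F := fittingSubgroup S with hFdef
  haveI hFnorm : F.Normal := Cfsg.Agent.H1.Nilp.fitting_normal
  have hFn : Group.IsNilpotent F := Cfsg.Agent.H1.Nilp.fitting_nilpotent
  have hI2 : ∀ a ∈ I, a * a = 1 := fun a ha => by rw [← pow_two]; exact hI.2 a ha
  have hoddF : ∀ y ∈ F, y = y⁻¹ → y = 1 := by
    intro y hy h
    have h1 : y * y = 1 := by
      nth_rewrite 1 [h]; group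
    have h2 : orderOf y ∣ 2 := orderOf_dvd_of_pow_eq_one (by rw [pow_two]; exact h1)
    have h3 : Odd (orderOf y) := hF.of_dvd_nat (Subgroup.orderOf_dvd_natCard _ hy)
    rcases (Nat.dvd_prime Nat.prime_two).mp h2 with h4 | h4
    · exact orderOf_eq_one_iff.mp h4
    · rw [h4] at h3; exact absurd h3 (by decide)
  have hfaith : I ⊓ centralizer (F : Set S) = ⊥ := by
    rw [eq_bot_iff]
    rintro x ⟨hx1, hx2⟩
    have h1 : x ∈ F := Cfsg.Agent.H1.Hall.centralizer_fitting_le (G := S) hx2
    rw [mem_bot]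
    apply hoddF x h1
    exact (inv_eq_of_mul_eq_one_left (hI2 x hx1)).symm
  obtain ⟨a, y, haI, hyF, hy1, hyy, hye, hinv, hcom, hgen⟩ := exists_dual F I hFn hF hI n hIn
    (by rw [Subgroup.normalizer_eq_top F]; exact le_top) hfaith
  -- elements of prime order
  have hw : ∀ i, ∃ w ∈ zpowers (y i), (orderOf w).Prime := by
    intro i
    have h1 : orderOf (y i) ≠ 1 := fun h => hy1 i (orderOf_eq_one_iff.mp h)
    obtain ⟨q, hq, hqd⟩ := Nat.exists_prime_and_dvd h1
    obtain ⟨m, hm⟩ := hqd
    have hm0 : m ≠ 0 := by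
      rintro rfl
      rw [mul_zero] at hm
      exact (orderOf_pos (y i)).ne' hm
    refine ⟨y i ^ m, ⟨m, by simp⟩, ?_⟩
    rw [orderOf_pow' _ hm0, hm, Nat.gcd_eq_right (Dvd.intro_left q rfl), Nat.mul_div_cancel _ (Nat.pos_of_ne_zero hm0)]
    exact hq
  choose w hwy hwp using hw
  have hww : ∀ i j, w i * w j = w j * w i := by
    intro i j
    obtain ⟨k, hk⟩ := hwy i
    obtain ⟨l, hl⟩ := hwy j
    rw [← hk, ← hl]
    exact ((show Commute (y i) (y j) from hyy i j).zpow_zpow k l).eq
  have hwF : ∀ i, w i ∈ F := fun i => (zpowers_le.mpr (hyF i)) (hwy i)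
  have hw1 : ∀ i, w i ≠ 1 := by
    intro i h
    have := hwp i
    rw [h, orderOf_one] at this
    exact Nat.not_prime_one this
  have hwe : ∀ i, ∀ b ∈ I, (b * w i * b⁻¹ = w i ∧ b * y i * b⁻¹ = y i) ∨
      (b * w i * b⁻¹ = (w i)⁻¹ ∧ b * y i * b⁻¹ = (y i)⁻¹) := by
    intro i b hb
    obtain ⟨k, hk⟩ := hwy i
    rcases hye i b hb with h | h
    · left; refine ⟨?_, h⟩
      rw [← hk]
      change b * (y i) ^ k * b⁻¹ = (y i) ^ k
      rw [← conj_zpow, h]
    · right; refine ⟨?_, h⟩
      rw [← hk]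
      change b * (y i) ^ k * b⁻¹ = ((y i) ^ k)⁻¹
      rw [← conj_zpow, h, inv_zpow]
  have hwinv : ∀ i, a i * w i * (a i)⁻¹ = (w i)⁻¹ := by
    intro i
    rcases hwe i (a i) (haI i) with h | h
    · exfalso
      rw [hinv i] at h
      exact hy1 i (hoddF _ (hyF i) h.2.symm)
    · exact h.1
  have hwcom : ∀ i j, i ≠ j → a i * w j * (a i)⁻¹ = w j := by
    intro i j hij
    rcases hwe j (a i) (haI i) with h | h
    · exact h.1
    · exfalso
      rw [hcom i j hij] at h
      exact hy1 j (hoddF _ (hyF j) h.2)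
  refine ⟨fun i => zpowers (w i), fun i => by rw [Nat.card_zpowers]; exact hwp i,
    fun i => zpowers_le.mpr (hwF i), ?_, ?_, ?_, ?_⟩
  · intro i b hb
    have h1 : b ∈ normalizer (zpowers (w i) : Set S) := by
      have key : ∀ c ∈ I, ∀ x ∈ zpowers (w i), c * x * c⁻¹ ∈ zpowers (w i) := by
        rintro c hc _ ⟨k, rfl⟩
        change c * (w i) ^ k * c⁻¹ ∈ _
        rw [← conj_zpow]
        apply zpow_mem
        rcases hwe i c hc with h | h
        · rw [h.1]; exact mem_zpowers _
        · rw [h.1]; exact inv_mem (mem_zpowers _)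
      rw [Subgroup.mem_normalizer_iff]
      intro x
      refine ⟨key b hb x, fun h => ?_⟩
      have h1 := key b⁻¹ (inv_mem hb) _ h
      have h2 : b⁻¹ * (b * x * b⁻¹) * b⁻¹⁻¹ = x := by group
      rwa [h2] at h1
    exact h1
  · rintro i j - _ ⟨k, rfl⟩ _ ⟨l, rfl⟩
    exact ((show Commute (w i) (w j) from hww i j).zpow_zpow k l).eq
  · have key : ∀ T : Finset (Fin n), Nat.card (⨆ i ∈ T, zpowers (w i) : Subgroup S) =
        ∏ i ∈ T, Nat.card (zpowers (w i)) := by
      intro T
      induction T using Finset.induction_on with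
      | empty => simp
      | insert j T hj ih =>
        rw [Finset.iSup_insert, Finset.prod_insert hj, ← ih]
        apply Cfsg.Agent.H1.Coprime.card_sup_of_le_normalizer
        · refine le_trans ?_ (centralizer_le_normalizer _)
          rw [le_centralizer_iff]
          apply iSup₂_le
          intro i _
          rw [zpowers_le, mem_centralizer_iff]
          rintro _ ⟨k, rfl⟩
          exact ((show Commute (w i) (w j) from hww i j).zpow_right k).eq.symm
        · rw [eq_bot_iff]
          rintro x ⟨hx1, hx2⟩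
          have h1 : (⨆ i ∈ T, zpowers (w i) : Subgroup S) ≤ centralizer ({a j} : Set S) := by
            apply iSup₂_le
            intro i hi
            rw [zpowers_le]
            refine mem_centralizer_singleton_iff.mpr ?_
            have h2 := hwcom j i (fun h => hj (h ▸ hi))
            exact (mul_inv_eq_iff_eq_mul.mp h2).symm
          have h2 := mem_centralizer_singleton_iff.mp (h1 hx2)
          obtain ⟨k, hk⟩ := hx1
          have h3 : a j * x * (a j)⁻¹ = x⁻¹ := by
            rw [← hk]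
            change a j * (w j) ^ k * (a j)⁻¹ = ((w j) ^ k)⁻¹
            rw [← conj_zpow, hwinv, inv_zpow]
          have h4 : a j * x * (a j)⁻¹ = x := by rw [← h2]; group
          rw [mem_bot]
          apply hoddF x
          · rw [← hk]; exact zpow_mem (hwF j) k
          · rw [← h3, h4]
    have h1 := key Finset.univ
    simpa using h1
  · rw [eq_bot_iff]
    rintro b ⟨hb, hbc⟩
    rw [mem_bot]
    apply faithful_dual hI2 hIn haI (fun i h => hy1 i (hoddF _ (hyF i) h)) hinv hcom hb
    intro i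
    rcases hwe i b hb with h | h
    · exact h.2
    · exfalso
      have h1 : w i ∈ (⨆ i, zpowers (w i) : Subgroup S) :=
        (le_iSup (fun i => zpowers (w i)) i) (mem_zpowers _)
      have h2 := mem_centralizer_iff.mp hbc _ h1
      have h3 : b * w i * b⁻¹ = w i := by rw [← h2]; group
      rw [h.1] at h3
      exact hw1 i (hoddF _ (hwF i) h3.symm)

/-- Let S be a finite solvable group whose Fitting subgroup F(S) has odd order, and let I be an elementary abelian 2-subgroup of S of order 2ⁿ with n ≥ 1. Then F(S) contains subgroups A₁, …, Aₙ of prime order, each normalized by I, pairwise commuting and generating a subgroup A of order |A₁|⋯|Aₙ| (their internal direct product), such that no non-identity element of I centralizes A. -/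
theorem result {S : Type*} [Group S] [Finite S]
    [Group.IsSolvable S] (hF : Odd (Nat.card ↥(Cfsg.fittingSubgroup S)))
    (I : Subgroup S) (hI : Cfsg.IsElementaryAbelian 2 I) (n : ℕ) (hn : 1 ≤ n) (hIn : Nat.card ↥I = 2 ^ n) :
    ∃ f : Fin n → Subgroup S, (∀ i, (Nat.card ↥(f i)).Prime) ∧ (∀ i, f i ≤ Cfsg.fittingSubgroup S) ∧
      (∀ i, I ≤ Subgroup.normalizer ((f i) : Set S)) ∧ (∀ i j, i ≠ j → ∀ a ∈ f i, ∀ b ∈ f j, a * b = b * a) ∧
      Nat.card ↥(⨆ i, f i) = ∏ i, Nat.card ↥(f i) ∧ I ⊓ Subgroup.centralizer ((⨆ i, f i : Subgroup S) : Set S) = ⊥ := by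
  exact main hF I hI n hIn

end Cfsg.Agent.S4408
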