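import Cfsg.Statements.S4410
import Cfsg.Agent.H24_Trv
-- import your own Cfsg.Agent.* helpers here

set_option autoImplicit false
open Cfsg

namespace Cfsg.Agent.S4410


open Cfsg.Agent.H24.Trv in
theorem aux {V : Type*} [AddCommGroup V] [Module (ZMod 2) V] [Finite V]
    (S : Subgroup (V ≃ₗ[ZMod 2] V)) (hS : Group.IsSolvable ↥S) (hO2 : Cfsg.pCore 2 ↥S = ⊥)
    (P : V ≃ₗ[ZMod 2] V) (hPS : P ∈ S) (hP4 : orderOf P = 4) (e : V) (he0 : e ≠ 0)
    (hD : ∀ v, (P * P) v = v ∨ (P * P) v = v + e) (hex : ∃ v, (P * P) v = v + e) : False := by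
  classical
  haveI : Finite (V ≃ₗ[ZMod 2] V) := Finite.of_injective (fun f : V ≃ₗ[ZMod 2] V => (f : V → V)) DFunLike.coe_injective
  haveI : Fact (Nat.Prime 2) := ⟨Nat.prime_two⟩
  obtain ⟨t, ht⟩ : ∃ t, t = P * P := ⟨_, rfl⟩
  rw [← ht] at hD hex
  have htt : t * t = 1 := by
    rw [ht]
    have : P ^ 4 = 1 := by rw [← hP4]; exact pow_orderOf_eq_one P
    calc P * P * (P * P) = P ^ 4 := by rw [pow_succ, pow_succ, pow_succ, pow_one]; group
      _ = 1 := this
  have ht1 : t ≠ 1 := by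
    intro h
    have : P ^ 2 = 1 := by rw [pow_two, ← ht, h]
    have := orderOf_dvd_of_pow_eq_one this
    rw [hP4] at this
    revert this; decide
  -- the functional
  obtain ⟨ψ, hψ⟩ : ∃ ψ : Module.Dual (ZMod 2) V, ψ e ≠ 0 := by
    by_contra hcon
    push Not at hcon
    exact he0 ((Module.forall_dual_apply_eq_zero_iff (ZMod 2) e).1 hcon)
  have hψ1 : ψ e = 1 := (cases2 (ψ e)).resolve_left hψ
  let φ : V →ₗ[ZMod 2] ZMod 2 := ψ ∘ₗ ((t : V →ₗ[ZMod 2] V) - LinearMap.id)
  have hφ : ∀ v, φ v = ψ (t v - v) := fun v => rfl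
  have h0 : ∀ v, t v = v + φ v • e := by
    intro v
    rw [hφ]
    rcases hD v with h | h
    · rw [h, sub_self, map_zero, zero_smul, add_zero]
    · rw [h, add_sub_cancel_left, hψ1, one_smul]
  have hφe : φ e = 0 := by
    obtain ⟨v, hv⟩ := hex
    have h1 : t (t v) = v := by
      have := congrArg (fun f : V ≃ₗ[ZMod 2] V => f v) htt
      exact this
    rw [hv, map_add, hv] at h1
    have h2 : t e = e := by
      have h3 : v + e + t e = v := h1
      have h4 : e + t e = 0 := by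
        rw [add_assoc] at h3
        exact add_eq_left.1 h3
      have h5 := add_self e
      calc t e = e + (e + t e) := by rw [← add_assoc, h5, zero_add]
        _ = e := by rw [h4, add_zero]
    rw [hφ, h2, sub_self, map_zero]
  -- the Fitting subgroup
  set F := Cfsg.fittingSubgroup S with hF
  haveI hFn : F.Normal := H1.Nilp.fitting_normal
  have hFnil : Group.IsNilpotent F := H1.Nilp.fitting_nilpotent
  have hC : Subgroup.centralizer (F : Set S) ≤ F := H1.Hall.centralizer_fitting_le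
  have hodd : Odd (Nat.card F) := by
    rw [← Nat.not_even_iff_odd, even_iff_two_dvd]
    intro hd
    obtain ⟨Q⟩ : Nonempty (Sylow 2 F) := inferInstance
    have h1 := H1.Nilp.sylow_map_normal_of_nilpotent hFn hFnil Q
    have h2 := H1.Nilp.le_pCore h1 (Q.isPGroup'.map F.subtype)
    rw [hO2, le_bot_iff, Subgroup.map_eq_bot_iff_of_injective _ F.subtype_injective] at h2
    have h3 := (Q : Subgroup F).card_mul_index
    rw [h2, Subgroup.card_bot, one_mul] at h3
    have h4 := Q.not_dvd_index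
    rw [h2, h3] at h4
    exact h4 hd
  have htS : t ∈ S := by rw [ht]; exact S.mul_mem hPS hPS
  let T : (V ≃ₗ[ZMod 2] V) → (V ≃ₗ[ZMod 2] V) := fun u => u⁻¹ * t * u
  have hT : ∀ u v, T u v = v + (φ ∘ₗ (u : V →ₗ[ZMod 2] V)) v • (u⁻¹ e) := by
    intro u v
    show u⁻¹ (t (u v)) = _
    rw [h0 (u v), map_add, map_smul]
    congr 1
    exact u.symm_apply_apply v
  have hT0 : ∀ u : V ≃ₗ[ZMod 2] V, (φ ∘ₗ (u : V →ₗ[ZMod 2] V)) (u⁻¹ e) = 0 := by
    intro u
    show φ (u (u⁻¹ e)) = 0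
    have : u (u⁻¹ e) = e := u.apply_symm_apply e
    rw [this, hφe]
  have hTF : ∀ u w : S, u ∈ F → w ∈ F → ∃ f ∈ F, ((f : S) : V ≃ₗ[ZMod 2] V) = T u * T w := by
    intro u w hu hw
    let t' : S := ⟨t, htS⟩
    refine ⟨u⁻¹ * (t' * (u * w⁻¹) * t'⁻¹) * w, F.mul_mem (F.mul_mem (F.inv_mem hu)
      (hFn.conj_mem _ (F.mul_mem hu (F.inv_mem hw)) t')) hw, ?_⟩
    show (u : V ≃ₗ[ZMod 2] V)⁻¹ * (t * (u * (w : V ≃ₗ[ZMod 2] V)⁻¹) * t⁻¹) * w = (u : V ≃ₗ[ZMod 2] V)⁻¹ * t * u * ((w : V ≃ₗ[ZMod 2] V)⁻¹ * t * w)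
    have : t⁻¹ = t := by rw [inv_eq_iff_mul_eq_one]; exact htt
    rw [this]; group
  have hpow : ∀ u w : S, u ∈ F → w ∈ F → (T u * T w) ^ Nat.card F = 1 := by
    intro u w hu hw
    obtain ⟨f, hf, he⟩ := hTF u w hu hw
    rw [← he]
    have h1 : (⟨f, hf⟩ : F) ^ Nat.card F = 1 := pow_card_eq_one'
    have h2 := congrArg (fun g : F => ((g : S) : V ≃ₗ[ZMod 2] V)) h1
    exact h2
  -- x
  obtain ⟨x, hxF, hxt⟩ : ∃ x ∈ F, T (x : S) ≠ t := by
    by_contra hcon
    push Not at hcon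
    have h1 : (⟨t, htS⟩ : S) ∈ Subgroup.centralizer (F : Set S) := by
      rw [Subgroup.mem_centralizer_iff]
      intro y hy
      have h2 := hcon y hy
      apply Subtype.ext
      show (y : V ≃ₗ[ZMod 2] V) * t = t * y
      have h3 : (y : V ≃ₗ[ZMod 2] V)⁻¹ * t * y = t := h2
      calc (y : V ≃ₗ[ZMod 2] V) * t = y * ((y : V ≃ₗ[ZMod 2] V)⁻¹ * t * y) := by rw [h3]
        _ = t * y := by group
    have h2 := hC h1
    have h3 : (⟨⟨t, htS⟩, h2⟩ : F) ^ Nat.card F = 1 := pow_card_eq_one'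
    have h4 := congrArg (fun g : F => ((g : S) : V ≃ₗ[ZMod 2] V)) h3
    have h5 : t ^ Nat.card F = 1 := h4
    exact ht1 (eq_one_of_sq hodd h5 htt)
  have hTone : T 1 = t := by
    show (1 : V ≃ₗ[ZMod 2] V)⁻¹ * t * 1 = t
    group
  have h1F : (1 : S) ∈ F := F.one_mem
  let P' : S := ⟨P, hPS⟩
  have hyF : P'⁻¹ * x * P' ∈ F := by
    have := hFn.conj_mem x hxF P'⁻¹
    rwa [inv_inv] at this
  have hTT : ∀ u, T u * T u = 1 := by
    intro u
    show u⁻¹ * t * u * (u⁻¹ * t * u) = 1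
    calc u⁻¹ * t * u * (u⁻¹ * t * u) = u⁻¹ * (t * t) * u := by group
      _ = 1 := by rw [htt]; group
  -- T3
  obtain ⟨z', hz'F, hz'⟩ := hTF x 1 hxF h1F
  have hT3 : T (z'⁻¹ : S) = T x * t * T x := by
    have e1 : ((z' : S) : V ≃ₗ[ZMod 2] V) = T x * t := by
      rw [hz']
      show T x * T ((1 : S) : V ≃ₗ[ZMod 2] V) = T x * t
      rw [OneMemClass.coe_one, hTone]
    show ((z'⁻¹ : S) : V ≃ₗ[ZMod 2] V)⁻¹ * t * ((z'⁻¹ : S) : V ≃ₗ[ZMod 2] V) = _
    rw [Subgroup.coe_inv, inv_inv, e1]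
    have e2 : (T x)⁻¹ = T x := by rw [inv_eq_iff_mul_eq_one]; exact hTT x
    calc T x * t * t * (T x * t)⁻¹ = T x * (t * t) * t⁻¹ * (T x)⁻¹ := by group
      _ = T x * t⁻¹ * T x := by rw [htt, mul_one, e2]
      _ = T x * t * T x := by
          have : t⁻¹ = t := by rw [inv_eq_iff_mul_eq_one]; exact htt
          rw [this]
  have hz1 : (t * T x) ^ Nat.card F = 1 := by
    have := hpow 1 x h1F hxF
    rwa [OneMemClass.coe_one, hTone] at this
  have hz2 : (t * T (P'⁻¹ * x * P' : S)) ^ Nat.card F = 1 := by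
    have := hpow 1 _ h1F hyF
    rwa [OneMemClass.coe_one, hTone] at this
  have key := three t (T x) (T (P'⁻¹ * x * P' : S)) (T x * t * T x) φ _ _ e _ _ h0 (hT x)
    (hT (P'⁻¹ * x * P' : S)) hφe (hT0 x) (hT0 _) rfl hodd hz1 hz2 (hpow _ _ hxF hyF) (by
      rw [← hT3]
      exact hpow _ _ (F.inv_mem hz'F) hyF) (Ne.symm hxt)
  have hcube : (T x * t) ^ 3 = 1 := by
    rcases L t (T x) φ _ e _ h0 (hT x) hφe (hT0 x) hodd hz1 with h | ⟨e1, e2⟩
    · exact absurd h.symm hxt
    · exact braid (T x) t _ φ _ e (hT x) h0 (hT0 x) hφe e2 e1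
  have hconj : T (P'⁻¹ * x * P' : S) = P⁻¹ * T x * P := by
    show ((P⁻¹ * x * P : V ≃ₗ[ZMod 2] V))⁻¹ * t * (P⁻¹ * x * P) = P⁻¹ * ((x : V ≃ₗ[ZMod 2] V)⁻¹ * t * x) * P
    have : P * t * P⁻¹ = t := by rw [ht]; group
    calc ((P⁻¹ * x * P : V ≃ₗ[ZMod 2] V))⁻¹ * t * (P⁻¹ * x * P) = P⁻¹ * (x : V ≃ₗ[ZMod 2] V)⁻¹ * (P * t * P⁻¹) * x * P := by group
      _ = _ := by rw [this]; group
  obtain ⟨z, hz⟩ : ∃ z, z = T x * t := ⟨_, rfl⟩
  have hz3 : z ^ 3 = 1 := by rw [hz]; exact hcube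
  have hzne : z ≠ 1 := by
    intro h
    apply hxt
    have : T x = z * t⁻¹ := by rw [hz]; group
    rw [this, h, one_mul, inv_eq_iff_mul_eq_one]; exact htt
  have hPz : P⁻¹ * z * P = T (P'⁻¹ * x * P' : S) * t := by
    rw [hz, hconj]
    have : P * t * P⁻¹ = t := by rw [ht]; group
    calc P⁻¹ * (T x * t) * P = P⁻¹ * T x * P * (P⁻¹ * t * P) := by group
      _ = _ := by
        have h2 : P⁻¹ * t * P = t := by rw [ht]; group
        rw [h2]
  have htz : t⁻¹ * z * t = z⁻¹ := by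
    rw [hz]
    have e2 : (T x)⁻¹ = T x := by rw [inv_eq_iff_mul_eq_one]; exact hTT x
    have e3 : t⁻¹ = t := by rw [inv_eq_iff_mul_eq_one]; exact htt
    calc t⁻¹ * (T x * t) * t = t⁻¹ * T x * (t * t) := by group
      _ = t⁻¹ * (T x)⁻¹ := by rw [htt, mul_one, e2]
      _ = (T x * t)⁻¹ := by group
  have hPPz : P⁻¹ * (P⁻¹ * z * P) * P = z⁻¹ := by
    rw [← htz, ht]; group
  have hz2 : z * z ≠ 1 := by
    intro h
    apply hzne
    rw [pow_succ, pow_two, h, one_mul] at hz3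
    exact hz3
  rcases key with h | h | h
  · rw [hPz, h, htt] at hPPz
    apply hzne
    rw [← inv_inj, ← hPPz]; group
  · rw [hPz, h, ← hz, hPz, h, ← hz] at hPPz
    apply hz2
    calc z * z = z⁻¹ * z := by rw [← hPPz]
      _ = 1 := by group
  · have h5 : P⁻¹ * z * P = z * z := by
      rw [hPz, h, hz]; group
    rw [h5] at hPPz
    have h6 : P⁻¹ * (z * z) * P = (P⁻¹ * z * P) * (P⁻¹ * z * P) := by group
    rw [h6, h5] at hPPz
    -- z^4 = z⁻¹
    have h7 : z * z * (z * z) = z := by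
      calc z * z * (z * z) = z ^ 3 * z := by rw [pow_succ, pow_two]; group
        _ = z := by rw [hz3, one_mul]
    rw [h7] at hPPz
    apply hz2
    calc z * z = z⁻¹ * z := by rw [← hPPz]
      _ = 1 := by group

/-- Let V be a finite-dimensional vector space over the field with two elements and S a solvable group of linear automorphisms of V with O₂(S) = 1. If P ∈ S has order 4 and (P − 1)³ = 0 on V, then the image of (P − 1)² has at least 4 elements; equivalently, in the decomposition of V into indecomposable modules for the cyclic group generated by P, at least two summands have dimension 3. -/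
theorem result
    {V : Type*} [AddCommGroup V] [Module (ZMod 2) V] [Finite V]
    (S : Subgroup (V ≃ₗ[ZMod 2] V)) (hS : Group.IsSolvable ↥S) (hO2 : Cfsg.pCore 2 ↥S = ⊥)
    (P : V ≃ₗ[ZMod 2] V) (hPS : P ∈ S) (hP4 : orderOf P = 4)
    (hcub : ((P : V →ₗ[ZMod 2] V) - LinearMap.id) ^ 3 = 0) :
    4 ≤ Nat.card ↥(LinearMap.range (((P : V →ₗ[ZMod 2] V) - LinearMap.id) ^ 2)) := by
  classical
  haveI : Finite (V ≃ₗ[ZMod 2] V) := Finite.of_injective (fun f : V ≃ₗ[ZMod 2] V => (f : V → V)) DFunLike.coe_injective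
  by_contra hlt
  push Not at hlt
  set D : V →ₗ[ZMod 2] V := ((P : V →ₗ[ZMod 2] V) - LinearMap.id) ^ 2 with hDdef
  have hD : ∀ v, D v = (P * P) v + v := by
    intro v
    have h1 : D v = P (P v - v) - (P v - v) := by
      rw [hDdef, pow_two]; rfl
    rw [h1, map_sub]
    have e1 := H24.Trv.add_self (P v)
    have e2 : -(P v) = P v := by rw [neg_eq_iff_add_eq_zero]; exact e1
    have e3 : (P * P) v = P (P v) := rfl
    rw [e3]
    calc P (P v) - P v - (P v - v) = P (P v) + v + (-(P v) + -(P v)) := by abel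
      _ = P (P v) + v := by rw [e2, e1, add_zero]
  have hne : ∃ v, D v ≠ 0 := by
    by_contra hcon
    push Not at hcon
    have h1 : P ^ 2 = 1 := by
      ext v
      have h2 := hcon v
      rw [hD] at h2
      have h3 := H24.Trv.add_self v
      show (P ^ 2) v = v
      rw [pow_two]
      calc (P * P) v = (P * P) v + v + v := by rw [add_assoc, h3, add_zero]
        _ = v := by rw [h2, zero_add]
    have := orderOf_dvd_of_pow_eq_one h1
    rw [hP4] at this
    revert this; decide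
  obtain ⟨v₀, hv₀⟩ := hne
  have hr : ∀ v, D v = 0 ∨ D v = D v₀ := by
    intro v
    by_contra hcon
    push Not at hcon
    obtain ⟨h1, h2⟩ := hcon
    have hsub : ((({0, D v₀, D v, D v₀ + D v} : Finset V) : Set V)) ⊆ (LinearMap.range D : Set V) := by
      intro w hw
      simp only [Finset.coe_insert, Finset.coe_singleton, Set.mem_insert_iff, Set.mem_singleton_iff] at hw
      rcases hw with rfl | rfl | rfl | rfl
      · exact zero_mem _
      · exact ⟨v₀, rfl⟩
      · exact ⟨v, rfl⟩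
      · exact add_mem ⟨v₀, rfl⟩ ⟨v, rfl⟩
    have hc := Set.ncard_le_ncard hsub (Set.toFinite _)
    rw [Set.ncard_coe_finset] at hc
    have h3 : D v₀ + D v ≠ 0 := by
      intro h3
      apply h2
      have := H24.Trv.add_self (D v₀)
      exact (add_left_cancel (this.trans h3.symm)).symm
    have h4 : ({0, D v₀, D v, D v₀ + D v} : Finset V).card = 4 := by
      rw [Finset.card_insert_of_notMem, Finset.card_insert_of_notMem, Finset.card_insert_of_notMem,
        Finset.card_singleton]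
      · simp only [Finset.mem_singleton]
        intro h5
        exact hv₀ (right_eq_add.1 h5)
      · simp only [Finset.mem_insert, Finset.mem_singleton, not_or]
        exact ⟨fun h => h2 h.symm, fun h => h1 (left_eq_add.1 h)⟩
      · simp only [Finset.mem_insert, Finset.mem_singleton, not_or]
        exact ⟨fun h => hv₀ h.symm, fun h => h1 h.symm, fun h => h3 h.symm⟩
    rw [h4, ← Nat.card_coe_set_eq] at hc
    have h5 : Nat.card (LinearMap.range D) < 4 := hlt
    have h6 : Nat.card ((LinearMap.range D : Submodule (ZMod 2) V) : Set V) = Nat.card (LinearMap.range D) := rfl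
    omega
  refine aux S hS hO2 P hPS hP4 (D v₀) hv₀ ?_ ?_
  · intro v
    have h3 := H24.Trv.add_self v
    have h4 : (P * P) v = v + D v := by
      rw [hD]
      calc (P * P) v = (P * P) v + (v + v) := by rw [h3, add_zero]
        _ = v + ((P * P) v + v) := by abel
    rcases hr v with h | h
    · left; rw [h4, h, add_zero]
    · right; rw [h4, h]
  · refine ⟨v₀, ?_⟩
    have h3 := H24.Trv.add_self v₀
    rw [hD]
    calc (P * P) v₀ = (P * P) v₀ + (v₀ + v₀) := by rw [h3, add_zero]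
      _ = v₀ + ((P * P) v₀ + v₀) := by abel

end Cfsg.Agent.S4410
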