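import Cfsg.Statements.S4412
import Cfsg.Agent.H24_Broad
-- import your own Cfsg.Agent.* helpers here

set_option autoImplicit false
open Cfsg

namespace Cfsg.Agent.S4412


open Subgroup
open Cfsg.Agent.H24.Broad

/-- Let p be an odd prime, P a finite p-group and I an elementary abelian subgroup of order 8 of Aut(P). Call T ∈ I, T ≠ 1, broad when its fixed-point subgroup C_P(T) is not cyclic. Suppose I has a proper subgroup I₀ containing no broad element such that the product of any two broad elements lies in I₀. Then P is abelian of rank exactly 3 (generated by three elements but not by two), there are exactly three broad elements and they generate I, and I₀ is exactly the set of products of two broad elements. -/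
theorem result
    {P : Type*} [Group P] [Finite P] (p : ℕ) (hp : p.Prime) (hp2 : p ≠ 2) (hP : IsPGroup p P)
    (I : Subgroup (MulAut P)) (hI : Cfsg.IsElementaryAbelian 2 I) (hI8 : Nat.card ↥I = 8)
    (I₀ : Subgroup (MulAut P)) (hI₀ : I₀ < I)
    (hdisj : ∀ T ∈ I₀, T ≠ 1 → ∃ g : P, ∀ x : P, (T x = x ↔ x ∈ Subgroup.zpowers g))
    (hprod : ∀ T ∈ I, ∀ T' ∈ I, T ≠ 1 → T' ≠ 1 → (¬ ∃ g : P, ∀ x : P, (T x = x ↔ x ∈ Subgroup.zpowers g)) →
      (¬ ∃ g : P, ∀ x : P, (T' x = x ↔ x ∈ Subgroup.zpowers g)) → T * T' ∈ I₀) :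
    IsMulCommutative P ∧ (∃ a b c : P, Subgroup.closure {a, b, c} = ⊤) ∧ (¬ ∃ a b : P, Subgroup.closure {a, b} = ⊤) ∧
      Nat.card {T : MulAut P // T ∈ I ∧ T ≠ 1 ∧ ¬ ∃ g : P, ∀ x : P, (T x = x ↔ x ∈ Subgroup.zpowers g)} = 3 ∧
      Subgroup.closure {T : MulAut P | T ∈ I ∧ T ≠ 1 ∧ ¬ ∃ g : P, ∀ x : P, (T x = x ↔ x ∈ Subgroup.zpowers g)} = I ∧
      (I₀ : Set (MulAut P)) = {S : MulAut P | ∃ T T' : MulAut P, T ∈ I ∧ T' ∈ I ∧ T ≠ 1 ∧ T' ≠ 1 ∧
        (¬ ∃ g : P, ∀ x : P, (T x = x ↔ x ∈ Subgroup.zpowers g)) ∧ (¬ ∃ g : P, ∀ x : P, (T' x = x ↔ x ∈ Subgroup.zpowers g)) ∧ S = T * T'} := by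
  classical
  haveI : Fact p.Prime := ⟨hp⟩
  have hodd := odd_card hp2 hP
  set nb : MulAut P → Prop := fun T => ∃ g : P, ∀ x : P, (T x = x ↔ x ∈ Subgroup.zpowers g) with hnbdef
  have hc : ∀ a ∈ I, ∀ b ∈ I, a * b = b * a := fun a ha b hb => by
    have := hI.1.is_comm.comm (⟨a, ha⟩ : I) ⟨b, hb⟩
    exact congrArg Subtype.val this
  have hsq : ∀ a ∈ I, a * a = 1 := fun a ha => by rw [← pow_two]; exact hI.2 a ha
  have hcI : ∀ a b : I, a * b = b * a := fun a b => Subtype.ext (hc a a.2 b b.2)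
  have hsI : ∀ a : I, a * a = 1 := fun a => Subtype.ext (hsq a a.2)
  obtain ⟨n, x, s, hn, h1, h2, h3, h4, h5, h6, h7⟩ := data hp2 hP I hc hsq
  have hI0 : ∀ a ∈ I₀, a ∈ I := fun a ha => hI₀.le ha
  haveI : Finite (MulAut P) := Finite.of_injective (fun f : MulAut P => (f : P → P)) DFunLike.coe_injective
  -- nonbroad elements have at most one eigenvalue `1`
  have hnb : ∀ a : I, nb a → ∀ i j, s i a → s j a → i = j := by
    rintro a ⟨g, hg⟩ i j hi hj
    have key : ∀ k, s k a → x k ∈ zpowers g ⊔ frattini P := by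
      intro k hk
      obtain ⟨y, hy1, hy2⟩ := lift_fixed hodd (frattini P) a (hsq a a.2) (x k) (h1 k a hk)
      have h8 := mul_mem (mem_sup_left (T := frattini P) ((hg y).1 hy1)) (mem_sup_right (S := zpowers g) (inv_mem hy2))
      have e : y * ((x k)⁻¹ * y)⁻¹ = x k := by group
      rwa [e] at h8
    exact h4 i j g (key i hi) (key j hj)
  have hs1 : ∀ i, s i 1 := fun i => by
    have := h6 i 1 1
    rw [mul_one] at this
    exact this.2 Iff.rfl
  have hdet : ∀ a b : I, (∀ i, s i a ↔ s i b) → a = b := by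
    intro a b hab
    have h8 : a * b = 1 := h7 _ (fun i => (h6 i a b).2 (hab i))
    calc a = a * (b * b) := by rw [hsI, mul_one]
      _ = (a * b) * b := by rw [mul_assoc]
      _ = b := by rw [h8, one_mul]
  have hA : ∀ a b : I, nb a → nb b → nb ((a * b : I) : MulAut P) → n ≤ 3 := by
    intro a b ha hb hab
    have h8 : (Finset.univ : Finset (Fin n)) ⊆ (Finset.univ.filter (fun i => s i a)) ∪
        ((Finset.univ.filter (fun i => s i b)) ∪ (Finset.univ.filter (fun i => s i (a * b)))) := by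
      intro i _
      simp only [Finset.mem_union, Finset.mem_filter, Finset.mem_univ, true_and]
      have := h6 i a b
      tauto
    have h9 := Finset.card_le_card h8
    have c1 : (Finset.univ.filter (fun i => s i a)).card ≤ 1 := Finset.card_le_one.2 (fun i hi j hj =>
      hnb a ha i j (Finset.mem_filter.1 hi).2 (Finset.mem_filter.1 hj).2)
    have c2 : (Finset.univ.filter (fun i => s i b)).card ≤ 1 := Finset.card_le_one.2 (fun i hi j hj =>
      hnb b hb i j (Finset.mem_filter.1 hi).2 (Finset.mem_filter.1 hj).2)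
    have c3 : (Finset.univ.filter (fun i => s i (a * b))).card ≤ 1 := Finset.card_le_one.2 (fun i hi j hj =>
      hnb (a * b) hab i j (Finset.mem_filter.1 hi).2 (Finset.mem_filter.1 hj).2)
    have c4 := Finset.card_union_le (Finset.univ.filter (fun i => s i a))
      ((Finset.univ.filter (fun i => s i b)) ∪ (Finset.univ.filter (fun i => s i (a * b))))
    have c5 := Finset.card_union_le (Finset.univ.filter (fun i => s i b)) (Finset.univ.filter (fun i => s i (a * b)))
    rw [Finset.card_univ, Fintype.card_fin] at h9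
    omega
  have hne_of : ∀ a b : I, a ≠ b → a * b ≠ 1 := by
    intro a b hab h
    apply hab
    calc a = a * (b * b) := by rw [hsI, mul_one]
      _ = (a * b) * b := by rw [mul_assoc]
      _ = b := by rw [h, one_mul]
  have hneP : ∀ a : I, a ≠ 1 → (a : MulAut P) ≠ 1 := fun a ha h => ha (Subtype.ext h)
  have hprodI : ∀ a b : I, a ≠ 1 → b ≠ 1 → ¬ nb a → ¬ nb b → ((a * b : I) : MulAut P) ∈ I₀ :=
    fun a b ha hb hna hnb' => hprod a a.2 b b.2 (hneP a ha) (hneP b hb) hna hnb'
  have hn3 : n ≤ 3 := by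
    by_contra hcon
    have hA' : ∀ a b : I, nb a → nb b → ¬ nb ((a * b : I) : MulAut P) := fun a b ha hb hab => hcon (hA a b ha hb hab)
    let B : Set I := {a | a ≠ 1 ∧ ¬ nb a}
    let N : Set I := {a | a ≠ 1 ∧ nb a}
    have hBN : B ∪ N = {a : I | a ≠ 1} := by
      ext a
      simp only [B, N, Set.mem_union, Set.mem_setOf_eq]
      tauto
    have h8 : (B ∪ N).ncard = 7 := by
      have e : B ∪ N = Set.univ \ {1} := by
        rw [hBN]; ext a; simp
      rw [e, Set.ncard_diff (Set.subset_univ _), Set.ncard_univ, Set.ncard_singleton, hI8]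
    have h9 := Set.ncard_union_le B N
    have hB : B.ncard ≤ 2 := by
      by_contra hB
      push Not at hB
      obtain ⟨X, hX, Y, hY, Z, hZ, hXY, hXZ, hYZ⟩ := (Set.two_lt_ncard (Set.toFinite B)).1 hB
      have e1 := hprodI X Y hX.1 hY.1 hX.2 hY.2
      have e2 := hprodI X Z hX.1 hZ.1 hX.2 hZ.2
      have e3 := hprodI Y Z hY.1 hZ.1 hY.2 hZ.2
      have f1 := hdisj _ e1 (hneP _ (hne_of X Y hXY))
      have f2 := hdisj _ e2 (hneP _ (hne_of X Z hXZ))
      have f3 := hdisj _ e3 (hneP _ (hne_of Y Z hYZ))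
      refine hA' (X * Y) (X * Z) f1 f2 ?_
      have e : (X * Y) * (X * Z) = Y * Z := by
        rw [hcI X Y, mul_assoc, ← mul_assoc X X Z, hsI, one_mul]
      rw [e]
      exact f3
    have hN : 1 < N.ncard := by omega
    obtain ⟨A, hAN, -, -, -⟩ := (Set.one_lt_ncard (Set.toFinite N)).1 hN
    have h10 : (N \ {A}).ncard ≤ B.ncard := by
      apply Set.ncard_le_ncard_of_injOn (fun a => A * a)
      · intro a ha
        exact ⟨hne_of A a (fun h => ha.2 h.symm), hA' A a hAN.2 ha.1.2⟩
      · intro a _ b _ hab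
        exact mul_left_cancel hab
    rw [Set.ncard_diff_singleton_of_mem hAN] at h10
    omega
  have hinjs : Function.Injective (fun (a : I) (i : Fin n) => decide (s i a)) := by
    intro a b hab
    apply hdet
    intro i
    have := congrFun hab i
    simpa using this
  have hn3' : n = 3 := by
    have h8 := Nat.card_le_card_of_injective _ hinjs
    rw [hI8, Nat.card_fun, Nat.card_eq_fintype_card, Fintype.card_bool, Nat.card_eq_fintype_card, Fintype.card_fin] at h8
    by_contra h9
    have h10 : n ≤ 2 := by omega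
    have h11 := Nat.pow_le_pow_right (n := 2) (by norm_num) h10
    omega
  subst hn3'
  have hbij : Function.Bijective (fun (a : I) (i : Fin 3) => decide (s i a)) := by
    apply (Nat.bijective_iff_injective_and_card _).2
    refine ⟨hinjs, ?_⟩
    rw [hI8, Nat.card_fun, Nat.card_eq_fintype_card, Fintype.card_bool, Nat.card_eq_fintype_card, Fintype.card_fin]
    norm_num
  have hex : ∀ σ : Fin 3 → Bool, ∃ a : I, ∀ i, s i a ↔ σ i = true := by
    intro σ
    obtain ⟨a, ha⟩ := hbij.2 σ
    refine ⟨a, fun i => ?_⟩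
    rw [← ha]; simp
  obtain ⟨T0, hT0⟩ := hex ![false, true, true]
  obtain ⟨T1, hT1⟩ := hex ![true, false, true]
  obtain ⟨T2, hT2⟩ := hex ![true, true, false]
  have s00 : ¬ s 0 T0 := by rw [hT0]; simp
  have s01 : s 1 T0 := by rw [hT0]; simp
  have s02 : s 2 T0 := by rw [hT0]; simp
  have s10 : s 0 T1 := by rw [hT1]; simp
  have s11 : ¬ s 1 T1 := by rw [hT1]; simp
  have s12 : s 2 T1 := by rw [hT1]; simp
  have s20 : s 0 T2 := by rw [hT2]; simp
  have s21 : s 1 T2 := by rw [hT2]; simp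
  have s22 : ¬ s 2 T2 := by rw [hT2]; simp
  have b0 : ¬ nb T0 := fun h => absurd (hnb T0 h 1 2 s01 s02) (by decide)
  have b1 : ¬ nb T1 := fun h => absurd (hnb T1 h 0 2 s10 s12) (by decide)
  have b2 : ¬ nb T2 := fun h => absurd (hnb T2 h 0 1 s20 s21) (by decide)
  have n0 : T0 ≠ 1 := by rintro rfl; exact s00 (hs1 0)
  have n1 : T1 ≠ 1 := by rintro rfl; exact s11 (hs1 1)
  have n2 : T2 ≠ 1 := by rintro rfl; exact s22 (hs1 2)
  have d01 : T0 ≠ T1 := by rintro rfl; exact s00 s10
  have d02 : T0 ≠ T2 := by rintro rfl; exact s00 s20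
  have d12 : T1 ≠ T2 := by rintro rfl; exact s11 s21
  have m01 := hprodI T0 T1 n0 n1 b0 b1
  have m02 := hprodI T0 T2 n0 n2 b0 b2
  have m12 := hprodI T1 T2 n1 n2 b1 b2
  have q01 := hdisj _ m01 (hneP _ (hne_of T0 T1 d01))
  have q02 := hdisj _ m02 (hneP _ (hne_of T0 T2 d02))
  have q12 := hdisj _ m12 (hneP _ (hne_of T1 T2 d12))
  set N : I := T0 * T1 * T2 with hNdef
  have sN : ∀ i, ¬ s i N := by
    intro i
    rw [hNdef, h6, h6]
    fin_cases i
    · simp [s00, s10, s20]
    · simp [s01, s11, s21]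
    · simp [s02, s12, s22]
  have hNinv : ∀ y : P, y * (N : MulAut P) y ∈ frattini P :=
    neg_all hP N x h5 (fun i => h2 i N (sN i))
  -- the fixed points of `N`
  have hfix : ∀ (t : I) (k : Fin 3), nb t → s k t → ∀ y : P, (t : MulAut P) y = y → (N : MulAut P) y = y → y = 1 := by
    rintro t k ⟨g, hg⟩ hk y hy hNy
    exact fix_trivial hp2 hP t N (hc t t.2 N N.2) (hsq t t.2) (hsq N N.2) g hg (x k) (h3 k) (h1 k t hk) hNinv y hy hNy
  let C : Subgroup P := ((N : MulAut P).toMonoidHom).eqLocus (MonoidHom.id P)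
  have hCmem : ∀ y, y ∈ C ↔ (N : MulAut P) y = y := fun y => Iff.rfl
  have hCinv : ∀ (t : I) (k : Fin 3), nb t → s k t → ∀ y ∈ C, (t : MulAut P) y = y⁻¹ := by
    intro t k ht hk
    refine inv_of_fpf hodd (t : MulAut P) (hsq t t.2) C ?_ ?_
    · intro y hy
      rw [hCmem] at hy ⊢
      have := congrArg (fun f : MulAut P => f y) (hc t t.2 N N.2)
      have h8 : (t : MulAut P) ((N : MulAut P) y) = (N : MulAut P) ((t : MulAut P) y) := this
      rw [← h8, hy]
    · intro y hy hty
      exact hfix t k ht hk y hty hy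
  have hC1 : ∀ y ∈ C, y = 1 := by
    intro y hy
    have e1 := hCinv (T0 * T1) 2 q01 (by rw [h6]; simp [s02, s12]) y hy
    have e2 := hCinv (T0 * T2) 1 q02 (by rw [h6]; simp [s01, s21]) y hy
    have e3 := hCinv (T1 * T2) 0 q12 (by rw [h6]; simp [s10, s20]) y hy
    have e4 : (T0 * T1) * (T0 * T2) = T1 * T2 := by
      rw [hcI T0 T1, mul_assoc, ← mul_assoc T0 T0 T2, hsI, one_mul]
    have e5 : ((T1 * T2 : I) : MulAut P) y = ((T0 * T1 : I) : MulAut P) (((T0 * T2 : I) : MulAut P) y) := by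
      rw [← e4]; rfl
    rw [e3, e2, map_inv, e1, inv_inv] at e5
    apply sq_eq_one hodd
    nth_rewrite 1 [← e5]
    rw [inv_mul_cancel]
  have hNP : ∀ y : P, (N : MulAut P) y = y⁻¹ := fun y =>
    inv_of_fpf hodd (N : MulAut P) (hsq N N.2) ⊤ (fun _ _ => mem_top _) (fun y _ hy => hC1 y hy) y (mem_top y)
  have nbN : nb N := by
    refine ⟨1, fun y => ?_⟩
    rw [zpowers_one_eq_bot, mem_bot]
    constructor
    · exact fun h => hC1 y h
    · rintro rfl; exact map_one _
  have hcases : ∀ a : I, a = 1 ∨ a = T0 ∨ a = T1 ∨ a = T2 ∨ a = T0 * T1 ∨ a = T0 * T2 ∨ a = T1 * T2 ∨ a = N := by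
    intro a
    have key : ∀ b : I, (s 0 a ↔ s 0 b) → (s 1 a ↔ s 1 b) → (s 2 a ↔ s 2 b) → a = b := by
      intro b g0 g1 g2
      apply hdet
      intro i
      fin_cases i
      · exact g0
      · exact g1
      · exact g2
    have z0 := hs1 0
    have z1 := hs1 1
    have z2 := hs1 2
    by_cases a0 : s 0 a <;> by_cases a1 : s 1 a <;> by_cases a2 : s 2 a
    · left; apply key <;> tauto
    · right; right; right; left; apply key <;> tauto
    · right; right; left; apply key <;> tauto
    · right; right; right; right; right; right; left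
      apply key <;> rw [h6] <;> tauto
    · right; left; apply key <;> tauto
    · right; right; right; right; right; left
      apply key <;> rw [h6] <;> tauto
    · right; right; right; right; left
      apply key <;> rw [h6] <;> tauto
    · right; right; right; right; right; right; right
      apply key
      · have := sN 0; tauto
      · have := sN 1; tauto
      · have := sN 2; tauto
  have hbroad : ∀ a : I, a ≠ 1 → ¬ nb a → a = T0 ∨ a = T1 ∨ a = T2 := by
    intro a ha hna
    rcases hcases a with h | h | h | h | h | h | h | h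
    · exact absurd h ha
    · exact Or.inl h
    · exact Or.inr (Or.inl h)
    · exact Or.inr (Or.inr h)
    · rw [h] at hna; exact absurd q01 hna
    · rw [h] at hna; exact absurd q02 hna
    · rw [h] at hna; exact absurd q12 hna
    · rw [h] at hna; exact absurd nbN hna
  have hset : {T : MulAut P | T ∈ I ∧ T ≠ 1 ∧ ¬ nb T} = {(T0 : MulAut P), (T1 : MulAut P), (T2 : MulAut P)} := by
    ext T
    simp only [Set.mem_setOf_eq, Set.mem_insert_iff, Set.mem_singleton_iff]
    constructor
    · rintro ⟨g1, g2, g3⟩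
      rcases hbroad ⟨T, g1⟩ (fun h => g2 (congrArg Subtype.val h)) g3 with h | h | h
      · exact Or.inl (congrArg Subtype.val h)
      · exact Or.inr (Or.inl (congrArg Subtype.val h))
      · exact Or.inr (Or.inr (congrArg Subtype.val h))
    · rintro (rfl | rfl | rfl)
      · exact ⟨T0.2, hneP _ n0, b0⟩
      · exact ⟨T1.2, hneP _ n1, b1⟩
      · exact ⟨T2.2, hneP _ n2, b2⟩
  have D01 : (T0 : MulAut P) ≠ T1 := fun h => d01 (Subtype.ext h)
  have D02 : (T0 : MulAut P) ≠ T2 := fun h => d02 (Subtype.ext h)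
  have D12 : (T1 : MulAut P) ≠ T2 := fun h => d12 (Subtype.ext h)
  refine ⟨⟨⟨fun a b => ?_⟩⟩, ?_, ?_, ?_, ?_, ?_⟩
  · have e1 := hNP (a * b)
    rw [map_mul, hNP, hNP, mul_inv_rev, ← mul_inv_rev, ← mul_inv_rev] at e1
    exact (inv_injective e1).symm
  · refine ⟨x 0, x 1, x 2, ?_⟩
    rw [← h5]
    congr 1
    ext y
    simp only [Set.mem_insert_iff, Set.mem_singleton_iff, Set.mem_range]
    constructor
    · rintro (rfl | rfl | rfl)
      · exact ⟨0, rfl⟩
      · exact ⟨1, rfl⟩
      · exact ⟨2, rfl⟩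
    · rintro ⟨i, rfl⟩
      fin_cases i
      · exact Or.inl rfl
      · exact Or.inr (Or.inl rfl)
      · exact Or.inr (Or.inr rfl)
  · rintro ⟨a, b, hab⟩
    have h8 := (Cfsg.Agent.H1.Frattini.burnside_basis p 3 hP hn).2 {a, b} (by
      rw [Finset.coe_insert, Finset.coe_singleton]; exact hab)
    have h9 := Finset.card_le_two (a := a) (b := b)
    omega
  · have : Nat.card {T : MulAut P // T ∈ I ∧ T ≠ 1 ∧ ¬ nb T} = ({T : MulAut P | T ∈ I ∧ T ≠ 1 ∧ ¬ nb T} : Set (MulAut P)).ncard := rfl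
    rw [this, hset]
    exact Set.ncard_eq_three.2 ⟨_, _, _, D01, D02, D12, rfl⟩
  · change closure {T : MulAut P | T ∈ I ∧ T ≠ 1 ∧ ¬ nb T} = I
    rw [hset]
    apply le_antisymm
    · rw [closure_le]
      rintro _ (rfl | rfl | rfl)
      · exact T0.2
      · exact T1.2
      · exact T2.2
    · intro T hT
      have c0 : (T0 : MulAut P) ∈ closure {(T0 : MulAut P), (T1 : MulAut P), (T2 : MulAut P)} := subset_closure (Or.inl rfl)
      have c1 : (T1 : MulAut P) ∈ closure {(T0 : MulAut P), (T1 : MulAut P), (T2 : MulAut P)} := subset_closure (Or.inr (Or.inl rfl))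
      have c2 : (T2 : MulAut P) ∈ closure {(T0 : MulAut P), (T1 : MulAut P), (T2 : MulAut P)} := subset_closure (Or.inr (Or.inr rfl))
      rcases hcases ⟨T, hT⟩ with h | h | h | h | h | h | h | h <;> have h' : T = _ := congrArg Subtype.val h
      · rw [h']; exact one_mem _
      · rw [h']; exact c0
      · rw [h']; exact c1
      · rw [h']; exact c2
      · rw [h']; exact mul_mem c0 c1
      · rw [h']; exact mul_mem c0 c2
      · rw [h']; exact mul_mem c1 c2
      · rw [h']; exact mul_mem (mul_mem c0 c1) c2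
  · ext S
    simp only [SetLike.mem_coe, Set.mem_setOf_eq]
    constructor
    · intro hS
      have B0 : ∀ a : I, a ≠ 1 → ¬ nb a → (a : MulAut P) ∉ I₀ := fun a ha hna hm => hna (hdisj a hm (hneP a ha))
      rcases hcases ⟨S, hI0 S hS⟩ with h | h | h | h | h | h | h | h <;> have h' : S = _ := congrArg Subtype.val h
      · exact ⟨T0, T0, T0.2, T0.2, hneP _ n0, hneP _ n0, b0, b0, by rw [h', hsq T0 T0.2]; rfl⟩
      · rw [h'] at hS; exact absurd hS (B0 T0 n0 b0)
      · rw [h'] at hS; exact absurd hS (B0 T1 n1 b1)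
      · rw [h'] at hS; exact absurd hS (B0 T2 n2 b2)
      · exact ⟨T0, T1, T0.2, T1.2, hneP _ n0, hneP _ n1, b0, b1, h'⟩
      · exact ⟨T0, T2, T0.2, T2.2, hneP _ n0, hneP _ n2, b0, b2, h'⟩
      · exact ⟨T1, T2, T1.2, T2.2, hneP _ n1, hneP _ n2, b1, b2, h'⟩
      · exfalso
        rw [h'] at hS
        apply B0 T2 n2 b2
        have e1 : (T2 : MulAut P) = ((T0 * T1 : I) : MulAut P) * (N : MulAut P) := by
          have : T2 = (T0 * T1) * N := by
            rw [hNdef, ← mul_assoc, hsI, one_mul]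
          exact congrArg Subtype.val this
        rw [e1]
        exact mul_mem m01 hS
    · rintro ⟨T, T', g1, g2, g3, g4, g5, g6, rfl⟩
      exact hprod T g1 T' g2 g3 g4 g5 g6


end Cfsg.Agent.S4412
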