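import Cfsg.Statements.S4413
import Cfsg.Agent.H19_XspD
import Cfsg.Agent.S0824

set_option autoImplicit false
open Cfsg

namespace Cfsg.Agent.S4413

open H19.XspA

theorem card_inn {G : Type*} [Group G] [Finite G] : Nat.card (MulAut.conj : G →* MulAut G).range * Nat.card (Subgroup.center G) = Nat.card G := by
  have h1 := Subgroup.index_ker (MulAut.conj : G →* MulAut G)
  have h2 : (MulAut.conj : G →* MulAut G).ker = Subgroup.center G := by
    ext g
    rw [MonoidHom.mem_ker, Subgroup.mem_center_iff]
    constructor
    · intro h x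
      have := congrArg (fun φ : MulAut G => φ x) h
      have h3 : g * x * g⁻¹ = x := this
      rw [mul_inv_eq_iff_eq_mul] at h3
      exact h3.symm
    · intro h
      ext x
      show g * x * g⁻¹ = x
      rw [← h x, mul_inv_cancel_right]
  rw [h2] at h1
  have h3 : Nat.card (MulAut.conj : G →* MulAut G).range = (Subgroup.center G).index := h1.symm
  rw [h3, mul_comm]
  exact Subgroup.card_mul_index _

/-- Let P be an extraspecial 2-group of order 32 with no elementary abelian subgroup of order 8 (the central product of a dihedral and a quaternion group of order 8). Then the inner automorphism group of P has order 16 and the outer automorphism group Aut(P)/Inn(P) is isomorphic to the symmetric group of degree 5; in particular Aut(P) has order 1920. -/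
theorem result {P : Type*} [Group P] [Finite P]
    (hex : Cfsg.IsExtraspecial 2 P) (h32 : Nat.card P = 32)
    (hminus : ∀ A : Subgroup P, Cfsg.IsElementaryAbelian 2 A → Nat.card ↥A ≤ 4)
    [(MulAut.conj : P →* MulAut P).range.Normal] :
    Nat.card ↥(MulAut.conj : P →* MulAut P).range = 16 ∧ Nat.card (MulAut P) = 1920 ∧
      Nonempty ((MulAut P ⧸ (MulAut.conj : P →* MulAut P).range) ≃* Equiv.Perm (Fin 5)) := by
  haveI : Fact (Nat.Prime 2) := ⟨Nat.prime_two⟩
  have hc : Nat.card P = 2 ^ (2 * 2 + 1) := by rw [h32]; norm_num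
  have hP : ¬ Plus P 2 := by
    rintro ⟨A, hA, hAc⟩
    have := hminus A hA
    omega
  have h1 := card_inn (G := P)
  rw [hex.2, h32] at h1
  have h16 : Nat.card (MulAut.conj : P →* MulAut P).range = 16 := by omega
  obtain ⟨e1⟩ := H19.XspD.out_minus hex hc hP
  obtain ⟨e2⟩ := Cfsg.Agent.S0824.result (F := ZMod 2) (ZMod.card 2)
  have e3 : (MulAut P ⧸ (MulAut.conj : P →* MulAut P).range) ≃* Equiv.Perm (Fin 5) := e1.trans e2
  refine ⟨h16, ?_, ⟨e3⟩⟩
  rw [Subgroup.card_eq_card_quotient_mul_card_subgroup (MulAut.conj : P →* MulAut P).range, h16, Nat.card_congr e3.toEquiv,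
    Nat.card_eq_fintype_card, Fintype.card_perm, Fintype.card_fin]
  rfl

end Cfsg.Agent.S4413
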