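import Cfsg.Statements.S4417
import Cfsg.Agent.H24_DLen
-- import your own Cfsg.Agent.* helpers here

set_option autoImplicit false
open Cfsg

namespace Cfsg.Agent.S4417


open Cfsg.Agent.H24.DLen

/-- Let F be a field with q elements, p a prime not dividing q, and e the multiplicative order of q modulo p; assume e ≤ n. Then every p-subgroup of GL_n(F) has derived length at most ⌊log₂(n/e)⌋ + 1: that term of its derived series is trivial (n/e is the integer quotient). -/
theorem result {F : Type*} [Field F] [Fintype F] (q : ℕ) (hF : Fintype.card F = q) (p : ℕ) [Fact p.Prime] (hpq : ¬ p ∣ q) (n e : ℕ) (he : e = orderOf (q : ZMod p)) (hen : e ≤ n) (P : Subgroup (GL (Fin n) F)) (hP : IsPGroup p P) : derivedSeries ↥P (Nat.log 2 (n / e) + 1) = ⊥ := by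
  classical
  rw [Subgroup.eq_bot_iff_forall]
  intro g hg
  let ρ : ↥P →* Module.End F (Fin n → F) :=
    ((Matrix.toLinAlgEquiv' (R := F) (n := Fin n)).toAlgHom : _ →* _).comp ((Units.coeHom _).comp P.subtype)
  have h1 := gen q hF hpq e he n P hP (Fin n → F) ρ (Module.finrank_fin_fun F) g hg
  have h2 : Matrix.toLinAlgEquiv' ((g : GL (Fin n) F) : Matrix (Fin n) (Fin n) F) = Matrix.toLinAlgEquiv' 1 := by
    rw [map_one]; exact h1
  have h3 := Matrix.toLinAlgEquiv'.injective h2
  exact Subtype.ext (Units.ext h3)


end Cfsg.Agent.S4417
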