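import Cfsg.Statements.S4420
import Mathlib
import Cfsg.Agent.H2_PGroup
import Cfsg.Agent.H24_Tools

set_option autoImplicit false
open Cfsg

namespace Cfsg.Agent.S4420

/-- Structure of groups in which every element outside some proper subgroup has square 1. Let H be a finite group with a proper subgroup A such that every element outside A has square 1. Then H has an abelian normal subgroup B of index 2 such that every element outside B is an involution inverting every element of B; and if H is not an elementary abelian 2-group, B is the only abelian normal subgroup of index 2 with this property. -/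
theorem result {H : Type*} [Group H] [Finite H] (A : Subgroup H) (hA : A ≠ ⊤) (hD : ∀ x : H, x ∉ A → x ^ 2 = 1) :
    ∃ B : Subgroup H, B.Normal ∧ IsMulCommutative ↥B ∧ B.index = 2 ∧
      (∀ x : H, x ∉ B → x ^ 2 = 1 ∧ ∀ b ∈ B, x * b * x⁻¹ = b⁻¹) ∧
      (¬ (IsMulCommutative H ∧ ∀ x : H, x ^ 2 = 1) →
        ∀ B' : Subgroup H, B'.Normal → IsMulCommutative ↥B' → B'.index = 2 →
          (∀ x : H, x ∉ B' → x ^ 2 = 1 ∧ ∀ b ∈ B', x * b * x⁻¹ = b⁻¹) → B' = B) := by
  -- x outside A inverts A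
  have hinv : ∀ x : H, x ∉ A → ∀ a ∈ A, x * a * x⁻¹ = a⁻¹ := by
    intro x hx a ha
    have h1 : x * a ∉ A := fun h => hx ((A.mul_mem_cancel_right ha).mp h)
    have h2 := hD _ h1
    have h3 := hD x hx
    rw [pow_two] at h2 h3
    have h4 : x⁻¹ = x := by rw [inv_eq_iff_mul_eq_one]; exact h3
    rw [h4, eq_inv_iff_mul_eq_one, mul_assoc (x * a)]
    exact h2
  obtain ⟨x, hx⟩ : ∃ x : H, x ∉ A := by
    by_contra hcon
    push Not at hcon
    exact hA (eq_top_iff.mpr (fun y _ => hcon y))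
  have hAc : ∀ a ∈ A, ∀ b ∈ A, a * b = b * a := by
    intro a ha b hb
    have h1 := hinv x hx a ha
    have h2 := hinv x hx b hb
    have h3 := hinv x hx (a * b) (A.mul_mem ha hb)
    have h4 : x * (a * b) * x⁻¹ = a⁻¹ * b⁻¹ := by rw [← h1, ← h2]; group
    rw [h4, mul_inv_rev] at h3
    have h5 := congrArg (fun t => t⁻¹) h3
    simp only [mul_inv_rev, inv_inv] at h5
    exact h5.symm
  have main : ∀ B : Subgroup H, B.Normal → IsMulCommutative ↥B → B.index = 2 →
      (∀ x : H, x ∉ B → x ^ 2 = 1 ∧ ∀ b ∈ B, x * b * x⁻¹ = b⁻¹) →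
      (¬ (IsMulCommutative H ∧ ∀ x : H, x ^ 2 = 1) →
        ∀ B' : Subgroup H, B'.Normal → IsMulCommutative ↥B' → B'.index = 2 →
          (∀ x : H, x ∉ B' → x ^ 2 = 1 ∧ ∀ b ∈ B', x * b * x⁻¹ = b⁻¹) → B' = B) := by
    intro B hBn hBc hBi hB hne B' hBn' hBc' hBi' hB'
    by_contra hBB
    apply hne
    obtain ⟨y, hyB', hyB⟩ : ∃ y : H, y ∈ B' ∧ y ∉ B := by
      by_contra hcon
      push Not at hcon
      apply hBB
      apply Subgroup.eq_of_le_of_card_ge hcon
      have e1 := B.card_mul_index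
      have e2 := B'.card_mul_index
      rw [hBi] at e1
      rw [hBi'] at e2
      omega
    have hsq : ∀ z : H, z ^ 2 = 1 := by
      intro z
      by_cases hzB : z ∈ B
      · by_cases hzB' : z ∈ B'
        · have h1 := (hB y hyB).2 z hzB
          have h2 := hBc'.is_comm.comm ⟨y, hyB'⟩ ⟨z, hzB'⟩
          have h3 : y * z = z * y := by simpa [Subtype.ext_iff] using h2
          rw [h3, mul_inv_cancel_right, eq_inv_iff_mul_eq_one] at h1
          rw [pow_two]; exact h1
        · exact (hB' z hzB').1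
      · exact (hB z hzB).1
    refine ⟨⟨⟨fun a b => ?_⟩⟩, hsq⟩
    have ha := hsq a
    have hb := hsq b
    have hab := hsq (a * b)
    rw [pow_two] at ha hb hab
    have h1 : a⁻¹ = a := by rw [inv_eq_iff_mul_eq_one]; exact ha
    have h2 : b⁻¹ = b := by rw [inv_eq_iff_mul_eq_one]; exact hb
    have h3 : (a * b)⁻¹ = a * b := by rw [inv_eq_iff_mul_eq_one]; exact hab
    rw [← h3, mul_inv_rev, h1, h2]
  suffices hex : ∃ B : Subgroup H, B.Normal ∧ IsMulCommutative ↥B ∧ B.index = 2 ∧
      (∀ x : H, x ∉ B → x ^ 2 = 1 ∧ ∀ b ∈ B, x * b * x⁻¹ = b⁻¹) by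
    obtain ⟨B, h1, h2, h3, h4⟩ := hex
    exact ⟨B, h1, h2, h3, h4, main B h1 h2 h3 h4⟩
  by_cases hidx : ∀ y : H, y ∉ A → x * y ∈ A
  · have hi : A.index = 2 := by
      rw [Subgroup.index_eq_two_iff]
      refine ⟨x, fun b => ?_⟩
      by_cases hb : b ∈ A
      · refine Or.inr ⟨hb, fun h => hx ?_⟩
        exact (A.mul_mem_cancel_left hb).mp h
      · have hbi : b⁻¹ ∉ A := fun h => hb ((A.inv_mem_iff).mp h)
        refine Or.inl ⟨?_, hb⟩
        have h1 := hidx _ hbi
        have h2 := A.inv_mem h1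
        rw [mul_inv_rev, inv_inv] at h2
        have h3 : x⁻¹ = x := by rw [inv_eq_iff_mul_eq_one, ← pow_two]; exact hD x hx
        rwa [h3] at h2
    exact ⟨A, Subgroup.normal_of_index_eq_two hi, ⟨⟨fun a b => Subtype.ext (hAc a a.2 b b.2)⟩⟩, hi,
      fun y hy => ⟨hD y hy, hinv y hy⟩⟩
  · push Not at hidx
    obtain ⟨y, hy, hxy⟩ := hidx
    have hsq : ∀ z : H, z ^ 2 = 1 := by
      intro z
      by_cases hz : z ∈ A
      · have h1 := hinv x hx z hz
        have h2 := hinv y hy _ (A.inv_mem hz)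
        have h3 := hinv _ hxy z hz
        have h4 : x * y * z * (x * y)⁻¹ = z := by
          have h5 := hinv y hy z hz
          have h6 := hinv x hx _ (A.inv_mem hz)
          calc x * y * z * (x * y)⁻¹ = x * (y * z * y⁻¹) * x⁻¹ := by group
            _ = x * z⁻¹ * x⁻¹ := by rw [h5]
            _ = z := by rw [h6, inv_inv]
        rw [h4, eq_inv_iff_mul_eq_one] at h3
        rw [pow_two]; exact h3
      · exact hD z hz
    have hc : ∀ a b : H, a * b = b * a := by
      intro a b
      have ha := hsq a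
      have hb := hsq b
      have hab := hsq (a * b)
      rw [pow_two] at ha hb hab
      have h1 : a⁻¹ = a := by rw [inv_eq_iff_mul_eq_one]; exact ha
      have h2 : b⁻¹ = b := by rw [inv_eq_iff_mul_eq_one]; exact hb
      have h3 : (a * b)⁻¹ = a * b := by rw [inv_eq_iff_mul_eq_one]; exact hab
      rw [← h3, mul_inv_rev, h1, h2]
    have hP : IsPGroup 2 H := fun z => ⟨1, by simpa using hsq z⟩
    obtain ⟨M, hM, -⟩ := Cfsg.Agent.H24.Tools.exists_coatom_ge hA
    have hMi := Cfsg.Agent.H2.PGroup.coatom_index hP hM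
    refine ⟨M, Cfsg.Agent.H2.PGroup.coatom_normal hP hM, ⟨⟨fun a b => Subtype.ext (hc a b)⟩⟩, hMi, fun z _ => ⟨hsq z, fun b _ => ?_⟩⟩
    rw [hc z b, mul_inv_cancel_right, eq_inv_iff_mul_eq_one, ← pow_two]
    exact hsq b

end Cfsg.Agent.S4420
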