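import Cfsg.Statements.S4540
import Cfsg.Agent.H25_Sub8

set_option autoImplicit false
open Cfsg

namespace Cfsg.Agent.S4540


/-- Let B be a 2-block of the finite group G (relative to a maximal ideal M of the algebraic integers containing 2) of defect d with defect group D. Let z be an element of D commuting with every element of D, and let b be a block of the centralizer C of z with defect group D that induces B (a major subsection (z, b)). If b has 2-regular rank at most three, then 3·k(B) ≤ 3·k₀(B) + 2·Σ 2 ^ h(χ), where k(B) is the number of members of B, k₀(B) the number of members of height zero, and the sum runs over the members χ of B of positive height h(χ); this bound is at most 3·2 ^ d, so in particular B contains at most 2 ^ d irreducible characters. -/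
theorem result {G : Type*} [Group G] [Finite G] (M : Ideal Cfsg.AlgInt) (hM : Cfsg.IsPModular 2 M) (B : Set (Cfsg.IrrCharacter G)) (hB : Cfsg.IsPBlock M B) (D : Subgroup G) (hD : Cfsg.IsDefectGroup 2 M B D) (z : G) (hzD : z ∈ D) (hzc : ∀ d ∈ D, d * z = z * d) (b : Set (Cfsg.IrrCharacter ↥(Subgroup.centralizer ({z} : Set G)))) (hb : Cfsg.IsInducedBlock M (Subgroup.centralizer ({z} : Set G)) b B) (hbD : Cfsg.IsDefectGroup 2 M b (D.subgroupOf (Subgroup.centralizer ({z} : Set G)))) (hl : Cfsg.blockRank 2 b ≤ 3) : 3 * Nat.card B ≤ 3 * Nat.card {χ : Cfsg.IrrCharacter G // χ ∈ B ∧ Cfsg.blockHeight 2 B (χ : G → ℂ) = 0} + 2 * (∑ᶠ χ ∈ {χ : Cfsg.IrrCharacter G | χ ∈ B ∧ 1 ≤ Cfsg.blockHeight 2 B (χ : G → ℂ)}, 2 ^ Cfsg.blockHeight 2 B (χ : G → ℂ)) ∧ 3 * Nat.card {χ : Cfsg.IrrCharacter G // χ ∈ B ∧ Cfsg.blockHeight 2 B (χ : G → ℂ) = 0} + 2 * (∑ᶠ χ ∈ {χ : Cfsg.IrrCharacter G | χ ∈ B ∧ 1 ≤ Cfsg.blockHeight 2 B (χ : G → ℂ)}, 2 ^ Cfsg.blockHeight 2 B (χ : G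 → ℂ)) ≤ 3 * 2 ^ Cfsg.blockDefect 2 B := by
  classical
  haveI := Fintype.ofFinite G
  haveI := hM.2.1
  haveI : Fact (Nat.Prime 2) := ⟨Nat.prime_two⟩
  haveI : Fintype (IrrCharacter G) := Fintype.ofFinite _
  haveI : Fintype (Subgroup.centralizer ({z} : Set G)) := Fintype.ofFinite _
  haveI : Fintype (IrrCharacter (Subgroup.centralizer ({z} : Set G))) := Fintype.ofFinite _
  obtain ⟨hmaj, hz⟩ := H25.Sub8.major_defect hM hB hD hzD hzc hb.1 hbD
  set s : Finset (IrrCharacter G) :=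
    Finset.univ.filter (fun χ => χ ∈ B ∧ blockHeight 2 B (χ : G → ℂ) = 0) with hs
  set t : Finset (IrrCharacter G) :=
    Finset.univ.filter (fun χ => χ ∈ B ∧ 1 ≤ blockHeight 2 B (χ : G → ℂ)) with ht
  obtain ⟨χ₀, hχ₀, hh⟩ := H10.BlockHZ.exists_height_zero (p := 2) hB
  have hmain := H25.Sub8.main hM hz hb hmaj hl s t (fun χ hχ => (Finset.mem_filter.1 hχ).2)
    (fun χ hχ => (Finset.mem_filter.1 hχ).2) ⟨χ₀, by rw [hs, Finset.mem_filter]; exact ⟨Finset.mem_univ _, hχ₀, hh⟩⟩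
  have hk : Nat.card {χ : Cfsg.IrrCharacter G // χ ∈ B ∧ Cfsg.blockHeight 2 B (χ : G → ℂ) = 0} = s.card := by
    rw [Nat.card_eq_fintype_card, Fintype.card_subtype]
  have ht' : ∑ᶠ χ ∈ {χ : Cfsg.IrrCharacter G | χ ∈ B ∧ 1 ≤ Cfsg.blockHeight 2 B (χ : G → ℂ)},
      2 ^ Cfsg.blockHeight 2 B (χ : G → ℂ) = ∑ χ ∈ t, 2 ^ Cfsg.blockHeight 2 B (χ : G → ℂ) := by
    rw [finsum_mem_eq_finite_toFinset_sum _ (Set.toFinite _)]
    refine Finset.sum_congr ?_ fun _ _ => rfl
    ext χ
    rw [Set.Finite.mem_toFinset, ht, Finset.mem_filter]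
    simp
  rw [hk, ht']
  refine ⟨?_, hmain⟩
  have hB' : Nat.card B = s.card + t.card := by
    rw [Nat.card_eq_fintype_card, Fintype.card_subtype, hs, ht, ← Finset.card_union_of_disjoint]
    · congr 1
      ext χ
      simp only [Finset.mem_filter, Finset.mem_univ, true_and, Finset.mem_union]
      constructor
      · intro h
        by_cases h0 : blockHeight 2 B (χ : G → ℂ) = 0
        · exact Or.inl ⟨h, h0⟩
        · exact Or.inr ⟨h, by omega⟩
      · rintro (h | h)
        · exact h.1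
        · exact h.1
    · rw [Finset.disjoint_left]
      intro χ h1 h2
      have h3 := (Finset.mem_filter.1 h1).2.2
      have h4 := (Finset.mem_filter.1 h2).2.2
      omega
  rw [hB']
  have h5 : 3 * t.card ≤ 2 * ∑ χ ∈ t, 2 ^ Cfsg.blockHeight 2 B (χ : G → ℂ) := by
    have : 3 * t.card = ∑ χ ∈ t, 3 := by rw [Finset.sum_const, smul_eq_mul, mul_comm]
    rw [this, Finset.mul_sum]
    refine Finset.sum_le_sum fun χ hχ => ?_
    have h6 : 1 ≤ blockHeight 2 B (χ : G → ℂ) := (Finset.mem_filter.1 hχ).2.2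
    have h7 : 2 ^ 1 ≤ 2 ^ blockHeight 2 B (χ : G → ℂ) := Nat.pow_le_pow_right (by norm_num) h6
    omega
  omega

end Cfsg.Agent.S4540
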