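import Cfsg.Statements.S4541
import Cfsg.Agent.H25_Sub4

set_option autoImplicit false
open Cfsg

namespace Cfsg.Agent.S4541


/-- Let B be a 2-block of the finite group G (relative to a maximal ideal M of the algebraic integers containing 2), u a 2-element, and b a block of the centralizer of u inducing B (a subsection (u, b)), of defect q and 2-regular rank l; write s for the integer square root of l and k₀(B) for the number of members of B of height zero. If s is odd then k₀(B) ≤ s·2 ^ q, and otherwise (s + 1)·k₀(B) ≤ l·2 ^ q; in particular k₀(B) ≤ 2 ^ q when l ≤ 3. -/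
theorem result {G : Type*} [Group G] [Finite G] (M : Ideal Cfsg.AlgInt) (hM : Cfsg.IsPModular 2 M) (B : Set (Cfsg.IrrCharacter G)) (hB : Cfsg.IsPBlock M B) (u : G) (hu : ∃ j : ℕ, orderOf u = 2 ^ j) (b : Set (Cfsg.IrrCharacter ↥(Subgroup.centralizer ({u} : Set G)))) (hb : Cfsg.IsInducedBlock M (Subgroup.centralizer ({u} : Set G)) b B) : (Odd (Nat.sqrt (Cfsg.blockRank 2 b)) → Nat.card {χ : Cfsg.IrrCharacter G // χ ∈ B ∧ Cfsg.blockHeight 2 B (χ : G → ℂ) = 0} ≤ Nat.sqrt (Cfsg.blockRank 2 b) * 2 ^ Cfsg.blockDefect 2 b) ∧ (¬ Odd (Nat.sqrt (Cfsg.blockRank 2 b)) → (Nat.sqrt (Cfsg.blockRank 2 b) + 1) * Nat.card {χ : Cfsg.IrrCharacter G // χ ∈ B ∧ Cfsg.blockHeight 2 B (χ : G → ℂ) = 0} ≤ Cfsg.blockRank 2 b * 2 ^ Cfsg.blockDefect 2 b) ∧ (Cfsg.blockRank 2 b ≤ 3 → Nat.card {χ : Cfsg.IrrCharacter G // χ ∈ B ∧ Cfsg.blockHeight 2 B (χ : G → ℂ) = 0} ≤ 2 ^ Cfsg.blockDefect 2 b) := by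
  classical
  haveI := Fintype.ofFinite G
  haveI : Fintype (IrrCharacter G) := Fintype.ofFinite _
  haveI : Fintype (Subgroup.centralizer ({u} : Set G)) := Fintype.ofFinite _
  haveI : Fintype (IrrCharacter (Subgroup.centralizer ({u} : Set G))) := Fintype.ofFinite _
  set s : Finset (IrrCharacter G) :=
    Finset.univ.filter (fun χ => χ ∈ B ∧ blockHeight 2 B (χ : G → ℂ) = 0) with hs
  obtain ⟨h1, h2⟩ := H25.Sub4.height_zero_facts hM hu hb s (fun χ hχ => (Finset.mem_filter.1 hχ).2)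
  have hk : Nat.card {χ : Cfsg.IrrCharacter G // χ ∈ B ∧ Cfsg.blockHeight 2 B (χ : G → ℂ) = 0} = s.card := by
    rw [Nat.card_eq_fintype_card, Fintype.card_subtype]
  rw [hk]
  set l := blockRank 2 b with hl
  set q := 2 ^ blockDefect 2 b with hq
  have h2' : ∑ χ ∈ s, H25.Sub4.Tz u b χ ≤ (q : ℤ) * l := by rw [hq]; push_cast; exact h2
  have h1' : ∀ χ ∈ s, ¬ (2 : ℤ) ∣ H25.Sub4.Tz u b χ ∧ 1 ≤ H25.Sub4.Tz u b χ ∧
      (s.card : ℤ) ≤ (q : ℤ) * H25.Sub4.Tz u b χ := by
    intro χ hχ; rw [hq]; push_cast; exact h1 χ hχ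
  have hq0 : (0 : ℤ) ≤ q := by positivity
  set a := Nat.sqrt l with ha
  have ha1 : a * a ≤ l := Nat.sqrt_le l
  have ha2 : l ≤ a * a + a + a := Nat.sqrt_le_add l
  -- if all `T ≥ m` then `m k₀ ≤ q l`
  have hall : ∀ m : ℕ, (∀ χ ∈ s, (m : ℤ) ≤ H25.Sub4.Tz u b χ) → m * s.card ≤ l * q := by
    intro m hm
    have h3 : ∑ χ ∈ s, (m : ℤ) ≤ ∑ χ ∈ s, H25.Sub4.Tz u b χ := Finset.sum_le_sum hm
    rw [Finset.sum_const, nsmul_eq_mul] at h3
    have h4 : ((m * s.card : ℕ) : ℤ) ≤ ((l * q : ℕ) : ℤ) := by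
      push_cast
      linarith
    exact_mod_cast h4
  have hone : ∀ (m : ℕ) (χ : IrrCharacter G), χ ∈ s → H25.Sub4.Tz u b χ ≤ m → s.card ≤ m * q := by
    intro m χ hχ hm
    have h3 := (h1' χ hχ).2.2
    have h4 : (q : ℤ) * H25.Sub4.Tz u b χ ≤ (q : ℤ) * m := mul_le_mul_of_nonneg_left hm hq0
    have h5 : (s.card : ℤ) ≤ ((m * q : ℕ) : ℤ) := by push_cast; linarith
    exact_mod_cast h5
  have hoddcase : Odd a → s.card ≤ a * q := by
    intro hodd
    by_cases hex : ∃ χ ∈ s, H25.Sub4.Tz u b χ ≤ a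
    · obtain ⟨χ, hχ, h3⟩ := hex
      exact hone a χ hχ h3
    · push Not at hex
      have h3 := hall (a + 2) (fun χ hχ => by
        have h4 := hex χ hχ
        have h5 := (h1' χ hχ).1
        obtain ⟨c, hc⟩ := hodd
        push_cast
        omega)
      have h4 : l * q ≤ (a + 2) * (a * q) := by nlinarith [Nat.zero_le q]
      exact Nat.le_of_mul_le_mul_left (h3.trans h4) (by omega)
  have hevencase : ¬ Odd a → (a + 1) * s.card ≤ l * q := by
    intro heven
    by_cases hex : ∃ χ ∈ s, H25.Sub4.Tz u b χ ≤ a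
    · obtain ⟨χ, hχ, h3⟩ := hex
      have h5 := (h1' χ hχ).1
      have h6 := (h1' χ hχ).2.1
      obtain ⟨c, hc⟩ := Nat.not_odd_iff_even.1 heven
      have ha0 : 1 ≤ a := by omega
      have h7 := hone (a - 1) χ hχ (by
        rw [Nat.cast_sub ha0]; push_cast
        omega)
      obtain ⟨e, he⟩ : ∃ e, a = e + 1 := ⟨a - 1, by omega⟩
      have e1 : a - 1 = e := by omega
      rw [e1] at h7
      calc (a + 1) * s.card ≤ (a + 1) * (e * q) := Nat.mul_le_mul_left _ h7
        _ = (a * a - 1) * q := by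
            rw [he]
            have : (e + 1) * (e + 1) - 1 = e * (e + 2) := by
              have : (e + 1) * (e + 1) = e * (e + 2) + 1 := by ring
              omega
            rw [this]; ring
        _ ≤ l * q := Nat.mul_le_mul_right _ (by omega)
    · push Not at hex
      exact hall (a + 1) (fun χ hχ => by have := hex χ hχ; push_cast; omega)
  refine ⟨hoddcase, hevencase, fun h3 => ?_⟩
  have hcases : a = 0 ∨ a = 1 := by
    have : a < 2 := by
      by_contra h
      have : 2 * 2 ≤ a * a := Nat.mul_le_mul (by omega) (by omega)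
      omega
    omega
  rcases hcases with h4 | h4
  · have h5 := hevencase (by rw [h4]; simp)
    rw [h4] at h5 ha2
    have : l = 0 := by omega
    rw [this] at h5
    omega
  · have h5 := hoddcase (by rw [h4]; exact odd_one)
    rw [h4] at h5
    omega

end Cfsg.Agent.S4541
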