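import Cfsg.Statements.S4549
import Cfsg.Agent.H3_BlkGal
import Cfsg.Agent.H10_BlockKer
import Cfsg.Agent.H2_Basic

set_option autoImplicit false
open Cfsg

namespace Cfsg.Agent.S4549

open scoped ComplexConjugate
open Cfsg.Agent Cfsg.Agent.H3.CharBasic Cfsg.Agent.H3.CharIrr Cfsg.Agent.H3.CharComplete Cfsg.Agent.H3.CharInd
  Cfsg.Agent.H3.CharMult Cfsg.Agent.H3.Clifford Cfsg.Agent.H3.PRes
  Cfsg.Agent.H3.GalProd Cfsg.Agent.H3.GalOrb Cfsg.Agent.H10.BlockLoc Cfsg.Agent.H10.BlockAlg Cfsg.Agent.H10.BlockIdem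
  Cfsg.Agent.H10.BlockMax Cfsg.Agent.H10.BlockCov Cfsg.Agent.H10.BlockOrth Cfsg.Agent.H3.BlkGal

theorem centralizer_inv' {G : Type*} [Group G] (g : G) : Subgroup.centralizer ({g⁻¹} : Set G) =
    Subgroup.centralizer ({g} : Set G) := by
  ext x
  rw [Subgroup.mem_centralizer_singleton_iff, Subgroup.mem_centralizer_singleton_iff]
  constructor
  · intro h
    have h1 : (x * g⁻¹)⁻¹ = (g⁻¹ * x)⁻¹ := by rw [h]
    simp only [mul_inv_rev, inv_inv] at h1
    calc x * g = x * (g * x⁻¹) * x := by group
      _ = x * (x⁻¹ * g) * x := by rw [h1]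
      _ = g * x := by group
  · intro h
    calc x * g⁻¹ = g⁻¹ * (g * x) * g⁻¹ := by group
      _ = g⁻¹ * (x * g) * g⁻¹ := by rw [h]
      _ = g⁻¹ * x := by group

theorem conj_mem_principal' {G : Type*} [Group G] [Fintype G] {M : Ideal AlgInt} {χ ψ : IrrCharacter G}
    (hχ : χ ∈ principalBlock M G) (hψ : ∀ g, (ψ : G → ℂ) g = conj ((χ : G → ℂ) g)) :
    ψ ∈ principalBlock M G := by
  intro g
  have h := hχ g⁻¹
  have h1 : centralChar (ψ : G → ℂ) g = centralChar (χ : G → ℂ) g⁻¹ := by
    unfold centralChar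
    rw [centralizer_inv', hψ g, hψ 1, ← IsChar.inv_eq_conj (IsIrr.isCharacter χ.2),
      ← IsChar.inv_eq_conj (IsIrr.isCharacter χ.2), inv_one]
  have h2 : centralChar (fun _ : G => (1 : ℂ)) g = centralChar (fun _ : G => (1 : ℂ)) g⁻¹ := by
    unfold centralChar
    rw [centralizer_inv']
  rw [h1, h2]
  exact h

/-- Let G be a finite group and M a maximal ideal of the algebraic integers containing 2. Let k be a natural number with g ^ k = g ^ 3 for every 2-element g and g ^ k = g for every element g of odd order (such k exist); an irreducible character χ is unchanged by g ↦ g ^ k exactly when it is fixed by the field automorphism that cubes the 2-power roots of unity and fixes the roots of unity of odd order. Then G has a normal 2-complement if and only if every member χ of the principal 2-block of odd degree with χ (g ^ k) = χ g for all g has degree one. -/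
theorem result {G : Type*} [Group G] [Finite G] (M : Ideal Cfsg.AlgInt) (hM : Cfsg.IsPModular 2 M) (k : ℕ) (hk₁ : ∀ g : G, (∃ j : ℕ, orderOf g = 2 ^ j) → g ^ k = g ^ 3) (hk₂ : ∀ g : G, Odd (orderOf g) → g ^ k = g) : Cfsg.HasNormalPComplement 2 G ↔ ∀ χ ∈ Cfsg.principalBlock M G, Odd (Cfsg.charDegree (χ : G → ℂ)) → (∀ g : G, (χ : G → ℂ) (g ^ k) = (χ : G → ℂ) g) → Cfsg.charDegree (χ : G → ℂ) = 1 := by
  classical
  haveI : Fintype G := Fintype.ofFinite _
  haveI hp : Fact (Nat.Prime 2) := ⟨Nat.prime_two⟩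
  haveI := hM.2.1
  have hk₂' : ∀ g : G, ¬ 2 ∣ orderOf g → g ^ k = g := fun g hg => hk₂ g (Nat.odd_iff.mpr (by omega))
  have hk : (Nat.card G).Coprime k := coprime_of_pow Nat.prime_two hk₁ (by decide) hk₂'
  constructor
  · intro h χ hχ hodd _
    obtain ⟨N, hN, hNp, j, hj⟩ := H2.Basic.npc_iff.1 h
    haveI : Fintype N := Fintype.ofFinite _
    have hker := H10.BlockKer.principal_ker hM N hNp hχ
    have h2 : classInner (fun n : N => (χ : G → ℂ) n) (fun _ => 1) ≠ 0 := by
      have h3 : (fun n : N => (χ : G → ℂ) n) = ((χ : G → ℂ) 1) • (fun _ : N => (1 : ℂ)) := by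
        funext n
        rw [Pi.smul_apply, smul_eq_mul, mul_one]
        exact hker n n.2
      rw [h3, ci_smul_left, ci_irr_self isIrr_one, mul_one]
      exact IsIrr.one_ne_zero χ.2
    obtain ⟨b, hb, hbi⟩ := Cfsg.Agent.H3.Lift.degree_dvd N χ.2 isIrr_one h2
    rw [mul_one] at hb
    rw [charDegree_eq hb] at hodd ⊢
    rw [hj] at hbi
    obtain ⟨i, -, hi⟩ := (Nat.dvd_prime_pow hp.out).1 hbi
    cases i with
    | zero => rw [hi, pow_zero]
    | succ i =>
      exfalso
      rw [hi, Nat.odd_iff, pow_succ] at hodd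
      omega
  · intro hall
    obtain ⟨N, hNdef⟩ : ∃ N, N = pResidual 2 G := ⟨_, rfl⟩
    haveI hN : N.Normal := by rw [hNdef]; infer_instance
    haveI : Fintype N := Fintype.ofFinite _
    haveI : Fintype (IrrCharacter N) := Fintype.ofFinite _
    obtain ⟨j, hj⟩ := index_pResidual (G := G) 2
    rw [← hNdef] at hj
    have hNr : pResidual 2 N = ⊤ := by
      rw [hNdef]; exact H13.Sgn.pResidual_pResidual 2 G
    obtain ⟨P⟩ : Nonempty (Sylow 2 G) := inferInstance
    have htop : N ⊔ (P : Subgroup G) = ⊤ := by rw [hNdef]; exact H17.Base.pResidual_sup_sylow P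
    rw [H2.Basic.npc_iff]
    refine ⟨N, hN, ?_, j, hj⟩
    intro h2N
    -- the characters of `N`
    let T := {θ : IrrCharacter N // θ ∈ principalBlock M N ∧ Odd (charDegree (θ : N → ℂ)) ∧
      ∀ n : N, (θ : N → ℂ) (n ^ k) = (θ : N → ℂ) n}
    have hTev : Even (Nat.card T) := by
      refine result4550 (G := N) M hM (even_iff_two_dvd.2 h2N) k ?_ ?_
      · rintro g ⟨i, hi⟩
        apply Subtype.ext
        rw [Subgroup.coe_pow, Subgroup.coe_pow]
        exact hk₁ g ⟨i, by rw [Subgroup.orderOf_coe, hi]⟩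
      · intro g hg
        apply Subtype.ext
        rw [Subgroup.coe_pow]
        exact hk₂ g (by rw [Subgroup.orderOf_coe]; exact hg)
    have hone : ∀ g : G, cjI hN g (⟨fun _ => 1, isIrr_one⟩ : IrrCharacter N) = ⟨fun _ => 1, isIrr_one⟩ := by
      intro g
      apply Subtype.ext
      rw [cjI_coe]; rfl
    letI : MulAction (P : Subgroup G) T :=
      { smul := fun x θ => ⟨cjI hN (x : G)⁻¹ θ.1, by
            have h1 := sameBlock_cjI hN (θ := (⟨fun _ => 1, isIrr_one⟩ : IrrCharacter N)) (θ' := θ.1) θ.2.1 (x : G)⁻¹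
            rw [hone] at h1
            exact h1, by
            have h1 : charDegree ((cjI hN (x : G)⁻¹ θ.1 : IrrCharacter N) : N → ℂ) = charDegree (θ.1 : N → ℂ) := by
              unfold charDegree
              rw [cjI_coe, cj_apply_one]
            rw [h1]; exact θ.2.2.1, by
            intro n
            rw [cjI_coe]
            have h1 := θ.2.2.2 ⟨(x : G)⁻¹ * n * (x : G)⁻¹⁻¹, hN.conj_mem n n.2 _⟩
            have h2 : (⟨(x : G)⁻¹ * n * (x : G)⁻¹⁻¹, hN.conj_mem n n.2 _⟩ : N) ^ k =
                ⟨(x : G)⁻¹ * (n ^ k : N) * (x : G)⁻¹⁻¹, hN.conj_mem _ (n ^ k).2 _⟩ := by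
              apply Subtype.ext
              show ((x : G)⁻¹ * n * (x : G)⁻¹⁻¹) ^ k = (x : G)⁻¹ * ((n ^ k : N) : G) * (x : G)⁻¹⁻¹
              rw [Subgroup.coe_pow, conj_pow]
            rw [h2] at h1
            exact h1⟩
        one_smul := fun θ => Subtype.ext (by
          show cjI hN ((1 : (P : Subgroup G)) : G)⁻¹ θ.1 = θ.1
          rw [Subgroup.coe_one, inv_one, cjI_one])
        mul_smul := fun x y θ => Subtype.ext (by
          show cjI hN ((x * y : (P : Subgroup G)) : G)⁻¹ θ.1 = cjI hN (x : G)⁻¹ (cjI hN (y : G)⁻¹ θ.1)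
          rw [Subgroup.coe_mul, mul_inv_rev, cjI_cjI]) }
    have hmod := P.2.card_modEq_card_fixedPoints T
    -- every fixed point is linear
    have hlin : ∀ θ : MulAction.fixedPoints (P : Subgroup G) T, (θ.1.1 : N → ℂ) 1 = 1 := by
      rintro ⟨⟨θ, h1, h2, h4⟩, hθ⟩
      have hfix : ∀ x ∈ (P : Subgroup G), cj hN x (θ : N → ℂ) = θ := by
        intro x hx
        have h1 := hθ ⟨x⁻¹, (P : Subgroup G).inv_mem hx⟩
        have h2 : cjI hN (x⁻¹)⁻¹ θ = θ := congrArg Subtype.val h1
        rw [inv_inv] at h2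
        exact congrArg Subtype.val h2
      show (θ : N → ℂ) 1 = 1
      have hinv : ∀ g, cj hN g (θ : N → ℂ) = θ := inv_of_sylow htop (IsIrr.isClass θ.2) hfix
      have hd := detOrder_coprime hNr (IsIrr.isCharacter θ.2)
      have h2' : ¬ 2 ∣ charDegree (θ : N → ℂ) := by
        rw [Nat.odd_iff] at h2; omega
      obtain ⟨χ, ⟨hχ, hχN, hχd⟩, huniq⟩ := S0867.result N (θ : N → ℂ) θ.2 (fun g n => congrFun (hinv g) n) (charDegree (θ : N → ℂ)) (charDegree_cast (IsIrr.isCharacter θ.2)) (by
        rw [hj]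
        apply Nat.Coprime.pow_left
        rw [Nat.coprime_mul_iff_right]
        exact ⟨hd.symm, (Nat.Prime.coprime_iff_not_dvd hp.out).mpr h2'⟩)
      have h5 := huniq (fun g => χ (g ^ k)) (isIrr_pow hk hχ) (fun m => by
        show χ ((m : G) ^ k) = (θ : N → ℂ) m
        rw [← Subgroup.coe_pow, hχN]
        exact h4 m) (by
        rw [hj]
        apply Nat.Coprime.pow_left
        have h2 := H3.GlCyc.detOrder_pow hk hχ
        apply Nat.Coprime.coprime_dvd_right h2
        rw [hχd]; exact hd.symm)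
      have hdeg : charDegree χ = charDegree (θ : N → ℂ) := by
        unfold charDegree
        have := hχN 1
        rw [Subgroup.coe_one] at this
        rw [this]
      have h6 := hall ⟨χ, hχ⟩ (block_up hM N hj (χ := ⟨χ, hχ⟩) (θ := θ) hχN h1) (by
        show Odd (charDegree χ)
        rw [hdeg]; exact h2) (fun g => congrFun h5 g)
      have h7 : charDegree (θ : N → ℂ) = 1 := by rw [← hdeg]; exact h6
      have h8 := charDegree_cast (IsIrr.isCharacter θ.2)
      rw [h7, Nat.cast_one] at h8
      exact h8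
    -- complex conjugation on the fixed points
    let F := MulAction.fixedPoints (P : Subgroup G) T
    let c : F → F := fun θ => ⟨⟨⟨fun n => conj ((θ.1.1 : N → ℂ) n), IsIrr.conj θ.1.1.2⟩,
      conj_mem_principal' θ.1.2.1 (fun n => rfl), by
        have h1 : charDegree (fun n => conj ((θ.1.1 : N → ℂ) n)) = charDegree (θ.1.1 : N → ℂ) := by
          unfold charDegree
          rw [Complex.conj_re]
        show Odd (charDegree (fun n => conj ((θ.1.1 : N → ℂ) n)))
        rw [h1]; exact θ.1.2.2.1, fun n => by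
        show conj ((θ.1.1 : N → ℂ) (n ^ k)) = conj ((θ.1.1 : N → ℂ) n)
        rw [θ.1.2.2.2]⟩, by
        intro x
        apply Subtype.ext
        apply Subtype.ext
        funext n
        have h1 := θ.2 x
        have h2 := congrArg (fun t : T => conj ((t.1 : N → ℂ) n)) h1
        exact h2⟩
    have hcc : c^[2 ^ 1] = id := by
      funext θ
      apply Subtype.ext
      apply Subtype.ext
      apply Subtype.ext
      funext n
      show conj (conj ((θ.1.1 : N → ℂ) n)) = (θ.1.1 : N → ℂ) n
      rw [Complex.conj_conj]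
    have hfm := card_fixed_mod c hcc
    have hone' : Nat.card {θ // c θ = θ} = 1 := by
      rw [Nat.card_eq_one_iff_unique]
      have hz : ∀ θ : {θ // c θ = θ}, (θ.1.1.1 : N → ℂ) = fun _ => 1 := by
        intro θ
        obtain ⟨θ, hθ⟩ := θ
        show (θ.1.1 : N → ℂ) = fun _ => 1
        obtain ⟨f, hf⟩ := IsChar.hom_units_of_one (IsIrr.isCharacter θ.1.1.2) (hlin θ)
        have hreal : ∀ n, conj ((θ.1.1 : N → ℂ) n) = (θ.1.1 : N → ℂ) n := by
          intro n
          exact congrArg (fun t : F => (t.1.1 : N → ℂ) n) hθ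
        have hf2 : ∀ n, f n * f n = 1 := by
          intro n
          have h1 := IsChar.inv_eq_conj (IsIrr.isCharacter θ.1.1.2) n
          rw [hreal, hf, hf, map_inv] at h1
          have h2 : (f n)⁻¹ = f n := Units.ext h1
          nth_rewrite 1 [← h2]
          exact inv_mul_cancel _
        have hf1 : f = 1 := by
          have h1 : (⊤ : Subgroup N) ≤ f.ker := by
            rw [← hNr, pResidual, Subgroup.closure_le]
            intro n hn
            rw [SetLike.mem_coe, MonoidHom.mem_ker]
            have h3 : orderOf (f n) ∣ 2 := orderOf_dvd_of_pow_eq_one (by rw [pow_two]; exact hf2 n)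
            have h4 : orderOf (f n) ∣ orderOf n := orderOf_map_dvd f n
            exact orderOf_eq_one_iff.1 (Nat.eq_one_of_dvd_coprimes (show Nat.Coprime (orderOf n) 2 from hn) h4 h3)
          ext n
          have := h1 (Subgroup.mem_top n)
          rw [MonoidHom.mem_ker] at this
          rw [this]; rfl
        funext n
        rw [hf, hf1]; rfl
      refine ⟨⟨fun a b => ?_⟩, ⟨⟨⟨⟨⟨fun _ => 1, isIrr_one⟩, ?_, ?_, ?_⟩, ?_⟩, ?_⟩⟩⟩
      · apply Subtype.ext
        apply Subtype.ext
        apply Subtype.ext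
        apply Subtype.ext
        rw [hz a, hz b]
      · exact sameBlock_refl (⟨fun _ => 1, isIrr_one⟩ : IrrCharacter N)
      · show Odd (charDegree (fun _ : N => (1 : ℂ)))
        rw [charDegree_eq (d := 1) (by simp)]
        exact odd_one
      · intro n; rfl
      · intro x
        apply Subtype.ext
        exact hone _
      · apply Subtype.ext
        apply Subtype.ext
        apply Subtype.ext
        funext n
        show conj (1 : ℂ) = 1
        exact map_one _
    rw [hone'] at hfm
    rw [Nat.even_iff] at hTev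
    have e1 : Nat.card T % 2 = Nat.card (MulAction.fixedPoints (P : Subgroup G) T) % 2 := hmod
    have e2 : Nat.card (MulAction.fixedPoints (P : Subgroup G) T) % 2 = 1 % 2 := hfm
    omega

end Cfsg.Agent.S4549
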