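import Cfsg.Statements.S4551
import Mathlib
import Cfsg.Agent.H26_AD5

set_option autoImplicit false
open Cfsg

namespace Cfsg.Agent.S4551

open Cfsg.Agent.H26.AD Cfsg.Agent.H3.CharIrr Cfsg.Agent.H3.CharComplete Cfsg.Agent.H3.CharInd Cfsg.Agent.H3.Clifford Cfsg.Agent.H3.Lift Cfsg.Agent.H10.BlockKer Cfsg.Agent.H10.BlockLoc

open scoped ComplexConjugate


/-- Let N be a normal subgroup of the finite group G of index prime to p, P a Sylow p-subgroup of G with G = N·C_G(P), and M a maximal ideal of the algebraic integers containing p. Then restriction to N is a bijection from the principal p-block of G onto the principal p-block of N: every member of the principal block of G restricts to a member of the principal block of N, and every member of the principal block of N is the restriction of exactly one member of the principal block of G. -/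
theorem result {G : Type*} [Group G] [Finite G] (p : ℕ) [Fact p.Prime] (M : Ideal Cfsg.AlgInt) (hM : Cfsg.IsPModular p M) (N : Subgroup G) [N.Normal] (hidx : ¬ p ∣ N.index) (P : Sylow p G) (hsup : N ⊔ Subgroup.centralizer ((P : Subgroup G) : Set G) = ⊤) : (∀ χ ∈ Cfsg.principalBlock M G, ∃ θ ∈ Cfsg.principalBlock M ↥N, ∀ n : N, (χ : G → ℂ) n = (θ : N → ℂ) n) ∧ ∀ θ ∈ Cfsg.principalBlock M ↥N, ∃! χ : Cfsg.IrrCharacter G, χ ∈ Cfsg.principalBlock M G ∧ ∀ n : N, (χ : G → ℂ) n = (θ : N → ℂ) n := by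
  classical
  haveI := hM.2.1
  haveI : Fintype G := Fintype.ofFinite G
  haveI : Fintype N := Fintype.ofFinite _
  have hp : p.Prime := Fact.out
  have hPN : (P : Subgroup G) ≤ N := by
    intro x hx
    apply (QuotientGroup.eq_one_iff x).1
    apply orderOf_eq_one_iff.1
    obtain ⟨k, hk⟩ := IsPGroup.iff_orderOf.1 P.isPGroup' ⟨x, hx⟩
    rw [Subgroup.orderOf_mk] at hk
    have h1 : orderOf (QuotientGroup.mk x : G ⧸ N) ∣ p ^ k := by
      rw [← hk]; exact orderOf_map_dvd (QuotientGroup.mk' N) x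
    have h2 : orderOf (QuotientGroup.mk x : G ⧸ N) ∣ N.index := by
      rw [Subgroup.index_eq_card]; exact orderOf_dvd_natCard _
    exact Nat.eq_one_of_dvd_coprimes (Nat.Coprime.pow_left k ((Nat.Prime.coprime_iff_not_dvd hp).2 hidx)) h1 h2
  have hcov : CovD p N (P : Subgroup G) := by
    refine ⟨hPN, fun hd => P.not_dvd_index (hd.trans (Subgroup.relIndex_dvd_index_of_le hPN)), fun x => ?_⟩
    have hx : x ∈ N ⊔ Subgroup.centralizer ((P : Subgroup G) : Set G) := by rw [hsup]; trivial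
    obtain ⟨n, hn, c, hc, rfl⟩ := Subgroup.mem_sup_of_normal_left.1 hx
    exact ⟨n, hn, c, fun u hu => (Subgroup.mem_centralizer_iff.1 hc u hu).symm, rfl⟩
  have hex : ∀ θ ∈ principalBlock M N, ∃ χ : IrrCharacter G, χ ∈ principalBlock M G ∧ ∀ n : N, (χ : G → ℂ) n = (θ : N → ℂ) n := by
    intro θ hθ
    obtain ⟨f, hf, he⟩ := pb_of hθ
    obtain ⟨χ, hχ, hχe⟩ := ad_exists hM hcov hidx hf
    obtain ⟨h1, h2⟩ := (pb_top hM).1 hχ
    exact ⟨⟨χ, h1⟩, h2, fun n => (hχe n n.2).trans (he n)⟩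
  refine ⟨?_, ?_⟩
  · intro χ hχ
    obtain ⟨θ, hθ, hc⟩ := exists_constituent (IsChar.res (IsIrr.isCharacter χ.2) N) (fun h => by
      have := congrFun h 1
      exact Cfsg.Agent.H26.Basic.one_ne χ this)
    have hθB := below hM (inferInstance : N.Normal) hχ (θ := ⟨θ, hθ⟩) hc
    obtain ⟨χ₀, hχ₀, he⟩ := hex ⟨θ, hθ⟩ hθB
    have he' : (fun n : N => (χ₀ : G → ℂ) n) = θ := funext he
    have hirr : IsIrrCharacter N (fun n : N => (χ₀ : G → ℂ) n) := by rw [he']; exact hθ
    obtain ⟨β, hβ, hβk, hβχ⟩ := gallagher_exists (inferInstance : N.Normal) χ₀.2 hirr χ.2 (by rw [he']; exact hc)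
    have h1 : ∀ x, β x = β 1 := by
      intro x
      have h2 := avg_reg_mul (p := p) hβk (χ₀ : G → ℂ) x
      have h3 := avg_reg_mul (p := p) hβk (χ₀ : G → ℂ) 1
      rw [← hβχ, avg_reg hM inferInstance hcov hidx hχ, avg_reg hM inferInstance hcov hidx hχ₀] at h2 h3
      have h4 := avg_reg_ne hM inferInstance hcov hidx hχ₀ 1
      rw [avg_reg hM inferInstance hcov hidx hχ₀] at h4
      rw [h2] at h3
      exact mul_right_cancel₀ h4 h3
    have h2 : β = fun _ => (1:ℂ) := by
      by_contra hne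
      have h3 := ci_irr_ne hβ isIrr_one hne
      rw [classInner] at h3
      have h4 : ∑ g : G, β g * (starRingEnd ℂ) 1 = (Nat.card G : ℂ) * β 1 := by
        rw [Finset.sum_congr rfl fun g _ => by rw [h1 g, map_one, mul_one], Finset.sum_const, Finset.card_univ,
          ← Nat.card_eq_fintype_card, nsmul_eq_mul]
      rw [h4] at h3
      have h5 : (Nat.card G : ℂ) ≠ 0 := by exact_mod_cast Nat.card_pos.ne'
      rw [inv_mul_cancel_left₀ h5] at h3
      exact IsIrr.one_ne_zero hβ h3
    refine ⟨⟨θ, hθ⟩, hθB, fun n => ?_⟩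
    rw [hβχ, h2, Pi.mul_apply, one_mul]
    exact he n
  · intro θ hθ
    obtain ⟨χ, hχ, he⟩ := hex θ hθ
    refine ⟨χ, ⟨hχ, he⟩, ?_⟩
    rintro χ' ⟨hχ', he'⟩
    apply unique_ext hM inferInstance hcov hidx hχ hχ'
    · have : (fun n : N => (χ : G → ℂ) n) = (θ : N → ℂ) := funext he
      rw [this]; exact θ.2
    · intro n; rw [he, he']

end Cfsg.Agent.S4551
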