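import Cfsg.Statements.S4558
import Cfsg.Agent.H3_CharGal
import Cfsg.Agent.H3_CharInt

set_option autoImplicit false
open Cfsg

namespace Cfsg.Agent.S4558

open Cfsg.Agent.H3.CharBasic Cfsg.Agent.H3.CharGal Cfsg.Agent.H3.CharInt

theorem dvd_of_sum_zero {p : ℕ} [hp : Fact p.Prime] {d j : ℕ} (z : Fin d → ℂ) (hz : ∀ i, z i ^ (p ^ j) = 1) (h0 : ∑ i, z i = 0) : p ∣ d := by
  let R := integralClosure ℤ ℂ
  have hint : ∀ i, IsIntegral ℤ (z i) := fun i => by
    apply IsIntegral.of_pow (n := p ^ j) (Nat.pos_of_ne_zero (pow_ne_zero _ hp.1.ne_zero))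
    rw [hz i]; exact isIntegral_one
  let w : Fin d → R := fun i => ⟨z i, hint i⟩
  have hw : ∀ i, w i ^ (p ^ j) = 1 := fun i => Subtype.ext (by push_cast; exact hz i)
  have hw0 : ∑ i, w i = 0 := Subtype.ext (by push_cast; exact h0)
  have hnu : ((p : ℕ) : R) ∈ nonunits R := by
    intro hu
    obtain ⟨u, hu⟩ := hu.exists_right_inv
    have h1 : ((1 : ℕ) : ℂ) / (p : ℕ) = (u : ℂ) := by
      have h2 : (p : ℂ) * (u : ℂ) = 1 := by
        have := congrArg (fun x : R => (x : ℂ)) hu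
        push_cast at this
        exact this
      have hp0 : (p : ℂ) ≠ 0 := by exact_mod_cast hp.1.ne_zero
      rw [Nat.cast_one]
      field_simp
      rw [mul_comm] at h2
      first | exact h2.symm | (rw [mul_comm]; exact h2.symm)
    have h3 := dvd_of_isIntegral_div hp.1.ne_zero (by rw [h1]; exact u.2)
    exact hp.1.one_lt.ne' (Nat.dvd_one.mp h3)
  have hc := CharP.quotient R p hnu
  let q := Ideal.Quotient.mk (Ideal.span ({(p : R)} : Set R))
  have h1 : q (d : R) = 0 := by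
    have h2 : (d : R) = ∑ i, w i ^ (p ^ j) := by
      rw [Finset.sum_congr rfl fun i _ => hw i]; simp
    rw [h2, map_sum, Finset.sum_congr rfl fun i _ => map_pow q (w i) (p ^ j), ← sum_pow_char_pow, ← map_sum, hw0, map_zero,
      zero_pow (pow_ne_zero _ hp.1.ne_zero)]
  rw [Ideal.Quotient.eq_zero_iff_mem, Ideal.mem_span_singleton] at h1
  obtain ⟨r, hr⟩ := h1
  apply dvd_of_isIntegral_div hp.1.ne_zero
  have h3 : ((d : ℕ) : ℂ) / (p : ℕ) = (r : ℂ) := by
    have h4 := congrArg (fun x : R => (x : ℂ)) hr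
    push_cast at h4
    rw [h4]
    have hp0 : (p : ℂ) ≠ 0 := by exact_mod_cast hp.1.ne_zero
    field_simp
  rw [h3]
  exact r.2

/-- Let χ be a character of the finite group G and g an element of p-power order for the prime p. If χ g = 0, then p divides the degree of χ. -/
theorem result {G : Type*} [Group G] [Finite G] (p : ℕ) [Fact p.Prime] (χ : G → ℂ) (hχ : Cfsg.IsCharacter G χ) (g : G) (hg : ∃ j : ℕ, orderOf g = p ^ j) (h0 : χ g = 0) : p ∣ Cfsg.charDegree χ := by
  obtain ⟨j, hj⟩ := hg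
  obtain ⟨d, z, hd, hz, hc⟩ := IsChar.exists_roots hχ (p ^ j) (pow_ne_zero _ (Fact.out : p.Prime).ne_zero) g (by rw [← hj]; exact pow_orderOf_eq_one g)
  have h1 := hc 1
  rw [pow_one, h0] at h1
  have h2 : Cfsg.charDegree χ = d := by rw [Cfsg.charDegree, hd]; simp
  rw [h2]
  exact dvd_of_sum_zero z hz (by rw [h1]; simp)

end Cfsg.Agent.S4558
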