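import Cfsg.Statements.S4564
import Cfsg.Agent.H10_FullRam3

set_option autoImplicit false
open Cfsg

namespace Cfsg.Agent.S4564

/-- Let χ be an irreducible character of the finite group H that is fully ramified over the normal subgroup Z: the restriction of χ to Z is e times an irreducible character of Z with e ^ 2 equal to the index of Z. Let K be a normal subgroup of H containing Z and P a cyclic Sylow p-subgroup of H/K. Then P has a complement in H/K: a subgroup meeting P trivially whose product with P is the whole group. -/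
theorem result {H : Type*} [Group H] [Finite H] (Z : Subgroup H) [Z.Normal] (χ : Cfsg.IrrCharacter H) (hfr : ∃ (θ : Cfsg.IrrCharacter ↥Z) (e : ℕ), e ^ 2 = Z.index ∧ ∀ z : ↥Z, (χ : H → ℂ) z = (e : ℂ) * (θ : ↥Z → ℂ) z) (K : Subgroup H) [K.Normal] (hZK : Z ≤ K) (p : ℕ) [Fact p.Prime] (P : Sylow p (H ⧸ K)) (hcyc : IsCyclic P) : ∃ M : Subgroup (H ⧸ K), M.IsComplement' (P : Subgroup (H ⧸ K)) := by
  haveI := Fintype.ofFinite H
  have hp : p.Prime := Fact.out
  obtain ⟨θ, e, he, hr⟩ := hfr
  obtain ⟨P₀⟩ : Nonempty (Sylow p H) := inferInstance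
  let P₁ : Sylow p (H ⧸ K) := P₀.mapSurjective (QuotientGroup.mk'_surjective K)
  have hcyc' : IsCyclic ((P₀ : Subgroup H).map (QuotientGroup.mk' K)) := by
    haveI := hcyc
    exact isCyclic_of_injective (Sylow.equiv P₁ P).toMonoidHom (Sylow.equiv P₁ P).injective
  obtain ⟨U, hKU, ⟨i, hi⟩, hpU⟩ := Cfsg.Agent.H10.FullRam.compl_cyclic χ.2 θ.2 he hr hZK hp P₀ hcyc'
  refine ⟨U.map (QuotientGroup.mk' K), ?_⟩
  have h1 : (U.map (QuotientGroup.mk' K)).index = p ^ i := by
    rw [Subgroup.index_map_eq U (QuotientGroup.mk'_surjective K) (by rw [QuotientGroup.ker_mk']; exact hKU), hi]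
  have h2 : Nat.card (H ⧸ K) = K.relIndex U * p ^ i := by
    rw [← Subgroup.index_eq_card, ← Subgroup.relIndex_mul_index hKU, hi]
  have h3 : Nat.card (U.map (QuotientGroup.mk' K)) = K.relIndex U := by
    have h4 := (U.map (QuotientGroup.mk' K)).card_mul_index
    rw [h1, h2] at h4
    exact Nat.eq_of_mul_eq_mul_right (pow_pos hp.pos i) h4
  have h5 : Nat.card (P : Subgroup (H ⧸ K)) = p ^ i := by
    have h6 := Sylow.card_eq_multiplicity P
    rw [h2, Nat.factorization_mul (fun h => hpU (by rw [h]; exact dvd_zero p)) (pow_pos hp.pos i).ne', Finsupp.add_apply,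
      Nat.factorization_eq_zero_of_not_dvd hpU, zero_add, hp.factorization_pow] at h6
    simpa using h6
  apply Subgroup.isComplement'_of_coprime
  · rw [h3, h5, h2]
  · rw [h3, h5]
    exact (Nat.Coprime.pow_left i ((hp.coprime_iff_not_dvd).2 hpU)).symm

end Cfsg.Agent.S4564
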