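import Cfsg.Statements.S4566
import Cfsg.Agent.H3_CentOver

set_option autoImplicit false
open Cfsg

namespace Cfsg.Agent.S4566

open Cfsg.Agent.H3.CentOver Cfsg.Agent.H3.CharIrr

/-- Let N be a central subgroup of the finite group G, ψ a faithful irreducible (hence degree-one) character of N, and χ an irreducible character of G whose restriction to N contains ψ. If g ∈ G and some x ∈ G has commutator x⁻¹ g⁻¹ x g in N but different from 1, then χ g = 0. -/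
theorem result {G : Type*} [Group G] [Fintype G] (N : Subgroup G) [Fintype N] (hN : N ≤ Subgroup.center G) (ψ : Cfsg.IrrCharacter ↥N) (hfaith : ∀ n : ↥N, (ψ : ↥N → ℂ) n = (ψ : ↥N → ℂ) 1 → n = 1) (χ : Cfsg.IrrCharacter G) (hover : Cfsg.classInner (fun n : ↥N => (χ : G → ℂ) n) (ψ : ↥N → ℂ) ≠ 0) (g x : G) (hcomm : x⁻¹ * g⁻¹ * x * g ∈ N) (hne : x⁻¹ * g⁻¹ * x * g ≠ 1) : (χ : G → ℂ) g = 0 := by
  classical
  have hc := mul_over hN ψ.2 χ.2 hover g ⟨_, hcomm⟩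
  have h2 : g * (x⁻¹ * g⁻¹ * x * g) = x * g * x⁻¹ := by
    have h5 : x * (x⁻¹ * g⁻¹ * x * g) * x⁻¹ = x⁻¹ * g⁻¹ * x * g := by
      rw [Subgroup.mem_center_iff.mp (hN hcomm) x]; group
    rw [← h5]; group
  have h3 : (χ : G → ℂ) (g * (x⁻¹ * g⁻¹ * x * g)) = (χ : G → ℂ) g := by
    rw [h2]; exact IsIrr.isClass χ.2 g x
  have h4 : (χ : G → ℂ) g = (ψ : N → ℂ) ⟨_, hcomm⟩ * (χ : G → ℂ) g := h3.symm.trans hc
  have h5 : (ψ : N → ℂ) ⟨_, hcomm⟩ ≠ 1 := by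
    intro h
    apply hne
    rw [← psi_one hN ψ.2] at h
    exact congrArg (fun z : N => (z : G)) (hfaith _ h)
  have h7 : (1 - (ψ : N → ℂ) ⟨_, hcomm⟩) * (χ : G → ℂ) g = 0 := by rw [sub_mul, one_mul, ← h4, sub_self]
  exact (mul_eq_zero.mp h7).resolve_left (sub_ne_zero.mpr h5.symm)

end Cfsg.Agent.S4566
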