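import Cfsg.Statements.S4733
import Mathlib
import Cfsg.Agent.H26_Defect2
import Cfsg.Agent.H10_BlockHZ
import Cfsg.Agent.H10_BlockOrth

set_option autoImplicit false
open Cfsg

namespace Cfsg.Agent.S4733

open Cfsg Cfsg.Agent.H3.CharIrr Cfsg.Agent.H3.CharComplete Cfsg.Agent.H26.Basic Cfsg.Agent.H26.Defect2 Cfsg.Agent.H10.BlockLoc Cfsg.Agent.H10.BlockIdem Cfsg.Agent.H10.BlockOrth

/-- Let p be a prime, M a maximal ideal of the algebraic integers containing p, and B a p-block of the finite group G with k irreducible characters and p-regular rank l (the number of irreducible Brauer characters). Then l ≤ k, and the following are equivalent: B has defect 0; k = l = 1; k = l. -/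
theorem result {G : Type*} [Group G] [Finite G] (p : ℕ) [Fact p.Prime] (M : Ideal Cfsg.AlgInt) (hM : Cfsg.IsPModular p M) (B : Set (Cfsg.IrrCharacter G)) (hB : Cfsg.IsPBlock M B) : Cfsg.blockRank p B ≤ Nat.card B ∧ (Cfsg.blockDefect p B = 0 ↔ (Nat.card B = 1 ∧ Cfsg.blockRank p B = 1)) ∧ (Cfsg.blockDefect p B = 0 ↔ Nat.card B = Cfsg.blockRank p B) := by
  classical
  haveI := Fintype.ofFinite G
  haveI : Fintype (IrrCharacter G) := Fintype.ofFinite _
  haveI := hM.2.1
  have hp : p.Prime := Fact.out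
  obtain ⟨χ₀, hχ₀⟩ := block_nonempty hB
  set F : IrrCharacter G → (G → ℂ) := fun χ => pRegularPart p (χ : G → ℂ) with hF
  have hr : ∀ (χ : IrrCharacter G) (g : G), F χ g = if IsPRegular p g then (χ : G → ℂ) g else 0 := fun χ g => rfl
  have hreg1 : IsPRegular p (1 : G) := by
    unfold IsPRegular
    rw [orderOf_one]; exact fun h => hp.one_lt.ne' (Nat.dvd_one.1 h)
  haveI : Fintype B := Fintype.ofFinite _
  have himg : F '' B = Set.range (fun χ : B => F χ.1) := by
    ext f; simp
  have hrank : blockRank p B = (Set.range (fun χ : B => F χ.1)).finrank ℂ := by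
    show Module.finrank ℂ ↥(Submodule.span ℂ (F '' B)) = _
    rw [himg]; rfl
  have hle : blockRank p B ≤ Nat.card B := by
    rw [hrank, Nat.card_eq_fintype_card]
    exact finrank_range_le_card (R := ℂ) (fun χ : B => F χ.1)
  -- defect zero
  have hz1 : blockDefect p B = 0 → Nat.card B = 1 ∧ blockRank p B = 1 := by
    intro hd
    have h1 : (Nat.card G).factorization p ≤ (charDegree (χ₀ : G → ℂ)).factorization p := by
      have h2 := sInf_le (p := p) B hχ₀
      have h3 : blockDefect p B = (Nat.card G).factorization p - sInf ((fun χ : IrrCharacter G => (charDegree (χ : G → ℂ)).factorization p) '' B) := rfl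
      omega
    have h2 : ∀ ψ ∈ B, ψ = χ₀ := fun ψ hψ => eq_of_sameBlock_of_defect_zero hM h1 (block_sameBlock hB hχ₀ hψ)
    have h3 : Nat.card B = 1 := by
      rw [Nat.card_eq_one_iff_unique]
      exact ⟨⟨fun a b => Subtype.ext ((h2 a.1 a.2).trans (h2 b.1 b.2).symm)⟩, ⟨⟨χ₀, hχ₀⟩⟩⟩
    refine ⟨h3, le_antisymm (h3 ▸ hle) ?_⟩
    rw [Nat.one_le_iff_ne_zero]
    intro h4
    rw [hrank, Set.finrank, Submodule.finrank_eq_zero, Submodule.span_eq_bot] at h4
    have h5 := h4 (F χ₀) ⟨⟨χ₀, hχ₀⟩, rfl⟩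
    have h6 := congrFun h5 1
    rw [hr, if_pos hreg1] at h6
    exact one_ne χ₀ h6
  have hz2 : Nat.card B = blockRank p B → blockDefect p B = 0 := by
    intro hcard
    by_contra hd
    have hli : LinearIndependent ℂ (fun χ : B => F χ.1) := by
      rw [linearIndependent_iff_card_eq_finrank_span, ← hrank, ← hcard, Nat.card_eq_fintype_card]
    -- a non-vanishing value
    have hex : ∃ χ ∈ B, ∃ y : G, p ∣ orderOf y ∧ (χ : G → ℂ) y ≠ 0 := by
      by_contra hno
      push Not at hno
      apply hd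
      have h1 := Cfsg.Agent.H10.BlockHZ.factorization_of_vanish (p := p) χ₀.2 (fun g hg => hno χ₀ hχ₀ g hg) (cd_dvd_card χ₀)
      have h3 : blockDefect p B = (Nat.card G).factorization p - sInf ((fun χ : IrrCharacter G => (charDegree (χ : G → ℂ)).factorization p) '' B) := rfl
      have h4 : (Nat.card G).factorization p ≤ sInf ((fun χ : IrrCharacter G => (charDegree (χ : G → ℂ)).factorization p) '' B) := by
        apply le_csInf
        · exact ⟨_, χ₀, hχ₀, rfl⟩
        · rintro _ ⟨ψ, hψ, rfl⟩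
          exact (Cfsg.Agent.H10.BlockHZ.factorization_of_vanish (p := p) ψ.2 (fun g hg => hno ψ hψ g hg) (cd_dvd_card ψ)).ge
      omega
    obtain ⟨χ, hχ, y, hy, hne⟩ := hex
    rw [Fintype.linearIndependent_iff] at hli
    have h1 := hli (fun ψ : B => (ψ.1 : G → ℂ) y) (by
      funext x
      rw [Finset.sum_apply]
      by_cases hx : IsPRegular p x
      · have h2 := weak_orth' hM hB x y hx hy
        rw [← Finset.sum_filter] at h2
        refine Eq.trans ?_ h2
        rw [Finset.sum_subtype (p := fun χ : IrrCharacter G => χ ∈ B) (Finset.univ.filter (fun χ : IrrCharacter G => χ ∈ B)) (fun χ => by rw [Finset.mem_filter]; simp) (fun ψ : IrrCharacter G => (ψ : G → ℂ) y * (ψ : G → ℂ) x)]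
        refine Finset.sum_congr rfl fun ψ _ => ?_
        rw [Pi.smul_apply, smul_eq_mul, hr, if_pos hx]
      · apply Finset.sum_eq_zero
        intro ψ _
        rw [Pi.smul_apply, smul_eq_mul, hr, if_neg hx, mul_zero]) ⟨χ, hχ⟩
    exact hne h1
  refine ⟨hle, ⟨hz1, fun h => hz2 (h.1.trans h.2.symm)⟩, ⟨fun h => (hz1 h).1.trans (hz1 h).2.symm, hz2⟩⟩

end Cfsg.Agent.S4733
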