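import Cfsg.Statements.S4575
import Cfsg.Agent.H25_Sub9
import Cfsg.Agent.S4733

set_option autoImplicit false
open Cfsg

namespace Cfsg.Agent.S4575


/-- Let B be a 2-block of the finite group G (relative to a maximal ideal M of the algebraic integers containing 2) of defect d with defect group D. Let z be an element of D commuting with every element of D, and let b be a block of the centralizer of z with defect group D that induces B (a major subsection (z, b)). If the number of irreducible characters in B exceeds the 2-regular rank of b by at most three, then B contains at most 2 ^ d irreducible characters. -/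
theorem result {G : Type*} [Group G] [Finite G] (M : Ideal Cfsg.AlgInt) (hM : Cfsg.IsPModular 2 M) (B : Set (Cfsg.IrrCharacter G)) (hB : Cfsg.IsPBlock M B) (D : Subgroup G) (hD : Cfsg.IsDefectGroup 2 M B D) (z : G) (hzD : z ∈ D) (hzc : ∀ d ∈ D, d * z = z * d) (b : Set (Cfsg.IrrCharacter ↥(Subgroup.centralizer ({z} : Set G)))) (hb : Cfsg.IsInducedBlock M (Subgroup.centralizer ({z} : Set G)) b B) (hbD : Cfsg.IsDefectGroup 2 M b (D.subgroupOf (Subgroup.centralizer ({z} : Set G)))) (h : Nat.card B ≤ Cfsg.blockRank 2 b + 3) : Nat.card B ≤ 2 ^ Cfsg.blockDefect 2 B := by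
  classical
  haveI := Fintype.ofFinite G
  haveI := hM.2.1
  haveI : Fact (Nat.Prime 2) := ⟨Nat.prime_two⟩
  haveI : Fintype (IrrCharacter G) := Fintype.ofFinite _
  haveI : Fintype (Subgroup.centralizer ({z} : Set G)) := Fintype.ofFinite _
  haveI : Fintype (IrrCharacter (Subgroup.centralizer ({z} : Set G))) := Fintype.ofFinite _
  obtain ⟨hmaj, hz⟩ := H25.Sub8.major_defect hM hB hD hzD hzc hb.1 hbD
  by_cases hd : 1 ≤ blockDefect 2 B
  · set s : Finset (IrrCharacter G) :=
      Finset.univ.filter (fun χ => χ ∈ B ∧ blockHeight 2 B (χ : G → ℂ) = 0) with hs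
    set t : Finset (IrrCharacter G) :=
      Finset.univ.filter (fun χ => χ ∈ B ∧ 1 ≤ blockHeight 2 B (χ : G → ℂ)) with ht
    have hmain := H25.Sub9.main hM hz hb hmaj h hd s t (fun χ hχ => (Finset.mem_filter.1 hχ).2)
      (fun χ hχ => (Finset.mem_filter.1 hχ).2)
    have hB' : Nat.card B = s.card + t.card := by
      rw [Nat.card_eq_fintype_card, Fintype.card_subtype, hs, ht, ← Finset.card_union_of_disjoint]
      · congr 1
        ext χ
        simp only [Finset.mem_filter, Finset.mem_univ, true_and, Finset.mem_union]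
        constructor
        · intro h
          by_cases h0 : blockHeight 2 B (χ : G → ℂ) = 0
          · exact Or.inl ⟨h, h0⟩
          · exact Or.inr ⟨h, by omega⟩
        · rintro (h | h)
          · exact h.1
          · exact h.1
      · rw [Finset.disjoint_left]
        intro χ h1 h2
        have h3 := (Finset.mem_filter.1 h1).2.2
        have h4 := (Finset.mem_filter.1 h2).2.2
        omega
    rw [hB']
    have h5 : 3 * t.card ≤ 2 * ∑ χ ∈ t, 2 ^ Cfsg.blockHeight 2 B (χ : G → ℂ) := by
      have : 3 * t.card = ∑ χ ∈ t, 3 := by rw [Finset.sum_const, smul_eq_mul, mul_comm]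
      rw [this, Finset.mul_sum]
      refine Finset.sum_le_sum fun χ hχ => ?_
      have h6 : 1 ≤ blockHeight 2 B (χ : G → ℂ) := (Finset.mem_filter.1 hχ).2.2
      have h7 : 2 ^ 1 ≤ 2 ^ blockHeight 2 B (χ : G → ℂ) := Nat.pow_le_pow_right (by norm_num) h6
      omega
    omega
  · have h0 : blockDefect 2 B = 0 := by omega
    rw [h0, pow_zero, ((Cfsg.Agent.S4733.result 2 M hM B hB).2.1.1 h0).1]

end Cfsg.Agent.S4575
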