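import Cfsg.Statements.S4580
import Cfsg.Agent.H25_Odd
import Cfsg.Agent.H3_Lift
import Cfsg.Agent.H3_CharInd

set_option autoImplicit false
open Cfsg

namespace Cfsg.Agent.S4580

open Cfsg.Agent Cfsg.Agent.H3 Cfsg.Agent.H3.CharIrr Cfsg.Agent.H3.CharInd
open scoped ComplexConjugate

/-- Let N be a normal subgroup of the finite group G, M a maximal ideal of the algebraic integers containing 2, and θ a real-valued irreducible character of N of odd degree that extends to G (some irreducible character of G restricts to θ). Then θ has an extension to G lying in the principal 2-block of G. -/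
theorem result {G : Type*} [Group G] [Finite G] (N : Subgroup G) [N.Normal] (M : Ideal Cfsg.AlgInt) (hM : Cfsg.IsPModular 2 M) (θ : Cfsg.IrrCharacter N) (hreal : ∀ n : N, ((θ : N → ℂ) n).im = 0) (hodd : Odd (Cfsg.charDegree (θ : N → ℂ))) (hext : ∃ η : Cfsg.IrrCharacter G, ∀ n : N, (η : G → ℂ) n = (θ : N → ℂ) n) :
    ∃ η : Cfsg.IrrCharacter G, (∀ n : N, (η : G → ℂ) n = (θ : N → ℂ) n) ∧ η ∈ Cfsg.principalBlock M G := by
  classical
  haveI := Fintype.ofFinite G
  haveI : Fintype N := Fintype.ofFinite N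
  haveI := hM.2.1
  obtain ⟨η, hη⟩ := hext
  have hres : (fun n : N => (η : G → ℂ) n) = (θ : N → ℂ) := funext hη
  have hcon : IsIrrCharacter G (fun g => conj ((η : G → ℂ) g)) := IsIrr.conj η.2
  have hci : classInner (fun n : N => (fun g => conj ((η : G → ℂ) g)) (n : G)) (fun n : N => (η : G → ℂ) n) ≠ 0 := by
    have h1 : (fun n : N => (fun g => conj ((η : G → ℂ) g)) (n : G)) = (θ : N → ℂ) := by
      funext n
      show conj ((η : G → ℂ) n) = _
      rw [hη n]
      exact (Complex.conj_eq_iff_im).2 (hreal n)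
    rw [h1, hres, ci_irr_self θ.2]
    exact one_ne_zero
  obtain ⟨β, hβ, hβk, hβe⟩ := Lift.gallagher_exists (N := N) inferInstance η.2 (by rw [hres]; exact θ.2) hcon hci
  have hη1 : (η : G → ℂ) 1 ≠ 0 := IsIrr.one_ne_zero η.2
  have hβ1 : β 1 = 1 := by
    have h1 := congrFun hβe 1
    simp only [Pi.mul_apply] at h1
    have h2 : conj ((η : G → ℂ) 1) = (η : G → ℂ) 1 := by
      have := hη 1
      rw [Subgroup.coe_one] at this
      rw [this]
      exact (Complex.conj_eq_iff_im).2 (hreal 1)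
    rw [h2] at h1
    exact mul_right_cancel₀ hη1 (by rw [← h1, one_mul])
  obtain ⟨f₀, hf₀⟩ := IsChar.hom_of_one (IsIrr.isCharacter hβ) hβ1
  obtain ⟨f, hf⟩ : ∃ f : G →* ℂˣ, ∀ g, β g = ((f g : ℂˣ) : ℂ) := ⟨f₀.toHomUnits, fun g => by rw [hf₀, MonoidHom.coe_toHomUnits]⟩
  -- the exponent
  set b := Nat.card G / 2 ^ (Nat.card G).factorization 2 with hb
  have hbo : Odd b := by
    have := Nat.not_dvd_ordCompl (n := Nat.card G) (p := 2) Nat.prime_two Nat.card_pos.ne'
    exact Nat.not_even_iff_odd.1 (fun h => this h.two_dvd)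
  obtain ⟨j, hj⟩ := hbo
  set γ : G →* ℂˣ := f ^ (j + 1) with hγ
  have hγN : ∀ n : N, γ (n : G) = 1 := by
    intro n
    have h1 : β n = β 1 := by
      have := hβk n n.2 1
      rwa [mul_one] at this
    rw [hβ1, hf] at h1
    have h2 : f (n : G) = 1 := Units.ext (by rw [h1]; rfl)
    rw [hγ, MonoidHom.pow_apply, h2, one_pow]
  have hpow : ∀ g : G, ¬ 2 ∣ orderOf g → γ g * γ g = f g := by
    intro g hg
    have h1 : orderOf g ∣ b := by
      have h2 : orderOf g ∣ 2 ^ (Nat.card G).factorization 2 * b := by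
        rw [hb, Nat.ordProj_mul_ordCompl_eq_self]
        exact orderOf_dvd_natCard g
      exact (Nat.Coprime.pow_right _ ((Nat.Prime.coprime_iff_not_dvd Nat.prime_two).2 hg).symm).dvd_of_dvd_mul_left h2
    have h2 : f g ^ b = 1 := by
      rw [← map_pow, orderOf_dvd_iff_pow_eq_one.1 h1, map_one]
    rw [hγ, MonoidHom.pow_apply, ← pow_add, show j + 1 + (j + 1) = b + 1 by omega, pow_succ, h2, one_mul]
  have hχ : IsIrrCharacter G ((η : G → ℂ) * fun g => ((γ g : ℂˣ) : ℂ)) := by
    rw [mul_comm]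
    exact IsIrr.mul_linear η.2 (IsIrr.isCharacter (isIrr_of_hom_units γ)) (by simp)
  refine ⟨⟨_, hχ⟩, ?_, ?_⟩
  · intro n
    show (η : G → ℂ) n * ((γ n : ℂˣ) : ℂ) = _
    rw [hγN, Units.val_one, mul_one, hη]
  · have hdeg : charDegree ((η : G → ℂ) * fun g => ((γ g : ℂˣ) : ℂ)) = charDegree (θ : N → ℂ) := by
      unfold charDegree
      show ⌊((η : G → ℂ) 1 * ((γ 1 : ℂˣ) : ℂ)).re⌋₊ = _
      have := hη 1
      rw [Subgroup.coe_one] at this
      rw [map_one, Units.val_one, mul_one, this]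
    have h1 : (charDegree ((η : G → ℂ) * fun g => ((γ g : ℂˣ) : ℂ))).factorization 2 = 0 := by
      rw [hdeg]
      exact Nat.factorization_eq_zero_of_not_dvd (fun h => (Nat.not_even_iff_odd.2 hodd) ((even_iff_two_dvd).2 h))
    have hinv : ∀ g : G, conj (((γ g : ℂˣ) : ℂ)) * ((γ g : ℂˣ) : ℂ) = 1 := by
      intro g
      have h3 := IsChar.inv_eq_conj (IsIrr.isCharacter (isIrr_of_hom_units γ)) g
      rw [← h3, ← Units.val_mul, ← map_mul, inv_mul_cancel, map_one, Units.val_one]
    have h2 := H25.Odd.principal_of_dual hM (H10.BlockIdem.isPBlock_blockOf (⟨_, hχ⟩ : IrrCharacter G))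
      (H10.BlockIdem.mem_blockOf_self _) (H10.BlockIdem.mem_blockOf_self _) h1
      (fun g hg => by
        show (η : G → ℂ) g * ((γ g : ℂˣ) : ℂ) = conj ((η : G → ℂ) g * ((γ g : ℂˣ) : ℂ))
        have h4 := congrFun hβe g
        simp only [Pi.mul_apply] at h4
        have h5 : β g = ((γ g : ℂˣ) : ℂ) * ((γ g : ℂˣ) : ℂ) := by
          rw [hf, ← hpow g hg, Units.val_mul]
        rw [map_mul, h4, h5]
        linear_combination (-((η : G → ℂ) g * ((γ g : ℂˣ) : ℂ))) * hinv g)
    rw [← h2]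
    exact H10.BlockIdem.mem_blockOf_self _

end Cfsg.Agent.S4580
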