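import Cfsg.Statements.S4584
import Cfsg.Agent.H19_MaxAb

set_option autoImplicit false
open Cfsg

namespace Cfsg.Agent.S4584

open H19.MaxAb

/-- Let p be a prime and P a group of order p^4. Then the derived subgroup P' has order p if and only if the centre Z(P) has index p^2 in P. -/
theorem result {P : Type*} [Group P] [Finite P] (p : ℕ) [Fact p.Prime] (hP : Nat.card P = p ^ 4) :
    Nat.card (commutator P) = p ↔ (Subgroup.center P).index = p ^ 2 := by
  have hpg : IsPGroup p P := IsPGroup.of_card hP
  obtain ⟨A, hA, hAi⟩ := exists_abelian hP
  have hp2 := (Fact.out : p.Prime).two_le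
  by_cases hab : ∀ a b : P, a * b = b * a
  · have h1 : commutator P = ⊥ := by
      rw [_root_.commutator_def, Subgroup.commutator_eq_bot_iff_le_centralizer]
      intro a _
      rw [Subgroup.mem_centralizer_iff]
      intro b _
      exact hab b a
    have h2 : Subgroup.center P = ⊤ := by
      rw [eq_top_iff]
      intro a _
      rw [Subgroup.mem_center_iff]
      exact fun g => hab g a
    rw [h1, h2, Subgroup.card_bot, Subgroup.index_top]
    constructor
    · intro h; omega
    · intro h
      have : p ^ 2 = p * p := by ring
      nlinarith
  · have h := H2.MaxClass.abelian_index_p (H2.PGroup.normal_of_index_p hpg hAi) hA hAi hab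
    have hAc := Subgroup.card_mul_index A
    have hZc := Subgroup.card_mul_index (Subgroup.center P)
    rw [hAi, ← h, hP] at hAc
    rw [hP] at hZc
    have hZpos : 0 < Nat.card (Subgroup.center P) := Nat.card_pos
    have h3 : (Subgroup.center P).index = p * Nat.card (commutator P) := by
      have h4 : Nat.card (Subgroup.center P) * (Subgroup.center P).index = Nat.card (Subgroup.center P) * (p * Nat.card (commutator P)) := by
        rw [hZc, ← hAc]; ring
      exact Nat.eq_of_mul_eq_mul_left hZpos h4
    rw [h3, pow_two]
    constructor
    · intro h; rw [h]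
    · intro h; exact Nat.eq_of_mul_eq_mul_left (by omega) h

end Cfsg.Agent.S4584
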