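import Cfsg.Statements.S4586
import Cfsg.Agent.H3_AbIdx

set_option autoImplicit false
open Cfsg

namespace Cfsg.Agent.S4586

open Cfsg.Agent.H3.AbIdx

/-- Let p be a prime, P a finite p-group and N a normal subgroup of P of index p. For x ∈ P write c(x) for the number of elements n of N whose commutator x n x⁻¹ n⁻¹ lies in the derived subgroup N' (so c(x)/#N' is the order of the centralizer of x acting on N/N'). Then [P : P'] = p² if and only if c(x) = p·#N' for every x ∈ P outside N, and also if and only if c(x) = p·#N' for some x ∈ P outside N. -/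
theorem result {P : Type*} [Group P] [Finite P] (p : ℕ) [Fact p.Prime] (hP : IsPGroup p P) (N : Subgroup P) [N.Normal] (hN : N.index = p) :
    ((commutator P).index = p ^ 2 ↔ ∀ x : P, x ∉ N →
        Nat.card {n : N // x * n * x⁻¹ * (n : P)⁻¹ ∈ (commutator N).map N.subtype} = p * Nat.card (commutator N)) ∧
    ((commutator P).index = p ^ 2 ↔ ∃ x : P, x ∉ N ∧
        Nat.card {n : N // x * n * x⁻¹ * (n : P)⁻¹ ∈ (commutator N).map N.subtype} = p * Nat.card (commutator N)) := by
  have hp : p.Prime := Fact.out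
  have hne : ∃ x, x ∉ N := by
    by_contra hcon
    push Not at hcon
    have : N = ⊤ := eq_top_iff.mpr fun y _ => hcon y
    rw [this, Subgroup.index_top] at hN
    exact hp.one_lt.ne hN
  obtain ⟨x0, hx0⟩ := hne
  refine ⟨⟨fun h x hx => (key N x hp hN (sup_eq_top N hp hN hx)).mp h, fun h => (key N x0 hp hN (sup_eq_top N hp hN hx0)).mpr (h x0 hx0)⟩,
    ⟨fun h => ⟨x0, hx0, (key N x0 hp hN (sup_eq_top N hp hN hx0)).mp h⟩, ?_⟩⟩
  rintro ⟨x, hx, h⟩
  exact (key N x hp hN (sup_eq_top N hp hN hx)).mpr h

end Cfsg.Agent.S4586
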