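import Cfsg.Statements.S4604
import Cfsg.Agent.H10_PRegSep

set_option autoImplicit false
open Cfsg

namespace Cfsg.Agent.S4604

open Cfsg.Agent.H3.CharIrr Cfsg.Agent.H3.CharComplete Cfsg.Agent.H3.CharInt Cfsg.Agent.H10.PRegSep

theorem pow_eq {G : Type*} [Group G] [Finite G] {p : ℕ} (hp : p.Prime) {x x' : G}
    (hx : (∃ k : ℕ, orderOf (x * x'⁻¹) = p ^ k) ∧ Commute (x * x'⁻¹) x' ∧ ¬ p ∣ orderOf x') :
    x ^ (p ^ (Nat.card G).factorization p) = x' ^ (p ^ (Nat.card G).factorization p) := by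
  obtain ⟨⟨k, hk⟩, hc, -⟩ := hx
  have h1 : (x * x'⁻¹) ^ (p ^ (Nat.card G).factorization p) = 1 := by
    rw [← orderOf_dvd_iff_pow_eq_one, hk]
    apply Nat.pow_dvd_pow
    rw [← hp.pow_dvd_iff_le_factorization Nat.card_pos.ne', ← hk]
    exact orderOf_dvd_natCard _
  have h2 := hc.mul_pow (p ^ (Nat.card G).factorization p)
  rw [h1, one_mul, inv_mul_cancel_right] at h2
  exact h2

theorem isConj_of_pow {G : Type*} [Group G] [Finite G] {p : ℕ} (hp : p.Prime) (a : ℕ) {x y : G}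
    (hx : ¬ p ∣ orderOf x) (hy : ¬ p ∣ orderOf y) (h : IsConj (x ^ (p ^ a)) (y ^ (p ^ a))) : IsConj x y := by
  have hcop : Nat.Coprime (p ^ a) (orderOf x * orderOf y) := by
    apply Nat.Coprime.pow_left
    rw [hp.coprime_iff_not_dvd]
    intro hd
    rcases hp.dvd_mul.1 hd with h1 | h1
    · exact hx h1
    · exact hy h1
  obtain ⟨s, t, hst⟩ := Nat.isCoprime_iff_coprime.2 hcop
  push_cast at hst
  have e1 : (x ^ (p ^ a)) ^ s = x := by
    have h1 : x ^ ((orderOf x : ℤ)) = 1 := by rw [zpow_natCast, pow_orderOf_eq_one]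
    have h2 : x ^ (s * (p : ℤ) ^ a + t * ((orderOf x : ℤ) * (orderOf y : ℤ))) = x := by rw [hst, zpow_one]
    rw [zpow_add, show t * ((orderOf x : ℤ) * (orderOf y : ℤ)) = (orderOf x : ℤ) * (t * (orderOf y : ℤ)) by ring,
      zpow_mul x (orderOf x : ℤ), h1, one_zpow, mul_one, mul_comm s, zpow_mul] at h2
    rw [← zpow_natCast x (p ^ a)]
    push_cast
    exact h2
  have e2 : (y ^ (p ^ a)) ^ s = y := by
    have h1 : y ^ ((orderOf y : ℤ)) = 1 := by rw [zpow_natCast, pow_orderOf_eq_one]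
    have h2 : y ^ (s * (p : ℤ) ^ a + t * ((orderOf x : ℤ) * (orderOf y : ℤ))) = y := by rw [hst, zpow_one]
    rw [zpow_add, show t * ((orderOf x : ℤ) * (orderOf y : ℤ)) = (orderOf y : ℤ) * (t * (orderOf x : ℤ)) by ring,
      zpow_mul y (orderOf y : ℤ), h1, one_zpow, mul_one, mul_comm s, zpow_mul] at h2
    rw [← zpow_natCast y (p ^ a)]
    push_cast
    exact h2
  obtain ⟨c, hc⟩ := isConj_iff.1 h
  refine isConj_iff.2 ⟨c, ?_⟩
  rw [← e1, ← e2, ← hc, conj_zpow]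

/-- Let G be a finite group, p a prime and p^a the p-part of the order of G. Let x, y ∈ G and let x′, y′ be their p-regular parts: x′ has order prime to p, commutes with x·x′⁻¹, and x·x′⁻¹ has p-power order (likewise for y). Then x′ and y′ are conjugate in G if and only if for every irreducible character χ of G the algebraic integer χ(x)^(p^a) − χ(y)^(p^a) is p times an algebraic integer. -/
theorem result {G : Type*} [Group G] [Finite G] (p : ℕ) [Fact p.Prime] (x y x' y' : G)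
    (hx : (∃ k : ℕ, orderOf (x * x'⁻¹) = p ^ k) ∧ Commute (x * x'⁻¹) x' ∧ ¬ p ∣ orderOf x')
    (hy : (∃ k : ℕ, orderOf (y * y'⁻¹) = p ^ k) ∧ Commute (y * y'⁻¹) y' ∧ ¬ p ∣ orderOf y') :
    IsConj x' y' ↔ ∀ χ : Cfsg.IrrCharacter G, ∃ γ : Cfsg.AlgInt,
      (χ : G → ℂ) x ^ (p ^ (Nat.card G).factorization p) - (χ : G → ℂ) y ^ (p ^ (Nat.card G).factorization p) = (p : ℂ) * (γ : ℂ) := by
  haveI := Fintype.ofFinite G
  haveI : Fintype (Cfsg.IrrCharacter G) := Fintype.ofFinite _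
  have hp : p.Prime := Fact.out
  set a := (Nat.card G).factorization p with ha
  have hxe := pow_eq hp hx
  have hye := pow_eq hp hy
  rw [← ha] at hxe hye
  have key : ∀ χ : Cfsg.IrrCharacter G, ∃ γ : Cfsg.AlgInt, (χ : G → ℂ) x ^ (p ^ a) - (χ : G → ℂ) y ^ (p ^ a) =
      ((χ : G → ℂ) (x' ^ (p ^ a)) - (χ : G → ℂ) (y' ^ (p ^ a))) + (p : ℂ) * (γ : ℂ) := by
    intro χ
    obtain ⟨g1, h1⟩ := pow_cong hp (IsIrr.isCharacter χ.2) x a
    obtain ⟨g2, h2⟩ := pow_cong hp (IsIrr.isCharacter χ.2) y a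
    refine ⟨g1 - g2, ?_⟩
    rw [h1, h2, hxe, hye]
    push_cast
    ring
  constructor
  · intro hc χ
    obtain ⟨γ, hγ⟩ := key χ
    refine ⟨γ, ?_⟩
    rw [hγ, IsClass.eq_of_isConj (IsIrr.isClass χ.2) (hc.pow (p ^ a)), sub_self, zero_add]
  · intro h
    apply isConj_of_pow hp a hx.2.2 hy.2.2
    by_contra hnc
    have hu : ¬ p ∣ orderOf (x' ^ (p ^ a)) := fun hd => hx.2.2 (hd.trans (orderOf_pow_dvd _))
    have hv : ¬ p ∣ orderOf (y' ^ (p ^ a)) := fun hd => hy.2.2 (hd.trans (orderOf_pow_dvd _))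
    obtain ⟨c, m, hc, hm, hs⟩ := sep (x' ^ (p ^ a)) hu
    have h1 := hs inferInstance _ hu
    have h2 := hs inferInstance _ hv
    rw [if_pos (IsConj.refl _)] at h1
    rw [if_neg hnc] at h2
    choose γ hγ using h
    choose δ hδ using key
    have h3 : (m : ℂ) = (p : ℂ) * ∑ χ : Cfsg.IrrCharacter G, c χ * ((γ χ : ℂ) - (δ χ : ℂ)) := by
      rw [← sub_zero (m : ℂ), ← h1, ← h2, ← Finset.sum_sub_distrib, Finset.mul_sum]
      refine Finset.sum_congr rfl fun χ _ => ?_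
      have e1 := hγ χ
      have e2 := hδ χ
      rw [e1] at e2
      linear_combination (-(c χ)) * e2
    apply hm
    apply dvd_of_isIntegral_div hp.ne_zero
    rw [h3, mul_div_cancel_left₀ _ (by exact_mod_cast hp.ne_zero)]
    exact IsIntegral.sum _ fun χ _ => (hc χ).mul ((γ χ).2.sub (δ χ).2)

end Cfsg.Agent.S4604
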