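import Cfsg.Statements.S4611
import Cfsg.Agent.H1_Nilp
import Cfsg.Agent.H10_BlockPS
import Cfsg.Agent.H10_BlockQuot

set_option autoImplicit false
open Cfsg

namespace Cfsg.Agent.S4611

open Cfsg Cfsg.Agent.H3.CharIrr Cfsg.Agent.H3.CharComplete Cfsg.Agent.H3.CharBasic Cfsg.Agent.H3.CharQuot
  Cfsg.Agent.H10.Char Cfsg.Agent.H10.BlockKer Cfsg.Agent.H10.BlockQuot Cfsg.Agent.H10.BlockPS

theorem exists_ne_triv {Q : Type*} [Group Q] [Fintype Q] [Nontrivial Q] : ∃ ψ : IrrCharacter Q, ψ ≠ triv Q := by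
  classical
  by_contra h
  push Not at h
  have h1 : Nat.card (IrrCharacter Q) = 1 := by
    haveI : Unique (IrrCharacter Q) := ⟨⟨triv Q⟩, h⟩
    exact Nat.card_unique
  rw [card_irr] at h1
  haveI := (Nat.card_eq_one_iff_unique.1 h1).1
  obtain ⟨x, hx⟩ := exists_ne (1 : Q)
  have h2 : ConjClasses.mk x = ConjClasses.mk 1 := Subsingleton.elim _ _
  rw [ConjClasses.mk_eq_mk_iff_isConj] at h2
  exact hx (isConj_one_right.1 h2.symm)

theorem mem_principal {G : Type*} [Group G] [Fintype G] [Group.IsSolvable G] {p : ℕ} [hp : Fact p.Prime] {M : Ideal AlgInt}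
    (hM : IsPModular p M) {χ : IrrCharacter G} (hker : ∀ u ∈ pPrimeCore p G, (χ : G → ℂ) u = (χ : G → ℂ) 1) :
    χ ∈ principalBlock M G := by
  classical
  haveI := hM.2.1
  haveI : Fintype (G ⧸ pPrimeCore p G) := Fintype.ofFinite _
  obtain ⟨φ, hφ⟩ := exists_infl (N := pPrimeCore p G) hker
  have hs : IsPSolvable p (G ⧸ pPrimeCore p G) :=
    Cfsg.Agent.H22.PSolv.isPSolvable_quotient _ (Cfsg.Agent.H22.PSolv.isPSolvable_of_isSolvable inferInstance)
  have h1 := one_block hM hs (Cfsg.Agent.H11.Cores.pPrimeCore_quotient p) (triv _) φ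
  have h2 := sameBlock_infl (pPrimeCore p G) h1
  rw [hφ] at h2
  exact h2

/-- Let G be a finite solvable group and π a nonempty set of primes, each dividing the order of G; fix for each p in π a maximal ideal M p of the algebraic integers containing p. Then the only irreducible character lying in the principal p-block for every p in π is the principal character if and only if G is generated by the subgroups O_{p'}(G), p in π (the largest normal subgroups of order prime to p). -/
theorem result {G : Type*} [Group G] [Finite G] [Group.IsSolvable G] (π : Set ℕ) (hπ : ∀ p ∈ π, p.Prime ∧ p ∣ Nat.card G) (hne : π.Nonempty) (M : ℕ → Ideal Cfsg.AlgInt) (hM : ∀ p ∈ π, Cfsg.IsPModular p (M p)) :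
    (∀ χ : Cfsg.IrrCharacter G, (∀ p ∈ π, χ ∈ Cfsg.principalBlock (M p) G) → (χ : G → ℂ) = fun _ => 1) ↔
      ⨆ p ∈ π, Cfsg.pPrimeCore p G = ⊤ := by
  classical
  haveI := Fintype.ofFinite G
  constructor
  · intro h
    by_contra hne
    set N := ⨆ p ∈ π, Cfsg.pPrimeCore p G with hN
    haveI hNn : N.Normal := Subgroup.biSup_normal π (fun p => Cfsg.pPrimeCore p G) (fun p _ => inferInstance)
    haveI : Nontrivial (G ⧸ N) := by
      rw [← Finite.one_lt_card_iff_nontrivial, ← Subgroup.index_eq_card]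
      have h1 : N.index ≠ 1 := fun h2 => hne (Subgroup.index_eq_one.1 h2)
      have h2 : N.index ≠ 0 := Subgroup.index_ne_zero_of_finite
      omega
    haveI : Fintype (G ⧸ N) := Fintype.ofFinite _
    obtain ⟨ψ, hψ⟩ := exists_ne_triv (Q := G ⧸ N)
    apply hψ
    have h1 := h (infl N ψ) (fun p hp => by
      haveI : Fact p.Prime := ⟨(hπ p hp).1⟩
      apply mem_principal (hM p hp)
      intro u hu
      apply infl_ker
      exact (le_iSup₂ (f := fun p (_ : p ∈ π) => Cfsg.pPrimeCore p G) p hp) hu)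
    apply Subtype.ext
    funext x
    obtain ⟨g, rfl⟩ := QuotientGroup.mk_surjective x
    exact congrFun h1 g
  · intro h χ hχ
    have hle : ⨆ p ∈ π, Cfsg.pPrimeCore p G ≤ chKer (χ : G → ℂ) (IsIrr.isCharacter χ.2) := by
      refine iSup₂_le fun p hp => ?_
      haveI : Fact p.Prime := ⟨(hπ p hp).1⟩
      intro u hu
      rw [mem_chKer]
      refine principal_ker (hM p hp) (Cfsg.pPrimeCore p G) ?_ (hχ p hp) u hu
      have h1 := Cfsg.Agent.H1.Nilp.pPrimeCore_coprime (G := G) p
      exact ((hπ p hp).1.coprime_iff_not_dvd).1 h1.symm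
    rw [h] at hle
    have h1 : ∀ g : G, (χ : G → ℂ) g = (χ : G → ℂ) 1 := fun g => (mem_chKer _ g).1 (hle (Subgroup.mem_top g))
    have h2 := ci_irr_self χ.2
    obtain ⟨n, hn, hn1⟩ := irr_one χ.2
    have h3 : (χ : G → ℂ) = fun _ => (n : ℂ) := by funext g; rw [h1, hn1]
    rw [h3] at h2 ⊢
    rw [Cfsg.classInner, Finset.sum_const, Finset.card_univ, ← Nat.card_eq_fintype_card, nsmul_eq_mul, ← mul_assoc,
      inv_mul_cancel₀ (Nat.cast_ne_zero.2 Nat.card_pos.ne'), one_mul] at h2
    have h4 : (n : ℂ) * n = 1 := by simpa using h2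
    have h5 : n * n = 1 := by exact_mod_cast h4
    have h6 : n = 1 := Nat.eq_one_of_mul_eq_one_left h5
    rw [h6, Nat.cast_one]

end Cfsg.Agent.S4611
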