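import Cfsg.Statements.S4725
import Mathlib
import Cfsg.Agent.H26_Defect2
import Cfsg.Agent.H10_BlockKer
import Cfsg.Agent.H10_BlockHZ
import Cfsg.Agent.S0932
import Cfsg.Agent.H3_CharMult

set_option autoImplicit false
open Cfsg

namespace Cfsg.Agent.S4725

open Cfsg Cfsg.Agent.H3.CharIrr Cfsg.Agent.H3.CharComplete Cfsg.Agent.H10.BlockAlg Cfsg.Agent.H10.BlockLoc Cfsg.Agent.H10.BlockIdem Cfsg.Agent.H10.BlockOrth Cfsg.Agent.H26.Basic Cfsg.Agent.H26.Defect2 Cfsg.Agent.H10.BlockKer

/-- Let p be a prime, M a maximal ideal of the algebraic integers containing p, H a subgroup of the finite group G, and b a p-block of H inducing the p-block B of G, with b and B of the same defect. Then for every height-zero ζ ∈ b there is a height-zero χ ∈ B whose multiplicity in the character induced from ζ is not divisible by p. -/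
theorem result {G : Type*} [Group G] [Fintype G] (p : ℕ) [Fact p.Prime] (M : Ideal Cfsg.AlgInt) (hM : Cfsg.IsPModular p M) (H : Subgroup G) (b : Set (Cfsg.IrrCharacter ↥H)) (B : Set (Cfsg.IrrCharacter G)) (hind : Cfsg.IsInducedBlock M H b B) (hdef : Cfsg.blockDefect p b = Cfsg.blockDefect p B) (ζ : Cfsg.IrrCharacter ↥H) (hζ : ζ ∈ b) (hζ0 : Cfsg.blockHeight p b (ζ : ↥H → ℂ) = 0) : ∃ χ ∈ B, Cfsg.blockHeight p B (χ : G → ℂ) = 0 ∧ ∃ a : ℕ, Cfsg.classInner (Cfsg.indFun H (ζ : ↥H → ℂ)) (χ : G → ℂ) = (a : ℂ) ∧ ¬ p ∣ a := by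
  classical
  haveI : Fintype (IrrCharacter G) := Fintype.ofFinite _
  haveI := hM.2.1
  have hp : p.Prime := Fact.out
  obtain ⟨hb, hB, hω⟩ := hind
  obtain ⟨χ₀, hχ₀⟩ := block_nonempty hB
  have hζc := IsIrr.isCharacter ζ.2
  set Θ : G → ℂ := indFun H (ζ : H → ℂ) with hΘ
  have hΘc : IsCharacter G Θ := Cfsg.Agent.H3.CharInd.IsChar.ind hζc
  have hΘ1 : Θ 1 = ((H.index * charDegree (ζ : H → ℂ) : ℕ) : ℂ) := by
    rw [hΘ, Cfsg.Agent.H3.CharInd.ind_one, ← cd_eq]; push_cast; rfl
  have hidx : H.index ≠ 0 := Subgroup.index_ne_zero_of_finite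
  have hne : H.index * charDegree (ζ : H → ℂ) ≠ 0 := mul_ne_zero hidx (cd_pos ζ).ne'
  have hΘ1' : Θ 1 ≠ 0 := by rw [hΘ1]; exact_mod_cast hne
  have hr := blockPart_ratio hM hB Θ (IsChar.isClass hΘc) hΘ1' hχ₀ (by
    intro g
    rw [hΘ, ← Cfsg.Agent.S0932.result H (ζ : H → ℂ) hζc g]
    exact hω ζ hζ χ₀ hχ₀ g)
  obtain ⟨a, ha, -⟩ := Cfsg.Agent.H3.CharMult.IsChar.eq_sum_nat hΘc
  set n : ℕ := ∑ ψ : IrrCharacter G, (if ψ ∈ B then a ψ * charDegree (ψ : G → ℂ) else 0) with hn
  have hnc : (∑ ψ : IrrCharacter G, (if ψ ∈ B then classInner Θ (ψ : G → ℂ) * (ψ : G → ℂ) 1 else 0)) = (n : ℂ) := by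
    rw [hn]; push_cast
    refine Finset.sum_congr rfl fun ψ _ => ?_
    split_ifs
    · rw [ha, cd_eq]
    · rfl
  rw [hnc, hΘ1] at hr
  have hr1 : MemLocalRing M ((n : ℂ) / ((H.index * charDegree (ζ : H → ℂ) : ℕ) : ℂ)) := by
    have := ring_add (memLocalRing_of_memLocalIdeal hr) ring_one
    simpa using this
  have hn0 : n ≠ 0 := by
    intro h0
    rw [h0, Nat.cast_zero, zero_div, zero_sub] at hr
    exact one_notMem_ideal (by simpa using ideal_neg hr)
  have hval : n.factorization p = (H.index * charDegree (ζ : H → ℂ)).factorization p := by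
    apply le_antisymm
    · by_contra hlt
      push Not at hlt
      have h1 := Cfsg.Agent.H26.Defect.ideal_nat_div hM hn0 hne hlt
      have h2 := ideal_sub h1 hr
      rw [sub_sub_cancel] at h2
      exact one_notMem_ideal h2
    · exact (ring_nat_div_iff hM hn0 hne).1 hr1
  set m : ℕ := sInf ((fun ψ : IrrCharacter G => (charDegree (ψ : G → ℂ)).factorization p) '' B) with hm
  have hval2 : n.factorization p = m := by
    rw [hval, Nat.factorization_mul hidx (cd_pos ζ).ne', Finsupp.add_apply]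
    have h1 : (Nat.card G).factorization p = (Nat.card H).factorization p + H.index.factorization p := by
      rw [← H.card_mul_index, Nat.factorization_mul Nat.card_pos.ne' hidx, Finsupp.add_apply]
    have h2 : blockDefect p b = (Nat.card H).factorization p - sInf ((fun χ : IrrCharacter H => (charDegree (χ : H → ℂ)).factorization p) '' b) := rfl
    have h3 : blockDefect p B = (Nat.card G).factorization p - m := rfl
    have h4 : blockHeight p b (ζ : H → ℂ) = (charDegree (ζ : H → ℂ)).factorization p - sInf ((fun ψ : IrrCharacter H => (charDegree (ψ : H → ℂ)).factorization p) '' b) := rfl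
    have h5 := sInf_le (p := p) b hζ
    have h6 := degree_factorization_le (p := p) ζ
    have h7 := sInf_le (p := p) B hχ₀
    have h8 := degree_factorization_le (p := p) χ₀
    rw [← hm] at h7
    omega
  by_contra hcon
  push Not at hcon
  have hdvd : p ^ (m + 1) ∣ n := by
    rw [hn]
    apply Finset.dvd_sum
    intro ψ _
    split_ifs with hψ
    · by_cases hh : blockHeight p B (ψ : G → ℂ) = 0
      · have h1 : p ∣ a ψ := hcon ψ hψ hh (a ψ) (ha ψ)
        have h2 : p ^ m ∣ charDegree (ψ : G → ℂ) := by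
          rw [hp.pow_dvd_iff_le_factorization (cd_pos ψ).ne']
          exact sInf_le B hψ
        rw [pow_succ, mul_comm (p ^ m)]
        exact mul_dvd_mul h1 h2
      · apply Dvd.dvd.mul_left
        rw [hp.pow_dvd_iff_le_factorization (cd_pos ψ).ne']
        have h4 : blockHeight p B (ψ : G → ℂ) = (charDegree (ψ : G → ℂ)).factorization p - m := rfl
        omega
    · exact dvd_zero _
  rw [hp.pow_dvd_iff_le_factorization hn0] at hdvd
  omega

end Cfsg.Agent.S4725
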