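import Cfsg.Statements.S4741
import Mathlib
import Cfsg.Agent.H26_DetBlocks

set_option autoImplicit false
open Cfsg

namespace Cfsg.Agent.S4741

open Cfsg.Agent.H3.CharIrr Cfsg.Agent.H3.CharComplete Cfsg.Agent.H3.CharInd Cfsg.Agent.H10.BlockAlg Cfsg.Agent.H10.BlockLoc Cfsg.Agent.H10.BlockIdem Cfsg.Agent.H10.BlockOrth Cfsg.Agent.H10.BlockDefect Cfsg.Agent.H26.Basic Cfsg.Agent.H26.ClassConst Cfsg.Agent.H26.Binet Cfsg.Agent.H26.DetBlocks

/-- Let p be a prime, M a maximal ideal of the algebraic integers containing p, and D a subgroup of the finite group G. Let x₁, …, x_r be pairwise non-conjugate elements of G such that D is a Sylow p-subgroup of the centralizer of each xᵢ, and such that for any conjugates g of some xᵢ and h of some xⱼ the element g h⁻¹ is never a non-identity p-element. Then there are r distinct p-blocks B₁, …, B_r of G, each having D as a defect group, such that for every choice of characters χᵢ ∈ Bᵢ of height zero the determinant of the r × r matrix (χᵢ(xⱼ)) does not lie in the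 local ideal at M. -/
theorem result {G : Type*} [Group G] [Finite G] (p : ℕ) [Fact p.Prime] (M : Ideal Cfsg.AlgInt) (hM : Cfsg.IsPModular p M) (D : Subgroup G) {r : ℕ} (x : Fin r → G) (hx : ∀ i j : Fin r, IsConj (x i) (x j) → i = j) (hD : ∀ i : Fin r, ∃ S : Sylow p ↥(Subgroup.centralizer ({x i} : Set G)), (S : Subgroup ↥(Subgroup.centralizer ({x i} : Set G))).map (Subgroup.centralizer ({x i} : Set G)).subtype = D) (hsep : ∀ i j : Fin r, ∀ g h : G, IsConj (x i) g → IsConj (x j) h → ∀ k : ℕ, 0 < k → orderOf (g * h⁻¹) ≠ p ^ k) : ∃ B : Fin r → Set (Cfsg.IrrCharacter G), Function.Injective B ∧ (∀ i : Fin r, Cfsg.IsPBlock M (B i) ∧ Cfsg.IsDefectGroup p M (B i) D) ∧ ∀ χ : Fin r → Cfsg.IrrCharacter G, (∀ i : Fin r, χ i ∈ B i ∧ Cfsg.blockHeight p (B i) (χ i : G → ℂ) = 0) → ¬ Cfsg.MemLocalIdeal M (Matrix.det (Matrix.of fun i j : Fin r => (χ i : G → ℂ) (x j))) := by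
  classical
  haveI : Fintype G := Fintype.ofFinite G
  haveI := hM.2.1
  haveI : Fintype (IrrCharacter G) := Fintype.ofFinite _
  haveI : Fintype (Set (IrrCharacter G)) := Fintype.ofFinite _
  have hp : p.Prime := Fact.out
  obtain ⟨P⟩ : Nonempty (Sylow p G) := inferInstance
  haveI : Fintype (P : Subgroup G) := Fintype.ofFinite _
  have hm0 : ∀ χ : IrrCharacter G, ∃ n : ℕ, ∑ u : (P : Subgroup G), (χ : G → ℂ) u = (Nat.card P : ℂ) * n :=
    fun χ => Cfsg.Agent.H10.BlockMain.sum_char_subgroup (IsIrr.isCharacter χ.2) (P : Subgroup G)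
  choose m hm using hm0
  have hIP : ∀ z : ℂ, IsIntegral ℤ z → MemLocalRing M z := fun z hz => memLocalRing_of_integral hM.2.1.ne_top hz
  have hWmem : ∀ (χ : IrrCharacter G) (g : G), MemLocalRing M (centralChar (χ : G → ℂ) g) :=
    fun χ g => hIP _ (isIntegral_centralChar χ g)
  have hXmem : ∀ (χ : IrrCharacter G) (g : G), MemLocalRing M ((m χ : ℂ) * (starRingEnd ℂ) ((χ : G → ℂ) g)) := by
    intro χ g
    rw [← inv_eq]
    exact ring_mul (ring_natCast _) (hIP _ (integral_val χ _))
  let W : Fin r → IrrCharacter G → locRing M := fun i χ => ⟨centralChar (χ : G → ℂ) (x i), hWmem χ _⟩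
  let X : IrrCharacter G → Fin r → locRing M := fun χ j => ⟨(m χ : ℂ) * (starRingEnd ℂ) ((χ : G → ℂ) (x j)), hXmem χ _⟩
  have hWX : ∀ i j, ∑ χ, W i χ * X χ j = if i = j then (((P : Subgroup G).index : ℕ) : locRing M) else 0 := by
    intro i j
    apply Subtype.ext
    have h1 := sep_sum P (x i) (x j) (hsep i j) m hm
    have h2 : ((∑ χ, W i χ * X χ j : locRing M) : ℂ) = ∑ χ : IrrCharacter G, centralChar (χ : G → ℂ) (x i) * ((m χ : ℂ) * (starRingEnd ℂ) ((χ : G → ℂ) (x j))) := by
      rw [AddSubmonoidClass.coe_finset_sum]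
      rfl
    rw [h2, h1]
    by_cases hij : i = j
    · subst hij
      rw [if_pos (IsConj.refl _), if_pos rfl]; simp
    · rw [if_neg (fun h => hij (hx i j h)), if_neg hij]; simp
  -- block function
  let b : IrrCharacter G → Set (IrrCharacter G) := fun χ => blockOf M (χ : G → ℂ)
  have hb : ∀ χ ψ : IrrCharacter G, b χ = b ψ → ∀ i, res M (W i χ) = res M (W i ψ) := by
    intro χ ψ h i
    rw [res_eq_iff]
    have : ψ ∈ b χ := by rw [h]; exact mem_blockOf_self ψ
    exact this (x i)
  let w' : Fin r → Set (IrrCharacter G) → AlgInt ⧸ M := fun i S =>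
    if h : ∃ χ, b χ = S then res M (W i h.choose) else 0
  have hw' : ∀ i χ, w' i (b χ) = res M (W i χ) := by
    intro i χ
    have h : ∃ ψ, b ψ = b χ := ⟨χ, rfl⟩
    simp only [w', dif_pos h]
    exact hb _ _ h.choose_spec i
  let Y : Set (IrrCharacter G) → Fin r → AlgInt ⧸ M := fun S j =>
    ∑ χ ∈ Finset.univ.filter (fun χ => b χ = S), res M (X χ j)
  have hu : ((((P : Subgroup G).index : ℕ) : AlgInt ⧸ M)) ≠ 0 := by
    haveI := charP_of hM
    rw [Ne, CharP.cast_eq_zero_iff (AlgInt ⧸ M) p]
    exact P.not_dvd_index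
  have hdet : Matrix.det (Matrix.of fun i j => ∑ S, w' i S * Y S j) ≠ 0 := by
    have h1 : (Matrix.of fun i j => ∑ S, w' i S * Y S j) =
        (((P : Subgroup G).index : ℕ) : AlgInt ⧸ M) • (1 : Matrix (Fin r) (Fin r) (AlgInt ⧸ M)) := by
      ext i j
      have h2 : ∑ S, w' i S * Y S j = res M (∑ χ, W i χ * X χ j) := by
        rw [map_sum, ← Finset.sum_fiberwise Finset.univ b]
        refine Finset.sum_congr rfl fun S _ => ?_
        simp only [Y]
        rw [Finset.mul_sum]
        refine Finset.sum_congr rfl fun χ hχ => ?_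
        simp only [Finset.mem_filter, Finset.mem_univ, true_and] at hχ
        rw [map_mul, ← hw' i χ, hχ]
      simp only [Matrix.of_apply, Matrix.smul_apply, Matrix.one_apply]
      rw [h2, hWX]
      split_ifs <;> simp
    rw [h1, Matrix.det_smul, Matrix.det_one, mul_one]
    exact pow_ne_zero _ hu
  obtain ⟨F, hinj, hWF, hYF⟩ := exists_binet w' Y hdet
  -- each F i is a block, with a class where the central character is a unit
  have hF1 : ∀ i, ∃ j, w' j (F i) ≠ 0 := by
    intro i
    by_contra hcon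
    push Not at hcon
    exact hWF (Matrix.det_eq_zero_of_column_eq_zero i hcon)
  have hF2 : ∀ i, ∃ χ, b χ = F i := by
    intro i
    obtain ⟨j, hj⟩ := hF1 i
    by_contra hcon
    apply hj
    simp only [w', dif_neg hcon]
  have hblk : ∀ i, IsPBlock M (F i) := by
    intro i
    obtain ⟨χ, hχ⟩ := hF2 i
    exact ⟨χ, hχ.symm⟩
  have hbF : ∀ i, ∀ χ ∈ F i, b χ = F i := by
    intro i χ hχ
    exact (block_eq_blockOf (hblk i) hχ).symm
  have hF3 : ∀ i, ∃ j, ∀ χ ∈ F i, ¬ MemLocalIdeal M (centralChar (χ : G → ℂ) (x j)) := by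
    intro i
    obtain ⟨j, hj⟩ := hF1 i
    refine ⟨j, fun χ hχ h => hj ?_⟩
    rw [← hbF i χ hχ, hw', res_eq_zero_iff]
    exact h
  have hF4 : ∀ i, ∃ χ ∈ F i, ∃ j, ¬ MemLocalIdeal M ((χ : G → ℂ) (x j)⁻¹) := by
    intro i
    by_contra hcon
    push Not at hcon
    apply hYF
    apply Matrix.det_eq_zero_of_row_eq_zero i
    intro j
    simp only [Matrix.of_apply, Y]
    apply Finset.sum_eq_zero
    intro χ hχ
    simp only [Finset.mem_filter, Finset.mem_univ, true_and] at hχ
    rw [res_eq_zero_iff]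
    have h1 : χ ∈ F i := by rw [← hχ]; exact mem_blockOf_self χ
    have h2 := hcon χ h1 j
    rw [inv_eq] at h2
    exact ideal_mul_left (ring_natCast _) h2
  -- common valuation
  have hval : ∀ i j, (Subgroup.centralizer ({x i} : Set G)).index.factorization p =
      (Subgroup.centralizer ({x j} : Set G)).index.factorization p := by
    intro i j
    have h1 : IsCSyl p (x i) D := by
      obtain ⟨S, hS⟩ := hD i
      exact ⟨S, hS.symm⟩
    have h2 : IsCSyl p (x j) D := by
      obtain ⟨S, hS⟩ := hD j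
      exact ⟨S, hS.symm⟩
    have h3 := h1.card
    rw [h2.card] at h3
    have h4 := Nat.pow_right_injective hp.two_le h3
    have e1 := factorization_index_add (p := p) (x i)
    have e2 := factorization_index_add (p := p) (x j)
    omega
  have hlow : ∀ i j, ∀ χ ∈ F i, (Subgroup.centralizer ({x j} : Set G)).index.factorization p ≤
      (charDegree (χ : G → ℂ)).factorization p := by
    intro i j χ hχ
    obtain ⟨j', hj'⟩ := hF3 i
    rw [hval j j']
    exact Cfsg.Agent.H26.Defect.factorization_class_le (B := F i) hM (hj' χ hχ)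
  have hup : ∀ i j, ∃ χ ∈ F i, (charDegree (χ : G → ℂ)).factorization p ≤
      (Subgroup.centralizer ({x j} : Set G)).index.factorization p := by
    intro i j
    obtain ⟨χ, hχ, j', hj'⟩ := hF4 i
    refine ⟨χ, hχ, ?_⟩
    have h1 : MemLocalRing M (centralChar (χ : G → ℂ) (x j')⁻¹) := hWmem χ _
    rw [centralChar, ← cd_eq, mul_comm, mul_div_assoc] at h1
    have h2 := ring_mul (ring_inv (hIP _ (integral_val χ (x j')⁻¹)) hj') h1
    rw [inv_mul_cancel_left₀ (ne_zero_of_not_ideal hj'),
      ring_nat_div_iff hM Subgroup.index_ne_zero_of_finite (cd_pos χ).ne'] at h2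
    have h3 : Subgroup.centralizer ({(x j')⁻¹} : Set G) = Subgroup.centralizer ({x j'} : Set G) := by
      ext y
      rw [Subgroup.mem_centralizer_singleton_iff, Subgroup.mem_centralizer_singleton_iff]
      constructor
      · intro h
        have : y * x j' = x j' * ((x j')⁻¹ * y) * x j' := by group
        rw [this, ← h]; group
      · intro h
        have : y * (x j')⁻¹ = (x j')⁻¹ * (x j' * y) * (x j')⁻¹ := by group
        rw [this, ← h]; group
    rw [h3] at h2
    rwa [hval j j']
  refine ⟨F, hinj, fun i => ⟨hblk i, ?_⟩, ?_⟩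
  · obtain ⟨j, hj⟩ := hF3 i
    obtain ⟨χ, hχ⟩ := block_nonempty (hblk i)
    obtain ⟨ψ, hψ, hle⟩ := hup i j
    have h1 : IsCSyl p (x j) D := by
      obtain ⟨S, hS⟩ := hD j
      exact ⟨S, hS.symm⟩
    exact isDefectGroup_of hM (hblk i) h1 hχ (hj χ hχ) hψ hle
  · intro χ hχ hdetM
    -- valuations of the height zero characters
    have hv : ∀ i j, (charDegree (χ i : G → ℂ)).factorization p =
        (Subgroup.centralizer ({x j} : Set G)).index.factorization p := by
      intro i j
      obtain ⟨ψ, hψ, hle⟩ := hup i j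
      exact le_antisymm ((Cfsg.Agent.H26.Defect.height_zero_le (hχ i).2 ψ hψ).trans hle) (hlow i j _ (hχ i).1)
    let dc : Fin r → ℕ := fun i => charDegree (χ i : G → ℂ) / p ^ (charDegree (χ i : G → ℂ)).factorization p
    let ic : Fin r → ℕ := fun j => (Subgroup.centralizer ({x j} : Set G)).index / p ^ (Subgroup.centralizer ({x j} : Set G)).index.factorization p
    have hdc : ∀ i, (charDegree (χ i : G → ℂ)) = p ^ (charDegree (χ i : G → ℂ)).factorization p * dc i :=
      fun i => (Nat.ordProj_mul_ordCompl_eq_self _ p).symm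
    have hic : ∀ j, (Subgroup.centralizer ({x j} : Set G)).index =
        p ^ (Subgroup.centralizer ({x j} : Set G)).index.factorization p * ic j :=
      fun i => (Nat.ordProj_mul_ordCompl_eq_self _ p).symm
    have hdcp : ∀ i, ¬ p ∣ dc i := fun i => Nat.not_dvd_ordCompl hp (cd_pos (χ i)).ne'
    have hrel : ∀ i j, (ic j : ℂ) * (χ i : G → ℂ) (x j) = (dc i : ℂ) * centralChar (χ i : G → ℂ) (x j) := by
      intro i j
      have h1 : centralChar (χ i : G → ℂ) (x j) * (charDegree (χ i : G → ℂ) : ℂ) =
          ((Subgroup.centralizer ({x j} : Set G)).index : ℂ) * (χ i : G → ℂ) (x j) := by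
        rw [centralChar, ← cd_eq, div_mul_cancel₀]
        exact_mod_cast (cd_pos (χ i)).ne'
      have h2 : ((charDegree (χ i : G → ℂ) : ℕ) : ℂ) = (p : ℂ) ^ (charDegree (χ i : G → ℂ)).factorization p * dc i := by
        conv_lhs => rw [hdc i]
        push_cast; rfl
      have h3 : (((Subgroup.centralizer ({x j} : Set G)).index : ℕ) : ℂ) = (p : ℂ) ^ (charDegree (χ i : G → ℂ)).factorization p * ic j := by
        conv_lhs => rw [hic j, ← hv i j]
        push_cast; rfl
      rw [h2, h3] at h1
      have hp0 : ((p : ℂ) ^ (charDegree (χ i : G → ℂ)).factorization p) ≠ 0 :=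
        pow_ne_zero _ (by exact_mod_cast hp.ne_zero)
      apply mul_left_cancel₀ hp0
      rw [← mul_assoc, ← h1]; ring
    have hD1 : Matrix.det (Matrix.of fun i j : Fin r => (ic j : ℂ) * (Matrix.of fun i j : Fin r => (χ i : G → ℂ) (x j)) i j) =
        (∏ j, (ic j : ℂ)) * Matrix.det (Matrix.of fun i j : Fin r => (χ i : G → ℂ) (x j)) :=
      Matrix.det_mul_row _ _
    have hD2 : Matrix.det (Matrix.of fun i j : Fin r => (dc i : ℂ) * (Matrix.of fun i j : Fin r => centralChar (χ i : G → ℂ) (x j)) i j) =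
        (∏ j, (dc j : ℂ)) * Matrix.det (Matrix.of fun i j : Fin r => centralChar (χ i : G → ℂ) (x j)) :=
      Matrix.det_mul_column _ _
    have hD3 : (Matrix.of fun i j : Fin r => (ic j : ℂ) * (Matrix.of fun i j : Fin r => (χ i : G → ℂ) (x j)) i j) =
        (Matrix.of fun i j : Fin r => (dc i : ℂ) * (Matrix.of fun i j : Fin r => centralChar (χ i : G → ℂ) (x j)) i j) := by
      ext i j
      simp only [Matrix.of_apply]
      exact hrel i j
    rw [hD3, hD2] at hD1
    have h4 : MemLocalIdeal M ((∏ j, (dc j : ℂ)) * Matrix.det (Matrix.of fun i j : Fin r => centralChar (χ i : G → ℂ) (x j))) := by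
      rw [hD1]
      exact ideal_mul_left (ring_prod _ _ fun j _ => ring_natCast _) hdetM
    -- the determinant in the local ring
    let A : Matrix (Fin r) (Fin r) (locRing M) := Matrix.of fun i j => W j (χ i)
    have hA : ((A.det : locRing M) : ℂ) = Matrix.det (Matrix.of fun i j : Fin r => centralChar (χ i : G → ℂ) (x j)) := by
      have := RingHom.map_det (locRing M).subtype A
      exact this
    have hA2 : res M A.det ≠ 0 := by
      rw [RingHom.map_det]
      have : (res M).mapMatrix A = (Matrix.of fun i j => w' i (F j)).transpose := by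
        ext i j
        simp only [RingHom.mapMatrix_apply, Matrix.map_apply, Matrix.transpose_apply, Matrix.of_apply, A]
        rw [← hw', hbF i _ (hχ i).1]
      rw [this, Matrix.det_transpose]
      exact hWF
    rw [← hA, ← Nat.cast_prod] at h4
    rcases ideal_of_mul (ring_natCast _) A.det.2 h4 with h5 | h5
    · rw [ideal_natCast_iff hM] at h5
      obtain ⟨j, _, hj⟩ := (Prime.dvd_finsetProd_iff hp.prime _).1 h5
      exact hdcp j hj
    · apply hA2
      rw [res_eq_zero_iff]
      exact h5

end Cfsg.Agent.S4741
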