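import Cfsg.Statements.S4743
import Mathlib
import Cfsg.Agent.H26_PQ

set_option autoImplicit false
open Cfsg

namespace Cfsg.Agent.S4743

open Cfsg.Agent.H26.PQ

/-- Let p ≠ q be primes dividing the order of the finite group G, suppose the centralizer of every non-identity p-element has order prime to q, and suppose G is p-solvable or q-solvable. Then G has an irreducible character of p-defect zero or an irreducible character of q-defect zero. -/
theorem result {G : Type*} [Group G] [Finite G] (p q : ℕ) [Fact p.Prime] [Fact q.Prime] (hppq : p ≠ q) (hpG : p ∣ Nat.card G) (hqG : q ∣ Nat.card G) (hC : ∀ g : G, g ≠ 1 → (∃ k : ℕ, orderOf g = p ^ k) → ¬ q ∣ Nat.card ↥(Subgroup.centralizer ({g} : Set G))) (hsolv : Cfsg.IsPSolvable p G ∨ Cfsg.IsPSolvable q G) : (∃ χ : Cfsg.IrrCharacter G, (Cfsg.charDegree (χ : G → ℂ)).factorization p = (Nat.card G).factorization p) ∨ (∃ χ : Cfsg.IrrCharacter G, (Cfsg.charDegree (χ : G → ℂ)).factorization q = (Nat.card G).factorization q) := by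
  by_contra hcon
  rw [not_or] at hcon
  obtain ⟨h0, h1⟩ := hcon
  have hC' : ∀ g : G, g ≠ 1 → (∃ k : ℕ, orderOf g = q ^ k) →
      ¬ p ∣ Nat.card ↥(Subgroup.centralizer ({g} : Set G)) := fun g hg hg2 => comm_dvd hC g hg hg2
  have key1 : ∀ N : Subgroup G, N.Normal → ¬ p ∣ Nat.card N → ¬ q ∣ Nat.card N :=
    fun N hN => main' hppq hC h0 N hN
  have key2 : ∀ N : Subgroup G, N.Normal → ¬ q ∣ Nat.card N → ¬ p ∣ Nat.card N :=
    fun N hN => main' hppq.symm hC' h1 N hN
  rcases hsolv with h | h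
  · obtain ⟨N, hN, h2 | h2⟩ := exists_normal hppq h hpG hqG
    · exact key2 N hN h2.2 h2.1
    · exact key1 N hN h2.1 h2.2
  · obtain ⟨N, hN, h2 | h2⟩ := exists_normal hppq.symm h hqG hpG
    · exact key1 N hN h2.2 h2.1
    · exact key2 N hN h2.1 h2.2

end Cfsg.Agent.S4743
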