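import Cfsg.Statements.S4744
import Mathlib
import Cfsg.Agent.H26_PQ

set_option autoImplicit false
open Cfsg

namespace Cfsg.Agent.S4744

open Cfsg.Agent.H26.PQ

/-- Let p be an odd prime and G a finite group of even order divisible by p in which the centralizer of every non-identity p-element has odd order. Then either G has an irreducible character of p-defect zero, or the normalizer of every Sylow p-subgroup P of G has even order and P is abelian. -/
theorem result {G : Type*} [Group G] [Finite G] (p : ℕ) [Fact p.Prime] (hp2 : p ≠ 2) (hpG : p ∣ Nat.card G) (h2G : 2 ∣ Nat.card G) (hC : ∀ g : G, g ≠ 1 → (∃ k : ℕ, orderOf g = p ^ k) → Odd (Nat.card ↥(Subgroup.centralizer ({g} : Set G)))) : (∃ χ : Cfsg.IrrCharacter G, (Cfsg.charDegree (χ : G → ℂ)).factorization p = (Nat.card G).factorization p) ∨ ∀ P : Sylow p G, Even (Nat.card ↥(Subgroup.normalizer ((P : Subgroup G) : Set G))) ∧ IsMulCommutative ↥(P : Subgroup G) := by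
  by_cases h0 : ∃ χ : Cfsg.IrrCharacter G, (Cfsg.charDegree (χ : G → ℂ)).factorization p =
      (Nat.card G).factorization p
  · exact Or.inl h0
  · refine Or.inr fun P => ?_
    haveI : Fact (Nat.Prime 2) := ⟨Nat.prime_two⟩
    obtain ⟨s, hs⟩ := exists_prime_orderOf_dvd_card' (G := G) 2 h2G
    obtain ⟨t, ht, htP⟩ := inverts_sylow_of_no_defect_zero hC h0 P s hs
    have ht2 : orderOf t = 2 := by
      obtain ⟨g, rfl⟩ := isConj_iff.1 ht
      rw [← hs]; exact (MulAut.conj g).orderOf_eq s
    have ht' : t * t = 1 := by rw [← pow_two, ← ht2]; exact pow_orderOf_eq_one t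
    have e1 : t⁻¹ = t := inv_eq_of_mul_eq_one_left ht'
    refine ⟨?_, ⟨⟨?_⟩⟩⟩
    · have htN : t ∈ Subgroup.normalizer ((P : Subgroup G) : Set G) := by
        have key : ∀ u ∈ (P : Subgroup G), t * u * t⁻¹ ∈ (P : Subgroup G) := by
          intro u hu
          rw [htP u hu]; exact inv_mem hu
        apply Subgroup.mem_normalizer_iff.2
        intro u
        refine ⟨key u, fun h => ?_⟩
        have := key _ h
        have e2 : t * (t * u * t⁻¹) * t⁻¹ = u := by
          rw [e1]
          calc t * (t * u * t) * t = (t * t) * u * (t * t) := by group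
            _ = u := by rw [ht']; group
        rwa [e2] at this
      have := orderOf_dvd_natCard (⟨t, htN⟩ : Subgroup.normalizer ((P : Subgroup G) : Set G))
      rw [← Subgroup.orderOf_coe, ht2] at this
      exact even_iff_two_dvd.2 this
    · intro u v
      apply Subtype.ext
      exact comm_of_inverted htP u.2 v.2

end Cfsg.Agent.S4744
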