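import Cfsg.Statements.S4748
import Mathlib
import Cfsg.Agent.H26_TIAct
import Cfsg.Agent.H26_HH
import Cfsg.Agent.H22_Coprime3
import Cfsg.Agent.H1_Coprime2
import Cfsg.Agent.H1_Nilp
import Cfsg.Agent.H22_PSolv

set_option autoImplicit false
open scoped Pointwise
open Cfsg

namespace Cfsg.Agent.S4748

open Cfsg Cfsg.Agent.H3.CharIrr Cfsg.Agent.H26.Basic Cfsg.Agent.H26.TIAct

open scoped Pointwise commutatorElement

/-- Let G be a finite p-solvable group whose Sylow p-subgroup P meets each conjugate g P g⁻¹ with g outside N_G(P) trivially, and let χ be a faithful character of G (χ g = χ 1 only for g = 1) whose degree d satisfies d² ≤ |P|. Then P is normal in G. -/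
theorem result {G : Type*} [Group G] [Finite G] (p : ℕ) [Fact p.Prime] (hsolv : Cfsg.IsPSolvable p G) (P : Sylow p G) (hTI : ∀ g : G, g ∉ Subgroup.normalizer ((P : Subgroup G) : Set G) → (P : Subgroup G) ⊓ (MulAut.conj g • (P : Subgroup G)) = ⊥) (χ : G → ℂ) (hχ : Cfsg.IsCharacter G χ) (hfaith : ∀ g : G, χ g = χ 1 → g = 1) (hdeg : Cfsg.charDegree χ ^ 2 ≤ Nat.card ↥(P : Subgroup G)) : (P : Subgroup G).Normal := by
  classical
  haveI : Fintype G := Fintype.ofFinite G
  rename_i hp _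
  by_contra hPn
  -- some g does not normalize P
  obtain ⟨g, hg⟩ : ∃ g : G, g ∉ Subgroup.normalizer ((P : Subgroup G) : Set G) := by
    by_contra hcon
    push Not at hcon
    apply hPn
    rw [← Subgroup.normalizer_eq_top_iff]
    exact (Subgroup.eq_top_iff' _).2 hcon
  have hPg := hTI g hg
  have hPne : (P : Subgroup G) ≠ ⊥ := by
    intro h
    apply hPn
    rw [h]; infer_instance
  -- O_p(G) = 1
  have hOp : Cfsg.pCore p G = ⊥ := by
    rw [eq_bot_iff, ← hPg]
    have hn := Cfsg.Agent.H1.Nilp.pCore_normal (G := G) p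
    have hle : Cfsg.pCore p G ≤ (P : Subgroup G) := by
      rw [Cfsg.Agent.H1.Nilp.pCore_eq_iInf]; exact iInf_le _ P
    refine le_inf hle ?_
    have h1 : MulAut.conj g • Cfsg.pCore p G = Cfsg.pCore p G := Cfsg.Agent.H1.Basic.conj_of_normal g _
    rw [← h1]
    exact Subgroup.pointwise_smul_le_pointwise_smul_iff.2 hle
  set K := Cfsg.pPrimeCore p G with hK
  have hKn : K.Normal := Cfsg.Agent.H1.Nilp.pPrimeCore_normal (G := G) p
  have hKp : (Nat.card K).Coprime p := Cfsg.Agent.H1.Nilp.pPrimeCore_coprime (G := G) p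
  have hCK : Subgroup.centralizer (K : Set G) ≤ K := Cfsg.Agent.H26.HH.centralizer_pPrimeCore_le hsolv hOp
  obtain ⟨a, ha⟩ := IsPGroup.iff_card.1 P.isPGroup'
  have hcopPK : (Nat.card (P : Subgroup G)).Coprime (Nat.card K) := by
    rw [ha]; exact Nat.Coprime.pow_left _ hKp.symm
  have hPK : (P : Subgroup G) ⊓ K = ⊥ := Cfsg.Agent.H1.Basic.disjoint_of_coprime_card hcopPK
  -- TI property
  have hTI' : ∀ x ∈ (P : Subgroup G), x ≠ 1 → ∀ k ∈ K, x * k = k * x → ∀ y ∈ (P : Subgroup G), y * k = k * y := by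
    intro x hx hx1 k hk hxk y hy
    have hkN : k ∈ Subgroup.normalizer ((P : Subgroup G) : Set G) := by
      by_contra hc
      have h1 := hTI k hc
      have h2 : x ∈ (P : Subgroup G) ⊓ (MulAut.conj k • (P : Subgroup G)) := by
        refine ⟨hx, ?_⟩
        show x ∈ MulAut.conj k • (P : Subgroup G)
        rw [Cfsg.Agent.H1.Basic.mem_conj]
        have : k⁻¹ * x * k = x := by rw [mul_assoc, hxk]; group
        rw [this]; exact hx
      rw [h1, Subgroup.mem_bot] at h2
      exact hx1 h2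
    have h1 : k * y * k⁻¹ ∈ (P : Subgroup G) := (Subgroup.mem_normalizer_iff.1 hkN y).1 hy
    have h2 : k * y * k⁻¹ * y⁻¹ ∈ (P : Subgroup G) ⊓ K := by
      refine ⟨(P : Subgroup G).mul_mem h1 ((P : Subgroup G).inv_mem hy), ?_⟩
      have : k * y * k⁻¹ * y⁻¹ = k * (y * k⁻¹ * y⁻¹) := by group
      show k * y * k⁻¹ * y⁻¹ ∈ K
      rw [this]
      exact K.mul_mem hk (hKn.conj_mem _ (K.inv_mem hk) y)
    rw [hPK, Subgroup.mem_bot, mul_inv_eq_one, mul_inv_eq_iff_eq_mul] at h2
    exact h2.symm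
  have hPNK : (P : Subgroup G) ≤ Subgroup.normalizer (K : Set G) := by
    rw [Subgroup.normalizer_eq_top]; exact le_top
  -- a Sylow subgroup of K on which P acts nontrivially
  obtain ⟨r, hr, S, hSN, hSC⟩ : ∃ r : ℕ, ∃ _ : Fact r.Prime, ∃ S : Sylow r K,
      (P : Subgroup G) ≤ Subgroup.normalizer ((S : Subgroup K).map K.subtype : Set G) ∧
      ¬ (P : Subgroup G) ≤ Subgroup.centralizer ((S : Subgroup K).map K.subtype : Set G) := by
    by_contra hcon
    push Not at hcon
    have h1 : K ≤ Subgroup.centralizer ((P : Subgroup G) : Set G) := by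
      apply Cfsg.Agent.H1.Nilp.le_of_sylow_le
      intro r hr
      obtain ⟨S, hS⟩ := Cfsg.Agent.H1.Coprime.invariant_sylow_exists (P : Subgroup G) K hPNK hcopPK
        (Or.inl (by have := P.isPGroup'.isNilpotent; infer_instance)) r
      exact ⟨S, (Subgroup.le_centralizer_iff).1 (hcon r hr S hS)⟩
    have h2 : (P : Subgroup G) ≤ K := ((Subgroup.le_centralizer_iff).1 h1).trans hCK
    apply hPne
    rw [← hPK]
    exact (inf_eq_left.2 h2).symm
  set S' : Subgroup G := (S : Subgroup K).map K.subtype with hS'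
  have hS'K : S' ≤ K := Subgroup.map_subtype_le _
  have hS'r : IsPGroup r S' := S.isPGroup'.map K.subtype
  obtain ⟨R, hRS, hRN, hRC, hRmin⟩ := Cfsg.Agent.H22.Coprime3.exists_minimal_action (p := r) hSN hSC
  have hRr : IsPGroup r R := hS'r.to_le hRS
  have hRK : R ≤ K := hRS.trans hS'K
  have hcopR : (Nat.card (P : Subgroup G)).Coprime (Nat.card R) :=
    Nat.Coprime.coprime_dvd_right (Subgroup.card_dvd_of_le hRK) hcopPK
  obtain ⟨hc1, hc2, hc3, -⟩ := Cfsg.Agent.H22.Coprime3.minimal_action hRN hRr hcopR hRC hRmin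
  have hder := Cfsg.Agent.H22.Coprime3.commutator_le_map_frattini hRr
  have hcl : ∀ a ∈ R, ∀ b ∈ R, ∀ h ∈ R, ⁅a, b⁆ * h = h * ⁅a, b⁆ := by
    intro a ha b hb h hh
    have h1 := hc2 (hder (Subgroup.commutator_mem_commutator ha hb))
    exact (Subgroup.mem_centralizer_iff.1 h1 h hh).symm
  have hclP : ∀ a ∈ R, ∀ b ∈ R, ∀ y ∈ (P : Subgroup G), ⁅a, b⁆ * y = y * ⁅a, b⁆ := by
    intro a ha b hb y hy
    exact Subgroup.mem_centralizer_iff.1 (hc3 hy) _ (hder (Subgroup.commutator_mem_commutator ha hb))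
  have hPcard : 1 < Nat.card (P : Subgroup G) := by
    rw [Subgroup.one_lt_card_iff_ne_bot]; exact hPne
  have hRne : R ≠ ⊥ := by
    intro h
    apply hRC
    rw [h]
    intro x _
    rw [Subgroup.mem_centralizer_iff]
    intro y hy
    rw [SetLike.mem_coe, Subgroup.mem_bot] at hy
    rw [hy]; simp
  have h := main_bound hRN hcopR (by have := hRr.isNilpotent; infer_instance) hc1 hcl hclP
    (fun x hx hx1 k hk => hTI' x hx hx1 k (hRK hk)) hPcard hRne hχ (fun g _ hg => hfaith g hg)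
  omega

end Cfsg.Agent.S4748
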