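import Cfsg.Statements.S4750
import Cfsg.Agent.H10_TILin
import Cfsg.Agent.H10_FSFix
import Cfsg.Agent.H3_PRes
import Cfsg.Agent.H1_Basic

set_option autoImplicit false
open scoped Pointwise ComplexConjugate
open Cfsg

namespace Cfsg.Agent.S4750

open Cfsg.Agent Cfsg.Agent.H3.CharIrr Cfsg.Agent.H3.CharInd Cfsg.Agent.H3.CharMult Cfsg.Agent.H10.TILin Cfsg.Agent.H10.FSFix Cfsg.Agent.H1.Basic

theorem free {G : Type*} [Group G] [Finite G] (p : ℕ) [Fact p.Prime] (P : Sylow p G)
    (hTI : ∀ g : G, g ∉ Subgroup.normalizer ((P : Subgroup G) : Set G) → (P : Subgroup G) ⊓ (MulAut.conj g • (P : Subgroup G)) = ⊥)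
    (H : Subgroup G) (hH : Subgroup.normalizer ((P : Subgroup G) : Set G) ≤ H) {g x : G} (hg : g ∉ H) (hx : x ∈ (P : Subgroup G))
    (hgx : g⁻¹ * x * g ∈ H) : x = 1 := by
  have hPH : (P : Subgroup G) ≤ H := Subgroup.le_normalizer.trans hH
  have hy : IsPGroup p (Subgroup.zpowers (⟨g⁻¹ * x * g, hgx⟩ : H)) := by
    obtain ⟨k, hk⟩ := P.isPGroup' ⟨x, hx⟩
    have hk' : x ^ p ^ k = 1 := congrArg Subtype.val hk
    have hyk : (⟨g⁻¹ * x * g, hgx⟩ : H) ^ p ^ k = 1 := by
      apply Subtype.ext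
      show (g⁻¹ * x * g) ^ p ^ k = 1
      have := conj_pow (i := p ^ k) (a := g⁻¹) (b := x)
      rw [inv_inv, hk', mul_one, inv_mul_cancel] at this
      exact this
    rintro ⟨z, hz⟩
    obtain ⟨j, rfl⟩ := Subgroup.mem_zpowers_iff.1 hz
    refine ⟨k, Subtype.ext ?_⟩
    show ((⟨g⁻¹ * x * g, hgx⟩ : H) ^ j) ^ p ^ k = 1
    rw [← zpow_natCast, ← zpow_mul, mul_comm, zpow_mul, zpow_natCast, hyk, one_zpow]
  obtain ⟨Q, hQ⟩ := hy.exists_le_sylow
  let P' : Sylow p H := P.subtype hPH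
  obtain ⟨h, hh⟩ := MulAction.exists_smul_eq H P' Q
  have h1 : (⟨g⁻¹ * x * g, hgx⟩ : H) ∈ (Q : Subgroup H) := hQ (Subgroup.mem_zpowers _)
  rw [← hh, Sylow.coe_subgroup_smul, mem_conj] at h1
  have h2 : (h : G)⁻¹ * (g⁻¹ * x * g) * h ∈ (P : Subgroup G) := h1
  by_cases hn : g * h ∈ Subgroup.normalizer ((P : Subgroup G) : Set G)
  · exact absurd ((Subgroup.mul_mem_cancel_right H h.2).1 (hH hn)) hg
  · have h3 := hTI _ hn
    have h4 : x ∈ (P : Subgroup G) ⊓ (MulAut.conj (g * h) • (P : Subgroup G)) := by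
      refine Subgroup.mem_inf.2 ⟨hx, ?_⟩
      rw [mem_conj]
      convert h2 using 1
      group
    rw [h3] at h4
    exact Subgroup.mem_bot.1 h4

theorem split {G : Type*} [Group G] [Fintype G] {n : ℕ} (ρ : Representation ℂ G (Fin n → ℂ)) (P H : Subgroup G)
    [Fintype P] [Fintype H] (hfree : ∀ g x : G, g ∉ H → x ∈ P → g⁻¹ * x * g ∈ H → x = 1) {e : Fin n → ℂ} (he : ∀ h ∈ H, ρ h e = e)
    (X : Finset G) (hXH : ∀ g ∈ X, g ∉ H) (hX : ∀ x ∈ P, ∀ g ∈ X, ∀ h ∈ H, x * g * h ∈ X) :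
    ∃ c : G → ℕ, ∑ g ∈ X, ρ g e = (Nat.card H : ℂ) • ∑ x : P, ρ (x : G) (∑ g : G, (c g : ℂ) • ρ g e) := by
  classical
  induction X using Finset.strongInduction with
  | H X ih =>
    rcases X.eq_empty_or_nonempty with rfl | ⟨r, hr⟩
    · exact ⟨fun _ => 0, by simp⟩
    let f : P × H → G := fun xh => (xh.1 : G) * r * xh.2
    have hf : Function.Injective f := by
      rintro ⟨x, h⟩ ⟨x', h'⟩ hxh
      change (x : G) * r * h = (x' : G) * r * h' at hxh
      have h1 : r⁻¹ * ((x' : G)⁻¹ * x) * r = h' * (h : G)⁻¹ := by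
        have : (x' : G)⁻¹ * (x * r * h) * (h : G)⁻¹ = (x' : G)⁻¹ * (x' * r * h') * (h : G)⁻¹ := by rw [hxh]
        calc r⁻¹ * ((x' : G)⁻¹ * x) * r = r⁻¹ * ((x' : G)⁻¹ * (x * r * h) * (h : G)⁻¹) := by group
          _ = r⁻¹ * ((x' : G)⁻¹ * (x' * r * h') * (h : G)⁻¹) := by rw [this]
          _ = _ := by group
      have h2 : (x' : G)⁻¹ * x = 1 := hfree r _ (hXH r hr) (P.mul_mem (P.inv_mem x'.2) x.2) (by
        rw [h1]; exact H.mul_mem h'.2 (H.inv_mem h.2))
      have h3 : x = x' := Subtype.ext (inv_mul_eq_one.1 h2).symm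
      subst h3
      have h4 : (h : G) = h' := mul_left_cancel hxh
      rw [Subtype.ext h4]
    let T : Finset G := Finset.univ.image f
    have hT : T ⊆ X := by
      intro g hg
      obtain ⟨⟨x, h⟩, -, rfl⟩ := Finset.mem_image.1 hg
      exact hX x x.2 r hr h h.2
    have hrT : r ∈ T := Finset.mem_image.2 ⟨(1, 1), Finset.mem_univ _, by simp [f]⟩
    obtain ⟨c, hc⟩ := ih (X \ T) (Finset.sdiff_ssubset hT ⟨r, hrT⟩) (fun g hg => hXH g (Finset.mem_sdiff.1 hg).1) (by
      intro x hx g hg h hh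
      obtain ⟨hg1, hg2⟩ := Finset.mem_sdiff.1 hg
      refine Finset.mem_sdiff.2 ⟨hX x hx g hg1 h hh, fun hT' => hg2 ?_⟩
      obtain ⟨⟨x', h'⟩, -, hx'⟩ := Finset.mem_image.1 hT'
      change (x' : G) * r * h' = x * g * h at hx'
      refine Finset.mem_image.2 ⟨(⟨x⁻¹ * x', P.mul_mem (P.inv_mem hx) x'.2⟩, ⟨h' * h⁻¹, H.mul_mem h'.2 (H.inv_mem hh)⟩), Finset.mem_univ _, ?_⟩
      show x⁻¹ * x' * r * (h' * h⁻¹) = g
      calc x⁻¹ * x' * r * (h' * h⁻¹) = x⁻¹ * (x' * r * h') * h⁻¹ := by group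
        _ = x⁻¹ * (x * g * h) * h⁻¹ := by rw [hx']
        _ = g := by group)
    refine ⟨fun g => c g + if g = r then 1 else 0, ?_⟩
    have hsT : ∑ g ∈ T, ρ g e = (Nat.card H : ℂ) • ∑ x : P, ρ (x : G) (ρ r e) := by
      rw [Finset.sum_image (fun a _ b _ hab => hf hab), Fintype.sum_prod_type, Finset.smul_sum]
      refine Finset.sum_congr rfl fun x _ => ?_
      have h1 : ∀ h : H, ρ ((x : G) * r * h) e = ρ (x : G) (ρ r e) := by
        intro h
        rw [map_mul, map_mul]
        show ρ (x : G) (ρ r (ρ (h : G) e)) = _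
        rw [he h h.2]
      rw [Finset.sum_congr rfl (fun h _ => h1 h), Finset.sum_const, Finset.card_univ, ← Nat.card_eq_fintype_card, ← Nat.cast_smul_eq_nsmul ℂ]
    rw [← Finset.sum_sdiff hT, hc, hsT, ← smul_add, ← Finset.sum_add_distrib]
    congr 1
    refine Finset.sum_congr rfl fun x _ => ?_
    rw [← map_add]
    congr 1
    have h2 : ∀ g : G, ((c g + if g = r then 1 else 0 : ℕ) : ℂ) • ρ g e = (c g : ℂ) • ρ g e + (if g = r then ρ g e else 0) := by
      intro g
      split_ifs <;> simp [add_smul]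
    rw [Finset.sum_congr rfl (fun g _ => h2 g), Finset.sum_add_distrib]
    simp

theorem main {G : Type*} [Group G] [Fintype G] (p : ℕ) [hp : Fact p.Prime] (P : Sylow p G)
    (H : Subgroup G) (hPH : (P : Subgroup G) ≤ H)
    (hfree : ∀ g x : G, g ∉ H → x ∈ (P : Subgroup G) → g⁻¹ * x * g ∈ H → x = 1) {n : ℕ}
    (ρ : Representation ℂ G (Fin n → ℂ)) (hn : n ≤ Nat.card (P : Subgroup G)) {v : Fin n → ℂ} (hv : v ≠ 0) (hvG : ∀ g, ρ g v = v)
    {u : Fin n → ℂ} (hu : ∀ h ∈ H, ρ h u = u) (g : G) : ρ g u = u := by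
  classical
  haveI : Fintype (P : Subgroup G) := Fintype.ofFinite _
  haveI : Fintype H := Fintype.ofFinite _
  by_contra hgu
  have hG0 : (Nat.card G : ℂ) ≠ 0 := by exact_mod_cast Nat.card_pos.ne'
  have hH0 : (Nat.card H : ℂ) ≠ 0 := by exact_mod_cast Nat.card_pos.ne'
  have hsumfix : ∀ (g : G) (u : Fin n → ℂ), ρ g (∑ x : G, ρ x u) = ∑ x : G, ρ x u := by
    intro g u
    rw [map_sum, ← Equiv.sum_comp (Equiv.mulLeft g) (fun x => ρ x u)]
    refine Finset.sum_congr rfl fun x _ => ?_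
    rw [Equiv.coe_mulLeft, map_mul]; rfl
  set a : Fin n → ℂ := (Nat.card G : ℂ)⁻¹ • ∑ x : G, ρ x u with ha
  have haG : ∀ g, ρ g a = a := by
    intro g
    have h4 : ρ g ((Nat.card G : ℂ)⁻¹ • ∑ x : G, ρ x u) = (Nat.card G : ℂ)⁻¹ • ρ g (∑ x : G, ρ x u) := LinearMap.map_smul _ _ _
    rw [ha, h4, hsumfix]
  set e : Fin n → ℂ := u - a with hedef
  have he0 : e ≠ 0 := by
    intro h
    apply hgu
    rw [sub_eq_zero.1 h, haG]
  have heH : ∀ h ∈ H, ρ h e = e := by
    intro h hh
    rw [hedef, map_sub, hu h hh, haG]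
  have hsum : ∑ x : G, ρ x e = 0 := by
    have h1 : ∀ x : G, ρ x e = ρ x u - a := by
      intro x
      rw [hedef, map_sub, haG]
    rw [Finset.sum_congr rfl (fun x _ => h1 x), Finset.sum_sub_distrib, Finset.sum_const, Finset.card_univ, ← Nat.card_eq_fintype_card,
      ← Nat.cast_smul_eq_nsmul ℂ, ha, smul_smul, mul_inv_cancel₀ hG0, one_smul, sub_self]
  obtain ⟨c, hc⟩ := split ρ (P : Subgroup G) H hfree heH (Finset.univ.filter fun g => g ∉ H) (fun g hg => (Finset.mem_filter.1 hg).2)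
    (by
      intro x hx g hg h hh
      refine Finset.mem_filter.2 ⟨Finset.mem_univ _, fun hmem => (Finset.mem_filter.1 hg).2 ?_⟩
      rw [H.mul_mem_cancel_right hh, H.mul_mem_cancel_left (hPH hx)] at hmem
      exact hmem)
  set w : Fin n → ℂ := ∑ g : G, (c g : ℂ) • ρ g e with hw
  have hσ : ∑ x : (P : Subgroup G), ρ (x : G) w = -e := by
    have h1 := Finset.sum_filter_add_sum_filter_not Finset.univ (fun g : G => g ∈ H) (fun g => ρ g e)
    rw [hsum, hc] at h1
    have h2 : ∑ x ∈ Finset.univ.filter (fun g : G => g ∈ H), ρ x e = (Nat.card H : ℂ) • e := by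
      rw [Finset.sum_congr rfl (fun x hx => heH x (Finset.mem_filter.1 hx).2), Finset.sum_const, ← Nat.cast_smul_eq_nsmul ℂ]
      congr 2
      rw [Nat.card_eq_fintype_card, Fintype.card_subtype]
    rw [h2, ← smul_add] at h1
    have h3 := (smul_eq_zero.1 h1).resolve_left hH0
    exact (neg_eq_of_add_eq_zero_right h3).symm
  have hli := lin_indep ρ (P : Subgroup G) P.isPGroup' he0 c hw hσ
  have hle := hli.fintype_card_le_finrank
  rw [Module.finrank_fin_fun, ← Nat.card_eq_fintype_card] at hle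
  have hspan := hli.span_eq_top_of_card_eq_finrank (by
    rw [Module.finrank_fin_fun, ← Nat.card_eq_fintype_card]
    exact le_antisymm hle hn)
  have hvs : v ∈ Submodule.span ℂ (Set.range fun x : (P : Subgroup G) => ρ (x : G) w) := by
    rw [hspan]; exact Submodule.mem_top
  obtain ⟨b, hb⟩ := (Submodule.mem_span_range_iff_exists_fun ℂ).1 hvs
  have hbc : ∀ y x : (P : Subgroup G), b (y⁻¹ * x) = b x := by
    intro y x
    have h1 : ∑ x : (P : Subgroup G), (b (y⁻¹ * x) - b x) • ρ (x : G) w = 0 := by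
      have h2 : ∑ x : (P : Subgroup G), (b (y⁻¹ * x)) • ρ (x : G) w = v := by
        rw [← hvG (y : G), ← hb, map_sum, ← Equiv.sum_comp (Equiv.mulLeft y)]
        refine Finset.sum_congr rfl fun x _ => ?_
        show b (y⁻¹ * (y * x)) • ρ ((y * x : (P : Subgroup G)) : G) w = ρ (y : G) (b x • ρ (x : G) w)
        have h4 : ρ (y : G) (b x • ρ (x : G) w) = b x • ρ (y : G) (ρ (x : G) w) := LinearMap.map_smul _ _ _
        rw [h4, inv_mul_cancel_left, Subgroup.coe_mul, map_mul]
        rfl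
      rw [Finset.sum_congr rfl (fun x _ => sub_smul (b (y⁻¹ * x)) (b x) (ρ (x : G) w)), Finset.sum_sub_distrib, h2, hb, sub_self]
    exact sub_eq_zero.1 ((Fintype.linearIndependent_iff.1 hli) _ h1 x)
  have hve : v = (-(b 1)) • e := by
    have h1 : ∀ x : (P : Subgroup G), b x = b 1 := by
      intro x
      have := hbc x x
      rw [inv_mul_cancel] at this
      exact this.symm
    rw [← hb, Finset.sum_congr rfl (fun x _ => by rw [h1 x]), ← Finset.smul_sum, hσ, smul_neg, neg_smul]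
  have hb0 : -(b 1) ≠ 0 := by
    intro h
    rw [h, zero_smul] at hve
    exact hv hve
  have heG : ∀ g, ρ g e = e := by
    intro g
    have h1 := hvG g
    have h4 : ρ g ((-(b 1)) • e) = (-(b 1)) • ρ g e := LinearMap.map_smul _ _ _
    rw [hve, h4] at h1
    exact smul_right_injective _ hb0 h1
  rw [Finset.sum_congr rfl (fun g _ => heG g), Finset.sum_const, Finset.card_univ, ← Nat.card_eq_fintype_card,
      ← Nat.cast_smul_eq_nsmul ℂ] at hsum
  exact he0 ((smul_eq_zero.1 hsum).resolve_left hG0)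

/-- Let P be a Sylow p-subgroup of the finite group G that meets each conjugate g P g⁻¹ with g outside N_G(P) trivially, χ a character of G with χ(1)² ≤ |P|, and H a subgroup of G containing N_G(P). Then the inner product of χ with itself over G equals the inner product over H of the restriction of χ to H. -/
theorem result {G : Type*} [Group G] [Fintype G] [DecidableEq G] (p : ℕ) [Fact p.Prime] (P : Sylow p G) (hTI : ∀ g : G, g ∉ Subgroup.normalizer ((P : Subgroup G) : Set G) → (P : Subgroup G) ⊓ (MulAut.conj g • (P : Subgroup G)) = ⊥) (χ : G → ℂ) (hχ : Cfsg.IsCharacter G χ) (hdeg : Cfsg.charDegree χ ^ 2 ≤ Nat.card ↥(P : Subgroup G)) (H : Subgroup G) [Fintype ↥H] (hH : Subgroup.normalizer ((P : Subgroup G) : Set G) ≤ H) : Cfsg.classInner χ χ = Cfsg.classInner (fun h : ↥H => χ h) (fun h : ↥H => χ h) := by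
  have hPH : (P : Subgroup G) ≤ H := Subgroup.le_normalizer.trans hH
  obtain ⟨n, ρ, hρ⟩ := IsChar.mul hχ (IsChar.conj hχ)
  have hdn : charDegree χ ^ 2 = n := by
    have h1 := Cfsg.Agent.H3.PRes.charDegree_cast hχ
    have h2 : ρ.character 1 = (n : ℂ) := by rw [Representation.char_one]; simp
    rw [hρ] at h2
    have h3 : χ 1 * (starRingEnd ℂ) (χ 1) = (n : ℂ) := h2
    rw [h1, Complex.conj_natCast] at h3
    have : ((charDegree χ ^ 2 : ℕ) : ℂ) = (n : ℂ) := by push_cast; rw [sq]; exact h3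
    exact_mod_cast this
  rw [hdn] at hdeg
  let ρH : Representation ℂ H (Fin n → ℂ) := ρ.comp H.subtype
  have e1 : classInner χ χ = classInner ρ.character (fun _ => 1) := by
    rw [hρ]
    simp [classInner]
  have e2 : classInner (fun h : ↥H => χ h) (fun h : ↥H => χ h) = classInner ρH.character (fun _ => 1) := by
    have h1 : ρH.character = fun h : H => ρ.character (h : G) := rfl
    rw [h1, hρ]
    simp [classInner]
  rw [e1, e2, inv_finrank, inv_finrank]
  have hsub : Representation.invariants ρH = Representation.invariants ρ := by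
    apply le_antisymm
    · intro u hu g
      by_cases hn0 : n = 0
      · subst hn0
        exact Subsingleton.elim _ _
      have hne : Module.finrank ℂ (Representation.invariants ρ) ≠ 0 := by
        intro h
        have h1 := inv_finrank ρ
        rw [h, ← e1, Nat.cast_zero] at h1
        have h2 : (∑ g : G, Complex.normSq (χ g)) = 0 := by
          have h3 : classInner χ χ = (Nat.card G : ℂ)⁻¹ * ((∑ g : G, Complex.normSq (χ g) : ℝ) : ℂ) := by
            rw [classInner]
            push_cast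
            simp only [Complex.mul_conj]
          rw [h3] at h1
          have h4 := (mul_eq_zero.1 h1).resolve_left (inv_ne_zero (by exact_mod_cast Nat.card_pos.ne'))
          exact_mod_cast h4
        have h3 := (Finset.sum_eq_zero_iff_of_nonneg (fun g _ => Complex.normSq_nonneg (χ g))).1 h2 1 (Finset.mem_univ _)
        rw [Complex.normSq_eq_zero] at h3
        have h4 := Cfsg.Agent.H3.PRes.charDegree_cast hχ
        rw [h3] at h4
        have h5 : charDegree χ = 0 := by exact_mod_cast h4.symm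
        rw [h5] at hdn
        exact hn0 (by rw [← hdn]; rfl)
      have hbot : Representation.invariants ρ ≠ ⊥ := by
        intro h
        apply hne
        rw [h]
        exact finrank_bot ℂ _
      obtain ⟨v, hv, hv0⟩ := Submodule.exists_mem_ne_zero_of_ne_bot hbot
      exact main p P H hPH (fun g x hg hx hgx => free p P hTI H hH hg hx hgx) ρ hdeg hv0 hv (fun h hh => hu ⟨h, hh⟩) g
    · intro u hu h
      exact hu h
  rw [hsub]

end Cfsg.Agent.S4750
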