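import Cfsg.Statements.S4754
import Mathlib
import Cfsg.Agent.H26_Cols

set_option autoImplicit false
open Cfsg

namespace Cfsg.Agent.S4754

open Cfsg.Agent.H26.Cols Cfsg.Agent.H26.Basic Cfsg.Agent.H3.CharIrr Cfsg.Agent.H3.CharComplete

/-- For elements x, y of a finite group G, the conjugacy class of x y equals the set of all products of a conjugate of x with a conjugate of y if and only if χ(1) χ(a x a⁻¹ b y b⁻¹) = χ(x) χ(y) for all a, b ∈ G and every irreducible character χ. -/
theorem result {G : Type*} [Group G] [Finite G] (x y : G) : (∀ z : G, IsConj (x * y) z ↔ ∃ a b : G, z = a * x * a⁻¹ * (b * y * b⁻¹)) ↔ ∀ (a b : G) (χ : Cfsg.IrrCharacter G), (χ : G → ℂ) 1 * (χ : G → ℂ) (a * x * a⁻¹ * (b * y * b⁻¹)) = (χ : G → ℂ) x * (χ : G → ℂ) y := by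
  haveI : Fintype G := Fintype.ofFinite G
  constructor
  · intro h a b χ
    have hconj : ∀ a b : G, (χ : G → ℂ) (a * x * a⁻¹ * (b * y * b⁻¹)) = (χ : G → ℂ) (x * y) := by
      intro a b
      symm
      exact IsClass.eq_of_isConj (IsIrr.isClass χ.2) ((h _).2 ⟨a, b, rfl⟩)
    have h1 := sum_conj_eq χ x y
    have h2 : ∑ a : G, (χ : G → ℂ) (a * x * a⁻¹ * y) = (Nat.card G : ℂ) * (χ : G → ℂ) (x * y) := by
      rw [Finset.sum_congr rfl (g := fun _ => (χ : G → ℂ) (x * y)), Finset.sum_const, nsmul_eq_mul,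
        Finset.card_univ, ← Nat.card_eq_fintype_card]
      intro a _
      have := hconj a 1
      simpa using this
    rw [h1] at h2
    have hc : (Nat.card G : ℂ) ≠ 0 := by exact_mod_cast Nat.card_pos.ne'
    have h1' := one_ne χ
    rw [hconj a b]
    field_simp at h2
    linear_combination -h2
  · intro h z
    constructor
    · intro hz
      obtain ⟨c, hc⟩ := isConj_iff.1 hz
      refine ⟨c, c, ?_⟩
      rw [← hc]; group
    · rintro ⟨a, b, rfl⟩
      apply isConj_of_char_eq
      intro χ
      have h1 := h a b χ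
      have h2 := h 1 1 χ
      simp only [one_mul, inv_one, mul_one] at h2
      exact mul_left_cancel₀ (one_ne χ) (h2.trans h1.symm)

end Cfsg.Agent.S4754
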