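import Cfsg.Statements.S4755
import Mathlib
import Cfsg.Agent.H26_Cols

set_option autoImplicit false
open Cfsg

namespace Cfsg.Agent.S4755

open Cfsg.Agent.H26.Cols Cfsg.Agent.H26.Basic Cfsg.Agent.H3.CharIrr Cfsg.Agent.H3.CharComplete Cfsg.Agent.H3.CharInd

/-- Let x, y be non-identity elements of the finite group G such that χ(x' y') = χ(x') χ(y') for all conjugates x' of x, y' of y and every irreducible character χ. Then the conjugacy class of x y is the set of all products of a conjugate of x with a conjugate of y; every irreducible character of degree greater than 1 vanishes at x y; and the conjugacy class of x y is the coset of the commutator subgroup containing x y. -/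
theorem result {G : Type*} [Group G] [Finite G] (x y : G) (hx : x ≠ 1) (hy : y ≠ 1) (h : ∀ (a b : G) (χ : Cfsg.IrrCharacter G), (χ : G → ℂ) (a * x * a⁻¹ * (b * y * b⁻¹)) = (χ : G → ℂ) (a * x * a⁻¹) * (χ : G → ℂ) (b * y * b⁻¹)) : (∀ z : G, IsConj (x * y) z ↔ ∃ a b : G, z = a * x * a⁻¹ * (b * y * b⁻¹)) ∧ (∀ χ : Cfsg.IrrCharacter G, (χ : G → ℂ) 1 ≠ 1 → (χ : G → ℂ) (x * y) = 0) ∧ (∀ z : G, IsConj (x * y) z ↔ (x * y)⁻¹ * z ∈ commutator G) := by
  classical
  haveI : Fintype G := Fintype.ofFinite G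
  haveI : Fintype (IrrCharacter G) := Fintype.ofFinite _
  have hcl : ∀ (χ : IrrCharacter G) (a x : G), (χ : G → ℂ) (a * x * a⁻¹) = (χ : G → ℂ) x :=
    fun χ a x => IsIrr.isClass χ.2 x a
  have h' : ∀ (a b : G) (χ : Cfsg.IrrCharacter G), (χ : G → ℂ) (a * x * a⁻¹ * (b * y * b⁻¹)) = (χ : G → ℂ) x * (χ : G → ℂ) y := by
    intro a b χ
    rw [h a b χ, hcl, hcl]
  have hxy : ∀ χ : IrrCharacter G, (χ : G → ℂ) (x * y) = (χ : G → ℂ) x * (χ : G → ℂ) y := by
    intro χ
    have := h' 1 1 χ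
    simpa using this
  have hprod : ∀ z : G, IsConj (x * y) z ↔ ∃ a b : G, z = a * x * a⁻¹ * (b * y * b⁻¹) := by
    intro z
    constructor
    · intro hz
      obtain ⟨c, hc⟩ := isConj_iff.1 hz
      refine ⟨c, c, ?_⟩
      rw [← hc]; group
    · rintro ⟨a, b, rfl⟩
      apply isConj_of_char_eq
      intro χ
      rw [h' a b χ, hxy]
  have hvan : ∀ χ : Cfsg.IrrCharacter G, (χ : G → ℂ) 1 ≠ 1 → (χ : G → ℂ) (x * y) = 0 := by
    intro χ hχ
    have h1 := sum_conj_eq χ x y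
    have h2 : ∑ a : G, (χ : G → ℂ) (a * x * a⁻¹ * y) = (Nat.card G : ℂ) * ((χ : G → ℂ) x * (χ : G → ℂ) y) := by
      rw [Finset.sum_congr rfl (g := fun _ => (χ : G → ℂ) x * (χ : G → ℂ) y), Finset.sum_const, nsmul_eq_mul,
        Finset.card_univ, ← Nat.card_eq_fintype_card]
      intro a _
      have := h' a 1 χ
      simpa using this
    rw [h1] at h2
    have hc : (Nat.card G : ℂ) ≠ 0 := by exact_mod_cast Nat.card_pos.ne'
    have h1' := one_ne χ
    rw [hxy]
    by_contra hne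
    apply hχ
    have h3 : (Nat.card G : ℂ) * ((χ : G → ℂ) x * (χ : G → ℂ) y) / (χ : G → ℂ) 1 = (Nat.card G : ℂ) * ((χ : G → ℂ) x * (χ : G → ℂ) y) := by
      rw [← mul_assoc]; rw [← mul_assoc] at h2; exact h2
    rw [div_eq_iff h1'] at h3
    have h4 : (Nat.card G : ℂ) * ((χ : G → ℂ) x * (χ : G → ℂ) y) ≠ 0 := mul_ne_zero hc hne
    have h5 : (Nat.card G : ℂ) * ((χ : G → ℂ) x * (χ : G → ℂ) y) * 1 = (Nat.card G : ℂ) * ((χ : G → ℂ) x * (χ : G → ℂ) y) * (χ : G → ℂ) 1 := by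
      rw [mul_one, ← h3]
    exact (mul_left_cancel₀ h4 h5).symm
  refine ⟨hprod, hvan, fun z => ⟨fun hz => ?_, fun hz => ?_⟩⟩
  · obtain ⟨c, hc⟩ := isConj_iff.1 hz
    rw [← hc]
    have e : (x * y)⁻¹ * (c * (x * y) * c⁻¹) = (x * y)⁻¹ * c * ((x * y)⁻¹)⁻¹ * c⁻¹ := by
      group
    rw [e]
    exact Subgroup.commutator_mem_commutator (Subgroup.mem_top _) (Subgroup.mem_top _)
  · by_contra hne
    have h1 := orth2 (G := G) (x * y) z
    rw [if_neg hne] at h1
    have h2 : ∀ χ : IrrCharacter G, ∃ r : ℝ, 0 ≤ r ∧ (χ : G → ℂ) (x * y) * (starRingEnd ℂ) ((χ : G → ℂ) z) = r ∧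
        ((χ : G → ℂ) = (fun _ => 1) → r = 1) := by
      intro χ
      by_cases hχ : (χ : G → ℂ) 1 = 1
      · obtain ⟨f, hf⟩ := IsChar.hom_units_of_one (IsIrr.isCharacter χ.2) hχ
        have h3 : (χ : G → ℂ) z = (χ : G → ℂ) (x * y) := by
          rw [hf, hf]
          have h4 : f ((x * y)⁻¹ * z) = 1 := by
            have h5 : commutator G ≤ f.ker := Abelianization.commutator_subset_ker f
            exact h5 hz
          rw [map_mul, map_inv, inv_mul_eq_one] at h4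
          rw [h4]
        refine ⟨Complex.normSq ((χ : G → ℂ) (x * y)), Complex.normSq_nonneg _, ?_, ?_⟩
        · rw [h3, Complex.mul_conj]
        · intro h; rw [h]; simp
      · refine ⟨0, le_rfl, ?_, ?_⟩
        · rw [hvan χ hχ]; simp
        · intro h; exact absurd (congrFun h 1) hχ
    choose r hr0 hr1 hr2 using h2
    simp_rw [hr1] at h1
    rw [← Complex.ofReal_sum] at h1
    have h5 : ∑ χ : IrrCharacter G, r χ = 0 := by exact_mod_cast h1
    have h6 := (Finset.sum_eq_zero_iff_of_nonneg (fun χ _ => hr0 χ)).1 h5 ⟨fun _ => 1, isIrr_one⟩ (Finset.mem_univ _)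
    rw [hr2 _ rfl] at h6
    exact one_ne_zero h6

end Cfsg.Agent.S4755
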