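import Cfsg.Statements.S4756
import Cfsg.Agent.H3_ProdChar2

set_option autoImplicit false
open Cfsg

namespace Cfsg.Agent.S4756

/-- For a finite group G the following are equivalent. (1) χ(x y) = χ(x) χ(y) for every irreducible character χ and all non-identity elements x, y of prime power orders for two different primes. (2) G is a p-group for some prime p, or G is abelian, or for some prime p: G = A P with P a normal Sylow p-subgroup and A a nontrivial cyclic subgroup of order prime to p such that, with C = C_P(A) and D = [A, P], one has P = C D, C abelian, D normal in G, C ∩ D = 1, and A acts fixed-point-freely on D (no non-identity element of A centralizes a non-identity element of D). -/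
theorem result {G : Type*} [Group G] [Finite G] : (∀ (x y : G) (χ : Cfsg.IrrCharacter G), x ≠ 1 → y ≠ 1 → (∃ p q a b : ℕ, p.Prime ∧ q.Prime ∧ p ≠ q ∧ orderOf x = p ^ a ∧ orderOf y = q ^ b) → (χ : G → ℂ) (x * y) = (χ : G → ℂ) x * (χ : G → ℂ) y) ↔ ((∃ p : ℕ, p.Prime ∧ IsPGroup p G) ∨ IsMulCommutative G ∨ ∃ (p : ℕ) (_ : Fact p.Prime) (P : Sylow p G) (A : Subgroup G), (P : Subgroup G).Normal ∧ IsCyclic ↥A ∧ A ≠ ⊥ ∧ (Nat.card ↥A).Coprime p ∧ A ⊔ (P : Subgroup G) = ⊤ ∧ IsMulCommutative ↥((P : Subgroup G) ⊓ Subgroup.centralizer (A : Set G)) ∧ (⁅A, (P : Subgroup G)⁆).Normal ∧ ((P : Subgroup G) ⊓ Subgroup.centralizer (A : Set G)) ⊔ ⁅A, (P : Subgroup G)⁆ = (P : Subgroup G) ∧ ((P : Subgroup G) ⊓ Subgroup.centralizer (A : Set G)) ⊓ ⁅A, (P : Subgroup G)⁆ = ⊥ ∧ ∀ a ∈ A, a ≠ 1 → ∀ d ∈ ⁅A, (P : Subgroup G)⁆, a * d = d * a → d = 1) := by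
  open Cfsg.Agent.H3.CharBasic Cfsg.Agent.H3.CharIrr Cfsg.Agent.H3.CharComplete Cfsg.Agent.H3.CharInd Cfsg.Agent.H3.ProdChar in
  classical
  constructor
  · intro h
    by_cases hna : ∀ a b : G, a * b = b * a
    · exact Or.inr (Or.inl ⟨⟨hna⟩⟩)
    · rcases fwd (fun χ hχ h1 x y hx hy hpq => by
        refine mul_vanish hχ h1 (fun a => ?_)
        refine h (a * x * a⁻¹) y ⟨χ, hχ⟩ ?_ hy ?_
        · intro h2
          apply hx
          have h3 : x = a⁻¹ * (a * x * a⁻¹) * a := by group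
          rw [h3, h2]; group
        · obtain ⟨p, q, i, j, hp, hq, hne, h2, h3⟩ := hpq
          refine ⟨p, q, i, j, hp, hq, hne, ?_, h3⟩
          rw [← h2]
          exact (MulAut.conj a).orderOf_eq x) hna with h1 | h1
      · exact Or.inl h1
      · exact Or.inr (Or.inr h1)
  · intro h x y χ hx hy hpq
    obtain ⟨p₁, q₁, i, j, hp₁, hq₁, hne, hx1, hy1⟩ := hpq
    by_cases h1 : (χ : G → ℂ) 1 = 1
    · exact mul_lin χ.2 h1 x y
    rcases h with ⟨p, hp, hG⟩ | hab | ⟨p, hp, P, A, hPn, hcyc, -, hcop, htop, hC, hDn, hsup, -, hfpf⟩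
    · exfalso
      have key : ∀ (z : G) (r k : ℕ), r.Prime → z ≠ 1 → orderOf z = r ^ k → r = p := by
        intro z r k hr hz hk
        obtain ⟨n, hn⟩ := hG z
        obtain ⟨m, _, hm⟩ := (Nat.dvd_prime_pow hp).mp (orderOf_dvd_of_pow_eq_one hn)
        have hk0 : k ≠ 0 := by
          rintro rfl
          rw [pow_zero] at hk
          exact hz (orderOf_eq_one_iff.mp hk)
        have h2 : r ∣ p ^ m := by
          rw [← hm, hk]
          exact dvd_pow_self r hk0
        exact (Nat.prime_dvd_prime_iff_eq hr hp).mp (hr.dvd_of_dvd_pow h2)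
      exact hne ((key x p₁ i hp₁ hx hx1).trans (key y q₁ j hq₁ hy hy1).symm)
    · exfalso
      exact h1 (Cfsg.Agent.H3.CharMult.IsIrr.one_of_comm (fun a b => hab.is_comm.comm a b) χ.2)
    · have hv : ∀ g : G, g ∉ P → (χ : G → ℂ) g = 0 := fun g hg =>
        vanish_of_card (bwd P A hPn hcyc hcop htop hC hDn hsup hfpf hg) χ.2 h1
      have key : ∀ (z : G) (r k : ℕ), r.Prime → z ≠ 1 → orderOf z = r ^ k → z ∈ P → r = p := by
        intro z r k hr hz hk hzP
        obtain ⟨n, hn⟩ := P.isPGroup' ⟨z, hzP⟩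
        have hn' : z ^ p ^ n = 1 := congrArg Subtype.val hn
        obtain ⟨m, _, hm⟩ := (Nat.dvd_prime_pow hp.out).mp (orderOf_dvd_of_pow_eq_one hn')
        have hk0 : k ≠ 0 := by
          rintro rfl
          rw [pow_zero] at hk
          exact hz (orderOf_eq_one_iff.mp hk)
        have h2 : r ∣ p ^ m := by
          rw [← hm, hk]
          exact dvd_pow_self r hk0
        exact (Nat.prime_dvd_prime_iff_eq hr hp.out).mp (hr.dvd_of_dvd_pow h2)
      have hnot : ¬ (x ∈ P ∧ y ∈ P) := fun ⟨hxP, hyP⟩ =>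
        hne ((key x p₁ i hp₁ hx hx1 hxP).trans (key y q₁ j hq₁ hy hy1 hyP).symm)
      have hxy : x * y ∉ P := by
        intro hxy
        apply hnot
        have h2 : ((x * y : G) : G ⧸ (P : Subgroup G)) = 1 := (QuotientGroup.eq_one_iff _).mpr hxy
        rw [QuotientGroup.mk_mul] at h2
        have h3 : (x : G ⧸ (P : Subgroup G)) ^ (p₁ ^ i) = 1 := by
          rw [← QuotientGroup.mk_pow, ← hx1, pow_orderOf_eq_one]; rfl
        have h4 : (y : G ⧸ (P : Subgroup G)) ^ (q₁ ^ j) = 1 := by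
          rw [← QuotientGroup.mk_pow, ← hy1, pow_orderOf_eq_one]; rfl
        have h5 : (x : G ⧸ (P : Subgroup G)) = (y : G ⧸ (P : Subgroup G))⁻¹ := eq_inv_of_mul_eq_one_left h2
        have h6 : (x : G ⧸ (P : Subgroup G)) ^ (q₁ ^ j) = 1 := by
          rw [h5, inv_pow, h4, inv_one]
        have h7 : (p₁ ^ i).Coprime (q₁ ^ j) := Nat.Coprime.pow _ _ ((Nat.coprime_primes hp₁ hq₁).mpr hne)
        have h8 : (x : G ⧸ (P : Subgroup G)) = 1 :=
          orderOf_eq_one_iff.mp (Nat.eq_one_of_dvd_coprimes h7 (orderOf_dvd_of_pow_eq_one h3) (orderOf_dvd_of_pow_eq_one h6))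
        refine ⟨(QuotientGroup.eq_one_iff x).mp h8, ?_⟩
        rw [h8, one_mul] at h2
        exact (QuotientGroup.eq_one_iff y).mp h2
      rw [hv _ hxy]
      by_cases hxP : x ∈ P
      · rw [hv y (fun hyP => hnot ⟨hxP, hyP⟩), mul_zero]
      · rw [hv x hxP, zero_mul]

end Cfsg.Agent.S4756
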