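import Cfsg.Statements.S4757
import Mathlib
import Cfsg.Agent.H3_CharComplete
import Cfsg.Agent.H3_CharInd
import Cfsg.Agent.H3_CharMult
import Cfsg.Agent.H26_Basic
import Cfsg.Agent.H11_Cores

set_option autoImplicit false
open Cfsg

namespace Cfsg.Agent.S4757

open Cfsg Cfsg.Agent.H3.CharIrr Cfsg.Agent.H3.CharComplete Cfsg.Agent.H3.CharInd Cfsg.Agent.H3.CharBasic

open scoped ComplexConjugate

theorem exists_linear {G : Type*} [Group G] [Finite G] (h : commutator G ≠ ⊤) :
    ∃ f : G →* ℂˣ, f ≠ 1 := by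
  obtain ⟨g, hg⟩ : ∃ g : G, g ∉ commutator G := by
    by_contra hc
    push Not at hc
    exact h ((Subgroup.eq_top_iff' _).2 hc)
  have h1 : (Abelianization.of g : Abelianization G) ≠ 1 := by
    intro h
    apply hg
    exact (QuotientGroup.eq_one_iff g).1 h
  obtain ⟨φ, hφ⟩ := CommGroup.exists_apply_ne_one_of_hasEnoughRootsOfUnity (Abelianization G) ℂ h1
  refine ⟨φ.comp Abelianization.of, ?_⟩
  intro h
  apply hφ
  have := DFunLike.congr_fun h g
  simpa using this

theorem hom_trivial_of_perfect {G : Type*} [Group G] (h : commutator G = ⊤) (f : G →* ℂˣ) : f = 1 := by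
  have h1 : commutator G ≤ f.ker := by
    rw [commutator_def, Subgroup.commutator_le]
    intro a _ b _
    rw [MonoidHom.mem_ker, map_commutatorElement, commutatorElement_eq_one_iff_mul_comm, mul_comm]
  ext g
  have : g ∈ f.ker := h1 (by rw [h]; trivial)
  rw [MonoidHom.mem_ker] at this
  simp [this]

theorem no_nonneg {G : Type*} [Group G] [Finite G] (u : G) (hu : u ≠ 1)
    (h : ∀ χ : IrrCharacter G, (χ : G → ℂ) ≠ (fun _ => (1 : ℂ)) → 0 ≤ ((χ : G → ℂ) 1 * (χ : G → ℂ) u).re) :
    False := by
  classical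
  haveI : Fintype G := Fintype.ofFinite G
  haveI : Fintype (IrrCharacter G) := Fintype.ofFinite _
  have h1 := sum_one_mul (G := G) u
  rw [if_neg hu] at h1
  have h2 := congrArg Complex.re h1
  rw [Complex.re_sum, Complex.zero_re] at h2
  have h3 : ∀ χ ∈ (Finset.univ : Finset (IrrCharacter G)), 0 ≤ ((χ : G → ℂ) 1 * (χ : G → ℂ) u).re := by
    intro χ _
    by_cases hχ : (χ : G → ℂ) = fun _ => 1
    · rw [hχ]; simp
    · exact h χ hχ
  have h4 := (Finset.sum_eq_zero_iff_of_nonneg h3).1 h2 ⟨fun _ => 1, isIrr_one⟩ (Finset.mem_univ _)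
  simp at h4

theorem core {G : Type*} [Group G] [Finite G] (u : G) (hu : u ≠ 1) (c : ℂ)
    (hyp : ∀ χ : IrrCharacter G, (χ : G → ℂ) ≠ (fun _ => (1 : ℂ)) →
      ((χ : G → ℂ) 1 - (χ : G → ℂ) u = c ∨ (χ : G → ℂ) u = 0)) (f : G →* ℂˣ) (hf : f ≠ 1) :
    c = 2 ∧ f u = -1 ∧ (∀ g, f g = 1 ∨ f g = -1) ∧
      Nat.card (Subgroup.centralizer ({u} : Set G)) = 2 ∧ ∀ x, f x = -1 → IsConj u x := by
  classical
  haveI : Fintype G := Fintype.ofFinite G
  haveI : Fintype (IrrCharacter G) := Fintype.ofFinite _
  have irr : ∀ f : G →* ℂˣ, IsIrrCharacter G (fun g => (f g : ℂ)) := fun f => isIrr_of_hom_units f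
  have hne : ∀ f : G →* ℂˣ, f ≠ 1 → (fun g => (f g : ℂ)) ≠ fun _ => (1 : ℂ) := by
    intro f hf h
    apply hf
    ext g
    have := congrFun h g
    simpa using this
  have key : ∀ f : G →* ℂˣ, f ≠ 1 → 1 - (f u : ℂ) = c := by
    intro f hf
    rcases hyp ⟨_, irr f⟩ (hne f hf) with h | h
    · simpa using h
    · exact absurd h (f u).ne_zero
  have hc0 : c ≠ 0 := by
    intro hc
    apply no_nonneg u hu
    intro χ hχ
    rcases hyp χ hχ with h | h
    · have : (χ : G → ℂ) u = (χ : G → ℂ) 1 := by
        rw [hc] at h; exact (sub_eq_zero.1 h).symm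
      rw [this]
      obtain ⟨n, _, hn⟩ := IsIrr.one_eq_nat χ.2
      rw [hn]
      have : ((n : ℂ) * n) = ((n * n : ℝ) : ℂ) := by push_cast; ring
      rw [this, Complex.ofReal_re]
      positivity
    · rw [h]; simp
  have hff : f * f = 1 := by
    by_contra hff
    have h1 := key f hf
    have h2 := key (f * f) hff
    have h3 : ((f u : ℂ)) * (f u : ℂ) = f u := by
      have : 1 - ((f * f) u : ℂˣ).val = 1 - (f u : ℂ) := by rw [h1, h2]
      simp only [MonoidHom.mul_apply, Units.val_mul] at this
      linear_combination -this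
    have h4 : (f u : ℂ) = 1 := by
      have := mul_left_cancel₀ (f u).ne_zero (h3.trans (mul_one _).symm)
      exact this
    rw [h4, sub_self] at h1
    exact hc0 h1.symm
  have hpm : ∀ g, f g = 1 ∨ f g = -1 := by
    intro g
    have h1 : f g * f g = 1 := by
      have := DFunLike.congr_fun hff g
      simpa using this
    have h2 : (f g : ℂ) * (f g : ℂ) = 1 := by
      rw [← Units.val_mul, h1]; rfl
    rcases mul_self_eq_one_iff.1 h2 with h | h
    · left; ext; rw [h]; rfl
    · right; ext; rw [h]; simp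
  have hfu : f u = -1 := by
    rcases hpm u with h | h
    · exfalso
      have := key f hf
      rw [h] at this
      simp at this
      exact hc0 this.symm
    · exact h
  have hc2 : c = 2 := by
    rw [← key f hf, hfu]
    push_cast
    norm_num
  have hzero : ∀ χ : IrrCharacter G, (χ : G → ℂ) ≠ (fun _ => (1 : ℂ)) →
      (χ : G → ℂ) ≠ (fun g => (f g : ℂ)) → (χ : G → ℂ) u = 0 := by
    intro χ h1 h2
    by_contra h0
    have h3 := (hyp χ h1).resolve_right h0
    have hl : IsCharacter G (fun g => (f g : ℂ)) := IsIrr.isCharacter (irr f)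
    have hirr : IsIrrCharacter G ((fun g => (f g : ℂ)) * (χ : G → ℂ)) :=
      IsIrr.mul_linear χ.2 hl (by simp)
    have hne1 : ((fun g => (f g : ℂ)) * (χ : G → ℂ)) ≠ fun _ => (1 : ℂ) := by
      intro h
      apply h2
      funext g
      have h5 := congrFun h g
      simp only [Pi.mul_apply] at h5
      have h6 : (f g : ℂ) * f g = 1 := by
        rcases hpm g with h | h <;> rw [h] <;> simp
      have : (f g : ℂ) * (χ : G → ℂ) g = f g * f g := h5.trans h6.symm
      exact mul_left_cancel₀ (f g).ne_zero this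
    rcases hyp ⟨_, hirr⟩ hne1 with h | h
    · simp only [Pi.mul_apply, map_one, Units.val_one, one_mul, hfu, Units.val_neg] at h
      apply h0
      linear_combination (h - h3)/2
    · simp only [Pi.mul_apply, hfu, Units.val_neg, Units.val_one] at h
      apply h0
      linear_combination -h
  have hsum : ∀ x, f x = -1 → ∑ χ : IrrCharacter G, (χ : G → ℂ) u * conj ((χ : G → ℂ) x) = 2 := by
    intro x hx
    have e : ∀ χ ∈ (Finset.univ : Finset (IrrCharacter G)), χ ∉ ({⟨_, isIrr_one⟩, ⟨_, irr f⟩} : Finset (IrrCharacter G)) →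
      (χ : G → ℂ) u * conj ((χ : G → ℂ) x) = 0 := by
      intro χ _ hχ
      rw [Finset.mem_insert, Finset.mem_singleton] at hχ
      push Not at hχ
      rw [hzero χ (fun h => hχ.1 (Subtype.ext h)) (fun h => hχ.2 (Subtype.ext h)), zero_mul]
    rw [← Finset.sum_subset (Finset.subset_univ _) e, Finset.sum_pair]
    · simp [hx, hfu]; norm_num
    · intro h
      have := congrArg Subtype.val h
      exact hne f hf this.symm
  refine ⟨hc2, hfu, hpm, ?_, ?_⟩
  · have h1 := hsum u hfu
    rw [orth2, if_pos (IsConj.refl u)] at h1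
    exact_mod_cast h1
  · intro x hx
    have h1 := hsum x hx
    rw [orth2] at h1
    by_contra hcon
    rw [if_neg hcon] at h1
    norm_num at h1


/-- Let u ≠ 1 be an element of the finite group G and c a complex number such that every non-principal irreducible character χ satisfies χ(1) − χ(u) = c or χ(u) = 0. Then the following are equivalent: (a) u has order 2, G is generated by u together with O(G), the largest normal subgroup of G of odd order, and the centralizer of u is {1, u}; (b) G is not perfect; (c) c = 2. -/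
theorem result {G : Type*} [Group G] [Finite G] (u : G) (hu : u ≠ 1) (c : ℂ) (hyp : ∀ χ : Cfsg.IrrCharacter G, (χ : G → ℂ) ≠ (fun _ => (1 : ℂ)) → ((χ : G → ℂ) 1 - (χ : G → ℂ) u = c ∨ (χ : G → ℂ) u = 0)) : ((orderOf u = 2 ∧ Subgroup.zpowers u ⊔ Cfsg.oddCore G = ⊤ ∧ Subgroup.centralizer ({u} : Set G) = Subgroup.zpowers u) ↔ commutator G ≠ ⊤) ∧ (commutator G ≠ ⊤ ↔ c = 2) := by
  classical
  have fwd : commutator G ≠ ⊤ → c = 2 ∧ (orderOf u = 2 ∧ Subgroup.zpowers u ⊔ Cfsg.oddCore G = ⊤ ∧
      Subgroup.centralizer ({u} : Set G) = Subgroup.zpowers u) := by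
    intro hG
    obtain ⟨f, hf⟩ := exists_linear hG
    obtain ⟨hc, hfu, hpm, hcard, hconj⟩ := core u hu c hyp f hf
    have hle : Subgroup.zpowers u ≤ Subgroup.centralizer ({u} : Set G) := by
      rw [Subgroup.zpowers_le, Subgroup.mem_centralizer_iff]
      rintro y hy
      rw [Set.mem_singleton_iff.1 hy]
    have hord : orderOf u = 2 := by
      have h1 : orderOf u ∣ 2 := by
        rw [← hcard, ← Nat.card_zpowers]
        exact Subgroup.card_dvd_of_le hle
      rcases (Nat.dvd_prime Nat.prime_two).1 h1 with h | h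
      · exact absurd (orderOf_eq_one_iff.1 h) hu
      · exact h
    have hCeq : Subgroup.centralizer ({u} : Set G) = Subgroup.zpowers u := by
      symm
      apply Subgroup.eq_of_le_of_card_ge hle
      rw [hcard, Nat.card_zpowers, hord]
    have hsq : ∀ x, f x = -1 → x * x = 1 := by
      intro x hx
      obtain ⟨y, hy⟩ := isConj_iff.1 (hconj x hx)
      rw [← hy]
      have : u * u = 1 := by rw [← pow_two, ← hord]; exact pow_orderOf_eq_one u
      calc y * u * y⁻¹ * (y * u * y⁻¹) = y * (u * u) * y⁻¹ := by group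
        _ = 1 := by rw [this]; group
    have hodd : (Nat.card f.ker).Coprime 2 := by
      rw [Nat.coprime_comm, Nat.Prime.coprime_iff_not_dvd Nat.prime_two]
      intro h2
      haveI : Fact (Nat.Prime 2) := ⟨Nat.prime_two⟩
      obtain ⟨k, hk⟩ := exists_prime_orderOf_dvd_card' (G := f.ker) 2 h2
      have hk1 : (k : G) * k = 1 := by
        have := pow_orderOf_eq_one k
        rw [hk] at this
        have := congrArg (Subtype.val) this
        rw [pow_two] at this
        exact this
      have hkne : (k : G) ≠ 1 := by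
        intro h
        have : k = 1 := Subtype.ext h
        rw [this] at hk
        simp at hk
      have h3 := hsq (u * k) (by rw [map_mul, hfu, (MonoidHom.mem_ker).1 k.2]; simp)
      have huu : u * u = 1 := by rw [← pow_two, ← hord]; exact pow_orderOf_eq_one u
      have h4 : (k : G) ∈ Subgroup.centralizer ({u} : Set G) := by
        rw [Subgroup.mem_centralizer_iff]
        rintro y hy
        rw [Set.mem_singleton_iff.1 hy]
        -- u k u k = 1
        have : u * k = (u * k)⁻¹ := by rw [eq_inv_iff_mul_eq_one]; exact h3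
        rw [this, mul_inv_rev]
        rw [inv_eq_of_mul_eq_one_left hk1, inv_eq_of_mul_eq_one_left huu]
      rw [hCeq] at h4
      obtain ⟨n, hn⟩ := Subgroup.mem_zpowers_iff.1 h4
      have h5 : (k : G) = u := by
        rcases Int.even_or_odd' n with ⟨m, hm | hm⟩
        · exfalso
          apply hkne
          rw [← hn, hm, zpow_mul]
          have : u ^ (2 : ℤ) = 1 := by rw [zpow_two]; exact huu
          rw [this, one_zpow]
        · rw [← hn, hm, zpow_add, zpow_mul]
          have : u ^ (2 : ℤ) = 1 := by rw [zpow_two]; exact huu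
          rw [this, one_zpow, one_mul, zpow_one]
      have h6 := (MonoidHom.mem_ker).1 k.2
      rw [h5, hfu] at h6
      have h7 := congrArg Units.val h6
      norm_num at h7
    refine ⟨hc, hord, ?_, hCeq⟩
    rw [Subgroup.eq_top_iff']
    intro g
    have hK : f.ker ≤ Cfsg.oddCore G := Cfsg.Agent.H11.Cores.le_pPrimeCore 2 hodd
    rcases hpm g with h | h
    · exact Subgroup.mem_sup_right (hK ((MonoidHom.mem_ker).2 h))
    · have h1 : u⁻¹ * g ∈ f.ker := by
        rw [MonoidHom.mem_ker, map_mul, map_inv, h, hfu]; simp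
      have h2 : g = u * (u⁻¹ * g) := by group
      rw [h2]
      exact Subgroup.mul_mem _ (Subgroup.mem_sup_left (Subgroup.mem_zpowers u)) (Subgroup.mem_sup_right (hK h1))
  refine ⟨⟨?_, fun h => (fwd h).2⟩, ⟨fun h => (fwd h).1, ?_⟩⟩
  · rintro ⟨h1, h2, h3⟩ hG
    haveI : (Cfsg.oddCore G).Characteristic := Cfsg.Agent.H11.Cores.pPrimeCore_characteristic (p := 2) (G := G)
    have h4 : commutator G ≤ Cfsg.oddCore G :=
      Subgroup.Normal.commutator_le_of_self_sup_commutative_eq_top (by rw [sup_comm]; exact h2) inferInstance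
    have h5 : Cfsg.oddCore G = ⊤ := top_le_iff.1 (hG ▸ h4)
    have h6 : (Nat.card (Cfsg.oddCore G)).Coprime 2 := Cfsg.Agent.H11.Cores.pPrimeCore_coprime 2
    rw [h5, Nat.card_congr Subgroup.topEquiv.toEquiv, Nat.coprime_comm,
      Nat.Prime.coprime_iff_not_dvd Nat.prime_two] at h6
    apply h6
    rw [← h1]
    exact orderOf_dvd_natCard u
  · intro hc hG
    apply no_nonneg u hu
    intro χ hχ
    obtain ⟨n, hn0, hn⟩ := IsIrr.one_eq_nat χ.2
    rcases hyp χ hχ with h | h
    · have h1 : (χ : G → ℂ) u = n - 2 := by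
        rw [hc, hn] at h; linear_combination -h
      have hn2 : 2 ≤ n := by
        by_contra hlt
        have : n = 1 := by omega
        rw [this] at hn
        obtain ⟨f, hf⟩ := IsChar.hom_units_of_one (IsIrr.isCharacter χ.2) (by simpa using hn)
        apply hχ
        funext g
        rw [hf, hom_trivial_of_perfect hG f]
        simp
      rw [hn, h1]
      have : ((n : ℂ) * (n - 2)) = ((n * (n - 2) : ℝ) : ℂ) := by push_cast; ring
      rw [this, Complex.ofReal_re]
      have : (2 : ℝ) ≤ n := by exact_mod_cast hn2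
      nlinarith
    · rw [h]; simp

end Cfsg.Agent.S4757
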