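import Cfsg.Statements.S4762
import Mathlib
import Cfsg.Agent.H3_CharComplete
import Cfsg.Agent.H3_CharInd
import Cfsg.Agent.H3_CharMult
import Cfsg.Agent.H3_CharCalc
import Cfsg.Agent.H26_Basic
import Cfsg.Agent.H26_Codeg
import Cfsg.Agent.H3_Extraspecial
import Cfsg.Agent.H2_Extra2
import Cfsg.Agent.H3_NilpSplit
import Cfsg.Agent.H1_Nilp
import Cfsg.Agent.H3_CharInt
import Cfsg.Agent.H26_Kernel

set_option autoImplicit false
open Cfsg

namespace Cfsg.Agent.S4762

open Cfsg Cfsg.Agent.H3.CharIrr Cfsg.Agent.H3.CharComplete Cfsg.Agent.H3.CharInd Cfsg.Agent.H3.CharBasic Cfsg.Agent.H26.Basic Cfsg.Agent.H26.Codeg Cfsg.Agent.H3.Extraspecial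

open scoped ComplexConjugate commutatorElement

theorem center_bound {G : Type*} [Group G] [Finite G] (χ : IrrCharacter G) :
    Nat.card (Subgroup.center G) * charDegree (χ : G → ℂ) ^ 2 ≤ Nat.card G := by
  classical
  haveI : Fintype G := Fintype.ofFinite G
  haveI : Fintype (Subgroup.center G) := Fintype.ofFinite _
  have h1 := ci_irr_self χ.2
  have h2 : ∑ g : G, ((Complex.normSq ((χ : G → ℂ) g) : ℝ) : ℂ) = (Nat.card G : ℂ) := by
    have h3 : classInner (χ : G → ℂ) (χ : G → ℂ) = (Nat.card G : ℂ)⁻¹ * ∑ g : G, (χ : G → ℂ) g * conj ((χ : G → ℂ) g) := by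
      rfl
    rw [h3] at h1
    have h4 : (Nat.card G : ℂ) ≠ 0 := card_cast_ne_zero
    have h5 : ∑ g : G, (χ : G → ℂ) g * conj ((χ : G → ℂ) g) = (Nat.card G : ℂ) := by
      field_simp at h1
      linear_combination h1
    rw [← h5]
    refine Finset.sum_congr rfl fun g _ => ?_
    rw [Complex.mul_conj]
  have h3 : ∑ g : G, Complex.normSq ((χ : G → ℂ) g) = (Nat.card G : ℝ) := by exact_mod_cast h2
  have h4 : ∀ z : Subgroup.center G, Complex.normSq ((χ : G → ℂ) z) = (charDegree (χ : G → ℂ) : ℝ) ^ 2 := by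
    intro z
    obtain ⟨c, hc, hz⟩ := Cfsg.Agent.H3.CharInt.IsIrr.central χ.2 z.2
    have h5 := hz 1
    rw [one_mul] at h5
    have h6 : ‖c‖ = 1 := norm_eq_one_of_pow (orderOf_pos (z : G)).ne' hc
    rw [h5, Complex.normSq_mul, Complex.normSq_eq_norm_sq, h6, ← cd_eq]
    rw [Complex.normSq_natCast]
    ring
  have h5 : ∑ z : Subgroup.center G, Complex.normSq ((χ : G → ℂ) z) ≤ ∑ g : G, Complex.normSq ((χ : G → ℂ) g) := by
    have h6 : ∑ z : Subgroup.center G, Complex.normSq ((χ : G → ℂ) z) =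
      ∑ g ∈ Finset.univ.map ⟨((↑) : Subgroup.center G → G), Subtype.val_injective⟩, Complex.normSq ((χ : G → ℂ) g) := by
      rw [Finset.sum_map]; rfl
    rw [h6]
    exact Finset.sum_le_sum_of_subset_of_nonneg (Finset.subset_univ _) (fun _ _ _ => Complex.normSq_nonneg _)
  rw [h3, Finset.sum_congr rfl (fun z _ => h4 z), Finset.sum_const, nsmul_eq_mul, Finset.card_univ,
    ← Nat.card_eq_fintype_card] at h5
  exact_mod_cast h5

theorem pgroup_case {G : Type*} [Group G] [Finite G] {p : ℕ} [hp : Fact p.Prime] (hG : IsPGroup p G)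
    (χ : IrrCharacter G) (hχ : p ∣ charDegree (χ : G → ℂ))
    (huniq : ∀ ψ : IrrCharacter G, p ∣ charDegree (ψ : G → ℂ) → ψ = χ) : p = 2 ∧ IsExtraspecial 2 G := by
  classical
  haveI : Fintype G := Fintype.ofFinite G
  haveI : Fintype (IrrCharacter G) := Fintype.ofFinite _
  haveI : Group.IsNilpotent G := hG.isNilpotent
  obtain ⟨n, hn⟩ := IsPGroup.iff_card.1 hG
  have hdeg : ∀ ψ : IrrCharacter G, ψ ≠ χ → (ψ : G → ℂ) 1 = 1 := by
    intro ψ hψ
    have h1 : charDegree (ψ : G → ℂ) ∣ p ^ n := hn ▸ cd_dvd_card ψ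
    obtain ⟨k, hk, hk'⟩ := (Nat.dvd_prime_pow hp.out).1 h1
    rcases Nat.eq_zero_or_pos k with h0 | h0
    · rw [← cd_eq, hk', h0]; simp
    · exact absurd (huniq ψ (by rw [hk']; exact dvd_pow_self p h0.ne')) hψ
  have hχ1 : (χ : G → ℂ) 1 ≠ 1 := by
    rw [← cd_eq]
    intro h
    have : charDegree (χ : G → ℂ) = 1 := by exact_mod_cast h
    rw [this] at hχ
    exact hp.out.one_lt.ne' (Nat.dvd_one.1 hχ)
  have hder : commutator G ≠ ⊥ := by
    intro h
    apply hχ1
    apply one_of_commutator χ.2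
    intro z hz
    rw [h, Subgroup.mem_bot] at hz
    rw [hz]
  have hZ := Cfsg.Agent.H1.Nilp.normal_inf_center_ne_bot (commutator G) hder
  -- element of order p in G' ∩ Z
  obtain ⟨z, hzC, hzZ, hzo⟩ : ∃ z : G, z ∈ commutator G ∧ z ∈ Subgroup.center G ∧ orderOf z = p := by
    have h1 : p ∣ Nat.card (commutator G ⊓ Subgroup.center G : Subgroup G) := by
      obtain ⟨k, hk⟩ := IsPGroup.iff_card.1 (hG.to_subgroup (commutator G ⊓ Subgroup.center G))
      rw [hk]
      apply dvd_pow_self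
      rintro rfl
      apply hZ
      rw [← Subgroup.card_eq_one, hk, pow_zero]
    obtain ⟨k, hk⟩ := exists_prime_orderOf_dvd_card' (G := (commutator G ⊓ Subgroup.center G : Subgroup G)) p h1
    exact ⟨k, k.2.1, k.2.2, by rw [Subgroup.orderOf_coe]; exact hk⟩
  have hz1 : z ≠ 1 := by
    rintro rfl
    rw [orderOf_one] at hzo
    exact hp.out.one_lt.ne hzo
  have hNZ : Subgroup.zpowers z ≤ Subgroup.center G := by rw [Subgroup.zpowers_le]; exact hzZ
  have hNC : Subgroup.zpowers z ≤ commutator G := by rw [Subgroup.zpowers_le]; exact hzC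
  haveI hNn : (Subgroup.zpowers z).Normal := by
    constructor
    intro x hx g
    have := Subgroup.mem_center_iff.1 (hNZ hx) g
    rw [this]
    simpa using hx
  have hNcard : Nat.card (Subgroup.zpowers z) = p := by rw [Nat.card_zpowers, hzo]
  have hχz : (χ : G → ℂ) z ≠ (χ : G → ℂ) 1 := by
    obtain ⟨ψ, hψ⟩ := exists_irr_ne hz1
    by_cases h : ψ = χ
    · rw [← h]; exact hψ
    · exact absurd (commutator_of_one (IsIrr.isCharacter ψ.2) (hdeg ψ h) z hzC) hψ
  have hlin : ∀ ψ : IrrCharacter G, ψ ≠ χ → ∀ x ∈ commutator G, (ψ : G → ℂ) x = (ψ : G → ℂ) 1 := fun ψ hψ =>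
    commutator_of_one (IsIrr.isCharacter ψ.2) (hdeg ψ hψ)
  have hCN : commutator G ≤ Subgroup.zpowers z := by
    intro g hg
    by_contra hgN
    have h1 : (QuotientGroup.mk g : G ⧸ Subgroup.zpowers z) ≠ 1 := by
      rw [Ne, QuotientGroup.eq_one_iff]; exact hgN
    obtain ⟨ψ, hψ⟩ := exists_irr_ne h1
    have h2 : IsIrrCharacter G (fun x => (ψ : G ⧸ Subgroup.zpowers z → ℂ) (QuotientGroup.mk' _ x)) :=
      IsIrr.comp ψ.2 (QuotientGroup.mk' _) (QuotientGroup.mk'_surjective _)
    by_cases h : (⟨_, h2⟩ : IrrCharacter G) = χ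
    · apply hχz
      rw [← h]
      have hz' : (QuotientGroup.mk z : G ⧸ Subgroup.zpowers z) = 1 :=
        (QuotientGroup.eq_one_iff z).2 (Subgroup.mem_zpowers z)
      show (ψ : G ⧸ Subgroup.zpowers z → ℂ) (QuotientGroup.mk z) = (ψ : G ⧸ Subgroup.zpowers z → ℂ) (QuotientGroup.mk 1)
      rw [hz', QuotientGroup.mk_one]
    · apply hψ
      have := hlin _ h g hg
      simpa using this
  have hCeq : commutator G = Subgroup.zpowers z := le_antisymm hCN hNC
  -- counting
  have hsum := sum_sq_central (G := G) (Subgroup.zpowers z) hNZ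
  have hfil : Finset.univ.filter (fun ψ : IrrCharacter G =>
      ∀ x ∈ Subgroup.zpowers z, (ψ : G → ℂ) x = (ψ : G → ℂ) 1) = Finset.univ.erase χ := by
    ext ψ
    rw [Finset.mem_filter, Finset.mem_erase]
    constructor
    · rintro ⟨_, h⟩
      refine ⟨?_, Finset.mem_univ _⟩
      rintro rfl
      exact hχz (h z (Subgroup.mem_zpowers z))
    · rintro ⟨h, _⟩
      exact ⟨Finset.mem_univ _, fun x hx => hlin ψ h x (hNC hx)⟩
  have htot := sum_sq (G := G)
  rw [hfil, hNcard] at hsum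
  have h2 := Finset.sum_erase_add (Finset.univ : Finset (IrrCharacter G)) (fun ψ => (ψ : G → ℂ) 1 ^ 2) (Finset.mem_univ χ)
  rw [htot] at h2
  obtain ⟨k, hk, hk'⟩ := (Nat.dvd_prime_pow hp.out).1 (hn ▸ cd_dvd_card χ)
  have hχp : (χ : G → ℂ) 1 = (p : ℂ) ^ k := by rw [← cd_eq, hk']; push_cast; rfl
  have hcardG : (Nat.card G : ℂ) = (p : ℂ) ^ n := by rw [hn]; push_cast; rfl
  have h3 : (p : ℂ) * ((p : ℂ) ^ n - ((p : ℂ) ^ k) ^ 2) = (p : ℂ) ^ n := by
    rw [← hcardG, ← hχp]
    linear_combination hsum - (p : ℂ) * h2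
  have h4 : (p : ℂ) ^ n * p = (p : ℂ) ^ n + (p : ℂ) ^ (2 * k + 1) := by
    have : (p : ℂ) ^ (2 * k + 1) = p * ((p : ℂ) ^ k) ^ 2 := by ring
    rw [this]
    linear_combination h3
  have h5 : p ^ n * p = p ^ n + p ^ (2 * k + 1) := by exact_mod_cast h4
  have hp1 : 1 ≤ p := hp.out.one_lt.le
  have h6 : p ^ n * (p - 1) = p ^ (2 * k + 1) := by
    rw [Nat.mul_sub, mul_one, h5]; omega
  have hp2 : p = 2 := by
    have h7 : (p - 1) ∣ p ^ (2 * k + 1) := ⟨p ^ n, by rw [← h6]; ring⟩
    have h8 : (p - 1).Coprime (p ^ (2 * k + 1)) := by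
      apply Nat.Coprime.pow_right
      have : (p - 1).Coprime (p - 1 + 1) := by simp
      rwa [Nat.sub_add_cancel hp1] at this
    have h9 := Nat.Coprime.eq_one_of_dvd h8 h7
    omega
  subst hp2
  refine ⟨rfl, ?_⟩
  -- |G| = 2 χ(1)²
  have h7 : n = 2 * k + 1 := by
    have : (2 : ℕ) ^ n = 2 ^ (2 * k + 1) := by rw [← h6]; simp
    exact Nat.pow_right_injective le_rfl this
  have hZcard : Nat.card (Subgroup.center G) = 2 := by
    have h8 := center_bound χ
    have e1 : ((2 : ℕ) ^ k) ^ 2 = 2 ^ (2 * k) := by rw [← pow_mul, mul_comm]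
    have e2 : (2 : ℕ) ^ (2 * k + 1) = 2 * 2 ^ (2 * k) := by rw [pow_succ, mul_comm]
    rw [hk', hn, h7, e1, e2] at h8
    have h9 : Nat.card (Subgroup.center G) ≤ 2 := Nat.le_of_mul_le_mul_right h8 (by positivity)
    have h10 : Nat.card (Subgroup.zpowers z) ≤ Nat.card (Subgroup.center G) := Subgroup.card_le_of_le hNZ
    omega
  have hcc : ∀ a b : G, ⁅a, b⁆ ∈ Subgroup.center G := by
    intro a b
    apply hNZ
    rw [← hCeq, commutator_def]
    exact Subgroup.commutator_mem_commutator (Subgroup.mem_top a) (Subgroup.mem_top b)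
  have hc2 : ∀ x ∈ Subgroup.center G, x * x = 1 := by
    intro x hx
    have h8 : (⟨x, hx⟩ : Subgroup.center G) ^ 2 = 1 := by rw [← hZcard]; exact pow_card_eq_one'
    have := congrArg Subtype.val h8
    rw [pow_two] at this
    exact this
  refine Cfsg.Agent.H2.Extra.isExtraspecial_of hG hZcard hcc ?_ ?_
  · intro a
    rw [Subgroup.mem_center_iff]
    intro b
    have h8 := hcc a b
    have h9 := Subgroup.mem_center_iff.1 h8
    have h10 := hc2 _ h8
    -- a b = [a,b] b a
    have e1 : a * b = ⁅a, b⁆ * b * a := by rw [commutatorElement_def]; group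
    have e2 : a ^ 2 * b = b * a ^ 2 := by
      calc a ^ 2 * b = a * (a * b) := by rw [pow_two]; group
        _ = a * (⁅a, b⁆ * b * a) := by rw [e1]
        _ = (a * ⁅a, b⁆) * b * a := by group
        _ = (⁅a, b⁆ * a) * b * a := by rw [h9 a]
        _ = ⁅a, b⁆ * (a * b) * a := by group
        _ = ⁅a, b⁆ * (⁅a, b⁆ * b * a) * a := by rw [← e1]
        _ = (⁅a, b⁆ * ⁅a, b⁆) * b * a ^ 2 := by rw [pow_two]; group
        _ = b * a ^ 2 := by rw [h10, one_mul]
    exact e2.symm
  · by_contra hcon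
    push Not at hcon
    apply hder
    rw [commutator_def, Subgroup.commutator_eq_bot_iff_le_centralizer]
    intro a _
    rw [Subgroup.mem_centralizer_iff]
    intro b _
    exact (commutatorElement_eq_one_iff_mul_comm.1 (hcon a b)).symm

theorem forward {G : Type*} [Group G] [Finite G] [Group.IsNilpotent G] (p : ℕ) [hp : Fact p.Prime]
    (χ : IrrCharacter G) (hχ : p ∣ charDegree (χ : G → ℂ))
    (huniq : ∀ ψ : IrrCharacter G, p ∣ charDegree (ψ : G → ℂ) → ψ = χ) : p = 2 ∧ IsExtraspecial 2 G := by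
  classical
  obtain ⟨a, m, hpm, ham⟩ := Nat.exists_eq_pow_mul_and_not_dvd (Nat.card_pos (α := G)).ne' p hp.out.ne_one
  have hcop : (p ^ a).Coprime m := Nat.Coprime.pow_left _ ((Nat.Prime.coprime_iff_not_dvd hp.out).2 hpm)
  obtain ⟨A, B, _, _, hA, hB, _, _, hcomm, hcard, hbij⟩ :=
    Cfsg.Agent.H3.NilpSplit.split (E := G) (m := p ^ a) (n := m) (by rw [ham]) hcop
  let f : A × B →* G :=
    { toFun := fun x => (x.1 : G) * x.2
      map_one' := by simp
      map_mul' := by
        rintro ⟨a, b⟩ ⟨a', b'⟩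
        have := hcomm a' a'.2 b b.2
        show (a : G) * a' * (b * b') = a * b * (a' * b')
        calc (a : G) * a' * (b * b') = a * (a' * b) * b' := by group
          _ = a * (b * a') * b' := by rw [this.eq]
          _ = a * b * (a' * b') := by group }
  let e : A × B ≃* G := MulEquiv.ofBijective f hbij
  haveI : Fintype A := Fintype.ofFinite _
  haveI : Fintype B := Fintype.ofFinite _
  have h1 : IsIrrCharacter (A × B) (fun x => (χ : G → ℂ) (e x)) := (isIrr_comp_iff e).2 χ.2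
  obtain ⟨α, β, hα, hβ, hαβ⟩ := (Cfsg.Agent.H3.CharCalc.isIrr_prod_iff _).1 h1
  obtain ⟨b, hb0, hb⟩ := IsIrr.one_eq_nat hβ
  obtain ⟨c, hc0, hc⟩ := IsIrr.one_eq_nat hα
  have hpB : ¬ p ∣ Nat.card B := by
    intro h
    exact hpm (h.trans hB)
  have hpb : ¬ p ∣ b := by
    intro h
    apply hpB
    have h3 := cd_dvd_card (⟨β, hβ⟩ : IrrCharacter B)
    have h4 : charDegree β = b := by
      have := cd_eq (⟨β, hβ⟩ : IrrCharacter B)
      have h5 : (charDegree β : ℂ) = b := this.trans hb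
      exact_mod_cast h5
    rw [h4] at h3
    exact h.trans h3
  have hcd : charDegree (χ : G → ℂ) = c * b := by
    have h3 := congrFun hαβ 1
    simp only [map_one, Prod.fst_one, Prod.snd_one] at h3
    rw [hb, hc, ← cd_eq] at h3
    exact_mod_cast h3
  have hpc : p ∣ c := by
    rw [hcd] at hχ
    exact (hp.out.dvd_mul.1 hχ).resolve_right hpb
  have hall : ∀ β' : B → ℂ, IsIrrCharacter B β' → β' = β := by
    intro β' hβ'
    have h2 : IsIrrCharacter (A × B) (fun x => α x.1 * β' x.2) := Cfsg.Agent.H3.CharCalc.isIrr_prod hα hβ'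
    have h3 : IsIrrCharacter G (fun g => (fun x : A × B => α x.1 * β' x.2) (e.symm g)) :=
      (isIrr_comp_iff e.symm).2 h2
    obtain ⟨b', hb'0, hb'⟩ := IsIrr.one_eq_nat hβ'
    have h4 : (⟨_, h3⟩ : IrrCharacter G) = χ := by
      apply huniq
      have h5 := cd_eq (⟨_, h3⟩ : IrrCharacter G)
      have h6 : (charDegree ((⟨_, h3⟩ : IrrCharacter G) : G → ℂ) : ℂ) = ((c * b' : ℕ) : ℂ) := by
        rw [h5]
        simp only [map_one, Prod.fst_one, Prod.snd_one]
        rw [hb', hc]; push_cast; rfl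
      have h7 : charDegree ((⟨_, h3⟩ : IrrCharacter G) : G → ℂ) = c * b' := by exact_mod_cast h6
      rw [h7]
      exact hpc.mul_right _
    funext y
    have h5 : (fun g => (fun x : A × B => α x.1 * β' x.2) (e.symm g)) = (χ : G → ℂ) := congrArg Subtype.val h4
    have h6 := congrFun h5 (e (1, y))
    simp only [MulEquiv.symm_apply_apply] at h6
    have h7 := congrFun hαβ (1, y)
    simp only at h7
    rw [h7] at h6
    have h8 : α 1 ≠ 0 := by rw [hc]; exact_mod_cast hc0.ne'
    exact mul_left_cancel₀ h8 h6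
  have hBtriv : ∀ y : B, y = 1 := by
    intro y
    by_contra hy
    obtain ⟨ψ, hψ⟩ := exists_irr_ne hy
    apply hψ
    rw [hall _ ψ.2, ← hall _ isIrr_one]
  have hBcard : Nat.card B = 1 := by
    rw [Nat.card_eq_one_iff_unique]
    exact ⟨⟨fun a b => (hBtriv a).trans (hBtriv b).symm⟩, ⟨1⟩⟩
  have hGp : IsPGroup p G := by
    rw [hBcard, mul_one] at hcard
    rw [hcard] at hA
    obtain ⟨k, _, hk⟩ := (Nat.dvd_prime_pow hp.out).1 hA
    exact IsPGroup.of_card hk
  exact pgroup_case hGp χ hχ huniq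

/-- Let p be a prime and G a finite nilpotent group. Then G has exactly one irreducible complex character of degree divisible by p if and only if p = 2 and G is an extraspecial 2-group. -/
theorem result {G : Type*} [Group G] [Finite G] [Group.IsNilpotent G] (p : ℕ) [Fact p.Prime] : Nat.card {χ : Cfsg.IrrCharacter G // p ∣ Cfsg.charDegree (χ : G → ℂ)} = 1 ↔ (p = 2 ∧ Cfsg.IsExtraspecial 2 G) := by
  classical
  haveI : Fintype G := Fintype.ofFinite G
  rename_i hpf _
  constructor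
  · intro h
    obtain ⟨hs, ⟨χ⟩⟩ := Nat.card_eq_one_iff_unique.1 h
    exact forward p χ.1 χ.2 (fun ψ hψ => congrArg Subtype.val (Subsingleton.elim (⟨ψ, hψ⟩ : {χ : IrrCharacter G // p ∣ charDegree (χ : G → ℂ)}) χ))
  · rintro ⟨rfl, hE⟩
    obtain ⟨n, hn1, hn, _⟩ := Cfsg.Agent.H2.Extra.card_eq hE
    have h1 := card_degree hE hn
    have h2 : Nat.card {χ : IrrCharacter G // (χ : G → ℂ) 1 = ((2 : ℕ) : ℂ) ^ n} = 1 := h1
    rw [← h2]
    apply Nat.card_congr
    apply Equiv.subtypeEquivRight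
    intro χ
    have h3 := (degree_iff hE hn χ.2).1
    constructor
    · intro h
      rcases h3 with h3 | h3
      · exfalso
        rw [← cd_eq] at h3
        have : charDegree (χ : G → ℂ) = 1 := by exact_mod_cast h3
        rw [this] at h
        exact absurd h (by norm_num)
      · exact h3
    · intro h
      rw [← cd_eq] at h
      have : charDegree (χ : G → ℂ) = 2 ^ n := by exact_mod_cast h
      rw [this]
      exact dvd_pow_self 2 (by omega)

end Cfsg.Agent.S4762
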