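import Cfsg.Statements.S4763
import Cfsg.Agent.H23_UniqueP


set_option autoImplicit false
open Cfsg

namespace Cfsg.Agent.S4763


/-- Let p be a prime and G a finite group that is not nilpotent and has a normal p-complement (a normal subgroup of order prime to p and index a power of p). If G has exactly one irreducible complex character of degree divisible by p, then G has exactly one conjugacy class whose size is divisible by p. -/
theorem result {G : Type*} [Group G] [Finite G] (p : ℕ) [Fact p.Prime] (hnil : ¬ Group.IsNilpotent G) (N : Subgroup G) [N.Normal] (hN : (Nat.card N).Coprime p) (hidx : ∃ k : ℕ, N.index = p ^ k) (hone : Nat.card {χ : Cfsg.IrrCharacter G // p ∣ Cfsg.charDegree (χ : G → ℂ)} = 1) : Nat.card {C : ConjClasses G // p ∣ Nat.card C.carrier} = 1 := by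
  classical
  haveI := Fintype.ofFinite G
  haveI : Fintype ↥N := Fintype.ofFinite ↥N
  have hp : p.Prime := Fact.out
  obtain ⟨k, hk⟩ := hidx
  have hNp : ¬ p ∣ Nat.card ↥N := (Nat.Prime.coprime_iff_not_dvd hp).mp hN.symm
  have hcopi : (Nat.card ↥N).Coprime N.index := by
    rw [hk]; exact Nat.Coprime.pow_right k hN
  have hcardG : Nat.card G = Nat.card ↥N * p ^ k := by rw [← hk]; exact (N.card_mul_index).symm
  -- k ≠ 0
  have hk0 : k ≠ 0 := by
    intro h0
    obtain ⟨⟨χ, hχ⟩⟩ := (Nat.card_eq_one_iff_unique.mp hone).2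
    have h1 : p ∣ Nat.card G := hχ.trans (Cfsg.Agent.H1.Deg.deg_dvd_card χ.2)
    rw [hcardG, h0, pow_zero, mul_one] at h1
    exact hNp h1
  have hab := Cfsg.Agent.H23.UniqueP.partA p hnil N k hk hone
  obtain ⟨P⟩ : Nonempty (Sylow p G) := inferInstance
  have hcardP : Nat.card ↥(P : Subgroup G) = p ^ k := by
    have h1 := P.card_eq_multiplicity
    rw [hcardG, Nat.factorization_mul (Nat.card_pos.ne') (pow_pos hp.pos k).ne'] at h1
    rw [Finsupp.add_apply, Nat.factorization_eq_zero_of_not_dvd hNp, zero_add,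
      hp.factorization_pow] at h1
    simpa using h1
  have hsup : N ⊔ (P : Subgroup G) = ⊤ := by
    rw [← Subgroup.index_eq_one]
    have h1 : (N ⊔ (P : Subgroup G)).index ∣ N.index := Subgroup.index_dvd_of_le le_sup_left
    have h2 : (N ⊔ (P : Subgroup G)).index ∣ (P : Subgroup G).index :=
      Subgroup.index_dvd_of_le le_sup_right
    have h3 : Nat.Coprime N.index (P : Subgroup G).index := by
      rw [hk]
      exact Nat.Coprime.pow_left k ((Nat.Prime.coprime_iff_not_dvd hp).mpr P.not_dvd_index)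
    exact Nat.dvd_one.mp (h3 ▸ Nat.dvd_gcd h1 h2)
  have hNP : ∀ g : G, ∃ n ∈ N, ∃ x ∈ P, g = n * x := by
    intro g
    have h1 : g ∈ N ⊔ (P : Subgroup G) := by rw [hsup]; trivial
    rw [← SetLike.mem_coe, Subgroup.normal_mul] at h1
    obtain ⟨n, hn, x, hx, rfl⟩ := Set.mem_mul.mp h1
    exact ⟨n, hn, x, hx, rfl⟩
  have c1 := Cfsg.Agent.H3.GK.count N hcopi
  have c2 := Cfsg.Agent.H23.UniqueP.inv_count p N (P : Subgroup G) hNp P.isPGroup' hNP
  have c3 := Cfsg.Agent.H23.UniqueP.class_count p N P hNp hNP hab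
  have c4 : Nat.card ((G ⧸ N) →* ℂˣ) = p ^ k := by
    haveI := Fintype.ofFinite (G ⧸ N)
    rw [Cfsg.Agent.H10.CycTI.card_hom hab]
    exact hk
  rw [c2, c4] at c1
  have c3' : Nat.card {D : ConjClasses G // ¬ p ∣ Nat.card D.carrier} = Nat.card (ConjClasses (N ⊓ Subgroup.centralizer ((P : Subgroup G) : Set G) : Subgroup G)) * p ^ k := by
    rw [c3, ← hcardP]
  have c5 : Nat.card (Cfsg.IrrCharacter G) = Nat.card {χ : Cfsg.IrrCharacter G // (Cfsg.charDegree (χ : G → ℂ)).Coprime N.index} + Nat.card {χ : Cfsg.IrrCharacter G // ¬ (Cfsg.charDegree (χ : G → ℂ)).Coprime N.index} := by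
    rw [← Nat.card_sum]
    exact Nat.card_congr (Equiv.sumCompl (fun χ : Cfsg.IrrCharacter G => (Cfsg.charDegree (χ : G → ℂ)).Coprime N.index)).symm
  have c6 : Nat.card {χ : Cfsg.IrrCharacter G // ¬ (Cfsg.charDegree (χ : G → ℂ)).Coprime N.index} = 1 := by
    rw [← hone]
    refine Nat.card_congr (Equiv.subtypeEquivRight fun χ => ?_)
    rw [hk, Nat.coprime_pow_right_iff (Nat.pos_of_ne_zero hk0), Nat.coprime_comm, hp.coprime_iff_not_dvd, not_not]
  have c7 : Nat.card (ConjClasses G) = Nat.card {C : ConjClasses G // p ∣ Nat.card C.carrier} + Nat.card {C : ConjClasses G // ¬ p ∣ Nat.card C.carrier} := by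
    rw [← Nat.card_sum]
    exact Nat.card_congr (Equiv.sumCompl (fun C : ConjClasses G => p ∣ Nat.card C.carrier)).symm
  have c8 := Cfsg.Agent.H3.CharComplete.card_irr (G := G)
  rw [c5, c6, c7, c1, c3'] at c8
  omega


end Cfsg.Agent.S4763
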