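import Cfsg.Statements.S4765
import Mathlib
import Cfsg.Agent.H5_PDeg

set_option autoImplicit false
open Cfsg

namespace Cfsg.Agent.S4765

open Cfsg.Agent.H5 Cfsg.Agent.H5.SL2 Cfsg.Agent.H5.V4 Cfsg.Agent.H5.PDeg

/-- Let F be a finite field of characteristic p with at least 4 elements. Then PSL(2,F) has exactly one irreducible complex character of degree divisible by p, and its degree is the order of F. -/
theorem result (p : ℕ) [Fact p.Prime] (F : Type*) [Field F] [Fintype F] [CharP F p] (hF : 4 ≤ Fintype.card F) : Nat.card {χ : Cfsg.IrrCharacter (Matrix.ProjectiveSpecialLinearGroup (Fin 2) F) // p ∣ Cfsg.charDegree (χ : Matrix.ProjectiveSpecialLinearGroup (Fin 2) F → ℂ)} = 1 ∧ ∀ χ : Cfsg.IrrCharacter (Matrix.ProjectiveSpecialLinearGroup (Fin 2) F), p ∣ Cfsg.charDegree (χ : Matrix.ProjectiveSpecialLinearGroup (Fin 2) F → ℂ) → Cfsg.charDegree (χ : Matrix.ProjectiveSpecialLinearGroup (Fin 2) F → ℂ) = Fintype.card F := by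
  classical
  have hp : p.Prime := Fact.out
  have hq1 : 1 < Fintype.card F := Fintype.one_lt_card
  obtain ⟨f, -, hf⟩ := FiniteField.card F p
  have hpq : p ∣ Fintype.card F := by rw [hf]; exact dvd_pow_self p f.pos.ne'
  have hnm : ¬ p ∣ Fintype.card F - 1 := by
    intro h
    have h1 : Fintype.card F = (Fintype.card F - 1) + 1 := by omega
    rw [h1] at hpq
    exact hp.one_lt.ne' (Nat.dvd_one.mp ((Nat.dvd_add_right h).mp hpq))
  have hnp : ¬ p ∣ Fintype.card F + 1 := fun h => hp.one_lt.ne' (Nat.dvd_one.mp ((Nat.dvd_add_right hpq).mp h))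
  have key : ∀ χ : Cfsg.IrrCharacter (PS F), p ∣ Cfsg.charDegree (χ : PS F → ℂ) → Cfsg.charDegree (χ : PS F → ℂ) = Fintype.card F := by
    intro χ hχ
    have h1 : charDegree (χ : PS F → ℂ) ∈ charDegrees (Cfsg.Agent.H5.SL2.S F) := degs_surj π π_surj ⟨χ, rfl⟩
    rcases hp.eq_two_or_odd' with h2 | h2
    · subst h2
      rcases (degs_even hF).mp h1 with h | h | h | h
      · rw [h] at hχ; exact absurd (Nat.dvd_one.mp hχ) (by norm_num)
      · rw [h] at hχ; exact absurd hχ hnm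
      · exact h
      · rw [h] at hχ; exact absurd hχ hnp
    · have hodd : Odd (Fintype.card F) := by rw [hf]; exact h2.pow
      obtain ⟨k, hk⟩ := hodd
      rcases degs_odd ⟨k, hk⟩ h1 with h | h | h | h | h | h
      · rw [h] at hχ; exact absurd (Nat.dvd_one.mp hχ) hp.one_lt.ne'
      · exact h
      · rw [h] at hχ; exact absurd hχ hnp
      · rw [h] at hχ; exact absurd hχ hnm
      · rw [h] at hχ; exact absurd (hχ.trans ⟨2, by omega⟩) hnp
      · rw [h] at hχ; exact absurd (hχ.trans ⟨2, by omega⟩) hnm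
  refine ⟨?_, key⟩
  rw [Nat.card_eq_one_iff_unique]
  constructor
  · constructor
    rintro ⟨χ, hχ⟩ ⟨ψ, hψ⟩
    have hS : ∀ χ : Cfsg.IrrCharacter (PS F), p ∣ Cfsg.charDegree (χ : PS F → ℂ) → (fun g : Cfsg.Agent.H5.SL2.S F => (χ : PS F → ℂ) (π g)) = Cfsg.Agent.H15.PS.StS := by
      intro χ hχ
      apply Cfsg.Agent.H15.PS.deg_q (inflate χ.2)
      change (χ : PS F → ℂ) (π 1) = _
      rw [map_one, ← Cfsg.Agent.H1.Deg.coe_deg (Cfsg.Agent.H3.CharIrr.IsIrr.isCharacter χ.2), key χ hχ]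
    apply Subtype.ext
    apply Subtype.ext
    funext g
    obtain ⟨s, rfl⟩ := π_surj g
    exact congrFun ((hS χ hχ).trans (hS ψ hψ).symm) s
  · obtain ⟨χ, hχ⟩ := q_mem (F := F)
    exact ⟨⟨χ, by rw [hχ]; exact hpq⟩⟩

end Cfsg.Agent.S4765
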