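import Cfsg.Statements.S4768
import Cfsg.Agent.H10_PpDeg
import Cfsg.Agent.H26_Ext2
import Cfsg.Agent.H26_Cliff

set_option autoImplicit false
open Cfsg

universe u

namespace Cfsg.Agent.S4768

open scoped ComplexConjugate commutatorElement
open Cfsg.Agent Cfsg.Agent.H3.CharBasic Cfsg.Agent.H3.CharIrr Cfsg.Agent.H3.CharInt Cfsg.Agent.H3.CharCalc
  Cfsg.Agent.H3.CharComplete Cfsg.Agent.H3.CharInd Cfsg.Agent.H3.CharMult Cfsg.Agent.H3.CharQuot
  Cfsg.Agent.H3.Clifford Cfsg.Agent.H1.Deg Cfsg.Agent.H1.Basic Cfsg.Agent.H10.PpDeg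

/-- a linear character of a normal `p`-subgroup below a character of degree prime to `p` which is a
multiple of it extends -/
theorem ext_linear {T : Type*} [Group T] [Finite T] {N : Subgroup T} {p : ℕ} [hp : Fact p.Prime]
    (hNp : IsPGroup p N) (f₀ : N →* ℂˣ) {ψ : T → ℂ} (hψ : IsCharacter T ψ) {m : ℕ}
    (hres : ∀ n : N, ψ n = m * (f₀ n : ℂ)) (hm : ¬ p ∣ m) : ∃ f : T →* ℂˣ, ∀ n : N, f n = f₀ n := by
  obtain ⟨F, hF⟩ := H26.Ext2.exists_detHom hψ
  have h1 : ∀ n : N, F n = f₀ n ^ m := by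
    intro n
    apply Units.ext
    rw [← hF]
    have e1 := H26.Ext2.detChar_comp hψ N.subtype n
    rw [Subgroup.subtype_apply] at e1
    rw [← e1]
    let ρ : Representation ℂ N (Fin m → ℂ) :=
      { toFun := fun n => (f₀ n : ℂ) • LinearMap.id
        map_one' := by rw [map_one, Units.val_one, one_smul]; rfl
        map_mul' := fun a b => by
          rw [map_mul, Units.val_mul, smul_mul_smul_comm]; rfl }
    have hρ : ρ.character = fun n : N => ψ (N.subtype n) := by
      funext n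
      show LinearMap.trace ℂ _ ((f₀ n : ℂ) • (LinearMap.id : (Fin m → ℂ) →ₗ[ℂ] _)) = ψ n
      rw [map_smul, LinearMap.trace_id, hres]
      simp [mul_comm]
    rw [H26.Ext2.detChar_eq ρ (IsChar.comp hψ N.subtype) hρ]
    show LinearMap.det ((f₀ n : ℂ) • (LinearMap.id : (Fin m → ℂ) →ₗ[ℂ] _)) = _
    rw [LinearMap.det_smul, LinearMap.det_id]
    simp
  obtain ⟨a, ha⟩ := IsPGroup.iff_card.1 hNp
  have hc : Nat.Coprime m (p ^ a) := Nat.Coprime.pow_right a ((Nat.Prime.coprime_iff_not_dvd hp.out).2 hm).symm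
  obtain ⟨m', hm'⟩ : ∃ m', m * m' ≡ 1 [MOD p ^ a] := by
    by_cases h1 : p ^ a = 1
    · exact ⟨0, by rw [h1]; exact Nat.modEq_one⟩
    · have hpos : 1 < p ^ a := by
        have := Nat.pow_pos (n := a) hp.out.pos
        omega
      obtain ⟨m', -, hm'⟩ := Nat.exists_mul_mod_eq_one_of_coprime hc hpos
      exact ⟨m', by rw [Nat.ModEq, hm', Nat.mod_eq_of_lt hpos]⟩
  refine ⟨F ^ m', fun n => ?_⟩
  rw [MonoidHom.pow_apply, h1, ← pow_mul]
  have h2 : orderOf (f₀ n) ∣ p ^ a := by
    rw [← ha]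
    exact (orderOf_map_dvd f₀ n).trans (orderOf_dvd_natCard n)
  have h3 := pow_eq_pow_iff_modEq.2 (hm'.of_dvd h2)
  rwa [pow_one] at h3

theorem key {G : Type u} [Group G] [Fintype G] {p : ℕ} [hp : Fact p.Prime] (hs : IsPSolvable p G) (P : Sylow p G)
    (N : Subgroup G) [hN : N.Normal] (hNp : IsPGroup p N) (hNc : ∀ a ∈ N, ∀ b ∈ N, a * b = b * a) (hNb : N ≠ ⊥)
    (hall : ∀ χ : G → ℂ, IsIrrCharacter G χ → p ∣ charDegree χ → ∀ n ∈ N, χ n = χ 1) :
    derivedSeries (P : Subgroup G) 2 = ⊥ := by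
  classical
  haveI : Fintype N := Fintype.ofFinite _
  have hNP : N ≤ P := Cfsg.Agent.H1.Hall.le_of_not_dvd_index hNp P.not_dvd_index
  obtain ⟨x, hx, hx1⟩ := (Subgroup.bot_or_exists_ne_one N).resolve_left hNb
  obtain ⟨χ, hχ, hχx⟩ : ∃ χ : G → ℂ, IsIrrCharacter G χ ∧ χ x ≠ χ 1 := by
    by_contra hcon
    push Not at hcon
    exact hx1 (eq_one_of_forall_irr hcon)
  have hχd : ¬ p ∣ charDegree χ := fun h => hχx (hall χ hχ h x hx)
  obtain ⟨θ, hθ, h0, hinv⟩ := inv_const P N hχ hχd
  have hθ1 : θ ≠ fun _ => 1 := by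
    rintro rfl
    have h1 : InKer N χ := (inKer_iff_inner (hN := hN) hχ).2 h0
    have h2 := h1 x hx 1
    rw [mul_one] at h2
    exact hχx h2
  set T := inertia hN θ with hT
  haveI : Fintype T := Fintype.ofFinite _
  have hNT : N ≤ T := le_inertia hN (IsIrr.isClass hθ)
  have hPT : (P : Subgroup G) ≤ T := fun g hg => hinv g hg
  have hθone : θ 1 = 1 := IsIrr.one_of_comm (fun a b => Subtype.ext (hNc a a.2 b b.2)) hθ
  obtain ⟨f₀, hf₀⟩ := IsChar.hom_units_of_one (IsIrr.isCharacter hθ) hθone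
  obtain ⟨ψ, hψ, hind, hin⟩ := clifford_corr hN hχ hθ h0 T hT hNT
  -- the subgroup of `T`
  set N' := N.subgroupOf T with hN'
  haveI : Fintype N' := Fintype.ofFinite _
  haveI hN'n : N'.Normal := inferInstance
  let e : N' ≃* N := Subgroup.subgroupOfEquivOfLe hNT
  have hdeg : ∀ φ : T → ℂ, IsCharacter T φ → charDegree (indFun T φ) = T.index * charDegree φ := by
    intro φ hφ
    apply deg_eq
    rw [ind_one, Nat.cast_mul, coe_deg hφ]
  -- extension
  obtain ⟨f, hf⟩ : ∃ f : T →* ℂˣ, ∀ n : N', f n = f₀ (e n) := by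
    set θ' : N' → ℂ := fun x => θ (e x) with hθ'
    have hθ'i : IsIrrCharacter N' θ' := (isIrr_comp_iff e).mpr hθ
    have hinv' : ∀ t : T, cj hN'n t θ' = θ' := by
      intro t
      funext n
      exact congrFun ((mem_inertia hN θ _).1 (show (t : G) ∈ inertia hN θ from t.2)) (e n)
    have h0' : classInner (fun n : N' => ψ n) θ' ≠ 0 := by
      have e1 := ci_subgroupOf (N := N) hNT (fun n : N => ψ ⟨(n : G), hNT n.2⟩) θ
      rw [hin] at e1
      have e2 : classInner (fun n : N' => ψ n) θ' = classInner (fun n : N => χ n) θ := e1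
      rw [e2]
      exact h0
    have h1 := clifford_invariant hN'n hψ hθ'i h0' hinv'
    obtain ⟨m, hm⟩ := ci_char_nat (IsChar.res (IsIrr.isCharacter hψ) N') (IsIrr.isCharacter hθ'i)
    have h2 : ∀ n : N', ψ n = m * (f₀.comp e.toMonoidHom n : ℂ) := by
      intro n
      have h3 := congrFun h1 n
      rw [hm, Pi.smul_apply, smul_eq_mul] at h3
      rw [h3, hθ', MonoidHom.comp_apply]
      congr 1
      exact hf₀ (e n)
    have h3 : charDegree ψ = m := by
      apply deg_eq
      have := h2 1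
      rw [Subgroup.coe_one] at this
      rw [this, map_one, Units.val_one, mul_one]
    refine ext_linear (p := p) (hNp.of_equiv e.symm) (f₀.comp e.toMonoidHom) (IsIrr.isCharacter hψ) h2 ?_
    rw [← h3]
    intro h4
    apply hχd
    rw [← hind, hdeg ψ (IsIrr.isCharacter hψ)]
    exact h4.mul_left _
  have hpd : Pd p (T ⧸ N') := by
    intro β hβ hd
    have hβ' := IsIrr.inflate (N := N') hβ
    have hfc : IsCharacter T (fun t => (f t : ℂ)) := IsIrr.isCharacter (isIrr_of_hom_units f)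
    have hφ : IsIrrCharacter T ((fun t => (f t : ℂ)) * fun t : T => β (t : T ⧸ N')) :=
      IsIrr.mul_linear hβ' hfc (by simp)
    set φ := ((fun t => (f t : ℂ)) * fun t : T => β (t : T ⧸ N')) with hφdef
    have hφN : (fun n : N => φ ⟨n, hNT n.2⟩) = (β 1) • θ := by
      funext n
      rw [hφdef, Pi.mul_apply, Pi.smul_apply, smul_eq_mul]
      have e1 : f ⟨n, hNT n.2⟩ = f₀ n := hf ⟨⟨n, hNT n.2⟩, Subgroup.mem_subgroupOf.2 n.2⟩
      have e2 : ((⟨n, hNT n.2⟩ : T) : T ⧸ N') = 1 := by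
        rw [QuotientGroup.eq_one_iff]
        exact Subgroup.mem_subgroupOf.2 n.2
      rw [e1, e2, hf₀, mul_comm]
    have hφθ : classInner (fun n : N => φ ⟨(n : G), hNT n.2⟩) θ ≠ 0 := by
      rw [hφN, ci_smul_left, ci_irr_self hθ, mul_one]
      exact IsIrr.one_ne_zero hβ
    have hirr := H26.Cliff.ind_irr hθ T hT hNT hφ hφθ
    have hover : classInner (fun n : N => indFun T φ n) θ ≠ 0 := by
      refine res_trans hNT (IsIrr.isCharacter hirr) hφ ?_ hθ hφθ
      rw [← constituent_ind_iff (IsIrr.isCharacter hirr), ci_irr_self hirr]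
      exact one_ne_zero
    have hdd : charDegree φ = charDegree β := by
      unfold charDegree
      rw [hφdef, Pi.mul_apply, map_one, Units.val_one, one_mul, QuotientGroup.mk_one]
    have hk := hall _ hirr (by
      rw [hdeg φ (IsIrr.isCharacter hφ), hdd]
      exact hd.mul_left _)
    have h5 : (fun n : N => indFun T φ n) = (indFun T φ 1) • (fun _ : N => (1 : ℂ)) := by
      funext n
      rw [Pi.smul_apply, smul_eq_mul, mul_one]
      exact hk n n.2
    apply hover
    rw [h5, ci_smul_left, ci_irr_ne isIrr_one hθ (fun e => hθ1 e.symm), mul_zero]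
  -- Ito's theorem
  have hs' : IsPSolvable p (T ⧸ N') := H22.PSolv.isPSolvable_quotient N' (H22.PSolv.isPSolvable_subgroup T hs)
  have hab := (ito_psolv hs' hpd ((P.subtype hPT).mapSurjective (QuotientGroup.mk'_surjective N'))).2
  have hPN : ∀ a b : (P : Subgroup G), ((⁅a, b⁆ : (P : Subgroup G)) : G) ∈ N := by
    intro a b
    have h1 := hab (QuotientGroup.mk' N' ⟨a, hPT a.2⟩) ⟨⟨a, hPT a.2⟩, Subgroup.mem_subgroupOf.2 a.2, rfl⟩
      (QuotientGroup.mk' N' ⟨b, hPT b.2⟩) ⟨⟨b, hPT b.2⟩, Subgroup.mem_subgroupOf.2 b.2, rfl⟩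
    have h2 : QuotientGroup.mk' N' ⁅(⟨a, hPT a.2⟩ : T), ⟨b, hPT b.2⟩⁆ = 1 := by
      rw [map_commutatorElement]
      exact commutatorElement_eq_one_iff_mul_comm.2 h1
    rw [QuotientGroup.mk'_apply, QuotientGroup.eq_one_iff] at h2
    exact Subgroup.mem_subgroupOf.1 h2
  have h1 : derivedSeries (P : Subgroup G) 1 ≤ N.subgroupOf P := by
    rw [derivedSeries_one, commutator_def, Subgroup.commutator_le]
    intro a _ b _
    exact Subgroup.mem_subgroupOf.2 (hPN a b)
  rw [eq_bot_iff, show (2 : ℕ) = 1 + 1 from rfl, derivedSeries_succ, Subgroup.commutator_le]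
  intro a ha b hb
  rw [Subgroup.mem_bot, commutatorElement_eq_one_iff_mul_comm]
  exact Subtype.ext (hNc a (Subgroup.mem_subgroupOf.1 (h1 ha)) b (Subgroup.mem_subgroupOf.1 (h1 hb)))

/-- the number of characters of degree divisible by `p` -/
noncomputable def nd (p : ℕ) (G : Type u) [Group G] : ℕ :=
  Nat.card {χ : Cfsg.IrrCharacter G // p ∣ Cfsg.charDegree (χ : G → ℂ)}

/-- inflation -/
noncomputable def infl {G : Type u} [Group G] [Finite G] (p : ℕ) (N : Subgroup G) [N.Normal]
    (χ : {χ : Cfsg.IrrCharacter (G ⧸ N) // p ∣ Cfsg.charDegree (χ : G ⧸ N → ℂ)}) :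
    {χ : Cfsg.IrrCharacter G // p ∣ Cfsg.charDegree (χ : G → ℂ)} :=
  ⟨⟨fun g => (χ.1 : G ⧸ N → ℂ) g, IsIrr.inflate χ.1.2⟩, by
    have h := χ.2
    unfold charDegree at h ⊢
    exact h⟩

theorem infl_inj {G : Type u} [Group G] [Finite G] (p : ℕ) (N : Subgroup G) [N.Normal] : Function.Injective (infl p N) := by
  intro a b h
  apply Subtype.ext
  apply Subtype.ext
  funext x
  obtain ⟨g, rfl⟩ := QuotientGroup.mk_surjective x
  exact congrArg (fun t : {χ : Cfsg.IrrCharacter G // p ∣ Cfsg.charDegree (χ : G → ℂ)} => (t.1 : G → ℂ) g) h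

theorem infl_ker {G : Type u} [Group G] [Finite G] (p : ℕ) (N : Subgroup G) [N.Normal]
    (χ : {χ : Cfsg.IrrCharacter (G ⧸ N) // p ∣ Cfsg.charDegree (χ : G ⧸ N → ℂ)}) {n : G} (hn : n ∈ N) :
    ((infl p N χ).1 : G → ℂ) n = ((infl p N χ).1 : G → ℂ) 1 := by
  show (χ.1 : G ⧸ N → ℂ) (n : G ⧸ N) = (χ.1 : G ⧸ N → ℂ) ((1 : G) : G ⧸ N)
  rw [(QuotientGroup.eq_one_iff n).2 hn]; rfl

theorem aux (p : ℕ) [hp : Fact p.Prime] (n : ℕ) : ∀ (G : Type u) [Group G] [Finite G],
    Nat.card G = n → Cfsg.IsPSolvable p G → ∀ P : Sylow p G,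
    derivedSeries (P : Subgroup G) (nd p G + 1) = ⊥ := by
  induction n using Nat.strong_induction_on with | _ n ih => ?_
  intro G _ _ hn hs P
  classical
  haveI := Fintype.ofFinite G
  rcases subsingleton_or_nontrivial G with hsub | hnt
  · rw [eq_bot_iff]
    intro x _
    rw [Subgroup.mem_bot]
    exact Subsingleton.elim _ _
  -- the quotient
  have hq : ∀ (N : Subgroup G) (_ : N.Normal), N ≠ ⊥ →
      derivedSeries (P : Subgroup G) (nd p (G ⧸ N) + 1) ≤ N.subgroupOf P := by
    intro N hN hNb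
    have h1 := ih (Nat.card (G ⧸ N)) (hn ▸ H1.SZ.card_quotient_lt hNb) (G ⧸ N) rfl
      (Cfsg.Agent.H22.PSolv.isPSolvable_quotient N hs)
      (P.mapSurjective (QuotientGroup.mk'_surjective N))
    intro x hx
    let φ : (P : Subgroup G) →* (P.mapSurjective (QuotientGroup.mk'_surjective N) : Subgroup (G ⧸ N)) :=
      (QuotientGroup.mk' N).subgroupMap (P : Subgroup G)
    have h2 : φ x ∈ derivedSeries _ (nd p (G ⧸ N) + 1) :=
      map_derivedSeries_le_derivedSeries φ _ ⟨x, hx, rfl⟩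
    rw [h1, Subgroup.mem_bot] at h2
    have h3 : QuotientGroup.mk' N (x : G) = 1 := congrArg Subtype.val h2
    rw [QuotientGroup.mk'_apply, QuotientGroup.eq_one_iff] at h3
    exact Subgroup.mem_subgroupOf.2 h3
  have hle : ∀ (N : Subgroup G) (_ : N.Normal), nd p (G ⧸ N) ≤ nd p G := by
    intro N hN
    exact Nat.card_le_card_of_injective _ (infl_inj p N)
  by_cases hK : pPrimeCore p G = ⊥
  · have hO : pCore p G ≠ ⊥ := (H22.PSolv.pCore_or_pPrimeCore_ne_bot hs).resolve_right (fun h => h hK)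
    have hOn : (pCore p G).Normal := H1.Nilp.pCore_normal p
    have hOp : IsPGroup p (pCore p G) := H1.Nilp.pCore_isPGroup p
    haveI : Nontrivial (pCore p G) := (Subgroup.nontrivial_iff_ne_bot _).2 hO
    haveI := hOp.center_nontrivial
    set N : Subgroup G := (Subgroup.center (pCore p G)).map (pCore p G).subtype with hNdef
    have hN : N.Normal := by
      haveI := hOn
      rw [hNdef]; infer_instance
    have hNb : N ≠ ⊥ := by
      rw [hNdef, Ne, Subgroup.map_eq_bot_iff_of_injective _ (Subgroup.subtype_injective _)]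
      exact (Subgroup.nontrivial_iff_ne_bot _).1 inferInstance
    have hNp : IsPGroup p N := hOp.to_le (Subgroup.map_subtype_le _)
    have hNc : ∀ a ∈ N, ∀ b ∈ N, a * b = b * a := by
      rintro _ ⟨a, ha, rfl⟩ _ ⟨b, hb, rfl⟩
      have := (Subgroup.mem_center_iff.1 ha b)
      exact congrArg Subtype.val this.symm
    by_cases hall : ∀ χ : G → ℂ, IsIrrCharacter G χ → p ∣ charDegree χ → ∀ n ∈ N, χ n = χ 1
    · by_cases h0 : nd p G = 0
      · have hpd : Pd p G := by
          intro χ hχ hd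
          have : IsEmpty {χ : Cfsg.IrrCharacter G // p ∣ Cfsg.charDegree (χ : G → ℂ)} := by
            haveI : Finite {χ : Cfsg.IrrCharacter G // p ∣ Cfsg.charDegree (χ : G → ℂ)} := inferInstance
            exact (Finite.card_eq_zero_iff).1 h0
          exact this.elim ⟨⟨χ, hχ⟩, hd⟩
        have hab := (ito_psolv hs hpd P).2
        rw [h0, zero_add, derivedSeries_one, commutator_def, Subgroup.commutator_eq_bot_iff_le_centralizer]
        intro a _
        rw [Subgroup.mem_centralizer_iff]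
        intro b _
        exact Subtype.ext (hab b b.2 a a.2)
      · rw [eq_bot_iff]
        refine (derivedSeries_antitone _ (show 2 ≤ nd p G + 1 by omega)).trans ?_
        rw [key hs P N hNp hNc hNb hall]
    · push Not at hall
      obtain ⟨χ, hχ, hd, x, hx, hχx⟩ := hall
      have hlt : nd p (G ⧸ N) < nd p G := by
        refine lt_of_le_of_ne (hle N hN) ?_
        intro heq
        have hbij : Function.Bijective (infl p N) :=
          (Nat.bijective_iff_injective_and_card _).2 ⟨infl_inj p N, heq⟩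
        obtain ⟨χ', hχ'⟩ := hbij.2 ⟨⟨χ, hχ⟩, hd⟩
        apply hχx
        have h1 := infl_ker p N χ' hx
        rw [hχ'] at h1
        exact h1
      rw [eq_bot_iff]
      refine (derivedSeries_antitone _ (show nd p (G ⧸ N) + 1 + 1 ≤ nd p G + 1 by omega)).trans ?_
      rw [derivedSeries_succ, Subgroup.commutator_le]
      intro a ha b hb
      rw [Subgroup.mem_bot, commutatorElement_eq_one_iff_mul_comm]
      exact Subtype.ext (hNc a (Subgroup.mem_subgroupOf.1 (hq N hN hNb ha)) b (Subgroup.mem_subgroupOf.1 (hq N hN hNb hb)))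
  · have hKn : (pPrimeCore p G).Normal := H1.Nilp.pPrimeCore_normal p
    have hKp : (Nat.card (pPrimeCore p G)).Coprime p := H1.Nilp.pPrimeCore_coprime p
    rw [eq_bot_iff]
    refine (derivedSeries_antitone _ (show nd p (G ⧸ pPrimeCore p G) + 1 ≤ nd p G + 1 by
      have := hle (pPrimeCore p G) hKn
      omega)).trans ?_
    intro x hx
    have h1 := Subgroup.mem_subgroupOf.1 (hq (pPrimeCore p G) hKn hK hx)
    rw [Subgroup.mem_bot]
    apply Subtype.ext
    rw [Subgroup.coe_one]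
    have h2 : orderOf (x : G) ∣ Nat.card (pPrimeCore p G) := by
      rw [← Subgroup.orderOf_mk (x : G) h1]
      exact orderOf_dvd_natCard _
    obtain ⟨k, hk⟩ := IsPGroup.iff_orderOf.1 P.2 x
    rw [Subgroup.orderOf_coe, hk] at h2
    have h3 := Nat.eq_one_of_dvd_coprimes (hKp.pow_right k) h2 dvd_rfl
    rw [← hk, ← Subgroup.orderOf_coe] at h3
    exact orderOf_eq_one_iff.1 h3

/-- Let p be a prime, G a finite p-solvable group and P a Sylow p-subgroup of G. If n is the number of irreducible complex characters of G whose degree is divisible by p, then the (n+1)-st term of the derived series of P is trivial. (The p-solvable case has a direct inductive proof.) -/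
theorem result {G : Type*} [Group G] [Finite G] (p : ℕ) [Fact p.Prime] (hG : Cfsg.IsPSolvable p G) (P : Sylow p G) : derivedSeries ↥(P : Subgroup G) (Nat.card {χ : Cfsg.IrrCharacter G // p ∣ Cfsg.charDegree (χ : G → ℂ)} + 1) = ⊥ :=
  aux p _ G rfl hG P

end Cfsg.Agent.S4768
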