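import Cfsg.Statements.S4774
import Mathlib
import Cfsg.Agent.H5_PDeg

set_option autoImplicit false
open Cfsg

namespace Cfsg.Agent.S4774

open Cfsg.Agent.H5 Cfsg.Agent.H5.SL2 Cfsg.Agent.H5.V4 Cfsg.Agent.H5.PDeg

/-- Let F be a finite field of odd characteristic t with q > 5 elements and let S be isomorphic to PSL(2,F) or to SL(2,F). Then the vertices of the character degree graph of S are the primes dividing q(q²−1); the prime t is adjacent to no vertex; two distinct primes dividing q² − 1 are adjacent exactly when one of them is 2, or both divide q + 1, or both divide q − 1. -/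
theorem result (F : Type*) [Field F] [Fintype F] (t : ℕ) [Fact t.Prime] [CharP F t] (ht : t ≠ 2) (q : ℕ) (hq : Fintype.card F = q) (h5 : 5 < q) {S : Type*} [Group S] [Finite S] (hS : Nonempty (S ≃* Matrix.ProjectiveSpecialLinearGroup (Fin 2) F) ∨ Nonempty (S ≃* Matrix.SpecialLinearGroup (Fin 2) F)) : Cfsg.degreePrimes S = {r : ℕ | r.Prime ∧ r ∣ q * (q ^ 2 - 1)} ∧ ∀ r s : ℕ, (Cfsg.degreeGraph S).Adj r s ↔ (r ≠ s ∧ r.Prime ∧ s.Prime ∧ r ∣ q ^ 2 - 1 ∧ s ∣ q ^ 2 - 1 ∧ (r = 2 ∨ s = 2 ∨ (r ∣ q + 1 ∧ s ∣ q + 1) ∨ (r ∣ q - 1 ∧ s ∣ q - 1))) := by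
  subst hq
  classical
  obtain ⟨f, -, hf⟩ := FiniteField.card F t
  have htp : t.Prime := Fact.out
  have hodd : Odd (Fintype.card F) := by rw [hf]; exact (htp.odd_of_ne_two ht).pow
  have hdeg : ∀ d, d ∈ charDegrees S → d = 1 ∨ d = Fintype.card F ∨ d ∣ Fintype.card F + 1 ∨ d ∣ Fintype.card F - 1 := by
    intro d hd
    have hd' : d ∈ charDegrees (Cfsg.Agent.H5.SL2.S F) := by
      rcases hS with ⟨⟨e⟩⟩ | ⟨⟨e⟩⟩
      · rw [degs_iso e] at hd
        exact degs_surj π π_surj hd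
      · rw [degs_iso e] at hd; exact hd
    obtain ⟨k, hk⟩ := hodd
    rcases degs_odd ⟨k, hk⟩ hd' with h | h | h | h | h | h
    · exact Or.inl h
    · exact Or.inr (Or.inl h)
    · exact Or.inr (Or.inr (Or.inl (by rw [h])))
    · exact Or.inr (Or.inr (Or.inr (by rw [h])))
    · exact Or.inr (Or.inr (Or.inl ⟨2, by omega⟩))
    · exact Or.inr (Or.inr (Or.inr ⟨2, by omega⟩))
  have hmem : ∀ d, d ∈ charDegrees (PS F) → d ∈ charDegrees S := by
    intro d hd
    rcases hS with ⟨⟨e⟩⟩ | ⟨⟨e⟩⟩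
    · rw [degs_iso e]; exact hd
    · rw [degs_iso e]; exact degs_surj π π_surj hd
  have hq := hmem _ (q_mem (F := F))
  have hqp := hmem _ (qp_mem hodd h5)
  have hqm := hmem _ (qm_mem hodd h5)
  have hsq : Fintype.card F ^ 2 - 1 = (Fintype.card F + 1) * (Fintype.card F - 1) := by
    have := Nat.sq_sub_sq (Fintype.card F) 1
    rwa [one_pow] at this
  constructor
  · ext r
    simp only [degreePrimes, Set.mem_setOf_eq, hsq]
    constructor
    · rintro ⟨hr, d, hd, hrd⟩
      refine ⟨hr, ?_⟩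
      rcases hdeg d hd with rfl | rfl | h | h
      · exact absurd (Nat.dvd_one.mp hrd) hr.one_lt.ne'
      · exact hrd.mul_right _
      · exact ((hrd.trans h).mul_right _).mul_left _
      · exact ((hrd.trans h).mul_left _).mul_left _
    · rintro ⟨hr, h⟩
      refine ⟨hr, ?_⟩
      rcases (hr.dvd_mul).mp h with h | h
      · exact ⟨_, hq, h⟩
      · rcases (hr.dvd_mul).mp h with h | h
        · exact ⟨_, hqp, h⟩
        · exact ⟨_, hqm, h⟩
  · intro r s
    constructor
    · rintro ⟨hne, hr, hs, d, hd, hrs⟩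
      refine ⟨hne, hr, hs, ?_⟩
      have h1 : r ∣ d := (dvd_mul_right r s).trans hrs
      have h2 : s ∣ d := (dvd_mul_left s r).trans hrs
      rcases hdeg d hd with rfl | rfl | h | h
      · exact absurd (Nat.dvd_one.mp h1) hr.one_lt.ne'
      · exfalso
        rw [hf] at h1 h2
        exact hne (((Nat.prime_dvd_prime_iff_eq hr htp).mp (hr.dvd_of_dvd_pow h1)).trans
          ((Nat.prime_dvd_prime_iff_eq hs htp).mp (hs.dvd_of_dvd_pow h2)).symm)
      · rw [hsq]
        exact ⟨(h1.trans h).mul_right _, (h2.trans h).mul_right _, Or.inr (Or.inr (Or.inl ⟨h1.trans h, h2.trans h⟩))⟩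
      · rw [hsq]
        exact ⟨(h1.trans h).mul_left _, (h2.trans h).mul_left _, Or.inr (Or.inr (Or.inr ⟨h1.trans h, h2.trans h⟩))⟩
    · rintro ⟨hne, hr, hs, hr1, hs1, h⟩
      have h2p : 2 ∣ Fintype.card F + 1 := by obtain ⟨k, hk⟩ := hodd; exact ⟨k + 1, by omega⟩
      have h2m : 2 ∣ Fintype.card F - 1 := by obtain ⟨k, hk⟩ := hodd; exact ⟨k, by omega⟩
      have key : (r ∣ Fintype.card F + 1 ∧ s ∣ Fintype.card F + 1) ∨ (r ∣ Fintype.card F - 1 ∧ s ∣ Fintype.card F - 1) := by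
        rcases h with rfl | rfl | h | h
        · rw [hsq] at hs1
          rcases (hs.dvd_mul).mp hs1 with h | h
          · exact Or.inl ⟨h2p, h⟩
          · exact Or.inr ⟨h2m, h⟩
        · rw [hsq] at hr1
          rcases (hr.dvd_mul).mp hr1 with h | h
          · exact Or.inl ⟨h, h2p⟩
          · exact Or.inr ⟨h, h2m⟩
        · exact Or.inl h
        · exact Or.inr h
      rcases key with h | h
      · exact ⟨hne, hr, hs, _, hqp, Nat.Coprime.mul_dvd_of_dvd_of_dvd ((Nat.coprime_primes hr hs).mpr hne) h.1 h.2⟩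
      · exact ⟨hne, hr, hs, _, hqm, Nat.Coprime.mul_dvd_of_dvd_of_dvd ((Nat.coprime_primes hr hs).mpr hne) h.1 h.2⟩

end Cfsg.Agent.S4774
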