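import Cfsg.Statements.S4782
import Cfsg.Agent.H24_DegPrimes
-- import your own Cfsg.Agent.* helpers here

set_option autoImplicit false
open Cfsg

namespace Cfsg.Agent.S4782

/-- If the finite group G is not solvable, then at least three distinct primes each divide some irreducible complex character degree of G. -/
theorem result {G : Type*} [Group G] [Finite G] (hG : ¬ Group.IsSolvable G) : ∃ p q r : ℕ, p ≠ q ∧ q ≠ r ∧ p ≠ r ∧ p ∈ Cfsg.degreePrimes G ∧ q ∈ Cfsg.degreePrimes G ∧ r ∈ Cfsg.degreePrimes G := by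
  by_contra hcon
  apply hG
  have key : ∃ p q : ℕ, p.Prime ∧ q.Prime ∧ ∀ r ∈ Cfsg.degreePrimes G, r = p ∨ r = q := by
    by_cases h1 : ∃ p, p ∈ Cfsg.degreePrimes G
    · obtain ⟨p, hp⟩ := h1
      by_cases h2 : ∃ q, q ∈ Cfsg.degreePrimes G ∧ q ≠ p
      · obtain ⟨q, hq, hqp⟩ := h2
        refine ⟨p, q, hp.1, hq.1, fun r hr => ?_⟩
        by_contra h3
        push Not at h3
        exact hcon ⟨p, q, r, hqp.symm, h3.2.symm, h3.1.symm, hp, hq, hr⟩
      · push Not at h2
        exact ⟨p, p, hp.1, hp.1, fun r hr => Or.inl (h2 r hr)⟩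
    · push Not at h1
      exact ⟨2, 2, Nat.prime_two, Nat.prime_two, fun r hr => absurd hr (h1 r)⟩
  obtain ⟨p, q, hp, hq, h⟩ := key
  exact H24.DegPrimes.solvable (Nat.card G) G p q hp hq rfl
    (fun χ r hr hrd => h r ⟨hr, _, ⟨χ, rfl⟩, hrd⟩)

end Cfsg.Agent.S4782
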