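import Cfsg.Statements.S4784
import Mathlib
import Cfsg.Agent.H26_FS
import Cfsg.Agent.H3_CharMult
import Cfsg.Agent.H10_BlockNormal
import Cfsg.Agent.H10_BlockQuot
import Cfsg.Agent.H26_BP

set_option autoImplicit false
open Cfsg

namespace Cfsg.Agent.S4784

open Cfsg Cfsg.Agent.H3.CharIrr Cfsg.Agent.H3.CharComplete Cfsg.Agent.H3.CharInd Cfsg.Agent.H26.Basic Cfsg.Agent.H26.FS

open scoped Classical in
/-- number of `x` with `x⁻¹ g x ∈ H` -/
noncomputable def cnt {G : Type*} [Group G] [Fintype G] (H : Subgroup G) (g : G) : ℕ :=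
  (Finset.univ.filter (fun x : G => x⁻¹ * g * x ∈ H)).card

theorem indFun_one_eq {G : Type*} [Group G] [Fintype G] (H : Subgroup G) (g : G) :
    indFun H (fun _ : H => (1 : ℂ)) g = (Nat.card H : ℂ)⁻¹ * (cnt H g : ℂ) := by
  classical
  rw [indFun, cnt, Finset.card_filter]
  push_cast
  congr 1
  refine Finset.sum_congr rfl fun x _ => ?_
  split_ifs with h
  · rw [ext_mem H _ h]
  · rw [ext_not_mem H _ h]

theorem cnt_le {G : Type*} [Group G] [Fintype G] (H : Subgroup G) (g : G) : cnt H g ≤ cnt H (g * g) := by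
  classical
  rw [cnt, cnt]
  apply Finset.card_le_card
  intro x hx
  rw [Finset.mem_filter] at hx ⊢
  refine ⟨hx.1, ?_⟩
  have := H.mul_mem hx.2 hx.2
  convert this using 1
  group

theorem cnt_one {G : Type*} [Group G] [Fintype G] (H : Subgroup G) : cnt H 1 = Fintype.card G := by
  classical
  rw [cnt, Finset.filter_true_of_mem, Finset.card_univ]
  intro x _
  simp

theorem mem_core_of_cnt {G : Type*} [Group G] [Fintype G] (H : Subgroup G) (g : G) (h : cnt H g = Fintype.card G) :
    g ∈ H.normalCore := by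
  classical
  rw [cnt] at h
  have h1 := (Finset.card_eq_iff_eq_univ _).1 h
  intro b
  have h2 : b⁻¹ ∈ Finset.univ.filter (fun x : G => x⁻¹ * g * x ∈ H) := by rw [h1]; exact Finset.mem_univ _
  rw [Finset.mem_filter, inv_inv] at h2
  exact h2.2

/-- irreducible characters of odd order groups: `∑ ψ(q²) = ∑ ψ(q)` -/
theorem sum_sq_odd {Q : Type*} [Group Q] [Fintype Q] (hodd : Odd (Fintype.card Q)) (F : Q → ℂ) :
    ∑ q : Q, F (q * q) = ∑ q : Q, F q := by
  have hb : Function.Bijective (fun q : Q => q * q) := by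
    have h1 : Function.Injective (fun q : Q => q ^ 2) := by
      have := (powCoprime (G := Q) (n := 2) (by rw [Nat.card_eq_fintype_card]; exact (Nat.coprime_two_left.2 hodd).symm)).injective
      exact this
    have h2 : (fun q : Q => q * q) = fun q : Q => q ^ 2 := by funext q; rw [sq]
    rw [h2]
    exact Finite.injective_iff_bijective.1 h1
  exact Function.Bijective.sum_comp hb F

/-- Let H be a subgroup of the finite group G and consider the permutation character of G on the cosets of H (the function induced from the principal character of H). Then exactly one irreducible constituent of it is real-valued with Frobenius–Schur indicator +1 (namely the principal character) if and only if the normal core of H has odd index in G. -/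
theorem result {G : Type*} [Group G] [Fintype G] (H : Subgroup G) : Nat.card {χ : Cfsg.IrrCharacter G // Cfsg.classInner (Cfsg.indFun H (fun _ : H => (1 : ℂ))) (χ : G → ℂ) ≠ 0 ∧ (∀ g : G, (starRingEnd ℂ) ((χ : G → ℂ) g) = (χ : G → ℂ) g) ∧ (Nat.card G : ℂ)⁻¹ * ∑ g : G, (χ : G → ℂ) (g * g) = 1} = 1 ↔ Odd H.normalCore.index := by
  classical
  haveI : Fintype (IrrCharacter G) := Fintype.ofFinite _
  haveI : Fintype H := Fintype.ofFinite _
  set π : G → ℂ := indFun H (fun _ : H => (1 : ℂ)) with hπ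
  have hπc : IsCharacter G π := IsChar.ind IsChar.one
  have hone : IsIrrCharacter G (fun _ : G => (1:ℂ)) := isIrr_one
  set t : IrrCharacter G := ⟨fun _ => 1, hone⟩ with ht
  have ht1 : classInner π (t : G → ℂ) = 1 := by
    rw [hπ, frobenius H _ _ (IsIrr.isClass t.2)]
    exact ci_irr_self (isIrr_one (G := H))
  have hfs : ∀ χ : IrrCharacter G, (Nat.card G : ℂ)⁻¹ * ∑ g : G, (χ : G → ℂ) (g * g) = ind (χ : G → ℂ) := fun χ => rfl
  have htmem : classInner π (t : G → ℂ) ≠ 0 ∧ (∀ g : G, (starRingEnd ℂ) ((t : G → ℂ) g) = (t : G → ℂ) g) ∧ (Nat.card G : ℂ)⁻¹ * ∑ g : G, (t : G → ℂ) (g * g) = 1 := by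
    refine ⟨by rw [ht1]; exact one_ne_zero, fun g => map_one _, ind_one⟩
  obtain ⟨n, hn, hπn⟩ := Cfsg.Agent.H3.CharMult.IsChar.eq_sum_nat hπc
  constructor
  · intro hc
    -- uniqueness of t
    have huniq : ∀ χ : IrrCharacter G, χ ≠ t → n χ ≠ 0 → ind (χ : G → ℂ) ≠ 1 := by
      intro χ hχt hχn hχ1
      rw [Nat.card_eq_one_iff_unique] at hc
      obtain ⟨hs, -⟩ := hc
      have hreal : ∀ g : G, (starRingEnd ℂ) ((χ : G → ℂ) g) = (χ : G → ℂ) g := by
        by_contra hr
        rw [ind_nonreal χ hr] at hχ1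
        exact zero_ne_one hχ1
      have h1 := hs.elim ⟨χ, by rw [hn]; exact_mod_cast hχn, hreal, hχ1⟩ ⟨t, htmem⟩
      exact hχt (Subtype.ext_iff.1 h1)
    have hsum1 : ∑ g : G, π (g * g) = (Nat.card G : ℂ) * ∑ χ : IrrCharacter G, (n χ : ℂ) * ind (χ : G → ℂ) := by
      have h1 : ∀ g : G, π (g * g) = ∑ χ : IrrCharacter G, (n χ : ℂ) * (χ : G → ℂ) (g * g) := by
        intro g
        conv_lhs => rw [hπn]
        rw [Finset.sum_apply]
        rfl
      simp_rw [h1]
      rw [Finset.sum_comm, Finset.mul_sum]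
      refine Finset.sum_congr rfl fun χ _ => ?_
      rw [← Finset.mul_sum, ← hfs χ]
      have : (Nat.card G : ℂ) ≠ 0 := card_cast_ne_zero
      field_simp
    have hle : (∑ χ : IrrCharacter G, (n χ : ℂ) * ind (χ : G → ℂ)).re ≤ 1 := by
      rw [← Finset.add_sum_erase _ _ (Finset.mem_univ t), Complex.add_re]
      have h1 : ((n t : ℂ) * ind (t : G → ℂ)).re = 1 := by
        rw [← hn, ht1, one_mul]
        have : ind (t : G → ℂ) = 1 := ind_one
        rw [this, Complex.one_re]
      rw [h1, Complex.re_sum]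
      have h2 : ∑ χ ∈ Finset.univ.erase t, ((n χ : ℂ) * ind (χ : G → ℂ)).re ≤ 0 := by
        apply Finset.sum_nonpos
        intro χ hχ
        by_cases h0 : n χ = 0
        · rw [h0]; simp
        · rcases ind_cases χ with h | h | h
          · exact absurd h (huniq χ (Finset.mem_erase.1 hχ).1 h0)
          · rw [h]; simp
          · rw [h]; simp
      linarith
    have hsum0 : ∑ g : G, π g = (Nat.card G : ℂ) := by
      have h1 := ht1
      rw [classInner] at h1
      have h2 : ∑ g : G, π g * (starRingEnd ℂ) ((t : G → ℂ) g) = ∑ g : G, π g := by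
        refine Finset.sum_congr rfl fun g _ => ?_
        show π g * (starRingEnd ℂ) 1 = _
        rw [map_one, mul_one]
      rw [h2] at h1
      have : (Nat.card G : ℂ) ≠ 0 := card_cast_ne_zero
      field_simp at h1
      exact h1
    have hH : (Nat.card H : ℂ) ≠ 0 := card_cast_ne_zero
    have hc0 : ∑ g : G, cnt H g = Nat.card G * Nat.card H := by
      have h1 : ((∑ g : G, cnt H g : ℕ) : ℂ) = (Nat.card G : ℂ) * (Nat.card H : ℂ) := by
        rw [← hsum0, Finset.sum_mul]
        push_cast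
        refine Finset.sum_congr rfl fun g _ => ?_
        rw [hπ, indFun_one_eq]; field_simp
      exact_mod_cast h1
    have hc1 : ∑ g : G, cnt H (g * g) ≤ Nat.card G * Nat.card H := by
      have h1 : ((∑ g : G, cnt H (g * g) : ℕ) : ℂ) = (Nat.card G : ℂ) * (Nat.card H : ℂ) * ∑ χ : IrrCharacter G, (n χ : ℂ) * ind (χ : G → ℂ) := by
        rw [mul_right_comm, ← hsum1, Finset.sum_mul]
        push_cast
        refine Finset.sum_congr rfl fun g _ => ?_
        rw [hπ, indFun_one_eq]; field_simp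
      have h2 := congrArg Complex.re h1
      rw [Complex.natCast_re, ← Nat.cast_mul, Complex.mul_re, Complex.natCast_im, Complex.natCast_re, zero_mul, sub_zero] at h2
      have h3 : ((∑ g : G, cnt H (g * g) : ℕ) : ℝ) ≤ ((Nat.card G * Nat.card H : ℕ) : ℝ) := by
        rw [h2]
        exact mul_le_of_le_one_right (Nat.cast_nonneg _) hle
      exact_mod_cast h3
    have heq : ∀ g : G, cnt H g = cnt H (g * g) := by
      have h1 : ∑ g : G, cnt H g = ∑ g : G, cnt H (g * g) := by
        apply le_antisymm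
        · exact Finset.sum_le_sum fun g _ => cnt_le H g
        · rw [hc0]; exact hc1
      intro g
      exact (Finset.sum_eq_sum_iff_of_le (fun g _ => cnt_le H g)).1 h1 g (Finset.mem_univ g)
    have hpow : ∀ (k : ℕ) (g : G), cnt H (g ^ 2 ^ k) = cnt H g := by
      intro k
      induction k with
      | zero => intro g; rw [pow_zero, pow_one]
      | succ k ih => intro g; rw [pow_succ, pow_mul, sq, ← heq, ih]
    rw [← Nat.not_even_iff_odd]
    intro hev
    rw [Subgroup.index] at hev
    haveI : Fact (Nat.Prime 2) := ⟨Nat.prime_two⟩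
    obtain ⟨q, hq⟩ := exists_prime_orderOf_dvd_card' 2 (even_iff_two_dvd.1 hev)
    obtain ⟨g, rfl⟩ := QuotientGroup.mk_surjective q
    obtain ⟨k, m, hm, hkm⟩ := Nat.exists_eq_two_pow_mul_odd (orderOf_pos g).ne'
    have h1 : (g ^ m) ^ 2 ^ k = 1 := by rw [← pow_mul, mul_comm, ← hkm, pow_orderOf_eq_one]
    have h2 : g ^ m ∈ H.normalCore := by
      apply mem_core_of_cnt
      rw [← hpow k, h1, cnt_one]
    have h3 : ((g : G ⧸ H.normalCore)) ^ m = 1 := by
      rw [← QuotientGroup.mk_pow]
      exact (QuotientGroup.eq_one_iff _).2 h2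
    have h4 := orderOf_dvd_of_pow_eq_one h3
    rw [hq] at h4
    exact (Nat.not_even_iff_odd.2 hm) (even_iff_two_dvd.2 h4)
  · intro hodd
    rw [Nat.card_eq_one_iff_unique]
    refine ⟨⟨?_⟩, ⟨⟨t, htmem⟩⟩⟩
    have key : ∀ χ : IrrCharacter G, classInner π (χ : G → ℂ) ≠ 0 → (Nat.card G : ℂ)⁻¹ * ∑ g : G, (χ : G → ℂ) (g * g) = 1 → χ = t := by
      intro χ hχ hχ1
      -- kernel
      have hker : ∀ u ∈ H.normalCore, (χ : G → ℂ) u = (χ : G → ℂ) 1 := by
        intro u hu
        apply Cfsg.Agent.H26.BP.ker_of_constituent hπc χ.2 hχ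
        rw [hπ, indFun_one_eq, indFun_one_eq, cnt_one]
        congr 2
        rw [cnt, Finset.filter_true_of_mem, Finset.card_univ]
        intro x _
        have := hu x⁻¹
        rwa [inv_inv] at this
      obtain ⟨ψ, hψ, hψe⟩ := Cfsg.Agent.H10.BlockNormal.deflate H.normalCore χ.2 hker
      haveI : Fintype (G ⧸ H.normalCore) := Fintype.ofFinite _
      have hfib : ∀ F : G ⧸ H.normalCore → ℂ, ∑ g : G, F (QuotientGroup.mk g) = (Nat.card H.normalCore : ℂ) * ∑ q, F q := by
        intro F
        rw [Cfsg.Agent.H10.BlockQuot.sum_coset, nsmul_eq_mul]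
      have h2 : ∑ g : G, (χ : G → ℂ) (g * g) = ∑ g : G, (χ : G → ℂ) g := by
        have h3 : ∀ g : G, (χ : G → ℂ) (g * g) = (fun q => ψ (q * q)) (QuotientGroup.mk g) := fun g => by rw [hψe]; rfl
        simp_rw [h3, hψe]
        rw [hfib (fun q => ψ (q * q)), hfib, sum_sq_odd]
        rw [← Nat.card_eq_fintype_card]; exact hodd
      by_contra hne
      rw [h2] at hχ1
      have h4 := ci_irr_ne χ.2 t.2 (fun h => hne (Subtype.ext h))
      rw [classInner] at h4
      have h5 : ∑ g : G, (χ : G → ℂ) g * (starRingEnd ℂ) ((t : G → ℂ) g) = ∑ g : G, (χ : G → ℂ) g := by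
        refine Finset.sum_congr rfl fun g _ => ?_
        show _ * (starRingEnd ℂ) 1 = _
        rw [map_one, mul_one]
      rw [h5, hχ1] at h4
      exact one_ne_zero h4
    rintro ⟨χ, hχ⟩ ⟨ψ, hψ⟩
    apply Subtype.ext
    show χ = ψ
    rw [key χ hχ.1 hχ.2.2, key ψ hψ.1 hψ.2.2]

end Cfsg.Agent.S4784
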