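import Cfsg.Statements.S4796
import Mathlib
import Cfsg.Agent.H26_Codeg

set_option autoImplicit false
open Cfsg

namespace Cfsg.Agent.S4796

open Cfsg.Agent.H26.Codeg Cfsg.Agent.H26.Kernel Cfsg.Agent.H26.Basic Cfsg.Agent.H1.Basic

open scoped Pointwise


/-- Let G be a finite group with a faithful irreducible complex character χ whose codegree #G / χ(1) is a prime p (for a faithful character the kernel is trivial, so the codegree is #G / χ(1)). Then either G is cyclic of order p, or G is a Frobenius group whose Frobenius kernel has order p: some proper non-trivial subgroup H satisfies H ∩ gHg⁻¹ = 1 for every element g outside H, and the set of elements lying in no conjugate of H, together with the identity, has exactly p elements. -/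
theorem result {G : Type*} [Group G] [Finite G] (χ : Cfsg.IrrCharacter G) (hfaith : ∀ g : G, (χ : G → ℂ) g = (χ : G → ℂ) 1 → g = 1) (p : ℕ) (hp : p.Prime) (hcod : Nat.card G = p * Cfsg.charDegree (χ : G → ℂ)) : (IsCyclic G ∧ Nat.card G = p) ∨ ∃ H : Subgroup G, Cfsg.IsFrobeniusComplement H ∧ Nat.card ↥(Cfsg.frobeniusKernel H) = p := by
  classical
  obtain ⟨P, hPn, hPc, hC, hlt⟩ := structure_thm χ p hp hcod
  by_cases hm : charDegree (χ : G → ℂ) = 1
  · left
    rw [hm, mul_one] at hcod
    haveI : Fact p.Prime := ⟨hp⟩
    exact ⟨isCyclic_of_prime_card hcod, hcod⟩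
  · right
    have hm0 : 0 < charDegree (χ : G → ℂ) := cd_pos χ
    have hidx : P.index = charDegree (χ : G → ℂ) := by
      have h4 := Subgroup.card_mul_index P
      rw [hPc, hcod] at h4
      exact Nat.eq_of_mul_eq_mul_left hp.pos h4
    have hcop : (Nat.card P).Coprime P.index := by
      rw [hPc, hidx, Nat.Prime.coprime_iff_not_dvd hp]
      exact Nat.not_dvd_of_pos_of_lt hm0 hlt
    obtain ⟨H, hH⟩ := Subgroup.exists_right_complement'_of_coprime hcop
    have hHcard : Nat.card H = charDegree (χ : G → ℂ) := by
      rw [← hidx]; exact hH.symm.index_eq_card.symm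
    have hPH : P ⊓ H = ⊥ := hH.disjoint.eq_bot
    have hfac : ∀ g : G, ∃ z ∈ P, ∃ k ∈ H, z * k = g := by
      intro g
      have : g ∈ P ⊔ H := by rw [hH.sup_eq_top]; trivial
      exact Subgroup.mem_sup_of_normal_left.1 this
    have hPHe : ∀ x : G, x ∈ P → x ∈ H → x = 1 := by
      intro x h1 h2
      have : x ∈ P ⊓ H := ⟨h1, h2⟩
      rw [hPH] at this
      exact Subgroup.mem_bot.1 this
    refine ⟨H, ⟨?_, ?_, ?_⟩, ?_⟩
    · rintro rfl
      rw [Subgroup.card_bot] at hHcard
      exact hm hHcard.symm
    · rintro rfl
      rw [Subgroup.card_top] at hHcard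
      rw [hHcard] at hcod
      have : 1 * charDegree (χ : G → ℂ) = p * charDegree (χ : G → ℂ) := by rw [one_mul]; exact hcod
      have := Nat.eq_of_mul_eq_mul_right hm0 this
      exact hp.one_lt.ne this
    · intro g hg
      obtain ⟨z, hz, k, hk, rfl⟩ := hfac g
      have hz1 : z ≠ 1 := by
        rintro rfl
        rw [one_mul] at hg
        exact hg hk
      rw [eq_bot_iff]
      intro x hx
      rw [Subgroup.mem_inf, mem_conj] at hx
      obtain ⟨hx1, hx2⟩ := hx
      rw [Subgroup.mem_bot]
      have h1 : z⁻¹ * x * z ∈ H := by
        have h2 : z⁻¹ * x * z = k * ((z * k)⁻¹ * x * (z * k)) * k⁻¹ := by group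
        rw [h2]
        exact mul_mem (mul_mem hk hx2) (inv_mem hk)
      have h2 : x⁻¹ * (z⁻¹ * x * z) = 1 := by
        apply hPHe
        · have : x⁻¹ * (z⁻¹ * x * z) = (x⁻¹ * z⁻¹ * x) * z := by group
          rw [this]
          apply mul_mem _ hz
          have := hPn.conj_mem _ (inv_mem hz) x⁻¹
          rwa [inv_inv] at this
        · exact mul_mem (inv_mem hx1) h1
      have h3 : x * z = z * x := by
        rw [inv_mul_eq_one] at h2
        calc x * z = z * (z⁻¹ * x * z) := by group
          _ = z * x := by rw [← h2]
      exact hPHe x (hC z hz hz1 x h3) hx1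
    · have : Cfsg.frobeniusKernel H = (P : Set G) := by
        ext x
        simp only [Cfsg.frobeniusKernel, Set.mem_setOf_eq, SetLike.mem_coe]
        constructor
        · rintro (rfl | hx)
          · exact one_mem _
          · by_contra hxP
            obtain ⟨z, hz, k, hk, rfl⟩ := hfac x
            have hk1 : k ≠ 1 := by
              rintro rfl
              rw [mul_one] at hxP
              exact hxP hz
            -- the map w ↦ w k w⁻¹ k⁻¹ on P
            let f : P → P := fun w => ⟨(w : G) * (k * (w : G)⁻¹ * k⁻¹), mul_mem w.2 (hPn.conj_mem _ (inv_mem w.2) k)⟩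
            have hinj : Function.Injective f := by
              intro u v huv
              have h1 : (u : G) * (k * (u : G)⁻¹ * k⁻¹) = (v : G) * (k * (v : G)⁻¹ * k⁻¹) := congrArg Subtype.val huv
              by_contra hne
              have h2 : (v : G)⁻¹ * u ≠ 1 := by
                intro h
                rw [inv_mul_eq_one] at h
                exact hne (Subtype.ext h.symm)
              have h3 : k * ((v : G)⁻¹ * u) = ((v : G)⁻¹ * u) * k := by
                have h4 : (u : G) * k * (u : G)⁻¹ = (v : G) * k * (v : G)⁻¹ := by
                  have := congrArg (fun t => t * k) h1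
                  simpa [mul_assoc] using this
                calc k * ((v : G)⁻¹ * u) = (v : G)⁻¹ * (v * k * (v : G)⁻¹) * u := by group
                  _ = (v : G)⁻¹ * (u * k * (u : G)⁻¹) * u := by rw [h4]
                  _ = _ := by group
              have h5 := hC _ (mul_mem (inv_mem v.2) u.2) h2 k h3
              exact hk1 (hPHe k h5 hk)
            obtain ⟨w, hw⟩ := (Finite.injective_iff_surjective.1 hinj) ⟨z, hz⟩
            have hw' : (w : G) * (k * (w : G)⁻¹ * k⁻¹) = z := congrArg Subtype.val hw
            apply hx w
            rw [mem_conj]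
            have : (w : G)⁻¹ * (z * k) * w = k := by
              rw [← hw']; group
            rw [this]; exact hk
        · intro hx
          by_cases hx1 : x = 1
          · exact Or.inl hx1
          · right
            intro g hg
            rw [mem_conj] at hg
            have h1 : g⁻¹ * x * g ∈ P := by
              have := hPn.conj_mem _ hx g⁻¹
              rwa [inv_inv] at this
            have h2 := hPHe _ h1 hg
            apply hx1
            calc x = g * (g⁻¹ * x * g) * g⁻¹ := by group
              _ = 1 := by rw [h2]; group
      rw [this]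
      exact hPc

end Cfsg.Agent.S4796
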