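import Cfsg.Statements.S4797
import Mathlib
import Cfsg.Agent.H26_Codeg

set_option autoImplicit false
open Cfsg

namespace Cfsg.Agent.S4797

open Cfsg.Agent.H26.Codeg Cfsg.Agent.H26.Kernel Cfsg.Agent.H26.Basic Cfsg.Agent.H3.CharIrr

/-- The codegree of an irreducible complex character χ of a finite group G is [G : ker χ] / χ(1), where ker χ is the set of elements at which χ takes the value χ(1). A non-trivial finite group is perfect if and only if no irreducible complex character of it has prime codegree. -/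
theorem result {G : Type*} [Group G] [Finite G] [Nontrivial G] : commutator G = ⊤ ↔ ∀ χ : Cfsg.IrrCharacter G, ¬ ((Nat.card G / (Nat.card {g : G // (χ : G → ℂ) g = (χ : G → ℂ) 1} * Cfsg.charDegree (χ : G → ℂ)))).Prime := by
  classical
  constructor
  · intro hperf χ hχ
    rw [codegree_eq] at hχ
    obtain ⟨ψ, h0, h1, h2, h3⟩ := deflate_ker χ
    rw [← h2] at hχ
    set p := Nat.card (QK χ) / charDegree (ψ : QK χ → ℂ) with hp
    haveI : Fintype (QK χ) := Fintype.ofFinite _
    have hcod : Nat.card (QK χ) = p * charDegree (ψ : QK χ → ℂ) := (Nat.div_mul_cancel (cd_dvd_card ψ)).symm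
    obtain ⟨P, hPn, hPc, hC, hlt⟩ := structure_thm ψ p hχ hcod
    have h4 := commutator_le hPn hχ hPc hC
    have h5 : commutator (QK χ) = ⊤ := by
      have h6 : (commutator G).map (QuotientGroup.mk' (kerS (χ : G → ℂ) (IsIrr.isCharacter χ.2))) = commutator (QK χ) := by
        rw [commutator_def, commutator_def, Subgroup.map_commutator,
          Subgroup.map_top_of_surjective _ (QuotientGroup.mk'_surjective _)]
      rw [← h6, hperf, Subgroup.map_top_of_surjective _ (QuotientGroup.mk'_surjective _)]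
    rw [h5, top_le_iff] at h4
    -- so the quotient is of prime order, hence abelian
    have h6 : Nat.card (QK χ) = p := by rw [← Subgroup.card_top, ← h4]; exact hPc
    haveI : Fact p.Prime := ⟨hχ⟩
    haveI : IsCyclic (QK χ) := isCyclic_of_prime_card h6
    have h7 : commutator (QK χ) = ⊥ := by
      letI := IsCyclic.commGroup (α := QK χ)
      rw [eq_bot_iff, commutator_def, Subgroup.commutator_le]
      intro a _ b _
      rw [Subgroup.mem_bot, commutatorElement_eq_one_iff_mul_comm]
      exact mul_comm a b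
    rw [h5] at h7
    have h8 : Nat.card (⊤ : Subgroup (QK χ)) = Nat.card (⊥ : Subgroup (QK χ)) := by rw [h7]
    rw [Subgroup.card_top, Subgroup.card_bot, h6] at h8
    exact hχ.one_lt.ne' h8
  · intro h
    by_contra hperf
    obtain ⟨K, hKn, hKp, hK⟩ := Cfsg.Agent.H1.Basic.exists_normal_index_prime_ge (commutator G) hperf
      (by
        have : ∀ a b : G ⧸ commutator G, a * b = b * a := by
          intro a b
          exact mul_comm (G := Abelianization G) a b
        exact Group.isSolvable_of_comm this)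
    set p := K.index with hp
    haveI : Fact p.Prime := ⟨hKp⟩
    have hQ : Nat.card (G ⧸ K) = p := rfl
    haveI : Fintype (G ⧸ K) := Fintype.ofFinite _
    haveI : Nontrivial (G ⧸ K) := by
      rw [← Finite.one_lt_card_iff_nontrivial, hQ]; exact hKp.one_lt
    obtain ⟨g, hg⟩ := exists_ne (1 : G ⧸ K)
    obtain ⟨ψ, hψ⟩ := exists_irr_ne hg
    haveI : IsCyclic (G ⧸ K) := isCyclic_of_prime_card hQ
    have hψ1 : (ψ : G ⧸ K → ℂ) 1 = 1 := by
      apply Cfsg.Agent.H3.CharMult.IsIrr.one_of_comm _ ψ.2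
      letI := IsCyclic.commGroup (α := G ⧸ K)
      exact fun a b => mul_comm a b
    have hψk : ∀ y, (ψ : G ⧸ K → ℂ) y = (ψ : G ⧸ K → ℂ) 1 → y = 1 := by
      intro y hy
      have h1 : kerS (ψ : G ⧸ K → ℂ) (IsIrr.isCharacter ψ.2) = ⊥ ∨ kerS (ψ : G ⧸ K → ℂ) (IsIrr.isCharacter ψ.2) = ⊤ := by
        have h2 := Subgroup.card_subgroup_dvd_card (kerS (ψ : G ⧸ K → ℂ) (IsIrr.isCharacter ψ.2))
        rw [hQ] at h2
        rcases (Nat.dvd_prime hKp).1 h2 with h3 | h3
        · left; exact Subgroup.card_eq_one.1 h3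
        · right; exact Subgroup.card_eq_iff_eq_top _ |>.1 (h3.trans hQ.symm)
      rcases h1 with h2 | h2
      · have : y ∈ kerS (ψ : G ⧸ K → ℂ) (IsIrr.isCharacter ψ.2) := hy
        rw [h2] at this
        exact Subgroup.mem_bot.1 this
      · exfalso
        apply hψ
        have : g ∈ kerS (ψ : G ⧸ K → ℂ) (IsIrr.isCharacter ψ.2) := by rw [h2]; trivial
        exact this
    have hχ := Cfsg.Agent.H10.BlockNormal.inflate K ψ.2
    apply h ⟨_, hχ⟩
    have h1 : Nat.card {g : G // ((ψ : G ⧸ K → ℂ) ∘ QuotientGroup.mk) g = ((ψ : G ⧸ K → ℂ) ∘ QuotientGroup.mk) 1} = Nat.card K := by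
      apply Nat.card_congr
      apply Equiv.subtypeEquivRight
      intro g
      simp only [Function.comp]
      constructor
      · intro h
        have := hψk _ h
        rwa [QuotientGroup.eq_one_iff] at this
      · intro h
        rw [(QuotientGroup.eq_one_iff g).2 h]; rfl
    have h2 : charDegree ((ψ : G ⧸ K → ℂ) ∘ QuotientGroup.mk : G → ℂ) = 1 := by
      unfold charDegree
      have : ((ψ : G ⧸ K → ℂ) ∘ QuotientGroup.mk : G → ℂ) 1 = 1 := hψ1
      rw [this]; simp
    show (Nat.card G / (Nat.card {g : G // ((ψ : G ⧸ K → ℂ) ∘ QuotientGroup.mk) g = ((ψ : G ⧸ K → ℂ) ∘ QuotientGroup.mk) 1} * charDegree ((ψ : G ⧸ K → ℂ) ∘ QuotientGroup.mk : G → ℂ))).Prime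
    rw [h1, h2, mul_one, ← Subgroup.card_mul_index K, Nat.mul_div_cancel_left _ Nat.card_pos]
    exact hKp

end Cfsg.Agent.S4797
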