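import Cfsg.Statements.S4798
import Mathlib
import Cfsg.Agent.H26_Kernel

set_option autoImplicit false
open Cfsg

namespace Cfsg.Agent.S4798

open Cfsg.Agent.H26.Kernel Cfsg.Agent.H26.Basic Cfsg.Agent.H3.CharIrr Cfsg.Agent.H3.CharInd Cfsg.Agent.H3.CharComplete Cfsg.Agent.H3.CharMult

/-- Let p be a prime and χ a faithful irreducible complex character of the finite group G (χ(g) = χ(1) only for g = 1), so that its codegree is #G / χ(1). Then #G / χ(1) is a power of p if and only if χ is induced from a character of a Sylow p-subgroup of G. -/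
theorem result {G : Type*} [Group G] [Fintype G] (p : ℕ) [Fact p.Prime] (χ : Cfsg.IrrCharacter G) (hfaith : ∀ g : G, (χ : G → ℂ) g = (χ : G → ℂ) 1 → g = 1) : (∃ k : ℕ, Nat.card G = p ^ k * Cfsg.charDegree (χ : G → ℂ)) ↔ ∃ (P : Sylow p G) (θ : ↥(P : Subgroup G) → ℂ), Cfsg.IsCharacter ↥(P : Subgroup G) θ ∧ (χ : G → ℂ) = Cfsg.indFun (P : Subgroup G) θ := by
  classical
  have hp : p.Prime := Fact.out
  constructor
  · rintro ⟨k, hk⟩
    obtain ⟨P⟩ : Nonempty (Sylow p G) := inferInstance
    haveI : Fintype (P : Subgroup G) := Fintype.ofFinite _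
    haveI : Fintype (IrrCharacter (P : Subgroup G)) := Fintype.ofFinite _
    refine ⟨P, ?_⟩
    have hc := Subgroup.card_mul_index (P : Subgroup G)
    obtain ⟨e, he⟩ := IsPGroup.iff_card.1 P.2
    have hidx : ¬ p ∣ (P : Subgroup G).index := P.not_dvd_index
    have hidx0 : (P : Subgroup G).index ≠ 0 := Subgroup.index_ne_zero_of_finite
    -- chi(1) = index * p^(e-k)
    have hke : k ≤ e := by
      have h1 : p ^ k ∣ p ^ e * (P : Subgroup G).index := by
        rw [← he, hc, hk]; exact dvd_mul_right _ _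
      have h2 : p ^ k ∣ p ^ e := by
        apply Nat.Coprime.dvd_of_dvd_mul_right _ h1
        exact Nat.Coprime.pow_left _ ((Nat.Prime.coprime_iff_not_dvd hp).2 hidx)
      exact (Nat.pow_dvd_pow_iff_le_right hp.one_lt).1 h2
    have hdeg : charDegree (χ : G → ℂ) = (P : Subgroup G).index * p ^ (e - k) := by
      have h1 : p ^ k * charDegree (χ : G → ℂ) = p ^ k * ((P : Subgroup G).index * p ^ (e - k)) := by
        rw [← hk, ← hc, he]
        calc p ^ e * (P : Subgroup G).index = p ^ (k + (e - k)) * (P : Subgroup G).index := by rw [Nat.add_sub_cancel' hke]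
          _ = _ := by rw [pow_add]; ring
      exact Nat.eq_of_mul_eq_mul_left (pow_pos hp.pos k) h1
    obtain ⟨n, hn, hn2⟩ := IsChar.eq_sum_nat (IsChar.res (IsIrr.isCharacter χ.2) (P : Subgroup G))
    -- some constituent has degree dividing p^(e-k)
    have h3 : ∃ ψ : IrrCharacter (P : Subgroup G), n ψ ≠ 0 ∧ charDegree (ψ : ↥(P : Subgroup G) → ℂ) ∣ p ^ (e - k) := by
      by_contra hcon
      push Not at hcon
      have h4 : p ^ (e - k + 1) ∣ charDegree (χ : G → ℂ) := by
        have h5 : charDegree (χ : G → ℂ) = ∑ ψ : IrrCharacter (P : Subgroup G), n ψ * charDegree (ψ : ↥(P : Subgroup G) → ℂ) := by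
          have h6 : ((charDegree (χ : G → ℂ) : ℕ) : ℂ) = ((∑ ψ : IrrCharacter (P : Subgroup G), n ψ * charDegree (ψ : ↥(P : Subgroup G) → ℂ) : ℕ) : ℂ) := by
            rw [cd_eq]
            have := congrFun hn2 1
            simp only [Finset.sum_apply, Pi.smul_apply, smul_eq_mul, OneMemClass.coe_one] at this
            rw [this]
            push_cast
            exact Finset.sum_congr rfl fun ψ _ => by rw [cd_eq]
          exact_mod_cast h6
        rw [h5]
        apply Finset.dvd_sum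
        intro ψ _
        by_cases h0 : n ψ = 0
        · rw [h0, zero_mul]; exact dvd_zero _
        · have h6 := hcon ψ h0
          have h7 := cd_dvd_card ψ
          rw [he] at h7
          obtain ⟨j, _, hj⟩ := (Nat.dvd_prime_pow hp).1 h7
          rw [hj] at h6 ⊢
          apply Dvd.dvd.mul_left
          apply pow_dvd_pow
          by_contra h8
          exact h6 (pow_dvd_pow p (by omega))
      rw [hdeg] at h4
      have h5 : p ^ (e - k + 1) ∣ p ^ (e - k) := by
        apply Nat.Coprime.dvd_of_dvd_mul_left _ h4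
        exact Nat.Coprime.pow_left _ ((Nat.Prime.coprime_iff_not_dvd hp).2 hidx)
      have := (Nat.pow_dvd_pow_iff_le_right hp.one_lt).1 h5
      omega
    obtain ⟨ψ, hψ0, hψd⟩ := h3
    refine ⟨ψ, IsIrr.isCharacter ψ.2, ?_⟩
    have h4 : classInner (indFun (P : Subgroup G) (ψ : ↥(P : Subgroup G) → ℂ)) (χ : G → ℂ) ≠ 0 := by
      rw [constituent_ind_iff (IsIrr.isCharacter χ.2), hn]
      exact_mod_cast hψ0
    have h5 : indFun (P : Subgroup G) (ψ : ↥(P : Subgroup G) → ℂ) 1 = (((P : Subgroup G).index * charDegree (ψ : ↥(P : Subgroup G) → ℂ) : ℕ) : ℂ) := by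
      rw [ind_one, Nat.cast_mul, cd_eq]
    have h6 := IsChar.degree_le' (IsChar.ind (IsIrr.isCharacter ψ.2)) χ.2 h4 h5 (cd_eq χ).symm
    symm
    apply IsChar.eq_of_degree (IsChar.ind (IsIrr.isCharacter ψ.2)) χ.2 h4
    rw [h5, ← cd_eq]
    congr 1
    apply le_antisymm _ h6
    rw [hdeg]
    exact Nat.mul_le_mul_left _ (Nat.le_of_dvd (pow_pos hp.pos _) hψd)
  · rintro ⟨P, θ, hθ, hχ⟩
    haveI : Fintype (P : Subgroup G) := Fintype.ofFinite _
    haveI : Fintype (IrrCharacter (P : Subgroup G)) := Fintype.ofFinite _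
    -- θ is irreducible: take a constituent
    obtain ⟨n, hn, hn2⟩ := IsChar.eq_sum_nat hθ
    have h1 : classInner θ (fun x : (P : Subgroup G) => (χ : G → ℂ) x) = 1 := by
      have := Cfsg.Agent.H3.CharInd.frobenius (P : Subgroup G) θ (χ : G → ℂ) (IsIrr.isClass χ.2)
      rw [← this, ← hχ]
      exact ci_irr_self χ.2
    have hθ0 : θ ≠ 0 := by
      rintro rfl
      rw [ci_zero_left] at h1
      exact zero_ne_one h1
    obtain ⟨ψ, hψ, hψθ⟩ := exists_constituent hθ hθ0
    -- chi is a constituent of ψ^G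
    have h2 : ∃ ψ : IrrCharacter (P : Subgroup G), n ψ ≠ 0 ∧ classInner (ψ : ↥(P : Subgroup G) → ℂ) (fun x : (P : Subgroup G) => (χ : G → ℂ) x) ≠ 0 := by
      by_contra hcon
      push Not at hcon
      rw [hn2, ci_sum_left] at h1
      rw [Finset.sum_eq_zero] at h1
      · exact zero_ne_one h1
      · intro ψ _
        rw [ci_smul_left]
        by_cases h0 : n ψ = 0
        · rw [h0]; simp
        · rw [hcon ψ h0, mul_zero]
    obtain ⟨ψ, hψ0, hψχ⟩ := h2
    have h3 : classInner (indFun (P : Subgroup G) (ψ : ↥(P : Subgroup G) → ℂ)) (χ : G → ℂ) ≠ 0 := by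
      rw [Cfsg.Agent.H3.CharInd.frobenius (P : Subgroup G) _ (χ : G → ℂ) (IsIrr.isClass χ.2)]
      exact hψχ
    have h5 : indFun (P : Subgroup G) (ψ : ↥(P : Subgroup G) → ℂ) 1 = (((P : Subgroup G).index * charDegree (ψ : ↥(P : Subgroup G) → ℂ) : ℕ) : ℂ) := by
      rw [ind_one, Nat.cast_mul, cd_eq]
    have h6 := IsChar.degree_le' (IsChar.ind (IsIrr.isCharacter ψ.2)) χ.2 h3 h5 (cd_eq χ).symm
    obtain ⟨t, ht⟩ := IsChar.one_eq_nat hθ
    have h7 : charDegree (ψ : ↥(P : Subgroup G) → ℂ) ≤ t := by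
      apply IsChar.degree_le' hθ ψ.2 _ ht (cd_eq ψ).symm
      rw [hn]; exact_mod_cast hψ0
    have h8 : charDegree (χ : G → ℂ) = (P : Subgroup G).index * t := by
      have : ((charDegree (χ : G → ℂ) : ℕ) : ℂ) = (((P : Subgroup G).index * t : ℕ) : ℂ) := by
        rw [cd_eq, hχ, ind_one, ht]; push_cast; rfl
      exact_mod_cast this
    have h9 : charDegree (ψ : ↥(P : Subgroup G) → ℂ) = t := by
      apply le_antisymm h7
      rw [h8] at h6
      exact Nat.le_of_mul_le_mul_left h6 (Nat.pos_of_ne_zero Subgroup.index_ne_zero_of_finite)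
    have h10 := cd_dvd_card ψ
    obtain ⟨e, he⟩ := IsPGroup.iff_card.1 P.2
    have hc := Subgroup.card_mul_index (P : Subgroup G)
    rw [he] at h10
    obtain ⟨j, hj, hj2⟩ := (Nat.dvd_prime_pow hp).1 h10
    refine ⟨e - j, ?_⟩
    rw [h8, ← h9, hj2, ← hc, he]
    calc p ^ e * (P : Subgroup G).index = p ^ (e - j + j) * (P : Subgroup G).index := by rw [Nat.sub_add_cancel hj]
      _ = _ := by rw [pow_add]; ring

end Cfsg.Agent.S4798
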