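import Cfsg.Statements.S4801
import Mathlib
import Cfsg.Agent.H26_Kernel

set_option autoImplicit false
open Cfsg

namespace Cfsg.Agent.S4801

open Cfsg.Agent.H26.Kernel Cfsg.Agent.H26.Basic Cfsg.Agent.H3.CharIrr Cfsg.Agent.H3.CharInd Cfsg.Agent.H3.CharComplete

/-- The codegree of an irreducible complex character χ of a finite group G is [G : ker χ] / χ(1), where ker χ is the set of elements at which χ takes the value χ(1). Let S be a finite simple group and G a finite group such that every codegree of an irreducible character of S is a codegree of an irreducible character of G. Then the order of S divides the order of G. -/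
theorem result {S : Type*} [Group S] [Finite S] (hS : IsSimpleGroup S) {G : Type*} [Group G] [Finite G] (hsub : ∀ χ : Cfsg.IrrCharacter S, ∃ ψ : Cfsg.IrrCharacter G, (Nat.card S / (Nat.card {g : S // (χ : S → ℂ) g = (χ : S → ℂ) 1} * Cfsg.charDegree (χ : S → ℂ))) = (Nat.card G / (Nat.card {g : G // (ψ : G → ℂ) g = (ψ : G → ℂ) 1} * Cfsg.charDegree (ψ : G → ℂ)))) : Nat.card S ∣ Nat.card G := by
  classical
  haveI : Fintype S := Fintype.ofFinite S
  haveI : Fintype (IrrCharacter S) := Fintype.ofFinite _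
  rw [← Nat.factorization_le_iff_dvd Nat.card_pos.ne' Nat.card_pos.ne']
  intro r
  by_cases hr : r.Prime ∧ r ∣ Nat.card S
  swap
  · rw [not_and_or] at hr
    rcases hr with hr | hr
    · rw [Nat.factorization_eq_zero_of_not_prime _ hr]; exact Nat.zero_le _
    · rw [Nat.factorization_eq_zero_of_not_dvd hr]; exact Nat.zero_le _
  obtain ⟨hr, hrS⟩ := hr
  -- a nontrivial character of degree prime to r
  have h1 : ∃ χ : IrrCharacter S, (χ : S → ℂ) ≠ (fun _ => 1) ∧ ¬ r ∣ charDegree (χ : S → ℂ) := by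
    by_contra hcon
    push Not at hcon
    have h2 := sum_sq (G := S)
    have h3 : (∑ χ : IrrCharacter S, (charDegree (χ : S → ℂ)) ^ 2) = Nat.card S := by
      have : ((∑ χ : IrrCharacter S, (charDegree (χ : S → ℂ)) ^ 2 : ℕ) : ℂ) = (Nat.card S : ℂ) := by
        rw [← h2]
        push_cast
        exact Finset.sum_congr rfl fun χ _ => by rw [cd_eq]
      exact_mod_cast this
    rw [← Finset.add_sum_erase _ _ (Finset.mem_univ (⟨fun _ => 1, isIrr_one⟩ : IrrCharacter S))] at h3
    have h4 : r ∣ ∑ χ ∈ Finset.univ.erase (⟨fun _ => 1, isIrr_one⟩ : IrrCharacter S), (charDegree (χ : S → ℂ)) ^ 2 := by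
      apply Finset.dvd_sum
      intro χ hχ
      apply Dvd.dvd.trans (hcon χ _) (dvd_pow_self _ two_ne_zero)
      intro h
      exact Finset.ne_of_mem_erase hχ (Subtype.ext h)
    have h5 : charDegree ((⟨fun _ => 1, isIrr_one⟩ : IrrCharacter S) : S → ℂ) = 1 := by
      unfold charDegree; simp
    rw [h5] at h3
    have h6 : r ∣ 1 ^ 2 := by
      rw [← Nat.dvd_add_left h4, h3]
      exact hrS
    rw [one_pow] at h6
    exact hr.one_lt.ne' (Nat.dvd_one.1 h6)
  obtain ⟨χ, hχ1, hχr⟩ := h1
  have hker : Nat.card {g : S // (χ : S → ℂ) g = (χ : S → ℂ) 1} = 1 := by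
    rw [card_kerS (χ : S → ℂ) (IsIrr.isCharacter χ.2)]
    rcases hS.eq_bot_or_eq_top_of_normal (kerS (χ : S → ℂ) (IsIrr.isCharacter χ.2)) inferInstance with h | h
    · rw [h, Subgroup.card_bot]
    · exfalso
      have h2 : ∀ g, (χ : S → ℂ) g = (χ : S → ℂ) 1 := fun g => by
        have : g ∈ kerS (χ : S → ℂ) (IsIrr.isCharacter χ.2) := by rw [h]; trivial
        exact this
      have h3 : classInner (χ : S → ℂ) (fun _ => 1) = (χ : S → ℂ) 1 := by
        unfold classInner
        simp_rw [h2]
        rw [Finset.sum_const, nsmul_eq_mul, Finset.card_univ, ← Nat.card_eq_fintype_card,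
          inv_mul_cancel_left₀ (by exact_mod_cast Nat.card_pos.ne')]
        simp
      rw [ci_irr_ne χ.2 isIrr_one hχ1] at h3
      exact one_ne χ h3.symm
  obtain ⟨ψ, hψ⟩ := hsub χ
  rw [hker, one_mul] at hψ
  have h2 : Nat.card S / charDegree (χ : S → ℂ) ∣ Nat.card G := by
    rw [hψ]
    exact Nat.div_dvd_of_dvd (ker_mul_degree_dvd ψ)
  have h3 := (Nat.factorization_le_iff_dvd (Nat.div_pos (Nat.le_of_dvd Nat.card_pos (cd_dvd_card χ)) (cd_pos χ)).ne'
    Nat.card_pos.ne').2 h2 r
  rw [Nat.factorization_div (cd_dvd_card χ), Finsupp.tsub_apply, Nat.factorization_eq_zero_of_not_dvd hχr,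
    tsub_zero] at h3
  exact h3

end Cfsg.Agent.S4801
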