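import Cfsg.Statements.S4802
import Mathlib
import Cfsg.Agent.H26_Kernel

set_option autoImplicit false
open Cfsg

namespace Cfsg.Agent.S4802

open Cfsg.Agent.H26.Kernel Cfsg.Agent.H26.Basic Cfsg.Agent.H3.CharIrr Cfsg.Agent.H3.CharInd Cfsg.Agent.H3.CharComplete Cfsg.Agent.H3.Clifford

/-- Let N < M be normal subgroups of the finite group G and g ∈ M ∖ N. Then the conjugacy class of g is exactly M ∖ N if and only if every irreducible complex character of G whose kernel contains N takes the same value at all elements of M ∖ N, and every irreducible complex character of G whose kernel does not contain N vanishes at g. -/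
theorem result {G : Type*} [Group G] [Finite G] (N M : Subgroup G) [N.Normal] [M.Normal] (hNM : N < M) (g : G) (hgM : g ∈ M) (hgN : g ∉ N) : {h : G | IsConj g h} = (M : Set G) \ (N : Set G) ↔ ((∀ χ : Cfsg.IrrCharacter G, (∀ x ∈ N, (χ : G → ℂ) x = (χ : G → ℂ) 1) → ∀ x ∈ M, x ∉ N → ∀ y ∈ M, y ∉ N → (χ : G → ℂ) x = (χ : G → ℂ) y) ∧ (∀ χ : Cfsg.IrrCharacter G, (∃ x ∈ N, (χ : G → ℂ) x ≠ (χ : G → ℂ) 1) → (χ : G → ℂ) g = 0)) := by
  classical
  haveI : Fintype G := Fintype.ofFinite G
  haveI : Fintype N := Fintype.ofFinite N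
  haveI : Fintype (IrrCharacter G) := Fintype.ofFinite _
  constructor
  · intro h
    have hconj : ∀ x ∈ M, x ∉ N → IsConj g x := by
      intro x hx hx'
      have : x ∈ {h : G | IsConj g h} := by rw [h]; exact ⟨hx, hx'⟩
      exact this
    refine ⟨fun χ _ x hx hx' y hy hy' => ?_, fun χ hχ => ?_⟩
    · rw [← IsClass.eq_of_isConj (IsIrr.isClass χ.2) (hconj x hx hx'),
        ← IsClass.eq_of_isConj (IsIrr.isClass χ.2) (hconj y hy hy')]
    · obtain ⟨x, hx, hx1⟩ := hχ
      rcases avg_irr (N := N) inferInstance χ.2 with h1 | h1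
      · exfalso
        apply hx1
        have := h1 x hx 1
        rwa [mul_one] at this
      · have h2 := congrFun h1 g
        rw [avg] at h2
        have h3 : ∀ n : N, (χ : G → ℂ) (n * g) = (χ : G → ℂ) g := by
          intro n
          symm
          apply IsClass.eq_of_isConj (IsIrr.isClass χ.2)
          apply hconj
          · exact mul_mem (hNM.le n.2) hgM
          · intro h4
            exact hgN ((Subgroup.mul_mem_cancel_left N n.2).1 h4)
        simp_rw [h3] at h2
        rw [Finset.sum_const, nsmul_eq_mul, Finset.card_univ, ← Nat.card_eq_fintype_card,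
          inv_mul_cancel_left₀ (by exact_mod_cast Nat.card_pos.ne')] at h2
        exact h2
  · rintro ⟨h1, h2⟩
    ext y
    simp only [Set.mem_setOf_eq, Set.mem_diff, SetLike.mem_coe]
    constructor
    · intro h
      obtain ⟨c, rfl⟩ := isConj_iff.1 h
      refine ⟨Subgroup.Normal.conj_mem inferInstance _ hgM c, fun h3 => hgN ?_⟩
      have := Subgroup.Normal.conj_mem (inferInstance : N.Normal) _ h3 c⁻¹
      have e : c⁻¹ * (c * g * c⁻¹) * c⁻¹⁻¹ = g := by group
      rwa [e] at this
    · rintro ⟨hyM, hyN⟩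
      by_contra hne
      have h3 := orth2 (G := G) g y
      rw [if_neg hne] at h3
      have h4 : ∀ χ : IrrCharacter G, ∃ r : ℝ, 0 ≤ r ∧ (χ : G → ℂ) g * (starRingEnd ℂ) ((χ : G → ℂ) y) = r ∧
          ((χ : G → ℂ) = (fun _ => 1) → r = 1) := by
        intro χ
        by_cases hk : ∀ x ∈ N, (χ : G → ℂ) x = (χ : G → ℂ) 1
        · refine ⟨Complex.normSq ((χ : G → ℂ) g), Complex.normSq_nonneg _, ?_, ?_⟩
          · rw [h1 χ hk y hyM hyN g hgM hgN, Complex.mul_conj]
          · intro h; rw [h]; simp
        · push Not at hk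
          refine ⟨0, le_rfl, ?_, ?_⟩
          · rw [h2 χ hk]; simp
          · intro h
            obtain ⟨x, _, hx⟩ := hk
            rw [h] at hx
            exact absurd rfl hx
      choose r hr0 hr1 hr2 using h4
      simp_rw [hr1] at h3
      rw [← Complex.ofReal_sum] at h3
      have h5 : ∑ χ : IrrCharacter G, r χ = 0 := by exact_mod_cast h3
      have h6 := (Finset.sum_eq_zero_iff_of_nonneg (fun χ _ => hr0 χ)).1 h5 ⟨fun _ => 1, isIrr_one⟩ (Finset.mem_univ _)
      rw [hr2 _ rfl] at h6
      exact one_ne_zero h6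

end Cfsg.Agent.S4802
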