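import Cfsg.Statements.S4808
import Mathlib
import Cfsg.Agent.H26_Kernel

set_option autoImplicit false
open Cfsg

namespace Cfsg.Agent.S4808

open Cfsg.Agent.H26.Kernel Cfsg.Agent.H26.Basic Cfsg.Agent.H3.CharIrr Cfsg.Agent.H3.CharInd Cfsg.Agent.H3.CharComplete

/-- The codegree of an irreducible complex character χ of a finite group G is [G : ker χ] / χ(1), where ker χ is the set of elements at which χ takes the value χ(1). A prime divides the order of G if and only if it divides the codegree of some irreducible complex character of G. -/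
theorem result {G : Type*} [Group G] [Finite G] (p : ℕ) (hp : p.Prime) : p ∣ Nat.card G ↔ ∃ χ : Cfsg.IrrCharacter G, p ∣ (Nat.card G / (Nat.card {g : G // (χ : G → ℂ) g = (χ : G → ℂ) 1} * Cfsg.charDegree (χ : G → ℂ))) := by
  classical
  haveI : Fintype G := Fintype.ofFinite G
  haveI : Fintype (IrrCharacter G) := Fintype.ofFinite _
  haveI : Fact p.Prime := ⟨hp⟩
  constructor
  · intro hG
    by_contra hcon
    push Not at hcon
    obtain ⟨g, hg⟩ := exists_prime_orderOf_dvd_card' (G := G) p hG
    have hg1 : g ≠ 1 := by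
      rintro rfl
      rw [orderOf_one] at hg
      exact hp.one_lt.ne hg
    have h1 := sum_one_mul (G := G) g
    rw [if_neg hg1] at h1
    have h2 : ∀ χ : IrrCharacter G, ((χ : G → ℂ) 1 * (χ : G → ℂ) g) = 0 ∨
        ((χ : G → ℂ) 1 * (χ : G → ℂ) g) = ((charDegree (χ : G → ℂ) ^ 2 : ℕ) : ℂ) := by
      intro χ
      by_cases hk : (χ : G → ℂ) g = (χ : G → ℂ) 1
      · right
        rw [hk, ← cd_eq]; push_cast; ring
      · left
        have : p ∣ orderOf ((g : G) : QK χ) := by
          have h3 : orderOf ((g : G) : QK χ) ∣ p := by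
            rw [← hg]
            exact orderOf_map_dvd (QuotientGroup.mk' (kerS (χ : G → ℂ) (IsIrr.isCharacter χ.2))) g
          rcases (Nat.dvd_prime hp).1 h3 with h4 | h4
          · exfalso
            rw [orderOf_eq_one_iff, QuotientGroup.eq_one_iff] at h4
            exact hk h4
          · rw [h4]
        rw [vanish_of_codegree χ (hcon χ) this, mul_zero]
    have h3 : ∀ χ : IrrCharacter G, ∃ n : ℕ, ((χ : G → ℂ) 1 * (χ : G → ℂ) g) = (n : ℂ) := by
      intro χ
      rcases h2 χ with h | h
      · exact ⟨0, by rw [h]; simp⟩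
      · exact ⟨_, h⟩
    choose n hn using h3
    simp_rw [hn] at h1
    rw [← Nat.cast_sum] at h1
    have h4 : ∑ χ : IrrCharacter G, n χ = 0 := by exact_mod_cast h1
    rw [Finset.sum_eq_zero_iff] at h4
    have h5 := h4 ⟨fun _ => 1, isIrr_one⟩ (Finset.mem_univ _)
    have h6 := hn ⟨fun _ => 1, isIrr_one⟩
    rw [h5] at h6
    simp at h6
  · rintro ⟨χ, hχ⟩
    exact hχ.trans (Nat.div_dvd_of_dvd (ker_mul_degree_dvd χ))

end Cfsg.Agent.S4808
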