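import Cfsg.Statements.S4812
import Mathlib
import Cfsg.Agent.H5_PDeg

set_option autoImplicit false
open Cfsg

namespace Cfsg.Agent.S4812

open Cfsg.Agent.H5 Cfsg.Agent.H5.SL2 Cfsg.Agent.H5.V4 Cfsg.Agent.H5.PDeg

/-- Let F be a finite field of characteristic 2 with q ≥ 4 elements and let S be isomorphic to PSL(2,F) or to SL(2,F). Then the vertices of the character degree graph of S are the primes dividing q(q²−1), and two distinct primes are adjacent exactly when both divide q + 1 or both divide q − 1; so the graph has the three connected components {2}, the primes dividing q + 1 and the primes dividing q − 1, each complete. -/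
theorem result (F : Type*) [Field F] [Fintype F] [CharP F 2] (q : ℕ) (hq : Fintype.card F = q) (h4 : 4 ≤ q) {S : Type*} [Group S] [Finite S] (hS : Nonempty (S ≃* Matrix.ProjectiveSpecialLinearGroup (Fin 2) F) ∨ Nonempty (S ≃* Matrix.SpecialLinearGroup (Fin 2) F)) : Cfsg.degreePrimes S = {r : ℕ | r.Prime ∧ r ∣ q * (q ^ 2 - 1)} ∧ ∀ r s : ℕ, (Cfsg.degreeGraph S).Adj r s ↔ (r ≠ s ∧ r.Prime ∧ s.Prime ∧ ((r ∣ q + 1 ∧ s ∣ q + 1) ∨ (r ∣ q - 1 ∧ s ∣ q - 1))) := by
  subst hq
  classical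
  have h20 : (2 : F) = 0 := CharTwo.two_eq_zero
  have hdeg : ∀ d, d ∈ charDegrees S ↔ d = 1 ∨ d = Fintype.card F - 1 ∨ d = Fintype.card F ∨ d = Fintype.card F + 1 := by
    intro d
    rcases hS with ⟨⟨e⟩⟩ | ⟨⟨e⟩⟩
    · let e' : Cfsg.Agent.H5.SL2.S F ≃* PS F := MulEquiv.ofBijective π ⟨fun x y h => Cfsg.Agent.H5.Dk.π_inj_even h20 h, π_surj⟩
      rw [degs_iso (e.trans e'.symm)]; exact degs_even h4
    · rw [degs_iso e]; exact degs_even h4
  have hsq : Fintype.card F ^ 2 - 1 = (Fintype.card F + 1) * (Fintype.card F - 1) := by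
    have := Nat.sq_sub_sq (Fintype.card F) 1
    rwa [one_pow] at this
  obtain ⟨f, -, hf⟩ := FiniteField.card F 2
  constructor
  · ext r
    simp only [degreePrimes, Set.mem_setOf_eq, hsq]
    constructor
    · rintro ⟨hr, d, hd, hrd⟩
      refine ⟨hr, ?_⟩
      rcases (hdeg d).mp hd with rfl | rfl | rfl | rfl
      · exact absurd (Nat.dvd_one.mp hrd) hr.one_lt.ne'
      · exact (hrd.mul_left _).mul_left _
      · exact hrd.mul_right _
      · exact (hrd.mul_right _).mul_left _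
    · rintro ⟨hr, h⟩
      refine ⟨hr, ?_⟩
      rcases (hr.dvd_mul).mp h with h | h
      · exact ⟨_, (hdeg _).mpr (Or.inr (Or.inr (Or.inl rfl))), h⟩
      · rcases (hr.dvd_mul).mp h with h | h
        · exact ⟨_, (hdeg _).mpr (Or.inr (Or.inr (Or.inr rfl))), h⟩
        · exact ⟨_, (hdeg _).mpr (Or.inr (Or.inl rfl)), h⟩
  · intro r s
    constructor
    · rintro ⟨hne, hr, hs, d, hd, hrs⟩
      refine ⟨hne, hr, hs, ?_⟩
      have h1 : r ∣ d := (dvd_mul_right r s).trans hrs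
      have h2 : s ∣ d := (dvd_mul_left s r).trans hrs
      rcases (hdeg d).mp hd with rfl | rfl | rfl | rfl
      · exact absurd (Nat.dvd_one.mp h1) hr.one_lt.ne'
      · exact Or.inr ⟨h1, h2⟩
      · exfalso
        rw [hf] at h1 h2
        exact hne (((Nat.prime_dvd_prime_iff_eq hr Nat.prime_two).mp (hr.dvd_of_dvd_pow h1)).trans
          ((Nat.prime_dvd_prime_iff_eq hs Nat.prime_two).mp (hs.dvd_of_dvd_pow h2)).symm)
      · exact Or.inl ⟨h1, h2⟩
    · rintro ⟨hne, hr, hs, h | h⟩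
      · exact ⟨hne, hr, hs, _, (hdeg _).mpr (Or.inr (Or.inr (Or.inr rfl))), Nat.Coprime.mul_dvd_of_dvd_of_dvd ((Nat.coprime_primes hr hs).mpr hne) h.1 h.2⟩
      · exact ⟨hne, hr, hs, _, (hdeg _).mpr (Or.inr (Or.inl rfl)), Nat.Coprime.mul_dvd_of_dvd_of_dvd ((Nat.coprime_primes hr hs).mpr hne) h.1 h.2⟩

end Cfsg.Agent.S4812
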