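import Cfsg.Statements.S4814
import Mathlib
import Cfsg.Agent.H26_Kernel
import Cfsg.Agent.H3_CharCalc

set_option autoImplicit false
open Cfsg

namespace Cfsg.Agent.S4814

open Cfsg.Agent.H26.Kernel Cfsg.Agent.H26.Basic Cfsg.Agent.H3.CharIrr Cfsg.Agent.H3.CharInd Cfsg.Agent.H3.CharComplete

/-- Let G be a finite group such that the sum, over the irreducible complex characters χ of G, of 1/χ(1)² is less than 2. Then every element of G is a product of two commutators. -/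
theorem result {G : Type*} [Group G] [Finite G]
    (h : ∑ᶠ χ : Cfsg.IrrCharacter G, 1 / ‖(χ : G → ℂ) 1‖ ^ 2 < (2 : ℝ)) (g : G) :
    ∃ a b c d : G, (a * b * a⁻¹ * b⁻¹) * (c * d * c⁻¹ * d⁻¹) = g := by
  classical
  haveI : Fintype G := Fintype.ofFinite G
  haveI : Fintype (IrrCharacter G) := Fintype.ofFinite _
  by_contra hcon
  push Not at hcon
  have hcard : (Nat.card G : ℂ) ≠ 0 := by exact_mod_cast Nat.card_pos.ne'
  -- sum over all pairs of commutators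
  have h1 : ∀ (χ : IrrCharacter G) (y : G), ∑ a : G, ∑ b : G, (χ : G → ℂ) (a * b * a⁻¹ * b⁻¹ * y) =
      ((Nat.card G : ℂ) / (χ : G → ℂ) 1) ^ 2 * (χ : G → ℂ) y := by
    intro χ y
    rw [Finset.sum_comm]
    have h2 : ∀ b : G, ∑ a : G, (χ : G → ℂ) (a * b * a⁻¹ * b⁻¹ * y) =
        (Nat.card G : ℂ) * (χ : G → ℂ) b * (χ : G → ℂ) (b⁻¹ * y) / (χ : G → ℂ) 1 := by
      intro b
      rw [← Cfsg.Agent.H3.CharCalc.IsIrr.sum_conj_mul χ.2]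
      exact Finset.sum_congr rfl fun a _ => by rw [mul_assoc (a * b * a⁻¹) b⁻¹ y]
    simp_rw [h2]
    have h3 := Cfsg.Agent.H10.BlockAlg.lin_irr_schur χ.2 (fun x => (χ : G → ℂ) x⁻¹) (by
      intro a b
      have : (b * a * b⁻¹)⁻¹ = b * a⁻¹ * b⁻¹ := by group
      simp only [this]
      rw [IsIrr.isClass χ.2 a⁻¹ b]) y
    have h4 : ∑ x, (χ : G → ℂ) x⁻¹ * (χ : G → ℂ) x = Nat.card G := by
      have h3 := ci_irr_self χ.2
      rw [classInner, inv_mul_eq_one₀ hcard] at h3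
      rw [h3]
      refine Finset.sum_congr rfl fun y _ => ?_
      rw [inv_eq]; ring
    rw [h4] at h3
    have h5 : ∑ b : G, (χ : G → ℂ) b * (χ : G → ℂ) (b⁻¹ * y) = (Nat.card G : ℂ) / (χ : G → ℂ) 1 * (χ : G → ℂ) y := by
      rw [← h3]
      apply Fintype.sum_equiv (Equiv.inv G)
      intro b
      simp
    calc ∑ b : G, (Nat.card G : ℂ) * (χ : G → ℂ) b * (χ : G → ℂ) (b⁻¹ * y) / (χ : G → ℂ) 1
        = ((Nat.card G : ℂ) / (χ : G → ℂ) 1) * ∑ b : G, (χ : G → ℂ) b * (χ : G → ℂ) (b⁻¹ * y) := by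
          rw [Finset.mul_sum]
          exact Finset.sum_congr rfl fun b _ => by ring
      _ = _ := by rw [h5]; ring
  -- count
  have h2 : ∑ c : G, ∑ d : G, ∑ a : G, ∑ b : G, (if (a * b * a⁻¹ * b⁻¹) * ((c * d * c⁻¹ * d⁻¹) * g⁻¹) = 1 then (Nat.card G : ℂ) else 0) = 0 := by
    refine Finset.sum_eq_zero fun c _ => Finset.sum_eq_zero fun d _ => Finset.sum_eq_zero fun a _ => Finset.sum_eq_zero fun b _ => ?_
    rw [if_neg]
    intro h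
    apply hcon a b c d
    rw [← mul_assoc, mul_inv_eq_one] at h
    exact h
  simp_rw [← sum_one_mul] at h2
  have h3 : ∀ c d : G, ∑ a : G, ∑ b : G, ∑ χ : IrrCharacter G, (χ : G → ℂ) 1 * (χ : G → ℂ) ((a * b * a⁻¹ * b⁻¹) * ((c * d * c⁻¹ * d⁻¹) * g⁻¹)) =
      ∑ χ : IrrCharacter G, (χ : G → ℂ) 1 * (((Nat.card G : ℂ) / (χ : G → ℂ) 1) ^ 2 * (χ : G → ℂ) ((c * d * c⁻¹ * d⁻¹) * g⁻¹)) := by
    intro c d
    simp_rw [← h1, Finset.mul_sum]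
    rw [Finset.sum_comm]
    calc _ = ∑ b : G, ∑ χ : IrrCharacter G, ∑ a : G, (χ : G → ℂ) 1 * (χ : G → ℂ) ((a * b * a⁻¹ * b⁻¹) * ((c * d * c⁻¹ * d⁻¹) * g⁻¹)) :=
          Finset.sum_congr rfl fun b _ => Finset.sum_comm
      _ = ∑ χ : IrrCharacter G, ∑ b : G, ∑ a : G, (χ : G → ℂ) 1 * (χ : G → ℂ) ((a * b * a⁻¹ * b⁻¹) * ((c * d * c⁻¹ * d⁻¹) * g⁻¹)) := Finset.sum_comm
      _ = _ := Finset.sum_congr rfl fun χ _ => Finset.sum_comm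
  simp_rw [h3] at h2
  have h4 : ∑ c : G, ∑ d : G, ∑ χ : IrrCharacter G, (χ : G → ℂ) 1 * (((Nat.card G : ℂ) / (χ : G → ℂ) 1) ^ 2 * (χ : G → ℂ) ((c * d * c⁻¹ * d⁻¹) * g⁻¹)) =
      ∑ χ : IrrCharacter G, (χ : G → ℂ) 1 * ((Nat.card G : ℂ) / (χ : G → ℂ) 1) ^ 2 * (((Nat.card G : ℂ) / (χ : G → ℂ) 1) ^ 2 * (χ : G → ℂ) g⁻¹) := by
    simp_rw [← h1 _ g⁻¹, Finset.mul_sum]
    rw [Finset.sum_comm]
    calc _ = ∑ b : G, ∑ χ : IrrCharacter G, ∑ a : G, (χ : G → ℂ) 1 * (((Nat.card G : ℂ) / (χ : G → ℂ) 1) ^ 2 * (χ : G → ℂ) ((a * b * a⁻¹ * b⁻¹) * g⁻¹)) :=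
          Finset.sum_congr rfl fun b _ => Finset.sum_comm
      _ = ∑ χ : IrrCharacter G, ∑ b : G, ∑ a : G, (χ : G → ℂ) 1 * (((Nat.card G : ℂ) / (χ : G → ℂ) 1) ^ 2 * (χ : G → ℂ) ((a * b * a⁻¹ * b⁻¹) * g⁻¹)) := Finset.sum_comm
      _ = _ := Finset.sum_congr rfl fun χ _ => by
          rw [Finset.sum_comm]
          exact Finset.sum_congr rfl fun _ _ => Finset.sum_congr rfl fun _ _ => by ring
  rw [h4] at h2
  -- divide by |G|^4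
  have h5 : ∑ χ : IrrCharacter G, (χ : G → ℂ) g⁻¹ / (χ : G → ℂ) 1 ^ 3 = 0 := by
    have h6 : (Nat.card G : ℂ) ^ 4 * ∑ χ : IrrCharacter G, (χ : G → ℂ) g⁻¹ / (χ : G → ℂ) 1 ^ 3 = 0 := by
      rw [← h2, Finset.mul_sum]
      refine Finset.sum_congr rfl fun χ _ => ?_
      have := one_ne χ
      field_simp
    exact (mul_eq_zero.1 h6).resolve_left (pow_ne_zero _ hcard)
  rw [finsum_eq_sum_of_fintype] at h
  rw [← Finset.add_sum_erase _ _ (Finset.mem_univ (⟨fun _ => 1, isIrr_one⟩ : IrrCharacter G))] at h5 h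
  have h6 : ((⟨fun _ => 1, isIrr_one⟩ : IrrCharacter G) : G → ℂ) g⁻¹ / ((⟨fun _ => 1, isIrr_one⟩ : IrrCharacter G) : G → ℂ) 1 ^ 3 = 1 := by
    show (1 : ℂ) / 1 ^ 3 = 1
    norm_num
  have h7 : 1 / ‖((⟨fun _ => 1, isIrr_one⟩ : IrrCharacter G) : G → ℂ) 1‖ ^ 2 = 1 := by
    show 1 / ‖(1 : ℂ)‖ ^ 2 = 1
    norm_num
  rw [h6] at h5
  rw [h7] at h
  set S := ∑ χ ∈ Finset.univ.erase (⟨fun _ => 1, isIrr_one⟩ : IrrCharacter G), (χ : G → ℂ) g⁻¹ / (χ : G → ℂ) 1 ^ 3 with hS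
  have h8 : ‖S‖ ≤ ∑ χ ∈ Finset.univ.erase (⟨fun _ => 1, isIrr_one⟩ : IrrCharacter G), 1 / ‖(χ : G → ℂ) 1‖ ^ 2 := by
    refine (norm_sum_le _ _).trans (Finset.sum_le_sum fun χ _ => ?_)
    have h9 : ‖(χ : G → ℂ) g⁻¹‖ ≤ ‖(χ : G → ℂ) 1‖ := by
      have h10 := IsChar.norm_le (IsIrr.isCharacter χ.2) g⁻¹
      exact h10.trans (Complex.re_le_norm _)
    have h10 : 0 < ‖(χ : G → ℂ) 1‖ := norm_pos_iff.2 (one_ne χ)
    rw [norm_div, norm_pow, div_le_div_iff₀ (by positivity) (by positivity)]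
    calc ‖(χ : G → ℂ) g⁻¹‖ * ‖(χ : G → ℂ) 1‖ ^ 2 ≤ ‖(χ : G → ℂ) 1‖ * ‖(χ : G → ℂ) 1‖ ^ 2 := by gcongr
      _ = _ := by ring
  have h9 : S = -1 := by linear_combination h5
  rw [h9, norm_neg, norm_one] at h8
  linarith

end Cfsg.Agent.S4814
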