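import Cfsg.Statements.S4825
import Mathlib
import Cfsg.Agent.H26_BP
import Cfsg.Agent.H3_CharMult
import Cfsg.Agent.H3_Clifford
import Cfsg.Agent.H10_BlockSMT2

set_option autoImplicit false
open Cfsg

namespace Cfsg.Agent.S4825

open Cfsg Cfsg.Agent.H3.CharIrr Cfsg.Agent.H3.CharComplete Cfsg.Agent.H10.BlockAlg Cfsg.Agent.H10.BlockLoc Cfsg.Agent.H10.BlockIdem Cfsg.Agent.H10.BlockOrth Cfsg.Agent.H26.Basic Cfsg.Agent.H26.BP Cfsg.Agent.H3.Clifford

/-- Let p be a prime, G a finite group with Sylow p-subgroup P, M a maximal ideal of the algebraic integers containing p, and B a p-block of G with defect group P. Let N be a normal subgroup of G not containing P and θ an irreducible character of N. Then the number of irreducible characters in B of degree prime to p lying over θ (having θ as a constituent on restriction to N) is either 0 or at least 2, and when p ≤ 3 it is divisible by p. -/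
theorem result {G : Type*} [Group G] [Fintype G] (p : ℕ) [Fact p.Prime] (P : Sylow p G) (M : Ideal Cfsg.AlgInt) (hM : Cfsg.IsPModular p M) (B : Set (Cfsg.IrrCharacter G)) (hB : Cfsg.IsPBlock M B) (hBP : Cfsg.IsDefectGroup p M B P) (N : Subgroup G) [N.Normal] [Fintype N] (hPN : ¬ (P : Subgroup G) ≤ N) (θ : Cfsg.IrrCharacter N) :
    (Nat.card {χ : Cfsg.IrrCharacter G // χ ∈ B ∧ ¬ p ∣ Cfsg.charDegree (χ : G → ℂ) ∧ Cfsg.classInner (fun n : N => (χ : G → ℂ) n) (θ : N → ℂ) ≠ 0} = 0 ∨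
      2 ≤ Nat.card {χ : Cfsg.IrrCharacter G // χ ∈ B ∧ ¬ p ∣ Cfsg.charDegree (χ : G → ℂ) ∧ Cfsg.classInner (fun n : N => (χ : G → ℂ) n) (θ : N → ℂ) ≠ 0}) ∧
    (p ≤ 3 → p ∣ Nat.card {χ : Cfsg.IrrCharacter G // χ ∈ B ∧ ¬ p ∣ Cfsg.charDegree (χ : G → ℂ) ∧ Cfsg.classInner (fun n : N => (χ : G → ℂ) n) (θ : N → ℂ) ≠ 0}) := by
  classical
  haveI : Fintype (IrrCharacter G) := Fintype.ofFinite _
  haveI := hM.2.1
  have hp : p.Prime := Fact.out
  have hN : N.Normal := inferInstance
  obtain ⟨x, hxP, hxN⟩ := Set.not_subset.1 hPN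
  have hxo : ∃ k : ℕ, orderOf x = p ^ k := by
    obtain ⟨k, hk⟩ := (IsPGroup.iff_orderOf.1 P.isPGroup') ⟨x, hxP⟩
    exact ⟨k, by rw [← hk]; exact (Subgroup.orderOf_mk x hxP).symm⟩
  set f : G → ℂ := indFun N (θ : N → ℂ) with hf
  have hfc : IsClassFunction G f := Cfsg.Agent.H3.CharInd.ind_isClass N _
  have h0 : ∀ u z : G, IsPPart p u z → IsConj x z → f u = 0 := by
    intro u z hu hxz
    rw [hf]
    refine ind_of_not_mem hN _ ?_
    intro huN
    apply hxN
    have h1 : z ∈ N := by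
      have := Cfsg.Agent.H10.PPart.ppart_mem_zpowers' hu
      exact (Subgroup.zpowers_le.2 huN) this
    obtain ⟨c, hc⟩ := isConj_iff.1 hxz.symm
    rw [← hc]
    exact hN.conj_mem _ h1 c
  have hvan := Cfsg.Agent.H10.BlockSMT2.section_vanish hM hfc hxo h0 hB (isPPart_self hp hxo) (IsConj.refl x)
  rw [blockPart_eq_sum] at hvan
  have hax : ∀ χ : IrrCharacter G, ∃ a : ℕ, classInner (fun n : N => (χ : G → ℂ) n) (θ : N → ℂ) = a := fun χ =>
    ci_char_nat (Cfsg.Agent.H3.CharInd.IsChar.res (IsIrr.isCharacter χ.2) N) (IsIrr.isCharacter θ.2)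
  choose a ha using hax
  have hfa : ∀ χ : IrrCharacter G, classInner f (χ : G → ℂ) = a χ := by
    intro χ
    rw [hf, Cfsg.Agent.H3.CharInd.frobenius N _ _ (IsIrr.isClass χ.2), ← ci_conj_symm, ha, map_natCast]
  -- the congruence
  have hcong : p ∣ ∑ χ : IrrCharacter G, (if χ ∈ B then a χ * charDegree (χ : G → ℂ) else 0) := by
    apply nat_dvd_of_mem hM
    have h1 : ((∑ χ : IrrCharacter G, (if χ ∈ B then a χ * charDegree (χ : G → ℂ) else 0) : ℕ) : ℂ) =
        - ∑ χ : IrrCharacter G, (if χ ∈ B then (a χ : ℂ) * ((χ : G → ℂ) x - (χ : G → ℂ) 1) else 0) := by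
      apply eq_neg_of_add_eq_zero_left
      refine Eq.trans ?_ hvan
      push_cast
      rw [← Finset.sum_add_distrib]
      refine Finset.sum_congr rfl fun χ _ => ?_
      split_ifs
      · rw [hfa, cd_eq]; ring
      · ring
    rw [h1]
    apply ideal_neg
    apply ideal_sum
    intro χ _
    split_ifs
    · exact ideal_mul_left (ring_natCast _) (val_sub_mem hM (IsIrr.isCharacter χ.2) hxo)
    · exact ideal_zero
  set t := (inertia hN (θ : N → ℂ)).index with ht
  have hcl : ∀ χ : IrrCharacter G, a χ ≠ 0 → charDegree (χ : G → ℂ) = a χ * t * charDegree (θ : N → ℂ) := by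
    intro χ hχ
    have h1 := clifford_degree hN χ.2 θ.2 (by rw [ha]; exact_mod_cast hχ)
    rw [ha, ← cd_eq, ← cd_eq] at h1
    exact_mod_cast h1
  set S : Finset (IrrCharacter G) := Finset.univ.filter (fun χ => χ ∈ B ∧ ¬ p ∣ charDegree (χ : G → ℂ) ∧ classInner (fun n : N => (χ : G → ℂ) n) (θ : N → ℂ) ≠ 0) with hS
  have hcard : Nat.card {χ : IrrCharacter G // χ ∈ B ∧ ¬ p ∣ charDegree (χ : G → ℂ) ∧ classInner (fun n : N => (χ : G → ℂ) n) (θ : N → ℂ) ≠ 0} = S.card := by
    rw [Nat.card_eq_fintype_card, Fintype.card_subtype]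
  rw [hcard]
  have hsum : p ∣ ∑ χ ∈ S, a χ ^ 2 * (t * charDegree (θ : N → ℂ)) := by
    have h2 : ∑ χ : IrrCharacter G, (if χ ∈ B then a χ * charDegree (χ : G → ℂ) else 0) =
        ∑ χ ∈ S, a χ ^ 2 * (t * charDegree (θ : N → ℂ)) + ∑ χ ∈ Finset.univ \ S, (if χ ∈ B then a χ * charDegree (χ : G → ℂ) else 0) := by
      rw [← Finset.sum_sdiff (Finset.subset_univ S), add_comm]
      congr 1
      refine Finset.sum_congr rfl fun χ hχ => ?_
      rw [hS, Finset.mem_filter] at hχ
      have h3 : a χ ≠ 0 := by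
        intro h; apply hχ.2.2.2; rw [ha, h, Nat.cast_zero]
      rw [if_pos hχ.2.1, hcl χ h3]; ring
    rw [h2] at hcong
    refine (Nat.dvd_add_left ?_).1 hcong
    apply Finset.dvd_sum
    intro χ hχ
    split_ifs with hχB
    · by_cases h3 : a χ = 0
      · rw [h3, zero_mul]; exact dvd_zero _
      · apply Dvd.dvd.mul_left
        by_contra h4
        rw [Finset.mem_sdiff] at hχ
        apply hχ.2
        rw [hS, Finset.mem_filter]
        exact ⟨Finset.mem_univ _, hχB, h4, by rw [ha]; exact_mod_cast h3⟩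
    · exact dvd_zero _
  have hmain : S.Nonempty → p ∣ ∑ χ ∈ S, a χ ^ 2 := by
    rintro ⟨χ, hχ⟩
    rw [← Finset.sum_mul] at hsum
    refine (hp.dvd_mul.1 hsum).resolve_right ?_
    rw [hS, Finset.mem_filter] at hχ
    have h3 : a χ ≠ 0 := by
      intro h; apply hχ.2.2.2; rw [ha, h, Nat.cast_zero]
    intro h
    apply hχ.2.2.1
    rw [hcl χ h3, mul_assoc]
    exact Dvd.dvd.mul_left h _
  have hpa : ∀ χ ∈ S, ¬ p ∣ a χ := by
    intro χ hχ h
    rw [hS, Finset.mem_filter] at hχ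
    have h3 : a χ ≠ 0 := by
      intro h; apply hχ.2.2.2; rw [ha, h, Nat.cast_zero]
    apply hχ.2.2.1
    rw [hcl χ h3, mul_assoc]
    exact Dvd.dvd.mul_right h _
  constructor
  · by_contra hcon
    push Not at hcon
    have h1 : S.card = 1 := by omega
    obtain ⟨χ, hχ⟩ := Finset.card_eq_one.1 h1
    have h2 := hmain ⟨χ, by rw [hχ]; exact Finset.mem_singleton_self _⟩
    rw [hχ, Finset.sum_singleton] at h2
    exact hpa χ (by rw [hχ]; exact Finset.mem_singleton_self _) (hp.dvd_of_dvd_pow h2)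
  · intro hp3
    rcases S.eq_empty_or_nonempty with h | h
    · rw [h]; exact dvd_zero _
    · have h2 := hmain h
      have h3 : ∀ χ ∈ S, (a χ ^ 2) ≡ 1 [MOD p] := by
        intro χ hχ
        have h4 := hpa χ hχ
        have h5 : p = 2 ∨ p = 3 := by have := hp.two_le; omega
        rcases h5 with rfl | rfl
        · have : a χ % 2 = 1 := by omega
          rw [Nat.ModEq, Nat.pow_mod, this]
        · have : a χ % 3 = 1 ∨ a χ % 3 = 2 := by omega
          rcases this with h | h <;> rw [Nat.ModEq, Nat.pow_mod, h]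
      have h6 : (∑ χ ∈ S, a χ ^ 2) ≡ S.card [MOD p] := by
        have : S.card = ∑ χ ∈ S, 1 := by simp
        rw [this]
        exact Nat.ModEq.sum h3
      exact (h6.dvd_iff dvd_rfl).1 h2

end Cfsg.Agent.S4825
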