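import Cfsg.Statements.S4828
import Mathlib
import Cfsg.Agent.H26_BPMax
import Cfsg.Agent.H25_BPInd

set_option autoImplicit false
open Cfsg

namespace Cfsg.Agent.S4828

open Cfsg.Agent.H25.Red Cfsg.Agent.H25.KG Cfsg.Agent.H25.BPTr Cfsg.Agent.H25.BPDef Cfsg.Agent.H25.BPMain Cfsg.Agent.H25.FMT Cfsg.Agent.H26.BPMax Cfsg.Agent.H26.ZDef Cfsg.Agent.H26.Basic Cfsg.Agent.H10.BlockQuot

/-- Let p be a prime, M a maximal ideal of the algebraic integers containing p, and (Q, e) a Brauer pair of the finite group G (Q a p-subgroup, e a block of C_G(Q)). Then (Q, e) is a maximal Brauer pair of some block of G if and only if e contains an irreducible character θ such that θ takes the value θ(1) at every element of Z(Q) = Q ∩ C_G(Q), the p-part of θ(1) times the p-part of the order of Z(Q) equals the p-part of the order of C_G(Q) (θ has defect zero as a character of C_G(Q)/Z(Q)), and every element of N_G(Q) of p-power order that stabilizes e lies in Q·C_G(Q) (the stabilizer of e in N_G(Q) has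 index prime to p over Q·C_G(Q)). -/
theorem result {G : Type*} [Group G] [Finite G] (p : ℕ) [Fact p.Prime] (M : Ideal Cfsg.AlgInt) (hM : Cfsg.IsPModular p M) (Q : Subgroup G) (e : Set (Cfsg.IrrCharacter (Subgroup.centralizer (Q : Set G)))) (he : Cfsg.IsBrauerPair p M Q e) :
    (∃ B : Set (Cfsg.IrrCharacter G), Cfsg.IsMaximalBrauerPair p M B Q e) ↔
      ∃ θ ∈ e, (∀ z : Subgroup.centralizer (Q : Set G), (z : G) ∈ Q → (θ : Subgroup.centralizer (Q : Set G) → ℂ) z = (θ : Subgroup.centralizer (Q : Set G) → ℂ) 1) ∧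
        (Cfsg.charDegree (θ : Subgroup.centralizer (Q : Set G) → ℂ)).factorization p + (Nat.card ↥(Q ⊓ Subgroup.centralizer (Q : Set G))).factorization p = (Nat.card (Subgroup.centralizer (Q : Set G))).factorization p ∧
        (∀ g : G, g ∈ Subgroup.normalizer (Q : Set G) → Cfsg.StabilizesBlock (Subgroup.centralizer (Q : Set G)) e g → (∃ k : ℕ, orderOf g = p ^ k) → g ∈ Q ⊔ Subgroup.centralizer (Q : Set G)) := by
  classical
  haveI : Fintype G := Fintype.ofFinite G
  have := hM.2.1
  have := charP_KM M hM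
  obtain ⟨hQ, hb⟩ := he
  haveI : Fintype (Subgroup.centralizer (Q : Set G)) := Fintype.ofFinite _
  have hE := isBlk_ep hb
  have hNst : ∀ g : G, g ∈ Subgroup.normalizer (Q : Set G) →
      (StabilizesBlock (Subgroup.centralizer (Q : Set G)) e g ↔ cnj g (ep M (Ce Q) e) = ep M (Ce Q) e) := by
    intro g hg
    rw [stabilizes_iff hb]
    exact ⟨fun h => h.2, fun h => ⟨norm_le_norm_Ce Q hg, h⟩⟩
  set Z : Subgroup (Subgroup.centralizer (Q : Set G)) := (Q ⊓ Ce Q).subgroupOf (Ce Q) with hZ
  have hZmem : ∀ z : Subgroup.centralizer (Q : Set G), z ∈ Z ↔ (z : G) ∈ Q := by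
    intro z
    rw [hZ, Subgroup.mem_subgroupOf]
    exact ⟨fun h => h.1, fun h => ⟨h, z.2⟩⟩
  have hZc : Z ≤ Subgroup.center (Subgroup.centralizer (Q : Set G)) := by
    intro z hz
    rw [Subgroup.mem_center_iff]
    intro c
    have h1 := Subgroup.mem_centralizer_iff.1 c.2 z ((hZmem z).1 hz)
    exact Subtype.ext h1.symm
  have hZcard : Nat.card Z = Nat.card ↥(Q ⊓ Subgroup.centralizer (Q : Set G)) :=
    Nat.card_congr (Subgroup.subgroupOfEquivOfLe inf_le_right).toEquiv
  have hZp : IsPGroup p Z := by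
    obtain ⟨n, hn⟩ := IsPGroup.iff_card.1 (hQ.to_le (inf_le_left : Q ⊓ Subgroup.centralizer (Q : Set G) ≤ Q))
    exact IsPGroup.of_card (by rw [hZcard, hn])
  constructor
  · rintro ⟨B, hB⟩
    obtain ⟨hBb, _, hBP, hT⟩ := max_iff.1 hB
    obtain ⟨hD, hst⟩ := top_forward hM hBP hT
    have hD' := (defectH_iff' hM hb (inf_le_right : Q ⊓ Ce Q ≤ Ce Q)).2 hD
    haveI : Z.Normal := ⟨fun n hn y => by
        have h1 := Subgroup.mem_center_iff.1 (hZc hn) y
        have : y * n * y⁻¹ = n := by rw [h1]; group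
        rw [this]; exact hn⟩
    obtain ⟨θ, hθ, hker⟩ := Cfsg.Agent.H10.BlockNormal.exists_mem_ker hM hb Z hZp
    refine ⟨θ, hθ, fun z hz => hker z ((hZmem z).2 hz), ?_, ?_⟩
    · have h1 := Cfsg.Agent.H10.BlockMain.card_defectGroup hM hb hD'
      have h2 : (Nat.card Z).factorization p = blockDefect p e := by
        rw [hZ, h1, (Fact.out : p.Prime).factorization_pow, Finsupp.single_eq_same]
      have h3 := Cfsg.Agent.H26.Defect2.sInf_le (p := p) e hθ
      haveI : Fintype (Subgroup.centralizer (Q : Set G) ⧸ Z) := Fintype.ofFinite _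
      obtain ⟨θ', hθ'⟩ := exists_infl Z hker
      have h4 : (charDegree (θ : Subgroup.centralizer (Q : Set G) → ℂ)).factorization p ≤ (Nat.card (Subgroup.centralizer (Q : Set G) ⧸ Z)).factorization p := by
        rw [← hθ', charDegree_infl]
        exact Cfsg.Agent.H26.Defect2.degree_factorization_le θ'
      have hcard : (Nat.card (Subgroup.centralizer (Q : Set G))).factorization p =
          (Nat.card (Subgroup.centralizer (Q : Set G) ⧸ Z)).factorization p + (Nat.card Z).factorization p := by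
        rw [Subgroup.card_eq_card_quotient_mul_card_subgroup Z, Nat.factorization_mul Nat.card_pos.ne' Nat.card_pos.ne']
        rfl
      rw [← hZcard]
      rw [blockDefect] at h2
      omega
    · intro g hg hs hk
      exact hst g hg ((hNst g hg).1 hs) hk
  · rintro ⟨θ, hθ, hker, hdeg, hst⟩
    have hker' : ∀ z ∈ Z, (θ : Subgroup.centralizer (Q : Set G) → ℂ) z = (θ : Subgroup.centralizer (Q : Set G) → ℂ) 1 :=
      fun z hz => hker z ((hZmem z).1 hz)
    have hD' : IsDefectGroup p M e Z := defectGroup hM hb hZc hZp hθ hker' (by rw [hZcard]; exact hdeg)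
    have hD := (defectH_iff' hM hb (inf_le_right : Q ⊓ Ce Q ≤ Ce Q)).1 hD'
    have hT := top_backward hM hQ hE hD (fun g hg hgE hk => hst g hg ((hNst g hg).2 hgE) hk)
    obtain ⟨B, hB⟩ := Cfsg.Agent.H25.BPInd.exists_induced hM hQ hb
    have hBP := (Cfsg.Agent.H25.BPInd.bpo_iff_induced hM).2 ⟨hQ, hB⟩
    obtain ⟨h1, _, h3⟩ := bpo_iff.1 hBP
    exact ⟨B, max_iff.2 ⟨h1, hb, h3, hT⟩⟩

end Cfsg.Agent.S4828
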