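import Cfsg.Statements.S4836
import Mathlib
import Cfsg.Agent.H26_Gagola

set_option autoImplicit false
open Cfsg

namespace Cfsg.Agent.S4836

open Cfsg.Agent.H26.Gagola Cfsg.Agent.H26.Basic

theorem faithful {G : Type*} [Group G] [Finite G] (hG : 2 < Nat.card G) (χ : Cfsg.IrrCharacter G)
    (hχ : Nat.card {C : ConjClasses G // ∃ g ∈ C.carrier, (χ : G → ℂ) g ≠ 0} = 2) :
    ∀ g : G, (χ : G → ℂ) g = (χ : G → ℂ) 1 → g = 1 := by
  obtain ⟨d⟩ := exists_data hG χ hχ
  haveI : Fintype G := Fintype.ofFinite G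
  intro g hg
  by_contra hg1
  have h1 : g ∈ d.N := by rw [d.mem_iff, hg]; exact one_ne χ
  rw [d.val g h1 hg1, ← cd_eq, d.deg] at hg
  have h2 : ((d.k * d.e + d.e : ℕ) : ℂ) = 0 := by
    push_cast at hg ⊢
    linear_combination -hg
  have h3 : d.k * d.e + d.e = 0 := by exact_mod_cast h2
  have := d.epos
  omega


/-- Let G be a finite group of order greater than 2 with an irreducible character χ that is nonzero on exactly two conjugacy classes. Then χ is faithful (it takes the value χ(1) only at the identity), it is the only faithful irreducible character of G, and it is the only irreducible character of G that is nonzero on exactly two conjugacy classes. -/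
theorem result {G : Type*} [Group G] [Finite G] (hG : 2 < Nat.card G) (χ : Cfsg.IrrCharacter G) (hχ : Nat.card {C : ConjClasses G // ∃ g ∈ C.carrier, (χ : G → ℂ) g ≠ 0} = 2) :
    (∀ g : G, (χ : G → ℂ) g = (χ : G → ℂ) 1 → g = 1) ∧
      (∀ ψ : Cfsg.IrrCharacter G, (∀ g : G, (ψ : G → ℂ) g = (ψ : G → ℂ) 1 → g = 1) → ψ = χ) ∧
      (∀ ψ : Cfsg.IrrCharacter G, Nat.card {C : ConjClasses G // ∃ g ∈ C.carrier, (ψ : G → ℂ) g ≠ 0} = 2 → ψ = χ) := by
  refine ⟨faithful hG χ hχ, ?_, ?_⟩
  · intro ψ hψ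
    obtain ⟨d⟩ := exists_data hG χ hχ
    by_contra hne
    exact d.hx1 (hψ _ ((d.mem_iff_ker d.x).1 d.hx ψ hne))
  · intro ψ hψ
    obtain ⟨d⟩ := exists_data hG χ hχ
    by_contra hne
    exact d.hx1 (faithful hG ψ hψ _ ((d.mem_iff_ker d.x).1 d.hx ψ hne))

end Cfsg.Agent.S4836
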