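import Cfsg.Statements.S4838
import Mathlib
import Cfsg.Agent.H26_Gagola

set_option autoImplicit false
open Cfsg

namespace Cfsg.Agent.S4838

open Cfsg.Agent.H26.Gagola Cfsg.Agent.H26.Basic

/-- Let G be a finite group of order greater than 2 with an irreducible character χ nonzero on exactly two conjugacy classes, N the normal p-subgroup of elements where χ is nonzero, and P a Sylow p-subgroup of G. Then (a) for every x outside N the centralizer of x in G has the same order as the centralizer of xN in G/N; (b) the centre of P lies in N, and equals N exactly when P is normal in G; (c) N, viewed inside P, is a term of the upper central series of P. -/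
theorem result {G : Type*} [Group G] [Finite G] (hG : 2 < Nat.card G) (χ : Cfsg.IrrCharacter G) (hχ : Nat.card {C : ConjClasses G // ∃ g ∈ C.carrier, (χ : G → ℂ) g ≠ 0} = 2) (p : ℕ) [Fact p.Prime] (N : Subgroup G) [N.Normal] (hN : ∀ g : G, g ∈ N ↔ (χ : G → ℂ) g ≠ 0) (hNp : IsPGroup p N) (hN1 : N ≠ ⊥) (P : Sylow p G) :
    (∀ x : G, x ∉ N → Nat.card (Subgroup.centralizer ({x} : Set G)) = Nat.card (Subgroup.centralizer ({(x : G ⧸ N)} : Set (G ⧸ N)))) ∧
      ((Subgroup.center ↥(P : Subgroup G)).map (P : Subgroup G).subtype ≤ N ∧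
        ((Subgroup.center ↥(P : Subgroup G)).map (P : Subgroup G).subtype = N ↔ (P : Subgroup G).Normal)) ∧
      (∃ i : ℕ, Subgroup.upperCentralSeries ↥(P : Subgroup G) i = N.subgroupOf (P : Subgroup G)) := by
  classical
  haveI : Fintype G := Fintype.ofFinite G
  obtain ⟨d⟩ := exists_data hG χ hχ
  have hNd : N = d.N := by
    ext g; rw [hN, d.mem_iff]
  subst hNd
  have hp : p.Prime := Fact.out
  have hNP : d.N ≤ (P : Subgroup G) := hNp.le_sylow_of_normal P
  have hquot : Nat.card (G ⧸ d.N) * Nat.card d.N = Nat.card G :=
    (Subgroup.card_eq_card_quotient_mul_card_subgroup d.N).symm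
  have hNcard : 1 < Nat.card d.N := by rw [d.cardN]; have := d.kpos; omega
  -- p-subgroups of centralizers outside N are small
  have key : ∀ z : G, z ∉ d.N → ∀ C : Subgroup G, IsPGroup p C → C ≤ Subgroup.centralizer ({z} : Set G) →
      Nat.card C * Nat.card d.N ≤ Nat.card P := by
    intro z hz C hCp hC
    have h1 : Nat.card C ∣ Nat.card (G ⧸ d.N) := by
      refine (Subgroup.card_dvd_of_le hC).trans ?_
      rw [d.card_centralizer_eq z hz]
      exact Subgroup.card_subgroup_dvd_card _
    have h2 : Nat.card C * Nat.card d.N ∣ Nat.card G := by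
      rw [← hquot]; exact mul_dvd_mul_right h1 _
    obtain ⟨a, ha⟩ := IsPGroup.iff_card.1 hCp
    obtain ⟨b, hb⟩ := IsPGroup.iff_card.1 hNp
    rw [ha, hb, ← pow_add] at h2 ⊢
    rw [P.card_eq_multiplicity]
    exact Nat.pow_le_pow_right hp.pos ((hp.pow_dvd_iff_le_factorization Nat.card_pos.ne').1 h2)
  have hZN : (Subgroup.center ↥(P : Subgroup G)).map (P : Subgroup G).subtype ≤ d.N := by
    rintro z ⟨w, hw, rfl⟩
    by_contra hz
    have h1 : (P : Subgroup G) ≤ Subgroup.centralizer ({(P : Subgroup G).subtype w} : Set G) := by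
      intro u hu
      rw [Subgroup.mem_centralizer_singleton_iff]
      have := Subgroup.mem_center_iff.1 hw ⟨u, hu⟩
      exact congrArg Subtype.val this
    have h2 := key _ hz (P : Subgroup G) P.2 h1
    have h3 : 0 < Nat.card (P : Subgroup G) := Nat.card_pos
    have h4 : Nat.card (P : Subgroup G) * 1 < Nat.card (P : Subgroup G) * Nat.card d.N :=
      Nat.mul_lt_mul_of_pos_left hNcard h3
    rw [mul_one] at h4
    exact absurd h2 (not_le.2 h4)
  haveI hPnt : Nontrivial (P : Subgroup G) := by
    have h1 : d.x ∈ (P : Subgroup G) := hNP d.hx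
    exact ⟨⟨⟨d.x, h1⟩, 1, fun h => d.hx1 (congrArg Subtype.val h)⟩⟩
  have hZ1 : (Subgroup.center ↥(P : Subgroup G)).map (P : Subgroup G).subtype ≠ ⊥ := by
    intro h
    rw [Subgroup.map_eq_bot_iff_of_injective _ (P : Subgroup G).subtype_injective] at h
    exact (Subgroup.nontrivial_iff_ne_bot _).1 P.2.center_nontrivial h
  refine ⟨fun x hx => d.card_centralizer_eq x hx, ⟨hZN, ?_, ?_⟩, ?_⟩
  · intro hZ
    obtain ⟨S, hS⟩ := d.sylow_of_index hNp _ (d.index_of_mem d.hx d.hx1)
    have h1 : (P : Subgroup G) ≤ Subgroup.centralizer (d.N : Set G) := by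
      intro u hu
      rw [Subgroup.mem_centralizer_iff]
      intro n hn
      rw [SetLike.mem_coe, ← hZ] at hn
      obtain ⟨w, hw, rfl⟩ := hn
      have := Subgroup.mem_center_iff.1 hw ⟨u, hu⟩
      exact (congrArg Subtype.val this).symm
    have h2 : Subgroup.centralizer (d.N : Set G) ≤ Subgroup.centralizer ({d.x} : Set G) :=
      Subgroup.centralizer_le (Set.singleton_subset_iff.2 d.hx)
    have h3 : Nat.card (Subgroup.centralizer ({d.x} : Set G)) = Nat.card (P : Subgroup G) := by
      rw [← hS]
      exact (Sylow.card_eq_multiplicity S).trans (Sylow.card_eq_multiplicity P).symm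
    have h4 : (P : Subgroup G) = Subgroup.centralizer (d.N : Set G) := by
      apply Subgroup.eq_of_le_of_card_ge h1
      rw [← h3]
      exact Nat.le_of_dvd Nat.card_pos (Subgroup.card_dvd_of_le h2)
    rw [h4]
    infer_instance
  · intro hPn
    apply le_antisymm hZN
    apply d.le_of_normal _ _ hZ1
    infer_instance
  · haveI : Group.IsNilpotent (P : Subgroup G) := P.2.isNilpotent
    obtain ⟨m, hm⟩ := Group.IsNilpotent.nilpotent (P : Subgroup G)
    by_cases hall : ∀ j, Subgroup.upperCentralSeries ↥(P : Subgroup G) j ≤ d.N.subgroupOf (P : Subgroup G)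
    · refine ⟨m, ?_⟩
      have h1 := hall m
      rw [hm, top_le_iff] at h1
      rw [hm, h1]
    · push Not at hall
      classical
      let j := Nat.find hall
      have hj : ¬ Subgroup.upperCentralSeries ↥(P : Subgroup G) j ≤ d.N.subgroupOf (P : Subgroup G) := Nat.find_spec hall
      have hjm : ∀ i < j, Subgroup.upperCentralSeries ↥(P : Subgroup G) i ≤ d.N.subgroupOf (P : Subgroup G) := by
        intro i hi
        have := Nat.find_min hall hi
        push Not at this
        exact this
      have hj0 : j ≠ 0 := by
        intro h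
        apply hj
        rw [h, Subgroup.upperCentralSeries_zero]
        exact bot_le
      obtain ⟨i, hi⟩ := Nat.exists_eq_succ_of_ne_zero hj0
      have hiN := hjm i (by omega)
      refine ⟨i, ?_⟩
      rw [SetLike.not_le_iff_exists] at hj
      obtain ⟨z, hz, hzN⟩ := hj
      rw [hi] at hz
      have hz' : ∀ y, z * y * z⁻¹ * y⁻¹ ∈ Subgroup.upperCentralSeries ↥(P : Subgroup G) i :=
        Subgroup.mem_upperCentralSeries_succ_iff.1 hz
      have hzN' : (z : G) ∉ d.N := fun h => hzN (Subgroup.mem_subgroupOf.2 h)
      apply Subgroup.eq_of_le_of_card_ge hiN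
      haveI : Fintype (P : Subgroup G) := Fintype.ofFinite _
      -- the class of z⁻¹ injects into Z_i
      have h1 : Nat.card (ConjClasses.mk z⁻¹).carrier ≤ Nat.card (Subgroup.upperCentralSeries ↥(P : Subgroup G) i) := by
        apply Nat.card_le_card_of_injective (fun v : (ConjClasses.mk z⁻¹).carrier =>
          (⟨z * v, by
            have hv := v.2
            rw [ConjClasses.mem_carrier_iff_mk_eq, ConjClasses.mk_eq_mk_iff_isConj] at hv
            obtain ⟨c, hc⟩ := isConj_iff.1 hv.symm
            rw [← hc]
            have := hz' c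
            convert this using 1
            group⟩ : Subgroup.upperCentralSeries ↥(P : Subgroup G) i))
        intro u v huv
        have h2 : z * (u : (P : Subgroup G)) = z * v := congrArg Subtype.val huv
        exact Subtype.ext (mul_left_cancel h2)
      rw [card_carrier_mk] at h1
      refine le_trans ?_ h1
      -- compare with the key estimate
      have h2 := key (z : G) hzN' ((Subgroup.centralizer ({z⁻¹} : Set (P : Subgroup G))).map (P : Subgroup G).subtype)
        ((P.2.to_subgroup _).map _) (by
          rintro u ⟨w, hw, rfl⟩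
          rw [SetLike.mem_coe, Subgroup.mem_centralizer_singleton_iff] at hw
          rw [Subgroup.mem_centralizer_singleton_iff]
          have h3 : w * z = z * w := by
            calc w * z = z * (z⁻¹ * w) * z := by group
              _ = z * (w * z⁻¹) * z := by rw [hw]
              _ = z * w := by group
          exact congrArg Subtype.val h3)
      have h3 : Nat.card ((Subgroup.centralizer ({z⁻¹} : Set (P : Subgroup G))).map (P : Subgroup G).subtype) =
          Nat.card (Subgroup.centralizer ({z⁻¹} : Set (P : Subgroup G))) :=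
        Nat.card_congr (Subgroup.equivMapOfInjective _ _ (P : Subgroup G).subtype_injective).symm.toEquiv
      have h4 : Nat.card (d.N.subgroupOf (P : Subgroup G)) = Nat.card d.N := Cfsg.Agent.H1.Basic.card_subgroupOf hNP
      rw [h4]
      rw [h3] at h2
      have h5 := Subgroup.card_mul_index (Subgroup.centralizer ({z⁻¹} : Set (P : Subgroup G)))
      have h6 : Nat.card (Subgroup.centralizer ({z⁻¹} : Set (P : Subgroup G))) * Nat.card d.N ≤
          Nat.card (Subgroup.centralizer ({z⁻¹} : Set (P : Subgroup G))) * (Subgroup.centralizer ({z⁻¹} : Set (P : Subgroup G))).index := by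
        rw [h5]; exact h2
      exact Nat.le_of_mul_le_mul_left h6 Nat.card_pos

end Cfsg.Agent.S4838
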