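import Cfsg.Statements.S4843
import Cfsg.Agent.H10_PpDeg
import Cfsg.Agent.H3_GalProd
import Cfsg.Agent.H1_Nilp

set_option autoImplicit false
open Cfsg

universe u

namespace Cfsg.Agent.S4843

open scoped ComplexConjugate commutatorElement
open Cfsg.Agent Cfsg.Agent.H3.CharBasic Cfsg.Agent.H3.CharIrr Cfsg.Agent.H3.CharInt Cfsg.Agent.H3.CharCalc
  Cfsg.Agent.H3.CharComplete Cfsg.Agent.H3.CharInd Cfsg.Agent.H3.CharMult Cfsg.Agent.H3.CharQuot
  Cfsg.Agent.H3.Clifford Cfsg.Agent.H1.Deg Cfsg.Agent.H1.Basic Cfsg.Agent.H10.PpDeg Cfsg.Agent.H3.GalProd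

theorem deg_le {A : Type*} [Group A] [Fintype A] {Ψ χ : A → ℂ} (hΨ : IsCharacter A Ψ) (hχ : IsIrrCharacter A χ)
    (h : classInner Ψ χ ≠ 0) : charDegree χ ≤ charDegree Ψ := by
  obtain ⟨n, hn⟩ := IsChar.one_eq_nat (Cfsg.Agent.H3.BF.constituent_sub hΨ hχ h)
  have h1 : (charDegree Ψ : ℂ) = ((charDegree χ + n : ℕ) : ℂ) := by
    rw [Nat.cast_add, coe_deg hΨ, coe_deg (IsIrr.isCharacter hχ), ← hn, Pi.sub_apply]
    ring
  have h2 : charDegree Ψ = charDegree χ + n := by exact_mod_cast h1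
  omega

theorem prim {G : Type*} [Group G] [Fintype G] {χ : G → ℂ} (hχ : IsIrrCharacter G χ) {k : ℕ}
    (hk : (Nat.card G).Coprime k) (hirr : IsIrrCharacter G (fun g => χ g * χ (g ^ k)))
    {N : Subgroup G} (hN : N.Normal) [Fintype N] {θ : N → ℂ} (hθ : IsIrrCharacter N θ)
    (h0 : classInner (fun n : N => χ n) θ ≠ 0) : inertia hN θ = ⊤ := by
  classical
  obtain ⟨T, hT⟩ : ∃ T, T = inertia hN θ := ⟨_, rfl⟩
  haveI : Fintype T := Fintype.ofFinite _
  rw [← hT]
  have hNT : N ≤ T := by rw [hT]; exact le_inertia hN (IsIrr.isClass hθ)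
  obtain ⟨ψ, hψ, hind, -⟩ := clifford_corr hN hχ hθ h0 T hT hNT
  have hkT : (Nat.card T).Coprime k := hk.coprime_dvd_left (Subgroup.card_subgroup_dvd_card T)
  have hc : classInner (fun t : T => χ t) ψ ≠ 0 := by
    rw [← constituent_ind_iff (IsIrr.isCharacter hχ), hind, ci_irr_self hχ]
    exact one_ne_zero
  have hψ' : IsIrrCharacter T (fun t => ψ (t ^ k)) := isIrr_pow hkT hψ
  have hχ' := isIrr_pow hk hχ
  have hc' : classInner (fun t : T => χ ((t : G) ^ k)) (fun t => ψ (t ^ k)) ≠ 0 := by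
    have := ci_pow hkT (fun t : T => χ t) ψ
    have e : (fun t : T => χ ((t : G) ^ k)) = (fun t : T => (fun s : T => χ s) (t ^ k)) := by
      funext t
      show _ = χ ((t ^ k : T) : G)
      rw [Subgroup.coe_pow]
    rw [e, this]
    exact hc
  have hα := Cfsg.Agent.H3.BF.constituent_sub (IsChar.res (IsIrr.isCharacter hχ) T) hψ hc
  have hα' := Cfsg.Agent.H3.BF.constituent_sub (IsChar.res (IsIrr.isCharacter hχ') T) hψ' hc'
  set α := (fun t : T => χ t) - ψ with hαd
  set ψ' := (fun t : T => ψ (t ^ k)) with hψ'd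
  set α' := (fun t : T => χ ((t : G) ^ k)) - ψ' with hα'd
  have hΨ : IsCharacter T (ψ * ψ') := IsChar.mul (IsIrr.isCharacter hψ) (IsIrr.isCharacter hψ')
  have hΔ : IsCharacter T (ψ * α' + α * ψ' + α * α') :=
    IsChar.add (IsChar.add (IsChar.mul (IsIrr.isCharacter hψ) hα') (IsChar.mul hα (IsIrr.isCharacter hψ')))
      (IsChar.mul hα hα')
  have hsum : (fun t : T => χ t * χ ((t : G) ^ k)) = ψ * ψ' + (ψ * α' + α * ψ' + α * α') := by
    funext t
    simp only [Pi.add_apply, Pi.mul_apply, hαd, hα'd, Pi.sub_apply]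
    ring
  have hΨ1 : charDegree (ψ * ψ') = charDegree ψ * charDegree ψ := by
    apply deg_eq
    rw [Pi.mul_apply, hψ'd]
    show ψ 1 * ψ (1 ^ k) = _
    rw [one_pow, Nat.cast_mul, coe_deg (IsIrr.isCharacter hψ)]
  obtain ⟨η, hη, hη0⟩ : ∃ η : T → ℂ, IsIrrCharacter T η ∧ classInner (ψ * ψ') η ≠ 0 := by
    apply exists_constituent hΨ
    intro h
    have h1 : charDegree (ψ * ψ') = 0 := by
      apply deg_eq
      rw [h, Pi.zero_apply, Nat.cast_zero]
    rw [hΨ1] at h1
    have := deg_pos hψ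
    have h2 := Nat.mul_pos this this
    omega
  have hη1 := deg_le hΨ hη hη0
  have hres : classInner (fun t : T => χ t * χ ((t : G) ^ k)) η ≠ 0 := by
    obtain ⟨a, ha⟩ := ci_char_nat hΨ (IsIrr.isCharacter hη)
    obtain ⟨b, hb⟩ := ci_char_nat hΔ (IsIrr.isCharacter hη)
    have ha0 : a ≠ 0 := by
      rintro rfl
      apply hη0
      rw [ha, Nat.cast_zero]
    rw [hsum, ci_add_left, ha, hb, ← Nat.cast_add]
    exact_mod_cast (by omega : a + b ≠ 0)
  have hcon : classInner (indFun T η) (fun g => χ g * χ (g ^ k)) ≠ 0 := by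
    rw [constituent_ind_iff (IsIrr.isCharacter hirr)]
    exact hres
  have h1 := deg_le (IsChar.ind (IsIrr.isCharacter hη)) hirr hcon
  have h2 : charDegree (indFun T η) = T.index * charDegree η := by
    apply deg_eq
    rw [ind_one, Nat.cast_mul, coe_deg (IsIrr.isCharacter hη)]
  have h3 : charDegree χ = T.index * charDegree ψ := by
    apply deg_eq
    rw [← hind, ind_one, Nat.cast_mul, coe_deg (IsIrr.isCharacter hψ)]
  have h4 : charDegree (fun g => χ g * χ (g ^ k)) = charDegree χ * charDegree χ := by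
    apply deg_eq
    rw [one_pow, Nat.cast_mul, coe_deg (IsIrr.isCharacter hχ)]
  rw [h2, h4, h3] at h1
  rw [hΨ1] at hη1
  have h5 : T.index * charDegree ψ * (T.index * charDegree ψ) ≤ T.index * (charDegree ψ * charDegree ψ) :=
    h1.trans (Nat.mul_le_mul_left _ hη1)
  have h6 := deg_pos hψ
  have h7 : 0 < T.index := Nat.pos_of_ne_zero (Subgroup.index_ne_zero_of_finite)
  have h8 : T.index * (charDegree ψ * charDegree ψ) * T.index ≤ T.index * (charDegree ψ * charDegree ψ) * 1 := by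
    calc _ = T.index * charDegree ψ * (T.index * charDegree ψ) := by ring
      _ ≤ _ := by rw [mul_one]; exact h5
  have h9 := Nat.le_of_mul_le_mul_left h8 (Nat.mul_pos h7 (Nat.mul_pos h6 h6))
  rw [← Subgroup.index_eq_one]
  omega

theorem cen {G : Type*} [Group G] [Finite G] {χ : G → ℂ} (hχ : IsIrrCharacter G χ) {z : G} (hz : z ∈ Subgroup.center G)
    (y : G) : χ (z * y) * χ 1 = χ z * χ y := by
  obtain ⟨n, ρ, hρ, rfl⟩ := hχ
  obtain ⟨c, hc⟩ := central_scalar ρ hρ hz
  have h2 : ∀ y, ρ.character (z * y) = c * ρ.character y := by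
    intro y
    rw [Representation.character, Representation.character, map_mul, hc]
    have : (c • LinearMap.id) * ρ y = c • ρ y := by ext v; simp
    rw [this, map_smul, smul_eq_mul]
  have h3 := h2 1
  rw [mul_one] at h3
  rw [h2, h3]; ring

theorem vanish {G : Type*} [Group G] [Finite G] {χ : G → ℂ} (hχ : IsIrrCharacter G χ)
    (hfaith : ∀ g : G, χ g = χ 1 → g = 1) {y f : G} (hz : f * y * f⁻¹ * y⁻¹ ∈ Subgroup.center G)
    (hne : f * y * f⁻¹ * y⁻¹ ≠ 1) : χ y = 0 := by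
  have h1 := cen hχ hz y
  have h2 : f * y * f⁻¹ * y⁻¹ * y = f * y * f⁻¹ := by group
  rw [h2, IsIrr.isClass hχ y f] at h1
  by_contra hy
  apply hne
  apply hfaith
  have h3 : χ y * (χ 1 - χ (f * y * f⁻¹ * y⁻¹)) = 0 := by
    rw [mul_sub, h1]; ring
  exact (sub_eq_zero.1 ((mul_eq_zero.1 h3).resolve_left hy)).symm

theorem irreducible_of_char' {N : Type*} [Group N] [Finite N] {V : Type*} [AddCommGroup V] [Module ℂ V]
    [FiniteDimensional ℂ V] (ρ : Representation ℂ N V) (h : IsIrrCharacter N ρ.character) : ρ.IsIrreducible := by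
  obtain ⟨n, σ, hσ, he⟩ := h
  obtain ⟨e⟩ := Cfsg.Agent.H3.CharEquiv.equiv_of_char_eq (Module.finrank ℂ (Fin n → ℂ)) σ ρ rfl he
  exact irreducible_of_equiv e hσ

/-- averaging an operator of trace zero over an irreducible representation -/
theorem avg_zero {G : Type*} [Group G] [Fintype G] {V : Type*} [AddCommGroup V] [Module ℂ V] [FiniteDimensional ℂ V]
    (R : Representation ℂ G V) (hR : R.IsIrreducible) (A : V →ₗ[ℂ] V) (hA : LinearMap.trace ℂ V A = 0) :
    ∑ g : G, R g * A * R g⁻¹ = 0 := by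
  classical
  obtain ⟨c, hc⟩ := schur R hR (∑ g : G, R g * A * R g⁻¹) (by
    intro h v
    have key : (∑ g : G, R g * A * R g⁻¹) * R h = R h * (∑ g : G, R g * A * R g⁻¹) := by
      rw [Finset.sum_mul, Finset.mul_sum]
      rw [← Equiv.sum_comp (Equiv.mulLeft h)]
      refine Finset.sum_congr rfl fun g _ => ?_
      show R (h * g) * A * R (h * g)⁻¹ * R h = R h * (R g * A * R g⁻¹)
      rw [mul_inv_rev, map_mul, mul_assoc (R h * R g * A), ← map_mul R (g⁻¹ * h⁻¹) h,
        inv_mul_cancel_right]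
      simp only [mul_assoc]
    exact LinearMap.congr_fun key v)
  have htr : LinearMap.trace ℂ V (∑ g : G, R g * A * R g⁻¹) = 0 := by
    rw [map_sum]
    apply Finset.sum_eq_zero
    intro g _
    rw [mul_assoc, LinearMap.trace_mul_comm, mul_assoc, ← map_mul, inv_mul_cancel, map_one, mul_one, hA]
  rw [hc, map_smul, LinearMap.trace_id, smul_eq_mul] at htr
  obtain ⟨hV, -⟩ := (irrep_iff R).mp hR
  have hf : (Module.finrank ℂ V : ℂ) ≠ 0 := by
    haveI := hV
    exact_mod_cast (Module.finrank_pos (R := ℂ) (M := V)).ne'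
  rw [hc, (mul_eq_zero.1 htr).resolve_right hf, zero_smul]

/-- Let G be a finite group with a faithful irreducible character χ (taking the value χ(1) only at the identity) and let k be prime to the order of G, so that g ↦ χ(g^k) is a Galois conjugate of χ. If the pointwise product g ↦ χ(g)·χ(g^k) is again an irreducible character, then the Fitting subgroup of G equals its centre. -/
theorem result {G : Type*} [Group G] [Finite G] (χ : Cfsg.IrrCharacter G) (hfaith : ∀ g : G, (χ : G → ℂ) g = (χ : G → ℂ) 1 → g = 1) (k : ℕ) (hk : Nat.Coprime k (Nat.card G)) (hirr : Cfsg.IsIrrCharacter G (fun g => (χ : G → ℂ) g * (χ : G → ℂ) (g ^ k))) : Cfsg.fittingSubgroup G = Subgroup.center G := by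
  classical
  haveI : Fintype G := Fintype.ofFinite _
  obtain ⟨χ, hχ⟩ := χ
  change ∀ g : G, χ g = χ 1 → g = 1 at hfaith
  change Cfsg.IsIrrCharacter G (fun g => χ g * χ (g ^ k)) at hirr
  have hk' : (Nat.card G).Coprime k := hk.symm
  set F := fittingSubgroup G with hF
  haveI hFn : F.Normal := H1.Nilp.fitting_normal
  haveI hFnil : Group.IsNilpotent F := H1.Nilp.fitting_nilpotent
  set A : Subgroup G := (Subgroup.center F).map F.subtype with hA
  haveI hAn : A.Normal := by rw [hA]; infer_instance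
  haveI : Fintype A := Fintype.ofFinite _
  have hAc : ∀ a b : A, a * b = b * a := by
    rintro ⟨_, a, ha, rfl⟩ ⟨_, b, hb, rfl⟩
    apply Subtype.ext
    show F.subtype a * F.subtype b = F.subtype b * F.subtype a
    rw [← map_mul, Subgroup.mem_center_iff.1 hb a, map_mul]
  have hAZ : A ≤ Subgroup.center G := by
    intro a ha
    obtain ⟨θ, hθ, h0⟩ := exists_constituent_res (H := A) hχ
    have hT := prim hχ hk' hirr hAn hθ h0
    have h1 := clifford_invariant hAn hχ hθ h0 (fun g => (mem_inertia hAn θ g).1 (hT ▸ Subgroup.mem_top g))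
    have hθ1 : θ 1 = 1 := IsIrr.one_of_comm hAc hθ
    obtain ⟨f, hf⟩ := IsChar.hom_units_of_one (IsIrr.isCharacter hθ) hθ1
    have h2 : ‖θ ⟨a, ha⟩‖ = 1 := by
      rw [hf]
      have h3 : (f ⟨a, ha⟩ : ℂ) ^ (Nat.card A) = 1 := by
        rw [← Units.val_pow_eq_pow_val, ← map_pow, pow_card_eq_one', map_one, Units.val_one]
      exact Complex.norm_eq_one_of_pow_eq_one h3 Nat.card_pos.ne'
    have h4 : ‖χ a‖ = ‖χ 1‖ := by
      have e1 := congrFun h1 ⟨a, ha⟩
      have e2 := congrFun h1 1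
      rw [Pi.smul_apply, smul_eq_mul] at e1 e2
      rw [Subgroup.coe_one] at e2
      change χ a = _ at e1
      rw [e1, e2, norm_mul, norm_mul, h2, hθ1, norm_one]
    rw [Subgroup.mem_center_iff]
    intro g
    have h5 := hfaith _ (IsChar.comm_of_norm (IsIrr.isCharacter hχ) h4 g)
    have h6 : a * g = (a * g * a⁻¹ * g⁻¹) * (g * a) := by group
    rw [h6, h5, one_mul]
  have hZF : Subgroup.center G ≤ F := le_sSup ⟨inferInstance, by
    letI : CommGroup (Subgroup.center G) := Group.commGroupOfCenterEqTop (by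
      rw [Subgroup.center_eq_top_iff]; infer_instance)
    exact CommGroup.isNilpotent⟩
  by_contra hne
  have hnt : Nontrivial (F ⧸ Subgroup.center F) := by
    rw [← not_subsingleton_iff_nontrivial]
    intro hs
    apply hne
    apply le_antisymm _ hZF
    have h1 : Subgroup.center F = ⊤ := by
      rw [← QuotientGroup.subgroup_eq_top_of_subsingleton (Subgroup.center F) hs]
    refine le_trans ?_ hAZ
    rw [hA, h1, ← MonoidHom.range_eq_map, Subgroup.range_subtype]
  obtain ⟨q, hq, hq1⟩ := (Subgroup.bot_or_exists_ne_one (Subgroup.center (F ⧸ Subgroup.center F))).resolve_left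
    (Group.IsNilpotent.center_ne_bot _)
  obtain ⟨x, rfl⟩ := QuotientGroup.mk_surjective q
  have hxZ : x ∉ Subgroup.center F := fun h => hq1 ((QuotientGroup.eq_one_iff x).2 h)
  have hxF : ∀ f : F, f * x * f⁻¹ * x⁻¹ ∈ Subgroup.center F := by
    intro f
    rw [← QuotientGroup.eq_one_iff]
    have h1 := Subgroup.mem_center_iff.1 hq (f : F ⧸ Subgroup.center F)
    rw [QuotientGroup.mk_mul, QuotientGroup.mk_mul, QuotientGroup.mk_mul, QuotientGroup.mk_inv, QuotientGroup.mk_inv, h1]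
    group
  have hx1 : ∀ f ∈ F, f * x * f⁻¹ * (x : G)⁻¹ ∈ Subgroup.center G := by
    intro f hf
    exact hAZ ⟨_, hxF ⟨f, hf⟩, rfl⟩
  have hvan : ∀ y ∈ F, (∀ f ∈ F, f * y * f⁻¹ * y⁻¹ ∈ Subgroup.center G) → y ∉ Subgroup.center G → χ y = 0 := by
    intro y hy hy1 hy2
    obtain ⟨f, hf, hne⟩ : ∃ f ∈ F, f * y * f⁻¹ * y⁻¹ ≠ 1 := by
      by_contra hcon
      push Not at hcon
      apply hy2
      apply hAZ
      refine ⟨⟨y, hy⟩, ?_, rfl⟩
      rw [SetLike.mem_coe, Subgroup.mem_center_iff]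
      intro f
      apply Subtype.ext
      have h1 := hcon f f.2
      show (f : G) * y = y * f
      calc (f : G) * y = (f * y * (f : G)⁻¹ * y⁻¹) * (y * f) := by group
        _ = y * f := by rw [h1, one_mul]
    exact vanish hχ hfaith (hy1 f hf) hne
  have hxZ' : (x : G) ∉ Subgroup.center G := by
    intro h
    apply hxZ
    rw [Subgroup.mem_center_iff] at h ⊢
    intro f
    exact Subtype.ext (h f)
  have hχx : χ (x : G) = 0 := hvan x x.2 hx1 hxZ'
  -- the inverse exponent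
  obtain ⟨j, hj⟩ : ∃ j : ℕ, ∀ h : G, (h ^ j) ^ k = h := by
    by_cases h1 : Nat.card G = 1
    · refine ⟨0, fun h => ?_⟩
      haveI := (Nat.card_eq_one_iff_unique.1 h1).1
      exact Subsingleton.elim _ _
    · have hpos : 1 < Nat.card G := by
        have := Nat.card_pos (α := G)
        omega
      obtain ⟨j, -, hj⟩ := Nat.exists_mul_mod_eq_one_of_coprime hk hpos
      refine ⟨j, fun h => ?_⟩
      rw [← pow_mul, mul_comm]
      have h2 : k * j ≡ 1 [MOD Nat.card G] := by rw [Nat.ModEq, hj, Nat.mod_eq_of_lt hpos]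
      have h3 := pow_eq_pow_iff_modEq.2 (h2.of_dvd (orderOf_dvd_natCard h))
      rwa [pow_one] at h3
  -- the representations
  obtain ⟨n, ρ, hρ, hρχ⟩ := id hχ
  obtain ⟨n', ρ', hρ', hρχ'⟩ := id (isIrr_pow hk' hχ)
  have hR : (ρ.tprod ρ').IsIrreducible := by
    apply irreducible_of_char'
    rw [Representation.char_tensor, hρχ, hρχ']
    exact hirr
  have hA0 : LinearMap.trace ℂ _ (TensorProduct.map (ρ (x : G)) (ρ' (((x : G)⁻¹) ^ j))) = 0 := by
    rw [LinearMap.trace_tensorProduct']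
    have e1 : LinearMap.trace ℂ _ (ρ (x : G)) = χ x := congrFun hρχ x
    rw [e1, hχx, zero_mul]
  have havg := avg_zero (ρ.tprod ρ') hR _ hA0
  have hterm : ∀ g : G, LinearMap.trace ℂ _ ((ρ.tprod ρ') g * TensorProduct.map (ρ (x : G)) (ρ' (((x : G)⁻¹) ^ j)) *
      (ρ.tprod ρ') g⁻¹ * TensorProduct.map (ρ (x : G)⁻¹) (ρ' ((x : G) ^ j))) =
      ((Complex.normSq (χ (g * x * g⁻¹ * (x : G)⁻¹)) : ℝ) : ℂ) := by
    intro g
    rw [Representation.tprod_apply, Representation.tprod_apply, ← TensorProduct.map_mul, ← TensorProduct.map_mul,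
      ← TensorProduct.map_mul, LinearMap.trace_tensorProduct', ← map_mul, ← map_mul, ← map_mul, ← map_mul,
      ← map_mul, ← map_mul]
    have e1 : ∀ y, LinearMap.trace ℂ _ (ρ y) = χ y := congrFun hρχ
    have e2 : ∀ y, LinearMap.trace ℂ _ (ρ' y) = χ (y ^ k) := congrFun hρχ'
    rw [e1, e2]
    set c := g * x * g⁻¹ * (x : G)⁻¹ with hc
    by_cases hcZ : c ∈ Subgroup.center G
    · have h1 : g * ((x : G)⁻¹) ^ j * g⁻¹ * (x : G) ^ j = (c⁻¹) ^ j := by
        have h2 : g * ((x : G)⁻¹) ^ j * g⁻¹ = (g * (x : G)⁻¹ * g⁻¹) ^ j := by rw [conj_pow]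
        have h3 : g * (x : G)⁻¹ * g⁻¹ = c⁻¹ * (x : G)⁻¹ := by
          have h4 : g * (x : G)⁻¹ * g⁻¹ = (x : G)⁻¹ * c⁻¹ := by rw [hc]; group
          rw [h4]
          exact (Subgroup.mem_center_iff.1 ((Subgroup.center G).inv_mem hcZ) (x : G)⁻¹)
        have h5 : Commute c⁻¹ (x : G)⁻¹ := ((Subgroup.mem_center_iff.1 ((Subgroup.center G).inv_mem hcZ) (x : G)⁻¹)).symm
        rw [h2, h3, h5.mul_pow, mul_assoc, inv_pow (x : G), inv_mul_cancel, mul_one]
      rw [h1, hj, IsChar.inv_eq_conj (IsIrr.isCharacter hχ), Complex.mul_conj]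
    · have hcF : c ∈ F := by
        rw [hc]
        exact F.mul_mem (hFn.conj_mem x x.2 g) (F.inv_mem x.2)
      have h0 : χ c = 0 := by
        refine hvan c hcF ?_ hcZ
        intro f hf
        have z1 := hx1 f hf
        have z2 := hx1 (g⁻¹ * f * g) (by
          have := hFn.conj_mem f hf g⁻¹
          rwa [inv_inv] at this)
        set a := f * x * f⁻¹ * (x : G)⁻¹ with ha
        set b := g⁻¹ * f * g * x * (g⁻¹ * f * g)⁻¹ * (x : G)⁻¹ with hb
        have h1 : f * c * f⁻¹ * c⁻¹ = (g * b * g⁻¹) * (f * (g⁻¹)⁻¹ * (1 : G) * (g⁻¹) * f⁻¹) * (g * x * g⁻¹) * (f * (x : G)⁻¹ * f⁻¹) * c⁻¹ := by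
          rw [hc, hb]; group
        have h2 : f * (x : G)⁻¹ * f⁻¹ = (x : G)⁻¹ * a⁻¹ := by rw [ha]; group
        have h3 : g * b * g⁻¹ = b := by
          rw [Subgroup.mem_center_iff.1 z2 g, mul_inv_cancel_right]
        have h4 : f * (g⁻¹)⁻¹ * (1 : G) * (g⁻¹) * f⁻¹ = 1 := by group
        rw [h1, h3, h4, h2, mul_one]
        have h5 : b * (g * x * g⁻¹) * ((x : G)⁻¹ * a⁻¹) * c⁻¹ = b * (c * a⁻¹ * c⁻¹) := by
          rw [hc]; group
        rw [h5]
        have h6 : c * a⁻¹ * c⁻¹ = a⁻¹ := by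
          rw [Subgroup.mem_center_iff.1 ((Subgroup.center G).inv_mem z1) c, mul_inv_cancel_right]
        rw [h6]
        exact (Subgroup.center G).mul_mem z2 ((Subgroup.center G).inv_mem z1)
      rw [h0, zero_mul, map_zero, Complex.ofReal_zero]
  have hsum : ((∑ g : G, Complex.normSq (χ (g * x * g⁻¹ * (x : G)⁻¹)) : ℝ) : ℂ) = 0 := by
    rw [Complex.ofReal_sum, ← Finset.sum_congr rfl (fun g _ => hterm g), ← map_sum, ← Finset.sum_mul, havg, zero_mul,
      map_zero]
  have hsum' : (∑ g : G, Complex.normSq (χ (g * x * g⁻¹ * (x : G)⁻¹)) : ℝ) = 0 := by exact_mod_cast hsum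
  rw [Finset.sum_eq_zero_iff_of_nonneg (fun _ _ => Complex.normSq_nonneg _)] at hsum'
  have h1 := hsum' 1 (Finset.mem_univ _)
  rw [Complex.normSq_eq_zero] at h1
  have h2 : (1 : G) * x * 1⁻¹ * (x : G)⁻¹ = 1 := by group
  rw [h2] at h1
  exact IsIrr.one_ne_zero hχ h1

end Cfsg.Agent.S4843
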