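import Cfsg.Statements.S4870
import Mathlib
import Cfsg.Agent.H26_Cliff

set_option autoImplicit false
open Cfsg

namespace Cfsg.Agent.S4870

open Cfsg Cfsg.Agent.H3.CharIrr Cfsg.Agent.H3.CharComplete Cfsg.Agent.H3.CharInd Cfsg.Agent.H26.Basic Cfsg.Agent.H3.Clifford Cfsg.Agent.H3.CharMult Cfsg.Agent.H26.Cliff

open scoped ComplexConjugate

theorem trivial_on_min {G : Type*} [Group G] {N : Subgroup G} (hN : N.Normal) (hN1 : N ≠ ⊥)
    (hmin : ∀ M : Subgroup G, M.Normal → M ≤ N → M = ⊥ ∨ M = N) (hna : ¬ IsMulCommutative ↥N)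
    (f : G →* ℂˣ) : ∀ n ∈ N, f n = 1 := by
  have h1 : ⁅N, N⁆ = N := by
    haveI := hN
    rcases hmin ⁅N, N⁆ (Subgroup.commutator_normal N N) (Subgroup.commutator_le_left N N) with h | h
    · exfalso
      apply hna
      rw [Subgroup.commutator_eq_bot_iff_le_centralizer] at h
      refine ⟨⟨fun a b => ?_⟩⟩
      apply Subtype.ext
      exact (Subgroup.mem_centralizer_iff.1 (h a.2) b b.2).symm
    · exact h
  have h2 : N ≤ f.ker := by
    rw [← h1, Subgroup.commutator_le]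
    intro a _ b _
    rw [MonoidHom.mem_ker, map_commutatorElement, commutatorElement_eq_one_iff_mul_comm, mul_comm]
  exact fun n hn => h2 hn

theorem inertia_eq {G : Type*} [Group G] {N : Subgroup G} (hN : N.Normal) (φ : N → ℂ) (I : Subgroup G)
    (hI : ∀ g : G, g ∈ I ↔ ∀ n n' : ↥N, (n' : G) = g * (n : G) * g⁻¹ → φ n' = φ n) : I = inertia hN φ := by
  ext g
  rw [hI, mem_inertia]
  constructor
  · intro h
    funext n
    exact h n _ rfl
  · intro h n n' hn
    have := congrFun h n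
    rw [cj_apply] at this
    rw [← this]
    exact congrArg φ (Subtype.ext hn)

theorem twist_inj {G : Type*} [Group G] [Fintype G] {N : Subgroup G} (hN : N.Normal) [Fintype N] (I : Subgroup G) [Fintype I]
    (hNI : N ≤ I) {φ : N → ℂ} (hφ : IsIrrCharacter N φ) {ψ : I → ℂ} (hψ : IsIrrCharacter I ψ)
    (hext : ∀ n : ↥N, ψ (Subgroup.inclusion hNI n) = φ n) (f g : G →* ℂˣ) (hf : ∀ n ∈ N, f n = 1)
    (hg : ∀ n ∈ N, g n = 1) (h : (fun t : I => (f t : ℂ) * ψ t) = fun t : I => (g t : ℂ) * ψ t) :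
    ∀ t ∈ I, f t = g t := by
  classical
  haveI hNs : (N.subgroupOf I).Normal := hN.subgroupOf I
  haveI : Fintype (N.subgroupOf I) := Fintype.ofFinite _
  have hres : IsIrrCharacter (N.subgroupOf I) (fun n : N.subgroupOf I => ψ n) := by
    have h1 := (isIrr_comp_iff (Subgroup.subgroupOfEquivOfLe hNI)).2 hφ
    have h2 : (fun n : N.subgroupOf I => φ (Subgroup.subgroupOfEquivOfLe hNI n)) = fun n : N.subgroupOf I => ψ n := by
      funext n
      rw [← hext]
      rfl
    rw [← h2]; exact h1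
  let β : I →* ℂˣ := f.comp I.subtype
  let γ : I →* ℂˣ := g.comp I.subtype
  have hβ : InKer (N.subgroupOf I) (fun t : I => ((β t : ℂˣ) : ℂ)) := by
    intro n hn
    try intro x
    have : f n = 1 := hf _ (Subgroup.mem_subgroupOf.1 hn)
    simp [β, this]
  have hγ : InKer (N.subgroupOf I) (fun t : I => ((γ t : ℂˣ) : ℂ)) := by
    intro n hn
    try intro x
    have : g n = 1 := hg _ (Subgroup.mem_subgroupOf.1 hn)
    simp [γ, this]
  have h1 := gallagher_inner hNs hψ hres hβ hγ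
  have h2 : ((fun t : I => ((β t : ℂˣ) : ℂ)) * ψ) = (fun t : I => ((γ t : ℂˣ) : ℂ)) * ψ := h
  have hirr : IsIrrCharacter I ((fun t : I => ((γ t : ℂˣ) : ℂ)) * ψ) :=
    IsIrr.mul_linear hψ (IsIrr.isCharacter (isIrr_of_hom_units γ)) (by simp)
  rw [h2, ci_irr_self hirr] at h1
  by_contra hc
  have h3 : (fun t : I => ((β t : ℂˣ) : ℂ)) ≠ (fun t : I => ((γ t : ℂˣ) : ℂ)) := by
    intro h4
    apply hc
    intro t ht
    have := congrFun h4 ⟨t, ht⟩
    exact Units.ext this
  rw [ci_irr_ne (isIrr_of_hom_units β) (isIrr_of_hom_units γ) h3] at h1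
  exact one_ne_zero h1

/-- Let G be a finite group with a non-abelian minimal normal subgroup N, and let φ be an irreducible complex character of N with stabilizer I in G (the elements g with φ(g n g⁻¹) = φ(n) for all n ∈ N) such that φ extends to an irreducible character of I. Put d = φ(1)·[G : I]. Then the number of linear characters of G is at most [G : I] times the number of irreducible characters of G of degree d. -/
theorem result {G : Type*} [Group G] [Finite G] (N : Subgroup G) (hN : N.Normal) (hN1 : N ≠ ⊥) (hmin : ∀ M : Subgroup G, M.Normal → M ≤ N → M = ⊥ ∨ M = N) (hna : ¬ IsMulCommutative ↥N) (φ : Cfsg.IrrCharacter ↥N) (I : Subgroup G) (hI : ∀ g : G, g ∈ I ↔ ∀ n n' : ↥N, (n' : G) = g * (n : G) * g⁻¹ → (φ : ↥N → ℂ) n' = (φ : ↥N → ℂ) n) (hNI : N ≤ I) (hext : ∃ ψ : Cfsg.IrrCharacter ↥I, ∀ n : ↥N, (ψ : ↥I → ℂ) (Subgroup.inclusion hNI n) = (φ : ↥N → ℂ) n) : Nat.card {χ : Cfsg.IrrCharacter G // Cfsg.charDegree (χ : G → ℂ) = 1} ≤ I.index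 * Nat.card {χ : Cfsg.IrrCharacter G // Cfsg.charDegree (χ : G → ℂ) = Cfsg.charDegree (φ : ↥N → ℂ) * I.index} := by
  classical
  haveI : Fintype G := Fintype.ofFinite G
  haveI : Fintype N := Fintype.ofFinite _
  haveI : Fintype I := Fintype.ofFinite _
  haveI := hN
  obtain ⟨ψ, hψ⟩ := hext
  have hIn := inertia_eq hN (φ : N → ℂ) I hI
  have htriv := trivial_on_min hN hN1 hmin hna
  let A : Type _ := {χ : IrrCharacter G // charDegree (χ : G → ℂ) = 1}
  let B : Type _ := {χ : IrrCharacter G // charDegree (χ : G → ℂ) = charDegree (φ : ↥N → ℂ) * I.index}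
  haveI : Fintype A := Fintype.ofFinite _
  haveI : Fintype B := Fintype.ofFinite _
  have hA : ∀ a : A, ∃ f : G →* ℂˣ, ∀ g, (a.1 : G → ℂ) g = (f g : ℂ) := by
    intro a
    apply IsChar.hom_units_of_one (IsIrr.isCharacter a.1.2)
    rw [← cd_eq, a.2]; simp
  choose f hf using hA
  have hres : ∀ (g : G →* ℂˣ), (fun n : N => (fun t : I => (g t : ℂ) * (ψ : I → ℂ) t) ⟨(n : G), hNI n.2⟩) = (φ : N → ℂ) := by
    intro g
    funext n
    show (g n : ℂ) * (ψ : I → ℂ) (Subgroup.inclusion hNI n) = _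
    rw [htriv g n n.2, hψ]; simp
  have hirr1 : ∀ (g : G →* ℂˣ), IsIrrCharacter I (fun t : I => (g t : ℂ) * (ψ : I → ℂ) t) := by
    intro g
    exact IsIrr.mul_linear ψ.2 (IsIrr.isCharacter (isIrr_of_hom_units (g.comp I.subtype))) (by simp)
  have hne : ∀ (g : G →* ℂˣ), classInner (fun n : N => (fun t : I => (g t : ℂ) * (ψ : I → ℂ) t) ⟨(n : G), hNI n.2⟩) (φ : N → ℂ) ≠ 0 := by
    intro g
    rw [hres, ci_irr_self φ.2]; exact one_ne_zero
  have hirr : ∀ (g : G →* ℂˣ), IsIrrCharacter G (indFun I (fun t : I => (g t : ℂ) * (ψ : I → ℂ) t)) := fun g =>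
    ind_irr φ.2 I hIn hNI (hirr1 g) (hne g)
  have hdeg : ∀ (g : G →* ℂˣ), charDegree (indFun I (fun t : I => (g t : ℂ) * (ψ : I → ℂ) t)) = charDegree (φ : ↥N → ℂ) * I.index := by
    intro g
    have h1 := cd_eq (⟨_, hirr g⟩ : IrrCharacter G)
    have h2 : ((charDegree (indFun I (fun t : I => (g t : ℂ) * (ψ : I → ℂ) t)) : ℕ) : ℂ) = ((charDegree (φ : ↥N → ℂ) * I.index : ℕ) : ℂ) := by
      rw [show ((charDegree (indFun I (fun t : I => (g t : ℂ) * (ψ : I → ℂ) t)) : ℕ) : ℂ) = _ from h1]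
      show indFun I (fun t : I => (g t : ℂ) * (ψ : I → ℂ) t) 1 = _
      rw [ind_one, Nat.cast_mul, cd_eq]
      have h3 := hψ 1
      rw [map_one] at h3
      rw [h3]; simp [mul_comm]
    exact_mod_cast h2
  let F : A → B := fun a => ⟨⟨_, hirr (f a)⟩, hdeg (f a)⟩
  have hfib : ∀ b ∈ Finset.univ.image F, (Finset.univ.filter (fun a => F a = b)).card ≤ I.index := by
    intro b hb
    obtain ⟨a₀, _, ha₀⟩ := Finset.mem_image.1 hb
    refine le_trans ?_ (card_trivial_le I)
    rw [← Fintype.card_subtype, ← Nat.card_eq_fintype_card]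
    haveI : Finite {f : G →* ℂˣ // ∀ x ∈ I, f x = 1} := inferInstance
    have hkey : ∀ a : {a // F a = b}, ∀ x ∈ I, (f a.1 * (f a₀)⁻¹) x = 1 := by
      intro a x hx
      have h1 : F a.1 = F a₀ := a.2.trans ha₀.symm
      have h2 : indFun I (fun t : I => (f a.1 t : ℂ) * (ψ : I → ℂ) t) = indFun I (fun t : I => (f a₀ t : ℂ) * (ψ : I → ℂ) t) :=
        congrArg (fun y : B => (y.1 : G → ℂ)) h1
      have h3 := ind_inj φ.2 I hIn hNI (hirr1 (f a.1)) (hne _) (hirr1 (f a₀)) (hne _) h2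
      have h4 := twist_inj hN I hNI φ.2 ψ.2 hψ (f a.1) (f a₀) (htriv _) (htriv _) h3 x hx
      rw [MonoidHom.mul_apply, MonoidHom.inv_apply, h4, mul_inv_cancel]
    apply Nat.card_le_card_of_injective (fun a : {a // F a = b} => (⟨f a.1 * (f a₀)⁻¹, hkey a⟩ : {f : G →* ℂˣ // ∀ x ∈ I, f x = 1}))
    intro a a' h
    have h1 : f a.1 * (f a₀)⁻¹ = f a'.1 * (f a₀)⁻¹ := congrArg Subtype.val h
    have h2 : f a.1 = f a'.1 := mul_right_cancel h1
    apply Subtype.ext
    apply Subtype.ext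
    apply Subtype.ext
    funext g
    rw [hf a.1, hf a'.1, h2]
  have h1 := Finset.card_le_mul_card_image (s := (Finset.univ : Finset A)) (f := F) I.index hfib
  rw [Finset.card_univ, ← Nat.card_eq_fintype_card] at h1
  refine h1.trans (Nat.mul_le_mul_left _ ?_)
  refine (Finset.card_le_univ _).trans ?_
  rw [← Nat.card_eq_fintype_card]

end Cfsg.Agent.S4870
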