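import Cfsg.Statements.S4871
import Cfsg.Agent.H10_EAP

set_option autoImplicit false
open scoped ComplexConjugate
open Cfsg

namespace Cfsg.Agent.S4871

open Cfsg.Agent Cfsg.Agent.H3.CharBasic Cfsg.Agent.H3.CharIrr Cfsg.Agent.H3.CharInd Cfsg.Agent.H3.Clifford Cfsg.Agent.H10.EAP

/-- signs as complex units -/
noncomputable def sg : ℤˣ →* ℂˣ := Units.map (Int.castRingHom ℂ : ℤ →* ℂ)

theorem sg_inj : Function.Injective sg := Units.map_injective Int.cast_injective

theorem sg_apply (e : ℤˣ) : ((sg e : ℂˣ) : ℂ) = ((e : ℤ) : ℂ) := rfl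

theorem sg_sq (e : ℤˣ) : sg e * sg e = 1 := by
  rw [← map_mul, Int.units_mul_self, map_one]

instance finR (X : Type*) [Group X] [Finite X] : Finite (X →* ℤˣ) := DFunLike.finite _

theorem card_R {G : Type*} [Group G] [Finite G] (T : Subgroup G) :
    Nat.card (G →* ℤˣ) ≤ T.index * Nat.card (T →* ℤˣ) := by
  classical
  haveI := Fintype.ofFinite (G →* ℤˣ)
  haveI := Fintype.ofFinite (T →* ℤˣ)
  let r : (G →* ℤˣ) → (T →* ℤˣ) := fun f => f.comp T.subtype
  have h1 : (Finset.univ : Finset (G →* ℤˣ)).card ≤ T.index * (Finset.univ.image r).card := by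
    apply Finset.card_le_mul_card_image
    intro b hb
    obtain ⟨f₀, -, hf₀⟩ := Finset.mem_image.1 hb
    refine le_trans ?_ (Cfsg.Agent.H26.Cliff.card_trivial_le T)
    haveI : Finite {f : G →* ℂˣ // ∀ x ∈ T, f x = 1} := Subtype.finite
    rw [← Nat.card_eq_finsetCard]
    have hb' : ∀ f : {x // x ∈ (Finset.univ : Finset (G →* ℤˣ)).filter (fun a => r a = b)}, ∀ x : T, (f : G →* ℤˣ) x = f₀ x := by
      intro f x
      have h2 : r f = r f₀ := (Finset.mem_filter.1 f.2).2.trans hf₀.symm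
      exact DFunLike.congr_fun h2 x
    refine Nat.card_le_card_of_injective
      (fun f : {x // x ∈ (Finset.univ : Finset (G →* ℤˣ)).filter (fun a => r a = b)} =>
        (⟨sg.comp ((f : G →* ℤˣ) * f₀⁻¹), fun x hx => by
          rw [MonoidHom.comp_apply, MonoidHom.mul_apply, MonoidHom.inv_apply, hb' f ⟨x, hx⟩, mul_inv_cancel, map_one]⟩ :
          {f : G →* ℂˣ // ∀ x ∈ T, f x = 1})) ?_
    intro f f' hff
    have h2 := congrArg Subtype.val hff
    apply Subtype.ext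
    ext g
    have h3 := DFunLike.congr_fun h2 g
    have h4 := sg_inj h3
    rw [MonoidHom.mul_apply, MonoidHom.mul_apply, mul_left_inj] at h4
    rw [h4]
  rw [Nat.card_eq_fintype_card, Nat.card_eq_fintype_card]
  exact h1.trans (Nat.mul_le_mul_left _ (Finset.card_le_univ _))

theorem real_lin {G : Type*} [Group G] [Fintype G] {χ : G → ℂ} (hχ : IsIrrCharacter G χ) (h1 : charDegree χ = 1)
    (hi : (Nat.card G : ℂ)⁻¹ * ∑ g : G, χ (g * g) = 1) : ∃ f : G →* ℤˣ, ∀ g, χ g = ((f g : ℤ) : ℂ) := by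
  classical
  have hG0 : (Nat.card G : ℂ) ≠ 0 := by exact_mod_cast Nat.card_pos.ne'
  have hc := IsIrr.isCharacter hχ
  have h2 : χ 1 = 1 := by
    rw [← Cfsg.Agent.H1.Deg.coe_deg hc, h1, Nat.cast_one]
  obtain ⟨u, hu⟩ := IsChar.hom_units_of_one hc h2
  let v : G →* ℂ := (Units.coeHom ℂ).comp (u * u)
  have hv : ∀ g, v g = χ (g * g) := by
    intro g
    rw [hu, map_mul]; rfl
  have h3 : ∑ g : G, v g = if v = 1 then (Fintype.card G : ℂ) else 0 := by
    rw [sum_hom_units]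
    split_ifs <;> simp
  have h4 : v = 1 := by
    by_contra hne
    rw [if_neg hne] at h3
    rw [← Finset.sum_congr rfl (fun g _ => hv g), h3, mul_zero] at hi
    exact zero_ne_one hi
  have h5 : ∀ g, (u g : ℂ) = 1 ∨ (u g : ℂ) = -1 := by
    intro g
    have := DFunLike.congr_fun h4 g
    have h6 : (u g : ℂ) * (u g : ℂ) = 1 := this
    exact mul_self_eq_one_iff.1 h6
  have hmul : ∀ a b, (u (a * b) : ℂ) = (u a : ℂ) * u b := by
    intro a b
    rw [map_mul, Units.val_mul]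
  have hn : (-1 : ℂ) ≠ 1 := by norm_num
  let f : G →* ℤˣ :=
    { toFun := fun g => if (u g : ℂ) = 1 then 1 else -1
      map_one' := by simp
      map_mul' := by
        intro a b
        rw [hmul]
        rcases h5 a with ha | ha <;> rcases h5 b with hb | hb <;> rw [ha, hb] <;> simp [hn] }
  refine ⟨f, fun g => ?_⟩
  rw [hu]
  show (u g : ℂ) = (((if (u g : ℂ) = 1 then 1 else -1 : ℤˣ) : ℤ) : ℂ)
  rcases h5 g with h | h <;> rw [h] <;> simp [hn]

/-- Let G be a finite group that is the semidirect product of a normal elementary abelian subgroup N of odd order by a non-trivial 2-subgroup P, with N the unique minimal normal subgroup of G. Consider the strongly real irreducible complex characters of G (Frobenius–Schur indicator +1) whose degree is 1 or even. Then their average degree is at least 4/3: four times their number is at most three times the sum of their degrees. -/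
theorem result {G : Type*} [Group G] [Finite G] (N P : Subgroup G) (hN : N.Normal) (q : ℕ) [Fact q.Prime] (hq : q ≠ 2) (hNel : Cfsg.IsElementaryAbelian q N) (hP : IsPGroup 2 ↥P) (hP1 : P ≠ ⊥) (hdisj : N ⊓ P = ⊥) (hprod : N ⊔ P = ⊤) (hmin : N ≠ ⊥ ∧ ∀ M : Subgroup G, M.Normal → M ≠ ⊥ → N ≤ M) : 4 * Nat.card {χ : Cfsg.IrrCharacter G // (Cfsg.charDegree (χ : G → ℂ) = 1 ∨ 2 ∣ Cfsg.charDegree (χ : G → ℂ)) ∧ (Nat.card G : ℂ)⁻¹ * ∑ᶠ g : G, (χ : G → ℂ) (g * g) = 1} ≤ 3 * (∑ᶠ χ : {χ : Cfsg.IrrCharacter G // (Cfsg.charDegree (χ : G → ℂ) = 1 ∨ 2 ∣ Cfsg.charDegree (χ : G → ℂ)) ∧ (Nat.card G : ℂ)⁻¹ * ∑ᶠ g : G, (χ : G → ℂ) (g * g) = 1}, Cfsg.charDegree (χ.1 : G → ℂ)) := by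
  classical
  haveI := Fintype.ofFinite G
  haveI : Fintype N := Fintype.ofFinite _
  haveI : Fintype (IrrCharacter G) := Fintype.ofFinite _
  have hqo : Odd q := (Fact.out : q.Prime).odd_of_ne_two hq
  have hab : ∀ a ∈ N, ∀ b ∈ N, a * b = b * a := by
    intro a ha b hb
    exact congrArg Subtype.val (hNel.1.is_comm.comm ⟨a, ha⟩ ⟨b, hb⟩)
  obtain ⟨z, hzP, hzz, hzc, hinv⟩ := setup N P hN hab hP hP1 hdisj hprod hmin.1 hmin.2
  obtain ⟨π, hπP, hπN, hπ, hπ1⟩ := exists_retr N P hN hdisj hprod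
  have hπz : ∀ g, π (z⁻¹ * g * z) = z⁻¹ * π g * z := by
    intro g
    rw [map_mul, map_mul, map_inv, hπ z hzP]
  have hπz' : ∀ g, π (z⁻¹ * g * z) = π g := by
    intro g
    rw [hπz, mul_assoc, hzc _ (hπP g), inv_mul_cancel_left]
  -- the linear character of `N`
  letI : CommGroup N := { (inferInstance : Group N) with mul_comm := fun a b => Subtype.ext (hab a a.2 b b.2) }
  haveI : Nontrivial N := (Subgroup.nontrivial_iff_ne_bot N).2 hmin.1
  obtain ⟨a, ha⟩ := exists_ne (1 : N)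
  obtain ⟨lam, hlam⟩ := CommGroup.exists_apply_ne_one_of_hasEnoughRootsOfUnity N ℂ ha
  set θ : N → ℂ := fun n => (lam n : ℂ) with hθdef
  have hθ : IsIrrCharacter N θ := isIrr_of_hom_units lam
  obtain ⟨T, hT⟩ : ∃ T : Subgroup G, T = inertia hN θ := ⟨_, rfl⟩
  have hNT : N ≤ T := by rw [hT]; exact le_inertia hN (IsIrr.isClass hθ)
  haveI : Fintype T := Fintype.ofFinite _
  haveI : Fintype (T →* ℤˣ) := Fintype.ofFinite _
  obtain ⟨L, hLN, hLz⟩ := exists_ext hN lam z hinv hzz π hπN hπ1 hπz T hT hNT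
  -- real linear characters of `T`
  have hμN : ∀ (μ : T →* ℤˣ) (n : G) (hn : n ∈ N), μ ⟨n, hNT hn⟩ = 1 := by
    intro μ n hn
    have h1 : (⟨n, hNT hn⟩ : T) ^ q = 1 := Subtype.ext (hNel.2 n hn)
    have h2 := congrArg μ h1
    rw [map_pow, map_one] at h2
    rcases Int.units_eq_one_or (μ ⟨n, hNT hn⟩) with h | h
    · exact h
    · rw [h, hqo.neg_one_pow] at h2
      exact absurd h2 (by decide)
  have hμπ : ∀ (μ : T →* ℤˣ) (s t : T), π s = π t → μ s = μ t := by
    intro μ s t hst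
    have h1 : (s : G) * (t : G)⁻¹ ∈ N := by
      have h2 := N.mul_mem (hπN s) (N.inv_mem (hπN t))
      have h3 : (s : G) * (π s)⁻¹ * ((t : G) * (π t)⁻¹)⁻¹ = s * (t : G)⁻¹ := by
        rw [hst]; group
      rwa [h3] at h2
    have h2 : s = ⟨(s : G) * (t : G)⁻¹, hNT h1⟩ * t := Subtype.ext (by
      show (s : G) = s * (t : G)⁻¹ * t
      group)
    rw [h2, map_mul, hμN μ _ h1, one_mul]
  let Θ : (T →* ℤˣ) → (T →* ℂˣ) := fun μ => L * sg.comp μ
  have hΘN : ∀ μ n (hn : n ∈ N), Θ μ ⟨n, hNT hn⟩ = lam ⟨n, hn⟩ := by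
    intro μ n hn
    show L ⟨n, hNT hn⟩ * sg (μ ⟨n, hNT hn⟩) = _
    rw [hLN, hμN μ n hn, map_one, mul_one]
  have hΘz : ∀ μ, ∀ t : T, ∀ h, Θ μ ⟨z⁻¹ * t * z, h⟩ * Θ μ t = 1 := by
    intro μ t h
    show L ⟨z⁻¹ * t * z, h⟩ * sg (μ ⟨z⁻¹ * t * z, h⟩) * (L t * sg (μ t)) = 1
    rw [hLz, hμπ μ ⟨z⁻¹ * t * z, h⟩ t (hπz' t), mul_mul_mul_comm, sg_sq, inv_mul_cancel, one_mul]
  have hres : ∀ μ, classInner (fun n : N => ((Θ μ ⟨(n : G), hNT n.2⟩ : ℂˣ) : ℂ)) θ ≠ 0 := by
    intro μ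
    have h1 : (fun n : N => ((Θ μ ⟨(n : G), hNT n.2⟩ : ℂˣ) : ℂ)) = θ := by
      funext n
      rw [hΘN]
    rw [h1, ci_irr_self hθ]
    exact one_ne_zero
  have hirr : ∀ μ, IsIrrCharacter G (indFun T (fun t => (Θ μ t : ℂ))) := fun μ =>
    Cfsg.Agent.H26.Cliff.ind_irr (hN := hN) hθ T hT hNT (isIrr_of_hom_units (Θ μ)) (hres μ)
  have hind := fun μ => indicator hN lam z hinv hzz T hT hNT (Θ μ) (hΘN μ) (hΘz μ)
  have hdeg : ∀ μ, charDegree (indFun T (fun t => (Θ μ t : ℂ))) = T.index := by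
    intro μ
    apply Cfsg.Agent.H1.Deg.deg_eq
    rw [ind_one, map_one, Units.val_one, mul_one]
  -- the index of `T` is even
  have hzT : z ∉ T := by
    intro h
    rw [hT] at h
    have h1 := (mem_T hN lam).1 h
    apply hlam
    have h2 := h1 a
    have h3 : (⟨z * a * z⁻¹, hN.conj_mem a a.2 z⟩ : N) = a⁻¹ := Subtype.ext (hinv a a.2)
    rw [h3, map_inv, inv_eq_iff_mul_eq_one] at h2
    have h4 : lam a ^ q = 1 := by
      rw [← map_pow]
      have : a ^ q = 1 := Subtype.ext (hNel.2 a a.2)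
      rw [this, map_one]
    obtain ⟨j, hj⟩ := hqo
    rw [hj, pow_succ, pow_mul, sq, h2, one_pow, one_mul] at h4
    exact h4
  have h2idx : 2 ∣ T.index := by
    have h1 : T.index ∣ N.index := Subgroup.index_dvd_of_le hNT
    have hc : P.IsComplement' N := by
      have h1 : N.IsComplement' P := Subgroup.isComplement'_of_disjoint_and_mul_eq_univ (disjoint_iff.2 hdisj) (by
        rw [← Subgroup.normal_mul, hprod]; rfl)
      exact h1.symm
    rw [hc.index_eq_card] at h1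
    obtain ⟨k, hk⟩ := IsPGroup.iff_card.1 hP
    rw [hk] at h1
    obtain ⟨j, -, hj⟩ := (Nat.dvd_prime_pow Nat.prime_two).1 h1
    have hj0 : j ≠ 0 := by
      rintro rfl
      rw [pow_zero, Subgroup.index_eq_one] at hj
      exact hzT (by rw [hj]; exact Subgroup.mem_top _)
    rw [hj]
    exact dvd_pow_self 2 hj0
  have hidx2 : 2 ≤ T.index := Nat.le_of_dvd (Nat.pos_of_ne_zero Subgroup.index_ne_zero_of_finite) h2idx
  -- the set
  set A := {χ : Cfsg.IrrCharacter G // (Cfsg.charDegree (χ : G → ℂ) = 1 ∨ 2 ∣ Cfsg.charDegree (χ : G → ℂ)) ∧ (Nat.card G : ℂ)⁻¹ * ∑ᶠ g : G, (χ : G → ℂ) (g * g) = 1} with hA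
  rw [finsum_eq_sum_of_fintype]
  let Ψ : (T →* ℤˣ) → A := fun μ => ⟨⟨_, hirr μ⟩, Or.inr (by
    show 2 ∣ charDegree (indFun T (fun t => (Θ μ t : ℂ)))
    rw [hdeg]; exact h2idx), by rw [finsum_eq_sum_of_fintype]; exact hind μ⟩
  have hΨ : Function.Injective Ψ := by
    intro μ μ' h
    have h1 : indFun T (fun t => (Θ μ t : ℂ)) = indFun T (fun t => (Θ μ' t : ℂ)) := congrArg (fun x : A => (x.1 : G → ℂ)) h
    have h2 := Cfsg.Agent.H26.Cliff.ind_inj (hN := hN) hθ T hT hNT (isIrr_of_hom_units (Θ μ)) (hres μ) (isIrr_of_hom_units (Θ μ')) (hres μ') h1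
    ext t
    have h3 : Θ μ t = Θ μ' t := Units.ext (congrFun h2 t)
    have h4 : L t * sg (μ t) = L t * sg (μ' t) := h3
    rw [sg_inj (mul_left_cancel h4)]
  let W : Finset A := Finset.univ.image Ψ
  have hW : W.card = Nat.card (T →* ℤˣ) := by
    rw [Finset.card_image_of_injective _ hΨ, Finset.card_univ, Nat.card_eq_fintype_card]
  let A₁ : Finset A := Finset.univ.filter fun a => charDegree (a.1 : G → ℂ) = 1
  have hA₁ : A₁.card ≤ T.index * W.card := by
    rw [hW]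
    refine le_trans ?_ (card_R T)
    have h1 : ∀ a : {x // x ∈ A₁}, ∃ f : G →* ℤˣ, ∀ g, (a.1.1 : G → ℂ) g = ((f g : ℤ) : ℂ) := fun a =>
      real_lin a.1.1.2 (Finset.mem_filter.1 a.2).2 (by
        have := a.1.2.2
        rwa [finsum_eq_sum_of_fintype] at this)
    choose f hf using h1
    rw [← Nat.card_eq_finsetCard]
    refine Nat.card_le_card_of_injective f ?_
    intro a b hab
    apply Subtype.ext
    apply Subtype.ext
    apply Subtype.ext
    funext g
    rw [hf, hf, hab]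
  have hpt : ∀ a : A, 4 + (if a ∈ W then T.index else 0) ≤ 3 * charDegree (a.1 : G → ℂ) + (if a ∈ A₁ then 1 else 0) := by
    intro a
    by_cases haW : a ∈ W
    · obtain ⟨μ, -, rfl⟩ := Finset.mem_image.1 haW
      have h1 : charDegree ((Ψ μ).1 : G → ℂ) = T.index := hdeg μ
      rw [if_pos haW, h1]
      omega
    · rw [if_neg haW]
      by_cases ha1 : a ∈ A₁
      · rw [if_pos ha1, (Finset.mem_filter.1 ha1).2]
      · rw [if_neg ha1]
        have h1 : charDegree (a.1 : G → ℂ) ≠ 1 := fun h => ha1 (Finset.mem_filter.2 ⟨Finset.mem_univ _, h⟩)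
        have h2 := a.2.1.resolve_left h1
        have h3 := Cfsg.Agent.H1.Deg.deg_pos a.1.2
        have h4 := Nat.le_of_dvd h3 h2
        omega
  suffices hgoal : 4 * Nat.card A ≤ 3 * ∑ a : A, charDegree (a.1 : G → ℂ) by convert hgoal
  have hsum := Finset.sum_le_sum (fun a (_ : a ∈ (Finset.univ : Finset A)) => hpt a)
  rw [Finset.sum_add_distrib, Finset.sum_add_distrib, ← Finset.mul_sum, Finset.sum_const, Finset.card_univ, smul_eq_mul,
    ← Finset.sum_filter, ← Finset.sum_filter, Finset.sum_const, Finset.sum_const, smul_eq_mul, smul_eq_mul,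
    Finset.filter_mem_eq_inter, Finset.filter_mem_eq_inter, Finset.univ_inter, Finset.univ_inter, mul_one] at hsum
  rw [Nat.card_eq_fintype_card]
  have h5 : W.card * T.index = T.index * W.card := mul_comm _ _
  omega

end Cfsg.Agent.S4871
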