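import Cfsg.Statements.S4872
import Cfsg.Agent.H10_FSFix
import Cfsg.Agent.H3_BlkGal
import Cfsg.Agent.H26_Kernel
import Cfsg.Agent.H10_PpDeg

set_option autoImplicit false
open Cfsg

namespace Cfsg.Agent.S4872

open scoped ComplexConjugate
open Cfsg.Agent Cfsg.Agent.H3.CharBasic Cfsg.Agent.H3.CharIrr Cfsg.Agent.H3.CharInt Cfsg.Agent.H3.CharCalc
  Cfsg.Agent.H3.CharComplete Cfsg.Agent.H3.CharInd Cfsg.Agent.H3.CharMult Cfsg.Agent.H3.CharQuot
  Cfsg.Agent.H3.Clifford Cfsg.Agent.H1.Deg Cfsg.Agent.H1.Basic Cfsg.Agent.H10.FSFix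

/-- the counting identity -/
theorem sum_ae {G : Type*} [Group G] [Fintype G] [Fintype (IrrCharacter G)] (S : Subgroup G) [Fintype S] {N : Subgroup G} (hN : N.Normal)
    [Fintype N] {φ : N → ℂ} (hφ : IsIrrCharacter N φ)
    (hvan : ∀ m : N, m ≠ 1 → ∀ x : G, x⁻¹ * (m : G) * x ∈ S → φ m = 0) {t : ℕ}
    (ht : charDegree φ * Nat.card G = t * (Nat.card N * Nat.card S)) :
    ∑ χ : IrrCharacter G, classInner (fun s : S => (χ : G → ℂ) s) (fun _ => 1) *
      classInner (fun n : N => (χ : G → ℂ) n) φ = t := by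
  classical
  have h1 : IsCharacter S (fun _ => 1) := IsIrr.isCharacter isIrr_one
  obtain ⟨n, hn, hs⟩ := IsChar.eq_sum_nat (IsChar.ind (G := G) h1)
  have h2 : ∀ χ : IrrCharacter G, classInner (fun s : S => (χ : G → ℂ) s) (fun _ => 1) = n χ := by
    intro χ
    rw [← frobenius' S _ _ (IsIrr.isClass χ.2), ← ci_conj_symm, hn, Complex.conj_natCast]
  have h3 : classInner (fun m : N => indFun S (fun _ => (1 : ℂ)) m) φ =
      ∑ χ : IrrCharacter G, classInner (fun s : S => (χ : G → ℂ) s) (fun _ => 1) *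
      classInner (fun n : N => (χ : G → ℂ) n) φ := by
    have e1 : (fun m : N => indFun S (fun _ => (1 : ℂ)) m) = ∑ χ : IrrCharacter G, (n χ : ℂ) • (fun m : N => (χ : G → ℂ) m) := by
      funext m
      rw [hs]
      simp [Finset.sum_apply]
    rw [e1, ci_sum_left]
    refine Finset.sum_congr rfl fun χ _ => ?_
    rw [ci_smul_left, h2]
  rw [← h3]
  -- direct computation
  have h4 : ∀ m : N, indFun S (fun _ => (1 : ℂ)) m * conj (φ m) = if m = 1 then
      (Nat.card S : ℂ)⁻¹ * Nat.card G * charDegree φ else 0 := by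
    intro m
    by_cases hm : m = 1
    · rw [if_pos hm, hm, Subgroup.coe_one, ind_one]
      have h5 : (Nat.card S : ℂ) ≠ 0 := by exact_mod_cast Nat.card_pos.ne'
      have h6 : (S.index : ℂ) = (Nat.card S : ℂ)⁻¹ * Nat.card G := by
        rw [← S.card_mul_index]; push_cast; field_simp
      rw [h6, ← coe_deg (IsIrr.isCharacter hφ), Complex.conj_natCast, mul_one]
    · rw [if_neg hm]
      by_cases hx : ∃ x : G, x⁻¹ * (m : G) * x ∈ S
      · obtain ⟨x, hx⟩ := hx
        rw [hvan m hm x hx, map_zero, mul_zero]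
      · push Not at hx
        have h5 : indFun S (fun _ => (1 : ℂ)) (m : G) = 0 := by
          rw [indFun]
          rw [Finset.sum_eq_zero, mul_zero]
          intro x _
          rw [extendByZero, Function.extend_apply']
          · rfl
          · rintro ⟨s, hs⟩
            apply hx x
            rw [← hs]; exact s.2
        rw [h5, zero_mul]
  rw [classInner, Finset.sum_congr rfl (fun m _ => h4 m), Finset.sum_ite_eq' Finset.univ (1 : N), if_pos (Finset.mem_univ _)]
  have hS : (Nat.card S : ℂ) ≠ 0 := by exact_mod_cast Nat.card_pos.ne'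
  have hNc : (Nat.card N : ℂ) ≠ 0 := by exact_mod_cast Nat.card_pos.ne'
  have ht' : (charDegree φ : ℂ) * Nat.card G = t * (Nat.card N * Nat.card S) := by exact_mod_cast ht
  field_simp
  linear_combination ht'

theorem exists_real {G : Type*} [Group G] [Fintype G] (S : Subgroup G) [Fintype S] {N : Subgroup G} (hN : N.Normal)
    [Fintype N] {φ : N → ℂ} (hφ : IsIrrCharacter N φ)
    (hvan : ∀ m : N, m ≠ 1 → ∀ x : G, x⁻¹ * (m : G) * x ∈ S → φ m = 0) {t : ℕ}
    (ht : charDegree φ * Nat.card G = t * (Nat.card N * Nat.card S)) (hodd : Odd t)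
    (hconj : ∃ g : G, cj hN g φ = fun n => conj (φ n)) :
    ∃ (χ : G → ℂ) (a e : ℕ), IsIrrCharacter G χ ∧ (∀ g, conj (χ g) = χ g) ∧
      classInner (fun s : S => χ s) (fun _ => 1) = a ∧ classInner (fun n : N => χ n) φ = e ∧ Odd a ∧ Odd e := by
  classical
  haveI : Fintype (IrrCharacter G) := Fintype.ofFinite _
  have h1 : ∀ χ : IrrCharacter G, ∃ a : ℕ, classInner (fun s : S => (χ : G → ℂ) s) (fun _ => 1) = a := fun χ =>
    ci_char_nat (IsChar.res (IsIrr.isCharacter χ.2) S) (IsIrr.isCharacter isIrr_one)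
  have h2 : ∀ χ : IrrCharacter G, ∃ e : ℕ, classInner (fun n : N => (χ : G → ℂ) n) φ = e := fun χ =>
    ci_char_nat (IsChar.res (IsIrr.isCharacter χ.2) N) (IsIrr.isCharacter hφ)
  choose a ha using h1
  choose e he using h2
  have hsum := sum_ae S hN hφ hvan ht
  rw [Finset.sum_congr rfl (fun χ _ => by rw [ha χ, he χ])] at hsum
  have hsum' : ∑ χ : IrrCharacter G, a χ * e χ = t := by exact_mod_cast hsum
  let T := {χ : IrrCharacter G // Odd (a χ * e χ)}
  have hT : Odd (Nat.card T) := by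
    have h3 := congrArg (fun z : ℕ => (z : ZMod 2)) hsum'
    simp only [Nat.cast_sum] at h3
    have h4 : ∀ χ : IrrCharacter G, ((a χ * e χ : ℕ) : ZMod 2) = if Odd (a χ * e χ) then 1 else 0 := by
      intro χ
      split_ifs with h
      · exact (ZMod.natCast_eq_one_iff_odd).mpr h
      · exact (ZMod.natCast_eq_zero_iff_even).mpr (Nat.not_odd_iff_even.mp h)
    rw [Finset.sum_congr rfl (fun χ _ => h4 χ), Finset.sum_boole, (ZMod.natCast_eq_one_iff_odd).mpr hodd] at h3
    rw [Nat.card_eq_fintype_card, Fintype.card_subtype]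
    exact (ZMod.natCast_eq_one_iff_odd).mp h3
  obtain ⟨g, hg⟩ := hconj
  let cI : IrrCharacter G → IrrCharacter G := fun χ => ⟨fun x => conj ((χ : G → ℂ) x), IsIrr.conj χ.2⟩
  have hconj1 : ∀ {A : Type _} [Group A] [Fintype A] (f h : A → ℂ),
      classInner (fun x => conj (f x)) h = conj (classInner f (fun x => conj (h x))) := by
    intro A _ _ f h
    rw [classInner, classInner, map_mul, map_inv₀, Complex.conj_natCast, map_sum]
    congr 1
    refine Finset.sum_congr rfl fun x _ => ?_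
    rw [map_mul, Complex.conj_conj]
  have haI : ∀ χ, a (cI χ) = a χ := by
    intro χ
    have h3 : (a (cI χ) : ℂ) = a χ := by
      rw [← ha, ← ha]
      show classInner (fun s : S => conj ((χ : G → ℂ) s)) (fun _ => 1) = _
      rw [hconj1]
      simp only [map_one]
      rw [ha, Complex.conj_natCast]
    exact_mod_cast h3
  have heI : ∀ χ, e (cI χ) = e χ := by
    intro χ
    have h3 : (e (cI χ) : ℂ) = e χ := by
      rw [← he, ← he]
      show classInner (fun n : N => conj ((χ : G → ℂ) n)) φ = _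
      rw [hconj1, ← hg, cj_ci_res hN (IsIrr.isClass χ.2), he, Complex.conj_natCast]
    exact_mod_cast h3
  let c : T → T := fun χ => ⟨cI χ.1, by rw [haI, heI]; exact χ.2⟩
  haveI := Fact.mk Nat.prime_two
  have hcc : c^[2 ^ 1] = id := by
    funext χ
    apply Subtype.ext
    apply Subtype.ext
    funext x
    show conj (conj ((χ.1 : G → ℂ) x)) = (χ.1 : G → ℂ) x
    rw [Complex.conj_conj]
  have hfm := H3.BlkGal.card_fixed_mod c hcc
  have hne : Nonempty {x // c x = x} := by
    by_contra hcon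
    rw [not_nonempty_iff] at hcon
    rw [Nat.card_of_isEmpty (α := {x // c x = x})] at hfm
    have h3 : Nat.card T % 2 = 0 % 2 := hfm
    rw [Nat.odd_iff] at hT
    omega
  obtain ⟨⟨χ, hχo⟩, hχ⟩ := hne
  rw [Nat.odd_mul] at hχo
  refine ⟨χ, a χ, e χ, χ.2, ?_, ha χ, he χ, hχo.1, hχo.2⟩
  intro x
  exact congrArg (fun y : T => (y.1 : G → ℂ) x) hχ

/-- Let N be a normal subgroup of the finite group G with G/N a 2-group, and let φ be an irreducible complex character of N of 2-defect zero (the 2-part of #N divides φ(1)) whose complex conjugate is G-conjugate to φ. Then some irreducible character of G with Frobenius–Schur indicator +1 contains φ with multiplicity exactly one on restriction to N. -/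
theorem result {G : Type*} [Group G] [Finite G] (N : Subgroup G) [N.Normal] (h2 : IsPGroup 2 (G ⧸ N)) (φ : Cfsg.IrrCharacter ↥N) (hdef : 2 ^ (Nat.card ↥N).factorization 2 ∣ Cfsg.charDegree (φ : ↥N → ℂ)) (hconj : ∃ g : G, ∀ n n' : ↥N, (n' : G) = g * (n : G) * g⁻¹ → (φ : ↥N → ℂ) n' = (starRingEnd ℂ) ((φ : ↥N → ℂ) n)) : ∃ χ : Cfsg.IrrCharacter G, (Nat.card G : ℂ)⁻¹ * ∑ᶠ g : G, (χ : G → ℂ) (g * g) = 1 ∧ (Nat.card ↥N : ℂ)⁻¹ * ∑ᶠ n : ↥N, (χ : G → ℂ) n * (starRingEnd ℂ) ((φ : ↥N → ℂ) n) = 1 := by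
  classical
  haveI : Fintype G := Fintype.ofFinite _
  haveI : Fintype N := Fintype.ofFinite _
  haveI hp := Fact.mk Nat.prime_two
  have hN : N.Normal := inferInstance
  obtain ⟨S⟩ : Nonempty (Sylow 2 G) := inferInstance
  haveI : Fintype (S : Subgroup G) := Fintype.ofFinite _
  obtain ⟨k, hk⟩ := IsPGroup.iff_card.1 h2
  have hidx : N.index = 2 ^ k := by rw [← hk]; rfl
  obtain ⟨t, ht⟩ := hdef
  have hφpos := deg_pos φ.2
  have ht0 : t ≠ 0 := by
    rintro rfl
    rw [mul_zero] at ht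
    omega
  have hfac : (charDegree (φ : N → ℂ)).factorization 2 ≤ (Nat.card N).factorization 2 :=
    (Nat.factorization_le_iff_dvd hφpos.ne' Nat.card_pos.ne').2 (deg_dvd_card φ.2) 2
  have htodd : Odd t := by
    rw [← Nat.not_even_iff_odd, even_iff_two_dvd]
    intro hd
    have h3 : (charDegree (φ : N → ℂ)).factorization 2 = (Nat.card N).factorization 2 + t.factorization 2 := by
      rw [ht, Nat.factorization_mul (pow_ne_zero _ two_ne_zero) ht0, Finsupp.add_apply, Nat.Prime.factorization_pow Nat.prime_two,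
        Finsupp.single_eq_same]
    have h4 := Nat.Prime.factorization_pos_of_dvd Nat.prime_two ht0 hd
    omega
  have hcS : Nat.card (S : Subgroup G) = 2 ^ ((Nat.card N).factorization 2 + k) := by
    rw [S.card_eq_multiplicity]
    congr 1
    rw [← N.card_mul_index, hidx, Nat.factorization_mul Nat.card_pos.ne' (pow_ne_zero _ two_ne_zero), Finsupp.add_apply,
      Nat.Prime.factorization_pow Nat.prime_two, Finsupp.single_eq_same]
  have htt : charDegree (φ : N → ℂ) * Nat.card G = t * (Nat.card N * Nat.card (S : Subgroup G)) := by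
    rw [hcS, ht, ← N.card_mul_index, hidx, pow_add]
    ring
  obtain ⟨χ, a, e, hχ, hreal, ha, he, hao, heo⟩ := exists_real (S : Subgroup G) hN φ.2 (by
    intro m hm x hx
    apply H26.Kernel.vanish_of_defect_zero (p := 2) φ
    · rw [← Nat.Prime.pow_dvd_iff_le_factorization Nat.prime_two hφpos.ne', ht]
      exact dvd_mul_right _ _
    · obtain ⟨j, hj⟩ := IsPGroup.iff_orderOf.1 S.2 ⟨_, hx⟩
      rw [Subgroup.orderOf_mk] at hj
      have h3 : orderOf (x⁻¹ * (m : G) * x) = orderOf m := by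
        have h4 : x⁻¹ * (m : G) * x = MulAut.conj x⁻¹ (m : G) := by simp
        rw [h4, MulEquiv.orderOf_eq, Subgroup.orderOf_coe]
      rw [h3] at hj
      rw [hj]
      apply dvd_pow_self
      rintro rfl
      rw [pow_zero] at hj
      exact hm (orderOf_eq_one_iff.1 hj)) htt htodd (by
    obtain ⟨g, hg⟩ := hconj
    refine ⟨g, ?_⟩
    funext n
    exact hg n ⟨g * n * g⁻¹, hN.conj_mem n n.2 g⟩ rfl)
  refine ⟨⟨χ, hχ⟩, ?_, ?_⟩
  · rw [finsum_eq_sum_of_fintype]
    refine ind_pos hχ ?_ (S : Subgroup G) ha hao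
    intro g
    exact Complex.conj_eq_iff_im.1 (hreal g)
  · rw [finsum_eq_sum_of_fintype]
    show classInner (fun n : N => χ n) (φ : N → ℂ) = 1
    have he0 : classInner (fun n : N => χ n) (φ : N → ℂ) ≠ 0 := by
      rw [he]
      have : e ≠ 0 := by
        rintro rfl
        exact absurd heo (by decide)
      exact_mod_cast this
    obtain ⟨b, hb, hbi⟩ := H3.Lift.degree_dvd N hχ φ.2 he0
    have h3 := clifford_degree hN hχ φ.2 he0
    rw [he] at h3
    have h4 : (e * (inertia hN (φ : N → ℂ)).index : ℂ) = b := by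
      have h5 : ((e : ℂ) * ((inertia hN (φ : N → ℂ)).index : ℂ)) * (φ : N → ℂ) 1 = b * (φ : N → ℂ) 1 := by
        rw [← h3, hb]
      exact mul_right_cancel₀ (IsIrr.one_ne_zero φ.2) h5
    have h6 : e ∣ b := ⟨(inertia hN (φ : N → ℂ)).index, by exact_mod_cast h4.symm⟩
    rw [hidx] at hbi
    obtain ⟨i, -, hi⟩ := (Nat.dvd_prime_pow Nat.prime_two).1 (h6.trans hbi)
    cases i with
    | zero => rw [he, hi, pow_zero, Nat.cast_one]
    | succ i =>
      exfalso
      rw [hi, Nat.odd_iff, pow_succ] at heo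
      omega

end Cfsg.Agent.S4872
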