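import Cfsg.Statements.S4888
import Mathlib
import Cfsg.Agent.S4725
import Cfsg.Agent.H26_Ext0
import Cfsg.Agent.H26_B0
import Cfsg.Agent.H10_BlockKer
import Cfsg.Agent.H10_BlockHZ
import Cfsg.Agent.H10_BlockMain
import Cfsg.Agent.H10_BlockQuot
import Cfsg.Agent.H2_Fusion3
import Cfsg.Agent.H2_Basic
import Cfsg.Agent.H1_Basic
import Cfsg.Agent.H3_CharMult
import Cfsg.Agent.H26_Defect
import Cfsg.Agent.H26_Codeg

set_option autoImplicit false
open Cfsg

namespace Cfsg.Agent.S4888

open Cfsg Cfsg.Agent.H3.CharIrr Cfsg.Agent.H3.CharComplete Cfsg.Agent.H3.CharInd Cfsg.Agent.H3.CharMult Cfsg.Agent.H10.BlockAlg Cfsg.Agent.H10.BlockLoc Cfsg.Agent.H10.BlockIdem Cfsg.Agent.H10.BlockKer Cfsg.Agent.H10.BlockInd Cfsg.Agent.H26.Basic Cfsg.Agent.H26.B0 Cfsg.Agent.H26.Ext0 Cfsg.Agent.H10.BlockQuot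

open scoped ComplexConjugate

/-- a linear character of a Sylow subgroup lifts to the principal block of `P C(P)` -/
theorem exists_lift {G : Type*} [Group G] [Fintype G] {p : ℕ} [hp : Fact p.Prime] {M : Ideal AlgInt}
    (hM : IsPModular p M) (P : Sylow p G) (lam : (P : Subgroup G) →* ℂˣ) (hlam : ∀ x, lam x ^ p = 1)
    (H : Subgroup G) [Fintype H] (hH : H = (P : Subgroup G) ⊔ Subgroup.centralizer ((P : Subgroup G) : Set G))
    (hPH : (P : Subgroup G) ≤ H) :
    ∃ μ : H →* ℂˣ, (∀ x : (P : Subgroup G), μ ⟨x, hPH x.2⟩ = lam x) ∧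
      (⟨fun h => (μ h : ℂ), isIrr_of_hom_units μ⟩ : IrrCharacter H) ∈ principalBlock M H := by
  classical
  haveI := hM.2.1
  have hCN : Subgroup.centralizer ((P : Subgroup G) : Set G) ≤ Subgroup.normalizer ((P : Subgroup G) : Set G) :=
    Subgroup.centralizer_le_normalizer _
  have hHN : H ≤ Subgroup.normalizer ((P : Subgroup G) : Set G) := by
    rw [hH]; exact sup_le Subgroup.le_normalizer hCN
  haveI hN : ((P : Subgroup G).subgroupOf H).Normal :=
    (Subgroup.normal_subgroupOf_iff_le_normalizer hPH).2 hHN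
  let e := Subgroup.subgroupOfEquivOfLe hPH
  let lam' : ((P : Subgroup G).subgroupOf H) →* ℂˣ := lam.comp e.toMonoidHom
  have hinv : ∀ (h : H) (n : (P : Subgroup G).subgroupOf H),
      lam' ⟨h * n * h⁻¹, hN.conj_mem (n : H) n.2 h⟩ = lam' n := by
    intro h n
    have hh : (h : G) ∈ (P : Subgroup G) ⊔ Subgroup.centralizer ((P : Subgroup G) : Set G) := hH ▸ h.2
    obtain ⟨x, hx, c, hc, hxc⟩ := (Cfsg.Agent.H1.Basic.mem_sup_iff_of_le_normalizer hCN).1 hh
    have hn : ((n : H) : G) ∈ (P : Subgroup G) := Subgroup.mem_subgroupOf.1 n.2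
    have h1 : (h : G) * n * (h : G)⁻¹ = x * n * x⁻¹ := by
      have h2 := Subgroup.mem_centralizer_iff.1 hc _ hn
      rw [← hxc]
      calc x * c * (n : G) * (x * c)⁻¹ = x * (c * n) * c⁻¹ * x⁻¹ := by group
        _ = x * (n * c) * c⁻¹ * x⁻¹ := by rw [h2]
        _ = x * n * x⁻¹ := by group
    have h3 : lam' ⟨h * n * h⁻¹, hN.conj_mem (n : H) n.2 h⟩ =
        lam (⟨x, hx⟩ * ⟨_, hn⟩ * (⟨x, hx⟩ : (P : Subgroup G))⁻¹) := by
      show lam _ = _
      congr 1
      apply Subtype.ext
      exact h1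
    have h4 : lam' n = lam ⟨_, hn⟩ := rfl
    rw [h3, h4, map_mul, map_mul, map_inv, mul_comm (lam ⟨x, hx⟩), mul_inv_cancel_right]
  have hidx : ¬ p ∣ ((P : Subgroup G).subgroupOf H).index := by
    intro h
    have h1 : (P : Subgroup G).relIndex H ∣ (P : Subgroup G).index := Subgroup.relIndex_dvd_index_of_le hPH
    exact P.not_dvd_index (h.trans h1)
  have hcop : Nat.Coprime ((P : Subgroup G).subgroupOf H).index p :=
    ((Nat.Prime.coprime_iff_not_dvd hp.out).2 hidx).symm
  obtain ⟨μ, hμ, -⟩ := linear_ext ((P : Subgroup G).subgroupOf H) lam' hinv hp.out.ne_zero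
    (fun n => hlam _) hcop
  set t := ((P : Subgroup G).subgroupOf H).index with ht
  obtain ⟨k, hk⟩ := exists_mul_mod (a := t) hp.out.ne_zero hcop
  obtain ⟨a, ha⟩ := IsPGroup.iff_card.1 P.isPGroup'
  have hcard : Nat.card H = p ^ a * t := by
    rw [ht, ← ha, ← Cfsg.Agent.H1.Basic.card_subgroupOf hPH, Subgroup.card_mul_index]
  refine ⟨μ ^ (t * k), ?_, ?_⟩
  · intro x
    have h1 := hμ ⟨⟨x, hPH x.2⟩, Subgroup.mem_subgroupOf.2 x.2⟩
    have h2 : lam' ⟨⟨x, hPH x.2⟩, Subgroup.mem_subgroupOf.2 x.2⟩ = lam x := rfl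
    rw [MonoidHom.pow_apply, show μ ⟨x, hPH x.2⟩ = lam x from h1.trans h2]
    have h3 : lam x ^ (t * k) = lam x ^ (t * k % p) := by
      conv_lhs => rw [← Nat.mod_add_div (t * k) p, pow_add, pow_mul, hlam, one_pow, mul_one]
    rw [h3, hk, Nat.mod_eq_of_lt hp.out.one_lt, pow_one]
  · rw [mem_principal_iff]
    intro g
    have h1 : centralChar (fun h => ((μ ^ (t * k)) h : ℂ)) g =
        ((Subgroup.centralizer ({g} : Set H)).index : ℂ) * ((μ ^ (t * k)) g : ℂ) := by
      rw [centralChar]; simp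
    show MemLocalIdeal M (((Subgroup.centralizer ({g} : Set H)).index : ℂ) - centralChar (fun h => ((μ ^ (t * k)) h : ℂ)) g)
    rw [h1]
    have h2 : (((μ ^ (t * k)) g : ℂˣ) : ℂ) ^ (p ^ a) = 1 := by
      rw [← Units.val_pow_eq_pow_val, MonoidHom.pow_apply, ← pow_mul, ← map_pow]
      have : t * k * p ^ a = Nat.card H * k := by rw [hcard]; ring
      rw [this, pow_mul, pow_card_eq_one', one_pow, map_one, Units.val_one]
    have h3 := Cfsg.Agent.H10.BlockHZ.root_sub_one_mem hM h2
    have h4 : ((Subgroup.centralizer ({g} : Set H)).index : ℂ) - ((Subgroup.centralizer ({g} : Set H)).index : ℂ) * ((μ ^ (t * k)) g : ℂ)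
      = (-((Subgroup.centralizer ({g} : Set H)).index : ℂ)) * (((μ ^ (t * k)) g : ℂ) - 1) := by ring
    rw [h4]
    exact ideal_mul_left (ring_neg (ring_natCast _)) h3

theorem sInf_principal {G : Type*} [Group G] [Fintype G] {p : ℕ} {M : Ideal AlgInt} [M.IsMaximal] :
    sInf ((fun χ : IrrCharacter G => (charDegree (χ : G → ℂ)).factorization p) '' (principalBlock M G)) = 0 := by
  have h1 : (charDegree ((triv G : IrrCharacter G) : G → ℂ)) = 1 := by
    have := cd_eq (triv G)
    rw [triv_coe] at this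
    exact_mod_cast this
  have h2 : 0 ∈ ((fun χ : IrrCharacter G => (charDegree (χ : G → ℂ)).factorization p) '' (principalBlock M G)) :=
    ⟨triv G, triv_mem, by show (charDegree _).factorization p = 0; rw [h1]; simp⟩
  exact Nat.le_zero.1 (Nat.sInf_le h2)

/-- key: linear characters of order `p` of the Sylow subgroup extend -/
theorem lin_ext {G : Type*} [Group G] [Fintype G] {p : ℕ} [hp : Fact p.Prime] {M : Ideal AlgInt}
    (hM : IsPModular p M)
    (hB : ∀ χ : IrrCharacter G, χ ∈ (principalBlock M G) → blockHeight p (principalBlock M G) (χ : G → ℂ) = 0 →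
      charDegree (χ : G → ℂ) = 1) (P : Sylow p G)
    (lam : (P : Subgroup G) →* ℂˣ) (hlam : ∀ x, lam x ^ p = 1) :
    ∃ f : G →* ℂˣ, ∀ x : (P : Subgroup G), f x = lam x := by
  classical
  haveI := hM.2.1
  let H : Subgroup G := (P : Subgroup G) ⊔ Subgroup.centralizer ((P : Subgroup G) : Set G)
  have hPH : (P : Subgroup G) ≤ H := le_sup_left
  haveI : Fintype H := Fintype.ofFinite H
  have hHN : H ≤ Subgroup.normalizer ((P : Subgroup G) : Set G) :=
    sup_le Subgroup.le_normalizer (Subgroup.centralizer_le_normalizer _)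
  obtain ⟨μ, hμ, hμB⟩ := exists_lift hM P lam hlam H rfl hPH
  set ζ : IrrCharacter H := ⟨fun h => (μ h : ℂ), isIrr_of_hom_units μ⟩ with hζ
  obtain ⟨B, hind⟩ := exists_inducedBlock (P : Subgroup G) H hM P.isPGroup' hPH le_sup_right hHN
    (principal_isPBlock (M := M) (G := H))
  have hind' : IsInducedBlock M H (principalBlock M H) (principalBlock M G) :=
    (third_main hM H ⟨B, hind⟩).2 rfl
  have hcardH : (Nat.card H).factorization p = (Nat.card G).factorization p := by
    apply le_antisymm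
    · exact (Nat.factorization_le_iff_dvd Nat.card_pos.ne' Nat.card_pos.ne').2 (Subgroup.card_subgroup_dvd_card H) p
    · have h1 : Nat.card (P : Subgroup G) ∣ Nat.card H := Subgroup.card_dvd_of_le hPH
      rw [Sylow.card_eq_multiplicity] at h1
      exact (hp.out.pow_dvd_iff_le_factorization Nat.card_pos.ne').1 h1
  have hdef : blockDefect p (principalBlock M H) = blockDefect p (principalBlock M G) := by
    rw [blockDefect, blockDefect, sInf_principal, sInf_principal, hcardH]
  have hζ1 : charDegree (ζ : H → ℂ) = 1 := by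
    have := cd_eq ζ
    simp only [hζ, map_one, Units.val_one] at this
    exact_mod_cast this
  have hζ0 : blockHeight p (principalBlock M H) (ζ : H → ℂ) = 0 := by
    rw [blockHeight, hζ1]; simp
  obtain ⟨χ, hχB, hχ0, a, ha, hpa⟩ := Cfsg.Agent.S4725.result p M hM H _ _ hind' hdef ζ hμB hζ0
  have hχ1 := hB χ hχB hχ0
  have hχ1' : (χ : G → ℂ) 1 = 1 := by rw [← cd_eq, hχ1]; simp
  obtain ⟨f, hf⟩ := IsChar.hom_units_of_one (IsIrr.isCharacter χ.2) hχ1'
  refine ⟨f, fun x => ?_⟩
  have h1 : classInner (fun h : H => (χ : G → ℂ) h) (ζ : H → ℂ) ≠ 0 := by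
    rw [← constituent_ind_iff (IsIrr.isCharacter χ.2), ha]
    intro h
    apply hpa
    have : a = 0 := by exact_mod_cast h
    rw [this]; exact dvd_zero p
  have h2 : (fun h : H => (χ : G → ℂ) h) = (ζ : H → ℂ) := by
    apply IsChar.eq_of_degree (IsChar.res (IsIrr.isCharacter χ.2) H) ζ.2 h1
    show (χ : G → ℂ) ((1 : H) : G) = (ζ : H → ℂ) 1
    rw [OneMemClass.coe_one, hχ1', ← cd_eq, hζ1]; simp
  have h3 := congrFun h2 ⟨x, hPH x.2⟩
  apply Units.ext
  rw [← hf, ← hμ]
  exact h3

/-- Let G be a finite group, p a prime and M a maximal ideal of the algebraic integers containing p. Then all height-zero irreducible characters of the principal p-block of G (equivalently, all its characters of degree prime to p) have the same degree if and only if G has a normal p-complement. -/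
theorem result {G : Type*} [Group G] [Finite G] (p : ℕ) [Fact p.Prime] (M : Ideal Cfsg.AlgInt) (hM : Cfsg.IsPModular p M) : (∃ d : ℕ, ∀ χ : Cfsg.IrrCharacter G, χ ∈ (Cfsg.principalBlock M G) → Cfsg.blockHeight p (Cfsg.principalBlock M G) (χ : G → ℂ) = 0 → Cfsg.charDegree (χ : G → ℂ) = d) ↔ Cfsg.HasNormalPComplement p G := by
  classical
  haveI : Fintype G := Fintype.ofFinite G
  haveI := hM.2.1
  rename_i hp _
  constructor
  · rintro ⟨d, hd⟩
    have hd1 : d = 1 := by
      have h1 := hd (triv G) triv_mem triv_height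
      have := cd_eq (triv G)
      rw [triv_coe, h1] at this
      exact_mod_cast this
    subst hd1
    obtain ⟨P⟩ : Nonempty (Sylow p G) := inferInstance
    apply Cfsg.Agent.H2.Fusion3.npc_of_tate P
    intro C hC hCi x hx hxG
    by_contra hxC
    -- a linear character of P trivial on C, nontrivial at x
    have hcardQ : Nat.card ((P : Subgroup G) ⧸ C) = p := hCi
    haveI : Finite ((P : Subgroup G) ⧸ C) := Nat.finite_of_card_ne_zero (by rw [hcardQ]; exact hp.out.ne_zero)
    haveI : Fintype ((P : Subgroup G) ⧸ C) := Fintype.ofFinite _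
    have hcyc : IsCyclic ((P : Subgroup G) ⧸ C) := isCyclic_of_prime_card hcardQ
    have hcomm : ∀ a b : (P : Subgroup G) ⧸ C, a * b = b * a := by
      intro a b
      exact (isMulCommutative_iff.1 (IsCyclic.commutative (α := (P : Subgroup G) ⧸ C))) a b
    have hx1 : (QuotientGroup.mk ⟨x, hx⟩ : (P : Subgroup G) ⧸ C) ≠ 1 := by
      rw [Ne, QuotientGroup.eq_one_iff]; exact hxC
    obtain ⟨ψ, hψ⟩ := Cfsg.Agent.H26.Codeg.exists_irr_ne hx1
    have hψ1 : (ψ : (P : Subgroup G) ⧸ C → ℂ) 1 = 1 := IsIrr.one_of_comm hcomm ψ.2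
    obtain ⟨f, hf⟩ := IsChar.hom_units_of_one (IsIrr.isCharacter ψ.2) hψ1
    let lam : (P : Subgroup G) →* ℂˣ := f.comp (QuotientGroup.mk' C)
    have hlam : ∀ y, lam y ^ p = 1 := by
      intro y
      show f (QuotientGroup.mk' C y) ^ p = 1
      rw [← map_pow]
      have h0 : (QuotientGroup.mk' C) y ^ Nat.card ((P : Subgroup G) ⧸ C) = 1 := pow_card_eq_one'
      rw [hcardQ] at h0
      rw [h0, map_one]
    obtain ⟨F, hF⟩ := lin_ext hM hd P lam hlam
    have h1 : F x = 1 := by
      have hker : commutator G ≤ F.ker := by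
        rw [commutator_def, Subgroup.commutator_le]
        intro a _ b _
        rw [MonoidHom.mem_ker, map_commutatorElement, commutatorElement_eq_one_iff_mul_comm, mul_comm]
      exact hker hxG
    have h2 := hF ⟨x, hx⟩
    rw [h1] at h2
    apply hψ
    rw [hf, hf, map_one]
    congr 1
    exact h2.symm
  · intro h
    obtain ⟨N, hN, hNp, k, hk⟩ := Cfsg.Agent.H2.Basic.npc_iff.1 h
    haveI : Fintype (G ⧸ N) := Fintype.ofFinite _
    refine ⟨1, fun χ hχ hχ0 => ?_⟩
    have h1 := principal_ker hM N hNp hχ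
    obtain ⟨χ', hχ'⟩ := exists_infl N h1
    have h2 : charDegree (χ : G → ℂ) = charDegree (χ' : G ⧸ N → ℂ) := by
      have h3 := cd_eq χ
      have h4 := cd_eq χ'
      have h5 : (χ : G → ℂ) 1 = (χ' : G ⧸ N → ℂ) 1 := by
        rw [← hχ', infl_apply]; rfl
      rw [h5, ← h4] at h3
      exact_mod_cast h3
    have h3 : charDegree (χ : G → ℂ) ∣ p ^ k := by
      rw [h2, ← hk]
      exact cd_dvd_card χ'
    obtain ⟨j, hj, hj'⟩ := (Nat.dvd_prime_pow hp.out).1 h3
    rw [blockHeight, sInf_principal, hj', hp.out.factorization_pow] at hχ0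
    simp at hχ0
    rw [hj', hχ0, pow_zero]

end Cfsg.Agent.S4888
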