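import Cfsg.Statements.S4892
import Mathlib
import Cfsg.Agent.H26_AD9

set_option autoImplicit false
open Cfsg

namespace Cfsg.Agent.S4892

open Cfsg.Agent.H26.AD Cfsg.Agent.H3.CharIrr Cfsg.Agent.H3.CharComplete Cfsg.Agent.H3.CharInd Cfsg.Agent.H3.Clifford Cfsg.Agent.H3.Lift Cfsg.Agent.H10.BlockKer Cfsg.Agent.H10.BlockLoc Cfsg.Agent.H26.Basic

open scoped ComplexConjugate

theorem normal_of {G : Type*} [Group G] [Finite G] {p : ℕ} [Fact p.Prime] (N : Subgroup G) [hN : N.Normal] (Q : Sylow p ↥N) :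
    (N ⊔ Subgroup.centralizer (((Q : Subgroup ↥N).map N.subtype : Subgroup G) : Set G)).Normal := by
  obtain ⟨Q', hQ'⟩ : ∃ Q' : Subgroup G, Q' = (Q : Subgroup ↥N).map N.subtype := ⟨_, rfl⟩
  have h0 := Sylow.normalizer_sup_eq_top Q
  rw [← hQ'] at h0 ⊢
  have hc : ∀ g ∈ Subgroup.normalizer (Q' : Set G), ∀ x ∈ Subgroup.centralizer (Q' : Set G), g * x * g⁻¹ ∈ Subgroup.centralizer (Q' : Set G) := by
    intro g hg x hx
    rw [Subgroup.mem_centralizer_iff] at hx ⊢
    intro u hu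
    have h1 : g⁻¹ * u * g ∈ Q' := by
      have := (Subgroup.mem_normalizer_iff.1 hg (g⁻¹ * u * g)).2 (by
        have : g * (g⁻¹ * u * g) * g⁻¹ = u := by group
        rw [this]; exact hu)
      exact this
    have h2 := hx _ h1
    have h3 : u * (g * x * g⁻¹) = g * ((g⁻¹ * u * g) * x) * g⁻¹ := by group
    have h4 : g * x * g⁻¹ * u = g * (x * (g⁻¹ * u * g)) * g⁻¹ := by group
    rw [h3, h4, h2]
  have hmap : ∀ g ∈ Subgroup.normalizer (Q' : Set G), ∀ x ∈ N ⊔ Subgroup.centralizer (Q' : Set G), g * x * g⁻¹ ∈ N ⊔ Subgroup.centralizer (Q' : Set G) := by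
    intro g hg x hx
    obtain ⟨m, hm, c, hcc, rfl⟩ := Subgroup.mem_sup_of_normal_left.1 hx
    have h2 : g * (m * c) * g⁻¹ = (g * m * g⁻¹) * (g * c * g⁻¹) := by group
    rw [h2]
    exact Subgroup.mul_mem _ (Subgroup.mem_sup_left (hN.conj_mem m hm g)) (Subgroup.mem_sup_right (hc g hg c hcc))
  constructor
  intro x hx g
  have hg : g ∈ Subgroup.normalizer (Q' : Set G) ⊔ N := by rw [h0]; trivial
  obtain ⟨c, hcn, m, hm, rfl⟩ := Subgroup.mem_sup_of_normal_right.1 hg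
  have h1 : m * x * m⁻¹ ∈ N ⊔ Subgroup.centralizer (Q' : Set G) :=
    Subgroup.mul_mem _ (Subgroup.mul_mem _ (Subgroup.mem_sup_left hm) hx) (Subgroup.inv_mem _ (Subgroup.mem_sup_left hm))
  have h2 := hmap c hcn _ h1
  have h3 : c * m * x * (c * m)⁻¹ = c * (m * x * m⁻¹) * c⁻¹ := by group
  rw [h3]; exact h2


/-- Let p be an odd prime, M a maximal ideal of the algebraic integers containing p, N a normal subgroup of the finite group G, and θ an irreducible character of N that is G-invariant, of degree prime to p, p-rational (values in the field generated over ℚ by a root of unity of order prime to p) and lies in the principal p-block of N. Let Q be a Sylow p-subgroup of N and suppose the index of N·C_G(Q) in G is a power of p. Then θ extends to a p-rational irreducible character of G lying in the principal p-block of G. -/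
theorem result {G : Type*} [Group G] [Finite G] (p : ℕ) [Fact p.Prime] (hp : p ≠ 2) (M : Ideal Cfsg.AlgInt) (hM : Cfsg.IsPModular p M) (N : Subgroup G) [N.Normal] (θ : Cfsg.IrrCharacter ↥N) (hinv : ∀ g : G, ∀ n n' : ↥N, (n' : G) = g * (n : G) * g⁻¹ → (θ : ↥N → ℂ) n' = (θ : ↥N → ℂ) n) (hdeg : ¬ p ∣ Cfsg.charDegree (θ : ↥N → ℂ)) (hrat : ∃ m : ℕ, ¬ p ∣ m ∧ ∀ n : ↥N, (θ : ↥N → ℂ) n ∈ IntermediateField.adjoin ℚ ({Complex.exp (2 * Real.pi * Complex.I / m)} : Set ℂ)) (hB : θ ∈ Cfsg.principalBlock M ↥N) (Q : Sylow p ↥N) (hidx : ∃ a : ℕ, (N ⊔ Subgroup.centralizer (((Q : Subgroup ↥N).map N.subtype : Subgroup G) : Set G)).index = p ^ a) : ∃ χ : Cfsg.IrrCharacter G, χ ∈ (Cfsg.principalBlock M G) ∧ (∃ n : ℕ, ¬ p ∣ n ∧ ∀ g : G, (χ : G → ℂ) g ∈ IntermediateField.adjoin ℚ ({Complex.exp (2 * Real.pi * Complex.I / n)} : Set ℂ)) ∧ ∀ n : ↥N, (χ : G → ℂ) n = (θ : ↥N → ℂ) n := by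
  classical
  haveI := hM.2.1
  haveI : Fintype G := Fintype.ofFinite G
  haveI : Fintype N := Fintype.ofFinite _
  have hpp : p.Prime := Fact.out
  have hHn := normal_of N Q
  obtain ⟨Q', hQ'⟩ : ∃ Q' : Subgroup G, Q' = (Q : Subgroup ↥N).map N.subtype := ⟨_, rfl⟩
  rw [← hQ'] at hidx hHn
  obtain ⟨H, hH⟩ : ∃ H : Subgroup G, H = N ⊔ Subgroup.centralizer (Q' : Set G) := ⟨_, rfl⟩
  rw [← hH] at hidx hHn
  have hNH : N ≤ H := by rw [hH]; exact le_sup_left
  have hQN : Q' ≤ N := by rw [hQ']; exact Subgroup.map_subtype_le _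
  haveI : Fintype H := Fintype.ofFinite _
  haveI hN' : (N.subgroupOf H).Normal := inferInstance
  haveI : Fintype (N.subgroupOf H) := Fintype.ofFinite _
  have hcov : CovD p (N.subgroupOf H) (Q'.subgroupOf H) := by
    refine ⟨fun x hx => hQN hx, ?_, ?_⟩
    · rw [Subgroup.relIndex_subgroupOf hNH, Subgroup.relIndex, hQ', Subgroup.subgroupOf, Subgroup.comap_map_eq_self_of_injective N.subtype_injective]
      exact Q.not_dvd_index
    · intro x
      have hx : (x : G) ∈ N ⊔ Subgroup.centralizer (Q' : Set G) := by rw [← hH]; exact x.2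
      obtain ⟨n, hn, c, hc, hxe⟩ := Subgroup.mem_sup_of_normal_left.1 hx
      have hcH : c ∈ H := by rw [hH]; exact Subgroup.mem_sup_right hc
      refine ⟨⟨n, hNH hn⟩, hn, ⟨c, hcH⟩, fun u hu => ?_, Subtype.ext hxe.symm⟩
      exact Subtype.ext (Subgroup.mem_centralizer_iff.1 hc (u : G) hu).symm
  let e := Subgroup.subgroupOfEquivOfLe hNH
  have hirr : IsIrrCharacter (N.subgroupOf H) (fun k : N.subgroupOf H => (θ : N → ℂ) (e k)) :=
    (isIrr_comp_iff e (χ := (θ : N → ℂ))).2 θ.2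
  have hBθ : (⟨_, hirr⟩ : IrrCharacter (N.subgroupOf H)) ∈ principalBlock M (N.subgroupOf H) :=
    (mem_principal_equiv hM e (χ := θ) (χ' := ⟨_, hirr⟩) (fun _ => rfl)).2 hB
  obtain ⟨t, ht, hte⟩ := pb_of hBθ
  have hte' : ∀ (x : H) (hx : (x : G) ∈ N), t x = (θ : N → ℂ) ⟨x, hx⟩ := fun x hx => hte ⟨x, hx⟩
  have hn0 : Nat.card G ≠ 0 := Nat.card_pos.ne'
  have hprθ : PR p (Nat.card G) (θ : N → ℂ) := by
    obtain ⟨m, hm, hv⟩ := hrat
    exact pr_of_values hn0 (Subgroup.card_subgroup_dvd_card N) (IsIrr.isCharacter θ.2) hm hv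
  have hdeg' : ¬ p ∣ charDegree (fun l : N.subgroupOf H => t l) := by
    have h1 : charDegree (fun l : N.subgroupOf H => t l) = charDegree (θ : N → ℂ) := by
      have h2 : t ((1 : N.subgroupOf H) : H) = (θ : N → ℂ) 1 := hte' 1 N.one_mem
      simp only [charDegree, h2]
    rw [h1]; exact hdeg
  have hinvG : ∀ (g : G) (x y : H), (x : G) ∈ N → (y : G) = g * x * g⁻¹ → t y = t x := by
    intro g x y hx hy
    have hyN : (y : G) ∈ N := by rw [hy]; exact (inferInstance : N.Normal).conj_mem _ hx g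
    rw [hte' x hx, hte' y hyN]
    exact hinv g ⟨x, hx⟩ ⟨y, hyN⟩ hy
  have hpr : PRL p (Nat.card G) (N.subgroupOf H) t := by
    intro k hk hk1 x hx
    have h1 : ((x ^ k : H) : G) ∈ N := N.pow_mem hx k
    rw [hte' x hx, hte' _ h1]
    exact hprθ k hk hk1 ⟨x, hx⟩
  have hcardH : Nat.card H ∣ Nat.card G := Subgroup.card_subgroup_dvd_card H
  obtain ⟨χ, hχ, hχr⟩ := exists_good hM hp hn0 hcardH hcov ht hdeg'
    (fun g m hm => hinvG g m _ hm (by push_cast; rfl)) hpr
  have hχirr : IsIrrCharacter H χ := (isIrr_comp_iff (Subgroup.topEquiv (G := H)) (χ := χ)).1 hχ.2.1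
  have hinvχ : ∀ (g : G) (x : H), χ ⟨g * x * g⁻¹, hHn.conj_mem (x : G) x.2 g⟩ = χ x := by
    intro g x
    let φ : H ≃* H := cjEquiv hHn g
    have hφN : ∀ y : H, φ y ∈ N.subgroupOf H ↔ y ∈ N.subgroupOf H := by
      intro y
      change g * (y : G) * g⁻¹ ∈ N ↔ (y : G) ∈ N
      constructor
      · intro h
        have := (inferInstance : N.Normal).conj_mem _ h g⁻¹
        have h2 : g⁻¹ * (g * (y : G) * g⁻¹) * g⁻¹⁻¹ = y := by group
        rwa [h2] at this
      · intro h; exact (inferInstance : N.Normal).conj_mem _ h g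
    have h1 := hχ.aut φ hφN (fun m hm => hinvG g m _ hm rfl)
    rw [Subgroup.comap_top] at h1
    have h2 : PRL p (Nat.card G) ⊤ (fun x => χ (φ x)) := by
      intro k hk hk1 x _
      change χ (φ (x ^ k)) = χ (φ x)
      rw [map_pow]
      exact hχr k hk hk1 (φ x) trivial
    exact GdR.uniq hM hp hn0 hcardH ht hdeg' hχ hχr h1 h2 x trivial
  obtain ⟨a, ha⟩ := hidx
  have hχ1 : χ 1 = (θ : N → ℂ) 1 := by
    rw [hχ.2.2.1 1 (N.subgroupOf H).one_mem]; exact hte' 1 N.one_mem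
  obtain ⟨Χ, hΧ, hΧH, hΧr⟩ := canon_ext (p := p) hp hn0 dvd_rfl H ha hχirr hinvχ (by
    have h1 : charDegree χ = charDegree (θ : N → ℂ) := by simp only [charDegree, hχ1]
    rw [h1]; exact hdeg) (fun k hk hk1 x => hχr k hk hk1 x trivial)
  have hHB : (⟨χ, hχirr⟩ : IrrCharacter H) ∈ principalBlock M H := by
    obtain ⟨h1, h2⟩ := (pb_top hM).1 (hχ.pb hM ht)
    exact h2
  refine ⟨⟨Χ, hΧ⟩, ?_, values_of_pr hn0 dvd_rfl (IsIrr.isCharacter hΧ) hΧr, ?_⟩
  · apply mem_of_sum_ne hM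
    have h1 := sum_ne_zero hM hHB
    have h2 : ∑ g : G, reg p Χ g = ∑ h : H, reg p χ h := by
      have h3 : ∀ g : G, g ∉ H → reg p Χ g = 0 := by
        intro g hg
        by_contra hne
        apply hg
        apply regular_mem hpp ⟨a, ha⟩
        intro hd
        exact hne (reg_of hd)
      have h4 : ∑ g : G, reg p Χ g = ∑ g ∈ Finset.univ.filter (fun g : G => g ∈ H), reg p Χ g := by
        rw [Finset.sum_filter]
        refine Finset.sum_congr rfl fun g _ => ?_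
        split_ifs with h
        · rfl
        · exact h3 g h
      rw [h4]
      symm
      refine Finset.sum_bij (fun (h : H) _ => (h : G)) (fun h _ => Finset.mem_filter.2 ⟨Finset.mem_univ _, h.2⟩)
        (fun _ _ _ _ h => Subtype.ext h) (fun g hg => ⟨⟨g, (Finset.mem_filter.1 hg).2⟩, Finset.mem_univ _, rfl⟩) (fun h _ => ?_)
      simp only [reg, Subgroup.orderOf_coe, hΧH h]
    change ∑ g : G, reg p Χ g ≠ 0
    rw [h2]; exact h1
  · intro n
    have h1 := hΧH ⟨n, hNH n.2⟩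
    rw [hχ.2.2.1 ⟨n, hNH n.2⟩ n.2, hte' _ n.2] at h1
    exact h1

end Cfsg.Agent.S4892
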