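import Cfsg.Statements.S4911
import Cfsg.Agent.H23_RealInv


set_option autoImplicit false
open Cfsg

namespace Cfsg.Agent.S4911


/-- Let P and K be subgroups of a finite group with P a p-group normalizing K and K of order prime to p. Then the number of P-invariant real-valued irreducible complex characters of K equals the number of conjugacy classes of K that are real (closed under inversion) and P-invariant. Moreover, if every real-valued irreducible character of K is P-invariant, then every real element of K (one conjugate in K to its inverse) is conjugate in K to an element centralized by P. -/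
theorem result {G : Type*} [Group G] [Finite G] (p : ℕ) [Fact p.Prime] (P K : Subgroup G) (hP : IsPGroup p ↥P) (hK : ¬ p ∣ Nat.card ↥K) (hPK : P ≤ Subgroup.normalizer (K : Set G)) : Nat.card {θ : Cfsg.IrrCharacter ↥K // (∀ k : ↥K, ((θ : ↥K → ℂ) k).im = 0) ∧ (∀ x ∈ P, ∀ k k' : ↥K, (k' : G) = x * (k : G) * x⁻¹ → (θ : ↥K → ℂ) k' = (θ : ↥K → ℂ) k)} = Nat.card {c : ConjClasses ↥K // (∀ k : ↥K, ConjClasses.mk k = c → IsConj k k⁻¹) ∧ ∀ k : ↥K, ConjClasses.mk k = c → ∀ x ∈ P, ∀ k' : ↥K, (k' : G) = x * (k : G) * x⁻¹ → ConjClasses.mk k' = c} ∧ ((∀ θ : Cfsg.IrrCharacter ↥K, (∀ k : ↥K, ((θ : ↥K → ℂ) k).im = 0) → (∀ x ∈ P, ∀ k k' : ↥K, (k' : G) = x * (k : G) * x⁻¹ → (θ : ↥K → ℂ) k' = (θ : ↥K → ℂ) k)) → ∀ k : ↥K, IsConj k k⁻¹ → ∃ k' : ↥K, IsConj k k' ∧ ∀ x ∈ P, x * (k' : G) * x⁻¹ = (k' : G)) := by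
  classical
  have hmain := Cfsg.Agent.H23.RealInv.main (p := p) hP hK hPK
  refine ⟨hmain, ?_⟩
  intro hall k hk
  haveI : Finite (Cfsg.IrrCharacter ↥K) := inferInstance
  have e1 : Nat.card {θ : Cfsg.IrrCharacter ↥K // (∀ k : ↥K, ((θ : ↥K → ℂ) k).im = 0) ∧ (∀ x ∈ P, ∀ k k' : ↥K, (k' : G) = x * (k : G) * x⁻¹ → (θ : ↥K → ℂ) k' = (θ : ↥K → ℂ) k)} = Nat.card {θ : Cfsg.IrrCharacter ↥K // (∀ k : ↥K, ((θ : ↥K → ℂ) k).im = 0)} :=
    Nat.card_congr (Equiv.subtypeEquivRight fun θ => ⟨fun h => h.1, fun h => ⟨h, hall θ h⟩⟩)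
  have e2 := Cfsg.Agent.H23.RealInv.real_count ↥K
  have e3 : Nat.card {C : ConjClasses ↥K // ∀ g, ConjClasses.mk g = C → IsConj g g⁻¹} = Nat.card {c : ConjClasses ↥K // (∀ k : ↥K, ConjClasses.mk k = c → IsConj k k⁻¹) ∧ ∀ k : ↥K, ConjClasses.mk k = c → ∀ x ∈ P, ∀ k' : ↥K, (k' : G) = x * (k : G) * x⁻¹ → ConjClasses.mk k' = c} := by
    rw [← hmain, e1, e2]
  -- the inclusion is surjective
  let f : {c : ConjClasses ↥K // (∀ k : ↥K, ConjClasses.mk k = c → IsConj k k⁻¹) ∧ ∀ k : ↥K, ConjClasses.mk k = c → ∀ x ∈ P, ∀ k' : ↥K, (k' : G) = x * (k : G) * x⁻¹ → ConjClasses.mk k' = c} → {C : ConjClasses ↥K // ∀ g, ConjClasses.mk g = C → IsConj g g⁻¹} :=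
    fun c => ⟨c.1, c.2.1⟩
  have hf : Function.Injective f := fun a b h => Subtype.ext (congrArg (fun z => z.1) h)
  have hbij : Function.Bijective f := (Nat.bijective_iff_injective_and_card f).mpr ⟨hf, e3.symm⟩
  obtain ⟨c, hc⟩ := hbij.2 ⟨ConjClasses.mk k, by
    intro g hg
    rw [ConjClasses.mk_eq_mk_iff_isConj] at hg
    exact hg.trans (hk.trans (Cfsg.Agent.H23.RealInv.isConj_inv hg.symm))⟩
  have hc' : c.1 = ConjClasses.mk k := congrArg (fun z => z.1) hc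
  obtain ⟨k', hk1, hk2⟩ := Cfsg.Agent.H23.RealInv.class_fix (p := p) hP hK hPK k (by
    intro x hx k' hk'
    rw [← hc']
    exact c.2.2 k hc'.symm x hx k' hk')
  exact ⟨k', hk1, hk2⟩


end Cfsg.Agent.S4911
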