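import Cfsg.Statements.S4912
import Mathlib
import Cfsg.Agent.H26_Cliff
import Cfsg.Agent.H26_FSClif
import Cfsg.Agent.S4870

set_option autoImplicit false
open Cfsg

namespace Cfsg.Agent.S4912

open Cfsg Cfsg.Agent.H3.CharIrr Cfsg.Agent.H3.CharComplete Cfsg.Agent.H3.CharInd Cfsg.Agent.H26.Basic Cfsg.Agent.H3.Clifford Cfsg.Agent.H3.CharMult Cfsg.Agent.H26.Cliff Cfsg.Agent.H26.FS Cfsg.Agent.S4870

open scoped ComplexConjugate

theorem ind_twist {I : Type*} [Group I] [Fintype I] (ψ : I → ℂ) (f : I →* ℂˣ)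
    (hf : ∀ t, (f t : ℂ) * f t = 1) : ind (fun t : I => (f t : ℂ) * ψ t) = ind ψ := by
  rw [ind, ind]
  congr 1
  refine Finset.sum_congr rfl fun t _ => ?_
  rw [map_mul, Units.val_mul, hf, one_mul]

theorem sq_one_of_ind {G : Type*} [Group G] [Fintype G] (f : G →* ℂˣ)
    (h : ind (fun g => (f g : ℂ)) = 1) (g : G) : (f g : ℂ) * f g = 1 := by
  have hirr : IsIrrCharacter G (fun g => (f g : ℂ)) := isIrr_of_hom_units f
  have hr : ∀ g, conj ((f g : ℂ)) = f g := by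
    by_contra hc
    have := ind_nonreal (⟨_, hirr⟩ : IrrCharacter G) hc
    change ind (fun g => (f g : ℂ)) = 0 at this
    rw [this] at h
    norm_num at h
  have h1 := Cfsg.Agent.H3.CharIrr.IsChar.inv_eq_conj (IsIrr.isCharacter hirr) g
  change ((f g⁻¹ : ℂˣ) : ℂ) = conj (f g : ℂ) at h1
  rw [hr, map_inv] at h1
  nth_rewrite 1 [← h1]
  simp

/-- Let G be a finite group with a non-abelian minimal normal subgroup N, and let φ be an irreducible complex character of N with stabilizer I in G such that φ extends to an irreducible character of I with Frobenius–Schur indicator +1. Put d = φ(1)·[G : I]. Then the number of linear characters of G with Frobenius–Schur indicator +1 is at most [G : I] times the number of irreducible characters of G of degree d with Frobenius–Schur indicator +1. -/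
theorem result {G : Type*} [Group G] [Finite G] (N : Subgroup G) (hN : N.Normal) (hN1 : N ≠ ⊥) (hmin : ∀ M : Subgroup G, M.Normal → M ≤ N → M = ⊥ ∨ M = N) (hna : ¬ IsMulCommutative ↥N) (φ : Cfsg.IrrCharacter ↥N) (I : Subgroup G) (hI : ∀ g : G, g ∈ I ↔ ∀ n n' : ↥N, (n' : G) = g * (n : G) * g⁻¹ → (φ : ↥N → ℂ) n' = (φ : ↥N → ℂ) n) (hNI : N ≤ I) (hext : ∃ ψ : Cfsg.IrrCharacter ↥I, (Nat.card ↥I : ℂ)⁻¹ * ∑ᶠ g : ↥I, (ψ : ↥I → ℂ) (g * g) = 1 ∧ ∀ n : ↥N, (ψ : ↥I → ℂ) (Subgroup.inclusion hNI n) = (φ : ↥N → ℂ) n) : Nat.card {χ : Cfsg.IrrCharacter G // Cfsg.charDegree (χ : G → ℂ) = 1 ∧ (Nat.card G : ℂ)⁻¹ * ∑ᶠ g : G, (χ : G → ℂ) (g * g) = 1} ≤ I.index * Nat.card {χ : Cfsg.IrrCharacter G // Cfsg.charDegree (χ : G → ℂ) = Cfsg.charDegree (φ : ↥N → ℂ) * I.index ∧ (Nat.card G : ℂ)⁻¹ * ∑ᶠ g : G, (χ : G → ℂ) (g * g) = 1} := by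
  classical
  haveI : Fintype G := Fintype.ofFinite G
  haveI : Fintype N := Fintype.ofFinite _
  haveI : Fintype I := Fintype.ofFinite _
  haveI := hN
  obtain ⟨ψ, hνψ, hψ⟩ := hext
  have hνψ' : ind (ψ : I → ℂ) = 1 := by
    rw [ind, ← hνψ, finsum_eq_sum_of_fintype]
  have hind : ∀ χ : IrrCharacter G, (Nat.card G : ℂ)⁻¹ * ∑ᶠ g : G, (χ : G → ℂ) (g * g) = ind (χ : G → ℂ) := by
    intro χ
    rw [finsum_eq_sum_of_fintype, ind]
  have hψr : ∀ t, conj ((ψ : I → ℂ) t) = (ψ : I → ℂ) t := by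
    by_contra hc
    rw [ind_nonreal ψ hc] at hνψ'
    norm_num at hνψ'
  have hφr : ∀ n, conj ((φ : N → ℂ) n) = (φ : N → ℂ) n := by
    intro n; rw [← hψ, hψr]
  have hIn := inertia_eq hN (φ : N → ℂ) I hI
  have htriv := trivial_on_min hN hN1 hmin hna
  let A : Type _ := {χ : IrrCharacter G // charDegree (χ : G → ℂ) = 1 ∧ (Nat.card G : ℂ)⁻¹ * ∑ᶠ g : G, (χ : G → ℂ) (g * g) = 1}
  let B : Type _ := {χ : IrrCharacter G // charDegree (χ : G → ℂ) = charDegree (φ : ↥N → ℂ) * I.index ∧ (Nat.card G : ℂ)⁻¹ * ∑ᶠ g : G, (χ : G → ℂ) (g * g) = 1}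
  haveI : Fintype A := Fintype.ofFinite _
  haveI : Fintype B := Fintype.ofFinite _
  have hA : ∀ a : A, ∃ f : G →* ℂˣ, ∀ g, (a.1 : G → ℂ) g = (f g : ℂ) := by
    intro a
    apply IsChar.hom_units_of_one (IsIrr.isCharacter a.1.2)
    rw [← cd_eq, a.2.1]; simp
  choose f hf using hA
  have hf2 : ∀ (a : A) (g : G), (f a g : ℂ) * f a g = 1 := by
    intro a g
    apply sq_one_of_ind
    have h1 := a.2.2
    rw [hind] at h1
    rw [← h1]
    congr 1
    funext x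
    exact (hf a x).symm
  have hres : ∀ (g : G →* ℂˣ), (fun n : N => (fun t : I => (g t : ℂ) * (ψ : I → ℂ) t) ⟨(n : G), hNI n.2⟩) = (φ : N → ℂ) := by
    intro g
    funext n
    show (g n : ℂ) * (ψ : I → ℂ) (Subgroup.inclusion hNI n) = _
    rw [htriv g n n.2, hψ]; simp
  have hirr1 : ∀ (g : G →* ℂˣ), IsIrrCharacter I (fun t : I => (g t : ℂ) * (ψ : I → ℂ) t) := by
    intro g
    exact IsIrr.mul_linear ψ.2 (IsIrr.isCharacter (isIrr_of_hom_units (g.comp I.subtype))) (by simp)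
  have hne : ∀ (g : G →* ℂˣ), classInner (fun n : N => (fun t : I => (g t : ℂ) * (ψ : I → ℂ) t) ⟨(n : G), hNI n.2⟩) (φ : N → ℂ) ≠ 0 := by
    intro g
    rw [hres, ci_irr_self φ.2]; exact one_ne_zero
  have hirr : ∀ (g : G →* ℂˣ), IsIrrCharacter G (indFun I (fun t : I => (g t : ℂ) * (ψ : I → ℂ) t)) := fun g =>
    ind_irr φ.2 I hIn hNI (hirr1 g) (hne g)
  have hdeg : ∀ (g : G →* ℂˣ), charDegree (indFun I (fun t : I => (g t : ℂ) * (ψ : I → ℂ) t)) = charDegree (φ : ↥N → ℂ) * I.index := by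
    intro g
    have h1 := cd_eq (⟨_, hirr g⟩ : IrrCharacter G)
    have h2 : ((charDegree (indFun I (fun t : I => (g t : ℂ) * (ψ : I → ℂ) t)) : ℕ) : ℂ) = ((charDegree (φ : ↥N → ℂ) * I.index : ℕ) : ℂ) := by
      rw [show ((charDegree (indFun I (fun t : I => (g t : ℂ) * (ψ : I → ℂ) t)) : ℕ) : ℂ) = _ from h1]
      show indFun I (fun t : I => (g t : ℂ) * (ψ : I → ℂ) t) 1 = _
      rw [Cfsg.Agent.H3.CharInd.ind_one, Nat.cast_mul, cd_eq]
      have h3 := hψ 1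
      rw [map_one] at h3
      rw [h3]; simp [mul_comm]
    exact_mod_cast h2
  have hνF : ∀ a : A, (Nat.card G : ℂ)⁻¹ * ∑ᶠ g : G, (indFun I (fun t : I => (f a t : ℂ) * (ψ : I → ℂ) t)) (g * g) = 1 := by
    intro a
    have h1 := hind ⟨_, hirr (f a)⟩
    refine h1.trans ?_
    have h2 := Cfsg.Agent.H26.FSClif.ind_indFun hN I φ.2 hIn hNI hφr (hirr1 (f a)) (fun n => congrFun (hres (f a)) n)
    refine h2.trans ?_
    rw [← hνψ']
    exact ind_twist (ψ : I → ℂ) ((f a).comp I.subtype) (fun t => hf2 a t)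
  let F : A → B := fun a => ⟨⟨_, hirr (f a)⟩, hdeg (f a), hνF a⟩
  have hfib : ∀ b ∈ Finset.univ.image F, (Finset.univ.filter (fun a => F a = b)).card ≤ I.index := by
    intro b hb
    obtain ⟨a₀, _, ha₀⟩ := Finset.mem_image.1 hb
    refine le_trans ?_ (card_trivial_le I)
    rw [← Fintype.card_subtype, ← Nat.card_eq_fintype_card]
    haveI : Finite {f : G →* ℂˣ // ∀ x ∈ I, f x = 1} := inferInstance
    have hkey : ∀ a : {a // F a = b}, ∀ x ∈ I, (f a.1 * (f a₀)⁻¹) x = 1 := by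
      intro a x hx
      have h1 : F a.1 = F a₀ := a.2.trans ha₀.symm
      have h2 : indFun I (fun t : I => (f a.1 t : ℂ) * (ψ : I → ℂ) t) = indFun I (fun t : I => (f a₀ t : ℂ) * (ψ : I → ℂ) t) :=
        congrArg (fun y : B => (y.1 : G → ℂ)) h1
      have h3 := ind_inj φ.2 I hIn hNI (hirr1 (f a.1)) (hne _) (hirr1 (f a₀)) (hne _) h2
      have h4 := twist_inj hN I hNI φ.2 ψ.2 hψ (f a.1) (f a₀) (htriv _) (htriv _) h3 x hx
      rw [MonoidHom.mul_apply, MonoidHom.inv_apply, h4, mul_inv_cancel]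
    apply Nat.card_le_card_of_injective (fun a : {a // F a = b} => (⟨f a.1 * (f a₀)⁻¹, hkey a⟩ : {f : G →* ℂˣ // ∀ x ∈ I, f x = 1}))
    intro a a' h
    have h1 : f a.1 * (f a₀)⁻¹ = f a'.1 * (f a₀)⁻¹ := congrArg Subtype.val h
    have h2 : f a.1 = f a'.1 := mul_right_cancel h1
    apply Subtype.ext
    apply Subtype.ext
    apply Subtype.ext
    funext g
    rw [hf a.1, hf a'.1, h2]
  have h1 := Finset.card_le_mul_card_image (s := (Finset.univ : Finset A)) (f := F) I.index hfib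
  rw [Finset.card_univ, ← Nat.card_eq_fintype_card] at h1
  refine h1.trans (Nat.mul_le_mul_left _ ?_)
  refine (Finset.card_le_univ _).trans ?_
  rw [← Nat.card_eq_fintype_card]

end Cfsg.Agent.S4912
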