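import Cfsg.Statements.S4914
import Mathlib
import Cfsg.Agent.H26_RelG4
import Cfsg.Agent.H26_Basic

set_option autoImplicit false
open Cfsg

namespace Cfsg.Agent.S4914

open Cfsg.Agent.H3.CharIrr Cfsg.Agent.H3.CharComplete Cfsg.Agent.H3.CharInd Cfsg.Agent.H25.GlaubCore Cfsg.Agent.H25.Glaub Cfsg.Agent.H25.Glaub2 Cfsg.Agent.H26.RelG

/-- Let P and K be subgroups of a finite group G with P a p-group normalizing K, and suppose K has a normal Sylow p-subgroup Q. Let C be the subgroup of those k ∈ K whose commutator with every element of P lies in Q (so that C/Q is the fixed-point subgroup of P on K/Q). Then there is a bijection f from the P-invariant irreducible complex characters of K onto the P-invariant irreducible complex characters of C such that, for every P-invariant irreducible character χ of K, the multiplicity of f(χ) in the restriction of χ to C is a natural number congruent to 1 or to −1 modulo p, every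 other P-invariant irreducible character of C occurs in that restriction with multiplicity divisible by p, and the degrees of χ and f(χ) are congruent modulo p up to sign. -/
theorem result {G : Type*} [Group G] [Finite G] (p : ℕ) [Fact p.Prime] (P K Q C : Subgroup G) (hP : IsPGroup p ↥P) (hPK : P ≤ Subgroup.normalizer (K : Set G)) (hQK : Q ≤ K) (hQn : ∀ k ∈ K, ∀ q ∈ Q, k * q * k⁻¹ ∈ Q) (hQp : ∃ a : ℕ, Nat.card ↥Q = p ^ a) (hQsyl : ¬ p ∣ Q.relIndex K) (hCK : C ≤ K) (hC : ∀ k : G, k ∈ C ↔ (k ∈ K ∧ ∀ x ∈ P, x * k * x⁻¹ * k⁻¹ ∈ Q)) : ∃ f : {χ : Cfsg.IrrCharacter ↥K // (∀ x ∈ P, ∀ k k' : ↥K, (k' : G) = x * (k : G) * x⁻¹ → (χ : ↥K → ℂ) k' = (χ : ↥K → ℂ) k)} → {ξ : Cfsg.IrrCharacter ↥C // (∀ x ∈ P, ∀ k k' : ↥C, (k' : G) = x * (k : G) * x⁻¹ → (ξ : ↥C → ℂ) k' = (ξ : ↥C → ℂ) k)}, Function.Bijective f ∧ ∀ χ, (∀ ξ : {ξ : Cfsg.IrrCharacter ↥C // (∀ x ∈ P, ∀ k k' : ↥C, (k' : G) = x * (k : G) * x⁻¹ → (ξ : ↥C → ℂ) k' = (ξ : ↥C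 → ℂ) k)}, ∃ m : ℕ, (Nat.card ↥C : ℂ)⁻¹ * ∑ᶠ c : ↥C, (χ.1 : ↥K → ℂ) (Subgroup.inclusion hCK c) * (starRingEnd ℂ) ((ξ.1 : ↥C → ℂ) c) = (m : ℂ) ∧ (ξ = f χ → ((m : ZMod p) = 1 ∨ (m : ZMod p) = -1)) ∧ (ξ ≠ f χ → p ∣ m)) ∧ ((Cfsg.charDegree ((f χ).1 : ↥C → ℂ) : ZMod p) = (Cfsg.charDegree (χ.1 : ↥K → ℂ) : ZMod p) ∨ (Cfsg.charDegree ((f χ).1 : ↥C → ℂ) : ZMod p) = -(Cfsg.charDegree (χ.1 : ↥K → ℂ) : ZMod p)) := by
  classical
  haveI : Fintype G := Fintype.ofFinite G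
  haveI : Fintype K := Fintype.ofFinite _
  haveI : Fintype C := Fintype.ofFinite _
  haveI : Fintype (IrrCharacter C) := Fintype.ofFinite _
  have hp : p.Prime := Fact.out
  have hPD : PD p P K Q C := by
    refine ⟨hP, ?_, hQK, hQn, ?_, hQsyl, hC⟩
    · intro x hx k hk
      exact (Subgroup.mem_normalizer_iff.1 (hPK hx) k).1 hk
    · obtain ⟨a, ha⟩ := hQp
      exact IsPGroup.of_card ha
  have hPC : Nrm P C := by
    intro y hy c hc
    rw [hC] at hc ⊢
    have hQx : ∀ q ∈ Q, y * q * y⁻¹ ∈ Q := by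
      intro q hq
      obtain ⟨a, ha⟩ := hPD.hQp ⟨q, hq⟩
      have ha' : q ^ p ^ a = 1 := congrArg Subtype.val ha
      haveI : (Q.subgroupOf K).Normal := ⟨fun a ha g => by
        rw [Subgroup.mem_subgroupOf] at ha ⊢
        exact hQn g g.2 a ha⟩
      have hxq : y * q * y⁻¹ ∈ K := hPD.hPK y hy q (hQK hq)
      have h1 := mem_of_pelt (L := K) (p := p) ⊤ (Q.subgroupOf K) le_top (by
        rw [Subgroup.relIndex_top_right]; exact hQsyl) (u := ⟨y * q * y⁻¹, hxq⟩) (Subgroup.mem_top _) (n := a)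
        (by
          have : (⟨y * q * y⁻¹, hxq⟩ : K) ^ p ^ a = 1 := Subtype.ext (by
            show (y * q * y⁻¹) ^ p ^ a = 1
            rw [conj_pow, ha', mul_one, mul_inv_cancel])
          rw [this]; exact Subgroup.one_mem _)
      exact h1
    refine ⟨hPD.hPK y hy c hc.1, fun x hx => ?_⟩
    have h1 := hc.2 (y⁻¹ * x * y) (P.mul_mem (P.mul_mem (P.inv_mem hy) hx) hy)
    have h2 := hQx _ h1
    have : x * (y * c * y⁻¹) * x⁻¹ * (y * c * y⁻¹)⁻¹ =
        y * ((y⁻¹ * x * y) * c * (y⁻¹ * x * y)⁻¹ * c⁻¹) * y⁻¹ := by group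
    rw [this]; exact h2
  have hcorr : Corr p P hPD.hCK := hPD.corr _ rfl
  choose g hg1 hg2 using fun χ : {χ : IrrCharacter ↥K // (∀ x ∈ P, ∀ k k' : ↥K, (k' : G) = x * (k : G) * x⁻¹ →
    (χ : ↥K → ℂ) k' = (χ : ↥K → ℂ) k)} => hcorr.down χ.1 χ.2
  refine ⟨fun χ => ⟨g χ, hg1 χ⟩, ⟨?_, ?_⟩, ?_⟩
  · intro χ χ' h
    have h1 : g χ = g χ' := congrArg Subtype.val h
    apply Subtype.ext
    refine hcorr.uup (g χ) (hg1 χ) χ.1 χ'.1 χ.2 χ'.2 (hg2 χ) ?_
    rw [h1]; exact hg2 χ'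
  · intro ξ
    obtain ⟨χ, hχ, hm⟩ := hcorr.up ξ.1 ξ.2
    refine ⟨⟨χ, hχ⟩, Subtype.ext ?_⟩
    exact hcorr.udown χ hχ _ _ (hg1 ⟨χ, hχ⟩) ξ.2 (hg2 ⟨χ, hχ⟩) hm
  · intro χ
    constructor
    · intro ξ
      refine ⟨mlt (Subgroup.inclusion hPD.hCK) χ.1 ξ.1, ?_, ?_, ?_⟩
      · rw [← mlt_spec, finsum_eq_sum_of_fintype]
        rfl
      · rintro rfl
        rcases hcorr.pm χ.1 χ.2 (g χ) (hg1 χ) (hg2 χ) with h | h
        · left
          have := (ZMod.intCast_eq_intCast_iff _ _ p).2 h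
          push_cast at this
          exact this
        · right
          have := (ZMod.intCast_eq_intCast_iff _ _ p).2 h
          push_cast at this
          exact this
      · intro hne
        by_contra hd
        apply hne
        apply Subtype.ext
        exact hcorr.udown χ.1 χ.2 ξ.1 (g χ) ξ.2 (hg1 χ) hd (hg2 χ)
    · -- degrees
      let F : IrrCharacter C → ℤ := fun ξ => (mlt (Subgroup.inclusion hPD.hCK) χ.1 ξ : ℤ) * charDegree (ξ : C → ℂ)
      have hF : ∀ a ∈ P, ∀ ξ ξ' : IrrCharacter C, Tw a (ξ : C → ℂ) (ξ' : C → ℂ) → F ξ' = F ξ := by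
        intro a ha ξ ξ' hξ
        show (mlt _ χ.1 ξ' : ℤ) * charDegree (ξ' : C → ℂ) = (mlt _ χ.1 ξ : ℤ) * charDegree (ξ : C → ℂ)
        rw [mlt_tw (fun a ha k hk => hPD.hPK a ha k hk) hPC hPD.hCK ha (χ.2 a ha) hξ]
        have h1 : (ξ' : C → ℂ) 1 = (ξ : C → ℂ) 1 := hξ 1 1 (by simp)
        rw [← Cfsg.Agent.H26.Basic.cd_eq, ← Cfsg.Agent.H26.Basic.cd_eq] at h1
        have h2 : charDegree (ξ' : C → ℂ) = charDegree (ξ : C → ℂ) := by exact_mod_cast h1
        rw [h2]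
      have e1 := fixed_sum hP hPC F hF
      have hmem : g χ ∈ Finset.univ.filter (fun ξ : IrrCharacter C => TInv P (ξ : C → ℂ)) :=
        Finset.mem_filter.2 ⟨Finset.mem_univ _, hg1 χ⟩
      have e3 : (p : ℤ) ∣ ∑ ξ ∈ (Finset.univ.filter (fun ξ : IrrCharacter C => TInv P (ξ : C → ℂ))).erase (g χ), F ξ := by
        apply Finset.dvd_sum
        intro ξ' hξ'
        obtain ⟨h3, h4⟩ := Finset.mem_erase.1 hξ'
        have h5 : p ∣ mlt (Subgroup.inclusion hPD.hCK) χ.1 ξ' := by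
          by_contra h6
          exact h3 (hcorr.udown χ.1 χ.2 ξ' (g χ) (Finset.mem_filter.1 h4).2 (hg1 χ) h6 (hg2 χ))
        exact Dvd.dvd.mul_right (by exact_mod_cast h5) _
      rw [← Finset.add_sum_erase _ _ hmem] at e1
      have e4 : (p : ℤ) ∣ ∑ ξ, F ξ - F (g χ) := by
        have := dvd_add e1 e3
        have h7 : ∑ ξ, F ξ - (F (g χ) + ∑ ξ ∈ (Finset.univ.filter (fun ξ : IrrCharacter C => TInv P (ξ : C → ℂ))).erase (g χ), F ξ) +
          ∑ ξ ∈ (Finset.univ.filter (fun ξ : IrrCharacter C => TInv P (ξ : C → ℂ))).erase (g χ), F ξ = ∑ ξ, F ξ - F (g χ) := by ring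
        rwa [h7] at this
      have e5 : (charDegree (χ.1 : K → ℂ) : ℤ) = ∑ ξ, F ξ := by
        have h1 := expand_apply (fun c : C => (χ.1 : K → ℂ) (Subgroup.inclusion hPD.hCK c))
          (IsClass.comp (IsIrr.isClass χ.1.2) (Subgroup.inclusion hPD.hCK)) 1
        simp only [map_one] at h1
        rw [← Cfsg.Agent.H26.Basic.cd_eq] at h1
        have h2 : ((charDegree (χ.1 : K → ℂ) : ℤ) : ℂ) = ((∑ ξ, F ξ : ℤ) : ℂ) := by
          push_cast
          rw [h1]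
          refine Finset.sum_congr rfl fun ξ _ => ?_
          rw [mlt_spec]
          show _ = ((F ξ : ℤ) : ℂ)
          show _ = (((mlt (Subgroup.inclusion hPD.hCK) χ.1 ξ : ℤ) * charDegree (ξ : C → ℂ) : ℤ) : ℂ)
          push_cast
          rw [Cfsg.Agent.H26.Basic.cd_eq]
        exact_mod_cast h2
      rw [← e5] at e4
      have e6 : ((charDegree (χ.1 : K → ℂ) : ℤ) : ZMod p) = ((F (g χ) : ℤ) : ZMod p) :=
        (ZMod.intCast_eq_intCast_iff _ _ p).2 (Int.modEq_iff_dvd.2 e4).symm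
      have e7 : ((F (g χ) : ℤ) : ZMod p) = (mlt (Subgroup.inclusion hPD.hCK) χ.1 (g χ) : ZMod p) *
          (charDegree ((g χ : IrrCharacter C) : C → ℂ) : ZMod p) := by
        show (((mlt (Subgroup.inclusion hPD.hCK) χ.1 (g χ) : ℤ) * charDegree ((g χ : IrrCharacter C) : C → ℂ) : ℤ) : ZMod p) = _
        push_cast; rfl
      rw [e7, Int.cast_natCast] at e6
      rcases hcorr.pm χ.1 χ.2 (g χ) (hg1 χ) (hg2 χ) with h | h
      · left
        have := (ZMod.intCast_eq_intCast_iff _ _ p).2 h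
        push_cast at this
        rw [this, one_mul] at e6
        exact e6.symm
      · right
        have := (ZMod.intCast_eq_intCast_iff _ _ p).2 h
        push_cast at this
        rw [this, neg_one_mul] at e6
        show (charDegree ((g χ : IrrCharacter C) : C → ℂ) : ZMod p) = -(charDegree (χ.1 : K → ℂ) : ZMod p)
        rw [e6, neg_neg]

end Cfsg.Agent.S4914
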