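import Cfsg.Statements.S4916
import Mathlib
import Cfsg.Agent.H26_Defect2
import Cfsg.Agent.H10_BlockKer

set_option autoImplicit false
open Cfsg

namespace Cfsg.Agent.S4916

open Cfsg Cfsg.Agent.H3.CharIrr Cfsg.Agent.H3.CharComplete Cfsg.Agent.H10.BlockAlg Cfsg.Agent.H10.BlockLoc Cfsg.Agent.H10.BlockIdem Cfsg.Agent.H10.BlockOrth Cfsg.Agent.H26.Basic Cfsg.Agent.H26.Defect2 Cfsg.Agent.H10.BlockKer

/-- Let G be a finite group, p a prime and M a maximal ideal of the algebraic integers containing p. Then the principal character is the only irreducible character of degree prime to p in the principal p-block of G if and only if p does not divide the order of G. -/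
theorem result {G : Type*} [Group G] [Finite G] (p : ℕ) [Fact p.Prime] (M : Ideal Cfsg.AlgInt) (hM : Cfsg.IsPModular p M) : (∀ χ : Cfsg.IrrCharacter G, χ ∈ Cfsg.principalBlock M G → ¬ p ∣ Cfsg.charDegree (χ : G → ℂ) → (χ : G → ℂ) = fun _ => (1 : ℂ)) ↔ ¬ p ∣ Nat.card G := by
  classical
  haveI := Fintype.ofFinite G
  haveI : Fintype (IrrCharacter G) := Fintype.ofFinite _
  haveI := hM.2.1
  have hBP : IsPBlock M (principalBlock M G) := principal_isPBlock
  have htr : (triv G : IrrCharacter G) ∈ principalBlock M G := triv_mem
  have htd : charDegree ((triv G : IrrCharacter G) : G → ℂ) = 1 := by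
    have h1 := cd_eq (triv G : IrrCharacter G)
    rw [triv_coe] at h1
    exact_mod_cast h1
  constructor
  · intro h hp
    obtain ⟨y, hy⟩ := exists_prime_orderOf_dvd_card' p hp
    have h0 := weak_orth hM hBP (1 : G) y (by rw [orderOf_one]; exact (Fact.out : p.Prime).one_lt.ne' ∘ Nat.dvd_one.1) (by rw [hy])
    have h1 : MemLocalIdeal M (∑ χ : IrrCharacter G, (if χ ∈ principalBlock M G then (χ : G → ℂ) 1 * (starRingEnd ℂ) ((χ : G → ℂ) y) else 0) - 1) := by
      rw [← Finset.sum_erase_add _ _ (Finset.mem_univ (triv G : IrrCharacter G)), if_pos htr, triv_coe, triv_coe, map_one, mul_one, add_sub_cancel_right]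
      apply ideal_sum
      intro χ hχ
      split_ifs with hB
      · apply ideal_mul_right
        · rw [← cd_eq, ideal_natCast_iff hM]
          by_contra hd
          have := h χ hB hd
          apply (Finset.mem_erase.1 hχ).1
          apply Subtype.ext
          rw [this]
          funext g; rw [triv_coe]
        · rw [← inv_eq]
          exact memLocalRing_of_integral hM.2.1.ne_top (integral_val χ _)
      · exact ideal_zero
    rw [h0, zero_sub] at h1
    exact one_notMem_ideal (by simpa using ideal_neg h1)
  · intro hp χ hχ _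
    have h1 : (Nat.card G).factorization p ≤ (charDegree ((triv G : IrrCharacter G) : G → ℂ)).factorization p := by
      rw [Nat.factorization_eq_zero_of_not_dvd hp]; exact Nat.zero_le _
    have h2 := eq_of_sameBlock_of_defect_zero hM (χ := triv G) (ψ := χ) h1 (block_sameBlock hBP htr hχ)
    rw [h2]; funext g; rw [triv_coe]

end Cfsg.Agent.S4916
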