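import Cfsg.Statements.S4923
import Cfsg.Agent.H3_FV3

set_option autoImplicit false
open Cfsg

namespace Cfsg.Agent.S4923

/-- Let G be a finite group with Sylow 2-subgroup P of order 2^n ≥ 8, and let ζ be a primitive 2^(n−1)-th root of unity in ℂ. Then the commutator subgroup of P has index 4 in P if and only if there is an element g of P whose conjugacy class in G has even size and such that the field generated over ℚ by the values at g of all irreducible complex characters of G equals ℚ(ζ + ζ⁻¹) or ℚ(ζ − ζ⁻¹). -/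
theorem result {G : Type*} [Group G] [Finite G] (P : Sylow 2 G) (n : ℕ) (hn : 3 ≤ n) (hP : Nat.card P = 2 ^ n) (ζ : ℂ) (hζ : IsPrimitiveRoot ζ (2 ^ (n - 1))) :
    (commutator ↥P).index = 4 ↔
      ∃ g : G, g ∈ (P : Subgroup G) ∧ 2 ∣ (Subgroup.centralizer ({g} : Set G)).index ∧
        (IntermediateField.adjoin ℚ {z : ℂ | ∃ χ : Cfsg.IrrCharacter G, (χ : G → ℂ) g = z} = IntermediateField.adjoin ℚ ({ζ + ζ⁻¹} : Set ℂ) ∨
          IntermediateField.adjoin ℚ {z : ℂ | ∃ χ : Cfsg.IrrCharacter G, (χ : G → ℂ) g = z} = IntermediateField.adjoin ℚ ({ζ - ζ⁻¹} : Set ℂ)) := by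
  have e1 : ζ + 1 * ζ⁻¹ = ζ + ζ⁻¹ := by rw [one_mul]
  have e2 : ζ + (-1) * ζ⁻¹ = ζ - ζ⁻¹ := by ring
  constructor
  · intro hi
    obtain ⟨g, hg, h2, c, hc, hE⟩ := Cfsg.Agent.H3.FV.fwd' P hn hP hζ hi
    refine ⟨g, hg, h2, ?_⟩
    rcases hc with rfl | rfl
    · rw [e1] at hE
      exact Or.inl hE
    · rw [e2] at hE
      exact Or.inr hE
  · rintro ⟨g, hg, h2, hE⟩
    rcases hE with hE | hE
    · rw [← e1] at hE
      exact Cfsg.Agent.H3.FV.bwd' P hn hP hζ hg h2 (Or.inl rfl) hE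
    · rw [← e2] at hE
      exact Cfsg.Agent.H3.FV.bwd' P hn hP hζ hg h2 (Or.inr rfl) hE

end Cfsg.Agent.S4923
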