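import Cfsg.Statements.S4937
import Mathlib
import Cfsg.Agent.H26_AD9

set_option autoImplicit false
open Cfsg

namespace Cfsg.Agent.S4937

open Cfsg.Agent.H26.AD Cfsg.Agent.H3.CharIrr Cfsg.Agent.H3.CharComplete Cfsg.Agent.H3.CharInd Cfsg.Agent.H3.Clifford Cfsg.Agent.H3.Lift Cfsg.Agent.H10.BlockKer Cfsg.Agent.H10.BlockLoc Cfsg.Agent.H26.Basic

open scoped ComplexConjugate

theorem exists_exp (p : ℕ) [hp : Fact p.Prime] {n : ℕ} (hn : n ≠ 0) : ∃ m : ℕ, m ≡ 1 [MOD ordCompl[p] n] ∧ ordProj[p] n ∣ m := by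
  have hcop : (ordCompl[p] n).Coprime (ordProj[p] n) :=
    Nat.Coprime.pow_right _ ((Nat.coprime_ordCompl hp.out hn).symm)
  obtain ⟨m, hm1, hm2⟩ := Nat.chineseRemainder hcop 1 0
  exact ⟨m, hm1, (Nat.modEq_zero_iff_dvd).1 hm2⟩

theorem pow_mul_nilp {E : Type*} [Group E] [Finite E] [hE : Group.IsNilpotent E] {p : ℕ} [hp : Fact p.Prime] {n m : ℕ} (hn : n ≠ 0)
    (hEn : Nat.card E ∣ n) (hm : m ≡ 1 [MOD ordCompl[p] n]) (hm0 : ordProj[p] n ∣ m) (a b : E) : (a * b) ^ m = a ^ m * b ^ m := by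
  obtain ⟨R, hRn, hR, hRi⟩ := Cfsg.Agent.H25.Elem.exists_regular (E := E) (p := p)
  obtain ⟨Q⟩ : Nonempty (Sylow p E) := inferInstance
  haveI hQ : (Q : Subgroup E).Normal := inferInstance
  have hreg : ∀ x : E, x ^ m ∈ R := by
    intro x
    rw [hR]
    intro hd
    obtain ⟨c, hc⟩ := hm0
    have h1 : (x ^ m) ^ (ordCompl[p] n) = 1 := by
      rw [hc, ← pow_mul, mul_right_comm, Nat.ordProj_mul_ordCompl_eq_self, pow_mul]
      obtain ⟨d, hd⟩ := hEn
      rw [hd, pow_mul, pow_card_eq_one', one_pow, one_pow]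
    exact Nat.not_dvd_ordCompl hp.out hn (hd.trans (orderOf_dvd_of_pow_eq_one h1))
  have hQi : Nat.card (E ⧸ (Q : Subgroup E)) ∣ ordCompl[p] n := by
    have h1 : ¬ p ∣ Nat.card (E ⧸ (Q : Subgroup E)) := by
      rw [← Subgroup.index_eq_card]; exact Q.not_dvd_index
    have h2 : Nat.card (E ⧸ (Q : Subgroup E)) ∣ n := by
      rw [← Subgroup.index_eq_card]; exact (Subgroup.index_dvd_card _).trans hEn
    have h3 : Nat.Coprime (Nat.card (E ⧸ (Q : Subgroup E))) (ordProj[p] n) :=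
      Nat.Coprime.pow_right _ ((Nat.Prime.coprime_iff_not_dvd hp.out).2 h1).symm
    apply h3.dvd_of_dvd_mul_left
    rwa [Nat.ordProj_mul_ordCompl_eq_self]
  have hq : ∀ x : E, (QuotientGroup.mk (x ^ m) : E ⧸ (Q : Subgroup E)) = QuotientGroup.mk x := by
    intro x
    rw [QuotientGroup.mk_pow]
    conv_rhs => rw [← pow_one (QuotientGroup.mk x : E ⧸ (Q : Subgroup E))]
    rw [pow_eq_pow_iff_modEq]
    exact hm.of_dvd ((orderOf_dvd_natCard _).trans hQi)
  have h1 : ((a * b) ^ m)⁻¹ * (a ^ m * b ^ m) ∈ (Q : Subgroup E) := by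
    rw [← QuotientGroup.eq, hq, QuotientGroup.mk_mul, QuotientGroup.mk_mul, hq, hq]
  have h2 : ((a * b) ^ m)⁻¹ * (a ^ m * b ^ m) ∈ R := R.mul_mem (R.inv_mem (hreg _)) (R.mul_mem (hreg a) (hreg b))
  have h3 := (hR _).1 h2
  obtain ⟨k, hk⟩ := IsPGroup.iff_orderOf.1 Q.isPGroup' ⟨_, h1⟩
  rw [Subgroup.orderOf_mk] at hk
  rw [hk] at h3
  have hk0 : k = 0 := by
    by_contra hk0
    exact h3 (dvd_pow_self p hk0)
  rw [hk0, pow_zero, orderOf_eq_one_iff, inv_mul_eq_one] at hk
  exact hk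


/-- Let G be a finite group, p a prime, M a maximal ideal of the algebraic integers containing p, N a normal subgroup of G and P a Sylow p-subgroup of N such that G = N·C_G(P). Let θ be an irreducible character in the principal p-block of N that is the restriction of some irreducible character of G. Then θ is the restriction of an irreducible character χ of G lying in the principal p-block of G such that, for every subgroup J of G containing N, the restriction of χ to J is an irreducible character of J lying in the principal p-block of J. -/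
theorem result {G : Type*} [Group G] [Finite G] (p : ℕ) [Fact p.Prime] (M : Ideal Cfsg.AlgInt) (hM : Cfsg.IsPModular p M) (N : Subgroup G) [N.Normal] (P : Sylow p ↥N)
    (hcov : N ⊔ Subgroup.centralizer (((P : Subgroup ↥N).map N.subtype : Subgroup G) : Set G) = ⊤)
    (θ : Cfsg.IrrCharacter ↥N) (hθ : θ ∈ Cfsg.principalBlock M ↥N)
    (hext : ∃ ψ : Cfsg.IrrCharacter G, ∀ x : ↥N, (ψ : G → ℂ) x = (θ : ↥N → ℂ) x) :
    ∃ χ : Cfsg.IrrCharacter G, χ ∈ Cfsg.principalBlock M G ∧ (∀ x : ↥N, (χ : G → ℂ) x = (θ : ↥N → ℂ) x) ∧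
      ∀ J : Subgroup G, N ≤ J → ∃ ξ : Cfsg.IrrCharacter ↥J, ξ ∈ Cfsg.principalBlock M ↥J ∧ ∀ y : ↥J, (ξ : ↥J → ℂ) y = (χ : G → ℂ) y := by
  classical
  haveI := hM.2.1
  haveI : Fintype G := Fintype.ofFinite G
  haveI : Fintype N := Fintype.ofFinite _
  have hpp : p.Prime := Fact.out
  obtain ⟨P', hP'⟩ : ∃ P' : Subgroup G, P' = (P : Subgroup ↥N).map N.subtype := ⟨_, rfl⟩
  rw [← hP'] at hcov
  have hPN : P' ≤ N := by rw [hP']; exact Subgroup.map_subtype_le _
  have hc : CovD p N P' := by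
    refine ⟨hPN, ?_, fun x => ?_⟩
    · rw [Subgroup.relIndex, hP', Subgroup.subgroupOf, Subgroup.comap_map_eq_self_of_injective N.subtype_injective]
      exact P.not_dvd_index
    · have hx : x ∈ N ⊔ Subgroup.centralizer (P' : Set G) := by rw [hcov]; trivial
      obtain ⟨n, hn, c, hc, hxe⟩ := Subgroup.mem_sup_of_normal_left.1 hx
      exact ⟨n, hn, c, fun u hu => (Subgroup.mem_centralizer_iff.1 hc u hu).symm, hxe.symm⟩
  obtain ⟨t, ht, hte⟩ := pb_of hθ
  obtain ⟨⟨ψ, hψ⟩, hψe⟩ := hext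
  have hψt : ∀ n ∈ N, ψ n = t n := fun n hn => (hψe ⟨n, hn⟩).trans (hte ⟨n, hn⟩).symm
  have hS0 := FN_one_ne hM ht
  obtain ⟨m, hm1, hm0⟩ := exists_exp p (n := Nat.card G) Nat.card_pos.ne'
  have hψtop : ∀ L : Subgroup G, N ≤ L → Ir L ψ := by
    intro L hNL
    have h1 : Ir ⊤ ψ := by
      haveI : Fintype (⊤ : Subgroup G) := Fintype.ofFinite _
      exact (isIrr_comp_iff (Subgroup.topEquiv (G := G)) (χ := ψ)).2 hψ
    exact Ir.mid hNL le_top h1 (Ir.congr ht.1 fun n hn => (hψt n hn).symm)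
  -- local description of the twisting character
  have hloc : ∀ L : Subgroup G, N ≤ L → Sol N L → ¬ p ∣ N.relIndex L → ∃ b : L →* ℂˣ, ∀ x : L, FN p N ψ x = (b x : ℂ) * FN p N t 1 := by
    intro L hNL hsol hidx
    obtain ⟨f, hf, he⟩ := exists_extension hM hc hNL hsol hidx ht
    have hgd := gd_of_pb hM hc hNL hidx hf he
    obtain ⟨β, hβ, hβN, hβf, hβ1⟩ := gallagher_rel hNL hf.1 (hψtop L hNL) (Ir.congr ht.1 fun n hn => (he n hn).symm)
      (fun n hn => by rw [hψt n hn, he n hn])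
    obtain ⟨b, hb⟩ := IsChar.hom_units_of_one (IsIrr.isCharacter hβ) hβ1
    refine ⟨b, fun x => ?_⟩
    rw [← hb x, ← hgd.2.2.2 x x.2 (reg_mod hNL hidx x.2)]
    exact FN_mul (L := L) (fun n hn => hβf _ (L.mul_mem (hNL hn) x.2)) (fun n hn => hβN n hn x x.2)
  obtain ⟨lam, hlam⟩ : ∃ lam : G → ℂ, ∀ x, lam x = FN p N ψ (x ^ m) / FN p N t 1 := ⟨_, fun _ => rfl⟩
  have hFNinv : ∀ n ∈ N, ∀ x, FN p N ψ (n * x) = FN p N ψ x := by
    intro n hn x
    rw [FN, FN]
    refine Eq.trans (finsum_congr fun k => ?_) (finsum_comp_equiv (Equiv.mulRight (⟨n, hn⟩ : N)))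
    change reg p ψ (k * (n * x)) = reg p ψ (((k * ⟨n, hn⟩ : N) : G) * x)
    rw [Subgroup.coe_mul, mul_assoc]
  have hlamE : ∀ (E : Subgroup G) (q : ℕ), q.Prime → IsElementary q E → ∃ b : E →* ℂˣ, ∀ e : E, lam e = (b e : ℂ) := by
    intro E q hq hE
    haveI : Fact q.Prime := ⟨hq⟩
    haveI : Group.IsNilpotent E := Cfsg.Agent.H25.Elem.elementary_nilpotent hE
    obtain ⟨RE, hREn, hRE, hREi⟩ := Cfsg.Agent.H25.Elem.exists_regular (E := E) (p := p)
    haveI : Group.IsNilpotent RE := inferInstance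
    haveI : Group.IsSolvable RE := inferInstance
    haveI : Group.IsSolvable (RE.map E.subtype) :=
      Group.isSolvable_of_surjective (f := E.subtype.subgroupMap RE) (E.subtype.subgroupMap_surjective RE)
    have hpR : ¬ p ∣ Nat.card (RE.map E.subtype) := by
      intro hd
      obtain ⟨x, hx⟩ := exists_prime_orderOf_dvd_card' p hd
      obtain ⟨y, hy, hyx⟩ := x.2
      have h1 := (hRE y).1 hy
      apply h1
      have h2 : orderOf y = orderOf x := by
        rw [← Subgroup.orderOf_coe x, ← hyx]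
        exact (Subgroup.orderOf_coe y).symm
      rw [h2, hx]
    have hidx : ¬ p ∣ N.relIndex (N ⊔ RE.map E.subtype) := by
      intro hd
      have h1 : N.relIndex (N ⊔ RE.map E.subtype) = N.relIndex (RE.map E.subtype) := by
        rw [sup_comm]; exact Subgroup.relIndex_sup_right _ N
      rw [h1] at hd
      exact hpR (hd.trans (Subgroup.relIndex_dvd_card N _))
    obtain ⟨b, hb⟩ := hloc (N ⊔ RE.map E.subtype) le_sup_left sol_sup hidx
    have hcardE : Nat.card E ∣ Nat.card G := Subgroup.card_subgroup_dvd_card E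
    have hmem : ∀ e : E, ((e : G) ^ m) ∈ N ⊔ RE.map E.subtype := by
      intro e
      apply Subgroup.mem_sup_right
      refine ⟨e ^ m, ?_, rfl⟩
      rw [SetLike.mem_coe, hRE]
      intro hd
      obtain ⟨c, hc⟩ := hm0
      have h1 : (e ^ m) ^ (ordCompl[p] (Nat.card G)) = 1 := by
        rw [hc, ← pow_mul, mul_right_comm, Nat.ordProj_mul_ordCompl_eq_self, pow_mul]
        obtain ⟨d, hd⟩ := hcardE
        rw [hd, pow_mul, pow_card_eq_one', one_pow, one_pow]
      exact Nat.not_dvd_ordCompl hpp Nat.card_pos.ne' (hd.trans (orderOf_dvd_of_pow_eq_one h1))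
    let h : E →* (N ⊔ RE.map E.subtype : Subgroup G) :=
      { toFun := fun e => ⟨(e : G) ^ m, hmem e⟩
        map_one' := Subtype.ext (by simp)
        map_mul' := fun a b => Subtype.ext (by
          have := congrArg Subtype.val (pow_mul_nilp (p := p) Nat.card_pos.ne' hcardE hm1 hm0 a b)
          exact this) }
    refine ⟨b.comp h, fun e => ?_⟩
    rw [hlam]
    have := hb (h e)
    change FN p N ψ ((e : G) ^ m) = _ at this
    rw [this, mul_div_assoc, div_self hS0, mul_one]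
    rfl
  have hclψ := IsIrr.isClass hψ
  have hlamcl : IsClassFunction G lam := by
    intro g x
    rw [hlam, hlam]
    congr 1
    rw [conj_pow]
    have hφN : ∀ y : G, (MulAut.conj x) y ∈ N ↔ y ∈ N := by
      intro y
      rw [MulAut.conj_apply]
      constructor
      · intro h
        have := (inferInstance : N.Normal).conj_mem _ h x⁻¹
        have h2 : x⁻¹ * (x * y * x⁻¹) * x⁻¹⁻¹ = y := by group
        rwa [h2] at this
      · intro h; exact (inferInstance : N.Normal).conj_mem _ h x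
    have h1 := FN_aut (p := p) (MulAut.conj x) hφN ψ (g ^ m)
    rw [MulAut.conj_apply] at h1
    rw [← h1]
    congr 1
    ext y
    exact hclψ y x
  have hone : classInner lam lam = 1 := by
    haveI : Fact (Nat.Prime 2) := ⟨Nat.prime_two⟩
    have h1 : ∀ x : G, lam x * (starRingEnd ℂ) (lam x) = 1 := by
      intro x
      obtain ⟨b, hb⟩ := hlamE (Subgroup.zpowers x) 2 Nat.prime_two Cfsg.Agent.H25.Brauer.elementary_of_cyclic
      have h2 := hb ⟨x, Subgroup.mem_zpowers x⟩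
      change lam x = _ at h2
      rw [h2, Complex.mul_conj, Complex.normSq_eq_norm_sq]
      have h3 : ‖((b ⟨x, Subgroup.mem_zpowers x⟩ : ℂˣ) : ℂ)‖ = 1 := by
        apply Complex.norm_eq_one_of_pow_eq_one (n := Nat.card (Subgroup.zpowers x)) _ Nat.card_pos.ne'
        rw [← Units.val_pow_eq_pow_val, ← map_pow, pow_card_eq_one', map_one, Units.val_one]
      rw [h3]; norm_num
    rw [classInner, Finset.sum_congr rfl fun x _ => h1 x, Finset.sum_const, Finset.card_univ, ← Nat.card_eq_fintype_card,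
      nsmul_eq_mul, mul_one, inv_mul_cancel₀ (by exact_mod_cast Nat.card_pos.ne')]
  have hgen : IsGeneralizedCharacter G lam := by
    apply Cfsg.Agent.H25.Brauer.isGen_of_elementary hlamcl
    intro E q hq hE
    obtain ⟨b, hb⟩ := hlamE E q hq hE
    have h1 : (fun e : E => lam e) = fun e : E => (b e : ℂ) := funext hb
    rw [h1]
    haveI : Fintype E := Fintype.ofFinite _
    exact IsGen.of_irr (isIrr_of_hom_units b)
  have hlam1 : lam 1 = 1 := by
    rw [hlam, one_pow]
    have h1 : FN p N ψ 1 = FN p N t 1 := FN_congr fun n hn => by rw [mul_one]; exact hψt n hn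
    rw [h1, div_self hS0]
  have hirr : IsIrrCharacter G lam := by
    rcases isGen_norm_one hgen hone with h1 | h1
    · exact h1
    · exfalso
      have h2 := cd_eq (⟨_, h1⟩ : IrrCharacter G)
      change _ = (-lam) 1 at h2
      rw [Pi.neg_apply, hlam1] at h2
      have h3 : ((charDegree (-lam) + 1 : ℕ) : ℂ) = 0 := by
        push_cast
        have : (charDegree (-lam) : ℂ) = -1 := h2
        rw [this]; ring
      have h4 : charDegree (-lam) + 1 = 0 := by exact_mod_cast h3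
      omega
  obtain ⟨l, hl⟩ := IsChar.hom_units_of_one (IsIrr.isCharacter hirr) hlam1
  have hlN : ∀ n ∈ N, l n = 1 := by
    intro n hn
    apply Units.ext
    rw [← hl, hlam, Units.val_one]
    have h1 := hFNinv (n ^ m) (N.pow_mem hn m) 1
    rw [mul_one] at h1
    have h2 : FN p N ψ 1 = FN p N t 1 := FN_congr fun n hn => by rw [mul_one]; exact hψt n hn
    rw [h1, h2, div_self hS0]
  have hχ : IsIrrCharacter G ((fun g => ((l⁻¹ g : ℂˣ) : ℂ)) * ψ) :=
    IsIrr.mul_linear hψ (IsIrr.isCharacter (isIrr_of_hom_units l⁻¹)) (by simp)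
  have hχN : ∀ n ∈ N, ((fun g => ((l⁻¹ g : ℂˣ) : ℂ)) * ψ) n = t n := by
    intro n hn
    rw [Pi.mul_apply, MonoidHom.inv_apply, hlN n hn, inv_one, Units.val_one, one_mul, hψt n hn]
  have hgd : Gd p N t ⊤ ((fun g => ((l⁻¹ g : ℂˣ) : ℂ)) * ψ) := by
    refine ⟨le_top, ?_, hχN, fun x _ hreg => ?_⟩
    · haveI : Fintype (⊤ : Subgroup G) := Fintype.ofFinite _
      exact (isIrr_comp_iff (Subgroup.topEquiv (G := G)) (χ := (fun g => ((l⁻¹ g : ℂˣ) : ℂ)) * ψ)).2 hχ
    · have h1 := FN_mul (p := p) (N := N) (L := ⊤) (β := fun g => ((l⁻¹ g : ℂˣ) : ℂ)) (f := ψ) (f' := (fun g => ((l⁻¹ g : ℂˣ) : ℂ)) * ψ) (x := x)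
        (fun n hn => rfl) (fun n hn => by
          change ((l⁻¹ (n * x) : ℂˣ) : ℂ) = ((l⁻¹ x : ℂˣ) : ℂ)
          rw [map_mul, MonoidHom.inv_apply, hlN n hn, inv_one, one_mul])
      rw [h1]
      have h2 : FN p N ψ (x ^ m) = FN p N ψ x := by
        have h3 : x ^ m * x⁻¹ ∈ N := by
          rw [← QuotientGroup.eq_one_iff, QuotientGroup.mk_mul, QuotientGroup.mk_inv, mul_inv_eq_one, QuotientGroup.mk_pow]
          conv_rhs => rw [← pow_one (QuotientGroup.mk x : G ⧸ N)]
          rw [pow_eq_pow_iff_modEq]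
          apply hm1.of_dvd
          have h4 : Nat.Coprime (orderOf (QuotientGroup.mk x : G ⧸ N)) (ordProj[p] (Nat.card G)) :=
            Nat.Coprime.pow_right _ ((Nat.Prime.coprime_iff_not_dvd hpp).2 hreg).symm
          apply h4.dvd_of_dvd_mul_left
          rw [Nat.ordProj_mul_ordCompl_eq_self]
          apply orderOf_dvd_of_pow_eq_one
          rw [← QuotientGroup.mk_pow, pow_card_eq_one']; rfl
        have h5 := hFNinv _ h3 x
        rwa [inv_mul_cancel_right] at h5
      have h3 := hl x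
      rw [hlam, h2] at h3
      have h4 : FN p N ψ x = (l x : ℂ) * FN p N t 1 := by rw [← h3, div_mul_cancel₀ _ hS0]
      change ((l⁻¹ x : ℂˣ) : ℂ) * FN p N ψ x = _
      rw [h4, MonoidHom.inv_apply, ← mul_assoc, ← Units.val_mul, inv_mul_cancel, Units.val_one, one_mul]
  refine ⟨⟨_, hχ⟩, ?_, fun n => ?_, fun J hNJ => ?_⟩
  · obtain ⟨h1, h2⟩ := (pb_top hM).1 (hgd.pb hM ht)
    exact h2
  · exact (hχN n n.2).trans (hte n)
  · have h1 := (hgd.down ht.1 hNJ le_top).pb hM ht
    obtain ⟨h2, h3⟩ := h1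
    exact ⟨⟨_, h2⟩, h3, fun _ => rfl⟩

end Cfsg.Agent.S4937
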