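import Cfsg.Statements.S4969
import Mathlib
import Cfsg.Agent.H26_Cols

set_option autoImplicit false
open Cfsg

namespace Cfsg.Agent.S4969

open Cfsg.Agent.H26.Basic Cfsg.Agent.H3.CharIrr Cfsg.Agent.H3.CharComplete Cfsg.Agent.H3.CharInd

/-- Let G be a finite group with k conjugacy classes, g ∈ G, and N > 0. Then the sum over the irreducible complex characters χ of G with χ(1) ≥ N of |χ(g)|/χ(1) is at most √(k · #C_G(g)) / N. -/
theorem result {G : Type*} [Group G] [Finite G] (g : G) (N : ℝ) (hN : 0 < N) :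
    ∑ᶠ χ : Cfsg.IrrCharacter G, (if N ≤ ‖(χ : G → ℂ) 1‖ then ‖(χ : G → ℂ) g‖ / ‖(χ : G → ℂ) 1‖ else 0) ≤
      Real.sqrt ((Nat.card (ConjClasses G) : ℝ) * (Nat.card ↥(Subgroup.centralizer ({g} : Set G)) : ℝ)) / N := by
  classical
  haveI : Fintype G := Fintype.ofFinite G
  haveI : Fintype (IrrCharacter G) := Fintype.ofFinite _
  rw [finsum_eq_sum_of_fintype]
  have h1 : ∑ χ : IrrCharacter G, ‖(χ : G → ℂ) g‖ ^ 2 = (Nat.card ↥(Subgroup.centralizer ({g} : Set G)) : ℝ) := by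
    have h2 := orth2 (G := G) g g
    rw [if_pos (IsConj.refl g)] at h2
    have h3 : ((∑ χ : IrrCharacter G, ‖(χ : G → ℂ) g‖ ^ 2 : ℝ) : ℂ) = ((Nat.card ↥(Subgroup.centralizer ({g} : Set G)) : ℝ) : ℂ) := by
      push_cast
      rw [← h2]
      refine Finset.sum_congr rfl fun χ _ => ?_
      rw [Complex.mul_conj, Complex.normSq_eq_norm_sq]; push_cast; rfl
    exact_mod_cast h3
  have h2 : ∑ χ : IrrCharacter G, (if N ≤ ‖(χ : G → ℂ) 1‖ then ‖(χ : G → ℂ) g‖ / ‖(χ : G → ℂ) 1‖ else 0) ≤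
      ∑ χ : IrrCharacter G, (1 / N) * ‖(χ : G → ℂ) g‖ := by
    refine Finset.sum_le_sum fun χ _ => ?_
    split_ifs with h
    · rw [div_eq_mul_one_div, mul_comm]
      apply mul_le_mul_of_nonneg_right _ (norm_nonneg _)
      exact one_div_le_one_div_of_le hN h
    · positivity
  refine h2.trans ?_
  rw [← Finset.mul_sum, one_div, inv_mul_eq_div]
  apply div_le_div_of_nonneg_right _ hN.le
  apply Real.le_sqrt_of_sq_le
  have h3 := Finset.sum_mul_sq_le_sq_mul_sq (Finset.univ : Finset (IrrCharacter G)) (fun _ => (1 : ℝ)) (fun χ => ‖(χ : G → ℂ) g‖)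
  simp only [one_mul, one_pow, Finset.sum_const, nsmul_eq_mul, mul_one] at h3
  rw [h1, Finset.card_univ, ← Nat.card_eq_fintype_card, card_irr] at h3
  exact h3

end Cfsg.Agent.S4969
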