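import Cfsg.Statements.S4989
import Mathlib
import Cfsg.Agent.H26_Galois

set_option autoImplicit false
open Cfsg

namespace Cfsg.Agent.S4989

open Cfsg.Agent.H26.Basic Cfsg.Agent.H26.Galois Cfsg.Agent.H3.CharIrr Cfsg.Agent.H3.CharComplete Cfsg.Agent.H3.CharInd

/-- Let H be a subgroup of the finite group G and χ an irreducible complex character of G. Then the inner product of the restriction of χ to H with itself, (1/#H)·Σ_{h ∈ H} |χ(h)|², is at most 1 + #(Z ∖ H)/#H, where Z is the set of zeros of χ in G. -/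
theorem result {G : Type*} [Group G] [Finite G] (H : Subgroup G) (χ : Cfsg.IrrCharacter G) : (Nat.card ↥H : ℝ)⁻¹ * ∑ᶠ h : ↥H, ‖(χ : G → ℂ) h‖ ^ 2 ≤ 1 + (Set.ncard ({x : G | (χ : G → ℂ) x = 0} \ (H : Set G)) : ℝ) / (Nat.card ↥H : ℝ) := by
  classical
  haveI : Fintype G := Fintype.ofFinite G
  haveI : Fintype H := Fintype.ofFinite H
  rw [finsum_eq_sum_of_fintype]
  have hc : (0 : ℝ) < (Nat.card H : ℝ) := by exact_mod_cast Nat.card_pos
  -- total sum
  have htot : ∑ g : G, ‖(χ : G → ℂ) g‖ ^ 2 = (Nat.card G : ℝ) := by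
    have h2 := ci_irr_self χ.2
    rw [classInner, inv_mul_eq_one₀ (by exact_mod_cast Nat.card_pos.ne')] at h2
    have h3 : ((∑ g : G, ‖(χ : G → ℂ) g‖ ^ 2 : ℝ) : ℂ) = ((Nat.card G : ℝ) : ℂ) := by
      push_cast
      rw [h2]
      refine Finset.sum_congr rfl fun g _ => ?_
      rw [Complex.mul_conj, Complex.normSq_eq_norm_sq]; push_cast; rfl
    exact_mod_cast h3
  let S : Finset G := Finset.univ.filter (fun g => g ∉ H ∧ (χ : G → ℂ) g ≠ 0)
  let T : Finset G := Finset.univ.filter (fun g => g ∉ H ∧ (χ : G → ℂ) g = 0)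
  let K : Finset G := Finset.univ.filter (fun g => g ∈ H)
  have hS := sum_norm_ge (IsIrr.isCharacter χ.2) S (by
    intro x hx m hm
    simp only [S, Finset.mem_filter, Finset.mem_univ, true_and] at hx ⊢
    exact ⟨fun h => hx.1 (mem_of_pow_mem hm h), pow_ne_zero' (IsIrr.isCharacter χ.2) hx.2 hm⟩) (by
    intro x hx
    simp only [S, Finset.mem_filter, Finset.mem_univ, true_and] at hx
    exact hx.2)
  have hK : ∑ h : H, ‖(χ : G → ℂ) h‖ ^ 2 = ∑ g ∈ K, ‖(χ : G → ℂ) g‖ ^ 2 := by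
    symm
    simp only [K]
    rw [Finset.sum_filter, ← Finset.sum_subtype (Finset.univ.filter (fun g => g ∈ H)) (by simp) (fun g => ‖(χ : G → ℂ) g‖ ^ 2)]
    rw [Finset.sum_filter]
  have hT : ∑ g ∈ T, ‖(χ : G → ℂ) g‖ ^ 2 = 0 := by
    refine Finset.sum_eq_zero fun g hg => ?_
    simp only [T, Finset.mem_filter, Finset.mem_univ, true_and] at hg
    rw [hg.2]; simp
  have hsplit : ∑ g : G, ‖(χ : G → ℂ) g‖ ^ 2 = ∑ g ∈ K, ‖(χ : G → ℂ) g‖ ^ 2 + (∑ g ∈ S, ‖(χ : G → ℂ) g‖ ^ 2 + ∑ g ∈ T, ‖(χ : G → ℂ) g‖ ^ 2) := by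
    rw [← Finset.sum_filter_add_sum_filter_not Finset.univ (fun g => g ∈ H)]
    congr 1
    rw [← Finset.sum_filter_add_sum_filter_not (Finset.univ.filter (fun g => g ∉ H)) (fun g => (χ : G → ℂ) g ≠ 0)]
    congr 1
    · rw [Finset.filter_filter]
    · rw [Finset.filter_filter]
      apply Finset.sum_congr _ (fun _ _ => rfl)
      simp only [T, ne_eq, not_not]
  have hcards : Nat.card G = Nat.card H + (S.card + T.card) := by
    have h1 : Finset.card (Finset.univ : Finset G) = K.card + (S.card + T.card) := by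
      rw [← Finset.card_filter_add_card_filter_not (s := Finset.univ) (fun g => g ∈ H)]
      congr 1
      rw [← Finset.card_filter_add_card_filter_not (s := Finset.univ.filter (fun g => g ∉ H)) (fun g => (χ : G → ℂ) g ≠ 0)]
      congr 1
      · rw [Finset.filter_filter]
      · rw [Finset.filter_filter]
        simp only [T, ne_eq, not_not]
    have h2 : K.card = Nat.card H := by
      rw [Nat.card_eq_fintype_card, Fintype.card_subtype]
    rw [Nat.card_eq_fintype_card, ← Finset.card_univ, h1, h2]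
  have hTn : Set.ncard ({x : G | (χ : G → ℂ) x = 0} \ (H : Set G)) = T.card := by
    rw [← Set.ncard_coe_finset]
    congr 1
    ext g
    simp only [Set.mem_diff, Set.mem_setOf_eq, SetLike.mem_coe, T, Finset.coe_filter, Finset.mem_univ, true_and]
    exact and_comm
  rw [hTn, hK]
  rw [hsplit, hT, add_zero] at htot
  have h5 : (Nat.card G : ℝ) = Nat.card H + (S.card + T.card) := by exact_mod_cast hcards
  have h6 : ∑ g ∈ K, ‖(χ : G → ℂ) g‖ ^ 2 ≤ Nat.card H + T.card := by linarith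
  calc (Nat.card H : ℝ)⁻¹ * ∑ g ∈ K, ‖(χ : G → ℂ) g‖ ^ 2 ≤ (Nat.card H : ℝ)⁻¹ * (Nat.card H + T.card) := by
        apply mul_le_mul_of_nonneg_left h6 (by positivity)
    _ = 1 + (T.card : ℝ) / (Nat.card H : ℝ) := by field_simp

end Cfsg.Agent.S4989
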