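import Cfsg.Statements.S4996
import Mathlib
import Cfsg.Agent.H26_Galois
import Cfsg.Agent.H3_Clifford2
import Cfsg.Agent.H3_CharMult
import Cfsg.Agent.H10_BlockNormal

set_option autoImplicit false
open Cfsg

namespace Cfsg.Agent.S4996

open Cfsg.Agent.H26.Basic Cfsg.Agent.H26.Galois Cfsg.Agent.H3.CharIrr Cfsg.Agent.H3.CharComplete Cfsg.Agent.H3.CharInd Cfsg.Agent.H3.Clifford Cfsg.Agent.H3.CharMult

/-- Let N be a normal subgroup of the finite group G and χ an irreducible complex character of G. Then the restriction of χ to N is not irreducible if and only if χ vanishes on some whole coset Nx of N in G. -/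
theorem result {G : Type*} [Group G] [Finite G] (N : Subgroup G) [N.Normal] (χ : Cfsg.IrrCharacter G) : ¬ Cfsg.IsIrrCharacter ↥N (fun n : ↥N => (χ : G → ℂ) n) ↔ ∃ x : G, ∀ n : ↥N, (χ : G → ℂ) ((n : G) * x) = 0 := by
  classical
  haveI : Fintype G := Fintype.ofFinite G
  haveI : Fintype N := Fintype.ofFinite N
  have hcG : (Nat.card G : ℂ) ≠ 0 := by exact_mod_cast Nat.card_pos.ne'
  have hcN : (Nat.card N : ℂ) ≠ 0 := by exact_mod_cast Nat.card_pos.ne'
  -- the average of |χ|² over N
  let F : G → ℂ := avg N ((χ : G → ℂ) * fun g => (starRingEnd ℂ) ((χ : G → ℂ) g))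
  have hFchar : IsCharacter G F := avg_isChar (hN := inferInstance) (IsChar.mul (IsIrr.isCharacter χ.2) (IsChar.conj (IsIrr.isCharacter χ.2)))
  let r : G → ℝ := fun g => (Nat.card N : ℝ)⁻¹ * ∑ n : N, ‖(χ : G → ℂ) (n * g)‖ ^ 2
  have hFr : ∀ g, F g = r g := by
    intro g
    simp only [F, r, avg]
    push_cast
    congr 1
    refine Finset.sum_congr rfl fun n _ => ?_
    rw [Pi.mul_apply, Complex.mul_conj, Complex.normSq_eq_norm_sq]; push_cast; rfl
  constructor
  · intro hirr
    by_contra hcon
    push Not at hcon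
    have hpos : ∀ g, 0 < r g := by
      intro g
      obtain ⟨n, hn⟩ := hcon g
      apply mul_pos (by rw [inv_pos]; exact_mod_cast Nat.card_pos)
      apply Finset.sum_pos' (fun _ _ => by positivity)
      exact ⟨n, Finset.mem_univ _, by have := norm_pos_iff.2 hn; positivity⟩
    have h1 := sum_ge hFchar (Finset.univ.filter (fun g => g ∉ N)) (by
      intro x hx m hm
      simp only [Finset.mem_filter, Finset.mem_univ, true_and] at hx ⊢
      exact fun h => hx (mem_of_pow_mem hm h)) r (fun g _ => hFr g) (fun g _ => hpos g)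
    -- total sum
    have h2 : ∑ g : G, r g = (Nat.card G : ℝ) := by
      have h3 := ci_irr_self χ.2
      have h4 : classInner F (fun _ => 1) = 1 := by
        have h5 := ci_eq_avg (N := N) ((χ : G → ℂ) * fun g => (starRingEnd ℂ) ((χ : G → ℂ) g))
        have h6 : classInner ((χ : G → ℂ) * fun g => (starRingEnd ℂ) ((χ : G → ℂ) g)) (fun _ => 1) =
            classInner (χ : G → ℂ) (χ : G → ℂ) := by
          unfold classInner
          congr 1
          refine Finset.sum_congr rfl fun g _ => ?_
          simp only [Pi.mul_apply, map_one, mul_one]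
        exact h5.symm.trans (h6.trans h3)
      rw [classInner, inv_mul_eq_one₀ hcG] at h4
      have h5 : ((∑ g : G, r g : ℝ) : ℂ) = ((Nat.card G : ℝ) : ℂ) := by
        push_cast
        rw [h4]
        exact Finset.sum_congr rfl fun g _ => by rw [map_one, mul_one, hFr]
      exact_mod_cast h5
    -- strict on N
    obtain ⟨k, hk⟩ := ci_char_nat (IsChar.res (IsIrr.isCharacter χ.2) N) (IsChar.res (IsIrr.isCharacter χ.2) N)
    have hk1 : k ≠ 1 := by
      rintro rfl
      apply hirr
      apply IsChar.isIrr_of_norm (IsChar.res (IsIrr.isCharacter χ.2) N)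
      rw [hk]; simp
    have hk0 : k ≠ 0 := by
      rintro rfl
      have h3 := ci_self_eq_zero (hk.trans (by simp))
      have h4 := congrFun h3 1
      exact one_ne χ h4
    have hrN : ∀ g ∈ N, r g = k := by
      intro g hg
      have h3 : ((k : ℝ) : ℂ) = ((Nat.card N : ℝ)⁻¹ * ∑ n : N, ‖(χ : G → ℂ) n‖ ^ 2 : ℝ) := by
        rw [Complex.ofReal_natCast, ← hk, classInner]
        push_cast
        congr 1
        refine Finset.sum_congr rfl fun n _ => ?_
        rw [Complex.mul_conj, Complex.normSq_eq_norm_sq]; push_cast; rfl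
      have h4 : (k : ℝ) = (Nat.card N : ℝ)⁻¹ * ∑ n : N, ‖(χ : G → ℂ) n‖ ^ 2 := by exact_mod_cast h3
      rw [h4]
      simp only [r]
      congr 1
      exact Fintype.sum_equiv (Equiv.mulRight ⟨g, hg⟩) _ _ fun _ => rfl
    have h3 := Finset.sum_filter_add_sum_filter_not Finset.univ (fun g => g ∈ N) r
    have h4 : ∑ g ∈ Finset.univ.filter (fun g => g ∈ N), r g = (Nat.card N : ℝ) * k := by
      rw [Finset.sum_congr rfl (g := fun _ => (k : ℝ))]
      · rw [Finset.sum_const, nsmul_eq_mul]
        congr 2
        rw [Nat.card_eq_fintype_card, Fintype.card_subtype]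
      · intro g hg
        exact hrN g (by simpa using hg)
    have h5 : (Nat.card N : ℝ) + ((Finset.univ.filter (fun g => g ∉ N)).card : ℝ) = Nat.card G := by
      have h6 := Finset.card_filter_add_card_filter_not (s := (Finset.univ : Finset G)) (fun g => g ∈ N)
      rw [Finset.card_univ, ← Nat.card_eq_fintype_card] at h6
      have h7 : (Finset.univ.filter (fun g => g ∈ N)).card = Nat.card N := by
        rw [Nat.card_eq_fintype_card, Fintype.card_subtype]
      rw [h7] at h6
      exact_mod_cast h6
    have h6 : (2 : ℝ) ≤ k := by exact_mod_cast (by omega : 2 ≤ k)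
    have h7 : (0 : ℝ) < Nat.card N := by exact_mod_cast Nat.card_pos
    rw [h4, h2] at h3
    nlinarith
  · rintro ⟨x, hx⟩ hirr
    have h1 := congrFun (avg_norm_sq (hN := inferInstance) χ.2 hirr) x
    have h2 : F x = 1 := h1
    rw [hFr] at h2
    have h3 : r x = 0 := by
      simp only [r]
      rw [Finset.sum_eq_zero, mul_zero]
      intro n _
      rw [hx n]; simp
    rw [h3] at h2
    simp at h2

end Cfsg.Agent.S4996
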