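import Cfsg.Statements.S5001
import Mathlib
import Cfsg.Agent.H26_Defect

set_option autoImplicit false
open Cfsg

namespace Cfsg.Agent.S5001

open Cfsg.Agent.H26.Defect Cfsg.Agent.H3.CharIrr Cfsg.Agent.H3.CharInd Cfsg.Agent.H26.Basic

/-- Let p be a prime, G a finite group and B a p-block of G (relative to a maximal ideal M of the algebraic integers containing p) with defect group D. Let Z be a central p-subgroup of G contained in D and λ a linear character of Z (a homomorphism to the nonzero complex numbers). Say an irreducible character χ of G lies over λ when χ(z) = χ(1)λ(z) for all z ∈ Z. If some irreducible character in B lying over λ has height zero, then λ extends to a linear character of D. -/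
theorem result {G : Type*} [Group G] [Finite G] (p : ℕ) [Fact p.Prime] (M : Ideal Cfsg.AlgInt) (hM : Cfsg.IsPModular p M) (B : Set (Cfsg.IrrCharacter G)) (hB : Cfsg.IsPBlock M B) (D : Subgroup G) (hD : Cfsg.IsDefectGroup p M B D) (Z : Subgroup G) (hZc : Z ≤ Subgroup.center G) (hZp : IsPGroup p ↥Z) (hZD : Z ≤ D) (lam : ↥Z →* ℂˣ) (χ : Cfsg.IrrCharacter G) (hχ : χ ∈ B) (hover : (∀ z : ↥Z, (χ : G → ℂ) z = (χ : G → ℂ) 1 * (lam z : ℂ))) (h0 : Cfsg.blockHeight p B (χ : G → ℂ) = 0) : (∃ μ : ↥D →* ℂˣ, ∀ z : ↥Z, μ ⟨(z : G), hZD z.2⟩ = lam z) := by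
  classical
  haveI : Fintype G := Fintype.ofFinite G
  haveI : Fintype D := Fintype.ofFinite D
  obtain ⟨x, hx, P, hP⟩ := hD
  have hDp : IsPGroup p D := by
    rw [hP]; exact P.2.map _
  have hDx : D ≤ Subgroup.centralizer ({x} : Set G) := by
    rw [hP]; exact Subgroup.map_subtype_le _
  obtain ⟨μ, hμ⟩ := exists_linear_constituent hM (IsIrr.isCharacter χ.2)
    (val_notMem_of_height_zero hM hB hx hχ h0) D hDp hDx
  refine ⟨μ, fun z => ?_⟩
  have hz : (z : G) ∈ Subgroup.center G := hZc z.2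
  obtain ⟨c, hc, hc2⟩ := Cfsg.Agent.H3.CharInt.IsIrr.central χ.2 hz
  have hcl : c = (lam z : ℂ) := by
    have h1 := hc2 1
    rw [one_mul, hover z, mul_comm] at h1
    exact (mul_right_cancel₀ (one_ne χ) h1).symm
  have key : ∀ w : D, (w : G) = z → (μ w : ℂ) = lam z := by
    intro w hw
    have h1 : classInner (fun u : D => (χ : G → ℂ) u) (fun u : D => (μ u : ℂ)) =
        c * (starRingEnd ℂ) (μ w : ℂ) * classInner (fun u : D => (χ : G → ℂ) u) (fun u : D => (μ u : ℂ)) := by
      unfold classInner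
      have h2 : ∑ g : D, (χ : G → ℂ) g * (starRingEnd ℂ) (μ g : ℂ) =
          ∑ g : D, (χ : G → ℂ) ((g * w : D) : G) * (starRingEnd ℂ) (μ (g * w) : ℂ) :=
        (Fintype.sum_equiv (Equiv.mulRight w) _ _ fun g => rfl).symm
      conv_lhs => rw [h2]
      rw [mul_left_comm]
      congr 1
      rw [Finset.mul_sum]
      refine Finset.sum_congr rfl fun g _ => ?_
      have h3 : ((g * w : D) : G) = g * z := by rw [Subgroup.coe_mul, hw]
      rw [h3, hc2, map_mul, Units.val_mul, map_mul]
      ring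
    have h4 : c * (starRingEnd ℂ) (μ w : ℂ) = 1 := by
      have h5 : (c * (starRingEnd ℂ) (μ w : ℂ) - 1) * classInner (fun u : D => (χ : G → ℂ) u) (fun u : D => (μ u : ℂ)) = 0 := by
        rw [sub_mul, ← h1, one_mul, sub_self]
      rcases mul_eq_zero.1 h5 with h6 | h6
      · exact sub_eq_zero.1 h6
      · exact absurd h6 hμ
    have h5 : (starRingEnd ℂ) (μ w : ℂ) * (μ w : ℂ) = 1 := by
      have hpow : (μ w : ℂ) ^ (orderOf w) = 1 := by
        rw [← Units.val_pow_eq_pow_val, ← map_pow, pow_orderOf_eq_one, map_one, Units.val_one]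
      have hn : ‖(μ w : ℂ)‖ = 1 := Cfsg.Agent.H3.CharBasic.norm_eq_one_of_pow (orderOf_pos w).ne' hpow
      rw [mul_comm, Complex.mul_conj, Complex.normSq_eq_norm_sq, hn]; simp
    rw [← hcl]
    calc (μ w : ℂ) = (c * (starRingEnd ℂ) (μ w : ℂ)) * μ w := by rw [h4, one_mul]
      _ = c * ((starRingEnd ℂ) (μ w : ℂ) * μ w) := by ring
      _ = c := by rw [h5, mul_one]
  exact Units.ext (key ⟨(z : G), hZD z.2⟩ rfl)

end Cfsg.Agent.S5001
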