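import Cfsg.Statements.S5011
import Mathlib.LinearAlgebra.Eigenspace.Triangularizable
import Mathlib.Analysis.Complex.Polynomial.Basic
import Mathlib.GroupTheory.Subgroup.Simple

set_option autoImplicit false
open Cfsg

namespace Cfsg.Agent.S5011

/-- Let G be a finite non-abelian simple group and ρ an irreducible complex representation of G on a space of dimension greater than one (irreducible in the sense that the only subspaces invariant under every ρ(x) are 0 and the whole space). Then for every non-identity element g of G, the centralizer of g does not act irreducibly: there is a non-zero proper subspace invariant under ρ(c) for every c commuting with g. -/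
theorem result {G : Type*} [Group G] [Finite G] [IsSimpleGroup G]
    (hG : ¬ IsMulCommutative G) {V : Type*} [AddCommGroup V] [Module ℂ V] [FiniteDimensional ℂ V]
    (ρ : Representation ℂ G V)
    (hirr : ∀ W : Submodule ℂ V, (∀ x : G, ∀ v ∈ W, ρ x v ∈ W) → W = ⊥ ∨ W = ⊤)
    (hdim : 1 < Module.finrank ℂ V) (g : G) (hg : g ≠ 1) :
    ∃ W : Submodule ℂ V, W ≠ ⊥ ∧ W ≠ ⊤ ∧ ∀ c ∈ Subgroup.centralizer ({g} : Set G), ∀ v ∈ W, ρ c v ∈ W := by
  classical
  haveI : Nontrivial V := Module.nontrivial_of_finrank_pos (R := ℂ) (by omega)
  obtain ⟨μ, hμ⟩ := Module.End.exists_eigenvalue (ρ g)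
  by_cases htop : Module.End.eigenspace (ρ g) μ = ⊤
  · exfalso
    have hscal : ∀ v : V, ρ g v = μ • v := by
      intro v
      have : v ∈ Module.End.eigenspace (ρ g) μ := by rw [htop]; trivial
      exact Module.End.mem_eigenspace_iff.1 this
    -- the subgroup of elements acting as scalars
    let K : Subgroup G :=
      { carrier := {x | ∃ c : ℂ, ∀ v : V, ρ x v = c • v}
        mul_mem' := by
          rintro a b ⟨c, hc⟩ ⟨d, hd⟩
          refine ⟨c * d, fun v => ?_⟩
          rw [map_mul, Module.End.mul_apply, hd, map_smul, hc, smul_smul, mul_comm]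
        one_mem' := ⟨1, fun v => by rw [map_one, one_smul]; rfl⟩
        inv_mem' := by
          rintro a ⟨c, hc⟩
          obtain ⟨v0, hv0⟩ := exists_ne (0 : V)
          have hc0 : c ≠ 0 := by
            rintro rfl
            apply hv0
            have h1 : ρ a⁻¹ (ρ a v0) = v0 := by
              rw [← Module.End.mul_apply, ← map_mul, inv_mul_cancel, map_one]; rfl
            rw [← h1, hc, zero_smul, map_zero]
          refine ⟨c⁻¹, fun v => ?_⟩
          have h1 : ρ a⁻¹ (ρ a v) = v := by
            rw [← Module.End.mul_apply, ← map_mul, inv_mul_cancel, map_one]; rfl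
          rw [hc, map_smul] at h1
          rw [eq_inv_smul_iff₀ hc0, h1] }
    haveI hKn : K.Normal := by
      refine ⟨?_⟩
      rintro a ⟨c, hc⟩ b
      refine ⟨c, fun v => ?_⟩
      rw [map_mul, map_mul, Module.End.mul_apply, Module.End.mul_apply, hc, map_smul,
        ← Module.End.mul_apply, ← map_mul, mul_inv_cancel, map_one]; rfl
    have hgK : g ∈ K := ⟨μ, hscal⟩
    have hKtop : K = ⊤ := by
      rcases hKn.eq_bot_or_eq_top with h | h
      · rw [h, Subgroup.mem_bot] at hgK; exact absurd hgK hg
      · exact h
    obtain ⟨v0, hv0⟩ := exists_ne (0 : V)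
    rcases hirr (Submodule.span ℂ {v0}) (by
        intro x v hv
        have hx : x ∈ K := by rw [hKtop]; trivial
        obtain ⟨c, hc⟩ := hx
        rw [hc]
        exact Submodule.smul_mem _ _ hv) with h | h
    · exact hv0 ((Submodule.span_singleton_eq_bot).1 h)
    · have h2 := finrank_span_singleton (K := ℂ) hv0
      rw [h, finrank_top] at h2
      omega
  · refine ⟨Module.End.eigenspace (ρ g) μ, hμ, htop, ?_⟩
    intro c hc v hv
    rw [Module.End.mem_eigenspace_iff] at hv ⊢
    have hcomm : c * g = g * c := by
      have := (Subgroup.mem_centralizer_iff.1 hc) g (Set.mem_singleton g)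
      exact this.symm
    rw [← Module.End.mul_apply, ← map_mul, ← hcomm, map_mul, Module.End.mul_apply, hv, map_smul]

end Cfsg.Agent.S5011
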