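import Cfsg.Statements.S5125
import Mathlib
import Cfsg.Agent.H27_FusNorm2

set_option autoImplicit false
open Cfsg

namespace Cfsg.Agent.S5125

/-- Let F be a saturated fusion system over a finite p-group S and Q a subgroup strongly closed in F. If Q has a subgroup Q₁ that is normal in F, with Q/Q₁ abelian and Aut_F(Q₁) a p-group, then Q is normal in F. -/
theorem result {Ω : Type*} [Group Ω] {S : Subgroup Ω} [Finite S] (p : ℕ) [Fact p.Prime] (hS : IsPGroup p S) (F : Cfsg.FusionSystem S) (hF : F.IsSaturated p) (Q Q₁ : Subgroup Ω) (hQ : F.StronglyClosed Q) (hQ₁Q : Q₁ ≤ Q) (hQ₁ : F.IsNormal Q₁) (hab : ⁅Q, Q⁆ ≤ Q₁) (hAut : IsPGroup p ↥(F.autGroup Q₁)) : F.IsNormal Q := by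
  have h1 := Cfsg.Agent.H27.Fus.normal_of_chain hS hF (fun i => if i = 0 then Q₁ else Q) 1 (by simpa using hQ)
    (by intro i hi; obtain rfl : i = 0 := by omega
        simpa using hQ₁Q)
    (by intro i hi; obtain rfl : i = 0 := by omega
        simpa using Cfsg.Agent.H27.Fus.StronglyClosed.weakly (Cfsg.Agent.H27.Fus.IsNormal.strong hQ₁))
    (by
      intro i hi x hx y hy
      obtain rfl : i = 0 := by omega
      simp only [one_ne_zero, if_false, zero_add, if_true] at hx hy ⊢
      have h2 := hab (Subgroup.commutator_mem_commutator (g₁ := y⁻¹) (g₂ := x) (Q.inv_mem hy) hx)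
      rw [commutatorElement_def] at h2
      simpa [mul_assoc] using h2)
    (by
      intro P hc hr
      have hle := Cfsg.Agent.H27.Fus.normal_le_radical hS hQ₁ hc hr
      simp only [if_true]
      refine ⟨hle, fun α hα => ?_⟩
      have hi := (Cfsg.Agent.H27.Fus.mem_autGroup_iff hc.1).1 hα
      have hm := hi.map.mono hle
      have him := Cfsg.Agent.H27.Fus.StronglyClosed.im_eq (Cfsg.Agent.H27.Fus.IsNormal.strong hQ₁) hi.map hle
      have hi1 := hm.iso_of_im_eq him
      obtain ⟨k, hk⟩ := hAut ⟨hi1.aut, hi1.aut_mem⟩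
      refine ⟨k, fun x hx => ?_⟩
      have hk' : hi1.aut ^ p ^ k = 1 := congrArg Subtype.val hk
      have key : ∀ m : ℕ, ((hi1.aut ^ m) ⟨x, hx⟩ : Ω) = ((α ^ m) x : P) := by
        intro m
        induction m with
        | zero => rfl
        | succ m ih =>
          rw [pow_succ', pow_succ', MulAut.mul_apply, MulAut.mul_apply, Cfsg.Agent.H27.Fus.Iso.aut_apply, ih,
            Cfsg.Agent.H27.Fus.totA_apply]
      apply Subtype.ext
      rw [← key, hk']
      rfl)
  simpa using h1

end Cfsg.Agent.S5125
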