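import Cfsg.Statements.S5148
import Mathlib
import Cfsg.Agent.H27_Solv2
import Cfsg.Agent.H27_FusInv3
import Cfsg.Agent.H27_FusAb

set_option autoImplicit false
open Cfsg

namespace Cfsg.Agent.S5148

open H27.Fus H27.Grp Cfsg.FusionSystem

/-- A quasisimple fusion system over a finite p-group S (saturated, equal to its p-residual subsystem, with simple — in particular nontrivial — factor system modulo its centre) has S nonabelian. -/
theorem result {Ω : Type*} [Group Ω] {S : Subgroup Ω} [Finite S] (p : ℕ) [Fact p.Prime] (hS : IsPGroup p S) (F : Cfsg.FusionSystem S) (hq : F.Quasisimple p) : ¬ IsMulCommutative S := by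
    intro hab
    obtain ⟨hF, hhyp, hsimp⟩ := hq
    have hab' : ∀ x ∈ S, ∀ y ∈ S, x * y = y * x := fun x hx y hy =>
      congrArg Subtype.val (hab.is_comm.comm ⟨x, hx⟩ ⟨y, hy⟩)
    have hZs := IsNormal.strong (IsCentral.normal (center_central F))
    have hd := facData_mk (F := F) hZs
    have hE := facFS_isFactor (F := F) hd hZs
    obtain ⟨hEs, hne, hs⟩ := hsimp _ hE
    haveI : Finite (⊤ : Subgroup (S ⧸ (F.center).subgroupOf S)) := finite_S' hd
    have hT' := isPGroup_S' hd hS
    have habE : ∀ x ∈ (⊤ : Subgroup (S ⧸ (F.center).subgroupOf S)), ∀ y ∈ (⊤ : Subgroup (S ⧸ (F.center).subgroupOf S)),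
        x * y = y * x := by
      intro x _ y _
      obtain ⟨a, rfl⟩ := QuotientGroup.mk'_surjective _ x
      obtain ⟨b, rfl⟩ := QuotientGroup.mk'_surjective _ y
      rw [← map_mul, ← map_mul]
      congr 1
      exact Subtype.ext (hab' a a.2 b b.2)
    have hnT := abelian_S_normal hT' hEs habE
    have hin := inner_normal hT' hEs hnT
    have hall : ∀ P : Subgroup (S ⧸ (F.center).subgroupOf S), (innerFusionSystem (⊤ : Subgroup (S ⧸ (F.center).subgroupOf S))).Hom P = (facFS F hd hZs).Hom P := by
      rcases hs _ _ hin with h | h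
      · exact absurd h hne
      · exact h.2
    have hsur := surjective_of_factor hS hF hE hZs
    obtain ⟨hm1, hm2⟩ := (isMorphism_iff _).1 hsur.1
    have hfoc : F.focalSubgroup ≤ F.center := by
      rw [foc_eq, Subgroup.closure_le]
      rintro y ⟨P, f, hf, x, hx, rfl⟩
      obtain ⟨f', hf', hi⟩ := hm2 P f hf
      have h1 : Map (innerFusionSystem (⊤ : Subgroup (S ⧸ (F.center).subgroupOf S))) _ f' :=
        map_of_le (hall _).symm.le hf'
      obtain ⟨h2, s, hs', h3⟩ := map_inner.1 h1
      have hxS := hf.le hx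
      have h4 : tt (QuotientGroup.mk' (F.center.subgroupOf S)) x ∈ imageAlong (QuotientGroup.mk' (F.center.subgroupOf S)) P :=
        (mem_imageAlong _ hf.le).2 ⟨x, hx, rfl⟩
      have h5 := h3 _ h4
      rw [hi x hx, habE s trivial _ trivial, mul_inv_cancel_right] at h5
      exact (FacData.eq_iff hd (hf.mem hx) hxS).1 h5
    have hSfoc : S ≤ F.center := fun x hx => hfoc (hyp_le_foc (hhyp.symm.le hx))
    apply hne
    rw [eq_bot_iff]
    intro y _
    obtain ⟨a, rfl⟩ := QuotientGroup.mk'_surjective _ y
    rw [Subgroup.mem_bot]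
    exact (QuotientGroup.eq_one_iff a).2 (hSfoc a.2)

end Cfsg.Agent.S5148
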