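import Cfsg.Statements.S5196
import Mathlib
import Cfsg.Agent.H27_LG3

set_option autoImplicit false
universe u
open Cfsg

namespace Cfsg.Agent.S5196

open H27.Fus H27.Grp

theorem aux {p : ℕ} [Fact p.Prime] (W : ∀ (Q : Type u) [Group Q], Subgroup Q)
    (hW1 : ∀ (Q : Type u) [Group Q] [Finite Q], IsPGroup p Q → Nontrivial Q → W Q ≠ ⊥)
    (hW2 : ∀ (Q R : Type u) [Group Q] [Group R] [Finite Q], IsPGroup p Q → ∀ φ : Q ≃* R, (W Q).map φ.toMonoidHom = W R)
    (hWZ : ∀ (Q : Type u) [Group Q] [Finite Q], IsPGroup p Q → Subgroup.center Q ≤ W Q)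
    (hC : ∀ (G : Type u) [Group G] [Finite G] (P : Sylow p G), Cfsg.pCore p G ⊓ Subgroup.center G = Cfsg.pCore p G ⊓ (Subgroup.center ↥(Subgroup.normalizer (((W ↥(P : Subgroup G)).map (P : Subgroup G).subtype : Subgroup G) : Set G))).map (Subgroup.normalizer (((W ↥(P : Subgroup G)).map (P : Subgroup G).subtype : Subgroup G) : Set G)).subtype) :
    ∀ {Ω : Type u} [Group Ω] (S : Subgroup Ω) [Finite S] (F : FusionSystem S), IsPGroup p S → F.IsSaturated p →
      ∀ z ∈ S, (∀ s ∈ S, s * z * s⁻¹ = z) → (∀ P f, Nmap F (Wm W S) P f → z ∈ P → f z = z) →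
        ∀ P f, Map F P f → z ∈ P → f z = z := by
  apply sat_induction
  intro Ω _ S _ F hS hF IH1 IH2 z hzS hzc hz
  have hmem : z ∈ Wm W S := by
    refine mem_Wm.2 ⟨hzS, hWZ S hS ?_⟩
    rw [Subgroup.mem_center_iff]
    intro g
    apply Subtype.ext
    exact mul_inv_eq_iff_eq_mul.1 (hzc g g.2)
  have hN := Wm_normal hS hW2 F
  have key : ∀ P f, Map F P f → Cz F z P f := by
    refine reduce hS hF (subCls_Cz F z) (Wm W) (fun R _ => Wm_le R) (fun R f hf => Wm_im hS hW2 hf)
      (fun R hR _ hRb => Wm_ne_bot hS hW1 hR hRb) ?_ ?_ ?_ ?_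
    · intro P f hf
      have hf' := hf
      obtain ⟨e1, e2, g, e3, e4, e5⟩ := hf
      have hle : Subgroup.zpowers z ≤ Wm W S := by rw [Subgroup.zpowers_le]; exact hmem
      refine ⟨g, e3.mono (sup_le_sup_left hle _), e4, ?_⟩
      refine hz (P ⊔ Wm W S) g ⟨?_, fun x hx => hN (e3.mem hx), g, ?_, fun _ _ => rfl, e5⟩ ((le_sup_right : Wm W S ≤ _) hmem)
      · exact e3.le.trans hN
      · rwa [sup_assoc, sup_idem]
    · -- subsystems
      intro R E hRS hE hsub hlt hCR hEN
      have hzR : z ∈ R := hCR (mem_cen.2 ⟨hzS, fun y hy => by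
        have := hzc y hy
        nth_rw 2 [← this]; group⟩)
      refine Cz_of_sys hS hRS hE hsub hzR ?_
      have hcond : ∀ P f, Nmap E (Wm W R) P f → z ∈ P → f z = z := fun P f hf hzP => Cz_fix (hEN P f hf) hzP
      rcases hlt with hlt | hlt
      · haveI : Finite R := finite_of_le hRS
        exact IH1 R E (isPGroup_mono hS hRS) hE (card_lt_of_lt hlt) z hzR (fun s hs => hzc s (hRS hs)) hcond
      · by_cases hRS' : R = S
        · subst hRS'
          exact IH2 E hE hsub hlt z hzR hzc hcond
        · haveI : Finite R := finite_of_le hRS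
          exact IH1 R E (isPGroup_mono hS hRS) hE (card_lt_of_lt (lt_of_le_of_ne hRS hRS')) z hzR (fun s hs => hzc s (hRS hs)) hcond
    · -- constrained
      intro hcen P f hf
      have hQ := core_normal F
      have hQS : F.core ≤ S := (isNormal_iff.1 hQ).1
      obtain ⟨G, _, ι, hM⟩ := exists_model hS hF hQ hcen
      have hMD := MD.of_model hS hF hQ hcen hM
      haveI := hMD.fin
      obtain ⟨T, hT⟩ := hMD.syl
      have hzQ : z ∈ F.core := by
        apply IsCentric.cen_le hcen
        refine mem_cen.2 ⟨hzS, fun y hy => ?_⟩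
        have := hzc y (hQS hy)
        nth_rw 2 [← this]; group
      have h1 : tt ι z ∈ Cfsg.pCore p G := hMD.pcore_eq hS z hzQ
      have hWT : ∀ y, y ∈ (W ↥(T : Subgroup G)).map (T : Subgroup G).subtype ↔ ∃ x ∈ Wm W S, tt ι x = y := fun y =>
        W_transfer hS hW2 hMD.inj hT
      set N := Subgroup.normalizer (((W ↥(T : Subgroup G)).map (T : Subgroup G).subtype : Subgroup G) : Set G) with hNdef
      have hn : ∀ n ∈ N, n * tt ι z = tt ι z * n := by
        intro n hn
        obtain ⟨f, hf, hfn⟩ := hMD.exists_iso (V := Wm W S) (Wm_le S) (n := n) (by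
          intro x hx
          rw [hNdef, Subgroup.mem_normalizer_iff] at hn
          exact (hWT _).1 ((hn (tt ι x)).1 ((hWT _).2 ⟨x, hx, rfl⟩)))
        have h2 := hfn z hmem
        rw [hz _ f (nmap_of_iso hf) hmem] at h2
        rw [eq_mul_inv_iff_mul_eq] at h2
        exact h2.symm
      have hzN : tt ι z ∈ N := by
        apply Subgroup.le_normalizer
        exact (hWT _).2 ⟨z, hmem, rfl⟩
      have h3 : tt ι z ∈ Cfsg.pCore p G ⊓ (Subgroup.center N).map N.subtype := by
        refine ⟨h1, ⟨tt ι z, hzN⟩, ?_, rfl⟩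
        rw [SetLike.mem_coe, Subgroup.mem_center_iff]
        intro g
        exact Subtype.ext (hn g g.2)
      rw [hNdef, ← hC G T] at h3
      have h4 := Subgroup.mem_center_iff.1 h3.2
      have h5 : P ⊔ Subgroup.zpowers z ≤ S := sup_le hf.le (by rw [Subgroup.zpowers_le]; exact hzS)
      obtain ⟨g, hg⟩ := hMD.map_real hf
      -- extend
      have hcomm : ∀ s ∈ S, s * z = z * s := fun s hs => by
        have := hzc s hs
        nth_rw 2 [← this]; group
      have hex : ∀ x ∈ P ⊔ Subgroup.zpowers z, ∃ y ∈ S, tt ι y = g * tt ι x * g⁻¹ := by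
        intro x hx
        refine Subgroup.closure_induction (p := fun x _ => ∃ y ∈ S, tt ι y = g * tt ι x * g⁻¹)
          (k := (P : Set Ω) ∪ {z}) ?_ ⟨1, S.one_mem, by rw [tt_one]; group⟩ ?_ ?_
          (by
            have : P ⊔ Subgroup.zpowers z ≤ Subgroup.closure ((P : Set Ω) ∪ {z}) := by
              apply sup_le
              · intro y hy; exact Subgroup.subset_closure (Or.inl hy)
              · rw [Subgroup.zpowers_le]; exact Subgroup.subset_closure (Or.inr rfl)
            exact this hx)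
        · rintro x (hx | hx)
          · exact ⟨f x, hf.mem hx, hg x hx⟩
          · rw [Set.mem_singleton_iff] at hx
            subst hx
            exact ⟨x, hzS, by rw [h4 g]; group⟩
        · rintro x y hx hy ⟨a, ha, ha'⟩ ⟨b, hb, hb'⟩
          have hcl : Subgroup.closure ((P : Set Ω) ∪ {z}) ≤ S := by
            rw [Subgroup.closure_le]
            rintro y (hy | hy)
            · exact hf.le hy
            · rw [Set.mem_singleton_iff] at hy; subst hy; exact hzS
          exact ⟨a * b, S.mul_mem ha hb, by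
            rw [tt_mul ι ha hb, ha', hb', tt_mul ι (hcl hx) (hcl hy)]; group⟩
        · rintro x hx ⟨a, ha, ha'⟩
          have hcl : Subgroup.closure ((P : Set Ω) ∪ {z}) ≤ S := by
            rw [Subgroup.closure_le]
            rintro y (hy | hy)
            · exact hf.le hy
            · rw [Set.mem_singleton_iff] at hy; subst hy; exact hzS
          exact ⟨a⁻¹, S.inv_mem ha, by
            rw [tt_inv ι ha, ha', tt_inv ι (hcl hx)]; group⟩
      choose! k hkS hk using hex
      refine ⟨k, (hMD.real _ k h5 hkS ?_).2 ⟨g, hk⟩, ?_, ?_⟩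
      · intro x hx y hy
        apply tt_inj hMD.inj (hkS _ (Subgroup.mul_mem _ hx hy)) (S.mul_mem (hkS _ hx) (hkS _ hy))
        rw [tt_mul ι (hkS _ hx) (hkS _ hy), hk _ (Subgroup.mul_mem _ hx hy), hk _ hx, hk _ hy,
          tt_mul ι (h5 hx) (h5 hy)]; group
      · intro x hx
        have hx' : x ∈ P ⊔ Subgroup.zpowers z := (le_sup_left : P ≤ _) hx
        apply tt_inj hMD.inj (hkS _ hx') (hf.mem hx)
        rw [hk _ hx', hg x hx]
      · have hx' : z ∈ P ⊔ Subgroup.zpowers z := Subgroup.mem_sup_right (Subgroup.mem_zpowers z)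
        apply tt_inj hMD.inj (hkS _ hx') hzS
        rw [hk _ hx', h4 g]; group
    · -- quotient
      intro hsc hQb hQc hV P f hf
      have hQ := core_normal F
      have hQs := IsNormal.strong hQ
      have hQS : F.core ≤ S := (isNormal_iff.1 hQ).1
      obtain ⟨N, hNn, E, hpS', hE, hEs, hcard⟩ := exists_quo hS hF hQs hQb
      obtain ⟨hd, hm⟩ := isFactorSystem_iff.1 hE
      set θ := QuotientGroup.mk' N with hθ
      haveI : Finite (⊤ : Subgroup (S ⧸ N)) := finite_S' hd
      have hV'n := Wm_normal (W := W) hpS' hW2 E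
      have hV'S : Wm W (⊤ : Subgroup (S ⧸ N)) ≤ ⊤ := le_top
      have hQneS : F.core ≠ S := by
        intro h
        apply hQc
        rw [h]; exact top_centric F
      have hV'b : ¬ FusionSystem.preimageAlong θ (Wm W (⊤ : Subgroup (S ⧸ N))) ≤ F.core := by
        intro hle
        have hnb : (⊤ : Subgroup (S ⧸ N)) ≠ ⊥ := by
          intro hb
          apply hQneS
          apply le_antisymm hQS
          intro x hx
          have h1 : tt θ x ∈ (⊤ : Subgroup (S ⧸ N)) := trivial
          rw [hb, Subgroup.mem_bot, ← tt_one θ, hd.eq_iff hx S.one_mem] at h1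
          simpa using h1
        apply Wm_ne_bot hpS' hW1 (le_refl (⊤ : Subgroup (S ⧸ N))) hnb
        rw [eq_bot_iff]
        intro y hy
        obtain ⟨x, hx, rfl⟩ := hd.pre_surj hV'S hy
        have h1 := hle hx
        rw [Subgroup.mem_bot, ← tt_one θ, hd.eq_iff (hQS h1) S.one_mem]
        simpa using h1
      have hVF := hV _ (preimageAlong_le _ _) (pre_normal hd hV'S hV'n) hV'b
      have hIH := IH1 (⊤ : Subgroup (S ⧸ N)) E hpS' hEs hcard (tt θ z) trivial (by
        intro s hs
        obtain ⟨x, hx, rfl⟩ := hd.surj hs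
        rw [← tt_conj θ hx hzS, hzc x hx]) (by
        intro P' f' hf' hzP'
        obtain ⟨g, hg, hgf⟩ := nmap_lift hE hQs hV'S hV'n hf'
        have hzpre : z ∈ FusionSystem.preimageAlong θ P' := (mem_preimageAlong θ).2 ⟨hzS, hzP'⟩
        rw [hgf z hzpre, Cz_fix (hVF _ _ hg) hzpre])
      have hzE : tt θ z ∈ E.center := (mem_center_iff hpS' hEs).2 ⟨trivial, hIH⟩
      have hpre := lemmaR3 hS hF hQ hsc hE (IsCentral.normal (center_central E))
      have hzQ : z ∈ F.core := le_core hpre ((mem_preimageAlong θ).2 ⟨hzS, hzE⟩)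
      obtain ⟨g, hg, hgf, s, hs, hgs⟩ := hsc P f hf
      refine ⟨g, hg.mono (sup_le_sup_left (by rw [Subgroup.zpowers_le]; exact hzQ) _), hgf, ?_⟩
      rw [hgs z hzQ, hzc s hs]
  intro P f hf hzP
  exact Cz_fix (key P f hf) hzP

/-- Let p be an odd prime and W a positive characteristic p-functor: W assigns to every finite p-group Q (in a fixed universe) a subgroup W(Q), nontrivial when Q is, carried to W(R) by every isomorphism Q ≅ R; assume also Z(Q) ≤ W(Q) for every finite p-group Q. Suppose W satisfies the local condition: for every finite group G with Sylow p-subgroup P, O_p(G) ∩ Z(G) = O_p(G) ∩ Z(N_G(W(P))). Then W controls weak closure of elements in every saturated fusion system F over a finite p-group S: the centre of the normalizer fusion system of W(S) in F equals the centre of F. (For p = 2 no functor satisfies the local condition, so p is taken odd.) -/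
theorem result {p : ℕ} [Fact p.Prime] (hp : p ≠ 2) (W : ∀ (Q : Type u) [Group Q], Subgroup Q) (hW1 : ∀ (Q : Type u) [Group Q] [Finite Q], IsPGroup p Q → Nontrivial Q → W Q ≠ ⊥) (hW2 : ∀ (Q R : Type u) [Group Q] [Group R] [Finite Q], IsPGroup p Q → ∀ φ : Q ≃* R, (W Q).map φ.toMonoidHom = W R) (hWZ : ∀ (Q : Type u) [Group Q] [Finite Q], IsPGroup p Q → Subgroup.center Q ≤ W Q) (hC : ∀ (G : Type u) [Group G] [Finite G] (P : Sylow p G), Cfsg.pCore p G ⊓ Subgroup.center G = Cfsg.pCore p G ⊓ (Subgroup.center ↥(Subgroup.normalizer (((W ↥(P : Subgroup G)).map (P : Subgroup G).subtype : Subgroup G) : Set G))).map (Subgroup.normalizer (((W ↥(P : Subgroup G)).map (P : Subgroup G).subtype : Subgroup G) : Set G)).subtype) {Ω : Type u} [Group Ω] {S : Subgroup Ω} [Finite S] (hS : IsPGroup p S) (F : Cfsg.FusionSystem S) (hF : F.IsSaturated p) (N : Cfsg.FusionSystem (Cfsg.FusionSystem.normalizerIn S ((W ↥S).map S.subtype))) (hN : F.IsNormalizerSystem ((W ↥S).map S.subtype) N) : N.center = F.center := by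
  have hsub : ∀ P f, Map N P f ↔ Nmap F (Wm W S) P f := fun P f => nsys_map hN
  have hn := Wm_normal hS hW2 F
  have hfn : F.IsFullyNormalized (Wm W S) := by
    refine ⟨Wm_le S, fun R hR => ?_⟩
    haveI : Finite (Cfsg.FusionSystem.normalizerIn S (Wm W S)) := fin_nrm
    exact card_le_of_le (nrm_le.trans hn)
  have hNs := normalizerSystem_saturated hS hF hfn hN
  haveI : Finite (Cfsg.FusionSystem.normalizerIn S ((W ↥S).map S.subtype)) := fin_nrm
  ext z
  rw [mem_center_iff (isPGroup_mono hS nrm_le) hNs, mem_center_iff hS hF]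
  constructor
  · rintro ⟨hz, h⟩
    refine ⟨nrm_le hz, aux W hW1 hW2 hWZ hC S F hS hF z (nrm_le hz) (fun s hs => ?_) (fun P f hf hzP => h P f ((hsub P f).2 hf) hzP)⟩
    exact h (Cfsg.FusionSystem.normalizerIn S ((W ↥S).map S.subtype)) _ (map_conj N le_rfl (hn hs)) hz
  · rintro ⟨hz, h⟩
    exact ⟨hn hz, fun P f hf hzP => h P f ((hsub P f).1 hf).map hzP⟩

end Cfsg.Agent.S5196
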