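import Cfsg.Statements.S5214
import Cfsg.Agent.H27_Suz
import Cfsg.Agent.S1137
import Cfsg.Agent.S1138

set_option autoImplicit false
open Cfsg

namespace Cfsg.Agent.S5214

/-- Let S be a Suzuki 2-group (a finite nonabelian 2-group with more than one involution admitting a cyclic group of automorphisms permuting its involutions regularly). Then S is normal in every saturated fusion system over S (such a group is resistant). -/
theorem result {Ω : Type*} [Group Ω] {S : Subgroup Ω} [Finite S] (hS : IsPGroup 2 S) (F : Cfsg.FusionSystem S) (hF : F.IsSaturated 2) (hsz : Cfsg.IsSuzukiTwoGroup ↥S) : F.IsNormal S := by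
  obtain ⟨h1, h2⟩ := Cfsg.Agent.S1137.result hsz
  obtain ⟨-, h3, -, -⟩ := Cfsg.Agent.S1138.result hsz
  haveI : Fact (Nat.Prime 2) := ⟨Nat.prime_two⟩
  refine Cfsg.Agent.H27.Fus.resistant_two (p := 2) hS hF (Z := (Subgroup.center ↥S).map S.subtype) (Subgroup.map_subtype_le _) ?_ ?_ ?_
  · intro x hx
    constructor
    · rintro ⟨y, hy, rfl⟩
      exact congrArg Subtype.val (h2 y hy)
    · intro h
      by_cases hx1 : x = 1
      · rw [hx1]; exact Subgroup.one_mem _
      · have h4 := (h1 ⟨x, hx⟩).1 ⟨fun e => hx1 (congrArg Subtype.val e), Subtype.ext h⟩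
        exact ⟨⟨x, hx⟩, h4.1, rfl⟩
  · rintro _ ⟨y, hy, rfl⟩ s hs
    exact congrArg Subtype.val ((Subgroup.mem_center_iff.1 hy) ⟨s, hs⟩)
  · intro x hx y hy
    have h4 := h3 ⟨x, hx⟩⁻¹ ⟨y, hy⟩⁻¹
    rw [inv_inv, inv_inv] at h4
    exact ⟨_, h4, rfl⟩

end Cfsg.Agent.S5214
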