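import Cfsg.Statements.S5218
import Cfsg.Agent.H1_FusW2

set_option autoImplicit false
open Cfsg

namespace Cfsg.Agent.S5218

/-- Let p be a prime, n a natural number, S a nontrivial finite p-group of nilpotence class at most n(p−1)+1, and F a saturated fusion system over S. Then the subgroup generated by the pⁿ-th powers of the elements of Z(S) is normal in F. -/
theorem result {Ω : Type*} [Group Ω] {S : Subgroup Ω} [Finite S] (p : ℕ) [Fact p.Prime] (hS : IsPGroup p S) (F : Cfsg.FusionSystem S) (hF : F.IsSaturated p) (n : ℕ) (hS1 : S ≠ ⊥) (hcl : Subgroup.lowerCentralSeries S (n * (p - 1) + 1) = ⊥) : F.IsNormal (Cfsg.powerClosure p n (S ⊓ Subgroup.centralizer (S : Set Ω))) := by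
  have hDS : powerClosure p n (FusionSystem.centralizerIn S S) ≤ S :=
    (Cfsg.Agent.H1.FusW.pc_le n _).trans Cfsg.Agent.H27.Fus.cen_le
  refine Cfsg.Agent.H1.FusW.normal_of_essential' (Q := powerClosure p n (FusionSystem.centralizerIn S S)) hS hF hDS ?_ ?_
  · intro f hf
    refine Cfsg.Agent.H1.FusZ.im_eq_of_forall hf.map hDS (Cfsg.Agent.H1.FusW.pc_map n hf.map Cfsg.Agent.H27.Fus.cen_le ?_)
    intro x hx
    refine Cfsg.Agent.H27.Fus.mem_cen.2 ⟨hf.maps x (Cfsg.Agent.H27.Fus.cen_le hx), fun y hy => ?_⟩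
    obtain ⟨z, hz, rfl⟩ := hf.surj y hy
    rw [← hf.map.mul hz (Cfsg.Agent.H27.Fus.cen_le hx), ← hf.map.mul (Cfsg.Agent.H27.Fus.cen_le hx) hz,
      Cfsg.Agent.H27.Fus.cen_comm hx hz]
  · intro P hP
    refine ⟨(Cfsg.Agent.H1.FusW.pc_le n _).trans (Cfsg.Agent.H1.FusA.zc_le hP.1), fun IH f hf => ?_⟩
    exact Cfsg.Agent.H1.FusW.ess_step hS hF n hcl hP IH hf

end Cfsg.Agent.S5218
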