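import Cfsg.Statements.S5219
import Cfsg.Agent.S5218
import Cfsg.Agent.H1_FusW3

set_option autoImplicit false
open Cfsg

namespace Cfsg.Agent.S5219

/-- Let p be a prime, n a natural number, S a nontrivial finite p-group of nilpotence class at most n(p−1)+1, and F a saturated fusion system over S with no nontrivial normal subgroup (O_p(F) = 1). Then S has exponent dividing p^(n²(p−1)+n). -/
theorem result {Ω : Type*} [Group Ω] {S : Subgroup Ω} [Finite S] (p : ℕ) [Fact p.Prime] (hS : IsPGroup p S) (F : Cfsg.FusionSystem S) (hF : F.IsSaturated p) (n : ℕ) (hS1 : S ≠ ⊥) (hcl : Subgroup.lowerCentralSeries S (n * (p - 1) + 1) = ⊥) (hcore : F.core = ⊥) : Monoid.exponent ↥S ∣ p ^ (n ^ 2 * (p - 1) + n) := by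
  have h1 := Cfsg.Agent.S5218.result p hS F hF n hS1 hcl
  have h2 := Cfsg.Agent.H27.Fus.le_core h1
  rw [hcore] at h2
  have h3 : ∀ z ∈ Subgroup.center ↥S, z ^ (p ^ n) = 1 := by
    intro z hz
    apply Subtype.ext
    have h4 : (z : Ω) ^ (p ^ n) ∈ powerClosure p n (S ⊓ Subgroup.centralizer (S : Set Ω)) := by
      refine Subgroup.subset_closure ⟨z, ⟨z.2, ?_⟩, rfl⟩
      refine Subgroup.mem_centralizer_iff.2 ?_
      intro y hy
      exact congrArg Subtype.val (Subgroup.mem_center_iff.1 hz ⟨y, hy⟩)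
    exact Subgroup.mem_bot.1 (h2 h4)
  have h5 : (⊤ : Subgroup ↥S).lowerCentralSeries (n * (p - 1) + 1) = ⊥ := by
    have h6 := Subgroup.top_subtype_lowerCentralSeries S (n * (p - 1) + 1)
    rw [hcl] at h6
    exact (Subgroup.map_eq_bot_iff_of_injective _ S.subtype_injective).1 h6
  rw [Subgroup.lowerCentralSeries_eq_bot_iff_upperCentralSeries_eq_top] at h5
  rw [Monoid.exponent_dvd_iff_forall_pow_eq_one]
  intro x
  have h7 := Cfsg.Agent.H1.FusW.pow_eq_one_of_ucs h3 (n * (p - 1) + 1) x (by rw [h5]; trivial)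
  rw [← pow_mul] at h7
  have h8 : n * (n * (p - 1) + 1) = n ^ 2 * (p - 1) + n := by ring
  rw [← h8]
  exact h7

end Cfsg.Agent.S5219
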