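import Cfsg.Statements.S5233
import Cfsg.Agent.H1_FusE4

set_option autoImplicit false
open Cfsg

namespace Cfsg.Agent.S5233

/-- Let F be a saturated fusion system over a finite p-group S and P a subgroup of S strongly closed in F that is generalized extraspecial (its Frattini subgroup equals its commutator subgroup and has order p) and not isomorphic to E × A with A elementary abelian and E dihedral of order 8 (p = 2) or extraspecial of order p³ and exponent p (p odd). Then P is normal in F. -/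
theorem result {Ω : Type*} [Group Ω] {S : Subgroup Ω} [Finite S] (p : ℕ) [Fact p.Prime] (hS : IsPGroup p S) (F : Cfsg.FusionSystem S) (hF : F.IsSaturated p) (P : Subgroup Ω) (hP : F.StronglyClosed P) (hge : frattini ↥P = commutator ↥P ∧ Nat.card ↥(commutator ↥P) = p) (h2 : p = 2 → ¬ ∃ (A : Type) (_ : CommGroup A), (∀ a : A, a ^ 2 = 1) ∧ Nonempty (↥P ≃* DihedralGroup 4 × A)) (hodd : p ≠ 2 → ¬ ∃ (E : Type) (_ : Group E) (A : Type) (_ : CommGroup A), Cfsg.IsExtraspecial p E ∧ Nat.card E = p ^ 3 ∧ Monoid.exponent E = p ∧ (∀ a : A, a ^ p = 1) ∧ Nonempty (↥P ≃* E × A)) : F.IsNormal P := by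
  by_contra hn
  obtain ⟨y, x₀, h1, h2', h3, h4, hcen⟩ := Cfsg.Agent.H1.FusE.ge_main hS hF hP hge hn
  haveI : Finite P := Cfsg.Agent.H27.Grp.finite_of_le hP.1
  obtain ⟨A, _, hA, h5, h6⟩ := Cfsg.Agent.H1.FusE.final hge.2 hcen h1 h2' h3 h4
  by_cases hp2 : p = 2
  · exact h2 hp2 ⟨A, inferInstance, fun a => by rw [← hp2]; exact hA a, h5 hp2⟩
  · obtain ⟨E, _, k1, k2, k3, k4⟩ := h6 hp2
    exact hodd hp2 ⟨E, inferInstance, A, inferInstance, k1, k2, k3, hA, k4⟩

end Cfsg.Agent.S5233
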