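import Cfsg.Statements.S5236
import Mathlib
import Cfsg.Agent.H27_Om2

set_option autoImplicit false
open Cfsg

namespace Cfsg.Agent.S5236

open Cfsg.Agent.H27.Fus

/-- Let p be an odd prime, F a saturated fusion system over a finite p-group S and P a subgroup of S strongly closed in F. Then P is normal in F if and only if Ω₁(P) (the subgroup generated by the elements of order p of P) has a chain of subgroups 1 = Q₀ ≤ Q₁ ≤ ⋯ ≤ Qₙ = Ω₁(P), each strongly closed in F, with [Qᵢ₊₁, P] ≤ Qᵢ for all i. -/
theorem result {Ω : Type*} [Group Ω] {S : Subgroup Ω} [Finite S] (p : ℕ) [Fact p.Prime] (hS : IsPGroup p S) (F : Cfsg.FusionSystem S) (hF : F.IsSaturated p) (hp : p ≠ 2) (P : Subgroup Ω) (hP : F.StronglyClosed P) : F.IsNormal P ↔ ∃ (n : ℕ) (Q : Fin (n + 1) → Subgroup Ω), Q 0 = ⊥ ∧ Q (Fin.last n) = Cfsg.omegaOne p P ∧ Monotone Q ∧ (∀ i : Fin (n + 1), F.StronglyClosed (Q i)) ∧ ∀ i : Fin n, ⁅Q i.succ, P⁆ ≤ Q i.castSucc := by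
    constructor
    · intro h
      obtain ⟨n, Q, h0, hn, hm, hN, hc⟩ := omega_of_normal hS h
      exact ⟨n, Q, h0, hn, hm, fun i => IsNormal.strong (hN i), hc⟩
    · rintro ⟨n, Q, h0, hn, hm, hQ, hc⟩
      let D : ℕ → Subgroup Ω := fun i => if h : i < n + 1 then Q ⟨i, h⟩ else Q (Fin.last n)
      have hD : ∀ i (h : i < n + 1), D i = Q ⟨i, h⟩ := fun i h => dif_pos h
      have hD' : ∀ i (h : ¬ i < n + 1), D i = Q (Fin.last n) := fun i h => dif_neg h
      refine normal_of_omega hp hS hF hP n D ?_ ?_ ?_ ?_ ?_
      · intro i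
        by_cases h : i + 1 < n + 1
        · rw [hD i (by omega), hD (i + 1) h]
          exact hm (by simp)
        · rw [hD' (i + 1) h]
          by_cases h' : i < n + 1
          · rw [hD i h']; exact hm (Fin.le_last _)
          · rw [hD' i h']
      · rw [hD 0 (by omega)]
        exact h0
      · intro i
        by_cases h' : i < n + 1
        · rw [hD i h']; exact hQ _
        · rw [hD' i h']; exact hQ _
      · intro i x hx y hy
        by_cases h : i + 1 < n + 1
        · rw [hD i (by omega)]
          rw [hD (i + 1) h] at hy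
          have h1 := hc ⟨i, by omega⟩ (Subgroup.commutator_mem_commutator (g₁ := y⁻¹) (g₂ := x)
            (Subgroup.inv_mem _ hy) hx)
          rw [commutatorElement_def, inv_inv] at h1
          have h4 : y⁻¹ * (x * y * x⁻¹) = y⁻¹ * x * y * x⁻¹ := by group
          rw [h4]; exact h1
        · rw [hD' _ h] at hy
          have h5 : D i = Q (Fin.last n) := by
            by_cases h' : i < n + 1
            · rw [hD i h']
              have : i = n := by omega
              subst this; rfl
            · exact hD' i h'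
          rw [h5]
          have h2 := StronglyClosed.conj_mem (hQ (Fin.last n)) (hP.1 hx) hy
          exact Subgroup.mul_mem _ (Subgroup.inv_mem _ hy) h2
      · intro x hx hxp
        rw [hD n (by omega)]
        have : Q ⟨n, by omega⟩ = omegaOne p P := hn
        rw [this]
        exact Subgroup.subset_closure ⟨hx, hxp⟩

end Cfsg.Agent.S5236
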