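import Cfsg.Statements.S5243
import Mathlib
import Cfsg.Agent.H27_Pp13

set_option autoImplicit false
open Cfsg

namespace Cfsg.Agent.S5243

open Cfsg.FusionSystem Cfsg.Agent.H27.Pp Cfsg.Agent.H27.Fus

/-- Let F be a saturated fusion system over a finite p-group S, E a normal subsystem of F over T ≤ S, and χ a surjective homomorphism from Aut_F(T) onto a nontrivial finite group Δ of order prime to p whose kernel contains Aut_E(T). Then there is a proper normal subsystem F₀ of F over S containing E such that Aut_{F₀}(S) consists of those α ∈ Aut_F(S) whose restriction to T is an element of Aut_F(T) in the kernel of χ; moreover every p'-residual subsystem O^{p'}(F) of F is contained in F₀. -/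
theorem result {Ω : Type*} [Group Ω] {S : Subgroup Ω} [Finite S] (p : ℕ) [Fact p.Prime] (hS : IsPGroup p S) (F : Cfsg.FusionSystem S) (hF : F.IsSaturated p) {T : Subgroup Ω} (hTS : T ≤ S) (E : Cfsg.FusionSystem T) (hE : E.IsNormalIn F p) {Δ : Type*} [Group Δ] [Finite Δ] [Nontrivial Δ] (hΔ : (Nat.card Δ).Coprime p) (χ : ↥(F.autGroup T) →* Δ) (hχ : Function.Surjective χ) (hker : (E.autGroup T).subgroupOf (F.autGroup T) ≤ χ.ker) : ∃ F₀ : Cfsg.FusionSystem S, F₀.IsNormalIn F p ∧ ¬ (∀ P : Subgroup Ω, F₀.Hom P = F.Hom P) ∧ E.IsSubsystemOf F₀ ∧ (∀ α : MulAut ↥S, α ∈ F₀.autGroup S ↔ α ∈ F.autGroup S ∧ ∃ β : ↥(F.autGroup T), χ β = 1 ∧ ∀ t : ↥T, (((β : MulAut ↥T) t : ↥T) : Ω) = ((α ⟨(t : Ω), hTS t.2⟩ : ↥S) : Ω)) ∧ ∀ R : Cfsg.FusionSystem S, F.IsPPrimeResidual p R → R.IsSubsystemOf F₀ := by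
    obtain ⟨hEs, -, hI, -⟩ := normalIn_iff.1 hE
    have hN : NN F E p (χ.ker.map (F.autGroup T).subtype) := by
      refine ⟨Subgroup.map_subtype_le _, fun α hα => ?_, ?_, ?_⟩
      · have hαF : α ∈ F.autGroup T := autGroup_mono_of_sub hI.sub hTS le_rfl hα
        exact ⟨⟨α, hαF⟩, hker (Subgroup.mem_subgroupOf.2 hα), rfl⟩
      · rintro a ha _ ⟨n, hn, rfl⟩
        exact ⟨⟨a, ha⟩ * n * ⟨a, ha⟩⁻¹, (MonoidHom.normal_ker χ).conj_mem n hn ⟨a, ha⟩, rfl⟩
      · rintro a ha k ⟨n, hn, hna⟩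
        refine ⟨⟨a, ha⟩, ?_, rfl⟩
        have e : n = (⟨a, ha⟩ : F.autGroup T) ^ (p ^ k) := Subtype.ext hna
        rw [e] at hn
        have h1 : (χ ⟨a, ha⟩) ^ (p ^ k) = 1 := by rw [← map_pow]; exact hn
        have h2 : orderOf (χ ⟨a, ha⟩) ∣ p ^ k := orderOf_dvd_of_pow_eq_one h1
        have h3 : orderOf (χ ⟨a, ha⟩) ∣ Nat.card Δ := orderOf_dvd_natCard _
        have h4 : orderOf (χ ⟨a, ha⟩) = 1 := Nat.eq_one_of_dvd_coprimes (hΔ.pow_right k) h3 h2
        exact orderOf_eq_one_iff.1 h4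
    obtain ⟨F₀, h1, h2, h3, h4, h5⟩ := s5243 hS hF hEs hI hN
    refine ⟨F₀, h1, h2 ?_, h3, fun α => ?_, h5⟩
    · intro h
      obtain ⟨d, hd⟩ := exists_ne (1 : Δ)
      obtain ⟨a, rfl⟩ := hχ d
      have ha : (a : MulAut T) ∈ χ.ker.map (F.autGroup T).subtype := by rw [h]; exact a.2
      obtain ⟨n, hn, hna⟩ := ha
      have e : n = a := Subtype.ext hna
      rw [e] at hn
      exact hd hn
    · rw [h4]
      constructor
      · rintro ⟨ha, β, ⟨n, hn, rfl⟩, h6⟩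
        exact ⟨ha, n, hn, h6⟩
      · rintro ⟨ha, β, hβ, h6⟩
        exact ⟨ha, β, ⟨β, hβ, rfl⟩, h6⟩

end Cfsg.Agent.S5243
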