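import Cfsg.Statements.S5244
import Cfsg.Agent.H1_UaF

set_option autoImplicit false
open Cfsg

namespace Cfsg.Agent.S5244

open Cfsg.Agent.H1.Ua in
theorem aux {Ω : Type*} [Group Ω] {S A : Subgroup Ω} [Finite S] (p : ℕ) [Fact p.Prime] (hS : IsPGroup p S)
    (h : UAb p S A) (hc : Nat.card ↥(Zs S ⊓ ⁅S, S⁆) = p) (hZ : Nat.card (Zs S) = p) (n : ℕ)
    (hn : Nat.card S = p ^ n) (h3 : 3 ≤ n) : Subgroup.lowerCentralSeries S (n - 2) ≠ ⊥ := by
  intro hle
  have hpp := (Fact.out : p.Prime)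
  obtain ⟨x, hx, hxA⟩ := h.exists_out
  obtain ⟨k, rfl⟩ : ∃ k, n = k + 3 := ⟨n - 3, by omega⟩
  have h0 : k + 3 - 2 = k + 1 := by omega
  rw [h0] at hle
  have h1 : Wi hS h hx (k + 1) = ⊥ := by
    rw [eq_bot_iff, ← hle]
    exact Wi_le_lcs hS h hx (k + 1)
  have h4 := card_Wi hS h hx hxA k
  rw [hc, h1, Subgroup.card_bot, mul_one] at h4
  have h5 := h.card_comm hS
  have h6 := h.card
  rw [hn, ← h5, hZ] at h6
  have h8 : Nat.card ↥⁅S, S⁆ = p ^ (k + 1) := by
    have : Nat.card ↥⁅S, S⁆ * (p * p) = p ^ (k + 1) * (p * p) := by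
      rw [← mul_assoc, h6]; ring
    exact Nat.eq_of_mul_eq_mul_right (Nat.mul_pos hpp.pos hpp.pos) this
  rw [h8] at h4
  have h12 : p ^ k < p ^ (k + 1) := Nat.pow_lt_pow_right hpp.one_lt (by omega)
  omega

/-- Let p be an odd prime, S a finite nonabelian p-group with a unique abelian subgroup A of index p, and F a saturated fusion system over S with no nontrivial normal subgroup (O_p(F) = 1) in which A is not F-essential. Then some subgroup Z(S)⟨x⟩ with x ∈ S outside A is F-essential, the centre Z(S) is contained in the commutator subgroup of S, and S has maximal nilpotency class (if S has order pⁿ with n ≥ 3, the term of index n − 2 of its lower central series, counting S itself as the term of index 0, is nontrivial). -/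
theorem result {Ω : Type*} [Group Ω] {S : Subgroup Ω} [Finite S] (p : ℕ) [Fact p.Prime] (hS : IsPGroup p S) (F : Cfsg.FusionSystem S) (hF : F.IsSaturated p) (hp : p ≠ 2) (hna : ¬ IsMulCommutative ↥S) (A : Subgroup Ω) (hA : A ≤ S ∧ IsMulCommutative ↥A ∧ (A.subgroupOf S).index = p) (huniq : ∀ B : Subgroup Ω, B ≤ S → IsMulCommutative ↥B → (B.subgroupOf S).index = p → B = A) (hcore : F.core = ⊥) (hAe : ¬ F.IsEssential p A) : (∃ x ∈ S, x ∉ A ∧ F.IsEssential p ((S ⊓ Subgroup.centralizer (S : Set Ω)) ⊔ Subgroup.zpowers x)) ∧ (S ⊓ Subgroup.centralizer (S : Set Ω)) ≤ (commutator ↥S).map S.subtype ∧ ∀ n : ℕ, Nat.card S = p ^ n → 3 ≤ n → Subgroup.lowerCentralSeries S (n - 2) ≠ ⊥ := by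
  have h := Cfsg.Agent.H1.Ua.UAb.of hna hA huniq
  have hZc : (S ⊓ Subgroup.centralizer (S : Set Ω)) = Cfsg.Agent.H1.Ua.Zs S := rfl
  rw [hZc, Cfsg.Agent.H1.Ua.map_comm_eq]
  obtain ⟨h1, h2, h3, h4⟩ := Cfsg.Agent.H1.Ua.main hS hF hp h hcore hAe
  exact ⟨h1, h3, fun n hn h5 => aux p hS h h4 h2 n hn h5⟩

end Cfsg.Agent.S5244
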