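import Cfsg.Statements.S5251
import Mathlib
import Cfsg.Agent.H27_Pp5

set_option autoImplicit false
open Cfsg

namespace Cfsg.Agent.S5251

open Cfsg.FusionSystem Cfsg.Agent.H27.Pp Cfsg.Agent.H27.Fus Cfsg.Agent.H27.Sc Cfsg.Agent.H27.Grp

/-- Let F be a saturated fusion system over a finite p-group S, E a normal subsystem of F over T, and P an F-centric subgroup of S such that P ∩ T is not E-centric. Then some F-conjugate P* of P satisfies Out_S(P*) ∩ O_p(Out_F(P*)) ≠ 1: there is an element of N_S(P*) outside P* whose conjugation action on P* lies in O_p(Aut_F(P*)). In particular P is not both centric and radical in F. -/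
theorem result {Ω : Type*} [Group Ω] {S : Subgroup Ω} [Finite S] (p : ℕ) [Fact p.Prime] (hS : IsPGroup p S) (F : Cfsg.FusionSystem S) (hF : F.IsSaturated p) {T : Subgroup Ω} (E : Cfsg.FusionSystem T) (hE : E.IsNormalIn F p) (P : Subgroup Ω) (hP : F.IsCentric P) (hPT : ¬ E.IsCentric (P ⊓ T)) : (∃ φ ∈ F.Hom P, ∃ x ∈ S ⊓ Subgroup.normalizer (φ.range : Set Ω), x ∉ φ.range ∧ ∃ α ∈ ((Cfsg.pCore p ↥(F.autGroup φ.range)).map (F.autGroup φ.range).subtype : Subgroup (MulAut ↥φ.range)), ∀ y : ↥φ.range, ((α y : ↥φ.range) : Ω) = x * (y : Ω) * x⁻¹) ∧ ¬ F.IsRadical p P := by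
    have hI := NormalIn.inv hE
    obtain ⟨Q, hPQ, x, hx, hxQ, α, hα, hαx⟩ := star_of_noncentric hS hF hI.strong hI.sub hP.1 hPT
    have h := hPQ
    obtain ⟨φ, hφ, rfl⟩ := hPQ
    refine ⟨⟨φ, hφ, x, hx, hxQ, α, hα, hαx⟩, fun hr => hxQ ?_⟩
    obtain ⟨f, hf⟩ := isConj_iff.1 (isConj_symm h)
    have h1 : OpA F p P ≤ Inn P := le_of_eq hr.2
    have h2 := h1 (opA_map hf hα)
    rw [← hf.map_inn] at h2
    obtain ⟨β, hβ, h3⟩ := h2
    have h4 : β = α := (MulAut.congr hf.equiv).injective h3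
    rw [h4] at hβ
    obtain ⟨y, hy, h5⟩ := mem_inn.1 hβ
    have hc := IsCentric.cen_le (IsCentric.conj hP h)
    have hQS := isConj_le' h
    have h6 : y⁻¹ * x ∈ centralizerIn S φ.range := by
      refine mem_cen.2 ⟨S.mul_mem (S.inv_mem (hQS hy)) hx.1, fun z hz => ?_⟩
      have h7 := h5 ⟨z, hz⟩
      rw [hαx ⟨z, hz⟩] at h7
      have h8 : x * z * x⁻¹ = y * z * y⁻¹ := h7
      calc z * (y⁻¹ * x) = y⁻¹ * (y * z * y⁻¹) * x := by group
        _ = y⁻¹ * (x * z * x⁻¹) * x := by rw [h8]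
        _ = y⁻¹ * x * z := by group
    have := (φ.range).mul_mem hy (hc h6)
    rwa [mul_inv_cancel_left] at this

end Cfsg.Agent.S5251
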