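import Cfsg.Statements.S5254
import Cfsg.Agent.H1_UaC

set_option autoImplicit false
open Cfsg

namespace Cfsg.Agent.S5254

/-- Let p be an odd prime, S a finite nonabelian p-group with a unique abelian subgroup A of index p, and F a saturated fusion system over S. Then every F-essential subgroup P is A, or Z(S)⟨x⟩ for some x ∈ S outside A, or (when the second centre Z₂(S) lies in A) Z₂(S)⟨x⟩ for some x ∈ S outside A; and P has index p in its normalizer in S. -/
theorem result {Ω : Type*} [Group Ω] {S : Subgroup Ω} [Finite S] (p : ℕ) [Fact p.Prime] (hS : IsPGroup p S) (F : Cfsg.FusionSystem S) (hF : F.IsSaturated p) (hp : p ≠ 2) (hna : ¬ IsMulCommutative ↥S) (A : Subgroup Ω) (hA : A ≤ S ∧ IsMulCommutative ↥A ∧ (A.subgroupOf S).index = p) (huniq : ∀ B : Subgroup Ω, B ≤ S → IsMulCommutative ↥B → (B.subgroupOf S).index = p → B = A) (P : Subgroup Ω) (hP : F.IsEssential p P) : (P = A ∨ (∃ x ∈ S, x ∉ A ∧ P = (S ⊓ Subgroup.centralizer (S : Set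 Ω)) ⊔ Subgroup.zpowers x) ∨ (((upperCentralSeries ↥S 2).map S.subtype) ≤ A ∧ ∃ x ∈ S, x ∉ A ∧ P = ((upperCentralSeries ↥S 2).map S.subtype) ⊔ Subgroup.zpowers x)) ∧ (P.subgroupOf (S ⊓ Subgroup.normalizer (P : Set Ω))).index = p := by
  haveI : Finite P := Cfsg.Agent.H27.Grp.finite_of_le hP.1.1
  have h := Cfsg.Agent.H1.Ua.UAb.of hna hA huniq
  have hZc : (S ⊓ Subgroup.centralizer (S : Set Ω)) = Cfsg.Agent.H1.Ua.Zs S := rfl
  have hZ2 : ((upperCentralSeries ↥S 2).map S.subtype) = Cfsg.Agent.H1.Ua.Z2s S := rfl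
  rw [hZc, hZ2]
  have hpp := (Fact.out : p.Prime)
  by_cases hPA : P = A
  · refine ⟨Or.inl hPA, ?_⟩
    subst hPA
    have hN : S ⊓ Subgroup.normalizer (P : Set Ω) = S := by
      apply inf_eq_left.2
      intro s hs
      exact (Cfsg.Agent.H27.Fus.mem_nrm_of_forall h.le hs fun a ha => h.nrm hS hs ha).2
    rw [hN]
    exact h.idx
  · constructor
    · right
      rcases Cfsg.Agent.H1.Ua.ess_shape hS hF h hP hPA with h1 | h1
      · exact Or.inl h1
      · exact Or.inr ⟨(Cfsg.Agent.H1.Ua.ess_Z2 hS hF h hP hPA).1, h1⟩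
    · have h1 := Cfsg.Agent.H1.Ua.ess_idx hS hF h hP hPA
      haveI : Finite ↥(FusionSystem.normalizerIn S P) := Cfsg.Agent.H27.Fus.fin_nrm
      have h2 := Cfsg.Agent.H1.Ua.card_rel (Cfsg.Agent.H27.Fus.le_nrm hP.1.1)
      rw [h1] at h2
      exact Nat.eq_of_mul_eq_mul_left Nat.card_pos h2

end Cfsg.Agent.S5254
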