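import Cfsg.Statements.S5257
import Cfsg.Agent.H1_UaC

set_option autoImplicit false
open Cfsg

namespace Cfsg.Agent.S5257

open Cfsg.Agent.H1.Ua in
theorem aux {Ω : Type*} [Group Ω] {S A : Subgroup Ω} [Finite S] (p : ℕ) [Fact p.Prime] (hS : IsPGroup p S)
    (h : UAb p S A) (hc : Nat.card ↥(Zs S ⊓ ⁅S, S⁆) = p) (m : ℕ)
    (hm : ((Zs S).subgroupOf S).index = p ^ m) (h3 : 3 ≤ m) : ¬ Subgroup.lowerCentralSeries S (m - 2) ≤ Zs S := by
  intro hle
  have hpp := (Fact.out : p.Prime)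
  obtain ⟨x, hx, hxA⟩ := h.exists_out
  obtain ⟨k, rfl⟩ : ∃ k, m = k + 3 := ⟨m - 3, by omega⟩
  have h1 : Wi hS h hx (k + 1) ≤ Zs S ⊓ ⁅S, S⁆ := by
    refine le_inf ?_ (Wi_le_comm hS h hx k)
    refine (Wi_le_lcs hS h hx (k + 1)).trans ?_
    have : k + 3 - 2 = k + 1 := by omega
    rw [this] at hle; exact hle
  haveI : Finite ↥(Zs S ⊓ ⁅S, S⁆) := Cfsg.Agent.H27.Grp.finite_of_le (inf_le_left.trans Cfsg.Agent.H27.Fus.cen_le)
  haveI : Finite ↥(Zs S) := Cfsg.Agent.H27.Grp.finite_of_le Cfsg.Agent.H27.Fus.cen_le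
  have h2 := Cfsg.Agent.H27.Grp.card_le_of_le h1
  rw [hc] at h2
  have h4 := card_Wi hS h hx hxA k
  rw [hc] at h4
  have h5 := h.card_comm hS
  have h6 := h.card
  have h7 := card_rel (show Zs S ≤ S from Cfsg.Agent.H27.Fus.cen_le)
  rw [show (Zs S).relIndex S = p ^ (k + 3) from hm] at h7
  have h8 : Nat.card ↥⁅S, S⁆ * p = p ^ (k + 3) := by
    rw [← h6, ← h5] at h7
    have : Nat.card ↥(Zs S) * (Nat.card ↥⁅S, S⁆ * p) = Nat.card ↥(Zs S) * p ^ (k + 3) := by rw [h7]; ring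
    exact Nat.eq_of_mul_eq_mul_left Nat.card_pos this
  have h9 : Nat.card ↥⁅S, S⁆ = p ^ (k + 2) := by
    apply Nat.eq_of_mul_eq_mul_right hpp.pos
    rw [h8]; ring
  rw [h9] at h4
  have h10 : p ^ k * Nat.card (Wi hS h hx (k + 1)) ≤ p ^ k * p := Nat.mul_le_mul_left _ h2
  have h11 : p ^ (k + 2) ≤ p ^ (k + 1) := by
    refine h4.trans (h10.trans ?_)
    rw [pow_succ]
  have h12 : p ^ (k + 1) < p ^ (k + 2) := Nat.pow_lt_pow_right hpp.one_lt (by omega)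
  omega

/-- Let p be an odd prime, S a finite nonabelian p-group with a unique abelian subgroup A of index p, and F a saturated fusion system over S having an F-essential subgroup other than A. Then the second centre Z₂(S) lies in A; Z(S) ∩ [S, S] has order p; Z(S)[S, S] has index p in A; Z(S) has index p in Z₂(S); and S/Z(S) has maximal nilpotency class (if S/Z(S) has order pᵐ with m ≥ 3 then the term of index m − 2 of the lower central series of S, counting S as index 0, is not contained in Z(S)). -/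
theorem result {Ω : Type*} [Group Ω] {S : Subgroup Ω} [Finite S] (p : ℕ) [Fact p.Prime] (hS : IsPGroup p S) (F : Cfsg.FusionSystem S) (hF : F.IsSaturated p) (hp : p ≠ 2) (hna : ¬ IsMulCommutative ↥S) (A : Subgroup Ω) (hA : A ≤ S ∧ IsMulCommutative ↥A ∧ (A.subgroupOf S).index = p) (huniq : ∀ B : Subgroup Ω, B ≤ S → IsMulCommutative ↥B → (B.subgroupOf S).index = p → B = A) (P : Subgroup Ω) (hP : F.IsEssential p P) (hPA : P ≠ A) : ((upperCentralSeries ↥S 2).map S.subtype) ≤ A ∧ Nat.card ↥((S ⊓ Subgroup.centralizer (S : Set Ω)) ⊓ ((commutator ↥S).map S.subtype)) = p ∧ (((S ⊓ Subgroup.centralizer (S : Set Ω)) ⊔ ((commutator ↥S).map S.subtype)).subgroupOf A).index = p ∧ (((S ⊓ Subgroup.centralizer (S : Set Ω))).subgroupOf ((upperCentralSeries ↥S 2).map S.subtype)).index = p ∧ ∀ m : ℕ, ((S ⊓ Subgroup.centralizer (S : Set Ω)).subgroupOf S).index = p ^ m → 3 ≤ m → ¬ Subgroup.lowerCentralSeries S (m -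 2) ≤ (S ⊓ Subgroup.centralizer (S : Set Ω)) := by
  haveI : Finite P := Cfsg.Agent.H27.Grp.finite_of_le hP.1.1
  have h := Cfsg.Agent.H1.Ua.UAb.of hna hA huniq
  have hZc : (S ⊓ Subgroup.centralizer (S : Set Ω)) = Cfsg.Agent.H1.Ua.Zs S := rfl
  have hZ2 : ((upperCentralSeries ↥S 2).map S.subtype) = Cfsg.Agent.H1.Ua.Z2s S := rfl
  rw [hZc, hZ2, Cfsg.Agent.H1.Ua.map_comm_eq]
  obtain ⟨h1, h2⟩ := Cfsg.Agent.H1.Ua.ess_Z2 hS hF h hP hPA
  have hc := Cfsg.Agent.H1.Ua.ess_card_comm hS hF h hP hPA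
  refine ⟨h1, hc, Cfsg.Agent.H1.Ua.ZS_index hS h hc, ?_, fun m hm h3 => aux p hS h hc m hm h3⟩
  haveI : Finite ↥(Cfsg.Agent.H1.Ua.Z2s S) := Cfsg.Agent.H27.Grp.finite_of_le Cfsg.Agent.H1.Ua.Z2_le
  have h3 := Cfsg.Agent.H1.Ua.card_rel (Cfsg.Agent.H1.Ua.Z_le_Z2 (S := S))
  rw [h2] at h3
  haveI : Finite ↥(Cfsg.Agent.H1.Ua.Zs S) := Cfsg.Agent.H27.Grp.finite_of_le Cfsg.Agent.H27.Fus.cen_le
  exact Nat.eq_of_mul_eq_mul_left Nat.card_pos h3

end Cfsg.Agent.S5257
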