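import Cfsg.Statements.S5274
import Cfsg.Agent.H27_FusAb
import Cfsg.Agent.H27_FusFac2

set_option autoImplicit false
open Cfsg

namespace Cfsg.Agent.S5274

open Cfsg.Agent.H27.Fus Cfsg.FusionSystem

universe u

theorem main (n : ℕ) : ∀ {Ω : Type u} [Group Ω] {S : Subgroup Ω} [Finite S], Nat.card S = n → IsPGroup 2 ↥S → ∀ (F : Cfsg.FusionSystem S),
    F.IsSaturated 2 → (∀ x ∈ S, ∃ z ∈ S, (∀ s ∈ S, s * z = z * s) ∧ F.IsConjElt x z) → ∀ x ∈ S, ∀ y ∈ S, x * y = y * x := by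
  induction n using Nat.strong_induction_on with
  | _ n IH => ?_
  intro Ω _ S _ hn hS F hF h
  haveI : Fact (Nat.Prime 2) := ⟨Nat.prime_two⟩
  -- a central element generates a fully normalized subgroup
  have hcenFN : ∀ z ∈ S, (∀ s ∈ S, s * z = z * s) → F.IsFullyNormalized (Subgroup.zpowers z) := by
    intro z hz hzc
    have hzS : Subgroup.zpowers z ≤ S := by rw [Subgroup.zpowers_le]; exact hz
    refine ⟨hzS, fun Q hQ => ?_⟩
    have h1 : normalizerIn S (Subgroup.zpowers z) = S := by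
      apply le_antisymm nrm_le
      intro s hs
      apply mem_nrm_of_forall hzS hs
      intro y hy
      obtain ⟨k, rfl⟩ := Subgroup.mem_zpowers_iff.1 hy
      have h2 : s * z ^ k * s⁻¹ = z ^ k := by
        have h3 : Commute s (z ^ k) := (show Commute s z from hzc s hs).zpow_right k
        rw [h3.eq, mul_inv_cancel_right]
      rw [h2]; exact Subgroup.zpow_mem_zpowers z k
    rw [h1]
    exact Nat.card_le_card_of_injective (Subgroup.inclusion nrm_le) (Subgroup.inclusion_injective _)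
  -- elements normalizing a cyclic subgroup centralize it
  have hnc : ∀ u ∈ S, ∀ s ∈ S, (∀ y ∈ Subgroup.zpowers u, s * y * s⁻¹ ∈ Subgroup.zpowers u) → s * u = u * s := by
    intro u hu s hs hsu
    obtain ⟨z, hz, hzc, hconj⟩ := h u hu
    obtain ⟨f, hf, hfz⟩ := isConjElt_iff.1 hconj
    have him : im (Subgroup.zpowers u) f = Subgroup.zpowers z := by
      ext y
      rw [hf.mem_im]
      constructor
      · rintro ⟨x, hx, rfl⟩
        obtain ⟨k, rfl⟩ := Subgroup.mem_zpowers_iff.1 hx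
        rw [hf.zpow (Subgroup.mem_zpowers u), hfz]
        exact Subgroup.zpow_mem_zpowers z k
      · intro hy
        obtain ⟨k, rfl⟩ := Subgroup.mem_zpowers_iff.1 hy
        refine ⟨u ^ k, Subgroup.zpow_mem_zpowers u k, ?_⟩
        rw [hf.zpow (Subgroup.mem_zpowers u), hfz]
    have hc : F.IsConj (Subgroup.zpowers u) (Subgroup.zpowers z) := (hf.iso_of_im_eq him).isConj
    obtain ⟨g, hg, hgi, hgn⟩ := fn_nrm_map hS hF (hcenFN z hz hzc) hc
    have huN : u ∈ normalizerIn S (Subgroup.zpowers u) := le_nrm (by rw [Subgroup.zpowers_le]; exact hu) (Subgroup.mem_zpowers u)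
    have hsN : s ∈ normalizerIn S (Subgroup.zpowers u) := mem_nrm_of_forall (by rw [Subgroup.zpowers_le]; exact hu) hs hsu
    have hgu : g u ∈ Subgroup.zpowers z := hgi.bijOn.mapsTo (Subgroup.mem_zpowers u)
    obtain ⟨k, hk⟩ := Subgroup.mem_zpowers_iff.1 hgu
    have h1 : g (s * u * s⁻¹) = g u := by
      rw [hg.conj hsN huN, ← hk]
      have h3 : Commute (g s) (z ^ k) := (show Commute (g s) z from hzc _ (hg.mem hsN)).zpow_right k
      rw [h3.eq, mul_inv_cancel_right]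
    have h2 := hg.inj (Subgroup.mul_mem _ (Subgroup.mul_mem _ hsN huN) (Subgroup.inv_mem _ hsN)) huN h1
    rw [mul_inv_eq_iff_eq_mul] at h2
    exact h2
  -- involutions commute
  have hinv : ∀ s ∈ S, ∀ t ∈ S, s * s = 1 → t * t = 1 → s * t = t * s := by
    intro s hs t ht hs2 ht2
    have hsi : s⁻¹ = s := inv_eq_of_mul_eq_one_left hs2
    have hti : t⁻¹ = t := inv_eq_of_mul_eq_one_left ht2
    have h1 := hnc (s * t) (S.mul_mem hs ht) s hs (by
      intro y hy
      obtain ⟨k, rfl⟩ := Subgroup.mem_zpowers_iff.1 hy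
      have h2 : s * (s * t) * s⁻¹ = (s * t)⁻¹ := by
        rw [mul_inv_rev, hsi, hti, ← mul_assoc s s t, hs2, one_mul]
      rw [← conj_zpow, h2]
      exact Subgroup.zpow_mem _ (Subgroup.inv_mem _ (Subgroup.mem_zpowers _)) k)
    rw [← mul_assoc, hs2, one_mul] at h1
    calc s * t = s * (s * t * s) := by rw [← h1]
      _ = (s * s) * t * s := by group
      _ = t * s := by rw [hs2, one_mul]
  obtain ⟨A, hAm⟩ : ∃ A : Subgroup Ω, ∀ x, x ∈ A ↔ x ∈ S ∧ x * x = 1 := by
    refine ⟨{ carrier := {x | x ∈ S ∧ x * x = 1}, one_mem' := ⟨S.one_mem, one_mul 1⟩, mul_mem' := ?_, inv_mem' := ?_ }, fun x => Iff.rfl⟩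
    · rintro a b ⟨ha, ha2⟩ ⟨hb, hb2⟩
      refine ⟨S.mul_mem ha hb, ?_⟩
      calc a * b * (a * b) = a * b * (b * a) := by rw [hinv a ha b hb ha2 hb2]
        _ = a * (b * b) * a := by group
        _ = 1 := by rw [hb2, mul_one, ha2]
    · rintro a ⟨ha, ha2⟩
      exact ⟨S.inv_mem ha, by rw [← mul_inv_rev, ha2, inv_one]⟩
  have hAS : F.StronglyClosed A := stronglyClosed_iff.2 ⟨fun x hx => ((hAm x).1 hx).1, fun P f hf x hxP hx =>
    (hAm _).2 ⟨hf.mem hxP, by rw [← hf.mul hxP hxP, ((hAm x).1 hx).2, hf.one]⟩⟩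
  have hAn := abelian_normal hS hF hAS ⟨⟨fun a b => Subtype.ext (hinv a.1 ((hAm _).1 a.2).1 b.1 ((hAm _).1 b.2).1 ((hAm _).1 a.2).2 ((hAm _).1 b.2).2)⟩⟩
  have hAZ : ∀ a ∈ A, ∀ s ∈ S, s * a = a * s := by
    intro a ha s hs
    obtain ⟨z, hz, hzc, hconj⟩ := h s hs
    obtain ⟨f, hf, hfz⟩ := isConjElt_iff.1 hconj
    obtain ⟨g, hg, hgf, hgA⟩ := (isNormal_iff.1 hAn).2 _ f hf
    have hsP : s ∈ Subgroup.zpowers s ⊔ A := Subgroup.mem_sup_left (Subgroup.mem_zpowers s)
    have haP : a ∈ Subgroup.zpowers s ⊔ A := Subgroup.mem_sup_right ha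
    have h1 : g (s * a * s⁻¹) = g a := by
      rw [hg.conj hsP haP, hgf s (Subgroup.mem_zpowers s), hfz, ← hzc _ (hg.mem haP), mul_inv_cancel_right]
    have h2 := hg.inj (Subgroup.mul_mem _ (Subgroup.mul_mem _ hsP haP) (Subgroup.inv_mem _ hsP)) haP h1
    rw [mul_inv_eq_iff_eq_mul] at h2
    exact h2
  by_cases hS1 : Nat.card S = 1
  · intro x hx y hy
    have h1 := Subgroup.card_eq_one.1 hS1
    rw [h1] at hx hy
    rw [Subgroup.mem_bot.1 hx, Subgroup.mem_bot.1 hy]
  haveI hnorm : (A.subgroupOf S).Normal := ⟨fun a ha g => Cfsg.Agent.H27.Fus.StronglyClosed.conj_mem hAS g.2 ha⟩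
  obtain ⟨θ, hθ⟩ : ∃ θ, θ = QuotientGroup.mk' (A.subgroupOf S) := ⟨_, rfl⟩
  have hd := facData_mk hAS
  rw [← hθ] at hd
  have hE := facFS_isFactor hd hAS
  obtain ⟨E, hEE⟩ : ∃ E, E = facFS F hd hAS := ⟨_, rfl⟩
  rw [← hEE] at hE
  have hEs := factor_saturated hS hF hE hAS
  have hEp := isPGroup_S' hd hS
  have hcard : Nat.card (⊤ : Subgroup (S ⧸ A.subgroupOf S)) < n := by
    rw [Subgroup.card_top, ← hn, Subgroup.card_eq_card_quotient_mul_card_subgroup (A.subgroupOf S)]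
    have h1 : 0 < Nat.card (S ⧸ A.subgroupOf S) := Nat.card_pos
    have h2 : 1 < Nat.card (A.subgroupOf S) := by
      rw [Subgroup.one_lt_card_iff_ne_bot]
      intro hbot
      have h3 : 2 ∣ Nat.card S := by
        obtain ⟨k, hk⟩ := (IsPGroup.iff_card (p := 2)).1 hS
        rw [hk] at hS1 ⊢
        exact dvd_pow_self 2 (by rintro rfl; exact hS1 rfl)
      obtain ⟨x, hx⟩ := exists_prime_orderOf_dvd_card' 2 h3
      have h4 : x ∈ A.subgroupOf S := by
        rw [Subgroup.mem_subgroupOf, hAm]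
        refine ⟨x.2, ?_⟩
        have := pow_orderOf_eq_one x
        rw [hx, sq] at this
        exact congrArg Subtype.val this
      rw [hbot, Subgroup.mem_bot] at h4
      rw [h4, orderOf_one] at hx
      omega
    nlinarith
  have key : ∀ x ∈ S, ∃ z ∈ S, (∀ s ∈ S, s * z = z * s) ∧ ∃ g', Map E (imageAlong θ (Subgroup.zpowers x)) g' ∧ g' (tt θ x) = tt θ z := by
    intro x hx
    obtain ⟨z, hz, hzc, hconj⟩ := h x hx
    obtain ⟨f, hf, hfz⟩ := isConjElt_iff.1 hconj
    obtain ⟨g, hg, hgf, hgA⟩ := (isNormal_iff.1 hAn).2 _ f hf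
    have hxS : Subgroup.zpowers x ≤ S := by rw [Subgroup.zpowers_le]; exact hx
    rw [← pre_image hd hxS] at hg
    obtain ⟨g', hg', hi⟩ := exists_ind_map hE hAS le_top hg
    refine ⟨z, hz, hzc, g', hg', ?_⟩
    rw [hi x (by rw [pre_image hd hxS]; exact Subgroup.mem_sup_left (Subgroup.mem_zpowers x)), hgf x (Subgroup.mem_zpowers x), hfz]
  have hab := IH _ hcard rfl hEp E hEs (by
    intro x' hx'
    obtain ⟨x, hx, rfl⟩ := hd.surj hx'
    obtain ⟨z, hz, hzc, g', hg', he⟩ := key x hx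
    refine ⟨tt θ z, Subgroup.mem_top _, ?_, ?_⟩
    · intro s' hs'
      obtain ⟨s, hs, rfl⟩ := hd.surj hs'
      rw [← tt_mul θ hs hz, ← tt_mul θ hz hs, hzc s hs]
    · rw [← he]
      exact isConjElt_of_map hg' ((mem_imageAlong θ (by rw [Subgroup.zpowers_le]; exact hx)).2 ⟨x, Subgroup.mem_zpowers x, rfl⟩))
  have hEn := abelian_S_normal hEp hEs hab
  -- every element is central
  have hcent : ∀ x ∈ S, ∀ s ∈ S, s * x = x * s := by
    intro x hx
    obtain ⟨z, hz, hzc, g', hg', he⟩ := key x hx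
    obtain ⟨h', hh', hhg⟩ := normal_S_ext hEn hg'
    obtain ⟨k, hk, hki⟩ := iso_lift hE hAS hh'
    rw [pre_S' hd] at hk hki
    have h1 : tt θ (k x) = tt θ z := by
      rw [← hki x hx, hhg (tt θ x) ((mem_imageAlong θ (by rw [Subgroup.zpowers_le]; exact hx)).2 ⟨x, Subgroup.mem_zpowers x, rfl⟩), he]
    have h2 : z⁻¹ * k x ∈ A := (hd.eq_iff (hk.map.mem hx) hz).1 h1
    have h3 : ∀ s ∈ S, s * k x = k x * s := by
      intro s hs
      have h4 : k x = z * (z⁻¹ * k x) := by group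
      rw [h4]
      calc s * (z * (z⁻¹ * k x)) = (s * z) * (z⁻¹ * k x) := by group
        _ = z * (s * (z⁻¹ * k x)) := by rw [hzc s hs]; group
        _ = z * (z⁻¹ * k x) * s := by rw [hAZ _ h2 s hs]; group
    intro s hs
    apply hk.map.inj (S.mul_mem hs hx) (S.mul_mem hx hs)
    rw [hk.map.mul hs hx, hk.map.mul hx hs]
    exact h3 _ (hk.map.mem hs)
  intro x hx y hy
  exact hcent y hy x hx

/-- Let F be a saturated fusion system over a finite 2-group S. Suppose that every element of S is F-conjugate to an element of the centre Z(S) (some map of F defined on the cyclic subgroup it generates sends it into Z(S)). Then S is abelian. -/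
theorem result {Ω : Type*} [Group Ω] {S : Subgroup Ω} [Finite S] (hS : IsPGroup 2 ↥S) (F : Cfsg.FusionSystem S) (hF : F.IsSaturated 2) (h : ∀ x ∈ S, ∃ z ∈ S ⊓ Subgroup.centralizer (S : Set Ω), F.IsConjElt x z) : IsMulCommutative ↥S := by
  have h1 := main _ rfl hS F hF (by
    intro x hx
    obtain ⟨z, hz, hz2⟩ := h x hx
    exact ⟨z, hz.1, fun s hs => (Subgroup.mem_centralizer_iff.1 hz.2) s hs, hz2⟩)
  exact ⟨⟨fun a b => Subtype.ext (h1 a a.2 b b.2)⟩⟩

end Cfsg.Agent.S5274
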