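import Cfsg.Statements.S5276
import Mathlib
import Cfsg.Agent.H27_Bs12

set_option autoImplicit false
open Cfsg

namespace Cfsg.Agent.S5276

open Cfsg.Agent.H27.Fus Cfsg.Agent.H27.Bs

/-- Let p be a prime and F a saturated fusion system over a finite p-group S. Then F is the inner fusion system of S if and only if the normalizer fusion system of S itself in F is the inner fusion system (equivalently, Aut_F(S) is induced by S) and the Frattini subgroup Φ(S) is strongly closed in F. -/
theorem result {Ω : Type*} [Group Ω] {S : Subgroup Ω} [Finite S] (p : ℕ) [Fact p.Prime] (hS : IsPGroup p ↥S) (F : Cfsg.FusionSystem S) (hF : F.IsSaturated p) : (∀ P : Subgroup Ω, F.Hom P = (Cfsg.innerFusionSystem S).Hom P) ↔ (∀ N : Cfsg.FusionSystem (Cfsg.FusionSystem.normalizerIn S S), F.IsNormalizerSystem S N → ∀ P : Subgroup Ω, N.Hom P = (Cfsg.innerFusionSystem (Cfsg.FusionSystem.normalizerIn S S)).Hom P) ∧ F.StronglyClosed ((frattini ↥S).map S.subtype) := by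
  have hn : FusionSystem.normalizerIn S S = S := le_antisymm nrm_le (le_nrm le_rfl)
  constructor
  · intro h
    have hm : ∀ P f, Map F P f → ∃ s ∈ S, ∀ x ∈ P, f x = s * x * s⁻¹ := by
      intro P f hf
      exact (map_inner.1 (map_of_le (h P).le hf)).2
    refine ⟨fun N hN P => ?_, ?_⟩
    · refine hom_eq_of_map fun f => ?_
      rw [map_inner, map_of_isNormalizerSystem hN]
      constructor
      · intro hf
        have h1 : Map N P f := (map_of_isNormalizerSystem hN).2 hf
        have h2 : Map F P f := by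
          have h3 : ∀ P, N.Hom P ⊆ F.Hom P := fun P φ hφ => by
            rw [hN P] at hφ; exact hφ.1
          exact map_of_le (h3 P) h1
        obtain ⟨s, hs, hs'⟩ := hm P f h2
        exact ⟨h1.le, s, hn.symm ▸ hs, hs'⟩
      · rintro ⟨hP, s, hs, h1⟩
        exact (map_of_isNormalizerSystem hN).1 ((map_conj N hP hs).congr fun x hx => (h1 x hx).symm)
    · rw [stronglyClosed_iff]
      refine ⟨Subgroup.map_subtype_le _, fun P f hf x hx hxT => ?_⟩
      obtain ⟨s, hs, hs'⟩ := hm P f hf
      rw [hs' x hx]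
      obtain ⟨y, hy, hyx⟩ := hxT
      rw [← hyx]
      exact ⟨⟨s, hs⟩ * y * ⟨s, hs⟩⁻¹, Subgroup.Normal.conj_mem inferInstance y hy ⟨s, hs⟩, rfl⟩
  · rintro ⟨h1, h2⟩ P
    obtain ⟨N, hN⟩ := exists_normalizerSystem F S le_rfl
    have hA : ∀ f, Iso F S S f → ∃ s ∈ S, ∀ x ∈ S, f x = s * x * s⁻¹ := by
      intro f hf
      have h3 : Map N S f := by
        have h4 : tot (hf.map.choose) = tot (hf.map.choose) := rfl
        have h5 : hf.map.choose ∈ N.Hom S := by
          rw [hN S]
          have h6 := hf.map.choose_spec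
          refine ⟨h6.1, hn.ge, fun x => ?_, ?_⟩
          · rw [hn]; exact (F.le_of_mem h6.1).2 x
          · have hss : S ⊔ S = S := sup_idem S
            have h7 : Map F (S ⊔ S) f := by rw [hss]; exact hf.map
            obtain ⟨ψ, hψ, hψf⟩ := h7
            refine ⟨ψ, hψ, fun x => ?_, ?_⟩
            · rw [h6.2 x]; exact hψf _
            · rw [im_eq_map (fun x => hψf x) le_sup_left]
              exact hf.im_eq
        exact (map_tot h5).congr fun x hx => by
          have := hf.map.choose_spec.2 ⟨x, hx⟩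
          rw [← this]; exact tot_apply _ ⟨x, hx⟩
      obtain ⟨-, s, hs, hs'⟩ := map_inner.1 (map_of_le (h1 N hN S).le h3)
      exact ⟨s, hn ▸ hs, hs'⟩
    refine hom_eq_of_map fun f => ⟨fun hf => ?_, fun hf => ?_⟩
    · exact map_inner.2 ⟨hf.le, inner_of_frattini hS hF hA h2 hf⟩
    · obtain ⟨hP, s, hs, hs'⟩ := map_inner.1 hf
      exact (map_conj F hP hs).congr fun x hx => (hs' x hx).symm

end Cfsg.Agent.S5276
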