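import Cfsg.Statements.S5290
import Mathlib
import Cfsg.Agent.H27_FusInv3

set_option autoImplicit false
open Cfsg

namespace Cfsg.Agent.S5290

open H27.Fus H27.Grp

/-- Let F be a saturated fusion system over a finite p-group S and Q a subgroup of S. Then Q is normal in F (F = N_F(Q)) if and only if the inner fusion system of Q, consisting of the conjugations by elements of Q on subgroups of Q, is a weakly normal subsystem of F (both saturated, Q strongly closed, invariant under F-conjugation, with the Frattini property). -/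
theorem result {Ω : Type*} [Group Ω] {S : Subgroup Ω} [Finite S] (p : ℕ) [Fact p.Prime] (hS : IsPGroup p S)
    (F : Cfsg.FusionSystem S) (hF : F.IsSaturated p)
    (Q : Subgroup Ω) (hQ : Q ≤ S) :
    F.IsNormal Q ↔ (Cfsg.innerFusionSystem Q).IsWeaklyNormalIn F p := by
  constructor
  · intro h
    exact (inner_normal hS hF h).1
  · rintro ⟨h1, h2, h3⟩
    have hI := inv_iff.1 h3
    refine normal_of_control hS hF hQ fun P f hPQ hf => ?_
    obtain ⟨a, g, ha, hg, hfg⟩ := hI.frat P f hPQ hf
    obtain ⟨-, s, hs, hgs⟩ := map_inner.1 hg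
    have hb : Iso F Q Q (a ∘ fun x => s * x * s⁻¹) := by
      refine Iso.trans ?_ ha
      have h4 := map_conj F hQ (hQ hs)
      refine h4.iso_of_im_eq (le_antisymm ((im_le_iff h4).2 fun x hx => Q.mul_mem (Q.mul_mem hs hx) (Q.inv_mem hs))
        fun y hy => ?_)
      rw [h4.mem_im]
      exact ⟨s⁻¹ * y * s, Q.mul_mem (Q.mul_mem (Q.inv_mem hs) hy) hs, by group⟩
    refine ⟨hb.aut, hb.aut_mem, fun x hx hxP => ?_⟩
    rw [hb.aut_apply, hfg x hxP, hgs x hxP]
    rfl

end Cfsg.Agent.S5290
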