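import Cfsg.Statements.S5291
import Mathlib
import Cfsg.Agent.H27_FusInv3

set_option autoImplicit false
open Cfsg

namespace Cfsg.Agent.S5291

open H27.Fus H27.Grp

/-- Let F be a saturated fusion system over a finite p-group S and E a weakly normal subsystem of F over a subgroup T. Suppose a subgroup R of T is normal in E (E = N_E(R)), and let R* be the subgroup of T generated by the images of R under all maps of F with source R. Then R* is normal in F (F = N_F(R*)). -/
theorem result {Ω : Type*} [Group Ω] {S : Subgroup Ω} [Finite S] (p : ℕ) [Fact p.Prime] (hS : IsPGroup p S)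
    (F : Cfsg.FusionSystem S) (hF : F.IsSaturated p)
    {T : Subgroup Ω} (E : Cfsg.FusionSystem T) (hE : E.IsWeaklyNormalIn F p)
    (R : Subgroup Ω) (hR : E.IsNormal R) :
    F.IsNormal (Subgroup.closure {x : Ω | ∃ φ ∈ F.Hom R, ∃ r : R, x = φ r}) := by
  obtain ⟨hEs, -, hI'⟩ := hE
  have hI := inv_iff.1 hI'
  have hTS := hI.strong.1
  have : Finite T := fin_of_le hTS
  have hRT := hR.1
  set X : Set Ω := {x : Ω | ∃ φ ∈ F.Hom R, ∃ r : R, x = φ r} with hX
  have hXiff : ∀ x, x ∈ X ↔ ∃ a, Iso F T T a ∧ ∃ r ∈ R, x = a r := by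
    intro x
    constructor
    · rintro ⟨φ, hφ, r, rfl⟩
      obtain ⟨a, g, ha, hg, hfg⟩ := hI.frat R (tot φ) hRT (map_tot hφ)
      have h1 := (stronglyClosed_iff.1 (IsNormal.strong hR)).2 R g hg r r.2 r.2
      exact ⟨a, ha, g r, h1, by rw [← hfg r r.2, tot_apply]⟩
    · rintro ⟨a, ha, r, hr, rfl⟩
      have hm := ha.map.mono hRT
      exact ⟨homOf R a fun x hx y hy => hm.mul hx hy, hom_mem_of_map hm fun _ => rfl, ⟨r, hr⟩, rfl⟩
  set R' := Subgroup.closure X with hR'
  have hR'T : R' ≤ T := by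
    rw [hR', Subgroup.closure_le]
    intro x hx
    obtain ⟨a, ha, r, hr, rfl⟩ := (hXiff x).1 hx
    have := ha.map.apply_mem_im (hRT hr)
    rwa [ha.im_eq] at this
  -- each α(R) is normal in E
  have hnorm : ∀ a, Iso F T T a → E.IsNormal (im R a) := by
    intro a ha
    have hRa := ha.map.mono hRT
    have haT : ∀ x ∈ T, a x ∈ T := fun x hx => by
      have := ha.map.apply_mem_im hx
      rwa [ha.im_eq] at this
    have haT' : ∀ x ∈ T, finv T a x ∈ T := fun x hx => ha.finv_mem hx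
    rw [isNormal_iff]
    refine ⟨(im_le_iff hRa).2 fun x hx => haT x (hRT hx), fun P f hf => ?_⟩
    have hPT := hf.le
    obtain ⟨f₁, hf₁, hf₁'⟩ := hI.inv P f _ hf ha.symm
    obtain ⟨g, hg, hgf, hgR⟩ := (isNormal_iff.1 hR).2 _ _ hf₁
    obtain ⟨g₁, hg₁, hg₁'⟩ := hI.inv _ _ _ hg ha
    have hmP : Map F P (finv T a) := ha.symm.map.mono hPT
    have e : im (im P (finv T a) ⊔ R) a = P ⊔ im R a := by
      have h1 : Map F (im P (finv T a) ⊔ R) a := ha.map.mono hg.le
      rw [h1.im_sup]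
      congr 1
      have h2 : Map F (im P (finv T a)) a := h1.mono le_sup_left
      ext y
      rw [h2.mem_im]
      constructor
      · rintro ⟨x, hx, rfl⟩
        obtain ⟨z, hz, rfl⟩ := hmP.mem_im.1 hx
        rw [ha.finv_right (hPT hz)]; exact hz
      · intro hy
        exact ⟨finv T a y, hmP.apply_mem_im hy, ha.finv_right (hPT hy)⟩
    rw [e] at hg₁
    refine ⟨g₁, hg₁, ?_, ?_⟩
    · intro x hx
      have h1 : finv T a x ∈ im P (finv T a) := hmP.apply_mem_im hx
      have h2 := hg₁' _ (le_sup_left (b := R) h1)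
      rw [ha.finv_right (hPT hx), hgf _ h1, hf₁' x hx, ha.finv_right (hf.mem hx)] at h2
      exact h2
    · have h1 : Map E (im R a) g₁ := hg₁.mono le_sup_right
      ext y
      rw [h1.mem_im, hRa.mem_im]
      have hgm := hg.mono (le_sup_right : R ≤ im P (finv T a) ⊔ R)
      constructor
      · rintro ⟨x, hx, rfl⟩
        obtain ⟨z, hz, rfl⟩ := hRa.mem_im.1 hx
        refine ⟨g z, ?_, (hg₁' z (le_sup_right (a := im P (finv T a)) hz)).symm⟩
        have := hgm.apply_mem_im hz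
        rwa [hgR] at this
      · rintro ⟨x, hx, rfl⟩
        obtain ⟨z, hz, rfl⟩ := hgm.mem_im.1 (hgR.symm ▸ hx)
        exact ⟨a z, hRa.apply_mem_im hz, hg₁' z (le_sup_right (a := im P (finv T a)) hz)⟩
  -- R' ≤ join of normals, is normal in E
  have hR'E : E.IsNormal R' := by
    have h1 : R' ≤ E.core := by
      rw [hR', Subgroup.closure_le]
      intro x hx
      obtain ⟨a, ha, r, hr, rfl⟩ := (hXiff x).1 hx
      exact le_core (hnorm a ha) ((ha.map.mono hRT).apply_mem_im hr)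
    -- write R' as sSup of a family of normal subgroups
    have h2 : R' = sSup {Q : Subgroup Ω | Q ≤ R' ∧ E.IsNormal Q} := by
      refine le_antisymm ?_ (sSup_le fun Q hQ => hQ.1)
      rw [hR', Subgroup.closure_le]
      intro x hx
      obtain ⟨a, ha, r, hr, rfl⟩ := (hXiff x).1 hx
      have h3 : im R a ≤ R' := (im_le_iff (ha.map.mono hRT)).2 fun y hy =>
        Subgroup.subset_closure ((hXiff _).2 ⟨a, ha, y, hy, rfl⟩)
      exact (le_sSup (show im R a ∈ {Q : Subgroup Ω | Q ≤ R' ∧ E.IsNormal Q} from ⟨h3, hnorm a ha⟩))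
        ((ha.map.mono hRT).apply_mem_im hr)
    rw [h2]
    exact (exists_max_of_sup (S := T) (C := fun Q => Q ≤ R' ∧ E.IsNormal Q) (fun Q hQ => hQ.1.trans hR'T)
      ⟨bot_le, isNormal_bot E⟩ fun Q Q' h h' => ⟨sup_le h.1 h'.1, IsNormal.sup h.2 h'.2⟩).2
  have hinvR : ∀ a, Iso F T T a → ∀ x ∈ R', a x ∈ R' := by
    intro a ha
    have hm : Map F R' a := ha.map.mono hR'T
    have : R' ≤ (R'.comap (homOf R' a fun x hx y hy => hm.mul hx hy)).map R'.subtype := by
      refine hR'.le.trans ((Subgroup.closure_le _).2 ?_)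
      intro x hx
      obtain ⟨b, hb, r, hr, rfl⟩ := (hXiff x).1 hx
      refine ⟨⟨b r, Subgroup.subset_closure hx⟩, ?_, rfl⟩
      show a (b r) ∈ R'
      exact Subgroup.subset_closure ((hXiff _).2 ⟨a ∘ b, hb.trans ha, r, hr, rfl⟩)
    intro x hx
    obtain ⟨y, hy, hyx⟩ := this hx
    have h1 : a (y : Ω) ∈ R' := hy
    have h2 : (y : Ω) = x := hyx
    rwa [h2] at h1
  have hfin' : Finite R' := finite_of_le hR'T
  refine normal_of_control hS hF (hR'T.trans hTS) fun P f hPR hf => ?_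
  obtain ⟨a, g, ha, hg, hfg⟩ := hI.frat P f (hPR.trans hR'T) hf
  obtain ⟨g', hg', hgg', hgR⟩ := (isNormal_iff.1 hR'E).2 P g hg
  have h1 : Iso F R' R' g' := (hI.sub _ _ (hg'.mono le_sup_right)).iso_of_im_eq hgR
  have h2 : Iso F R' R' a := iso_of_card_le (ha.map.mono hR'T) (hinvR a ha) le_rfl
  have h3 := h1.trans h2
  refine ⟨h3.aut, h3.aut_mem, fun x hx hxP => ?_⟩
  rw [h3.aut_apply]
  show a (g' x) = f x
  rw [hgg' x hxP, hfg x hxP]

end Cfsg.Agent.S5291
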