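import Cfsg.Statements.S5292
import Mathlib
import Cfsg.Agent.H27_PSf1

universe u
set_option autoImplicit false
open Cfsg

namespace Cfsg.Agent.S5292

open H27.Fus H27.Grp

/-- Let F be a saturated fusion system over a finite p-group S. Then F is the fusion system of some finite p-solvable group on a Sylow p-subgroup if and only if F is constrained (some subgroup normal in F is centric in F) and the group of automorphisms that F induces on its largest normal subgroup O_p(F) is p-solvable. -/
theorem result {Ω : Type u} [Group Ω] {S : Subgroup Ω} [Finite S] (p : ℕ) [Fact p.Prime] (hS : IsPGroup p S)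
    (F : Cfsg.FusionSystem S) (hF : F.IsSaturated p) :
    (∃ (G : Type u) (_ : Group G) (_ : Finite G) (ι : S →* G), Cfsg.IsPSolvable p G ∧ F.IsRealizedBy ι ∧
        ∃ T : Sylow p G, (T : Subgroup G) = ι.range) ↔
      (F.IsConstrained p ∧ Cfsg.IsPSolvable p ↥(F.autGroup F.core)) := by
  constructor
  · rintro ⟨G, _, _, ι, hG, hr, hT⟩
    obtain ⟨L, _, κ, hL, hLs⟩ := exists_model_of_psolv hr hT hG
    have hc := Cfsg.Agent.S5103.result p hS F κ hL
    exact ⟨hc, aut_psolv (MD.of_model hS hF (core_normal F) (core_centric_of_constrained hc) hL) hLs⟩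
  · rintro ⟨hc, ha⟩
    obtain ⟨G, _, ι, hG⟩ := exists_model hS hF (core_normal F) (core_centric_of_constrained hc)
    exact ⟨G, inferInstance, hG.1, ι, psolv_of_aut hS (MD.of_model hS hF (core_normal F) (core_centric_of_constrained hc) hG) ha,
      hG.2.1, hG.2.2.1⟩

end Cfsg.Agent.S5292
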