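import Cfsg.Statements.S5301
import Mathlib
import Cfsg.Agent.H27_FusInv3

set_option autoImplicit false
universe u
open Cfsg

namespace Cfsg.Agent.S5301

open H27.Fus H27.Grp

/-- Let F be a saturated fusion system over a finite p-group S. If for every subgroup P of S that is fully normalized, centric and radical in F the automorphism group that F induces on P has a normal Sylow p-subgroup, then S is normal in F. -/
theorem result {Ω : Type u} [Group Ω] {S : Subgroup Ω} [Finite S] (p : ℕ) [Fact p.Prime] (hS : IsPGroup p S)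
    (F : Cfsg.FusionSystem S) (hF : F.IsSaturated p)
    (hcl : ∀ P : Subgroup Ω, F.IsFullyNormalized P → F.IsCentric P → F.IsRadical p P →
      ∃ R : Sylow p ↥(F.autGroup P), (R : Subgroup ↥(F.autGroup P)).Normal) :
    F.IsNormal S := by
  refine normal_of_essential hS hF fun P hP => ?_
  rcases hP with rfl | hP
  · exact ⟨le_rfl, fun f hf => hf.im_eq⟩
  exfalso
  have hr := essential_radical hS hP
  have hlt := essential_lt hS hF hP
  obtain ⟨R, hR⟩ := hcl P hP.2.1 hP.1 hr
  have hPS := hlt.le
  have hfin := finite_autGroup (F := F) hPS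
  obtain ⟨T, hT⟩ := (fn_automized hS hF hP.2.1).2
  have h1 : (T : Subgroup (F.autGroup P)) ≤ pCore p (F.autGroup P) := by
    have : T = R := by
      have := R.unique_of_normal hR
      exact Subsingleton.elim T R
    rw [this]
    exact le_pCore hR R.isPGroup'
  obtain ⟨s, hs, hsP, hsN⟩ := exists_mem_normalizer_of_lt hS hlt
  have hsn : s ∈ Cfsg.FusionSystem.normalizerIn S P := ⟨hs, hsN⟩
  have h2 : cjA P s hsN ∈ autInducedBy S P := cjA_mem hsN hs
  have h3 : cjA P s hsN ∈ F.autGroup P := autInducedBy_le_autGroup F hPS h2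
  have h4 : (⟨cjA P s hsN, h3⟩ : F.autGroup P) ∈ (T : Subgroup (F.autGroup P)) := by
    rw [hT]; exact h2
  have h5 : cjA P s hsN ∈ Inn P := by
    rw [← hr.2]
    exact ⟨_, h1 h4, rfl⟩
  exact hsP ((cj_inn_iff (IsCentric.cen_le hP.1) hPS hsn (fun x => cjA_apply hsN x)).1 h5)

end Cfsg.Agent.S5301
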