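import Cfsg.Statements.S5329
import Mathlib
import Cfsg.Agent.H27_Bs8

set_option autoImplicit false
open Cfsg

namespace Cfsg.Agent.S5329

open Cfsg.Agent.H27.Fus Cfsg.Agent.H27.Bs

/-- For a saturated fusion system F over a finite p-group S, the focal subgroup and the derived subgroup of S meet the centre Z(F) of the system in the same subgroup: foc(F) ∩ Z(F) = S′ ∩ Z(F). -/
theorem result {Ω : Type*} [Group Ω] {S : Subgroup Ω} [Finite S] (p : ℕ) [Fact p.Prime] (hS : IsPGroup p S) (F : Cfsg.FusionSystem S) (hF : F.IsSaturated p) : F.focalSubgroup ⊓ F.center = ⁅(S : Subgroup Ω), (S : Subgroup Ω)⁆ ⊓ F.center := by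
  have h0 : ∀ z, z ∈ F.focalSubgroup → z ∈ F.center → z ∈ ⁅(S : Subgroup Ω), (S : Subgroup Ω)⁆ := by
    intro z hz hzc
    have hzS := foc_le hz
    obtain ⟨I, hI, B, hB⟩ := exists_charCB hS hF
    let l : ↥S →* Abelianization ↥S := Abelianization.of
    have h1 := B.V_foc l (x := ⟨z, hzS⟩) hz
    rw [B.V_pow l ⟨z, hzS⟩ (by
      intro k P f hf hk b hb
      have hk' : (z : Ω) ^ k ∈ P := hk
      have hb' : (b : Ω) = f ((z : Ω) ^ k) := hb
      obtain ⟨g, hg, hgf, hgz⟩ := (isCentral_iff.1 (center_central F)).2 P f hf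
      have h2 : (b : Ω) = (z : Ω) ^ k := by
        rw [hb', ← hgf _ hk']
        exact hgz _ (Subgroup.zpow_mem _ hzc k)
      congr 1
      exact Subtype.ext (by rw [h2]; rfl)), ← map_pow] at h1
    have h2 : (⟨z, hzS⟩ : ↥S) ^ Fintype.card I ∈ commutator ↥S := by
      have : (⟨z, hzS⟩ : ↥S) ^ Fintype.card I ∈ (Abelianization.of (G := ↥S)).ker := h1
      rwa [Abelianization.ker_of] at this
    obtain ⟨n, hn⟩ := hS ⟨z, hzS⟩
    have hcop : Nat.Coprime (p ^ n) (Fintype.card I) :=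
      Nat.Coprime.pow_left n ((Nat.Prime.coprime_iff_not_dvd Fact.out).2 hB)
    have h3 : (⟨z, hzS⟩ : ↥S) ∈ commutator ↥S := by
      have h4 : (1 : ℤ) = (p ^ n : ℕ) * Nat.gcdA (p ^ n) (Fintype.card I) +
          (Fintype.card I : ℕ) * Nat.gcdB (p ^ n) (Fintype.card I) := by
        have := Nat.gcd_eq_gcd_ab (p ^ n) (Fintype.card I)
        rw [hcop] at this
        exact_mod_cast this
      rw [← zpow_one (⟨z, hzS⟩ : ↥S), h4, zpow_add, zpow_mul, zpow_mul, zpow_natCast, zpow_natCast, hn, one_zpow, one_mul]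
      exact Subgroup.zpow_mem _ h2 _
    have h5 : (commutator ↥S).map S.subtype ≤ ⁅(S : Subgroup Ω), (S : Subgroup Ω)⁆ := by
      rw [commutator_def, Subgroup.map_commutator, ← MonoidHom.range_eq_map, Subgroup.range_subtype]
    exact h5 ⟨_, h3, rfl⟩
  apply le_antisymm
  · rintro z ⟨h1, h2⟩
    exact ⟨h0 z h1 h2, h2⟩
  · rintro z ⟨h1, h2⟩
    exact ⟨comm_le_foc h1, h2⟩

end Cfsg.Agent.S5329
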