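import Cfsg.Statements.S5521
import Cfsg.Agent.H28_Cen
import Cfsg.Agent.H28_Six

set_option autoImplicit false
open Cfsg

namespace Cfsg.Agent.S5521

open Cfsg.Agent.H7.Golay Cfsg.Agent.H7.Oct Cfsg.Agent.H7.M24 Cfsg.Agent.H28.Tree Cfsg.Agent.H28.Tree2 Cfsg.Agent.H28.Cen Cfsg.Agent.H28.Six
open Cfsg.Agent.H14.M24Eng (rep_one)
open scoped Pointwise

theorem ex_moving {K : Subgroup (Equiv.Perm GolayPt)} {n : ℕ} (h : Nat.card K = n) (hn : 1 < n) : ∃ g ∈ K, g ≠ 1 := by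
  haveI : Finite K := Nat.finite_of_card_ne_zero (by omega)
  haveI : Nontrivial K := Finite.one_lt_card_iff_nontrivial.1 (by omega)
  obtain ⟨g, hg⟩ := exists_ne (1 : K)
  exact ⟨g.1, g.2, fun h => hg (Subtype.ext h)⟩

theorem part1 (E : Finset GolayPt) (hE : E.card = 6) : ∃ g ∈ M24, g ≠ 1 ∧ ∀ b ∈ E, g b = b := by
  obtain ⟨x, hx, hx'⟩ := enum6 E hE
  have key : ∀ (q : ℕ) (l : List ℕ) (n : ℕ), q < 24 → l = [q, 4, 3, 2, 1, 0] → Nat.card (fixK M24 l) = n → 1 < n →
      (∃ g ∈ M24, (∀ i : Fin 5, g (x i.castSucc) = pt i) ∧ g (x 5) = pt q) → ∃ g ∈ M24, g ≠ 1 ∧ ∀ b ∈ E, g b = b := by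
    rintro q l n hq24 rfl hc hn ⟨c, hc', h1, h2⟩
    obtain ⟨g, hg, hg1⟩ := ex_moving hc hn
    obtain ⟨hgM, hgf⟩ := mem_fixK.1 hg
    have hf : ∀ i : Fin 6, g (c (x i)) = c (x i) := by
      intro i
      rcases Fin.eq_castSucc_or_eq_last i with ⟨j, rfl⟩ | rfl
      · rw [h1 j]
        apply hgf
        rw [ix_pt _ (by omega)]
        fin_cases j <;> simp
      · show g (c (x 5)) = c (x 5)
        rw [h2]
        apply hgf
        rw [ix_pt _ hq24]
        simp
    refine ⟨c⁻¹ * g * c, mul_mem (mul_mem (inv_mem hc') hgM) hc', ?_, ?_⟩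
    · intro h
      apply hg1
      have : g = c * (c⁻¹ * g * c) * c⁻¹ := by group
      rw [this, h]; group
    · intro b hb
      obtain ⟨i, rfl⟩ := (hx' b).1 hb
      show c⁻¹ (g (c (x i))) = x i
      rw [hf i]
      exact c.symm_apply_apply _
  by_cases h : ∃ o ∈ octads, ∀ i, x i ∈ o
  · exact key 7 _ 16 (by norm_num) rfl card_in (by norm_num) ((six_norm x hx).1 h)
  · exact key 5 _ 3 (by norm_num) rfl card_out (by norm_num) ((six_norm x hx).2 h)

def tS : T2 := (.sing 7 7 (.oct 757 757 47 (.oct 681 681 61 (.oct 737 737 59 (.oct 753 753 55 (.oct 733 733 171 (.oct 738 738 4718599 (.oct 532 532 1191937 (.oct 332 332 5775362 (.good [0, 1, 2, 3, 4, 5, 6, 7, 8, 9, 10, 11, 12, 13, 14, 15, 16, 17, 18, 19, 20, 21, 22, 23] []))))))))))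

theorem tS_ok : check2 [] 0 (fun r _ => [List.range 24].any fun r' => beqL r r') tS (st1 [0, 1, 2, 3, 4, 5, 7]) = true := by
  decide +kernel

/-- The Mathieu group M₂₄ in its natural action on the 24 coordinate positions of the binary Golay code has minimal base size exactly 7: every set of at most 6 positions is fixed pointwise by some non-identity element of M₂₄, while some set of 7 positions is fixed pointwise only by the identity. -/
theorem result :
    (∀ B : Finset Cfsg.GolayPt, B.card ≤ 6 → ∃ g ∈ Cfsg.M24, g ≠ 1 ∧ ∀ b ∈ B, g b = b) ∧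
    (∃ B : Finset Cfsg.GolayPt, B.card = 7 ∧ ∀ g ∈ Cfsg.M24, (∀ b ∈ B, g b = b) → g = 1) := by
  refine ⟨fun B hB => ?_, (([0, 1, 2, 3, 4, 5, 7] : List ℕ).map pt).toFinset, by decide, ?_⟩
  · have h24 : B.card ≤ 6 ∧ 6 ≤ (Finset.univ : Finset GolayPt).card := ⟨hB, by decide⟩
    obtain ⟨E, hBE, _, hE⟩ := Finset.exists_subsuperset_card_eq (Finset.subset_univ B) h24.1 h24.2
    obtain ⟨g, hg, h1, h2⟩ := part1 E hE
    exact ⟨g, hg, h1, fun b hb => h2 b (hBE hb)⟩
  · intro g hg hf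
    have hgf : g ∈ fixK M24 [0, 1, 2, 3, 4, 5, 7] := by
      refine mem_fixK.2 ⟨hg, fun p hp => hf p ?_⟩
      rw [List.mem_toFinset, List.mem_map]
      exact ⟨ix p, hp, pt_ix p⟩
    obtain ⟨r, hr, hR⟩ := good_of_tree (le_refl M24) (fun g _ => rels_nil g) (list_all_lt (by decide)) _ tS tS_ok g hgf
    rw [List.mem_singleton] at hr
    subst hr
    exact hR.unique rep_one

end Cfsg.Agent.S5521
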