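import Cfsg.Statements.S5560
import Mathlib
import Cfsg.Agent.H4_ZApp

set_option autoImplicit false
open Cfsg

namespace Cfsg.Agent.S5560

/-- A Z*-type result for an odd prime p. Let G be a finite group and d an involution of G such that the product of any two conjugates of d has order a power of p. Then the product of any two conjugates of d lies in the largest normal p-subgroup O_p(G); in other words the conjugacy class of d lies in the coset O_p(G)d, and d is central modulo O_p(G). -/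
theorem result {G : Type*} [Group G] [Finite G] {p : ℕ} (hp : p.Prime) (hp2 : p ≠ 2)
    (d : G) (hd : orderOf d = 2)
    (hprod : ∀ a ∈ conjugatesOf d, ∀ b ∈ conjugatesOf d, ∃ k : ℕ, orderOf (a * b) = p ^ k) :
    ∀ a ∈ conjugatesOf d, ∀ b ∈ conjugatesOf d, a * b ∈ Cfsg.pCore p G := by
  have hpf : Fact p.Prime := ⟨hp⟩
  have h2f : Fact (Nat.Prime 2) := ⟨Nat.prime_two⟩
  have hpodd : Odd p := hp.odd_of_ne_two hp2
  -- d is isolated
  have hpr : ∀ g h : G, ∃ k : ℕ, orderOf (g * d * g⁻¹ * (h * d * h⁻¹)) = p ^ k := fun g h =>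
    hprod _ (isConj_iff.mpr ⟨g, rfl⟩) _ (isConj_iff.mpr ⟨h, rfl⟩)
  have hiso : Cfsg.IsIsolatedInvolution d := by
    apply Cfsg.Agent.H4.Iso.isolated_of_odd hd
    intro g
    obtain ⟨k, hk⟩ := hpr 1 g
    rw [inv_one, mul_one, one_mul] at hk
    rw [hk]; exact hpodd.pow
  set C := Subgroup.centralizer ({d} : Set G) with hC
  -- invariant q-subgroups are centralized
  have hcent : ∀ q : ℕ, q.Prime → q ≠ p → ∀ Q : Subgroup G, IsPGroup q Q → d ∈ Subgroup.normalizer (Q : Set G) →
      Q ≤ C := by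
    intro q hq hqp Q hQ hdQ x hx
    rw [hC, Subgroup.mem_centralizer_singleton_iff]
    obtain ⟨k, hk⟩ := hpr x 1
    rw [inv_one, mul_one, one_mul] at hk
    have h1 : x * d * x⁻¹ * d ∈ Q := by
      have h2 : x * d * x⁻¹ * d = x * (d * x⁻¹ * d⁻¹) := by
        rw [Cfsg.Agent.H4.Inv.inv_eq hd]; group
      rw [h2]
      exact Q.mul_mem hx ((Subgroup.mem_normalizer_iff.mp hdQ _).mp (Q.inv_mem hx))
    haveI : Fact q.Prime := ⟨hq⟩
    obtain ⟨j, hj⟩ := (IsPGroup.iff_orderOf.mp hQ) ⟨_, h1⟩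
    rw [← Subgroup.orderOf_coe] at hj
    simp only at hj
    have h3 : x * d * x⁻¹ * d = 1 := by
      rw [← orderOf_eq_one_iff]
      have h4 : Nat.Coprime (q ^ j) (p ^ k) := Nat.Coprime.pow _ _ ((Nat.coprime_primes hq hp).mpr hqp)
      rw [← hj, ← hk] at h4
      exact (Nat.coprime_self _).mp h4
    have h5 : x * d * x⁻¹ = d := by
      rw [← Cfsg.Agent.H4.Inv.inv_eq hd]
      exact eq_inv_of_mul_eq_one_left (by rw [Cfsg.Agent.H4.Inv.inv_eq hd]; exact h3)
    exact mul_inv_eq_iff_eq_mul.mp h5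
  -- the index of C is a power of p
  have hidx : ∀ q : ℕ, q.Prime → q ∣ C.index → q = p := by
    intro q hq hqC
    by_contra hqp
    haveI : Fact q.Prime := ⟨hq⟩
    obtain ⟨Q, -, hQ⟩ := Cfsg.Agent.H4.ZApp.exists_sylow_ge hiso (p := q) ⊥ IsPGroup.of_bot
      (by rw [Subgroup.normalizer_eq_top]; trivial)
    have h1 := hcent q hq hqp (Q : Subgroup G) Q.2 hQ
    exact Q.not_dvd_index (hqC.trans (Subgroup.index_dvd_of_le h1))
  obtain ⟨P, -, hP⟩ := Cfsg.Agent.H4.ZApp.exists_sylow_ge hiso (p := p) ⊥ IsPGroup.of_bot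
      (by rw [Subgroup.normalizer_eq_top]; trivial)
  have hcop : Nat.Coprime C.index (P : Subgroup G).index := by
    apply Nat.Coprime.symm
    rw [Nat.coprime_iff_gcd_eq_one] 
    by_contra h
    obtain ⟨q, hq, hqd⟩ := Nat.exists_prime_and_dvd h
    have h1 := hidx q hq (hqd.trans (Nat.gcd_dvd_right _ _))
    rw [h1] at hqd
    exact P.not_dvd_index (hqd.trans (Nat.gcd_dvd_left _ _))
  have hdvd : C.index ∣ C.relIndex (P : Subgroup G) := by
    have e1 : C.relIndex (P : Subgroup G) * Nat.card ((P : Subgroup G) ⊓ C : Subgroup G) = Nat.card (P : Subgroup G) := by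
      rw [← Subgroup.inf_relIndex_left]
      exact Cfsg.Agent.H1.Basic.relIndex_mul_card inf_le_left
    have e2 := Cfsg.Agent.H1.Basic.relIndex_mul_card (inf_le_right : (P : Subgroup G) ⊓ C ≤ C)
    have e3 := C.index_mul_card
    have e4 := (P : Subgroup G).index_mul_card
    have hpos : 0 < Nat.card ((P : Subgroup G) ⊓ C : Subgroup G) := Nat.card_pos
    have e5 : C.relIndex (P : Subgroup G) * (P : Subgroup G).index =
        C.index * ((P : Subgroup G) ⊓ C).relIndex C := by
      apply Nat.eq_of_mul_eq_mul_right hpos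
      calc C.relIndex (P : Subgroup G) * (P : Subgroup G).index * Nat.card ((P : Subgroup G) ⊓ C : Subgroup G)
          = (P : Subgroup G).index * (C.relIndex (P : Subgroup G) * Nat.card ((P : Subgroup G) ⊓ C : Subgroup G)) := by ring
        _ = C.index * Nat.card C := by rw [e1, e4, e3]
        _ = _ := by rw [← e2]; ring
    exact hcop.dvd_of_dvd_mul_right (by rw [e5]; exact Dvd.intro _ rfl)
  -- hence every conjugate of d is a P-conjugate
  have htrans : ∀ g : G, ∃ x ∈ (P : Subgroup G), g * d * g⁻¹ = x * d * x⁻¹ := by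
    let f : (↥(P : Subgroup G) ⧸ C.subgroupOf (P : Subgroup G)) → G ⧸ C :=
      Quotient.map' (fun x => (x : G)) (by
        intro a b hab
        rw [QuotientGroup.leftRel_apply] at hab ⊢
        exact hab)
    have hf : Function.Injective f := by
      intro a b
      refine Quotient.inductionOn₂' a b fun x y hxy => ?_
      have h1 : (QuotientGroup.mk (x : G) : G ⧸ C) = QuotientGroup.mk (y : G) := hxy
      rw [QuotientGroup.eq] at h1
      exact QuotientGroup.eq.mpr h1
    have hcard : Nat.card (G ⧸ C) ≤ Nat.card (↥(P : Subgroup G) ⧸ C.subgroupOf (P : Subgroup G)) := by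
      apply Nat.le_of_dvd Nat.card_pos
      exact hdvd
    have hbij : Function.Bijective f := by
      rw [Nat.bijective_iff_injective_and_card]
      exact ⟨hf, le_antisymm (Nat.card_le_card_of_injective f hf) hcard⟩
    intro g
    obtain ⟨q, hq⟩ := hbij.2 (QuotientGroup.mk g)
    obtain ⟨x, rfl⟩ := QuotientGroup.mk_surjective q
    have h1 : (QuotientGroup.mk (x : G) : G ⧸ C) = QuotientGroup.mk g := hq
    rw [QuotientGroup.eq] at h1
    refine ⟨x, x.2, ?_⟩
    have h2 : Commute ((x : G)⁻¹ * g) d := Subgroup.mem_centralizer_singleton_iff.mp h1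
    calc g * d * g⁻¹ = x * (((x : G)⁻¹ * g) * d) * g⁻¹ := by group
      _ = x * (d * ((x : G)⁻¹ * g)) * g⁻¹ := by rw [h2.eq]
      _ = x * d * (x : G)⁻¹ := by group
  -- the subgroup generated by the products
  let N : Subgroup G := Subgroup.closure {y | ∃ a ∈ conjugatesOf d, ∃ b ∈ conjugatesOf d, y = a * b}
  have hNP : N ≤ (P : Subgroup G) := by
    rw [Subgroup.closure_le]
    rintro _ ⟨a, ha, b, hb, rfl⟩
    obtain ⟨g, rfl⟩ := isConj_iff.mp ha
    obtain ⟨h, rfl⟩ := isConj_iff.mp hb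
    obtain ⟨x, hx, hx2⟩ := htrans g
    obtain ⟨y, hy, hy2⟩ := htrans h
    rw [hx2, hy2]
    have h1 : x * d * x⁻¹ * (y * d * y⁻¹) = x * (d * (x⁻¹ * y) * d⁻¹) * y⁻¹ := by
      rw [Cfsg.Agent.H4.Inv.inv_eq hd]; group
    rw [h1]
    exact (P : Subgroup G).mul_mem ((P : Subgroup G).mul_mem hx
      ((Subgroup.mem_normalizer_iff.mp hP _).mp ((P : Subgroup G).mul_mem ((P : Subgroup G).inv_mem hx) hy)))
      ((P : Subgroup G).inv_mem hy)
  haveI hNn : N.Normal := by
    have : {y | ∃ a ∈ conjugatesOf d, ∃ b ∈ conjugatesOf d, y = a * b} =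
        Group.conjugatesOfSet {y | ∃ a ∈ conjugatesOf d, ∃ b ∈ conjugatesOf d, y = a * b} := by
      apply Set.Subset.antisymm Group.subset_conjugatesOfSet
      intro y hy
      rw [Group.mem_conjugatesOfSet_iff] at hy
      obtain ⟨w, ⟨a, ha, b, hb, rfl⟩, hw⟩ := hy
      obtain ⟨g, rfl⟩ := isConj_iff.mp hw
      refine ⟨g * a * g⁻¹, ha.trans (isConj_iff.mpr ⟨g, rfl⟩), g * b * g⁻¹,
        hb.trans (isConj_iff.mpr ⟨g, rfl⟩), by group⟩
    change (Subgroup.closure _).Normal
    rw [this]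
    exact Subgroup.normalClosure_normal
  have hNp : IsPGroup p N := P.2.to_le hNP
  intro a ha b hb
  exact Cfsg.Agent.H11.Cores.le_pCore p hNp (Subgroup.subset_closure ⟨a, ha, b, hb, rfl⟩)

end Cfsg.Agent.S5560
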