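import Cfsg.Statements.S5562
import Cfsg.Agent.H28_Dih

set_option autoImplicit false
open Cfsg

namespace Cfsg.Agent.S5562

open Cfsg.Agent.H28.Basic Cfsg.Agent.H28.Dih

theorem inv_of_odd_pow {G : Type*} [Group G] {s u : G} (h : s * u * s⁻¹ = u⁻¹) (n : ℕ) :
    s ^ (2 * n) * u * (s ^ (2 * n))⁻¹ = u := by
  have h1 : s ^ 2 * u * (s ^ 2)⁻¹ = u := by
    have h2 : s * u⁻¹ * s⁻¹ = u := by
      have := congrArg (·⁻¹) h
      simpa [mul_assoc] using this
    calc s ^ 2 * u * (s ^ 2)⁻¹ = s * (s * u * s⁻¹) * s⁻¹ := by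
          rw [pow_two, mul_inv_rev]; simp only [mul_assoc]
      _ = u := by rw [h, h2]
  have h3 : Commute (s ^ 2) u := by
    rw [mul_inv_eq_iff_eq_mul] at h1
    exact h1
  have h4 : Commute (s ^ (2 * n)) u := by
    rw [pow_mul]; exact h3.pow_left n
  rw [mul_inv_eq_iff_eq_mul]
  exact h4.eq

/-- Let G be a finite group, d an involution of G whose conjugates pairwise have products of odd order, and x any involution of G. Then the conjugacy class of d is the disjoint union, over the conjugates a of d commuting with x, of the sets of conjugates of d commuting with ax: every conjugate of d commutes with ax for exactly one conjugate a of d that commutes with x. -/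
theorem result {G : Type*} [Group G] [Finite G] (d : G) (hd : orderOf d = 2)
    (hodd : ∀ a ∈ conjugatesOf d, ∀ b ∈ conjugatesOf d, Odd (orderOf (a * b)))
    (x : G) (hx : orderOf x = 2) :
    ∀ e ∈ conjugatesOf d,
      ∃! a : G, a ∈ conjugatesOf d ∧ Commute a x ∧ Commute e (a * x) := by
  intro e he
  have hdd := mul_self_of_orderOf hd
  have hxx := mul_self_of_orderOf hx
  have hx' : x⁻¹ = x := inv_eq_of_mul_eq_one_left hxx
  have hD2 : ∀ a ∈ conjugatesOf d, a * a = 1 := fun a ha => isConj_mul_self hdd ha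
  have hDc : ∀ a ∈ conjugatesOf d, ∀ g : G, g * a * g⁻¹ ∈ conjugatesOf d := by
    intro a ha g
    have ha' : IsConj d a := ha
    exact ha'.trans (isConj_iff.mpr ⟨g, rfl⟩)
  have hee := hD2 e he
  have he' : e⁻¹ = e := inv_eq_of_mul_eq_one_left hee
  set f := x * e * x⁻¹ with hf
  have hfD : f ∈ conjugatesOf d := hDc e he x
  have hff := hD2 f hfD
  have hf' : f⁻¹ = f := inv_eq_of_mul_eq_one_left hff
  have hxf : x * f * x⁻¹ = e := by
    rw [hf, hx']
    calc x * (x * e * x) * x = (x * x) * e * (x * x) := by simp only [mul_assoc]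
      _ = e := by rw [hxx, one_mul, mul_one]
  obtain ⟨k, hk⟩ := hodd e he f hfD
  have hk1 : (e * f) ^ (2 * k + 1) = 1 := by rw [← hk, pow_orderOf_eq_one]
  have h2k : (e * f) ^ (2 * k) * e = f := by
    have h2 : (e * f) ^ (2 * k) = (e * f)⁻¹ := by
      apply eq_inv_of_mul_eq_one_left
      rw [← pow_succ, hk1]
    rw [h2, mul_inv_rev, inv_mul_cancel_right, hf']
  set c := (e * f) ^ k * e with hc
  have hcD : c ∈ conjugatesOf d := by
    rcases Nat.even_or_odd k with ⟨m, hm⟩ | ⟨m, hm⟩
    · have h1 := conj_pow_a hee hff m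
      rw [two_mul, ← hm] at h1
      rw [hc, ← h1]
      exact hDc e he _
    · have h1 := conj_pow_a hee hff (k + m + 1)
      rw [show 2 * (k + m + 1) = k + (2 * k + 1) by omega, pow_add (e * f) k (2 * k + 1), hk1,
        mul_one] at h1
      rw [hc, ← h1]
      exact hDc e he _
  -- x c x⁻¹ = c
  have hxc : x * c * x⁻¹ = c := by
    have h1 : x * (e * f) * x⁻¹ = f * e := by
      calc x * (e * f) * x⁻¹ = (x * e * x⁻¹) * (x * f * x⁻¹) := by group
        _ = f * e := by rw [hxf]
    have h2 : x * c * x⁻¹ = (f * e) ^ k * f := by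
      rw [hc]
      calc x * ((e * f) ^ k * e) * x⁻¹ = (x * (e * f) ^ k * x⁻¹) * (x * e * x⁻¹) := by group
        _ = (f * e) ^ k * f := by rw [← _root_.conj_pow, h1]
    have h3 : f * e = (e * f)⁻¹ := by rw [mul_inv_rev, he', hf']
    rw [h2, h3, inv_pow, hc]
    have h4 : f = (e * f) ^ k * ((e * f) ^ k * e) := by
      rw [← mul_assoc, ← pow_add, ← two_mul, h2k]
    have h5 : ((e * f) ^ k)⁻¹ * f = ((e * f) ^ k)⁻¹ * ((e * f) ^ k * ((e * f) ^ k * e)) :=
      congrArg (((e * f) ^ k)⁻¹ * ·) h4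
    rw [h5, inv_mul_cancel_left]
  have hcx : Commute c x := by
    rw [mul_inv_eq_iff_eq_mul] at hxc
    exact hxc.symm
  have hcc := hD2 c hcD
  have hcf : c * f * c⁻¹ = e := by
    have h1 : c * e * c⁻¹ = f := by
      have : c * e * c⁻¹ = (e * f) ^ k * e * ((e * f) ^ k)⁻¹ := by
        rw [hc]; group
      rw [this, conj_pow_a hee hff, h2k]
    have hc' : c⁻¹ = c := inv_eq_of_mul_eq_one_left hcc
    rw [← h1, hc']
    calc c * (c * e * c) * c = (c * c) * e * (c * c) := by simp only [mul_assoc]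
      _ = e := by rw [hcc, one_mul, mul_one]
  -- Commute e (a*x) iff a f a⁻¹ = e
  have hkey : ∀ a : G, Commute e (a * x) ↔ a * f * a⁻¹ = e := by
    intro a
    have h1 : a * f * a⁻¹ = (a * x) * e * (a * x)⁻¹ := by rw [hf]; group
    rw [h1, mul_inv_eq_iff_eq_mul]
    exact ⟨fun h => h.eq.symm, fun h => h.symm⟩
  refine ⟨c, ⟨hcD, hcx, (hkey c).mpr hcf⟩, ?_⟩
  have huniq : ∀ a b : G, a ∈ conjugatesOf d → b ∈ conjugatesOf d → Commute e (a * x) →
      Commute e (b * x) → b = a := by
    intro a b haD hbD hae hbe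
    rw [hkey] at hae hbe
    have haa := hD2 a haD
    have hbb := hD2 b hbD
    have ha' : a⁻¹ = a := inv_eq_of_mul_eq_one_left haa
    have hb' : b⁻¹ = b := inv_eq_of_mul_eq_one_left hbb
    -- u = b * a commutes with f
    have hfu : f * (b * a) * f⁻¹ = b * a := by
      have h1 : b * e * b⁻¹ = f := by
        rw [← hbe, hb']
        calc b * (b * f * b) * b = (b * b) * f * (b * b) := by simp only [mul_assoc]
          _ = f := by rw [hbb, one_mul, mul_one]
      have h2 : (b * a) * f * (b * a)⁻¹ = f := by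
        calc (b * a) * f * (b * a)⁻¹ = b * (a * f * a⁻¹) * b⁻¹ := by group
          _ = f := by rw [hae, h1]
      rw [mul_inv_eq_iff_eq_mul] at h2 ⊢
      exact h2.symm
    have hau : a * (b * a) * a⁻¹ = (b * a)⁻¹ := by
      rw [mul_inv_rev, hb', ← mul_assoc, mul_inv_cancel_right, ha']
    have hfau : (f * a) * (b * a) * (f * a)⁻¹ = (b * a)⁻¹ := by
      have : (f * a) * (b * a) * (f * a)⁻¹ = f * (a * (b * a) * a⁻¹) * f⁻¹ := by group
      rw [this, hau]
      have := congrArg (·⁻¹) hfu
      simpa [mul_assoc] using this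
    obtain ⟨m, hm⟩ := hodd f hfD a haD
    have h1 : (f * a) ^ (2 * m + 1) = 1 := by rw [← hm, pow_orderOf_eq_one]
    have h2 := inv_of_odd_pow hfau m
    have h3 : (f * a) ^ (2 * m) = (f * a)⁻¹ := by
      apply eq_inv_of_mul_eq_one_left
      rw [← pow_succ, h1]
    have h4 : b * a = (b * a)⁻¹ := by
      rw [h3, inv_inv] at h2
      have h5 : (f * a) * ((f * a)⁻¹ * (b * a) * (f * a)) * (f * a)⁻¹ = b * a := by group
      rw [h2] at h5
      rw [← hfau]; exact h5.symm
    have h5 : (b * a) ^ 2 = 1 := by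
      rw [pow_two]
      calc (b * a) * (b * a) = (b * a)⁻¹ * (b * a) := by rw [← h4]
        _ = 1 := inv_mul_cancel _
    obtain ⟨n, hn⟩ := hodd b hbD a haD
    have h6 := orderOf_dvd_of_pow_eq_one h5
    have h7 : orderOf (b * a) = 1 := by
      rcases (Nat.dvd_prime Nat.prime_two).mp h6 with h | h
      · exact h
      · omega
    rw [orderOf_eq_one_iff] at h7
    have := eq_inv_of_mul_eq_one_left h7
    rwa [ha'] at this
  rintro a ⟨haD, _, hae⟩
  exact huniq c a hcD haD ((hkey c).mpr hcf) hae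

end Cfsg.Agent.S5562
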