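import Cfsg.Statements.S5596
import Cfsg.Agent.H28_Sing

set_option autoImplicit false
open Cfsg

namespace Cfsg.Agent.S5596

open Cfsg.Agent.H28.Xsp Cfsg.Agent.H28.Large

theorem result {G : Type*} [Group G] [Finite G]
    (Q : G → Subgroup G)
    (hQ : ∀ x : G, Q x = (Cfsg.pCore 2 ↥(Subgroup.centralizer ({x} : Set G))).map (Subgroup.centralizer ({x} : Set G)).subtype)
    (z : G) (hz : orderOf z = 2) (hE : Cfsg.IsExtraspecial 2 ↥(Q z))
    (hC : Subgroup.centralizer ((Q z : Subgroup G) : Set G) ≤ Q z)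
    (U : Subgroup G) (hU2 : ∀ u ∈ U, u * u = 1)
    (hS : ∀ u ∈ U, u ≠ 1 → ∃ g : G, g * z * g⁻¹ = u)
    (hO : ∀ u ∈ U, ∀ v ∈ U, u ≠ 1 → v ≠ 1 → v ∈ Q u)
    (QU LU : Subgroup G) (hQU : QU = ⨅ u ∈ ((U : Set G) \ {1}), Q u) (hLU : LU = ⨆ u ∈ ((U : Set G) \ {1}), Q u)
    (n : ℕ) (hn : 2 ≤ n) (hcard : Nat.card ↥U = 2 ^ n) :
    U ≤ QU ∧ QU ≤ LU ∧ LU ≤ Subgroup.normalizer (U : Set G) ∧
      ∀ φ : ↥U ≃* ↥U, ∃ g ∈ LU, ∀ u : ↥U, g * (u : G) * g⁻¹ = ((φ u : ↥U) : G) := by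
  have hQ' : Q = coreC := funext hQ
  subst hQ'
  have S := sing_of hz hE hC U hU2 hS hO
  have hLUn : LU ≤ Subgroup.normalizer (U : Set G) := by
    rw [hLU]
    apply iSup₂_le
    rintro u ⟨hu, hu1⟩
    exact S.core_le_normalizer hu hu1
  have hcoreLU : ∀ u ∈ U, u ≠ 1 → coreC u ≤ LU := by
    intro u hu hu1
    rw [hLU]
    exact le_iSup₂_of_le u ⟨hu, hu1⟩ le_rfl
  have hex : ∃ u ∈ U, u ≠ 1 := by
    by_contra hcon
    push Not at hcon
    have h1 : U = ⊥ := by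
      rw [eq_bot_iff]
      intro u hu
      exact Subgroup.mem_bot.mpr (hcon u hu)
    rw [h1, Subgroup.card_bot] at hcard
    have : 2 ^ 2 ≤ 2 ^ n := Nat.pow_le_pow_right (by norm_num) hn
    omega
  refine ⟨?_, ?_, hLUn, ?_⟩
  · rw [hQU]
    apply le_iInf₂
    rintro u ⟨hu, hu1⟩
    exact S.le_core hu hu1
  · obtain ⟨u, hu, hu1⟩ := hex
    rw [hQU]
    exact (iInf₂_le u ⟨hu, hu1⟩).trans (hcoreLU u hu hu1)
  · intro φ
    -- good subgroups
    let Good : Subgroup G → Prop := fun W => W ≤ U ∧ ∃ g ∈ LU, ∀ u : ↥U, (u : G) ∈ W → g * (u : G) * g⁻¹ = ((φ u : ↥U) : G)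
    have hbot : Good ⊥ := by
      refine ⟨bot_le, 1, one_mem _, ?_⟩
      intro u hu
      have hu' : u = 1 := Subtype.ext (Subgroup.mem_bot.mp hu)
      rw [hu', map_one]; simp
    have hfin : {W : Subgroup G | Good W}.Finite := Set.toFinite _
    obtain ⟨W, hW, hmax⟩ := hfin.exists_maximal ⟨⊥, hbot⟩
    obtain ⟨hWU, g, hg, hgW⟩ := hW
    have hWtop : U ≤ W := by
      intro v hv
      by_contra hvW
      have hgn := Subgroup.mem_normalizer_iff.mp (hLUn hg)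
      -- W' = φ(W) = g W g⁻¹
      set W' : Subgroup G := W.map (MulAut.conj g).toMonoidHom with hW'
      have hW'U : W' ≤ U := by
        rintro _ ⟨w, hw, rfl⟩
        exact (hgn w).mp (hWU hw)
      have hv1 : g * v * g⁻¹ ∈ U := (hgn v).mp hv
      have hv1W : g * v * g⁻¹ ∉ W' := by
        intro h
        rw [mem_map_conj] at h
        have : g⁻¹ * (g * v * g⁻¹) * g = v := by group
        rw [this] at h
        exact hvW h
      set v' : G := ((φ ⟨v, hv⟩ : ↥U) : G) with hv'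
      have hv'U : v' ∈ U := (φ ⟨v, hv⟩).2
      have hv'W : v' ∉ W' := by
        rintro ⟨w, hw, hwv⟩
        have h1 : g * w * g⁻¹ = v' := hwv
        rw [hgW ⟨w, hWU hw⟩ hw] at h1
        have h2 : φ ⟨w, hWU hw⟩ = φ ⟨v, hv⟩ := Subtype.ext h1
        have h3 : w = v := congrArg Subtype.val (φ.injective h2)
        rw [h3] at hw
        exact hvW hw
      have hstep : ∃ k ∈ LU, (∀ w ∈ W', k * w * k⁻¹ = w) ∧ k * (g * v * g⁻¹) * k⁻¹ = v' := by
        by_cases hne : g * v * g⁻¹ = v'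
        · exact ⟨1, one_mem _, fun w _ => by group, by rw [hne]; group⟩
        · obtain ⟨u, hu, hu1, k, hk, hkW, hkv⟩ := S.exists_trans hW'U hv1 hv'U hv1W hv'W hne
          refine ⟨k, hcoreLU u hu hu1 hk, fun w hw => ?_, hkv⟩
          rw [hkW w hw, mul_inv_cancel_right]
      obtain ⟨k, hk, hkW, hkv⟩ := hstep
      -- the equalizer subgroup
      have hkgn := Subgroup.mem_normalizer_iff.mp (hLUn (mul_mem hk hg))
      let E : Subgroup G :=
        { carrier := {w | ∃ hw : w ∈ U, (k * g) * w * (k * g)⁻¹ = ((φ ⟨w, hw⟩ : ↥U) : G)}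
          mul_mem' := by
            rintro a b ⟨ha, ha'⟩ ⟨hb, hb'⟩
            refine ⟨mul_mem ha hb, ?_⟩
            have h1 : (⟨a * b, mul_mem ha hb⟩ : ↥U) = ⟨a, ha⟩ * ⟨b, hb⟩ := rfl
            rw [h1, map_mul, Subgroup.coe_mul, ← ha', ← hb']; group
          one_mem' := by
            refine ⟨one_mem _, ?_⟩
            have h1 : (⟨1, one_mem _⟩ : ↥U) = 1 := rfl
            rw [h1, map_one]; simp
          inv_mem' := by
            rintro a ⟨ha, ha'⟩
            refine ⟨inv_mem ha, ?_⟩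
            have h1 : (⟨a⁻¹, inv_mem ha⟩ : ↥U) = ⟨a, ha⟩⁻¹ := rfl
            rw [h1, map_inv, Subgroup.coe_inv, ← ha']; group }
      have hEgood : Good E := by
        refine ⟨fun w hw => hw.1, k * g, mul_mem hk hg, ?_⟩
        rintro ⟨u, hu⟩ ⟨_, hu'⟩
        exact hu'
      have hWE : W ≤ E := by
        intro w hw
        refine ⟨hWU hw, ?_⟩
        have h1 := hgW ⟨w, hWU hw⟩ hw
        rw [← h1]
        calc k * g * w * (k * g)⁻¹ = k * (g * w * g⁻¹) * k⁻¹ := by group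
          _ = g * w * g⁻¹ := hkW _ ⟨w, hw, rfl⟩
      have hvE : v ∈ E := by
        refine ⟨hv, ?_⟩
        calc k * g * v * (k * g)⁻¹ = k * (g * v * g⁻¹) * k⁻¹ := by group
          _ = _ := hkv
      exact hvW (hmax hEgood hWE hvE)
    exact ⟨g, hg, fun u => hgW u (hWtop u.2)⟩

end Cfsg.Agent.S5596
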