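import Cfsg.Statements.S5597
import Cfsg.Agent.H28_Sing

set_option autoImplicit false
open Cfsg

namespace Cfsg.Agent.S5597

open Cfsg.Agent.H28.Xsp Cfsg.Agent.H28.Large

theorem result {G : Type*} [Group G] [Finite G]
    (Q : G → Subgroup G)
    (hQ : ∀ x : G, Q x = (Cfsg.pCore 2 ↥(Subgroup.centralizer ({x} : Set G))).map (Subgroup.centralizer ({x} : Set G)).subtype)
    (z : G) (hz : orderOf z = 2) (hE : Cfsg.IsExtraspecial 2 ↥(Q z))
    (hC : Subgroup.centralizer ((Q z : Subgroup G) : Set G) ≤ Q z)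
    (U : Subgroup G) (hU2 : ∀ u ∈ U, u * u = 1)
    (hS : ∀ u ∈ U, u ≠ 1 → ∃ g : G, g * z * g⁻¹ = u)
    (hO : ∀ u ∈ U, ∀ v ∈ U, u ≠ 1 → v ≠ 1 → v ∈ Q u)
    (QU LU : Subgroup G) (hQU : QU = ⨅ u ∈ ((U : Set G) \ {1}), Q u) (hLU : LU = ⨆ u ∈ ((U : Set G) \ {1}), Q u)
    (hU : U ≠ ⊥) :
    (∀ g ∈ LU, ∀ x ∈ QU, g * x * g⁻¹ * x⁻¹ ∈ U) ∧
      ∀ x ∈ QU, x ∉ U → ∀ u ∈ U, ∃ g ∈ LU ⊓ Subgroup.centralizer (U : Set G), g * x * g⁻¹ = x * u := by
  have hQ' : Q = coreC := funext hQ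
  subst hQ'
  have S := sing_of hz hE hC U hU2 hS hO
  have hLUn : LU ≤ Subgroup.normalizer (U : Set G) := by
    rw [hLU]
    apply iSup₂_le
    rintro u ⟨hu, hu1⟩
    exact S.core_le_normalizer hu hu1
  have hQUm : ∀ x ∈ QU, ∀ u ∈ U, u ≠ 1 → x ∈ coreC u := by
    intro x hx u hu hu1
    rw [hQU] at hx
    exact (iInf₂_le u ⟨hu, hu1⟩ : (⨅ u ∈ ((U : Set G) \ {1}), coreC u) ≤ coreC u) hx
  have hcoreLU : ∀ u ∈ U, u ≠ 1 → coreC u ≤ LU := by
    intro u hu hu1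
    rw [hLU]
    exact le_iSup₂_of_le u ⟨hu, hu1⟩ le_rfl
  constructor
  · intro g hg x hx
    have hbase : ∀ u ∈ U, u ≠ 1 → ∀ g ∈ coreC u, g * x * g⁻¹ * x⁻¹ ∈ U := by
      intro u hu hu1 g hg
      rcases (S.pre u hu hu1).conj_eq hg (hQUm x hx u hu hu1) with h1 | h1
      · rw [h1, mul_inv_cancel]; exact one_mem _
      · rw [h1, mul_inv_cancel_right]; exact hu
    -- the set of good g in LU is a subgroup
    let K : Subgroup G :=
      { carrier := {g | g ∈ LU ∧ g * x * g⁻¹ * x⁻¹ ∈ U}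
        mul_mem' := by
          rintro a b ⟨ha, ha'⟩ ⟨hb, hb'⟩
          refine ⟨mul_mem ha hb, ?_⟩
          have : a * b * x * (a * b)⁻¹ * x⁻¹ = (a * (b * x * b⁻¹ * x⁻¹) * a⁻¹) * (a * x * a⁻¹ * x⁻¹) := by group
          rw [this]
          exact mul_mem ((Subgroup.mem_normalizer_iff.mp (hLUn ha) _).mp hb') ha'
        one_mem' := ⟨one_mem _, by simp⟩
        inv_mem' := by
          rintro a ⟨ha, ha'⟩
          refine ⟨inv_mem ha, ?_⟩
          have : a⁻¹ * x * a⁻¹⁻¹ * x⁻¹ = a⁻¹ * (a * x * a⁻¹ * x⁻¹)⁻¹ * a⁻¹⁻¹ := by group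
          rw [this]
          exact (Subgroup.mem_normalizer_iff.mp (hLUn (inv_mem ha)) _).mp (inv_mem ha') }
    have hle : LU ≤ K := by
      conv_lhs => rw [hLU]
      apply iSup₂_le
      rintro u ⟨hu, hu1⟩ h hh
      exact ⟨hcoreLU u hu hu1 hh, hbase u hu hu1 h hh⟩
    exact (hle hg).2
  · intro x hx hxU u hu
    by_cases hu1 : u = 1
    · exact ⟨1, one_mem _, by rw [hu1]; group⟩
    have hp := S.pre u hu hu1
    have hxQ := hQUm x hx u hu hu1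
    have hd := hp.double_centralizer hu (S.le_core hu hu1)
    have hex : ∃ h ∈ coreC u, (∀ w ∈ U, w * h = h * w) ∧ h * x ≠ x * h := by
      by_contra hcon
      push Not at hcon
      apply hxU
      rw [← hd, Subgroup.mem_inf, Subgroup.mem_centralizer_iff]
      refine ⟨hxQ, ?_⟩
      intro h hh
      obtain ⟨hh1, hh2⟩ := Subgroup.mem_inf.mp hh
      exact hcon h hh1 (fun w hw => Subgroup.mem_centralizer_iff.mp hh2 w hw)
    obtain ⟨h, hh, hhU, hhx⟩ := hex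
    refine ⟨h, Subgroup.mem_inf.mpr ⟨hcoreLU u hu hu1 hh, Subgroup.mem_centralizer_iff.mpr hhU⟩, ?_⟩
    rw [hp.conj_eq_of_not_comm hh hxQ hhx, hp.zc x hxQ]

end Cfsg.Agent.S5597
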