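import Cfsg.Statements.S5598
import Cfsg.Agent.H28_Sing

set_option autoImplicit false
open Cfsg

namespace Cfsg.Agent.S5598

open Cfsg.Agent.H28.Xsp Cfsg.Agent.H28.Large

theorem result {G : Type*} [Group G] [Finite G]
    (Q : G → Subgroup G)
    (hQ : ∀ x : G, Q x = (Cfsg.pCore 2 ↥(Subgroup.centralizer ({x} : Set G))).map (Subgroup.centralizer ({x} : Set G)).subtype)
    (z : G) (hz : orderOf z = 2) (hE : Cfsg.IsExtraspecial 2 ↥(Q z))
    (hC : Subgroup.centralizer ((Q z : Subgroup G) : Set G) ≤ Q z)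
    (U : Subgroup G) (hU2 : ∀ u ∈ U, u * u = 1)
    (hS : ∀ u ∈ U, u ≠ 1 → ∃ g : G, g * z * g⁻¹ = u)
    (hO : ∀ u ∈ U, ∀ v ∈ U, u ≠ 1 → v ≠ 1 → v ∈ Q u)
    (QU LU : Subgroup G) (hQU : QU = ⨅ u ∈ ((U : Set G) \ {1}), Q u) (hLU : LU = ⨆ u ∈ ((U : Set G) \ {1}), Q u)
    (T : Set G) (hT : Subgroup.closure T = U) (hT1 : (1 : G) ∉ T) :
    QU = ⨅ t ∈ T, Q t := by
  have hQ' : Q = coreC := funext hQ
  subst hQ'
  have S := sing_of hz hE hC U hU2 hS hO
  subst hQU
  have hTU : T ⊆ U := by rw [← hT]; exact Subgroup.subset_closure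
  apply le_antisymm
  · apply le_iInf₂
    intro t ht
    exact iInf₂_le t ⟨hTU ht, fun h => hT1 (by rwa [Set.mem_singleton_iff.mp h] at ht)⟩
  · intro x hx
    have hxt : ∀ t ∈ T, x ∈ coreC t := by
      intro t ht
      exact (iInf₂_le t ht : (⨅ t ∈ T, coreC t) ≤ coreC t) hx
    have key : ∀ u ∈ Subgroup.closure T, u = 1 ∨ x ∈ coreC u := by
      intro u hu
      have hcl : ∀ w, w ∈ Subgroup.closure T → w ∈ U := fun w hw => hT ▸ hw
      induction hu using Subgroup.closure_induction with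
      | mem a ha => right; exact hxt a ha
      | one => left; rfl
      | mul a b ha' hb' ha hb =>
        have haU := hcl a ha'
        have hbU := hcl b hb'
        by_cases ha1 : a = 1
        · rw [ha1, one_mul]; exact hb
        by_cases hb1 : b = 1
        · rw [hb1, mul_one]; exact ha
        by_cases hab : a = b
        · left; rw [hab]; exact S.sq b hbU
        right
        exact S.inf_le haU hbU ha1 hb1 hab (ha.resolve_left ha1) (hb.resolve_left hb1)
      | inv a ha' ha =>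
        rw [inv_eq_of_mul_eq_one_left (S.sq a (hcl a ha'))]; exact ha
    simp only [Subgroup.mem_iInf]
    rintro u ⟨hu, hu1⟩
    rw [← hT] at hu
    exact (key u hu).resolve_left hu1

end Cfsg.Agent.S5598
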