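import Cfsg.Statements.S5713
import Cfsg.Agent.H18_MD2

set_option autoImplicit false
open Cfsg

namespace Cfsg.Agent.S5713


/-- A classification-free minimal-degree bound. Let G be a finite group acting faithfully and primitively on a finite set Ω with n elements, and suppose that the image of G in the symmetric group on Ω does not contain the alternating group on Ω. Then every non-identity element of G moves at least (√n − 1)/2 points of Ω, that is, it fixes at most n − (√n − 1)/2 points. -/
theorem result {G Ω : Type*} [Group G] [Finite G] [MulAction G Ω] [FaithfulSMul G Ω] [Fintype Ω] [DecidableEq Ω]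
    (hprim : MulAction.IsPreprimitive G Ω)
    (hA : ¬ alternatingGroup Ω ≤ (MulAction.toPermHom G Ω).range)
    (g : G) (hg : g ≠ 1) :
    (Real.sqrt (Fintype.card Ω) - 1) / 2 ≤ (Fintype.card Ω : ℝ) - Nat.card (MulAction.fixedBy Ω g) := by
  classical
  obtain ⟨x, hx⟩ : ∃ x : Ω, g • x ≠ x := by
    by_contra hcon
    push Not at hcon
    apply hg
    apply FaithfulSMul.eq_of_smul_eq_smul (α := Ω)
    intro a
    rw [hcon a, one_smul]
  have h1 := H18.MD.min_degree hprim hA hx
  set m := {z : Ω | g • z ≠ z}.ncard with hm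
  have h2 : Nat.card (MulAction.fixedBy Ω g) + m = Fintype.card Ω := by
    have h3 := Set.ncard_add_ncard_compl (MulAction.fixedBy Ω g) (Set.toFinite _) (Set.toFinite _)
    have h4 : (MulAction.fixedBy Ω g)ᶜ = {z : Ω | g • z ≠ z} := by
      ext z
      simp [MulAction.mem_fixedBy]
    rw [h4] at h3
    rw [← Nat.card_eq_fintype_card, ← h3]
    rfl
  rw [Nat.card_eq_fintype_card] at h1
  have h5 : (Fintype.card Ω : ℝ) ≤ (2 * (m : ℝ) + 1) ^ 2 := by exact_mod_cast h1
  have h6 : Real.sqrt (Fintype.card Ω) ≤ 2 * (m : ℝ) + 1 := by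
    rw [Real.sqrt_le_left (by positivity)]
    exact h5
  have h7 : (Fintype.card Ω : ℝ) - Nat.card (MulAction.fixedBy Ω g) = m := by
    rw [← h2]; push_cast; ring
  rw [h7]
  linarith

end Cfsg.Agent.S5713
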