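import Cfsg.Statements.S5729
import Cfsg.Agent.H29_Derange

set_option autoImplicit false
open Cfsg

namespace Cfsg.Agent.S5729

open Cfsg.Agent.H29.Derange

theorem result {G Ω : Type*} [Group G] [Finite G] [MulAction G Ω] [FaithfulSMul G Ω] [Fintype Ω] (htr : MulAction.IsPretransitive G Ω) (hn : 3 ≤ Fintype.card Ω) :
    ((MulAction.IsPretransitive G Ω ∧ (∃ g : G, g ≠ 1 ∧ ∃ ω : Ω, g • ω = ω) ∧ ∀ g : G, g ≠ 1 → Nat.card (MulAction.fixedBy Ω g) ≤ 1) ∧ Nat.card G = Fintype.card Ω * (Fintype.card Ω - 1) ∧ Fintype.card Ω * Nat.card {g : G // ∀ ω : Ω, g • ω ≠ ω} = Nat.card G) ∨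
    Nat.card G < Fintype.card Ω * Nat.card {g : G // ∀ ω : Ω, g • ω ≠ ω} := by
  classical
  have : Fintype G := Fintype.ofFinite G
  have hn0 : 0 < Fintype.card Ω := by omega
  have hid := derange_identity (G := G) (Ω := Ω) htr hn0
  have hrk := two_le_rk (G := G) (Ω := Ω) (by omega)
  set n := Fintype.card Ω with hnn
  have hGpos : 0 < Nat.card G := Nat.card_pos
  have hterm : ∀ g : G, 0 ≤ (if fx Ω g = 0 then (0 : ℤ) else ((fx Ω g : ℤ) - 1) * (n - (fx Ω g : ℤ))) := by
    intro g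
    split_ifs with h
    · exact le_rfl
    · have h1 := fx_le (Ω := Ω) g
      have h2 : 1 ≤ fx Ω g := by omega
      apply mul_nonneg
      · have : (1 : ℤ) ≤ fx Ω g := by exact_mod_cast h2
        linarith
      · have : (fx Ω g : ℤ) ≤ n := by exact_mod_cast h1
        linarith
  have hsum : 0 ≤ ∑ g : G, (if fx Ω g = 0 then (0 : ℤ) else ((fx Ω g : ℤ) - 1) * (n - (fx Ω g : ℤ))) :=
    Finset.sum_nonneg fun g _ => hterm g
  by_cases hB : Nat.card G < n * Nat.card {g : G // ∀ ω : Ω, g • ω ≠ ω}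
  · exact Or.inr hB
  left
  have hB' : (n : ℤ) * Nat.card {g : G // ∀ ω : Ω, g • ω ≠ ω} ≤ Nat.card G := by
    have : n * Nat.card {g : G // ∀ ω : Ω, g • ω ≠ ω} ≤ Nat.card G := not_lt.1 hB
    exact_mod_cast this
  have hG' : (0 : ℤ) < Nat.card G := by exact_mod_cast hGpos
  have hrk' : (2 : ℤ) ≤ rk G Ω := by exact_mod_cast hrk
  have hr2 : (rk G Ω : ℤ) = 2 := by
    rw [hid] at hB'
    nlinarith
  have hs0 : ∑ g : G, (if fx Ω g = 0 then (0 : ℤ) else ((fx Ω g : ℤ) - 1) * (n - (fx Ω g : ℤ))) = 0 := by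
    rw [hid, hr2] at hB'
    linarith
  have hall := (Finset.sum_eq_zero_iff_of_nonneg fun g _ => hterm g).1 hs0
  have hfix : ∀ g : G, g ≠ 1 → fx Ω g ≤ 1 := by
    intro g hg
    have h1 := hall g (Finset.mem_univ g)
    by_contra hcon
    push Not at hcon
    rw [if_neg (by omega)] at h1
    have hne : fx Ω g ≠ n := by
      intro he
      apply hg
      apply FaithfulSMul.eq_of_smul_eq_smul (α := Ω)
      intro ω
      rw [one_smul]
      have hinj : Function.Bijective (Subtype.val : MulAction.fixedBy Ω g → Ω) := by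
        rw [Fintype.bijective_iff_injective_and_card]
        refine ⟨Subtype.val_injective, ?_⟩
        rw [← Nat.card_eq_fintype_card]
        exact he
      obtain ⟨x, rfl⟩ := hinj.2 ω
      exact x.2
    have h2 := fx_le (Ω := Ω) g
    rcases mul_eq_zero.1 h1 with h3 | h3
    · have : (2 : ℤ) ≤ fx Ω g := by exact_mod_cast hcon
      linarith
    · apply hne
      have : (fx Ω g : ℤ) = n := by linarith
      exact_mod_cast this
  -- the order
  have hcard : Nat.card G = n * (n - 1) := by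
    have h1 : (∑ g : G, (fx Ω g : ℤ)) = Nat.card G := by exact_mod_cast sum_fx (G := G) (Ω := Ω) htr hn0
    have h2 : (∑ g : G, (fx Ω g : ℤ) ^ 2) = rk G Ω * Nat.card G := by exact_mod_cast sum_fx_sq (G := G) (Ω := Ω)
    have h3 : ∑ g : G, ((fx Ω g : ℤ) ^ 2 - fx Ω g) = Nat.card G := by
      rw [Finset.sum_sub_distrib, h1, h2, hr2]; ring
    have h4 : ∑ g : G, ((fx Ω g : ℤ) ^ 2 - fx Ω g) = (n : ℤ) ^ 2 - n := by
      rw [Finset.sum_eq_single (1 : G)]
      · rw [fx_one]
      · intro g _ hg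
        have := hfix g hg
        interval_cases h : fx Ω g <;> simp
      · intro h; exact absurd (Finset.mem_univ _) h
    have h5 : (Nat.card G : ℤ) = (n : ℤ) * ((n - 1 : ℕ) : ℤ) := by
      rw [← h3, h4, Nat.cast_sub (by omega)]; push_cast; ring
    exact_mod_cast h5
  refine ⟨⟨htr, ?_, hfix⟩, hcard, ?_⟩
  · -- non-trivial stabiliser
    obtain ⟨ω⟩ := Fintype.card_pos_iff.1 hn0
    have h1 := MulAction.card_orbit_mul_card_stabilizer_eq_card_group G ω
    have h2 : Fintype.card (MulAction.orbit G ω) = n := by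
      have : MulAction.orbit G ω = Set.univ := MulAction.orbit_eq_univ G ω
      rw [← Nat.card_eq_fintype_card, this, Nat.card_congr (Equiv.Set.univ Ω), Nat.card_eq_fintype_card]
    rw [h2, ← Nat.card_eq_fintype_card, ← Nat.card_eq_fintype_card, hcard] at h1
    have h3 : Nat.card (MulAction.stabilizer G ω) = n - 1 := Nat.eq_of_mul_eq_mul_left hn0 h1
    have h4 : 1 < Nat.card (MulAction.stabilizer G ω) := by omega
    have h5 := Finite.one_lt_card_iff_nontrivial.1 h4
    obtain ⟨x, hx⟩ := exists_ne (1 : MulAction.stabilizer G ω)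
    exact ⟨x, fun h => hx (Subtype.ext h), ω, x.2⟩
  · have : (n : ℤ) * Nat.card {g : G // ∀ ω : Ω, g • ω ≠ ω} = Nat.card G := by
      rw [hid, hs0, hr2]; ring
    exact_mod_cast this

end Cfsg.Agent.S5729
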