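import Cfsg.Statements.S5730
import Cfsg.Agent.H18_Der5

set_option autoImplicit false
open Cfsg

namespace Cfsg.Agent.S5730

open MulAction Finset Cfsg.Agent.H18.Der
open scoped Classical

universe u v

theorem main_ineq {G : Type u} {Ω : Type v} [Group G] [Fintype G] [MulAction G Ω] [Fintype Ω] [FaithfulSMul G Ω] (h2 : T2 G Ω)
    (hn : 7 ≤ Fintype.card Ω) {α β : Ω} (hαβ : α ≠ β) (hh : 2 ≤ Nat.card (St G α β)) :
    (Nat.card (St G α β) : ℚ) ≤ P Ω (wt (G := G) Ω) α β := by
  by_contra hf
  push Not at hf
  have hall : ∀ a b : Ω, a ≠ b → P Ω (wt (G := G) Ω) a b < Nat.card (St G a b) := by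
    intro a b hab
    obtain ⟨x, rfl, rfl⟩ := h2 α β a b hαβ hab
    rw [P_conj Ω _ (wt_conj Ω), card_St_smul]
    exact hf
  have hhall : ∀ a b : Ω, a ≠ b → 2 ≤ Nat.card (St G a b) := fun a b hab => by rw [card_St_eq h2 hab hαβ]; exact hh
  have h4 : (ln G α β).card ≤ 3 := by
    by_contra h
    have h3 := fail_bound (by omega) hh 3 (fun x hx => by
      have h5 := fx_bound h2 hαβ (mem_Hs.1 hx).1
      have h6 : 3 * fx Ω x ≤ ((ln G α β).card - 1) * fx Ω x := Nat.mul_le_mul_right _ (by omega)
      omega) hf
    generalize Nat.card (St G α β) = h at hh h3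
    generalize Fintype.card Ω = n at hn h3
    obtain ⟨h, rfl⟩ : ∃ h', h = h' + 2 := ⟨h - 2, by omega⟩
    obtain ⟨n, rfl⟩ : ∃ n', n = n' + 1 := ⟨n - 1, by omega⟩
    have e1 : 2 * (h + 2) - 1 = 2 * h + 3 := by omega
    have e2 : h + 2 - 1 = h + 1 := by omega
    rw [e1, e2, Nat.add_sub_cancel] at h3
    nlinarith
  have h5 := one_lt_card_ln (G := G) hαβ
  rcases (by omega : (ln G α β).card = 2 ∨ (ln G α β).card = 3) with hl | hl
  · have hE : ∀ a b : Ω, a ≠ b → ee G a b < 2 * Nat.card (St G a b) := by
      intro a b hab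
      have h6 := fail_E (hhall a b hab) (hall a b hab)
      rw [card_ln_eq h2 hab hαβ, hl] at h6
      have h7 : 0 < 2 * Nat.card (St G a b) - 1 := by have := hhall a b hab; omega
      by_contra h
      push Not at h
      have h8 : (2 * Nat.card (St G a b) - 1) * (2 * Nat.card (St G a b)) ≤ (2 * Nat.card (St G a b) - 1) * ee G a b := Nat.mul_le_mul_left _ h
      omega
    have h0 := fun a b (hab : a ≠ b) => E_zero h2 hn hE hab
    apply case_two h2 hn h0 hαβ hl
    have h6 := fail_E hh hf
    rw [hl] at h6
    by_contra h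
    have h7 : Nat.card (St G α β) = 2 := by omega
    rw [h7] at h6
    omega
  · have hE : ∀ a b : Ω, a ≠ b → ee G a b < 2 * Nat.card (St G a b) := by
      intro a b hab
      have h6 := fail_E (hhall a b hab) (hall a b hab)
      rw [card_ln_eq h2 hab hαβ, hl] at h6
      have h3 := fail_bound (by omega) (hhall a b hab) 2 (fun x hx => by
        have h5 := fx_bound h2 hαβ (mem_Hs.1 hx).1
        rw [hl] at h5
        exact h5) (hall a b hab)
      have hh' := hhall a b hab
      by_contra h
      push Not at h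
      have h8 : (2 * Nat.card (St G a b) - 1) * (2 * Nat.card (St G a b)) ≤ (2 * Nat.card (St G a b) - 1) * ee G a b := Nat.mul_le_mul_left _ h
      have h9 : Fintype.card Ω * Nat.card (St G a b) < (2 * Nat.card (St G a b) - 1) * Nat.card (St G a b) := by
        have e1 : (2 * Nat.card (St G a b) - 1) * (3 * Nat.card (St G a b)) =
            (2 * Nat.card (St G a b) - 1) * (2 * Nat.card (St G a b)) + (2 * Nat.card (St G a b) - 1) * Nat.card (St G a b) := by ring
        omega
      have h10 := Nat.lt_of_mul_lt_mul_right h9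
      generalize Nat.card (St G a b) = h at hh' h3 h10
      generalize Fintype.card Ω = n at hn h3 h10
      obtain ⟨h, rfl⟩ : ∃ h', h = h' + 1 := ⟨h - 1, by omega⟩
      obtain ⟨n, rfl⟩ : ∃ n', n = n' + 1 := ⟨n - 1, by omega⟩
      have e1 : 2 * (h + 1) - 1 = 2 * h + 1 := by omega
      rw [e1, Nat.add_sub_cancel, Nat.add_sub_cancel] at h3
      rw [e1] at h10
      nlinarith
    have h0 := fun a b (hab : a ≠ b) => E_zero h2 hn hE hab
    apply case_three h2 hn h0 hαβ (fun a b hab => by rw [card_ln_eq h2 hab hαβ]; exact hl)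
    have h6 := fail_E hh hf
    rw [hl] at h6
    have h7 : Fintype.card Ω * Nat.card (St G α β) < (3 * (2 * Nat.card (St G α β) - 1)) * Nat.card (St G α β) := by
      have e1 : (3 * (2 * Nat.card (St G α β) - 1)) * Nat.card (St G α β) = (2 * Nat.card (St G α β) - 1) * (3 * Nat.card (St G α β)) := by ring
      omega
    exact Nat.lt_of_mul_lt_mul_right h7

theorem card_der {G : Type u} {Ω : Type v} [Group G] [Fintype G] [MulAction G Ω] [Fintype Ω] :
    Nat.card {g : G // ∀ ω : Ω, g • ω ≠ ω} = (univ.filter (fun g : G => fx Ω g = 0)).card := by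
  rw [Nat.card_eq_fintype_card, ← Fintype.card_coe]
  apply Fintype.card_congr
  apply Equiv.subtypeEquivRight
  intro g
  rw [mem_filter, fx, card_eq_zero, filter_eq_empty_iff]
  simp

/-- Let a finite group G act faithfully and transitively on a set with n ≥ 7 points. Then either G is a Frobenius permutation group (Frobenius as a permutation group: transitive, some non-identity element fixes a point, and no non-identity element fixes two points) of order n(n − 1)/a with a ∈ {1, 2}, in which case exactly a|G|/n of its elements are derangements, or the number of derangements is at least 2|G|/n. (Equality does occur: PSL₃(2) acting on the 7 points of the Fano plane has exactly 2|G|/7 derangements.) -/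
theorem result {G Ω : Type*} [Group G] [Finite G] [MulAction G Ω] [FaithfulSMul G Ω] [Fintype Ω] (htr : MulAction.IsPretransitive G Ω) (hn : 7 ≤ Fintype.card Ω) :
    (∃ a : ℕ, (a = 1 ∨ a = 2) ∧ (MulAction.IsPretransitive G Ω ∧ (∃ g : G, g ≠ 1 ∧ ∃ ω : Ω, g • ω = ω) ∧ ∀ g : G, g ≠ 1 → Nat.card (MulAction.fixedBy Ω g) ≤ 1) ∧ a * Nat.card G = Fintype.card Ω * (Fintype.card Ω - 1) ∧ Fintype.card Ω * Nat.card {g : G // ∀ ω : Ω, g • ω ≠ ω} = a * Nat.card G) ∨
    2 * Nat.card G ≤ Fintype.card Ω * Nat.card {g : G // ∀ ω : Ω, g • ω ≠ ω} := by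
  classical
  haveI : Fintype G := Fintype.ofFinite G
  obtain ⟨α, β, hαβ⟩ : ∃ α β : Ω, α ≠ β := Fintype.exists_pair_of_one_lt_card (by omega)
  haveI : Nonempty Ω := ⟨α⟩
  have hcount := count_gen (G := G) Ω htr
  rw [← card_der] at hcount
  by_cases h2 : T2 G Ω
  · rw [card_quot_two Ω hαβ htr h2, terms_eq Ω hαβ h2] at hcount
    have hG := card_eq Ω hαβ htr h2
    rw [P_one] at hG
    have hn1 : (0 : ℚ) ≤ (Fintype.card Ω : ℚ) * (Fintype.card Ω - 1) := by
      have : (7 : ℚ) ≤ Fintype.card Ω := by exact_mod_cast hn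
      nlinarith
    by_cases hh : 2 ≤ Nat.card (St G α β)
    · right
      have h3 := main_ineq h2 hn hαβ hh
      have h4 : (2 : ℚ) * Fintype.card G ≤ (Fintype.card Ω : ℚ) * Nat.card {g : G // ∀ ω : Ω, g • ω ≠ ω} := by
        rw [hcount]
        have h5 := mul_le_mul_of_nonneg_left h3 hn1
        rw [← hG] at h5
        push_cast
        linarith
      rw [Nat.card_eq_fintype_card (α := G)]
      exact_mod_cast h4
    · left
      have hh1 : Nat.card (St G α β) = 1 := by
        have : 0 < Nat.card (St G α β) := Nat.card_pos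
        omega
      have hfree : ∀ g : G, g ≠ 1 → ∀ c d : Ω, g • c = c → g • d = d → c = d := by
        intro g hg c d hc hd
        by_contra hcd
        have h3 := card_St_eq h2 hcd hαβ
        rw [hh1, Subgroup.card_eq_one] at h3
        apply hg
        rw [← Subgroup.mem_bot, ← h3]
        exact mem_St.2 ⟨hc, hd⟩
      have hG' : Nat.card G = Fintype.card Ω * (Fintype.card Ω - 1) := by
        rw [Nat.card_eq_fintype_card]
        have : (Fintype.card G : ℚ) = ((Fintype.card Ω * (Fintype.card Ω - 1) : ℕ) : ℚ) := by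
          rw [hG, hh1, Nat.cast_mul, Nat.cast_sub (by omega)]
          push_cast; ring
        exact_mod_cast this
      refine ⟨1, Or.inl rfl, ⟨htr, ?_, ?_⟩, by rw [one_mul]; exact hG', ?_⟩
      · by_contra h
        push Not at h
        have h3 : stabilizer G α = ⊥ := by
          rw [Subgroup.eq_bot_iff_forall]
          intro g hg
          by_contra hg1
          exact h g hg1 α hg
        have h4 := (stabilizer G α).card_mul_index
        rw [h3, Subgroup.card_bot, one_mul, ← h3, index_stabilizer, orbit_eq_univ, Set.ncard_univ, Nat.card_eq_fintype_card (α := Ω), hG'] at h4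
        have h5 : Fintype.card Ω * 6 ≤ Fintype.card Ω * (Fintype.card Ω - 1) := Nat.mul_le_mul_left _ (by omega)
        omega
      · intro g hg
        rw [Finite.card_le_one_iff_subsingleton]
        exact ⟨fun c d => Subtype.ext (hfree g hg c.1 d.1 c.2 d.2)⟩
      · have h3 : P Ω (wt (G := G) Ω) α β = 0 := by
          unfold P
          apply sum_eq_zero
          intro g hg
          rw [mem_filter] at hg
          have hg1 : g = 1 := by
            by_contra hg1
            exact hαβ (hfree g hg1 α β hg.2.1 hg.2.2)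
          unfold wt
          rw [if_pos hg1]
        rw [h3] at hcount
        rw [one_mul, Nat.card_eq_fintype_card (α := G)]
        have h4 : (Fintype.card Ω : ℚ) * Nat.card {g : G // ∀ ω : Ω, g • ω ≠ ω} = Fintype.card G := by
          rw [hcount]; push_cast; ring
        exact_mod_cast h4
  · right
    have h3 := card_quot_ge (G := G) Ω h2
    have h4 := terms_nonneg (G := G) Ω
    have h5 : (2 : ℚ) * Fintype.card G ≤ (Fintype.card Ω : ℚ) * Nat.card {g : G // ∀ ω : Ω, g • ω ≠ ω} := by
      rw [hcount]
      have h6 : (3 : ℚ) ≤ Fintype.card (orbitRel.Quotient G (Ω × Ω)) := by exact_mod_cast h3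
      have h7 : (0 : ℚ) ≤ Fintype.card G := Nat.cast_nonneg _
      nlinarith
    rw [Nat.card_eq_fintype_card (α := G)]
    exact_mod_cast h5

end Cfsg.Agent.S5730
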