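import Cfsg.Statements.S5747

set_option autoImplicit false
open Cfsg

namespace Cfsg.Agent.S5747

variable {G Ω : Type*} [Group G] [MulAction G Ω]

def Irr (G : Type*) {Ω : Type*} [Group G] [MulAction G Ω] {t : ℕ} (f : Fin t → Ω) : Prop :=
  ∀ i : Fin t, ∃ g : G, (∀ j : Fin t, j < i → g • f j = f j) ∧ g • f i ≠ f i

def Bas (G : Type*) {Ω : Type*} [Group G] [MulAction G Ω] {t : ℕ} (f : Fin t → Ω) : Prop :=
  ∀ g : G, (∀ i : Fin t, g • f i = f i) → g = 1

theorem irr_snoc {t : ℕ} (f : Fin t → Ω) (y : Ω) :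
    Irr G (Fin.snoc f y : Fin (t + 1) → Ω) ↔ Irr G f ∧ ∃ g : G, (∀ j, g • f j = f j) ∧ g • y ≠ y := by
  constructor
  · intro h
    refine ⟨fun i => ?_, ?_⟩
    · obtain ⟨g, h1, h2⟩ := h i.castSucc
      rw [Fin.snoc_castSucc] at h2
      refine ⟨g, fun j hj => ?_, h2⟩
      have := h1 j.castSucc (Fin.castSucc_lt_castSucc_iff.2 hj)
      rwa [Fin.snoc_castSucc] at this
    · obtain ⟨g, h1, h2⟩ := h (Fin.last t)
      rw [Fin.snoc_last] at h2
      refine ⟨g, fun j => ?_, h2⟩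
      have := h1 j.castSucc (Fin.castSucc_lt_last j)
      rwa [Fin.snoc_castSucc] at this
  · rintro ⟨h, g, h1, h2⟩ i
    induction i using Fin.lastCases with
    | last =>
      refine ⟨g, fun j hj => ?_, by rwa [Fin.snoc_last]⟩
      induction j using Fin.lastCases with
      | last => exact absurd hj (lt_irrefl _)
      | cast j => rw [Fin.snoc_castSucc]; exact h1 j
    | cast i =>
      obtain ⟨g, h1, h2⟩ := h i
      refine ⟨g, fun j hj => ?_, by rwa [Fin.snoc_castSucc]⟩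
      induction j using Fin.lastCases with
      | last => exact absurd hj (not_lt.2 (Fin.le_last _))
      | cast j => rw [Fin.snoc_castSucc]; exact h1 j (Fin.castSucc_lt_castSucc_iff.1 hj)

theorem fix_snoc {t : ℕ} (f : Fin t → Ω) (y : Ω) (g : G) :
    (∀ i, g • (Fin.snoc f y : Fin (t + 1) → Ω) i = (Fin.snoc f y : Fin (t + 1) → Ω) i) ↔
      (∀ i, g • f i = f i) ∧ g • y = y := by
  constructor
  · intro h
    refine ⟨fun i => ?_, ?_⟩
    · have := h i.castSucc
      rwa [Fin.snoc_castSucc] at this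
    · have := h (Fin.last t)
      rwa [Fin.snoc_last] at this
  · rintro ⟨h1, h2⟩ i
    induction i using Fin.lastCases with
    | last => rwa [Fin.snoc_last]
    | cast i => rw [Fin.snoc_castSucc]; exact h1 i

/-- dropping redundant points -/
theorem drop (t : ℕ) (h : Fin t → Ω) : ∃ (t' : ℕ) (h' : Fin t' → Ω), t' ≤ t ∧ Irr G h' ∧
    (∀ g : G, (∀ i, g • h i = h i) ↔ (∀ i, g • h' i = h' i)) ∧ (t' = t → Irr G h) := by
  induction t with
  | zero => exact ⟨0, h, le_refl _, fun i => i.elim0, fun g => Iff.rfl, fun _ i => i.elim0⟩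
  | succ t ih =>
    obtain ⟨h0, y, rfl⟩ : ∃ (h0 : Fin t → Ω) (y : Ω), h = (Fin.snoc h0 y : Fin (t + 1) → Ω) :=
      ⟨Fin.init h, h (Fin.last t), (Fin.snoc_init_self h).symm⟩
    obtain ⟨t', h', hle, hirr, hfix, heq⟩ := ih h0
    by_cases hy : ∃ g : G, (∀ j, g • h0 j = h0 j) ∧ g • y ≠ y
    · obtain ⟨g, hg1, hg2⟩ := hy
      refine ⟨t' + 1, (Fin.snoc h' y : Fin (t' + 1) → Ω), by omega, ?_, ?_, ?_⟩
      · rw [irr_snoc]
        exact ⟨hirr, g, (hfix g).1 hg1, hg2⟩
      · intro k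
        rw [fix_snoc, fix_snoc, hfix k]
      · intro htt
        rw [irr_snoc]
        exact ⟨heq (by omega), g, hg1, hg2⟩
    · push Not at hy
      refine ⟨t', h', by omega, hirr, ?_, by omega⟩
      intro k
      rw [fix_snoc, hfix k]
      exact ⟨fun h => h.1, fun h => ⟨h, hy k ((hfix k).2 h)⟩⟩

/-- the reordering hypothesis -/
def R (G Ω : Type*) [Group G] [MulAction G Ω] : Prop :=
  ∀ (t : ℕ) (f : Fin t → Ω) (σ : Equiv.Perm (Fin t)), Bas G f ∧ Irr G f → Bas G (f ∘ σ) ∧ Irr G (f ∘ σ)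

theorem R' (hR : R G Ω) {t : ℕ} (f : Fin t → Ω) (hf : Bas G f ∧ Irr G f) (i : Fin t) :
    ∃ g : G, (∀ j, j ≠ i → g • f j = f j) ∧ g • f i ≠ f i := by
  obtain ⟨m, rfl⟩ : ∃ m, t = m + 1 := ⟨t - 1, by have := i.2; omega⟩
  obtain ⟨_, h⟩ := hR _ f (Equiv.swap i (Fin.last m)) hf
  obtain ⟨g, h1, h2⟩ := h (Fin.last m)
  simp only [Function.comp_apply, Equiv.swap_apply_right] at h2
  refine ⟨g, fun j hj => ?_, h2⟩
  have hne : Equiv.swap i (Fin.last m) j ≠ Fin.last m := by
    intro he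
    apply hj
    have := congrArg (Equiv.swap i (Fin.last m)) he
    rwa [Equiv.swap_apply_self, Equiv.swap_apply_right] at this
  have := h1 (Equiv.swap i (Fin.last m) j) (lt_of_le_of_ne (Fin.le_last _) hne)
  simpa using this

def MB (G : Type*) {Ω : Type*} [Group G] [MulAction G Ω] (B : Finset Ω) : Prop :=
  (∀ g : G, (∀ x ∈ B, g • x = x) → g = 1) ∧
    ∀ x ∈ B, ∃ g : G, (∀ y ∈ B, y ≠ x → g • y = y) ∧ g • x ≠ x

theorem inj_of {t : ℕ} (f : Fin t → Ω) (h : ∀ i, ∃ g : G, (∀ j, j ≠ i → g • f j = f j) ∧ g • f i ≠ f i) :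
    Function.Injective f := by
  intro i j hij
  by_contra hne
  obtain ⟨g, h1, h2⟩ := h i
  apply h2
  rw [hij]
  exact h1 j (Ne.symm hne)

variable [DecidableEq Ω]

theorem MB_of (hR : R G Ω) {t : ℕ} (f : Fin t → Ω) (hf : Bas G f ∧ Irr G f) :
    MB G (Finset.univ.image f) ∧ (Finset.univ.image f).card = t := by
  have h := R' hR f hf
  refine ⟨⟨fun g hg => hf.1 g (fun i => hg _ (Finset.mem_image_of_mem f (Finset.mem_univ i))), ?_⟩, ?_⟩
  · intro x hx
    obtain ⟨i, _, rfl⟩ := Finset.mem_image.1 hx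
    obtain ⟨g, h1, h2⟩ := h i
    refine ⟨g, fun y hy hne => ?_, h2⟩
    obtain ⟨j, _, rfl⟩ := Finset.mem_image.1 hy
    exact h1 j (fun hji => hne (by rw [hji]))
  · rw [Finset.card_image_of_injective _ (inj_of f h)]
    simp

theorem seq_of (B : Finset Ω) : ∃ f : Fin B.card → Ω, Function.Injective f ∧ (∀ i, f i ∈ B) ∧
    ∀ x ∈ B, ∃ i, f i = x := by
  refine ⟨fun i => (B.equivFin.symm i : Ω), fun i j hij => ?_, fun i => (B.equivFin.symm i).2, ?_⟩
  · exact B.equivFin.symm.injective (Subtype.ext hij)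
  · intro x hx
    exact ⟨B.equivFin ⟨x, hx⟩, by simp⟩

/-- enumeration of a set all of whose points are irredundant -/
theorem exchange (hR : R G Ω) {B : Finset Ω} (hB : MB G B) {x y : Ω} (hx : x ∈ B)
    (hy : ∃ g : G, (∀ z ∈ B, z ≠ x → g • z = z) ∧ g • y ≠ y) :
    MB G (insert y (B.erase x)) ∧ (insert y (B.erase x)).card = B.card := by
  obtain ⟨f, hinj, hmem, hsurj⟩ := seq_of (B.erase x)
  have hfirr : Irr G f := by
    intro i
    obtain ⟨g, h1, h2⟩ := hB.2 (f i) (Finset.mem_of_mem_erase (hmem i))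
    refine ⟨g, fun j hj => h1 _ (Finset.mem_of_mem_erase (hmem j)) (fun h => ?_), h2⟩
    exact absurd (hinj h) (ne_of_lt hj)
  obtain ⟨k, hk1, hk2⟩ := hy
  have hfy : Irr G (Fin.snoc f y : Fin (_ + 1) → Ω) := by
    rw [irr_snoc]
    exact ⟨hfirr, k, fun j => hk1 _ (Finset.mem_of_mem_erase (hmem j))
      (Finset.ne_of_mem_erase (hmem j)), hk2⟩
  have hbase : Bas G (Fin.snoc f y : Fin (_ + 1) → Ω) := by
    by_contra hcon
    have hcon' : ∃ g : G, (∀ i, g • (Fin.snoc f y : Fin (_ + 1) → Ω) i = (Fin.snoc f y : Fin (_ + 1) → Ω) i) ∧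
        g ≠ 1 := by
      unfold Bas at hcon
      push Not at hcon
      exact hcon
    obtain ⟨g, hg1, hg2⟩ := hcon'
    have hg3 := (fix_snoc f y g).1 hg1
    have hgx : g • x ≠ x := by
      intro h
      apply hg2
      apply hB.1
      intro z hz
      by_cases hzx : z = x
      · rw [hzx]; exact h
      · obtain ⟨i, rfl⟩ := hsurj z (Finset.mem_erase.2 ⟨hzx, hz⟩)
        exact hg3.1 i
    have h3 : Irr G (Fin.snoc (Fin.snoc f y : Fin (_ + 1) → Ω) x : Fin (_ + 1 + 1) → Ω) := by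
      rw [irr_snoc]
      exact ⟨hfy, g, hg1, hgx⟩
    have h4 : ∀ k : G, ((∀ i, k • f i = f i) ∧ k • x = x) → k = 1 := by
      rintro k ⟨h5, h6⟩
      apply hB.1
      intro z hz
      by_cases hzx : z = x
      · rw [hzx]; exact h6
      · obtain ⟨i, rfl⟩ := hsurj z (Finset.mem_erase.2 ⟨hzx, hz⟩)
        exact h5 i
    have h5 : Bas G (Fin.snoc (Fin.snoc f y : Fin (_ + 1) → Ω) x : Fin (_ + 1 + 1) → Ω) := by
      intro k hk
      rw [fix_snoc, fix_snoc] at hk
      exact h4 k ⟨hk.1.1, hk.2⟩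
    obtain ⟨k', hk'1, hk'2⟩ := R' hR _ ⟨h5, h3⟩ (Fin.last _).castSucc
    rw [Fin.snoc_castSucc, Fin.snoc_last] at hk'2
    apply hk'2
    have : k' = 1 := by
      apply h4
      constructor
      · intro i
        have := hk'1 i.castSucc.castSucc (by
          intro h
          have := Fin.castSucc_injective _ h
          exact absurd this (ne_of_lt (Fin.castSucc_lt_last i)))
        rwa [Fin.snoc_castSucc, Fin.snoc_castSucc] at this
      · have := hk'1 (Fin.last _) (ne_of_gt (Fin.castSucc_lt_last _))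
        rwa [Fin.snoc_last] at this
    rw [this, one_smul]
  obtain ⟨h1, h2⟩ := MB_of hR _ ⟨hbase, hfy⟩
  have himg : Finset.univ.image (Fin.snoc f y : Fin (_ + 1) → Ω) = insert y (B.erase x) := by
    ext z
    rw [Finset.mem_image, Finset.mem_insert]
    constructor
    · rintro ⟨i, _, rfl⟩
      induction i using Fin.lastCases with
      | last => left; rw [Fin.snoc_last]
      | cast i => right; rw [Fin.snoc_castSucc]; exact hmem i
    · rintro (rfl | h)
      · exact ⟨Fin.last _, Finset.mem_univ _, Fin.snoc_last _ _⟩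
      · obtain ⟨i, rfl⟩ := hsurj z h
        exact ⟨i.castSucc, Finset.mem_univ _, Fin.snoc_castSucc _ _ _⟩
  rw [himg] at h1 h2
  refine ⟨h1, h2.trans ?_⟩
  exact Finset.card_erase_add_one hx

theorem same_card (hR : R G Ω) (n : ℕ) (B B' : Finset Ω) (hB : MB G B) (hB' : MB G B')
    (hn : (B \ B').card = n) : B.card = B'.card := by
  induction n using Nat.strong_induction_on generalizing B with
  | _ n ih =>
    by_cases hsub : B ⊆ B'
    · by_cases hsub2 : B' ⊆ B
      · rw [Finset.Subset.antisymm hsub hsub2]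
      · exfalso
        obtain ⟨z, hz1, hz2⟩ := Finset.not_subset.1 hsub2
        obtain ⟨g, h1, h2⟩ := hB'.2 z hz1
        have : g = 1 := hB.1 g (fun w hw => h1 w (hsub hw) (fun h => hz2 (h ▸ hw)))
        rw [this, one_smul] at h2
        exact h2 rfl
    · obtain ⟨x, hx1, hx2⟩ := Finset.not_subset.1 hsub
      obtain ⟨g, h1, h2⟩ := hB.2 x hx1
      have hy : ∃ y ∈ B', g • y ≠ y := by
        by_contra hcon
        push Not at hcon
        have : g = 1 := hB'.1 g hcon
        rw [this, one_smul] at h2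
        exact h2 rfl
      obtain ⟨y, hy1, hy2⟩ := hy
      have hyx : y ≠ x := fun h => hx2 (h ▸ hy1)
      obtain ⟨h3, h4⟩ := exchange hR hB hx1 ⟨g, h1, hy2⟩
      rw [← h4]
      refine ih _ ?_ _ h3 rfl
      rw [← hn]
      apply Finset.card_lt_card
      rw [Finset.ssubset_iff_subset_ne]
      constructor
      · intro z hz
        rw [Finset.mem_sdiff, Finset.mem_insert, Finset.mem_erase] at hz
        rcases hz.1 with rfl | h
        · exact absurd hy1 hz.2
        · exact Finset.mem_sdiff.2 ⟨h.2, hz.2⟩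
      · intro he
        have h5 : x ∈ B \ B' := Finset.mem_sdiff.2 ⟨hx1, hx2⟩
        rw [← he, Finset.mem_sdiff, Finset.mem_insert, Finset.mem_erase] at h5
        rcases h5.1 with h | h
        · exact hyx h.symm
        · exact h.1 rfl

/-- Let a finite group G act on a finite set Ω. An irredundant base is a sequence of points ω₁, …, ω_t whose pointwise stabiliser is trivial and in which each ω_i is moved by some element fixing ω₁, …, ω_{i−1}. Then all irredundant bases have the same length if and only if every reordering of an irredundant base is again an irredundant base. -/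
theorem result {G Ω : Type*} [Group G] [Finite G] [MulAction G Ω] [Fintype Ω] :
    (∀ (t t' : ℕ) (f : Fin t → Ω) (f' : Fin t' → Ω), ((∀ g : G, (∀ i : Fin t, g • f i = f i) → g = 1) ∧ ∀ i : Fin t, ∃ g : G, (∀ j : Fin t, j < i → g • f j = f j) ∧ g • f i ≠ f i) → ((∀ g : G, (∀ i : Fin t', g • f' i = f' i) → g = 1) ∧ ∀ i : Fin t', ∃ g : G, (∀ j : Fin t', j < i → g • f' j = f' j) ∧ g • f' i ≠ f' i) → t = t') ↔
    (∀ (t : ℕ) (f : Fin t → Ω) (σ : Equiv.Perm (Fin t)), ((∀ g : G, (∀ i : Fin t, g • f i = f i) → g = 1) ∧ ∀ i : Fin t, ∃ g : G, (∀ j : Fin t, j < i → g • f j = f j) ∧ g • f i ≠ f i) → ((∀ g : G, (∀ i : Fin t, g • (f ∘ σ) i = (f ∘ σ) i) → g = 1) ∧ ∀ i : Fin t, ∃ g : G, (∀ j : Fin t, j < i → g • (f ∘ σ) j = (f ∘ σ) j) ∧ g • (f ∘ σ) i ≠ (f ∘ σ) i)) := by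
  classical
  constructor
  · intro h t f σ hf
    have hbas : Bas G (f ∘ σ) := by
      intro g hg
      apply hf.1
      intro i
      have := hg (σ.symm i)
      simpa using this
    refine ⟨hbas, ?_⟩
    obtain ⟨t', h', hle, hirr, hfix, heq⟩ := drop (G := G) t (f ∘ σ)
    apply heq
    refine (h t t' f h' hf ⟨fun g hg => hbas g ((hfix g).2 hg), hirr⟩).symm
  · intro hR t t' f f' hf hf'
    obtain ⟨h1, h2⟩ := MB_of (G := G) hR f hf
    obtain ⟨h3, h4⟩ := MB_of (G := G) hR f' hf'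
    rw [← h2, ← h4]
    exact same_card hR _ _ _ h1 h3 rfl

end Cfsg.Agent.S5747
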