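import Cfsg.Statements.S5752
import Cfsg.Agent.H17_TW5

set_option autoImplicit false
open Cfsg

namespace Cfsg.Agent.S5752

open Subgroup Cfsg.Agent.H17.TW Cfsg.Agent.H22.PrimPair

theorem core_eq {G : Type*} [Group G] {M K : Subgroup G} (hK : K ≤ M) :
    (K.subgroupOf M).normalCore.map M.subtype = core M K := by
  rw [← core_subgroupOf, map_subgroupOf_eq_of_le ((core_le M K).trans hK)]

theorem gf_normal {H : Type*} [Group H] [Finite H] {p : ℕ} (h : Cfsg.generalizedFittingSubgroup H = Cfsg.pCore p H)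
    (S : Subgroup H) [hS : S.Normal] : Cfsg.generalizedFittingSubgroup S = Cfsg.pCore p S := by
  apply Subgroup.map_injective S.subtype_injective
  rw [H11.FStar.map_generalizedFitting_of_normal, H11.Cores.map_pCore_of_isSubnormal (p := p) hS.isSubnormal, h]

theorem gf_sub {G : Type*} [Group G] [Finite G] {M S : Subgroup G} {p : ℕ}
    (h : Cfsg.generalizedFittingSubgroup M = Cfsg.pCore p M) (hSM : S ≤ M) (hn : M ≤ normalizer (S : Set G)) :
    Cfsg.generalizedFittingSubgroup S = Cfsg.pCore p S := by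
  have : (S.subgroupOf M).Normal := (normal_subgroupOf_iff_le_normalizer hSM).mpr hn
  have h1 := gf_normal h (S.subgroupOf M)
  have e := subgroupOfEquivOfLe hSM
  have h2 := H11.FStar.map_equiv_generalizedFitting e
  have h3 := H11.Cores.map_equiv_pCore (p := p) e
  rw [← h2, ← h3, h1]

theorem coatom_conj {G : Type*} [Group G] {M : Subgroup G} (h : IsCoatom M) (g : G) :
    IsCoatom (M.map (MulAut.conj g).toMonoidHom) := by
  have := (OrderIso.isCoatom_iff (MulEquiv.mapSubgroup (MulAut.conj g)) M).mpr h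
  exact this

theorem n_of {G : Type*} [Group G] {M : Subgroup G} (hmax : IsCoatom M) (hcore : ∀ N : Subgroup G, N.Normal → N ≤ M → N = ⊥) :
    ∀ N : Subgroup G, N ≠ ⊥ → N ≤ M → M ≤ normalizer (N : Set G) → normalizer (N : Set G) ≤ M := by
  intro N hN0 hNM hn
  rcases hmax.le_iff.mp hn with h | h
  · exfalso
    exact hN0 (hcore N (Subgroup.normalizer_eq_top_iff.mp h) hNM)
  · exact h.le

/-- A form of the Thompson–Wielandt Theorem on primitive permutation groups. Let G be a finite group and M₁, M₂ two distinct conjugate maximal subgroups of G with trivial core in G; define two descending sequences of subgroups by A₀ = M₁, B₀ = M₂ and, for every i, A_{i+1} = the core in M₁ of A_i ∩ B_i and B_{i+1} = the core in M₂ of A_i ∩ B_i (the core in M of a subgroup Y ≤ M is the largest normal subgroup of M contained in Y). If A₂ and B₂ are both non-trivial, then for some prime p the subgroup generated by A₂ and B₂ is a p-group, and for each j the generalized Fitting subgroups of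 M_j and of its first core (A₁, resp. B₁) are their largest normal p-subgroups. -/
theorem result {G : Type*} [Group G] [Finite G] (M₁ M₂ : Subgroup G) (hmax : IsCoatom M₁) (g : G)
    (hconj : M₂ = M₁.map (MulAut.conj g).toMonoidHom) (hne : M₁ ≠ M₂) (hcore : M₁.normalCore = ⊥)
    (A B : ℕ → Subgroup G) (hA0 : A 0 = M₁) (hB0 : B 0 = M₂)
    (hA : ∀ i, A (i + 1) = ((A i ⊓ B i).subgroupOf M₁).normalCore.map M₁.subtype)
    (hB : ∀ i, B (i + 1) = ((A i ⊓ B i).subgroupOf M₂).normalCore.map M₂.subtype) (hA2 : A 2 ≠ ⊥) (hB2 : B 2 ≠ ⊥) :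
    ∃ p : ℕ, p.Prime ∧ IsPGroup p ↥(A 2 ⊔ B 2) ∧
      Cfsg.generalizedFittingSubgroup ↥M₁ = Cfsg.pCore p ↥M₁ ∧ Cfsg.generalizedFittingSubgroup ↥(A 1) = Cfsg.pCore p ↥(A 1) ∧
      Cfsg.generalizedFittingSubgroup ↥M₂ = Cfsg.pCore p ↥M₂ ∧ Cfsg.generalizedFittingSubgroup ↥(B 1) = Cfsg.pCore p ↥(B 1) := by
  have hcore1 : ∀ N : Subgroup G, N.Normal → N ≤ M₁ → N = ⊥ := by
    intro N hN hNM
    rw [eq_bot_iff, ← hcore]
    have := hN
    exact Subgroup.normal_le_normalCore.mpr hNM
  have hcore2 : ∀ N : Subgroup G, N.Normal → N ≤ M₂ → N = ⊥ := by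
    intro N hN hNM
    apply hcore1 N hN
    intro x hx
    have h1 := hN.conj_mem x hx g
    have h2 := hNM h1
    rw [hconj] at h2
    obtain ⟨y, hy, hyx⟩ := h2
    have : y = x := (MulAut.conj g).injective hyx
    rw [← this]; exact hy
  have hmax2 : IsCoatom M₂ := by rw [hconj]; exact coatom_conj hmax g
  have hn1 := n_of hmax hcore1
  have hn2 := n_of hmax2 hcore2
  have eA1 : A 1 = core M₁ (M₁ ⊓ M₂) := by
    rw [hA 0, hA0, hB0, core_eq inf_le_left]
  have eB1 : B 1 = core M₂ (M₁ ⊓ M₂) := by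
    rw [hB 0, hA0, hB0, core_eq inf_le_right]
  have hA1M1 : A 1 ≤ M₁ := by rw [eA1]; exact (core_le _ _).trans inf_le_left
  have hB1M2 : B 1 ≤ M₂ := by rw [eB1]; exact (core_le _ _).trans inf_le_right
  have eA2 : A 2 = core M₁ (A 1 ⊓ B 1) := by
    rw [hA 1, core_eq (inf_le_left.trans hA1M1)]
  have eB2 : B 2 = core M₂ (A 1 ⊓ B 1) := by
    rw [hB 1, core_eq (inf_le_right.trans hB1M2)]
  have hC : Cfg M₁ M₂ (A 1) (B 1) (A 2) (B 2) :=
    { n1 := hn1
      n2 := hn2
      hA := by rw [eA1]; exact core_le _ _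
      hAn := by rw [eA1]; exact le_normalizer_core _ _
      hB := by rw [eB1]; exact core_le _ _
      hBn := by rw [eB1]; exact le_normalizer_core _ _
      hX := by rw [eA2]; exact core_le _ _
      hXn := by rw [eA2]; exact le_normalizer_core _ _
      hY := by rw [eB2]; exact core_le _ _
      hYn := by rw [eB2]; exact le_normalizer_core _ _
      hX0 := hA2
      hY0 := hB2 }
  have e : M₁ ≃* M₂ := (M₁.equivMapOfInjective (MulAut.conj g).toMonoidHom (MulAut.conj g).injective).trans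
    (MulEquiv.subgroupCongr hconj.symm)
  obtain ⟨p, hp, h1, h2, h3, h4⟩ := hC.full hne e
  have : Fact p.Prime := ⟨hp⟩
  have g1 := gf_eq_of_FS h1
  have g2 := gf_eq_of_FS h2
  refine ⟨p, hp, ?_, g1, gf_sub g1 hA1M1 hC.hAn, g2, gf_sub g2 hB1M2 hC.hBn⟩
  exact h3.to_sup_of_normal_left' h4 (hC.symm.X_le_M₂.trans hC.hXn)

end Cfsg.Agent.S5752
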