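import Cfsg.Statements.S5754
import Cfsg.Agent.H16_Quad1

set_option autoImplicit false
open Cfsg

namespace Cfsg.Agent.S5754

open Module
open QuadraticMap (polar)

variable {F V : Type*} [Field F] [AddCommGroup V] [Module F V]

theorem sum_eq {ι : Type*} [DecidableEq ι] (Q : QuadraticForm F V) (v w : ι → V) (h1 : ∀ i, Q (v i) = Q (w i))
    (h2 : ∀ i j, polar Q (v i) (v j) = polar Q (w i) (w j)) (a : ι → F) (s : Finset ι) :
    Q (∑ i ∈ s, a i • v i) = Q (∑ i ∈ s, a i • w i) := by
  induction s using Finset.induction_on with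
  | empty => simp
  | insert k s hk ih =>
    rw [Finset.sum_insert hk, Finset.sum_insert hk, H16.Quad.map_add, H16.Quad.map_add, ih,
      H16.Quad.map_smul, H16.Quad.map_smul, h1 k]
    congr 1
    rw [← H16.Quad.polarBilin_apply, ← H16.Quad.polarBilin_apply, map_sum, map_sum]
    apply Finset.sum_congr rfl
    intro i _
    rw [H16.Quad.polarBilin_apply, H16.Quad.polarBilin_apply, H16.Quad.polar_smul_left,
      H16.Quad.polar_smul_left, H16.Quad.polar_smul_right, H16.Quad.polar_smul_right, h2]

/-- Let V be a finite-dimensional vector space over a finite field F carrying an anisotropic quadratic form Q (Q(v) = 0 only for v = 0). Then the group of all maps v ↦ φ(v) + c, with φ an isometry of Q and c ∈ V, acts on V as a binary permutation group: given n ≥ 2 and two n-tuples u, u' of vectors such that every pair of corresponding entries of u is carried to that of u' by such a map, one such map carries u to u'. -/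
theorem result {F V : Type*} [Field F] [Finite F] [AddCommGroup V] [Module F V] [Module.Finite F V]
    (Q : QuadraticForm F V) (hQ : Q.Anisotropic) (n : ℕ) (hn : 2 ≤ n) (u u' : Fin n → V)
    (h2 : ∀ i j : Fin n, i ≠ j → ∃ (φ : Q.IsometryEquiv Q) (c : V), φ (u i) + c = u' i ∧ φ (u j) + c = u' j) :
    ∃ (φ : Q.IsometryEquiv Q) (c : V), ∀ i, φ (u i) + c = u' i := by
  classical
  haveI : Fintype F := Fintype.ofFinite F
  obtain ⟨i0, hi0⟩ : ∃ i0 : Fin n, i0 = ⟨0, by omega⟩ := ⟨_, rfl⟩
  -- pairwise distances agree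
  have hdist : ∀ i j, Q (u i - u j) = Q (u' i - u' j) := by
    intro i j
    by_cases hij : i = j
    · rw [hij]; simp
    · obtain ⟨φ, c, h1, h2⟩ := h2 i j hij
      rw [← h1, ← h2, add_sub_add_right_eq_sub, ← map_sub]
      exact (φ.map_app _).symm
  obtain ⟨v, hv⟩ : ∃ v : Fin n → V, v = fun i => u i - u i0 := ⟨_, rfl⟩
  obtain ⟨w, hw⟩ : ∃ w : Fin n → V, w = fun i => u' i - u' i0 := ⟨_, rfl⟩
  have hQ1 : ∀ i, Q (v i) = Q (w i) := fun i => by rw [hv, hw]; exact hdist i i0
  have hsub : ∀ i j, Q (v i - v j) = Q (w i - w j) := fun i j => by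
    rw [hv, hw]
    simp only [sub_sub_sub_cancel_right]
    exact hdist i j
  have hpol : ∀ i j, polar Q (v i) (v j) = polar Q (w i) (w j) := by
    intro i j
    have h3 := hsub i j
    rw [H16.Quad.map_sub, H16.Quad.map_sub, hQ1 i, hQ1 j] at h3
    exact sub_right_injective h3
  suffices hs : ∃ φ : Q.IsometryEquiv Q, ∀ i, φ (v i) = w i by
    obtain ⟨φ, hφ⟩ := hs
    refine ⟨φ, u' i0 - φ (u i0), fun i => ?_⟩
    have h3 := hφ i
    rw [hv, hw] at h3
    simp only at h3
    rw [map_sub] at h3
    rw [← add_sub_assoc, add_sub_right_comm, h3, sub_add_cancel]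
  by_cases hnd : (QuadraticMap.polarBilin Q).Nondegenerate
  · -- Witt
    let A : (Fin n → F) →ₗ[F] V := Fintype.linearCombination F v
    let B : (Fin n → F) →ₗ[F] V := Fintype.linearCombination F w
    have hA : ∀ a, A a = ∑ i, a i • v i := fun a => Fintype.linearCombination_apply F v a
    have hB : ∀ a, B a = ∑ i, a i • w i := fun a => Fintype.linearCombination_apply F w a
    have hAB : ∀ a, Q (A a) = Q (B a) := fun a => by
      rw [hA, hB]; exact sum_eq Q v w hQ1 hpol a Finset.univ
    have hker : LinearMap.ker A ≤ LinearMap.ker B := by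
      intro a ha
      rw [LinearMap.mem_ker] at ha ⊢
      apply hQ
      rw [← hAB, ha, QuadraticMap.map_zero]
    let σ : LinearMap.range A →ₗ[F] V := ((LinearMap.ker A).liftQ B hker).comp A.quotKerEquivRange.symm.toLinearMap
    have hσ : ∀ a, σ ⟨A a, ⟨a, rfl⟩⟩ = B a := by
      intro a
      show ((LinearMap.ker A).liftQ B hker) (A.quotKerEquivRange.symm ⟨A a, ⟨a, rfl⟩⟩) = B a
      have : A.quotKerEquivRange.symm ⟨A a, ⟨a, rfl⟩⟩ = (LinearMap.ker A).mkQ a := by
        rw [LinearEquiv.symm_apply_eq]
        rfl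
      rw [this]
      rfl
    have hσQ : ∀ x : LinearMap.range A, Q (σ x) = Q x := by
      rintro ⟨_, a, rfl⟩
      rw [hσ]; exact (hAB a).symm
    have hσinj : Function.Injective σ := by
      rw [← LinearMap.ker_eq_bot, Submodule.eq_bot_iff]
      intro x hx
      rw [LinearMap.mem_ker] at hx
      have h3 := hσQ x
      rw [hx, QuadraticMap.map_zero] at h3
      exact Subtype.ext (hQ _ h3.symm)
    obtain ⟨g, hg, hg2⟩ := H16.Quad.witt_ext hnd _ σ hσinj hσQ
    refine ⟨⟨g, fun m => hg m⟩, fun i => ?_⟩
    have h4 : A (Pi.single i 1) = v i := by rw [hA]; simp [Pi.single_apply, ite_smul]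
    have h5 : B (Pi.single i 1) = w i := by rw [hB]; simp [Pi.single_apply, ite_smul]
    have h3 := hg2 ⟨A (Pi.single i 1), ⟨_, rfl⟩⟩
    rw [hσ] at h3
    simp only [h4, h5] at h3
    exact h3
  · -- degenerate polar form: V is one-dimensional in characteristic two
    have hrad : ∃ r : V, r ≠ 0 ∧ ∀ x, polar Q r x = 0 := by
      by_contra hcon
      push Not at hcon
      apply hnd
      refine H16.Quad.nd_of (fun x hx => ?_)
      by_contra hne
      obtain ⟨y, hy⟩ := hcon x hne
      exact hy (hx y)
    obtain ⟨r, hr, hrx⟩ := hrad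
    have h2 : (2 : F) = 0 := by
      have h3 := hrx r
      rw [H16.Quad.polar_self] at h3
      rcases mul_eq_zero.1 h3 with h | h
      · exact h
      · exact absurd (hQ r h) hr
    haveI : CharP F 2 := CharTwo.of_one_ne_zero_of_two_eq_zero one_ne_zero h2
    have hc : Q r ≠ 0 := fun h => hr (hQ r h)
    -- every vector is a multiple of r
    have hall : ∀ x : V, ∃ b : F, x = b • r := by
      intro x
      obtain ⟨b, hb⟩ : ∃ b : F, b * b = Q x / Q r := by
        obtain ⟨b, hb⟩ := FiniteField.isSquare_of_char_two (ringChar.eq F 2) (Q x / Q r)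
        exact ⟨b, hb.symm⟩
      refine ⟨b, ?_⟩
      have h3 : Q (x - b • r) = 0 := by
        rw [H16.Quad.map_sub, H16.Quad.map_smul, hb, H16.Quad.polar_smul_right, H16.Quad.polar_symm, hrx,
          div_mul_cancel₀ _ hc, mul_zero, sub_zero]
        exact CharTwo.add_self_eq_zero _
      exact sub_eq_zero.1 (hQ _ h3)
    have hinj : ∀ x y : V, Q x = Q y → x = y := by
      intro x y hxy
      obtain ⟨b, rfl⟩ := hall x
      obtain ⟨b', rfl⟩ := hall y
      rw [H16.Quad.map_smul, H16.Quad.map_smul] at hxy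
      have h3 := mul_right_cancel₀ hc hxy
      have h4 : (b + b') * (b + b') = 0 := by
        have : (b + b') * (b + b') = (b * b + b' * b') + (2 : F) * (b * b') := by ring
        rw [this, h3, h2, zero_mul, add_zero]
        exact CharTwo.add_self_eq_zero _
      have h5 := mul_self_eq_zero.1 h4
      rw [CharTwo.add_eq_zero.1 h5]
    refine ⟨QuadraticMap.IsometryEquiv.refl Q, fun i => ?_⟩
    exact hinj _ _ (hQ1 i)

end Cfsg.Agent.S5754
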