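import Cfsg.Statements.S5885
import Mathlib

set_option autoImplicit false
open Cfsg

namespace Cfsg.Agent.S5885

open MulAction Subgroup
open scoped Pointwise

theorem three {G : Type*} [Group G] [Finite G] (n : ℕ)
    (hA : ∀ P : Subgroup (Equiv.Perm (Fin n)), MulAction.IsPreprimitive P (Fin n) →
      alternatingGroup (Fin n) ≤ P)
    (M : Subgroup G) (hM : IsCoatom M) (hn : M.index = n) (x y z : G ⧸ M) (hxy : x ≠ y)
    (hyz : y ≠ z) (hxz : x ≠ z) :
    ∃ g : G, g • x = y ∧ g • y = z ∧ g • z = x ∧ ∀ w, w ≠ x → w ≠ y → w ≠ z → g • w = w := by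
  classical
  haveI : Fintype (G ⧸ M) := Fintype.ofFinite _
  have hcard : Nat.card (G ⧸ M) = n := hn
  have e : (G ⧸ M) ≃ Fin n := by
    subst hn
    exact Finite.equivFinOfCardEq hcard
  haveI : Nontrivial (G ⧸ M) := ⟨⟨x, y, hxy⟩⟩
  haveI : IsPreprimitive G (G ⧸ M) := by
    rw [← isCoatom_stabilizer_iff_preprimitive G (QuotientGroup.mk (1 : G) : G ⧸ M)]
    have : stabilizer G (QuotientGroup.mk (1 : G) : G ⧸ M) = M := by
      exact MulAction.stabilizer_quotient M
    rw [this]
    exact hM
  let ρ : G →* Equiv.Perm (Fin n) :=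
    (e.permCongrHom.toMonoidHom).comp (MulAction.toPermHom G (G ⧸ M))
  let φ : G → ρ.range := fun g => ⟨ρ g, ⟨g, rfl⟩⟩
  let f : (G ⧸ M) →ₑ[φ] Fin n :=
    { toFun := e
      map_smul' := by
        intro g w
        change e (g • w) = ρ g (e w)
        simp [ρ, Equiv.permCongrHom, MulAction.toPermHom_apply] }
  have hprim : IsPreprimitive ρ.range (Fin n) := IsPreprimitive.of_surjective (f := f) e.surjective
  have hle := hA _ hprim
  have hmem : e.permCongr (Equiv.swap x y * Equiv.swap y z) ∈ alternatingGroup (Fin n) := by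
    rw [Equiv.Perm.mem_alternatingGroup, Equiv.Perm.sign_permCongr, Equiv.Perm.sign_mul,
      Equiv.Perm.sign_swap hxy, Equiv.Perm.sign_swap hyz]
    decide
  obtain ⟨g, hg⟩ := hle hmem
  have key : ∀ w, g • w = Equiv.swap x y (Equiv.swap y z w) := by
    intro w
    have h1 : ρ g (e w) = e (g • w) := (f.map_smul' g w).symm
    have h2 : e.permCongr (Equiv.swap x y * Equiv.swap y z) (e w)
        = e (Equiv.swap x y (Equiv.swap y z w)) := by
      simp [Equiv.permCongr_apply]
    rw [hg, h2] at h1
    exact (e.injective h1).symm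
  refine ⟨g, ?_, ?_, ?_, ?_⟩
  · rw [key, Equiv.swap_apply_of_ne_of_ne hxy hxz, Equiv.swap_apply_left]
  · rw [key, Equiv.swap_apply_left, Equiv.swap_apply_of_ne_of_ne hxz.symm hyz.symm]
  · rw [key, Equiv.swap_apply_right, Equiv.swap_apply_right]
  · intro w h1 h2 h3
    rw [key, Equiv.swap_apply_of_ne_of_ne h2 h3, Equiv.swap_apply_of_ne_of_ne h1 h2]

theorem core {G : Type*} [Group G]
    [Finite G] (n : ℕ) (hodd : Odd n)
    (hA : ∀ P : Subgroup (Equiv.Perm (Fin n)), MulAction.IsPreprimitive P (Fin n) →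
      alternatingGroup (Fin n) ≤ P)
    (M : Subgroup G) (hM : IsCoatom M) (hn : M.index = n) (H : Subgroup G) (hHM : H ≤ M)
    (hmax : ∀ Y : Subgroup G, H ≤ Y → Y ≤ M → Y = H ∨ Y = M) (hHne : H ≠ M)
    (K : Subgroup G) (hK : IsCoatom K) (hHK : H ≤ K) (L : Subgroup G) (hHL : H < L) (hLK : L < K) :
    False := by
  classical
  haveI : Fintype (G ⧸ M) := Fintype.ofFinite _
  -- K is not M
  have hKM : K ≠ M := by
    rintro rfl
    rcases hmax L hHL.le hLK.le with h | h
    · exact hHL.ne h.symm
    · exact hLK.ne h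
  have hint : K ⊓ M = H := by
    rcases hmax (K ⊓ M) (le_inf hHK hHM) inf_le_right with h | h
    · exact h
    · exfalso
      have : M ≤ K := by rw [← h]; exact inf_le_left
      rcases this.lt_or_eq with h' | h'
      · exact hK.1 (hM.2 _ h')
      · exact hKM h'.symm
  set a : G ⧸ M := QuotientGroup.mk (1 : G) with ha
  have hst : ∀ g : G, g • a = a ↔ g ∈ M := by
    intro g
    rw [← mem_stabilizer_iff, ha, MulAction.stabilizer_quotient M]
  let B : Set (G ⧸ M) := {w | ∃ l ∈ L, l • a = w}
  have haB : a ∈ B := ⟨1, L.one_mem, one_smul _ _⟩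
  have hBL : ∀ l ∈ L, ∀ b ∈ B, l • b ∈ B := by
    rintro l hl _ ⟨l', hl', rfl⟩
    exact ⟨l * l', L.mul_mem hl hl', mul_smul _ _ _⟩
  have hblock : ∀ k ∈ K, ∀ b ∈ B, k • b ∈ B → k ∈ L := by
    rintro k hk _ ⟨l, hl, rfl⟩ ⟨l', hl', h⟩
    have h1 : l'⁻¹ * (k * l) ∈ H := by
      rw [← hint]
      refine ⟨K.mul_mem (K.inv_mem (hLK.le hl')) (K.mul_mem hk (hLK.le hl)), ?_⟩
      show l'⁻¹ * (k * l) ∈ M
      rw [← hst, mul_smul, mul_smul, ← h, inv_smul_smul]
    have h2 : k = l' * (l'⁻¹ * (k * l)) * l⁻¹ := by group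
    rw [h2]
    exact L.mul_mem (L.mul_mem hl' (hHL.le h1)) (L.inv_mem hl)
  -- cardinalities
  have hcardorb : ∀ Q : Subgroup G, H ≤ Q → Q ≤ K →
      Nat.card (MulAction.orbit Q a) = H.relIndex Q := by
    intro Q hHQ hQK
    have h1 : (stabilizer Q a).index = (MulAction.orbit Q a).ncard := MulAction.index_stabilizer Q a
    have h2 : stabilizer Q a = H.subgroupOf Q := by
      ext q
      rw [mem_stabilizer_iff, mem_subgroupOf]
      have : q • a = (q : G) • a := rfl
      rw [this, hst, ← hint]
      exact ⟨fun h => ⟨hQK q.2, h⟩, fun h => h.2⟩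
    rw [relIndex, ← h2, h1]
    rfl
  have hBorb : B = MulAction.orbit L a := by
    ext w
    constructor
    · rintro ⟨l, hl, rfl⟩
      exact ⟨⟨l, hl⟩, rfl⟩
    · rintro ⟨⟨l, hl⟩, rfl⟩
      exact ⟨l, hl, rfl⟩
  have hBcard : B.ncard = H.relIndex L := by
    rw [hBorb]
    exact hcardorb L hHL.le hLK.le
  have hm2 : 2 ≤ H.relIndex L := by
    have h0 : H.relIndex L ≠ 0 := by
      rw [relIndex]
      exact index_ne_zero_of_finite
    have h1 : H.relIndex L ≠ 1 := by
      rw [Ne, relIndex_eq_one]
      exact not_le_of_gt hHL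
    omega
  have hr2 : 2 ≤ L.relIndex K := by
    have h0 : L.relIndex K ≠ 0 := by
      rw [relIndex]
      exact index_ne_zero_of_finite
    have h1 : L.relIndex K ≠ 1 := by
      rw [Ne, relIndex_eq_one]
      exact not_le_of_gt hLK
    omega
  have hmul : H.relIndex L * L.relIndex K = H.relIndex K := relIndex_mul_relIndex H L K hHL.le hLK.le
  obtain ⟨b, hbB, hba⟩ : ∃ b ∈ B, b ≠ a := by
    have : 1 < B.ncard := by omega
    exact Set.exists_ne_of_one_lt_ncard this a
  let Δ : Set (G ⧸ M) := MulAction.orbit K a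
  have hΔcard : Δ.ncard = H.relIndex K := hcardorb K hHK le_rfl
  have hBΔ : B ⊆ Δ := by
    rintro _ ⟨l, hl, rfl⟩
    exact ⟨⟨l, hLK.le hl⟩, rfl⟩
  have hlt : B.ncard < Δ.ncard := by
    rw [hBcard, hΔcard, ← hmul]
    nlinarith
  have h4 : 4 ≤ Δ.ncard := by
    rw [hΔcard, ← hmul]
    nlinarith
  obtain ⟨c, hcΔ, hcB⟩ : ∃ c ∈ Δ, c ∉ B := by
    by_contra hcon
    push Not at hcon
    have : Δ.ncard ≤ B.ncard := Set.ncard_le_ncard hcon (Set.toFinite _)
    omega
  have hca : c ≠ a := fun h => hcB (h ▸ haB)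
  have hbc : b ≠ c := fun h => hcB (h ▸ hbB)
  obtain ⟨d, hdΔ, hda, hdb, hdc⟩ : ∃ d ∈ Δ, d ≠ a ∧ d ≠ b ∧ d ≠ c := by
    by_contra hcon
    push Not at hcon
    have hsub : Δ ⊆ ({a, b, c} : Set (G ⧸ M)) := by
      intro d hd
      by_cases h1 : d = a
      · simp [h1]
      by_cases h2 : d = b
      · simp [h2]
      have := hcon d hd h1 h2
      simp [this]
    have h5 : Δ.ncard ≤ ({a, b, c} : Set (G ⧸ M)).ncard := Set.ncard_le_ncard hsub (Set.toFinite _)
    have h6 : ({a, b, c} : Set (G ⧸ M)).ncard ≤ 3 := by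
      calc ({a, b, c} : Set (G ⧸ M)).ncard ≤ ({b, c} : Set (G ⧸ M)).ncard + 1 :=
            Set.ncard_insert_le _ _
        _ ≤ (({c} : Set (G ⧸ M)).ncard + 1) + 1 := by
            gcongr
            exact Set.ncard_insert_le _ _
        _ = 3 := by rw [Set.ncard_singleton]
    omega
  obtain ⟨g, hg1, hg2, hg3, hg4⟩ := three n hA M hM hn b c d hbc hdc.symm hdb.symm
  have hga : g • a = a := hg4 a hba.symm hca.symm hda.symm
  have hgM : g ∈ M := (hst g).1 hga
  by_cases htrans : Δ = Set.univ
  · -- transitive case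
    have hnK : n = H.relIndex K := by
      rw [← hΔcard, htrans, Set.ncard_univ, ← hn]
      rfl
    have hr3 : 3 ≤ L.relIndex K := by
      have hne : L.relIndex K ≠ 2 := by
        intro h
        rw [hnK, ← hmul, h] at hodd
        exact (Nat.not_odd_iff_even.2 (even_iff_two_dvd.2 (dvd_mul_left _ _))) hodd
      omega
    let Y : Subgroup G := M ⊓ stabilizer G B
    have hBst : ∀ g : G, g ∈ stabilizer G B ↔ ∀ w, g • w ∈ B ↔ w ∈ B := by
      intro g
      rw [mem_stabilizer_iff]
      constructor
      · intro h w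
        conv_lhs => rw [← h]
        exact Set.smul_mem_smul_set_iff
      · intro h
        ext w
        rw [Set.mem_smul_set_iff_inv_smul_mem, ← h (g⁻¹ • w), smul_inv_smul]
    have hHY : H ≤ Y := by
      intro h hh
      refine ⟨hHM hh, ?_⟩
      show h ∈ stabilizer G B
      rw [hBst]
      intro w
      constructor
      · intro hw
        have := hBL h⁻¹ (L.inv_mem (hHL.le hh)) _ hw
        rwa [inv_smul_smul] at this
      · intro hw
        exact hBL h (hHL.le hh) _ hw
    rcases hmax Y hHY inf_le_left with hY | hY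
    · -- Y = H
      obtain ⟨⟨k1, hk1⟩, hk1a⟩ := hcΔ
      have hk1a : k1 • a = c := hk1a
      let B1 : Set (G ⧸ M) := {w | k1⁻¹ • w ∈ B}
      have hB1 : B1.ncard = B.ncard := by
        have : B1 = k1 • B := by
          ext w
          rw [Set.mem_smul_set_iff_inv_smul_mem]
          rfl
        rw [this]
        exact Set.ncard_image_of_injective _ (MulAction.injective k1)
      have hdisj : ∀ w ∈ B1, w ∉ B := by
        intro w hw hwB
        have h1 : k1 ∈ L := by
          apply hblock k1 hk1 (k1⁻¹ • w) hw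
          rwa [smul_inv_smul]
        exact hcB ⟨k1, h1, hk1a⟩
      obtain ⟨z, hz⟩ : ∃ z, z ∉ B ∪ B1 := by
        by_contra hcon
        push Not at hcon
        have h1 : (Set.univ : Set (G ⧸ M)).ncard ≤ (B ∪ B1).ncard :=
          Set.ncard_le_ncard (fun w _ => hcon w) (Set.toFinite _)
        have h2 : (B ∪ B1).ncard ≤ B.ncard + B1.ncard := Set.ncard_union_le _ _
        rw [← htrans, hΔcard, ← hmul] at h1
        rw [hB1, hBcard] at h2
        nlinarith
      have hzB : z ∉ B := fun h => hz (Or.inl h)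
      have hzB1 : z ∉ B1 := fun h => hz (Or.inr h)
      have hx : k1 • a ∈ B1 := by
        show k1⁻¹ • k1 • a ∈ B
        rwa [inv_smul_smul]
      have hy : k1 • b ∈ B1 := by
        show k1⁻¹ • k1 • b ∈ B
        rwa [inv_smul_smul]
      have hxy : k1 • a ≠ k1 • b := fun h => hba (MulAction.injective k1 h).symm
      have hyz : k1 • b ≠ z := fun h => hzB1 (h ▸ hy)
      have hxz : k1 • a ≠ z := fun h => hzB1 (h ▸ hx)
      obtain ⟨u, hu1, hu2, hu3, hu4⟩ := three n hA M hM hn _ _ _ hxy hyz hxz
      have hufix : ∀ w ∈ B, u • w = w := by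
        intro w hw
        apply hu4
        · rintro rfl; exact hdisj _ hx hw
        · rintro rfl; exact hdisj _ hy hw
        · rintro rfl; exact hzB hw
      have huY : u ∈ Y := by
        refine ⟨(hst u).1 (hufix a haB), ?_⟩
        show u ∈ stabilizer G B
        rw [mem_stabilizer_iff]
        ext w
        rw [Set.mem_smul_set]
        constructor
        · rintro ⟨v, hv, rfl⟩
          rwa [hufix v hv]
        · intro hw
          exact ⟨w, hw, hufix w hw⟩
      have huK : u ∈ K := hHK (hY ▸ huY)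
      have h5 : k1⁻¹ * u * k1 ∈ L := by
        apply hblock _ (K.mul_mem (K.mul_mem (K.inv_mem hk1) huK) hk1) a haB
        rw [mul_smul, mul_smul, hu1, inv_smul_smul]
        exact hbB
      have h6 := hBL _ h5 b hbB
      rw [mul_smul, mul_smul, hu2] at h6
      exact hzB1 h6
    · -- Y = M
      have : g ∈ Y := hY ▸ hgM
      have h1 := ((hBst g).1 this.2 b).2 hbB
      rw [hg1] at h1
      exact hcB h1
  · -- intransitive case
    have hKst : K ≤ stabilizer G Δ := by
      intro k hk
      rw [mem_stabilizer_iff]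
      exact MulAction.smul_orbit (⟨k, hk⟩ : K) a
    have hne : stabilizer G Δ ≠ ⊤ := by
      intro h
      apply htrans
      ext w
      simp only [Set.mem_univ, iff_true]
      obtain ⟨x, rfl⟩ := MulAction.exists_smul_eq G a w
      have hx : x ∈ stabilizer G Δ := h ▸ mem_top x
      rw [mem_stabilizer_iff] at hx
      rw [← hx]
      exact Set.smul_mem_smul_set (MulAction.mem_orbit_self a)
    have hKeq : stabilizer G Δ = K := by
      rcases hKst.lt_or_eq with h | h
      · exact absurd (hK.2 _ h) hne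
      · exact h.symm
    have hgK : g ∈ K := by
      rw [← hKeq, mem_stabilizer_iff]
      have h1 : ∀ w ∈ Δ, g • w ∈ Δ := by
        intro w hw
        by_cases h1 : w = b
        · rw [h1, hg1]; exact hcΔ
        by_cases h2 : w = c
        · rw [h2, hg2]; exact hdΔ
        by_cases h3 : w = d
        · rw [h3, hg3]; exact hBΔ hbB
        rw [hg4 w h1 h2 h3]
        exact hw
      have h2 : g • Δ ⊆ Δ := by
        rintro _ ⟨w, hw, rfl⟩
        exact h1 w hw
      refine Set.eq_of_subset_of_ncard_le h2 ?_ (Set.toFinite _)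
      exact le_of_eq (Set.ncard_image_of_injective _ (MulAction.injective g)).symm
    have hgH : g ∈ H := by rw [← hint]; exact ⟨hgK, hgM⟩
    have h1 := hBL g (hHL.le hgH) b hbB
    rw [hg1] at h1
    exact hcB h1

/-- Let n be an odd positive integer such that every primitive permutation group of degree n contains the alternating group (so the symmetric and alternating groups are the only primitive groups of degree n). Let G be a finite group, M a maximal subgroup of G of index n, and H a maximal subgroup of M. Then H is a second maximal subgroup of G: H is maximal in every maximal subgroup K of G containing H. -/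
theorem result {G : Type*} [Group G]
    [Finite G] (n : ℕ) (hodd : Odd n)
    (hA : ∀ P : Subgroup (Equiv.Perm (Fin n)), MulAction.IsPreprimitive P (Fin n) → alternatingGroup (Fin n) ≤ P)
    (M : Subgroup G) (hM : IsCoatom M) (hn : M.index = n) (H : Subgroup G) (hHM : H ≤ M)
    (hmax : IsCoatom (H.subgroupOf M)) (K : Subgroup G) (hK : IsCoatom K) (hHK : H ≤ K) :
    IsCoatom (H.subgroupOf K) := by
  have hHne : H ≠ M := by
    rintro rfl
    exact hmax.1 (subgroupOf_self H)
  have hmax' : ∀ Y : Subgroup G, H ≤ Y → Y ≤ M → Y = H ∨ Y = M := by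
    intro Y h1 h2
    rcases h1.lt_or_eq with h | h
    · right
      have : H.subgroupOf M < Y.subgroupOf M := by
        refine lt_of_le_of_ne ?_ ?_
        · exact comap_mono h1
        · intro heq
          apply h.ne
          rw [← map_subgroupOf_eq_of_le hHM, ← map_subgroupOf_eq_of_le h2, heq]
      have := hmax.2 _ this
      exact le_antisymm h2 (subgroupOf_eq_top.1 this)
    · left; exact h.symm
  refine ⟨?_, ?_⟩
  · intro htop
    have hKH : K ≤ H := subgroupOf_eq_top.1 htop
    have hKM : K ≤ M := hKH.trans hHM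
    rcases hKM.lt_or_eq with h | h
    · exact hM.1 (hK.2 _ h)
    · exact hHne (le_antisymm hHM (h ▸ hKH))
  · intro L' hL'
    by_contra hne
    refine core n hodd hA M hM hn H hHM hmax' hHne K hK hHK (L'.map K.subtype) ?_ ?_
    · refine lt_of_le_of_ne ?_ ?_
      · rw [← map_subgroupOf_eq_of_le hHK]
        exact map_mono hL'.le
      · intro heq
        apply hL'.ne
        apply map_injective K.subtype_injective
        rw [map_subgroupOf_eq_of_le hHK, heq]
    · refine lt_of_le_of_ne (map_subtype_le L') ?_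
      intro heq
      apply hne
      apply map_injective K.subtype_injective
      rw [heq, ← MonoidHom.range_eq_map, range_subtype]

end Cfsg.Agent.S5885
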