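import Cfsg.Statements.S5886
import Cfsg.Agent.GUx10
open Cfsg.Agent.H21.GUx Cfsg.Agent.H29.Trv Matrix Module Cfsg.Geo

set_option autoImplicit false
open Cfsg

namespace Cfsg.Agent.S5886



/-- Let F be a finite field, n a positive integer and r a prime that divides n with r < n. Let K be a subalgebra of the algebra of n × n matrices over F which is a field of degree r over F (commutative, every non-zero element invertible, of dimension r over F; it contains the scalars). Then the normaliser N of K in GL_n(F) — the invertible F-linear maps that are semilinear over the field K, a group of type ΓL_{n/r}(F_{q^r}) for |F| = q — is a maximal subgroup of GL_n(F), and N ∩ SL_n(F) is a maximal subgroup of SL_n(F). No lower bound on n is assumed. -/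
theorem result {F : Type*} [Field F]
    [Fintype F] (n r : ℕ) (hr : r.Prime) (hrn : r ∣ n) (hlt : r < n) (K : Subalgebra F (Matrix (Fin n) (Fin n) F))
    (hK : Cfsg.Geo.IsFieldSubalgebra r K) :
    IsCoatom (Cfsg.Geo.subalgebraNormalizer K) ∧
      Cfsg.Geo.IsMaximalIn (Cfsg.Geo.specialLinear (Fin n) F)
        (Cfsg.Geo.subalgebraNormalizer K ⊓ Cfsg.Geo.specialLinear (Fin n) F) := by
  have hn : 0 < n := by omega
  refine ⟨⟨?_, ?_⟩, ?_⟩
  · intro htop
    apply not_le_norm hr hlt hK
    rw [htop]
    exact le_top
  · intro M hM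
    obtain ⟨g, hg, hgK⟩ := SetLike.exists_of_lt hM
    have hSL : specialLinear (Fin n) F ≤ M := main hr hlt hK (inf_le_left.trans hM.le) hg hgK
    rw [eq_top_iff]
    intro h _
    have hdet : (h : Matrix (Fin n) (Fin n) F).det ≠ 0 := by
      have := Matrix.GeneralLinearGroup.det h
      exact (Matrix.isUnit_iff_isUnit_det _).1 h.isUnit |>.ne_zero
    obtain ⟨s, hs, hsd⟩ := exists_det hn hK hdet
    have h1 : s⁻¹ * h ∈ specialLinear (Fin n) F := by
      rw [mem_SL_iff, Units.val_mul, det_mul]
      have h2 : ((s⁻¹ : GL (Fin n) F) : Matrix (Fin n) (Fin n) F).det * (s : Matrix (Fin n) (Fin n) F).det = 1 := by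
        rw [← det_mul, ← Units.val_mul, inv_mul_cancel, Units.val_one, det_one]
      rwa [hsd] at h2
    have e : h = s * (s⁻¹ * h) := by rw [mul_inv_cancel_left]
    rw [e]
    exact M.mul_mem (hM.le hs) (hSL h1)
  · exact isMaximalIn_of inf_le_right (fun hle => not_le_norm hr hlt hK (hle.trans inf_le_left))
      (fun M h1 h2 g hg hgH => main hr hlt hK h1 hg (fun hh => hgH ⟨hh, h2 hg⟩))

end Cfsg.Agent.S5886
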