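import Cfsg.Statements.S5887
import Cfsg.Agent.H11_ExtF2

set_option autoImplicit false
open Cfsg

namespace Cfsg.Agent.S5887

open Cfsg.Agent.H11.ExtF in
theorem aux {F : Type*} [Field F] [Fintype F] (n r : ℕ) (hr1 : 1 < r) (hrp : ¬ r.Prime)
    (hrn : r ∣ n) (hlt : r < n) (K : Subalgebra F (Matrix (Fin n) (Fin n) F)) (hK : Cfsg.Geo.IsFieldSubalgebra r K)
    (hf : IsField K) :
    ¬ IsCoatom (Cfsg.Geo.subalgebraNormalizer K) ∧
      ¬ Cfsg.Geo.IsMaximalIn (Cfsg.Geo.specialLinear (Fin n) F)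
        (Cfsg.Geo.subalgebraNormalizer K ⊓ Cfsg.Geo.specialLinear (Fin n) F) := by
  haveI : Finite K := inferInstance
  have hc : Nat.card K = Fintype.card F ^ r := by
    rw [← hK.finrank_eq, Module.natCard_eq_pow_finrank (K := F), Nat.card_eq_fintype_card]
  exact @main_aux F _ _ n r hr1 hrp hrn hlt K hf.toField _ K.val.toRingHom hc K
    (fun A => ⟨fun h => ⟨⟨A, h⟩, rfl⟩, by rintro ⟨l, rfl⟩; exact l.2⟩)

/-- Let F be a finite field, n a positive integer and r a composite number (r > 1, not prime) that divides n with r < n. Let K be a subalgebra of the algebra of n × n matrices over F which is a field of degree r over F (commutative, every non-zero element invertible, of dimension r over F). Then the normaliser N of K in GL_n(F) (a group of type ΓL_{n/r}(F_{q^r})) is not a maximal subgroup of GL_n(F), and N ∩ SL_n(F) is not a maximal subgroup of SL_n(F): both lie properly inside the normaliser of an intermediate subfield of prime degree over F. -/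
theorem result {F : Type*} [Field F]
    [Fintype F] (n r : ℕ) (hr1 : 1 < r) (hrp : ¬ r.Prime) (hrn : r ∣ n) (hlt : r < n)
    (K : Subalgebra F (Matrix (Fin n) (Fin n) F)) (hK : Cfsg.Geo.IsFieldSubalgebra r K) :
    ¬ IsCoatom (Cfsg.Geo.subalgebraNormalizer K) ∧
      ¬ Cfsg.Geo.IsMaximalIn (Cfsg.Geo.specialLinear (Fin n) F)
        (Cfsg.Geo.subalgebraNormalizer K ⊓ Cfsg.Geo.specialLinear (Fin n) F) := by
  have hn0 : 0 < n := by omega
  haveI : Nonempty (Fin n) := ⟨⟨0, hn0⟩⟩
  apply aux n r hr1 hrp hrn hlt K hK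
  refine ⟨⟨0, 1, zero_ne_one⟩, fun a b => Subtype.ext (hK.comm a a.2 b b.2), ?_⟩
  intro a ha
  obtain ⟨b, hb, hab⟩ := hK.inv a a.2 (fun h => ha (Subtype.ext h))
  exact ⟨⟨b, hb⟩, Subtype.ext hab⟩

end Cfsg.Agent.S5887
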