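import Cfsg.Statements.S5894
import Mathlib

set_option autoImplicit false
open Cfsg

namespace Cfsg.Agent.S5894

open MulAction
open scoped Pointwise

variable {α : Type*} [DecidableEq α]

theorem mem_stab_iff {a : α} (σ : stabilizer (Equiv.Perm α) a) (x : α) : σ.1 x ≠ a ↔ x ≠ a := by
  have h : σ.1 a = a := σ.2
  constructor
  · rintro h1 rfl
    exact h1 h
  · intro h1 h2
    exact h1 (σ.1.injective (h2.trans h.symm))

/-- restriction of the point stabiliser to the remaining points -/
def res (a : α) : stabilizer (Equiv.Perm α) a →* Equiv.Perm {x : α // x ≠ a} where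
  toFun σ := σ.1.subtypePerm (mem_stab_iff σ)
  map_one' := by ext x; rfl
  map_mul' σ τ := by ext x; rfl

theorem res_surj (a : α) : Function.Surjective (res a) := by
  intro τ
  have h : Equiv.Perm.ofSubtype τ ∈ stabilizer (Equiv.Perm α) a := by
    rw [mem_stabilizer_iff, Equiv.Perm.smul_def]
    exact Equiv.Perm.ofSubtype_apply_of_not_mem τ (by simp)
  refine ⟨⟨_, h⟩, ?_⟩
  ext x
  change Equiv.Perm.ofSubtype τ x = _
  rw [Equiv.Perm.ofSubtype_apply_coe]

theorem comap_res (a : α) (B : Set α) :
    (stabilizer (Equiv.Perm α) a ⊓ stabilizer (Equiv.Perm α) B).subgroupOf (stabilizer (Equiv.Perm α) a) =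
      (stabilizer (Equiv.Perm {x : α // x ≠ a}) {x : {x : α // x ≠ a} | x.1 ∈ B}).comap (res a) := by
  ext σ
  rw [Subgroup.mem_subgroupOf, Subgroup.mem_inf, Subgroup.mem_comap, mem_stabilizer_set, mem_stabilizer_set]
  constructor
  · rintro ⟨-, h⟩ b
    exact h b.1
  · intro h
    refine ⟨σ.2, fun b => ?_⟩
    by_cases hb : b = a
    · subst hb
      have : σ.1 • b = b := σ.2
      rw [this]
    · exact h ⟨b, hb⟩

theorem result (m : ℕ) (hm : 2 ≤ m) :
    ∃ M H K : Subgroup (Equiv.Perm (Fin (2 * m))), IsCoatom M ∧ M.index = 2 * m ∧ H ≤ M ∧ IsCoatom (H.subgroupOf M) ∧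
      IsCoatom K ∧ H ≤ K ∧ ¬ IsCoatom (H.subgroupOf K) := by
  let a : Fin (2 * m) := ⟨0, by omega⟩
  let b : Fin (2 * m) := ⟨1, by omega⟩
  let c : Fin (2 * m) := ⟨m, by omega⟩
  let B : Set (Fin (2 * m)) := {i | i.1 < m}
  haveI : NeZero (2 * m) := ⟨by omega⟩
  haveI : Nontrivial (Fin (2 * m)) := Fin.nontrivial_iff_two_le.mpr (by omega)
  let M := stabilizer (Equiv.Perm (Fin (2 * m))) a
  let J := stabilizer (Equiv.Perm (Fin (2 * m))) B
  let L := stabilizer (Equiv.Perm (Fin (2 * m))) ({B, Bᶜ} : Set (Set (Fin (2 * m))))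
  have hJL : J ≤ L := by
    intro σ hσ
    have h1 : σ • B = B := hσ
    rw [mem_stabilizer_iff, Set.smul_set_insert, Set.smul_set_singleton, Set.smul_set_compl, h1]
  have hLt : L ≠ ⊤ := by
    intro h
    have h1 : Equiv.swap a c ∈ L := by rw [h]; trivial
    have h2 : Equiv.swap a c • B ∈ ({B, Bᶜ} : Set (Set (Fin (2 * m)))) := by
      have h3 := mem_stabilizer_set.mp h1 B
      exact h3.mpr (by simp)
    have hc : c ∈ Equiv.swap a c • B := by
      rw [Set.mem_smul_set_iff_inv_smul_mem, Equiv.swap_inv, Equiv.Perm.smul_def, Equiv.swap_apply_right]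
      change 0 < m
      omega
    have hb : b ∈ Equiv.swap a c • B := by
      rw [Set.mem_smul_set_iff_inv_smul_mem, Equiv.swap_inv, Equiv.Perm.smul_def, Equiv.swap_apply_of_ne_of_ne]
      · change 1 < m
        omega
      · intro h
        have := congrArg Fin.val h
        simp [a, b] at this
      · intro h
        have : 1 = m := congrArg Fin.val h
        omega
    rcases h2 with h2 | h2
    · rw [h2] at hc
      have : m < m := hc
      omega
    · have h2' : Equiv.swap a c • B = Bᶜ := h2
      rw [h2'] at hb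
      exact hb (show 1 < m by omega)
  obtain ⟨K, hK, hLK⟩ := (eq_top_or_exists_le_coatom L).resolve_left hLt
  have hcardB : Nat.card (Fin (2 * m)) = 2 * m := by simp
  refine ⟨M, M ⊓ J, K, ?_, ?_, inf_le_left, ?_, hK, inf_le_right.trans (hJL.trans hLK), ?_⟩
  · have := Equiv.Perm.isCoatom_stabilizer (s := ({a} : Set (Fin (2 * m)))) (Set.singleton_nonempty a)
      ⟨b, by simp [a, b]⟩ (by rw [hcardB, Set.ncard_singleton]; omega)
    rwa [stabilizer_singleton] at this
  · exact (index_stabilizer_of_transitive (Equiv.Perm (Fin (2 * m))) a).trans hcardB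
  · rw [comap_res]
    refine Subgroup.isCoatom_comap_of_surjective (res_surj a) ?_
    refine Equiv.Perm.isCoatom_stabilizer ⟨⟨b, by simp [a, b]⟩, show 1 < m by omega⟩
      ⟨⟨c, by intro h; have : m = 0 := congrArg Fin.val h; omega⟩, fun h => ?_⟩ ?_
    · have : m < m := h
      omega
    · have h1 : Nat.card {x : Fin (2 * m) // x ≠ a} = 2 * m - 1 := by
        rw [Nat.card_eq_fintype_card]
        have := Set.card_ne_eq a
        rw [Fintype.card_fin] at this
        exact (Fintype.card_congr (Equiv.refl _)).trans this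
      rw [h1]
      omega
  · intro hco
    rcases hco.le_iff.mp (show (M ⊓ J).subgroupOf K ≤ J.subgroupOf K from
      Subgroup.subgroupOf_mono K inf_le_right) with h | h
    · rw [Subgroup.subgroupOf_eq_top] at h
      have hrB : (Fin.revPerm : Equiv.Perm (Fin (2 * m))) • B = Bᶜ := by
        ext i
        rw [Set.mem_smul_set_iff_inv_smul_mem]
        change (Fin.rev i).1 < m ↔ ¬ (i.1 < m)
        rw [Fin.val_rev]
        have := i.2
        omega
      have hrL : (Fin.revPerm : Equiv.Perm (Fin (2 * m))) ∈ L := by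
        rw [mem_stabilizer_iff, Set.smul_set_insert, Set.smul_set_singleton, Set.smul_set_compl, hrB, compl_compl,
          Set.pair_comm]
      have h1 : (Fin.revPerm : Equiv.Perm (Fin (2 * m))) • B = B := h (hLK hrL)
      rw [hrB] at h1
      have h2 : a ∈ B := show 0 < m by omega
      rw [← h1] at h2
      exact h2 (show 0 < m by omega)
    · have hJ : Equiv.swap a b ∈ J := by
        rw [mem_stabilizer_set]
        intro x
        rw [Equiv.Perm.smul_def]
        by_cases hxa : x = a
        · rw [hxa, Equiv.swap_apply_left]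
          change 1 < m ↔ 0 < m
          omega
        · by_cases hxb : x = b
          · rw [hxb, Equiv.swap_apply_right]
            change 0 < m ↔ 1 < m
            omega
          · rw [Equiv.swap_apply_of_ne_of_ne hxa hxb]
      have h1 : (⟨Equiv.swap a b, hLK (hJL hJ)⟩ : K) ∈ J.subgroupOf K := hJ
      rw [h] at h1
      have h2 : Equiv.swap a b ∈ M := h1.1
      have h3 : Equiv.swap a b a = a := h2
      rw [Equiv.swap_apply_left] at h3
      have := congrArg Fin.val h3
      simp [a, b] at this

end Cfsg.Agent.S5894
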