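import Cfsg.Statements.S5895

set_option autoImplicit false
open Cfsg

namespace Cfsg.Agent.S5895

open SemidirectProduct

def irr {N : Type} [Group N] (M : Subgroup (MulAut N)) : Prop :=
  ∀ W : Subgroup N, (∀ m ∈ M, ∀ w ∈ W, m w ∈ W) → W = ⊥ ∨ W = ⊤

theorem core {N : Type} [CommGroup N] [Finite N] (M : Subgroup (MulAut N)) (hM : irr M)
    (H0 : Subgroup M) (hH0 : IsCoatom H0) (W : Subgroup N) (hW1 : W ≠ ⊥) (hW2 : W ≠ ⊤)
    (hW : ∀ h ∈ H0, ∀ w ∈ W, (h : MulAut N) w ∈ W) :
    ∃ (G : Type) (_ : Group G) (_ : Finite G) (M H K : Subgroup G), IsCoatom M ∧ M.index = Nat.card N ∧ H ≤ M ∧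
      IsCoatom (H.subgroupOf M) ∧ IsCoatom K ∧ H ≤ K ∧ ¬ IsCoatom (H.subgroupOf K) := by
  let φ : M →* MulAut N := M.subtype
  haveI : Finite (SemidirectProduct N M φ) :=
    Finite.of_injective (fun x => (x.left, x.right)) (fun x y hxy => SemidirectProduct.ext
      (congrArg Prod.fst hxy) (congrArg Prod.snd hxy))
  have hNnt : ∃ n : N, n ∉ W := by
    by_contra hcon
    push Not at hcon
    exact hW2 (eq_top_iff.2 (fun n _ => hcon n))
  obtain ⟨n0, hn0⟩ := hNnt
  have hn01 : n0 ≠ 1 := fun h => hn0 (h ▸ W.one_mem)
  let M' : Subgroup (SemidirectProduct N M φ) := (inr : M →* _).range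
  let K : Subgroup (SemidirectProduct N M φ) := H0.comap (rightHom : SemidirectProduct N M φ →* M)
  let H : Subgroup (SemidirectProduct N M φ) := H0.map (inr : M →* _)
  have hHM : H ≤ M' := by
    rintro _ ⟨h, _, rfl⟩
    exact ⟨h, rfl⟩
  refine ⟨SemidirectProduct N M φ, inferInstance, inferInstance, M', H, K, ?_, ?_, hHM, ?_, ?_, ?_, ?_⟩
  · constructor
    · intro h
      have : (inl n0 : SemidirectProduct N M φ) ∈ M' := by rw [h]; trivial
      obtain ⟨m, hm⟩ := this
      exact hn01 (congrArg SemidirectProduct.left hm).symm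
    · intro L hL
      have hle := hL.le
      obtain ⟨x, hxL, hxM⟩ := SetLike.exists_of_lt hL
      have h1 : (inl x.left : SemidirectProduct N M φ) ∈ L := by
        have h2 : (inl x.left : SemidirectProduct N M φ) = x * (inr x.right)⁻¹ := by
          rw [eq_mul_inv_iff_mul_eq]
          exact inl_left_mul_inr_right x
        rw [h2]
        exact L.mul_mem hxL (L.inv_mem (hle ⟨_, rfl⟩))
      have h3 : x.left ≠ 1 := by
        intro h
        apply hxM
        refine ⟨x.right, ?_⟩
        have := inl_left_mul_inr_right x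
        rw [h, map_one, one_mul] at this
        exact this
      have h4 : L.comap (inl : N →* SemidirectProduct N M φ) = ⊤ := by
        refine (hM _ ?_).resolve_left ?_
        · intro m hm w hw
          rw [Subgroup.mem_comap] at hw ⊢
          have h5 := inl_aut (φ := φ) ⟨m, hm⟩ w
          have h6 : (inl (m w) : SemidirectProduct N M φ) =
            inr (⟨m, hm⟩ : M) * inl w * inr (⟨m, hm⟩ : M)⁻¹ := h5
          rw [h6]
          exact L.mul_mem (L.mul_mem (hle ⟨_, rfl⟩) hw) (hle ⟨_, rfl⟩)
        · intro h
          have : x.left ∈ L.comap (inl : N →* SemidirectProduct N M φ) := h1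
          rw [h, Subgroup.mem_bot] at this
          exact h3 this
      rw [eq_top_iff]
      intro y _
      rw [← inl_left_mul_inr_right y]
      apply L.mul_mem
      · have : y.left ∈ L.comap (inl : N →* SemidirectProduct N M φ) := by rw [h4]; trivial
        exact this
      · exact hle ⟨_, rfl⟩
  · have h1 := M'.card_mul_index
    rw [SemidirectProduct.card] at h1
    have h2 : Nat.card M' = Nat.card M := (Nat.card_congr (MonoidHom.ofInjective (inr_injective (φ := φ))).toEquiv).symm
    rw [h2, mul_comm] at h1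
    exact Nat.eq_of_mul_eq_mul_right Nat.card_pos h1
  · -- transport
    have e : M ≃* M' := MonoidHom.ofInjective (inr_injective (φ := φ))
    have h1 : (H.subgroupOf M').comap ((MonoidHom.ofInjective (inr_injective (φ := φ)) : M ≃* M') : M →* M') = H0 := by
      ext m
      rw [Subgroup.mem_comap, Subgroup.mem_subgroupOf]
      constructor
      · rintro ⟨h, hh, hhm⟩
        have : h = m := inr_injective hhm
        rwa [← this]
      · intro hm
        exact ⟨m, hm, rfl⟩
    rw [← Subgroup.isCoatom_comap (MonoidHom.ofInjective (inr_injective (φ := φ)) : M ≃* M'), h1]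
    exact hH0
  · exact Subgroup.isCoatom_comap_of_surjective rightHom_surjective hH0
  · rintro _ ⟨h, hh, rfl⟩
    exact hh
  · -- W ⋊ H0
    intro hco
    let L : Subgroup (SemidirectProduct N M φ) :=
      { carrier := {x | x.left ∈ W ∧ x.right ∈ H0}
        one_mem' := ⟨W.one_mem, H0.one_mem⟩
        mul_mem' := by
          intro a b ha hb
          exact ⟨W.mul_mem ha.1 (hW _ ha.2 _ hb.1), H0.mul_mem ha.2 hb.2⟩
        inv_mem' := by
          intro a ha
          exact ⟨hW _ (H0.inv_mem ha.2) _ (W.inv_mem ha.1), H0.inv_mem ha.2⟩ }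
    have hLK : L ≤ K := fun x hx => hx.2
    have hHL : H ≤ L := by
      rintro _ ⟨h, hh, rfl⟩
      exact ⟨W.one_mem, hh⟩
    obtain ⟨⟨w, hw⟩, hw1⟩ := Subgroup.ne_bot_iff_exists_ne_one.1 hW1
    have hlt : H.subgroupOf K < L.subgroupOf K := by
      refine lt_of_le_of_ne (Subgroup.comap_mono hHL) ?_
      intro he
      have h1 : (inl w : SemidirectProduct N M φ) ∈ L := ⟨hw, H0.one_mem⟩
      have h2 : (⟨inl w, hLK h1⟩ : K) ∈ H.subgroupOf K := by
        rw [he]; exact h1
      obtain ⟨h, _, hh⟩ := h2
      apply hw1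
      apply Subtype.ext
      exact (congrArg SemidirectProduct.left hh).symm
    have htop := hco.2 _ hlt
    have h1 : (inl n0 : SemidirectProduct N M φ) ∈ K := H0.one_mem
    have h2 : (⟨inl n0, h1⟩ : K) ∈ L.subgroupOf K := by rw [htop]; trivial
    exact hn0 h2.1

/-- For every prime p and every d ≥ 2 there is a finite group G with a maximal subgroup M of index p^d and a maximal subgroup H of M that is not second maximal in G: some maximal subgroup K of G contains H without H being maximal in K. (One may take G the affine group V ⋊ GL(V) of V = 𝔽_p^d, M = GL(V), H the stabiliser in M of a line W of V, and K = V ⋊ H, with H < W ⋊ H < K.) So the prime-index hypothesis in the second-maximality criterion cannot be relaxed to prime-power index. -/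
theorem result (p d : ℕ) (hp : p.Prime)
    (hd : 2 ≤ d) :
    ∃ (G : Type) (_ : Group G) (_ : Finite G) (M H K : Subgroup G), IsCoatom M ∧ M.index = p ^ d ∧ H ≤ M ∧
      IsCoatom (H.subgroupOf M) ∧ IsCoatom K ∧ H ≤ K ∧ ¬ IsCoatom (H.subgroupOf K) := by
  classical
  haveI : Fact p.Prime := ⟨hp⟩
  obtain ⟨N, hN⟩ : ∃ N, N = Multiplicative (GaloisField p d) := ⟨_, rfl⟩
  have hcard : Nat.card (Multiplicative (GaloisField p d)) = p ^ d := by
    rw [Nat.card_congr Multiplicative.toAdd]
    exact GaloisField.card p d (by omega)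
  haveI : Finite (GaloisField p d) := Nat.finite_of_card_ne_zero (by
    rw [GaloisField.card p d (by omega)]
    exact pow_ne_zero _ hp.ne_zero)
  haveI : Finite (Multiplicative (GaloisField p d)) := inferInstanceAs (Finite (GaloisField p d))
  haveI : Finite (MulAut (Multiplicative (GaloisField p d))) :=
    Finite.of_injective (fun f => (f : Multiplicative (GaloisField p d) → Multiplicative (GaloisField p d)))
      (fun f g h => MulEquiv.ext (congrFun h))
  -- the full automorphism group is irreducible
  have htop : irr (⊤ : Subgroup (MulAut (Multiplicative (GaloisField p d)))) := by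
    intro W hW
    by_cases hb : W = ⊥
    · exact Or.inl hb
    right
    obtain ⟨⟨w, hw⟩, hw1⟩ := Subgroup.ne_bot_iff_exists_ne_one.1 hb
    have hw0 : Multiplicative.toAdd w ≠ 0 := fun h => hw1 (Subtype.ext h)
    rw [eq_top_iff]
    intro v _
    by_cases hv : Multiplicative.toAdd v = 0
    · have : v = 1 := hv
      rw [this]; exact W.one_mem
    · have hu : Multiplicative.toAdd v / Multiplicative.toAdd w ≠ 0 := div_ne_zero hv hw0
      let f : GaloisField p d ≃+ GaloisField p d := { Equiv.mulLeft₀ _ hu with map_add' := fun a b => mul_add _ a b }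
      have h1 := hW (AddEquiv.toMultiplicative f) trivial w hw
      have h2 : (AddEquiv.toMultiplicative f) w = v := by
        apply Multiplicative.toAdd.injective
        show (Multiplicative.toAdd v / Multiplicative.toAdd w) * Multiplicative.toAdd w = Multiplicative.toAdd v
        exact div_mul_cancel₀ _ hw0
      rwa [h2] at h1
  obtain ⟨M, hM⟩ := (Set.toFinite {M : Subgroup (MulAut (Multiplicative (GaloisField p d))) | irr M}).exists_minimal ⟨_, htop⟩
  have hMirr : irr M := hM.1
  -- M is nontrivial
  have hMnt : M ≠ ⊥ := by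
    intro hMb
    obtain ⟨w, hw⟩ : ∃ w : Multiplicative (GaloisField p d), w ≠ 1 := ⟨Multiplicative.ofAdd 1, fun h => by
      have := congrArg Multiplicative.toAdd h
      exact one_ne_zero (α := GaloisField p d) this⟩
    have hwp : w ^ p = 1 := by
      apply Multiplicative.toAdd.injective
      rw [toAdd_pow]
      show p • (Multiplicative.toAdd w) = 0
      rw [nsmul_eq_mul, CharP.cast_eq_zero, zero_mul]
    have hord : orderOf w = p := orderOf_eq_prime hwp hw
    rcases hMirr (Subgroup.zpowers w) (by
      intro m hm v hv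
      rw [hMb, Subgroup.mem_bot] at hm
      rw [hm]; exact hv) with h | h
    · exact hw (Subgroup.zpowers_eq_bot.1 h)
    · have h1 : Nat.card (Subgroup.zpowers w) = p := by rw [Nat.card_zpowers, hord]
      rw [h, Subgroup.card_top, hcard] at h1
      have h2 : p ^ 1 < p ^ d := Nat.pow_lt_pow_right hp.one_lt (by omega)
      rw [h1, pow_one] at h2
      exact lt_irrefl _ h2
  haveI : Finite M := inferInstance
  haveI : Nontrivial M := (Subgroup.nontrivial_iff_ne_bot _).2 hMnt
  obtain ⟨H0, hH0, _⟩ := (eq_top_or_exists_le_coatom (⊥ : Subgroup M)).resolve_left bot_ne_top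
  have hnirr : ¬ irr (H0.map M.subtype) := by
    intro hi
    have h1 := hM.2 hi (Subgroup.map_subtype_le H0)
    apply hH0.1
    rw [eq_top_iff]
    intro m _
    obtain ⟨h, hh, hhm⟩ := h1 m.2
    have : h = m := Subtype.ext hhm
    rwa [← this]
  unfold irr at hnirr
  push Not at hnirr
  obtain ⟨W, hW, hW1, hW2⟩ := hnirr
  rw [← hcard]
  exact core M hMirr H0 hH0 W hW1 hW2 (fun h hh w hw => hW _ ⟨h, hh, rfl⟩ w hw)

end Cfsg.Agent.S5895
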