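import Cfsg.Statements.S5896
import Cfsg.Agent.H3_Burnside

set_option autoImplicit false
open Cfsg

namespace Cfsg.Agent.S5896

open SemidirectProduct
open scoped commutatorElement Pointwise

set_option linter.unusedSectionVars false
section Step

variable (G : Type) [Group G] [Fintype G] (p : ℕ)

/-- functions with product one -/
def aug : Subgroup (G → Multiplicative (ZMod p)) where
  carrier := {f | ∏ x, f x = 1}
  one_mem' := by simp
  mul_mem' := by
    intro f g hf hg
    show ∏ x, (f x * g x) = 1
    rw [Finset.prod_mul_distrib, show ∏ x, f x = 1 from hf, show ∏ x, g x = 1 from hg, mul_one]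
  inv_mem' := by
    intro f hf
    show ∏ x, (f x)⁻¹ = 1
    rw [Finset.prod_inv_distrib, show ∏ x, f x = 1 from hf, inv_one]

def act : G →* MulAut (aug G p) where
  toFun g :=
    { toFun := fun f => ⟨fun x => f.1 (g⁻¹ * x), by
        show ∏ x, f.1 (g⁻¹ * x) = 1
        exact (Equiv.prod_comp (Equiv.mulLeft g⁻¹) (fun x => f.1 x)).trans f.2⟩
      invFun := fun f => ⟨fun x => f.1 (g * x), by
        show ∏ x, f.1 (g * x) = 1
        exact (Equiv.prod_comp (Equiv.mulLeft g) (fun x => f.1 x)).trans f.2⟩
      left_inv := fun f => Subtype.ext (funext fun x => by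
        show f.1 (g⁻¹ * (g * x)) = f.1 x
        rw [inv_mul_cancel_left])
      right_inv := fun f => Subtype.ext (funext fun x => by
        show f.1 (g * (g⁻¹ * x)) = f.1 x
        rw [mul_inv_cancel_left])
      map_mul' := fun f f' => rfl }
  map_one' := by
    apply MulEquiv.ext
    intro f
    apply Subtype.ext
    funext x
    show f.1 (1⁻¹ * x) = f.1 x
    rw [inv_one, one_mul]
  map_mul' := by
    intro g h
    apply MulEquiv.ext
    intro f
    apply Subtype.ext
    funext x
    show f.1 ((g * h)⁻¹ * x) = f.1 (h⁻¹ * (g⁻¹ * x))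
    rw [mul_inv_rev, mul_assoc]

theorem act_apply (g : G) (f : aug G p) (x : G) : (act G p g f).1 x = f.1 (g⁻¹ * x) := rfl

variable [Fact p.Prime]

theorem aug_pow_p (f : aug G p) : f ^ p = 1 := by
  apply Subtype.ext
  funext x
  show (f.1 x) ^ p = 1
  apply Multiplicative.toAdd.injective
  rw [toAdd_pow]
  show p • (Multiplicative.toAdd (f.1 x)) = 0
  rw [nsmul_eq_mul, CharP.cast_eq_zero, zero_mul]

theorem mem_of_pow {H : Type*} [Group H] (K : Subgroup H) (x : H) (m : ℕ) (hm : Nat.Coprime m p) (hx : x ^ p = 1)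
    (h : x ^ m ∈ K) : x ∈ K := by
  have h1 : x ^ ((Nat.gcd m p : ℕ) : ℤ) ∈ K := by
    rw [Nat.gcd_eq_gcd_ab, zpow_add, zpow_mul, zpow_mul, zpow_natCast, zpow_natCast, hx, one_zpow, mul_one]
    exact K.zpow_mem h _
  rw [hm] at h1
  simpa using h1

theorem norm_formula (f : aug G p) : f ^ (Fintype.card G) = ∏ g : G, (f * (act G p g f)⁻¹) := by
  rw [Finset.prod_mul_distrib, Finset.prod_const, Finset.card_univ]
  have : ∏ g : G, (act G p g f)⁻¹ = 1 := by
    rw [Finset.prod_inv_distrib, inv_eq_one]
    apply Subtype.ext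
    funext x
    rw [← Subgroup.coe_subtype, map_prod]
    rw [Finset.prod_apply]
    show ∏ g : G, f.1 (g⁻¹ * x) = 1
    have h1 : ∏ g : G, f.1 (g⁻¹ * x) = ∏ g : G, f.1 g := by
      rw [← Equiv.prod_comp ((Equiv.inv G).trans (Equiv.mulRight x)) (fun g => f.1 g)]
      rfl
    rw [h1]
    exact f.2
  rw [this, mul_one]

theorem comm_inl (f : aug G p) (g : G) : ⁅(inl f : aug G p ⋊[act G p] G), (inr g : aug G p ⋊[act G p] G)⁆ = (inl (f * (act G p g f)⁻¹) : aug G p ⋊[act G p] G) := by
  rw [commutatorElement_def, map_mul, map_inv, mul_assoc, mul_assoc]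
  congr 1
  rw [← map_inv, ← map_inv, ← map_inv, ← mul_assoc]
  exact (inl_aut (φ := act G p) g f⁻¹).symm

theorem perfect (hcop : Nat.Coprime (Fintype.card G) p) (hG : commutator G = ⊤) :
    commutator (aug G p ⋊[act G p] G) = ⊤ := by
  rw [eq_top_iff]
  intro x _
  rw [← inl_left_mul_inr_right x]
  apply Subgroup.mul_mem
  · have h1 : x.left ∈ (commutator (aug G p ⋊[act G p] G)).comap (inl : aug G p →* _) := by
      apply mem_of_pow p _ _ (Fintype.card G) hcop (aug_pow_p G p _)
      rw [norm_formula]
      apply Subgroup.prod_mem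
      intro g _
      rw [Subgroup.mem_comap, ← comm_inl]
      exact Subgroup.commutator_mem_commutator (Subgroup.mem_top _) (Subgroup.mem_top _)
    exact h1
  · have h1 : x.right ∈ commutator G := by rw [hG]; trivial
    have h2 : (commutator G).map (inr : G →* aug G p ⋊[act G p] G) ≤ commutator (aug G p ⋊[act G p] G) := by
      rw [commutator_def, Subgroup.map_commutator, commutator_def]
      exact Subgroup.commutator_mono le_top le_top
    exact h2 ⟨_, h1, rfl⟩

theorem step (H : Subgroup G) (d : ℕ) (hcop : Nat.Coprime (Fintype.card G) p) (hp2 : p ≠ 2)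
    (hd : derivedSeries H d ≠ ⊥) :
    derivedSeries (H.comap (rightHom : aug G p ⋊[act G p] G →* G)) (d + 1) ≠ ⊥ := by
  classical
  intro hbot
  let π := (rightHom : aug G p ⋊[act G p] G →* G).subgroupComap H
  have hπ : Function.Surjective π :=
    MonoidHom.subgroupComap_surjective_of_surjective _ _ rightHom_surjective
  have hmap := map_derivedSeries_eq hπ d
  obtain ⟨⟨y, hy⟩, hy1⟩ := Subgroup.ne_bot_iff_exists_ne_one.1 hd
  rw [← hmap] at hy
  obtain ⟨x, hxD, hxy⟩ := hy
  obtain ⟨h, hh⟩ : ∃ h, h = x.1.right := ⟨_, rfl⟩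
  have hh1 : h ≠ 1 := by
    intro h0
    have hy0 : y = 1 := by
      rw [← hxy]
      apply Subtype.ext
      show x.1.right = 1
      rw [← hh, h0]
    exact hy1 (Subtype.ext hy0)
  rw [derivedSeries_succ, Subgroup.commutator_eq_bot_iff_le_centralizer] at hbot
  have hfix : ∀ n : aug G p, act G p h n = n := by
    intro n
    obtain ⟨m, hm⟩ : ∃ m, m = n * (act G p h n)⁻¹ := ⟨_, rfl⟩
    let nn : (H.comap (rightHom : aug G p ⋊[act G p] G →* G)) := ⟨inl n, H.one_mem⟩
    have hw : nn * x * nn⁻¹ * x⁻¹ ∈ derivedSeries (H.comap (rightHom : aug G p ⋊[act G p] G →* G)) d :=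
      Subgroup.mul_mem _ ((derivedSeries_normal _ d).conj_mem x hxD nn) (Subgroup.inv_mem _ hxD)
    have hw1 : (nn * x * nn⁻¹ * x⁻¹).1 = inl m := by
      show inl n * x.1 * (inl n)⁻¹ * (x.1)⁻¹ = inl m
      rw [mul_inv_eq_iff_eq_mul, mul_inv_eq_iff_eq_mul]
      apply SemidirectProduct.ext
      · simp only [mul_left, left_inl, right_inl, mul_right, map_one, MulAut.one_apply, one_mul]
        rw [hm, ← hh, mul_assoc, mul_assoc]
        congr 1
        rw [mul_comm x.1.left, ← mul_assoc, inv_mul_cancel, one_mul]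
      · simp
    have hcomm := (Subgroup.mem_centralizer_iff.1 (hbot hw)) x hxD
    have hcomm1 : x.1 * (nn * x * nn⁻¹ * x⁻¹).1 = (nn * x * nn⁻¹ * x⁻¹).1 * x.1 := congrArg Subtype.val hcomm
    rw [hw1] at hcomm1
    have hcomm2 := congrArg SemidirectProduct.left hcomm1
    simp only [mul_left, left_inl, right_inl, map_one, MulAut.one_apply] at hcomm2
    rw [← hh, mul_comm m] at hcomm2
    have hmfix : act G p h m = m := mul_left_cancel hcomm2
    have hn : act G p h n = m⁻¹ * n := by
      rw [hm, mul_inv_rev, inv_inv, mul_assoc, inv_mul_cancel, mul_one]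
    have hiter : ∀ k : ℕ, (act G p (h ^ k)) n = (m⁻¹) ^ k * n := by
      intro k
      induction k with
      | zero => simp
      | succ k ih =>
        rw [pow_succ', map_mul, MulAut.mul_apply, ih, map_mul, map_pow, map_inv, hmfix, hn, ← mul_assoc, pow_succ]
    have h1 := hiter (Fintype.card G)
    rw [pow_card_eq_one, map_one, MulAut.one_apply] at h1
    have h2 : (m⁻¹) ^ (Fintype.card G) = 1 := by
      have := congrArg (fun z => z * n⁻¹) h1
      simp only [mul_inv_cancel, mul_assoc, mul_one] at this
      exact this.symm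
    have h3 : m⁻¹ ∈ (⊥ : Subgroup (aug G p)) :=
      mem_of_pow p ⊥ _ (Fintype.card G) hcop (aug_pow_p G p _) (by rw [Subgroup.mem_bot]; exact h2)
    rw [Subgroup.mem_bot, inv_eq_one] at h3
    rw [hn, h3, inv_one, one_mul]
  obtain ⟨a, ha⟩ : ∃ a : Multiplicative (ZMod p), a = Multiplicative.ofAdd 1 := ⟨_, rfl⟩
  have ha1 : a ≠ 1 := by
    intro h0
    have := congrArg Multiplicative.toAdd (ha ▸ h0)
    exact one_ne_zero (α := ZMod p) this
  have hmem : (Pi.mulSingle (1 : G) a * Pi.mulSingle h⁻¹ a⁻¹ : G → Multiplicative (ZMod p)) ∈ aug G p := by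
    show ∏ x, (Pi.mulSingle (1 : G) a * Pi.mulSingle h⁻¹ a⁻¹ : G → Multiplicative (ZMod p)) x = 1
    simp only [Pi.mul_apply]
    rw [Finset.prod_mul_distrib]
    simp [Pi.mulSingle_apply]
  have h1 := congrArg (fun z => z.1 1) (hfix ⟨_, hmem⟩)
  simp only [act_apply, Pi.mul_apply, mul_one, Pi.mulSingle_eq_same] at h1
  have hh2 : h⁻¹ ≠ 1 := inv_ne_one.2 hh1
  rw [Pi.mulSingle_eq_of_ne hh2, Pi.mulSingle_eq_of_ne (Ne.symm hh2), one_mul, mul_one] at h1
  -- a⁻¹ = a
  apply ha1
  have h2 : a ^ 2 = 1 := by
    rw [sq]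
    nth_rewrite 1 [← h1]
    exact inv_mul_cancel a
  have h3 : a ^ p = 1 := by
    apply Multiplicative.toAdd.injective
    rw [toAdd_pow]
    show p • (Multiplicative.toAdd a) = 0
    rw [nsmul_eq_mul, CharP.cast_eq_zero, zero_mul]
  have h4 := mem_of_pow p (⊥ : Subgroup (Multiplicative (ZMod p))) a 2
    ((Nat.coprime_primes Nat.prime_two Fact.out).2 (Ne.symm hp2)) h3 (by rw [Subgroup.mem_bot]; exact h2)
  exact Subgroup.mem_bot.1 h4

end Step

/-- Finite perfect groups have solvable maximal subgroups of unbounded derived length: for every d there is a finite perfect group G (equal to its commutator subgroup) with a solvable maximal subgroup H whose derived length exceeds d, i.e. the d-th term of the derived series of H is non-trivial. (Take the derived subgroup of a wreath product S ≀ A₅ with S solvable of large derived length, and H the preimage of a maximal subgroup of A₅.) -/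
theorem result (d : ℕ) :
    ∃ (G : Type) (_ : Group G) (_ : Finite G) (H : Subgroup G), commutator G = ⊤ ∧ IsCoatom H ∧ Group.IsSolvable H ∧
      derivedSeries H d ≠ ⊥ := by
  classical
  induction d with
  | zero =>
    haveI hs : IsSimpleGroup (alternatingGroup (Fin 5)) := alternatingGroup.isSimpleGroup (by simp)
    have hco := alternatingGroup.isCoatom_stabilizer_singleton (α := Fin 5) (by simp) (s := {0}) (Set.singleton_nonempty _) Set.subsingleton_singleton
    have hcardA : Nat.card (alternatingGroup (Fin 5)) = 60 := by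
      have h6 := (alternatingGroup (Fin 5)).card_mul_index
      rw [alternatingGroup.index_eq_two, Nat.card_perm, Nat.card_eq_fintype_card (α := Fin 5), Fintype.card_fin] at h6
      have : Nat.factorial 5 = 120 := rfl
      omega
    haveI htr : MulAction.IsPretransitive (alternatingGroup (Fin 5)) (Fin 5) :=
      alternatingGroup.isPretransitive_of_three_le_card (Fin 5) (by simp)
    have hcardS : Nat.card (MulAction.stabilizer (alternatingGroup (Fin 5)) ({0} : Set (Fin 5))) = 12 := by
      rw [MulAction.stabilizer_singleton]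
      have h1 := (MulAction.stabilizer (alternatingGroup (Fin 5)) (0 : Fin 5)).card_mul_index
      rw [MulAction.index_stabilizer_of_transitive (alternatingGroup (Fin 5)) (0 : Fin 5), hcardA,
        Nat.card_eq_fintype_card (α := Fin 5), Fintype.card_fin] at h1
      omega
    refine ⟨alternatingGroup (Fin 5), inferInstance, inferInstance, _, ?_, hco, ?_, ?_⟩
    · exact commutator_alternatingGroup_eq_top (by simp)
    · exact H3.Burnside.burnside 12 _ 2 3 2 1 Nat.prime_two Nat.prime_three hcardS (by norm_num)
    · rw [derivedSeries_zero]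
      intro h
      have h1 : Nat.card (⊤ : Subgroup (MulAction.stabilizer (alternatingGroup (Fin 5)) ({0} : Set (Fin 5)))) = 12 := by
        rw [Subgroup.card_top, hcardS]
      rw [h, Subgroup.card_bot] at h1
      omega
  | succ d ih =>
    obtain ⟨G, hG, hGf, H, hperf, hco, hsol, hder⟩ := ih
    letI : Fintype G := Fintype.ofFinite G
    obtain ⟨p, hpge, hp⟩ := Nat.exists_infinite_primes (Fintype.card G + 3)
    haveI : Fact p.Prime := ⟨hp⟩
    have hcop : Nat.Coprime (Fintype.card G) p := by
      rw [Nat.coprime_comm, hp.coprime_iff_not_dvd]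
      intro h
      have := Nat.le_of_dvd Fintype.card_pos h
      omega
    haveI : NeZero p := ⟨hp.ne_zero⟩
    haveI : Finite (Multiplicative (ZMod p)) := inferInstanceAs (Finite (ZMod p))
    haveI : Finite (SemidirectProduct (aug G p) G (act G p)) :=
      Finite.of_injective (fun x => (x.left, x.right)) (fun x y hxy => SemidirectProduct.ext
        (congrArg Prod.fst hxy) (congrArg Prod.snd hxy))
    refine ⟨SemidirectProduct (aug G p) G (act G p), inferInstance, inferInstance,
      H.comap (rightHom : aug G p ⋊[act G p] G →* G), perfect G p hcop hperf,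
      Subgroup.isCoatom_comap_of_surjective rightHom_surjective hco, ?_, step G p H d hcop (by omega) hder⟩
    -- solvable
    have hinl : ∀ n : aug G p, (inl n : aug G p ⋊[act G p] G) ∈ H.comap (rightHom : aug G p ⋊[act G p] G →* G) :=
      fun n => H.one_mem
    let ι : aug G p →* H.comap (rightHom : aug G p ⋊[act G p] G →* G) :=
      (inl : aug G p →* aug G p ⋊[act G p] G).codRestrict _ hinl
    haveI : Group.IsSolvable (aug G p) := Group.isSolvable_of_comm (fun a b => mul_comm a b)
    refine Group.isSolvable_of_ker_le_range ι ((rightHom : aug G p ⋊[act G p] G →* G).subgroupComap H) ?_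
    rintro ⟨x, hx⟩ hxk
    have h1 : x.right = 1 := congrArg Subtype.val hxk
    refine ⟨x.left, ?_⟩
    apply Subtype.ext
    show inl x.left = x
    have := inl_left_mul_inr_right x
    rw [h1, map_one, mul_one] at this
    exact this

end Cfsg.Agent.S5896
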