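import Cfsg.Statements.S5902
import Cfsg.Agent.S5901

set_option autoImplicit false
open Cfsg

namespace Cfsg.Agent.S5902

theorem compl_conj {G : Type*} [Group G] (H : Subgroup G) (b : G)
    (h : ∃ C : Subgroup G, H.map (MulAut.conj b).toMonoidHom ⊔ C = ⊤ ∧
      H.map (MulAut.conj b).toMonoidHom ⊓ C = ⊥) :
    ∃ C : Subgroup G, H ⊔ C = ⊤ ∧ H ⊓ C = ⊥ := by
  obtain ⟨C, h1, h2⟩ := h
  let e := (MulAut.conj b).mapSubgroup
  have he : H.map (MulAut.conj b).toMonoidHom = e H := rfl
  refine ⟨e.symm C, ?_, ?_⟩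
  · apply e.injective
    rw [map_sup, e.apply_symm_apply, ← he, h1, map_top]
  · apply e.injective
    rw [map_inf, e.apply_symm_apply, ← he, h2, map_bot]

theorem exists_conj_not_le {G : Type*} [Group G] (H M : Subgroup G) (h : ¬ H ≤ M.normalCore) :
    ∃ b : G, ¬ H.map (MulAut.conj b).toMonoidHom ≤ M := by
  obtain ⟨x, hx, hxM⟩ := SetLike.not_le_iff_exists.1 h
  have : ∃ b : G, b * x * b⁻¹ ∉ M := by
    by_contra hcon
    push Not at hcon
    exact hxM hcon
  obtain ⟨b, hb⟩ := this
  exact ⟨b, fun hle => hb (hle ⟨x, hx, rfl⟩)⟩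

theorem interval {G : Type*} [Group G] (X N : Subgroup G) (hNX : N ≤ X)
    [hn : (N.subgroupOf X).Normal] (hK : ComplementedLattice (Subgroup (X ⧸ N.subgroupOf X)))
    (Y : Subgroup G) (hNY : N ≤ Y) (hYX : Y ≤ X) :
    ∃ C : Subgroup G, N ≤ C ∧ C ≤ X ∧ Y ⊔ C = X ∧ Y ⊓ C = N := by
  obtain ⟨C', hC'⟩ := hK.exists_isCompl ((Y.subgroupOf X).map (QuotientGroup.mk' (N.subgroupOf X)))
  have hsurj := QuotientGroup.mk'_surjective (N.subgroupOf X)
  have hY : ((Y.subgroupOf X).map (QuotientGroup.mk' (N.subgroupOf X))).comap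
      (QuotientGroup.mk' (N.subgroupOf X)) = Y.subgroupOf X := by
    rw [Subgroup.comap_map_eq, QuotientGroup.ker_mk', sup_eq_left]
    exact Subgroup.comap_mono hNY
  obtain ⟨C0, hC0⟩ : ∃ C0 : Subgroup X, C0 = C'.comap (QuotientGroup.mk' (N.subgroupOf X)) := ⟨_, rfl⟩
  have h1 : Y.subgroupOf X ⊔ C0 = ⊤ := by
    have := congrArg (Subgroup.comap (QuotientGroup.mk' (N.subgroupOf X))) hC'.sup_eq_top
    rw [← Subgroup.comap_sup_eq _ _ _ hsurj, hY, Subgroup.comap_top] at this
    rw [hC0]; exact this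
  have h2 : Y.subgroupOf X ⊓ C0 = N.subgroupOf X := by
    have := congrArg (Subgroup.comap (QuotientGroup.mk' (N.subgroupOf X))) hC'.inf_eq_bot
    rw [Subgroup.comap_inf, hY, MonoidHom.comap_bot, QuotientGroup.ker_mk'] at this
    rw [hC0]; exact this
  have hmapY : (Y.subgroupOf X).map X.subtype = Y := by
    rw [Subgroup.subgroupOf_map_subtype, inf_eq_left]; exact hYX
  have hmapN : (N.subgroupOf X).map X.subtype = N := by
    rw [Subgroup.subgroupOf_map_subtype, inf_eq_left]; exact hNX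
  refine ⟨C0.map X.subtype, ?_, Subgroup.map_subtype_le _, ?_, ?_⟩
  · rw [← hmapN]
    apply Subgroup.map_mono
    rw [← h2]; exact inf_le_right
  · have := congrArg (Subgroup.map X.subtype) h1
    rw [Subgroup.map_sup, hmapY, ← MonoidHom.range_eq_map, Subgroup.range_subtype] at this
    exact this
  · have := congrArg (Subgroup.map X.subtype) h2
    rw [Subgroup.map_inf _ _ _ X.subtype_injective, hmapY, hmapN] at this
    exact this

/-- Let G be a finite group, X a subgroup whose own subgroup lattice is complemented, and suppose X lies in exactly one maximal subgroup M of G. Then every subgroup H of G not contained in the normal core of M has a complement in the subgroup lattice of G (some C with H ⊔ C = G and H ⊓ C = 1); in particular the subgroup lattice of G modulo the normal core of M is complemented. -/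
theorem result {G : Type*} [Group G] [Finite G] (X M : Subgroup G)
    (hK : ComplementedLattice (Subgroup X))
    (hM : IsCoatom M) (hXM : X ≤ M) (huniq : ∀ M' : Subgroup G, IsCoatom M' → X ≤ M' → M' = M) :
    (∀ H : Subgroup G, ¬ H ≤ M.normalCore → ∃ C : Subgroup G, H ⊔ C = ⊤ ∧ H ⊓ C = ⊥) ∧
    ComplementedLattice (Subgroup (G ⧸ M.normalCore)) := by
  have hX : X ≠ ⊤ := fun h => hM.1 (top_le_iff.1 (h ▸ hXM))
  have hint : ∀ Y : Subgroup G, ⊥ ≤ Y → Y ≤ X → ∃ C : Subgroup G, ⊥ ≤ C ∧ C ≤ X ∧ Y ⊔ C = X ∧ Y ⊓ C = ⊥ := by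
    intro Y _ hYX
    obtain ⟨C', hC'⟩ := hK.exists_isCompl (Y.subgroupOf X)
    have hmapY : (Y.subgroupOf X).map X.subtype = Y := by
      rw [Subgroup.subgroupOf_map_subtype, inf_eq_left]; exact hYX
    refine ⟨C'.map X.subtype, bot_le, Subgroup.map_subtype_le _, ?_, ?_⟩
    · have := congrArg (Subgroup.map X.subtype) hC'.sup_eq_top
      rw [Subgroup.map_sup, hmapY, ← MonoidHom.range_eq_map, Subgroup.range_subtype] at this
      exact this
    · have := congrArg (Subgroup.map X.subtype) hC'.inf_eq_bot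
      rw [Subgroup.map_inf _ _ _ X.subtype_injective, hmapY, Subgroup.map_bot] at this
      exact this
  have hmain : ∀ H : Subgroup G, ¬ H ≤ M.normalCore → ∃ C : Subgroup G, H ⊔ C = ⊤ ∧ H ⊓ C = ⊥ := by
    intro H hH
    obtain ⟨b, hb⟩ := exists_conj_not_le H M hH
    apply compl_conj H b
    exact Cfsg.Agent.S5901.result ⊥ X M bot_le hX hint hM hXM huniq _ hb (inf_bot_eq _)
  refine ⟨hmain, ⟨fun Hb => ?_⟩⟩
  by_cases hb : Hb = ⊥
  · exact ⟨⊤, by rw [hb]; exact isCompl_bot_top⟩
  · have hsurj := QuotientGroup.mk'_surjective M.normalCore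
    have hker : M.normalCore ≤ Hb.comap (QuotientGroup.mk' M.normalCore) := by
      conv_lhs => rw [← QuotientGroup.ker_mk' M.normalCore]
      exact MonoidHom.ker_le_comap _ _
    have hH : ¬ Hb.comap (QuotientGroup.mk' M.normalCore) ≤ M.normalCore := by
      intro hle
      apply hb
      rw [eq_bot_iff]
      intro x hx
      obtain ⟨g, rfl⟩ := hsurj x
      rw [Subgroup.mem_bot]
      exact (QuotientGroup.eq_one_iff g).2 (hle hx)
    obtain ⟨C, h1, h2⟩ := hmain _ hH
    have hmap : (Hb.comap (QuotientGroup.mk' M.normalCore)).map (QuotientGroup.mk' M.normalCore) = Hb :=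
      Subgroup.map_comap_eq_self_of_surjective hsurj _
    refine ⟨C.map (QuotientGroup.mk' M.normalCore), ?_⟩
    rw [isCompl_iff, disjoint_iff, codisjoint_iff]
    constructor
    · rw [eq_bot_iff]
      rintro _ ⟨hx, c, hc, rfl⟩
      have : c ∈ Hb.comap (QuotientGroup.mk' M.normalCore) ⊓ C := ⟨hx, hc⟩
      rw [h2, Subgroup.mem_bot] at this
      rw [this, map_one]
      exact Subgroup.one_mem _
    · have := congrArg (Subgroup.map (QuotientGroup.mk' M.normalCore)) h1
      rw [Subgroup.map_sup, hmap, ← MonoidHom.range_eq_map, MonoidHom.range_eq_top.2 hsurj] at this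
      exact this

end Cfsg.Agent.S5902
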