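import Cfsg.Statements.S5903
import Cfsg.Agent.S5902

set_option autoImplicit false
open Cfsg

namespace Cfsg.Agent.S5903


/-- Let G be a finite simple group, X a subgroup lying in exactly one maximal subgroup M of G, and N a subgroup of prime order with N ≤ X that is central in M. If the subgroup lattice of X/N is complemented, then the subgroup lattice of G is complemented. -/
theorem result {G : Type*} [Group G] [Finite G] [IsSimpleGroup G] (X M N : Subgroup G)
    (hM : IsCoatom M) (hXM : X ≤ M) (huniq : ∀ M' : Subgroup G, IsCoatom M' → X ≤ M' → M' = M)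
    (hNX : N ≤ X) (hN : (Nat.card N).Prime) (hcen : ∀ n ∈ N, ∀ m ∈ M, m * n = n * m)
    [(N.subgroupOf X).Normal] (hK : ComplementedLattice (Subgroup (X ⧸ N.subgroupOf X))) :
    ComplementedLattice (Subgroup G) := by
  have hX : X ≠ ⊤ := fun h => hM.1 (top_le_iff.1 (h ▸ hXM))
  haveI : Fact (Nat.card N).Prime := ⟨hN⟩
  refine ⟨fun H => ?_⟩
  suffices h : ∃ C : Subgroup G, H ⊔ C = ⊤ ∧ H ⊓ C = ⊥ by
    obtain ⟨C, h1, h2⟩ := h
    exact ⟨C, isCompl_iff.2 ⟨disjoint_iff.2 h2, codisjoint_iff.2 h1⟩⟩
  by_cases hb : H = ⊥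
  · exact ⟨⊤, by rw [hb]; simp, by rw [hb]; simp⟩
  by_cases hex : ∃ b : G, ¬ H.map (MulAut.conj b).toMonoidHom ≤ M ∧ H.map (MulAut.conj b).toMonoidHom ⊓ N = ⊥
  · obtain ⟨b, hb1, hb2⟩ := hex
    apply Cfsg.Agent.S5902.compl_conj H b
    exact Cfsg.Agent.S5901.result N X M hNX hX (Cfsg.Agent.S5902.interval X N hNX hK) hM hXM huniq _ hb1 hb2
  · -- every conjugate of N normalizes H
    push Not at hex
    have hnorm : ∀ b : G, ∀ n ∈ N, b⁻¹ * n * b ∈ Subgroup.normalizer (H : Set G) := by
      intro b n hn
      by_cases hle : H.map (MulAut.conj b).toMonoidHom ≤ M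
      · -- n commutes with b H b⁻¹
        have hc : ∀ h ∈ H, b⁻¹ * n * b * h * (b⁻¹ * n * b)⁻¹ = h := by
          intro h hh
          have h1 : b * h * b⁻¹ * n = n * (b * h * b⁻¹) := hcen n hn _ (hle ⟨h, hh, rfl⟩)
          have h2 : n * (b * h * b⁻¹) * n⁻¹ = b * h * b⁻¹ := by rw [← h1]; group
          calc b⁻¹ * n * b * h * (b⁻¹ * n * b)⁻¹ = b⁻¹ * (n * (b * h * b⁻¹) * n⁻¹) * b := by group
            _ = h := by rw [h2]; group
        rw [Subgroup.mem_normalizer_iff]
        intro h
        constructor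
        · intro hh
          rw [hc h hh]; exact hh
        · intro hh
          have h3 := hc _ hh
          have h4 : b⁻¹ * n * b * h * (b⁻¹ * n * b)⁻¹ = h := by
            have h5 := congrArg (fun z => (b⁻¹ * n * b)⁻¹ * z * (b⁻¹ * n * b)) h3
            have h6 : (b⁻¹ * n * b)⁻¹ * (b⁻¹ * n * b * h * (b⁻¹ * n * b)⁻¹) * (b⁻¹ * n * b) = h := by group
            rw [h6] at h5
            have h7 : (b⁻¹ * n * b)⁻¹ * (b⁻¹ * n * b * (b⁻¹ * n * b * h * (b⁻¹ * n * b)⁻¹) * (b⁻¹ * n * b)⁻¹) * (b⁻¹ * n * b)
              = b⁻¹ * n * b * h * (b⁻¹ * n * b)⁻¹ := by group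
            rw [h7] at h5
            exact h5
          rwa [h4] at hh
      · have hne := hex b hle
        -- N ≤ b H b⁻¹
        have hNle : N ≤ H.map (MulAut.conj b).toMonoidHom := by
          rcases ((H.map (MulAut.conj b).toMonoidHom).subgroupOf N).eq_bot_or_eq_top_of_prime_card with h | h
          · exfalso
            apply hne
            rw [Subgroup.subgroupOf_eq_bot] at h
            exact disjoint_iff.1 h
          · exact Subgroup.subgroupOf_eq_top.1 h
        obtain ⟨h, hh, hhn⟩ := hNle hn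
        have h1 : b * h * b⁻¹ = n := hhn
        have h2 : b⁻¹ * n * b = h := by rw [← h1]; group
        rw [h2]
        exact Subgroup.le_normalizer hh
    have htop : Subgroup.normalizer (H : Set G) = ⊤ := by
      have h1 : Subgroup.normalClosure (N : Set G) ≤ Subgroup.normalizer (H : Set G) := by
        unfold Subgroup.normalClosure
        rw [Subgroup.closure_le]
        intro x hx
        rw [Group.mem_conjugatesOfSet_iff] at hx
        obtain ⟨n, hn, hc⟩ := hx
        obtain ⟨c, hc⟩ := isConj_iff.1 hc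
        have := hnorm c⁻¹ n hn
        rw [inv_inv, hc] at this
        exact this
      rcases (Subgroup.normalClosure_normal (s := (N : Set G))).eq_bot_or_eq_top with h | h
      · exfalso
        have h2 : N ≤ ⊥ := by
          rw [← h]
          exact Subgroup.subset_normalClosure
        have h3 : N = ⊥ := le_bot_iff.1 h2
        rw [h3, Subgroup.card_bot] at hN
        exact Nat.not_prime_one hN
      · rw [h] at h1
        exact top_le_iff.1 h1
    have hHn : H.Normal := Subgroup.normalizer_eq_top_iff.1 htop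
    rcases hHn.eq_bot_or_eq_top with h | h
    · exact absurd h hb
    · exact ⟨⊥, by rw [h]; simp, by simp⟩

end Cfsg.Agent.S5903
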