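import Cfsg.Statements.S5904
import Mathlib

set_option autoImplicit false
open scoped Pointwise
open Cfsg

namespace Cfsg.Agent.S5904

/-- Let Ω be a finite set with more than two elements and O ⊆ Ω a subset with exactly as many elements as its complement. Then the setwise stabilizer of O in the symmetric group on Ω is not a maximal subgroup (it is properly contained in the stabilizer of the partition {O, Ω ∖ O}, which is proper). -/
theorem result {Ω : Type*} [Fintype Ω] [DecidableEq Ω] (hΩ : 2 < Fintype.card Ω)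
    (O : Set Ω) (hO : Nat.card O = Nat.card ↥Oᶜ) :
    ¬ IsCoatom (MulAction.stabilizer (Equiv.Perm Ω) O) := by
  classical
  intro hmax
  haveI : Nontrivial Ω := Fintype.one_lt_card_iff_nontrivial.mp (by omega)
  have hcard : Nat.card O + Nat.card ↥Oᶜ = Fintype.card Ω := by
    rw [← Nat.card_eq_fintype_card, ← Nat.card_congr (Equiv.Set.sumCompl O), Nat.card_sum]
  have hO0 : 1 < Nat.card O := by omega
  -- the block stabilizer
  let W : Subgroup (Equiv.Perm Ω) :=
    { carrier := {g | g • O = O ∨ g • O = Oᶜ}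
      one_mem' := Or.inl (one_smul _ _)
      mul_mem' := by
        rintro a b (ha | ha) (hb | hb)
        · left; rw [mul_smul, hb, ha]
        · right; rw [mul_smul, hb, Set.smul_set_compl, ha]
        · right; rw [mul_smul, hb, ha]
        · left; rw [mul_smul, hb, Set.smul_set_compl, ha, compl_compl]
      inv_mem' := by
        rintro a (ha | ha)
        · left; rw [inv_smul_eq_iff, ha]
        · right; rw [inv_smul_eq_iff, Set.smul_set_compl, ha, compl_compl] }
  have hle : MulAction.stabilizer (Equiv.Perm Ω) O ≤ W := fun g hg => Or.inl hg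
  -- a swap of the two halves
  obtain ⟨e⟩ : Nonempty (O ≃ ↥Oᶜ) := Finite.card_eq.mp hO
  have hlt : MulAction.stabilizer (Equiv.Perm Ω) O < W := by
    refine lt_of_le_of_ne hle ?_
    intro heq
    let f : Equiv.Perm Ω := (Equiv.Set.sumCompl O).symm.trans (((Equiv.sumComm _ _).trans (Equiv.sumCongr e.symm e)).trans (Equiv.Set.sumCompl O))
    have hf : ∀ x (hx : x ∈ O), f x = (e ⟨x, hx⟩ : Ω) := by
      intro x hx
      show (Equiv.Set.sumCompl O) ((Equiv.sumCongr e.symm e) ((Equiv.sumComm _ _) ((Equiv.Set.sumCompl O).symm x))) = _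
      rw [Equiv.Set.sumCompl_symm_apply_of_mem hx]
      rfl
    have hfO : f • O = Oᶜ := by
      apply Set.eq_of_subset_of_ncard_le
      · rintro _ ⟨x, hx, rfl⟩
        show f x ∈ Oᶜ
        rw [hf x hx]; exact (e ⟨x, hx⟩).2
      · rw [Set.ncard_smul_set, ← Nat.card_coe_set_eq, ← Nat.card_coe_set_eq, hO]
      · exact Set.toFinite _
    have hfW : f ∈ W := Or.inr hfO
    rw [← heq] at hfW
    have h1 : f • O = O := hfW
    rw [h1] at hfO
    have h2 : (O : Set Ω).Nonempty := by
      by_contra hne
      rw [Set.not_nonempty_iff_eq_empty] at hne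
      rw [hne] at hO0
      simp at hO0
    obtain ⟨x, hx⟩ := h2
    have h3 := hx
    rw [hfO] at h3
    exact h3 hx
  have hW := hmax.2 W hlt
  -- but `W` is proper: a transposition mixing the parts
  obtain ⟨⟨a, ha⟩, ⟨b, hb⟩, hab⟩ : ∃ a b : O, a ≠ b := by
    haveI : Nontrivial O := Finite.one_lt_card_iff_nontrivial.mp hO0
    exact exists_pair_ne O
  obtain ⟨⟨c, hc⟩⟩ : Nonempty ↥Oᶜ := ⟨e ⟨a, ha⟩⟩
  have h1 : Equiv.swap a c ∈ W := by rw [hW]; trivial
  have hba : b ≠ a := fun h => hab (Subtype.ext h.symm)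
  have hbc : b ≠ c := fun h => hc (h ▸ hb)
  rcases h1 with h1 | h1
  · apply hc
    rw [← h1]
    exact ⟨a, ha, Equiv.swap_apply_left a c⟩
  · have : b ∈ (Oᶜ : Set Ω) := by
      rw [← h1]
      exact ⟨b, hb, Equiv.swap_apply_of_ne_of_ne hba hbc⟩
    exact this hb

end Cfsg.Agent.S5904
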