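import Cfsg.Statements.S5905

set_option autoImplicit false
open Cfsg

namespace Cfsg.Agent.S5905

open Equiv MulAction Subgroup

variable {Ω : Type*} [Fintype Ω] [DecidableEq Ω]

def pres {b : ℕ} (f : Ω → Fin b) : Subgroup (Perm Ω) where
  carrier := {g : Perm Ω | ∀ x y : Ω, f x = f y ↔ f (g x) = f (g y)}
  one_mem' := fun _ _ => Iff.rfl
  mul_mem' := fun {g h} hg hh x y => (hh x y).trans (hg (h x) (h y))
  inv_mem' := fun {g} hg x y => by
    have := hg (g⁻¹ x) (g⁻¹ y)
    rw [← Perm.mul_apply, ← Perm.mul_apply, mul_inv_cancel] at this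
    exact this.symm

theorem exists_e {b a : ℕ} (f : Ω → Fin b) (hf : ∀ i : Fin b, Nat.card {x : Ω // f x = i} = a) :
    ∃ e : Ω ≃ (Fin b × Fin a), ∀ x, (e x).1 = f x := by
  classical
  have h1 : ∀ i : Fin b, Nonempty ({x : Ω // f x = i} ≃ Fin a) := fun i => by
    rw [← hf i]; exact ⟨Finite.equivFin _⟩
  obtain ⟨e1⟩ : Nonempty (∀ i : Fin b, ({x : Ω // f x = i} ≃ Fin a)) := ⟨fun i => (h1 i).some⟩
  let e : Ω ≃ (Fin b × Fin a) := (Equiv.sigmaFiberEquiv f).symm.trans
    ((Equiv.sigmaCongrRight e1).trans (Equiv.sigmaEquivProd (Fin b) (Fin a)))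
  exact ⟨e, fun x => rfl⟩

/-- Let Ω be a finite set and f : Ω → Fin b a map onto b ≥ 2 labels whose fibres all have the same size a ≥ 2 (a partition of Ω into b blocks of size a, so |Ω| = ab). Then the stabilizer of this partition in the symmetric group on Ω — the permutations g such that x and y lie in the same block exactly when g x and g y do, a group isomorphic to the imprimitive wreath product S_a ≀ S_b — is a maximal subgroup of the symmetric group. -/
theorem result {Ω : Type*} [Fintype Ω] [DecidableEq Ω] (a b : ℕ) (ha : 2 ≤ a) (hb : 2 ≤ b)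
    (f : Ω → Fin b) (hf : ∀ i : Fin b, Nat.card {x : Ω // f x = i} = a) :
    IsCoatom (Subgroup.closure {g : Equiv.Perm Ω | ∀ x y : Ω, f x = f y ↔ f (g x) = f (g y)}) := by
  classical
  have hcl : Subgroup.closure {g : Equiv.Perm Ω | ∀ x y : Ω, f x = f y ↔ f (g x) = f (g y)} = pres f := by
    have : {g : Equiv.Perm Ω | ∀ x y : Ω, f x = f y ↔ f (g x) = f (g y)} = (pres f : Set (Perm Ω)) := rfl
    rw [this, Subgroup.closure_eq]
  rw [hcl]
  obtain ⟨e, he⟩ := exists_e f hf
  have hex : ∀ i : Fin b, ∃ x x' : Ω, x ≠ x' ∧ f x = i ∧ f x' = i := by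
    intro i
    refine ⟨e.symm (i, ⟨0, by omega⟩), e.symm (i, ⟨1, by omega⟩), ?_, ?_, ?_⟩
    · intro h
      have := e.symm.injective h
      simp at this
    · rw [← he, e.apply_symm_apply]
    · rw [← he, e.apply_symm_apply]
  have hsw : ∀ x y : Ω, f x = f y → swap x y ∈ pres f := by
    intro x y hxy u v
    have h1 : ∀ u, f (swap x y u) = f u := by
      intro u
      by_cases hu : u = x
      · rw [hu, swap_apply_left, hxy]
      · by_cases hu2 : u = y
        · rw [hu2, swap_apply_right, hxy]
        · rw [swap_apply_of_ne_of_ne hu hu2]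
    rw [h1, h1]
  constructor
  · intro htop
    obtain ⟨x, x', hne, hx, hx'⟩ := hex ⟨0, by omega⟩
    obtain ⟨y, _, _, hy, _⟩ := hex ⟨1, by omega⟩
    have h1 : swap x' y ∈ pres f := by rw [htop]; trivial
    have hfy : f x ≠ f y := by rw [hx, hy]; simp
    have hxy : x ≠ y := fun h => hfy (by rw [h])
    have h2 := (h1 x x').1 (hx.trans hx'.symm)
    rw [swap_apply_of_ne_of_ne hne hxy, swap_apply_left] at h2
    exact hfy h2
  · intro H hH
    have hle := hH.le
    -- relation
    have hrefl : ∀ x, swap x x ∈ H := fun x => by rw [swap_self]; exact H.one_mem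
    have hconj : ∀ h ∈ H, ∀ x y, swap x y ∈ H → swap (h x) (h y) ∈ H := by
      intro h hh x y hxy
      have : swap (h x) (h y) = h * swap x y * h⁻¹ := by
        rw [Equiv.mul_swap_eq_swap_mul, mul_inv_cancel_right]
      rw [this]
      exact H.mul_mem (H.mul_mem hh hxy) (H.inv_mem hh)
    have htrans : ∀ x y z, swap x y ∈ H → swap y z ∈ H → swap x z ∈ H := by
      intro x y z hxy hyz
      by_cases h1 : z = x
      · rw [h1]; exact hrefl x
      · by_cases h2 : z = y
        · rw [h2]; exact hxy
        · have := hconj _ hxy y z hyz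
          rwa [swap_apply_right, swap_apply_of_ne_of_ne h1 h2] at this
    obtain ⟨h, hhH, hhM⟩ := Set.exists_of_ssubset (show (pres f : Set (Perm Ω)) ⊂ H from hH)
    have hbreak : ∃ x y, f x ≠ f y ∧ swap x y ∈ H := by
      have h1 : ¬ ∀ x y : Ω, f x = f y ↔ f (h x) = f (h y) := hhM
      push Not at h1
      obtain ⟨x, y, h1⟩ := h1
      rcases h1 with ⟨h2, h3⟩ | ⟨h2, h3⟩
      · exact ⟨h x, h y, h3, hconj h hhH x y (hle (hsw x y h2))⟩
      · refine ⟨x, y, h2, ?_⟩
        have := hconj h⁻¹ (H.inv_mem hhH) _ _ (hle (hsw (h x) (h y) h3))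
        rwa [← Perm.mul_apply, ← Perm.mul_apply, inv_mul_cancel] at this
    obtain ⟨x, y, hxy, hxyH⟩ := hbreak
    have hall : ∀ u v : Ω, swap u v ∈ H := by
      intro u v
      by_cases huv : f u = f v
      · exact hle (hsw u v huv)
      · obtain ⟨π, hπ1, hπ2⟩ : ∃ π : Perm (Fin b), π (f x) = f u ∧ π (f y) = f v := by
          refine ⟨swap (swap (f x) (f u) (f y)) (f v) * swap (f x) (f u), ?_, ?_⟩
          · rw [Perm.mul_apply, swap_apply_left]
            apply swap_apply_of_ne_of_ne
            · intro h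
              have := (swap (f x) (f u)).injective ((swap_apply_left (f x) (f u)).trans h)
              exact hxy this
            · exact huv
          · rw [Perm.mul_apply, swap_apply_left]
        let m : Perm Ω := (e.trans (Equiv.prodCongr π (Equiv.refl (Fin a)))).trans e.symm
        have hm : ∀ z, f (m z) = π (f z) := by
          intro z
          rw [← he, ← he]
          show (e (e.symm _)).1 = _
          rw [e.apply_symm_apply]
          rfl
        have hmM : m ∈ pres f := by
          intro u v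
          rw [hm, hm]
          exact π.injective.eq_iff.symm
        have h1 := hconj m (hle hmM) x y hxyH
        have h2 : swap u (m x) ∈ H := hle (hsw u (m x) (by rw [hm, hπ1]))
        have h3 : swap (m y) v ∈ H := hle (hsw (m y) v (by rw [hm, hπ2]))
        exact htrans _ _ _ (htrans _ _ _ h2 h1) h3
    rw [eq_top_iff, ← Equiv.Perm.closure_isSwap, Subgroup.closure_le]
    rintro _ ⟨u, v, _, rfl⟩
    exact hall u v

end Cfsg.Agent.S5905
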