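import Cfsg.Statements.S5908
import Cfsg.Agent.H5_U32

set_option autoImplicit false
open Cfsg

namespace Cfsg.Agent.S5908

open Cfsg.Agent

theorem q8_frat : ∀ x : QuaternionGroup 2, x = 1 ∨ x = QuaternionGroup.a 2 ∨ x * x = QuaternionGroup.a 2 := by decide

/-- The subgroup lattice of PSU₃(2) (the solvable group of order 72, realised over the field with 4 elements) is not complemented: some subgroup H has no subgroup X with H ⊔ X = ⊤ and H ⊓ X = ⊥. -/
theorem result {F : Type*} [Field F] [Fintype F] (hF : Fintype.card F = 4) :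
    ¬ ComplementedLattice (Subgroup (Cfsg.PSU 3 F 2)) := by
  intro hcl
  obtain ⟨-, N, hN, hN9, hN3, ⟨e⟩⟩ := H5.U32.main (F := F) hF
  let f : Cfsg.PSU 3 F 2 →* QuaternionGroup 2 := e.toMonoidHom.comp (QuotientGroup.mk' N)
  have hf : Function.Surjective f := e.surjective.comp (QuotientGroup.mk'_surjective N)
  let Z : Subgroup (QuaternionGroup 2) := Subgroup.zpowers (QuaternionGroup.a 2)
  obtain ⟨X, hX⟩ := hcl.exists_isCompl (Z.comap f)
  have h1 : X.map f ⊔ Z = ⊤ := by
    have h2 := hX.sup_eq_top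
    have h3 := congrArg (Subgroup.map f) h2
    rw [Subgroup.map_sup, Subgroup.map_comap_eq_self_of_surjective hf, Subgroup.map_top_of_surjective f hf] at h3
    rw [sup_comm]; exact h3
  have h2 : ∃ y ∈ X.map f, y ∉ Z := by
    by_contra hno
    push Not at hno
    have h3 : X.map f ≤ Z := hno
    rw [sup_eq_right.2 h3] at h1
    have h4 : (QuaternionGroup.a 1 : QuaternionGroup 2) ∈ Z := by rw [h1]; trivial
    obtain ⟨k, hk⟩ := Subgroup.mem_zpowers_iff.1 h4
    have hsq : (QuaternionGroup.a 2 : QuaternionGroup 2) * QuaternionGroup.a 2 = 1 := by decide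
    rcases Int.even_or_odd k with ⟨m, hm⟩ | ⟨m, hm⟩
    · rw [hm, ← two_mul, zpow_mul, zpow_ofNat, pow_two, hsq, one_zpow] at hk
      revert hk; decide
    · rw [hm, zpow_add, zpow_mul, zpow_ofNat, pow_two, hsq, one_zpow, one_mul, zpow_one] at hk
      revert hk; decide
  obtain ⟨_, ⟨x, hx, rfl⟩, hyZ⟩ := h2
  have h3 : f x * f x = QuaternionGroup.a 2 := by
    rcases q8_frat (f x) with h | h | h
    · exact absurd (by rw [h]; exact Z.one_mem) hyZ
    · exact absurd (by rw [h]; exact Subgroup.mem_zpowers _) hyZ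
    · exact h
  set u := x * x with hu
  have hfu : f u = QuaternionGroup.a 2 := by rw [hu, map_mul, h3]
  have huX : u ∈ X := X.mul_mem hx hx
  have h4 : f (u * u) = 1 := by rw [map_mul, hfu]; decide
  have h5 : u * u ∈ N := by
    have : (QuotientGroup.mk (u * u) : Cfsg.PSU 3 F 2 ⧸ N) = 1 := e.injective (by rw [map_one]; exact h4)
    exact (QuotientGroup.eq_one_iff _).1 this
  have h6 := hN3 _ h5
  have h7 : u ^ 3 ∈ Z.comap f := by
    rw [Subgroup.mem_comap, map_pow, hfu]
    exact Subgroup.pow_mem _ (Subgroup.mem_zpowers _) 3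
  have h8 : u ^ 3 ∈ Z.comap f ⊓ X := ⟨h7, X.pow_mem huX 3⟩
  rw [hX.inf_eq_bot, Subgroup.mem_bot] at h8
  have h9 := congrArg f h8
  rw [map_pow, hfu, map_one] at h9
  revert h9; decide

end Cfsg.Agent.S5908
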