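import Cfsg.Statements.S5911
import Cfsg.Agent.H19_SymIdx

set_option autoImplicit false
open Cfsg

namespace Cfsg.Agent.S5911

open Equiv MulAction Subgroup

/-- Let Ω be a finite set whose size n is not 6. Then every subgroup of the symmetric group on Ω of index n is the stabilizer of a point. -/
theorem result {Ω : Type*} [Fintype Ω] [DecidableEq Ω] (h6 : Fintype.card Ω ≠ 6)
    (H : Subgroup (Equiv.Perm Ω)) (hH : H.index = Fintype.card Ω) :
    ∃ x : Ω, H = MulAction.stabilizer (Equiv.Perm Ω) x := by
  classical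
  rcases Nat.lt_or_ge (Fintype.card Ω) 5 with h5 | h5
  · -- transitive would give n ∣ (n-1)!
    rcases Nat.lt_or_ge (Fintype.card Ω) 2 with h2 | h2
    · have hpos : H.index ≠ 0 := Subgroup.index_ne_zero_of_finite
      have h1 : Fintype.card Ω = 1 := by omega
      obtain ⟨x, hx⟩ := Fintype.card_eq_one_iff.1 h1
      refine ⟨x, ?_⟩
      rw [h1] at hH
      rw [Subgroup.index_eq_one.1 hH]
      symm
      rw [eq_top_iff]
      intro g _
      exact hx _
    · apply H19.SymIdx.stab_of_intrans H hH
      intro htr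
      haveI : Nonempty Ω := Fintype.card_pos_iff.1 (by omega)
      obtain ⟨x⟩ := (inferInstance : Nonempty Ω)
      have hd : Fintype.card Ω ∣ Nat.card H := by
        have := index_stabilizer_of_transitive H x
        rw [← Nat.card_eq_fintype_card, ← this]
        exact Subgroup.index_dvd_card _
      have hcard : Nat.card H * Fintype.card Ω = (Fintype.card Ω).factorial := by
        rw [← hH, Subgroup.card_mul_index, Nat.card_perm, Nat.card_eq_fintype_card, hH]
      obtain ⟨m, hm⟩ : ∃ m, Nat.card H = m := ⟨_, rfl⟩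
      rw [hm] at hd hcard
      have hn : Fintype.card Ω = 2 ∨ Fintype.card Ω = 3 ∨ Fintype.card Ω = 4 := by omega
      rcases hn with h | h | h <;> rw [h] at hd hcard <;> simp [Nat.factorial] at hcard <;> omega
  · obtain ⟨φ, hφ⟩ := H19.SymIdx.exists_iso h5 H hH
    have hfin : Finite (Perm Ω ⧸ H) := inferInstance
    letI : Fintype (Perm Ω ⧸ H) := Fintype.ofFinite _
    have hcX : Fintype.card (Perm Ω ⧸ H) = Fintype.card Ω := by
      rw [← Nat.card_eq_fintype_card, ← Subgroup.index_eq_card, hH]
    obtain ⟨y, hy⟩ := H19.SymIdx.comap_stab φ hcX (by omega)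
      (fun τ hτ => (H19.SymIdx.preimage_swap φ hcX hτ).resolve_right (fun h => h6 h.1))
      ((1 : Perm Ω) : Perm Ω ⧸ H)
    exact ⟨y, hφ.trans hy⟩

end Cfsg.Agent.S5911
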