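import Cfsg.Statements.S5912
import Cfsg.Agent.H19_SymIdx2

set_option autoImplicit false
open Cfsg

namespace Cfsg.Agent.S5912

open Equiv MulAction Subgroup

/-- The symmetric group on a 6-element set Ω has exactly two conjugacy classes of subgroups of index 6: there are two non-conjugate subgroups of index 6 (a point stabilizer and a transitive subgroup isomorphic to S₅), and every subgroup of index 6 is conjugate to one of them. -/
theorem result {Ω : Type*} [Fintype Ω] [DecidableEq Ω] (h6 : Fintype.card Ω = 6) :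
    ∃ H₁ H₂ : Subgroup (Equiv.Perm Ω), H₁.index = 6 ∧ H₂.index = 6 ∧
      (¬ ∃ g : Equiv.Perm Ω, Subgroup.map (MulAut.conj g).toMonoidHom H₁ = H₂) ∧
      ∀ H : Subgroup (Equiv.Perm Ω), H.index = 6 →
        ∃ g : Equiv.Perm Ω, Subgroup.map (MulAut.conj g).toMonoidHom H₁ = H ∨ Subgroup.map (MulAut.conj g).toMonoidHom H₂ = H := by
  classical
  haveI : Nonempty Ω := Fintype.card_pos_iff.1 (by omega)
  obtain ⟨x1⟩ := (inferInstance : Nonempty Ω)
  obtain ⟨H₂, h2, hn2⟩ := H19.SymIdx.exists_exotic h6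
  refine ⟨stabilizer (Perm Ω) x1, H₂, ?_, h2, ?_, ?_⟩
  · rw [index_stabilizer_of_transitive (Perm Ω) x1, Nat.card_eq_fintype_card, h6]
  · rintro ⟨g, hg⟩
    rw [H19.SymIdx.conj_stab] at hg
    exact hn2 _ hg.symm
  · intro H hH
    by_cases h : ∃ y : Ω, H = stabilizer (Perm Ω) y
    · obtain ⟨y, rfl⟩ := h
      refine ⟨swap x1 y, Or.inl ?_⟩
      rw [H19.SymIdx.conj_stab, swap_apply_left]
    · push Not at h
      obtain ⟨g, hg⟩ := H19.SymIdx.conj_of_not h6 H₂ H h2 hH hn2 h
      exact ⟨g, Or.inr hg⟩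

end Cfsg.Agent.S5912
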