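import Cfsg.Statements.S5913

set_option autoImplicit false
open Cfsg

namespace Cfsg.Agent.S5913


/-- Let S be a non-abelian simple group and n a natural number. Every normal subgroup N of the direct power S^n (functions Fin n → S) is a subproduct: there is a set T of coordinates such that N consists exactly of the elements whose coordinates outside T are trivial. In particular the minimal normal subgroups of S^n are its n factors. -/
theorem result {S : Type*} [Group S] [IsSimpleGroup S] (hS : ¬ IsMulCommutative S) (n : ℕ)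
    (N : Subgroup (Fin n → S)) [N.Normal] :
    ∃ T : Finset (Fin n), ∀ x : Fin n → S, x ∈ N ↔ ∀ i, i ∉ T → x i = 1 := by
  classical
  have hcenter : ∀ s : S, s ≠ 1 → ∃ t : S, s * t * s⁻¹ * t⁻¹ ≠ 1 := by
    intro s hs
    by_contra hcon
    push Not at hcon
    have hsc : s ∈ Subgroup.center S := by
      rw [Subgroup.mem_center_iff]
      intro t
      have h1 := hcon t
      have h2 : s * t * s⁻¹ = t := mul_inv_eq_one.1 h1
      rw [mul_inv_eq_iff_eq_mul] at h2
      exact h2.symm
    rcases (inferInstance : (Subgroup.center S).Normal).eq_bot_or_eq_top with h | h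
    · rw [h, Subgroup.mem_bot] at hsc
      exact hs hsc
    · apply hS
      refine ⟨⟨fun a b => ?_⟩⟩
      have : b ∈ Subgroup.center S := by rw [h]; trivial
      exact Subgroup.mem_center_iff.1 this a
  refine ⟨Finset.univ.filter (fun i => ∃ x ∈ N, x i ≠ 1), fun x => ?_⟩
  constructor
  · intro hx i hi
    by_contra hne
    exact hi (Finset.mem_filter.2 ⟨Finset.mem_univ _, x, hx, hne⟩)
  · intro h
    apply Subgroup.pi_mem_of_mulSingle_mem
    intro i
    by_cases hi : ∃ y ∈ N, y i ≠ 1
    · obtain ⟨y, hyN, hy⟩ := hi
      obtain ⟨t, ht⟩ := hcenter (y i) hy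
      have h1 : y * Pi.mulSingle i t * y⁻¹ * (Pi.mulSingle i t)⁻¹ ∈ N := by
        have h2 : y * (Pi.mulSingle i t * y⁻¹ * (Pi.mulSingle i t)⁻¹) ∈ N :=
          N.mul_mem hyN (Subgroup.Normal.conj_mem inferInstance _ (N.inv_mem hyN) _)
        rwa [← mul_assoc, ← mul_assoc] at h2
      have h3 : y * Pi.mulSingle i t * y⁻¹ * (Pi.mulSingle i t)⁻¹ =
          (Pi.mulSingle i (y i * t * (y i)⁻¹ * t⁻¹) : Fin n → S) := by
        funext j
        by_cases hj : j = i
        · subst hj; simp
        · simp [Pi.mulSingle_eq_of_ne hj]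
      rw [h3] at h1
      have h4 : (N.comap (MonoidHom.mulSingle (fun _ : Fin n => S) i)).Normal := inferInstance
      rcases h4.eq_bot_or_eq_top with h5 | h5
      · exfalso
        have : (y i * t * (y i)⁻¹ * t⁻¹) ∈ N.comap (MonoidHom.mulSingle (fun _ : Fin n => S) i) := h1
        rw [h5, Subgroup.mem_bot] at this
        exact ht this
      · have : x i ∈ N.comap (MonoidHom.mulSingle (fun _ : Fin n => S) i) := by rw [h5]; trivial
        exact this
    · have h1 : x i = 1 := h i (fun hmem => hi (Finset.mem_filter.1 hmem).2)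
      rw [h1, Pi.mulSingle_one]
      exact N.one_mem

end Cfsg.Agent.S5913
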