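import Cfsg.Statements.S5914
import Cfsg.Agent.S0721
import Cfsg.Agent.S5913

set_option autoImplicit false
open Cfsg

namespace Cfsg.Agent.S5914

/-- powers of simple groups are characteristically simple -/
theorem pow_charsimple {S : Type*} [Group S] [IsSimpleGroup S] (n : ℕ) (H : Subgroup (Fin n → S))
    (hH : H.Characteristic) : H = ⊥ ∨ H = ⊤ := by
  classical
  by_cases hbot : H = ⊥
  · exact Or.inl hbot
  right
  have hnorm : H.Normal := inferInstance
  obtain ⟨⟨x, hx⟩, hx1⟩ := Subgroup.ne_bot_iff_exists_ne_one.1 hbot
  have hx1' : x ≠ 1 := fun h => hx1 (Subtype.ext h)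
  obtain ⟨i, hi⟩ : ∃ i, x i ≠ 1 := by
    by_contra hcon
    push Not at hcon
    exact hx1' (funext hcon)
  have haut : ∀ (φ : (Fin n → S) ≃* (Fin n → S)) (y : Fin n → S), y ∈ H → φ y ∈ H := by
    intro φ y hy
    have := Subgroup.characteristic_iff_comap_eq.1 hH φ
    rw [← this] at hy
    exact hy
  -- coordinate permutations
  have hperm : ∀ (σ : Equiv.Perm (Fin n)) (y : Fin n → S), y ∈ H → (fun j => y (σ j)) ∈ H := by
    intro σ y hy
    exact haut (MulEquiv.arrowCongr σ.symm (MulEquiv.refl S)) y hy
  have hall : (∀ j, ∃ s : S, s ≠ 1 ∧ Pi.mulSingle j s ∈ H) → H = ⊤ := by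
    intro h
    rw [eq_top_iff]
    intro y _
    apply Subgroup.pi_mem_of_mulSingle_mem
    intro j
    obtain ⟨s, hs, hsH⟩ := h j
    have h4 : (H.comap (MonoidHom.mulSingle (fun _ : Fin n => S) j)).Normal := inferInstance
    rcases h4.eq_bot_or_eq_top with h5 | h5
    · exfalso
      have : s ∈ H.comap (MonoidHom.mulSingle (fun _ : Fin n => S) j) := hsH
      rw [h5, Subgroup.mem_bot] at this
      exact hs this
    · have : y j ∈ H.comap (MonoidHom.mulSingle (fun _ : Fin n => S) j) := by rw [h5]; trivial
      exact this
  have hsingle : ∀ (j k : Fin n) (s : S), Pi.mulSingle j s ∈ H → Pi.mulSingle k s ∈ H := by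
    intro j k s h
    have := hperm (Equiv.swap j k) _ h
    convert this using 1
    funext l
    by_cases hl : l = k
    · subst hl; simp
    · rw [Pi.mulSingle_eq_of_ne hl, Pi.mulSingle_eq_of_ne]
      intro h
      apply hl
      have := congrArg (Equiv.swap j k) h
      rwa [Equiv.swap_apply_self, Equiv.swap_apply_left] at this
  by_cases hS : IsMulCommutative S
  · by_cases hn : ∃ j, j ≠ i
    · obtain ⟨j, hj⟩ := hn
      -- the transvection automorphism y ↦ y * single j (y i)
      have hcomm : ∀ a b : S, a * b = b * a := fun a b => IsMulCommutative.is_comm.comm a b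
      let τ : (Fin n → S) →* (Fin n → S) :=
        { toFun := fun y => y * Pi.mulSingle j (y i)
          map_one' := by simp
          map_mul' := by
            intro y z
            funext l
            by_cases hl : l = j
            · subst hl
              simp only [Pi.mul_apply, Pi.mulSingle_eq_same]
              rw [mul_assoc, mul_assoc, ← mul_assoc (z l), hcomm (z l) (y i), mul_assoc]
            · simp [Pi.mulSingle_eq_of_ne hl] }
      let τ' : (Fin n → S) →* (Fin n → S) :=
        { toFun := fun y => y * Pi.mulSingle j (y i)⁻¹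
          map_one' := by simp
          map_mul' := by
            intro y z
            funext l
            by_cases hl : l = j
            · subst hl
              simp only [Pi.mul_apply, Pi.mulSingle_eq_same, mul_inv_rev]
              rw [hcomm (z i)⁻¹ (y i)⁻¹, mul_assoc, mul_assoc, ← mul_assoc (z l), hcomm (z l) (y i)⁻¹, mul_assoc]
            · simp [Pi.mulSingle_eq_of_ne hl] }
      have h1 : ∀ y, τ' (τ y) = y := by
        intro y
        show (y * Pi.mulSingle j (y i)) * Pi.mulSingle j ((y * Pi.mulSingle j (y i) : Fin n → S) i)⁻¹ = y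
        have h2 : ((y * Pi.mulSingle j (y i) : Fin n → S) i) = y i := by
          rw [Pi.mul_apply, Pi.mulSingle_eq_of_ne (Ne.symm hj), mul_one]
        rw [h2, mul_assoc, ← Pi.mulSingle_mul, mul_inv_cancel, Pi.mulSingle_one, mul_one]
      have h1' : ∀ y, τ (τ' y) = y := by
        intro y
        show (y * Pi.mulSingle j (y i)⁻¹) * Pi.mulSingle j ((y * Pi.mulSingle j (y i)⁻¹ : Fin n → S) i) = y
        have h2 : (y * Pi.mulSingle j (y i)⁻¹ : Fin n → S) i = y i := by
          rw [Pi.mul_apply, Pi.mulSingle_eq_of_ne (Ne.symm hj), mul_one]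
        rw [h2, mul_assoc, ← Pi.mulSingle_mul, inv_mul_cancel, Pi.mulSingle_one, mul_one]
      let e : (Fin n → S) ≃* (Fin n → S) := MonoidHom.toMulEquiv τ τ' (MonoidHom.ext h1) (MonoidHom.ext h1')
      have h3 : x * Pi.mulSingle j (x i) ∈ H := haut e x hx
      have h4 : Pi.mulSingle j (x i) ∈ H := by
        have := H.mul_mem (H.inv_mem hx) h3
        rwa [inv_mul_cancel_left] at this
      exact hall (fun k => ⟨x i, hi, hsingle j k _ h4⟩)
    · push Not at hn
      apply hall
      intro j
      refine ⟨x i, hi, ?_⟩
      convert hx using 1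
      funext l
      rw [hn l, hn j, Pi.mulSingle_eq_same]
  · obtain ⟨T, hT⟩ := Cfsg.Agent.S5913.result hS n H
    apply hall
    intro j
    have hiT : i ∈ T := by
      by_contra h
      exact hi ((hT x).1 hx i h)
    refine ⟨x i, hi, hsingle i j _ ?_⟩
    rw [hT]
    intro k hk
    apply Pi.mulSingle_eq_of_ne
    rintro rfl
    exact hk hiT

/-- A non-trivial finite group G is characteristically simple (its only characteristic subgroups are 1 and G) if and only if G is isomorphic to a direct power S^n (n ≥ 1) of some simple group S (possibly cyclic of prime order). -/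
theorem result {G : Type*} [Group G] [Finite G] [Nontrivial G] :
    (∀ H : Subgroup G, H.Characteristic → H = ⊥ ∨ H = ⊤) ↔
    ∃ (S : Type) (_ : Group S) (_ : IsSimpleGroup S) (n : ℕ), 1 ≤ n ∧ Nonempty (G ≃* (Fin n → S)) := by
  classical
  constructor
  · intro h
    let φ : MulAut G →* MulAut G := MonoidHom.id _
    haveI : Finite (SemidirectProduct G (MulAut G) φ) :=
      Finite.of_injective (fun x => (x.left, x.right)) (fun x y hxy => SemidirectProduct.ext
        (congrArg Prod.fst hxy) (congrArg Prod.snd hxy))
    let N : Subgroup (SemidirectProduct G (MulAut G) φ) := (SemidirectProduct.inl : G →* _).range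
    haveI hN : N.Normal := by
      show ((SemidirectProduct.inl : G →* SemidirectProduct G (MulAut G) φ).range).Normal
      rw [SemidirectProduct.range_inl_eq_ker_rightHom]
      infer_instance
    have hinj : Function.Injective (SemidirectProduct.inl : G →* SemidirectProduct G (MulAut G) φ) :=
      SemidirectProduct.inl_injective
    have hNb : N ≠ ⊥ := by
      intro hb
      obtain ⟨g, hg⟩ := exists_ne (1 : G)
      have h1 : (SemidirectProduct.inl g : SemidirectProduct G (MulAut G) φ) ∈ N := ⟨g, rfl⟩
      rw [hb, Subgroup.mem_bot] at h1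
      exact hg (hinj (h1.trans (map_one _).symm))
    have hmin : ∀ M : Subgroup (SemidirectProduct G (MulAut G) φ), M.Normal → M ≤ N → M = ⊥ ∨ M = N := by
      intro M hM hMN
      have hchar : (M.comap (SemidirectProduct.inl : G →* SemidirectProduct G (MulAut G) φ)).Characteristic := by
        rw [Subgroup.characteristic_iff_le_comap]
        intro α g hg
        rw [Subgroup.mem_comap, Subgroup.mem_comap]
        have h1 : (SemidirectProduct.inl (α g) : SemidirectProduct G (MulAut G) φ) =
            SemidirectProduct.inr α * SemidirectProduct.inl g * (SemidirectProduct.inr α)⁻¹ := by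
          rw [← map_inv]
          exact SemidirectProduct.inl_aut (φ := φ) α g
        show (SemidirectProduct.inl (α g) : SemidirectProduct G (MulAut G) φ) ∈ M
        rw [h1]
        exact hM.conj_mem _ hg _
      rcases h _ hchar with h1 | h1
      · left
        rw [eq_bot_iff]
        intro m hm
        obtain ⟨g, rfl⟩ := hMN hm
        have : g ∈ M.comap (SemidirectProduct.inl : G →* SemidirectProduct G (MulAut G) φ) := hm
        rw [h1, Subgroup.mem_bot] at this
        rw [this, map_one]
        exact Subgroup.one_mem _
      · right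
        apply le_antisymm hMN
        rintro _ ⟨g, rfl⟩
        have : g ∈ M.comap (SemidirectProduct.inl : G →* SemidirectProduct G (MulAut G) φ) := by
          rw [h1]; trivial
        exact this
    obtain ⟨T, hT, m, hTs, hm, ⟨e⟩⟩ := Cfsg.Agent.S0721.result N hNb hmin
    exact ⟨T, hT, hTs, m, hm, ⟨(MonoidHom.ofInjective hinj).trans e⟩⟩
  · rintro ⟨S, hS, hSs, n, hn, ⟨e⟩⟩ H hH
    have hchar : (H.map (e : G →* (Fin n → S))).Characteristic := by
      rw [Subgroup.characteristic_iff_map_eq]
      intro α
      have h1 := Subgroup.characteristic_iff_map_eq.1 hH ((e.trans α).trans e.symm)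
      rw [Subgroup.map_map]
      have h2 : (H.map ((e.trans α).trans e.symm : G ≃* G).toMonoidHom).map (e : G →* (Fin n → S)) =
          H.map (e : G →* (Fin n → S)) := by rw [h1]
      rw [Subgroup.map_map] at h2
      rw [← h2]
      congr 1
      ext g : 1
      show α (e g) = e (e.symm (α (e g)))
      rw [e.apply_symm_apply]
    rcases pow_charsimple n _ hchar with h | h
    · left
      exact (Subgroup.map_eq_bot_iff_of_injective _ e.injective).1 h
    · right
      rw [eq_top_iff]
      intro g _
      have h1 : e g ∈ H.map (e : G →* (Fin n → S)) := by rw [h]; trivial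
      obtain ⟨k, hk, hk2⟩ := h1
      rwa [← e.injective hk2]

end Cfsg.Agent.S5914
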