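import Cfsg.Statements.S5939
import Mathlib
import Cfsg.Agent.H5_DkN

set_option autoImplicit false
open Cfsg

namespace Cfsg.Agent.S5939

open Cfsg.Agent.H5 Cfsg.Agent.H5.SL2 Cfsg.Agent.H5.V4 Cfsg.Agent.H5.Dk
open scoped Pointwise

/-- even permutations of five points fixing the last one -/
theorem emb : ∃ φ : alternatingGroup (Fin 4) →* alternatingGroup (Fin 5), Function.Injective φ := by
  haveI : Fact (Nat.Prime 5) := ⟨by norm_num⟩
  have hc : Fintype.card (ZMod 5) = 5 := ZMod.card 5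
  obtain ⟨H, ⟨e⟩⟩ := (S0804.result (F := ZMod 5) (q := 5) hc).mpr (by norm_num)
  obtain ⟨H', ⟨e'⟩⟩ := (S0802.result (F := ZMod 5) 5 1 (by rw [hc]; norm_num)).mpr (by norm_num)
  have hPS := card_PS_mul (F := ZMod 5)
  rw [hc] at hPS
  have hPS' : Nat.card (PS (ZMod 5)) = 60 := by
    have : Nat.gcd 2 (5 - 1) = 2 := by norm_num
    rw [this] at hPS
    omega
  have hH : H = ⊤ := by
    apply Subgroup.eq_top_of_card_eq
    rw [Nat.card_congr e.toEquiv, card_A5]; exact hPS'.symm
  subst hH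
  exact ⟨e.toMonoidHom.comp (Subgroup.topEquiv.symm.toMonoidHom.comp (H'.subtype.comp e'.symm.toMonoidHom)),
    e.injective.comp (Subgroup.topEquiv.symm.injective.comp (H'.subtype_injective.comp e'.symm.injective))⟩

/-- Let p be a prime and F a finite field of characteristic p such that either F has p elements and p ≡ ±1 (mod 10), or F has p² elements and p ≡ ±3 (mod 10). Then PSL_2(F) has a maximal subgroup isomorphic to the alternating group A_5. -/
theorem result {F : Type*} [Field F] [Fintype F] (p : ℕ) [Fact p.Prime] [CharP F p] (h : (Fintype.card F = p ∧ (p % 10 = 1 ∨ p % 10 = 9)) ∨ (Fintype.card F = p ^ 2 ∧ (p % 10 = 3 ∨ p % 10 = 7))) : ∃ H : Subgroup (Matrix.ProjectiveSpecialLinearGroup (Fin 2) F), IsCoatom H ∧ Nonempty (H ≃* alternatingGroup (Fin 5)) := by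
  have hpp : p.Prime := Fact.out
  have hp2 := hpp.two_le
  have hodd : Fintype.card F % 2 = 1 := by
    rcases h with ⟨h1, h2⟩ | ⟨h1, h2⟩
    · rw [h1]; omega
    · rw [h1, sq, Nat.mul_mod, show p % 2 = 1 by omega]
  have hq9 : 9 ≤ Fintype.card F := by
    rcases h with ⟨h1, h2⟩ | ⟨h1, h2⟩
    · rw [h1]
      by_contra hcon
      interval_cases p <;> omega
    · rw [h1, sq]
      exact Nat.mul_le_mul (by omega : 3 ≤ p) (by omega : 3 ≤ p)
  have hPS := card_PS_mul (F := F)
  have hdc := DihPS.gcd_cases (F := F)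
  obtain ⟨H, ⟨e⟩⟩ := (S0804.result (F := F) rfl).mpr (by
    apply Dvd.dvd.mul_left
    rw [← Nat.modEq_iff_dvd' (Nat.one_le_pow _ _ (by omega))]
    rcases h with ⟨h1, h2⟩ | ⟨h1, h2⟩
    · rw [h1]
      have h5 : p % 5 = 1 ∨ p % 5 = 4 := by omega
      change 1 % 5 = p ^ 2 % 5
      rw [sq, Nat.mul_mod]
      rcases h5 with h | h <;> rw [h]
    · rw [h1]
      have h5 : p % 5 = 3 ∨ p % 5 = 2 := by omega
      change 1 % 5 = (p ^ 2) ^ 2 % 5
      rw [← pow_mul, Nat.pow_mod]
      rcases h5 with h | h <;> rw [h])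
  have hcH : Nat.card H = 60 := by rw [Nat.card_congr e.toEquiv, card_A5]
  have hRich : Rich H := by
    obtain ⟨φ, hφ⟩ := emb
    exact rich_A4 hodd (e.symm.toMonoidHom.comp φ) (e.symm.injective.comp hφ)
  refine ⟨H, ⟨?_, ?_⟩, ⟨e⟩⟩
  · intro h
    rw [h, Subgroup.card_top] at hcH
    change Nat.card (PS F) = 60 at hcH
    rw [hcH] at hPS
    have h1 : 9 * 8 * 10 ≤ Fintype.card F * (Fintype.card F - 1) * (Fintype.card F + 1) := Nat.mul_le_mul (Nat.mul_le_mul hq9 (by omega)) (by omega)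
    rcases hdc with h | h <;> rw [h.1] at hPS <;> omega
  · intro M hHM
    by_contra hM
    obtain ⟨h1, h2⟩ := sub_lt hHM
    rw [hcH] at h1 h2
    have hL : ∀ (L : Type) [Field L] [Fintype L] (m : ℕ), 2 ≤ m → Fintype.card L ^ m = Fintype.card F →
        ¬ 5 ∣ Fintype.card L * (Fintype.card L * Fintype.card L - 1) := by
      intro L _ _ m hm hmq
      rcases h with ⟨h3, h4⟩ | ⟨h3, h4⟩
      · exact (no_sub_prime (by rw [h3]; exact hpp) hm hmq).elim
      · have hl1 : 1 < Fintype.card L := Fintype.one_lt_card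
        have hlp : Fintype.card L = p := by
          rw [h3] at hmq
          have h5 : Fintype.card L ∣ p ^ 2 := by rw [← hmq]; exact dvd_pow_self _ (by omega)
          obtain ⟨i, hi, h6⟩ := (Nat.dvd_prime_pow hpp).mp h5
          interval_cases i
          · rw [pow_zero] at h6; omega
          · rw [h6, pow_one]
          · exfalso
            rw [h6, ← pow_mul] at hmq
            have := Nat.pow_right_injective hp2 hmq
            omega
        rw [hlp]
        intro h5
        rcases (Nat.Prime.dvd_mul (by norm_num)).mp h5 with h6 | h6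
        · omega
        · have h7 : (p * p) % 5 = 1 := by
            have : 1 ≤ p * p := Nat.mul_le_mul (by omega : 1 ≤ p) (by omega : 1 ≤ p)
            omega
          have h8 : p % 5 = 3 ∨ p % 5 = 2 := by omega
          rw [Nat.mul_mod] at h7
          rcases h8 with h | h <;> rw [h] at h7 <;> omega
    rcases (hRich.mono hHM.le).list hM with ⟨⟨e'⟩⟩ | ⟨⟨e'⟩⟩ | ⟨⟨e'⟩⟩ | ⟨L, _, _, m, hm, hmq, ⟨e'⟩⟩ | ⟨L, _, _, m, hm, -, hmq, ⟨e'⟩⟩
    · rw [Nat.card_congr e'.toEquiv, card_A4] at h1; omega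
    · rw [Nat.card_congr e'.toEquiv, card_S4] at h1; omega
    · rw [Nat.card_congr e'.toEquiv, card_A5] at h2; omega
    · apply hL L m hm hmq
      rw [← sq_sub_eq, ← card_PS_mul (F := L), ← Nat.card_congr e'.toEquiv]
      exact Dvd.dvd.mul_left ((by norm_num : 5 ∣ 60).trans h1) _
    · apply hL L m hm hmq
      rw [← sq_sub_eq, ← card_PGL2, ← Nat.card_congr e'.toEquiv]
      exact (by norm_num : 5 ∣ 60).trans h1

end Cfsg.Agent.S5939
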