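import Cfsg.Statements.S5940
import Mathlib
import Cfsg.Agent.H5_DkN

set_option autoImplicit false
open Cfsg

namespace Cfsg.Agent.S5940

open Cfsg.Agent.H5 Cfsg.Agent.H5.SL2 Cfsg.Agent.H5.V4 Cfsg.Agent.H5.Dk
open scoped Pointwise

/-- Let p ≥ 5 be a prime with p ≡ ±3 (mod 8) and p ≢ ±1 (mod 10), and F a field with p elements. Then PSL_2(F) has a maximal subgroup isomorphic to the alternating group A_4. -/
theorem result {F : Type*} [Field F] [Fintype F] (p : ℕ) [Fact p.Prime] (hF : Fintype.card F = p) (h5 : 5 ≤ p) (h8 : p % 8 = 3 ∨ p % 8 = 5) (h10 : p % 10 ≠ 1 ∧ p % 10 ≠ 9) : ∃ H : Subgroup (Matrix.ProjectiveSpecialLinearGroup (Fin 2) F), IsCoatom H ∧ Nonempty (H ≃* alternatingGroup (Fin 4)) := by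
  have hpp : p.Prime := Fact.out
  have hodd : Fintype.card F % 2 = 1 := by rw [hF]; omega
  haveI : CharP F p := charP_of_card_eq_prime_pow (R := F) (p := p) (f := 1) (by rw [pow_one, ← hF])
  have hPS := card_PS_mul (F := F)
  have hdc := DihPS.gcd_cases (F := F)
  obtain ⟨H, ⟨e⟩⟩ := (S0802.result (F := F) p 1 (by rw [hF, pow_one])).mpr (by omega)
  have hcH : Nat.card H = 12 := by rw [Nat.card_congr e.toEquiv, card_A4]
  have hRich : Rich H := rich_A4 hodd e.symm.toMonoidHom e.symm.injective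
  refine ⟨H, ⟨?_, ?_⟩, ⟨e⟩⟩
  · intro h
    rw [h, Subgroup.card_top] at hcH
    change Nat.card (PS F) = 12 at hcH
    rw [hcH, hF] at hPS
    have h1 : 5 * 4 * 6 ≤ p * (p - 1) * (p + 1) := Nat.mul_le_mul (Nat.mul_le_mul h5 (by omega)) (by omega)
    rcases hdc with h | h
    · omega
    · rw [hF] at h; omega
  · intro M hHM
    by_contra hM
    obtain ⟨h1, h2⟩ := sub_lt hHM
    rw [hcH] at h1 h2
    rcases (hRich.mono hHM.le).list hM with ⟨⟨e'⟩⟩ | ⟨⟨e'⟩⟩ | ⟨⟨e'⟩⟩ | ⟨L, _, _, m, hm, hmq, ⟨e'⟩⟩ | ⟨L, _, _, m, hm, -, hmq, ⟨e'⟩⟩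
    · rw [Nat.card_congr e'.toEquiv, card_A4] at h2; omega
    · have h3 := (S0803.result (F := F) rfl).mp ⟨M, ⟨e'⟩⟩
      rw [hF, sq, Nat.mul_mod] at h3
      have h16 : p % 16 = 3 ∨ p % 16 = 5 ∨ p % 16 = 11 ∨ p % 16 = 13 := by omega
      rcases h16 with h | h | h | h <;> rw [h] at h3 <;> omega
    · have h3 := (S0804.result (F := F) rfl).mp ⟨M, ⟨e'⟩⟩
      rw [hF] at h3
      rcases (Nat.Prime.dvd_mul (by norm_num)).mp h3 with h6 | h6
      · have hp5 : p = 5 := ((Nat.prime_dvd_prime_iff_eq (by norm_num) hpp).mp h6).symm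
        rw [hF, hp5] at hPS
        apply hM
        apply Subgroup.eq_top_of_card_eq
        rw [Nat.card_congr e'.toEquiv, card_A5]
        have h4 : Nat.gcd 2 (5 - 1) = 2 := by norm_num
        rw [h4] at hPS
        have h5 : Nat.card (PS F) = 60 := by omega
        exact h5.symm
      · have h7 : (p * p) % 5 = 1 := by
          rw [sq] at h6
          have : 1 ≤ p * p := Nat.mul_le_mul (by omega : 1 ≤ p) (by omega : 1 ≤ p)
          omega
        have h8 : p % 5 = 0 ∨ p % 5 = 3 ∨ p % 5 = 2 := by omega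
        rw [Nat.mul_mod] at h7
        rcases h8 with h | h | h <;> rw [h] at h7 <;> omega
    · exact no_sub_prime (by rw [hF]; exact hpp) hm hmq
    · exact no_sub_prime (by rw [hF]; exact hpp) hm hmq

end Cfsg.Agent.S5940
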